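import Cfsg.Statements.S3908
import Cfsg.Agent.TwoGroup.UniqueInvolution
import Cfsg.Agent.PGroup.UniqueOrderP
import Cfsg.Agent.Eq.Def_Transfer

set_option autoImplicit false
open Cfsg

namespace Cfsg.Agent.S3908

theorem core {G : Type*} [Group G] [Finite G]
    (hB : ∀ A B : Subgroup G, IsMulCommutative ↥A → IsMulCommutative ↥B →
      Nat.card ↥A = Nat.card ↥B → ∃ g : G, B = A.map (MulAut.conj g).toMonoidHom)
    (p : ℕ) [Fact p.Prime] (P : Sylow p G) :
    (∀ x ∈ (P : Subgroup G), x ^ p = 1) ∨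
      (∀ x y : (P : Subgroup G), orderOf x = p → orderOf y = p → y ∈ Subgroup.zpowers x) := by
  have hp : p.Prime := Fact.out
  by_contra hnot
  obtain ⟨⟨x, hxP, hx⟩, ⟨u, v, hu, hv, huv⟩⟩ :
      (∃ x ∈ (P : Subgroup G), x ^ p ≠ 1) ∧
      ∃ u v : (P : Subgroup G), orderOf u = p ∧ orderOf v = p ∧ v ∉ Subgroup.zpowers u := by
    simpa [not_or, not_forall] using hnot
  -- an element of order `p^2`
  obtain ⟨a, -, ha⟩ : ∃ a ∈ (P : Subgroup G), orderOf a = p ^ 2 := by
    obtain ⟨k, hk⟩ := P.2 ⟨x, hxP⟩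
    have hk' : x ^ p ^ k = 1 := congrArg Subtype.val hk
    obtain ⟨j, -, hj⟩ := (Nat.dvd_prime_pow hp).1 (orderOf_dvd_of_pow_eq_one hk')
    have hj2 : 2 ≤ j := by
      by_contra h
      refine hx (orderOf_dvd_iff_pow_eq_one.1 ?_)
      rw [hj]
      exact (pow_dvd_pow p (show j ≤ 1 by omega)).trans (by rw [pow_one])
    refine ⟨x ^ p ^ (j - 2), pow_mem hxP _, ?_⟩
    rw [orderOf_pow' _ (pow_ne_zero _ hp.ne_zero), hj,
      Nat.gcd_eq_right (pow_dvd_pow p (by omega)), Nat.pow_div (by omega) hp.pos]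
    congr 1; omega
  -- an elementary abelian subgroup of order `p^2`
  haveI : Nontrivial (P : Subgroup G) := ⟨u, 1, fun h => by
    rw [h, orderOf_one] at hu; exact hp.one_lt.ne hu⟩
  haveI := P.2.center_nontrivial
  obtain ⟨k, hk⟩ := IsPGroup.iff_card.1 (P.2.to_subgroup (Subgroup.center (P : Subgroup G)))
  have hk0 : k ≠ 0 := by
    rintro rfl
    rw [pow_zero, Subgroup.card_eq_one] at hk
    exact (Subgroup.nontrivial_iff_ne_bot _).1 this hk
  obtain ⟨z, hz⟩ := exists_prime_orderOf_dvd_card' p (hk ▸ dvd_pow_self p hk0)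
  obtain ⟨w, hw, hwz⟩ : ∃ w : (P : Subgroup G), orderOf w = p ∧ w ∉ Subgroup.zpowers (z : (P : Subgroup G)) := by
    by_contra h
    push Not at h
    have hle : Subgroup.zpowers u = Subgroup.zpowers (z : (P : Subgroup G)) :=
      Subgroup.eq_of_le_of_card_ge (Subgroup.zpowers_le.2 (h u hu))
        (by rw [Nat.card_zpowers, Nat.card_zpowers, Subgroup.orderOf_coe, hz, hu])
    exact huv (hle ▸ h v hv)
  set z₁ : G := ((z : (P : Subgroup G)) : G) with hz₁
  have hz₁o : orderOf z₁ = p := by rw [hz₁, Subgroup.orderOf_coe, Subgroup.orderOf_coe, hz]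
  have hw₁o : orderOf (w : G) = p := by rw [Subgroup.orderOf_coe, hw]
  have hcomm : Commute z₁ (w : G) :=
    congrArg Subtype.val (Subgroup.mem_center_iff.1 z.2 w).symm
  set E := Subgroup.closure {z₁, (w : G)} with hE
  have hEc : IsMulCommutative E := Subgroup.isMulCommutative_closure (by
    rintro c (rfl | rfl) d (rfl | rfl) <;> first | rfl | exact hcomm | exact hcomm.symm)
  have hEe : ∀ e ∈ E, e ^ p = 1 := by
    intro e he
    induction he using Subgroup.closure_induction with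
    | mem c hc =>
      rcases hc with rfl | rfl
      · exact orderOf_dvd_iff_pow_eq_one.1 hz₁o.dvd
      · exact orderOf_dvd_iff_pow_eq_one.1 hw₁o.dvd
    | one => exact one_pow p
    | mul c d hc hd hc' hd' =>
      rw [Commute.mul_pow (congrArg Subtype.val (hEc.1.comm ⟨c, hc⟩ ⟨d, hd⟩)), hc', hd', one_mul]
    | inv c _ hc' => rw [inv_pow, hc', inv_one]
  have hEP : IsPGroup p E := fun e => ⟨1, Subtype.ext (by
    rw [pow_one]; exact hEe e e.2)⟩
  obtain ⟨j, hj⟩ := IsPGroup.iff_card.1 hEP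
  have hj2 : 2 ≤ j := by
    by_contra h
    have h1 : Nat.card E ≤ p := by
      rw [hj]; exact (Nat.pow_le_pow_right hp.pos (show j ≤ 1 by omega)).trans (pow_one p).le
    have hzE : Subgroup.zpowers z₁ = E :=
      Subgroup.eq_of_le_of_card_ge (Subgroup.zpowers_le.2 (Subgroup.subset_closure (by simp)))
        (by rw [Nat.card_zpowers, hz₁o]; exact h1)
    have hwE : (w : G) ∈ Subgroup.zpowers z₁ := hzE ▸ Subgroup.subset_closure (by simp)
    obtain ⟨i, hi⟩ := Subgroup.mem_zpowers_iff.1 hwE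
    exact hwz ⟨i, Subtype.ext (by simpa [hz₁] using hi)⟩
  obtain ⟨F, hF⟩ := Sylow.exists_subgroup_card_pow_prime p (G := E) (n := 2)
    (hj ▸ pow_dvd_pow p hj2)
  obtain ⟨g, hg⟩ := hB (Subgroup.zpowers a) (F.map E.subtype) inferInstance
    (IsMulCommutative.of_comm fun c d => by
      obtain ⟨c', -, hc'⟩ := c.2
      obtain ⟨d', -, hd'⟩ := d.2
      refine Subtype.ext ?_
      change (c : G) * d = d * c
      rw [← hc', ← hd']
      exact congrArg Subtype.val (hEc.1.comm c' d'))
    (by rw [Nat.card_zpowers, ha, Subgroup.card_map_of_injective E.subtype_injective, hF])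
  have hmem : g * a * g⁻¹ ∈ F.map E.subtype := hg ▸ ⟨a, Subgroup.mem_zpowers a, rfl⟩
  have h1 : (g * a * g⁻¹) ^ p = 1 := hEe _ (Subgroup.map_subtype_le F hmem)
  rw [conj_pow, conj_eq_one_iff] at h1
  have h2 := Nat.le_of_dvd hp.pos (ha ▸ orderOf_dvd_of_pow_eq_one h1)
  nlinarith [hp.two_le]


/-- Let G be a finite group in which any two abelian subgroups of the same order are conjugate. Then a Sylow 2-subgroup of G is cyclic, elementary abelian or generalized quaternion, and for an odd prime p a Sylow p-subgroup of G is cyclic or has exponent dividing p. -/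
theorem result {G : Type*} [Group G] [Finite G] (hB : ∀ A B : Subgroup G, IsMulCommutative ↥A → IsMulCommutative ↥B → Nat.card ↥A = Nat.card ↥B → ∃ g : G, B = A.map (MulAut.conj g).toMonoidHom) :
    (∀ P : Sylow 2 G, IsCyclic ↥(P : Subgroup G) ∨ Cfsg.IsElementaryAbelian 2 (P : Subgroup G) ∨ ∃ k : ℕ, Nonempty (↥(P : Subgroup G) ≃* QuaternionGroup (2 ^ k))) ∧
    ∀ (p : ℕ) [Fact p.Prime], p ≠ 2 → ∀ P : Sylow p G, IsCyclic ↥(P : Subgroup G) ∨ ∀ x ∈ (P : Subgroup G), x ^ p = 1 := by
  refine ⟨fun P => ?_, fun p _ hp P => ?_⟩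
  · rcases core hB 2 P with h | h
    · exact Or.inr (Or.inl ⟨IsMulCommutative.of_comm fun a b => Subtype.ext (by
        have hinv : ∀ c ∈ (P : Subgroup G), c⁻¹ = c := fun c hc =>
          inv_eq_of_mul_eq_one_left (by rw [← pow_two]; exact h c hc)
        calc (a : G) * b = ((a : G) * b)⁻¹ := (hinv _ (mul_mem a.2 b.2)).symm
          _ = b * a := by rw [mul_inv_rev, hinv _ a.2, hinv _ b.2]), h⟩)
    · have hamo : CfsgLib.TwoGroup.AtMostOneInvolution (P : Subgroup G) := by
        intro x y hx hy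
        obtain ⟨k, hk⟩ := Subgroup.mem_zpowers_iff.1 (h x y hx hy)
        rcases Int.emod_two_eq_zero_or_one k with h2 | h2
        · exfalso
          rw [← zpow_mod_orderOf, hx, show ((2 : ℕ) : ℤ) = 2 from rfl, h2, zpow_zero] at hk
          rw [← hk, orderOf_one] at hy
          exact absurd hy (by norm_num)
        · rw [← zpow_mod_orderOf, hx, show ((2 : ℕ) : ℤ) = 2 from rfl, h2, zpow_one] at hk
          exact hk
      rcases CfsgLib.TwoGroup.cyclic_or_quaternion P.2 hamo with hc | ⟨k, -, hq⟩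
      · exact Or.inl hc
      · exact Or.inr (Or.inr ⟨k, hq⟩)
  · rcases core hB p P with h | h
    · exact Or.inr h
    · exact Or.inl (CfsgLib.PGroup.isCyclic_of_unique_subgroup hp P.2 h)

end Cfsg.Agent.S3908
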