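import Cfsg.Statements.S3909
import Mathlib

set_option autoImplicit false
open Cfsg

namespace Cfsg.Agent.S3909

lemma mul_comm' {H : Type*} [Mul H] [IsMulCommutative H] (a b : H) : a * b = b * a :=
  IsMulCommutative.is_comm.comm a b


/-- Let G be a finite group in which any two abelian subgroups of the same order are conjugate. Let M be a normal subgroup of G. If M contains an element of the same order as a ∈ G, then a ∈ M; and if M is elementary abelian of order p^t with p prime and t ≥ 2, then M is the unique Sylow p-subgroup of G. -/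
theorem result {G : Type*} [Group G] [Finite G] (hB : ∀ A B : Subgroup G, IsMulCommutative ↥A → IsMulCommutative ↥B → Nat.card ↥A = Nat.card ↥B → ∃ g : G, B = A.map (MulAut.conj g).toMonoidHom) (M : Subgroup G) [M.Normal] :
    (∀ a : G, (∃ m ∈ M, orderOf m = orderOf a) → a ∈ M) ∧
    ∀ (p t : ℕ) [Fact p.Prime], 2 ≤ t → Nat.card ↥M = p ^ t → Cfsg.IsElementaryAbelian p M → ∀ P : Sylow p G, (P : Subgroup G) = M := by
  have key : ∀ a : G, (∃ m ∈ M, orderOf m = orderOf a) → a ∈ M := by
    rintro a ⟨m, hm, hord⟩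
    obtain ⟨g, hg⟩ := hB (Subgroup.zpowers m) (Subgroup.zpowers a) inferInstance inferInstance
      (by simpa [Nat.card_zpowers] using hord)
    have : a ∈ (Subgroup.zpowers m).map (MulAut.conj g).toMonoidHom := hg ▸ Subgroup.mem_zpowers a
    obtain ⟨y, hy, hya⟩ := Subgroup.mem_map.1 this
    rw [← hya]
    exact Subgroup.Normal.conj_mem ‹M.Normal› y (Subgroup.zpowers_le.2 hm hy) g
  refine ⟨key, ?_⟩
  intro p t _ ht hcard hel P
  have hMp : IsPGroup p M := IsPGroup.of_card hcard
  obtain ⟨A, hAcard, hAM⟩ : ∃ A : Subgroup G, Nat.card A = p ^ 2 ∧ A ≤ M := by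
    obtain ⟨K, hK⟩ := Sylow.exists_subgroup_card_pow_prime p (G := M) (n := 2)
      (by rw [hcard]; exact pow_dvd_pow p ht)
    exact ⟨K.map M.subtype, by rw [Subgroup.card_map_of_injective M.subtype_injective, hK],
      Subgroup.map_subtype_le K⟩
  have hexp : ∀ x ∈ (P : Subgroup G), x ^ p = 1 := by
    intro x hx
    obtain ⟨k, hk⟩ := (IsPGroup.iff_orderOf.1 P.isPGroup') ⟨x, hx⟩
    rw [Subgroup.orderOf_mk] at hk
    by_contra hne
    have hk2 : 2 ≤ k := by
      by_contra hk1
      apply hne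
      rw [← orderOf_dvd_iff_pow_eq_one, hk]
      exact (pow_dvd_pow p (show k ≤ 1 by omega)).trans (by rw [pow_one])
    have hy : orderOf (x ^ p ^ (k - 2)) = p ^ 2 := by
      rw [orderOf_pow' x (pow_ne_zero _ (Fact.out : p.Prime).ne_zero), hk,
        Nat.gcd_eq_right (pow_dvd_pow p (Nat.sub_le k 2)), Nat.pow_div (Nat.sub_le k 2)
        (Fact.out : p.Prime).pos]
      congr 1
      omega
    haveI : IsMulCommutative A := by
      haveI : IsMulCommutative M := hel.1
      exact ⟨⟨fun a b => Subtype.ext (congrArg (fun z : M => (z : G))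
        (mul_comm' (⟨a, hAM a.2⟩ : M) ⟨b, hAM b.2⟩))⟩⟩
    obtain ⟨g, hg⟩ := hB A (Subgroup.zpowers (x ^ p ^ (k - 2))) inferInstance inferInstance
      (by rw [hAcard, Nat.card_zpowers, hy])
    have : x ^ p ^ (k - 2) ∈ A.map (MulAut.conj g).toMonoidHom := hg ▸ Subgroup.mem_zpowers _
    obtain ⟨z, hz, hzx⟩ := Subgroup.mem_map.1 this
    have h1 : orderOf (x ^ p ^ (k - 2)) ∣ p := by
      rw [orderOf_dvd_iff_pow_eq_one, ← hzx, ← map_pow, hel.2 z (hAM hz), map_one]
    rw [hy] at h1
    have := Nat.le_of_dvd (Fact.out : p.Prime).pos h1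
    nlinarith [(Fact.out : p.Prime).two_le]
  have hle : (P : Subgroup G) ≤ M := by
    intro x hx
    apply key
    by_cases hx1 : x = 1
    · exact ⟨1, M.one_mem, by rw [hx1]⟩
    have hox : orderOf x = p := orderOf_eq_prime (hexp x hx) hx1
    obtain ⟨m, hm⟩ := exists_prime_orderOf_dvd_card' (G := M) p
      (by rw [hcard]; exact dvd_pow_self p (by omega))
    exact ⟨m, m.2, by rw [Subgroup.orderOf_coe, hm, hox]⟩
  exact (P.is_maximal' hMp hle).symm

end Cfsg.Agent.S3909
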