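import Cfsg.Statements.S3912
import Mathlib
import Cfsg.Agent.Solvable.Carter
import Cfsg.Agent.Coprime.Basic
import Cfsg.Agent.PGroup.Frattini
import Cfsg.Agent.S3908
import Cfsg.Agent.S3909

set_option autoImplicit false
open Cfsg

namespace Cfsg.Agent.S3912

open scoped Pointwise commutatorElement
open CfsgLib.Solvable

universe u

/-- Abelian subgroups of the same order are conjugate. -/
def AbConj (G : Type*) [Group G] : Prop :=
  ∀ A B : Subgroup G, IsMulCommutative A → IsMulCommutative B → Nat.card A = Nat.card B →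
    ∃ g : G, B = A.map (MulAut.conj g).toMonoidHom

theorem abConj_of_equiv {G H : Type*} [Group G] [Group H] (e : G ≃* H) (h : AbConj G) : AbConj H := by
  intro A B hA hB hAB
  haveI := hA
  haveI := hB
  have hc : ∀ K : Subgroup H, Nat.card (K.map e.symm.toMonoidHom) = Nat.card K := fun K =>
    Subgroup.card_map_of_injective e.symm.injective
  have hcomm : ∀ K : Subgroup H, IsMulCommutative K → IsMulCommutative (K.map e.symm.toMonoidHom) := by
    intro K hK
    refine ⟨⟨fun a b => Subtype.ext ?_⟩⟩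
    obtain ⟨_, x, hx, rfl⟩ := a
    obtain ⟨_, y, hy, rfl⟩ := b
    show e.symm x * e.symm y = e.symm y * e.symm x
    rw [← map_mul, ← map_mul]
    exact congrArg e.symm (congrArg Subtype.val (hK.is_comm.comm ⟨x, hx⟩ ⟨y, hy⟩))
  obtain ⟨g, hg⟩ := h _ _ (hcomm A hA) (hcomm B hB) (by rw [hc, hc, hAB])
  refine ⟨e g, ?_⟩
  have h1 := congrArg (Subgroup.map e.toMonoidHom) hg
  rw [Subgroup.map_map, Subgroup.map_map, Subgroup.map_map] at h1
  have e1 : e.toMonoidHom.comp e.symm.toMonoidHom = MonoidHom.id H := MonoidHom.ext e.apply_symm_apply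
  rw [e1, Subgroup.map_id] at h1
  rw [h1]
  congr 1
  ext x
  simp

variable {G : Type*} [Group G] [Finite G]

theorem card_sup_of_commute {L B : Subgroup G} (hc : L ≤ Subgroup.centralizer (B : Set G))
    (hcop : (Nat.card L).Coprime (Nat.card B)) :
    Nat.card (L ⊔ B : Subgroup G) = Nat.card L * Nat.card B := by
  refine le_antisymm ?_ (Nat.le_of_dvd Nat.card_pos (hcop.mul_dvd_of_dvd_of_dvd
    (Subgroup.card_dvd_of_le le_sup_left) (Subgroup.card_dvd_of_le le_sup_right)))
  calc Nat.card (L ⊔ B : Subgroup G) = ((L ⊔ B : Subgroup G) : Set G).ncard := Nat.card_coe_set_eq _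
    _ = ((L : Set G) * (B : Set G)).ncard := by
        rw [Subgroup.coe_mul_of_left_le_normalizer_right L B
          (hc.trans (Subgroup.centralizer_le_normalizer (B : Set G)))]
    _ ≤ _ := by rw [← Nat.card_coe_set_eq]; exact Set.natCard_mul_le

theorem isMulCommutative_sup {L B : Subgroup G} (hL : IsMulCommutative L) (hB : IsMulCommutative B)
    (hc : L ≤ Subgroup.centralizer (B : Set G)) : IsMulCommutative (L ⊔ B : Subgroup G) := by
  have h1 : ∀ X : Subgroup G, IsMulCommutative X → X ≤ Subgroup.centralizer (X : Set G) :=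
    fun X hX x hx => Subgroup.mem_centralizer_iff.2 fun y hy =>
      congrArg Subtype.val (hX.is_comm.comm ⟨y, hy⟩ ⟨x, hx⟩)
  have hle : L ⊔ B ≤ Subgroup.centralizer ((L ⊔ B : Subgroup G) : Set G) :=
    sup_le (Subgroup.le_centralizer_iff.1 (sup_le (h1 L hL) (Subgroup.le_centralizer_iff.1 hc)))
      (Subgroup.le_centralizer_iff.1 (sup_le hc (h1 B hB)))
  exact ⟨⟨fun a b => Subtype.ext (Subgroup.mem_centralizer_iff.1 (hle b.2) a a.2)⟩⟩

/-- The lift of an abelian subgroup of `G / N`. -/
theorem exists_lift {p t : ℕ} (hp : p.Prime) (N : Subgroup G) [N.Normal] (hN : Nat.card N = p ^ t)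
    (A : Subgroup (G ⧸ N)) (hA : IsMulCommutative A) :
    ∃ (L A' : Subgroup G), N ≤ L ∧ IsMulCommutative A' ∧
      Nat.card L = p ^ ((Nat.card A).factorization p + t) ∧
      Nat.card A' = Nat.card A / p ^ (Nat.card A).factorization p ∧
      (L ⊔ A').map (QuotientGroup.mk' N) = A ∧
      A' ≤ Subgroup.normalizer (L : Set G) ∧ ⁅L, A'⁆ ≤ N ∧ (Nat.card A').Coprime p := by
  haveI := Fact.mk hp
  set f := QuotientGroup.mk' N with hf
  have hfs := QuotientGroup.mk'_surjective N
  haveI := hA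
  obtain ⟨S⟩ : Nonempty (Sylow p A) := inferInstance
  set Ap := (S : Subgroup A).map A.subtype with hAp
  have hApc : Nat.card Ap = p ^ (Nat.card A).factorization p := by
    rw [hAp, Subgroup.card_subtype]
    exact S.card_eq_multiplicity
  have hAn : Group.IsNilpotent A := open scoped IsMulCommutative in inferInstance
  obtain ⟨Aq, hAqA, hAqp, ⟨j, hj⟩, hAqm⟩ := exists_primeTo_part hp hAn
  have hApA : Ap ≤ A := Subgroup.map_subtype_le _
  have hnd : ¬ p ∣ Nat.card (Aq.subgroupOf A) := by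
    rwa [Nat.card_congr (Subgroup.subgroupOfEquivOfLe hAqA).toEquiv]
  have hAqc : Nat.card Aq = Nat.card A / p ^ (Nat.card A).factorization p := by
    have h1 := (Aq.subgroupOf A).card_mul_index
    rw [index_eq_factorization hp hnd hj,
      Nat.card_congr (Subgroup.subgroupOfEquivOfLe hAqA).toEquiv] at h1
    exact (Nat.div_eq_of_eq_mul_left (pow_pos hp.pos _) h1.symm).symm
  have hsupA : Ap ⊔ Aq = A := by
    refine Subgroup.eq_of_le_of_card_ge (sup_le hApA hAqA) ?_
    refine Nat.le_of_dvd Nat.card_pos ?_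
    have h1 : Nat.card A = Nat.card Ap * Nat.card Aq := by
      rw [hApc, hAqc, Nat.mul_div_cancel' (Nat.ordProj_dvd _ _)]
    rw [h1]
    exact (hApc ▸ ((hp.coprime_iff_not_dvd.2 hAqp).pow_left _)).mul_dvd_of_dvd_of_dvd
      (Subgroup.card_dvd_of_le le_sup_left) (Subgroup.card_dvd_of_le le_sup_right)
  set L := Ap.comap f with hL
  have hNL : N ≤ L := QuotientGroup.le_comap_mk' N Ap
  have hLmap : L.map f = Ap := Subgroup.map_comap_eq_self_of_surjective hfs Ap
  have hLc : Nat.card L = p ^ ((Nat.card A).factorization p + t) := by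
    rw [← card_map_mk'_mul N hNL, hLmap, hApc, hN, pow_add]
  set A1 := Aq.comap f with hA1
  have hNA1 : N ≤ A1 := QuotientGroup.le_comap_mk' N Aq
  have hA1map : A1.map f = Aq := Subgroup.map_comap_eq_self_of_surjective hfs Aq
  have hcop : (Nat.card (N.subgroupOf A1)).Coprime (N.subgroupOf A1).index := by
    have h1 : (N.subgroupOf A1).index = Nat.card Aq := by
      have h2 := (N.subgroupOf A1).card_mul_index
      rw [Nat.card_congr (Subgroup.subgroupOfEquivOfLe hNA1).toEquiv, ← card_map_mk'_mul N hNA1,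
        hA1map, mul_comm (Nat.card Aq)] at h2
      exact Nat.eq_of_mul_eq_mul_left Nat.card_pos h2
    rw [h1, Nat.card_congr (Subgroup.subgroupOfEquivOfLe hNA1).toEquiv, hN]
    exact (hp.coprime_iff_not_dvd.2 hAqp).pow_left t
  obtain ⟨C, hC⟩ := Subgroup.exists_right_complement'_of_coprime hcop
  set A' := C.map A1.subtype with hA'
  have hA'c : Nat.card A' = Nat.card Aq := by
    rw [hA', Subgroup.card_subtype, ← hC.symm.index_eq_card]
    have h2 := (N.subgroupOf A1).card_mul_index
    rw [Nat.card_congr (Subgroup.subgroupOfEquivOfLe hNA1).toEquiv, ← card_map_mk'_mul N hNA1,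
      hA1map, mul_comm (Nat.card Aq)] at h2
    exact Nat.eq_of_mul_eq_mul_left Nat.card_pos h2
  have hA'N : ∀ x ∈ A', x ∈ N → x = 1 := by
    rintro _ ⟨x, hx, rfl⟩ hxN
    exact congrArg Subtype.val (Subgroup.disjoint_def.1 hC.disjoint hxN hx)
  have hA'A1 : A' ≤ A1 := Subgroup.map_subtype_le _
  have hA'map : A'.map f = Aq := by
    refine Subgroup.eq_of_le_of_card_ge ((Subgroup.map_mono hA'A1).trans hA1map.le) (le_of_eq ?_)
    rw [← hA'c]
    refine Nat.card_congr (Equiv.ofBijective (fun x : A' => (⟨f x, Subgroup.mem_map_of_mem f x.2⟩ : A'.map f)) ⟨?_, ?_⟩)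
    · intro x y hxy
      have h2 : f ((x : G)⁻¹ * y) = 1 := by
        rw [map_mul, map_inv, inv_mul_eq_one]; exact congrArg Subtype.val hxy
      exact Subtype.ext (inv_mul_eq_one.1
        (hA'N _ (mul_mem (inv_mem x.2) y.2) ((QuotientGroup.eq_one_iff _).1 h2)))
    · rintro ⟨_, x, hx, rfl⟩; exact ⟨⟨x, hx⟩, rfl⟩
  have hfA : ∀ x ∈ A', ∀ y : G, f y ∈ A → f x * f y = f y * f x := by
    intro x hx y hy
    have hx' : f x ∈ A := hAqA (hA'map ▸ Subgroup.mem_map_of_mem f hx)
    exact congrArg Subtype.val (hA.is_comm.comm (⟨f x, hx'⟩ : A) ⟨f y, hy⟩)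
  refine ⟨L, A', hNL, ⟨⟨fun a b => Subtype.ext ?_⟩⟩, hLc, hA'c.trans hAqc,
    by rw [Subgroup.map_sup, hLmap, hA'map, hsupA], ?_, ?_, hA'c ▸ (hp.coprime_iff_not_dvd.2 hAqp).symm⟩
  · have h1 := hfA a a.2 b (hAqA (hA'map ▸ Subgroup.mem_map_of_mem f b.2))
    rw [← commutatorElement_eq_one_iff_mul_comm, ← map_commutatorElement] at h1
    show (a : G) * b = b * a
    rw [← commutatorElement_eq_one_iff_mul_comm]
    refine hA'N _ ?_ ((QuotientGroup.eq_one_iff _).1 h1)
    rw [commutatorElement_def]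
    exact mul_mem (mul_mem (mul_mem a.2 b.2) (inv_mem a.2)) (inv_mem b.2)
  · refine le_normalizer_of_forall_conj_mem fun x hx y hy => ?_
    show f (x * y * x⁻¹) ∈ Ap
    rw [map_mul, map_mul, hfA x hx y (hApA hy), map_inv, mul_inv_cancel_right]
    exact hy
  · rw [Subgroup.commutator_le]
    intro y hy x hx
    rw [← QuotientGroup.eq_one_iff]
    show f ⁅y, x⁆ = 1
    rw [map_commutatorElement, commutatorElement_eq_one_iff_mul_comm]
    exact (hfA x hx y (hApA hy)).symm

/-- The step: a minimal normal subgroup of a solvable `AbConj` group. -/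
theorem abConj_quotient_minimal (hsol : Group.IsSolvable G) (hB : AbConj G) {p t : ℕ} (hp : p.Prime)
    (N : Subgroup G) [hNn : N.Normal] (ht : 0 < t) (hN : Nat.card N = p ^ t)
    (hNab : IsMulCommutative N) (hNexp : ∀ x ∈ N, x ^ p = 1) : AbConj (G ⧸ N) := by
  haveI := Fact.mk hp
  have hNe : Cfsg.IsElementaryAbelian p N := ⟨hNab, hNexp⟩
  have hNp : IsPGroup p N := IsPGroup.of_card hN
  have key : ∀ a : G, orderOf a = p → a ∈ N := by
    intro a ha
    obtain ⟨m, hm⟩ := exists_prime_orderOf_dvd_card' (G := N) p (by rw [hN]; exact dvd_pow_self p ht.ne')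
    exact (Cfsg.Agent.S3909.result hB N).1 a ⟨m, m.2, by rw [Subgroup.orderOf_coe, hm, ha]⟩
  -- structure of the Sylow subgroups
  have hexp : ∀ P : Sylow p G, (∀ x ∈ (P : Subgroup G), x ^ p = 1) →
      Nat.card (P : Subgroup G) = Nat.card N := fun P h => by
    refine le_antisymm (Nat.card_mono (Set.toFinite _) fun x hx => ?_)
      (Nat.card_mono (Set.toFinite _) (hNp.le_sylow_of_normal P))
    rcases eq_or_ne x 1 with rfl | hx1
    · exact one_mem N
    · exact key x (orderOf_eq_prime (h x hx) hx1)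
  have hP : ∀ P : Sylow p G, Nat.card (P : Subgroup G) = Nat.card N ∨
      (t = 1 ∧ (IsCyclic (P : Subgroup G) ∨ Nat.card (P : Subgroup G) ∣ p ^ 3)) := by
    intro P
    rcases Nat.lt_or_ge t 2 with ht2 | ht2
    swap
    · left; rw [(Cfsg.Agent.S3909.result hB N).2 p t ht2 hN hNe P]
    have ht1 : t = 1 := by omega
    rcases eq_or_ne p 2 with hp2 | hp2
    swap
    · rcases (Cfsg.Agent.S3908.result hB).2 p hp2 P with h | h
      · exact Or.inr ⟨ht1, Or.inl h⟩
      · exact Or.inl (hexp P h)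
    subst hp2
    rcases (Cfsg.Agent.S3908.result hB).1 P with h | h | ⟨k, ⟨e⟩⟩
    · exact Or.inr ⟨ht1, Or.inl h⟩
    · exact Or.inl (hexp P h.2)
    right
    refine ⟨ht1, Or.inr ?_⟩
    haveI : NeZero (2 ^ k) := ⟨(pow_pos two_pos k).ne'⟩
    have hcard : Nat.card (P : Subgroup G) = 2 ^ (k + 2) := by
      rw [Nat.card_congr e.toEquiv, Nat.card_eq_fintype_card, QuaternionGroup.card, pow_add]
      ring
    rcases Nat.lt_or_ge k 2 with hk | hk
    · rw [hcard]; exact pow_dvd_pow 2 (by omega)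
    exfalso
    have hPN : ¬ (P : Subgroup G) ≤ N := fun h => by
      have h1 : Nat.card (P : Subgroup G) ≤ Nat.card N := Nat.le_of_dvd Nat.card_pos (Subgroup.card_dvd_of_le h)
      rw [hcard, hN, ht1] at h1
      have : 2 ^ 2 ≤ 2 ^ (k + 2) := Nat.pow_le_pow_right two_pos (by omega)
      omega
    -- a maximal normal subgroup meeting `P` inside `N`
    obtain ⟨R, ⟨hRn, hRP⟩, hRmax⟩ := Set.Finite.exists_maximal
      (s := {R : Subgroup G | R.Normal ∧ R ⊓ (P : Subgroup G) ≤ N}) (Set.toFinite _)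
      ⟨⊥, inferInstance, le_trans inf_le_left bot_le⟩
    haveI := hRn
    haveI := hsol
    set q := QuotientGroup.mk' R
    haveI : Nontrivial (G ⧸ R) := QuotientGroup.nontrivial_iff.2 fun h => hPN (by
      rw [h, top_inf_eq] at hRP; exact hRP)
    obtain ⟨Q, r, j, hQn, hQ, -, -, hr, -, hQc, hQexp⟩ := exists_minimal_normal_of_solvable (G := G ⧸ R)
    haveI := hQn
    set K := Q.comap q with hK
    haveI : K.Normal := inferInstance
    have hKP : ¬ K ⊓ (P : Subgroup G) ≤ N := by
      intro h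
      have hle := hRmax (y := K) ⟨inferInstance, h⟩ (QuotientGroup.le_comap_mk' R Q)
      apply hQ
      rw [← Subgroup.map_comap_eq_self_of_surjective (QuotientGroup.mk'_surjective R) Q,
        Subgroup.map_eq_bot_iff, QuotientGroup.ker_mk']
      exact hle
    obtain ⟨a, haKP, haN⟩ := SetLike.not_le_iff_exists.1 hKP
    obtain ⟨i, hi⟩ := IsPGroup.iff_orderOf.1 P.isPGroup' ⟨a, haKP.2⟩
    rw [Subgroup.orderOf_mk] at hi
    have hi2 : 2 ≤ i := by
      by_contra hlt
      have hi01 : i = 0 ∨ i = 1 := by omega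
      rcases hi01 with rfl | rfl
      · rw [pow_zero, orderOf_eq_one_iff] at hi
        exact haN (hi ▸ one_mem N)
      · exact haN (key a (by rw [hi, pow_one]))
    have hfour : ∃ b ∈ K, orderOf b = 4 := by
      refine ⟨a ^ 2 ^ (i - 2), pow_mem haKP.1 _, ?_⟩
      rw [orderOf_pow' a (pow_pos two_pos _).ne', hi, Nat.gcd_eq_right (pow_dvd_pow 2 (Nat.sub_le i 2)),
        Nat.pow_div (Nat.sub_le i 2) two_pos, show i - (i - 2) = 2 by omega]
      norm_num
    obtain ⟨b, hb, hbo⟩ := hfour
    have hK4 : ∀ x : G, orderOf x = 4 → x ∈ K := fun x hx =>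
      (Cfsg.Agent.S3909.result hB K).1 x ⟨b, hb, hbo.trans hx.symm⟩
    have hxa : ∀ c : ZMod (2 * 2 ^ k), ((e.symm (QuaternionGroup.xa c) : (P : Subgroup G)) : G) ∈ K :=
      fun c => hK4 _ (by rw [Subgroup.orderOf_coe, e.symm.orderOf_eq, QuaternionGroup.orderOf_xa])
    have ha1K : ((e.symm (QuaternionGroup.a 1) : (P : Subgroup G)) : G) ∈ K := by
      have e1 : (QuaternionGroup.a 1 : QuaternionGroup (2 ^ k)) =
          (QuaternionGroup.xa 0)⁻¹ * QuaternionGroup.xa 1 := by
        rw [eq_inv_mul_iff_mul_eq, QuaternionGroup.xa_mul_a, zero_add]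
      rw [e1, map_mul, map_inv, Subgroup.coe_mul, Subgroup.coe_inv]
      exact mul_mem (inv_mem (hxa 0)) (hxa 1)
    set y : G := ((e.symm (QuaternionGroup.a 1) : (P : Subgroup G)) : G) with hy
    have hyo : orderOf y = 2 ^ (k + 1) := by
      rw [hy, Subgroup.orderOf_coe, e.symm.orderOf_eq, QuaternionGroup.orderOf_a_one, pow_succ']
    have hrj : r = 2 := by
      by_contra hne
      have h1 : q a = 1 := by
        refine orderOf_eq_one_iff.1 (Nat.eq_one_of_dvd_coprimes
          ((Nat.coprime_primes Nat.prime_two hr).2 (Ne.symm hne) |>.pow i j)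
          (hi ▸ orderOf_map_dvd q a) ?_)
        rw [← hQc]
        exact Q.orderOf_dvd_natCard haKP.1
      exact haN (hRP ⟨(QuotientGroup.eq_one_iff a).1 h1, haKP.2⟩)
    have hy2 : y ^ 2 ∈ N := by
      refine hRP ⟨?_, pow_mem (e.symm (QuaternionGroup.a 1)).2 2⟩
      refine (QuotientGroup.eq_one_iff _).1 ?_
      show q (y ^ 2) = 1
      rw [map_pow, ← hrj]
      exact hQexp _ ha1K
    have h4 : orderOf y ∣ 2 ^ 2 := by
      refine orderOf_dvd_of_pow_eq_one ?_
      rw [pow_two 2, pow_mul]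
      exact hNexp _ hy2
    rw [hyo] at h4
    have := (Nat.pow_dvd_pow_iff_le_right (by norm_num : 1 < 2)).1 h4
    omega
  -- conjugacy
  intro A B hA hB' hAB
  set f := QuotientGroup.mk' N with hf
  obtain ⟨L, A', hNL, hA'c, hLcard, hA'card, hAmap, hA'L, hLA, hA'p⟩ := exists_lift hp N hN A hA
  obtain ⟨M, B', hNM, hB'c, hMcard, hB'card, hBmap, hB'M, hMB, hB'p⟩ := exists_lift hp N hN B hB'
  rw [← hAB] at hB'card hMcard
  obtain ⟨g, hg⟩ := hB A' B' hA'c hB'c (hA'card.trans hB'card.symm)
  have hg' : B' = MulAut.conj g • A' := by rw [conj_smul_eq_map]; exact hg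
  -- conclusion from a conjugating element
  have fin : ∀ h : G, (MulAut.conj h • (L ⊔ A')).map f = (M ⊔ B').map f →
      ∃ x : G ⧸ N, B = A.map (MulAut.conj x).toMonoidHom := fun h hh => by
    refine ⟨f h, ?_⟩
    rw [map_conj_smul, hAmap, hBmap, conj_smul_eq_map] at hh
    exact hh.symm
  rcases Nat.eq_zero_or_pos ((Nat.card A).factorization p) with ha0 | ha0
  · -- no `p`-part
    have hLN : L = N := (Subgroup.eq_of_le_of_card_ge hNL (by rw [hLcard, ha0, zero_add, hN])).symm
    have hMN : M = N := (Subgroup.eq_of_le_of_card_ge hNM (by rw [hMcard, ha0, zero_add, hN])).symm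
    refine fin g ?_
    rw [Subgroup.smul_sup, Subgroup.map_sup, Subgroup.map_sup, ← hg', hLN, hMN]
    congr 1
    rw [CfsgLib.Solvable.map_conj_smul, (Subgroup.map_eq_bot_iff N).2 (by rw [QuotientGroup.ker_mk']),
      conj_smul_eq_map, Subgroup.map_bot]
  have hLpg : IsPGroup p L := IsPGroup.of_card hLcard
  have hMpg : IsPGroup p M := IsPGroup.of_card hMcard
  have hcent : ∀ (L : Subgroup G) (A' : Subgroup G), N ≤ L → IsPGroup p L →
      Nat.card L = p ^ ((Nat.card A).factorization p + t) → A' ≤ Subgroup.normalizer (L : Set G) →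
      ⁅L, A'⁆ ≤ N → (Nat.card A').Coprime p → L ≤ Subgroup.centralizer (A' : Set G) := by
    intro L A' hNL hLpg hLc hA'L hLA hA'p
    refine CfsgLib.Coprime.le_centralizer_of_frattini hA'L (by rw [hLc]; exact hA'p.pow_right _) ?_
    refine hLA.trans fun x hx => ⟨⟨x, hNL hx⟩, ?_, rfl⟩
    rw [SetLike.mem_coe, CfsgLib.PGroup.mem_frattini_iff]
    intro M0 hM0
    have hi := CfsgLib.PGroup.index_of_coatom hLpg hM0
    have hc0 : p ∣ Nat.card M0 := by
      have h1 := M0.card_mul_index
      rw [hi, hLc, show (Nat.card A).factorization p + t = ((Nat.card A).factorization p + t - 1) + 1 by omega,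
        pow_succ] at h1
      rw [Nat.eq_of_mul_eq_mul_right hp.pos h1]
      exact dvd_pow_self p (by omega)
    obtain ⟨z, hz⟩ := exists_prime_orderOf_dvd_card' (G := M0) p hc0
    have hzo : orderOf ((z : L) : G) = p := by rw [Subgroup.orderOf_coe, Subgroup.orderOf_coe, hz]
    have hzN : ((z : L) : G) ∈ N := key _ hzo
    -- `N` is the group generated by `z`
    have ht1 : t = 1 := by
      obtain ⟨P, hLP⟩ := hLpg.exists_le_sylow
      rcases hP P with h | ⟨h, -⟩
      · exfalso
        have h1 := Subgroup.card_dvd_of_le hLP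
        rw [h, hN, hLc] at h1
        have := (Nat.pow_dvd_pow_iff_le_right hp.one_lt).1 h1
        omega
      · exact h
    have hNz : N = Subgroup.zpowers ((z : L) : G) := (Subgroup.eq_of_le_of_card_ge
      (Subgroup.zpowers_le.2 hzN) (by rw [hN, ht1, pow_one, Nat.card_zpowers, hzo])).symm
    rw [hNz] at hx
    obtain ⟨m, hm⟩ := Subgroup.mem_zpowers_iff.1 hx
    have e1 : (⟨x, hNL (hNz ▸ hx)⟩ : L) = (z : L) ^ m := Subtype.ext (by rw [Subgroup.coe_zpow]; exact hm.symm)
    rw [e1]
    exact zpow_mem z.2 m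
  have hLA' := hcent L A' hNL hLpg hLcard hA'L hLA hA'p
  have hMB' := hcent M B' hNM hMpg hMcard hB'M hMB hB'p
  set L1 := MulAut.conj g • L with hL1
  have hL1c : Nat.card L1 = Nat.card M := by rw [hL1, card_conj_smul, hLcard, hMcard]
  have hL1B : L1 ≤ Subgroup.centralizer (B' : Set G) := by
    intro x hx
    rw [hL1, mem_conj_smul_iff] at hx
    rw [Subgroup.mem_centralizer_iff]
    intro y hy
    have hy' : g⁻¹ * y * g ∈ A' := (mem_conj_smul_iff g y A').1 (hg' ▸ hy)
    have h1 := Subgroup.mem_centralizer_iff.1 (hLA' hx) _ hy'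
    calc y * x = g * ((g⁻¹ * y * g) * (g⁻¹ * x * g)) * g⁻¹ := by group
      _ = g * ((g⁻¹ * x * g) * (g⁻¹ * y * g)) * g⁻¹ := by rw [h1]
      _ = x * y := by group
  have hL1pg : IsPGroup p L1 := IsPGroup.of_card (hL1c.trans hMcard)
  have hcopB : (Nat.card M).Coprime (Nat.card B') := by rw [hMcard]; exact hB'p.symm.pow_left _
  by_cases hab : IsMulCommutative L1 ∧ IsMulCommutative M
  · obtain ⟨h, hh⟩ := hB (L1 ⊔ B') (M ⊔ B') (isMulCommutative_sup hab.1 hB'c hL1B)
      (isMulCommutative_sup hab.2 hB'c hMB')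
      (by rw [card_sup_of_commute hL1B (hL1c ▸ hcopB), card_sup_of_commute hMB' hcopB, hL1c])
    refine fin (h * g) ?_
    rw [map_mul, mul_smul, Subgroup.smul_sup, ← hL1, ← hg', conj_smul_eq_map, ← hh]
  · -- both are Sylow subgroups
    have hbig : ∀ X : Subgroup G, IsPGroup p X → ¬ IsMulCommutative X →
        ∀ Y : Subgroup G, IsPGroup p Y → Nat.card Y ≤ Nat.card X := by
      intro X hX hXc Y hY
      obtain ⟨P, hXP⟩ := hX.exists_le_sylow
      obtain ⟨Q, hYQ⟩ := hY.exists_le_sylow
      refine (Nat.card_mono (Set.toFinite _) hYQ).trans ?_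
      show Nat.card (Q : Subgroup G) ≤ _
      rw [Q.card_eq_multiplicity, ← P.card_eq_multiplicity]
      obtain ⟨i, hi⟩ := IsPGroup.iff_card.1 hX
      have hi3 : 3 ≤ i := by
        by_contra hlt
        have hi' : i = 0 ∨ i = 1 ∨ i = 2 := by omega
        apply hXc
        rcases hi' with rfl | rfl | rfl
        · rw [pow_zero, Subgroup.card_eq_one] at hi
          subst hi
          exact ⟨⟨fun a b => Subsingleton.elim _ _⟩⟩
        · haveI := isCyclic_of_prime_card (hi.trans (pow_one p))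
          exact IsCyclic.isMulCommutative
        · letI := IsPGroup.commGroupOfCardEqPrimeSq (p := p) (G := X) hi
          exact ⟨⟨fun a b => mul_comm a b⟩⟩
      rcases hP P with h | ⟨-, h | h⟩
      · exfalso
        have hPN : N = (P : Subgroup G) :=
          Subgroup.eq_of_le_of_card_ge (hNp.le_sylow_of_normal P) h.le
        have hXN : X ≤ N := hPN ▸ hXP
        exact hXc ⟨⟨fun a b => Subtype.ext (show (a : G) * b = b * a from congrArg Subtype.val
          (hNab.is_comm.comm (⟨a, hXN a.2⟩ : N) (⟨b, hXN b.2⟩ : N)))⟩⟩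
      · exfalso
        haveI := h
        apply hXc
        haveI := isCyclic_of_surjective (Subgroup.subgroupOfEquivOfLe hXP).toMonoidHom
          (Subgroup.subgroupOfEquivOfLe hXP).surjective
        exact IsCyclic.isMulCommutative
      · exact (Nat.le_of_dvd (pow_pos hp.pos 3) h).trans (hi ▸ Nat.pow_le_pow_right hp.pos hi3)
    have hsyl : ∀ Y : Subgroup G, IsPGroup p Y → Nat.card Y ≤ Nat.card M := by
      intro Y hY
      by_cases h1 : IsMulCommutative L1
      · exact hbig M hMpg (fun h => hab ⟨h1, h⟩) Y hY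
      · exact hL1c ▸ hbig L1 hL1pg h1 Y hY
    set Z := Subgroup.centralizer (B' : Set G)
    obtain ⟨T₁, hT₁⟩ := (hL1pg.comap_of_injective Z.subtype Z.subtype_injective).exists_le_sylow
    obtain ⟨T₂, hT₂⟩ := (hMpg.comap_of_injective Z.subtype Z.subtype_injective).exists_le_sylow
    have hTcard : ∀ T : Sylow p Z, Nat.card (T : Subgroup Z) ≤ Nat.card M := fun T => by
      rw [← Subgroup.card_subtype]; exact hsyl _ (T.isPGroup'.map _)
    have e₁ : L1.subgroupOf Z = T₁ := Subgroup.eq_of_le_of_card_ge hT₁ (by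
      rw [Nat.card_congr (Subgroup.subgroupOfEquivOfLe hL1B).toEquiv, hL1c]; exact hTcard T₁)
    have e₂ : M.subgroupOf Z = T₂ := Subgroup.eq_of_le_of_card_ge hT₂ (by
      rw [Nat.card_congr (Subgroup.subgroupOfEquivOfLe hMB').toEquiv]; exact hTcard T₂)
    obtain ⟨c, hc⟩ := MulAction.exists_smul_eq Z T₁ T₂
    have hc' : MulAut.conj c • L1.subgroupOf Z = M.subgroupOf Z := by
      rw [e₁, e₂, ← hc]; rfl
    have hcM := conj_eq_of_subgroupOf hL1B hMB' c hc'
    have hcB : MulAut.conj (c : G) • B' = B' := Subgroup.mem_normalizer_iff_map_conj_eq.1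
      (Subgroup.centralizer_le_normalizer (B' : Set G) c.2)
    refine fin ((c : G) * g) ?_
    rw [map_mul, mul_smul, Subgroup.smul_sup, ← hL1, ← hg', Subgroup.smul_sup, hcM, hcB]

theorem abConj_quotient_aux (n : ℕ) : ∀ (G : Type u) [Group G] [Finite G], Nat.card G = n →
    AbConj G → Group.IsSolvable G → ∀ (M : Subgroup G) [M.Normal], AbConj (G ⧸ M) := by
  induction n using Nat.strong_induction_on with
  | _ n ih =>
  intro G _ _ hn hB hsol M _
  by_cases hM : M = ⊥
  · subst hM
    exact abConj_of_equiv QuotientGroup.quotientBot.symm hB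
  haveI := hsol
  obtain ⟨N, p, t, hNM, hNn, hN, -, hNab, hp, ht, hNc, hNexp⟩ :=
    exists_minimal_normal_elementary_le M inferInstance hM
  haveI := hNn
  have h1 := abConj_quotient_minimal hsol hB hp N ht hNc hNab hNexp
  haveI : Group.IsSolvable (G ⧸ N) := inferInstance
  have h2 := ih _ (hn ▸ card_quotient_lt N hN) (G ⧸ N) rfl h1 inferInstance (M.map (QuotientGroup.mk' N))
  exact abConj_of_equiv (QuotientGroup.quotientQuotientEquivQuotient N M hNM) h2
/-- Let G be a finite solvable group in which any two abelian subgroups of the same order are conjugate. Then every quotient of G has the same property: any two abelian subgroups of the quotient of the same order are conjugate. -/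
theorem result {G : Type*} [Group G] [Finite G] (hB : ∀ A B : Subgroup G, IsMulCommutative ↥A → IsMulCommutative ↥B → Nat.card ↥A = Nat.card ↥B → ∃ g : G, B = A.map (MulAut.conj g).toMonoidHom) (hsol : Group.IsSolvable G) (M : Subgroup G) [M.Normal] :
    ∀ A B : Subgroup (G ⧸ M), IsMulCommutative ↥A → IsMulCommutative ↥B → Nat.card ↥A = Nat.card ↥B →
      ∃ g : G ⧸ M, B = A.map (MulAut.conj g).toMonoidHom := by
  exact abConj_quotient_aux _ G rfl hB hsol M

end Cfsg.Agent.S3912
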