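import Cfsg.Statements.S5402
import Cfsg.Agent.Fi23Recog54.Final
import Cfsg.Agent.Fi23Type61.RGroup
import Cfsg.Agent.ThreeTransp.M22IsoFi22
import Cfsg.Agent.ThreeTransp.M24Facts
-- import your own Cfsg.Agent.* helpers here

set_option autoImplicit false
open Cfsg

namespace Cfsg.Agent.S5402

/-- Let G be a finite group with an involution d whose centralizer C is quasisimple, such that C modulo the subgroup generated by d is of type M(22) with respect to some conjugacy class of 3-transpositions generating it, and also has an involution whose own centralizer is quasisimple with quotient by it isomorphic to the projective special unitary group of dimension 6 over the field with four elements and which is not weakly closed in its centralizer; and suppose some conjugate of d other than d commutes with d. Then the conjugacy class of d is a class of 3-transpositions generating G, and G with this class is of type M(23). -/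
theorem result {G : Type*} [Group G] [Finite G] (d : G) (hd : orderOf d = 2) (hq : Cfsg.IsQuasisimple (Subgroup.centralizer ({d} : Set G))) [((Subgroup.zpowers d).subgroupOf (Subgroup.centralizer ({d} : Set G))).Normal] (htype : ∃ E : Set ((Subgroup.centralizer ({d} : Set G)) ⧸ (Subgroup.zpowers d).subgroupOf (Subgroup.centralizer ({d} : Set G))), Cfsg.IsThreeTranspositionClass E ∧ Cfsg.IsOfTypeM22 _ E) (hinvol : ∃ d' : (Subgroup.centralizer ({d} : Set G)) ⧸ (Subgroup.zpowers d).subgroupOf (Subgroup.centralizer ({d} : Set G)), orderOf d' = 2 ∧ Cfsg.IsQuasisimple (Subgroup.centralizer ({d'} : Set _)) ∧ (∃ (K : Type) (_ : Field K) (_ : Fintype K), Fintype.card K = 4 ∧ ∃ _ : ((Subgroup.zpowers d').subgroupOf (Subgroup.centralizer ({d'} : Set _))).Normal, Nonempty ((Subgroup.centralizer ({d'} : Set _)) ⧸ (Subgroup.zpowers d').subgroupOf (Subgroup.centralizer ({d'} : Set _)) ≃* Cfsg.PSU 6 K 2)) ∧ ∃ g, g * d' * g⁻¹ ∈ Subgroup.centralizer ({d'} : Set _) ∧ g * d' * g⁻¹ ≠ d') (hnwc : ∃ g :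 G, g * d * g⁻¹ ∈ Subgroup.centralizer ({d} : Set G) ∧ g * d * g⁻¹ ≠ d) : Cfsg.IsThreeTranspositionClass (conjugatesOf d) ∧ Cfsg.IsOfTypeM23 G (conjugatesOf d) := by
  have hdd : d * d = 1 := by rw [← pow_two, ← hd, pow_orderOf_eq_one]
  have hd1 : d ≠ 1 := fun h => by rw [h, orderOf_one] at hd; norm_num at hd
  obtain ⟨D, hcls, h22⟩ := htype
  have hG : Cfsg.IsThreeTranspositionGroup D := CfsgLib.ThreeTransp.ttg_of_class hcls
  obtain ⟨e, -⟩ := CfsgLib.ThreeTransp.m22_iso_fi22 hG (CfsgLib.ThreeTransp.m22_primitive hG h22) h22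
  obtain ⟨f, hf⟩ := CfsgLib.Fi23Recog54.hom_of_equiv hdd hd1 hq.1.commutator_eq_top hnwc e.symm
  obtain ⟨ψ, hψ⟩ := CfsgLib.Fi23Recog54.exists_iso CfsgLib.Fi23Type61.type23 hf
  have himg : ψ '' CfsgLib.Fi23Recog54.cls23 = conjugatesOf d := by
    ext y
    constructor
    · rintro ⟨x, hx, rfl⟩
      obtain ⟨g, rfl⟩ := isConj_iff.1 hx
      exact isConj_iff.2 ⟨ψ g, by rw [map_mul, map_mul, map_inv, hψ]⟩
    · intro hy
      obtain ⟨g, rfl⟩ := isConj_iff.1 hy
      refine ⟨ψ.symm g * CfsgLib.CosetEnum.Fi23.z0 * (ψ.symm g)⁻¹, isConj_iff.2 ⟨_, rfl⟩, ?_⟩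
      rw [map_mul, map_mul, map_inv, ψ.apply_symm_apply, hψ]
  refine ⟨⟨⟨?_, ?_⟩, ⟨d, mem_conjugatesOf_self, rfl⟩, ?_⟩,
    CfsgLib.ThreeTransp.typeM23_map ψ himg CfsgLib.Fi23Type61.type23⟩
  · intro x hx
    rw [← himg] at hx
    obtain ⟨x, hx', rfl⟩ := hx
    rw [← CfsgLib.Fi23Recog54.set23.1 x hx']
    exact orderOf_injective ψ.toMonoidHom ψ.injective x
  · intro x hx y hy
    rw [← himg] at hx hy
    obtain ⟨x, hx', rfl⟩ := hx
    obtain ⟨y, hy', rfl⟩ := hy
    rcases CfsgLib.Fi23Recog54.set23.2 x hx' y hy' with h | h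
    · left; rw [← map_mul, ← map_pow, h, map_one]
    · right; rw [← map_mul, ← map_pow, h, map_one]
  · rw [← himg, show (ψ '' CfsgLib.Fi23Recog54.cls23) = ψ.toMonoidHom '' CfsgLib.Fi23Recog54.cls23 from rfl,
      ← MonoidHom.map_closure, CfsgLib.Fi23Recog54.closure23]
    exact Subgroup.map_top_of_surjective _ ψ.surjective

end Cfsg.Agent.S5402
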