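import Cfsg.Statements.S0948
import Cfsg.Agent.Eq.Def_Blocks
import Cfsg.Agent.KleinFourBlock.Centralizer
import Cfsg.Agent.ZStar.Quaternion
import Cfsg.Agent.S0914
import Cfsg.Agent.S0944
import Cfsg.Agent.S0947

set_option autoImplicit false
open Cfsg

namespace Cfsg.Agent.S0948

/-- Let the finite group G have a Sylow 2-subgroup P that is a Klein four-group, suppose all involutions of G are conjugate, and fix a maximal ideal M of the algebraic integers containing 2. Then the principal block consists of exactly four irreducible characters, the principal character and ζ₂, ζ₃, ζ₄, and there is a sign ε such that for every involution z: ζ₂ z = 1, ζ₃ z = ε, ζ₄ z = -1; moreover ζ₂ 1 ≡ 1, ζ₃ 1 ≡ ε, ζ₄ 1 ≡ -1 (mod 4), and 1 + ζ₂ y + ε ζ₃ y - ζ₄ y = 0 for every y of odd order. -/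
theorem result {G : Type*} [Group G] [Finite G] (M : Ideal Cfsg.AlgInt) (hM : Cfsg.IsPModular 2 M) (P : Sylow 2 G) (hP : IsKleinFour (P : Subgroup G)) (hone : ∀ s t : G, orderOf s = 2 → orderOf t = 2 → IsConj s t) : ∃ ζ₂ ζ₃ ζ₄ : Cfsg.IrrCharacter G, ∃ ε : ℤ, (ε = 1 ∨ ε = -1) ∧ (ζ₂ : G → ℂ) ≠ (fun _ => 1) ∧ (ζ₃ : G → ℂ) ≠ (fun _ => 1) ∧ ζ₂ ≠ ζ₃ ∧ ζ₂ ≠ ζ₄ ∧ ζ₃ ≠ ζ₄ ∧ Cfsg.principalBlock M G = {χ : Cfsg.IrrCharacter G | (χ : G → ℂ) = (fun _ => 1) ∨ χ = ζ₂ ∨ χ = ζ₃ ∨ χ = ζ₄} ∧ (∀ z : G, orderOf z = 2 → (ζ₂ : G → ℂ) z = 1 ∧ (ζ₃ : G → ℂ) z = (ε : ℂ) ∧ (ζ₄ : G → ℂ) z = -1) ∧ (4 : ℤ) ∣ (Cfsg.charDegree (ζ₂ : G → ℂ) : ℤ) - 1 ∧ (4 : ℤ) ∣ (Cfsg.charDegree (ζ₃ : G → ℂ) : ℤ) - ε ∧ (4 : ℤ) ∣ (Cfsg.charDegree (ζ₄ : G → ℂ) : ℤ) + 1 ∧ ∀ y : G, Odd (orderOf y) → 1 + (ζ₂ : G → ℂ) y + (ε : ℂ) * (ζ₃ : G → ℂ) y - (ζ₄ : G → ℂ) y = 0 := by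
  classical
  haveI := Fintype.ofFinite G
  haveI := CfsgLib.Blocks.isMaximal_of_isPModular hM
  haveI : Fact (Nat.Prime 2) := ⟨Nat.prime_two⟩
  haveI := hP
  haveI := Fintype.ofFinite (P : Subgroup G)
  haveI : Nontrivial (P : Subgroup G) := Finite.one_lt_card_iff_nontrivial.1 (by rw [IsKleinFour.card_four]; norm_num)
  obtain ⟨z₀, hz₀⟩ := exists_ne (1 : (P : Subgroup G))
  set z : G := (z₀ : G) with hzdef
  have hz1 : z ≠ 1 := fun h => hz₀ (Subtype.ext h)
  have hz2 : orderOf z = 2 := by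
    rw [hzdef, Subgroup.orderOf_coe]
    refine orderOf_eq_prime ?_ hz₀
    rw [pow_two, IsKleinFour.mul_self]
  set B := Cfsg.principalBlock M G with hBdef
  have hB : Cfsg.IsPBlock M B := CfsgLib.Blocks.isPBlock_principalBlock
  choose n hn hpar using fun χ : Cfsg.IrrCharacter G => Cfsg.Agent.S0944.result χ z hz2
  have hall : ∀ (χ : Cfsg.IrrCharacter G) (u : G), orderOf u = 2 → (χ : G → ℂ) u = (n χ : ℂ) := by
    intro χ u hu
    rw [← hn χ]
    exact (CfsgLib.Chars.eq_of_isConj (CfsgLib.Chars.isClassFunction_coe χ)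
      (hone z u hz2 hu)).symm
  -- restriction to the Sylow subgroup
  have hres : ∀ χ : Cfsg.IrrCharacter G,
      (4 : ℤ) ∣ (Cfsg.charDegree (χ : G → ℂ) : ℤ) - n χ := by
    intro χ
    obtain ⟨j, hj⟩ := CfsgLib.ZStar.exists_nat_sum_hom_mul (P : Subgroup G).subtype
      (CfsgLib.Chars.isCharacter_coe χ) 1
    simp only [MonoidHom.one_apply, Units.val_one, one_mul, Subgroup.subtype_apply] at hj
    rw [← Finset.add_sum_erase _ _ (Finset.mem_univ (1 : (P : Subgroup G))),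
      Finset.sum_congr rfl (g := fun _ => (n χ : ℂ)) (fun x hx => hall χ _ (by
        rw [Subgroup.orderOf_coe]
        exact orderOf_eq_prime (by rw [pow_two, IsKleinFour.mul_self]) (Finset.ne_of_mem_erase hx))),
      Finset.sum_const, Finset.card_erase_of_mem (Finset.mem_univ _), Finset.card_univ,
      ← Nat.card_eq_fintype_card, IsKleinFour.card_four, OneMemClass.coe_one,
      ← CfsgLib.Chars.coe_charDegree χ, nsmul_eq_mul] at hj
    have hj' : (Cfsg.charDegree (χ : G → ℂ) : ℤ) + 3 * n χ = 4 * (j : ℤ) := by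
      exact_mod_cast hj
    exact ⟨(j : ℤ) - n χ, by linarith⟩
  -- the four members
  set one := CfsgLib.Chars.oneChar G with hone1
  have honeB : one ∈ B := CfsgLib.Blocks.oneChar_mem_principalBlock
  have hn_one : n one = 1 := by
    have h := hn one
    rw [hone1, CfsgLib.Chars.oneChar_apply] at h
    exact_mod_cast h.symm
  have hne : ∀ χ ∈ B, n χ ≠ 0 := by
    intro χ hχ h0
    have h4 := hres χ
    rw [h0, sub_zero] at h4
    have h4' : 4 ∣ Cfsg.charDegree (χ : G → ℂ) := by exact_mod_cast h4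
    have hdvd := CfsgLib.Chars.charDegree_dvd_card χ
    have hnd : ¬ 2 ∣ Nat.card G / Cfsg.charDegree (χ : G → ℂ) := by
      intro h2
      obtain ⟨a, ha⟩ := h4'
      obtain ⟨b, hb⟩ := h2
      have hG : Nat.card G = 8 * (a * b) := by
        rw [← Nat.div_mul_cancel hdvd, hb, ha]; ring
      refine P.not_dvd_index ?_
      have h := (P : Subgroup G).card_mul_index
      rw [IsKleinFour.card_four, hG] at h
      exact ⟨a * b, by omega⟩
    have hs := (Cfsg.Agent.S0914.result 2 M hM χ).1 hnd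
    have h1 : one ∈ Cfsg.blockOf M (χ : G → ℂ) :=
      CfsgLib.Blocks.sameBlock_trans (CfsgLib.Blocks.sameBlock_symm hχ) honeB
    rw [hs, Set.mem_singleton_iff] at h1
    rw [← h1, hn_one] at h0
    exact one_ne_zero h0
  set s := B.toFinite.toFinset with hs
  have hsmem : ∀ χ, χ ∈ s ↔ χ ∈ B := fun χ => Set.Finite.mem_toFinset _
  have hsq : ∑ χ ∈ s, n χ ^ 2 = 4 := by
    have hzP : z ∈ (P : Subgroup G) := z₀.2
    have hfac : (Nat.card (Subgroup.centralizer ({z} : Set G))).factorization 2 = 2 := by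
      have hPle : (P : Subgroup G) ≤ Subgroup.centralizer ({z} : Set G) := fun x hx =>
        Subgroup.mem_centralizer_singleton_iff.2 (congrArg Subtype.val
          (mul_comm_of_exponent_two IsKleinFour.exponent_two (⟨x, hx⟩ : (P : Subgroup G)) z₀) :)
      have h1 := (P.subtype hPle).card_eq_multiplicity
      rw [Sylow.coe_subtype, Nat.card_congr (Subgroup.subgroupOfEquivOfLe hPle).toEquiv,
        IsKleinFour.card_four] at h1
      exact Nat.pow_right_injective le_rfl (by simpa using h1.symm)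
    have h := (Cfsg.Agent.S0947.result 2 M hM z ⟨1, by rw [hz2, pow_one]⟩ hz1 1
      (by rw [orderOf_one]; norm_num)).2
      (CfsgLib.KleinFourBlock.index_pPrimeCore_centralizer P hP hzP hz1)
    rw [hfac, CfsgLib.Blocks.finsum_block_eq_sum] at h
    simp only [OneMemClass.coe_one, mul_one, hn, Complex.norm_intCast, sq_abs] at h
    exact_mod_cast h
  have hsq' : ∑ χ ∈ s.erase one, n χ ^ 2 = 3 := by
    have h := hsq
    rw [← Finset.add_sum_erase _ _ ((hsmem one).2 honeB), hn_one] at h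
    linarith
  obtain ⟨hpm, hcard⟩ := CfsgLib.ZStar.pm_one_of_sum_sq _ n hsq' le_rfl
  set s' := s.erase one with hs'
  have hfilter : (s'.filter fun χ => n χ ≠ 0) = s' :=
    Finset.filter_true_of_mem fun χ hχ => hne χ ((hsmem χ).1 (Finset.mem_of_mem_erase hχ))
  rw [hfilter] at hcard
  have hcard' : s'.card = 3 := by exact_mod_cast hcard
  -- orthogonality
  have horth : ∀ y : G, Odd (orderOf y) →
      (1 : ℂ) + ∑ χ ∈ s', (n χ : ℂ) * (χ : G → ℂ) y = 0 := by
    intro y hy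
    have h := CfsgLib.Blocks.finsum_block_regular_mul_conj_singular hM hB (x := y) (y := z)
      hy.not_two_dvd_nat (dvd_of_eq hz2.symm)
    rw [CfsgLib.Blocks.finsum_block_eq_sum, ← Finset.add_sum_erase _ _ ((hsmem one).2 honeB)] at h
    simp only [hn, map_intCast] at h
    rw [CfsgLib.Chars.oneChar_apply, hn_one, Int.cast_one, mul_one] at h
    rw [← h]
    exact congrArg _ (Finset.sum_congr rfl fun χ _ => mul_comm _ _)
  have hdeg : (1 : ℤ) + ∑ χ ∈ s', n χ * (Cfsg.charDegree (χ : G → ℂ) : ℤ) = 0 := by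
    have h := horth 1 (by simp)
    simp only [← CfsgLib.Chars.coe_charDegree] at h
    exact_mod_cast h
  have hpm' : ∀ χ ∈ s', n χ = 1 ∨ n χ = -1 := fun χ hχ =>
    hpm χ hχ (hne χ ((hsmem χ).1 (Finset.mem_of_mem_erase hχ)))
  have hdpos : ∀ χ : Cfsg.IrrCharacter G, (1 : ℤ) ≤ (Cfsg.charDegree (χ : G → ℂ) : ℤ) := fun χ => by
    exact_mod_cast CfsgLib.Chars.charDegree_pos χ
  obtain ⟨a, ha, ha1⟩ : ∃ a ∈ s', n a = 1 := by
    by_contra hcon
    push Not at hcon
    have h := Finset.card_nsmul_le_sum s' (fun χ => (Cfsg.charDegree (χ : G → ℂ) : ℤ)) 1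
      fun χ _ => hdpos χ
    rw [hcard'] at h
    have e : ∑ χ ∈ s', n χ * (Cfsg.charDegree (χ : G → ℂ) : ℤ) =
        ∑ χ ∈ s', -(Cfsg.charDegree (χ : G → ℂ) : ℤ) :=
      Finset.sum_congr rfl fun χ hχ => by rw [(hpm' χ hχ).resolve_left (hcon χ hχ)]; ring
    rw [e, Finset.sum_neg_distrib] at hdeg
    simp only [nsmul_eq_mul] at h
    norm_num at h
    omega
  obtain ⟨c, hc, hc1⟩ : ∃ c ∈ s', n c = -1 := by
    by_contra hcon
    push Not at hcon
    have h : 0 ≤ ∑ χ ∈ s', n χ * (Cfsg.charDegree (χ : G → ℂ) : ℤ) :=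
      Finset.sum_nonneg fun χ hχ => by
        rw [(hpm' χ hχ).resolve_right (hcon χ hχ), one_mul]; positivity
    omega
  have hac : a ≠ c := fun h => by rw [h, hc1] at ha1; omega
  have hc' : c ∈ s'.erase a := Finset.mem_erase.2 ⟨hac.symm, hc⟩
  obtain ⟨b, hb⟩ := Finset.card_eq_one.1 (show ((s'.erase a).erase c).card = 1 by
    rw [Finset.card_erase_of_mem hc', Finset.card_erase_of_mem ha, hcard'])
  have hbm : b ∈ (s'.erase a).erase c := hb ▸ Finset.mem_singleton_self b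
  simp only [Finset.mem_erase] at hbm
  obtain ⟨hbc, hba, hbs⟩ := hbm
  have hbs' : b ∈ s' := hbs
  have hne1 : ∀ χ ∈ s', (χ : G → ℂ) ≠ fun _ => 1 := fun χ hχ h =>
    Finset.ne_of_mem_erase hχ (Subtype.ext (h.trans CfsgLib.Chars.oneChar_coe.symm))
  refine ⟨a, b, c, n b, hpm' b hbs', hne1 a ha, hne1 b hbs', Ne.symm hba, hac, hbc, ?_, ?_, ?_,
    hres b, ?_, ?_⟩
  · ext χ
    constructor
    · intro hχ
      by_cases h1 : χ = one
      · exact Or.inl (h1 ▸ CfsgLib.Chars.oneChar_coe)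
      have hχs : χ ∈ s' := Finset.mem_erase.2 ⟨h1, (hsmem χ).2 hχ⟩
      by_cases h2 : χ = a
      · exact Or.inr (Or.inl h2)
      by_cases h3 : χ = c
      · exact Or.inr (Or.inr (Or.inr h3))
      have : χ ∈ (s'.erase a).erase c := by simp [Finset.mem_erase, h2, h3, hχs]
      rw [hb, Finset.mem_singleton] at this
      exact Or.inr (Or.inr (Or.inl this))
    · rintro (h | rfl | rfl | rfl)
      · rwa [show χ = one from Subtype.ext (h.trans CfsgLib.Chars.oneChar_coe.symm)]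
      all_goals exact (hsmem _).1 (Finset.mem_of_mem_erase (by assumption))
  · intro u hu
    refine ⟨?_, hall b u hu, ?_⟩
    · rw [hall a u hu, ha1]; norm_num
    · rw [hall c u hu, hc1]; norm_num
  · simpa [ha1] using hres a
  · simpa [hc1] using hres c
  · intro y hy
    have h := horth y hy
    rw [← Finset.add_sum_erase _ _ ha, ← Finset.add_sum_erase _ _ hc', hb, Finset.sum_singleton,
      ha1, hc1] at h
    push_cast at h
    linear_combination h

end Cfsg.Agent.S0948
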