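import Cfsg.Statements.S4479
import Cfsg.Agent.Eq.Def_Blocks
import Cfsg.Agent.KleinFourBlock.Formula

set_option autoImplicit false
open Cfsg

namespace Cfsg.Agent.S4479

/-- The finite set of the four members and its sums. -/
theorem sum_four {G : Type*} [Group G] [Finite G] (M : Ideal Cfsg.AlgInt)
    (χ₁ χ₂ χ₃ : Cfsg.IrrCharacter G)
    (hB : Cfsg.principalBlock M G = {χ : Cfsg.IrrCharacter G | (χ : G → ℂ) = (fun _ => 1) ∨ χ = χ₁ ∨ χ = χ₂ ∨ χ = χ₃})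
    (hdist : (χ₁ : G → ℂ) ≠ (fun _ => 1) ∧ (χ₂ : G → ℂ) ≠ (fun _ => 1) ∧ (χ₃ : G → ℂ) ≠ (fun _ => 1) ∧ χ₁ ≠ χ₂ ∧ χ₁ ≠ χ₃ ∧ χ₂ ≠ χ₃)
    (f : Cfsg.IrrCharacter G → ℂ) :
    ∑ χ ∈ (Cfsg.principalBlock M G).toFinite.toFinset, f χ =
      f (CfsgLib.Chars.oneChar G) + (f χ₁ + (f χ₂ + f χ₃)) := by
  classical
  obtain ⟨h1, h2, h3, h12, h13, h23⟩ := hdist
  have hne : ∀ χ : Cfsg.IrrCharacter G, (χ : G → ℂ) ≠ (fun _ => 1) → CfsgLib.Chars.oneChar G ≠ χ :=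
    fun χ h e => h (e ▸ CfsgLib.Chars.oneChar_coe)
  have hset : (Cfsg.principalBlock M G).toFinite.toFinset =
      ({CfsgLib.Chars.oneChar G, χ₁, χ₂, χ₃} : Finset (Cfsg.IrrCharacter G)) := by
    ext χ
    rw [Set.Finite.mem_toFinset, hB, Set.mem_ofPred_eq]
    simp only [Finset.mem_insert, Finset.mem_singleton]
    refine or_congr ⟨fun h => Subtype.ext (h.trans CfsgLib.Chars.oneChar_coe.symm),
      fun h => h ▸ CfsgLib.Chars.oneChar_coe⟩ Iff.rfl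
  rw [hset, Finset.sum_insert (by simp [hne χ₁ h1, hne χ₂ h2, hne χ₃ h3]),
    Finset.sum_insert (by simp [h12, h13]), Finset.sum_insert (by simp [h23]), Finset.sum_singleton]


/-- An order formula from the principal 2-block. Let G be a finite group of order 4·g₀ with g₀ odd having no normal 2-complement (no normal subgroup of order g₀); let P be a Sylow 2-subgroup, J an involution of P, and fix a maximal ideal M of the algebraic integers containing 2. Suppose the principal 2-block consists of the principal character and three further distinct characters χ₁, χ₂, χ₃ of degrees x₁, x₂, x₃, with χ_i(J) = ε_i = ±1. Then, writing c(J) and c(P) for the orders of the centralizers of J and of P, the order of G equals 8·α·c(J)³/c(P)² with α = x₁x₂x₃ / ((x₁ + ε₁)(x₂ + ε₂)(x₃ + ε₃)). -/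
theorem result {G : Type*} [Group G] [Finite G] (M : Ideal Cfsg.AlgInt) (hM : Cfsg.IsPModular 2 M) (g₀ : ℕ) (hg₀ : Odd g₀) (hG : Nat.card G = 4 * g₀) (hnc : ¬ ∃ N : Subgroup G, N.Normal ∧ Nat.card N = g₀) (P : Sylow 2 G) (J : G) (hJ : J ∈ (P : Subgroup G)) (hJ2 : orderOf J = 2) (χ₁ χ₂ χ₃ : Cfsg.IrrCharacter G) (ε₁ ε₂ ε₃ : ℤ) (hB : Cfsg.principalBlock M G = {χ : Cfsg.IrrCharacter G | (χ : G → ℂ) = (fun _ => 1) ∨ χ = χ₁ ∨ χ = χ₂ ∨ χ = χ₃}) (hdist : (χ₁ : G → ℂ) ≠ (fun _ => 1) ∧ (χ₂ : G → ℂ) ≠ (fun _ => 1) ∧ (χ₃ : G → ℂ) ≠ (fun _ => 1) ∧ χ₁ ≠ χ₂ ∧ χ₁ ≠ χ₃ ∧ χ₂ ≠ χ₃) (hε : (ε₁ = 1 ∨ ε₁ = -1) ∧ (ε₂ = 1 ∨ ε₂ = -1) ∧ (ε₃ = 1 ∨ ε₃ = -1)) (hval : (χ₁ : G → ℂ) J = ε₁ ∧ (χ₂ : G → ℂ) J = ε₂ ∧ (χ₃ : G → ℂ) J = ε₃) : (Nat.card G : ℚ) = 8 * (((Cfsg.charDegree (χ₁ : G → ℂ) : ℚ) * Cfsg.charDegree (χ₂ : G → ℂ) * Cfsg.charDegree (χ₃ : G → ℂ))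 / ((Cfsg.charDegree (χ₁ : G → ℂ) + ε₁) * (Cfsg.charDegree (χ₂ : G → ℂ) + ε₂) * (Cfsg.charDegree (χ₃ : G → ℂ) + ε₃))) * (Nat.card (Subgroup.centralizer ({J} : Set G)) : ℚ) ^ 3 / (Nat.card (Subgroup.centralizer ((P : Subgroup G) : Set G)) : ℚ) ^ 2 := by
  classical
  haveI := Fintype.ofFinite G
  haveI : Fact (Nat.Prime 2) := ⟨Nat.prime_two⟩
  have hP := CfsgLib.KleinFourBlock.isKleinFour_of_no_complement hg₀ hG hnc P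
  have hone := CfsgLib.KleinFourBlock.isConj_of_no_complement hg₀ hG hnc P
  have hdeg : (1 : ℂ) + ((ε₁ : ℂ) * (χ₁ : G → ℂ) 1 + ((ε₂ : ℂ) * (χ₂ : G → ℂ) 1 + (ε₃ : ℂ) * (χ₃ : G → ℂ) 1)) = 0 := by
    have h := CfsgLib.KleinFourBlock.sum_block_mul hM hP hone hJ2 1
    rw [sum_four M χ₁ χ₂ χ₃ hB hdist, if_neg (by rw [orderOf_one]; norm_num),
      CfsgLib.Chars.oneChar_apply, CfsgLib.Chars.oneChar_apply, hval.1, hval.2.1, hval.2.2, one_mul] at h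
    exact h
  have hcube := CfsgLib.KleinFourBlock.card_mul_sum_cube hM hP hone hJ2
  rw [sum_four M χ₁ χ₂ χ₃ hB hdist, CfsgLib.Chars.oneChar_apply, CfsgLib.Chars.oneChar_apply,
    hval.1, hval.2.1, hval.2.2] at hcube
  simp only [← CfsgLib.Chars.coe_charDegree] at hdeg hcube
  have hsq : ∀ e : ℤ, e = 1 ∨ e = -1 → (e : ℂ) ^ 3 = e := fun e he => by
    rcases he with rfl | rfl <;> norm_num
  rw [hsq _ hε.1, hsq _ hε.2.1, hsq _ hε.2.2, one_pow, div_one] at hcube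
  have hx₁ := CfsgLib.Chars.charDegree_pos χ₁
  have hx₂ := CfsgLib.Chars.charDegree_pos χ₂
  have hx₃ := CfsgLib.Chars.charDegree_pos χ₃
  set x₁ := Cfsg.charDegree (χ₁ : G → ℂ)
  set x₂ := Cfsg.charDegree (χ₂ : G → ℂ)
  set x₃ := Cfsg.charDegree (χ₃ : G → ℂ)
  set c := Nat.card (Subgroup.centralizer ({J} : Set G))
  set cP := Nat.card (Subgroup.centralizer ((P : Subgroup G) : Set G))
  have hc : (c : ℚ) ≠ 0 := Nat.cast_ne_zero.2 Nat.card_pos.ne'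
  have hcP : (cP : ℚ) ≠ 0 := Nat.cast_ne_zero.2 Nat.card_pos.ne'
  have hdegq : (1 : ℚ) + (ε₁ * x₁ + (ε₂ * x₂ + ε₃ * x₃)) = 0 := by
    apply Rat.cast_injective (α := ℂ)
    push_cast
    exact hdeg
  have hcubeq : (Nat.card G : ℚ) * (1 + ((ε₁ : ℚ) / x₁ + ((ε₂ : ℚ) / x₂ + (ε₃ : ℚ) / x₃))) * (cP : ℚ) ^ 2 =
      8 * (c : ℚ) ^ 3 := by
    apply Rat.cast_injective (α := ℂ)
    push_cast
    exact hcube
  have q₁ : (x₁ : ℚ) ≠ 0 := Nat.cast_ne_zero.2 hx₁.ne'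
  have q₂ : (x₂ : ℚ) ≠ 0 := Nat.cast_ne_zero.2 hx₂.ne'
  have q₃ : (x₃ : ℚ) ≠ 0 := Nat.cast_ne_zero.2 hx₃.ne'
  have e₁ : (ε₁ : ℚ) * ε₁ = 1 := by rcases hε.1 with h | h <;> simp [h]
  have e₂ : (ε₂ : ℚ) * ε₂ = 1 := by rcases hε.2.1 with h | h <;> simp [h]
  have e₃ : (ε₃ : ℚ) * ε₃ = 1 := by rcases hε.2.2 with h | h <;> simp [h]
  have hid : ((x₁ : ℚ) + ε₁) * (x₂ + ε₂) * (x₃ + ε₃) =
      x₁ * x₂ * x₃ * (1 + ((ε₁ : ℚ) / x₁ + ((ε₂ : ℚ) / x₂ + (ε₃ : ℚ) / x₃))) := by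
    field_simp
    linear_combination ((ε₁ : ℚ) * ε₂ * ε₃) * hdegq - (ε₂ : ℚ) * ε₃ * x₁ * e₁ -
      (ε₁ : ℚ) * ε₃ * x₂ * e₂ - (ε₁ : ℚ) * ε₂ * x₃ * e₃
  have hne : (1 + ((ε₁ : ℚ) / x₁ + ((ε₂ : ℚ) / x₂ + (ε₃ : ℚ) / x₃))) ≠ 0 := by
    intro h
    rw [h, mul_zero, zero_mul] at hcubeq
    exact absurd hcubeq.symm (mul_ne_zero (by norm_num) (pow_ne_zero _ hc))
  generalize hS : (1 + ((ε₁ : ℚ) / x₁ + ((ε₂ : ℚ) / x₂ + (ε₃ : ℚ) / x₃))) = S at *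
  rw [hid]
  field_simp
  linear_combination hcubeq

end Cfsg.Agent.S4479
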