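import Cfsg.Statements.S4512
import Cfsg.Agent.Eq.Def_Blocks
import Cfsg.Agent.KleinFourBlock.Formula
import Cfsg.Agent.Eq.Def_BlockRank
import Cfsg.Agent.S0948
import Cfsg.Agent.S4479

set_option autoImplicit false
open Cfsg

namespace Cfsg.Agent.S4512

/-- If G is a finite group with a Sylow 2-subgroup that is a Klein four-group and a single conjugacy class of involutions, then its principal 2-block (relative to a maximal ideal M of the algebraic integers containing 2) has 2-regular rank 3: the restrictions of its irreducible characters to the elements of odd order span a space of dimension 3 (it has three irreducible Brauer characters). -/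
theorem result {G : Type*} [Group G] [Finite G] (M : Ideal Cfsg.AlgInt) (hM : Cfsg.IsPModular 2 M) (P : Sylow 2 G)
    (hP : Nat.card P = 4) (hexp : ∀ x : P, x * x = 1)
    (hone : ∀ s t : G, orderOf s = 2 → orderOf t = 2 → IsConj s t) :
    Cfsg.blockRank 2 (Cfsg.principalBlock M G) = 3 := by
  classical
  haveI := Fintype.ofFinite G
  haveI : Fact (Nat.Prime 2) := ⟨Nat.prime_two⟩
  haveI := CfsgLib.Blocks.isMaximal_of_isPModular hM
  have hK := CfsgLib.KleinFourBlock.isKleinFour_of_card hP hexp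
  obtain ⟨ζ₂, ζ₃, ζ₄, ε, -, hne2, hne3, h23, h24, h34, hset, hval, -, -, -, -⟩ :=
    Cfsg.Agent.S0948.result M hM P hK hone
  obtain ⟨z, hz⟩ := exists_prime_orderOf_dvd_card' (G := G) 2 (by
    refine dvd_trans ?_ (Subgroup.card_subgroup_dvd_card (P : Subgroup G))
    rw [hK.card_four]; norm_num)
  have hne4 : (ζ₄ : G → ℂ) ≠ fun _ => 1 := fun h => by
    have := (hval z hz).2.2
    rw [h] at this
    norm_num at this
  have hdist := And.intro hne2 (And.intro hne3 (And.intro hne4 (And.intro h23 (And.intro h24 h34))))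
  set B := Cfsg.principalBlock M G with hBdef
  set s : Finset (Cfsg.IrrCharacter G) := B.toFinite.toFinset with hs
  have hcard : s.card = 4 := by
    have h := Cfsg.Agent.S4479.sum_four M ζ₂ ζ₃ ζ₄ hset hdist (fun _ => 1)
    rw [Finset.sum_const, nsmul_one] at h
    have h' : (s.card : ℂ) = ((4 : ℕ) : ℂ) := h.trans (by norm_num)
    exact_mod_cast h'
  have hsum := CfsgLib.KleinFourBlock.sum_block_mul hM hK hone hz
  have hreg : ∀ g : G, ¬ 2 ∣ orderOf g → ∑ χ ∈ s, (χ : G → ℂ) z * (χ : G → ℂ) g = 0 := fun g hg => by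
    rw [hsum g, if_neg hg]
  have honeB : CfsgLib.Chars.oneChar G ∈ B := CfsgLib.Blocks.oneChar_mem_principalBlock
  have hones : CfsgLib.Chars.oneChar G ∈ s := (Set.Finite.mem_toFinset _).2 honeB
  set s' := s.erase (CfsgLib.Chars.oneChar G) with hs'
  set v := fun χ : Cfsg.IrrCharacter G => Cfsg.pRegularPart 2 (χ : G → ℂ) with hv
  have hvreg : ∀ (χ : Cfsg.IrrCharacter G) (g : G), v χ g = if 2 ∣ orderOf g then 0 else (χ : G → ℂ) g := by
    intro χ g
    rw [hv]
    simp only [Cfsg.pRegularPart, Cfsg.IsPRegular]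
    by_cases hg : 2 ∣ orderOf g <;> simp [hg]
  have hrel : v (CfsgLib.Chars.oneChar G) = -∑ χ ∈ s', (χ : G → ℂ) z • v χ := by
    funext g
    rw [Pi.neg_apply, Finset.sum_apply]
    simp only [Pi.smul_apply, smul_eq_mul, hvreg]
    by_cases hg : 2 ∣ orderOf g
    · simp [hg]
    · simp only [if_neg hg, CfsgLib.Chars.oneChar_apply]
      have h := hreg g hg
      rw [← Finset.add_sum_erase _ _ hones, CfsgLib.Chars.oneChar_apply, CfsgLib.Chars.oneChar_apply,
        one_mul] at h
      exact eq_neg_of_add_eq_zero_left h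
  have hli : LinearIndependent ℂ (fun χ : s' => v (χ : Cfsg.IrrCharacter G)) := by
    rw [Fintype.linearIndependent_iff]
    intro c hc χ₀
    set c' : Cfsg.IrrCharacter G → ℂ := fun χ => if h : χ ∈ s' then c ⟨χ, h⟩ else 0 with hc'
    have h0 : ∀ g : G, ¬ 2 ∣ orderOf g → ∑ χ ∈ s', c' χ * (χ : G → ℂ) g = 0 := by
      intro g hg
      have h := congrFun hc g
      rw [Finset.sum_apply, Pi.zero_apply] at h
      simp only [Pi.smul_apply, smul_eq_mul, hvreg, if_neg hg] at h
      rw [← h, ← Finset.sum_coe_sort s']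
      exact Finset.sum_congr rfl fun χ _ => by simp [hc', χ.2]
    set k := ∑ χ ∈ s', c' χ * (χ : G → ℂ) z with hk
    have hall : ∀ g : G, ∑ χ ∈ s', c' χ * (χ : G → ℂ) g =
        (k / 4) * ∑ χ ∈ s, (χ : G → ℂ) z * (χ : G → ℂ) g := by
      intro g
      by_cases hg : 2 ∣ orderOf g
      · rw [hsum g, if_pos hg, hk, div_mul_cancel₀ _ (by norm_num : (4 : ℂ) ≠ 0)]
        refine Finset.sum_congr rfl fun χ hχ => ?_
        rw [CfsgLib.KleinFourBlock.apply_eq_of_isPPart hM hK hone hz
          ((Set.Finite.mem_toFinset _).1 (Finset.mem_of_mem_erase hχ)) hg]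
      · rw [h0 g hg, hreg g hg, mul_zero]
    set d : Cfsg.IrrCharacter G → ℂ := fun χ =>
      (if χ ∈ s' then c' χ else 0) - (if χ ∈ s then k / 4 * (χ : G → ℂ) z else 0) with hd
    have hdz : ∀ g : G, ∑ χ : Cfsg.IrrCharacter G, d χ * (χ : G → ℂ) g = 0 := by
      intro g
      simp only [hd, sub_mul, ite_mul, zero_mul, Finset.sum_sub_distrib, Finset.sum_ite_mem,
        Finset.univ_inter]
      rw [sub_eq_zero, hall g, Finset.mul_sum]
      exact Finset.sum_congr rfl fun χ _ => by ring
    have hd0 : ∀ χ : Cfsg.IrrCharacter G, d χ = 0 := fun χ => by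
      have h := CfsgLib.Chars.classInner_sum_smul d χ
      rw [← h]
      simp [Cfsg.classInner, Finset.sum_apply, hdz]
    have hk0 : k / 4 = 0 := by
      have h := hd0 (CfsgLib.Chars.oneChar G)
      simpa [hd, hs', hones] using h
    have h := hd0 (χ₀ : Cfsg.IrrCharacter G)
    simpa [hd, hk0, χ₀.2, hc'] using h
  have hspan : Submodule.span ℂ (v '' B) = Submodule.span ℂ (Set.range fun χ : s' => v (χ : Cfsg.IrrCharacter G)) := by
    refine le_antisymm (Submodule.span_le.2 ?_) (Submodule.span_mono ?_)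
    · rintro _ ⟨χ, hχ, rfl⟩
      by_cases h1 : χ = CfsgLib.Chars.oneChar G
      · rw [h1, SetLike.mem_coe, hrel]
        exact neg_mem (Submodule.sum_mem _ fun ψ hψ =>
          Submodule.smul_mem _ _ (Submodule.subset_span ⟨⟨ψ, hψ⟩, rfl⟩))
      · exact Submodule.subset_span ⟨⟨χ, Finset.mem_erase.2 ⟨h1, (Set.Finite.mem_toFinset _).2 hχ⟩⟩, rfl⟩
    · rintro _ ⟨χ, rfl⟩
      exact ⟨_, (Set.Finite.mem_toFinset _).1 (Finset.mem_of_mem_erase χ.2), rfl⟩
  show Module.finrank ℂ ↥(Submodule.span ℂ (v '' B)) = 3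
  rw [hspan, finrank_span_eq_card hli, Fintype.card_coe, hs', Finset.card_erase_of_mem hones, hcard]

end Cfsg.Agent.S4512
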