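import Cfsg.Statements.S4571
import Cfsg.Agent.Blocks.Covering.Basic
import Cfsg.Agent.Blocks.Basic.Principal
import Cfsg.Agent.Blocks.Orth.Subsection
import Cfsg.Agent.Blocks.Orth.SecondMain
import Cfsg.Agent.Eq.Def_BlockRank

set_option autoImplicit false
open Cfsg CfsgLib CfsgLib.Blocks

namespace Cfsg.Agent.S4571

variable {G : Type*} [Group G] [Finite G] {p : ℕ} {M : Ideal AlgInt}

/-- Congruence of central characters on the regular elements gives the same block. -/
theorem congr_omega_block [Fintype G] [M.IsMaximal] (hp : IsPModular p M)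
    {B : Set (IrrCharacter G)} (hB : IsPBlock M B) {χ ψ : IrrCharacter G}
    (h : ∀ g : G, ¬ p ∣ orderOf g →
      Congr M (centralChar (χ : G → ℂ) g) (centralChar (ψ : G → ℂ) g)) :
    χ ∈ B → ψ ∈ B := by
  classical
  haveI : Fintype (ConjClasses G) := Fintype.ofFinite _
  intro hχ
  by_contra hψ
  have h1 : omega (χ : G → ℂ) (setIdem B) = 1 := by rw [omega_setIdem, if_pos hχ]
  have h0 : omega (ψ : G → ℂ) (setIdem B) = 0 := by rw [omega_setIdem, if_neg hψ]
  apply not_memLocalIdeal_one (M := M)
  have : Congr M (omega (χ : G → ℂ) (setIdem B)) (omega (ψ : G → ℂ) (setIdem B)) := by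
    rw [omega_eq_sum_classes (isCentralElt_setIdem B)
      (CfsgLib.Blocks.isClassFunction_of_isCharacter (Chars.isCharacter_coe χ)),
      omega_eq_sum_classes (isCentralElt_setIdem B)
      (CfsgLib.Blocks.isClassFunction_of_isCharacter (Chars.isCharacter_coe ψ))]
    refine congr_sum _ fun C _ => ?_
    show Congr M (blockCoeff B C.out * _) (blockCoeff B C.out * _)
    by_cases hC : p ∣ orderOf C.out
    · rw [blockCoeff_eq_zero_of_singular hp hB hC, zero_mul, zero_mul]
      exact congr_refl _
    · show MemLocalIdeal M (_ - _)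
      rw [← mul_sub]
      exact memLocalIdeal_mul_left (memLocalRing_blockCoeff hB _) (h _ hC)
  rw [h1, h0] at this
  simpa [Congr] using this

/-- Let Q be a normal p-subgroup of the finite group G with G = Q·C_G(Q), and M a maximal ideal of the algebraic integers containing p. Then the principal p-blocks of G and of G/Q have the same p-regular rank (the same number of irreducible Brauer characters). -/
theorem result {G : Type*} [Group G] [Finite G] (p : ℕ) [Fact p.Prime] (M : Ideal Cfsg.AlgInt) (hM : Cfsg.IsPModular p M) (Q : Subgroup G) [Q.Normal] (hQ : IsPGroup p Q) (hsup : Q ⊔ Subgroup.centralizer (Q : Set G) = ⊤) : Cfsg.blockRank p (Cfsg.principalBlock M G) = Cfsg.blockRank p (Cfsg.principalBlock M (G ⧸ Q)) := by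
  classical
  haveI : M.IsMaximal := hM.2.1
  haveI := Fintype.ofFinite G
  haveI := Fintype.ofFinite (G ⧸ Q)
  set π := QuotientGroup.mk' Q with hπ
  have hp := hM.1
  -- elements of `Q` commute with regular elements
  have hreg : ∀ x : G, ¬ p ∣ orderOf x → x ∈ Subgroup.centralizer (Q : Set G) := by
    intro x hx
    have hxm : x ∈ Q ⊔ Subgroup.centralizer (Q : Set G) := hsup ▸ Subgroup.mem_top x
    obtain ⟨y, hy, c, hc, rfl⟩ := Subgroup.mem_sup_of_normal_left.1 hxm
    rw [← QuotientGroup.eq_one_iff, ← orderOf_eq_one_iff]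
    obtain ⟨k, hk⟩ := IsPGroup.iff_orderOf.1 hQ ⟨y, hy⟩
    refine Nat.eq_one_of_dvd_coprimes (a := p ^ k) (b := orderOf (y * c))
      ((hp.coprime_iff_not_dvd.2 hx).pow_left k) ?_
      (orderOf_map_dvd (QuotientGroup.mk' (Subgroup.centralizer (Q : Set G))) _)
    rw [← hk, Subgroup.orderOf_mk]
    show orderOf (QuotientGroup.mk' (Subgroup.centralizer (Q : Set G)) (y * c)) ∣ _
    rw [map_mul, show QuotientGroup.mk' (Subgroup.centralizer (Q : Set G)) c = 1 from
      (QuotientGroup.eq_one_iff c).2 hc, mul_one]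
    exact orderOf_map_dvd _ _
  have hcomm : ∀ x : G, ¬ p ∣ orderOf x → ∀ q ∈ Q, Commute q x := fun x hx q hq =>
    Subgroup.mem_centralizer_iff.mp (hreg x hx) q hq
  have hmapreg : ∀ x : G, ¬ p ∣ orderOf x → ¬ p ∣ orderOf (π x) := fun x hx h =>
    hx (h.trans (orderOf_map_dvd π x))
  -- regular lifts are unique
  have huniq : ∀ x x' : G, ¬ p ∣ orderOf x → ¬ p ∣ orderOf x' → π x = π x' → x = x' := by
    intro x x' hx hx' h
    have hq : x⁻¹ * x' ∈ Q := QuotientGroup.eq.1 h
    obtain ⟨k, hk⟩ := IsPGroup.iff_orderOf.1 hQ ⟨_, hq⟩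
    rw [Subgroup.orderOf_mk] at hk
    have h1 : IsPPart p x' (x⁻¹ * x') :=
      ⟨x, by rw [(hcomm x hx _ hq).eq, mul_inv_cancel_left], hcomm x hx _ hq, ⟨k, hk⟩, hx⟩
    have h2 : IsPPart p x' 1 := ⟨x', one_mul _, Commute.one_left _, ⟨0, by simp⟩, hx'⟩
    exact inv_mul_eq_one.1 (isPPart_unique hp h1 h2)
  -- and exist
  have hlift : ∀ y : G ⧸ Q, ¬ p ∣ orderOf y → ∃ x : G, ¬ p ∣ orderOf x ∧ π x = y := by
    intro y hy
    obtain ⟨g, rfl⟩ := QuotientGroup.mk'_surjective Q y
    obtain ⟨u, hu⟩ := exists_isPPart (p := p) hp g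
    obtain ⟨n, hn⟩ := exists_pow_eq_isPPart (G := G) hp
    have hun := hn g u hu
    obtain ⟨w, hw, -, ⟨k, hk⟩, hwr⟩ := hu
    refine ⟨w, hwr, ?_⟩
    have hu1 : π u = 1 := by
      rw [← orderOf_eq_one_iff]
      refine Nat.eq_one_of_dvd_coprimes (a := p ^ k) (b := orderOf (π g))
        ((hp.coprime_iff_not_dvd.2 hy).pow_left k) (hk ▸ orderOf_map_dvd π u) ?_
      rw [← hun, map_pow]
      exact orderOf_pow_dvd n
    conv_rhs => rw [← hw, map_mul, hu1, one_mul]
  -- centralizers of regular elements
  have hidx : ∀ x : G, ¬ p ∣ orderOf x → (Subgroup.centralizer ({π x} : Set (G ⧸ Q))).index =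
      (Subgroup.centralizer ({x} : Set G)).index := by
    intro x hx
    rw [← Subgroup.index_comap_of_surjective _ (QuotientGroup.mk'_surjective Q)]
    congr 1
    ext t
    rw [Subgroup.mem_comap, Subgroup.mem_centralizer_singleton_iff,
      Subgroup.mem_centralizer_singleton_iff]
    constructor
    · intro h
      have hconj : π (t * x * t⁻¹) = π x := by
        rw [map_mul, map_mul, map_inv, h, mul_inv_cancel_right]
      have ho : ¬ p ∣ orderOf (t * x * t⁻¹) := by
        rwa [show orderOf (t * x * t⁻¹) = orderOf x from MulEquiv.orderOf_eq (MulAut.conj t) x]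
      have := huniq _ _ ho hx hconj
      calc t * x = t * x * t⁻¹ * t := by group
        _ = x * t := by rw [this]
    · intro h
      rw [← map_mul, ← map_mul, h]
  set B := principalBlock M G with hBdef
  set B' := principalBlock M (G ⧸ Q) with hB'def
  have hB : IsPBlock M B := isPBlock_principalBlock
  have hB' : IsPBlock M B' := isPBlock_principalBlock
  have hcent : ∀ (ψ : IrrCharacter (G ⧸ Q)) (x : G), ¬ p ∣ orderOf x →
      centralChar (Chars.inflate Q ψ : G → ℂ) x = centralChar (ψ : G ⧸ Q → ℂ) (π x) := by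
    intro ψ x hx
    rw [centralChar, centralChar, hidx x hx, Chars.inflate_apply, Chars.inflate_apply]
    rfl
  have hmem : ∀ ψ : IrrCharacter (G ⧸ Q), Chars.inflate Q ψ ∈ B ↔ ψ ∈ B' := by
    intro ψ
    have hone : ∀ x : G, ¬ p ∣ orderOf x →
        centralChar (Chars.oneChar G : G → ℂ) x =
          centralChar (Chars.oneChar (G ⧸ Q) : G ⧸ Q → ℂ) (π x) := by
      intro x hx
      rw [centralChar, centralChar, hidx x hx]
      simp
    constructor
    · intro h
      refine congr_omega_block hM hB' (fun y hy => ?_) oneChar_mem_principalBlock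
      obtain ⟨x, hx, rfl⟩ := hlift y hy
      rw [← hone x hx, ← hcent ψ x hx]
      exact sameBlock_of_mem hB oneChar_mem_principalBlock h x
    · intro h
      refine congr_omega_block hM hB (fun x hx => ?_) oneChar_mem_principalBlock
      rw [hone x hx, hcent ψ x hx]
      exact sameBlock_of_mem hB' oneChar_mem_principalBlock h (π x)
  -- transport of regular class functions
  let lift : G ⧸ Q → G := fun y => if h : ¬ p ∣ orderOf y then (hlift y h).choose else 1
  have hlift1 : ∀ y : G ⧸ Q, ¬ p ∣ orderOf y → ¬ p ∣ orderOf (lift y) ∧ π (lift y) = y :=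
    fun y hy => by
      simp only [lift, dif_pos hy]
      exact (hlift y hy).choose_spec
  let Lm : (G ⧸ Q → ℂ) →ₗ[ℂ] (G → ℂ) :=
    { toFun := fun f g => if ¬ p ∣ orderOf g then f (π g) else 0
      map_add' := fun f f' => by funext g; simp only [Pi.add_apply]; split_ifs <;> simp
      map_smul' := fun c f => by funext g; simp only [Pi.smul_apply]; split_ifs <;> simp }
  let Rm : (G → ℂ) →ₗ[ℂ] (G ⧸ Q → ℂ) :=
    { toFun := fun F y => if ¬ p ∣ orderOf y then F (lift y) else 0
      map_add' := fun f f' => by funext g; simp only [Pi.add_apply]; split_ifs <;> simp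
      map_smul' := fun c f => by funext g; simp only [Pi.smul_apply]; split_ifs <;> simp }
  have hL : ∀ ψ : IrrCharacter (G ⧸ Q), Lm (pRegularPart p (ψ : G ⧸ Q → ℂ)) =
      pRegularPart p (Chars.inflate Q ψ : G → ℂ) := by
    intro ψ
    funext g
    show (if ¬ p ∣ orderOf g then pRegularPart p (ψ : G ⧸ Q → ℂ) (π g) else 0) = _
    by_cases hg : p ∣ orderOf g
    · simp [pRegularPart, IsPRegular, hg]
    · rw [if_pos hg]
      have hg' := hmapreg g hg
      rw [hπ, QuotientGroup.mk'_apply] at hg'
      simp [pRegularPart, IsPRegular, hg, hg', Chars.inflate_apply, hπ]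
  have hR : ∀ ψ : IrrCharacter (G ⧸ Q), Rm (pRegularPart p (Chars.inflate Q ψ : G → ℂ)) =
      pRegularPart p (ψ : G ⧸ Q → ℂ) := by
    intro ψ
    funext y
    show (if ¬ p ∣ orderOf y then pRegularPart p (Chars.inflate Q ψ : G → ℂ) (lift y) else 0) = _
    by_cases hy : p ∣ orderOf y
    · simp [pRegularPart, IsPRegular, hy]
    · rw [if_pos hy]
      obtain ⟨h1, h2⟩ := hlift1 y hy
      have h3 : ((lift y : G) : G ⧸ Q) = y := h2
      simp [pRegularPart, IsPRegular, hy, h1, Chars.inflate_apply, h3]
  set S' := Submodule.span ℂ ((fun ψ : IrrCharacter (G ⧸ Q) => pRegularPart p (ψ : G ⧸ Q → ℂ)) '' B')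
    with hS'
  set S := Submodule.span ℂ ((fun χ : IrrCharacter G => pRegularPart p (χ : G → ℂ)) '' B) with hS
  have hSS : S = S'.map Lm := by
    refine le_antisymm (Submodule.span_le.2 ?_) ?_
    · rintro _ ⟨χ, hχ, rfl⟩
      set φ : G ⧸ Q → ℂ := fun y => if ¬ p ∣ orderOf y then (χ : G → ℂ) (lift y) else 0 with hφ
      have hφc : IsClassFunction (G ⧸ Q) φ := by
        intro y t
        have ho : orderOf (t * y * t⁻¹) = orderOf y := MulEquiv.orderOf_eq (MulAut.conj t) y
        by_cases hy : p ∣ orderOf y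
        · simp [hφ, hy, ho]
        · obtain ⟨t, rfl⟩ := QuotientGroup.mk'_surjective Q t
          obtain ⟨h1, h2⟩ := hlift1 y hy
          obtain ⟨h3, h4⟩ := hlift1 (π t * y * (π t)⁻¹) (ho ▸ hy)
          have ho' : ¬ p ∣ orderOf (t * lift y * t⁻¹) := by
            rwa [show orderOf (t * lift y * t⁻¹) = orderOf (lift y) from
              MulEquiv.orderOf_eq (MulAut.conj t) (lift y)]
          have heq := huniq _ _ h3 ho' (by rw [h4, map_mul, map_mul, map_inv, h2])
          simp only [hφ, if_pos hy, if_pos (ho ▸ hy : ¬ p ∣ orderOf (π t * y * (π t)⁻¹))]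
          rw [heq]
          exact Chars.isClassFunction_coe χ (lift y) t
      set c : IrrCharacter (G ⧸ Q) → ℂ := fun ψ => classInner φ (ψ : G ⧸ Q → ℂ) with hc
      set F : G → ℂ := fun g => ∑ ψ, c ψ * (Chars.inflate Q ψ : G → ℂ) g with hF
      have hFc : IsClassFunction G F := fun g t => by
        simp only [hF]
        exact Finset.sum_congr rfl fun ψ _ => by rw [Chars.isClassFunction_coe (Chars.inflate Q ψ) g t]
      have h1 : pRegularPart p (χ : G → ℂ) = pRegularPart p F := by
        funext g
        by_cases hg : p ∣ orderOf g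
        · simp [pRegularPart, IsPRegular, hg]
        · simp only [pRegularPart, IsPRegular, hg, not_false_iff, if_true, hF, Chars.inflate_apply]
          have he : φ (π g) = (χ : G → ℂ) g := by
            obtain ⟨h1, h2⟩ := hlift1 (π g) (hmapreg g hg)
            simp only [hφ, if_pos (hmapreg g hg), huniq _ _ h1 hg h2]
          rw [← he, Chars.eq_sum_classInner_mul hφc (π g)]
          rfl
      have h2 := blockPart_pRegularPart hM hB (χ : G → ℂ)
      rw [blockPart_irr, Set.indicator_of_mem hχ, h1, blockPart_pRegularPart hM hB F] at h2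
      have h3 : blockPart B F = ∑ ψ, c ψ • blockPart B (Chars.inflate Q ψ : G → ℂ) := by
        funext g
        rw [blockPart_eq_sum_blockCoeff B hFc, Finset.sum_apply]
        simp only [Pi.smul_apply, smul_eq_mul,
          blockPart_eq_sum_blockCoeff B (Chars.isClassFunction_coe _), hF, Finset.mul_sum]
        rw [Finset.sum_comm]
        exact Finset.sum_congr rfl fun ψ _ => Finset.sum_congr rfl fun k _ => by ring
      have h4 : pRegularPart p (χ : G → ℂ) =
          ∑ ψ, c ψ • pRegularPart p (blockPart B (Chars.inflate Q ψ : G → ℂ)) := by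
        rw [h1, ← h2, h3]
        funext g
        rw [Finset.sum_apply]
        by_cases hg : p ∣ orderOf g <;>
          simp [pRegularPart, IsPRegular, hg, Finset.sum_apply]
      show pRegularPart p (χ : G → ℂ) ∈ Submodule.map Lm S'
      rw [h4]
      refine Submodule.sum_mem _ fun ψ _ => Submodule.smul_mem _ _ ?_
      rw [blockPart_irr]
      by_cases hψ : Chars.inflate Q ψ ∈ B
      · rw [Set.indicator_of_mem hψ, ← hL]
        exact Submodule.mem_map_of_mem (Submodule.subset_span ⟨ψ, (hmem ψ).1 hψ, rfl⟩)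
      · rw [Set.indicator_of_notMem hψ]
        have : pRegularPart p (0 : G → ℂ) = 0 := by
          funext g
          simp [pRegularPart]
        rw [this]
        exact Submodule.zero_mem _
    · rw [hS', Submodule.map_span, Submodule.span_le]
      rintro _ ⟨_, ⟨ψ, hψ, rfl⟩, rfl⟩
      rw [SetLike.mem_coe, hL]
      exact Submodule.subset_span ⟨Chars.inflate Q ψ, (hmem ψ).2 hψ, rfl⟩
  have hS'S : S' = S.map Rm := by
    rw [hSS, hS', Submodule.map_span, Submodule.map_span]
    congr 1
    rw [Set.image_image, Set.image_image]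
    refine Set.image_congr fun ψ _ => ?_
    simp only [hL, hR]
  rw [blockRank, blockRank]
  show Module.finrank ℂ S = Module.finrank ℂ S'
  exact le_antisymm (by rw [hSS]; exact Submodule.finrank_map_le _ _)
    (by rw [hS'S]; exact Submodule.finrank_map_le _ _)

end Cfsg.Agent.S4571
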