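import Cfsg.Statements.S4735
import Cfsg.Agent.Blocks.Orth.PrincipalGalois
import Cfsg.Agent.Chars.Basic.Columns
import Cfsg.Agent.Chars.Basic.Values
import Cfsg.Agent.Constrained.Basic
import Cfsg.Agent.Eq.Def_Blocks

set_option autoImplicit false
open Cfsg CfsgLib

namespace Cfsg.Agent.S4735

/-- Let p be a prime, M a maximal ideal of the algebraic integers containing p, G a finite group, H = O_p'(G) and Ḡ = G/H. For x ∈ G write λ(G, x) for the sum of |χ(x)|^2 over the irreducible characters χ in the principal p-block of G. Then λ(G, x) is a positive integer, λ(G, x) = λ(Ḡ, x̄) where x̄ is the image of x, and λ(G, x) ≤ #C_Ḡ(x̄). Moreover λ(G, 1) = [G : H] if and only if the principal block is the only p-block of Ḡ. -/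
theorem result {G : Type*} [Group G] [Finite G] (p : ℕ) [Fact p.Prime] (M : Ideal Cfsg.AlgInt) (hM : Cfsg.IsPModular p M) (x : G) : (∃ n : ℕ, 0 < n ∧ ∑ᶠ χ ∈ Cfsg.principalBlock M G, Complex.normSq ((χ : G → ℂ) x) = n) ∧ ∑ᶠ χ ∈ Cfsg.principalBlock M G, Complex.normSq ((χ : G → ℂ) x) = ∑ᶠ ψ ∈ Cfsg.principalBlock M (G ⧸ Cfsg.pPrimeCore p G), Complex.normSq ((ψ : G ⧸ Cfsg.pPrimeCore p G → ℂ) (QuotientGroup.mk x)) ∧ ∑ᶠ χ ∈ Cfsg.principalBlock M G, Complex.normSq ((χ : G → ℂ) x) ≤ (Nat.card ↥(Subgroup.centralizer ({(QuotientGroup.mk x : G ⧸ Cfsg.pPrimeCore p G)} : Set (G ⧸ Cfsg.pPrimeCore p G))) : ℝ) ∧ ((∑ᶠ χ ∈ Cfsg.principalBlock M G, Cfsg.charDegree (χ : G → ℂ) ^ 2) = (Cfsg.pPrimeCore p G).index ↔ ∀ B : Set (Cfsg.IrrCharacter (G ⧸ Cfsg.pPrimeCore p G)), Cfsg.IsPBlock M B → B = Cfsg.principalBlock M (G ⧸ Cfsg.pPrimeCore p G)) := by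
  classical
  haveI : Fintype G := Fintype.ofFinite G
  haveI : Fintype (G ⧸ pPrimeCore p G) := Fintype.ofFinite _
  have := hM.2.1
  set N := pPrimeCore p G with hNdef
  have hN : ¬ p ∣ Nat.card N := Constrained.pPrimeCore_not_dvd
  set SG : Finset (IrrCharacter G) := (Set.toFinite (principalBlock M G)).toFinset
  set SQ : Finset (IrrCharacter (G ⧸ N)) := (Set.toFinite (principalBlock M (G ⧸ N))).toFinset
  have hSG : ∀ χ, χ ∈ SG ↔ χ ∈ principalBlock M G := fun χ => Set.Finite.mem_toFinset _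
  have hSQ : ∀ ψ, ψ ∈ SQ ↔ ψ ∈ principalBlock M (G ⧸ N) := fun ψ => Set.Finite.mem_toFinset _
  have f1 : ∑ᶠ χ ∈ principalBlock M G, Complex.normSq ((χ : G → ℂ) x) =
      ∑ χ ∈ SG, Complex.normSq ((χ : G → ℂ) x) := finsum_mem_eq_finite_toFinset_sum _ _
  have f2 : ∑ᶠ ψ ∈ principalBlock M (G ⧸ N),
        Complex.normSq ((ψ : G ⧸ N → ℂ) (QuotientGroup.mk x)) =
      ∑ ψ ∈ SQ, Complex.normSq ((ψ : G ⧸ N → ℂ) (QuotientGroup.mk x)) :=
    finsum_mem_eq_finite_toFinset_sum _ _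
  have f3 : ∑ᶠ χ ∈ principalBlock M G, charDegree (χ : G → ℂ) ^ 2 =
      ∑ χ ∈ SG, charDegree (χ : G → ℂ) ^ 2 := finsum_mem_eq_finite_toFinset_sum _ _
  rw [f1, f2, f3]
  have himg : SG = SQ.image (Chars.inflate N) := by
    ext χ
    rw [hSG, Finset.mem_image]
    constructor
    · intro hχ
      obtain ⟨ψ, rfl⟩ := Chars.exists_inflate_eq N χ
        (Blocks.le_charKer_of_mem_principalBlock N hM hN hχ)
      exact ⟨ψ, (hSQ ψ).2 ((Blocks.Orth.inflate_mem_principalBlock_iff hM N hN ψ).1 hχ), rfl⟩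
    · rintro ⟨ψ, hψ, rfl⟩
      exact (Blocks.Orth.inflate_mem_principalBlock_iff hM N hN ψ).2 ((hSQ ψ).1 hψ)
  have hinj : Set.InjOn (Chars.inflate N) (SQ : Set (IrrCharacter (G ⧸ N))) :=
    (Chars.inflate_injective N).injOn
  have h2 : ∑ χ ∈ SG, Complex.normSq ((χ : G → ℂ) x) =
      ∑ ψ ∈ SQ, Complex.normSq ((ψ : G ⧸ N → ℂ) (QuotientGroup.mk x)) := by
    rw [himg, Finset.sum_image hinj]
    rfl
  refine ⟨?_, h2, ?_, ?_⟩
  · obtain ⟨m, hm⟩ := Blocks.Orth.exists_int_of_pow_invariant SG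
      (fun k hk χ hχ => (hSG _).2 (Blocks.Orth.powIrr_mem_principalBlock hk ((hSG χ).1 hχ))) x
    have hreal : (((∑ χ ∈ SG, Complex.normSq ((χ : G → ℂ) x)) : ℝ) : ℂ) = m := by
      rw [← hm, Complex.ofReal_sum]
      exact Finset.sum_congr rfl fun χ _ => by
        rw [← Complex.mul_conj, Chars.map_inv_eq_conj (Chars.isCharacter_coe χ)]
    have hm' : ∑ χ ∈ SG, Complex.normSq ((χ : G → ℂ) x) = (m : ℝ) := by exact_mod_cast hreal
    have h1 : (1 : ℝ) ≤ (m : ℝ) := by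
      rw [← hm']
      refine le_trans ?_ (Finset.single_le_sum (fun χ _ => Complex.normSq_nonneg _)
        ((hSG (Chars.oneChar G)).2 Blocks.oneChar_mem_principalBlock))
      simp
    have hm1 : 1 ≤ m := by exact_mod_cast h1
    lift m to ℕ using (by omega) with n
    exact ⟨n, by omega, by simpa using hm'⟩
  · rw [h2, ← Chars.sum_irr_norm_sq]
    simp only [← Complex.normSq_eq_norm_sq]
    exact Finset.sum_le_sum_of_subset_of_nonneg (Finset.subset_univ _)
      fun χ _ _ => Complex.normSq_nonneg _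
  · rw [himg, Finset.sum_image hinj]
    simp only [Chars.charDegree_inflate]
    rw [Subgroup.index_eq_card, ← Chars.sum_charDegree_sq]
    constructor
    · intro h B hB
      have huniv : SQ = Finset.univ := by
        by_contra hne
        obtain ⟨ψ, hψ⟩ : ∃ ψ, ψ ∉ SQ := not_forall.1 fun ha => hne (Finset.eq_univ_of_forall ha)
        refine absurd h (Nat.ne_of_lt (Finset.sum_lt_sum_of_subset (Finset.subset_univ _)
          (Finset.mem_univ ψ) hψ (pow_pos (Chars.charDegree_pos ψ) 2) fun _ _ _ => Nat.zero_le _))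
      obtain ⟨χ, hχ⟩ := hB
      have hχ' : χ ∈ principalBlock M (G ⧸ N) := (hSQ χ).1 (huniv ▸ Finset.mem_univ χ)
      exact Blocks.eq_blockOf_of_mem Blocks.isPBlock_principalBlock hχ' ▸ hχ
    · intro h
      refine Finset.sum_congr (Finset.eq_univ_of_forall fun ψ => (hSQ ψ).2 ?_) fun _ _ => rfl
      rw [← h _ ⟨ψ, rfl⟩]
      exact Blocks.self_mem_blockOf ψ

end Cfsg.Agent.S4735
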