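import Cfsg.Statements.S0965
import Cfsg.Agent.Blocks.Covering.Basic

set_option autoImplicit false
open Cfsg

namespace Cfsg.Agent.S0965
open CfsgLib.BlocksCover in
theorem congr_inducedCentralChar {G : Type*} [Group G] [Fintype G] {M : Ideal AlgInt} [M.IsMaximal] {N : Subgroup G}
    [N.Normal] [Fintype N] {θ η : IrrCharacter N} (n : N) (h : SameBlock M (θ : N → ℂ) (η : N → ℂ)) :
    CfsgLib.Blocks.Congr M (inducedCentralChar N (θ : N → ℂ) (n : G)) (inducedCentralChar N (η : N → ℂ) (n : G)) := by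
  classical
  let a : N → ℂ := fun m => if IsConj (n : G) (m : G) then 1 else 0
  have hz : CfsgLib.Blocks.ofFun a ∈ CfsgLib.Blocks.centerO M N := by
    refine ⟨fun g k => ?_, fun g => ?_⟩
    · simp only [CfsgLib.Blocks.coeff_ofFun, a]
      refine if_congr ⟨fun hc => hc.trans ?_, fun hc => hc.trans ?_⟩ rfl rfl
      · exact (isConj_iff.2 ⟨(k : G), by simp⟩).symm
      · exact isConj_iff.2 ⟨(k : G), by simp⟩
    · show MemLocalRing M (a g)
      simp only [a]
      split_ifs
      exacts [(CfsgLib.Blocks.localRing M).one_mem, (CfsgLib.Blocks.localRing M).zero_mem]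
  have key : ∀ φ : IrrCharacter N, inducedCentralChar N (φ : N → ℂ) (n : G) = CfsgLib.Blocks.omega (φ : N → ℂ) (CfsgLib.Blocks.ofFun a) := fun φ => by
    rw [inducedCentralChar_eq_sum, CfsgLib.Blocks.omega_ofFun]
    exact Finset.sum_congr rfl fun m _ => by simp only [a]; split_ifs <;> simp
  rw [key, key]
  exact CfsgLib.Blocks.congr_omega_of_sameBlock hz h


/-- Let N be a normal subgroup of the finite group G and let B, b be blocks of G and of N relative to a maximal ideal M of the algebraic integers containing the prime p. Then some χ ∈ B has a constituent in b on restriction to N if and only if, for all χ ∈ B, θ ∈ b and n ∈ N, the central character of χ at n is congruent modulo the local ideal at M to the sum of θ m / θ 1 over the elements m ∈ N conjugate in G to n. -/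
theorem result {G : Type*} [Group G] [Fintype G] (p : ℕ) [Fact p.Prime] (M : Ideal Cfsg.AlgInt) (hM : Cfsg.IsPModular p M) (N : Subgroup G) [N.Normal] [Fintype N] (B : Set (Cfsg.IrrCharacter G)) (hB : Cfsg.IsPBlock M B) (b : Set (Cfsg.IrrCharacter N)) (hb : Cfsg.IsPBlock M b) : (∃ χ ∈ B, ∃ θ ∈ b, Cfsg.classInner (fun n : N => (χ : G → ℂ) n) (θ : N → ℂ) ≠ 0) ↔ ∀ χ ∈ B, ∀ θ ∈ b, ∀ n : N, Cfsg.MemLocalIdeal M (Cfsg.centralChar (χ : G → ℂ) (n : G) - Cfsg.inducedCentralChar N (θ : N → ℂ) (n : G)) := by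
  haveI := hM.2.1
  constructor
  · rintro ⟨χ₀, hχ₀, θ₀, hθ₀, hcon⟩ χ hχ θ hθ n
    refine CfsgLib.Blocks.Congr.trans (CfsgLib.Blocks.sameBlock_of_mem hB hχ hχ₀ (n : G)) ?_
    rw [(CfsgLib.BlocksCover.constituent_iff_centralChar χ₀ θ₀).1 hcon n]
    exact congr_inducedCentralChar n (CfsgLib.Blocks.sameBlock_of_mem hb hθ₀ hθ)
  · intro h
    obtain ⟨χ, hχ⟩ := CfsgLib.Blocks.nonempty_of_isPBlock hB
    obtain ⟨θ, hθ⟩ := CfsgLib.Blocks.nonempty_of_isPBlock hb
    obtain ⟨ψ, hψ⟩ := CfsgLib.BlocksCover.exists_constituent χ N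
    have hc : ∀ n : N, CfsgLib.Blocks.Congr M (inducedCentralChar N (θ : N → ℂ) (n : G)) (inducedCentralChar N (ψ : N → ℂ) (n : G)) := fun n => by
      rw [← (CfsgLib.BlocksCover.constituent_iff_centralChar χ ψ).1 hψ n]
      exact CfsgLib.Blocks.Congr.symm (h χ hχ θ hθ n)
    obtain ⟨x, hx⟩ := CfsgLib.BlocksCover.exists_sameBlock_conj hc
    refine ⟨χ, hχ, _, CfsgLib.Blocks.mem_of_sameBlock hb hθ hx, ?_⟩
    rw [CfsgLib.BlocksCover.mult_ne_zero_iff, CfsgLib.Chars.Induced.mult_restrict_conjIrr (CfsgLib.Chars.isClassFunction_coe χ), ← CfsgLib.BlocksCover.mult_ne_zero_iff]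
    exact hψ

end Cfsg.Agent.S0965
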