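import Cfsg.Statements.S0971
import Cfsg.Agent.Blocks.Covering.Basic
import Cfsg.Agent.Blocks.Basic.PGroup
import Cfsg.Agent.S0965

set_option autoImplicit false
open Cfsg

namespace Cfsg.Agent.S0971

/-- Let Q be a normal p-subgroup of the finite group G, let N = Q ⊔ C_G(Q) (a normal subgroup) and let b be a block of N relative to a maximal ideal M of the algebraic integers containing p. Then b induces some block of G, and every block B of G containing a character whose restriction to N has a constituent in b is induced by b. -/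
theorem result {G : Type*} [Group G] [Fintype G] (p : ℕ) [Fact p.Prime] (M : Ideal Cfsg.AlgInt) (hM : Cfsg.IsPModular p M) (Q : Subgroup G) [Q.Normal] (hQ : IsPGroup p Q) [Fintype ↥(Q ⊔ Subgroup.centralizer (Q : Set G))] (b : Set (Cfsg.IrrCharacter ↥(Q ⊔ Subgroup.centralizer (Q : Set G)))) (hb : Cfsg.IsPBlock M b) : Cfsg.InducedBlockDefined M (Q ⊔ Subgroup.centralizer (Q : Set G)) b ∧ ∀ B : Set (Cfsg.IrrCharacter G), Cfsg.IsPBlock M B → (∃ χ ∈ B, ∃ θ ∈ b, Cfsg.classInner (fun n : ↥(Q ⊔ Subgroup.centralizer (Q : Set G)) => (χ : G → ℂ) n) (θ : ↥(Q ⊔ Subgroup.centralizer (Q : Set G)) → ℂ) ≠ 0) → Cfsg.IsInducedBlock M (Q ⊔ Subgroup.centralizer (Q : Set G)) b B := by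
  classical
  haveI := hM.2.1
  haveI : (Subgroup.centralizer (Q : Set G)).Normal := Subgroup.normal_centralizer
  haveI : (Q ⊔ Subgroup.centralizer (Q : Set G)).Normal := Subgroup.sup_normal _ _
  have key : ∀ B : Set (IrrCharacter G), IsPBlock M B →
      (∃ χ ∈ B, ∃ θ ∈ b, classInner (fun n : ↥(Q ⊔ Subgroup.centralizer (Q : Set G)) => (χ : G → ℂ) n) (θ : ↥(Q ⊔ Subgroup.centralizer (Q : Set G)) → ℂ) ≠ 0) → IsInducedBlock M (Q ⊔ Subgroup.centralizer (Q : Set G)) b B := by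
    rintro B hB ⟨χ₀, hχ₀, θ₀, hθ₀, hcon⟩
    refine ⟨hb, hB, fun ξ hξ χ hχ g => ?_⟩
    show CfsgLib.Blocks.Congr M _ _
    by_cases hg : g ∈ (Q ⊔ Subgroup.centralizer (Q : Set G))
    · refine CfsgLib.Blocks.Congr.trans ?_ (CfsgLib.Blocks.sameBlock_of_mem hB hχ₀ hχ g)
      rw [(CfsgLib.BlocksCover.constituent_iff_centralChar χ₀ θ₀).1 hcon ⟨g, hg⟩]
      exact Cfsg.Agent.S0965.congr_inducedCentralChar ⟨g, hg⟩ (CfsgLib.Blocks.sameBlock_of_mem hb hξ hθ₀)
    · have h0 : inducedCentralChar (Q ⊔ Subgroup.centralizer (Q : Set G)) (ξ : ↥(Q ⊔ Subgroup.centralizer (Q : Set G)) → ℂ) g = 0 := by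
        refine CfsgLib.BlocksCover.inducedCentralChar_eq_zero (Q ⊔ Subgroup.centralizer (Q : Set G)) _ fun x hx => hg ?_
        obtain ⟨c, hc⟩ := isConj_iff.1 hx.symm
        exact hc ▸ (inferInstance : (Q ⊔ Subgroup.centralizer (Q : Set G)).Normal).conj_mem _ x.2 c
      rw [h0]
      refine CfsgLib.Blocks.Congr.symm (CfsgLib.Blocks.memLocalIdeal_iff_congr_zero.1 ?_)
      exact (CfsgLib.Blocks.congr_centralChar_normal_pGroup hM hQ χ g).1 fun h => hg (Subgroup.mem_sup_right h)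
  refine ⟨?_, key⟩
  obtain ⟨θ, hθ⟩ := CfsgLib.Blocks.nonempty_of_isPBlock hb
  obtain ⟨χ, hχ⟩ := CfsgLib.BlocksCover.exists_irr_over (Q ⊔ Subgroup.centralizer (Q : Set G)) θ
  exact ⟨_, key _ ⟨χ, rfl⟩ ⟨χ, CfsgLib.Blocks.self_mem_blockOf χ, θ, hθ, hχ⟩⟩

end Cfsg.Agent.S0971
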