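import Cfsg.Statements.S0972
import Cfsg.Agent.Blocks.HeightZero.MinMax
import Cfsg.Agent.Blocks.Defect.CentralExt
import Cfsg.Agent.Blocks.Covering.FongReynolds
import Cfsg.Agent.Blocks.HeightZero.Covering
import Cfsg.Agent.Blocks.Defect.Covered
import Cfsg.Agent.Blocks.Subsection.Major
import Cfsg.Agent.S0971
import Cfsg.Agent.S4437
import Cfsg.Agent.Chars.Induced.Ito
import Cfsg.Agent.Chars.Basic.Linear
import Cfsg.Agent.Eq.Def_Blocks

set_option autoImplicit false
open Cfsg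

namespace Cfsg.Agent.S0972

/-- Let B be a block of the finite group G (relative to a maximal ideal M of the algebraic integers containing the prime p) with a defect group P that is normal in G. Then P is commutative if and only if every member of B has height zero. -/
theorem result {G : Type*} [Group G] [Finite G] (p : ℕ) [Fact p.Prime] (M : Ideal Cfsg.AlgInt) (hM : Cfsg.IsPModular p M) (B : Set (Cfsg.IrrCharacter G)) (hB : Cfsg.IsPBlock M B) (P : Subgroup G) [P.Normal] (hP : Cfsg.IsDefectGroup p M B P) : (∀ a ∈ P, ∀ c ∈ P, a * c = c * a) ↔ ∀ χ ∈ B, Cfsg.blockHeight p B (χ : G → ℂ) = 0 := by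
  haveI := hM.2.1
  haveI := CfsgLib.Blocks.charP_kres hM
  classical
  haveI := Fintype.ofFinite G
  have hp : p.Prime := Fact.out
  have hPp : IsPGroup p P := by
    obtain ⟨_, _, S, rfl⟩ := hP
    exact S.2.map _
  set H := P ⊔ Subgroup.centralizer (P : Set G) with hH
  haveI : (Subgroup.centralizer (P : Set G)).Normal := Subgroup.normal_centralizer
  haveI : H.Normal := Subgroup.sup_normal _ _
  haveI : Fintype H := Fintype.ofFinite H
  -- a covered block of `H`
  obtain ⟨χ₀, hχ₀⟩ := CfsgLib.Blocks.nonempty_of_isPBlock hB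
  obtain ⟨η₀, hη₀⟩ := CfsgLib.BlocksCover.exists_constituent χ₀ H
  set b := Cfsg.blockOf M (η₀ : H → ℂ) with hb'
  have hb : Cfsg.IsPBlock M b := ⟨η₀, rfl⟩
  have hcov : ∃ χ ∈ B, ∃ θ ∈ b, Cfsg.classInner (fun n : H => (χ : G → ℂ) n) (θ : H → ℂ) ≠ 0 :=
    ⟨χ₀, hχ₀, η₀, CfsgLib.Blocks.self_mem_blockOf η₀, hη₀⟩
  have hind : Cfsg.IsInducedBlock M H b B := (Cfsg.Agent.S0971.result p M hM P hPp b hb).2 B hB hcov
  have hPH : P ≤ H := le_sup_left
  -- its defect group
  have hbP : Cfsg.IsDefectGroup p M b (P.subgroupOf H) := by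
    obtain ⟨Q, hQ⟩ := (CfsgLib.Blocks.isBlockIdem_subEl hb (M := M)).exists_defectGroup p
    obtain ⟨P', hP', hinf⟩ := CfsgLib.Blocks.exists_defectGroup_inf_eq
      (CfsgLib.Blocks.isBlockIdem_topEl hB) (CfsgLib.Blocks.isBlockIdem_subEl hb) hQ
      (CfsgLib.Blocks.topEl_mul_subEl_ne_zero hB hb hχ₀ (CfsgLib.Blocks.self_mem_blockOf η₀) hη₀)
    have hP'eq : P' = P := by
      obtain ⟨x, hx⟩ := CfsgLib.Blocks.HeightZero.defectGroup_conj_eq hM hB hP
        ((CfsgLib.Blocks.isDefectGroup_topEl_iff hB P').2 hP')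
      rw [← hx, CfsgLib.Blocks.map_conj_eq_self_of_mem_normalizer
        ((Subgroup.normalizer_eq_top_iff.mpr (inferInstance : P.Normal)).ge (Subgroup.mem_top x))]
    rw [hP'eq, inf_eq_left.2 hPH] at hinf
    rw [CfsgLib.Blocks.isDefectGroup_subEl_iff hb, Subgroup.map_subgroupOf_eq_of_le hPH, hinf]
    exact hQ
  set T := (CfsgLib.Blocks.HeightZero.blockStab b : Subgroup G) with hT
  haveI : Fintype T := Fintype.ofFinite T
  have hTb : ∀ g, g ∈ T ↔ g ∈ CfsgLib.Blocks.HeightZero.blockStab b := fun g => Iff.rfl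
  have hHT : H ≤ T := fun x hx θ => by
    rw [show CfsgLib.Chars.Induced.conjIrr x θ = θ from Subtype.ext
      (CfsgLib.Chars.Induced.conjFun_of_mem (CfsgLib.Chars.isClassFunction_coe θ) hx)]
  have hndvd : ¬ p ∣ H.relIndex T := by
    refine (Cfsg.Agent.S4437.result p M hM P hPp H rfl b hb hbP B hind T fun g => ?_).mp hP
    have key : ∀ θ θ' : Cfsg.IrrCharacter H,
        (∀ h h' : H, (h' : G) = g * h * g⁻¹ → (θ' : H → ℂ) h' = (θ : H → ℂ) h) ↔
          θ' = CfsgLib.Chars.Induced.conjIrr g θ := by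
      intro θ θ'
      constructor
      · intro h
        refine Subtype.ext (funext fun n => ?_)
        rw [CfsgLib.Chars.Induced.conjIrr_coe, CfsgLib.Chars.Induced.conjFun_apply]
        exact h _ n (by simp [mul_assoc])
      · rintro rfl h h' hh
        rw [CfsgLib.Chars.Induced.conjIrr_coe, CfsgLib.Chars.Induced.conjFun_apply]
        exact congrArg (θ : H → ℂ) (Subtype.ext (by simp [hh, mul_assoc]))
    constructor
    · intro hg
      refine ⟨(Subgroup.normalizer_eq_top_iff.mpr (inferInstance : P.Normal)).ge (Subgroup.mem_top g),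
        fun θ hθ θ' h => ?_⟩
      rw [(key θ θ').1 h]
      exact (hg θ).2 hθ
    · rintro ⟨-, hg⟩
      exact CfsgLib.Blocks.HeightZero.mem_blockStab_of_conj_mem hb (CfsgLib.Blocks.self_mem_blockOf η₀)
        (hg η₀ (CfsgLib.Blocks.self_mem_blockOf η₀) _ ((key η₀ _).2 rfl))
  -- parametrise the members of `b`
  have hsup : P.subgroupOf H ⊔ Subgroup.centralizer ((P.subgroupOf H : Subgroup H) : Set H) = ⊤ := by
    rw [eq_top_iff]
    rintro ⟨x, hx⟩ -
    obtain ⟨a, ha, c, hc, hac⟩ := Subgroup.mem_sup_of_normal_left.mp (hx : x ∈ P ⊔ Subgroup.centralizer (P : Set G))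
    rw [show (⟨x, hx⟩ : H) = ⟨a, le_sup_left (a := P) ha⟩ * ⟨c, le_sup_right (b := Subgroup.centralizer (P : Set G)) hc⟩ from
      Subtype.ext hac.symm]
    refine Subgroup.mul_mem_sup (show a ∈ P from ha) ?_
    rw [Subgroup.mem_centralizer_iff]
    rintro ⟨y, hy⟩ hyP
    exact Subtype.ext (Subgroup.mem_centralizer_iff.1 hc y hyP)
  let e : P.subgroupOf H ≃* P := Subgroup.subgroupOfEquivOfLe hPH
  obtain ⟨θ, hθ, E, hE, hbE, hθdeg, hdeg⟩ := CfsgLib.Blocks.CentralExt.exists_param p M hM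
    (P.subgroupOf H) (hPp.of_equiv e.symm) hsup b hb hbP
  -- degrees in `B`
  have hle : CfsgLib.Blocks.HeightZero.blockStab b ≤ T := le_rfl
  have hBdeg : ∀ χ ∈ B, ∀ η ∈ b, Cfsg.classInner (fun n : H => (χ : G → ℂ) n) (η : H → ℂ) ≠ 0 →
      (Cfsg.charDegree (χ : G → ℂ)).factorization p =
        T.index.factorization p + (Cfsg.charDegree (η : H → ℂ)).factorization p := by
    intro χ hχ η hη hc
    have hI := CfsgLib.FongReynolds.inertia_le hb hle hη
    obtain ⟨ψ, hψη, hψχ⟩ := CfsgLib.FongReynolds.exists_indFun_eq hI hHT χ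
      ((CfsgLib.BlocksCover.mult_ne_zero_iff χ η).1 hc)
    haveI : Fintype (H.subgroupOf T) := Fintype.ofFinite _
    haveI : (H.subgroupOf T).Normal := inferInstance
    have h1 := CfsgLib.Chars.Induced.charDegree_dvd_mul_index ψ (CfsgLib.FongReynolds.liftIrr hHT η)
      (by rwa [CfsgLib.FongReynolds.mult_liftIrr])
    rw [show Cfsg.charDegree (CfsgLib.FongReynolds.liftIrr hHT η : H.subgroupOf T → ℂ) =
      Cfsg.charDegree (η : H → ℂ) from CfsgLib.Chars.charDegree_irrEquiv _ η] at h1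
    have h2 := (Nat.factorization_le_iff_dvd (CfsgLib.Chars.charDegree_pos ψ).ne'
      (mul_ne_zero (CfsgLib.Chars.charDegree_pos η).ne' Subgroup.index_ne_zero_of_finite)).2 h1 p
    rw [Nat.factorization_mul (CfsgLib.Chars.charDegree_pos η).ne' Subgroup.index_ne_zero_of_finite,
      Finsupp.add_apply, Nat.factorization_eq_zero_of_not_dvd (show ¬ p ∣ (H.subgroupOf T).index from hndvd),
      add_zero] at h2
    have h3 := CfsgLib.FongReynolds.map_one_of_multOn hψη
    have h4 : Cfsg.charDegree (η : H → ℂ) ∣ Cfsg.charDegree (ψ : T → ℂ) := by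
      refine ⟨CfsgLib.FongReynolds.multOn hHT ψ η * (CfsgLib.Chars.Induced.inertia H (η : H → ℂ)).relIndex T, ?_⟩
      apply Nat.cast_injective (R := ℂ)
      push_cast
      rw [CfsgLib.Chars.coe_charDegree, CfsgLib.Chars.coe_charDegree, h3]
      ring
    have h5 := (Nat.factorization_le_iff_dvd (CfsgLib.Chars.charDegree_pos η).ne'
      (CfsgLib.Chars.charDegree_pos ψ).ne').2 h4 p
    rw [CfsgLib.FongReynolds.charDegree_of_eq_indFun hψχ.symm, Nat.factorization_mul
      Subgroup.index_ne_zero_of_finite (CfsgLib.Chars.charDegree_pos ψ).ne', Finsupp.add_apply]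
    omega
  have hover : ∀ χ ∈ B, ∃ η ∈ b, Cfsg.classInner (fun n : H => (χ : G → ℂ) n) (η : H → ℂ) ≠ 0 := by
    intro χ hχ
    obtain ⟨η, hη⟩ := CfsgLib.BlocksCover.exists_constituent χ H
    have h0 := (CfsgLib.BlocksCover.constituent_iff_centralChar χ₀ η₀).1 hη₀
    have h1 := (CfsgLib.BlocksCover.constituent_iff_centralChar χ η).1 hη
    obtain ⟨x, hx⟩ := CfsgLib.BlocksCover.exists_sameBlock_conj (θ := η₀) (ψ := η) fun n => by
      rw [← h0 n, ← h1 n]
      exact CfsgLib.Blocks.sameBlock_of_mem hB hχ₀ hχ _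
    refine ⟨_, CfsgLib.Blocks.mem_of_sameBlock hb (CfsgLib.Blocks.self_mem_blockOf η₀) hx, ?_⟩
    rw [CfsgLib.BlocksCover.mult_ne_zero_iff, CfsgLib.Chars.Induced.mult_restrict_conjIrr
      (CfsgLib.Chars.isClassFunction_coe χ), ← CfsgLib.BlocksCover.mult_ne_zero_iff]
    exact hη
  have hchar : ∀ χ ∈ B, ∃ μ : Cfsg.IrrCharacter (P.subgroupOf H), (Cfsg.charDegree (χ : G → ℂ)).factorization p =
      T.index.factorization p + (P.subgroupOf H).index.factorization p +
        (Cfsg.charDegree (μ : P.subgroupOf H → ℂ)).factorization p := by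
    intro χ hχ
    obtain ⟨η, hη, hc⟩ := hover χ hχ
    obtain ⟨μ, rfl⟩ : η ∈ Set.range E := hbE ▸ hη
    refine ⟨μ, ?_⟩
    rw [hBdeg χ hχ _ hη hc, hdeg, Nat.factorization_mul (CfsgLib.Chars.charDegree_pos μ).ne'
      (CfsgLib.Chars.charDegree_pos θ).ne', Finsupp.add_apply, hθdeg]
    omega
  have hreal : ∀ μ : Cfsg.IrrCharacter (P.subgroupOf H), ∃ χ ∈ B, (Cfsg.charDegree (χ : G → ℂ)).factorization p =
      T.index.factorization p + (P.subgroupOf H).index.factorization p +
        (Cfsg.charDegree (μ : P.subgroupOf H → ℂ)).factorization p := by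
    intro μ
    have hμ : E μ ∈ b := hbE ▸ ⟨μ, rfl⟩
    obtain ⟨χ, hχ, hc⟩ := CfsgLib.Blocks.HeightZero.exists_over_of_covers hM hB hb hχ₀
      (CfsgLib.Blocks.self_mem_blockOf η₀) hη₀ hμ
    refine ⟨χ, hχ, ?_⟩
    rw [hBdeg χ hχ _ hμ hc, hdeg, Nat.factorization_mul (CfsgLib.Chars.charDegree_pos μ).ne'
      (CfsgLib.Chars.charDegree_pos θ).ne', Finsupp.add_apply, hθdeg]
    omega
  have hmin : CfsgLib.Blocks.HeightZero.minExp p B =
      T.index.factorization p + (P.subgroupOf H).index.factorization p := by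
    obtain ⟨χ, hχ, h0⟩ := CfsgLib.Blocks.HeightZero.exists_height_zero (p := p) hB
    rw [CfsgLib.Blocks.HeightZero.blockHeight_eq_zero_iff' hχ] at h0
    obtain ⟨μ, hμ⟩ := hchar χ hχ
    obtain ⟨χ', hχ', h'⟩ := hreal (CfsgLib.Chars.oneChar _)
    have := CfsgLib.Blocks.HeightZero.minExp_le (p := p) hχ'
    rw [h', (CfsgLib.Chars.charDegree_eq_one_iff _).2 (by simp [CfsgLib.Chars.oneChar_coe]),
      Nat.factorization_one] at this
    simp only [Finsupp.zero_apply, add_zero] at this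
    omega
  constructor
  · intro hab χ hχ
    obtain ⟨μ, hμ⟩ := hchar χ hχ
    haveI : IsMulCommutative (P.subgroupOf H) :=
      ⟨⟨fun a c => Subtype.ext (Subtype.ext (hab _ a.2 _ c.2))⟩⟩
    rw [CfsgLib.Blocks.HeightZero.blockHeight_eq_zero_iff' hχ, hμ, hmin,
      (CfsgLib.Chars.charDegree_eq_one_iff μ).2 (CfsgLib.Chars.map_one_eq_one_of_isMulCommutative μ),
      Nat.factorization_one]
    simp
  · intro hh a ha c hc
    have hlin : ∀ μ : Cfsg.IrrCharacter (P.subgroupOf H), (μ : P.subgroupOf H → ℂ) 1 = 1 := by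
      intro μ
      obtain ⟨χ, hχ, hv⟩ := hreal μ
      have h0 := hh χ hχ
      rw [CfsgLib.Blocks.HeightZero.blockHeight_eq_zero_iff' hχ, hv, hmin] at h0
      rw [← CfsgLib.Chars.charDegree_eq_one_iff]
      obtain ⟨j, hj⟩ := IsPGroup.iff_card.mp (hPp.of_equiv e.symm)
      obtain ⟨i, -, hi⟩ := (Nat.dvd_prime_pow hp).mp (hj ▸ CfsgLib.Chars.charDegree_dvd_card μ)
      rw [hi, Nat.factorization_pow_self hp] at h0
      rw [hi, show i = 0 by omega, pow_zero]
    have h := CfsgLib.Chars.commutator_eq_bot_iff.2 hlin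
    open scoped commutatorElement in
    have h1 : ⁅(⟨⟨a, hPH ha⟩, ha⟩ : P.subgroupOf H), (⟨⟨c, hPH hc⟩, hc⟩ : P.subgroupOf H)⁆ = 1 := by
      rw [← Subgroup.mem_bot, ← h]
      exact Subgroup.commutator_mem_commutator (Subgroup.mem_top _) (Subgroup.mem_top _)
    exact congrArg (fun z : P.subgroupOf H => ((z : H) : G)) (commutatorElement_eq_one_iff_mul_comm.1 h1)

end Cfsg.Agent.S0972
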