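import Cfsg.Statements.S4434
import Cfsg.Agent.Blocks.Defect.Quotient
import Cfsg.Agent.Blocks.Defect.Translate
import Cfsg.Agent.Blocks.Orth.Blocks
import Cfsg.Agent.Blocks.Subsection.Major
import Cfsg.Agent.Eq.Def_Blocks

set_option autoImplicit false
open Cfsg

namespace Cfsg.Agent.S4434

/-- Let N be a normal p-subgroup of the finite group G and write Ḡ = G/N; fix a maximal ideal M of the algebraic integers containing p. Then every block B of G contains a block B̄ of Ḡ (the inflation of every member of B̄ lies in B) whose defect groups are exactly the images in Ḡ of the defect groups of B. -/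
theorem result {G : Type*} [Group G] [Finite G] (p : ℕ) [Fact p.Prime] (M : Ideal Cfsg.AlgInt) (hM : Cfsg.IsPModular p M) (N : Subgroup G) [N.Normal] (hN : IsPGroup p N) (B : Set (Cfsg.IrrCharacter G)) (hB : Cfsg.IsPBlock M B) : ∃ Bbar : Set (Cfsg.IrrCharacter (G ⧸ N)), Cfsg.IsPBlock M Bbar ∧ (∀ χ ∈ Bbar, ∀ ψ : Cfsg.IrrCharacter G, (ψ : G → ℂ) = (χ : G ⧸ N → ℂ) ∘ QuotientGroup.mk → ψ ∈ B) ∧ ∀ Dbar : Subgroup (G ⧸ N), Cfsg.IsDefectGroup p M Bbar Dbar ↔ ∃ P : Subgroup G, Cfsg.IsDefectGroup p M B P ∧ Dbar = P.map (QuotientGroup.mk' N) := by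
  haveI := hM.2.1
  haveI := CfsgLib.Blocks.charP_kres hM
  classical
  haveI := Fintype.ofFinite G
  haveI : Fintype N := Fintype.ofFinite N
  haveI : Fintype (G ⧸ N) := Fintype.ofFinite _
  have hp : p.Prime := Fact.out
  obtain ⟨P, hP⟩ := CfsgLib.Blocks.HeightZero.exists_defectGroup hM hB
  obtain ⟨g, hg, S, hS⟩ := id hP
  obtain ⟨hg1, hg2, -⟩ := id hg
  have hgreg := CfsgLib.Blocks.not_dvd_orderOf_of_isDefectClass hM hB hg
  have hNn : (⊤ : Subgroup G) ≤ Subgroup.normalizer (N : Set G) :=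
    (Subgroup.normalizer_eq_top_iff.mpr inferInstance).ge
  have hcen : ∀ y : G, ¬ Cfsg.MemLocalIdeal M (Cfsg.blockCoeff B y) →
      y ∈ Subgroup.centralizer (N : Set G) := by
    intro y hy
    by_contra h
    apply hy
    rw [← CfsgLib.Blocks.redC_eq_zero_iff (CfsgLib.Blocks.memLocalRing_blockCoeff hB y),
      ← CfsgLib.Blocks.coeff_topEl]
    exact (CfsgLib.Blocks.isBlockIdem_topEl hB).isSupportedOn_centralizer hN le_top hNn y h
  -- the coset of the defect class meets the support once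
  have hgbar : ¬ Cfsg.MemLocalIdeal M (Cfsg.blockCoeff (CfsgLib.Blocks.Quot.below N B) (g : G ⧸ N)) := by
    rw [← CfsgLib.Blocks.redC_eq_zero_iff (CfsgLib.Blocks.Quot.memLocalRing_below hB _),
      CfsgLib.Blocks.Quot.blockCoeff_below, CfsgLib.Blocks.redC_sum _ _
        (fun n _ => CfsgLib.Blocks.memLocalRing_blockCoeff hB _), Finset.sum_eq_single (1 : N)]
    · rw [Subgroup.coe_one, mul_one, CfsgLib.Blocks.redC_eq_zero_iff (CfsgLib.Blocks.memLocalRing_blockCoeff hB g)]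
      exact hg2
    · intro n _ hn
      rw [CfsgLib.Blocks.redC_eq_zero_iff (CfsgLib.Blocks.memLocalRing_blockCoeff hB _)]
      by_contra h
      have hcomm : Commute g (n : G) :=
        (Subgroup.mem_centralizer_iff.1 (hcen g hg2) n n.2).symm
      obtain ⟨j, hj⟩ := IsPGroup.iff_orderOf.1 hN n
      rw [← Subgroup.orderOf_coe] at hj
      apply h
      rw [CfsgLib.Blocks.blockCoeff_eq_zero_of_singular hM hB (by
        rw [hcomm.orderOf_mul_eq_mul_orderOf_of_coprime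
          (hj ▸ ((hp.coprime_iff_not_dvd.2 hgreg).symm.pow_right j)), hj]
        refine dvd_mul_of_dvd_right (dvd_pow_self p fun hj0 => hn ?_) _
        rw [hj0, pow_zero] at hj
        exact Subtype.ext (orderOf_eq_one_iff.1 hj))]
      exact CfsgLib.Blocks.memLocalIdeal_zero
    · exact fun h => absurd (Finset.mem_univ _) h
  -- a block below carrying that coefficient
  let A := CfsgLib.Blocks.Quot.below N B
  obtain ⟨φ, hφA, hφne⟩ : ∃ φ ∈ A, ¬ Cfsg.MemLocalIdeal M
      (Cfsg.blockCoeff (Cfsg.blockOf M (φ : G ⧸ N → ℂ)) (g : G ⧸ N)) := by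
    by_contra hcon
    simp only [not_exists, not_and, not_not] at hcon
    apply hgbar
    set T := A.toFinite.toFinset.image (fun φ : Cfsg.IrrCharacter (G ⧸ N) => Cfsg.blockOf M (φ : G ⧸ N → ℂ)) with hT
    have h1 : Cfsg.blockCoeff A (g : G ⧸ N) = ∑ C ∈ T, Cfsg.blockCoeff C (g : G ⧸ N) := by
      simp only [Cfsg.blockCoeff, ← Finset.mul_sum, finsum_mem_eq_finite_toFinset_sum _ (Set.toFinite _)]
      congr 1
      rw [← Finset.sum_fiberwise_of_maps_to (g := fun φ : Cfsg.IrrCharacter (G ⧸ N) => Cfsg.blockOf M (φ : G ⧸ N → ℂ))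
        (t := T) (fun φ hφ => Finset.mem_image.2 ⟨φ, hφ, rfl⟩)]
      refine Finset.sum_congr rfl fun C hC => Finset.sum_congr ?_ fun _ _ => rfl
      obtain ⟨ψ, hψ, rfl⟩ := Finset.mem_image.1 hC
      rw [Set.Finite.mem_toFinset] at hψ
      ext φ
      simp only [Finset.mem_filter, Set.Finite.mem_toFinset]
      constructor
      · rintro ⟨-, h⟩; rw [← h]; exact CfsgLib.Blocks.self_mem_blockOf φ
      · exact fun h => ⟨CfsgLib.Blocks.Quot.blockOf_subset_below hB hψ h,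
          (CfsgLib.Blocks.eq_blockOf_of_mem ⟨ψ, rfl⟩ h).symm⟩
    rw [h1]
    refine CfsgLib.Blocks.memLocalIdeal_sum _ fun C hC => ?_
    obtain ⟨ψ, hψ, rfl⟩ := Finset.mem_image.1 hC
    exact hcon ψ ((Set.Finite.mem_toFinset _).1 hψ)
  set Bbar := Cfsg.blockOf M (φ : G ⧸ N → ℂ) with hBbar'
  have hBbar : Cfsg.IsPBlock M Bbar := ⟨φ, rfl⟩
  have hsub : Bbar ⊆ A := CfsgLib.Blocks.Quot.blockOf_subset_below hB hφA
  obtain ⟨D₀, hD₀⟩ := CfsgLib.Blocks.HeightZero.exists_defectGroup hM hBbar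
  have hPp : IsPGroup p P := by rw [hS]; exact S.2.map _
  obtain ⟨t, ht⟩ := CfsgLib.Blocks.HeightZero.exists_le_conj_of_coeff hM hBbar hφne
    (hPp.map (QuotientGroup.mk' N)) (by
      rintro _ ⟨u, hu, rfl⟩
      rw [hS] at hu
      obtain ⟨v, -, rfl⟩ := hu
      rw [Subgroup.mem_centralizer_singleton_iff]
      exact (congrArg (QuotientGroup.mk' N) (Subgroup.mem_centralizer_singleton_iff.1 v.2) :)) hD₀
  have hD₁ := CfsgLib.Blocks.HeightZero.isDefectGroup_conj hM hBbar hD₀ t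
  obtain ⟨P', hP', hle'⟩ := CfsgLib.Blocks.Quot.exists_defectGroup_map hM hB hBbar hsub hD₁
  obtain ⟨s, hs⟩ := CfsgLib.Blocks.HeightZero.defectGroup_conj_eq hM hB hP hP'
  have hconj : ∀ (Q : Subgroup G) (s : G), (Q.map (MulAut.conj s).toMonoidHom).map (QuotientGroup.mk' N) =
      (Q.map (QuotientGroup.mk' N)).map (MulAut.conj (s : G ⧸ N)).toMonoidHom := by
    intro Q s
    rw [Subgroup.map_map, Subgroup.map_map]
    congr 1
  have heq : P.map (QuotientGroup.mk' N) = D₀.map (MulAut.conj t).toMonoidHom := by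
    refine Subgroup.eq_of_le_of_card_ge ht ?_
    refine (Subgroup.card_le_of_le hle').trans (le_of_eq ?_)
    rw [← hs, hconj, CfsgLib.Blocks.card_map_conj]
  rw [← heq] at hD₁
  refine ⟨Bbar, hBbar, fun χ hχ ψ hψ => ?_, fun Dbar => ⟨fun hD => ?_, ?_⟩⟩
  · rw [show ψ = CfsgLib.Chars.inflate N χ from Subtype.ext hψ]
    exact hsub hχ
  · obtain ⟨u, hu⟩ := CfsgLib.Blocks.HeightZero.defectGroup_conj_eq hM hBbar hD₁ hD
    obtain ⟨u₀, rfl⟩ := QuotientGroup.mk_surjective u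
    exact ⟨_, CfsgLib.Blocks.HeightZero.isDefectGroup_conj hM hB hP u₀, by rw [hconj, hu]⟩
  · rintro ⟨P₁, hP₁, rfl⟩
    obtain ⟨u, rfl⟩ := CfsgLib.Blocks.HeightZero.defectGroup_conj_eq hM hB hP hP₁
    rw [hconj]
    exact CfsgLib.Blocks.HeightZero.isDefectGroup_conj hM hBbar hD₁ _

end Cfsg.Agent.S4434
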