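import Cfsg.Statements.S4467
import Cfsg.Agent.SylowDegreeDivisor.Invariant
import Cfsg.Agent.Constrained.Fitting
-- import your own Cfsg.Agent.* helpers here

set_option autoImplicit false
open Cfsg

namespace Cfsg.Agent.S4467

/-- Let the finite solvable group G have a faithful irreducible character of degree n, and suppose that for the prime p a Sylow p-subgroup of G is not normal. Then n is divisible by a prime power q > 1 with q congruent to −1, 0 or 1 modulo p. -/
theorem result {G : Type*} [Group G] [Finite G] (χ : Cfsg.IrrCharacter G) (hfaith : ∀ g : G, (χ : G → ℂ) g = (χ : G → ℂ) 1 → g = 1) (n : ℕ) (hn : Cfsg.charDegree (χ : G → ℂ) = n) (hsolv : Group.IsSolvable G) (p : ℕ) (hp : p.Prime) (P : Sylow p G) (hP : ¬ (P : Subgroup G).Normal) : ∃ q : ℕ, IsPrimePow q ∧ q ∣ n ∧ ((q : ℤ) ≡ -1 [ZMOD p] ∨ (q : ℤ) ≡ 0 [ZMOD p] ∨ (q : ℤ) ≡ 1 [ZMOD p]) := by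
  
  classical
  haveI := hsolv
  haveI := Fact.mk hp
  have := Fintype.ofFinite G
  by_cases hpn : p ∣ n
  · exact ⟨p, hp.isPrimePow, hpn, Or.inr (Or.inl (Int.modEq_zero_iff_dvd.2 dvd_rfl))⟩
  have hone : ∀ k : ℕ, k ≡ 1 [MOD p] → (k : ℤ) ≡ 1 [ZMOD p] := fun k h => by
    exact_mod_cast Int.natCast_modEq_iff.2 h
  obtain ⟨q, hq, x, e, hxe, u, huR, hxu⟩ : ∃ q : ℕ, q.Prime ∧ ∃ (x : G) (e : ℕ), x ^ p ^ e = 1 ∧
      ∃ u ∈ Cfsg.pCore q G, x * u * x⁻¹ * u⁻¹ ≠ 1 := by
    by_contra hcon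
    push Not at hcon
    refine hP ?_
    have hPF : (P : Subgroup G) ≤ Cfsg.fittingSubgroup G := by
      refine le_trans (fun x hx => ?_) (CfsgLib.Constrained.centralizer_fitting_le (G := G))
      rw [Subgroup.mem_centralizer_iff]
      intro y hy
      obtain ⟨e, he⟩ := P.2 ⟨x, hx⟩
      have hle : Cfsg.fittingSubgroup G ≤ Subgroup.centralizer ({x} : Set G) := by
        rw [CfsgLib.Constrained.fitting_eq_iSup_pCore]
        refine iSup₂_le fun q hq u hu => Subgroup.mem_centralizer_singleton_iff.2 ?_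
        exact (mul_inv_eq_iff_eq_mul.1
          (mul_inv_eq_one.1 (hcon q hq x e (congrArg Subtype.val he) u hu))).symm
      exact Subgroup.mem_centralizer_singleton_iff.1 (hle hy)
    set F := Cfsg.fittingSubgroup G with hF
    haveI hFnil : Group.IsNilpotent F := inferInstance
    haveI : (P.subtype hPF : Subgroup F).Normal :=
      ((Group.isNilpotent_of_finite_tfae (G := F)).out 0 3 rfl rfl).1 hFnil p ⟨hp⟩ _
    haveI := Sylow.characteristic_of_normal (P.subtype hPF) inferInstance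
    have h1 : ((P.subtype hPF : Subgroup F).map F.subtype).Normal := inferInstance
    rwa [Sylow.coe_subtype, Subgroup.subgroupOf_map_subtype, inf_eq_left.2 hPF] at h1
  haveI := Fact.mk hq
  set R := Cfsg.pCore q G with hR
  haveI : R.Normal := by rw [hR]; infer_instance
  have hRq : IsPGroup q R := CfsgLib.Constrained.isPGroup_pCore
  haveI := Fintype.ofFinite R
  obtain ⟨θ, hθ⟩ := CfsgLib.Chars.Induced.exists_mult_restrict_ne_zero (N := R) χ
  set T := CfsgLib.Chars.Induced.inertia R (θ : R → ℂ) with hT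
  have hθn : ∀ η : Cfsg.IrrCharacter R,
      CfsgLib.Chars.Induced.mult (fun r : R => (χ : G → ℂ) r) η ≠ 0 →
      (CfsgLib.Chars.Induced.inertia R (η : R → ℂ)).index * Cfsg.charDegree (η : R → ℂ) ∣ n := by
    intro η hη
    refine ⟨CfsgLib.Chars.Induced.mult (fun r : R => (χ : G → ℂ) r) η, ?_⟩
    rw [← hn]
    apply Nat.cast_injective (R := ℂ)
    push_cast
    rw [CfsgLib.Chars.coe_charDegree, CfsgLib.Chars.coe_charDegree,
      CfsgLib.Chars.Induced.clifford_one χ η hη]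
    ring
  by_cases hmove : ∃ g : G, g⁻¹ * x * g ∉ T
  · obtain ⟨r, k, hr, hk, hd, hm⟩ := CfsgLib.SylowDegreeDivisor.exists_pow_dvd_index hxe T.index T
      rfl (fun h => hpn (h.trans (dvd_trans (dvd_mul_right _ _) (hθn θ hθ)))) hmove
    exact ⟨r ^ k, hr.isPrimePow.pow hk.ne', hd.trans (dvd_trans (dvd_mul_right _ _) (hθn θ hθ)),
      Or.inr (Or.inr (hone _ hm))⟩
  push Not at hmove
  -- every constituent is fixed; one is non-trivial on the commutator
  set k : R := ⟨x * u * x⁻¹ * u⁻¹, R.mul_mem (‹R.Normal›.conj_mem _ huR x) (R.inv_mem huR)⟩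
  obtain ⟨g, hg⟩ : ∃ g : G, (CfsgLib.Chars.Induced.conjIrr g θ : R → ℂ) k ≠
      (CfsgLib.Chars.Induced.conjIrr g θ : R → ℂ) 1 := by
    by_contra hall
    push Not at hall
    exact hxu (hfaith _ (CfsgLib.Chars.map_eq_map_one_of_mem_charKer
      (CfsgLib.Chars.RealOddSolvable.mem_charKer_of_constituents hθ (k := k) hall)))
  set η := CfsgLib.Chars.Induced.conjIrr g θ with hη
  have hηmult : CfsgLib.Chars.Induced.mult (fun r : R => (χ : G → ℂ) r) η ≠ 0 := by
    rw [hη, CfsgLib.Chars.Induced.mult_restrict_conjIrr (CfsgLib.Chars.isClassFunction_coe χ)]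
    exact hθ
  set f : MulAut R := MulAut.conjNormal x with hf
  have hηf : ∀ r : R, (η : R → ℂ) (f r) = (η : R → ℂ) r := by
    intro r
    rw [hη, CfsgLib.Chars.Induced.conjIrr_coe, CfsgLib.Chars.Induced.conjFun_apply,
      CfsgLib.Chars.Induced.conjFun_apply]
    refine CfsgLib.Chars.Induced.mem_inertia_iff_forall.1 (hmove g) _ _ ?_
    simp only [hf, MulAut.conjNormal_apply]
    group
  have hfk : f ⟨u, huR⟩ * (⟨u, huR⟩ : R)⁻¹ = k :=
    Subtype.ext (by simp [hf, MulAut.conjNormal_apply, k])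
  by_cases hqp : q = p
  · exfalso
    obtain ⟨i, hi⟩ := IsPGroup.iff_card.1 hRq
    obtain ⟨j, -, hj⟩ := (Nat.dvd_prime_pow hq).1 (hi ▸ CfsgLib.Chars.charDegree_dvd_card η)
    have hj0 : j = 0 := by
      by_contra h
      refine hpn ?_
      refine dvd_trans ?_ ((dvd_mul_left _ _).trans (hθn η hηmult))
      rw [hj, ← hqp]
      exact dvd_pow_self q h
    obtain ⟨l, hl⟩ := CfsgLib.Chars.exists_linChar_eq η
      (by rw [← CfsgLib.Chars.coe_charDegree, hj, hj0, pow_zero, Nat.cast_one])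
    refine hg ?_
    have h1 := hηf ⟨u, huR⟩
    rw [← hl, CfsgLib.Chars.linChar_apply, CfsgLib.Chars.linChar_apply] at h1
    rw [← hl, CfsgLib.Chars.linChar_apply, CfsgLib.Chars.linChar_apply, ← hfk, map_mul, map_inv,
      Units.ext h1, mul_inv_cancel, map_one]
  obtain ⟨b, hb, hbd, hbp⟩ := CfsgLib.SylowDegreeDivisor.exists_pow_pm_one (p := p) (Ne.symm hqp) _ rfl
    hRq f e (by rw [hf, ← map_pow, hxe, map_one]) η hηf
    ⟨⟨u, huR⟩, fun h => hg (by
      rw [hfk] at h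
      exact CfsgLib.Chars.map_eq_map_one_of_mem_charKer h)⟩
  refine ⟨q ^ b, hq.isPrimePow.pow hb.ne', hbd.trans ((dvd_mul_left _ _).trans (hθn η hηmult)), ?_⟩
  rcases hbp with h | h
  · exact Or.inr (Or.inr (hone _ ((Nat.modEq_iff_dvd' (Nat.one_le_pow _ _ hq.pos)).2 h).symm))
  · refine Or.inl (Int.modEq_iff_dvd.2 ?_)
    have h' : (p : ℤ) ∣ ((q ^ b + 1 : ℕ) : ℤ) := Int.natCast_dvd_natCast.2 h
    rw [← dvd_neg] at h'
    rwa [show (-1 : ℤ) - ((q ^ b : ℕ) : ℤ) = -((q ^ b + 1 : ℕ) : ℤ) by push_cast; ring]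

end Cfsg.Agent.S4467
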