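import Cfsg.Statements.S4468
import Cfsg.Agent.S4467
import Cfsg.Agent.Constrained.PSolvable
import Cfsg.Agent.Constrained.HallHigman
import Cfsg.Agent.Coprime44.InvariantSylow
-- import your own Cfsg.Agent.* helpers here

set_option autoImplicit false
open Cfsg

namespace Cfsg.Agent.S4468

/-- Let the finite p-solvable group G have a faithful character χ of degree n ≤ p − 1 and suppose that a Sylow p-subgroup of G is not normal. Then n = p − 1, n is a power of 2, and χ is irreducible. -/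
theorem result {G : Type*} [Group G] [Finite G] (χ : G → ℂ) (hχ : Cfsg.IsCharacter G χ) (hfaith : ∀ g : G, χ g = χ 1 → g = 1) (n : ℕ) (hn : Cfsg.charDegree χ = n) (p : ℕ) (hp : p.Prime) (hsolv : Cfsg.IsPSolvable p G) (hnp : n + 1 ≤ p) (P : Sylow p G) (hP : ¬ (P : Subgroup G).Normal) : n + 1 = p ∧ (∃ k : ℕ, n = 2 ^ k) ∧ Cfsg.IsIrrCharacter G χ := by
  
  classical
  haveI := Fact.mk hp
  have := Fintype.ofFinite G
  obtain ⟨s, hmem, hs⟩ := CfsgLib.Chars.Induced.exists_eq_sum_mult hχ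
  -- Sylow `p`-subgroup abelian
  haveI := Fintype.ofFinite (P : Subgroup G)
  have hdeg : ∀ {K : Subgroup G} [Fintype K] (η : Cfsg.IrrCharacter K),
      CfsgLib.Chars.Induced.mult (fun k : K => χ k) η ≠ 0 →
      CfsgLib.Chars.Induced.mult (fun k : K => χ k) η * Cfsg.charDegree (η : K → ℂ) ≤ n := by
    intro K _ η hη
    obtain ⟨t, htm, ht⟩ := CfsgLib.Chars.Induced.exists_eq_sum_mult
      (CfsgLib.Chars.isCharacter_restrict hχ K)
    have h1 := congrFun ht 1
    simp only [Finset.sum_apply, Pi.smul_apply, smul_eq_mul, OneMemClass.coe_one,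
      ← CfsgLib.Chars.coe_charDegree, ← Nat.cast_mul, ← Nat.cast_sum] at h1
    have h2 : Cfsg.charDegree χ = ∑ x ∈ t,
        CfsgLib.Chars.Induced.mult (fun k : K => χ k) x * Cfsg.charDegree (x : K → ℂ) := by
      unfold Cfsg.charDegree at h1 ⊢
      rw [h1, Complex.natCast_re, Nat.floor_natCast]
    rw [← hn, h2]
    exact Finset.single_le_sum (s := t) (f := fun x : Cfsg.IrrCharacter K => CfsgLib.Chars.Induced.mult (fun k : K => χ k) x *
      Cfsg.charDegree (x : K → ℂ)) (fun _ _ => Nat.zero_le _) ((htm η).2 hη)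
  have hker : ∀ {K : Subgroup G} [Fintype K] (k : K), (∀ η : Cfsg.IrrCharacter K,
      CfsgLib.Chars.Induced.mult (fun k : K => χ k) η ≠ 0 →
        (η : K → ℂ) k = (η : K → ℂ) 1) → (k : G) = 1 := by
    intro K _ k hk
    obtain ⟨t, htm, ht⟩ := CfsgLib.Chars.Induced.exists_eq_sum_mult
      (CfsgLib.Chars.isCharacter_restrict hχ K)
    refine hfaith _ ?_
    have h1 := congrFun ht k
    have h2 := congrFun ht 1
    rw [OneMemClass.coe_one] at h2
    rw [h1, h2]
    simp only [Finset.sum_apply, Pi.smul_apply]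
    exact Finset.sum_congr rfl fun η hη => by rw [hk η ((htm η).1 hη)]
  have hPab : ∀ a b : G, a ∈ (P : Subgroup G) → b ∈ (P : Subgroup G) → a * b = b * a := by
    intro a b ha hb
    have h := hker (⟨a, ha⟩ * ⟨b, hb⟩ * (⟨a, ha⟩ : (P : Subgroup G))⁻¹ * (⟨b, hb⟩)⁻¹) fun η hη => by
      obtain ⟨i, hi⟩ := IsPGroup.iff_card.1 P.2
      obtain ⟨j, -, hj⟩ := (Nat.dvd_prime_pow hp).1 (hi ▸ CfsgLib.Chars.charDegree_dvd_card η)
      have hle := le_trans (Nat.le_mul_of_pos_left _ (Nat.pos_of_ne_zero hη)) (hdeg η hη)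
      have hj0 : j = 0 := by
        by_contra h
        have := Nat.le_self_pow h p
        omega
      obtain ⟨l, hl⟩ := CfsgLib.Chars.exists_linChar_eq η
        (by rw [← CfsgLib.Chars.coe_charDegree, hj, hj0, pow_zero, Nat.cast_one])
      rw [← hl, CfsgLib.Chars.linChar_apply, CfsgLib.Chars.linChar_apply, map_one]
      simp only [map_mul, map_inv]
      rw [mul_inv_cancel_comm, mul_inv_cancel]
    push_cast at h
    exact mul_inv_eq_iff_eq_mul.1 (mul_inv_eq_one.1 h)
  -- a non-trivially normalized `q`-subgroup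
  obtain ⟨q, hq, hqp, Q, hQ, hPQ, x, hx, u, hu, hxu⟩ : ∃ q : ℕ, q.Prime ∧ q ≠ p ∧ ∃ Q : Subgroup G,
      IsPGroup q Q ∧ (P : Subgroup G) ≤ Subgroup.normalizer (Q : Set G) ∧
      ∃ x ∈ (P : Subgroup G), ∃ u ∈ Q, x * u * x⁻¹ * u⁻¹ ≠ 1 := by
    by_contra hcon
    push Not at hcon
    refine hP ?_
    set K := Cfsg.pPrimeCore p G with hK
    haveI : K.Normal := by rw [hK]; infer_instance
    have hKp : ¬ p ∣ Nat.card K := CfsgLib.Constrained.pPrimeCore_not_dvd
    have hcent : ∀ x ∈ (P : Subgroup G), ∀ k ∈ K, x * k = k * x := by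
      intro x hx k hk
      let C : Subgroup K := (Subgroup.centralizer ((P : Subgroup G) : Set G)).subgroupOf K
      have hC : C = ⊤ := by
        refine Subgroup.eq_top_of_card_eq C (Nat.dvd_antisymm C.card_subgroup_dvd_card ?_)
        rw [← Nat.factorization_prime_le_iff_dvd Nat.card_pos.ne' Nat.card_pos.ne']
        intro q hq
        haveI := Fact.mk hq
        rw [← Nat.Prime.pow_dvd_iff_le_factorization hq Nat.card_pos.ne']
        by_cases hqK : q ∣ Nat.card K
        · obtain ⟨S, hS⟩ := CfsgLib.Coprime44.exists_invariant_sylow P.2 hKp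
            (by rw [Subgroup.normalizer_eq_top_iff.2 inferInstance]; exact le_top) q
          rw [← S.card_eq_multiplicity]
          refine Subgroup.card_dvd_of_le fun s hs => ?_
          rw [Subgroup.mem_subgroupOf, Subgroup.mem_centralizer_iff]
          intro y hy
          have h1 := hcon q hq (fun h => hKp (h ▸ hqK)) _ (S.2.map K.subtype) hS y hy (s : G)
            ⟨s, hs, rfl⟩
          exact mul_inv_eq_iff_eq_mul.1 (mul_inv_eq_one.1 h1)
        · rw [Nat.factorization_eq_zero_of_not_dvd hqK, pow_zero]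
          exact one_dvd _
      have hk' : (⟨k, hk⟩ : K) ∈ C := hC ▸ Subgroup.mem_top _
      exact Subgroup.mem_centralizer_iff.1 (Subgroup.mem_subgroupOf.1 hk') x hx
    have hPbar : (P : Subgroup G).map (QuotientGroup.mk' K) ≤ Cfsg.pCore p (G ⧸ K) := by
      refine le_trans ?_ (CfsgLib.Constrained.centralizer_pCore_quotient_le hsolv)
      let S := P.mapSurjective (f := QuotientGroup.mk' K) (QuotientGroup.mk'_surjective K)
      have hR : Cfsg.pCore p (G ⧸ K) ≤ (P : Subgroup G).map (QuotientGroup.mk' K) := by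
        have hS : IsPGroup p (Cfsg.pCore p (G ⧸ K) ⊔ (S : Subgroup (G ⧸ K)) : Subgroup (G ⧸ K)) :=
          CfsgLib.Constrained.isPGroup_pCore.to_sup_of_normal_left S.2
        exact le_sup_left.trans (S.3 hS le_sup_right).le
      rintro _ ⟨x, hx, rfl⟩
      refine Subgroup.mem_centralizer_iff.2 fun r hr => ?_
      obtain ⟨y, hy, rfl⟩ := hR hr
      rw [← map_mul, ← map_mul, hPab x y hx hy]
    refine ⟨fun y hy g => ?_⟩
    have h1 : QuotientGroup.mk' K (g * y * g⁻¹) ∈ (P : Subgroup G).map (QuotientGroup.mk' K) := by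
      have h2 : Cfsg.pCore p (G ⧸ K) ≤ (P : Subgroup G).map (QuotientGroup.mk' K) := by
        let S := P.mapSurjective (f := QuotientGroup.mk' K) (QuotientGroup.mk'_surjective K)
        have hS : IsPGroup p (Cfsg.pCore p (G ⧸ K) ⊔ (S : Subgroup (G ⧸ K)) : Subgroup (G ⧸ K)) :=
          CfsgLib.Constrained.isPGroup_pCore.to_sup_of_normal_left S.2
        exact le_sup_left.trans (S.3 hS le_sup_right).le
      rw [map_mul, map_mul, map_inv]
      exact h2 ((inferInstance : (Cfsg.pCore p (G ⧸ K)).Normal).conj_mem _ (hPbar ⟨y, hy, rfl⟩) _)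
    obtain ⟨z, hz, hzy⟩ := h1
    set k := z⁻¹ * (g * y * g⁻¹) with hkdef
    have hk : k ∈ K := QuotientGroup.eq.1 hzy
    have hcomm : Commute (z⁻¹) (g * y * g⁻¹) := by
      have : g * y * g⁻¹ = z * k := by rw [hkdef, mul_inv_cancel_left]
      rw [this]
      exact ((Commute.refl z).inv_left).mul_right (show Commute z k from hcent z hz k hk).inv_left
    obtain ⟨a, ha⟩ := P.2 ⟨y, hy⟩
    obtain ⟨b, hb⟩ := P.2 ⟨z, hz⟩
    have ha' : y ^ p ^ a = 1 := congrArg Subtype.val ha
    have hb' : z ^ p ^ b = 1 := congrArg Subtype.val hb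
    have hkp : k ^ p ^ (a + b) = 1 := by
      have e1 : y ^ p ^ (a + b) = 1 := by rw [pow_add, pow_mul, ha', one_pow]
      have e2 : z ^ p ^ (a + b) = 1 := by rw [add_comm, pow_add, pow_mul, hb', one_pow]
      rw [hkdef, hcomm.mul_pow, inv_pow, conj_pow, e1, e2, inv_one, one_mul, mul_one, mul_inv_cancel]
    have hk1 : k = 1 := by
      have h3 : (⟨k, hk⟩ : K) ^ p ^ (a + b) = 1 := Subtype.ext (by simpa using hkp)
      have h4 := pow_gcd_eq_one.2 ⟨h3, pow_card_eq_one' (x := (⟨k, hk⟩ : K))⟩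
      rw [Nat.Coprime.gcd_eq_one (((Nat.Prime.coprime_iff_not_dvd hp).2 hKp).pow_left _), pow_one] at h4
      exact congrArg Subtype.val h4
    rw [hkdef, inv_mul_eq_one] at hk1
    exact hk1 ▸ hz
  haveI := Fact.mk hq
  set H := Q ⊔ (P : Subgroup G) with hH
  haveI := Fintype.ofFinite H
  have hQn : (Q.subgroupOf H).Normal := by
    rw [Subgroup.normal_subgroupOf_iff_le_normalizer le_sup_left]
    exact sup_le Subgroup.le_normalizer hPQ
  haveI := hQn
  haveI : Group.IsSolvable H := by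
    have hQs : Group.IsSolvable (Q.subgroupOf H) := by
      haveI : Group.IsNilpotent (Q.subgroupOf H) :=
        IsPGroup.isNilpotent (p := q) (hQ.of_equiv (Subgroup.subgroupOfEquivOfLe le_sup_left).symm)
      infer_instance
    have hsur : Function.Surjective ((QuotientGroup.mk' (Q.subgroupOf H)).comp
        (Subgroup.inclusion (le_sup_right : (P : Subgroup G) ≤ H))) := by
      intro v
      obtain ⟨⟨h, hh⟩, rfl⟩ := QuotientGroup.mk'_surjective _ v
      have hmemH : (⟨h, hh⟩ : H) ∈ Q.subgroupOf H ⊔ (P : Subgroup G).subgroupOf H := by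
        rw [← Subgroup.subgroupOf_sup le_sup_left le_sup_right]
        exact Subgroup.mem_subgroupOf.2 hh
      obtain ⟨a, ha, b, hb, hab⟩ := Subgroup.mem_sup_of_normal_left.1 hmemH
      refine ⟨⟨(b : G), hb⟩, ?_⟩
      show QuotientGroup.mk' (Q.subgroupOf H) b = QuotientGroup.mk' (Q.subgroupOf H) ⟨h, hh⟩
      rw [← hab, map_mul, show QuotientGroup.mk' (Q.subgroupOf H) a = 1 from
        (QuotientGroup.eq_one_iff _).2 ha, one_mul]
    haveI : Group.IsSolvable (H ⧸ Q.subgroupOf H) := by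
      haveI : Group.IsSolvable (P : Subgroup G) := by
        haveI : Group.IsNilpotent (P : Subgroup G) := IsPGroup.isNilpotent (p := p) P.2
        infer_instance
      exact solvable_of_surjective hsur
    exact solvable_of_ker_le_range (Q.subgroupOf H).subtype (QuotientGroup.mk' (Q.subgroupOf H)) (by simp)
  set x' : H := ⟨x, le_sup_right (a := Q) hx⟩
  set u' : H := ⟨u, le_sup_left (b := (P : Subgroup G)) hu⟩
  obtain ⟨η, hη, hηne⟩ : ∃ η : Cfsg.IrrCharacter H,
      CfsgLib.Chars.Induced.mult (fun h : H => χ h) η ≠ 0 ∧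
      (η : H → ℂ) (x' * u' * x'⁻¹ * u'⁻¹) ≠ (η : H → ℂ) 1 := by
    by_contra h
    push Not at h
    exact hxu (hker (x' * u' * x'⁻¹ * u'⁻¹) h)
  set L := CfsgLib.Chars.charKer (η : H → ℂ) with hL
  haveI : L.Normal := CfsgLib.Chars.charKer_normal (CfsgLib.Chars.isClassFunction_coe η)
  obtain ⟨ψ, hψ⟩ := CfsgLib.Chars.exists_inflate_eq L η le_rfl
  let PH : Sylow p H := P.subtype le_sup_right
  let S := PH.mapSurjective (f := QuotientGroup.mk' L) (QuotientGroup.mk'_surjective L)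
  have hSn : ¬ (S : Subgroup (H ⧸ L)).Normal := by
    intro hn'
    refine hηne (CfsgLib.Chars.map_eq_map_one_of_mem_charKer ((QuotientGroup.eq_one_iff _).1 ?_))
    have hxS : (x' : H ⧸ L) ∈ (S : Subgroup (H ⧸ L)) := ⟨x', Subgroup.mem_subgroupOf.2 hx, rfl⟩
    set c : H ⧸ L := ((x' * u' * x'⁻¹ * u'⁻¹ : H) : H ⧸ L) with hc
    have hc1 : c ∈ (S : Subgroup (H ⧸ L)) := by
      rw [hc]
      simp only [QuotientGroup.mk_mul, QuotientGroup.mk_inv]
      rw [show (x' : H ⧸ L) * u' * (x' : H ⧸ L)⁻¹ * (u' : H ⧸ L)⁻¹ =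
        x' * ((u' : H ⧸ L) * (x' : H ⧸ L)⁻¹ * (u' : H ⧸ L)⁻¹) by group]
      exact mul_mem hxS (hn'.conj_mem _ (inv_mem hxS) _)
    have hcQ : x' * u' * x'⁻¹ * u'⁻¹ ∈ Q.subgroupOf H := mul_mem
      (hQn.conj_mem u' (Subgroup.mem_subgroupOf.2 hu) x')
      (inv_mem (Subgroup.mem_subgroupOf.2 hu : u' ∈ Q.subgroupOf H))
    obtain ⟨i, hi⟩ := S.2 ⟨c, hc1⟩
    obtain ⟨j, hj⟩ := (hQ.of_equiv (Subgroup.subgroupOfEquivOfLe
      (le_sup_left : Q ≤ H)).symm) ⟨_, hcQ⟩
    have hi' : c ^ p ^ i = 1 := congrArg Subtype.val hi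
    have hj' : c ^ q ^ j = 1 := by
      rw [hc, ← QuotientGroup.mk_pow, show (x' * u' * x'⁻¹ * u'⁻¹) ^ q ^ j = 1 from
        congrArg Subtype.val hj, QuotientGroup.mk_one]
    have h3 := pow_gcd_eq_one.2 ⟨hi', hj'⟩
    rwa [Nat.Coprime.gcd_eq_one (((Nat.coprime_primes hp hq).2 hqp.symm).pow i j), pow_one] at h3
  have hψfaith : ∀ g : H ⧸ L, (ψ : H ⧸ L → ℂ) g = (ψ : H ⧸ L → ℂ) 1 → g = 1 := by
    intro g hg
    obtain ⟨a, rfl⟩ := QuotientGroup.mk_surjective g
    rw [QuotientGroup.eq_one_iff, hL, CfsgLib.Chars.mem_charKer_iff (CfsgLib.Chars.isCharacter_coe η),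
      ← hψ, CfsgLib.Chars.inflate_apply, CfsgLib.Chars.inflate_apply]
    exact hg
  obtain ⟨r, hr, hrm, hmod⟩ := Cfsg.Agent.S4467.result ψ hψfaith _ rfl inferInstance p hp S hSn
  set m := Cfsg.charDegree (η : H → ℂ) with hm
  have hmψ : Cfsg.charDegree (ψ : H ⧸ L → ℂ) = m := by
    rw [hm, ← hψ, CfsgLib.Chars.charDegree_inflate]
  rw [hmψ] at hrm
  have hm0 : 0 < m := by
    refine Nat.pos_of_ne_zero fun h => CfsgLib.Chars.map_one_ne_zero η ?_
    rw [← CfsgLib.Chars.coe_charDegree, ← hm, h, Nat.cast_zero]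
  have hmn : m ≤ n := le_trans (Nat.le_mul_of_pos_left _ (Nat.pos_of_ne_zero hη)) (hdeg η hη)
  have hr1 := hr.two_le
  have hrn : r ≤ n := le_trans (Nat.le_of_dvd hm0 hrm) hmn
  have hreq : r + 1 = p := by
    rcases hmod with h | h | h
    · have h1 : (p : ℤ) ∣ (r : ℤ) + 1 := by
        have := Int.modEq_iff_dvd.1 h
        rw [← dvd_neg] at this
        simpa [neg_sub] using this
      have h2 : p ∣ r + 1 := by exact_mod_cast h1
      have := Nat.le_of_dvd (by omega) h2
      omega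
    · have h1 : (p : ℤ) ∣ (r : ℤ) := Int.modEq_zero_iff_dvd.1 h
      have := Nat.le_of_dvd (by omega) (Int.natCast_dvd_natCast.1 h1)
      omega
    · have h1 : r ≡ 1 [MOD p] := Int.natCast_modEq_iff.1 (by exact_mod_cast h)
      have := Nat.le_of_dvd (by omega) ((Nat.modEq_iff_dvd' (by omega : 1 ≤ r)).1 h1.symm)
      omega
  have hmeq : m = n := by
    have := Nat.le_of_dvd hm0 hrm
    omega
  refine ⟨by omega, ?_, ?_⟩
  · obtain ⟨l, k, hl, hk, rfl⟩ := (isPrimePow_nat_iff r).1 hr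
    have hp2 : p ≠ 2 := by omega
    have hodd := hp.odd_of_ne_two hp2
    have h2 : 2 ∣ l ^ k := by
      rcases hodd with ⟨a, ha⟩
      exact ⟨a, by omega⟩
    obtain rfl : 2 = l := (Nat.prime_dvd_prime_iff_eq Nat.prime_two hl).1 (Nat.prime_two.dvd_of_dvd_pow h2)
    exact ⟨k, by omega⟩
  · obtain ⟨ξ, hξ, hξη⟩ := CfsgLib.Chars.Induced.exists_constituent_over H.subtype hχ η hη
    have hξm : m ≤ Cfsg.charDegree (ξ : G → ℂ) := by
      obtain ⟨t, htm, ht⟩ := CfsgLib.Chars.Induced.exists_eq_sum_mult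
        (CfsgLib.Chars.isCharacter_restrict (CfsgLib.Chars.isCharacter_coe ξ) H)
      have h1 := congrFun ht 1
      simp only [Finset.sum_apply, Pi.smul_apply, smul_eq_mul, OneMemClass.coe_one,
        ← CfsgLib.Chars.coe_charDegree, ← Nat.cast_mul, ← Nat.cast_sum, Nat.cast_inj] at h1
      rw [h1]
      refine le_trans (Nat.le_mul_of_pos_left _ (Nat.pos_of_ne_zero hξη)) ?_
      exact Finset.single_le_sum (s := t) (f := fun x : Cfsg.IrrCharacter H => CfsgLib.Chars.Induced.mult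
        (fun k : H => (ξ : G → ℂ) k) x * Cfsg.charDegree (x : H → ℂ)) (fun _ _ => Nat.zero_le _)
        ((htm η).2 hξη)
    have hsum : n = ∑ x ∈ s, CfsgLib.Chars.Induced.mult χ x * Cfsg.charDegree (x : G → ℂ) := by
      have h1 := congrFun hs 1
      simp only [Finset.sum_apply, Pi.smul_apply, smul_eq_mul, ← CfsgLib.Chars.coe_charDegree,
        ← Nat.cast_mul, ← Nat.cast_sum] at h1
      rw [← hn]
      conv_lhs => unfold Cfsg.charDegree
      rw [h1, Complex.natCast_re, Nat.floor_natCast]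
    have hξs : ξ ∈ s := (hmem ξ).2 hξ
    rw [← Finset.add_sum_erase s _ hξs] at hsum
    have hpos : ∀ x : Cfsg.IrrCharacter G, 0 < Cfsg.charDegree (x : G → ℂ) := fun x => by
      refine Nat.pos_of_ne_zero fun h => CfsgLib.Chars.map_one_ne_zero x ?_
      rw [← CfsgLib.Chars.coe_charDegree, h, Nat.cast_zero]
    have hmult1 : CfsgLib.Chars.Induced.mult χ ξ = 1 := by
      by_contra h
      have h2 : 2 * Cfsg.charDegree (ξ : G → ℂ) ≤
          CfsgLib.Chars.Induced.mult χ ξ * Cfsg.charDegree (ξ : G → ℂ) :=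
        Nat.mul_le_mul_right _ (by omega)
      omega
    rw [hmult1, one_mul] at hsum
    have hempty : s.erase ξ = ∅ := by
      refine Finset.eq_empty_of_forall_notMem fun x hx => ?_
      have h0 : ∑ x ∈ s.erase ξ, CfsgLib.Chars.Induced.mult χ x * Cfsg.charDegree (x : G → ℂ) = 0 := by
        omega
      have := Finset.sum_eq_zero_iff.1 h0 x hx
      exact (Nat.mul_pos (Nat.pos_of_ne_zero ((hmem x).1 (Finset.mem_of_mem_erase hx))) (hpos x)).ne' this
    rw [hs, ← Finset.add_sum_erase s _ hξs, hempty, Finset.sum_empty, add_zero, hmult1,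
      Nat.cast_one, one_smul]
    exact ξ.2

end Cfsg.Agent.S4468
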