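import Cfsg.Statements.S4442
import Cfsg.Agent.Blocks.Cyclic.PrimeOrder
import Cfsg.Agent.Eq.Def_BlockRank
import Cfsg.Agent.Eq.Def_Blocks
import Cfsg.Agent.Eq.Def_BlockLocal

set_option autoImplicit false
open Cfsg

namespace Cfsg.Agent.S4442

/-- Blocks of defect one. Let p be an odd prime and G a finite group whose Sylow p-subgroup P has order p; let C = C_G(P) and N = N_G(P), and fix a maximal ideal M of the algebraic integers containing p. Let B be a block of G with defect group P, b a block of C inducing B, and θ the member of b having P in its kernel (there is exactly one). Let T be the stabilizer of θ in N (the elements g ∈ N with θ(g c g⁻¹) = θ(c) for all c ∈ C) and e the index of C in T. Then e divides p − 1 and B contains exactly e + (p − 1)/e irreducible characters. Moreover B is the disjoint union of a set X of e characters and a set Y of (p − 1)/e characters such that, with f the index of C in N: every χ ∈ X has χ(1) ≡ ±(f/e)·θ(1)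 (mod p), there is one sign ε with ψ(1) ≡ ε f θ(1) (mod p) for all ψ ∈ Y, and all members of Y agree on the p-regular elements of G. -/
theorem result {G : Type*} [Group G] [Finite G] (p : ℕ) [Fact p.Prime] (M : Ideal Cfsg.AlgInt) (hM : Cfsg.IsPModular p M) (hodd : p ≠ 2) (P : Sylow p G) (hP : Nat.card P = p) (B : Set (Cfsg.IrrCharacter G)) (hB : Cfsg.IsPBlock M B) (hBP : Cfsg.IsDefectGroup p M B P) (b : Set (Cfsg.IrrCharacter (Subgroup.centralizer ((P : Subgroup G) : Set G)))) (hind : Cfsg.IsInducedBlock M (Subgroup.centralizer ((P : Subgroup G) : Set G)) b B) (θ : Cfsg.IrrCharacter (Subgroup.centralizer ((P : Subgroup G) : Set G))) (hθ : θ ∈ b) (hθP : ∀ x : Subgroup.centralizer ((P : Subgroup G) : Set G), (x : G) ∈ (P : Subgroup G) → (θ : Subgroup.centralizer ((P : Subgroup G) : Set G) → ℂ) x = (θ : Subgroup.centralizer ((P : Subgroup G) : Set G) → ℂ) 1) (T : Subgroup G) (hT : ∀ g : G, g ∈ T ↔ (g ∈ Subgroup.normalizer ((P : Subgroup G)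 : Set G) ∧ ∀ c c' : Subgroup.centralizer ((P : Subgroup G) : Set G), (c' : G) = g * c * g⁻¹ → (θ : Subgroup.centralizer ((P : Subgroup G) : Set G) → ℂ) c' = (θ : Subgroup.centralizer ((P : Subgroup G) : Set G) → ℂ) c)) (e f : ℕ) (he : (Subgroup.centralizer ((P : Subgroup G) : Set G)).relIndex T = e) (hf : (Subgroup.centralizer ((P : Subgroup G) : Set G)).relIndex (Subgroup.normalizer ((P : Subgroup G) : Set G)) = f) : e ∣ p - 1 ∧ Nat.card B = e + (p - 1) / e ∧ ∃ X Y : Set (Cfsg.IrrCharacter G), B = X ∪ Y ∧ Disjoint X Y ∧ Nat.card X = e ∧ Nat.card Y = (p - 1) / e ∧ (∀ χ ∈ X, (Cfsg.charDegree (χ : G → ℂ) : ℤ) ≡ ((f / e * Cfsg.charDegree (θ : Subgroup.centralizer ((P : Subgroup G) : Set G) → ℂ) : ℕ) : ℤ) [ZMOD p] ∨ (Cfsg.charDegree (χ : G → ℂ) : ℤ) ≡ -((f / e * Cfsg.charDegree (θ : Subgroup.centralizer ((P : Subgroup G) : Set G) → ℂ) : ℕ) : ℤ) [ZMOD p]) ∧ (∃ ε : ℤ, (ε = 1 ∨ ε = -1) ∧ ∀ ψ ∈ Y, (Cfsg.charDegree (ψ : G → ℂ) : ℤ) ≡ ε * ((f * Cfsg.charDegree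 (θ : Subgroup.centralizer ((P : Subgroup G) : Set G) → ℂ) : ℕ) : ℤ) [ZMOD p]) ∧ ∀ ψ ∈ Y, ∀ ψ' ∈ Y, ∀ g : G, ¬ p ∣ orderOf g → (ψ : G → ℂ) g = (ψ' : G → ℂ) g := by
  classical
  haveI := Fintype.ofFinite G
  haveI := CfsgLib.Blocks.isMaximal_of_isPModular hM
  haveI := CfsgLib.Blocks.charP_kres hM
  have hcyc : IsCyclic (P : Subgroup G) := isCyclic_of_prime_card hP
  have hQ1 : (P : Subgroup G) ≠ ⊥ := fun h0 => by
    rw [show Nat.card (P : Subgroup G) = 1 from Subgroup.card_eq_one.2 h0] at hP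
    exact (Fact.out : p.Prime).ne_one hP.symm
  have hmapC : ∀ g ∈ Subgroup.normalizer ((P : Subgroup G) : Set G), (Subgroup.centralizer ((P : Subgroup G) : Set G)).map (MulAut.conj g).toMonoidHom = (Subgroup.centralizer ((P : Subgroup G) : Set G)) :=
    fun g hg => by
      rw [CfsgLib.Blocks.map_conj_centralizer,
        CfsgLib.Blocks.map_conj_eq_self_of_mem_normalizer hg]
  -- one setting for `B`
  obtain ⟨hset, -, -⟩ := CfsgLib.Blocks.Cyclic.setting_of_cyclic hM hB hBP hQ1 hcyc hind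
    (T := CfsgLib.Blocks.pairStab ⊤ (P : Subgroup G) (CfsgLib.Blocks.subEl M (Subgroup.centralizer ((P : Subgroup G) : Set G)) b)) (fun t => by
      rw [CfsgLib.Blocks.mem_pairStab, CfsgLib.Blocks.stabilizesBlock_iff hind.1]
      exact ⟨fun ⟨⟨_, h1⟩, h2⟩ =>
          ⟨h1, CfsgLib.Blocks.normalizer_le_normalizer_centralizer (P : Subgroup G) h1, h2⟩,
        fun ⟨h1, _, h2⟩ => ⟨⟨trivial, h1⟩, h2⟩⟩)
  -- a member of `b` trivial on `(P : Subgroup G)` is `θ`
  have huniq : ∀ η ∈ b, (∀ x : (Subgroup.centralizer ((P : Subgroup G) : Set G)), (x : G) ∈ (P : Subgroup G) →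
      (η : (Subgroup.centralizer ((P : Subgroup G) : Set G)) → ℂ) x = (η : (Subgroup.centralizer ((P : Subgroup G) : Set G)) → ℂ) 1) → η = θ := by
    intro η hη hηP
    have hker : ∀ (ξ : Cfsg.IrrCharacter (Subgroup.centralizer ((P : Subgroup G) : Set G))), (∀ x : (Subgroup.centralizer ((P : Subgroup G) : Set G)), (x : G) ∈ (P : Subgroup G) →
        (ξ : (Subgroup.centralizer ((P : Subgroup G) : Set G)) → ℂ) x = (ξ : (Subgroup.centralizer ((P : Subgroup G) : Set G)) → ℂ) 1) → ∀ x y : (Subgroup.centralizer ((P : Subgroup G) : Set G)), (x : G) ∈ (P : Subgroup G) →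
        (ξ : (Subgroup.centralizer ((P : Subgroup G) : Set G)) → ℂ) (x * y) = (ξ : (Subgroup.centralizer ((P : Subgroup G) : Set G)) → ℂ) y := by
      intro ξ hξ x y hx
      obtain ⟨lam, hlam⟩ := CfsgLib.Blocks.AbelianFree.Setting.exists_actHom hset le_rfl ξ
      have h1 := hlam ⟨x, hx⟩ 1
      rw [OneMemClass.coe_one, mul_one, CfsgLib.Blocks.AbelianFree.extFun_of_mem _ x.2,
        hξ x hx] at h1
      have hl : (lam ⟨x, hx⟩ : ℂ) = 1 :=
        mul_right_cancel₀ (CfsgLib.Chars.map_one_ne_zero ξ) (h1.symm.trans (one_mul _).symm)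
      have h2 := hlam ⟨x, hx⟩ y
      rw [CfsgLib.Blocks.AbelianFree.extFun_of_mem _ ((Subgroup.centralizer ((P : Subgroup G) : Set G)).mul_mem x.2 y.2), hl, one_mul] at h2
      exact h2
    obtain ⟨u, hu⟩ := IsCyclic.exists_generator (α := (P : Subgroup G))
    have hu1 : u ≠ 1 := fun e1 => hQ1 ((Subgroup.eq_bot_iff_forall _).2 fun z hz => by
      have := hu ⟨z, hz⟩
      rw [e1, Subgroup.zpowers_one_eq_bot, Subgroup.mem_bot] at this
      exact congrArg Subtype.val this)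
    have hreg := hset.reg_zpowers hu1
    rw [show Subgroup.zpowers (u : G) = (P : Subgroup G) from Subgroup.ext fun z => ⟨fun hz =>
      (Subgroup.zpowers_le.2 u.2) hz, fun hz => by
        obtain ⟨i, hi⟩ := hu ⟨z, hz⟩
        exact ⟨i, congrArg Subtype.val hi⟩⟩] at hreg
    refine Subtype.ext (funext fun c => ?_)
    obtain ⟨z, s, hzs, hcomm, hz, hs⟩ :=
      CfsgLib.Blocks.exists_isPPart (G := (Subgroup.centralizer ((P : Subgroup G) : Set G))) (Fact.out : p.Prime) c
    have hzQ : (z : G) ∈ (P : Subgroup G) := by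
      obtain ⟨k, hk⟩ := hz
      have hzp : IsPGroup p (Subgroup.zpowers (z : G)) :=
        IsPGroup.of_card (n := k) (by rw [Nat.card_zpowers, Subgroup.orderOf_coe, hk])
      have hle : Subgroup.zpowers (z : G) ≤ Subgroup.normalizer ((P : Subgroup G) : Set G) :=
        Subgroup.zpowers_le.2 (Subgroup.centralizer_le_normalizer _ z.2)
      have hsup := IsPGroup.to_sup_of_normal_right' hzp P.isPGroup' hle
      exact (P.is_maximal' hsup le_sup_right).le
        (Subgroup.mem_sup_left (Subgroup.mem_zpowers _))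
    rw [← hzs, hker η hηP z s hzQ, hker θ hθP z s hzQ,
      hreg.eq_reg η (by rw [CfsgLib.Blocks.Cyclic.bl_self_eq hset hind.1]; exact hη) s hs,
      hreg.eq_reg θ (by rw [CfsgLib.Blocks.Cyclic.bl_self_eq hset hind.1]; exact hθ) s hs]
  have hTeq : T = CfsgLib.Blocks.pairStab ⊤ (P : Subgroup G) (CfsgLib.Blocks.subEl M (Subgroup.centralizer ((P : Subgroup G) : Set G)) b) := by
    ext g
    rw [hT, CfsgLib.Blocks.mem_pairStab]
    constructor
    · rintro ⟨hg, hfix⟩
      refine ⟨⟨trivial, hg⟩, ?_⟩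
      rw [← CfsgLib.Blocks.subEl_mapBlock_conj g (hmapC g hg) b]
      congr 1
      have h1 : CfsgLib.Chars.irrEquiv (CfsgLib.Blocks.conjIso (Subgroup.centralizer ((P : Subgroup G) : Set G)) (Subgroup.centralizer ((P : Subgroup G) : Set G)) g (hmapC g hg)) θ = θ := by
        refine Subtype.ext (funext fun k' => ?_)
        obtain ⟨k, rfl⟩ := (CfsgLib.Blocks.conjIso (Subgroup.centralizer ((P : Subgroup G) : Set G)) (Subgroup.centralizer ((P : Subgroup G) : Set G)) g (hmapC g hg)).surjective k'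
        rw [CfsgLib.Chars.irrEquiv_apply, MulEquiv.symm_apply_apply,
          hfix k _ (CfsgLib.Blocks.coe_conjIso ..)]
      rw [CfsgLib.Blocks.eq_blockOf_of_mem hind.1 hθ]
      exact CfsgLib.Blocks.eq_blockOf_of_mem (CfsgLib.Blocks.isPBlock_mapBlock _
        (CfsgLib.Blocks.eq_blockOf_of_mem hind.1 hθ ▸ hind.1))
        ⟨θ, CfsgLib.Blocks.self_mem_blockOf θ, h1⟩
    · rintro ⟨⟨-, hg⟩, hfix⟩
      refine ⟨hg, fun c c' hcc => ?_⟩
      rw [← CfsgLib.Blocks.subEl_mapBlock_conj g (hmapC g hg) b] at hfix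
      have hbb := CfsgLib.Blocks.subEl_injective (M := M)
        (CfsgLib.Blocks.isPBlock_mapBlock _ hind.1) hind.1 hfix
      set ξ := CfsgLib.Chars.irrEquiv (CfsgLib.Blocks.conjIso (Subgroup.centralizer ((P : Subgroup G) : Set G)) (Subgroup.centralizer ((P : Subgroup G) : Set G)) g (hmapC g hg)) θ with hξ
      have hξb : ξ ∈ b := hbb ▸ ⟨θ, hθ, rfl⟩
      have hξP : ∀ x : (Subgroup.centralizer ((P : Subgroup G) : Set G)), (x : G) ∈ (P : Subgroup G) →
          (ξ : (Subgroup.centralizer ((P : Subgroup G) : Set G)) → ℂ) x = (ξ : (Subgroup.centralizer ((P : Subgroup G) : Set G)) → ℂ) 1 := by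
        intro x hx
        rw [hξ, CfsgLib.Chars.irrEquiv_apply, CfsgLib.Chars.irrEquiv_apply, map_one]
        refine hθP _ ?_
        obtain ⟨y, hy⟩ := (CfsgLib.Blocks.conjIso (Subgroup.centralizer ((P : Subgroup G) : Set G)) (Subgroup.centralizer ((P : Subgroup G) : Set G)) g (hmapC g hg)).surjective x
        rw [← hy, MulEquiv.symm_apply_apply]
        rw [← hy, CfsgLib.Blocks.coe_conjIso] at hx
        exact (Subgroup.mem_normalizer_iff.1 hg (y : G)).2 hx
      have h1 := huniq ξ hξb hξP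
      have h2 : c' = CfsgLib.Blocks.conjIso (Subgroup.centralizer ((P : Subgroup G) : Set G)) (Subgroup.centralizer ((P : Subgroup G) : Set G)) g (hmapC g hg) c :=
        Subtype.ext (hcc.trans (CfsgLib.Blocks.coe_conjIso ..).symm)
      conv_lhs => rw [← h1, h2, hξ, CfsgLib.Chars.irrEquiv_apply, MulEquiv.symm_apply_apply]
  obtain ⟨-, -, hdvd⟩ := CfsgLib.Blocks.Cyclic.setting_of_cyclic hM hB hBP hQ1 hcyc hind
    (T := T) (fun t => by
      rw [hTeq, CfsgLib.Blocks.mem_pairStab, CfsgLib.Blocks.stabilizesBlock_iff hind.1]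
      exact ⟨fun ⟨⟨_, h1⟩, h2⟩ =>
          ⟨h1, CfsgLib.Blocks.normalizer_le_normalizer_centralizer (P : Subgroup G) h1, h2⟩,
        fun ⟨h1, _, h2⟩ => ⟨⟨trivial, h1⟩, h2⟩⟩)
  rw [he] at hdvd
  have hl := CfsgLib.Blocks.Cyclic.blockRank_eq hM hB hBP hQ1 hcyc hind hset
  have hA := CfsgLib.Blocks.AbelianFree.natCard_aut (P := (P : Subgroup G)) (CfsgLib.Blocks.subEl M (Subgroup.centralizer ((P : Subgroup G) : Set G)) b)
  rw [CfsgLib.Blocks.AbelianFree.cn, ← hTeq, he] at hA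
  obtain ⟨X, Y, r, δ₀, hs⟩ := CfsgLib.Blocks.Cyclic.exists_split hset hQ1 hl
  have he0 : 0 < e := by rw [← hA]; exact Nat.card_pos
  have hYc : Y.card = (p - 1) / e := by
    have h1 := hs.card_Y
    rw [hA, hP] at h1
    rw [← h1, Nat.add_sub_cancel, Nat.mul_div_cancel _ he0]
  have hTN : T ≤ Subgroup.normalizer ((P : Subgroup G) : Set G) := fun g hg => ((hT g).1 hg).1
  have hCT : (Subgroup.centralizer ((P : Subgroup G) : Set G)) ≤ T := by
    rw [hTeq]
    exact CfsgLib.Blocks.centralizer_le_pairStab hset.pair.1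
  have hidx : (CfsgLib.Blocks.pairStab ⊤ (P : Subgroup G) (CfsgLib.Blocks.subEl M (Subgroup.centralizer ((P : Subgroup G) : Set G)) b)).relIndex
      (Subgroup.normalizer ((P : Subgroup G) : Set G)) = f / e := by
    rw [← hTeq, ← hf, ← he, ← Subgroup.relIndex_mul_relIndex (Subgroup.centralizer ((P : Subgroup G) : Set G)) T _ hCT hTN,
      Nat.mul_div_cancel_left _ (he.symm ▸ he0)]
  have hef : e * (f / e) = f := by
    rw [← hidx, ← hTeq, ← hf, ← he]
    exact Subgroup.relIndex_mul_relIndex (Subgroup.centralizer ((P : Subgroup G) : Set G)) T _ hCT hTN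
  set d : ℕ := f / e * Cfsg.charDegree (θ : (Subgroup.centralizer ((P : Subgroup G) : Set G)) → ℂ) with hd
  obtain ⟨σ, hσ, hσε⟩ : ∃ σ : ℤ, (σ = 1 ∨ σ = -1) ∧ CfsgLib.Blocks.AbelianFree.eps p (P : Subgroup G)
      (CfsgLib.Blocks.subEl M (Subgroup.centralizer ((P : Subgroup G) : Set G)) b) (P : Subgroup G) = (σ : ℂ) := by
    rcases CfsgLib.Blocks.AbelianFree.eps_cases (p := p) (P : Subgroup G) (CfsgLib.Blocks.subEl M (Subgroup.centralizer ((P : Subgroup G) : Set G)) b) (P : Subgroup G) with h | h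
    · exact ⟨1, Or.inl rfl, by rw [h]; norm_num⟩
    · exact ⟨-1, Or.inr rfl, by rw [h]; norm_num⟩
  have hX : ∀ χ ∈ X, (Cfsg.charDegree (χ : G → ℂ) : ℤ) ≡ -σ * r χ * (d : ℤ) [ZMOD p] := by
    intro χ hχ
    refine CfsgLib.Blocks.Cyclic.degree_modEq hP χ (P := (P : Subgroup G)) fun u hu => ?_
    rw [CfsgLib.Blocks.Cyclic.apply_eq_of_const hset hind.1 hP hθ (hs.mem_B (Or.inl hχ))
      (hs.row χ hχ) hu, hidx, hσε, ← CfsgLib.Chars.coe_charDegree, hd]
    obtain ⟨w, hw⟩ : ∃ w, f / e = w := ⟨_, rfl⟩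
    rw [hw]
    push_cast
    ring
  have hcardB : Nat.card B = e + (p - 1) / e := by
    rw [Nat.card_coe_set_eq, Set.ncard_eq_toFinset_card B B.toFinite, ← hs.union,
      Finset.card_union_of_disjoint hs.disj, hs.card_X, hA, hYc]
  obtain ⟨χ₀, hχ₀⟩ : X.Nonempty := Finset.card_pos.1 (by rw [hs.card_X, hA]; exact he0)
  refine ⟨hdvd, hcardB, (X : Set _), (Y : Set _), ?_, ?_, ?_, ?_, ?_, ?_,
    fun ψ hψ ψ' hψ' g hg => hs.reg_eq ψ hψ ψ' hψ' g hg⟩
  · rw [← Finset.coe_union, hs.union, Set.Finite.coe_toFinset]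
  · exact Finset.disjoint_coe.2 hs.disj
  · rw [Nat.card_coe_set_eq, Set.ncard_coe_finset, hs.card_X, hA]
  · rw [Nat.card_coe_set_eq, Set.ncard_coe_finset, hYc]
  · intro χ hχ
    have h1 := hX χ hχ
    rcases hσ with hσ | hσ <;> rcases hs.sign χ hχ with h2 | h2 <;>
      simp only [hσ, h2, neg_mul, one_mul, neg_neg, mul_one, mul_neg] at h1 <;>
      first
        | exact Or.inl h1
        | exact Or.inr h1
  · refine ⟨δ₀ * σ, ?_, fun ψ hψ => ?_⟩
    · rcases hs.sign₀ with h2 | h2 <;> rcases hσ with hσ | hσ <;> simp [h2, hσ]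
    have hpN : (p : ℤ) ∣ ((p ^ (Nat.card G).factorization p : ℕ) : ℤ) := by
      rw [Int.natCast_dvd_natCast, ← P.card_eq_multiplicity, hP]
    refine ((hs.modEq_Y hset hψ hχ₀).of_dvd hpN).trans ?_
    refine ((Int.ModEq.mul_left _ (hX χ₀ hχ₀)).neg).trans (Int.modEq_iff_dvd.2 ⟨0, ?_⟩)
    rw [mul_zero, sub_eq_zero, hA]
    have h3 : r χ₀ * r χ₀ = 1 := by rcases hs.sign χ₀ hχ₀ with h2 | h2 <;> simp [h2]
    have hef' : (e : ℤ) * (d : ℤ) = ((f * Cfsg.charDegree (θ : (Subgroup.centralizer ((P : Subgroup G) : Set G)) → ℂ) : ℕ) : ℤ) := by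
      rw [hd, ← Nat.cast_mul, ← mul_assoc, hef]
    rw [← hef']
    linear_combination (-(e : ℤ) * δ₀ * σ * (d : ℤ)) * h3

end Cfsg.Agent.S4442
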