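import Cfsg.Statements.S1060
import Cfsg.Agent.Chevalley.Weights.B2

set_option autoImplicit false
open Cfsg

namespace Cfsg.Agent.S1060

/-- `gcd(2, q-1) · |B₂(q)| = q⁴ (q² - 1)(q⁴ - 1)`. -/
theorem result {F : Type*} [Field F] [Fintype F] {q : ℕ} (hq : Fintype.card F = q) : Nat.gcd 2 (q - 1) * Nat.card ↥(Cfsg.Lie.chevB2.group F) = q ^ 4 * (q ^ 2 - 1) * (q ^ 4 - 1) := by
  subst hq
  have hle : ∀ k : ℕ, 1 ≤ Fintype.card F ^ k := fun k => Nat.one_le_pow _ _ Fintype.card_pos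
  have key := CfsgLib.Chevalley.sysB2.natCard_group_eq F (l := 2) (N := 4)
    (d := (Fintype.card F - 1).gcd 2) (R := (Fintype.card F ^ 2 - 1) * (Fintype.card F ^ 4 - 1)) rfl rfl (CfsgLib.Chevalley.natCardDiagonalB2 F) (by
      rw [CfsgLib.Chevalley.lenSumB2 F]
      push_cast [Nat.cast_sub (hle _)]
      simp only [CfsgLib.Chevalley.levB20, CfsgLib.Chevalley.levB21, List.map_cons, List.map_nil, List.sum_cons, List.sum_nil]
      ring)
  simpa [Nat.gcd_comm, pow_two, mul_assoc] using key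

end Cfsg.Agent.S1060
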