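import Cfsg.Statements.S1062
import Cfsg.Agent.Chevalley.Weights.F4

set_option autoImplicit false
open Cfsg

namespace Cfsg.Agent.S1062

/-- `|F₄(q)| = q²⁴ (q² - 1)(q⁶ - 1)(q⁸ - 1)(q¹² - 1)`. -/
theorem result {F : Type*} [Field F] [Fintype F] {q : ℕ} (hq : Fintype.card F = q) : Nat.card ↥(Cfsg.Lie.chevF4.group F) = q ^ 24 * (q ^ 2 - 1) * (q ^ 6 - 1) * (q ^ 8 - 1) * (q ^ 12 - 1) := by
  subst hq
  have hle : ∀ k : ℕ, 1 ≤ Fintype.card F ^ k := fun k => Nat.one_le_pow _ _ Fintype.card_pos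
  have key := CfsgLib.Chevalley.sysF4.natCard_group_eq F (l := 4) (N := 24)
    (d := 1) (R := (Fintype.card F ^ 2 - 1) * (Fintype.card F ^ 6 - 1) * (Fintype.card F ^ 8 - 1) * (Fintype.card F ^ 12 - 1)) rfl rfl (CfsgLib.Chevalley.natCardDiagonalF4 F) (by
      rw [CfsgLib.Chevalley.lenSumF4 F]
      push_cast [Nat.cast_sub (hle _)]
      simp only [CfsgLib.Chevalley.levF40, CfsgLib.Chevalley.levF41, CfsgLib.Chevalley.levF42, CfsgLib.Chevalley.levF43, List.map_cons, List.map_nil, List.sum_cons, List.sum_nil]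
      ring)
  simpa [Nat.gcd_comm, pow_two, mul_assoc] using key

end Cfsg.Agent.S1062
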