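import Cfsg.Statements.S1063
import Cfsg.Agent.Chevalley.Weights.E6

set_option autoImplicit false
open Cfsg

namespace Cfsg.Agent.S1063

/-- `gcd(3, q-1) · |E₆(q)| = q³⁶ (q² - 1)(q⁵ - 1)(q⁶ - 1)(q⁸ - 1)(q⁹ - 1)(q¹² - 1)`. -/
theorem result {F : Type*} [Field F] [Fintype F] {q : ℕ} (hq : Fintype.card F = q) : Nat.gcd 3 (q - 1) * Nat.card ↥(Cfsg.Lie.chevE6.group F) = q ^ 36 * (q ^ 2 - 1) * (q ^ 5 - 1) * (q ^ 6 - 1) * (q ^ 8 - 1) * (q ^ 9 - 1) * (q ^ 12 - 1) := by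
  subst hq
  have hle : ∀ k : ℕ, 1 ≤ Fintype.card F ^ k := fun k => Nat.one_le_pow _ _ Fintype.card_pos
  have key := CfsgLib.Chevalley.sysE6.natCard_group_eq F (l := 6) (N := 36)
    (d := (Fintype.card F - 1).gcd 3) (R := (Fintype.card F ^ 2 - 1) * (Fintype.card F ^ 5 - 1) * (Fintype.card F ^ 6 - 1) * (Fintype.card F ^ 8 - 1) * (Fintype.card F ^ 9 - 1) * (Fintype.card F ^ 12 - 1)) rfl rfl (CfsgLib.Chevalley.natCardDiagonalE6 F) (by
      rw [CfsgLib.Chevalley.lenSumE6 F]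
      push_cast [Nat.cast_sub (hle _)]
      simp only [CfsgLib.Chevalley.levE60, CfsgLib.Chevalley.levE61, CfsgLib.Chevalley.levE62, CfsgLib.Chevalley.levE63, CfsgLib.Chevalley.levE64, CfsgLib.Chevalley.levE65, List.map_cons, List.map_nil, List.sum_cons, List.sum_nil]
      ring)
  simpa [Nat.gcd_comm, pow_two, mul_assoc] using key

end Cfsg.Agent.S1063
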