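import Cfsg.Statements.S1065
import Cfsg.Agent.Chevalley.Weights.E8

set_option autoImplicit false
open Cfsg

namespace Cfsg.Agent.S1065

set_option maxRecDepth 16000
set_option maxHeartbeats 2000000

/-- `|E₈(q)| = q¹²⁰ ∏_{d ∈ {2,8,12,14,18,20,24,30}} (q^d - 1)`. -/
theorem result {F : Type*} [Field F] [Fintype F] {q : ℕ} (hq : Fintype.card F = q) : Nat.card ↥(Cfsg.Lie.chevE8.group F) = q ^ 120 * (q ^ 2 - 1) * (q ^ 8 - 1) * (q ^ 12 - 1) * (q ^ 14 - 1) * (q ^ 18 - 1) * (q ^ 20 - 1) * (q ^ 24 - 1) * (q ^ 30 - 1) := by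
  subst hq
  have hle : ∀ k : ℕ, 1 ≤ Fintype.card F ^ k := fun k => Nat.one_le_pow _ _ Fintype.card_pos
  have key := CfsgLib.Chevalley.sysE8.natCard_group_eq F (l := 8) (N := 120)
    (d := 1) (R := (Fintype.card F ^ 2 - 1) * (Fintype.card F ^ 8 - 1) * (Fintype.card F ^ 12 - 1) * (Fintype.card F ^ 14 - 1) * (Fintype.card F ^ 18 - 1) * (Fintype.card F ^ 20 - 1) * (Fintype.card F ^ 24 - 1) * (Fintype.card F ^ 30 - 1)) rfl rfl (CfsgLib.Chevalley.natCardDiagonalE8 F) (by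
      rw [CfsgLib.Chevalley.lenSumE8 F]
      push_cast [Nat.cast_sub (hle _)]
      simp only [CfsgLib.Chevalley.levE80, CfsgLib.Chevalley.levE81, CfsgLib.Chevalley.levE82, CfsgLib.Chevalley.levE83, CfsgLib.Chevalley.levE84, CfsgLib.Chevalley.levE85, CfsgLib.Chevalley.levE86, CfsgLib.Chevalley.levE87, List.map_cons, List.map_nil, List.sum_cons, List.sum_nil]
      ring)
  simpa [Nat.gcd_comm, pow_two, mul_assoc] using key

end Cfsg.Agent.S1065
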