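import Cfsg.Statements.S3796
import Mathlib
import Cfsg.Agent.Eq.Def_Transfer
import Cfsg.Agent.FpfAut.Reduction
import Cfsg.Agent.FpfAut.Ward

set_option autoImplicit false
open Cfsg

namespace Cfsg.Agent.S3796

universe u

open CfsgLib.FpfAut in
theorem exists_nilpotent_term {A : Type*} [Group A] [Finite A] {p : ℕ} [hp : Fact p.Prime]
    (hA : ∀ a b : A, a * b = b * a) (hexp : ∀ a : A, a ^ p = 1) (hcard : Nat.card A = p ^ 2) (n : ℕ) :
    ∀ (G : Type u) [Group G] [Finite G] [MulDistribMulAction A G], Nat.card G = n → Group.IsSolvable G →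
      (∀ g : G, (∀ a : A, a • g = g) → g = 1) →
      ∃ k m : ℕ, ((⊤ : Subgroup G).lowerCentralSeries k).lowerCentralSeries m = ⊥ := by
  induction n using Nat.strong_induction_on with
  | _ n ih =>
  intro G _ _ _ hn hsol hfix
  classical
  subst hn
  haveI := hsol
  rcases subsingleton_or_nontrivial G with hs | hnt
  · exact ⟨0, 0, Subsingleton.elim _ _⟩
  have hAp : IsPGroup p A := IsPGroup.of_card hcard
  obtain ⟨W, q, hq, hWn, hWA, hW, hWab, hWq, hmin⟩ := exists_minimal_invariant (A := A) hsol
  haveI : Fact q.Prime := ⟨hq⟩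
  haveI : Nontrivial W := (Subgroup.nontrivial_iff_ne_bot W).2 hW
  have hcardlt : Nat.card (G ⧸ W) < Nat.card G := by
    have h1 := Subgroup.card_mul_index W
    have h2 : 1 < Nat.card W := Finite.one_lt_card
    have h3 : 0 < W.index := Nat.pos_of_ne_zero Subgroup.index_ne_zero_of_finite
    show W.index < Nat.card G
    nlinarith
  letI := quotientAction (A := A) W hWA
  obtain ⟨k, m, hkm⟩ := ih _ hcardlt (G ⧸ W) rfl inferInstance (fun x => by
    induction x using QuotientGroup.induction_on with
    | _ g =>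
      intro hx
      refine (QuotientGroup.eq_one_iff g).2 (mem_of_forall_smul_inv_mem hAp hfix hWA fun a => ?_)
      have hx' : ((a • g : G) : G ⧸ W) = g := hx a
      rw [eq_comm, QuotientGroup.eq] at hx'
      exact hx')
  rw [← Subgroup.map_top_of_surjective _ (QuotientGroup.mk'_surjective W), ← Subgroup.map_lowerCentralSeries,
    ← Subgroup.map_lowerCentralSeries, Subgroup.map_eq_bot_iff, QuotientGroup.ker_mk'] at hkm
  have hWC : W ≤ Subgroup.centralizer (W : Set G) :=
    fun x hx => Subgroup.mem_centralizer_iff.2 fun y hy => hWab y hy x hx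
  obtain ⟨j, hj⟩ : ∃ j, (⊤ : Subgroup G).lowerCentralSeries j ≤ Subgroup.centralizer (W : Set G) := by
    refine opModule_elim q W hWA hW hWab hWq hmin hfix ?_
    intro H M _ _ _ _ _ π e hπ hπA hker hM he heW he0 heA
    haveI : Finite H := Finite.of_surjective π hπ
    haveI : Finite M := Finite.of_injective e he
    have hHfix : ∀ h : H, (∀ a : A, a • h = h) → h = 1 := by
      intro h hh
      obtain ⟨g, rfl⟩ := hπ h
      refine MonoidHom.mem_ker.1 (mem_of_forall_smul_inv_mem hAp hfix
        (fun a x hx => ?_) fun a => ?_)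
      · rw [MonoidHom.mem_ker] at hx ⊢
        rw [hπA, hx, smul_one]
      · rw [MonoidHom.mem_ker, map_mul, map_inv, hπA, hh, inv_mul_cancel]
    have hnil : Group.IsNilpotent ((⊤ : Subgroup H).lowerCentralSeries k) := by
      refine (Subgroup.isNilpotent_iff_lowerCentralSeries _).2 ⟨m, ?_⟩
      rw [← Subgroup.map_top_of_surjective π hπ, ← Subgroup.map_lowerCentralSeries,
        ← Subgroup.map_lowerCentralSeries, Subgroup.map_eq_bot_iff, hker]
      exact hkm.trans hWC
    haveI : Group.IsSolvable H := Group.isSolvable_of_surjective hπ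
    obtain ⟨j, hj⟩ := Subgroup.nilpotent_iff_lowerCentralSeries.1
      (isNilpotent_of_opModule hA hexp hcard hHfix inferInstance hM hnil)
    refine ⟨j, ?_⟩
    rw [← hker, ← Subgroup.map_eq_bot_iff, Subgroup.map_lowerCentralSeries,
      Subgroup.map_top_of_surjective π hπ, hj]
  refine ⟨max k j, m + 1, ?_⟩
  rw [Subgroup.lowerCentralSeries_succ, eq_bot_iff, Subgroup.commutator_le]
  intro x hx y hy
  rw [Subgroup.mem_bot, commutatorElement_eq_one_iff_mul_comm]
  have hxW : x ∈ W := hkm (Subgroup.lowerCentralSeries_mono m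
    (Subgroup.lowerCentralSeries_antitone _ (le_max_left k j)) hx)
  have hyC := hj (Subgroup.lowerCentralSeries_antitone _ (le_max_right k j) hy)
  exact Subgroup.mem_centralizer_iff.1 hyC x hxW


/-- Ward's Theorem: let G be a finite solvable group and A an elementary abelian group of automorphisms of G of order p² (p a prime) with no non-identity common fixed point. Then G has Fitting height at most 2: G has Fitting height at most m when there is a chain of normal subgroups 1 = F₀ ≤ F₁ ≤ ⋯ ≤ F_m = G with each F_{i+1}/F_i nilpotent. -/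
theorem result {G : Type*} [Group G] [Finite G] (hG : Group.IsSolvable G) {p : ℕ} (hp : p.Prime) (A : Subgroup (MulAut G)) (hA : Cfsg.IsElementaryAbelian p A) (hcard : Nat.card A = p ^ 2) (hfpf : ∀ g : G, (∀ a ∈ A, a g = g) → g = 1) : ∃ F : Fin (2 + 1) → Subgroup G, F 0 = ⊥ ∧ F (Fin.last 2) = ⊤ ∧ Monotone F ∧ (∀ i, (F i).Normal) ∧ ∀ i : Fin 2, ∃ k : ℕ, (F i.succ).lowerCentralSeries k ≤ F i.castSucc := by
  haveI : Fact p.Prime := ⟨hp⟩
  obtain ⟨k, m, hkm⟩ := exists_nilpotent_term (A := A)
    (fun a b => hA.1.is_comm.comm a b) (fun a => Subtype.ext (hA.2 a a.2)) hcard _ G rfl hG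
    (fun g hg => hfpf g fun a ha => hg ⟨a, ha⟩)
  refine ⟨![⊥, (⊤ : Subgroup G).lowerCentralSeries k, ⊤], rfl, rfl, ?_, ?_, ?_⟩
  · refine Fin.monotone_iff_le_succ.2 fun i => ?_
    fin_cases i
    · exact bot_le
    · exact le_top
  · intro i
    fin_cases i
    · exact (inferInstance : (⊥ : Subgroup G).Normal)
    · exact (inferInstance : ((⊤ : Subgroup G).lowerCentralSeries k).Normal)
    · exact (inferInstance : (⊤ : Subgroup G).Normal)
  · intro i
    fin_cases i
    · exact ⟨m, hkm.le⟩
    · exact ⟨k, le_rfl⟩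


end Cfsg.Agent.S3796
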