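import Cfsg.Statements.S0942
import Cfsg.Agent.Eq.Def_Blocks
import Cfsg.Agent.Blocks.HeightZero.PrincipalSection
import Cfsg.Agent.Constrained.Basic

set_option autoImplicit false
open Cfsg

namespace Cfsg.Agent.S0942

/-- Let u be a p-element of the finite group G, let v lie in the largest normal subgroup of C_G(u) of order prime to p, and let χ belong to the principal block (relative to a maximal ideal M of the algebraic integers containing p). Then χ (u * v) = χ u. -/
theorem result {G : Type*} [Group G] [Finite G] (p : ℕ) [Fact p.Prime] (M : Ideal Cfsg.AlgInt) (hM : Cfsg.IsPModular p M) (u : G) (hu : ∃ k : ℕ, orderOf u = p ^ k) (v : G) (hv : v ∈ Cfsg.centralizerPPrimeCore p u) (χ : Cfsg.IrrCharacter G) (hχ : χ ∈ Cfsg.principalBlock M G) : (χ : G → ℂ) (u * v) = (χ : G → ℂ) u := by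
  classical
  have := Fintype.ofFinite G
  have := CfsgLib.Blocks.isMaximal_of_isPModular hM
  have : Fintype (Subgroup.centralizer ({u} : Set G)) := Fintype.ofFinite _
  obtain ⟨v, hvK, rfl⟩ := hv
  set K := Cfsg.pPrimeCore p (Subgroup.centralizer ({u} : Set G))
  have hK : ¬ p ∣ Nat.card K := CfsgLib.Constrained.pPrimeCore_not_dvd
  have hv : ¬ p ∣ orderOf v := fun h => hK (h.trans (by
    rw [← Subgroup.orderOf_mk v hvK]; exact orderOf_dvd_natCard _))
  have h1 : ¬ p ∣ orderOf (1 : Subgroup.centralizer ({u} : Set G)) := by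
    rw [orderOf_one]; exact hM.1.not_dvd_one
  have e := CfsgLib.Blocks.HeightZero.apply_section_eq_blockPart hM hu hχ hv
  have e1 := CfsgLib.Blocks.HeightZero.apply_section_eq_blockPart hM hu hχ h1
  rw [OneMemClass.coe_one, mul_one] at e1
  refine e.trans (Eq.trans ?_ e1.symm)
  simp only [CfsgLib.Blocks.blockPart_apply_eq, Finset.sum_apply, Pi.smul_apply, smul_eq_mul]
  refine Finset.sum_congr rfl fun ψ hψ => ?_
  rw [CfsgLib.Chars.map_eq_map_one_of_mem_charKer
    (CfsgLib.Blocks.le_charKer_of_mem_principalBlock K hM hK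
      ((Set.Finite.mem_toFinset _).1 hψ) hvK)]

end Cfsg.Agent.S0942
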