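import Cfsg.Statements.S2653
import Cfsg.Agent.AltLinear.Reduction

set_option autoImplicit false
open scoped MatrixGroups
open Cfsg

namespace Cfsg.Agent.S2653

open CfsgLib.AltLinear

/-- Alternating sections of finite linear groups. Let `F` be a finite field of characteristic `p` and `n` a natural number, and suppose some subgroup `H` of GL_n(F) has a normal subgroup `K` with `H ⧸ K` isomorphic to the alternating group of degree `r ≥ 9`. Then `n ≥ r - 2` when `p` divides `r`, and `n ≥ r - 1` otherwise (the smallest degree of a nontrivial projective representation of that alternating group in characteristic `p`). The same bound follows for every classical group with natural module of dimension `n` over `F`, since each is a section of a subgroup of GL_n(F). -/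
theorem result {F : Type*} [Field F] [Fintype F] (p : ℕ) [Fact p.Prime] [CharP F p]
    (n : ℕ) (r : ℕ) (H : Subgroup (GL (Fin n) F)) (K : Subgroup ↥H) [K.Normal]
    (h : Nonempty (↥H ⧸ K ≃* ↥(alternatingGroup (Fin r)))) (hr : 9 ≤ r) :
    r - 1 - (if p ∣ r then 1 else 0) ≤ n := by
  obtain ⟨e⟩ := h
  letI : Algebra (ZMod p) F := ZMod.algebra F p
  haveI : Algebra.IsAlgebraic (ZMod p) F := Algebra.IsAlgebraic.of_finite (ZMod p) F
  let ι : F →+* Kp p := (IsAlgClosed.lift (M := Kp p) : F →ₐ[ZMod p] Kp p).toRingHom
  let Ψ : GL (Fin n) F →* Module.End (Kp p) (Fin n → Kp p) :=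
    ((Matrix.toLinAlgEquiv' (R := Kp p) (n := Fin n)).toMonoidHom).comp
      ((ι.mapMatrix : Matrix (Fin n) (Fin n) F →+* Matrix (Fin n) (Fin n) (Kp p)).toMonoidHom.comp (Units.coeHom _))
  have hΨ : Function.Injective Ψ := fun x y hxy =>
    Units.ext (Matrix.map_injective ι.injective ((Matrix.toLinAlgEquiv' (R := Kp p) (n := Fin n)).injective hxy))
  let ρ₀ : ↥H →* (Module.End (Kp p) (Fin n → Kp p))ˣ := (Ψ.comp H.subtype).toHomUnits
  have hρ₀ : Function.Injective ρ₀ := fun x y hxy => Subtype.ext (hΨ (congrArg Units.val hxy))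
  let E : ↥H ≃* ρ₀.range := MonoidHom.ofInjective hρ₀
  haveI : Finite ρ₀.range := Finite.of_equiv _ E.toEquiv
  let φ : ρ₀.range →* Alt r := (e.toMonoidHom.comp (QuotientGroup.mk' K)).comp E.symm.toMonoidHom
  have hφ : Function.Surjective φ :=
    (e.surjective.comp (QuotientGroup.mk'_surjective K)).comp E.symm.surjective
  exact alt_section_bound r hr n p (Fin n → Kp p) (Module.finrank_fin_fun _) ρ₀.range
    ((Units.coeHom _).comp ρ₀.range.subtype) φ hφ
    (fun g hg => by rw [show g = 1 from Subtype.ext (Units.ext hg), map_one])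

end Cfsg.Agent.S2653
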