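import Cfsg.Statements.S0886
import Cfsg.Agent.Eq.Def_Characters
import Cfsg.Agent.CharExtend.Basic

set_option autoImplicit false
open Cfsg

namespace Cfsg.Agent.S0886

open CfsgLib.CharExtend in
theorem exists_extension {G : Type*} [Group G] [Finite G] {n : ℕ} (N : Subgroup G) [N.Normal]
    (hcyc : IsCyclic (G ⧸ N)) (ρ : Representation ℂ N (Fin n → ℂ)) (hρ : ρ.IsIrreducible)
    (hinv : ∀ (g : G) (x : N), ρ.character (MulAut.conjNormal g x) = ρ.character x) :
    ∃ F : Representation ℂ G (Fin n → ℂ), ∀ x : N, F x = ρ x := by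
  obtain ⟨q, hq⟩ := hcyc.exists_generator
  obtain ⟨g₀, rfl⟩ := QuotientGroup.mk_surjective q
  set m := orderOf (g₀ : G ⧸ N) with hm
  have hm0 : 0 < m := orderOf_pos _
  obtain ⟨e₁, he₁⟩ := proj_surjective N ρ hρ hinv g₀
  have hgm : g₀ ^ m ∈ N := by
    rw [← QuotientGroup.eq_one_iff, QuotientGroup.mk_pow]
    exact pow_orderOf_eq_one _
  obtain ⟨c, hc⟩ := exists_zeta_of_proj_eq N ρ hρ (a := e₁ ^ m) (b := iota N ρ ⟨_, hgm⟩)
    (by rw [map_pow, he₁, proj_iota])
  obtain ⟨d, hd⟩ := IsAlgClosed.exists_pow_nat_eq (c : ℂ) hm0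
  have hd0 : d ≠ 0 := by
    rintro rfl
    rw [zero_pow hm0.ne'] at hd
    exact c.ne_zero hd.symm
  set e₀ := e₁ * zeta N ρ (Units.mk0 d hd0) with he₀
  have he₀m : e₀ ^ m = iota N ρ ⟨_, hgm⟩ := by
    rw [he₀, Commute.mul_pow (zeta_comm N ρ _ e₁).symm, ← map_pow, hc]
    congr 2
    exact Units.ext (by simpa using hd)
  have he₀p : proj N ρ e₀ = g₀ := by rw [he₀, map_mul, proj_zeta, mul_one, he₁]
  haveI hn : (iota N ρ).range.Normal := by
    refine ⟨?_⟩
    rintro _ ⟨x, rfl⟩ e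
    refine ⟨MulAut.conjNormal (proj N ρ e) x, ext_ext N ρ ?_ ?_⟩
    · rw [proj_iota, MulAut.conjNormal_apply, map_mul, map_mul, map_inv, proj_iota]
    · rw [lin_iota, map_mul, map_mul, map_inv, lin_iota, eq_mul_inv_iff_mul_eq]
      exact (e.2 x).symm
  set K : Subgroup (ext N ρ) := (iota N ρ).range ⊔ Subgroup.zpowers e₀ with hK
  let π : K →* G := (proj N ρ).comp K.subtype
  have hinj : Function.Injective π := by
    rw [injective_iff_map_eq_one]
    rintro ⟨y, hy⟩ hy1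
    obtain ⟨_, ⟨x, rfl⟩, _, ⟨i, rfl⟩, rfl⟩ := Subgroup.mem_sup_of_normal_left.mp hy
    apply Subtype.ext
    simp only [π, MonoidHom.coe_comp, Subgroup.coe_subtype, Function.comp_apply, map_mul,
      map_zpow, proj_iota, he₀p] at hy1
    have hi : g₀ ^ i ∈ N := by
      rw [eq_inv_of_mul_eq_one_right hy1]
      exact N.inv_mem x.2
    obtain ⟨j, rfl⟩ : (m : ℤ) ∣ i := by
      rw [hm, orderOf_dvd_iff_zpow_eq_one, ← QuotientGroup.mk_zpow, QuotientGroup.eq_one_iff]
      exact hi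
    change iota N ρ x * e₀ ^ ((m : ℤ) * j) = 1
    rw [zpow_mul, zpow_natCast, he₀m, ← map_zpow, ← map_mul]
    have : x * ⟨_, hgm⟩ ^ j = (1 : N) := Subtype.ext (by
      rw [zpow_mul, zpow_natCast] at hy1
      simpa using hy1)
    rw [this, map_one]
  have hsurj : Function.Surjective π := by
    intro g
    obtain ⟨i, hi⟩ := Subgroup.mem_zpowers_iff.mp (hq (g : G ⧸ N))
    have hx : g * (g₀ ^ i)⁻¹ ∈ N := by
      rw [← QuotientGroup.eq_one_iff, QuotientGroup.mk_mul, QuotientGroup.mk_inv,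
        QuotientGroup.mk_zpow, hi, mul_inv_cancel]
    refine ⟨⟨iota N ρ ⟨_, hx⟩ * e₀ ^ i,
      Subgroup.mul_mem_sup ⟨_, rfl⟩ (Subgroup.zpow_mem_zpowers _ _)⟩, ?_⟩
    simp only [π, MonoidHom.coe_comp, Subgroup.coe_subtype, Function.comp_apply, map_mul,
      map_zpow, proj_iota, he₀p, inv_mul_cancel_right]
  let eqv := MulEquiv.ofBijective π ⟨hinj, hsurj⟩
  refine ⟨(Units.coeHom _).comp (((lin N ρ).comp K.subtype).comp eqv.symm.toMonoidHom), fun x => ?_⟩
  have : eqv.symm (x : G) = ⟨iota N ρ x, Subgroup.mem_sup_left ⟨x, rfl⟩⟩ := by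
    apply eqv.injective
    rw [MulEquiv.apply_symm_apply]
    rfl
  change ((lin N ρ (eqv.symm (x : G) : K) : Lin n) : (Fin n → ℂ) →ₗ[ℂ] (Fin n → ℂ)) = ρ x
  rw [this]
  rfl

/-- Let N be a normal subgroup of the finite group G with G / N cyclic, and ϑ an irreducible character of N invariant under conjugation by G. Then ϑ is the restriction of some irreducible character of G. -/
theorem result {G : Type*} [Group G] [Finite G] (N : Subgroup G) [hN : N.Normal] (hcyc : IsCyclic (G ⧸ N)) (ϑ : N → ℂ) (hϑ : Cfsg.IsIrrCharacter N ϑ) (hinv : ∀ (g : G) (n : N), ϑ ⟨g * n * g⁻¹, hN.conj_mem (n : G) n.2 g⟩ = ϑ n) : ∃ χ : G → ℂ, Cfsg.IsIrrCharacter G χ ∧ ∀ n : N, χ n = ϑ n := by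
  obtain ⟨n, ρ, hρ, rfl⟩ := hϑ
  have hinv' : ∀ (g : G) (x : N), ρ.character (MulAut.conjNormal g x) = ρ.character x := by
    intro g x
    exact (congrArg ρ.character (Subtype.ext (MulAut.conjNormal_apply g x))).trans (hinv g x)
  obtain ⟨F, hF⟩ := exists_extension N hcyc ρ hρ hinv'
  refine ⟨F.character, ⟨n, F,
    CfsgLib.CharExtend.irreducible_of_restrict N.subtype F ρ hρ hF, rfl⟩, fun x => ?_⟩
  simp only [Representation.character, hF]

end Cfsg.Agent.S0886
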