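import Cfsg.Statements.S0604
import Cfsg.Agent.LocalP.ThompsonJ
import Cfsg.Agent.Eq.Def_PLocal

set_option autoImplicit false
open Cfsg

namespace Cfsg.Agent.S0604

/-- The Thompson subgroup of G is the join of the Thompson subgroups of its Sylow p-subgroups. -/
theorem result {G : Type*} [Group G] [Finite G] {p : ℕ} [Fact p.Prime] : Cfsg.thompsonSubgroup p G = ⨆ S : Sylow p G, Cfsg.thompsonSubgroupOf p (S : Subgroup G) := by
  have hmax : ∀ A ∈ CfsgLib.LocalP.maxElemIn p (⊤ : Subgroup G), ∀ S : Sylow p G,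
      ∃ g : G, A.map (MulAut.conj g).toMonoidHom ≤ S := by
    intro A hA S
    obtain ⟨T, hT⟩ := (CfsgLib.LocalP.isPGroup_of_isElementaryAbelian hA.2.1).exists_le_sylow
    obtain ⟨g, hg⟩ := MulAction.exists_smul_eq G T S
    refine ⟨g, ?_⟩
    rw [← hg, Sylow.coe_subgroup_smul]
    exact Subgroup.map_mono hT
  simp only [CfsgLib.LocalP.thompsonSubgroupOf_eq_sSup, CfsgLib.LocalP.thompsonSubgroup_eq_sSup]
  refine le_antisymm (sSup_le fun A hA => ?_) (iSup_le fun S => sSup_le fun A hA => ?_)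
  · obtain ⟨T, hT⟩ := (CfsgLib.LocalP.isPGroup_of_isElementaryAbelian hA.2.1).exists_le_sylow
    have hmem : A ∈ CfsgLib.LocalP.maxElemIn p (T : Subgroup G) :=
      ⟨hT, hA.2.1, fun B _ hB => hA.2.2 B le_top hB⟩
    exact le_trans (le_sSup hmem) (le_iSup (fun T : Sylow p G => sSup (CfsgLib.LocalP.maxElemIn p (T : Subgroup G))) T)
  · obtain ⟨B, hB⟩ := CfsgLib.LocalP.exists_maxElemIn (p := p) (⊤ : Subgroup G)
    obtain ⟨g, hg⟩ := hmax B hB S
    refine le_sSup ⟨le_top, hA.2.1, fun C hC hCel => (hB.2.2 C hC hCel).trans ?_⟩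
    rw [← Subgroup.card_map_of_injective (f := (MulAut.conj g).toMonoidHom) (MulAut.conj g).injective
      (K := B)]
    exact hA.2.2 _ hg (CfsgLib.LocalP.isElementaryAbelian_map _ hB.2.1)

end Cfsg.Agent.S0604
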