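import Cfsg.Statements.S0519
import Cfsg.Agent.TwoGroup.NormalRankOne
import Cfsg.Agent.PGroup.UniqueOrderP

set_option autoImplicit false
open Cfsg

namespace Cfsg.Agent.S0519

/-- Let P be a finite p-group in which every abelian normal subgroup is cyclic, but which has a non-cyclic abelian
subgroup. Then p = 2 and P is generalized quaternion, dihedral of order at least 16, or quasi-dihedral. -/
theorem result {P : Type*} [Group P] [Finite P] (p : ℕ) [Fact p.Prime]
    (hP : IsPGroup p P) (hn : ∀ A : Subgroup P, A.Normal → IsMulCommutative A → IsCyclic A)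
    (hm : ∃ B : Subgroup P, IsMulCommutative B ∧ ¬ IsCyclic B) :
    p = 2 ∧ ((∃ n : ℕ, Nonempty (P ≃* QuaternionGroup n)) ∨ (∃ n : ℕ, 8 ≤ n ∧ Nonempty (P ≃* DihedralGroup n)) ∨
      Cfsg.IsQuasiDihedral P) := by
  have hnc : ¬ IsCyclic P := by
    intro h
    obtain ⟨B, -, hB⟩ := hm
    exact hB (isCyclic_of_injective B.subtype B.subtype_injective)
  have hp : p = 2 := by
    by_contra hp
    obtain ⟨E, hEn, hE, hEc⟩ := CfsgLib.PGroup.exists_normal_elementary_sq hp hP hnc
    haveI := hn E hEn hE.1
    have hd := Monoid.exponent_dvd_of_forall_pow_eq_one (G := E) (n := p)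
      fun a => Subtype.ext (by simpa using hE.2 a a.2)
    rw [IsCyclic.exponent_eq_card, hEc] at hd
    have h2 := (Fact.out : p.Prime).two_le
    have := Nat.le_of_dvd (by omega) hd
    nlinarith
  refine ⟨hp, ?_⟩
  subst hp
  rcases (CfsgLib.TwoGroup.isMaxClassType_of_normal_rank_one hP hnc hn).dihedral_or_quaternion_or_quasiDihedral
    with ⟨k, hk⟩ | ⟨k, hk⟩ | h
  · refine Or.inr (Or.inl ⟨2 ^ (k + 2), ?_, hk⟩)
    rcases Nat.eq_zero_or_pos k with rfl | hk0
    · -- the dihedral group of order eight has a normal four-group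
      exfalso
      obtain ⟨e⟩ := hk
      let V : Subgroup (DihedralGroup 4) :=
        Subgroup.closure {DihedralGroup.r 2, DihedralGroup.sr 0}
      let T : Finset (DihedralGroup 4) :=
        {DihedralGroup.r 0, DihedralGroup.r 2, DihedralGroup.sr 0, DihedralGroup.sr 2}
      have hT1 : (1 : DihedralGroup 4) ∈ T := by decide
      have hTm : ∀ a ∈ T, ∀ b ∈ T, a * b ∈ T := by decide
      have hTi : ∀ a ∈ T, a⁻¹ ∈ T := by decide
      have hTc : ∀ a ∈ T, ∀ b ∈ T, a * b = b * a := by decide
      have hTn : ∀ a ∈ T, ∀ g : DihedralGroup 4, g * a * g⁻¹ ∈ T := by decide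
      have hTs : ∀ a ∈ T, a * a = 1 := by decide
      have hTcard : T.card = 4 := by decide
      let W : Subgroup P :=
        { carrier := {x | e x ∈ T}
          one_mem' := by show e 1 ∈ T; rw [map_one]; exact hT1
          mul_mem' := fun {a b} ha hb => by show e (a * b) ∈ T; rw [map_mul]; exact hTm _ ha _ hb
          inv_mem' := fun {a} ha => by show e a⁻¹ ∈ T; rw [map_inv]; exact hTi _ ha }
      have hWn : W.Normal := ⟨fun a ha g => by
        show e (g * a * g⁻¹) ∈ T; rw [map_mul, map_mul, map_inv]; exact hTn _ ha _⟩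
      haveI := hn W hWn (isMulCommutative_iff.2 fun a b => Subtype.ext (e.injective (by
        simp only [Subgroup.coe_mul, map_mul]; exact hTc _ a.2 _ b.2)))
      have hWc : Nat.card W = 4 := by
        rw [← hTcard, ← Nat.card_eq_finsetCard]
        exact Nat.card_congr (e.toEquiv.subtypeEquiv fun _ => Iff.rfl)
      have hd := Monoid.exponent_dvd_of_forall_pow_eq_one (G := W) (n := 2)
        fun a => Subtype.ext (e.injective (by
          show e ((a : P) ^ 2) = e (1 : P)
          rw [map_pow, map_one]; exact (sq _).trans (hTs _ a.2)))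
      rw [IsCyclic.exponent_eq_card, hWc] at hd
      exact absurd (Nat.le_of_dvd two_pos hd) (by norm_num)
    · calc 8 = 2 ^ 3 := by norm_num
        _ ≤ 2 ^ (k + 2) := Nat.pow_le_pow_right two_pos (by omega)
  · exact Or.inl ⟨_, hk⟩
  · exact Or.inr (Or.inr h)

end Cfsg.Agent.S0519
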