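import Cfsg.Statements.S4706
import Cfsg.Agent.Chars.Ito.PrimeDegree
import Cfsg.Agent.Perm.SharplyThreeOdd

set_option autoImplicit false
open Cfsg

namespace Cfsg.Agent.S4706

open MulAction

/-- A group of degree `p` with an element of order `p` is transitive. -/
theorem isPretransitive_of_dvd {α : Type*} [Fintype α] [DecidableEq α] {p : ℕ} [Fact p.Prime]
    (hα : Fintype.card α = p) (G : Subgroup (Equiv.Perm α)) (hd : p ∣ Nat.card G) :
    IsPretransitive G α := by
  obtain ⟨t, ht⟩ := exists_prime_orderOf_dvd_card' p hd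
  have hp : p.Prime := Fact.out
  have ht' : orderOf (t : Equiv.Perm α) = p := by rw [Subgroup.orderOf_coe, ht]
  have hc := Equiv.Perm.isCycle_of_prime_order'' (hα ▸ hp) (ht'.trans hα.symm)
  have hsupp : (t : Equiv.Perm α).support.card = p := by rw [← hc.orderOf, ht']
  have hu : (t : Equiv.Perm α).support = Finset.univ := Finset.eq_univ_of_card _ (hsupp.trans hα.symm)
  refine ⟨fun x y => ?_⟩
  obtain ⟨i, hi⟩ := hc.sameCycle (Equiv.Perm.mem_support.1 (hu ▸ Finset.mem_univ x))
    (Equiv.Perm.mem_support.1 (hu ▸ Finset.mem_univ y))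
  exact ⟨t ^ i, hi⟩

/-- Two-point stabilisers of order `|X| - 2` act regularly. -/
theorem three_pretransitive {G X : Type*} [Group G] [Finite G] [MulAction G X] [Fintype X]
    (h2 : IsMultiplyPretransitive G X 2) (hX : 3 ≤ Fintype.card X)
    (hfix : ∀ g : G, 3 ≤ Nat.card (fixedBy X g) → g = 1)
    (hd : Fintype.card X - 2 ∣ Nat.card G) (hcop : (Fintype.card X - 2).Coprime
      (Fintype.card X * (Fintype.card X - 1))) :
    IsMultiplyPretransitive G X 3 := by
  classical
  have key : ∀ a b c d : X, a ≠ b → c ≠ a → c ≠ b → d ≠ a → d ≠ b →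
      ∃ g : G, g • a = a ∧ g • b = b ∧ g • c = d := by
    intro a b c d hab hca hcb hda hdb
    set T := stabilizer G (a, b) with hT
    have horb : orbit G (a, b) = {q : X × X | q.1 ≠ q.2} := by
      ext ⟨x, y⟩
      constructor
      · rintro ⟨g, hg⟩ e
        have h1 : g • a = x := congrArg Prod.fst hg
        have h2 : g • b = y := congrArg Prod.snd hg
        exact hab (MulAction.injective g (h1.trans ((show x = y from e).trans h2.symm)))
      · intro hxy
        obtain ⟨g, h1, h2'⟩ := is_two_pretransitive_iff.1 h2 hab (show x ≠ y from hxy)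
        exact ⟨g, Prod.ext h1 h2'⟩
    have hcard : Fintype.card X * (Fintype.card X - 1) * Nat.card T = Nat.card G := by
      rw [← Nat.card_congr (orbitProdStabilizerEquivGroup G (a, b)), Nat.card_prod, horb]
      congr 1
      rw [Nat.card_eq_fintype_card, ← Set.toFinset_card, show ({q : X × X | q.1 ≠ q.2} : Set _).toFinset
        = (Finset.univ : Finset X).offDiag by ext ⟨x, y⟩; simp, Finset.offDiag_card, Finset.card_univ,
        Nat.mul_sub_one]
    have hdvd : Fintype.card X - 2 ∣ Nat.card T := (hcop.dvd_mul_left).1 (hcard ▸ hd)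
    have hinj : Function.Injective fun u : T => u.1 • c := by
      intro u v huv
      have hfixes : ∀ z, z = a ∨ z = b ∨ z = c → (v.1⁻¹ * u.1) • z = z := by
        have hu : u.1 • a = a ∧ u.1 • b = b := ⟨congrArg Prod.fst u.2, congrArg Prod.snd u.2⟩
        have hv : v.1 • a = a ∧ v.1 • b = b := ⟨congrArg Prod.fst v.2, congrArg Prod.snd v.2⟩
        rintro z (rfl | rfl | rfl) <;> rw [mul_smul, inv_smul_eq_iff]
        · rw [hu.1, hv.1]
        · rw [hu.2, hv.2]
        · exact huv
      have h3 : 3 ≤ Nat.card (fixedBy X (v.1⁻¹ * u.1)) := by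
        rw [Nat.card_eq_fintype_card, ← Set.toFinset_card]
        refine le_trans ?_ (Finset.card_le_card (s := {a, b, c}) fun z hz => ?_)
        · rw [Finset.card_insert_of_notMem (by simp [hab, hca.symm]),
            Finset.card_insert_of_notMem (by simp [hcb.symm]), Finset.card_singleton]
        · rw [Set.mem_toFinset, mem_fixedBy]
          simp only [Finset.mem_insert, Finset.mem_singleton] at hz
          exact hfixes z hz
      exact Subtype.ext (inv_mul_eq_one.1 (hfix _ h3)).symm
    set R := (Finset.univ.erase a).erase b with hR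
    have hRcard : R.card = Fintype.card X - 2 := by
      rw [hR, Finset.card_erase_of_mem (Finset.mem_erase.2 ⟨hab.symm, Finset.mem_univ b⟩),
        Finset.card_erase_of_mem (Finset.mem_univ a), Finset.card_univ]
      rfl
    haveI := Fintype.ofFinite T
    have hsub : Finset.univ.image (fun u : T => u.1 • c) ⊆ R := by
      intro z hz
      obtain ⟨u, -, rfl⟩ := Finset.mem_image.1 hz
      have hu : u.1 • a = a ∧ u.1 • b = b := ⟨congrArg Prod.fst u.2, congrArg Prod.snd u.2⟩
      simp only [hR, Finset.mem_erase, Finset.mem_univ, and_true]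
      exact ⟨fun e => hcb (MulAction.injective u.1 (e.trans hu.2.symm)),
        fun e => hca (MulAction.injective u.1 (e.trans hu.1.symm))⟩
    have heq := Finset.eq_of_subset_of_card_le hsub (by
      rw [Finset.card_image_of_injective _ hinj, Finset.card_univ, hRcard]
      exact Nat.le_of_dvd Fintype.card_pos (Nat.card_eq_fintype_card (α := T) ▸ hdvd))
    have hd' : d ∈ R := by simp [hR, hda, hdb]
    obtain ⟨u, -, hu⟩ := Finset.mem_image.1 (heq ▸ hd')
    exact ⟨u.1, congrArg Prod.fst u.2, congrArg Prod.snd u.2, hu⟩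
  refine ⟨fun x y => ?_⟩
  obtain ⟨g, hg0, hg1⟩ := is_two_pretransitive_iff.1 h2
    (x.injective.ne (show (0 : Fin 3) ≠ 1 by decide)) (y.injective.ne (show (0 : Fin 3) ≠ 1 by decide))
  obtain ⟨k, hk0, hk1, hk2⟩ := key (y 0) (y 1) (g • x 2) (y 2)
    (y.injective.ne (by decide))
    (fun e => x.injective.ne (show (2 : Fin 3) ≠ 0 by decide) (MulAction.injective g (e.trans hg0.symm)))
    (fun e => x.injective.ne (show (2 : Fin 3) ≠ 1 by decide) (MulAction.injective g (e.trans hg1.symm)))
    (y.injective.ne (by decide)) (y.injective.ne (by decide))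
  refine ⟨k * g, Function.Embedding.ext fun i => ?_⟩
  show (k * g) • x i = y i
  fin_cases i
  · show (k * g) • x 0 = y 0
    rw [mul_smul, hg0, hk0]
  · show (k * g) • x 1 = y 1
    rw [mul_smul, hg1, hk1]
  · show (k * g) • x 2 = y 2
    rw [mul_smul, hk2]

/-- Let p > 2 be a prime and G a permutation group on p letters whose Sylow p-subgroup P has normalizer of order 2p. Then either P is normal in G, or p − 1 = 2^a for some a and G is isomorphic to SL(2, 2^a). -/
theorem result {α : Type*} [Fintype α] [DecidableEq α] {p : ℕ} [Fact p.Prime] (hp : 2 < p) (hα : Fintype.card α = p) (G : Subgroup (Equiv.Perm α)) (P : Sylow p G) (hN : Nat.card (Subgroup.normalizer ((P : Subgroup G) : Set G)) = 2 * p) : (P : Subgroup G).Normal ∨ ∃ (a : ℕ) (F : Type) (_ : Field F) (_ : Fintype F), p = 2 ^ a + 1 ∧ Fintype.card F = 2 ^ a ∧ Nonempty (G ≃* Matrix.SpecialLinearGroup (Fin 2) F) := by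
  classical
  by_cases hnorm : (P : Subgroup G).Normal
  · exact Or.inl hnorm
  right
  have hd : p ∣ Nat.card G := by
    by_contra hd
    refine hnorm ?_
    have hbot : (P : Subgroup G) = ⊥ := by
      rw [← Subgroup.card_eq_one, P.card_eq_multiplicity, Nat.factorization_eq_zero_of_not_dvd hd,
        pow_zero]
    rw [hbot]
    infer_instance
  haveI := isPretransitive_of_dvd hα G hd
  have hX : Nat.card α = p := by rw [Nat.card_eq_fintype_card, hα]
  have hPcard := CfsgLib.PermGroups.card_sylow_prime_degree (G := G) hX P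
  have hns : ¬ Group.IsSolvable G := fun hs =>
    hnorm (CfsgLib.PermGroups.sylow_normal_of_isSolvable hX hs P)
  have h2 := CfsgLib.PermGroups.burnside_two_transitive (p := p) hα hns
  have hDS : CfsgLib.Chars.Ito.DihedralSylow (P : Subgroup G) p := by
    refine ⟨hPcard, by omega, fun x hxN hxP a ha => ?_, hN⟩
    rcases eq_or_ne a 1 with rfl | ha1
    · group
    set N := Subgroup.normalizer ((P : Subgroup G) : Set G)
    have hidx : ((P : Subgroup G).subgroupOf N).index = 2 := by
      have h0 := ((P : Subgroup G).subgroupOf N).card_mul_index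
      rw [Nat.card_congr (Subgroup.subgroupOfEquivOfLe Subgroup.le_normalizer).toEquiv, hPcard, hN,
        mul_comm 2] at h0
      exact Nat.eq_of_mul_eq_mul_left (by omega) h0
    have hx2 : x * x ∈ (P : Subgroup G) :=
      Subgroup.mem_subgroupOf.1 (Subgroup.mul_self_mem_of_index_two hidx (⟨x, hxN⟩ : N))
    have hxa : x⁻¹ * a * x ∈ (P : Subgroup G) := by
      simpa using (Subgroup.mem_normalizer_iff.1 (inv_mem hxN) a).1 ha
    haveI := isCyclic_of_prime_card hPcard
    haveI : IsMulCommutative (P : Subgroup G) := IsCyclic.isMulCommutative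
    have hord : orderOf a = p := by
      rcases (Nat.dvd_prime (Fact.out : p.Prime)).1
        (hPcard ▸ Subgroup.orderOf_dvd_natCard (P : Subgroup G) ha) with h0 | h0
      · exact absurd (orderOf_eq_one_iff.1 h0) ha1
      · exact h0
    have hmem : ∀ z ∈ (P : Subgroup G), ∃ k : ℤ, a ^ k = z := fun z hz => by
      obtain ⟨k, hk⟩ := Subgroup.mem_zpowers_iff.1 (mem_zpowers_of_prime_card
        (g := (⟨a, ha⟩ : (P : Subgroup G))) (g' := ⟨z, hz⟩) hPcard
        fun e => ha1 (congrArg Subtype.val e))
      exact ⟨k, congrArg Subtype.val hk⟩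
    obtain ⟨k, hk⟩ := hmem _ hxa
    have hcomm : (x * x)⁻¹ * a * (x * x) = a := by
      have h0 : a * (x * x) = (x * x) * a :=
        congrArg Subtype.val (mul_comm' (⟨a, ha⟩ : (P : Subgroup G)) ⟨x * x, hx2⟩)
      rw [mul_assoc, h0, inv_mul_cancel_left]
    have hkk : a ^ (k * k) = a := by
      conv_rhs => rw [← hcomm]
      rw [show (x * x)⁻¹ * a * (x * x) = x⁻¹ * (x⁻¹ * a * x) * x by group, ← hk,
        show x⁻¹ * a ^ k * x = (x⁻¹ * a * x) ^ k by
          rw [show x⁻¹ * a * x = MulAut.conj x⁻¹ a by simp, ← map_zpow]; simp,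
        ← hk, ← zpow_mul]
    have hdiv : (p : ℤ) ∣ (k - 1) * (k + 1) := by
      rw [← hord]
      refine orderOf_dvd_iff_zpow_eq_one.2 ?_
      rw [show (k - 1) * (k + 1) = k * k + -1 by ring, zpow_add, hkk, zpow_neg_one, mul_inv_cancel]
    rcases (Nat.prime_iff_prime_int.1 (Fact.out : p.Prime)).dvd_mul.1 hdiv with h1 | h1
    · exfalso
      have hfixa : x⁻¹ * a * x = a := by
        rw [← hk, show k = (k - 1) + 1 by ring, zpow_add_one,
          orderOf_dvd_iff_zpow_eq_one.1 (hord ▸ h1), one_mul]
      refine hxP ?_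
      rw [← CfsgLib.PermGroups.centralizer_sylow_prime_degree (G := G) hX P]
      intro z hz
      obtain ⟨j, rfl⟩ := hmem z hz
      have h0 : Commute a x := by
        show a * x = x * a
        conv_rhs => rw [← hfixa]
        group
      exact (h0.zpow_left j).eq
    · rw [← hk, show k = (k + 1) + -1 by ring, zpow_add,
        orderOf_dvd_iff_zpow_eq_one.1 (hord ▸ h1), one_mul, zpow_neg_one]
  obtain ⟨hfix, hdvd⟩ := CfsgLib.Chars.Ito.fix_le_two_and_dvd h2 hDS hα
  have hodd : Odd p := (Fact.out : p.Prime).odd_of_ne_two (by omega)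
  have h3 : MulAction.IsMultiplyPretransitive G α 3 := by
    refine three_pretransitive h2 (by omega) hfix (hα ▸ hdvd) ?_
    rw [hα]
    refine Nat.Coprime.mul_right ?_ ?_
    · refine ((Fact.out : p.Prime).coprime_iff_not_dvd.2 fun h => ?_).symm
      have := Nat.le_of_dvd (by omega) h
      omega
    · rw [show p - 1 = (p - 2) + 1 by omega]
      simp
  obtain ⟨a, -, hcard, F, i1, i2, hF, e⟩ :=
    CfsgLib.SharplyThreeOdd.exists_iso (by omega) (hα ▸ hodd) G h3 hfix
  exact ⟨a, F, i1, i2, hα ▸ hcard, hF, e⟩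

end Cfsg.Agent.S4706
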