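import Cfsg.Statements.S0445
import Cfsg.Agent.Classical.Linear.Transvection
import Cfsg.Agent.Classical.Linear.Card
import Cfsg.Agent.Chars.Basic.Columns
-- import your own Cfsg.Agent.* helpers here

set_option autoImplicit false
open Cfsg

namespace Cfsg.Agent.S0445

open Matrix

/-- The centre and axis of a transvection. -/
private abbrev pairs : Type :=
  {p : (Fin 5 → ZMod 2) × (Fin 5 → ZMod 2) // p.1 ≠ 0 ∧ p.2 ≠ 0 ∧ p.2 ⬝ᵥ p.1 = 0}

private theorem card_pairs : Nat.card pairs = 465 := by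
  rw [Nat.card_eq_fintype_card]
  decide +kernel

private theorem vecMulVec_inj {v w φ ψ : Fin 5 → ZMod 2} (hv : v ≠ 0) (hφ : φ ≠ 0)
    (h : vecMulVec v φ = vecMulVec w ψ) : (v, φ) = (w, ψ) := by
  have one : ∀ a : ZMod 2, a ≠ 0 → a = 1 := by decide
  obtain ⟨i, hi⟩ := Function.ne_iff.1 hv
  obtain ⟨j, hj⟩ := Function.ne_iff.1 hφ
  have key : ∀ a b, v a * φ b = w a * ψ b := fun a b => congrFun (congrFun h a) b
  have hij := key i j
  rw [one _ hi, one _ hj, one_mul] at hij
  have hw : w i = 1 := one _ fun h0 => one_ne_zero (hij.trans (by rw [h0, zero_mul]))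
  have hψ : ψ j = 1 := by rwa [hw, one_mul, eq_comm] at hij
  refine Prod.ext (funext fun a => ?_) (funext fun b => ?_)
  · simpa [one _ hj, hψ] using key a j
  · simpa [one _ hi, hw] using key i b

/-- In the special linear group of dimension 5 over the field with two elements, the centraliser of a transvection has order 21504 = 2 ^ 7 · 168 (it is an extension of an extraspecial group of order 2 ^ 7 by the simple group of order 168). -/
theorem result (s : Matrix.SpecialLinearGroup (Fin 5) (ZMod 2)) (hs : (s : Matrix (Fin 5) (Fin 5) (ZMod 2)) = Matrix.transvection 0 1 1) : Nat.card (Subgroup.centralizer ({s} : Set (Matrix.SpecialLinearGroup (Fin 5) (ZMod 2)))) = 21504 := by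
  classical
  have ht : Cfsg.IsTransvection (s : Matrix (Fin 5) (Fin 5) (ZMod 2)) := by
    have h := CfsgLib.Classical.Linear.isTransvection_transvection (F := ZMod 2)
      (show (0 : Fin 5) ≠ 1 by decide) one_ne_zero
    rw [hs]
    exact h
  have hcls : Nat.card (ConjClasses.mk s).carrier = 465 := by
    rw [← card_pairs]
    have hmem : ∀ x : Matrix.SpecialLinearGroup (Fin 5) (ZMod 2),
        x ∈ (ConjClasses.mk s).carrier ↔ ∃ p : pairs,
          (x : Matrix (Fin 5) (Fin 5) (ZMod 2)) = 1 + vecMulVec p.1.1 p.1.2 := by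
      intro x
      rw [ConjClasses.mem_carrier_iff_mk_eq, ConjClasses.mk_eq_mk_iff_isConj]
      constructor
      · intro h
        obtain ⟨c, hc⟩ := isConj_iff.1 h.symm
        obtain ⟨v, φ, hv, hφ, h0, he⟩ := CfsgLib.Classical.Linear.isTransvection_iff.1 ht
        have hx : (x : Matrix (Fin 5) (Fin 5) (ZMod 2)) = 1 + vecMulVec
            ((c : Matrix (Fin 5) (Fin 5) (ZMod 2)) *ᵥ v)
            (φ ᵥ* ((c⁻¹ : Matrix.SpecialLinearGroup (Fin 5) (ZMod 2)) :
              Matrix (Fin 5) (Fin 5) (ZMod 2))) := by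
          rw [← CfsgLib.Classical.Linear.sl_mul_one_add_vecMulVec_mul_inv, ← he, ← hc]
          rfl
        have h1 : ((c⁻¹ : Matrix.SpecialLinearGroup (Fin 5) (ZMod 2)) :
            Matrix (Fin 5) (Fin 5) (ZMod 2)) * c = 1 := by
          rw [← Matrix.SpecialLinearGroup.coe_mul, inv_mul_cancel, Matrix.SpecialLinearGroup.coe_one]
        refine ⟨⟨((c : Matrix (Fin 5) (Fin 5) (ZMod 2)) *ᵥ v,
          φ ᵥ* ((c⁻¹ : Matrix.SpecialLinearGroup (Fin 5) (ZMod 2)) :
            Matrix (Fin 5) (Fin 5) (ZMod 2))), ?_, ?_, ?_⟩, hx⟩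
        · intro h2
          change (c : Matrix (Fin 5) (Fin 5) (ZMod 2)) *ᵥ v = 0 at h2
          apply hv
          rw [← one_mulVec v, ← h1, ← mulVec_mulVec, h2, mulVec_zero]
        · change φ ᵥ* ((c⁻¹ : Matrix.SpecialLinearGroup (Fin 5) (ZMod 2)) :
            Matrix (Fin 5) (Fin 5) (ZMod 2)) ≠ 0
          exact CfsgLib.Classical.Linear.ne_zero_vecMul (c⁻¹) hφ
        · change (φ ᵥ* ((c⁻¹ : Matrix.SpecialLinearGroup (Fin 5) (ZMod 2)) :
            Matrix (Fin 5) (Fin 5) (ZMod 2))) ⬝ᵥ ((c : Matrix (Fin 5) (Fin 5) (ZMod 2)) *ᵥ v) = 0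
          rw [← dotProduct_mulVec, mulVec_mulVec, h1, one_mulVec, h0]
      · rintro ⟨⟨⟨v, φ⟩, hv, hφ, h0⟩, he⟩
        exact CfsgLib.Classical.Linear.isConj_of_isTransvection (by simp)
          (CfsgLib.Classical.Linear.isTransvection_iff.2 ⟨v, φ, hv, hφ, h0, he⟩) ht
    have hsurj : ∀ p : pairs, ∃ x : Matrix.SpecialLinearGroup (Fin 5) (ZMod 2),
        (x : Matrix (Fin 5) (Fin 5) (ZMod 2)) = 1 + vecMulVec p.1.1 p.1.2 := by
      intro p
      refine ⟨⟨_, ?_⟩, rfl⟩
      have h1 : (1 + vecMulVec p.1.1 p.1.2) * (1 + vecMulVec p.1.1 p.1.2) = 1 := by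
        have h3 : vecMulVec p.1.1 p.1.2 * vecMulVec p.1.1 p.1.2 = 0 := by
          rw [vecMulVec_mul_vecMulVec, p.2.2.2, zero_smul, vecMulVec_zero]
        have h2 : vecMulVec p.1.1 p.1.2 + vecMulVec p.1.1 p.1.2 = 0 := by
          ext i j
          exact (by decide : ∀ a : ZMod 2, a + a = 0) _
        simp [mul_add, add_mul, h3, h2, add_assoc]
      have := congrArg Matrix.det h1
      rw [Matrix.det_mul, Matrix.det_one] at this
      exact (by decide : ∀ a : ZMod 2, a * a = 1 → a = 1) _ this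
    refine (Nat.card_congr (Equiv.ofBijective
      (fun p : pairs => (⟨(hsurj p).choose, (hmem _).2 ⟨p, (hsurj p).choose_spec⟩⟩ :
        (ConjClasses.mk s).carrier)) ⟨fun p r hpr => ?_, fun x => ?_⟩)).symm
    · have h := congrArg (fun z : (ConjClasses.mk s).carrier =>
        ((z : Matrix.SpecialLinearGroup (Fin 5) (ZMod 2)) : Matrix (Fin 5) (Fin 5) (ZMod 2))) hpr
      simp only [(hsurj p).choose_spec, (hsurj r).choose_spec, add_right_inj] at h
      exact Subtype.ext (vecMulVec_inj p.2.1 p.2.2.1 h)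
    · obtain ⟨p, hp⟩ := (hmem x.1).1 x.2
      exact ⟨p, Subtype.ext (Subtype.ext ((hsurj p).choose_spec.trans hp.symm))⟩
  have hG : Nat.card (Matrix.SpecialLinearGroup (Fin 5) (ZMod 2)) = 9999360 := by
    have h := CfsgLib.Classical.Linear.card_sl (F := ZMod 2) 5 (by norm_num)
    generalize Nat.card (Matrix.SpecialLinearGroup (Fin 5) (ZMod 2)) = N at h ⊢
    rw [ZMod.card, Fin.prod_univ_five] at h
    norm_num at h
    omega
  have h := (Subgroup.centralizer
    ({s} : Set (Matrix.SpecialLinearGroup (Fin 5) (ZMod 2)))).index_mul_card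
  rw [← CfsgLib.Chars.card_carrier_eq_index, hcls, hG] at h
  generalize Nat.card (Subgroup.centralizer
    ({s} : Set (Matrix.SpecialLinearGroup (Fin 5) (ZMod 2)))) = N at h ⊢
  omega

end Cfsg.Agent.S0445
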