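import Cfsg.Statements.S5424
import Cfsg.Agent.LargeExtraspecial.Transvection
import Cfsg.Agent.LargeExtraspecial.Pair
import Cfsg.Agent.Eq.Def_Transfer
import Cfsg.Agent.Eq.Def_MonsterType

set_option autoImplicit false
open Cfsg CfsgLib.LargeExtraspecial CfsgLib.LargeExtraspecial.Transvection
open scoped Matrix

namespace Cfsg.Agent.S5424

/-- Let G be the special linear group of degree n + 2 over the field with two elements, n ≥ 2, let z be a transvection, and let Q be the largest normal 2-subgroup of the centralizer C of z. Then Q is extraspecial of order 2^(2n+1) with an elementary abelian subgroup of order 2^(n+1) (plus type), Q is a large extraspecial 2-subgroup of G, and C is the split extension of Q by the special linear group of degree n over the field with two elements. -/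
theorem result (n : ℕ) (hn : 2 ≤ n) (z : Matrix.SpecialLinearGroup (Fin (n + 2)) (ZMod 2)) (hz : (z : Matrix (Fin (n + 2)) (Fin (n + 2)) (ZMod 2)) = Matrix.transvection 0 1 1) (Q : Subgroup (Matrix.SpecialLinearGroup (Fin (n + 2)) (ZMod 2))) (hQ : Q = (Cfsg.pCore 2 ↥(Subgroup.centralizer ({z} : Set (Matrix.SpecialLinearGroup (Fin (n + 2)) (ZMod 2))))).map (Subgroup.centralizer ({z} : Set (Matrix.SpecialLinearGroup (Fin (n + 2)) (ZMod 2)))).subtype) : Cfsg.IsExtraspecial 2 ↥Q ∧ Nat.card ↥Q = 2 ^ (2 * n + 1) ∧ (∃ E : Subgroup (Matrix.SpecialLinearGroup (Fin (n + 2)) (ZMod 2)), E ≤ Q ∧ Cfsg.IsElementaryAbelian 2 E ∧ Nat.card ↥E = 2 ^ (n + 1)) ∧ Cfsg.IsLargeExtraspecial Q ∧ ∃ K : Subgroup (Matrix.SpecialLinearGroup (Fin (n + 2)) (ZMod 2)), K ≤ Subgroup.centralizer ({z} : Set (Matrix.SpecialLinearGroup (Fin (n + 2)) (ZMod 2))) ∧ Q ⊓ K = ⊥ ∧ Q ⊔ K = Subgroup.centralizer ({z} : Set (Matrix.SpecialLinearGroup (Fin (n + 2)) (ZMod 2))) ∧ Nonempty (↥K ≃* Matrix.SpecialLinearGroup (Fin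 n) (ZMod 2)) := by
  haveI : Fact (Nat.Prime 2) := ⟨Nat.prime_two⟩
  have hzu : z = uni ((1, 0, 0) : Par n) := Subtype.ext (hz.trans transvection_eq_uniMat)
  have hC : ∀ g, g ∈ Subgroup.centralizer ({z} : Set (SL2F (n + 2))) ↔ Shape g := fun g => by
    rw [Subgroup.mem_centralizer_singleton_iff]
    exact ⟨shape_of_comm hz, comm_of_shape hz⟩
  let R : Subgroup (SL2F (n + 2)) :=
    { carrier := Set.range uni
      one_mem' := ⟨0, uni_zero⟩
      mul_mem' := by rintro _ _ ⟨x, rfl⟩ ⟨y, rfl⟩; exact ⟨_, (uni_mul x y).symm⟩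
      inv_mem' := by
        rintro _ ⟨x, rfl⟩
        refine ⟨(x.1 + x.2.1 ⬝ᵥ x.2.2, x.2.1, x.2.2), eq_inv_of_mul_eq_one_right ?_⟩
        rw [uni_mul, ← uni_zero]
        congr 1
        refine Prod.ext ?_ (Prod.ext (funext fun i => CharTwo.add_self_eq_zero _)
          (funext fun i => CharTwo.add_self_eq_zero _))
        show x.1 + (x.1 + x.2.1 ⬝ᵥ x.2.2) + x.2.1 ⬝ᵥ x.2.2 = 0
        rw [← add_assoc, CharTwo.add_self_eq_zero, zero_add, CharTwo.add_self_eq_zero] }
  have hR : ∀ g, g ∈ R ↔ Shape g ∧ blk g = 1 := fun g =>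
    ⟨fun ⟨x, hx⟩ => hx ▸ ⟨shape_uni x, blk_uni x⟩, fun h => ⟨_, (eq_uni h.1 h.2).symm⟩⟩
  have hRC : R ≤ Subgroup.centralizer ({z} : Set (SL2F (n + 2))) := fun g hg => (hC g).2 ((hR g).1 hg).1
  have hRcard : Nat.card ↥R = 2 ^ (2 * n + 1) := by
    rw [show Nat.card ↥R = Nat.card (Par n) from
      (Nat.card_congr (Equiv.ofInjective uni uni_injective)).symm]
    rw [Nat.card_prod, Nat.card_prod, Nat.card_fun, Nat.card_zmod, Nat.card_fin, ← pow_add,
      ← pow_succ']
    congr 1
    omega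
  have hp : IsPGroup 2 ↥R := IsPGroup.of_card hRcard
  have hshape : ∀ c ∈ Subgroup.centralizer ({z} : Set (SL2F (n + 2))), Shape c := fun c hc => (hC c).1 hc
  have hconj : ∀ c ∈ Subgroup.centralizer ({z} : Set (SL2F (n + 2))), ∀ a ∈ R, c * a * c⁻¹ ∈ R := by
    intro c hc a ha
    have hca := Subgroup.mul_mem _ hc (hRC ha)
    have hci := Subgroup.inv_mem _ hc
    refine (hR _).2 ⟨hshape _ (Subgroup.mul_mem _ hca hci), ?_⟩
    rw [blk_mul (hshape _ hca) (hshape _ hci), blk_mul (hshape _ hc) (hshape _ (hRC ha)),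
      ((hR a).1 ha).2, mul_one, ← blk_mul (hshape _ hc) (hshape _ hci), mul_inv_cancel, blk_one]
  have hK : (levi (n := n)).range ≤ Subgroup.centralizer ({z} : Set (SL2F (n + 2))) := by
    rintro _ ⟨A, rfl⟩; exact (hC _).2 (shape_levi A)
  have hQR : Q = R := by
    rw [hQ]
    refine le_antisymm ?_ (le_map_pCore hRC hconj hp)
    set C := Subgroup.centralizer ({z} : Set (SL2F (n + 2)))
    set P := (pCore 2 ↥C).map C.subtype with hPdef
    have hPC : P ≤ C := Subgroup.map_subtype_le _
    have hPp : IsPGroup 2 ↥P := (isPGroup_pCore 2).map _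
    have hPn : ∀ c ∈ C, ∀ a ∈ P, c⁻¹ * a * c ∈ P := fun c hc a ha =>
      conj_mem_map_pCore (L := SL2F (n + 2)) C hc ha
    have h := acts_trivially (W := Fin n → ZMod 2)
      (by rw [Nat.card_fun, Nat.card_zmod, Nat.card_fin]; exact dvd_pow_self 2 (by omega))
      hPC hPp hPn (fun g w => blk g *ᵥ w) (fun w => by rw [blk_one, Matrix.one_mulVec])
      (fun a ha b hb w => by
        rw [blk_mul (hshape a ha) (hshape b hb), Matrix.mulVec_mulVec])
      (fun a _ => Matrix.mulVec_zero _)
      (fun x y hx hy => by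
        obtain ⟨A, hA⟩ := exists_gl_mulVec_eq hx hy
        exact ⟨levi (⟨A.1, det_eq_one_of_mul A.mul_inv⟩ : SL2F n), hK ⟨_, rfl⟩, (congrArg (· *ᵥ x) (blk_levi _)).trans hA⟩)
    intro a ha
    refine (hR a).2 ⟨hshape a (hPC ha), Matrix.toLin'.injective (LinearMap.ext fun w => ?_)⟩
    simpa using h a ha w
  rw [hQR]
  have hzR : z ∈ R := ⟨_, hzu.symm⟩
  have hz1 : z ≠ 1 := by
    rw [hzu, ← uni_zero]
    intro h
    simpa using congrArg Prod.fst (uni_injective h)
  have hcent : ∀ g, (∀ q ∈ R, q * g = g * q) → g = 1 ∨ g = z := by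
    intro g hg
    have hs : Shape g := shape_of_comm hz (hg z hzR).symm
    have hrow : ∀ r : Fin n → ZMod 2, r ᵥ* blk g = r := by
      intro r
      have h := congrArg Subtype.val (hg (uni (0, r, 0)) ⟨_, rfl⟩)
      funext j
      have h' := congrFun (congrFun h 0) (sh j)
      simp only [Matrix.SpecialLinearGroup.coe_mul, Matrix.mul_apply, sum_index] at h'
      simp [uni, uniMat, hs.row _ (sh_ne_one j), hs.c00, Matrix.one_apply] at h'
      simp [Matrix.vecMul, dotProduct, blk]
      linear_combination h'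
    have hblk : blk g = 1 := by
      ext i j
      have := congrFun (hrow (Pi.single i 1)) j
      simpa [Matrix.vecMul, dotProduct, Pi.single_apply, Matrix.one_apply, eq_comm] using this
    obtain ⟨x, rfl⟩ := (hR g).2 ⟨hs, hblk⟩
    have hr : ∀ c, x.2.1 ⬝ᵥ c = 0 := fun c => by
      have h := hg (uni (0, 0, c)) ⟨_, rfl⟩
      rw [uni_mul, uni_mul] at h
      have h' := congrArg Prod.fst (uni_injective h)
      simpa [law, dotProduct] using h'
    have hc : ∀ r, r ⬝ᵥ x.2.2 = 0 := fun r => by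
      have h := hg (uni (0, r, 0)) ⟨_, rfl⟩
      rw [uni_mul, uni_mul] at h
      have h' := congrArg Prod.fst (uni_injective h)
      simpa [law, dotProduct] using h'
    have h2 : x.2 = 0 := Prod.ext (funext fun i => by simpa using hr (Pi.single i 1))
      (funext fun i => by simpa using hc (Pi.single i 1))
    rcases two_cases x.1 with h1 | h1
    · left; rw [show x = 0 from Prod.ext h1 h2, uni_zero]
    · right; rw [hzu, show x = (1, 0, 0) from Prod.ext h1 h2]
  have hzc : ∀ q ∈ R, q * z = z * q := fun q hq =>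
    Subgroup.mem_centralizer_singleton_iff.1 (hRC hq)
  have hzOf : ∀ x, x ∈ zOf R ↔ x = 1 ∨ x = z := by
    intro x
    refine ⟨fun h => hcent x (mem_zOf.1 h).2, ?_⟩
    rintro (rfl | rfl)
    · exact (zOf R).one_mem
    · exact mem_zOf.2 ⟨hzR, hzc⟩
  have hsq : ∀ a ∈ R, a * a ∈ zOf R := by
    rintro _ ⟨x, rfl⟩
    rw [hzOf, uni_mul]
    have h2 : (law x x).2 = 0 := Prod.ext (funext fun i => CharTwo.add_self_eq_zero _)
      (funext fun i => CharTwo.add_self_eq_zero _)
    rcases two_cases (law x x).1 with h1 | h1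
    · left; rw [show law x x = 0 from Prod.ext h1 h2, uni_zero]
    · right; rw [hzu, show law x x = (1, 0, 0) from Prod.ext h1 h2]
  set i₀ : Fin n := ⟨0, by omega⟩
  have hna : ∃ a ∈ R, ∃ c ∈ R, a * c ≠ c * a := by
    refine ⟨uni (0, Pi.single i₀ 1, 0), ⟨_, rfl⟩, uni (0, 0, Pi.single i₀ 1), ⟨_, rfl⟩, fun h => ?_⟩
    rw [uni_mul, uni_mul] at h
    simpa [law] using congrArg Prod.fst (uni_injective h)
  have hE : IsExtraspecial 2 ↥R := isExtraspecial_two_of hp hz1 hzOf hsq hna
  refine ⟨hE, hRcard, ?_, ?_, ?_⟩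
  · let E : Subgroup (SL2F (n + 2)) :=
      { carrier := Set.range fun p : ZMod 2 × (Fin n → ZMod 2) => uni (p.1, p.2, 0)
        one_mem' := ⟨0, uni_zero⟩
        mul_mem' := by
          rintro _ _ ⟨p, rfl⟩ ⟨q, rfl⟩
          exact ⟨p + q, by simp [uni_mul, law]⟩
        inv_mem' := by
          rintro _ ⟨p, rfl⟩
          refine ⟨p, eq_inv_of_mul_eq_one_right ?_⟩
          simp only [uni_mul, law, dotProduct_zero, add_zero]
          rw [CharTwo.add_self_eq_zero, show p.2 + p.2 = 0 from funext fun i => CharTwo.add_self_eq_zero _]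
          exact uni_zero }
    refine ⟨E, ?_, ⟨⟨⟨?_⟩⟩, ?_⟩, ?_⟩
    · rintro _ ⟨p, rfl⟩; exact ⟨_, rfl⟩
    · rintro ⟨_, p, rfl⟩ ⟨_, q, rfl⟩
      exact Subtype.ext (by simp [uni_mul, law, add_comm])
    · rintro _ ⟨p, rfl⟩
      simp only [pow_two, uni_mul, law, dotProduct_zero, add_zero]
      rw [CharTwo.add_self_eq_zero, show p.2 + p.2 = 0 from funext fun i => CharTwo.add_self_eq_zero _]
      exact uni_zero
    · have hinj : Function.Injective fun p : ZMod 2 × (Fin n → ZMod 2) => uni (p.1, p.2, 0) :=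
        fun p q h => by
          have := uni_injective h
          exact Prod.ext (congrArg (fun t : Par n => t.1) this) (congrArg (fun t : Par n => t.2.1) this)
      rw [show Nat.card ↥E = Nat.card (ZMod 2 × (Fin n → ZMod 2)) from
        (Nat.card_congr (Equiv.ofInjective _ hinj)).symm]
      rw [Nat.card_prod, Nat.card_fun, Nat.card_zmod, Nat.card_fin, ← pow_succ']
  · have hord : orderOf z = 2 := by
      refine orderOf_eq_prime ?_ hz1
      rw [pow_two, hzu, uni_mul, ← uni_zero]
      congr 1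
      simp [law, CharTwo.add_self_eq_zero]
    have hS : Setting R z := ⟨hE, hzOf, hord,
      le_antisymm (fun x hx => (hzOf x).2 (hcent x fun q hq => Subgroup.mem_centralizer_iff.1 hx q hq))
        (zOf_le_centralizer _),
      fun c hc q => by
        have hcC : c ∈ Subgroup.centralizer ({z} : Set (SL2F (n + 2))) := Subgroup.mem_centralizer_singleton_iff.2 hc
        refine ⟨fun hq => hconj c hcC q hq, fun hq => ?_⟩
        have := hconj c⁻¹ (Subgroup.inv_mem _ hcC) _ hq
        simpa [mul_assoc] using this⟩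
    let g : SL2F (n + 2) := ⟨Matrix.transvection 1 (sh i₀) 1,
      Matrix.det_transvection_of_ne _ _ (one_ne_sh i₀) _⟩
    have hg : g * z * g⁻¹ = uni (1, Pi.single i₀ 1, 0) := by
      rw [mul_inv_eq_iff_eq_mul]
      apply Subtype.ext
      simp only [Matrix.SpecialLinearGroup.coe_mul, hz]
      show Matrix.transvection 1 (sh i₀) 1 * Matrix.transvection 0 1 1 = uniMat _ * Matrix.transvection 1 (sh i₀) 1
      have e0 : (0 : Fin (n + 2)) ≠ sh i₀ := (Fin.succ_ne_zero _).symm
      ext i j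
      induction i using forall_index <;> induction j using forall_index <;>
        simp [Matrix.mul_apply, sum_index, Matrix.transvection, uniMat, Matrix.one_apply, Matrix.single_apply, Pi.single_apply, eq_comm, e0, CharTwo.add_self_eq_zero]
    refine isLarge_of_conj_mem hS ?_ g (hg ▸ ⟨_, rfl⟩) ?_
    · rw [hRcard]
      calc 32 = 2 ^ (2 * 2 + 1) := by norm_num
        _ ≤ 2 ^ (2 * n + 1) := Nat.pow_le_pow_right (by norm_num) (by omega)
    · rw [hg, hzu]
      intro h
      simpa using congrArg (fun t : Par n => t.2.1 i₀) (uni_injective h)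
  · have hinj : Function.Injective (levi (n := n)) := fun A B h =>
      Subtype.ext (by rw [← blk_levi A, ← blk_levi B, h])
    refine ⟨(levi (n := n)).range, hK, ?_, ?_, ⟨(MonoidHom.ofInjective hinj).symm⟩⟩
    · rw [Subgroup.eq_bot_iff_forall]
      rintro _ ⟨hA, A, rfl⟩
      have : A = 1 := Subtype.ext (by
        rw [← blk_levi A, ((hR _).1 hA).2, Matrix.SpecialLinearGroup.coe_one])
      rw [this, map_one]
    · refine le_antisymm (sup_le hRC hK) fun g hg => ?_
      have hgi := Subgroup.inv_mem _ hg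
      have hAB : blk g * blk g⁻¹ = 1 := by
        rw [← blk_mul (hshape g hg) (hshape _ hgi), mul_inv_cancel, blk_one]
      let A : Matrix.SpecialLinearGroup (Fin n) (ZMod 2) := ⟨blk g, det_eq_one_of_mul hAB⟩
      have hmem : g * (levi A)⁻¹ ∈ R := by
        rw [← map_inv]
        refine (hR _).2 ⟨hshape _ (Subgroup.mul_mem _ hg (hK ⟨_, rfl⟩)), ?_⟩
        rw [blk_mul (hshape g hg) (shape_levi _), blk_levi,
          show blk g = A.1 from rfl, ← Matrix.SpecialLinearGroup.coe_mul, mul_inv_cancel,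
          Matrix.SpecialLinearGroup.coe_one]
      have := Subgroup.mul_mem (R ⊔ (levi (n := n)).range) (Subgroup.mem_sup_left hmem)
        (Subgroup.mem_sup_right (⟨A, rfl⟩ : levi A ∈ (levi (n := n)).range))
      rwa [inv_mul_cancel_right] at this

end Cfsg.Agent.S5424
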