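import Cfsg.Statements.S4211
import Cfsg.Agent.Eq.Def_Transfer
import Cfsg.Agent.PGroup.Commutator
import Cfsg.Agent.FusionTwo.Common
-- import your own Cfsg.Agent.* helpers here

set_option autoImplicit false
open Cfsg

namespace Cfsg.Agent.S4211


open scoped commutatorElement

/-- In a group with all subgroups normal, a non-commutative subgroup contains a quaternion pair. -/
theorem exists_pair {G : Type*} [Group G] [Finite G] (hn : ∀ H : Subgroup G, H.Normal)
    (C : Subgroup G) (hC : ∃ u ∈ C, ∃ v ∈ C, u * v ≠ v * u) :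
    ∃ x ∈ C, ∃ y ∈ C, orderOf x = 4 ∧ orderOf y = 4 ∧ y ^ 2 = x ^ 2 ∧ y * x * y⁻¹ = x⁻¹ ∧
      x * y ≠ y * x := by
  classical
  have hex : ∃ N, ∃ u ∈ C, ∃ v ∈ C, u * v ≠ v * u ∧ orderOf u + orderOf v = N := by
    obtain ⟨u, hu, v, hv, h⟩ := hC; exact ⟨_, u, hu, v, hv, h, rfl⟩
  obtain ⟨u₀, hu₀, v₀, hv₀, hne₀, hN₀⟩ := Nat.find_spec hex
  have hmin₀ : ∀ u ∈ C, ∀ v ∈ C, orderOf u + orderOf v < orderOf u₀ + orderOf v₀ →
      u * v = v * u := by
    intro u hu v hv hlt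
    by_contra hne
    exact Nat.find_min hex (hN₀ ▸ hlt) ⟨u, hu, v, hv, hne, rfl⟩
  have hzp : ∀ {u : G} (g : G), g * u * g⁻¹ ∈ Subgroup.zpowers u :=
    fun {u} g => (hn _).conj_mem _ (Subgroup.mem_zpowers u) g
  -- powers with smaller order
  have hlt : ∀ {u : G} {p : ℕ}, p.Prime → p ∣ orderOf u → orderOf (u ^ p) < orderOf u := by
    intro u p hp hd
    rw [orderOf_pow' u hp.ne_zero, Nat.gcd_eq_right hd]
    exact Nat.div_lt_self (orderOf_pos u) hp.one_lt
  -- reduce to an ordered minimal pair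
  suffices key : ∀ x ∈ C, ∀ y ∈ C, x * y ≠ y * x →
      (∀ u ∈ C, ∀ v ∈ C, orderOf u + orderOf v < orderOf x + orderOf y → u * v = v * u) →
      orderOf y ≤ orderOf x → orderOf x = 4 ∧ orderOf y = 4 ∧ y ^ 2 = x ^ 2 ∧ y * x * y⁻¹ = x⁻¹ by
    rcases le_total (orderOf v₀) (orderOf u₀) with hle | hle
    · obtain ⟨a, b, c, d⟩ := key u₀ hu₀ v₀ hv₀ hne₀ hmin₀ hle
      exact ⟨u₀, hu₀, v₀, hv₀, a, b, c, d, hne₀⟩
    · obtain ⟨a, b, c, d⟩ := key v₀ hv₀ u₀ hu₀ hne₀.symm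
        (fun u hu v hv h => hmin₀ u hu v hv (by omega)) hle
      exact ⟨v₀, hv₀, u₀, hu₀, a, b, c, d, hne₀.symm⟩
  intro x hx y hy hne hmin hle
  have hcx : ⁅x, y⁆ ∈ Subgroup.zpowers x := by
    rw [show ⁅x, y⁆ = x * (y * x * y⁻¹)⁻¹ by rw [commutatorElement_def]; group]
    exact mul_mem (Subgroup.mem_zpowers x) (inv_mem (hzp y))
  have hcy : ⁅x, y⁆ ∈ Subgroup.zpowers y := by
    rw [show ⁅x, y⁆ = (x * y * x⁻¹) * y⁻¹ by rw [commutatorElement_def]]
    exact mul_mem (hzp x) (inv_mem (Subgroup.mem_zpowers y))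
  have hc1 : ⁅x, y⁆ ≠ 1 := fun h => hne (commutatorElement_eq_one_iff_mul_comm.1 h)
  obtain ⟨i, hi⟩ := Subgroup.mem_zpowers_iff.1 hcx
  obtain ⟨j, hj⟩ := Subgroup.mem_zpowers_iff.1 hcy
  have hccx : Commute ⁅x, y⁆ x := hi ▸ (Commute.refl x).zpow_left i
  have hccy : Commute ⁅x, y⁆ y := hj ▸ (Commute.refl y).zpow_left j
  have hcpx : ∀ p : ℕ, p.Prime → p ∣ orderOf x → ⁅x, y⁆ ^ p = 1 := by
    intro p hp hd
    have h1 := hmin (x ^ p) (pow_mem hx p) y hy (by have := hlt hp hd; omega)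
    rw [← CfsgLib.PGroup.commutatorElement_pow_left hccx, commutatorElement_eq_one_iff_mul_comm]
    exact h1
  have hcpy : ∀ p : ℕ, p.Prime → p ∣ orderOf y → ⁅x, y⁆ ^ p = 1 := by
    intro p hp hd
    have h1 := hmin x hx (y ^ p) (pow_mem hy p) (by have := hlt hp hd; omega)
    rw [← CfsgLib.PGroup.commutatorElement_pow_right hccy, commutatorElement_eq_one_iff_mul_comm]
    exact h1
  obtain ⟨p, hp, hpc⟩ := Nat.exists_prime_and_dvd (mt orderOf_eq_one_iff.1 hc1)
  haveI : Fact p.Prime := ⟨hp⟩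
  have huniq : ∀ {q : ℕ}, q.Prime → ⁅x, y⁆ ^ q = 1 → q = p := fun {q} hq h =>
    ((Nat.prime_dvd_prime_iff_eq hp hq).1 (hpc.trans (orderOf_dvd_of_pow_eq_one h))).symm
  have hpx := Nat.eq_prime_pow_of_unique_prime_dvd (orderOf_pos x).ne'
    (fun {q} hq hd => huniq hq (hcpx q hq hd))
  have hpy := Nat.eq_prime_pow_of_unique_prime_dvd (orderOf_pos y).ne'
    (fun {q} hq hd => huniq hq (hcpy q hq hd))
  generalize (orderOf x).primeFactorsList.length = m' at hpx
  generalize (orderOf y).primeFactorsList.length = n' at hpy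
  have hdx : p ∣ orderOf x := hpc.trans (orderOf_dvd_of_mem_zpowers hcx)
  have hdy : p ∣ orderOf y := hpc.trans (orderOf_dvd_of_mem_zpowers hcy)
  obtain ⟨m, rfl⟩ : ∃ m, m' = m + 1 := ⟨m' - 1, by
    rcases m' with _ | _
    · rw [hpx, pow_zero] at hdx; exact absurd hdx hp.not_dvd_one
    · omega⟩
  obtain ⟨n, rfl⟩ : ∃ n, n' = n + 1 := ⟨n' - 1, by
    rcases n' with _ | _
    · rw [hpy, pow_zero] at hdy; exact absurd hdy hp.not_dvd_one
    · omega⟩
  have hcp : ⁅x, y⁆ ^ p = 1 := hcpx p hp hdx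
  have hoc : orderOf ⁅x, y⁆ = p := orderOf_eq_prime hcp hc1
  -- the subgroup of order `p` of a cyclic group of prime power order
  have honly : ∀ {z : G} {e : ℕ} {w : G}, orderOf z = p ^ (e + 1) → w ∈ Subgroup.zpowers z →
      w ^ p = 1 → w ∈ Subgroup.zpowers (z ^ (p ^ e)) := by
    intro z e w hz hw hwp
    obtain ⟨k, rfl⟩ := Subgroup.mem_zpowers_iff.1 hw
    rw [← zpow_natCast, ← zpow_mul, ← orderOf_dvd_iff_zpow_eq_one, hz] at hwp
    push_cast at hwp
    rw [pow_succ] at hwp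
    obtain ⟨l, hl⟩ := (mul_dvd_mul_iff_right (Int.natCast_ne_zero.2 hp.ne_zero)).1 hwp
    exact Subgroup.mem_zpowers_iff.2 ⟨l, by rw [← zpow_natCast, ← zpow_mul, hl]; push_cast; rfl⟩
  have hn0 : n ≠ 0 := by
    intro h0
    subst h0
    have hgen : Subgroup.zpowers ⁅x, y⁆ = Subgroup.zpowers y := by
      refine Subgroup.eq_of_le_of_card_ge (Subgroup.zpowers_le.2 hcy) ?_
      rw [Nat.card_zpowers, Nat.card_zpowers, hoc, hpy, zero_add, pow_one]
    obtain ⟨k, hk⟩ := Subgroup.mem_zpowers_iff.1 (hgen ▸ Subgroup.mem_zpowers y)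
    exact hne ((hk ▸ hccx.zpow_left k : Commute y x).eq.symm)
  have hnm : n ≤ m := by
    rw [hpx, hpy] at hle
    have := (Nat.pow_le_pow_iff_right hp.one_lt).1 hle
    omega
  -- make `y` shorter
  obtain ⟨k, hk⟩ : ∃ k : ℤ, x ^ ((p : ℤ) ^ m * k) = y ^ (p ^ n) := by
    have h1 := honly hpx hcx hcp
    have h2 : y ^ (p ^ n) ∈ Subgroup.zpowers ⁅x, y⁆ := by
      have h3 := honly hpy hcy hcp
      have h4 : Subgroup.zpowers ⁅x, y⁆ = Subgroup.zpowers (y ^ (p ^ n)) := by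
        refine Subgroup.eq_of_le_of_card_ge (Subgroup.zpowers_le.2 h3) ?_
        rw [Nat.card_zpowers, Nat.card_zpowers, hoc, orderOf_pow' y (pow_ne_zero _ hp.ne_zero),
          hpy, Nat.gcd_eq_right (pow_dvd_pow p (Nat.le_succ n)),
          Nat.pow_div (Nat.le_succ n) hp.pos]
        simp
      rw [h4]; exact Subgroup.mem_zpowers _
    obtain ⟨k, hk⟩ := Subgroup.mem_zpowers_iff.1 ((Subgroup.zpowers_le.2 h1) h2)
    exact ⟨k, by rw [← hk, ← zpow_natCast x (p ^ m), ← zpow_mul]; push_cast; rfl⟩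
  generalize hu : x ^ (-((p : ℤ) ^ (m - n) * k)) = u
  have hxu : Commute x u := hu ▸ (Commute.refl x).zpow_right _
  have hupow : u ^ (p ^ n) = (y ^ (p ^ n))⁻¹ := by
    rw [← hk, ← zpow_natCast, ← hu, ← zpow_mul, ← zpow_neg]
    congr 1
    push_cast
    rw [show (p : ℤ) ^ m = (p : ℤ) ^ (m - n) * (p : ℤ) ^ n by rw [← pow_add]; congr 1; omega]
    ring
  have hd : Commute ⁅u, y⁆ u ∧ Commute ⁅u, y⁆ y ∧ ⁅u, y⁆ ^ p = 1 := by
    have hup : Commute (u ^ p) y := by
      have h1 : Commute (x ^ p) y := hmin (x ^ p) (pow_mem hx p) y hy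
        (by have := hlt hp hdx; omega)
      rw [← hu, ← zpow_natCast, ← zpow_mul, mul_comm, zpow_mul, zpow_natCast]
      exact h1.zpow_left _
    have hzx : ⁅u, y⁆ ∈ Subgroup.zpowers x := by
      rw [show ⁅u, y⁆ = u * (y * u * y⁻¹)⁻¹ by rw [commutatorElement_def]; group]
      have hux : u ∈ Subgroup.zpowers x := hu ▸ Subgroup.zpow_mem _ (Subgroup.mem_zpowers x) _
      exact mul_mem hux (inv_mem ((hn _).conj_mem u hux y))
    have hzy : ⁅u, y⁆ ∈ Subgroup.zpowers y := by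
      rw [show ⁅u, y⁆ = (u * y * u⁻¹) * y⁻¹ by rw [commutatorElement_def]]
      exact mul_mem (hzp u) (inv_mem (Subgroup.mem_zpowers y))
    obtain ⟨a, ha⟩ := Subgroup.mem_zpowers_iff.1 hzx
    obtain ⟨b, hb⟩ := Subgroup.mem_zpowers_iff.1 hzy
    have c1 : Commute ⁅u, y⁆ u := ha ▸ hxu.zpow_left a
    refine ⟨c1, hb ▸ (Commute.refl y).zpow_left b, ?_⟩
    rw [← CfsgLib.PGroup.commutatorElement_pow_left c1, commutatorElement_eq_one_iff_mul_comm]
    exact hup.eq
  have hC2 : ⁅u, y⁆ ^ ((p ^ n).choose 2) ≠ 1 := by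
    intro hch
    have h1 := CfsgLib.PGroup.mul_pow_mul_commutatorElement hd.1 hd.2.1 (p ^ n)
    rw [hch, mul_one, hupow, inv_mul_cancel] at h1
    have h2 : orderOf (u * y) < orderOf y := by
      refine lt_of_le_of_lt (Nat.le_of_dvd (pow_pos hp.pos _) (orderOf_dvd_of_pow_eq_one h1)) ?_
      rw [hpy]
      exact Nat.pow_lt_pow_right hp.one_lt (Nat.lt_succ_self n)
    have hucm : u ∈ C := hu ▸ zpow_mem hx _
    have h3 : Commute x (u * y) := hmin x hx (u * y) (mul_mem hucm hy) (by omega)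
    refine hne ?_
    have h4 := (hxu.inv_right.mul_right h3).eq
    rwa [inv_mul_cancel_left] at h4
  have hndvd : ¬ p ∣ (p ^ n).choose 2 := fun ⟨l, hl⟩ => hC2 (by rw [hl, pow_mul, hd.2.2, one_pow])
  have hp2 : p = 2 := by
    by_contra h2
    exact hndvd ((dvd_pow_self p hn0).trans
      (CfsgLib.PGroup.dvd_choose_two_of_odd (Odd.pow (hp.odd_of_ne_two h2))))
  subst hp2
  have hn1 : n = 1 := by
    by_contra h1
    obtain ⟨n, rfl⟩ : ∃ l, n = l + 2 := ⟨n - 2, by omega⟩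
    refine hndvd ⟨2 ^ n * (2 ^ (n + 2) - 1), ?_⟩
    have e : 2 ^ (n + 2) = 2 * (2 * 2 ^ n) := by ring
    rw [Nat.choose_two_right, e, mul_assoc 2, Nat.mul_div_cancel_left _ two_pos]
    ring
  subst hn1
  have hm1 : m = 1 := by
    by_contra h1
    refine hC2 ?_
    have hcu : Commute u y := by
      have hx2 : Commute (x ^ 2) y := hmin (x ^ 2) (pow_mem hx 2) y hy
        (by have := hlt hp hdx; omega)
      obtain ⟨l, hl⟩ : ∃ l, m - 1 = l + 1 := ⟨m - 2, by omega⟩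
      rw [← hu, hl, pow_succ', mul_assoc, ← mul_neg, Nat.cast_ofNat,
        show (2 : ℤ) = ((2 : ℕ) : ℤ) from rfl, zpow_mul, zpow_natCast]
      exact hx2.zpow_left _
    rw [commutatorElement_eq_one_iff_mul_comm.2 hcu.eq, one_pow]
  subst hm1
  have hcx2 : ⁅x, y⁆ = x ^ 2 := by
    obtain ⟨l, hl⟩ := Subgroup.mem_zpowers_iff.1 (honly hpx hcx hcp)
    have h4 : (x ^ 2 ^ 1) ^ (2 : ℤ) = 1 := by
      rw [show (2 : ℤ) = ((2 : ℕ) : ℤ) from rfl, zpow_natCast, ← pow_mul,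
        orderOf_dvd_iff_pow_eq_one.1 (show orderOf x ∣ 2 ^ 1 * 2 by rw [hpx]; norm_num)]
    rcases Int.even_or_odd l with ⟨r, rfl⟩ | ⟨r, rfl⟩
    · rw [← two_mul, zpow_mul, h4, one_zpow] at hl
      exact absurd hl.symm hc1
    · rw [zpow_add, zpow_mul, h4, one_zpow, one_mul, zpow_one, pow_one] at hl
      exact hl.symm
  have hcy2 : ⁅x, y⁆ = y ^ 2 := by
    obtain ⟨l, hl⟩ := Subgroup.mem_zpowers_iff.1 (honly hpy hcy hcp)
    have h4 : (y ^ 2 ^ 1) ^ (2 : ℤ) = 1 := by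
      rw [show (2 : ℤ) = ((2 : ℕ) : ℤ) from rfl, zpow_natCast, ← pow_mul,
        orderOf_dvd_iff_pow_eq_one.1 (show orderOf y ∣ 2 ^ 1 * 2 by rw [hpy]; norm_num)]
    rcases Int.even_or_odd l with ⟨r, rfl⟩ | ⟨r, rfl⟩
    · rw [← two_mul, zpow_mul, h4, one_zpow] at hl
      exact absurd hl.symm hc1
    · rw [zpow_add, zpow_mul, h4, one_zpow, one_mul, zpow_one, pow_one] at hl
      exact hl.symm
  refine ⟨by rw [hpx]; norm_num, by rw [hpy]; norm_num, hcy2.symm.trans hcx2, ?_⟩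
  calc y * x * y⁻¹ = ⁅x, y⁆⁻¹ * x := by rw [commutatorElement_def]; group
    _ = x⁻¹ := by rw [hcx2, pow_two]; group

/-- A finite non-abelian group in which every subgroup is normal is the internal direct product of a subgroup isomorphic to the quaternion group of order `8`, an elementary abelian `2`-subgroup and an abelian subgroup of odd order. -/
theorem result {G : Type*} [Group G] [Finite G] (hna : ¬ IsMulCommutative G) (hn : ∀ H : Subgroup G, H.Normal) : ∃ Q E A : Subgroup G, Nonempty (Q ≃* QuaternionGroup 2) ∧ Cfsg.IsElementaryAbelian 2 E ∧ IsMulCommutative A ∧ Odd (Nat.card A) ∧ E ⊓ A = ⊥ ∧ Q ⊓ (E ⊔ A) = ⊥ ∧ Q ⊔ (E ⊔ A) = ⊤ := by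
  classical
  obtain ⟨x, -, y, -, hx4, hy4, hy2, hyx, hne⟩ := exists_pair hn ⊤ (by
    by_contra hcon
    push Not at hcon
    exact hna (IsMulCommutative.of_comm fun a b => hcon a trivial b trivial))
  have hx4' : x ^ 4 = 1 := hx4 ▸ pow_orderOf_eq_one x
  have hy4' : y ^ 4 = 1 := hy4 ▸ pow_orderOf_eq_one y
  have hyn : y ∉ Subgroup.zpowers x := fun h => by
    obtain ⟨i, rfl⟩ := Subgroup.mem_zpowers_iff.1 h
    exact hne ((Commute.refl x).zpow_right i).eq
  obtain ⟨f, hf, hfr⟩ := CfsgLib.FusionTwo.exists_quaternion_hom (m := 2) (a := x) (b := y)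
    hx4 hy2 hyx hyn
  -- the centralizer of the pair
  obtain ⟨C, hCmem⟩ : ∃ C : Subgroup G, ∀ z, z ∈ C ↔ Commute z x ∧ Commute z y :=
    ⟨Subgroup.centralizer {x, y}, fun z => by
      rw [Subgroup.mem_centralizer_iff]
      constructor
      · intro h
        exact ⟨(h x (by simp)).symm, (h y (by simp)).symm⟩
      · rintro ⟨h1, h2⟩ w hw
        simp only [Set.mem_insert_iff, Set.mem_singleton_iff] at hw
        rcases hw with rfl | rfl
        · exact h1.eq.symm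
        · exact h2.eq.symm⟩
  have hc_ne : x ^ 2 ≠ 1 := fun h => by
    have := Nat.le_of_dvd two_pos (orderOf_dvd_of_pow_eq_one h); omega
  have hcy' : Commute (x ^ 2) y := by
    have h : Commute (y ^ 2) y := (Commute.refl y).pow_left 2
    rwa [hy2] at h
  have hcC : x ^ 2 ∈ C := (hCmem _).2 ⟨(Commute.refl x).pow_left 2, hcy'⟩
  have hfour : ∀ z ∈ C, z ^ 4 = 1 → z ^ 2 = 1 := by
    intro z hz hz4
    obtain ⟨hzx, hzy⟩ := (hCmem z).1 hz
    have hw : ⁅x, y * z⁆ ∈ Subgroup.zpowers (y * z) := by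
      rw [show ⁅x, y * z⁆ = (x * (y * z) * x⁻¹) * (y * z)⁻¹ by rw [commutatorElement_def]]
      exact mul_mem ((hn _).conj_mem _ (Subgroup.mem_zpowers _) x) (inv_mem (Subgroup.mem_zpowers _))
    have hw' : ⁅x, y * z⁆ = x ^ 2 := by
      rw [commutatorElement_def, mul_inv_rev]
      calc x * (y * z) * x⁻¹ * (z⁻¹ * y⁻¹) = x * y * (z * x⁻¹) * z⁻¹ * y⁻¹ := by group
        _ = x * (y * x * y⁻¹)⁻¹ := by rw [hzx.inv_right.eq]; group
        _ = x ^ 2 := by rw [hyx, inv_inv, pow_two]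
    rw [hw'] at hw
    obtain ⟨l, hl⟩ := Subgroup.mem_zpowers_iff.1 hw
    have hsq : (y * z) ^ 2 = x ^ 2 * z ^ 2 := by rw [hzy.symm.mul_pow, hy2]
    have hl4 : (y * z) ^ (4 : ℤ) = 1 := by
      rw [show (4 : ℤ) = ((4 : ℕ) : ℤ) from rfl, zpow_natCast, hzy.symm.mul_pow, hy4', hz4, one_mul]
    rcases Int.even_or_odd l with ⟨r, rfl⟩ | ⟨r, rfl⟩
    · rcases Int.even_or_odd r with ⟨s, rfl⟩ | ⟨s, rfl⟩
      · rw [show s + s + (s + s) = 4 * s by ring, zpow_mul, hl4, one_zpow] at hl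
        exact absurd hl.symm hc_ne
      · rw [show 2 * s + 1 + (2 * s + 1) = 4 * s + 2 by ring, zpow_add, zpow_mul, hl4, one_zpow,
          one_mul, show (2 : ℤ) = ((2 : ℕ) : ℤ) from rfl, zpow_natCast, hsq] at hl
        exact mul_eq_left.1 hl
    · exfalso
      have hc : Commute x ((y * z) ^ (2 * r + 1)) := hl ▸ (Commute.refl x).pow_right 2
      have h2r : Commute x ((y * z) ^ (2 * r)) := by
        rw [zpow_mul, show (2 : ℤ) = ((2 : ℕ) : ℤ) from rfl, zpow_natCast, hsq]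
        exact (((Commute.refl x).pow_right 2).mul_right (hzx.symm.pow_right 2)).zpow_right r
      have h1 : Commute x (y * z) := by
        have := h2r.inv_right.mul_right hc
        rwa [zpow_add, zpow_one, inv_mul_cancel_left] at this
      have h2 : Commute x y := by
        have := h1.mul_right hzx.symm.inv_right
        rwa [mul_inv_cancel_right] at this
      exact hne h2.eq
  have hCab : ∀ u ∈ C, ∀ v ∈ C, u * v = v * u := by
    intro u hu v hv
    by_contra huv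
    obtain ⟨a, ha, -, -, ha4, -⟩ := exists_pair hn C ⟨u, hu, v, hv, huv⟩
    have := Nat.le_of_dvd two_pos
      (orderOf_dvd_of_pow_eq_one (hfour a ha (ha4 ▸ pow_orderOf_eq_one a)))
    omega
  have hdesc : ∀ (a : ℕ), ∀ z ∈ C, z ^ (2 ^ a) = 1 → z ^ 2 = 1 := by
    intro a
    induction a with
    | zero => intro z _ h; rw [pow_zero, pow_one] at h; rw [h, one_pow]
    | succ a ih =>
      intro z hz h
      rcases a with _ | a
      · simpa using h
      refine ih z hz ?_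
      rw [pow_succ, pow_mul]
      refine hfour _ (pow_mem hz _) ?_
      rw [← pow_mul, show 2 ^ a * 4 = 2 ^ (a + 1 + 1) by ring]
      exact h
  obtain ⟨a, m, hm, hcard⟩ := Nat.exists_eq_two_pow_mul_odd (Nat.card_pos (α := G)).ne'
  -- elementary part and a maximal part avoiding the central involution
  obtain ⟨E, hE⟩ : ∃ E : Subgroup G, ∀ z, z ∈ E ↔ z ∈ C ∧ z ^ 2 = 1 :=
    ⟨{ carrier := {z | z ∈ C ∧ z ^ 2 = 1}
       one_mem' := ⟨one_mem _, one_pow _⟩
       mul_mem' := fun {u v} hu hv => ⟨mul_mem hu.1 hv.1, by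
         rw [(show Commute u v from hCab u hu.1 v hv.1).mul_pow, hu.2, hv.2, one_mul]⟩
       inv_mem' := fun {u} hu => ⟨inv_mem hu.1, by rw [inv_pow, hu.2, inv_one]⟩ },
     fun _ => Iff.rfl⟩
  obtain ⟨A, hA⟩ : ∃ A : Subgroup G, ∀ z, z ∈ A ↔ z ∈ C ∧ z ^ m = 1 :=
    ⟨{ carrier := {z | z ∈ C ∧ z ^ m = 1}
       one_mem' := ⟨one_mem _, one_pow _⟩
       mul_mem' := fun {u v} hu hv => ⟨mul_mem hu.1 hv.1, by
         rw [(show Commute u v from hCab u hu.1 v hv.1).mul_pow, hu.2, hv.2, one_mul]⟩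
       inv_mem' := fun {u} hu => ⟨inv_mem hu.1, by rw [inv_pow, hu.2, inv_one]⟩ },
     fun _ => Iff.rfl⟩
  have hcE : x ^ 2 ∈ E := (hE _).2 ⟨hcC, by rw [← pow_mul]; exact hx4'⟩
  obtain ⟨E', hE'⟩ := ({K : Subgroup G | K ≤ E ∧ x ^ 2 ∉ K}).toFinite.exists_maximal
    ⟨⊥, bot_le, fun h => hc_ne (Subgroup.mem_bot.1 h)⟩
  obtain ⟨hE'E, hcE'⟩ := hE'.prop
  have hsplit : ∀ z ∈ E, z ∈ E' ∨ x ^ 2 * z ∈ E' := by
    intro z hz
    by_cases hzE : z ∈ E'
    · exact Or.inl hzE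
    haveI := hn E'
    haveI := hn (Subgroup.zpowers z)
    have hsup : x ^ 2 ∈ E' ⊔ Subgroup.zpowers z := by
      by_contra hnot
      exact hzE (hE'.le_of_ge ⟨sup_le hE'E (Subgroup.zpowers_le.2 hz), hnot⟩ le_sup_left
        (Subgroup.mem_sup_right (Subgroup.mem_zpowers z)))
    obtain ⟨e, he, w, hw, hew⟩ := Subgroup.mem_sup_of_normal_right.1 hsup
    obtain ⟨l, rfl⟩ := Subgroup.mem_zpowers_iff.1 hw
    have hz2 := ((hE z).1 hz).2
    rcases Int.even_or_odd l with ⟨r, rfl⟩ | ⟨r, rfl⟩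
    · rw [← two_mul, zpow_mul, show (2 : ℤ) = ((2 : ℕ) : ℤ) from rfl, zpow_natCast, hz2, one_zpow,
        mul_one] at hew
      exact absurd (hew ▸ he) hcE'
    · rw [zpow_add, zpow_mul, show (2 : ℤ) = ((2 : ℕ) : ℤ) from rfl, zpow_natCast, hz2, one_zpow,
        one_mul, zpow_one] at hew
      refine Or.inr ?_
      rw [← hew, mul_assoc, ← pow_two, hz2, mul_one]
      exact he
  have hEA : ∀ z, z ∈ E → z ∈ A → z = 1 := fun z h1 h2 => by
    rw [← orderOf_eq_one_iff]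
    exact Nat.Coprime.eq_one_of_dvd
      ((Nat.coprime_two_left.2 hm).coprime_dvd_left (orderOf_dvd_of_pow_eq_one ((hE z).1 h1).2))
      (orderOf_dvd_of_pow_eq_one ((hA z).1 h2).2)
  have hC_split : ∀ z ∈ C, z ∈ E ⊔ A := by
    intro z hz
    have h1 : z ^ m ∈ E := (hE _).2 ⟨pow_mem hz m, hdesc a _ (pow_mem hz m) (by
      rw [← pow_mul, mul_comm, ← hcard]; exact pow_card_eq_one')⟩
    have h2 : (z ^ m)⁻¹ * z ∈ A := (hA _).2 ⟨mul_mem (inv_mem (pow_mem hz m)) hz, by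
      rw [(((Commute.refl z).pow_left m).inv_left).mul_pow]
      obtain ⟨r, hr⟩ := hm
      rw [hr, inv_pow, pow_succ (z ^ (2 * r + 1)) (2 * r), pow_mul (z ^ (2 * r + 1)),
        ((hE _).1 (hr ▸ h1)).2, one_pow, one_mul, inv_mul_cancel]⟩
    rw [show z = z ^ m * ((z ^ m)⁻¹ * z) by group]
    exact mul_mem (Subgroup.mem_sup_left h1) (Subgroup.mem_sup_right h2)
  have hxQ : x ∈ f.range := hfr ▸ Subgroup.subset_closure (by simp)
  have hyQ : y ∈ f.range := hfr ▸ Subgroup.subset_closure (by simp)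
  haveI := hn f.range
  haveI := hn E'
  haveI := hn A
  refine ⟨f.range, E', A, ⟨(MonoidHom.ofInjective hf).symm⟩,
    ⟨IsMulCommutative.of_comm fun u v => Subtype.ext
      (hCab u ((hE _).1 (hE'E u.2)).1 v ((hE _).1 (hE'E v.2)).1),
      fun u hu => ((hE u).1 (hE'E hu)).2⟩,
    IsMulCommutative.of_comm fun u v => Subtype.ext (hCab u ((hA _).1 u.2).1 v ((hA _).1 v.2).1),
    ?_, ?_, ?_, ?_⟩
  · rw [← Nat.not_even_iff_odd, even_iff_two_dvd]
    intro h2
    haveI : Fact (Nat.Prime 2) := ⟨Nat.prime_two⟩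
    obtain ⟨w, hw⟩ := exists_prime_orderOf_dvd_card' (G := A) 2 h2
    have hw' : (w : G) ^ m = 1 := ((hA _).1 w.2).2
    have := orderOf_dvd_of_pow_eq_one hw'
    rw [Subgroup.orderOf_coe, hw] at this
    exact absurd (even_iff_two_dvd.2 this) (Nat.not_even_iff_odd.2 hm)
  · rw [eq_bot_iff]
    exact fun z hz => hEA z (hE'E hz.1) hz.2
  · rw [eq_bot_iff]
    rintro z ⟨hzQ, hzEA⟩
    obtain ⟨e, he, b, hb, rfl⟩ := Subgroup.mem_sup_of_normal_right.1 hzEA
    have heC := (hE e).1 (hE'E he)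
    have hbC := (hA b).1 hb
    have hzC := (hCmem _).1 (mul_mem heC.1 hbC.1)
    obtain ⟨q, hq⟩ := hzQ
    -- it commutes with both generators
    have hqx : ∀ g ∈ f.range, Commute (e * b) g := by
      intro g hg
      rw [hfr] at hg
      induction hg using Subgroup.closure_induction with
      | mem g hg =>
        simp only [Set.mem_insert_iff, Set.mem_singleton_iff] at hg
        rcases hg with rfl | rfl
        · exact hzC.1
        · exact hzC.2
      | one => exact Commute.one_right _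
      | mul g h _ _ ih1 ih2 => exact ih1.mul_right ih2
      | inv g _ ih => exact ih.inv_right
    have hq2 : q ^ 2 = 1 := by
      have hcen : ∀ r : QuaternionGroup 2, q * r = r * q := fun r => hf (by
        rw [map_mul, map_mul, hq]; exact (hqx _ ⟨r, rfl⟩).eq)
      have key : ∀ q : QuaternionGroup 2, (∀ r, q * r = r * q) → q ^ 2 = 1 := by decide
      exact key q hcen
    have h2 : (e * b) ^ 2 = 1 := by rw [← hq, ← map_pow, hq2, map_one]
    rw [(show Commute e b from hCab e heC.1 b hbC.1).mul_pow, heC.2, one_mul] at h2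
    have hb1 : b = 1 := hEA b ((hE b).2 ⟨hbC.1, h2⟩) hb
    subst hb1
    rw [mul_one] at hq hqx ⊢
    rcases eq_or_ne e 1 with rfl | he1
    · exact one_mem _
    exfalso
    have key : ∀ q : QuaternionGroup 2, q ^ 2 = 1 → q = 1 ∨ q = QuaternionGroup.a 2 := by decide
    rcases key q hq2 with rfl | rfl
    · exact he1 (by rw [← hq, map_one])
    · refine hcE' ?_
      have hx0 : ∀ r : QuaternionGroup 2, r ^ 2 ≠ 1 → r ^ 2 = QuaternionGroup.a 2 := by decide
      obtain ⟨r, hr⟩ := hxQ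
      rw [← hr, ← map_pow, hx0 r (fun h => hc_ne (by rw [← hr, ← map_pow, h, map_one])), hq]
      exact he
  · rw [eq_top_iff]
    intro g _
    have hconj : ∀ (h w : G), orderOf w = 4 → h * w * h⁻¹ = w ∨ h * w * h⁻¹ = w⁻¹ := by
      intro h w hw
      obtain ⟨l, hl⟩ := Subgroup.mem_zpowers_iff.1 ((hn _).conj_mem _ (Subgroup.mem_zpowers w) h)
      have ho : orderOf (h * w * h⁻¹) = 4 := hw ▸ MulEquiv.orderOf_eq (MulAut.conj h) w
      have hw4 : w ^ (4 : ℤ) = 1 := by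
        rw [show (4 : ℤ) = ((4 : ℕ) : ℤ) from rfl, zpow_natCast, ← hw, pow_orderOf_eq_one]
      rw [← hl] at ho ⊢
      obtain ⟨t, rfl⟩ : ∃ t : ℤ × Fin 4, l = 4 * t.1 + (t.2 : ℕ) :=
        ⟨(l / 4, ⟨(l % 4).toNat, by omega⟩), by simp only; omega⟩
      rw [zpow_add, zpow_mul, hw4, one_zpow, one_mul, zpow_natCast] at ho ⊢
      obtain ⟨t, r⟩ := t
      fin_cases r
      · simp at ho
      · exact Or.inl (pow_one w)
      · exfalso
        simp only at ho
        rw [orderOf_pow' w two_ne_zero, hw] at ho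
        norm_num at ho
      · refine Or.inr (eq_inv_of_mul_eq_one_left ?_)
        simp only
        show w ^ 3 * w = 1
        rw [← pow_succ, show 3 + 1 = orderOf w by rw [hw], pow_orderOf_eq_one]
    obtain ⟨i, hi, hix⟩ : ∃ i ∈ f.range, Commute (i * g) x := by
      rcases hconj g x hx4 with h | h
      · refine ⟨1, one_mem _, ?_⟩
        rw [one_mul]
        exact mul_inv_eq_iff_eq_mul.1 h
      · refine ⟨y, hyQ, ?_⟩
        show y * g * x = x * (y * g)
        calc y * g * x = y * (g * x * g⁻¹) * g := by group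
          _ = (y * x * y⁻¹)⁻¹ * (y * g) := by rw [h]; group
          _ = x * (y * g) := by rw [hyx, inv_inv]
    obtain ⟨j, hj, hjC⟩ : ∃ j ∈ f.range, j * (i * g) ∈ C := by
      rcases hconj (i * g) y hy4 with h | h
      · exact ⟨1, one_mem _, by rw [one_mul]; exact (hCmem _).2 ⟨hix, mul_inv_eq_iff_eq_mul.1 h⟩⟩
      · refine ⟨x, hxQ, (hCmem _).2 ⟨(Commute.refl x).mul_left hix, ?_⟩⟩
        have hxy : x * y⁻¹ * x⁻¹ = y := by
          have h1 : y * x = x⁻¹ * y := mul_inv_eq_iff_eq_mul.1 hyx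
          have h2 : x * y * x⁻¹ = x ^ 2 * y := by
            rw [pow_two]
            calc x * y * x⁻¹ = x * y * x⁻¹ * (y⁻¹ * y) := by group
              _ = x * (y * x * y⁻¹)⁻¹ * y := by group
              _ = x * x * y := by rw [hyx, inv_inv]
          rw [← hy2] at h2
          calc x * y⁻¹ * x⁻¹ = (x * y * x⁻¹)⁻¹ := by group
            _ = (y ^ 2 * y)⁻¹ := by rw [h2]
            _ = y := by rw [← pow_succ, eq_comm, eq_inv_iff_mul_eq_one, ← pow_succ']; exact hy4'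
        show x * (i * g) * y = y * (x * (i * g))
        calc x * (i * g) * y = x * (i * g * y * (i * g)⁻¹) * (i * g) := by group
          _ = (x * y⁻¹ * x⁻¹) * (x * (i * g)) := by rw [h]; group
          _ = y * (x * (i * g)) := by rw [hxy]
    obtain ⟨e, he, b, hb, heb⟩ := Subgroup.mem_sup_of_normal_right.1 (hC_split _ hjC)
    rw [show g = (j * i)⁻¹ * (j * (i * g)) by group, ← heb]
    refine mul_mem (Subgroup.mem_sup_left (inv_mem (mul_mem hj hi)))
      (mul_mem ?_ (Subgroup.mem_sup_right (Subgroup.mem_sup_right hb)))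
    rcases hsplit e he with h | h
    · exact Subgroup.mem_sup_right (Subgroup.mem_sup_left h)
    · rw [show e = (x ^ 2)⁻¹ * (x ^ 2 * e) by group]
      exact mul_mem (Subgroup.mem_sup_left (inv_mem (pow_mem hxQ 2)))
        (Subgroup.mem_sup_right (Subgroup.mem_sup_left h))

end Cfsg.Agent.S4211
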