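import Cfsg.Statements.S2551
import Cfsg.Agent.GL4F2.Alt8

set_option autoImplicit false
open Cfsg

namespace Cfsg.Agent.S2551

open CfsgLib.GL4F2 in
/-- The stabilizer of the first two basis vectors is transitive on the eight stars. -/
theorem pairStab_transitive : ∀ j : Fin 8, ∃ g : GL (Fin 4) (ZMod 2),
    (g : Matrix (Fin 4) (Fin 4) (ZMod 2)).mulVec (Pi.single 0 1) = Pi.single 0 1 ∧
    (g : Matrix (Fin 4) (Fin 4) (ZMod 2)).mulVec (Pi.single 1 1) = Pi.single 1 1 ∧
    (starPerm g : Equiv.Perm (Fin 8)) 0 = j := by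
  have gen : ∀ i k : Fin 4, i ≠ k → k ≠ 0 → k ≠ 1 → ∃ g : GL (Fin 4) (ZMod 2),
      (g : Matrix (Fin 4) (Fin 4) (ZMod 2)).mulVec (Pi.single 0 1) = Pi.single 0 1 ∧
      (g : Matrix (Fin 4) (Fin 4) (ZMod 2)).mulVec (Pi.single 1 1) = Pi.single 1 1 ∧
      (starPerm g : Equiv.Perm (Fin 8)) = transvPerm i k := by
    intro i k hik hk0 hk1
    have hdet : (Matrix.transvection i k (1 : ZMod 2)).det ≠ 0 := by
      rw [Matrix.det_transvection_of_ne i k hik]; decide
    refine ⟨Matrix.GeneralLinearGroup.mkOfDetNeZero _ hdet, ?_, ?_, ?_⟩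
    · show (Matrix.transvection i k (1 : ZMod 2)).mulVec _ = _
      revert i k; decide +kernel
    · show (Matrix.transvection i k (1 : ZMod 2)).mulVec _ = _
      revert i k; decide +kernel
    · exact (induces_starPerm _).unique (transvPerm_spec i k hik)
  obtain ⟨a, a0, a1, aP⟩ := gen 0 2 (by decide) (by decide) (by decide)
  obtain ⟨b, b0, b1, bP⟩ := gen 0 3 (by decide) (by decide) (by decide)
  obtain ⟨c, c0, c1, cP⟩ := gen 1 3 (by decide) (by decide) (by decide)
  obtain ⟨d, d0, d1, dP⟩ := gen 2 3 (by decide) (by decide) (by decide)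
  obtain ⟨e, e0, e1, eP⟩ := gen 3 2 (by decide) (by decide) (by decide)
  have comp : ∀ g h : GL (Fin 4) (ZMod 2), ∀ v : Fin 4 → ZMod 2,
      (g : Matrix (Fin 4) (Fin 4) (ZMod 2)).mulVec v = v →
      (h : Matrix (Fin 4) (Fin 4) (ZMod 2)).mulVec v = v →
      ((g * h : GL (Fin 4) (ZMod 2)) : Matrix (Fin 4) (Fin 4) (ZMod 2)).mulVec v = v := by
    intro g h v hg hh
    rw [Units.val_mul, ← Matrix.mulVec_mulVec, hh, hg]
  intro j
  fin_cases j
  · exact ⟨1, Matrix.one_mulVec _, Matrix.one_mulVec _, by rw [map_one]; rfl⟩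
  · exact ⟨b, b0, b1, by rw [bP]; decide +kernel⟩
  · exact ⟨a, a0, a1, by rw [aP]; decide +kernel⟩
  · exact ⟨c, c0, c1, by rw [cP]; decide +kernel⟩
  · exact ⟨a * e, comp a e _ a0 e0, comp a e _ a1 e1, by
      rw [map_mul, Subgroup.coe_mul, aP, eP]; decide +kernel⟩
  · exact ⟨d, d0, d1, by rw [dP]; decide +kernel⟩
  · exact ⟨e, e0, e1, by rw [eP]; decide +kernel⟩
  · exact ⟨a * d, comp a d _ a0 d0, comp a d _ a1 d1, by
      rw [map_mul, Subgroup.coe_mul, aP, dP]; decide +kernel⟩

theorem extend_pair : ∀ v w : Fin 4 → ZMod 2, v ≠ 0 → w ≠ 0 → v ≠ w →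
    ∃ i j : Fin 4, (Matrix.of ![v, w, Pi.single i 1, Pi.single j 1]).det ≠ 0 := by
  decide +kernel

theorem exists_gl_pair (v w : Fin 4 → ZMod 2) (hv : v ≠ 0) (hw : w ≠ 0) (hvw : v ≠ w) :
    ∃ g : GL (Fin 4) (ZMod 2), (g : Matrix (Fin 4) (Fin 4) (ZMod 2)).mulVec (Pi.single 0 1) = v ∧
      (g : Matrix (Fin 4) (Fin 4) (ZMod 2)).mulVec (Pi.single 1 1) = w := by
  obtain ⟨i, j, h⟩ := extend_pair v w hv hw hvw
  rw [← Matrix.det_transpose] at h
  refine ⟨Matrix.GeneralLinearGroup.mkOfDetNeZero _ h, ?_, ?_⟩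
  · show (Matrix.transpose _).mulVec _ = _
    rw [Matrix.mulVec_single_one]; rfl
  · show (Matrix.transpose _).mulVec _ = _
    rw [Matrix.mulVec_single_one]; rfl

theorem not_orderOf_commuting (σ τ : Equiv.Perm (Fin 8)) (h : Commute σ τ) (hσ : orderOf σ = 5)
    (q : ℕ) (hτ : orderOf τ = q) :
    (q = 7 → False) ∧ (q = 3 → σ 0 = 0 → τ 0 = 0 → False) := by
  have key : ∀ (ρ : Equiv.Perm (Fin 8)) (m : ℕ), m.Prime → m ∣ orderOf ρ → ∃ c ∈ ρ.cycleType, m ∣ c := by
    intro ρ m hm hdvd
    rw [← Equiv.Perm.lcm_cycleType] at hdvd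
    exact (Nat.prime_iff.mp hm).exists_mem_multiset_dvd
      (hdvd.trans (Multiset.lcm_dvd.mpr fun a ha => Multiset.dvd_prod ha))
  have bound : ∀ q : ℕ, q.Prime → q ≠ 5 → orderOf τ = q →
      5 + q ≤ (σ * τ).support.card := by
    intro q hq hne hτ
    have hord : orderOf (σ * τ) = 5 * q := by
      rw [h.orderOf_mul_eq_mul_orderOf_of_coprime, hσ, hτ]
      rw [hσ, hτ]
      exact (Nat.coprime_primes (by norm_num) hq).mpr hne.symm
    obtain ⟨c, hc, hc5⟩ := key (σ * τ) 5 (by norm_num) (hord ▸ dvd_mul_right 5 q)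
    obtain ⟨d, hd, hdq⟩ := key (σ * τ) q hq (hord ▸ dvd_mul_left q 5)
    have hsum := Equiv.Perm.sum_cycleType (σ * τ)
    obtain ⟨rest, hrest⟩ := Multiset.exists_cons_of_mem hc
    by_cases hcd : d = c
    · subst hcd
      have : 5 * q ∣ d := Nat.Coprime.mul_dvd_of_dvd_of_dvd
        ((Nat.coprime_primes (by norm_num) hq).mpr hne.symm) hc5 hdq
      have h1 := Nat.le_of_dvd (by have := Equiv.Perm.one_lt_of_mem_cycleType hc; omega) this
      have h2 : d ≤ (σ * τ).cycleType.sum := Multiset.le_sum_of_mem hc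
      have := hq.two_le
      omega
    · rw [hrest, Multiset.mem_cons] at hd
      obtain ⟨rest', hrest'⟩ := Multiset.exists_cons_of_mem (hd.resolve_left hcd)
      rw [hrest, hrest', Multiset.sum_cons, Multiset.sum_cons] at hsum
      have h1 := Nat.le_of_dvd (by
        have := Equiv.Perm.one_lt_of_mem_cycleType hc; omega) hc5
      have h2 := Nat.le_of_dvd (by
        have := Equiv.Perm.one_lt_of_mem_cycleType (σ := σ * τ) (n := d) (by
          rw [hrest, hrest']; simp)
        omega) hdq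
      omega
  refine ⟨fun h7 => ?_, fun h3 hs ht => ?_⟩
  · subst h7
    have := bound 7 (by norm_num) (by norm_num) hτ
    have := Finset.card_le_univ (σ * τ).support
    simp at this
    omega
  · subst h3
    have := bound 3 (by norm_num) (by norm_num) hτ
    have hsub : (σ * τ).support ⊆ (Finset.univ : Finset (Fin 8)).erase 0 := fun x hx =>
      Finset.mem_erase.mpr ⟨fun h0 => (Equiv.Perm.mem_support.mp hx) (by
        rw [h0, Equiv.Perm.mul_apply, ht, hs]), Finset.mem_univ x⟩
    have := Finset.card_le_card hsub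
    simp at this
    omega

/-- A subgroup of `Sym 8` of order 2520 has a fixed point. -/
theorem exists_fixed (H : Subgroup (Equiv.Perm (Fin 8))) (hH : Nat.card H = 2520) :
    ∃ k : Fin 8, ∀ σ ∈ H, σ k = k := by
  classical
  haveI : Fact (Nat.Prime 5) := ⟨by norm_num⟩
  haveI : Fact (Nat.Prime 7) := ⟨by norm_num⟩
  haveI : Fact (Nat.Prime 3) := ⟨by norm_num⟩
  obtain ⟨s, hs⟩ := exists_prime_orderOf_dvd_card' (G := ↥H) 7 (by rw [hH]; norm_num)
  rw [← Subgroup.orderOf_coe] at hs
  -- every orbit through a moved point of `s` has at least seven points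
  obtain ⟨x, hx⟩ : ∃ x, (s : Equiv.Perm (Fin 8)) x ≠ x := by
    by_contra hno
    push_neg at hno
    rw [show (s : Equiv.Perm (Fin 8)) = 1 from Equiv.ext hno, orderOf_one] at hs
    exact absurd hs (by norm_num)
  have horb : 7 ≤ Nat.card (MulAction.orbit ↥H x) := by
    have h1 : Nat.card (MulAction.orbit (Subgroup.zpowers (s : Equiv.Perm (Fin 8))) x) = 7 := by
      have hdvd : Nat.card (MulAction.orbit (Subgroup.zpowers (s : Equiv.Perm (Fin 8))) x) ∣ 7 := by
        rw [← Nat.card_congr (MulAction.orbitEquivQuotientStabilizer _ x).symm]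
        have := Subgroup.index_dvd_card (MulAction.stabilizer (Subgroup.zpowers (s : Equiv.Perm (Fin 8))) x)
        rwa [Nat.card_zpowers, hs] at this
      rcases (Nat.dvd_prime (by norm_num)).mp hdvd with h | h
      · exfalso
        obtain ⟨a, ha⟩ := Nat.card_eq_one_iff_exists.mp h
        have e1 := ha ⟨x, MulAction.mem_orbit_self x⟩
        have e2 := ha ⟨(s : Equiv.Perm (Fin 8)) x,
          ⟨⟨(s : Equiv.Perm (Fin 8)), Subgroup.mem_zpowers _⟩, rfl⟩⟩
        exact hx (congrArg Subtype.val (e2.trans e1.symm))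
      · exact h
    rw [← h1]
    refine Nat.card_mono (Set.toFinite _) ?_
    rintro _ ⟨⟨g, hg⟩, rfl⟩
    exact ⟨⟨g, (Subgroup.zpowers_le.mpr s.2) hg⟩, rfl⟩
  by_cases hall : MulAction.orbit ↥H x = Set.univ
  · exfalso
    have h0 : Nat.card (MulAction.stabilizer ↥H (0 : Fin 8)) = 315 := by
      have h := Subgroup.index_mul_card (MulAction.stabilizer ↥H (0 : Fin 8))
      have hidx : (MulAction.stabilizer ↥H (0 : Fin 8)).index = 8 := by
        rw [Subgroup.index, Nat.card_congr (MulAction.orbitEquivQuotientStabilizer ↥H (0 : Fin 8)).symm,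
          MulAction.orbit_eq_iff.mpr (hall ▸ Set.mem_univ (0 : Fin 8)), hall, Nat.card_univ, Nat.card_fin]
      rw [hidx, hH] at h
      omega
    set K := MulAction.stabilizer ↥H (0 : Fin 8) with hK
    let ι : ↥K →* Equiv.Perm (Fin 8) := H.subtype.comp K.subtype
    have hι : Function.Injective ι := H.subtype_injective.comp K.subtype_injective
    have hfix : ∀ k : ↥K, ι k 0 = 0 := fun k => k.2
    obtain ⟨P⟩ : Nonempty (Sylow 5 ↥K) := inferInstance
    have hPcard : Nat.card P = 5 := by
      rw [P.card_eq_multiplicity, h0]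
      have : (315 : ℕ).factorization 5 = 1 := by
        rw [show (315 : ℕ) = 5 ^ 1 * 63 by norm_num, Nat.factorization_mul (by norm_num) (by norm_num),
          Finsupp.add_apply, Nat.Prime.factorization_pow (by norm_num),
          Nat.factorization_eq_zero_of_not_dvd (show ¬ 5 ∣ 63 by norm_num)]
        simp
      rw [this]; norm_num
    set N := Subgroup.normalizer ((P : Subgroup ↥K) : Set ↥K) with hN
    have hidx : N.index = 1 ∨ N.index = 21 := by
      have h1 : N.index ≡ 1 [MOD 5] := by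
        exact (Sylow.card_eq_index_normalizer P) ▸ card_sylow_modEq_one 5 ↥K
      have h2 : N.index ∣ 63 := by
        have := Subgroup.index_dvd_of_le (Subgroup.le_normalizer (H := (P : Subgroup ↥K)))
        have hPi : (P : Subgroup ↥K).index = 63 := by
          have h := Subgroup.index_mul_card (P : Subgroup ↥K)
          rw [hPcard, h0] at h; omega
        rwa [hPi] at this
      have h3 : N.index ≤ 63 := Nat.le_of_dvd (by norm_num) h2
      unfold Nat.ModEq at h1
      interval_cases hN : N.index <;> omega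
    have hNcard := Subgroup.index_mul_card N
    rw [h0] at hNcard
    -- an element of order 3 or 7 centralizing the Sylow 5-subgroup
    have hbad : ∀ q : ℕ, q.Prime → q ≠ 5 → q ∣ Nat.card N → (q = 3 ∨ q = 7) → False := by
      intro q hq hq5 hdvd hq37
      haveI := Fact.mk hq
      obtain ⟨a, ha⟩ := exists_prime_orderOf_dvd_card' (G := ↥N) q hdvd
      rw [← Subgroup.orderOf_coe] at ha
      obtain ⟨b, hb⟩ := exists_prime_orderOf_dvd_card' (G := ↥(P : Subgroup ↥K)) 5 (by rw [hPcard])
      rw [← Subgroup.orderOf_coe] at hb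
      have hzp : Subgroup.zpowers (b : ↥K) = (P : Subgroup ↥K) :=
        Subgroup.eq_of_le_of_card_ge (Subgroup.zpowers_le.mpr b.2)
          (by rw [Nat.card_zpowers, hb, hPcard])
      obtain ⟨r, hr⟩ : ∃ r : ℕ, (b : ↥K) ^ r = (a : ↥K) * b * (a : ↥K)⁻¹ := by
        have hm := (Subgroup.mem_normalizer_iff.mp a.2 (b : ↥K)).mp b.2
        exact mem_powers_iff_mem_zpowers.mpr (by rw [hzp]; exact hm)
      have hiter : ∀ k : ℕ, (a : ↥K) ^ k * b * ((a : ↥K) ^ k)⁻¹ = (b : ↥K) ^ (r ^ k) := by
        intro k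
        induction k with
        | zero => simp
        | succ k ih =>
          rw [pow_succ (a : ↥K), mul_inv_rev]
          calc (a : ↥K) ^ k * a * b * ((a : ↥K)⁻¹ * ((a : ↥K) ^ k)⁻¹)
              = MulAut.conj ((a : ↥K) ^ k) ((a : ↥K) * b * (a : ↥K)⁻¹) := by
                rw [MulAut.conj_apply]; group
            _ = _ := by rw [← hr, map_pow, MulAut.conj_apply, ih, ← pow_mul, pow_succ]
      have hcomm : Commute (b : ↥K) (a : ↥K) := by
        have h1 := hiter q
        rw [← ha, pow_orderOf_eq_one, ha] at h1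
        have h2 : r ^ q % 5 = 1 := by
          have h3 : (b : ↥K) ^ (r ^ q) = (b : ↥K) ^ 1 := by rw [pow_one, ← h1]; group
          have := (pow_eq_pow_iff_modEq (x := (b : ↥K))).mp h3
          rw [hb] at this
          exact this
        have h4 : r % 5 = 1 := by
          have hlt := Nat.mod_lt r (show 5 > 0 by norm_num)
          rw [Nat.pow_mod] at h2
          rcases hq37 with rfl | rfl <;> interval_cases hr5 : r % 5 <;> simp_all
        have h5 : (b : ↥K) ^ r = b := by
          rw [← pow_mod_orderOf, hb, h4, pow_one]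
        show (b : ↥K) * a = a * b
        rw [h5] at hr
        conv_lhs => rw [hr]
        group
      have := not_orderOf_commuting (ι b) (ι a) (hcomm.map ι) (by rw [orderOf_injective ι hι, hb]) q
        (by rw [orderOf_injective ι hι, ha])
      rcases hq37 with h | h
      · exact this.2 h (hfix b) (hfix a)
      · exact this.1 h
    rcases hidx with h | h <;> rw [h] at hNcard
    · exact hbad 7 (by norm_num) (by norm_num) ⟨45, by omega⟩ (Or.inr rfl)
    · exact hbad 3 (by norm_num) (by norm_num) ⟨5, by omega⟩ (Or.inl rfl)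
  · obtain ⟨k, hk⟩ := (Set.ne_univ_iff_exists_notMem _).mp hall
    refine ⟨k, fun σ hσ => ?_⟩
    have hsub : MulAction.orbit ↥H x = Set.univ \ {k} := by
      refine Set.eq_of_subset_of_ncard_le (fun y hy => ⟨Set.mem_univ y, fun h => hk (h ▸ hy)⟩) ?_ (Set.toFinite _)
      rw [Set.ncard_diff_singleton_of_mem (Set.mem_univ k), Set.ncard_univ, Nat.card_fin, ← Nat.card_coe_set_eq]
      omega
    by_contra hne
    have hmem : σ k ∈ MulAction.orbit ↥H x := hsub ▸ ⟨Set.mem_univ _, hne⟩
    rw [← MulAction.orbit_eq_iff] at hmem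
    apply hk
    rw [← hmem]
    exact ⟨(⟨σ, hσ⟩ : ↥H)⁻¹, by simp [Subgroup.smul_def]⟩


/-- Let F be the field with 2 elements. GL_4(F) (≅ A_8) has a subgroup isomorphic to the alternating group A_7, and every such subgroup acts 2-transitively on the 15 non-zero vectors of F⁴: any ordered pair of distinct non-zero vectors is carried to any other by some element of the subgroup. -/
theorem result {F : Type*} [Field F] [Fintype F] (hF : Fintype.card F = 2) : (∃ H : Subgroup (Matrix.GeneralLinearGroup (Fin 4) F), Nonempty (H ≃* alternatingGroup (Fin 7))) ∧ ∀ H : Subgroup (Matrix.GeneralLinearGroup (Fin 4) F), Nonempty (H ≃* alternatingGroup (Fin 7)) → ∀ v w v' w' : Fin 4 → F, v ≠ 0 → w ≠ 0 → v ≠ w → v' ≠ 0 → w' ≠ 0 → v' ≠ w' → ∃ g ∈ H, (g : Matrix (Fin 4) (Fin 4) F).mulVec v = v' ∧ (g : Matrix (Fin 4) (Fin 4) F).mulVec w = w' := by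
  classical
  haveI : Fact (Nat.Prime 2) := ⟨Nat.prime_two⟩
  let e : ZMod 2 ≃+* F := ZMod.ringEquivOfPrime F Nat.prime_two hF
  let E : GL (Fin 4) (ZMod 2) ≃* Matrix.GeneralLinearGroup (Fin 4) F := Units.mapEquiv e.mapMatrix.toMulEquiv
  let A : Matrix.GeneralLinearGroup (Fin 4) F ≃* ↥(alternatingGroup (Fin 8)) :=
    E.symm.trans CfsgLib.GL4F2.equivAlt8
  let S : Subgroup ↥(alternatingGroup (Fin 8)) :=
    (MulAction.stabilizer (Equiv.Perm (Fin 8)) (Fin.last 7)).subgroupOf _
  have hA7 : Nat.card ↥(alternatingGroup (Fin 7)) = 2520 := by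
    rw [nat_card_alternatingGroup]; simp [Nat.card_fin, Nat.factorial]
  constructor
  · let emb : Fin 7 ≃ {x : Fin 8 // x ≠ Fin.last 7} :=
      (finSuccAboveEquiv (Fin.last 7))
    let ext : Equiv.Perm (Fin 7) →* Equiv.Perm (Fin 8) := Equiv.Perm.extendDomainHom emb
    let φ : ↥(alternatingGroup (Fin 7)) →* ↥(alternatingGroup (Fin 8)) :=
      (ext.comp (alternatingGroup (Fin 7)).subtype).codRestrict _ fun g => by
        rw [Equiv.Perm.mem_alternatingGroup]
        show Equiv.Perm.sign ((g : Equiv.Perm (Fin 7)).extendDomain emb) = 1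
        rw [Equiv.Perm.sign_extendDomain]
        exact Equiv.Perm.mem_alternatingGroup.mp g.2
    have hφ : Function.Injective φ := fun a b h =>
      Subtype.ext (Equiv.Perm.extendDomainHom_injective emb (congrArg Subtype.val h))
    exact ⟨(A.symm.toMonoidHom.comp φ).range,
      ⟨(MonoidHom.ofInjective (f := A.symm.toMonoidHom.comp φ) (A.symm.injective.comp hφ)).symm⟩⟩
  · rintro H ⟨hH⟩ v w v' w' hv hw hvw hv' hw' hvw'
    let H8 : Subgroup (Equiv.Perm (Fin 8)) := H.map ((alternatingGroup (Fin 8)).subtype.comp A.toMonoidHom)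
    have hH8 : Nat.card H8 = 2520 := by
      rw [Subgroup.card_map_of_injective
          (f := (alternatingGroup (Fin 8)).subtype.comp A.toMonoidHom)
          (fun x y h => A.injective (Subtype.ext h)),
        Nat.card_congr hH.toEquiv, hA7]
    obtain ⟨k, hk⟩ := exists_fixed H8 hH8
    have hmem : ∀ g : Matrix.GeneralLinearGroup (Fin 4) F,
        (A g : Equiv.Perm (Fin 8)) k = k → g ∈ H := by
      let St : Subgroup (Matrix.GeneralLinearGroup (Fin 4) F) :=
        (MulAction.stabilizer (Equiv.Perm (Fin 8)) k).comap ((alternatingGroup (Fin 8)).subtype.comp A.toMonoidHom)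
      have hle : H ≤ St := fun g hg => hk _ ⟨g, hg, rfl⟩
      have htop : ∀ j : Fin 8, ∃ g : Matrix.GeneralLinearGroup (Fin 4) F, (A g : Equiv.Perm (Fin 8)) k = j := by
        intro j
        obtain ⟨g, -, -, hg⟩ := pairStab_transitive j
        obtain ⟨g', -, -, hg'⟩ := pairStab_transitive k
        refine ⟨E (g * g'⁻¹), ?_⟩
        have : A (E (g * g'⁻¹)) = CfsgLib.GL4F2.starPerm (g * g'⁻¹) := by
          show CfsgLib.GL4F2.starPerm (E.symm (E (g * g'⁻¹))) = _
          rw [MulEquiv.symm_apply_apply]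
        rw [this, map_mul, map_inv, Subgroup.coe_mul, Subgroup.coe_inv, Equiv.Perm.mul_apply,
          ← hg', Equiv.Perm.coe_inv, Equiv.symm_apply_apply, hg]
      have hSt : Nat.card St = 2520 := by
        have hidx : St.index = 8 := by
          let act : MulAction (Matrix.GeneralLinearGroup (Fin 4) F) (Fin 8) :=
            MulAction.compHom _ ((alternatingGroup (Fin 8)).subtype.comp A.toMonoidHom)
          have hst : St = MulAction.stabilizer (Matrix.GeneralLinearGroup (Fin 4) F) k := rfl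
          rw [hst, Subgroup.index, Nat.card_congr (MulAction.orbitEquivQuotientStabilizer _ k).symm]
          have : MulAction.orbit (Matrix.GeneralLinearGroup (Fin 4) F) k = Set.univ :=
            Set.eq_univ_of_forall fun j => (htop j).imp fun g hg => hg
          rw [this, Nat.card_univ, Nat.card_fin]
        have h := Subgroup.index_mul_card St
        rw [hidx, Nat.card_congr A.toEquiv, CfsgLib.GL4F2.card_alt_eight] at h
        omega
      have heq : H = St := Subgroup.eq_of_le_of_card_ge hle (by rw [hSt, Nat.card_congr hH.toEquiv, hA7])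
      intro g hg
      rw [heq]; exact hg
    -- transport the four vectors
    have conv : ∀ (g : GL (Fin 4) (ZMod 2)) (u : Fin 4 → ZMod 2),
        (E g : Matrix (Fin 4) (Fin 4) F).mulVec (fun i => e (u i)) =
          fun i => e ((g : Matrix (Fin 4) (Fin 4) (ZMod 2)).mulVec u i) := by
      intro g u
      funext i
      exact (RingHom.map_mulVec e.toRingHom _ u i).symm
    have hne : ∀ u : Fin 4 → F, u ≠ 0 → (fun i => e.symm (u i)) ≠ 0 := fun u hu h => hu (funext fun i =>
      e.symm.injective ((congrFun h i).trans (map_zero e.symm).symm))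
    have hne' : ∀ u u' : Fin 4 → F, u ≠ u' → (fun i => e.symm (u i)) ≠ fun i => e.symm (u' i) :=
      fun u u' hu h => hu (funext fun i => e.symm.injective (congrFun h i))
    obtain ⟨a, ha0, ha1⟩ := exists_gl_pair _ _ (hne v hv) (hne w hw) (hne' v w hvw)
    obtain ⟨b, hb0, hb1⟩ := exists_gl_pair _ _ (hne v' hv') (hne w' hw') (hne' v' w' hvw')
    set i := ((CfsgLib.GL4F2.starPerm a : Equiv.Perm (Fin 8)))⁻¹ k with hi
    set j := ((CfsgLib.GL4F2.starPerm b : Equiv.Perm (Fin 8)))⁻¹ k with hj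
    obtain ⟨c, c0, c1, hc⟩ := pairStab_transitive i
    obtain ⟨d, d0, d1, hd⟩ := pairStab_transitive j
    have hfixc : ∀ (g : GL (Fin 4) (ZMod 2)) (u : Fin 4 → ZMod 2),
        (g : Matrix (Fin 4) (Fin 4) (ZMod 2)).mulVec u = u →
        ((g⁻¹ : GL (Fin 4) (ZMod 2)) : Matrix (Fin 4) (Fin 4) (ZMod 2)).mulVec u = u := fun g u h => by
      conv_lhs => rw [← h]
      rw [Matrix.mulVec_mulVec, ← Units.val_mul, inv_mul_cancel, Units.val_one, Matrix.one_mulVec]
    refine ⟨E (b * (d * c⁻¹) * a⁻¹), hmem _ ?_, ?_, ?_⟩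
    · show (CfsgLib.GL4F2.starPerm (E.symm (E _)) : Equiv.Perm (Fin 8)) k = k
      rw [MulEquiv.symm_apply_apply]
      simp only [map_mul, map_inv, Subgroup.coe_mul, Subgroup.coe_inv, Equiv.Perm.mul_apply]
      rw [← hi, ← hc, Equiv.Perm.coe_inv, Equiv.symm_apply_apply, hd, hj, Equiv.Perm.coe_inv,
        Equiv.apply_symm_apply]
    all_goals
      have hinv : ∀ (u : Fin 4 → ZMod 2) (u' : Fin 4 → ZMod 2),
          (a : Matrix (Fin 4) (Fin 4) (ZMod 2)).mulVec u = u' →
          ((a⁻¹ : GL (Fin 4) (ZMod 2)) : Matrix (Fin 4) (Fin 4) (ZMod 2)).mulVec u' = u := fun u u' h => by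
        rw [← h, Matrix.mulVec_mulVec, ← Units.val_mul, inv_mul_cancel, Units.val_one, Matrix.one_mulVec]
    · have h := conv (b * (d * c⁻¹) * a⁻¹) (fun i => e.symm (v i))
      simp only [RingEquiv.apply_symm_apply, Units.val_mul, ← Matrix.mulVec_mulVec] at h
      rw [hinv _ _ ha0, hfixc c _ c0, d0, hb0] at h
      rw [h]; simp
    · have h := conv (b * (d * c⁻¹) * a⁻¹) (fun i => e.symm (w i))
      simp only [RingEquiv.apply_symm_apply, Units.val_mul, ← Matrix.mulVec_mulVec] at h
      rw [hinv _ _ ha1, hfixc c _ c1, d1, hb1] at h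
      rw [h]; simp

end Cfsg.Agent.S2551
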