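import Cfsg.Statements.S4309
import Cfsg.Agent.Eq.Def_OddOrderLocal
import Mathlib

set_option autoImplicit false
open Cfsg

namespace Cfsg.Agent.S4309

/-- Let `π` be a set of primes, `G` a finite group with a Hall `π`-subgroup `H` (every prime divisor of the order of `H` lies in `π` and no prime of `π` divides its index), and `A` a normal subgroup of `G`. Then `H ∩ A` is a Hall `π`-subgroup of `A` and the image of `H` in `G/A` is a Hall `π`-subgroup of `G/A`. -/
theorem result {G : Type*} [Group G] [Finite G] (π : Set ℕ)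
    (H A : Subgroup G) [A.Normal] (hH : Cfsg.IsPiHall π H) :
    Cfsg.IsPiHall π ((H ⊓ A).subgroupOf A) ∧ Cfsg.IsPiHall π (H.map (QuotientGroup.mk' A)) := by
  obtain ⟨h1, h2⟩ := hH
  refine ⟨⟨?_, ?_⟩, ?_, ?_⟩
  · intro p hp hd
    rw [Nat.card_congr (Subgroup.subgroupOfEquivOfLe (inf_le_right : H ⊓ A ≤ A)).toEquiv] at hd
    exact h1 p hp (hd.trans (Subgroup.card_dvd_of_le inf_le_left))
  · intro p hp hpπ hd
    apply h2 p hp hpπ
    have e : ((H ⊓ A).subgroupOf A).index = H.relIndex A := by
      rw [show ((H ⊓ A).subgroupOf A).index = (H ⊓ A).relIndex A from rfl,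
        Subgroup.inf_relIndex_right]
    rw [e] at hd
    have key : ∀ X Y : Subgroup G, X ≤ Y → Nat.card X * X.relIndex Y = Nat.card Y := fun X Y hXY => by
      rw [← Subgroup.relIndex_bot_left, ← Subgroup.relIndex_bot_left, Subgroup.relIndex_mul_relIndex _ _ _ bot_le hXY]
    have k1 := key H (H ⊔ A) le_sup_left
    have k2 := key A (H ⊔ A) le_sup_right
    have k3 := key (H ⊓ A) H inf_le_left
    have k4 := key (H ⊓ A) A inf_le_right
    rw [Subgroup.inf_relIndex_left] at k3
    rw [Subgroup.inf_relIndex_right] at k4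
    rw [Subgroup.relIndex_sup_right] at k2
    have : H.relIndex A = H.relIndex (H ⊔ A) := by
      apply Nat.eq_of_mul_eq_mul_left (Nat.card_pos (α := H))
      rw [k1, ← k2, ← k4]
      conv_lhs => rw [← k3]
      ring
    rw [this] at hd
    exact hd.trans (Subgroup.relIndex_dvd_index_of_le le_sup_left)
  · intro p hp hd
    exact h1 p hp (hd.trans (Subgroup.card_map_dvd H _))
  · intro p hp hpπ hd
    exact h2 p hp hpπ (hd.trans (Subgroup.index_map_dvd H (QuotientGroup.mk'_surjective A)))

end Cfsg.Agent.S4309
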