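import Cfsg.Statements.S0526
import Cfsg.Agent.SolvableStructure.Supersolvable
import Mathlib.GroupTheory.Nilpotent
import Mathlib.Tactic.Group

set_option autoImplicit false
open Cfsg
open scoped commutatorElement

namespace Cfsg.Agent.S0526

/-- In a finite supersolvable group the commutator subgroup is nilpotent. -/
theorem result {G : Type*} [Group G] [Finite G] (hG : Cfsg.IsSupersolvable G) : Group.IsNilpotent (commutator G) := by
  rw [CfsgLib.Supersolvable.isSupersolvable_iff] at hG
  suffices h : ∀ A : Subgroup G, CfsgLib.Supersolvable.CycReach A →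
      ∃ n, A.subgroupOf (commutator G) ≤ Subgroup.upperCentralSeries (commutator G) n by
    obtain ⟨n, hn⟩ := h ⊤ hG
    exact ⟨n, top_le_iff.1 (by simpa using hn)⟩
  intro A hA
  induction hA with
  | bot => exact ⟨0, by simp⟩
  | step A g hA hn ih =>
    obtain ⟨n, hn'⟩ := ih
    refine ⟨n + 1, fun x hx y => ?_⟩
    apply hn'
    rw [Subgroup.mem_subgroupOf] at hx ⊢
    have := hA.normal
    let π := QuotientGroup.mk' A
    have hz : (A ⊔ Subgroup.zpowers g).map π = Subgroup.zpowers (π g) := by
      rw [Subgroup.map_sup, QuotientGroup.map_mk'_self, bot_sup_eq, MonoidHom.map_zpowers]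
    have hzn : (Subgroup.zpowers (π g)).Normal := hz ▸ hn.map π (QuotientGroup.mk'_surjective A)
    have hy : π (y : G) ∈ Subgroup.centralizer {π g} := by
      refine CfsgLib.Supersolvable.commutator_le_centralizer_of_normal_zpowers hzn ?_
      have h2 : π (y : G) ∈ (commutator G).map π := Subgroup.mem_map_of_mem _ y.2
      have h3 : (commutator G).map π ≤ commutator (G ⧸ A) := by
        rw [commutator_def, commutator_def, Subgroup.map_commutator]
        exact Subgroup.commutator_mono le_top le_top
      exact h3 h2
    have hx' : π (x : G) ∈ Subgroup.zpowers (π g) := hz ▸ Subgroup.mem_map_of_mem _ hx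
    obtain ⟨k, hk⟩ := Subgroup.mem_zpowers_iff.1 hx'
    have hc : Commute (π (x : G)) (π (y : G)) := by
      rw [← hk]
      have h4 : Commute (π (y : G)) (π g) := Subgroup.mem_centralizer_singleton_iff.1 hy
      exact h4.symm.zpow_left k
    rw [← QuotientGroup.eq_one_iff]
    change π _ = 1
    simp only [Subgroup.coe_mul, InvMemClass.coe_inv, commutatorElement_def, map_mul, map_inv]
    rw [hc.eq]; group

end Cfsg.Agent.S0526
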