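import Cfsg.Statements.S3777
import Cfsg.Agent.PGroup.Commutator
import Cfsg.Agent.PGroup.Frattini
import Cfsg.Agent.PGroup.Normal

set_option autoImplicit false
open Cfsg

namespace Cfsg.Agent.S3777

open CfsgLib CfsgLib.PGroup
open scoped commutatorElement

/-- Commutators with the Frattini subgroup, one factor for each element of the list. -/
def commProds {G : Type*} [Group G] (P : Subgroup G) : List G → Set G
  | [] => {1}
  | x :: xs => Set.image2 (fun φ t => ⁅x, φ⁆ * t) (P : Set G) (commProds P xs)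

theorem one_mem_commProds {G : Type*} [Group G] (P : Subgroup G) :
    ∀ xs : List G, (1 : G) ∈ commProds P xs
  | [] => rfl
  | x :: xs => ⟨1, P.one_mem, 1, one_mem_commProds P xs, by simp⟩

theorem mul_mem_commProds {G : Type*} [Group G] (P : Subgroup G) {n ψ : G} (hψ : ψ ∈ P)
    (hn : n ∈ Subgroup.center G) :
    ∀ (xs : List G) {x : G}, x ∈ xs → n = ⁅x, ψ⁆ → ∀ t ∈ commProds P xs, n * t ∈ commProds P xs := by
  intro xs
  induction xs with
  | nil => intro x hx; exact absurd hx (List.not_mem_nil)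
  | cons a xs ih =>
    rintro x hx hnx _ ⟨φ, hφ, t, ht, rfl⟩
    rcases List.mem_cons.1 hx with rfl | hx
    · refine ⟨φ * ψ, P.mul_mem hφ hψ, t, ht, ?_⟩
      show ⁅x, φ * ψ⁆ * t = n * (⁅x, φ⁆ * t)
      have h1 : ⁅x, φ * ψ⁆ = ⁅x, φ⁆ * (φ * ⁅x, ψ⁆ * φ⁻¹) := by
        simp only [commutatorElement_def]; group
      rw [h1, ← hnx, Subgroup.mem_center_iff.1 hn φ, mul_inv_cancel_right, ← mul_assoc,
        Subgroup.mem_center_iff.1 hn]
    · refine ⟨φ, hφ, n * t, ih hx hnx t ht, ?_⟩
      show ⁅a, φ⁆ * (n * t) = n * (⁅a, φ⁆ * t)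
      rw [← mul_assoc, Subgroup.mem_center_iff.1 hn ⁅a, φ⁆, mul_assoc]

theorem map_commProds {G H : Type*} [Group G] [Group H] (f : G →* H) (P : Subgroup G) :
    ∀ xs : List G, f '' commProds P xs = commProds (P.map f) (xs.map f) := by
  intro xs
  induction xs with
  | nil => simp [commProds]
  | cons a xs ih =>
    simp only [commProds, List.map_cons, ← ih, Subgroup.coe_map, Set.image_image2,
      Set.image2_image_left, Set.image2_image_right, map_mul, map_commutatorElement]

theorem ncard_commProds {G : Type*} [Group G] [Finite G] (P : Subgroup G) {m : ℕ} :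
    ∀ xs : List G, (∀ x ∈ xs, (Subgroup.centralizer ({x} : Set G)).relIndex P ≤ m) →
      (commProds P xs).ncard ≤ m ^ xs.length := by
  intro xs
  induction xs with
  | nil => intro _; simp [commProds]
  | cons a xs ih =>
    intro h
    have h1 : ((fun φ => ⁅a, φ⁆) '' (P : Set G)).ncard ≤ m := by
      refine le_trans ?_ (h a List.mem_cons_self)
      rw [← Nat.card_coe_set_eq]
      set C := (Subgroup.centralizer ({a} : Set G)).subgroupOf P with hC
      refine Nat.card_le_card_of_surjective (α := P ⧸ C)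
        (Quotient.lift (fun φ : P => (⟨⁅a, (φ : G)⁆, _, φ.2, rfl⟩ :
          ↥((fun φ => ⁅a, φ⁆) '' (P : Set G)))) ?_) ?_
      · intro u v huv
        have h2 : ((u⁻¹ * v : P) : G) * a = a * ((u⁻¹ * v : P) : G) :=
          Subgroup.mem_centralizer_singleton_iff.1 (QuotientGroup.leftRel_apply.1 huv : u⁻¹ * v ∈ C)
        refine Subtype.ext ?_
        show ⁅a, (u : G)⁆ = ⁅a, (v : G)⁆
        have e : (v : G) = (u : G) * ((u⁻¹ * v : P) : G) := by simp
        have h3 : ⁅a, (u : G) * ((u⁻¹ * v : P) : G)⁆ =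
            ⁅a, (u : G)⁆ * ((u : G) * ⁅a, ((u⁻¹ * v : P) : G)⁆ * (u : G)⁻¹) := by
          simp only [commutatorElement_def]; group
        rw [e, h3, commutatorElement_eq_one_iff_mul_comm.2 h2.symm]
        group
      · rintro ⟨_, φ, hφ, rfl⟩
        exact ⟨QuotientGroup.mk ⟨φ, hφ⟩, rfl⟩
    rw [List.length_cons, pow_succ']
    refine le_trans ?_ (Nat.mul_le_mul h1 (ih fun x hx => h x (List.mem_cons_of_mem a hx)))
    rw [← Set.ncard_prod]
    refine le_trans (le_of_eq ?_) (Set.ncard_image_le (f := fun q : G × G => q.1 * q.2))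
    congr 1
    simp only [commProds]
    ext g
    constructor
    · rintro ⟨φ, hφ, t, ht, rfl⟩; exact ⟨(⁅a, φ⁆, t), ⟨⟨φ, hφ, rfl⟩, ht⟩, rfl⟩
    · rintro ⟨⟨c, t⟩, ⟨⟨φ, hφ, rfl⟩, ht⟩, rfl⟩; exact ⟨φ, hφ, t, ht, rfl⟩

/-- The kernel `[G', G] (G')^p` of the map of `G'` onto its layer of bilinear commutators. -/
def layerKer (p : ℕ) (G : Type*) [Group G] : Subgroup G :=
  ⁅commutator G, (⊤ : Subgroup G)⁆ ⊔ Subgroup.closure ((fun c : G => c ^ p) '' (commutator G : Set G))

variable {p : ℕ} [Fact p.Prime]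

theorem layerKer_le (G : Type*) [Group G] : layerKer p G ≤ commutator G :=
  sup_le (Subgroup.commutator_le_left _ _)
    ((Subgroup.closure_le _).2 (by rintro _ ⟨c, hc, rfl⟩; exact (commutator G).pow_mem hc p))

theorem layerKer_map {G H : Type*} [Group G] [Group H] (f : G →* H) (hf : Function.Surjective f) :
    (layerKer p G).map f = layerKer p H := by
  have h1 : (commutator G).map f = commutator H := by
    rw [commutator_def, commutator_def, Subgroup.map_commutator,
      Subgroup.map_top_of_surjective _ hf]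
  rw [layerKer, layerKer, Subgroup.map_sup, Subgroup.map_commutator, h1,
    Subgroup.map_top_of_surjective _ hf, MonoidHom.map_closure, ← h1, Subgroup.coe_map,
    Set.image_image, Set.image_image]
  simp only [map_pow]

theorem layerKer_normal (G : Type*) [Group G] : (layerKer p G).Normal := by
  have : (Subgroup.closure ((fun c : G => c ^ p) '' (commutator G : Set G))).Normal := by
    refine ⟨fun a ha g => ?_⟩
    induction ha using Subgroup.closure_induction with
    | mem a ha =>
      obtain ⟨c, hc, rfl⟩ := ha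
      exact Subgroup.subset_closure ⟨g * c * g⁻¹,
        (inferInstance : (commutator G).Normal).conj_mem c hc g, conj_pow⟩
    | one => simp
    | mul x y _ _ hx hy => rw [show g * (x * y) * g⁻¹ = (g * x * g⁻¹) * (g * y * g⁻¹) by group]; exact mul_mem hx hy
    | inv x _ hx => rw [show g * x⁻¹ * g⁻¹ = (g * x * g⁻¹)⁻¹ by group]; exact inv_mem hx
  rw [layerKer]
  infer_instance

/-- A nontrivial central element of the kernel of the form `⁅x, ψ⁆`, `x` a generator, `ψ` in the
Frattini subgroup. -/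
theorem exists_central_comm {G : Type*} [Group G] [Finite G] (hP : IsPGroup p G) {S : Set G}
    (hS : Subgroup.closure S = ⊤) (hR : layerKer p G ≠ ⊥) :
    ∃ x ∈ S, ∃ ψ ∈ frattini G, ⁅x, ψ⁆ ≠ 1 ∧ ⁅x, ψ⁆ ∈ Subgroup.center G ∧ ⁅x, ψ⁆ ∈ layerKer p G := by
  haveI : Group.IsNilpotent G := hP.isNilpotent
  have hgen : ∀ c : G, (∀ x ∈ S, ⁅x, c⁆ = 1) → c ∈ Subgroup.center G := by
    intro c hc
    rw [Subgroup.mem_center_iff]
    intro g
    have hle : Subgroup.closure S ≤ Subgroup.centralizer {c} := (Subgroup.closure_le _).2 fun x hx =>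
      Subgroup.mem_centralizer_singleton_iff.2 (commutatorElement_eq_one_iff_mul_comm.1 (hc x hx))
    exact Subgroup.mem_centralizer_singleton_iff.1 (hle (hS ▸ Subgroup.mem_top g))
  by_cases hc2 : ⁅commutator G, (⊤ : Subgroup G)⁆ = ⊥
  · -- the derived subgroup is central
    have hcen : commutator G ≤ Subgroup.center G := by
      rwa [Subgroup.commutator_eq_bot_iff_le_centralizer, Subgroup.coe_top,
        Subgroup.centralizer_univ] at hc2
    have hcc : ∀ a b : G, ⁅a, b⁆ ∈ Subgroup.center G := fun a b =>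
      hcen (Subgroup.commutator_mem_commutator (Subgroup.mem_top a) (Subgroup.mem_top b))
    obtain ⟨c, hc, hcp⟩ : ∃ c ∈ commutator G, c ^ p ≠ 1 := by
      by_contra hne
      push Not at hne
      refine hR ?_
      rw [layerKer, hc2, bot_sup_eq, Subgroup.closure_eq_bot_iff]
      rintro _ ⟨c, hc, rfl⟩
      exact hne c hc
    obtain ⟨a, b, hab⟩ : ∃ a b : G, ⁅a, b⁆ ^ p ≠ 1 := by
      by_contra hne
      push Not at hne
      apply hcp
      rw [commutator_eq_closure] at hc
      have hle : ∀ c ∈ Subgroup.closure (commutatorSet G), c ^ p = 1 ∧ c ∈ Subgroup.center G := by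
        intro c hc
        induction hc using Subgroup.closure_induction with
        | mem c hc => obtain ⟨a, b, rfl⟩ := hc; exact ⟨hne a b, hcc a b⟩
        | one => exact ⟨one_pow p, one_mem _⟩
        | mul u v _ _ hu hv =>
          exact ⟨by rw [(show Commute u v from Subgroup.mem_center_iff.1 hv.2 u).mul_pow, hu.1, hv.1,
            one_mul], mul_mem hu.2 hv.2⟩
        | inv u _ hu => exact ⟨by rw [inv_pow, hu.1, inv_one], inv_mem hu.2⟩
      exact (hle c hc).1
    have hbp : ⁅a, b ^ p⁆ ≠ 1 := by rwa [commutatorElement_pow_right' hcc]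
    obtain ⟨x, hx, hx1⟩ : ∃ x ∈ S, ⁅x, b ^ p⁆ ≠ 1 := by
      by_contra hne
      push Not at hne
      exact hbp (commutatorElement_eq_one_iff_mul_comm.2 (Subgroup.mem_center_iff.1 (hgen _ hne) a))
    refine ⟨x, hx, b ^ p, pow_prime_mem_frattini hP b, hx1, hcc _ _, ?_⟩
    rw [commutatorElement_pow_right' hcc]
    exact Subgroup.mem_sup_right (Subgroup.subset_closure
      ⟨⁅x, b⁆, Subgroup.commutator_mem_commutator (Subgroup.mem_top x) (Subgroup.mem_top b), rfl⟩)
  · -- the last nontrivial term of the lower central series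
    have hL2 : Subgroup.lowerCentralSeries (⊤ : Subgroup G) 2 ≠ ⊥ := by
      rwa [show (2 : ℕ) = 1 + 1 from rfl, Subgroup.lowerCentralSeries_succ,
        show Subgroup.lowerCentralSeries (⊤ : Subgroup G) 1 = commutator G by
          rw [show (1 : ℕ) = 0 + 1 from rfl, Subgroup.lowerCentralSeries_succ,
            Subgroup.lowerCentralSeries_zero, commutator_def]]
    classical
    obtain ⟨N, hN⟩ := (Subgroup.isNilpotent_iff_lowerCentralSeries (⊤ : Subgroup G)).1
      (Group.isNilpotent_top.2 ‹Group.IsNilpotent G›)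
    have hex : ∃ m, Subgroup.lowerCentralSeries (⊤ : Subgroup G) m = ⊥ := ⟨N, hN⟩
    set m := Nat.find hex
    have hm : 3 ≤ m := by
      by_contra hlt
      exact hL2 (le_bot_iff.1 (Nat.find_spec hex ▸
        Subgroup.lowerCentralSeries_antitone _ (by omega)))
    have hk0 : Subgroup.lowerCentralSeries (⊤ : Subgroup G) (m - 2 + 1) ≠ ⊥ :=
      Nat.find_min hex (by omega)
    have hkc : Subgroup.lowerCentralSeries (⊤ : Subgroup G) (m - 2 + 1) ≤ Subgroup.center G := by
      have h1 := Nat.find_spec hex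
      rw [show Nat.find hex = m - 2 + 1 + 1 by omega, Subgroup.lowerCentralSeries_succ,
        Subgroup.commutator_eq_bot_iff_le_centralizer, Subgroup.coe_top, Subgroup.centralizer_univ] at h1
      exact h1
    obtain ⟨c, hc, x, hx, hne⟩ : ∃ c ∈ Subgroup.lowerCentralSeries (⊤ : Subgroup G) (m - 2),
        ∃ x ∈ S, ⁅x, c⁆ ≠ 1 := by
      by_contra hne
      push Not at hne
      refine hk0 ?_
      rw [Subgroup.lowerCentralSeries_succ, Subgroup.commutator_eq_bot_iff_le_centralizer,
        Subgroup.coe_top, Subgroup.centralizer_univ]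
      exact fun c hc => hgen c (hne c hc)
    have hmem : ⁅x, c⁆ ∈ Subgroup.lowerCentralSeries (⊤ : Subgroup G) (m - 2 + 1) := by
      rw [Subgroup.lowerCentralSeries_succ, ← commutatorElement_inv]
      exact inv_mem (Subgroup.commutator_mem_commutator hc (Subgroup.mem_top x))
    have hL1 : Subgroup.lowerCentralSeries (⊤ : Subgroup G) 1 = commutator G := by
      rw [show (1 : ℕ) = 0 + 1 from rfl, Subgroup.lowerCentralSeries_succ,
        Subgroup.lowerCentralSeries_zero, commutator_def]
    refine ⟨x, hx, c, commutator_le_frattini hP (hL1 ▸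
      Subgroup.lowerCentralSeries_antitone _ (show 1 ≤ m - 2 by omega) hc), hne, hkc hmem, ?_⟩
    refine Subgroup.mem_sup_left ?_
    have h2 := Subgroup.lowerCentralSeries_antitone (⊤ : Subgroup G) (show 2 ≤ m - 2 + 1 by omega) hmem
    rwa [show (2 : ℕ) = 1 + 1 from rfl, Subgroup.lowerCentralSeries_succ, hL1] at h2

theorem layerKer_subset : ∀ {G : Type*} [Group G] [Finite G], IsPGroup p G → ∀ xs : List G,
    Subgroup.closure {x | x ∈ xs} = ⊤ → (layerKer p G : Set G) ⊆ commProds (frattini G) xs := by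
  intro G
  induction hn : Nat.card G using Nat.strong_induction_on generalizing G with
  | _ n ih =>
  intro _ _ hP xs hxs r hr
  rcases eq_or_ne (layerKer p G) ⊥ with h0 | h0
  · rw [h0, SetLike.mem_coe, Subgroup.mem_bot] at hr
    exact hr ▸ one_mem_commProds _ xs
  obtain ⟨x, hx, ψ, hψ, hne, hcen, hnR⟩ := exists_central_comm hP hxs h0
  set n₀ := ⁅x, ψ⁆ with hn₀
  set N := Subgroup.zpowers n₀
  haveI : N.Normal := ⟨fun a ha g => by
    rwa [Subgroup.mem_center_iff.1 ((Subgroup.zpowers_le.2 hcen) ha) g, mul_inv_cancel_right]⟩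
  let π := QuotientGroup.mk' N
  have hπ := QuotientGroup.mk'_surjective N
  have hlt : Nat.card (G ⧸ N) < n := by
    rw [← hn, ← N.index_mul_card, ← Subgroup.index_eq_card]
    refine lt_mul_of_one_lt_right (Nat.pos_of_ne_zero Subgroup.index_ne_zero_of_finite) ?_
    haveI : Nontrivial N := (Subgroup.nontrivial_iff_ne_bot N).2
      (fun hb => hne (Subgroup.mem_bot.1 (hb ▸ Subgroup.mem_zpowers n₀)))
    exact Finite.one_lt_card
  have hgen : Subgroup.closure {y | y ∈ xs.map π} = ⊤ := by
    have h1 := congrArg (Subgroup.map π) hxs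
    rw [MonoidHom.map_closure, Subgroup.map_top_of_surjective _ hπ] at h1
    rw [← h1]
    congr 1
    ext y
    simp [List.mem_map]
  have hih := ih _ hlt rfl (hP.to_quotient N) (xs.map π) hgen
  have hr' : π r ∈ commProds ((frattini G).map π) (xs.map π) := by
    have h1 : π r ∈ layerKer p (G ⧸ N) := layerKer_map (p := p) π hπ ▸ Subgroup.mem_map_of_mem _ hr
    rw [map_frattini_eq (p := p) hP π hπ]
    exact hih h1
  rw [← map_commProds] at hr'
  obtain ⟨t, ht, htr⟩ := hr'
  obtain ⟨e, he⟩ := mem_powers_iff_mem_zpowers.2 (QuotientGroup.eq.1 htr : t⁻¹ * r ∈ N)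
  have hre : r = n₀ ^ e * t := by
    rw [← Subgroup.mem_center_iff.1 (pow_mem hcen e) t,
      show n₀ ^ e = t⁻¹ * r from he, mul_inv_cancel_left]
  rw [hre]
  clear he hre
  induction e with
  | zero => rwa [pow_zero, one_mul]
  | succ e ihe =>
    rw [pow_succ', mul_assoc]
    exact mul_mem_commProds _ hψ hcen xs hx hn₀ _ ihe

section forms

variable {G : Type*} [Group G] [Finite G]

/-- The properties of the bilinear form attached to a maximal subgroup. -/
structure IsForm (M : Subgroup G) (ψ : G → G → ZMod p) : Prop where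
  mul_left : ∀ g g' h, ψ (g * g') h = ψ g h + ψ g' h
  mul_right : ∀ g h h', ψ g (h * h') = ψ g h + ψ g h'
  comm : ∀ g h, g * h = h * g → ψ g h = 0
  vanish : ∀ g ∈ M, ∀ h ∈ M, ψ g h = 0
  ne_zero : ∃ g h, ψ g h ≠ 0

/-- A maximal subgroup with smaller derived subgroup gives a form. -/
theorem exists_form (hP : IsPGroup p G) {M : Subgroup G} (hM : IsCoatom M)
    (hne : ⁅M, M⁆ ≠ commutator G) : ∃ ψ : G → G → ZMod p, IsForm M ψ := by
  haveI := normal_of_coatom hP hM
  have hle : ⁅M, M⁆ ≤ commutator G := commutator_def G ▸ Subgroup.commutator_mono le_top le_top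
  obtain ⟨N, ⟨⟨hNn, hMN, hNlt⟩, hmax⟩⟩ := Set.Finite.exists_maximal
    (s := {N : Subgroup G | N.Normal ∧ ⁅M, M⁆ ≤ N ∧ N < commutator G}) (Set.toFinite _)
    ⟨⁅M, M⁆, inferInstance, le_rfl, lt_of_le_of_ne hle hne⟩
  haveI := hNn
  let q := QuotientGroup.mk' N
  have hq := QuotientGroup.mk'_surjective N
  set H := (commutator G).map q with hH
  haveI : H.Normal := Subgroup.Normal.map inferInstance q hq
  have hH1 : H ≠ ⊥ := fun hb => hNlt.not_ge (by
    rwa [hH, Subgroup.map_eq_bot_iff, QuotientGroup.ker_mk'] at hb)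
  have hne' := inf_center_ne_bot (hP.to_quotient N) H hH1
  obtain ⟨k, hk⟩ := IsPGroup.iff_card.1
    ((hP.to_quotient N).to_subgroup (H ⊓ Subgroup.center (G ⧸ N)))
  have hk0 : k ≠ 0 := fun h0 => hne' (Subgroup.eq_bot_of_card_eq _ (by rw [hk, h0, pow_zero]))
  obtain ⟨⟨z, hzH, hzc⟩, hz⟩ := exists_prime_orderOf_dvd_card' p
    (G := ↥(H ⊓ Subgroup.center (G ⧸ N))) (hk ▸ dvd_pow_self p hk0)
  rw [← Subgroup.orderOf_coe] at hz
  change orderOf z = p at hz
  set Z := Subgroup.zpowers z
  have hZc : Z ≤ Subgroup.center (G ⧸ N) := Subgroup.zpowers_le.2 hzc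
  haveI : Z.Normal := ⟨fun a ha g => by
    rwa [Subgroup.mem_center_iff.1 (hZc ha) g, mul_inv_cancel_right]⟩
  have hcomap : (commutator G).map q ≤ Z := by
    have h1 : N ≤ Z.comap q := fun a ha => by
      show q a ∈ Z
      rw [show q a = 1 from (QuotientGroup.eq_one_iff a).2 ha]
      exact one_mem _
    have h2 : Z.comap q ≤ commutator G := by
      refine (Subgroup.comap_mono (Subgroup.zpowers_le.2 hzH)).trans ?_
      rw [hH, Subgroup.comap_map_eq, QuotientGroup.ker_mk']
      exact sup_le le_rfl hNlt.le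
    rw [Subgroup.map_le_iff_le_comap]
    by_contra hnle
    have h3 : Z.comap q ≤ N := hmax ⟨inferInstance, hMN.trans h1,
      lt_of_le_of_ne h2 fun he => hnle he.ge⟩ h1
    obtain ⟨a, rfl⟩ := hq z
    have : q a = 1 := (QuotientGroup.eq_one_iff a).2 (h3 (Subgroup.mem_zpowers _))
    rw [this, orderOf_one] at hz
    exact (Fact.out : p.Prime).ne_one hz.symm
  have hZcard : Nat.card Z = p := by rw [Nat.card_zpowers, hz]
  let e : Z ≃* Multiplicative (ZMod p) := mulEquivOfPrimeCardEq (p := p) hZcard (by simp)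
  have hmem : ∀ g h : G, q ⁅g, h⁆ ∈ Z := fun g h => hcomap (Subgroup.mem_map_of_mem _
    (Subgroup.commutator_mem_commutator (Subgroup.mem_top g) (Subgroup.mem_top h)))
  let ψ : G → G → ZMod p := fun g h => Multiplicative.toAdd (e ⟨q ⁅g, h⁆, hmem g h⟩)
  have hψ1 : ∀ g h, q ⁅g, h⁆ = 1 ↔ ψ g h = 0 := by
    intro g h
    show q ⁅g, h⁆ = 1 ↔ e ⟨q ⁅g, h⁆, hmem g h⟩ = 1
    rw [MulEquiv.map_eq_one_iff, Subtype.ext_iff]
    rfl
  have hcen : ∀ g h : G, ∀ y, y * q ⁅g, h⁆ = q ⁅g, h⁆ * y := fun g h y =>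
    Subgroup.mem_center_iff.1 (hZc (hmem g h)) y
  refine ⟨ψ, ⟨fun g g' h => ?_, fun g h h' => ?_, fun g h hgh => ?_, fun g hg h hh => ?_, ?_⟩⟩
  · show _ = Multiplicative.toAdd (e _) + Multiplicative.toAdd (e _)
    rw [← toAdd_mul, ← map_mul]
    refine congrArg (fun w => Multiplicative.toAdd (e w)) (Subtype.ext ?_)
    show q ⁅g * g', h⁆ = q ⁅g, h⁆ * q ⁅g', h⁆
    rw [show ⁅g * g', h⁆ = g * ⁅g', h⁆ * g⁻¹ * ⁅g, h⁆ by simp only [commutatorElement_def]; group,
      map_mul, map_mul, map_mul, map_inv, hcen g' h (q g), mul_inv_cancel_right, hcen g' h]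
  · show _ = Multiplicative.toAdd (e _) + Multiplicative.toAdd (e _)
    rw [← toAdd_mul, ← map_mul]
    refine congrArg (fun w => Multiplicative.toAdd (e w)) (Subtype.ext ?_)
    show q ⁅g, h * h'⁆ = q ⁅g, h⁆ * q ⁅g, h'⁆
    rw [show ⁅g, h * h'⁆ = ⁅g, h⁆ * (h * ⁅g, h'⁆ * h⁻¹) by simp only [commutatorElement_def]; group,
      map_mul, map_mul, map_mul, map_inv, hcen g h' (q h), mul_inv_cancel_right]
  · refine (hψ1 g h).1 ?_
    rw [commutatorElement_eq_one_iff_mul_comm.2 hgh, map_one]
  · exact (hψ1 g h).1 ((QuotientGroup.eq_one_iff _).2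
      (hMN (Subgroup.commutator_mem_commutator hg hh)))
  · by_contra hall
    push Not at hall
    refine hNlt.not_ge ?_
    rw [commutator_def, Subgroup.commutator_le]
    exact fun g _ h _ => (QuotientGroup.eq_one_iff _).1 ((hψ1 g h).2 (hall g h))

theorem count_two {K : Type*} [Group K] [Finite K] (f₁ f₂ : K →* Multiplicative (ZMod p))
    (h₁ : f₁ ≠ 1) (h₂ : f₂ ≠ 1) :
    Nat.card K * (p - 1) ^ 2 ≤ p ^ 2 * {k : K | f₁ k ≠ 1 ∧ f₂ k ≠ 1}.ncard := by
  have hp : p.Prime := Fact.out
  have hidx : ∀ f : K →* Multiplicative (ZMod p), f ≠ 1 → f.ker.index = p := by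
    intro f hf
    rw [Subgroup.index_ker]
    rcases (Nat.dvd_prime hp).1
      (show Nat.card f.range ∣ p by simpa using f.range.card_subgroup_dvd_card) with h | h
    · refine absurd (MonoidHom.ext fun k => ?_) hf
      exact Subgroup.mem_bot.1 (Subgroup.eq_bot_of_card_eq _ h ▸ ⟨k, rfl⟩ : f k ∈ (⊥ : Subgroup _))
    · exact h
  have e1 := f₁.ker.card_mul_index
  rw [hidx f₁ h₁] at e1
  have e2 := f₂.ker.card_mul_index
  rw [hidx f₂ h₂] at e2
  have e3 := (f₁.ker ⊓ f₂.ker).card_mul_index
  have e4 : (f₁.ker ⊓ f₂.ker).index ≤ p * p := by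
    refine le_trans Subgroup.index_inf_le ?_
    rw [hidx f₁ h₁, hidx f₂ h₂]
  have e3' : Nat.card K ≤ Nat.card ↥(f₁.ker ⊓ f₂.ker) * (p * p) :=
    e3 ▸ Nat.mul_le_mul_left _ e4
  have e5 := Set.ncard_union_add_ncard_inter (f₁.ker : Set K) (f₂.ker : Set K)
  rw [← Subgroup.coe_inf, ← Nat.card_coe_set_eq (f₁.ker : Set K),
    ← Nat.card_coe_set_eq (f₂.ker : Set K), ← Nat.card_coe_set_eq ((f₁.ker ⊓ f₂.ker : Subgroup K) : Set K)] at e5
  change _ + Nat.card ↥(f₁.ker ⊓ f₂.ker) = Nat.card f₁.ker + Nat.card f₂.ker at e5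
  have e6 := Set.ncard_add_ncard_compl ((f₁.ker : Set K) ∪ (f₂.ker : Set K))
  rw [show ((f₁.ker : Set K) ∪ (f₂.ker : Set K))ᶜ = {k : K | f₁ k ≠ 1 ∧ f₂ k ≠ 1} by
    ext k; simp [MonoidHom.mem_ker]] at e6
  obtain ⟨q, hq⟩ : ∃ q, p = q + 1 := ⟨p - 1, (Nat.sub_add_cancel hp.one_le).symm⟩
  subst hq
  rw [Nat.add_sub_cancel]
  nlinarith [congrArg (· * (q + 1)) e5, congrArg (· * (q + 1)) e6]

theorem ψ_pow {M : Subgroup G} {ψ : G → G → ZMod p} (hψ : IsForm M ψ) (g u : G) :
    ∀ n : ℕ, ψ g (u ^ n) = n * ψ g u ∧ ψ (u ^ n) g = n * ψ u g := by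
  intro n
  induction n with
  | zero => simp [hψ.comm g 1 (by simp), hψ.comm 1 g (by simp)]
  | succ n ih => rw [pow_succ, hψ.mul_right, hψ.mul_left, ih.1, ih.2]; push_cast; constructor <;> ring

/-- The elements whose centraliser maps into a line of the Frattini quotient. -/
def lineSet (p : ℕ) (G : Type*) [Group G] : Set G :=
  {g | Nat.card ↥((Subgroup.centralizer ({g} : Set G)).map (QuotientGroup.mk' (frattini G))) ≤ p}

/-- The elements with centraliser image in a line span. -/
theorem span_lineSet (hP : IsPGroup p G)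
    (hB : ∀ M : Subgroup G, IsCoatom M → ⁅M, M⁆ ≠ commutator G)
    {V : Type*} [AddCommGroup V] [Module (ZMod p) V] [Finite V] (π : G → V) (hπsurj : Function.Surjective π)
    (hπmul : ∀ g h, π (g * h) = π g + π h)
    (hd : 2 ≤ Module.finrank (ZMod p) V) :
    Submodule.span (ZMod p) (π '' {g | (π '' {c | g * c = c * g}).ncard ≤ p}) = ⊤ := by
  classical
  haveI := Fintype.ofFinite G
  have hp : p.Prime := Fact.out
  haveI : Finite (Module.Dual (ZMod p) V) := DFunLike.finite _
  by_contra hne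
  obtain ⟨l₀, hl₀, hl₀0⟩ := Submodule.exists_dual_map_eq_bot_of_lt_top
    (lt_top_iff_ne_top.2 hne) inferInstance
  let hom : Module.Dual (ZMod p) V → G →* Multiplicative (ZMod p) :=
    fun l => MonoidHom.mk' (fun g => Multiplicative.ofAdd (l (π g))) fun g h => by
      rw [← ofAdd_add, ← map_add, hπmul]
  have hhom : ∀ l g, hom l g = 1 ↔ l (π g) = 0 := fun l g => Iff.rfl
  have hA : ∀ l : Module.Dual (ZMod p) V, ∃ α : G → ZMod p, l ≠ 0 →
      (∀ g g', α (g * g') = α g + α g') ∧ (∃ g, l (π g) = 0 ∧ α g ≠ 0) ∧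
        ∀ g c, l (π g) = 0 → α g ≠ 0 → g * c = c * g → l (π c) = 0 := by
    intro l
    rcases eq_or_ne l 0 with rfl | hl
    · exact ⟨0, fun h => absurd rfl h⟩
    obtain ⟨u, hu⟩ : ∃ u, l (π u) = 1 := by
      obtain ⟨v, hv⟩ : ∃ v, l v ≠ 0 := by
        by_contra hc
        push Not at hc
        exact hl (LinearMap.ext hc)
      obtain ⟨u, hu⟩ := hπsurj ((l v)⁻¹ • v)
      exact ⟨u, by rw [hu, map_smul, smul_eq_mul, inv_mul_cancel₀ hv]⟩
    have hidx : (hom l).ker.index = p := by
      rw [Subgroup.index_ker]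
      rcases (Nat.dvd_prime hp).1
        (show Nat.card (hom l).range ∣ p by simpa using (hom l).range.card_subgroup_dvd_card) with h | h
      · have h1 : hom l u ∈ (⊥ : Subgroup _) := Subgroup.eq_bot_of_card_eq _ h ▸ ⟨u, rfl⟩
        rw [Subgroup.mem_bot, hhom, hu] at h1
        exact absurd h1 one_ne_zero
      · exact h
    have hco := isCoatom_of_index_eq (p := p) hidx
    obtain ⟨ψ, hψ⟩ := exists_form hP hco (hB _ hco)
    have hdec : ∀ c : G, ∃ k, l (π k) = 0 ∧ c = k * u ^ (l (π c)).val := by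
      intro c
      refine ⟨c * (u ^ (l (π c)).val)⁻¹, ?_, by group⟩
      have h1 : hom l (c * (u ^ (l (π c)).val)⁻¹) = 1 := by
        rw [map_mul, map_inv, map_pow]
        show Multiplicative.ofAdd (l (π c)) * (Multiplicative.ofAdd (l (π u)) ^ _)⁻¹ = 1
        rw [← ofAdd_nsmul, ← ofAdd_neg, ← ofAdd_add, hu, nsmul_one, ZMod.natCast_zmod_val,
          add_neg_cancel, ofAdd_zero]
      exact (hhom _ _).1 h1
    refine ⟨fun g => ψ g u, fun _ => ⟨fun g g' => hψ.mul_left g g' u, ?_, ?_⟩⟩
    · by_contra hne'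
      push Not at hne'
      obtain ⟨a, b, hab⟩ := hψ.ne_zero
      apply hab
      obtain ⟨k, hk, hka⟩ := hdec a
      obtain ⟨k', hk', hkb⟩ := hdec b
      have hanti : ψ u k' = 0 := by
        have h1 := hψ.comm (k' * u) (k' * u) rfl
        rw [hψ.mul_left, hψ.mul_right, hψ.mul_right, hψ.comm k' k' rfl, hψ.comm u u rfl,
          hne' k' hk', zero_add, zero_add, add_zero] at h1
        exact h1
      have h1 : ψ k k' = 0 := hψ.vanish _ ((hhom l k).2 hk) _ ((hhom l k').2 hk')
      rw [hka, hkb, hψ.mul_left, hψ.mul_right, hψ.mul_right, (ψ_pow hψ k u _).1,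
        (ψ_pow hψ k' u _).2, (ψ_pow hψ (u ^ (l (π a)).val) u _).1, (ψ_pow hψ u u _).2,
        h1, hne' k hk, hanti, hψ.comm u u rfl]
      simp
    · intro g c hg hαg hgc
      obtain ⟨k, hk, hkc⟩ := hdec c
      have h1 := hψ.comm g c hgc
      rw [hkc, hψ.mul_right, (ψ_pow hψ g u _).1,
        hψ.vanish _ ((hhom l g).2 hg) _ ((hhom l k).2 hk), zero_add, ZMod.natCast_zmod_val] at h1
      exact (mul_eq_zero.1 h1).resolve_right hαg
  choose α hα using hA
  set D := Nat.card (Module.Dual (ZMod p) V) with hD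
  haveI := Fintype.ofFinite (Module.Dual (ZMod p) V)
  let S := Finset.univ.filter fun g : G => l₀ (π g) ≠ 0
  let L := Finset.univ.filter fun l : Module.Dual (ZMod p) V =>
    l ∉ Submodule.span (ZMod p) {l₀}
  let r := fun (l : Module.Dual (ZMod p) V) (g : G) =>
    l (π g) = 0 ∧ α l g ≠ 0
  have hup : ∀ g ∈ S, p ^ 2 * (L.filter fun l => r l g).card + p ^ 2 ≤ D := by
    intro g hg
    rw [Finset.mem_filter] at hg
    have hgl : ¬ (π '' {c | g * c = c * g}).ncard ≤ p := fun hgl => hg.2 (by
      have h1 : l₀ (π g) ∈ Submodule.map l₀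
          (Submodule.span (ZMod p) (π '' {g | (π '' {c | g * c = c * g}).ncard ≤ p})) :=
        Submodule.mem_map_of_mem (Submodule.subset_span ⟨g, hgl, rfl⟩)
      rwa [hl₀0, Submodule.mem_bot] at h1)
    set K := Submodule.span (ZMod p) (π '' {c | g * c = c * g}) with hK
    have hKc : p < Nat.card K := by
      refine lt_of_lt_of_le (not_le.1 hgl) ?_
      have h1 : (π '' {c | g * c = c * g}).ncard ≤ (K : Set V).ncard :=
        Set.ncard_le_ncard Submodule.subset_span (Set.toFinite _)
      rwa [← Nat.card_coe_set_eq] at h1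
    have hKf : 2 ≤ Module.finrank (ZMod p) K := by
      rw [Module.natCard_eq_pow_finrank (K := ZMod p) (V := K), Nat.card_zmod] at hKc
      exact (Nat.pow_lt_pow_iff_right hp.one_lt).1 (by rwa [pow_one])
    have hsum := Subspace.finrank_add_finrank_dualAnnihilator_eq K
    have hsub : insert 0 (L.filter fun l => r l g) ⊆
        Finset.univ.filter fun l => l ∈ K.dualAnnihilator := by
      intro l hl
      rw [Finset.mem_filter]
      refine ⟨Finset.mem_univ l, ?_⟩
      rcases Finset.mem_insert.1 hl with rfl | hl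
      · exact zero_mem _
      rw [Finset.mem_filter, Finset.mem_filter] at hl
      have hl0 : l ≠ 0 := fun h0 => hl.1.2 (h0 ▸ zero_mem _)
      rw [Submodule.mem_dualAnnihilator]
      intro v hv
      refine Submodule.span_induction (fun w hw => ?_) (map_zero l) (fun a b _ _ ha hb => ?_)
        (fun t a _ ha => ?_) hv
      · obtain ⟨c, hc, rfl⟩ := hw
        exact (hα l hl0).2.2 g c hl.2.1 hl.2.2 hc
      · rw [map_add, ha, hb, add_zero]
      · rw [map_smul, ha, smul_zero]
    have h0 : (0 : Module.Dual (ZMod p) V) ∉ L.filter fun l => r l g := by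
      simp [L]
    have hc1 := Finset.card_le_card hsub
    rw [Finset.card_insert_of_notMem h0, ← Fintype.card_subtype, ← Nat.card_eq_fintype_card] at hc1
    change _ ≤ Nat.card K.dualAnnihilator at hc1
    rw [Module.natCard_eq_pow_finrank (K := ZMod p) (V := K.dualAnnihilator), Nat.card_zmod] at hc1
    calc p ^ 2 * (L.filter fun l => r l g).card + p ^ 2 = p ^ 2 * ((L.filter fun l => r l g).card + 1) := by ring
      _ ≤ p ^ Module.finrank (ZMod p) K * p ^ Module.finrank (ZMod p) K.dualAnnihilator :=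
        Nat.mul_le_mul (Nat.pow_le_pow_right hp.pos hKf) hc1
      _ = D := by
        rw [← pow_add, hsum, hD, Module.natCard_eq_pow_finrank (K := ZMod p),
          Nat.card_zmod, Subspace.dual_finrank_eq]
  have hlow : ∀ l ∈ L, Nat.card G * (p - 1) ^ 2 ≤ p ^ 3 * (S.filter fun g => r l g).card := by
    intro l hl
    rw [Finset.mem_filter] at hl
    have hl0 : l ≠ 0 := fun h0 => hl.2 (h0 ▸ zero_mem _)
    obtain ⟨hαm, ⟨g₁, hg₁, hαg₁⟩, -⟩ := hα l hl0
    let f₁ : (hom l).ker →* Multiplicative (ZMod p) := (hom l₀).comp (hom l).ker.subtype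
    let f₂ : (hom l).ker →* Multiplicative (ZMod p) :=
      MonoidHom.mk' (fun k => Multiplicative.ofAdd (α l (k : G))) fun a b => by
        rw [← ofAdd_add, Subgroup.coe_mul, hαm]
    have hf₁ : f₁ ≠ 1 := by
      intro h1
      refine hl.2 (Submodule.mem_span_singleton.2 ?_)
      obtain ⟨u, hu⟩ : ∃ u, l (π u) ≠ 0 := by
        by_contra hc
        push Not at hc
        exact hl0 (LinearMap.ext fun v => by
          obtain ⟨g, rfl⟩ := hπsurj v
          exact hc g)
      refine ⟨l (π u) * (l₀ (π u))⁻¹, LinearMap.ext fun v => ?_⟩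
      have hv : l₀ v = l v * (l (π u))⁻¹ * l₀ (π u) := by
        have hz : l (v - (l v * (l (π u))⁻¹) • π u) = 0 := by
          rw [map_sub, map_smul, smul_eq_mul, inv_mul_cancel_right₀ hu, sub_self]
        obtain ⟨k, hk⟩ := hπsurj (v - (l v * (l (π u))⁻¹) • π u)
        have h2 : hom l₀ k = 1 := DFunLike.congr_fun h1
          (⟨k, (hhom l k).2 (by rw [hk]; exact hz)⟩ : (hom l).ker)
        rw [hhom, hk, map_sub, map_smul, smul_eq_mul, sub_eq_zero] at h2
        exact h2
      have hu₀ : l₀ (π u) ≠ 0 := by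
        intro h0
        refine hl₀ (LinearMap.ext fun w => ?_)
        obtain ⟨k, hk⟩ := hπsurj (w - (l w * (l (π u))⁻¹) • π u)
        have h2 : hom l₀ k = 1 := DFunLike.congr_fun h1
          (⟨k, (hhom l k).2 (by rw [hk, map_sub, map_smul, smul_eq_mul, inv_mul_cancel_right₀ hu, sub_self])⟩ :
            (hom l).ker)
        rw [hhom, hk, map_sub, map_smul, smul_eq_mul, h0, mul_zero, sub_zero] at h2
        exact h2
      rw [LinearMap.smul_apply, smul_eq_mul, hv]
      field_simp
    have hf₂ : f₂ ≠ 1 := fun h1 => hαg₁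
      (DFunLike.congr_fun h1 (⟨g₁, (hhom l g₁).2 hg₁⟩ : (hom l).ker))
    have h1 := count_two f₁ f₂ hf₁ hf₂
    have h2 : {k : (hom l).ker | f₁ k ≠ 1 ∧ f₂ k ≠ 1}.ncard ≤ (S.filter fun g => r l g).card := by
      rw [← Set.ncard_coe_finset]
      refine Set.ncard_le_ncard_of_injOn (fun k => (k : G)) (fun k hk => ?_)
        Subtype.val_injective.injOn
      rw [Finset.mem_coe, Finset.mem_filter, Finset.mem_filter]
      exact ⟨⟨Finset.mem_univ _, fun h => hk.1 ((hhom l₀ _).2 h)⟩, (hhom l _).1 k.2,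
        fun h => hk.2 (show Multiplicative.ofAdd (α l (k : G)) = 1 by rw [h]; rfl)⟩
    have hidx : (hom l).ker.index ≤ p := by
      rw [Subgroup.index_ker]
      exact (Nat.card_le_card_of_injective _ (hom l).range.subtype_injective).trans (by simp)
    have h3 : Nat.card G ≤ Nat.card (hom l).ker * p :=
      (hom l).ker.card_mul_index ▸ Nat.mul_le_mul_left _ hidx
    calc Nat.card G * (p - 1) ^ 2 ≤ Nat.card (hom l).ker * p * (p - 1) ^ 2 := Nat.mul_le_mul_right _ h3
      _ = p * (Nat.card (hom l).ker * (p - 1) ^ 2) := by ring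
      _ ≤ p * (p ^ 2 * (S.filter fun g => r l g).card) :=
        Nat.mul_le_mul_left _ (h1.trans (Nat.mul_le_mul_left _ h2))
      _ = _ := by ring
  have hswap : ∑ l ∈ L, (S.filter fun g => r l g).card = ∑ g ∈ S, (L.filter fun l => r l g).card := by
    simp only [Finset.card_filter]
    exact Finset.sum_comm
  have hLc : L.card + p = D := by
    have h1 := Finset.card_filter_add_card_filter_not
      (s := (Finset.univ : Finset (Module.Dual (ZMod p) V)))
      (fun l => l ∈ Submodule.span (ZMod p) {l₀})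
    rw [Finset.card_univ, ← Nat.card_eq_fintype_card, ← Fintype.card_subtype,
      ← Nat.card_eq_fintype_card, ← hD, add_comm] at h1
    change L.card + Nat.card (Submodule.span (ZMod p) {l₀}) = D at h1
    rwa [Module.natCard_eq_pow_finrank (K := ZMod p) (V := Submodule.span (ZMod p) {l₀}),
      finrank_span_singleton hl₀, Nat.card_zmod, pow_one] at h1
  have hSc : p * S.card + Nat.card G = p * Nat.card G := by
    have hidx : (hom l₀).ker.index = p := by
      rw [Subgroup.index_ker]
      rcases (Nat.dvd_prime hp).1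
        (show Nat.card (hom l₀).range ∣ p by simpa using (hom l₀).range.card_subgroup_dvd_card) with h | h
      · refine absurd (LinearMap.ext fun v => ?_) hl₀
        obtain ⟨g, rfl⟩ := hπsurj v
        exact (hhom l₀ g).1 (Subgroup.mem_bot.1 (Subgroup.eq_bot_of_card_eq _ h ▸ ⟨g, rfl⟩ :
          hom l₀ g ∈ (⊥ : Subgroup _)))
      · exact h
    have h1 := (hom l₀).ker.card_mul_index
    rw [hidx] at h1
    have h2 := Finset.card_filter_add_card_filter_not (s := (Finset.univ : Finset G))
      (fun g => l₀ (π g) ≠ 0)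
    rw [Finset.card_univ, ← Nat.card_eq_fintype_card] at h2
    have h3 : (Finset.univ.filter fun g : G => ¬ (l₀ (π g) ≠ 0)).card = Nat.card (hom l₀).ker := by
      rw [← Fintype.card_subtype, ← Nat.card_eq_fintype_card]
      exact Nat.card_congr (Equiv.subtypeEquivRight fun g => not_not.trans (hhom l₀ g).symm)
    rw [h3] at h2
    calc p * S.card + Nat.card G = p * S.card + p * Nat.card (hom l₀).ker := by
          rw [mul_comm p (Nat.card (hom l₀).ker), h1]
      _ = p * Nat.card G := by rw [← mul_add, h2]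
  have hD2 : p * p ≤ D := by
    rw [hD, Module.natCard_eq_pow_finrank (K := ZMod p), Nat.card_zmod, Subspace.dual_finrank_eq,
      ← pow_two]
    exact Nat.pow_le_pow_right hp.pos hd
  have t1 := Finset.card_nsmul_le_sum L _ _ hlow
  have t2 := Finset.sum_le_card_nsmul S _ _ hup
  rw [← Finset.mul_sum, smul_eq_mul, hswap] at t1
  rw [Finset.sum_add_distrib, ← Finset.mul_sum, Finset.sum_const, smul_eq_mul, smul_eq_mul] at t2
  obtain ⟨q, hq⟩ : ∃ q, p = q + 2 := ⟨p - 2, by have := hp.two_le; omega⟩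
  rw [show p - 1 = q + 1 by omega] at t1
  set X := ∑ g ∈ S, (L.filter fun l => r l g).card
  have t3 : p * (p ^ 2 * X + S.card * p ^ 2) ≤ p * (S.card * D) := Nat.mul_le_mul_left p t2
  have hSc' : p * S.card = (q + 1) * Nat.card G := by nlinarith [hSc]
  have hGpos : 0 < Nat.card G := Nat.card_pos
  have t4 : (q + 1) * Nat.card G * p ^ 2 + L.card * (Nat.card G * (q + 1) ^ 2) ≤
      (q + 1) * Nat.card G * D := by
    rw [← hSc']
    linarith [t1, t3]
  have t5 : p ^ 2 + L.card * (q + 1) ≤ D := by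
    have t6 : (q + 1) * Nat.card G * (p ^ 2 + L.card * (q + 1)) ≤ (q + 1) * Nat.card G * D := by
      linarith [t4]
    exact Nat.le_of_mul_le_mul_left t6 (by positivity)
  nlinarith [t5, hLc, hD2]

end forms

section assembly

variable {G : Type*} [Group G] [Finite G]

theorem exists_list_of_span {V : Type*} [AddCommGroup V] [Module (ZMod p) V] [Finite V] (π : G → V)
    (hπmul : ∀ g h, π (g * h) = π g + π h) (hker : ∀ g, π g = 0 → g ∈ frattini G) {S : Set G}
    (hS : Submodule.span (ZMod p) (π '' S) = ⊤) :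
    ∃ xs : List G, xs.length = Module.finrank (ZMod p) V ∧ (∀ x ∈ xs, x ∈ S) ∧
      Subgroup.closure {x | x ∈ xs} = ⊤ := by
  classical
  obtain ⟨b, hb, hbspan, hbli⟩ := exists_linearIndependent (ZMod p) (π '' S)
  haveI := Fintype.ofFinite V
  have hc : ∀ v : V, ∃ g : G, v ∈ b → g ∈ S ∧ π g = v := fun v => by
    by_cases hv : v ∈ b
    · obtain ⟨g, hg, hgv⟩ := hb hv
      exact ⟨g, fun _ => ⟨hg, hgv⟩⟩
    · exact ⟨1, fun h => absurd h hv⟩
  choose f hf using hc
  refine ⟨b.toFinset.toList.map f, ?_, ?_, ?_⟩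
  · rw [List.length_map, Finset.length_toList, ← finrank_span_set_eq_card hbli, hbspan, hS,
      finrank_top]
  · intro x hx
    obtain ⟨v, hv, rfl⟩ := List.mem_map.1 hx
    exact (hf v (Set.mem_toFinset.1 (Finset.mem_toList.1 hv))).1
  · set K := Subgroup.closure {x | x ∈ b.toFinset.toList.map f} with hK
    have hone : π 1 = 0 := by
      have h1 := hπmul 1 1
      rw [mul_one] at h1
      exact left_eq_add.1 h1
    have hpow : ∀ g (n : ℕ), π (g ^ n) = n • π g := fun g n => by
      induction n with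
      | zero => rw [pow_zero, hone, zero_smul]
      | succ n ih => rw [pow_succ, hπmul, ih, succ_nsmul]
    have hall : ∀ v : V, ∃ k ∈ K, π k = v := by
      intro v
      have hv : v ∈ Submodule.span (ZMod p) b := by rw [hbspan, hS]; trivial
      refine Submodule.span_induction (fun w hw => ?_) ⟨1, one_mem _, hone⟩ (fun a c _ _ ha hc => ?_)
        (fun t a _ ha => ?_) hv
      · exact ⟨f w, Subgroup.subset_closure (List.mem_map.2
          ⟨w, Finset.mem_toList.2 (Set.mem_toFinset.2 hw), rfl⟩), (hf w hw).2⟩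
      · obtain ⟨k, hk, rfl⟩ := ha; obtain ⟨k', hk', rfl⟩ := hc
        exact ⟨k * k', mul_mem hk hk', hπmul k k'⟩
      · obtain ⟨k, hk, rfl⟩ := ha
        refine ⟨k ^ t.val, pow_mem hk _, ?_⟩
        rw [hpow, ← Nat.cast_smul_eq_nsmul (ZMod p), ZMod.natCast_zmod_val]
    refine frattini_nongenerating (eq_top_iff.2 fun g _ => ?_)
    obtain ⟨k, hk, hkg⟩ := hall (π g)
    have h0 : π (k⁻¹ * g) = 0 := by
      have h1 := hπmul k (k⁻¹ * g)
      rw [mul_inv_cancel_left, hkg] at h1
      exact left_eq_add.1 h1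
    have h1 := mul_mem (Subgroup.mem_sup_left (T := frattini G) hk)
      (Subgroup.mem_sup_right (S := K) (hker _ h0))
    rwa [mul_inv_cancel_left] at h1

theorem lineGens_aux (hP : IsPGroup p G) (hG' : commutator G ≠ ⊥)
    (hB : ∀ M : Subgroup G, IsCoatom M → ⁅M, M⁆ ≠ commutator G)
    {Q : Type*} [CommGroup Q] [Finite Q] [Module (ZMod p) (Additive Q)] (q : G →* Q)
    (hq : Function.Surjective q) (hker : q.ker = frattini G) {d : ℕ} (hd : (frattini G).index = p ^ d) :
    ∃ xs : List G, xs.length = d ∧ Subgroup.closure {x | x ∈ xs} = ⊤ ∧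
      ∀ x ∈ xs, Nat.card ↥((Subgroup.centralizer ({x} : Set G)).map q) ≤ p := by
  have hp : p.Prime := Fact.out
  let π : G → Additive Q := fun g => Additive.ofMul (q g)
  have hπmul : ∀ g h, π (g * h) = π g + π h := fun g h => by
    show Additive.ofMul _ = _; rw [map_mul]; rfl
  have hπsurj : Function.Surjective π := fun v => by
    obtain ⟨g, hg⟩ := hq (Additive.toMul v)
    exact ⟨g, by show Additive.ofMul _ = v; rw [hg]; rfl⟩
  have hcard : Nat.card Q = p ^ d := by
    rw [← hd, ← hker, Subgroup.index_ker, MonoidHom.range_eq_top.2 hq, Subgroup.card_top]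
  have hfr : Module.finrank (ZMod p) (Additive Q) = d := by
    have h1 := Module.natCard_eq_pow_finrank (K := ZMod p) (V := Additive Q)
    rw [Nat.card_congr Additive.toMul, hcard, Nat.card_zmod] at h1
    exact (Nat.pow_right_injective hp.two_le h1).symm
  have hd2 : 2 ≤ d := by
    by_contra hlt
    have hcyc : IsCyclic G := isCyclic_of_frattini_index (p := p) (hd ▸
      (pow_dvd_pow p (show d ≤ 1 by omega)).trans (by rw [pow_one]))
    exact hG' (by rw [commutator_def, eq_bot_iff, Subgroup.commutator_le]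
                  exact fun a _ b _ => Subgroup.mem_bot.2
                    (commutatorElement_eq_one_iff_mul_comm.2 (IsMulCommutative.is_comm.comm a b)))
  obtain ⟨xs, hlen, hxs, hgen⟩ := exists_list_of_span π hπmul
    (fun g hg => hker ▸ MonoidHom.mem_ker.2 (congrArg Additive.toMul hg))
    (span_lineSet hP hB π hπsurj hπmul (by rw [hfr]; exact hd2))
  refine ⟨xs, hlen.trans hfr, hgen, fun x hx => ?_⟩
  refine le_trans (le_of_eq ?_) (hxs x hx : (π '' {c | x * c = c * x}).ncard ≤ p)
  rw [← Nat.card_coe_set_eq]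
  refine Nat.card_congr (Equiv.subtypeEquiv Additive.ofMul fun v => ?_)
  constructor
  · rintro ⟨c, hc, rfl⟩
    exact ⟨c, (Subgroup.mem_centralizer_singleton_iff.1 hc).symm, rfl⟩
  · rintro ⟨c, hc, hcv⟩
    exact ⟨c, Subgroup.mem_centralizer_singleton_iff.2 (Eq.symm hc), Additive.ofMul.injective hcv⟩

theorem exists_lineGens (hP : IsPGroup p G) (hG' : commutator G ≠ ⊥)
    (hB : ∀ M : Subgroup G, IsCoatom M → ⁅M, M⁆ ≠ commutator G) :
    ∃ d, (frattini G).index = p ^ d ∧ ∃ xs : List G, xs.length = d ∧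
      Subgroup.closure {x | x ∈ xs} = ⊤ ∧ ∀ x ∈ xs, x ∈ lineSet p G := by
  obtain ⟨d, hd⟩ := hP.index (frattini G)
  letI : CommGroup (G ⧸ frattini G) :=
    { (inferInstance : Group (G ⧸ frattini G)) with mul_comm := frattini_quotient_comm hP }
  letI : Module (ZMod p) (Additive (G ⧸ frattini G)) := AddCommGroup.zmodModule (n := p) fun x => by
    apply Additive.toMul.injective
    rw [toMul_nsmul, toMul_zero]
    exact frattini_quotient_pow hP _
  exact ⟨d, hd, lineGens_aux hP hG' hB (QuotientGroup.mk' (frattini G))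
    (QuotientGroup.mk'_surjective _) (QuotientGroup.ker_mk' _) hd⟩

/-- The central closure of finitely many elements killed by `p`. -/
theorem card_closure_le {Q : Type*} [Group Q] [Finite Q] (T : Finset Q)
    (hc : ∀ t ∈ T, t ∈ Subgroup.center Q) (hp : ∀ t ∈ T, t ^ p = 1) :
    Nat.card (Subgroup.closure (T : Set Q)) ≤ p ^ T.card := by
  classical
  induction T using Finset.induction_on with
  | empty => simp
  | insert a T ha ih =>
    have hn : (Subgroup.zpowers a).Normal := ⟨fun x hx g => by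
      rwa [Subgroup.mem_center_iff.1 (Subgroup.zpowers_le.2 (hc a (Finset.mem_insert_self a T)) hx) g,
        mul_inv_cancel_right]⟩
    rw [Finset.coe_insert, Set.insert_eq, Subgroup.closure_union, ← Subgroup.zpowers_eq_closure,
      Finset.card_insert_of_notMem ha, pow_succ']
    have h1 : Nat.card ↥(Subgroup.zpowers a ⊔ Subgroup.closure (T : Set Q)) ≤
        Nat.card (Subgroup.zpowers a) * Nat.card (Subgroup.closure (T : Set Q)) := by
      rw [← Nat.card_prod]
      refine Nat.card_le_card_of_surjective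
        (fun z : Subgroup.zpowers a × Subgroup.closure (T : Set Q) =>
          (⟨z.1 * z.2, mul_mem (Subgroup.mem_sup_left z.1.2) (Subgroup.mem_sup_right z.2.2)⟩ :
            ↥(Subgroup.zpowers a ⊔ Subgroup.closure (T : Set Q)))) ?_
      rintro ⟨w, hw⟩
      obtain ⟨u, hu, v, hv, rfl⟩ := Subgroup.mem_sup_of_normal_left.1 hw
      exact ⟨(⟨u, hu⟩, ⟨v, hv⟩), rfl⟩
    refine h1.trans (Nat.mul_le_mul ?_ (ih (fun t ht => hc t (Finset.mem_insert_of_mem ht))
      fun t ht => hp t (Finset.mem_insert_of_mem ht)))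
    rw [Nat.card_zpowers]
    exact orderOf_le_of_pow_eq_one (Fact.out : p.Prime).pos (hp a (Finset.mem_insert_self a T))

/-- The bilinear layer has at most one dimension for each pair of generators. -/
theorem card_commutator_le {Q : Type*} [Group Q] [Finite Q]
    (hc : ∀ a b : Q, ⁅a, b⁆ ∈ Subgroup.center Q) (hp : ∀ a b : Q, ⁅a, b⁆ ^ p = 1)
    {d : ℕ} (x : Fin d → Q) (hx : Subgroup.closure (Set.range x) = ⊤) :
    Nat.card (commutator Q) ≤ p ^ (d * (d - 1) / 2) := by
  classical
  let T : Finset Q := (Finset.univ.sigma fun j : Fin d => Finset.Iio j).image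
    fun q : (_ : Fin d) × Fin d => ⁅x q.2, x q.1⁆
  have hT : T.card ≤ d * (d - 1) / 2 := by
    refine Finset.card_image_le.trans (le_of_eq ?_)
    rw [Finset.card_sigma, ← Finset.sum_range_id, ← Fin.sum_univ_eq_sum_range (fun i => i) d]
    exact Finset.sum_congr rfl fun j _ => Fin.card_Iio j
  have hTc : ∀ t ∈ T, t ∈ Subgroup.center Q := fun t ht => by
    obtain ⟨q, -, rfl⟩ := Finset.mem_image.1 ht; exact hc _ _
  have hTp : ∀ t ∈ T, t ^ p = 1 := fun t ht => by
    obtain ⟨q, -, rfl⟩ := Finset.mem_image.1 ht; exact hp _ _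
  refine le_trans ?_ ((card_closure_le T hTc hTp).trans
    (Nat.pow_le_pow_right (Fact.out : p.Prime).pos hT))
  set N := Subgroup.closure (T : Set Q) with hN
  have hNc : N ≤ Subgroup.center Q := (Subgroup.closure_le _).2 hTc
  have hgen : ∀ i j, ⁅x i, x j⁆ ∈ N := by
    intro i j
    rcases lt_trichotomy i j with h | rfl | h
    · exact Subgroup.subset_closure (Finset.mem_image.2 ⟨⟨j, i⟩, by simp [h], rfl⟩)
    · rw [commutatorElement_self]; exact one_mem _
    · rw [← commutatorElement_inv]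
      exact inv_mem (Subgroup.subset_closure (Finset.mem_image.2 ⟨⟨i, j⟩, by simp [h], rfl⟩))
  refine Subgroup.card_le_of_le ?_
  rw [commutator_def, Subgroup.commutator_le]
  intro a _ b _
  have hb : ∀ i, ⁅x i, b⁆ ∈ N := by
    intro i
    refine Subgroup.closure_induction (p := fun b _ => ⁅x i, b⁆ ∈ N) ?_ ?_ ?_ ?_ (hx ▸ Subgroup.mem_top b)
    · rintro _ ⟨j, rfl⟩; exact hgen i j
    · rw [commutatorElement_one_right]; exact one_mem _
    · intro u v _ _ hu hv
      rw [commutatorElement_mul_right' hc]; exact mul_mem hu hv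
    · intro u _ hu
      have h1 : ⁅x i, u⁻¹⁆ * ⁅x i, u⁆ = 1 := by
        rw [← commutatorElement_mul_right' hc, inv_mul_cancel, commutatorElement_one_right]
      rw [eq_inv_of_mul_eq_one_left h1]; exact inv_mem hu
  refine Subgroup.closure_induction (p := fun a _ => ⁅a, b⁆ ∈ N) ?_ ?_ ?_ ?_ (hx ▸ Subgroup.mem_top a)
  · rintro _ ⟨i, rfl⟩; exact hb i
  · rw [commutatorElement_one_left]; exact one_mem _
  · intro u v _ _ hu hv
    rw [commutatorElement_mul_left' hc]; exact mul_mem hu hv
  · intro u _ hu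
    have h1 : ⁅u⁻¹, b⁆ * ⁅u, b⁆ = 1 := by
      rw [← commutatorElement_mul_left' hc, inv_mul_cancel, commutatorElement_one_left]
    rw [eq_inv_of_mul_eq_one_left h1]; exact inv_mem hu

theorem half_bound (b d : ℕ) (hd : d ≤ b + 1) : d * (d - 1) / 2 + d * (b + 1 - d) ≤ b * (b + 1) / 2 := by
  obtain ⟨k, hk⟩ := Nat.exists_eq_add_of_le hd
  rw [show b + 1 - d = k by omega, Nat.le_div_iff_mul_le two_pos, add_mul]
  refine (Nat.add_le_add_right (Nat.div_mul_le_self _ 2) _).trans ?_
  rcases d with _ | d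
  · simp
  · rw [Nat.add_sub_cancel]
    obtain rfl : b = d + k := by omega
    nlinarith [Nat.le_mul_self k]

theorem main : ∀ {G : Type*} [Group G] [Finite G], IsPGroup p G → ∀ b : ℕ,
    (∀ x : G, (Subgroup.centralizer ({x} : Set G)).index ≤ p ^ b) →
      Nat.card (commutator G) ≤ p ^ (b * (b + 1) / 2) := by
  intro G
  induction hn : Nat.card G using Nat.strong_induction_on generalizing G with
  | _ n ih =>
  intro _ _ hP b hb
  have hp : p.Prime := Fact.out
  rcases eq_or_ne (commutator G) ⊥ with hG' | hG'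
  · rw [hG', Subgroup.card_bot]; exact Nat.one_le_pow _ _ hp.pos
  by_cases hA : ∃ M : Subgroup G, IsCoatom M ∧ ⁅M, M⁆ = commutator G
  · obtain ⟨M, hM, hMM⟩ := hA
    have hlt : Nat.card M < n := by
      rw [← hn, ← M.card_mul_index, index_of_coatom hP hM]
      exact lt_mul_of_one_lt_right Nat.card_pos hp.one_lt
    have h1 := ih _ hlt rfl (hP.to_subgroup M) b fun x => ?_
    · rw [← hMM, ← Subgroup.map_subtype_commutator, Subgroup.card_map_of_injective M.subtype_injective]
      exact h1
    · refine le_trans ?_ (hb (x : G))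
      have h2 : (Subgroup.centralizer ({(x : G)} : Set G)).subgroupOf M ≤ Subgroup.centralizer {x} := by
        intro c hc
        exact Subgroup.mem_centralizer_singleton_iff.2
          (Subtype.ext (Subgroup.mem_centralizer_singleton_iff.1 hc))
      refine le_trans (Nat.le_of_dvd (Nat.pos_of_ne_zero Subgroup.index_ne_zero_of_finite)
        (Subgroup.index_dvd_of_le h2)) ?_
      exact (Subgroup.relIndex_le_of_le_right le_top
        (by rw [Subgroup.relIndex_top_right]; exact Subgroup.index_ne_zero_of_finite)).trans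
        (le_of_eq (Subgroup.relIndex_top_right _))
  push Not at hA
  obtain ⟨d, hd, xs, hlen, hgen, hline⟩ := exists_lineGens hP hG' hA
  set R := layerKer p G with hR
  haveI : R.Normal := layerKer_normal G
  have hd0 : d ≠ 0 := by
    rintro rfl
    rw [List.eq_nil_of_length_eq_zero hlen] at hgen
    simp at hgen
    haveI := subsingleton_of_bot_eq_top hgen
    exact hG' (Subsingleton.elim _ _)
  -- the classes inside the Frattini subgroup
  have hrel : ∀ x ∈ xs, d - 1 ≤ b ∧
      (Subgroup.centralizer ({x} : Set G)).relIndex (frattini G) ≤ p ^ (b + 1 - d) := by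
    intro x hx
    set C := Subgroup.centralizer ({x} : Set G)
    set π := QuotientGroup.mk' (frattini G)
    have h1 : (C ⊔ frattini G).index * C.relIndex (frattini G) ≤ C.index := by
      rw [mul_comm, ← Subgroup.relIndex_mul_index (le_sup_left : C ≤ C ⊔ frattini G)]
      exact Nat.mul_le_mul_right _ (Subgroup.relIndex_le_of_le_right le_sup_right
        (Subgroup.index_ne_zero_of_finite (H := C.subgroupOf (C ⊔ frattini G))))
    have h2 : p ^ d ≤ p * (C ⊔ frattini G).index := by
      have h3 := (C.map π).card_mul_index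
      rw [Subgroup.index_map, QuotientGroup.ker_mk', MonoidHom.range_eq_top.2 (QuotientGroup.mk'_surjective _),
        Subgroup.index_top, mul_one, ← Subgroup.index_eq_card, hd] at h3
      exact h3 ▸ Nat.mul_le_mul_right _ (hline x hx)
    have h3 : p ^ d * C.relIndex (frattini G) ≤ p ^ (b + 1) := by
      calc p ^ d * C.relIndex (frattini G) ≤ p * (C ⊔ frattini G).index * C.relIndex (frattini G) :=
            Nat.mul_le_mul_right _ h2
        _ ≤ p * C.index := by rw [mul_assoc]; exact Nat.mul_le_mul_left _ h1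
        _ ≤ p * p ^ b := Nat.mul_le_mul_left _ (hb x)
        _ = _ := (pow_succ' p b).symm
    have hpos : 1 ≤ C.relIndex (frattini G) := Nat.one_le_iff_ne_zero.2
      (Subgroup.index_ne_zero_of_finite (H := C.subgroupOf (frattini G)))
    have hdb : d ≤ b + 1 := (Nat.pow_le_pow_iff_right hp.one_lt).1
      (le_trans (le_mul_of_one_le_right (Nat.zero_le _) hpos) h3)
    refine ⟨by omega, ?_⟩
    refine Nat.le_of_mul_le_mul_left ?_ (pow_pos hp.pos d)
    rw [← pow_add, show d + (b + 1 - d) = b + 1 by omega]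
    exact h3
  have hdb : d ≤ b + 1 := by
    obtain ⟨x, hx⟩ := List.exists_mem_of_length_pos (l := xs) (by omega)
    have := (hrel x hx).1
    omega
  have hRc : Nat.card R ≤ p ^ (d * (b + 1 - d)) := by
    change Nat.card ↥(R : Set G) ≤ _
    rw [Nat.card_coe_set_eq]
    refine (Set.ncard_le_ncard (layerKer_subset hP xs hgen) (Set.toFinite _)).trans ?_
    refine (ncard_commProds (frattini G) (m := p ^ (b + 1 - d)) xs fun x hx => (hrel x hx).2).trans ?_
    rw [hlen, ← pow_mul, mul_comm]
  let q := QuotientGroup.mk' R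
  have hq := QuotientGroup.mk'_surjective R
  have hmap : (commutator G).map q = commutator (G ⧸ R) := by
    rw [commutator_def, commutator_def, Subgroup.map_commutator, Subgroup.map_top_of_surjective _ hq]
  have hQ : Nat.card (commutator (G ⧸ R)) ≤ p ^ (d * (d - 1) / 2) := by
    subst hlen
    refine card_commutator_le (fun a c => ?_) (fun a c => ?_) (fun i => q (xs.get i)) ?_
    · obtain ⟨a, rfl⟩ := hq a
      obtain ⟨c, rfl⟩ := hq c
      rw [Subgroup.mem_center_iff]
      intro y
      obtain ⟨y, rfl⟩ := hq y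
      refine (commutatorElement_eq_one_iff_mul_comm.1 ?_).symm
      rw [← map_commutatorElement, ← map_commutatorElement]
      exact (QuotientGroup.eq_one_iff _).2 (Subgroup.mem_sup_left (Subgroup.commutator_mem_commutator
        (Subgroup.commutator_mem_commutator (Subgroup.mem_top a) (Subgroup.mem_top c)) (Subgroup.mem_top y)))
    · obtain ⟨a, rfl⟩ := hq a
      obtain ⟨c, rfl⟩ := hq c
      rw [← map_commutatorElement, ← map_pow]
      exact (QuotientGroup.eq_one_iff _).2 (Subgroup.mem_sup_right (Subgroup.subset_closure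
        ⟨⁅a, c⁆, Subgroup.commutator_mem_commutator (Subgroup.mem_top a) (Subgroup.mem_top c), rfl⟩))
    · have h1 := congrArg (Subgroup.map q) hgen
      rw [MonoidHom.map_closure, Subgroup.map_top_of_surjective _ hq] at h1
      rw [← h1]
      congr 1
      ext y
      constructor
      · rintro ⟨i, rfl⟩; exact ⟨_, List.get_mem xs i, rfl⟩
      · rintro ⟨x, hx, rfl⟩
        obtain ⟨i, rfl⟩ := List.mem_iff_get.1 hx
        exact ⟨i, rfl⟩
  have hcard : Nat.card (commutator G) ≤ Nat.card (commutator (G ⧸ R)) * Nat.card R := by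
    have h1 := (commutator G).card_mul_index
    have h2 := ((commutator G).map q).card_mul_index
    have h3 := R.card_eq_card_quotient_mul_card_subgroup
    rw [Subgroup.index_map_eq _ hq (by rw [QuotientGroup.ker_mk']; exact layerKer_le G)] at h2
    rw [h3, ← h2, hmap] at h1
    refine le_of_eq (Nat.eq_of_mul_eq_mul_right
      (Nat.pos_of_ne_zero (Subgroup.index_ne_zero_of_finite (H := commutator G))) (h1.trans ?_))
    ring
  refine hcard.trans ((Nat.mul_le_mul hQ hRc).trans ?_)
  rw [← pow_add]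
  exact Nat.pow_le_pow_right hp.pos (half_bound b d hdb)

end assembly

/-- Vaughan-Lee's Theorem: if G is a finite p-group in which every conjugacy class has at most p^b elements (every element has centralizer of index at most p^b), then the derived subgroup of G has order at most p^(b(b+1)/2). -/
theorem result {G : Type*} [Group G] [Finite G] {p : ℕ} [Fact p.Prime] (hG : IsPGroup p G) (b : ℕ) (hb : ∀ x : G, (Subgroup.centralizer ({x} : Set G)).index ≤ p ^ b) : Nat.card (commutator G) ≤ p ^ (b * (b + 1) / 2) := by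
  exact main hG b hb

end Cfsg.Agent.S3777
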