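import Cfsg.Statements.S1016
import Cfsg.Agent.SylowToolkit
import Cfsg.Agent.SylowToolkit.CentralInvolution
import Mathlib

set_option autoImplicit false
open Cfsg

namespace Cfsg.Agent.S1016

open CfsgLib.SylowToolkit Subgroup MulAction

/-- No finite simple group has order 1440 = 2^5 * 3^2 * 5. -/
theorem result {G : Type*} [Group G] [Finite G] [IsSimpleGroup G] : Nat.card G ≠ 1440 := by
  classical
  intro hG
  have hc : ¬ IsMulCommutative G := not_isMulCommutative_of_not_prime (by rw [hG]; norm_num)
  have : Fact (Nat.Prime 5) := ⟨by norm_num⟩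
  have : Fact (Nat.Prime 2) := ⟨Nat.prime_two⟩
  have hG' : Nat.card G = 5 ^ 1 * 288 := by rw [hG]; norm_num
  have hd5 : 5 ∣ Nat.card G := by rw [hG]; norm_num
  have hP5 : ∀ R : Sylow 5 G, Nat.card (R : Subgroup G) = 5 := fun R => by
    simpa using card_sylow_subgroup_eq hG' (by norm_num) R
  have hf : FaithfulSylow 5 G := toPermHom_sylow_injective hc hd5
  have hmem := card_sylow_mem_candidates hG' (by norm_num)
  have hn : Nat.card (Sylow 5 G) = 6 ∨ Nat.card (Sylow 5 G) = 16 ∨ Nat.card (Sylow 5 G) = 36 ∨
      Nat.card (Sylow 5 G) = 96 := by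
    have key : ∀ n ∈ (288 : ℕ).divisors.filter (fun n => n % 5 = 1), 1 < n → n = 6 ∨ n = 16 ∨ n = 36 ∨ n = 96 := by
      decide +kernel
    exact key _ hmem (one_lt_card_sylow hc hd5)
  obtain ⟨P⟩ := (inferInstance : Nonempty (Sylow 5 G))
  have hmul := card_normalizer_mul P
  have hdvd4 := relIndex_centralizer_dvd_sub_one P (hP5 P)
  have hNC := relIndex_mul_relIndex _ _ _ (bot_le : ⊥ ≤ centralizer ((P : Subgroup G) : Set G))
    (centralizer_le_normalizer _)
  simp only [relIndex_bot_left] at hNC
  have hcl := card_sylow_eq_classes (hP5 P)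
  have hCK := card_centralizer_eq_mul_range hf (hP5 P)
  set C := centralizer ((P : Subgroup G) : Set G) with hCdef
  set K := ((otherClassPerm P).comp
    (inclusion (centralizer_le_normalizer ((P : Subgroup G) : Set G)))).range with hKdef
  have hne1 : C.relIndex (normalizer ((P : Subgroup G) : Set G)) ≠ 1 := fun h1 =>
    not_normalizer_le_centralizer hc hd5 P (relIndex_eq_one.mp h1)
  generalize C.relIndex (normalizer ((P : Subgroup G) : Set G)) = e at hdvd4 hNC hne1
  have he : e = 2 ∨ e = 4 := by
    have key : ∀ e ∈ (4 : ℕ).divisors, e ≠ 1 → e = 2 ∨ e = 4 := by decide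
    exact key e (Nat.mem_divisors.mpr ⟨hdvd4, by norm_num⟩) hne1
  rcases hn with h | h | h | h
  · have := two_mul_card_dvd_factorial_card_sylow (p := 5) hc hd5
    rw [h, hG] at this
    norm_num [Nat.factorial] at this
  · -- sixteen: the centralizer cannot be faithful on three classes
    have h9 : Nat.card K = 9 := by
      rw [← hNC, hCK, h, hG] at hmul
      rcases he with rfl | rfl <;> omega
    have h3 : Nat.card (OtherClasses P) = 3 := by omega
    have := card_subgroup_dvd_card K
    rw [h9, Nat.card_perm, h3] at this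
    norm_num [Nat.factorial] at this
  · -- thirty-six: an involution centralizing `P`
    have hN : Nat.card (normalizer ((P : Subgroup G) : Set G)) = 40 := by rw [h, hG] at hmul; omega
    rw [hN] at hNC
    have hC : Nat.card C = 20 ∨ Nat.card C = 10 := by rcases he with rfl | rfl <;> omega
    obtain ⟨t, ht⟩ := exists_prime_orderOf_dvd_card' (G := C) 2 (by rcases hC with h' | h' <;> rw [h'] <;> norm_num)
    have htG : orderOf (t : G) = 2 := by rw [orderOf_coe]; exact ht
    have htt : (t : G) * t = 1 := by rw [← sq, ← htG, pow_orderOf_eq_one]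
    have ht1 : (t : G) ≠ 1 := fun h1 => by rw [h1, orderOf_one] at htG; norm_num at htG
    have hmod := fixCount_involution_modEq hf (fun g => sign_eq_one hc _ g) htG
    have hmod5 := fixCount_centralizing_modEq (hP5 P) t.2
    have hlt := fixCount_lt hf ht1
    rw [h] at hmod hlt
    unfold Nat.ModEq at hmod hmod5
    have hf16 : fixCount 5 (t : G) = 16 := by omega
    have hbig := fixCount_le_card_sylow_centralizer (by norm_num) htt hP5 (by rw [hf16, h]; norm_num)
    rw [hf16] at hbig
    -- `C` is abelian
    have hPC : (P : Subgroup G) ≤ C := by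
      have hcyc : IsCyclic (P : Subgroup G) := isCyclic_of_prime_card (hP5 P)
      exact fun a ha => mem_centralizer_iff.mpr fun b hb =>
        congrArg Subtype.val (hcyc.commGroup.mul_comm ⟨b, hb⟩ ⟨a, ha⟩)
    have hcomm : ∀ x y : C, x * y = y * x := by
      rcases hC with h' | h'
      · exact centralizer_mul_comm (by norm_num) (hP5 P) (j := 2) le_rfl (by rw [← hCdef, h']; norm_num)
      · exact centralizer_mul_comm (by norm_num) (hP5 P) (j := 1) (by norm_num) (by rw [← hCdef, h']; norm_num)
    set H := centralizer ({(t : G)} : Set G) with hHdef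
    have hCH : C ≤ H := fun g hg => mem_centralizer_singleton_iff.mpr (congrArg Subtype.val (hcomm ⟨g, hg⟩ t))
    obtain ⟨m, hm, hCm, hmN, hNH⟩ := exists_card_eq_card_sylow_mul hCH (hPC.trans hCH)
    rw [hN] at hmN hNH
    have hHd : Nat.card H ∣ 1440 := hG ▸ card_subgroup_dvd_card H
    have hHne : H ≠ ⊤ := centralizer_ne_top hc ht1
    have hidx := H.card_mul_index
    rw [hG] at hidx
    have h2fac := two_mul_card_dvd_factorial_index hc hHne
    have hm' : m = 20 ∨ m = 40 := by
      rcases hC with h' | h'
      · rw [h'] at hCm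
        have key : ∀ m ∈ (40 : ℕ).divisors, 20 ∣ m → m = 20 ∨ m = 40 := by decide
        exact key m (Nat.mem_divisors.mpr ⟨hmN, by norm_num⟩) hCm
      · refine .inr (hNH ?_)
        -- `t` is the only involution of `C`
        intro g hg
        rw [mem_centralizer_singleton_iff]
        have hgt : g * t * g⁻¹ ∈ C := mem_centralizer_iff.mpr fun a ha => by
          have ha' : g⁻¹ * a * g ∈ (P : Subgroup G) := by
            have := (mem_normalizer_iff.mp (inv_mem hg) a).mp ha
            rwa [inv_inv] at this
          have h1 := mem_centralizer_iff.mp t.2 _ ha'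
          calc a * (g * t * g⁻¹) = g * ((g⁻¹ * a * g) * t) * g⁻¹ := by group
            _ = g * (t * (g⁻¹ * a * g)) * g⁻¹ := by rw [h1]
            _ = g * t * g⁻¹ * a := by group
        obtain ⟨V⟩ : Nonempty (Sylow 2 C) := inferInstance
        have hV2 : Nat.card (V : Subgroup C) = 2 := by
          simpa using card_sylow_subgroup_eq (k := 1) (m := 5) (by rw [h']; norm_num) (by norm_num) V
        have hmemV : ∀ z : C, z ^ 2 = 1 → z ∈ (V : Subgroup C) := by
          intro z hz
          obtain ⟨j, -, hj⟩ := (Nat.dvd_prime_pow Nat.prime_two).mp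
            (show orderOf z ∣ 2 ^ 1 by rw [pow_one]; exact orderOf_dvd_of_pow_eq_one hz)
          obtain ⟨V', hV'⟩ := (IsPGroup.of_card (n := j) (show Nat.card (zpowers z) = 2 ^ j by
            rw [Nat.card_zpowers, hj])).exists_le_sylow
          obtain ⟨c, rfl⟩ := exists_smul_eq C V V'
          have := hV' (mem_zpowers z)
          rw [Sylow.coe_subgroup_smul, mem_pointwise_smul_iff_inv_smul_mem, ← map_inv, MulAut.smul_def,
            MulAut.conj_apply, inv_inv, mul_assoc, hcomm z c, inv_mul_cancel_left] at this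
          exact this
        have htC : (⟨g * t * g⁻¹, hgt⟩ : C) = t := by
          have : Finite (V : Subgroup C) := inferInstance
          obtain ⟨⟨a, ha⟩, hau⟩ := Finite.card_eq.mp (show Nat.card {z : (V : Subgroup C) // z ≠ 1} = Nat.card (Fin 1) by
            have : Fintype (V : Subgroup C) := Fintype.ofFinite _
            rw [Nat.card_eq_fintype_card, Fintype.card_subtype_compl, Fintype.card_subtype_eq,
              ← Nat.card_eq_fintype_card, hV2, Nat.card_fin]) |>.elim fun e => (⟨e.symm 0, fun z => e.injective (Subsingleton.elim _ _)⟩ :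
                ∃ a : {z : (V : Subgroup C) // z ≠ 1}, ∀ z, z = a)
          have h1 : (⟨g * t * g⁻¹, hgt⟩ : C) ^ 2 = 1 := Subtype.ext (show (g * t * g⁻¹) ^ 2 = 1 by
            rw [conj_pow, sq (t : G), htt, mul_one, mul_inv_cancel])
          have h2 : t ^ 2 = 1 := Subtype.ext (show (t : G) ^ 2 = 1 by rw [sq, htt])
          have e1 := hau ⟨⟨_, hmemV _ h1⟩, fun e => ht1 (conj_eq_one_iff.mp (congrArg (fun z : (V : Subgroup C) => ((z : C) : G)) e))⟩
          have e2 := hau ⟨⟨_, hmemV _ h2⟩, fun e => ht1 (congrArg (fun z : (V : Subgroup C) => ((z : C) : G)) e)⟩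
          exact congrArg (fun z : {z : (V : Subgroup C) // z ≠ 1} => (z.1 : C)) (e1.trans e2.symm)
        exact mul_inv_eq_iff_eq_mul.mp (congrArg Subtype.val htC)
    have : Fact (Nat.Prime 5) := ⟨by norm_num⟩
    have hmod' := card_sylow_mod (G := H) (p := 5)
    generalize hnH : Nat.card (Sylow 5 H) = n at hm hbig hmod'
    have hn1440 : n * m ∣ 1440 := hm ▸ hHd
    rw [hm] at hidx
    have key : ∀ n ∈ (1440 : ℕ).divisors, 16 ≤ n → n % 5 = 1 → n * 20 ∣ 1440 → n = 36 := by decide +kernel
    have hn36 : n = 36 := key n (Nat.mem_divisors.mpr ⟨(dvd_mul_right n m).trans hn1440, by norm_num⟩) hbig hmod'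
      (Nat.dvd_trans (Nat.mul_dvd_mul_left n (by rcases hm' with rfl | rfl <;> norm_num)) hn1440)
    subst hn36
    have hidx2 : H.index ≤ 2 := by rcases hm' with rfl | rfl <;> omega
    have := Nat.le_of_dvd (Nat.factorial_pos _) h2fac
    have h22 := Nat.factorial_le hidx2
    rw [hG] at this
    norm_num [Nat.factorial] at h22
    omega
  · rw [h, hG] at hmul
    rcases he with rfl | rfl <;> omega

end Cfsg.Agent.S1016
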