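import Cfsg.Statements.S3370
import Cfsg.Agent.RegularSolvable.Main
import Cfsg.Agent.Huppert.Main
import Cfsg.Agent.Frobenius.SolvableComplement
import Cfsg.Agent.Frobenius.Zassenhaus.Fpf

set_option autoImplicit false
open Cfsg

namespace Cfsg.Agent.S3370

open CfsgLib.PermGroups.FPFLinear CfsgLib.RegularSolvable

/-- The only power of two one less than a proper power of a prime is eight. -/
theorem pow_sub_one_eq_two_pow {q n b : ℕ} (hq : q.Prime) (hn : 2 ≤ n) (h : q ^ n - 1 = 2 ^ b) :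
    q = 3 ∧ n = 2 := by
  have hb1 : 1 ≤ q ^ n := Nat.one_le_pow _ _ hq.pos
  have h4 : 4 ≤ q ^ n := le_trans (show 4 ≤ q ^ 2 by nlinarith [hq.two_le]) (Nat.pow_le_pow_right hq.pos hn)
  have hb0 : 0 < b := by
    rcases Nat.eq_zero_or_pos b with rfl | hb
    · simp at h; omega
    · exact hb
  have h2q : ¬ 2 ∣ q := by
    intro hd
    have h1 : 2 ∣ q ^ n := hd.trans (dvd_pow_self q (by omega))
    have h2 : 2 ∣ 2 ^ b := dvd_pow_self 2 hb0.ne'
    omega
  have hmod : q % 2 = 1 := Nat.two_dvd_ne_zero.1 h2q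
  rcases Nat.even_or_odd n with ⟨m, rfl⟩ | hodd
  · have hfac : (q ^ m + 1) * (q ^ m - 1) = 2 ^ b := by
      rw [← h, ← Nat.sq_sub_sq, one_pow, ← pow_mul, mul_two]
    obtain ⟨i, -, hi⟩ := (Nat.dvd_prime_pow Nat.prime_two).1 (Dvd.intro _ hfac)
    obtain ⟨j, -, hj⟩ := (Nat.dvd_prime_pow Nat.prime_two).1 (Dvd.intro_left _ hfac)
    have hqm : 3 ≤ q ^ m := le_trans (show 3 ≤ q by have := hq.two_le; omega) (Nat.le_self_pow (by omega) q)
    have hj1 : j = 1 := by
      have hj0 : j ≠ 0 := fun e => by rw [e] at hj; simp at hj; omega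
      by_contra hj1
      have h1 : 4 ∣ 2 ^ j := pow_dvd_pow 2 (show 2 ≤ j by omega)
      have h2 : 4 ∣ 2 ^ i := by
        refine pow_dvd_pow 2 (show 2 ≤ i from ?_)
        by_contra hi2
        interval_cases i <;> omega
      omega
    rw [hj1] at hj
    have hq3 : q ^ m = 3 := by omega
    have hm : m = 1 := ((Nat.prime_three.pow_eq_iff).1 hq3).2
    subst hm
    exact ⟨by simpa using hq3, rfl⟩
  · exfalso
    obtain ⟨c, hc⟩ : ∃ c, ∑ i ∈ Finset.range n, q ^ i = 2 * c + 1 := by
      refine ⟨(∑ i ∈ Finset.range n, q ^ i) / 2, ?_⟩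
      have : (∑ i ∈ Finset.range n, q ^ i) % 2 = 1 := by
        rw [Finset.sum_nat_mod]
        have : ∀ i ∈ Finset.range n, q ^ i % 2 = 1 := fun i _ => by simp [Nat.pow_mod, hmod]
        rw [Finset.sum_congr rfl this, Finset.sum_const, Finset.card_range, smul_eq_mul, mul_one]
        exact Nat.odd_iff.1 hodd
      omega
    have hgeom : (∑ i ∈ Finset.range n, q ^ i) * (q - 1) = 2 ^ b := by
      rw [← h, Nat.geomSum_eq hq.two_le, Nat.div_mul_cancel (Nat.sub_one_dvd_pow_sub_one q n)]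
    obtain ⟨i, -, hi⟩ := (Nat.dvd_prime_pow Nat.prime_two).1 (Dvd.intro _ hgeom)
    have hbig : q + 1 ≤ ∑ i ∈ Finset.range n, q ^ i := by
      calc q + 1 = ∑ i ∈ Finset.range 2, q ^ i := by simp [Finset.sum_range_succ, add_comm]
        _ ≤ _ := Finset.sum_le_sum_of_subset (Finset.range_mono hn)
    rcases i with _ | i
    · simp at hi; have := hq.two_le; omega
    · rw [hc, pow_succ] at hi; omega

/-- A prime power one less than a power of two is a prime. -/
theorem two_pow_sub_one_eq_pow {p n b : ℕ} (hp : p.Prime) (hn : 2 ≤ n) (h : 2 ^ n - 1 = p ^ b) :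
    b = 1 := by
  have h4 : 4 ∣ 2 ^ n := pow_dvd_pow 2 hn
  have h1 : 1 ≤ 2 ^ n := Nat.one_le_two_pow
  have hb : Odd b := by
    rcases Nat.even_or_odd b with ⟨c, rfl⟩ | hb
    · exfalso
      rw [← two_mul, mul_comm, pow_mul] at h
      have hsq : (p ^ c) ^ 2 % 4 = 0 ∨ (p ^ c) ^ 2 % 4 = 1 := by
        rw [Nat.pow_mod]
        have := Nat.mod_lt (p ^ c) (show 4 > 0 by norm_num)
        interval_cases (p ^ c % 4) <;> simp
      omega
    · exact hb
  have h2 : (∑ i ∈ Finset.range b, (-(p : ℤ)) ^ i) * ((p : ℤ) + 1) = (p : ℤ) ^ b + 1 := by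
    have := geom_sum_mul (-(p : ℤ)) b
    rw [hb.neg_pow] at this
    linear_combination -this
  have hp2 : p % 2 = 1 := by
    refine Nat.two_dvd_ne_zero.1 fun hd => ?_
    have hb0 : b ≠ 0 := fun e => by simp [e] at hb
    have : 2 ∣ p ^ b := hd.trans (dvd_pow_self p hb0)
    omega
  have hodd : Odd (∑ i ∈ Finset.range b, (-(p : ℤ)) ^ i) := by
    have hpo : Odd (-(p : ℤ)) := (Nat.odd_iff.2 hp2).natCast.neg
    rw [Int.odd_iff, Finset.sum_int_mod, Finset.sum_congr rfl
      fun i _ => Int.odd_iff.1 (hpo.pow (n := i)), Finset.sum_const, Finset.card_range, nsmul_one]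
    exact_mod_cast Nat.odd_iff.1 hb
  have hsum : (∑ i ∈ Finset.range b, (-(p : ℤ)) ^ i) * ((p : ℤ) + 1) = (2 : ℤ) ^ n := by
    rw [h2]
    have : p ^ b + 1 = 2 ^ n := by omega
    exact_mod_cast this
  have hS : (∑ i ∈ Finset.range b, (-(p : ℤ)) ^ i).natAbs = 1 := by
    have hd : (∑ i ∈ Finset.range b, (-(p : ℤ)) ^ i).natAbs ∣ 2 ^ n := by
      have := Int.natAbs_dvd_natAbs.2 (Dvd.intro _ hsum)
      simpa [Int.natAbs_pow] using this
    obtain ⟨i, -, hi⟩ := (Nat.dvd_prime_pow Nat.prime_two).1 hd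
    rcases i with _ | i
    · simpa using hi
    · have := Int.natAbs_odd.2 hodd
      rw [hi, pow_succ] at this
      exact absurd this (Nat.not_odd_iff_even.2 ⟨2 ^ i, by ring⟩)
  have he : p ^ b + 1 = p + 1 := by
    have h3 := congrArg Int.natAbs h2
    rw [Int.natAbs_mul, hS, one_mul] at h3
    norm_cast at h3
    omega
  exact Nat.pow_right_injective hp.two_le (show p ^ b = p ^ 1 by rw [pow_one]; omega)

theorem quasiDihedral_of_sixteen {G : Type*} [Group G] [Finite G] (f : G →* GL (Fin 2) (ZMod 3))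
    (hf : Function.Injective f) (hG : Nat.card G = 16) : Cfsg.IsQuasiDihedral G := by
  have hc48 : Nat.card (GL (Fin 2) (ZMod 3)) = 48 := by
    rw [Matrix.card_GL_field]
    simp [Fin.prod_univ_two, ZMod.card]
  let x : GL (Fin 2) (ZMod 3) := ⟨!![0, 1; 1, 1], !![2, 1; 1, 0], by decide, by decide⟩
  let y : GL (Fin 2) (ZMod 3) := ⟨!![1, 0; 1, 2], !![1, 0; 1, 2], by decide, by decide⟩
  have hx : orderOf x = 2 ^ 3 := orderOf_eq_prime_pow (p := 2) (n := 2) (by decide +kernel) (by decide +kernel)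
  have hy : orderOf y = 2 := orderOf_eq_prime (by decide +kernel) (by decide +kernel)
  have hyx : y * x * y⁻¹ = x ^ 3 := by decide +kernel
  have hR : IsPGroup 2 f.range := IsPGroup.of_card (n := 4) (by
    rw [← Nat.card_congr (MonoidHom.ofInjective hf).toEquiv, hG]; norm_num)
  have hXY : IsPGroup 2 (Subgroup.zpowers y ⊔ Subgroup.zpowers x : Subgroup (GL (Fin 2) (ZMod 3))) := by
    refine IsPGroup.to_sup_of_normal_right' (IsPGroup.of_card (n := 1) (by rw [Nat.card_zpowers, hy, pow_one]))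
      (IsPGroup.of_card (n := 3) (by rw [Nat.card_zpowers, hx])) (Subgroup.zpowers_le.2 ?_)
    rw [Subgroup.mem_normalizer_iff]
    intro z
    have hmaps : ∀ w ∈ Subgroup.zpowers x, y * w * y⁻¹ ∈ Subgroup.zpowers x := by
      rintro _ ⟨i, rfl⟩
      exact ⟨3 * i, by rw [← conj_zpow, hyx]; show x ^ (3 * i) = (x ^ 3) ^ i; rw [zpow_mul]; rfl⟩
    refine ⟨hmaps z, fun hz => ?_⟩
    have h2 := hmaps _ hz
    have hyy : y * y = 1 := by decide +kernel
    rwa [show y * (y * z * y⁻¹) * y⁻¹ = (y * y) * z * (y * y)⁻¹ by group, hyy, one_mul, inv_one, mul_one] at h2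
  obtain ⟨P, hP⟩ := hR.exists_le_sylow
  have hPc : Nat.card (P : Subgroup (GL (Fin 2) (ZMod 3))) = 16 := by
    rw [P.card_eq_multiplicity, hc48, show Nat.factorization 48 2 = 4 from by
      rw [Nat.factorization_def 48 Nat.prime_two]; decide +kernel]
    norm_num
  have hPR : f.range = P := Subgroup.eq_of_le_of_card_ge hP (by
    rw [hPc, ← Nat.card_congr (MonoidHom.ofInjective hf).toEquiv, hG])
  obtain ⟨Q, hQ⟩ := hXY.exists_le_sylow
  obtain ⟨g, hg⟩ := MulAction.exists_smul_eq (GL (Fin 2) (ZMod 3)) Q P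
  have hmem : ∀ w ∈ Subgroup.zpowers y ⊔ Subgroup.zpowers x, g * w * g⁻¹ ∈ f.range := by
    intro w hw
    rw [hPR, ← hg]
    exact ⟨w, hQ hw, rfl⟩
  obtain ⟨a, ha⟩ := hmem x (Subgroup.mem_sup_right (Subgroup.mem_zpowers x))
  obtain ⟨c, hc⟩ := hmem y (Subgroup.mem_sup_left (Subgroup.mem_zpowers y))
  have hord : ∀ w : GL (Fin 2) (ZMod 3), orderOf (g * w * g⁻¹) = orderOf w :=
    fun w => orderOf_injective (MulAut.conj g).toMonoidHom (MulAut.conj g).injective w
  refine ⟨3, le_rfl, by rw [hG]; norm_num, a, c, ?_, ?_, ?_⟩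
  · rw [← orderOf_injective f hf, ha, hord, hx]
  · rw [← orderOf_injective f hf, hc, hord, hy]
  · apply hf
    rw [map_mul, map_mul, map_inv, map_pow, ha, hc,
      show (2 : ℕ) ^ (3 - 1) - 1 = 3 from rfl, conj_pow, ← hyx]
    group

/-- Let q be a prime, V a non-trivial finite vector space over the field with q elements, and G a non-trivial finite p-group (p prime) acting faithfully and linearly on V and transitively on the non-zero vectors. Then either q = 2 and G has prime order p = |V| − 1; or p = 2, V has q elements with q = 2^m + 1 and G is cyclic of order 2^m; or p = 2, q = 3, V has 9 elements and G is cyclic of order 8, quaternion of order 8, or semidihedral of order 16. -/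
theorem result (q : ℕ) [Fact q.Prime] {V : Type*} [AddCommGroup V] [Module (ZMod q) V] [Finite V] [Nontrivial V]
    {G : Type*} [Group G] [Finite G] [Nontrivial G] (p : ℕ) [Fact p.Prime] (hG : IsPGroup p G)
    (ρ : G →* (V ≃ₗ[ZMod q] V)) (hρ : Function.Injective ρ)
    (htrans : ∀ v w : V, v ≠ 0 → w ≠ 0 → ∃ g : G, ρ g v = w) :
    (q = 2 ∧ p = Nat.card V - 1 ∧ Nat.card G = p) ∨
    (p = 2 ∧ Nat.card V = q ∧ (∃ m : ℕ, q = 2 ^ m + 1 ∧ Nat.card G = 2 ^ m) ∧ IsCyclic G) ∨
    (p = 2 ∧ q = 3 ∧ Nat.card V = 9 ∧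
      ((IsCyclic G ∧ Nat.card G = 8) ∨ Nonempty (G ≃* QuaternionGroup 2) ∨ (Cfsg.IsQuasiDihedral G ∧ Nat.card G = 16))) := by
  classical
  haveI : Module.Finite (ZMod q) V := Module.Finite.of_finite
  have hq : q.Prime := Fact.out
  have hp : p.Prime := Fact.out
  set n := Module.finrank (ZMod q) V with hn
  have hn0 : 0 < n := Module.finrank_pos
  have hV : Nat.card V = q ^ n := by
    rw [Module.natCard_eq_pow_finrank (K := ZMod q) (V := V), Nat.card_zmod]
  let ε : G ≃* ρ.range := MonoidHom.ofInjective hρ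
  have ht : TransOnVectors ρ.range := fun v w hv hw => by
    obtain ⟨g, hg⟩ := htrans v w hv hw
    exact ⟨ε g, hg⟩
  obtain ⟨N, hN⟩ := IsPGroup.iff_card.1 hG
  have hdvd : q ^ n - 1 ∣ p ^ N := by
    rw [← hN, Nat.card_congr ε.toEquiv]
    exact CfsgLib.Huppert.card_vectors_dvd ht
  obtain ⟨b, hbN, hb⟩ := (Nat.dvd_prime_pow hp).1 hdvd
  obtain ⟨v₀, hv₀⟩ := exists_ne (0 : V)
  have hfree : ∀ g : G, g ≠ 1 → (∀ w : V, ρ g w = w) → False := fun g hg h =>
    hg (hρ (by rw [map_one]; exact LinearEquiv.ext h))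
  by_cases hn1 : n = 1
  · -- one dimension: scalars
    have hscal : ∀ g : G, ∃ c : ZMod q, ∀ w : V, ρ g w = c • w := fun g => by
      obtain ⟨c, hc⟩ := (finrank_eq_one_iff_of_nonzero' v₀ hv₀).1 (hn ▸ hn1) (ρ g v₀)
      refine ⟨c, fun w => ?_⟩
      obtain ⟨e, rfl⟩ := (finrank_eq_one_iff_of_nonzero' v₀ hv₀).1 (hn ▸ hn1) w
      rw [map_smul, ← hc, smul_comm]
    have hf : FreeOnVectors ρ.range := fun h v hv hh => by
      obtain ⟨g, rfl⟩ := ε.surjective h
      obtain ⟨c, hc⟩ := hscal g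
      have hh' : ρ g v = v := hh
      rw [hc v] at hh'
      have hc1 : c = 1 := by
        by_contra hne
        have : (c - 1) • v = 0 := by rw [sub_smul, one_smul, hh', sub_self]
        exact hv ((smul_eq_zero.1 this).resolve_left (sub_ne_zero.2 hne))
      by_contra hne
      exact hfree g (fun e0 => hne (by rw [e0, map_one])) fun w => by rw [hc w, hc1, one_smul]
    have hcard : Nat.card G = q - 1 := by
      rw [Nat.card_congr ε.toEquiv, card_group ht hf, ← hn, hn1, pow_one]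
    have hcyc : IsCyclic G := by
      haveI : IsCyclic (Subgroup.centralizer ((⊥ : Subgroup ρ.range) : Set ρ.range)) :=
        isCyclic_centralizer (irr_of_not_dvd hf ⊥ fun k hk hkn => by omega)
      exact isCyclic_of_surjective
        (ε.symm.toMonoidHom.comp (Subgroup.centralizer ((⊥ : Subgroup ρ.range) : Set ρ.range)).subtype)
        fun g => ⟨⟨ε g, Subgroup.mem_centralizer_iff.2 fun a ha => by
          rw [Subgroup.mem_bot.1 ha, one_mul, mul_one]⟩, ε.symm_apply_apply g⟩
    have hG1 : 1 < Nat.card G := Finite.one_lt_card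
    have hq2 : q ≠ 2 := fun e => by omega
    have hp2 : p = 2 := by
      have h2 : 2 ∣ Nat.card G := by
        rw [hcard]; have := hq.odd_of_ne_two hq2; rw [Nat.odd_iff] at this; omega
      rw [hN] at h2
      exact ((Nat.prime_dvd_prime_iff_eq Nat.prime_two hp).1 (Nat.prime_two.dvd_of_dvd_pow h2)).symm
    refine Or.inr (Or.inl ⟨hp2, by rw [hV, hn1, pow_one], ⟨N, ?_, ?_⟩, hcyc⟩)
    · rw [← hp2, ← hN, hcard]; omega
    · rw [← hp2, hN]
  have hn2 : 2 ≤ n := by omega
  by_cases hq2 : q = 2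
  · left
    subst hq2
    have hb1 := two_pow_sub_one_eq_pow hp hn2 hb
    rw [hb1, pow_one] at hb
    refine ⟨rfl, by rw [hV, hb], ?_⟩
    let P : Subgroup G := (MulAction.stabilizer (V ≃ₗ[ZMod 2] V) v₀).comap ρ
    have hPtriv : P = ⊥ := by
      rw [Subgroup.eq_bot_iff_forall]
      intro g hg
      by_contra hg1
      let F : Submodule (ZMod 2) V := LinearMap.ker ((ρ g).toLinearMap - 1)
      have hmemF : ∀ v, v ∈ F ↔ ρ g v = v := fun v => by simp [F, LinearMap.mem_ker, sub_eq_zero]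
      have hF0 : F ≠ ⊥ := fun e => hv₀ ((Submodule.mem_bot (ZMod 2)).1 (e ▸ (hmemF v₀).2 hg))
      have hFlt : Module.finrank (ZMod 2) F < n := Submodule.finrank_lt fun e =>
        hfree g hg1 fun w => (hmemF w).1 (by rw [e]; trivial)
      have hFpos : 0 < Module.finrank (ZMod 2) F := by
        rw [Nat.pos_iff_ne_zero]
        exact fun e => hF0 (Submodule.finrank_eq_zero.1 e)
      letI : MulAction (Subgroup.zpowers g) V := MulAction.compHom V (ρ.comp (Subgroup.zpowers g).subtype)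
      have hmod := (hG.to_subgroup (Subgroup.zpowers g)).card_modEq_card_fixedPoints V
      have hfp : Nat.card (MulAction.fixedPoints (Subgroup.zpowers g) V) = Nat.card F := by
        refine Nat.card_congr (Equiv.subtypeEquivRight fun v => ?_)
        rw [hmemF]
        refine ⟨fun h => h ⟨g, Subgroup.mem_zpowers g⟩, fun h x => ?_⟩
        exact (Subgroup.zpowers_le.2 (show g ∈ (MulAction.stabilizer (V ≃ₗ[ZMod 2] V) v).comap ρ from h)) x.2
      rw [hfp, hV, Module.natCard_eq_pow_finrank (K := ZMod 2) (V := F), Nat.card_zmod] at hmod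
      have hd : p ∣ 2 ^ Module.finrank (ZMod 2) F * (2 ^ (n - Module.finrank (ZMod 2) F) - 1) := by
        rw [Nat.mul_sub, mul_one, ← pow_add, Nat.add_sub_cancel' hFlt.le]
        exact (Nat.modEq_iff_dvd' (Nat.pow_le_pow_right two_pos hFlt.le)).1 hmod.symm
      rcases hp.dvd_mul.1 hd with h | h
      · have := (Nat.prime_dvd_prime_iff_eq hp Nat.prime_two).1 (hp.dvd_of_dvd_pow h)
        have : 2 ∣ 2 ^ n := dvd_pow_self 2 (by omega)
        omega
      · have h1 : 2 ^ (n - Module.finrank (ZMod 2) F) < 2 ^ n := Nat.pow_lt_pow_right one_lt_two (by omega)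
        have h2 : 1 < 2 ^ (n - Module.finrank (ZMod 2) F) := Nat.one_lt_two_pow (by omega)
        have := Nat.le_of_dvd (by omega) h
        omega
    have hf : FreeOnVectors ρ.range := fun h v hv hh => by
      obtain ⟨g, rfl⟩ := ε.surjective h
      obtain ⟨k, hk⟩ := htrans v v₀ hv hv₀
      have hmem : k * g * k⁻¹ ∈ P := by
        show ρ (k * g * k⁻¹) v₀ = v₀
        have hh' : ρ g v = v := hh
        rw [← hk, map_mul, map_mul, LinearEquiv.mul_apply, LinearEquiv.mul_apply, ← LinearEquiv.mul_apply (ρ k⁻¹),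
          ← map_mul, inv_mul_cancel, map_one]
        show ρ k (ρ g v) = ρ k v
        rw [hh']
      rw [hPtriv, Subgroup.mem_bot, conj_eq_one_iff] at hmem
      rw [hmem, map_one]
    rw [Nat.card_congr ε.toEquiv, card_group ht hf, ← hn, hb]
  obtain ⟨hq3, hn22⟩ : q = 3 ∧ n = 2 := by
    have hp2 : p = 2 := by
      have h2 : 2 ∣ p ^ b := by
        rw [← hb]
        have := (hq.odd_of_ne_two hq2).pow (n := n)
        rw [Nat.odd_iff] at this
        omega
      exact ((Nat.prime_dvd_prime_iff_eq Nat.prime_two hp).1 (Nat.prime_two.dvd_of_dvd_pow h2)).symm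
    exact pow_sub_one_eq_two_pow hq hn2 (hp2 ▸ hb)
  subst hq3
  have h8 : p ^ b = 8 := by rw [← hb, hn22]; norm_num
  have hp2 : p = 2 := ((Nat.prime_dvd_prime_iff_eq Nat.prime_two hp).1
    (Nat.prime_two.dvd_of_dvd_pow (show 2 ∣ p ^ b by rw [h8]; norm_num))).symm
  subst hp2
  refine Or.inr (Or.inr ⟨rfl, rfl, by rw [hV, hn22]; norm_num, ?_⟩)
  let bas := Module.finBasisOfFinrankEq (ZMod 3) V (hn.symm.trans hn22)
  let f : G →* GL (Fin 2) (ZMod 3) := MonoidHom.toHomUnits
    ((LinearMap.toMatrixAlgEquiv bas).toMonoidHom.comp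
      (LinearEquiv.automorphismGroup.toLinearMapMonoidHom.comp ρ))
  have hfi : Function.Injective f := fun g g' h => hρ (by
    have h1 := congrArg Units.val h
    exact LinearEquiv.toLinearMap_injective ((LinearMap.toMatrixAlgEquiv bas).injective h1))
  have h48 : Nat.card G ∣ 48 := by
    have h := Subgroup.card_dvd_of_injective f hfi
    rwa [Matrix.card_GL_field, show (∏ i : Fin 2, (Fintype.card (ZMod 3) ^ 2 - Fintype.card (ZMod 3) ^ (i : ℕ))) = 48 by
      rw [Fin.prod_univ_two, ZMod.card]; rfl] at h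
  rw [hN] at h48
  have hN4 : N ≤ 4 := by
    by_contra hh
    have : 2 ^ 5 ∣ 48 := (pow_dvd_pow 2 (show 5 ≤ N by omega)).trans h48
    norm_num at this
  have hN3 : 3 ≤ N := by
    have : b = 3 := Nat.pow_right_injective le_rfl (show 2 ^ b = 2 ^ 3 by rw [h8])
    omega
  rcases (show N = 3 ∨ N = 4 by omega) with rfl | rfl
  · have hc8 : Nat.card G = 8 := by rw [hN]; norm_num
    have hf' : FreeOnVectors ρ.range := fun h v hv hh => by
      obtain ⟨g, rfl⟩ := ε.surjective h
      letI : MulAction G {v : V // v ≠ 0} :=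
        { smul := fun g v => ⟨ρ g v, fun e => v.2 ((LinearEquiv.map_eq_zero_iff _).1 e)⟩
          one_smul := fun v => Subtype.ext (by show ρ 1 (v : V) = v; rw [map_one]; rfl)
          mul_smul := fun a c v => Subtype.ext (by show ρ (a * c) (v : V) = ρ a (ρ c v); rw [map_mul]; rfl) }
      haveI : MulAction.IsPretransitive G {v : V // v ≠ 0} := ⟨fun x y => by
        obtain ⟨k, hk⟩ := htrans x y x.2 y.2
        exact ⟨k, Subtype.ext hk⟩⟩
      haveI := Fintype.ofFinite V
      have hi := MulAction.index_stabilizer_of_transitive G (⟨v, hv⟩ : {v : V // v ≠ 0})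
      rw [Nat.card_eq_fintype_card, Fintype.card_subtype_compl, Fintype.card_subtype_eq,
        ← Nat.card_eq_fintype_card, hV, hn22] at hi
      have hm := (MulAction.stabilizer G (⟨v, hv⟩ : {v : V // v ≠ 0})).card_mul_index
      rw [hi, hc8] at hm
      have hg : g ∈ MulAction.stabilizer G (⟨v, hv⟩ : {v : V // v ≠ 0}) := Subtype.ext hh
      have hbot : MulAction.stabilizer G (⟨v, hv⟩ : {v : V // v ≠ 0}) = ⊥ :=
        Subgroup.card_eq_one.1 (by omega)
      rw [hbot, Subgroup.mem_bot] at hg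
      rw [hg, map_one]
    haveI : Finite ρ.range := Finite.of_equiv _ ε.toEquiv
    have hfpf : CfsgLib.Frobenius.Zass.IsFpf G :=
      (CfsgLib.Frobenius.Zass.IsFpf.of_rep_zmod (endHom ρ.range) (free_rep hf')).of_injective
        ε.toMonoidHom ε.injective
    rcases hfpf.cyclic_or_quaternion ⊤ (hG.to_subgroup ⊤) with h | ⟨m, hm, ⟨e⟩⟩
    · haveI := h
      exact Or.inl ⟨isCyclic_of_surjective Subgroup.topEquiv Subgroup.topEquiv.surjective, hc8⟩
    · have hm1 : m = 1 := by
        have h := (Nat.card_congr e.toEquiv).symm.trans (Subgroup.card_top.trans hc8)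
        rw [Nat.card_eq_fintype_card, QuaternionGroup.card] at h
        exact Nat.pow_right_injective le_rfl (show 2 ^ m = 2 ^ 1 by omega)
      subst hm1
      exact Or.inr (Or.inl ⟨Subgroup.topEquiv.symm.trans e⟩)
  · exact Or.inr (Or.inr ⟨quasiDihedral_of_sixteen f hfi (by rw [hN]; norm_num), by rw [hN]; norm_num⟩)

end Cfsg.Agent.S3370
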