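import Cfsg.Statements.S3972
import Cfsg.Agent.SRing54.Schur

set_option autoImplicit false
open Cfsg

namespace Cfsg.Agent.S3972


/-- Let `p` be a prime, `m ≥ 2`, and `G` a transitive but not doubly transitive permutation group on `p ^ m` points containing a permutation of order `p ^ m` (necessarily a full cycle). Then `G` is imprimitive, and the normal closure in `G` of the `p ^ (m - 1)`-th power of that permutation is an intransitive normal subgroup. -/
theorem result {Ω : Type*} [Fintype Ω] [DecidableEq Ω] (p m : ℕ) (hp : p.Prime) (hm : 2 ≤ m) (hΩ : Fintype.card Ω = p ^ m) (G : Subgroup (Equiv.Perm Ω)) (htr : MulAction.IsPretransitive G Ω) (h2 : ¬ MulAction.IsMultiplyPretransitive G Ω 2) (g : G) (hg : orderOf g = p ^ m) : ¬ MulAction.IsPreprimitive G Ω ∧ ¬ MulAction.IsPretransitive (Subgroup.normalClosure ({g ^ (p ^ (m - 1))} : Set G)) Ω := by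
  haveI : NeZero (p ^ m) := ⟨pow_ne_zero _ hp.ne_zero⟩
  have hn : Nat.card Ω = p ^ m := by rw [Nat.card_eq_fintype_card, hΩ]
  have hlt : ¬ p ^ m ∣ p ^ (m - 1) := fun h => by
    have := (Nat.pow_dvd_pow_iff_le_right hp.one_lt).mp h
    omega
  obtain ⟨a, ha⟩ : ∃ a : Ω, g ^ p ^ (m - 1) • a ≠ a := by
    by_contra hcon
    push_neg at hcon
    refine hlt (hg ▸ orderOf_dvd_of_pow_eq_one (Subtype.ext (Equiv.ext fun x => ?_)))
    exact hcon x
  have hper : MulAction.period g a = p ^ m := by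
    obtain ⟨i, hi, hgi⟩ := (Nat.dvd_prime_pow hp).mp (hg ▸ MulAction.period_dvd_orderOf g a)
    rcases Nat.lt_or_ge i m with hlt' | hge
    · exfalso
      refine ha (MulAction.pow_smul_eq_iff_period_dvd.mpr ?_)
      rw [hgi]
      exact pow_dvd_pow p (by omega)
    · rw [hgi, le_antisymm hi hge]
  have hnp : ¬ (p ^ m).Prime := Nat.Prime.not_prime_pow hm
  have h2n : 2 ≤ p ^ m := (hp.two_le).trans (Nat.le_self_pow (by omega) p)
  refine ⟨fun hprim => h2 (CfsgLib.SRing54.two_trans_of_primitive hn h2n hnp g a hper hprim), ?_⟩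
  obtain ⟨e, he⟩ := CfsgLib.SRing54.exists_label hn g a hper
  have hT := CfsgLib.SRing54.hasTrans_pull e g he
  have hnP : ¬ CfsgLib.SRing54.Prim (CfsgLib.SRing54.pullPerm (G := G) e).range := fun hP =>
    h2 (CfsgLib.SRing54.two_trans_of_rel e g he fun x y hx hy =>
      CfsgLib.SRing54.rel_of_composite h2n hnp hT hP hx hy)
  simp only [CfsgLib.SRing54.Prim, not_forall, not_or] at hnP
  obtain ⟨H, hH, hbot, htop⟩ := hnP
  let N : Subgroup G :=
    { carrier := {γ | ∀ x, CfsgLib.SRing54.pullPerm e γ x - x ∈ H}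
      one_mem' := fun x => by simp
      mul_mem' := fun {γ δ} hγ hδ x => by
        rw [map_mul, Equiv.Perm.mul_apply]
        simpa using H.add_mem (hγ (CfsgLib.SRing54.pullPerm e δ x)) (hδ x)
      inv_mem' := fun {γ} hγ x => by
        have h := hγ (CfsgLib.SRing54.pullPerm e γ⁻¹ x)
        rw [← Equiv.Perm.mul_apply, ← map_mul, mul_inv_cancel, map_one, Equiv.Perm.one_apply] at h
        simpa using H.neg_mem h }
  haveI hN : N.Normal := ⟨fun γ hγ δ x => by
    have h := (CfsgLib.SRing54.invariant_congruence hT hH (k := CfsgLib.SRing54.pullPerm e δ) ⟨δ, rfl⟩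
      (CfsgLib.SRing54.pullPerm e γ (CfsgLib.SRing54.pullPerm e δ⁻¹ x))
      (CfsgLib.SRing54.pullPerm e δ⁻¹ x)).mpr (hγ _)
    rw [← Equiv.Perm.mul_apply (CfsgLib.SRing54.pullPerm e δ) (CfsgLib.SRing54.pullPerm e δ⁻¹), ← map_mul,
      mul_inv_cancel, map_one, Equiv.Perm.one_apply] at h
    simpa [map_mul, Equiv.Perm.mul_apply] using h⟩
  have hgN : g ^ p ^ (m - 1) ∈ N := by
    intro x
    have hlt2 : p ^ (m - 1) < p ^ m := Nat.pow_lt_pow_right hp.one_lt (by omega)
    have hx : CfsgLib.SRing54.pullPerm e (g ^ p ^ (m - 1)) x = x + ((p ^ (m - 1) : ℕ) : ZMod (p ^ m)) := by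
      rw [CfsgLib.SRing54.pullPerm_apply, e.symm_apply_eq, he, ZMod.val_natCast, Nat.mod_eq_of_lt hlt2]
    rw [hx, add_sub_cancel_left]
    obtain ⟨y, hy, hy0⟩ := (H.bot_or_exists_ne_zero).resolve_left hbot
    -- every non-trivial subgroup contains the socle
    obtain ⟨b, rfl⟩ := ZMod.natCast_zmod_surjective y
    obtain ⟨k, hk, hbk⟩ := (Nat.dvd_prime_pow hp).mp (Nat.gcd_dvd_right b (p ^ m))
    have hkm : k ≤ m - 1 := by
      by_contra hcon
      refine hy0 ((ZMod.natCast_eq_zero_iff _ _).mpr ?_)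
      rw [show p ^ m = b.gcd (p ^ m) by rw [hbk, show k = m by omega]]
      exact Nat.gcd_dvd_left _ _
    have hgH : ((p ^ k : ℕ) : ZMod (p ^ m)) ∈ H := by
      have h := congrArg (fun z : ℤ => (z : ZMod (p ^ m))) (Nat.gcd_eq_gcd_ab b (p ^ m))
      simp only [hbk, Int.cast_natCast, Int.cast_add, Int.cast_mul, ZMod.natCast_self, zero_mul,
        add_zero] at h
      rw [h, mul_comm, ← zsmul_eq_mul]
      exact H.zsmul_mem hy _
    rw [show p ^ (m - 1) = p ^ (m - 1 - k) * p ^ k by rw [← pow_add, Nat.sub_add_cancel hkm],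
      Nat.cast_mul, ← nsmul_eq_mul]
    exact H.nsmul_mem hgH _
  intro hpre
  refine htop (eq_top_iff.mpr fun x _ => ?_)
  obtain ⟨⟨γ, hγ⟩, hx⟩ := hpre.exists_smul_eq (e 0) (e x)
  have h := Subgroup.normalClosure_le_normal (Set.singleton_subset_iff.mpr hgN) hγ 0
  rwa [CfsgLib.SRing54.pullPerm_apply, sub_zero,
    e.symm_apply_eq.mpr (show γ • e 0 = e x from hx)] at h

end Cfsg.Agent.S3972
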