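import Cfsg.Statements.S4885
import Cfsg.Agent.Eq.Def_Blocks
import Cfsg.Agent.Eq.Def_Local
import Cfsg.Agent.Blocks.IsaacsSmith
import Cfsg.Agent.Blocks.PrincipalSolvable
import Cfsg.Agent.Blocks.PrincipalLinear
import Cfsg.Agent.Constrained.PSolvable
import Cfsg.Agent.Solvable.SchurZassenhaus
import Cfsg.Agent.Solvable.MinNormal
import Cfsg.Agent.Transfer.Tate
import Cfsg.Agent.PGroup.Frattini

set_option autoImplicit false
open Cfsg

namespace Cfsg.Agent.S4885

open CfsgLib CfsgLib.Blocks

open scoped Pointwise ComplexConjugate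

universe u

variable {G : Type u} [Group G] [Finite G]

/-- If the characters of degree prime to `p` in the principal `p`-block lie in the principal
`q`-block, then `O_{q'}(G)` meets a Sylow `p`-subgroup inside its Frattini subgroup. -/
theorem core_inf_sylow_le (p q : ℕ) [Fact p.Prime] [Fact q.Prime] (hps : Cfsg.IsPSolvable p G)
    {Mp Mq : Ideal Cfsg.AlgInt} (hMp : Cfsg.IsPModular p Mp) (hMq : Cfsg.IsPModular q Mq)
    (h : ∀ χ : Cfsg.IrrCharacter G, χ ∈ Cfsg.principalBlock Mp G →
      ¬ p ∣ Cfsg.charDegree (χ : G → ℂ) → χ ∈ Cfsg.principalBlock Mq G) (P : Sylow p G) :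
    Cfsg.pPrimeCore q G ⊓ (P : Subgroup G) ≤
      (frattini P).map (P : Subgroup G).subtype := by
  classical
  rintro x ⟨hxA, hxP⟩
  refine ⟨⟨x, hxP⟩, ?_, rfl⟩
  by_contra hx
  obtain ⟨l, hl⟩ := Chars.exists_linChar_ne_one (g := (⟨x, hxP⟩ : (P : Subgroup G)))
    fun hm => hx (PGroup.commutator_le_frattini P.2 hm)
  set μ := Chars.linChar l with hμ
  have hμx : (μ : ↥(P : Subgroup G) → ℂ) ⟨x, hxP⟩ ≠ (μ : ↥(P : Subgroup G) → ℂ) 1 := by
    rw [hμ, Chars.linChar_map_one]
    simpa using fun e => hl (Units.ext (by simpa using e))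
  letI := Fintype.ofFinite G
  set L := Cfsg.pPrimeCore p G with hL
  set S := Finset.univ.filter (fun χ : Cfsg.IrrCharacter G => L ≤ Chars.charKer (χ : G → ℂ)) with hS
  -- the multiplicity of `μ` in the regular character of `G/L` is prime to `p`
  have hPL : ∀ u : (P : Subgroup G), (u : G) ∈ L → u = 1 := by
    intro u hu
    obtain ⟨k, hk⟩ := IsPGroup.iff_orderOf.1 P.2 u
    rw [← orderOf_eq_one_iff]
    rcases Nat.eq_zero_or_pos k with rfl | hk0
    · simpa using hk
    · refine absurd ?_ (Constrained.pPrimeCore_not_dvd (p := p) (G := G))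
      have h1 : p ∣ orderOf (⟨(u : G), hu⟩ : L) := by
        rw [Subgroup.orderOf_mk, Subgroup.orderOf_coe, hk]
        exact dvd_pow_self _ hk0.ne'
      exact h1.trans (orderOf_dvd_natCard _)
  have hsum : ∑ χ ∈ S, (χ : G → ℂ) 1 *
      Cfsg.classInner (fun u : (P : Subgroup G) => (χ : G → ℂ) u) (μ : ↥(P : Subgroup G) → ℂ) =
        (Nat.card (P : Subgroup G) : ℂ)⁻¹ * (L.index : ℂ) := by
    simp only [Cfsg.classInner, Finset.mul_sum]
    rw [Finset.sum_comm, Finset.sum_eq_single (1 : (P : Subgroup G))]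
    · rw [Finset.sum_congr rfl (g := fun χ : Cfsg.IrrCharacter G =>
        (Nat.card (P : Subgroup G) : ℂ)⁻¹ * ((χ : G → ℂ) 1 * (χ : G → ℂ) 1)) (fun χ _ => by
          rw [hμ, Chars.linChar_map_one, map_one, mul_one, OneMemClass.coe_one]; ring),
        ← Finset.mul_sum, IsaacsSmith.sum_le_charKer_mul L 1, if_pos L.one_mem]
    · intro u _ hu
      rw [Finset.sum_congr rfl (g := fun χ : Cfsg.IrrCharacter G =>
        ((Nat.card (P : Subgroup G) : ℂ)⁻¹ * conj ((μ : ↥(P : Subgroup G) → ℂ) u)) * ((χ : G → ℂ) 1 * (χ : G → ℂ) (u : G)))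
        (fun χ _ => by ring),
        ← Finset.mul_sum, IsaacsSmith.sum_le_charKer_mul L (u : G),
        if_neg fun hm => hu (hPL u hm), mul_zero]
    · simp
  obtain ⟨m, hm⟩ : Nat.card (P : Subgroup G) ∣ L.index := by
    have hco : (Nat.card (P : Subgroup G)).Coprime (Nat.card L) := by
      rw [P.card_eq_multiplicity]
      exact Nat.Coprime.pow_left _ ((Fact.out : p.Prime).coprime_iff_not_dvd.2
        (Constrained.pPrimeCore_not_dvd (p := p) (G := G)))
    exact hco.dvd_of_dvd_mul_left ((Subgroup.card_mul_index L).symm ▸ P.card_subgroup_dvd_card)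
  have hmp : ¬ p ∣ m := by
    intro hd
    refine P.not_dvd_index ?_
    have h1 : Nat.card (P : Subgroup G) * ((P : Subgroup G).index) = Nat.card G := Subgroup.card_mul_index _
    have h2 : Nat.card L * L.index = Nat.card G := Subgroup.card_mul_index _
    have h3 : Nat.card (P : Subgroup G) * (Nat.card L * m) = Nat.card (P : Subgroup G) * (P : Subgroup G).index := by
      rw [h1, ← h2, hm]; ring
    rw [← Nat.eq_of_mul_eq_mul_left Nat.card_pos h3]
    exact hd.mul_left _
  have hP0 : (Nat.card (P : Subgroup G) : ℂ) ≠ 0 := Nat.cast_ne_zero.2 Nat.card_pos.ne'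
  rw [hm, Nat.cast_mul, ← mul_assoc, inv_mul_cancel₀ hP0, one_mul] at hsum
  obtain ⟨χ, hχS, hχd, hχne⟩ : ∃ χ ∈ S, ¬ p ∣ Cfsg.charDegree (χ : G → ℂ) ∧
      Cfsg.classInner (fun u : (P : Subgroup G) => (χ : G → ℂ) u) (μ : ↥(P : Subgroup G) → ℂ) ≠ 0 := by
    by_contra hc
    push_neg at hc
    have hnat : ∀ χ : Cfsg.IrrCharacter G, ∃ n : ℕ,
        Cfsg.classInner (fun u : (P : Subgroup G) => (χ : G → ℂ) u) (μ : ↥(P : Subgroup G) → ℂ) = n := fun χ =>
      Chars.exists_nat_classInner (Chars.isCharacter_restrict (Chars.isCharacter_coe χ) _) μ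
    choose n hn using hnat
    have hdvd : p ∣ ∑ χ ∈ S, Cfsg.charDegree (χ : G → ℂ) * n χ := Finset.dvd_sum fun χ hχ => by
      by_cases hd : p ∣ Cfsg.charDegree (χ : G → ℂ)
      · exact hd.mul_right _
      · have := hc χ hχ hd
        rw [hn, Nat.cast_eq_zero] at this
        rw [this, mul_zero]
        exact dvd_zero p
    refine hmp ?_
    have he : ((∑ χ ∈ S, Cfsg.charDegree (χ : G → ℂ) * n χ : ℕ) : ℂ) = (m : ℂ) := by
      rw [← hsum, Nat.cast_sum]
      exact Finset.sum_congr rfl fun χ _ => by rw [Nat.cast_mul, Chars.coe_charDegree, hn]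
    exact (Nat.cast_inj.1 he) ▸ hdvd
  have hp : χ ∈ Cfsg.principalBlock Mp G :=
    mem_principalBlock_of_pPrimeCore_le hMp hps (Finset.mem_filter.1 hχS).2
  have hker := PrincipalLinear.le_charKer hMq (h χ hp hχd) (Cfsg.pPrimeCore q G)
    Constrained.pPrimeCore_not_dvd hxA
  exact hμx (IsaacsSmith.constituent_eq_one
    (Chars.isCharacter_restrict (Chars.isCharacter_coe χ) _) μ hχne
    (by simpa using Chars.map_eq_map_one_of_mem_charKer hker))

/-- A normal subgroup meeting a Sylow subgroup in its Frattini subgroup becomes a p-subgroup of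
the Frattini subgroup of a suitable quotient. -/
theorem isPGroup_map_le_frattini (p : ℕ) [Fact p.Prime] (N D : Subgroup G) [N.Normal] [D.Normal]
    (hD : ∀ L : Subgroup G, L.Normal → L ≤ N → ¬ p ∣ Nat.card L → L ≤ D) (P : Sylow p G)
    (hN : N ⊓ (P : Subgroup G) ≤ (frattini P).map (P : Subgroup G).subtype) (hDN : D ≤ N) :
    IsPGroup p (N.map (QuotientGroup.mk' D)) ∧
      N.map (QuotientGroup.mk' D) ≤ frattini (G ⧸ D) := by
  set π := QuotientGroup.mk' D with hπ
  set L := Transfer.pPrimeGen p N with hL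
  have hLn : L.Normal := Transfer.pPrimeGen_normal N
  have hbot : L ⊓ (P : Subgroup G) = ⊥ := by
    rw [← Subgroup.subgroupOf_map_subtype, Transfer.pPrimeGen_inf_sylow_eq_bot P N hN,
      Subgroup.map_bot]
  have hLp : ¬ p ∣ Nat.card L := by
    intro hd
    obtain ⟨l, hl⟩ := exists_prime_orderOf_dvd_card' p hd
    have hlp : IsPGroup p (Subgroup.zpowers (l : G)) :=
      IsPGroup.of_card (n := 1) (by rw [Nat.card_zpowers, Subgroup.orderOf_coe, hl, pow_one])
    obtain ⟨S, hS⟩ := hlp.exists_le_sylow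
    obtain ⟨g, hg⟩ := MulAction.exists_smul_eq G S P
    have h1 : g * (l : G) * g⁻¹ ∈ L ⊓ (P : Subgroup G) := by
      refine ⟨hLn.conj_mem _ l.2 g, ?_⟩
      rw [← hg]
      exact ⟨l, hS (Subgroup.mem_zpowers _), rfl⟩
    rw [hbot, Subgroup.mem_bot, mul_inv_eq_one, mul_eq_left] at h1
    rw [show l = 1 from Subtype.ext h1, orderOf_one] at hl
    exact (Fact.out : p.Prime).ne_one hl.symm
  have hpg : IsPGroup p (N.map π) := by
    rintro ⟨_, n, hn, rfl⟩
    obtain ⟨k, hk⟩ := Transfer.pow_mem_pPrimeGen (p := p) N hn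
    refine ⟨k, Subtype.ext ?_⟩
    rw [SubmonoidClass.coe_pow, OneMemClass.coe_one, ← map_pow]
    exact (QuotientGroup.eq_one_iff _).2 (hD L hLn (Transfer.pPrimeGen_le N) hLp hk)
  refine ⟨hpg, le_iInf₂ fun H hH => ?_⟩
  have hsurj : Function.Surjective π := QuotientGroup.mk'_surjective D
  haveI : (N.map π).Normal := (inferInstance : N.Normal).map π hsurj
  set Pm := P.mapSurjective hsurj
  have hNP : N.map π ≤ (P : Subgroup G).map π := by
    have h1 : IsPGroup p ↥(N.map π ⊔ (Pm : Subgroup (G ⧸ D))) :=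
      hpg.to_sup_of_normal_left Pm.2
    have h2 := Pm.3 h1 le_sup_right
    exact (le_sup_left : N.map π ≤ _).trans h2.le
  have hlift : ∀ a ∈ N.map π, ∃ v ∈ N ⊓ (P : Subgroup G), π v = a := by
    intro a ha
    obtain ⟨v, hvP, rfl⟩ := hNP ha
    refine ⟨v, ⟨?_, hvP⟩, rfl⟩
    obtain ⟨n, hn, he⟩ := ha
    have hd : n⁻¹ * v ∈ D := (QuotientGroup.eq).1 (show (n : G ⧸ D) = v from he)
    simpa using N.mul_mem hn (hDN hd)
  by_contra hle
  obtain ⟨a, ha, haH⟩ := SetLike.not_le_iff_exists.1 hle
  have htop : N.map π ⊔ H = ⊤ := hH.2 _ (lt_of_le_of_ne le_sup_right fun e =>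
    hle (e.symm ▸ le_sup_left))
  set K := (H.comap π).subgroupOf (P : Subgroup G) with hK
  have hKtop : K ⊔ frattini P = ⊤ := by
    refine eq_top_iff.2 fun w _ => ?_
    obtain ⟨b, hb, c, hc, hbc⟩ := Subgroup.mem_sup_of_normal_left.1
      (htop.symm ▸ Subgroup.mem_top (π (w : G)) : π (w : G) ∈ N.map π ⊔ H)
    obtain ⟨v, hv, rfl⟩ := hlift b hb
    obtain ⟨v', hv', hve⟩ := hN hv
    have hwv : v'⁻¹ * w ∈ K := by
      rw [hK, Subgroup.mem_subgroupOf, Subgroup.mem_comap]
      have : π ((v'⁻¹ * w : P) : G) = c := by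
        have hve' : ((v' : P) : G) = v := hve
        rw [Subgroup.coe_mul, Subgroup.coe_inv, map_mul, map_inv, hve', ← hbc, inv_mul_cancel_left]
      rwa [this]
    have := Subgroup.mul_mem _ (Subgroup.mem_sup_right hv' : v' ∈ K ⊔ frattini P)
      (Subgroup.mem_sup_left hwv)
    simpa using this
  obtain ⟨v, hv, rfl⟩ := hlift a ha
  exact haH (show (⟨v, hv.2⟩ : P) ∈ K from frattini_nongenerating hKtop ▸ Subgroup.mem_top _)

/-- A minimal normal subgroup of a p-solvable group is a p-group or a p'-group. -/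
theorem minimal_normal_dichotomy {Y : Type u} [Group Y] [Finite Y] (p : ℕ) [Fact p.Prime]
    (h : Cfsg.IsPSolvable p Y) (N : Subgroup Y) [N.Normal] (hN : N ≠ ⊥)
    (hmin : ∀ L : Subgroup Y, L.Normal → L ≤ N → L = ⊥ ∨ L = N) :
    IsPGroup p N ∨ ¬ p ∣ Nat.card N := by
  haveI : Nontrivial N := (Subgroup.nontrivial_iff_ne_bot N).2 hN
  have key : ∀ C : Subgroup N, C.Characteristic → C ≠ ⊥ → C = ⊤ := by
    intro C hC hne
    have he := (hmin (C.map N.subtype) inferInstance (Subgroup.map_subtype_le C)).resolve_left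
      fun e => hne ((Subgroup.map_eq_bot_iff_of_injective _ N.subtype_injective).1 e)
    refine Subgroup.map_injective N.subtype_injective ?_
    rw [he, ← MonoidHom.range_eq_map, Subgroup.range_subtype]
  rcases Constrained.IsPSolvable.core_ne_bot (Constrained.IsPSolvable.subgroup h N) with hc | hc
  · left
    have hp := Constrained.isPGroup_pCore (p := p) (G := N)
    rw [key _ inferInstance hc] at hp
    exact hp.of_equiv Subgroup.topEquiv
  · right
    have hp := Constrained.pPrimeCore_not_dvd (p := p) (G := N)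
    rwa [key _ inferInstance hc, Subgroup.card_top] at hp

/-- A p-group is not divisible by another prime. -/
theorem not_dvd_of_isPGroup {Y : Type u} [Group Y] [Finite Y] {p r : ℕ} [hp : Fact p.Prime]
    [hr : Fact r.Prime] (h : IsPGroup p Y) (hne : r ≠ p) : ¬ r ∣ Nat.card Y := by
  obtain ⟨k, hk⟩ := IsPGroup.iff_card.1 h
  rw [hk]
  exact fun hd => hne ((Nat.prime_dvd_prime_iff_eq hr.out hp.out).1 (hr.out.dvd_of_dvd_pow hd))

/-- The case of a p-chief factor above the Frattini subgroup. -/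
theorem not_isPGroup_of_above_frattini {X : Type u} [Group X] [Finite X] (p q : ℕ)
    [Fact p.Prime] [Fact q.Prime] (hpq : p ≠ q) (A : Subgroup X) (hA : A ≤ frattini X)
    (hA' : ∀ L : Subgroup X, L.Normal → ¬ q ∣ Nat.card L → L ≤ A)
    (N : Subgroup (X ⧸ frattini X)) [N.Normal] (hN : IsPGroup p N) : N = ⊥ := by
  set Φ := frattini X
  set R := N.comap (QuotientGroup.mk' Φ)
  haveI : R.Normal := (inferInstance : N.Normal).comap _
  have hΦR : Φ ≤ R := fun x hx => by
    show QuotientGroup.mk' Φ x ∈ N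
    rw [show QuotientGroup.mk' Φ x = 1 from (QuotientGroup.eq_one_iff _).2 hx]
    exact N.one_mem
  obtain ⟨S⟩ : Nonempty (Sylow p R) := inferInstance
  have htop : Φ.subgroupOf R ⊔ (S : Subgroup R) = ⊤ := by
    rw [← Subgroup.index_eq_one]
    obtain ⟨k, hk⟩ := IsPGroup.iff_card.1 hN
    have h1 : (Φ.subgroupOf R).index = p ^ k := by
      show Φ.relIndex R = _
      rw [Constrained.relIndex_eq_card_map, Subgroup.map_comap_eq_self_of_surjective
        (QuotientGroup.mk'_surjective Φ), hk]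
    refine Nat.eq_one_of_dvd_coprimes (Nat.Coprime.pow_left k
      ((Fact.out : p.Prime).coprime_iff_not_dvd.2 S.not_dvd_index)) ?_
      (Subgroup.index_dvd_of_le le_sup_right)
    rw [← h1]
    exact Subgroup.index_dvd_of_le le_sup_left
  set S' := (S : Subgroup R).map R.subtype
  have hR : R = Φ ⊔ S' := by
    have := congrArg (Subgroup.map R.subtype) htop
    rw [Subgroup.map_sup, Subgroup.subgroupOf_map_subtype, inf_eq_left.2 hΦR,
      ← MonoidHom.range_eq_map, Subgroup.range_subtype] at this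
    exact this.symm
  have hnorm : Subgroup.normalizer (S' : Set X) = ⊤ := by
    refine frattini_nongenerating ?_
    have h1 := Sylow.normalizer_sup_eq_top S
    rw [eq_top_iff, ← h1]
    refine sup_le le_sup_left ?_
    rw [hR]
    exact sup_le le_sup_right (Subgroup.le_normalizer.trans le_sup_left)
  have hS'n : S'.Normal := Subgroup.normalizer_eq_top_iff.1 hnorm
  have hle : S' ≤ Φ := (hA' S' hS'n (not_dvd_of_isPGroup (S.2.map R.subtype) hpq.symm)).trans hA
  rw [← Subgroup.map_comap_eq_self_of_surjective (QuotientGroup.mk'_surjective Φ) N,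
    Subgroup.map_eq_bot_iff, QuotientGroup.ker_mk']
  exact hR.le.trans (sup_le le_rfl hle)

/-- The structure of `G` modulo `O_{p'}(G) ∩ O_{q'}(G)` is impossible. -/
theorem false_of_cores_le_frattini {X : Type u} [Group X] [Finite X] [Nontrivial X] (p q : ℕ)
    [Fact p.Prime] [Fact q.Prime] (hpq : p ≠ q) (hps : Cfsg.IsPSolvable p X)
    (hqs : Cfsg.IsPSolvable q X) (A B : Subgroup X) (hAp : IsPGroup p A) (hBq : IsPGroup q B)
    (hA : A ≤ frattini X) (hB : B ≤ frattini X)
    (hA' : ∀ L : Subgroup X, L.Normal → ¬ q ∣ Nat.card L → L ≤ A)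
    (hB' : ∀ L : Subgroup X, L.Normal → ¬ p ∣ Nat.card L → L ≤ B) : False := by
  classical
  set Φ := frattini X with hΦ
  haveI : Nontrivial (X ⧸ Φ) := QuotientGroup.nontrivial_iff.2 fun e => by
    have := frattini_nongenerating (G := X) (K := ⊥) (by rw [bot_sup_eq]; exact e)
    exact bot_ne_top this
  obtain ⟨N, -, hNn, hN, hmin⟩ :=
    Solvable.exists_minimal_normal_le (⊤ : Subgroup (X ⧸ Φ)) (by exact top_ne_bot)
  rcases minimal_normal_dichotomy p (Constrained.IsPSolvable.quotient hps Φ) N hN hmin with hNp | hNp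
  · exact hN (not_isPGroup_of_above_frattini p q hpq A hA hA' N hNp)
  rcases minimal_normal_dichotomy q (Constrained.IsPSolvable.quotient hqs Φ) N hN hmin with hNq | hNq
  · exact hN (not_isPGroup_of_above_frattini q p hpq.symm B hB hB' N hNq)
  -- a chief factor prime to `p q` has a normal complement to the Frattini subgroup
  haveI hΦnil : Group.IsNilpotent Φ := frattini_nilpotent
  have hco : (Nat.card Φ).Coprime (Nat.card N) := by
    refine Nat.coprime_of_dvd fun r hr hrΦ hrN => ?_
    haveI := Fact.mk hr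
    have hrp : r ≠ p := fun e => hNp (e ▸ hrN)
    have hrq : r ≠ q := fun e => hNq (e ▸ hrN)
    obtain ⟨S⟩ : Nonempty (Sylow r Φ) := inferInstance
    haveI : (S : Subgroup Φ).Normal :=
      ((((Group.isNilpotent_of_finite_tfae (G := Φ)).out 0 3 :
        Group.IsNilpotent Φ ↔ ∀ (t : ℕ) (_ : Fact t.Prime) (S : Sylow t Φ), (S : Subgroup Φ).Normal)).1 hΦnil) r ⟨hr⟩ S
    haveI : (S : Subgroup Φ).Characteristic := Sylow.characteristic_of_normal S inferInstance
    have hle := hA' ((S : Subgroup Φ).map Φ.subtype) inferInstance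
      (not_dvd_of_isPGroup (S.2.map Φ.subtype) hrq.symm)
    refine not_dvd_of_isPGroup hAp hrp ?_
    refine dvd_trans ?_ (Subgroup.card_dvd_of_le hle)
    rw [Constrained.card_map_of_injective _ Φ.subtype_injective]
    exact S.dvd_card_of_dvd_card hrΦ
  set R := N.comap (QuotientGroup.mk' Φ) with hRdef
  haveI : R.Normal := hNn.comap _
  have hΦR : Φ ≤ R := fun x hx => by
    show QuotientGroup.mk' Φ x ∈ N
    rw [show QuotientGroup.mk' Φ x = 1 from (QuotientGroup.eq_one_iff _).2 hx]
    exact N.one_mem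
  have hidx : (Φ.subgroupOf R).index = Nat.card N := by
    show Φ.relIndex R = _
    rw [Constrained.relIndex_eq_card_map, Subgroup.map_comap_eq_self_of_surjective
      (QuotientGroup.mk'_surjective Φ)]
  have hcardΦ : Nat.card (Φ.subgroupOf R) = Nat.card Φ :=
    Nat.card_congr (Subgroup.subgroupOfEquivOfLe hΦR).toEquiv
  obtain ⟨T, hT⟩ := Subgroup.exists_right_complement'_of_coprime (N := Φ.subgroupOf R)
    (by rw [hcardΦ, hidx]; exact hco)
  set T' := T.map R.subtype with hT'
  have hTc : Nat.card T' = Nat.card N := by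
    rw [hT', Constrained.card_map_of_injective _ R.subtype_injective, ← hidx, hT.symm.index_eq_card]
  have hR : T' ⊔ Φ = R := by
    have := congrArg (Subgroup.map R.subtype) hT.sup_eq_top
    rw [Subgroup.map_sup, Subgroup.subgroupOf_map_subtype, inf_eq_left.2 hΦR,
      ← MonoidHom.range_eq_map, Subgroup.range_subtype] at this
    rw [sup_comm]; exact this
  have hnorm : Subgroup.normalizer (T' : Set X) = ⊤ := by
    refine frattini_nongenerating (eq_top_iff.2 fun g _ => ?_)
    have hfix : ∀ M : Subgroup X, M.Normal → MulAut.conj g • M = M := fun M hM => by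
      haveI := hM
      exact Subgroup.Normal.map_conj_eq (H := M) g
    obtain ⟨n, hn, hng⟩ := Solvable.exists_conj_of_sup_eq Φ (MulAut.conj g • T') T'
      (by conv_lhs => rw [← hfix Φ inferInstance]
          rw [← Subgroup.smul_sup, hR, hfix R inferInstance])
      (by rw [Nat.card_congr (Subgroup.equivSMul _ T').symm.toEquiv, hTc]; exact hco.symm)
      (by rw [hTc]; exact hco.symm) (Or.inl inferInstance)
    rw [smul_smul, ← map_mul] at hng
    have hmem : n * g ∈ Subgroup.normalizer (T' : Set X) := by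
      refine Subgroup.mem_normalizer_iff.2 fun x => ?_
      conv_rhs => rw [← hng]
      exact (Subgroup.smul_mem_pointwise_smul_iff (a := MulAut.conj (n * g)) (S := T') (x := x)).symm
    have := Subgroup.mul_mem (Subgroup.normalizer (T' : Set X) ⊔ Φ)
      (Subgroup.mem_sup_right (Φ.inv_mem hn)) (Subgroup.mem_sup_left hmem)
    simpa using this
  have hle : T' ≤ Φ := (hB' T' (Subgroup.normalizer_eq_top_iff.1 hnorm)
    (by rw [hTc]; exact hNp)).trans hB
  refine hN ?_
  rw [← Subgroup.map_comap_eq_self_of_surjective (QuotientGroup.mk'_surjective Φ) N,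
    Subgroup.map_eq_bot_iff, QuotientGroup.ker_mk', ← hRdef, ← hR]
  exact sup_le hle le_rfl


/-- Let p and q be primes dividing the order of the finite group G, and suppose G is p-solvable and q-solvable. Fix maximal ideals of the algebraic integers containing p and q, defining the principal p-block and the principal q-block. If the irreducible characters of degree prime to p in the principal p-block are exactly the irreducible characters of degree prime to q in the principal q-block, then p = q. -/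
theorem result {G : Type*} [Group G] [Finite G] (p q : ℕ) [Fact p.Prime] [Fact q.Prime] (hp : p ∣ Nat.card G) (hq : q ∣ Nat.card G) (hps : Cfsg.IsPSolvable p G) (hqs : Cfsg.IsPSolvable q G) (Mp Mq : Ideal Cfsg.AlgInt) (hMp : Cfsg.IsPModular p Mp) (hMq : Cfsg.IsPModular q Mq) (h : ∀ χ : Cfsg.IrrCharacter G, (χ ∈ Cfsg.principalBlock Mp G ∧ ¬ p ∣ Cfsg.charDegree (χ : G → ℂ)) ↔ (χ ∈ Cfsg.principalBlock Mq G ∧ ¬ q ∣ Cfsg.charDegree (χ : G → ℂ))) : p = q := by
  by_contra hpq
  have hN : Cfsg.pPrimeCore q G ⊓ Cfsg.pPrimeCore p G =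
      Cfsg.pPrimeCore p G ⊓ Cfsg.pPrimeCore q G := inf_comm _ _
  set D := Cfsg.pPrimeCore p G ⊓ Cfsg.pPrimeCore q G with hD
  have hDp : ¬ p ∣ Nat.card D := fun hd => Constrained.pPrimeCore_not_dvd (p := p) (G := G)
    (hd.trans (Subgroup.card_dvd_of_le inf_le_left))
  have hDq : ¬ q ∣ Nat.card D := fun hd => Constrained.pPrimeCore_not_dvd (p := q) (G := G)
    (hd.trans (Subgroup.card_dvd_of_le inf_le_right))
  obtain ⟨P⟩ : Nonempty (Sylow p G) := inferInstance
  obtain ⟨Q⟩ : Nonempty (Sylow q G) := inferInstance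
  have hA := isPGroup_map_le_frattini p (Cfsg.pPrimeCore q G) D
    (fun L hL hle hd => le_inf (Constrained.le_pPrimeCore_of_not_dvd hL hd) hle) P
    (core_inf_sylow_le p q hps hMp hMq (fun χ h1 h2 => ((h χ).1 ⟨h1, h2⟩).1) P) inf_le_right
  have hB := isPGroup_map_le_frattini q (Cfsg.pPrimeCore p G) D
    (fun L hL hle hd => le_inf hle (Constrained.le_pPrimeCore_of_not_dvd hL hd)) Q
    (core_inf_sylow_le q p hqs hMq hMp (fun χ h1 h2 => ((h χ).2 ⟨h1, h2⟩).1) Q) inf_le_left
  haveI : Nontrivial (G ⧸ D) := QuotientGroup.nontrivial_iff.2 fun e =>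
    hDp (by rw [e, Subgroup.card_top]; exact hp)
  have key : ∀ r : ℕ, r.Prime → ¬ r ∣ Nat.card D → ∀ L : Subgroup (G ⧸ D), L.Normal →
      ¬ r ∣ Nat.card L → L ≤ (Cfsg.pPrimeCore r G).map (QuotientGroup.mk' D) := by
    intro r hr hrD L hL hd
    haveI := Fact.mk hr
    refine le_of_eq_of_le (Subgroup.map_comap_eq_self_of_surjective
      (QuotientGroup.mk'_surjective D) L).symm (Subgroup.map_mono ?_)
    refine Constrained.le_pPrimeCore_of_not_dvd (hL.comap _) fun hdd => ?_
    have hle : D ≤ L.comap (QuotientGroup.mk' D) := fun x hx => by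
      rw [Subgroup.mem_comap, show QuotientGroup.mk' D x = 1 from (QuotientGroup.eq_one_iff _).2 hx]
      exact L.one_mem
    have h1 : Nat.card D * D.relIndex (L.comap (QuotientGroup.mk' D)) =
        Nat.card (L.comap (QuotientGroup.mk' D)) := by
      rw [← Subgroup.relIndex_bot_left D, ← Subgroup.relIndex_bot_left (L.comap _)]
      exact Subgroup.relIndex_mul_relIndex _ _ _ bot_le hle
    rw [Constrained.relIndex_eq_card_map, Subgroup.map_comap_eq_self_of_surjective
      (QuotientGroup.mk'_surjective D)] at h1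
    rw [← h1] at hdd
    exact (hr.dvd_mul.1 hdd).elim hrD hd
  exact false_of_cores_le_frattini p q hpq (Constrained.IsPSolvable.quotient hps D) (Constrained.IsPSolvable.quotient hqs D) _ _ hA.1 hB.1
    hA.2 hB.2 (key q Fact.out hDq) (key p Fact.out hDp)

end Cfsg.Agent.S4885
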