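import Cfsg.Statements.S2257
import Cfsg.Agent.Dickson.MaxPoly
import Cfsg.Agent.SL2.Torus
import Cfsg.Agent.SmallIso.PSLTwo
import Cfsg.Agent.Classical.Linear.Simple

set_option autoImplicit false
open Cfsg
open CfsgLib.Dickson Matrix
open scoped MatrixGroups commutatorElement

namespace Cfsg.Agent.S2257

open CfsgLib

/-- What subgroups inside dihedral groups of twice odd order satisfy. -/
def Dih (H : Type*) [Group H] : Prop :=
  ∀ x y : H, x ≠ 1 → (x * x = 1 → y * y = 1 ∨ (x * y) * (x * y) = 1) ∧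
    (x * x ≠ 1 → y * x * y⁻¹ = x ∨ y * x * y⁻¹ = x⁻¹)

theorem dih_of_equiv {H K : Type*} [Group H] [Group K] (e : H ≃* K) (h : Dih K) : Dih H := by
  intro x y hx
  obtain ⟨h1, h2⟩ := h (e x) (e y) (fun hh => hx (e.injective (hh.trans e.map_one.symm)))
  refine ⟨fun hxx => ?_, fun hxx => ?_⟩
  · rcases h1 (by rw [← map_mul, hxx, map_one]) with h | h
    · exact Or.inl (e.injective (by rw [map_mul, h, map_one]))
    · exact Or.inr (e.injective (by rw [map_mul, map_mul, h, map_one]))
  · rcases h2 (fun hh => hxx (e.injective (by rw [map_mul, hh, map_one]))) with h | h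
    · exact Or.inl (e.injective (by rw [map_mul, map_mul, map_inv, h]))
    · exact Or.inr (e.injective (by rw [map_mul, map_mul, map_inv, h, map_inv]))

/-- Commutators commute. -/
def Meta (H : Type*) [Group H] : Prop := ∀ a b c d : H, ⁅⁅a, b⁆, ⁅c, d⁆⁆ = 1

theorem meta_of_equiv {H K : Type*} [Group H] [Group K] (e : H ≃* K) (h : Meta K) : Meta H :=
  fun a b c d => e.injective (by simp only [map_commutatorElement, map_one]; exact h _ _ _ _)

theorem meta_dihedral {n : ℕ} : Meta (DihedralGroup n) := by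
  have hc : ∀ a b : DihedralGroup n, ∃ i, ⁅a, b⁆ = DihedralGroup.r i := by
    intro a b
    rw [commutatorElement_def]
    cases a <;> cases b <;> exact ⟨_, rfl⟩
  intro a b c d
  obtain ⟨i, hi⟩ := hc a b
  obtain ⟨j, hj⟩ := hc c d
  rw [hi, hj, commutatorElement_eq_one_iff_mul_comm, DihedralGroup.r_mul_r, DihedralGroup.r_mul_r, add_comm]

theorem isSolvable_of_meta {H : Type*} [Group H] (h : Meta H) : Group.IsSolvable H := by
  refine ⟨⟨2, ?_⟩⟩
  rw [derivedSeries_succ, derivedSeries_one, eq_bot_iff, Subgroup.commutator_le]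
  have key : ∀ x ∈ commutator H, ∀ y ∈ commutator H, Commute x y := by
    intro x hx y hy
    rw [commutator_eq_closure] at hx hy
    induction hx, hy using Subgroup.closure_induction₂ with
    | mem x y hx hy =>
      obtain ⟨a, b, rfl⟩ := hx
      obtain ⟨c, d, rfl⟩ := hy
      exact commutatorElement_eq_one_iff_mul_comm.mp (h a b c d)
    | one_left => exact Commute.one_left _
    | one_right => exact Commute.one_right _
    | mul_left x y z _ _ _ h1 h2 => exact h1.mul_left h2
    | mul_right x y z _ _ _ h1 h2 => exact h1.mul_right h2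
    | inv_left x y _ _ h => exact h.inv_left
    | inv_right x y _ _ h => exact h.inv_right
  exact fun x hx y hy => Subgroup.mem_bot.mpr (commutatorElement_eq_one_iff_mul_comm.mpr (key x hx y hy))

theorem meta_cyclic {H : Type*} [Group H] (hc : IsCyclic H) : Meta H := fun a b c d => by
  obtain ⟨g, hg⟩ := IsCyclic.exists_generator (α := H)
  have hcomm : ∀ u v : H, u * v = v * u := fun u v => by
    obtain ⟨i, rfl⟩ := Subgroup.mem_zpowers_iff.mp (hg u)
    obtain ⟨j, rfl⟩ := Subgroup.mem_zpowers_iff.mp (hg v)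
    group
  rw [commutatorElement_eq_one_iff_mul_comm]
  exact hcomm _ _

theorem dih_dihedral {n : ℕ} (hn : Odd n) : Dih (DihedralGroup n) := by
  have h2 : ∀ i : ZMod n, i + i = 0 → i = 0 := by
    intro i hi
    obtain ⟨k, hk⟩ := hn
    have hz : ((2 * k + 1 : ℕ) : ZMod n) = 0 := by rw [← hk]; exact ZMod.natCast_self n
    push_cast at hz
    linear_combination i * hz - (k : ZMod n) * hi
  rintro (i | i) (j | j) hx <;>
    simp only [DihedralGroup.r_mul_r, DihedralGroup.r_mul_sr, DihedralGroup.sr_mul_r,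
      DihedralGroup.sr_mul_sr, DihedralGroup.inv_r, DihedralGroup.inv_sr, DihedralGroup.one_def,
      sub_self, or_true, true_or, implies_true, and_true, true_and, ne_eq,
      not_true_eq_false, false_implies]
  · refine ⟨fun h => ?_, fun _ => Or.inl (by congr 1; ring)⟩
    exact absurd (congrArg DihedralGroup.r (h2 i (DihedralGroup.r.inj h))) hx
  · exact fun _ => Or.inr (by congr 1; ring)

theorem dih_cyclic {H : Type*} [Group H] [Finite H] (hc : IsCyclic H) (ho : ¬ 2 ∣ Nat.card H) : Dih H := by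
  intro x y hx
  refine ⟨fun h => ?_, fun _ => Or.inl ?_⟩
  · exfalso
    rw [← pow_two] at h
    exact ho (orderOf_eq_prime h hx ▸ orderOf_dvd_natCard x)
  · obtain ⟨g, hg⟩ := IsCyclic.exists_generator (α := H)
    obtain ⟨i, hi⟩ := Subgroup.mem_zpowers_iff.mp (hg x)
    obtain ⟨j, hj⟩ := Subgroup.mem_zpowers_iff.mp (hg y)
    rw [← hi, ← hj]
    group

section

variable {F : Type*} [Field F] [Fintype F] [DecidableEq F] [CharP F 2]

/-- `SL(2, F)` in characteristic two is `PSL(2, F)`. -/
noncomputable def slEquiv : SL(2, F) ≃* Matrix.ProjectiveSpecialLinearGroup (Fin 2) F :=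
  MulEquiv.ofBijective (QuotientGroup.mk' _)
    ⟨(MonoidHom.ker_eq_bot_iff _).mp (by rw [QuotientGroup.ker_mk', SL2.center_eq_bot]),
      QuotientGroup.mk'_surjective _⟩

omit [DecidableEq F] [CharP F 2] in
theorem isSimple_psl (h4 : 4 ≤ Fintype.card F) :
    IsSimpleGroup (Matrix.ProjectiveSpecialLinearGroup (Fin 2) F) :=
  CfsgLib.Classical.Linear.isSimpleGroup_psl_fin le_rfl fun _ => by
    rwa [Nat.card_eq_fintype_card]

omit [DecidableEq F] [CharP F 2] in
theorem sl_not_comm : ¬ ∀ a b : SL(2, F), a * b = b * a := by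
  intro h
  have h' := congrArg (fun g : SL(2, F) => g 0 0) (h (SL2.u 1) (SL2.l 1))
  simp [SL2.coe_u, SL2.coe_l, Matrix.mul_apply, Fin.sum_univ_two] at h'

variable {p : ℕ} (hp : p.Prime) (hF : Fintype.card F = 2 ^ p)
include hp hF

omit [DecidableEq F] [CharP F 2] in
theorem four_le : 4 ≤ Fintype.card F := by
  rw [hF]
  calc 4 = 2 ^ 2 := rfl
    _ ≤ 2 ^ p := Nat.pow_le_pow_right (by norm_num) hp.two_le

/-- The proper subgroups of `SL(2, 2^p)`. -/
theorem proper_cases (H : Subgroup SL(2, F)) (hH : H ≠ ⊤) :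
    (∃ c : SL(2, F), ∀ h ∈ H, c * h * c⁻¹ ∈ (SL2.B : Subgroup SL(2, F))) ∨ (Dih H ∧ Meta H) := by
  have : Fact (Nat.Prime 2) := ⟨Nat.prime_two⟩
  set e := slEquiv (F := F)
  set H' := H.map e.toMonoidHom
  let eH : H ≃* H' := H.equivMapOfInjective _ e.injective
  rcases classify_psl 2 H' with ⟨z, hz⟩ | ⟨hc, ho, -⟩ | ⟨n, -, hn, ⟨i⟩, -⟩ | ⟨h, -⟩ | ⟨h, -⟩ | ⟨h, -⟩ |
    ⟨L, m, hm, ⟨⟨i⟩, -⟩ | ⟨h, -⟩⟩
  · left
    obtain ⟨g, rfl⟩ := exists_psl_smul_infty z
    rw [pslStab_smul, pslStab_infty] at hz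
    refine ⟨(e.symm g)⁻¹, fun h hh => ?_⟩
    obtain ⟨_, ⟨b, hb, rfl⟩, hbe⟩ := hz ⟨h, hh, rfl⟩
    have : b = (e.symm g)⁻¹ * h * ((e.symm g)⁻¹)⁻¹ := by
      refine e.injective ?_
      rw [map_mul, map_mul, inv_inv, map_inv, e.apply_symm_apply]
      have hbe' : g * e b * g⁻¹ = e h := hbe
      rw [← hbe']
      group
    exact this ▸ hb
  · exact Or.inr ⟨dih_of_equiv eH (dih_cyclic hc ho), meta_of_equiv eH (meta_cyclic hc)⟩
  · exact Or.inr ⟨dih_of_equiv (eH.trans i) (dih_dihedral (Nat.odd_iff.mpr (by omega))),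
      meta_of_equiv (eH.trans i) meta_dihedral⟩
  · exact absurd (by norm_num) h
  · exact absurd (by norm_num) h
  · exact absurd (by norm_num) (h.resolve_right (by norm_num))
  · let _ : Fintype L := Fintype.ofFinite _
    have : CharP L 2 := L.subtype.charP Subtype.val_injective 2
    have hm0 : m ≠ 0 := fun h => by
      rw [h, pow_zero] at hm
      exact Fintype.one_lt_card.ne hm
    rw [hF] at hm
    obtain ⟨f, -, hf⟩ := (Nat.dvd_prime_pow Nat.prime_two).mp
      (show Nat.card L ∣ 2 ^ p from hm ▸ dvd_pow_self (Nat.card L) hm0)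
    rw [hf, ← pow_mul] at hm
    rcases hp.eq_one_or_self_of_dvd f ⟨m, (Nat.pow_right_injective le_rfl hm).symm⟩ with rfl | rfl
    · right
      obtain ⟨eL⟩ := psl_equiv_pgl (F := L)
      obtain ⟨eS⟩ := SmallIso.sl_two_card_two (F := L) (by rw [← Nat.card_eq_fintype_card, hf]; rfl)
      let e6 := (eH.trans i).trans (eL.symm.trans ((slEquiv (F := L)).symm.trans eS))
      exact ⟨dih_of_equiv e6 (by intro x y; revert x y; decide +kernel),
        meta_of_equiv e6 (by intro a b c d; revert a b c d; decide +kernel)⟩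
    · exfalso
      refine hH (Subgroup.eq_top_of_card_eq _ ?_)
      rw [Nat.card_congr (eH.trans i).toEquiv, card_pgl2, ← Nat.card_eq_fintype_card, hf,
        SL2.card_SL, hF, pgl_card_eq]
  · exact absurd rfl h

omit hp hF in
theorem meta_B {H : Subgroup SL(2, F)} {c : SL(2, F)}
    (h : ∀ u ∈ H, c * u * c⁻¹ ∈ (SL2.B : Subgroup SL(2, F))) : Meta H := by
  have hcomm : ∀ a b : SL(2, F), a ∈ (SL2.B : Subgroup SL(2, F)) → b ∈ (SL2.B : Subgroup SL(2, F)) →
      ⁅a, b⁆ ∈ (SL2.U : Subgroup SL(2, F)) := by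
    intro a b ha hb
    have h00 : ∀ g k : SL(2, F), k ∈ (SL2.B : Subgroup SL(2, F)) → (g * k) 0 0 = g 0 0 * k 0 0 := by
      intro g k hk
      simp [Matrix.SpecialLinearGroup.coe_mul, Matrix.mul_apply, Fin.sum_univ_two, (show k 1 0 = 0 from hk)]
    have h11 : ∀ g k : SL(2, F), g ∈ (SL2.B : Subgroup SL(2, F)) → (g * k) 1 1 = g 1 1 * k 1 1 := by
      intro g k hg
      simp [Matrix.SpecialLinearGroup.coe_mul, Matrix.mul_apply, Fin.sum_univ_two, (show g 1 0 = 0 from hg)]
    have e0 : ∀ g : SL(2, F), g ∈ (SL2.B : Subgroup SL(2, F)) → g 0 0 * g⁻¹ 0 0 = 1 := fun g hg => by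
      rw [← h00 g g⁻¹ (inv_mem hg), mul_inv_cancel]; simp
    have e1 : ∀ g : SL(2, F), g ∈ (SL2.B : Subgroup SL(2, F)) → g 1 1 * g⁻¹ 1 1 = 1 := fun g hg => by
      rw [← h11 g g⁻¹ hg, mul_inv_cancel]; simp
    rw [SL2.mem_U_iff_entries, commutatorElement_def]
    refine ⟨?_, mul_mem (mul_mem (mul_mem ha hb) (inv_mem ha)) (inv_mem hb), ?_⟩
    · rw [h00 _ _ (inv_mem hb), h00 _ _ (inv_mem ha), h00 _ _ hb, mul_right_comm (a 0 0), e0 a ha,
        one_mul, e0 b hb]
    · rw [h11 _ _ (mul_mem (mul_mem ha hb) (inv_mem ha)), h11 _ _ (mul_mem ha hb), h11 _ _ ha,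
        mul_right_comm (a 1 1), e1 a ha, one_mul, e1 b hb]
  intro a b x y
  apply Subtype.ext
  obtain ⟨s, hs⟩ := SL2.mem_U.mp (hcomm _ _ (h a a.2) (h b b.2))
  obtain ⟨t, ht⟩ := SL2.mem_U.mp (hcomm _ _ (h x x.2) (h y y.2))
  refine (MulAut.conj c).injective ?_
  simp only [Subgroup.coe_one, map_one]
  show MulAut.conj c (H.subtype ⁅⁅a, b⁆, ⁅x, y⁆⁆) = 1
  simp only [map_commutatorElement, Subgroup.subtype_apply]
  show ⁅⁅c * a * c⁻¹, c * b * c⁻¹⁆, ⁅c * x * c⁻¹, c * y * c⁻¹⁆⁆ = 1
  rw [hs, ht, commutatorElement_eq_one_iff_mul_comm, ← SL2.u_add, ← SL2.u_add, add_comm]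

omit [DecidableEq F] [CharP F 2] in
/-- A normalised cyclic subgroup keeps a generated subgroup proper. -/
theorem closure_ne_top {S : Set SL(2, F)} {z : SL(2, F)} [CharP F 2] (hz : z ≠ 1)
    (hS : ∀ s ∈ S, s * z * s⁻¹ ∈ Subgroup.zpowers z) : Subgroup.closure S ≠ ⊤ := by
  classical
  intro htop
  have : IsSimpleGroup SL(2, F) :=
    have := isSimple_psl (F := F) (four_le hp hF)
    MulEquiv.isSimpleGroup slEquiv
  have hle : Subgroup.closure S ≤ Subgroup.normalizer (Subgroup.zpowers z : Set SL(2, F)) := by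
    rw [Subgroup.closure_le]
    intro s hs
    rw [SetLike.mem_coe, Subgroup.mem_normalizer_iff_map_conj_eq, MonoidHom.map_zpowers]
    refine Subgroup.eq_of_le_of_card_ge (Subgroup.zpowers_le.mpr (hS s hs)) ?_
    rw [Nat.card_zpowers, Nat.card_zpowers]
    exact le_of_eq (orderOf_injective (MulAut.conj s).toMonoidHom (MulAut.conj s).injective z).symm
  rw [htop, top_le_iff] at hle
  have := Subgroup.normalizer_eq_top_iff.mp hle
  rcases this.eq_bot_or_eq_top with h | h
  · exact hz (Subgroup.zpowers_eq_bot.mp h)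
  · refine sl_not_comm (F := F) fun a b => ?_
    have ha : a ∈ Subgroup.zpowers z := h ▸ Subgroup.mem_top a
    have hb : b ∈ Subgroup.zpowers z := h ▸ Subgroup.mem_top b
    obtain ⟨i, rfl⟩ := Subgroup.mem_zpowers_iff.mp ha
    obtain ⟨j, rfl⟩ := Subgroup.mem_zpowers_iff.mp hb
    group

/-- Solvable means proper. -/
theorem isSolvable_iff (H : Subgroup SL(2, F)) : Group.IsSolvable H ↔ H ≠ ⊤ := by
  constructor
  · rintro hs rfl
    have : IsSimpleGroup SL(2, F) :=
      have := isSimple_psl (F := F) (four_le hp hF)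
      MulEquiv.isSimpleGroup slEquiv
    have : Group.IsSolvable SL(2, F) :=
      Group.isSolvable_of_surjective (f := (⊤ : Subgroup SL(2, F)).subtype) (fun g => ⟨⟨g, trivial⟩, rfl⟩)
    exact sl_not_comm (F := F) fun a b => IsSimpleGroup.comm_iff_isSolvable.mpr this a b
  · intro h
    rcases proper_cases hp hF H h with ⟨c, hc⟩ | ⟨-, hm⟩
    · exact isSolvable_of_meta (meta_B hc)
    · exact isSolvable_of_meta hm

omit [DecidableEq F] [CharP F 2] in
theorem card_B : Nat.card (SL2.B : Subgroup SL(2, F)) = Fintype.card F * (Fintype.card F - 1) := by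
  have h := (SL2.B : Subgroup SL(2, F)).card_mul_index
  rw [SL2.B_index, SL2.card_SL] at h
  refine Nat.eq_of_mul_eq_mul_right (show 0 < Fintype.card F + 1 by omega) (h.trans ?_)
  rw [pow_two, show 1 = 1 * 1 from rfl, Nat.mul_self_sub_mul_self_eq]
  ring

omit [DecidableEq F] in
theorem mul_self_eq_one_iff (g : SL(2, F)) : g * g = 1 ↔ SL2.tr g = 0 ∨ g = 1 := by
  constructor
  · intro h
    by_contra hne
    push Not at hne
    obtain ⟨ht, hg1⟩ := hne
    have hm : (g : Matrix (Fin 2) (Fin 2) F) * g = 1 := by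
      simpa using congrArg Subtype.val h
    rw [SL2.coe_sq, CharTwo.sub_eq_add] at hm
    have h00 := congrFun (congrFun hm 0) 0
    have h01 := congrFun (congrFun hm 0) 1
    have h10 := congrFun (congrFun hm 1) 0
    have h11 := congrFun (congrFun hm 1) 1
    simp at h00 h01 h10 h11
    exact hg1 (by
      exfalso
      rcases h01 with h | h
      · exact ht h
      rcases h10 with h' | h'
      · exact ht h'
      rcases h00 with h'' | h''
      · exact ht h''
      rcases h11 with h3 | h3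
      · exact ht h3
      have hd := SL2.det_eq g
      rw [h, h', h'', h3] at hd
      simp at hd)
  · rintro (h | rfl)
    · rw [SL2.mul_self_of_tr_eq_zero h, SL2.neg_one_eq_one]
    · rw [one_mul]

omit [DecidableEq F] in
theorem card_involutive : Nat.card {g : SL(2, F) // g * g = 1} = Fintype.card F ^ 2 ∧
    Nat.card {g : SL(2, F) // g * g = 1 ∧ g ∈ (SL2.B : Subgroup SL(2, F))} = Fintype.card F := by
  classical
  have hiff : ∀ g : SL(2, F), g * g = 1 ↔ g 0 0 = g 1 1 := fun g => by
    rw [mul_self_eq_one_iff hp hF, SL2.tr, CharTwo.add_eq_zero]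
    constructor
    · rintro (h | rfl) <;> [exact h; simp]
    · exact Or.inl
  have hsq : ∀ v : F, ∃ a : F, a * a = v := fun v => by
    obtain ⟨a, ha⟩ := FiniteField.isSquare_of_char_two (ringChar.eq F 2) v
    exact ⟨a, ha.symm⟩
  choose r hr using hsq
  have huniq : ∀ a b : F, a * a = b * b → a = b := fun a b h => CharTwo.sq_injective (by simpa [pow_two] using h)
  let mk : F × F → SL(2, F) := fun v => SL2.mk4 (r (1 + v.1 * v.2)) v.1 v.2 (r (1 + v.1 * v.2))
    (by rw [hr]; ring)
  have e : {g : SL(2, F) // g * g = 1} ≃ F × F :=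
    { toFun := fun g => (g.1 0 1, g.1 1 0)
      invFun := fun v => ⟨mk v, (hiff _).mpr rfl⟩
      left_inv := fun g => by
        have hd := SL2.det_eq g.1
        have hg := (hiff g.1).mp g.2
        rw [← hg] at hd
        have h0 : r (1 + g.1 0 1 * g.1 1 0) = g.1 0 0 := huniq _ _ (by rw [hr]; linear_combination -hd)
        refine Subtype.ext ?_
        ext i j
        fin_cases i <;> fin_cases j <;> simp [mk, h0, ← hg]
      right_inv := fun v => by simp [mk] }
  refine ⟨by rw [Nat.card_congr e, Nat.card_prod, Nat.card_eq_fintype_card, pow_two], ?_⟩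
  rw [← Nat.card_eq_fintype_card]
  refine Nat.card_congr
    { toFun := fun g => g.1 0 1
      invFun := fun t => ⟨SL2.u t, (hiff _).mpr (by simp), by simp⟩
      left_inv := fun g => by
        have hd := SL2.det_eq g.1
        have hg := (hiff g.1).mp g.2.1
        have h10 : g.1 1 0 = 0 := g.2.2
        rw [← hg, h10, mul_zero, sub_zero] at hd
        have h0 : g.1 0 0 = 1 := huniq _ _ (by rw [hd, one_mul])
        refine Subtype.ext ?_
        ext i j
        fin_cases i <;> fin_cases j <;> simp [h0, h10, ← hg]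
      right_inv := fun t => by simp }

/-- The solubilizer of an element of `SL(2, F)`. -/
def Sol (x : SL(2, F)) : Set SL(2, F) :=
  {y | Group.IsSolvable (Subgroup.closure ({x, y} : Set SL(2, F)))}

theorem card_sol_map (c x : SL(2, F)) : Nat.card (Sol x) = Nat.card (Sol (c * x * c⁻¹)) := by
  have key : ∀ y, y ∈ Sol x ↔ MulAut.conj c y ∈ Sol (c * x * c⁻¹) := by
    intro y
    have hmap : Subgroup.closure ({c * x * c⁻¹, MulAut.conj c y} : Set SL(2, F)) =
        (Subgroup.closure ({x, y} : Set SL(2, F))).map (MulAut.conj c).toMonoidHom := by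
      rw [MonoidHom.map_closure, Set.image_pair]
      rfl
    show Group.IsSolvable _ ↔ Group.IsSolvable _
    rw [isSolvable_iff hp hF, isSolvable_iff hp hF, hmap]
    exact not_congr ⟨fun h => by rw [h, Subgroup.map_top_of_surjective _ (MulAut.conj c).surjective],
      fun h => Subgroup.map_injective (MulAut.conj c).injective
        (h.trans (Subgroup.map_top_of_surjective _ (MulAut.conj c).surjective).symm)⟩
  exact Nat.card_congr ((MulAut.conj c).toEquiv.subtypeEquiv key)

theorem mem_sol {x y : SL(2, F)} : y ∈ Sol x ↔ Subgroup.closure ({x, y} : Set SL(2, F)) ≠ ⊤ :=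
  isSolvable_iff hp hF _

theorem mem_sol_of_B {x y c : SL(2, F)} (hx : c * x * c⁻¹ ∈ (SL2.B : Subgroup SL(2, F)))
    (hy : c * y * c⁻¹ ∈ (SL2.B : Subgroup SL(2, F))) : y ∈ Sol x := by
  refine isSolvable_of_meta (meta_B (c := c) fun u hu => ?_)
  have hle : Subgroup.closure ({x, y} : Set SL(2, F)) ≤
      (SL2.B : Subgroup SL(2, F)).comap (MulAut.conj c).toMonoidHom := by
    rw [Subgroup.closure_le]
    rintro v (rfl | rfl)
    · exact hx
    · exact hy
  exact hle hu

theorem mem_sol_of_conj {x y : SL(2, F)} (hx : x ≠ 1) (h : y * x * y⁻¹ = x ∨ y * x * y⁻¹ = x⁻¹) :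
    y ∈ Sol x := by
  rw [mem_sol hp hF]
  refine closure_ne_top hp hF hx ?_
  rintro v (rfl | rfl)
  · rw [mul_inv_cancel_right]; exact Subgroup.mem_zpowers _
  · rcases h with h | h <;> rw [h]
    · exact Subgroup.mem_zpowers _
    · exact inv_mem (Subgroup.mem_zpowers _)

theorem mem_sol_cases {x y : SL(2, F)} (hx : x ≠ 1) (h : y ∈ Sol x) :
    (∃ c : SL(2, F), c * x * c⁻¹ ∈ (SL2.B : Subgroup SL(2, F)) ∧ c * y * c⁻¹ ∈ (SL2.B : Subgroup SL(2, F))) ∨
      ((x * x = 1 → y * y = 1 ∨ (x * y) * (x * y) = 1) ∧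
        (x * x ≠ 1 → y * x * y⁻¹ = x ∨ y * x * y⁻¹ = x⁻¹)) := by
  rw [mem_sol hp hF] at h
  set H := Subgroup.closure ({x, y} : Set SL(2, F))
  have hxH : x ∈ H := Subgroup.subset_closure (by simp)
  have hyH : y ∈ H := Subgroup.subset_closure (by simp)
  rcases proper_cases hp hF H h with ⟨c, hc⟩ | ⟨hd, -⟩
  · exact Or.inl ⟨c, hc x hxH, hc y hyH⟩
  · right
    obtain ⟨h1, h2⟩ := hd ⟨x, hxH⟩ ⟨y, hyH⟩ (fun h' => hx (congrArg Subtype.val h'))
    refine ⟨fun hxx => ?_, fun hxx => ?_⟩
    · exact (h1 (Subtype.ext hxx)).imp (congrArg Subtype.val) (congrArg Subtype.val)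
    · exact (h2 (fun h' => hxx (congrArg Subtype.val h'))).imp (congrArg Subtype.val) (congrArg Subtype.val)

theorem card_sol_u {s : F} (hs : s ≠ 0) :
    Nat.card (Sol (SL2.u s)) = 3 * Fintype.card F * (Fintype.card F - 1) := by
  classical
  set B : Subgroup SL(2, F) := SL2.B with hB
  set x : SL(2, F) := SL2.u s with hxdef
  have hx : x ≠ 1 := fun h => hs (SL2.u_eq_one_iff.mp h)
  have hxB : x ∈ B := SL2.U_le_B (SL2.u_mem_U s)
  have hxx : x * x = 1 := by rw [hxdef, ← SL2.u_add, CharTwo.add_self_eq_zero, SL2.u_zero]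
  have hcB : ∀ c, c * x * c⁻¹ ∈ B → c ∈ B := by
    intro c h
    have h' : (c * x * c⁻¹) 1 0 = 0 := h
    simp [hxdef, Matrix.adjugate_fin_two, Matrix.mul_apply, Fin.sum_univ_two] at h'
    have : c 1 0 * c 1 0 * s = 0 := by linear_combination -h'
    exact (mul_self_eq_zero.mp ((mul_eq_zero.mp this).resolve_right hs) : c 1 0 = 0)
  set I : Set SL(2, F) := {y | y * y = 1 ∧ y ∉ B}
  have hpair : ∀ z ∈ I, z ∈ Sol x ∧ x * z ∈ Sol x := by
    intro z hz
    have hw : x * z ≠ 1 := fun h => hz.2 (by rw [eq_inv_of_mul_eq_one_right h]; exact B.inv_mem hxB)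
    have hx' : x * (x * z) * x⁻¹ = (x * z)⁻¹ := by
      rw [_root_.mul_inv_rev, inv_eq_of_mul_eq_one_right hxx, inv_eq_of_mul_eq_one_right hz.1,
        ← mul_assoc, hxx, one_mul]
    have hz' : z * (x * z) * z⁻¹ = (x * z)⁻¹ := by
      rw [_root_.mul_inv_rev, inv_eq_of_mul_eq_one_right hxx, inv_eq_of_mul_eq_one_right hz.1,
        mul_assoc, mul_assoc, hz.1, mul_one]
    refine ⟨(mem_sol hp hF).mpr (closure_ne_top hp hF hw ?_),
      (mem_sol hp hF).mpr (closure_ne_top hp hF hw ?_)⟩
    · rintro v (rfl | rfl)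
      · rw [hx']; exact inv_mem (Subgroup.mem_zpowers _)
      · rw [hz']; exact inv_mem (Subgroup.mem_zpowers _)
    · rintro v (rfl | rfl)
      · rw [hx']; exact inv_mem (Subgroup.mem_zpowers _)
      · rw [mul_inv_cancel_right]; exact Subgroup.mem_zpowers _
  have hset : Sol x = ((B : Set SL(2, F)) ∪ I) ∪ (fun y => x * y) '' I := by
    ext y
    constructor
    · intro hy
      by_cases hyB : y ∈ B
      · exact Or.inl (Or.inl hyB)
      rcases mem_sol_cases hp hF hx hy with ⟨c, hc, hc'⟩ | ⟨h1, -⟩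
      · refine absurd ?_ hyB
        have := hcB c hc
        simpa [mul_assoc] using B.mul_mem (B.mul_mem (B.inv_mem this) hc') this
      · rcases h1 hxx with h | h
        · exact Or.inl (Or.inr ⟨h, hyB⟩)
        · refine Or.inr ⟨x * y, ⟨h, fun hh => hyB ?_⟩, ?_⟩
          · simpa using B.mul_mem (B.inv_mem hxB) hh
          · show x * (x * y) = y
            rw [← mul_assoc, hxx, one_mul]
    · rintro ((hy | hy) | ⟨z, hz, rfl⟩)
      · exact mem_sol_of_B hp hF (c := 1) (by rwa [one_mul, inv_one, mul_one])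
          (by rwa [one_mul, inv_one, mul_one])
      · exact (hpair y hy).1
      · exact (hpair z hz).2
  have hB' : Nat.card (B : Set SL(2, F)) = Fintype.card F * (Fintype.card F - 1) := card_B hp hF
  have hI : Nat.card I = Fintype.card F * (Fintype.card F - 1) := by
    obtain ⟨h1, h2⟩ := card_involutive (F := F) hp hF
    have hsplit : Set.ncard {g : SL(2, F) | g * g = 1} =
        Set.ncard {g : SL(2, F) | g * g = 1 ∧ g ∈ B} + I.ncard := by
      rw [← Set.ncard_union_eq (Set.disjoint_left.mpr fun g hg hg' => hg'.2 hg.2)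
        (Set.toFinite _) (Set.toFinite _)]
      congr 1
      ext g
      simp only [I, Set.mem_union, Set.mem_ofPred_eq]
      tauto
    rw [← Nat.card_coe_set_eq, ← Nat.card_coe_set_eq, ← Nat.card_coe_set_eq] at hsplit
    have h1' : Nat.card {g : SL(2, F) | g * g = 1} = Fintype.card F ^ 2 := h1
    have h2' : Nat.card {g : SL(2, F) | g * g = 1 ∧ g ∈ B} = Fintype.card F := h2
    rw [h1', h2', pow_two] at hsplit
    rw [Nat.mul_sub_one]
    omega
  have hxI : Nat.card ((fun y => x * y) '' I) = Nat.card I :=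
    Nat.card_image_of_injective (mul_right_injective x) I
  rw [hset, Nat.card_coe_set_eq, Set.ncard_union_eq ?_ (Set.toFinite _) (Set.toFinite _),
    Set.ncard_union_eq ?_ (Set.toFinite _) (Set.toFinite _), ← Nat.card_coe_set_eq,
    ← Nat.card_coe_set_eq, ← Nat.card_coe_set_eq, hxI, hB', hI]
  · ring
  · exact Set.disjoint_left.mpr fun g hg hg' => hg'.2 hg
  · refine Set.disjoint_left.mpr ?_
    rintro _ (hg | hg) ⟨z, hz, rfl⟩
    · exact hz.2 (by simpa [← mul_assoc, hxx] using B.mul_mem hxB hg)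
    · refine hz.2 (hcB z ?_)
      have h1 : x * z * (x * z) = 1 := hg.1
      have h2 : z * x * z⁻¹ = x := by
        rw [inv_eq_of_mul_eq_one_right hz.1]
        calc z * x * z = (x * x) * (z * x * z) := by rw [hxx, one_mul]
          _ = x * (x * z * (x * z)) := by group
          _ = x := by rw [h1, mul_one]
      rw [h2]
      exact hxB

theorem card_sol_torus {x : SL(2, F)} (hx : x * x ≠ 1) :
    (SL2.IsSplitTrace (SL2.tr x) → Nat.card (Sol x) = 2 * Fintype.card F * (Fintype.card F - 1)) ∧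
    (¬ SL2.IsSplitTrace (SL2.tr x) → Nat.card (Sol x) = 2 * (Fintype.card F + 1)) := by
  classical
  have hx1 : x ≠ 1 := fun h => hx (by rw [h, one_mul])
  have ht : SL2.tr x ^ 2 ≠ 4 := by
    intro h
    refine hx ((mul_self_eq_one_iff hp hF x).mpr (Or.inl ?_))
    have h4 : (4 : F) = 0 := by
      rw [show (4 : F) = 2 * 2 by norm_num, CharTwo.two_eq_zero, mul_zero]
    exact (pow_eq_zero_iff two_ne_zero).mp (h.trans h4)
  set N := Subgroup.normalizer
    ((Subgroup.centralizer ({x} : Set SL(2, F)) : Subgroup SL(2, F)) : Set SL(2, F))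
  have hN : ∀ y, y ∈ N ↔ (y * x * y⁻¹ = x ∨ y * x * y⁻¹ = x⁻¹) := fun y =>
    SL2.mem_normalizer_torus_iff ht
  constructor
  · intro hs
    obtain ⟨a, ha, hc⟩ := SL2.exists_isConj_d ht hs
    obtain ⟨c, hc⟩ := isConj_iff.mp hc
    set B : Subgroup SL(2, F) := SL2.B
    set Bl : Subgroup SL(2, F) := B.comap (MulAut.conj (SL2.w : SL(2, F))).toMonoidHom with hBl
    have hmemBl : ∀ g : SL(2, F), g ∈ Bl ↔ g 0 1 = 0 := by
      intro g
      show (SL2.w * g * SL2.w⁻¹ : SL(2, F)) 1 0 = 0 ↔ _
      simp [Matrix.adjugate_fin_two, Matrix.mul_apply, Matrix.vecMul, dotProduct, Fin.sum_univ_two]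
    have hd : ∀ g : SL(2, F), g * SL2.d a * g⁻¹ ∈ B → g 1 0 = 0 ∨ g 1 1 = 0 := by
      intro g hg
      have h' : (g * SL2.d a * g⁻¹) 1 0 = 0 := hg
      simp [Matrix.adjugate_fin_two, Matrix.mul_apply, Fin.sum_univ_two] at h'
      have hne : (a : F) + (a : F)⁻¹ ≠ 0 := by
        intro h0
        rw [CharTwo.add_eq_zero] at h0
        refine ha (Units.ext ?_)
        rw [Units.val_mul, Units.val_one]
        nth_rewrite 2 [h0]
        exact mul_inv_cancel₀ a.ne_zero
      have : g 1 0 * g 1 1 * ((a : F) + (a : F)⁻¹) = 0 := by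
        rw [CharTwo.neg_eq] at h'
        linear_combination h'
      rcases mul_eq_zero.mp ((mul_eq_zero.mp this).resolve_right hne) with h | h
      · exact Or.inl h
      · exact Or.inr h
    -- move to the diagonal element
    have hcount : Nat.card (Sol x) = Nat.card (Sol (SL2.d a)) := by
      rw [← hc]
      exact card_sol_map hp hF c x
    rw [hcount]
    have hd1 : (SL2.d a : SL(2, F)) * SL2.d a ≠ 1 := fun h =>
      ha (SL2.d_injective (by rw [map_mul, h, map_one]))
    set M := Subgroup.normalizer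
      ((Subgroup.centralizer ({SL2.d a} : Set SL(2, F)) : Subgroup SL(2, F)) : Set SL(2, F))
    have htd : SL2.tr (SL2.d a : SL(2, F)) ^ 2 ≠ 4 := by
      rw [← SL2.tr_eq_of_isConj (isConj_iff.mpr ⟨c, hc⟩)]
      exact ht
    have hdB : (SL2.d a : SL(2, F)) ∈ B := SL2.T_le_B (SL2.d_mem_T a)
    have hdBl : (SL2.d a : SL(2, F)) ∈ Bl := by
      rw [hmemBl]; simp
    have hset : Sol (SL2.d a) = ((B : Set SL(2, F)) ∪ Bl) ∪ (M : Set SL(2, F)) := by
      ext y
      constructor
      · intro hy
        rcases mem_sol_cases hp hF (fun h => hd1 (by rw [h, one_mul])) hy with ⟨g, hg, hg'⟩ | ⟨-, h2⟩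
        · left
          rcases hd g hg with h | h
          · left
            have hgB : g ∈ B := h
            simpa [mul_assoc] using B.mul_mem (B.mul_mem (B.inv_mem hgB) hg') hgB
          · right
            have hgw : g * (SL2.w : SL(2, F))⁻¹ ∈ B := by
              show (g * SL2.w⁻¹ : SL(2, F)) 1 0 = 0
              simp [Matrix.adjugate_fin_two, Matrix.mul_apply, Fin.sum_univ_two, h]
            show SL2.w * y * SL2.w⁻¹ ∈ B
            simpa [mul_assoc] using B.mul_mem (B.mul_mem (B.inv_mem hgw) hg') hgw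
        · exact Or.inr ((SL2.mem_normalizer_torus_iff htd).mpr (h2 hd1))
      · rintro ((hy | hy) | hy)
        · exact mem_sol_of_B hp hF (c := 1) (by rwa [one_mul, inv_one, mul_one])
            (by rwa [one_mul, inv_one, mul_one])
        · exact mem_sol_of_B hp hF (c := SL2.w) hdBl hy
        · exact mem_sol_of_conj hp hF (fun h => hd1 (by rw [h, one_mul]))
            ((SL2.mem_normalizer_torus_iff htd).mp hy)
    have hT : Subgroup.centralizer ({SL2.d a} : Set SL(2, F)) = SL2.T := SL2.centralizer_d ha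
    have hcT : Nat.card (SL2.T : Subgroup SL(2, F)) = Fintype.card F - 1 := by
      rw [SL2.T_nat_card, Nat.card_eq_fintype_card]
    have hcBl : Nat.card Bl = Nat.card B := by
      rw [hBl, Nat.card_congr (Subgroup.equivMapOfInjective _ (MulAut.conj (SL2.w : SL(2, F))).toMonoidHom (MulAut.conj (SL2.w : SL(2, F))).injective).toEquiv,
        Subgroup.map_comap_eq_self_of_surjective (MulAut.conj (SL2.w : SL(2, F))).surjective]
    have hBBl : (B : Set SL(2, F)) ∩ Bl = (SL2.T : Subgroup SL(2, F)) := by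
      ext g
      rw [Set.mem_inter_iff, SetLike.mem_coe, SetLike.mem_coe, SetLike.mem_coe, hmemBl, SL2.mem_T]
      exact and_comm
    have hMB : ((B : Set SL(2, F)) ∪ Bl) ∩ M = (SL2.T : Subgroup SL(2, F)) := by
      ext g
      constructor
      · rintro ⟨hg, hgM⟩
        rcases (SL2.mem_normalizer_torus_iff htd).mp hgM with h | h
        · rw [SetLike.mem_coe, ← hT]
          exact Subgroup.mem_centralizer_singleton_iff.mpr (mul_inv_eq_iff_eq_mul.mp h)
        · exfalso
          have key : ∀ v u : SL(2, F), v ∈ B → u ∈ B → v * u * v⁻¹ = u⁻¹ → u * u * u * u = 1 := by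
            intro v u hv hu h
            have := comm_pow_char_mem_B 2 hu hv
            rw [commutatorElement_def, show u * v * u⁻¹ * v⁻¹ = u * (v * u * v⁻¹)⁻¹ by group, h,
              inv_inv, pow_two, ← mul_assoc] at this
            exact this
          have h4 : ∀ u : SL(2, F), u * u * u * u = 1 → u * u = 1 := by
            intro u hu
            have hu2 : (u * u) * (u * u) = 1 := by rw [← mul_assoc]; exact hu
            by_contra hne
            have ho : orderOf u ∣ 4 := orderOf_dvd_of_pow_eq_one (by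
              rw [show 4 = 2 + 2 from rfl, pow_add, pow_two]; exact hu2)
            have h01 : (u * u) 0 0 = (u * u) 1 1 := by
              have := (mul_self_eq_one_iff hp hF (u * u)).mp hu2
              rcases this with h | h
              · exact CharTwo.add_eq_zero.mp h
              · exact absurd h hne
            simp [Matrix.mul_apply, Fin.sum_univ_two] at h01
            refine hne ((mul_self_eq_one_iff hp hF u).mpr (Or.inl ?_))
            rw [SL2.tr, CharTwo.add_eq_zero]
            exact CharTwo.sq_injective (by simp only [pow_two]; linear_combination h01)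
          rcases hg with hg | hg
          · exact hd1 (h4 _ (key g _ hg hdB h))
          · refine hd1 ((MulAut.conj (SL2.w : SL(2, F))).injective ?_)
            rw [map_mul, map_one]
            exact h4 _ (key _ _ hg hdBl (by
              show MulAut.conj (SL2.w : SL(2, F)) g * MulAut.conj (SL2.w : SL(2, F)) (SL2.d a) *
                (MulAut.conj (SL2.w : SL(2, F)) g)⁻¹ = _
              rw [← map_inv, ← map_mul, ← map_mul, h, map_inv]))
      · intro hg
        refine ⟨Or.inl (SL2.T_le_B hg), ?_⟩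
        show g ∈ M
        rw [← hT] at hg
        exact Subgroup.le_normalizer hg
    have e1 := Set.ncard_union_add_ncard_inter ((B : Set SL(2, F)) ∪ Bl) (M : Set SL(2, F))
    have e2 := Set.ncard_union_add_ncard_inter (B : Set SL(2, F)) (Bl : Set SL(2, F))
    rw [hMB] at e1
    rw [hBBl] at e2
    simp only [← Nat.card_coe_set_eq, SetLike.coe_sort_coe] at e1 e2
    rw [hset]
    have hM : Nat.card M = 2 * (Fintype.card F - 1) := by
      rw [SL2.card_normalizer_torus htd, hT, hcT]
    rw [hM, hcT] at e1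
    rw [hcBl, hcT, card_B hp hF] at e2
    rw [show 2 * Fintype.card F * (Fintype.card F - 1) =
      2 * (Fintype.card F * (Fintype.card F - 1)) by ring]
    omega
  · intro hs
    have hset : Sol x = (N : Set SL(2, F)) := by
      ext y
      constructor
      · intro hy
        rcases mem_sol_cases hp hF hx1 hy with ⟨g, hg, -⟩ | ⟨-, h2⟩
        · exfalso
          refine hs ?_
          obtain ⟨t, a, hta⟩ := SL2.eq_u_mul_d hg
          refine ⟨a, ?_⟩
          rw [← SL2.tr_conj x g, hta, SL2.tr]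
          simp [Matrix.mul_apply, Fin.sum_univ_two]
        · exact (hN y).mpr (h2 hx)
      · exact fun hy => mem_sol_of_conj hp hF hx1 ((hN y).mp hy)
    rw [hset]
    show Nat.card N = _
    rw [SL2.card_normalizer_torus ht, (SL2.centralizer_nonsplit hs).2]

end

/-- Let G = PSL_2(F) with F a field of order q = 2^p, p prime, and for x ∈ G call the solubilizer of x the set of y ∈ G such that x and y generate a solvable subgroup. Then the solubilizer of an involution has 3q(q − 1) elements; that of a non-identity element of order dividing q − 1 has 2q(q − 1) elements; and that of a non-identity element of order dividing q + 1 has 2(q + 1) elements. -/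
theorem result (p : ℕ) (hp : p.Prime) {F : Type*} [Field F] [Fintype F]
    (hF : Fintype.card F = 2 ^ p) (x : Matrix.ProjectiveSpecialLinearGroup (Fin 2) F) :
    (orderOf x = 2 → Nat.card {y : Matrix.ProjectiveSpecialLinearGroup (Fin 2) F // Group.IsSolvable ↥(Subgroup.closure ({x, y} : Set (Matrix.ProjectiveSpecialLinearGroup (Fin 2) F)))} = 3 * 2 ^ p * (2 ^ p - 1)) ∧
    (x ≠ 1 → orderOf x ∣ 2 ^ p - 1 → Nat.card {y : Matrix.ProjectiveSpecialLinearGroup (Fin 2) F // Group.IsSolvable ↥(Subgroup.closure ({x, y} : Set (Matrix.ProjectiveSpecialLinearGroup (Fin 2) F)))} = 2 * 2 ^ p * (2 ^ p - 1)) ∧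
    (x ≠ 1 → orderOf x ∣ 2 ^ p + 1 → Nat.card {y : Matrix.ProjectiveSpecialLinearGroup (Fin 2) F // Group.IsSolvable ↥(Subgroup.closure ({x, y} : Set (Matrix.ProjectiveSpecialLinearGroup (Fin 2) F)))} = 2 * (2 ^ p + 1)) := by
  classical
  have : CharP F 2 := by
    have : Fact (Nat.Prime 2) := ⟨Nat.prime_two⟩
    exact SmallIso.charP_of_card (k := p) hp.ne_zero hF
  set q := Fintype.card F with hq
  set e := slEquiv (F := F)
  obtain ⟨g, rfl⟩ : ∃ g, e g = x := e.surjective x
  have htr : Nat.card {y : Matrix.ProjectiveSpecialLinearGroup (Fin 2) F //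
      Group.IsSolvable ↥(Subgroup.closure ({e g, y} : Set (Matrix.ProjectiveSpecialLinearGroup (Fin 2) F)))} =
      Nat.card (Sol g) := by
    refine (Nat.card_congr (e.toEquiv.subtypeEquiv fun y => ?_)).symm
    have hmap : Subgroup.closure ({e g, e y} : Set (Matrix.ProjectiveSpecialLinearGroup (Fin 2) F)) =
        (Subgroup.closure ({g, y} : Set SL(2, F))).map e.toMonoidHom := by
      rw [MonoidHom.map_closure, Set.image_pair]
      rfl
    let eC := (Subgroup.closure ({g, y} : Set SL(2, F))).equivMapOfInjective e.toMonoidHom e.injective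
    show Group.IsSolvable _ ↔ Group.IsSolvable ↥(Subgroup.closure {e g, e y})
    rw [hmap]
    exact ⟨fun _ => Group.isSolvable_of_surjective (f := eC.toMonoidHom) eC.surjective,
      fun _ => Group.isSolvable_of_surjective (f := eC.symm.toMonoidHom) eC.symm.surjective⟩
  rw [htr, MulEquiv.orderOf_eq, ← hF]
  have heven : Even q := hF ▸ Nat.even_pow.mpr ⟨even_two, hp.ne_zero⟩
  have hq1 : 1 < q := Fintype.one_lt_card
  have hq_odd : Odd (q - 1) ∧ Odd (q + 1) := ⟨Nat.Even.sub_odd (by omega) heven odd_one, heven.add_one⟩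
  have hq_cop : Nat.Coprime (q - 1) (q + 1) := by
    obtain ⟨k, hk⟩ := hq_odd.1
    rw [show q + 1 = 2 + (q - 1) by omega, Nat.coprime_add_self_right]
    exact Nat.coprime_two_right.mpr hq_odd.1
  have hne : e g ≠ 1 ↔ g ≠ 1 := by
    constructor <;> intro h h' <;> apply h
    · rw [h', map_one]
    · exact e.injective (h'.trans (map_one e).symm)
  refine ⟨fun h2 => ?_, fun hg hdvd => ?_, fun hg hdvd => ?_⟩
  · obtain ⟨s, hs, hc⟩ : ∃ s : F, s ≠ 0 ∧ IsConj g (SL2.u s) := by
      have hgg : g * g = 1 := by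
        rw [← pow_two]
        have h := pow_orderOf_eq_one g
        rwa [h2] at h
      have hg1 : g ≠ 1 := fun h => by rw [h, orderOf_one] at h2; omega
      refine SL2.exists_isConj_u hg1 ?_
      rw [((mul_self_eq_one_iff hp hF g).mp hgg).resolve_right hg1, CharTwo.two_eq_zero]
    obtain ⟨c, hc⟩ := isConj_iff.mp hc
    rw [card_sol_map hp hF c g, hc, card_sol_u hp hF hs]
  · have hsq : g * g ≠ 1 := by
      intro h
      rw [← pow_two] at h
      have h1 := Nat.dvd_gcd hdvd (orderOf_dvd_of_pow_eq_one h)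
      have : Nat.Coprime (q - 1) 2 := Nat.coprime_two_right.mpr (hq_odd.1)
      rw [this] at h1
      exact hne.mp hg (orderOf_eq_one_iff.mp (Nat.dvd_one.mp h1))
    refine (card_sol_torus hp hF hsq).1 ?_
    by_contra hs
    have hC := (SL2.centralizer_nonsplit hs).2
    have hmem : g ∈ Subgroup.centralizer ({g} : Set SL(2, F)) :=
      Subgroup.mem_centralizer_singleton_iff.mpr rfl
    have hd : orderOf g ∣ q + 1 := hC ▸ Subgroup.orderOf_dvd_natCard _ hmem
    exact hne.mp hg (orderOf_eq_one_iff.mp (Nat.eq_one_of_dvd_coprimes hq_cop hdvd hd))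
  · have hsq : g * g ≠ 1 := by
      intro h
      rw [← pow_two] at h
      have h1 := Nat.dvd_gcd hdvd (orderOf_dvd_of_pow_eq_one h)
      have : Nat.Coprime (q + 1) 2 := Nat.coprime_two_right.mpr (hq_odd.2)
      rw [this] at h1
      exact hne.mp hg (orderOf_eq_one_iff.mp (Nat.dvd_one.mp h1))
    refine (card_sol_torus hp hF hsq).2 ?_
    intro hs
    have ht : SL2.tr g ^ 2 ≠ 4 := by
      intro h
      refine hsq ((mul_self_eq_one_iff hp hF g).mpr (Or.inl ?_))
      have h4 : (4 : F) = 0 := by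
        rw [show (4 : F) = 2 * 2 by norm_num, CharTwo.two_eq_zero, mul_zero]
      exact (pow_eq_zero_iff two_ne_zero).mp (h.trans h4)
    have hC := SL2.card_centralizer_split ht hs
    have hmem : g ∈ Subgroup.centralizer ({g} : Set SL(2, F)) :=
      Subgroup.mem_centralizer_singleton_iff.mpr rfl
    have hd : orderOf g ∣ q - 1 := hC ▸ Subgroup.orderOf_dvd_natCard _ hmem
    exact hne.mp hg (orderOf_eq_one_iff.mp (Nat.eq_one_of_dvd_coprimes hq_cop hd hdvd))

end Cfsg.Agent.S2257
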