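import Cfsg.Statements.S0806
import Cfsg.Agent.Dickson.MaxCoatom

set_option autoImplicit false
open Cfsg
open CfsgLib.Dickson Matrix MulAction
open scoped MatrixGroups

namespace Cfsg.Agent.S0806

/-- Minimal index (Galois): if q ∉ {2, 3, 5, 7, 9, 11} then every proper subgroup of PSL_2(q) has index ≥ q + 1, and some subgroup has index exactly q + 1. -/
theorem result {F : Type*} [Field F] [Fintype F] {q : ℕ} (hF : Fintype.card F = q) (hq : q ∉ ({2, 3, 5, 7, 9, 11} : Finset ℕ)) : (∀ H : Subgroup (Matrix.ProjectiveSpecialLinearGroup (Fin 2) F), H ≠ ⊤ → q + 1 ≤ H.index) ∧ ∃ H : Subgroup (Matrix.ProjectiveSpecialLinearGroup (Fin 2) F), H.index = q + 1 := by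
  classical
  subst hF
  simp only [Finset.mem_insert, Finset.mem_singleton, not_or] at hq
  obtain ⟨h2, h3, h5, h7, h9, h11⟩ := hq
  have h4 : 4 ≤ Fintype.card F := by
    have : 1 < Fintype.card F := Fintype.one_lt_card
    omega
  refine ⟨fun H hH => ?_, ⟨pslStab OnePoint.infty, index_pslStab _⟩⟩
  obtain ⟨p, _⟩ := CharP.exists F
  have : Fact p.Prime := ⟨CharP.char_is_prime F p⟩
  rcases eq_top_or_exists_le_coatom H with htop | ⟨M, hM, hle⟩
  · exact absurd htop hH
  refine le_trans ?_ (Nat.le_of_dvd (Nat.pos_of_ne_zero Subgroup.index_ne_zero_of_finite)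
    (Subgroup.index_dvd_of_le hle))
  suffices h : Nat.card M ≤ Nat.card (pslStab (OnePoint.infty : OnePoint F)) by
    rw [← index_pslStab (OnePoint.infty : OnePoint F)]
    by_contra hlt
    have h1 := M.card_mul_index
    have h2 := (pslStab (OnePoint.infty : OnePoint F)).card_mul_index
    have h3 : 0 < Nat.card M := Nat.card_pos
    have : Nat.card M * M.index < Nat.card M * (pslStab (OnePoint.infty : OnePoint F)).index :=
      Nat.mul_lt_mul_of_pos_left (by omega) h3
    have := Nat.mul_le_mul_right (pslStab (OnePoint.infty : OnePoint F)).index h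
    omega
  have hB := card_pslStab (OnePoint.infty : OnePoint F)
  have h3q : 3 * Fintype.card F ≤ Fintype.card F * (Fintype.card F - 1) := by
    rw [mul_comm 3]; exact Nat.mul_le_mul_left _ (by omega)
  rcases Nat.even_or_odd (Fintype.card F) with he | ho
  · have hd : Nat.gcd 2 (Fintype.card F - 1) = 1 := by
      rcases gcd_two_pred (F := F) with ⟨-, hd⟩ | ⟨ho, -⟩
      · exact hd
      · exact absurd he (Nat.not_even_iff_odd.mpr ho)
    rw [hd, mul_one] at hB
    rw [hB]
    rcases _root_.Cfsg.Agent.S5893.result he h4 M hM with h | ⟨⟨j⟩⟩ | ⟨⟨j⟩⟩ | ⟨K, _, _, r, hr, hK2, hK, ⟨j⟩⟩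
    · exact h.le
    · rw [Nat.card_congr j.toEquiv, DihedralGroup.nat_card]; omega
    · rw [Nat.card_congr j.toEquiv, DihedralGroup.nat_card]; omega
    · have hc := card_psl (F := K)
      have hKe : Even (Fintype.card K) := (Nat.even_pow.mp (hK ▸ he)).1
      rw [show Nat.gcd 2 (Fintype.card K - 1) = 1 by
        rcases gcd_two_pred (F := K) with ⟨-, hd⟩ | ⟨ho, -⟩
        · exact hd
        · exact absurd hKe (Nat.not_even_iff_odd.mpr ho), mul_one, ← Nat.card_congr j.toEquiv] at hc
      rw [hc, hK]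
      have hQ : 2 ≤ Fintype.card K := Fintype.one_lt_card
      have hQ2 : Fintype.card K ^ 2 ≤ Fintype.card K ^ r := Nat.pow_le_pow_right (by omega) hr.two_le
      refine Nat.mul_le_mul (Nat.le_self_pow hr.ne_zero _) (by omega)
  · have hd : Nat.gcd 2 (Fintype.card F - 1) = 2 := by
      rcases gcd_two_pred (F := F) with ⟨he, -⟩ | ⟨-, hd⟩
      · exact absurd ho (Nat.not_odd_iff_even.mpr he)
      · exact hd
    rw [hd] at hB
    have hF2 := Nat.odd_iff.mp ho
    have h13 : 78 ≤ Nat.card (pslStab (OnePoint.infty : OnePoint F)) := by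
      have : 13 * 12 ≤ Fintype.card F * (Fintype.card F - 1) := Nat.mul_le_mul (by omega) (by omega)
      omega
    rcases _root_.Cfsg.Agent.S5892.result p ho (by omega) M hM with h | ⟨-, k, hk, ⟨j⟩⟩ |
      ⟨-, -, k, hk, ⟨j⟩⟩ | ⟨K, _, _, hK, ⟨j⟩⟩ | ⟨K, _, _, r, hr, hro, hK, ⟨j⟩⟩ |
      ⟨-, -, ⟨j⟩⟩ | ⟨-, -, -, ⟨j⟩⟩ | ⟨-, -, ⟨j⟩⟩
    · omega
    · rw [Nat.card_congr j.toEquiv, DihedralGroup.nat_card]; omega
    · rw [Nat.card_congr j.toEquiv, DihedralGroup.nat_card]; omega
    · rw [Nat.card_congr j.toEquiv, card_pgl2]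
      rw [hK] at hB
      have hQ : 3 ≤ Fintype.card K := by
        by_contra h
        have := Nat.pow_le_pow_left (show Fintype.card K ≤ 2 by omega) 2
        omega
      set Q := Fintype.card K
      have he : (Q + 1) * (Q * (Q - 1)) = Q * (Q ^ 2 - 1) := by
        rw [pow_two, show 1 = 1 * 1 from rfl, Nat.mul_self_sub_mul_self_eq]; ring
      rw [he]
      have : 2 * Q ≤ Q ^ 2 := by rw [pow_two]; exact Nat.mul_le_mul_right _ (by omega)
      have := Nat.mul_le_mul_right (Q ^ 2 - 1) this
      rw [mul_assoc] at this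
      omega
    · have hc := psl_two_mul_card (F := K) ((Nat.odd_pow_iff hr.ne_zero).mp (hK ▸ ho))
      rw [← Nat.card_congr j.toEquiv] at hc
      have hQ : 2 ≤ Fintype.card K := Fintype.one_lt_card
      have hQ2 : Fintype.card K ^ 2 ≤ Fintype.card F := hK ▸ Nat.pow_le_pow_right (by omega) hr.two_le
      have : Fintype.card K * (Fintype.card K ^ 2 - 1) ≤ Fintype.card F * (Fintype.card F - 1) :=
        Nat.mul_le_mul (le_trans (Nat.le_self_pow two_ne_zero _) hQ2) (by omega)
      omega
    · rw [Nat.card_congr j.toEquiv, Nat.card_eq_fintype_card,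
        show Fintype.card (alternatingGroup (Fin 5)) = 60 by decide +kernel]; omega
    · rw [Nat.card_congr j.toEquiv, Nat.card_eq_fintype_card,
        show Fintype.card (alternatingGroup (Fin 4)) = 12 by decide +kernel]; omega
    · rw [Nat.card_congr j.toEquiv, Nat.card_perm, Nat.card_eq_fintype_card, Fintype.card_fin,
        show Nat.factorial 4 = 24 from rfl]; omega

end Cfsg.Agent.S0806
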