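import Cfsg.Statements.S3007
import Cfsg.Agent.CentrallyLarge.Basic

set_option autoImplicit false
open Cfsg

namespace Cfsg.Agent.S3007

open CfsgLib.CentrallyLarge
open scoped Pointwise


/-- Let P be a finite p-group and Q, R minimal centrally large subgroups of P (centrally large: |Q|·|Z(Q)| maximal among subgroups of P; minimal among such under inclusion). Then Q = (Q ∩ R)·Z(Q), the derived subgroups [Q, Q] and [R, R] coincide, |Q| = |R| and |Z(Q)| = |Z(R)|; and if Q is abelian then the minimal centrally large subgroups of P are exactly the abelian subgroups of P of largest order. -/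
theorem result {p : ℕ} [Fact p.Prime] (P : Type*) [Group P] [Finite P] (hP : IsPGroup p P) (Q R : Subgroup P) (hQ : Cfsg.IsMinimalCentrallyLarge Q) (hR : Cfsg.IsMinimalCentrallyLarge R) : (Q ⊓ R) ⊔ (Q ⊓ Subgroup.centralizer (Q : Set P)) = Q ∧ ⁅Q, Q⁆ = ⁅R, R⁆ ∧ Nat.card ↥Q = Nat.card ↥R ∧ Nat.card ↥(Q ⊓ Subgroup.centralizer (Q : Set P)) = Nat.card ↥(R ⊓ Subgroup.centralizer (R : Set P)) ∧ (IsMulCommutative ↥Q → ∀ X : Subgroup P, Cfsg.IsMinimalCentrallyLarge X ↔ X ∈ Cfsg.maxAbelianSubgroups P) := by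
  obtain ⟨hQ1, hQ2⟩ := isCentrallyLarge_iff.mp hQ.1
  obtain ⟨hR1, hR2⟩ := isCentrallyLarge_iff.mp hR.1
  have e1 := inf_sup_cen_eq hQ hR.1
  have e2 := inf_sup_cen_eq hR hQ.1
  rw [inf_comm R Q] at e2
  have hcomm : ⁅Q, Q⁆ = ⁅R, R⁆ := by
    rw [← commutator_sup_cen e1, ← commutator_sup_cen e2]
  set I := Q ⊓ R with hI
  have hset : ∀ {X : Subgroup P}, I ⊔ cen X = X → cen X ≤ X → IsCentralizerLarge X →
      Nat.card ↥X * Nat.card ↥(I ⊓ cen I : Subgroup P) = Nat.card ↥I * Nat.card ↥(cen X) := by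
    intro X hX hX2 hX1
    have h1 : I ⊓ cen X = I ⊓ cen I := by
      conv_lhs => rw [← hX, cen_sup, cen_cen_eq hX1]
      rw [← inf_assoc]
      exact inf_eq_left.mpr (inf_le_left.trans (le_sup_left.trans hX.le))
    obtain ⟨-, -, hs, -⟩ := lattice (lattice hQ1 hR1).2.1 (isCentralizerLarge_cen hX1)
    have h2 := card_setMul_mul_card_inf I (cen X)
    have h3 : Nat.card ↥((I : Set P) * (cen X : Set P)) = Nat.card ↥X := by
      rw [← hs, hX]
      rfl
    rwa [h3, h1] at h2
  have a1 := hset e1 hQ2 hQ1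
  have a2 := hset e2 hR2 hR1
  have hQv : Nat.card ↥Q * Nat.card ↥(cen Q) = Nat.card ↥R * Nat.card ↥(cen R) := hQ1.trans hR1.symm
  have hz : Nat.card ↥(cen Q) = Nat.card ↥(cen R) := by
    have h2 : Nat.card ↥(cen Q) ^ 2 * Nat.card ↥I = Nat.card ↥(cen R) ^ 2 * Nat.card ↥I := by
      calc _ = (Nat.card ↥I * Nat.card ↥(cen Q)) * Nat.card ↥(cen Q) := by ring
        _ = (Nat.card ↥Q * Nat.card ↥(cen Q)) * Nat.card ↥(I ⊓ cen I : Subgroup P) := by rw [← a1]; ring
        _ = (Nat.card ↥R * Nat.card ↥(cen R)) * Nat.card ↥(I ⊓ cen I : Subgroup P) := by rw [hQv]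
        _ = (Nat.card ↥I * Nat.card ↥(cen R)) * Nat.card ↥(cen R) := by rw [← a2]; ring
        _ = _ := by ring
    exact Nat.pow_left_injective (by norm_num) (Nat.eq_of_mul_eq_mul_right Nat.card_pos h2)
  have hcard : Nat.card ↥Q = Nat.card ↥R := by
    rw [hz] at hQv
    exact Nat.eq_of_mul_eq_mul_right Nat.card_pos hQv
  refine ⟨?_, hcomm, hcard, ?_, ?_⟩
  · rwa [show Q ⊓ Subgroup.centralizer (Q : Set P) = cen Q from inf_eq_right.mpr hQ2]
  · rw [show Q ⊓ Subgroup.centralizer (Q : Set P) = cen Q from inf_eq_right.mpr hQ2,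
      show R ⊓ Subgroup.centralizer (R : Set P) = cen R from inf_eq_right.mpr hR2, hz]
  · intro hab X
    have hQQ : Q ≤ cen Q := le_cen_of_comm hab
    have hQc : cen Q = Q := le_antisymm hQ2 hQQ
    have hf : maxCentralizerProduct P = Nat.card ↥Q * Nat.card ↥Q := by
      rw [← hQ1]; simp only [show Subgroup.centralizer (Q : Set P) = Q from hQc]
    -- all minimal ones are abelian of this order
    have hmin : ∀ Y : Subgroup P, Cfsg.IsMinimalCentrallyLarge Y → IsMulCommutative ↥Y ∧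
        Nat.card ↥Y = Nat.card ↥Q := by
      intro Y hY
      have f1 := inf_sup_cen_eq hY hQ.1
      have hI2 : Y ⊓ Q ≤ cen (Y ⊓ Q) :=
        inf_le_right.trans (hQQ.trans (Subgroup.centralizer_le (SetLike.coe_subset_coe.mpr inf_le_right)))
      have hYc := (isCentrallyLarge_iff.mp hY.1).2
      have hYab : IsMulCommutative ↥Y := by
        rw [← f1]
        exact comm_sup hI2 (Subgroup.centralizer_le (SetLike.coe_subset_coe.mpr hYc))
          (inf_le_left.trans (Subgroup.le_centralizer_iff.mpr le_rfl))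
      refine ⟨hYab, ?_⟩
      have h2 : Nat.card ↥Y * Nat.card ↥Y = Nat.card ↥Q * Nat.card ↥Q := by
        have h3 : Nat.card ↥Y * Nat.card ↥(cen Y) = maxCentralizerProduct P :=
          (isCentrallyLarge_iff.mp hY.1).1
        rwa [show cen Y = Y from le_antisymm hYc (le_cen_of_comm hYab), hf] at h3
      exact Nat.mul_self_inj.mp h2
    have hle : ∀ B : Subgroup P, IsMulCommutative ↥B → Nat.card ↥B ≤ Nat.card ↥Q := by
      intro B hB
      apply Nat.mul_self_le_mul_self_iff.mp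
      rw [← hf]
      exact (Nat.mul_le_mul_left _ (Subgroup.card_le_of_le (le_cen_of_comm hB))).trans
        (le_maxCentralizerProduct B)
    constructor
    · intro hX
      obtain ⟨h1, h2⟩ := hmin X hX
      exact ⟨h1, fun B hB => h2 ▸ hle B hB⟩
    · rintro ⟨hX1, hX2⟩
      have hXQ : Nat.card ↥X = Nat.card ↥Q := le_antisymm (hle X hX1) (hX2 Q hab)
      have hXcl : Cfsg.IsCentrallyLarge X := by
        refine isCentrallyLarge_iff.mpr ⟨isCentralizerLarge_of_le ?_, (cen_eq_self ⟨hX1, hX2⟩).le⟩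
        rw [cen_eq_self ⟨hX1, hX2⟩, hf, hXQ]
      obtain ⟨Y, hYX, hY⟩ := exists_minimal_le hXcl
      rwa [Subgroup.eq_of_le_of_card_ge hYX (hXQ.le.trans (hmin Y hY).2.ge)] at hY

end Cfsg.Agent.S3007
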