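import Cfsg.Statements.S4746
import Cfsg.Agent.Eq.Def_Characters
import Cfsg.Agent.Chars.Basic

set_option autoImplicit false
open Cfsg CfsgLib
open scoped ComplexConjugate

namespace Cfsg.Agent.S4746

/-- Values at involutions differ from the degree by an even integer. -/
theorem exists_int_involution {G : Type*} [Group G] [Finite G] (χ : Cfsg.IrrCharacter G) {t : G}
    (ht : t * t = 1) : ∃ k : ℤ, (χ : G → ℂ) t = (χ : G → ℂ) 1 - 2 * k := by
  obtain ⟨s, h1, h2, h3⟩ := Chars.exists_roots (Chars.isCharacter_coe χ) t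
  have hz : ∀ z ∈ s, z = 1 ∨ z = -1 := fun z hz => by
    have hd : orderOf t ∣ 2 := orderOf_dvd_of_pow_eq_one (by rw [pow_two, ht])
    obtain ⟨c, hc⟩ := hd
    have : z * z = 1 := by rw [← pow_two, hc, pow_mul, h1 z hz, one_pow]
    exact mul_self_eq_one_iff.1 this
  have hkey : ∀ u : Multiset ℂ, (∀ z ∈ u, z = 1 ∨ z = -1) →
      ∃ k : ℤ, u.sum = (u.card : ℂ) - 2 * k := by
    intro u
    induction u using Multiset.induction with
    | empty => exact fun _ => ⟨0, by simp⟩
    | cons z u ih =>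
      intro h
      obtain ⟨k, hk⟩ := ih fun w hw => h w (Multiset.mem_cons_of_mem hw)
      rcases h z (Multiset.mem_cons_self z u) with rfl | rfl
      · exact ⟨k, by rw [Multiset.sum_cons, hk, Multiset.card_cons]; push_cast; ring⟩
      · exact ⟨k + 1, by rw [Multiset.sum_cons, hk, Multiset.card_cons]; push_cast; ring⟩
  obtain ⟨k, hk⟩ := hkey s hz
  have e := h3 1
  simp only [pow_one, Multiset.map_id'] at e
  exact ⟨k, by rw [e, hk, h2]⟩

/-- Let p be an odd prime and G a finite group of even order divisible by p in which the centralizer of every non-identity p-element has odd order. Then G has an irreducible character of p-defect zero or an irreducible character of even degree. -/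
theorem result {G : Type*} [Group G] [Finite G] (p : ℕ) [Fact p.Prime] (hp2 : p ≠ 2) (hpG : p ∣ Nat.card G) (h2G : 2 ∣ Nat.card G) (hC : ∀ g : G, g ≠ 1 → (∃ k : ℕ, orderOf g = p ^ k) → Odd (Nat.card ↥(Subgroup.centralizer ({g} : Set G)))) : (∃ χ : Cfsg.IrrCharacter G, (Cfsg.charDegree (χ : G → ℂ)).factorization p = (Nat.card G).factorization p) ∨ ∃ χ : Cfsg.IrrCharacter G, Even (Cfsg.charDegree (χ : G → ℂ)) := by
  classical
  haveI := Fintype.ofFinite G
  rw [or_iff_not_imp_left]
  intro hdz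
  by_contra hodd
  push Not at hdz hodd
  obtain ⟨t, ht⟩ := exists_prime_orderOf_dvd_card' (G := G) 2 h2G
  have htt : t * t = 1 := by rw [← pow_two, ← ht, pow_orderOf_eq_one]
  -- no element of order divisible by `p` is real
  have hnr : ∀ x : G, p ∣ orderOf x → ¬ IsConj x x⁻¹ := by
    intro x hx hreal
    obtain ⟨c, hc⟩ := hx
    have hxc : x ^ c ≠ 1 ∧ orderOf (x ^ c) = p := by
      have hc0 : c ≠ 0 := fun h => by
        rw [h, mul_zero] at hc; exact (orderOf_pos x).ne' hc
      have hord : orderOf (x ^ c) = p := by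
        rw [orderOf_pow' x hc0, hc, Nat.gcd_mul_left_left, Nat.mul_div_cancel _ (Nat.pos_of_ne_zero hc0)]
      exact ⟨fun h => by rw [h, orderOf_one] at hord; exact (Fact.out : p.Prime).ne_one hord.symm, hord⟩
    have hCodd := hC (x ^ c) hxc.1 ⟨1, by rw [hxc.2, pow_one]⟩
    have hle : Subgroup.centralizer ({x} : Set G) ≤ Subgroup.centralizer ({x ^ c} : Set G) := by
      intro g hg
      rw [Subgroup.mem_centralizer_singleton_iff] at hg ⊢
      exact Commute.pow_right hg c
    have hCx : Odd (Nat.card (Subgroup.centralizer ({x} : Set G))) :=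
      Odd.of_dvd_nat hCodd (Subgroup.card_dvd_of_le hle)
    have hxt : ¬ IsConj x t := by
      intro h
      obtain ⟨a, ha⟩ := isConj_iff.1 h
      have h' : orderOf t = orderOf x := ha ▸ (MulEquiv.orderOf_eq (MulAut.conj a) x)
      rw [ht, hc] at h'
      have : p ∣ 2 := ⟨c, h'⟩
      exact hp2 ((Nat.prime_dvd_prime_iff_eq Fact.out Nat.prime_two).1 this)
    have hS : ∑ χ : Cfsg.IrrCharacter G, (χ : G → ℂ) x * (χ : G → ℂ) x =
        (Nat.card (Subgroup.centralizer ({x} : Set G)) : ℂ) := by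
      have h1 := Chars.sum_irr_mul_conj x x⁻¹
      rw [if_pos hreal] at h1
      rw [← h1]
      exact Finset.sum_congr rfl fun χ _ => by
        rw [Chars.conj_eq_map_inv (Chars.isCharacter_coe χ), inv_inv]
    have hT : ∑ χ : Cfsg.IrrCharacter G, (χ : G → ℂ) x * (χ : G → ℂ) t = 0 := by
      have h1 := Chars.sum_irr_mul_conj x t
      rw [if_neg hxt] at h1
      rw [← h1]
      exact Finset.sum_congr rfl fun χ _ => by
        rw [Chars.conj_eq_map_inv (Chars.isCharacter_coe χ), inv_eq_of_mul_eq_one_left htt]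
    choose k hk using fun χ : Cfsg.IrrCharacter G => exists_int_involution χ htt
    have hd : ∀ χ : Cfsg.IrrCharacter G, ∃ m : ℤ, (χ : G → ℂ) t = 1 + 2 * (m : ℂ) := fun χ => by
      obtain ⟨j, hj⟩ := Nat.not_even_iff_odd.1 (hodd χ)
      exact ⟨(j : ℤ) - k χ, by
        rw [hk, ← Chars.coe_charDegree, hj]; push_cast; ring⟩
    choose m hm using hd
    set θ := ∑ χ : Cfsg.IrrCharacter G, (χ : G → ℂ) x with hθ
    set u := ∑ χ : Cfsg.IrrCharacter G, (χ : G → ℂ) x * (m χ : ℂ) with hu
    have hθu : θ = -(2 * u) := by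
      simp only [hm, mul_add, mul_one, Finset.sum_add_distrib, ← hθ] at hT
      rw [Finset.sum_congr rfl fun (χ : Cfsg.IrrCharacter G) _ => show (χ : G → ℂ) x * (2 * (m χ : ℂ)) =
        2 * ((χ : G → ℂ) x * (m χ : ℂ)) by ring, ← Finset.mul_sum, ← hu] at hT
      linear_combination hT
    have hpair : ∀ s : Finset (Cfsg.IrrCharacter G), ∃ v : ℂ, IsIntegral ℤ v ∧
        (∑ χ ∈ s, (χ : G → ℂ) x) ^ 2 = ∑ χ ∈ s, (χ : G → ℂ) x * (χ : G → ℂ) x + 2 * v := by
      intro s
      induction s using Finset.induction with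
      | empty => exact ⟨0, isIntegral_zero, by simp⟩
      | insert χ s hχ ih =>
        obtain ⟨v, hv, he⟩ := ih
        refine ⟨v + (χ : G → ℂ) x * ∑ ψ ∈ s, (ψ : G → ℂ) x,
          hv.add ((Chars.isIntegral_apply (Chars.isCharacter_coe χ) x).mul
            (IsIntegral.sum _ fun ψ _ => Chars.isIntegral_apply (Chars.isCharacter_coe ψ) x)), ?_⟩
        rw [Finset.sum_insert hχ, Finset.sum_insert hχ]
        linear_combination he
    obtain ⟨v, hv, he⟩ := hpair Finset.univ
    rw [← hθ, hθu, hS] at he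
    have hint : IsIntegral ℤ ((Nat.card (Subgroup.centralizer ({x} : Set G)) : ℂ) / (2 : ℕ)) := by
      rw [show ((Nat.card (Subgroup.centralizer ({x} : Set G)) : ℂ) / (2 : ℕ)) = 2 * u * u - v by
        push_cast; linear_combination (-(1 : ℂ) / 2) * he]
      exact ((((isIntegral_algebraMap (R := ℤ) (A := ℂ) (x := 2))).mul
        (IsIntegral.sum _ fun χ _ => (Chars.isIntegral_apply (Chars.isCharacter_coe χ) x).mul
          (isIntegral_algebraMap (R := ℤ) (A := ℂ) (x := m χ)))).mul
        (IsIntegral.sum _ fun χ _ => (Chars.isIntegral_apply (Chars.isCharacter_coe χ) x).mul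
          (isIntegral_algebraMap (R := ℤ) (A := ℂ) (x := m χ)))).sub hv
    exact (Nat.not_even_iff_odd.2 hCx) (even_iff_two_dvd.2 (Chars.dvd_of_isIntegral_div two_ne_zero hint))
  -- the count
  obtain ⟨P⟩ : Nonempty (Sylow p G) := inferInstance
  haveI := Fintype.ofFinite (P : Subgroup G)
  set C := Subgroup.centralizer ({t} : Set G) with hCdef
  have hpC : ¬ p ∣ Nat.card C := by
    intro hdvd
    obtain ⟨y, hy⟩ := exists_prime_orderOf_dvd_card' (G := C) p hdvd
    have hy' : orderOf (y : G) = p := by rw [Subgroup.orderOf_coe, hy]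
    have hy1 : (y : G) ≠ 1 := fun h => by
      rw [h, orderOf_one] at hy'; exact (Fact.out : p.Prime).ne_one hy'.symm
    have hmem : t ∈ Subgroup.centralizer ({(y : G)} : Set G) := by
      rw [Subgroup.mem_centralizer_singleton_iff]
      exact (Subgroup.mem_centralizer_singleton_iff.1 y.2).symm
    have h2 : 2 ∣ Nat.card (Subgroup.centralizer ({(y : G)} : Set G)) := by
      have := orderOf_dvd_natCard (⟨t, hmem⟩ : Subgroup.centralizer ({(y : G)} : Set G))
      rwa [Subgroup.orderOf_mk, ht] at this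
    exact (Nat.not_even_iff_odd.2 (hC _ hy1 ⟨1, by rw [hy', pow_one]⟩)) (even_iff_two_dvd.2 h2)
  have hmult : ∀ χ : Cfsg.IrrCharacter G, ∃ n : ℕ,
      ∑ y : (P : Subgroup G), (χ : G → ℂ) (y : G) = (Nat.card (P : Subgroup G) : ℂ) * n := by
    intro χ
    obtain ⟨c, hc, hc'⟩ := Chars.exists_nat_coeff
      (Chars.isCharacter_restrict (Chars.isCharacter_coe χ) (P : Subgroup G))
    refine ⟨c ⟨_, Chars.isIrrCharacter_one⟩, ?_⟩
    rw [← hc' ⟨_, Chars.isIrrCharacter_one⟩, classInner, ← mul_assoc,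
      mul_inv_cancel₀ Chars.natCard_ne_zero, one_mul]
    simp
  choose n hn using hmult
  set z : G × G → G := fun ab => ab.1 * t * ab.1⁻¹ * (ab.2 * t * ab.2⁻¹) with hz
  have hZ : ∀ χ : Cfsg.IrrCharacter G, ∑ ab : G × G, (χ : G → ℂ) (z ab) =
      (Nat.card G : ℂ) ^ 2 * (χ : G → ℂ) t ^ 2 / (χ : G → ℂ) 1 := by
    intro χ
    rw [Fintype.sum_prod_type]
    have hcj : ∀ g : G, (χ : G → ℂ) (g * t * g⁻¹) = (χ : G → ℂ) t :=
      fun g => Chars.isClassFunction_coe χ t g
    simp only [hz, Chars.sum_map_mul_conjugate, hcj, Finset.sum_const,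
      Finset.card_univ, nsmul_eq_mul, ← Nat.card_eq_fintype_card]
    ring
  have hone : ∀ ab : G × G, ∑ y : (P : Subgroup G), ∑ χ : Cfsg.IrrCharacter G,
      (χ : G → ℂ) (z ab) * (χ : G → ℂ) (y : G) =
      if z ab = 1 then (Nat.card G : ℂ) else 0 := by
    intro ab
    have hcol : ∀ y : (P : Subgroup G), ∑ χ : Cfsg.IrrCharacter G,
        (χ : G → ℂ) (z ab) * (χ : G → ℂ) (y : G) =
        if y = 1 ∧ z ab = 1 then (Nat.card G : ℂ) else 0 := by
      intro y
      have h1 := Chars.sum_irr_mul_conj (z ab) (y : G)⁻¹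
      rw [Finset.sum_congr rfl fun χ _ => by
        rw [Chars.conj_eq_map_inv (Chars.isCharacter_coe χ), inv_inv]] at h1
      rw [h1]
      by_cases hy : y = 1
      · subst hy
        simp only [OneMemClass.coe_one, inv_one, true_and]
        by_cases h : z ab = 1
        · rw [if_pos (show IsConj (z ab) 1 by rw [h]), if_pos h, h]
          congr 1
          exact Nat.card_congr (Equiv.subtypeUnivEquiv fun g => by
            rw [Subgroup.mem_centralizer_singleton_iff, mul_one, one_mul])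
        · rw [if_neg (fun h' => h (isConj_one_right.1 h'.symm)), if_neg h]
      · rw [if_neg (c := y = 1 ∧ z ab = 1) (fun h => hy h.1), if_neg]
        intro hcj
        obtain ⟨j, hj⟩ := IsPGroup.iff_orderOf.1 P.2 y
        have hj0 : j ≠ 0 := fun h => hy (orderOf_eq_one_iff.1 (by rw [hj, h, pow_zero]))
        obtain ⟨a, ha⟩ := isConj_iff.1 hcj
        have hord : p ∣ orderOf (z ab) := by
          have h' : orderOf (y : G)⁻¹ = orderOf (z ab) :=
            ha ▸ (MulEquiv.orderOf_eq (MulAut.conj a) (z ab))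
          rw [orderOf_inv, Subgroup.orderOf_coe, hj] at h'
          exact h' ▸ dvd_pow_self p hj0
        apply hnr _ hord
        refine isConj_iff.2 ⟨ab.1 * t * ab.1⁻¹, ?_⟩
        have hi : ∀ g : G, g * t * g⁻¹ * (g * t * g⁻¹) = 1 := fun g => by
          calc g * t * g⁻¹ * (g * t * g⁻¹) = g * (t * t) * g⁻¹ := by group
            _ = 1 := by rw [htt, mul_one, mul_inv_cancel]
        show ab.1 * t * ab.1⁻¹ * z ab * (ab.1 * t * ab.1⁻¹)⁻¹ = (z ab)⁻¹
        rw [hz]
        simp only []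
        rw [← mul_assoc (ab.1 * t * ab.1⁻¹) (ab.1 * t * ab.1⁻¹), hi, one_mul,
          mul_inv_rev (ab.1 * t * ab.1⁻¹), inv_eq_of_mul_eq_one_left (hi ab.1),
          inv_eq_of_mul_eq_one_left (hi ab.2)]
    rw [Finset.sum_congr rfl fun y _ => hcol y, Finset.sum_eq_single (1 : (P : Subgroup G))]
    · simp
    · exact fun y _ hy => if_neg fun h => hy h.1
    · simp
  have hcount : (Finset.univ.filter fun ab : G × G => z ab = 1).card = Nat.card G * Nat.card C := by
    rw [Nat.card_eq_fintype_card, Nat.card_eq_fintype_card, ← Fintype.card_prod, ← Finset.card_univ]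
    symm
    refine Finset.card_bij' (fun gc _ => (gc.1, gc.1 * (gc.2 : G))) (fun ab hab => (ab.1, ⟨ab.1⁻¹ * ab.2, ?_⟩))
      (fun gc _ => ?_) (fun _ _ => Finset.mem_univ _) (fun gc _ => by simp) (fun ab _ => by simp)
    · simp only [Finset.mem_filter, Finset.mem_univ, true_and, hz] at hab
      rw [hCdef, Subgroup.mem_centralizer_singleton_iff]
      have h1 : ab.2 * t * ab.2⁻¹ = ab.1 * t * ab.1⁻¹ := by
        calc ab.2 * t * ab.2⁻¹ = (ab.1 * t * ab.1⁻¹)⁻¹ := (inv_eq_of_mul_eq_one_right hab).symm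
          _ = ab.1 * t⁻¹ * ab.1⁻¹ := by group
          _ = ab.1 * t * ab.1⁻¹ := by rw [inv_eq_of_mul_eq_one_left htt]
      calc ab.1⁻¹ * ab.2 * t = ab.1⁻¹ * (ab.2 * t * ab.2⁻¹) * ab.2 := by group
        _ = t * (ab.1⁻¹ * ab.2) := by rw [h1]; group
    · simp only [Finset.mem_filter, Finset.mem_univ, true_and, hz]
      have hc := Subgroup.mem_centralizer_singleton_iff.1 gc.2.2
      calc gc.1 * t * gc.1⁻¹ * (gc.1 * (gc.2 : G) * t * (gc.1 * (gc.2 : G))⁻¹)
          = gc.1 * (t * ((gc.2 : G) * t) * (gc.2 : G)⁻¹) * gc.1⁻¹ := by group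
        _ = gc.1 * (t * t) * gc.1⁻¹ := by rw [hc]; group
        _ = 1 := by rw [htt, mul_one, mul_inv_cancel]
  have hmain : ∑ χ : Cfsg.IrrCharacter G, (Nat.card (P : Subgroup G) : ℂ) * n χ *
      ((Nat.card G : ℂ) ^ 2 * (χ : G → ℂ) t ^ 2 / (χ : G → ℂ) 1) =
      (Nat.card G : ℂ) * (Nat.card G * Nat.card C : ℕ) := by
    rw [← hcount]
    simp only [← hn, ← hZ, Finset.sum_mul_sum]
    rw [Finset.sum_congr rfl fun χ _ => Finset.sum_comm, Finset.sum_comm,
      Finset.sum_congr rfl fun ab _ => by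
        rw [Finset.sum_comm, Finset.sum_congr rfl fun y _ => Finset.sum_congr rfl fun χ _ =>
          mul_comm _ _, hone ab], ← Finset.sum_filter, Finset.sum_const, nsmul_eq_mul, mul_comm]
  choose k hk using fun χ : Cfsg.IrrCharacter G => exists_int_involution χ htt
  choose q hq using fun χ : Cfsg.IrrCharacter G => Chars.charDegree_dvd_card χ
  have hqp : ∀ χ : Cfsg.IrrCharacter G, p ∣ q χ := by
    intro χ
    by_contra hnd
    apply hdz χ
    have hq0 : q χ ≠ 0 := fun h => hnd (h ▸ dvd_zero p)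
    conv_rhs => rw [hq χ, Nat.factorization_mul (Chars.charDegree_pos χ).ne' hq0, Finsupp.add_apply,
      Nat.factorization_eq_zero_of_not_dvd hnd, add_zero]
  set h := (P : Subgroup G).index with hh
  have hG : Nat.card G = Nat.card (P : Subgroup G) * h := ((P : Subgroup G).card_mul_index).symm
  have hfin : (∑ χ : Cfsg.IrrCharacter G, (n χ : ℤ) * (q χ : ℤ) *
      ((charDegree (χ : G → ℂ) : ℤ) - 2 * k χ) ^ 2) = ((h * Nat.card C : ℕ) : ℤ) := by
    rw [← Int.cast_inj (α := ℂ)]
    push_cast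
    have hP0 : (Nat.card (P : Subgroup G) : ℂ) ≠ 0 := Chars.natCard_ne_zero
    have hG0 : (Nat.card G : ℂ) ≠ 0 := Chars.natCard_ne_zero
    apply mul_left_cancel₀ (mul_ne_zero hP0 hG0)
    rw [Finset.mul_sum]
    refine Eq.trans (Finset.sum_congr rfl fun χ _ => ?_) (hmain.trans ?_)
    · rw [hk χ, ← Chars.coe_charDegree]
      have hd0 : (charDegree (χ : G → ℂ) : ℂ) ≠ 0 :=
        Nat.cast_ne_zero.2 (Chars.charDegree_pos χ).ne'
      have hq' : (Nat.card G : ℂ) = (charDegree (χ : G → ℂ) : ℂ) * q χ := by exact_mod_cast hq χ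
      rw [hq']
      field_simp
    · have hG' : (Nat.card G : ℂ) = (Nat.card (P : Subgroup G) : ℂ) * h := by exact_mod_cast hG
      push_cast
      linear_combination (Nat.card G : ℂ) * (Nat.card C : ℂ) * hG'
  have hdvd : (p : ℤ) ∣ ((h * Nat.card C : ℕ) : ℤ) := by
    rw [← hfin]
    exact Finset.dvd_sum fun χ _ => Dvd.dvd.mul_right
      (Dvd.dvd.mul_left (Int.natCast_dvd_natCast.2 (hqp χ)) _) _
  rcases (Fact.out : p.Prime).dvd_mul.1 (Int.natCast_dvd_natCast.1 hdvd) with h1 | h1
  · exact P.not_dvd_index h1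
  · exact hpC h1

end Cfsg.Agent.S4746
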