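import Cfsg.Statements.S2455
import Cfsg.Agent.Psl2Cover.Macbeath
-- import your own Cfsg.Agent.* helpers here

set_option autoImplicit false
open Cfsg

namespace Cfsg.Agent.S2455

/-- A strong covering result in the direction of Thompson's conjecture (non-identity elements) for PSL(2,q), q odd: let F be a finite field of odd characteristic p with at least 5 elements and let x ∈ PSL(2,F) have order greater than 2 and not divisible by p (so x is not unipotent). Then every non-identity element of PSL(2,F) is a product of two conjugates of x. -/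
theorem result {F : Type*} [Field F] [Fintype F] (p : ℕ) [Fact p.Prime] [CharP F p] (hp : p ≠ 2) (h5 : 5 ≤ Fintype.card F)
    (x : Matrix.ProjectiveSpecialLinearGroup (Fin 2) F) (hx2 : 2 < orderOf x) (hxp : ¬ p ∣ orderOf x) : ∀ g : Matrix.ProjectiveSpecialLinearGroup (Fin 2) F, g ≠ 1 → ∃ u v : Matrix.ProjectiveSpecialLinearGroup (Fin 2) F, g = (u * x * u⁻¹) * (v * x * v⁻¹) := by
  classical
  obtain ⟨A, rfl⟩ := QuotientGroup.mk'_surjective (Subgroup.center (Matrix.SpecialLinearGroup (Fin 2) F)) x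
  intro g hg
  obtain ⟨G, rfl⟩ := QuotientGroup.mk'_surjective (Subgroup.center (Matrix.SpecialLinearGroup (Fin 2) F)) g
  set π := QuotientGroup.mk' (Subgroup.center (Matrix.SpecialLinearGroup (Fin 2) F)) with hπ
  have hneg : ∀ M : Matrix.SpecialLinearGroup (Fin 2) F, π (-M) = π M := fun M => by
    rw [show -M = M * (-1) by simp, map_mul,
      show π (-1) = 1 from (QuotientGroup.eq_one_iff _).2 CfsgLib.SL2.neg_one_mem_center, mul_one]
  have h2 : (2 : F) ≠ 0 := Ring.two_ne_zero (by rw [ringChar.eq F p]; exact hp)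
  have ht : CfsgLib.SL2.tr A ^ 2 ≠ 4 := by
    intro h
    have h1 : (π A) ^ (2 * p) = 1 := by
      rw [← map_pow, CfsgLib.SL2.pow_two_mul_char_eq_one (p := p) h, map_one]
    have h2' : orderOf (π A) ∣ 2 :=
      (((Fact.out : p.Prime).coprime_iff_not_dvd.2 hxp).symm).dvd_of_dvd_mul_right
        (orderOf_dvd_of_pow_eq_one h1)
    exact absurd (Nat.le_of_dvd two_pos h2') (by omega)
  have ht0 : CfsgLib.SL2.tr A ≠ 0 := by
    intro h
    have h1 : (π A) ^ 2 = 1 := by
      rw [pow_two, ← map_mul, CfsgLib.SL2.mul_self_of_tr_eq_zero h, hneg, map_one]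
    exact absurd (Nat.le_of_dvd two_pos (orderOf_dvd_of_pow_eq_one h1)) (by omega)
  suffices H : ∃ (G' a b : Matrix.SpecialLinearGroup (Fin 2) F),
      π G' = π G ∧ G' = (a * A * a⁻¹) * (b * A * b⁻¹) by
    obtain ⟨G', a, b, hG', hab⟩ := H
    exact ⟨π a, π b, by rw [← hG', hab]; simp [map_mul, map_inv]⟩
  by_cases hs : CfsgLib.SL2.tr G ^ 2 = 4
  · have h' : (CfsgLib.SL2.tr G - 2) * (CfsgLib.SL2.tr G + 2) = 0 := by linear_combination hs
    obtain ⟨G', hG', htr⟩ : ∃ G', π G' = π G ∧ CfsgLib.SL2.tr G' = 2 := by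
      rcases mul_eq_zero.1 h' with h | h
      · exact ⟨G, rfl, sub_eq_zero.1 h⟩
      · exact ⟨-G, hneg G, by rw [CfsgLib.SL2.tr_neg]; linear_combination -h⟩
    have hne : G' ≠ 1 := by
      rintro rfl
      exact hg (by rw [← hG', map_one])
    obtain ⟨r, hr, hc⟩ := CfsgLib.SL2.exists_isConj_u hne htr
    obtain ⟨c, hc⟩ := isConj_iff.1 hc.symm
    obtain ⟨a, b, hab⟩ := CfsgLib.Psl2Cover.exists_conj_mul_eq_neg_u ht ht0 h2 hr
    have hc' : c * -(CfsgLib.SL2.u r) * c⁻¹ = -G' := by rw [← hc]; simp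
    exact ⟨-G', c * a, c * b, by rw [hneg, hG'],
      CfsgLib.Psl2Cover.conj_factor hab c hc'⟩
  · obtain ⟨a, b, hab⟩ := CfsgLib.Psl2Cover.exists_conj_mul_eq_of_tr_sq_ne ht hs
    exact ⟨G, a, b, rfl, hab⟩

end Cfsg.Agent.S2455
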