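import Cfsg.Statements.S0064
import Mathlib

set_option autoImplicit false
open Cfsg

namespace Cfsg.Agent.S0064

/-- A finite group is nilpotent exactly when each of its subgroups is subnormal. -/
theorem result {G : Type*} [Group G] [Finite G] :
    Group.IsNilpotent G ↔ ∀ H : Subgroup G, H.IsSubnormal := by
  constructor
  · intro h H
    have hnc : NormalizerCondition G :=
      (Group.isNilpotent_of_finite_tfae (G := G)).out 0 1 rfl rfl |>.mp h
    induction H using WellFoundedGT.induction with
    | ind H ih =>
      by_cases hH : H = ⊤
      · rw [hH]; exact Subgroup.IsSubnormal.top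
      · exact Subgroup.IsSubnormal.step _ _ Subgroup.le_normalizer
          (ih _ (hnc H (lt_top_iff_ne_top.2 hH))) Subgroup.normal_in_normalizer
  · intro h
    refine (Group.isNilpotent_of_finite_tfae (G := G)).out 0 1 rfl rfl |>.mpr fun H hH => ?_
    obtain rfl | ⟨K, hK, -, hN⟩ := Subgroup.IsSubnormal.iff_eq_top_or_exists.1 (h H)
    · exact absurd rfl hH.ne
    · exact hK.trans_le ((Subgroup.normal_subgroupOf_iff_le_normalizer hK.le).1 hN)

end Cfsg.Agent.S0064
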