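import Cfsg.Statements.S0265
import Cfsg.Agent.Classical.Linear.Card

set_option autoImplicit false
open Cfsg

namespace Cfsg.Agent.S0265

/-- |PGL_n(q)| = |SL_n(q)|: GL_n modulo its centre (the q-1 non-zero scalars) has the same order as the kernel of det. -/
theorem result {F : Type*} [Field F] [Fintype F] (n : ℕ) : Nat.card (Matrix.ProjGenLinGroup (Fin n) F) = Nat.card (Matrix.SpecialLinearGroup (Fin n) F) := by
  rcases Nat.eq_zero_or_pos n with rfl | hn
  · haveI : Subsingleton (Matrix.GeneralLinearGroup (Fin 0) F) :=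
      ⟨fun a b => Units.ext (Matrix.ext fun i => i.elim0)⟩
    haveI : Subsingleton (Matrix.ProjGenLinGroup (Fin 0) F) :=
      Matrix.ProjGenLinGroup.mk_surjective.subsingleton
    haveI : Subsingleton (Matrix.SpecialLinearGroup (Fin 0) F) :=
      ⟨fun a b => Subtype.ext (Matrix.ext fun i => i.elim0)⟩
    rw [Nat.card_of_subsingleton (1 : Matrix.ProjGenLinGroup (Fin 0) F),
      Nat.card_of_subsingleton (1 : Matrix.SpecialLinearGroup (Fin 0) F)]
  · haveI : Nonempty (Fin n) := ⟨⟨0, hn⟩⟩
    have hinj : Function.Injective (Matrix.GeneralLinearGroup.scalar (R := F) (Fin n)) := by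
      intro a b h
      have h' : ((Matrix.GeneralLinearGroup.scalar (Fin n) a :
          Matrix.GeneralLinearGroup (Fin n) F) : Matrix (Fin n) (Fin n) F) ⟨0, hn⟩ ⟨0, hn⟩ =
          ((Matrix.GeneralLinearGroup.scalar (Fin n) b :
          Matrix.GeneralLinearGroup (Fin n) F) : Matrix (Fin n) (Fin n) F) ⟨0, hn⟩ ⟨0, hn⟩ := by
        rw [h]
      exact Units.ext (by simpa using h')
    have hc : Nat.card (Subgroup.center (Matrix.GeneralLinearGroup (Fin n) F)) = Nat.card Fˣ := by
      rw [Matrix.GeneralLinearGroup.center_eq_range_scalar]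
      exact (Nat.card_congr (MonoidHom.ofInjective hinj).toEquiv).symm
    have h1 := Subgroup.card_eq_card_quotient_mul_card_subgroup
      (Subgroup.center (Matrix.GeneralLinearGroup (Fin n) F))
    rw [hc, CfsgLib.Classical.Linear.card_gl_eq, mul_comm] at h1
    exact (Nat.eq_of_mul_eq_mul_right Nat.card_pos h1).symm

end Cfsg.Agent.S0265
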