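import Cfsg.Statements.S0340
import Cfsg.Agent.ZassAbelian.SimpleEven
import Cfsg.Agent.ZassAbelian.KernelFull
import Cfsg.Agent.ZassAbelian.OrbitPrime
import Cfsg.Agent.Dickson.PSL
import Cfsg.Agent.S0344
import Cfsg.Agent.S0345
import Cfsg.Agent.S0885
import Cfsg.Agent.S0347

set_option autoImplicit false
open Cfsg

namespace Cfsg.Agent.S0340


/-- Classification of Zassenhaus groups, simple case, order-level form: a finite simple Zassenhaus group is
isomorphic to `PSL₂(F)` for some finite field `F` or is simple of Suzuki order. -/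
theorem result {G Ω : Type*} [Group G] [Finite G] [MulAction G Ω]
    [Finite Ω] (hZ : Cfsg.IsZassenhausGroup G Ω) [IsSimpleGroup G] :
    (∃ (F : Type) (_ : Field F) (_ : Fintype F), Nonempty (G ≃* Matrix.ProjectiveSpecialLinearGroup (Fin 2) F)) ∨ Cfsg.IsSuzuki G := by
  classical
  haveI := Fintype.ofFinite Ω
  have h3Ω := CfsgLib.ZassAbelian.zassenhaus_three_le hZ
  obtain ⟨a, b, hab⟩ : ∃ a b : Ω, a ≠ b := Fintype.exists_pair_of_one_lt_card
    (by rw [← Nat.card_eq_fintype_card]; omega)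
  rcases Nat.even_or_odd (Nat.card ↥(MulAction.stabilizer G a ⊓ MulAction.stabilizer G b)) with
    heven | hodd
  · obtain ⟨F, iF, iT, -, hne⟩ := Cfsg.Agent.S0344.result hZ hab heven
    exact Or.inl ⟨F, iF, iT, hne⟩
  have hpair : ∀ x y z w : Ω, x ≠ y → z ≠ w → ∃ g : G, g • x = z ∧ g • y = w :=
    fun x y z w hxy hzw => MulAction.is_two_pretransitive_iff.1 hZ.2.1 hxy hzw
  obtain ⟨U, hUa, hUc, hUn, hreg, hfree, φ, hφ⟩ :=
    CfsgLib.ZassAbelian.exists_regular_kernel hpair hZ.2.2.1 h3Ω hab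
  have hfix : ∀ u ∈ U, u ≠ 1 → ∀ c : Ω, u • c = c → c = a := fun u hu hu1 c hc => by
    by_contra hca
    exact hu1 (hfree u hu c hca hc)
  have hUc' : Nat.card U + 1 = Fintype.card Ω := by rw [hUc, Nat.card_eq_fintype_card]
  rw [Nat.card_eq_fintype_card] at h3Ω
  rcases Cfsg.Agent.S0885.result hZ hab (Nat.card U) _ hUc'.symm rfl hodd U hUa
      hUc' hfix with hle | ⟨h2, ⟨u, v, huv⟩, -⟩
  · left
    obtain ⟨g, hg1, x, y, hxy, hx, hy⟩ := hZ.2.2.2.1
    haveI : Nontrivial ↥(MulAction.stabilizer G a ⊓ MulAction.stabilizer G b) := by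
      obtain ⟨k, rfl, rfl⟩ := hpair x y a b hxy hab
      refine ⟨⟨⟨k * g * k⁻¹, Subgroup.mem_inf.2 ⟨?_, ?_⟩⟩, 1, fun e =>
        hg1 (conj_eq_one_iff.1 (congrArg Subtype.val e))⟩⟩
      · rw [MulAction.mem_stabilizer_iff, mul_smul, inv_smul_smul, mul_smul, hx]
      · rw [MulAction.mem_stabilizer_iff, mul_smul, inv_smul_smul, mul_smul, hy]
    obtain ⟨p, n, hp, -, hpn⟩ := (isPrimePow_nat_iff _).1
      (CfsgLib.ZassAbelian.isPrimePow_of_two_orbits φ hφ (by omega) hle)
    haveI := Fact.mk hp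
    have hcomm : ∀ s t : U, s * t = t * s := CfsgLib.ZassAbelian.comm_of_two_orbits
      (IsPGroup.of_card (n := n) hpn.symm) φ hφ hle
    obtain ⟨c, hca, hcb⟩ : ∃ c : Ω, c ≠ a ∧ c ≠ b := by
      obtain ⟨c, hc⟩ : ∃ c : Ω, c ∉ ({a, b} : Finset Ω) := by
        by_contra h
        push Not at h
        have := Finset.card_le_card (show (Finset.univ : Finset Ω) ⊆ {a, b} from fun x _ => h x)
        rw [Finset.card_univ, Finset.card_pair hab] at this
        omega
      simp only [Finset.mem_insert, Finset.mem_singleton, not_or] at hc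
      exact ⟨c, hc.1, hc.2⟩
    let D : CfsgLib.ZassAbelian.Setting G Ω :=
      { i := a
        o := b
        io := hab
        pair := hpair
        three := hZ.2.2.1
        third := ⟨c, hca, hcb⟩
        F := U
        Fle := fun s hs => hUa hs
        Fnorm := hUn
        Fcomm := fun s hs t ht => congrArg Subtype.val (hcomm ⟨s, hs⟩ ⟨t, ht⟩)
        reg := hreg
        free := hfree }
    rcases CfsgLib.ZassAbelian.classify D with h | ⟨h, hinv⟩ | ⟨M, hMn, ht, hf⟩
    · have hcyc : IsCyclic ↥(MulAction.stabilizer G a ⊓ MulAction.stabilizer G b) :=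
        (Cfsg.Agent.S0345.result hZ hab).1
      have hc : ∀ s ∈ D.H, ∀ t ∈ D.H, s * t = t * s := fun s hs t ht => by
        letI := hcyc.commGroup
        exact congrArg Subtype.val (mul_comm (⟨s, hs⟩ :
          ↥(MulAction.stabilizer G a ⊓ MulAction.stabilizer G b)) ⟨t, ht⟩)
      obtain ⟨K, iF, iT, hK, ⟨e⟩⟩ := CfsgLib.ZassAbelian.pgl_of_commutative D h hc
      have hq : Even (Fintype.card K) := by
        rw [hK]
        have hdodd : Odd (Nat.card D.H) := hodd
        have := D.two_le_q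
        obtain ⟨r, hr⟩ := hdodd
        exact ⟨r + 1, by omega⟩
      obtain ⟨r, hr⟩ := CharP.exists K
      haveI := hr
      haveI : Fact r.Prime := ⟨CharP.char_is_prime K r⟩
      obtain ⟨m, hr', hm⟩ := FiniteField.card K r
      have hr2 : r = 2 := ((Nat.prime_dvd_prime_iff_eq Nat.prime_two hr').1
        (Nat.prime_two.dvd_of_dvd_pow (hm ▸ hq.two_dvd))).symm
      subst hr2
      obtain ⟨e'⟩ := CfsgLib.Dickson.psl_equiv_pgl (F := K)
      exact ⟨K, iF, iT, ⟨e.trans e'.symm⟩⟩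
    · obtain ⟨K, iF, iT, -, -, hne⟩ := CfsgLib.ZassAbelian.psl_of_inverted D h hinv
      exact ⟨K, iF, iT, hne⟩
    · exfalso
      haveI := CfsgLib.ZassAbelian.isPretransitive_of_exists ht
      obtain ⟨z, hz⟩ := hZ.2.2.2.2 M hMn inferInstance
      exact hz (CfsgLib.ZassAbelian.stabilizer_of_free hf z)
  · right
    refine Cfsg.Agent.S0347.result hZ a U hUa ⟨fun s hs t => ?_⟩ h2 ⟨u, v, huv⟩
      fun y z hy hz => ?_
    · rw [Subgroup.mem_subgroupOf] at hs ⊢
      exact hUn t t.2 _ hs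
    · obtain ⟨s, hs, he⟩ := hreg y z hy hz
      refine ⟨⟨s, hs⟩, he, fun t ht => Subtype.ext ?_⟩
      have h1 : (s⁻¹ * (t : G)) • y = y := by rw [mul_smul, ht, ← he, inv_smul_smul]
      exact (inv_mul_eq_one.1 (hfree _ (mul_mem (inv_mem hs) t.2) y hy h1)).symm

end Cfsg.Agent.S0340
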