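import Cfsg.Statements.S0437
import Cfsg.Agent.Eq.Def_SporadicB
import Cfsg.Agent.ThreeTranspositions.Basic

set_option autoImplicit false
open Cfsg

namespace Cfsg.Agent.S0437

/-- For three distinct, pairwise commuting members a, b, c of a set of 3-transpositions E, a member e of E centralises a * b * c if and only if it centralises each of a, b and c. -/
theorem result {G : Type*} [Group G] {E : Set G} (hE : Cfsg.IsThreeTranspositionSet E) {a b c e : G} (ha : a ∈ E) (hb : b ∈ E) (hc : c ∈ E) (he : e ∈ E) (hab : a ≠ b) (hac : a ≠ c) (hbc : b ≠ c) (h₁ : Commute a b) (h₂ : Commute a c) (h₃ : Commute b c) : Commute e (a * b * c) ↔ (Commute e a ∧ Commute e b ∧ Commute e c) := by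
  exact ⟨CfsgLib.ThreeTranspositions.commute_mul_three hE ha hb hc he hab hac hbc h₁ h₂ h₃,
    fun h => (h.1.mul_right h.2.1).mul_right h.2.2⟩

end Cfsg.Agent.S0437
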