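import Cfsg.Statements.S0732
import Cfsg.Agent.ZassAbelian.PrimePlusOne
import Cfsg.Agent.Eq.Def_Perm

set_option autoImplicit false
open Cfsg

namespace Cfsg.Agent.S0732


/-- A transitive permutation group on `p + 1` points (`p` prime) of order `(p+1) p d` with `d < p` is isomorphic to `PGL(2,p)` with `d = p - 1`, or to `PSL(2,p)` with `2d = p - 1`, or else `p + 1 = 2^q` for a prime `q`, `d = 1` or `d = q`, and the group is permutation-isomorphic to a group of semi-affine maps `x ↦ a φ(x) + b` of the field with `2^q` elements. -/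
theorem result {α : Type*} [Fintype α] [DecidableEq α] {p d : ℕ} (hp : p.Prime) (hα : Fintype.card α = p + 1) (G : Subgroup (Equiv.Perm α)) [MulAction.IsPretransitive G α] (hG : Nat.card G = (p + 1) * p * d) (hd : d < p) : (d = p - 1 ∧ Nonempty (G ≃* Matrix.ProjGenLinGroup (Fin 2) (ZMod p))) ∨ (2 * d = p - 1 ∧ Nonempty (G ≃* Matrix.ProjectiveSpecialLinearGroup (Fin 2) (ZMod p))) ∨ (∃ q : ℕ, q.Prime ∧ p + 1 = 2 ^ q ∧ (d = 1 ∨ d = q) ∧ ∃ e : α ≃ GaloisField 2 q, ∀ g : G, (e.symm.trans (((g : Equiv.Perm α)).trans e)) ∈ Cfsg.semiaffineGroup (GaloisField 2 q)) := by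
  classical
  haveI := Fact.mk hp
  have hΩ : Nat.card α = p + 1 := by rw [Nat.card_eq_fintype_card, hα]
  obtain ⟨D, hF, hH⟩ := CfsgLib.ZassAbelian.exists_setting_prime_add_one hp hΩ hG hd
  by_cases hA : d = p - 1
  · left
    obtain ⟨K, iF, iT, hK, ⟨e⟩⟩ := CfsgLib.ZassAbelian.pgl_of_commutative D
      (by rw [hH, hF, hA]) (D.H_comm_of_prime (hF ▸ hp))
    obtain ⟨e2⟩ := CfsgLib.Dickson.pgl_congr
      (FiniteField.ringEquivOfCardEq (K := K) (K' := ZMod p) (by rw [hK, hF, ZMod.card]))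
    exact ⟨hA, ⟨e.trans e2⟩⟩
  rcases CfsgLib.ZassAbelian.classify D with h | ⟨h, hinv⟩ | h
  · exact absurd (by rw [← hH, h, hF]) hA
  · right; left
    obtain ⟨K, iF, iT, hK, -, ⟨e⟩⟩ := CfsgLib.ZassAbelian.psl_of_inverted D h hinv
    obtain ⟨e2⟩ := CfsgLib.Dickson.psl_congr
      (FiniteField.ringEquivOfCardEq (K := K) (K' := ZMod p) (by rw [hK, hF, ZMod.card]))
    exact ⟨by rw [← hH, h, hF], ⟨e.trans e2⟩⟩
  · right; right
    have hp2 : p ≠ 2 := by
      rintro rfl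
      have := Nat.card_pos (α := D.H)
      omega
    obtain ⟨r, hr, hpr, hdr, K, iF, iT, pos, hK, hsemi⟩ :=
      CfsgLib.ZassAbelian.semiaffine_of_regular_normal D hp hp2 hF h
    haveI : Fact (Nat.Prime 2) := ⟨Nat.prime_two⟩
    haveI : Fintype (GaloisField 2 r) := Fintype.ofFinite _
    let ρ : K ≃+* GaloisField 2 r := FiniteField.ringEquivOfCardEq (by
      rw [hK, ← Nat.card_eq_fintype_card (α := GaloisField 2 r), GaloisField.card 2 r hr.ne_zero])
    refine ⟨r, hr, hpr, hH ▸ hdr, pos.symm.trans ρ.toEquiv, fun g => ?_⟩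
    obtain ⟨a, b, φ, hg⟩ := hsemi g
    refine ⟨Units.map (ρ : K →* GaloisField 2 r) a, ρ b, (ρ.symm.trans φ).trans ρ, fun x => ?_⟩
    have h1 : (g : Equiv.Perm α) (pos (ρ.symm x)) = pos ((a : K) * φ (ρ.symm x) + b) :=
      hg (ρ.symm x)
    show ρ (pos.symm ((g : Equiv.Perm α) (pos (ρ.symm x)))) = _
    rw [h1, Equiv.symm_apply_apply, map_add, map_mul]
    rfl

end Cfsg.Agent.S0732
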