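import Cfsg.Statements.S0498
import Cfsg.Agent.S0732
import Cfsg.Agent.Dickson.PSL

set_option autoImplicit false
open Cfsg

namespace Cfsg.Agent.S0498

/-- A simple group of order 660, respectively 1092, is isomorphic to the projective special linear group of dimension 2
over the field with 11, respectively 13, elements. -/
theorem result {G : Type*} [Group G] [Finite G] [IsSimpleGroup G] (p : ℕ)
    (hp : p = 11 ∨ p = 13) (h : 2 * Nat.card G = p * (p ^ 2 - 1)) {F : Type*} [Field F] [Fintype F]
    (hF : Fintype.card F = p) : Nonempty (G ≃* Matrix.ProjectiveSpecialLinearGroup (Fin 2) F) := by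
  classical
  have hpp : p.Prime := by rcases hp with rfl | rfl <;> norm_num
  haveI := Fact.mk hpp
  have hG : Nat.card G = (p + 1) * p * ((p - 1) / 2) := by
    rcases hp with rfl | rfl <;> norm_num at h ⊢ <;> omega
  set m := Nat.card (Sylow p G) with hm
  have hm1 : m ≡ 1 [MOD p] := card_sylow_modEq_one p G
  let P : Sylow p G := default
  have hPc : Nat.card (P : Subgroup G) = p := by
    rw [P.card_eq_multiplicity]
    rcases hp with rfl | rfl
    · rw [show Nat.card G = 11 ^ 1 * 60 by omega, Nat.factorization_mul (by norm_num) (by norm_num),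
        Nat.Prime.factorization_pow (by norm_num)]
      simp [Nat.factorization_eq_zero_of_not_dvd]
    · rw [show Nat.card G = 13 ^ 1 * 84 by omega, Nat.factorization_mul (by norm_num) (by norm_num),
        Nat.Prime.factorization_pow (by norm_num)]
      simp [Nat.factorization_eq_zero_of_not_dvd]
  have hidx : (P : Subgroup G).index = (p + 1) * ((p - 1) / 2) := by
    have := (P : Subgroup G).card_mul_index
    rw [hPc, hG] at this
    exact Nat.eq_of_mul_eq_mul_left hpp.pos (this.trans (by ring))
  have hne1 : m ≠ 1 := by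
    intro h1
    have hn : (P : Subgroup G).Normal := by
      rw [← Subgroup.normalizer_eq_top_iff, ← Subgroup.index_eq_one]
      exact P.card_eq_index_normalizer.symm.trans h1
    rcases hn.eq_bot_or_eq_top with hb | hb
    · rw [hb, Subgroup.card_bot] at hPc; exact hpp.one_lt.ne hPc
    · rw [hb, Subgroup.card_top, hG] at hPc
      rcases hp with rfl | rfl <;> norm_num at hPc
  have hm' : m = p + 1 := by
    have hd : m ∣ (p + 1) * ((p - 1) / 2) := hidx ▸ P.card_dvd_index
    unfold Nat.ModEq at hm1
    have hle : m ≤ (p + 1) * ((p - 1) / 2) := Nat.le_of_dvd (by rcases hp with rfl | rfl <;> norm_num) hd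
    rcases hp with rfl | rfl <;> norm_num at hd hle hm1 ⊢ <;> interval_cases m <;> omega
  have : Fintype (Sylow p G) := Fintype.ofFinite _
  set φ := MulAction.toPermHom G (Sylow p G)
  have hinj : Function.Injective φ := by
    rw [← MonoidHom.ker_eq_bot_iff]
    rcases φ.normal_ker.eq_bot_or_eq_top with hb | hb
    · exact hb
    · exfalso
      obtain ⟨Q, Q', hQ⟩ : ∃ Q Q' : Sylow p G, Q ≠ Q' := by
        have : Nontrivial (Sylow p G) := Finite.one_lt_card_iff_nontrivial.mp (by
          have := Nat.card_pos (α := Sylow p G); omega)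
        exact exists_pair_ne _
      obtain ⟨g, hg⟩ := MulAction.exists_smul_eq G Q Q'
      have : φ g = 1 := MonoidHom.mem_ker.mp (hb ▸ Subgroup.mem_top g)
      exact hQ ((DFunLike.congr_fun this Q).symm.trans hg)
  let e := MonoidHom.ofInjective hinj
  have : MulAction.IsPretransitive φ.range (Sylow p G) := ⟨fun Q Q' => by
    obtain ⟨g, hg⟩ := MulAction.exists_smul_eq G Q Q'
    exact ⟨⟨φ g, g, rfl⟩, hg⟩⟩
  rcases Cfsg.Agent.S0732.result hpp (by rw [← Nat.card_eq_fintype_card, ← hm, hm']) φ.range
      (by rw [← Nat.card_congr e.toEquiv, hG]) (by omega) with ⟨hd, -⟩ | ⟨-, ⟨i⟩⟩ | ⟨r, -, hr, -⟩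
  · rcases hp with rfl | rfl <;> norm_num at hd
  · obtain ⟨j⟩ := CfsgLib.Dickson.psl_congr
      (FiniteField.ringEquivOfCardEq (K := ZMod p) (K' := F) (by rw [ZMod.card, hF]))
    exact ⟨e.trans (i.trans j)⟩
  · exfalso
    have hr5 : r < 5 := by
      by_contra hr5
      have := Nat.pow_le_pow_right (show 0 < 2 by norm_num) (Nat.le_of_not_lt hr5)
      rcases hp with rfl | rfl <;> omega
    rcases hp with rfl | rfl <;> interval_cases r <;> norm_num at hr

end Cfsg.Agent.S0498
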