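import Cfsg.Statements.S0542
import Mathlib.GroupTheory.Sylow

set_option autoImplicit false
open Cfsg

namespace Cfsg.Agent.S0542

/-- A Sylow p-subgroup of a finite group meets every subnormal subgroup H in a Sylow p-subgroup of H. -/
theorem result {G : Type*} [Group G] [Finite G] (p : ℕ) [Fact p.Prime] (H : Subgroup G) (hH : H.IsSubnormal) (S : Sylow p G) : ∃ Q : Sylow p H, (Q : Subgroup H) = (S : Subgroup G).subgroupOf H := by
  induction hH with
  | top =>
    exact ⟨S.subtype le_top, Sylow.coe_subtype S _⟩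
  | step H K hle _ hN ih =>
    obtain ⟨Q, hQ⟩ := ih
    have hpS : IsPGroup p ((S : Subgroup G).subgroupOf H) :=
      S.2.comap_of_injective _ H.subtype_injective
    obtain ⟨R, hR⟩ := hpS.exists_le_sylow
    refine ⟨R, ?_⟩
    have hR' : IsPGroup p (((R : Subgroup H).map H.subtype).subgroupOf K) :=
      (R.2.map _).comap_of_injective _ K.subtype_injective
    obtain ⟨T, hT⟩ := hR'.exists_le_sylow
    obtain ⟨k, hk⟩ := MulAction.exists_smul_eq K T Q
    have hinj : Function.Injective (fun r : (R : Subgroup H) =>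
        (⟨⟨(k : G) * (r : H) * (k : G)⁻¹, hN.conj_mem ⟨((r : H) : G), hle (r : H).2⟩ (r : H).2 k⟩, by
          have h1 : (⟨((r : H) : G), hle (r : H).2⟩ : K) ∈ (T : Subgroup K) := hT ⟨r, r.2, rfl⟩
          have h2 : k * ⟨((r : H) : G), hle (r : H).2⟩ * k⁻¹ ∈ ((k • T : Sylow p K) : Subgroup K) := by
            rw [Sylow.coe_subgroup_smul]
            exact ⟨_, h1, rfl⟩
          rw [hk, hQ] at h2
          exact h2⟩ : (S : Subgroup G).subgroupOf H)) := by
      intro a b hab
      have h3 := congrArg (fun z => ((z.1 : H) : G)) hab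
      exact Subtype.ext (Subtype.ext (mul_left_cancel (mul_right_cancel h3)))
    exact (Subgroup.eq_of_le_of_card_ge hR (Nat.card_le_card_of_injective _ hinj)).symm

end Cfsg.Agent.S0542
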