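import Cfsg.Statements.S0601
import Cfsg.Agent.GlaubermanZJ.CenterClosure
-- import your own Cfsg.Agent.* helpers here

set_option autoImplicit false
open Cfsg

namespace Cfsg.Agent.S0601

/-- When O_p(G) contains its centralizer, the normal closure of Ω₁(Z(S)) is elementary abelian and G has no nontrivial normal p-subgroup modulo its centralizer. -/
theorem result {G : Type*} [Group G] [Finite G] {p : ℕ} [Fact p.Prime] (hc : Subgroup.centralizer (Cfsg.pCore p G : Set G) ≤ Cfsg.pCore p G) : (⨆ S : Sylow p G, Cfsg.omegaOne p (((S : Subgroup G)) ⊓ Subgroup.centralizer ((S : Subgroup G) : Set G))).Normal ∧ Cfsg.IsElementaryAbelian p (⨆ S : Sylow p G, Cfsg.omegaOne p (((S : Subgroup G)) ⊓ Subgroup.centralizer ((S : Subgroup G) : Set G))) ∧ ∀ D : Subgroup G, D.Normal → Subgroup.centralizer ((⨆ S : Sylow p G, Cfsg.omegaOne p (((S : Subgroup G)) ⊓ Subgroup.centralizer ((S : Subgroup G) : Set G)) : Subgroup G) : Set G) ≤ D → (∃ k : ℕ, (Subgroup.centralizer ((⨆ S : Sylow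 p G, Cfsg.omegaOne p (((S : Subgroup G)) ⊓ Subgroup.centralizer ((S : Subgroup G) : Set G)) : Subgroup G) : Set G)).relIndex D = p ^ k) → D = Subgroup.centralizer ((⨆ S : Sylow p G, Cfsg.omegaOne p (((S : Subgroup G)) ⊓ Subgroup.centralizer ((S : Subgroup G) : Set G)) : Subgroup G) : Set G) := by
  refine ⟨CfsgLib.GlaubermanZJ.centerClosure_normal, CfsgLib.GlaubermanZJ.centerClosure_pow hc,
    fun D hD hCD ⟨k, hk⟩ => ?_⟩
  haveI : (CfsgLib.GlaubermanZJ.centerClosure p G).Normal := CfsgLib.GlaubermanZJ.centerClosure_normal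
  set C := Subgroup.centralizer (CfsgLib.GlaubermanZJ.centerClosure p G : Set G) with hC
  refine le_antisymm (fun d hd => ?_) hCD
  have h1 : pCore p (G ⧸ C) = ⊥ := CfsgLib.GlaubermanZJ.pCore_quotient_centralizer_eq_bot _
    CfsgLib.GlaubermanZJ.centerClosure_le_iSup
  have h2 : IsPGroup p ↥(D.map (QuotientGroup.mk' C)) :=
    IsPGroup.of_card (n := k) (by rw [← CfsgLib.Constrained.relIndex_eq_card_map]; exact hk)
  have h3 := CfsgLib.LocalP.le_pCore (hD.map _ (QuotientGroup.mk'_surjective C)) h2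
  rw [h1] at h3
  exact (QuotientGroup.eq_one_iff d).1 (Subgroup.mem_bot.1 (h3 ⟨d, hd, rfl⟩))

end Cfsg.Agent.S0601
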