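import Cfsg.Statements.S0607
import Cfsg.Agent.Eq.Def_PLocal
import Cfsg.Agent.S0599
import Cfsg.Agent.S0606
import Cfsg.Agent.LocalP.ThompsonJ
import Mathlib

set_option autoImplicit false
open Cfsg

namespace Cfsg.Agent.S0607

open scoped commutatorElement

/-- The replacement Theorem for the Thompson subgroup: from A of maximal order among elementary abelian p-subgroups one obtains A₀ = [V, A] C_A([V, A]) of the same kind, quadratic on V and nontrivial on V when A is. -/
theorem result {G : Type*} [Group G] [Finite G] {p : ℕ} [Fact p.Prime] (V : Subgroup G) [V.Normal] (hV : Cfsg.IsElementaryAbelian p V) (A : Subgroup G) (hA : A ∈ Cfsg.maxElementaryAbelianSubgroups p G) : (⁅V, A⁆ ⊔ (A ⊓ Subgroup.centralizer ((⁅V, A⁆ : Subgroup G) : Set G))) ∈ Cfsg.maxElementaryAbelianSubgroups p G ∧ ⁅⁅V, ⁅V, A⁆ ⊔ (A ⊓ Subgroup.centralizer ((⁅V, A⁆ : Subgroup G) : Set G))⁆, ⁅V, A⁆ ⊔ (A ⊓ Subgroup.centralizer ((⁅V, A⁆ : Subgroup G) : Set G))⁆ = ⊥ ∧ (⁅V, A⁆ ≠ ⊥ → ⁅V, ⁅V,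 A⁆ ⊔ (A ⊓ Subgroup.centralizer ((⁅V, A⁆ : Subgroup G) : Set G))⁆ ≠ ⊥) := by
  have hbest := Cfsg.Agent.S0606.result V hV A hA
  obtain ⟨hAel, hAmax⟩ := hA
  have hAV : A ≤ Subgroup.normalizer (V : Set G) := Subgroup.le_normalizer_of_normal
  obtain ⟨hbestB, hCB, hne⟩ := Cfsg.Agent.S0599.result V A hV hAV hbest V le_rfl
  set W := ⁅V, A⁆
  set B := A ⊓ Subgroup.centralizer (W : Set G) with hB
  have hWV : W ≤ V := Subgroup.le_normalizer_iff_commutator_le_left.mp hAV
  have hA' := CfsgLib.LocalP.isElementaryAbelian_iff.1 hAel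
  have hV' := CfsgLib.LocalP.isElementaryAbelian_iff.1 hV
  have hel : IsElementaryAbelian p (W ⊔ B) :=
    CfsgLib.LocalP.isElementaryAbelian_sup (CfsgLib.LocalP.isElementaryAbelian_mono hV hWV)
      (CfsgLib.LocalP.isElementaryAbelian_mono hAel inf_le_left) (fun w hw b hb => hb.2 w hw)
  set CA := V ⊓ Subgroup.centralizer (A : Set G) with hCA
  have hAC : IsElementaryAbelian p (A ⊔ CA) :=
    CfsgLib.LocalP.isElementaryAbelian_sup hAel (CfsgLib.LocalP.isElementaryAbelian_mono hV inf_le_left)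
      (fun a ha c hc => Subgroup.mem_centralizer_iff.mp hc.2 a ha)
  have hCA_A : CA ≤ A := by
    have := Subgroup.eq_of_le_of_card_ge (le_sup_left : A ≤ A ⊔ CA) (hAmax _ hAC)
    exact this ▸ le_sup_right
  have hCA_B : CA ≤ B := le_inf hCA_A fun c hc w hw => hV'.1 w (hWV hw) c hc.1
  have hCBsub : V ⊓ Subgroup.centralizer (B : Set G) ≤ W ⊔ B :=
    hCB.le.trans (sup_le le_sup_left (hCA_B.trans le_sup_right))
  have hmeasB : Nat.card A * Nat.card CA ≤ Nat.card B * Nat.card ↥(V ⊓ Subgroup.centralizer (B : Set G)) := by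
    obtain ⟨B', hB'A, hB' | ⟨rfl, -, hm⟩⟩ := Cfsg.Agent.S0598.result V A hV hAV hbest.2.1 V le_rfl
    · exact absurd (hbest.1 B' hB'A) (not_le_of_gt hB')
    · exact hm.le
  have hcard : Nat.card A ≤ Nat.card ↥(W ⊔ B) := by
    refine Nat.le_of_mul_le_mul_right ?_ (Nat.card_pos : 0 < Nat.card CA)
    refine hmeasB.trans ((CfsgLib.LocalP.card_mul_le_card_sup_mul_card_inf B _).trans ?_)
    refine Nat.mul_le_mul (Subgroup.card_le_of_le (sup_le le_sup_right hCBsub)) (Subgroup.card_le_of_le ?_)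
    exact le_inf (inf_le_right.trans inf_le_left) fun x hx a ha =>
      hA'.1 a ha x (hx.1.1)
  refine ⟨⟨hel, fun X hX => (hAmax X hX).trans hcard⟩, ?_, fun hW h0 => hne hW ?_⟩
  · have h1 : ⁅V, W ⊔ B⁆ ≤ W := by
      rw [Subgroup.commutator_le]
      intro v hv y hy
      have hn : B ≤ Subgroup.normalizer (W : Set G) := fun b hb => by
        rw [Subgroup.mem_normalizer_iff]
        intro w
        constructor
        · intro hw; rwa [← hb.2 w hw, mul_inv_cancel_right]
        · intro hw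
          have h2 := hb.2 _ hw
          have : w = b * w * b⁻¹ := by
            apply mul_left_cancel (a := b); rw [← h2]; simp [mul_assoc]
          exact this.symm ▸ hw
      rw [sup_comm, ← SetLike.mem_coe, Subgroup.coe_mul_of_left_le_normalizer_right B W hn] at hy
      obtain ⟨b, hb, w, hw, rfl⟩ := hy
      have hvw : ⁅v, w⁆ = 1 := commutatorElement_eq_one_iff_mul_comm.mpr (hV'.1 v hv w (hWV hw))
      have hexp : ⁅v, b * w⁆ = ⁅v, b⁆ * (b * ⁅v, w⁆ * b⁻¹) := by simp [commutatorElement_def, mul_assoc]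
      rw [hexp, hvw, mul_one, mul_inv_cancel, mul_one]
      exact Subgroup.commutator_mem_commutator hv hb.1
    rw [Subgroup.commutator_eq_bot_iff_le_centralizer]
    refine h1.trans fun w hw y hy => ?_
    have := CfsgLib.LocalP.isElementaryAbelian_iff.1 hel
    exact this.1 y hy w ((le_sup_left : W ≤ W ⊔ B) hw)
  · rw [eq_bot_iff, ← h0]
    exact Subgroup.commutator_mono le_rfl le_sup_right

end Cfsg.Agent.S0607
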