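import Cfsg.Statements.S0608
import Cfsg.Agent.S0603
import Cfsg.Agent.S0604
import Cfsg.Agent.GlaubermanZJ.CenterClosure
-- import your own Cfsg.Agent.* helpers here

set_option autoImplicit false
open Cfsg

namespace Cfsg.Agent.S0608

/-- With trivial p'-core, Thompson factorizability is equivalent to J(G) centralizing the subgroup generated by all Ω₁(Z(S)), S Sylow. -/
theorem result {G : Type*} [Group G] [Finite G] {p : ℕ} [Fact p.Prime] (hO : Cfsg.pPrimeCore p G = ⊥) : Cfsg.IsThompsonFactorizable p G ↔ Cfsg.thompsonSubgroup p G ≤ Subgroup.centralizer ((⨆ S : Sylow p G, Cfsg.omegaOne p (((S : Subgroup G)) ⊓ Subgroup.centralizer ((S : Subgroup G) : Set G)) : Subgroup G) : Set G) := by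
  set V := CfsgLib.GlaubermanZJ.centerClosure p G with hV
  haveI : V.Normal := CfsgLib.GlaubermanZJ.centerClosure_normal
  set C := Subgroup.centralizer (V : Set G) with hC
  constructor
  · intro hf
    rw [Cfsg.Agent.S0604.result]
    refine iSup_le fun S j hj => Subgroup.mem_centralizer_iff.2 fun v hv => ?_
    have hle : V ≤ Subgroup.centralizer {j} := by
      refine iSup_le fun T z hz => ?_
      obtain ⟨g, rfl⟩ := MulAction.exists_smul_eq G S T
      obtain ⟨x, hx, c, hc, n, hn, hg⟩ := hf S g⁻¹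
      rw [hO, Subgroup.mem_bot] at hx
      rw [hx, one_mul] at hg
      have hT : ((g • S : Sylow p G) : Subgroup G) = (S : Subgroup G).map (MulAut.conj g).toMonoidHom := rfl
      rw [hT] at hz
      have hz' : g⁻¹ * z * g ∈ Cfsg.omegaOne p ((S : Subgroup G) ⊓ Subgroup.centralizer ((S : Subgroup G) : Set G)) := by
        have h1 := CfsgLib.GlaubermanZJ.omegaOne_map_conj (p := p) _ g⁻¹ ⟨z, hz, rfl⟩
        rw [← CfsgLib.ConjFunctor.conjOf, ← CfsgLib.ConjFunctor.conjOf, CfsgLib.ConjFunctor.conjOf_conjOf,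
          inv_mul_cancel, CfsgLib.ConjFunctor.conjOf_one] at h1
        simpa using h1
      have hnj : n * j * n⁻¹ ∈ Cfsg.thompsonSubgroupOf p (S : Subgroup G) :=
        (Subgroup.mem_normalizer_iff.1 hn j).1 hj
      have h3 := Subgroup.mem_centralizer_iff.1
        ((CfsgLib.GlaubermanZJ.omegaOne_inf_centralizer_le _ hz').2) _
        (CfsgLib.LocalP.thompsonSubgroupOf_le _ hnj)
      have h4 := Subgroup.mem_centralizer_iff.1 hc _ hz'
      rw [Subgroup.mem_centralizer_singleton_iff]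
      have hg' : g = n⁻¹ * c⁻¹ := by rw [← inv_inv g, hg, mul_inv_rev]
      rw [hg'] at h3 h4
      set w := (n⁻¹ * c⁻¹)⁻¹ * z * (n⁻¹ * c⁻¹) with hw
      have h5 : n * z * n⁻¹ = w := by
        calc n * z * n⁻¹ = c⁻¹ * (w * c) := by rw [hw]; group
          _ = c⁻¹ * (c * w) := by rw [h4]
          _ = w := inv_mul_cancel_left c w
      rw [← h5] at h3
      calc z * j = n⁻¹ * ((n * z * n⁻¹) * (n * j * n⁻¹)) * n := by group
        _ = n⁻¹ * ((n * j * n⁻¹) * (n * z * n⁻¹)) * n := by rw [h3]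
        _ = j * z := by group
    exact (Subgroup.mem_centralizer_singleton_iff.1 (hle hv))
  · intro hJ S g
    refine ⟨1, one_mem _, ?_⟩
    obtain ⟨n, hn, c, hc, hg⟩ := CfsgLib.GlaubermanZJ.exists_frattini S C g⁻¹
    refine ⟨c⁻¹, inv_mem (Subgroup.centralizer_le ?_ hc), n⁻¹, inv_mem ?_, by
      rw [one_mul, ← inv_inv g, hg, mul_inv_rev]⟩
    · exact le_iSup (fun S : Sylow p G =>
        Cfsg.omegaOne p (((S : Subgroup G)) ⊓ Subgroup.centralizer ((S : Subgroup G) : Set G))) S
    · have h1 : Cfsg.thompsonSubgroupOf p (S : Subgroup G) ≤ (S : Subgroup G) ⊓ C :=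
        le_inf (CfsgLib.LocalP.thompsonSubgroupOf_le _) (le_trans (by
          rw [Cfsg.Agent.S0604.result]; exact le_iSup (fun S : Sylow p G =>
            Cfsg.thompsonSubgroupOf p (S : Subgroup G)) S) hJ)
      rw [← CfsgLib.LocalP.thompsonSubgroupOf_eq_of_le inf_le_left h1]
      exact CfsgLib.LocalP.le_normalizer_thompsonSubgroupOf _ hn

end Cfsg.Agent.S0608
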