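import Cfsg.Statements.S0618
import Cfsg.Agent.FFModule.Action

set_option autoImplicit false
open Cfsg

namespace Cfsg.Agent.S0618

/-- A p-separable group with trivial p'-core in which the Thompson factorization fails has p = 2 or 3, and J(G) induces on the normal closure of Ω₁(Z(S)) a group containing a normal SL(2, p). -/
theorem result {G : Type*} [Group G] [Finite G] {p : ℕ} [Fact p.Prime] (hsep : Cfsg.IsPSolvable p G) (hO : Cfsg.pPrimeCore p G = ⊥) (hnf : ¬ Cfsg.IsThompsonFactorizable p G) : (p = 2 ∨ p = 3) ∧ ∃ E : Subgroup G, Subgroup.centralizer ((⨆ S : Sylow p G, Cfsg.omegaOne p ((S : Subgroup G) ⊓ Subgroup.centralizer ((S : Subgroup G) : Set G))) : Set G) ≤ E ∧ E ≤ Cfsg.thompsonSubgroup p G ⊔ Subgroup.centralizer ((⨆ S : Sylow p G, Cfsg.omegaOne p ((S : Subgroup G) ⊓ Subgroup.centralizer ((S : Subgroup G) : Set G))) : Set G) ∧ Cfsg.thompsonSubgroup p G ⊔ Subgroup.centralizer ((⨆ S : Sylow p G, Cfsg.omegaOne p ((S : Subgroup G) ⊓ Subgroup.centralizer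 ((S : Subgroup G) : Set G))) : Set G) ≤ Subgroup.normalizer (E : Set G) ∧ ∃ hn : ((Subgroup.centralizer ((⨆ S : Sylow p G, Cfsg.omegaOne p ((S : Subgroup G) ⊓ Subgroup.centralizer ((S : Subgroup G) : Set G))) : Set G)).subgroupOf E).Normal, Nonempty ((↥E ⧸ (Subgroup.centralizer ((⨆ S : Sylow p G, Cfsg.omegaOne p ((S : Subgroup G) ⊓ Subgroup.centralizer ((S : Subgroup G) : Set G))) : Set G)).subgroupOf E) ≃* Matrix.SpecialLinearGroup (Fin 2) (ZMod p)) := by
  have hred := CfsgLib.FFModule.isPReducedNormal_omegaZJoin hsep hO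
  set Z := CfsgLib.FFModule.omegaZJoin p G
  set C := Subgroup.centralizer (Z : Set G)
  haveI : Finite (MulAut ↥Z) :=
    Finite.of_injective (fun e : MulAut ↥Z => (e : ↥Z → ↥Z)) DFunLike.coe_injective
  haveI : Finite (SemidirectProduct ↥Z (MulAut ↥Z) (MonoidHom.id (MulAut ↥Z))) :=
    Finite.of_equiv _ SemidirectProduct.equivProd.symm
  obtain ⟨F, S, hS3⟩ := CfsgLib.FFModule.setting_of_action hsep Z hred
  set f := CfsgLib.FFModule.actionHom Z with hfdef
  set J := Cfsg.thompsonSubgroup p G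
  set H := J.map f with hH
  have hker : f.ker = C := CfsgLib.FFModule.ker_actionHom Z
  obtain ⟨t, ht⟩ : ∃ t, CfsgLib.FFModule.IsTransvection p (CfsgLib.FFModule.actionModule Z) H t := by
    by_contra hno
    refine hnf (CfsgLib.FFModule.isThompsonFactorizable_of_le fun g hg => ?_)
    have h : f g ∈ (⊥ : Subgroup _) := S.le_of_transvection hS3 (fun t ht => absurd ⟨t, ht⟩ hno)
      (Subgroup.mem_map_of_mem _ hg)
    exact (CfsgLib.FFModule.actionHom_eq_one_iff Z).mp (Subgroup.mem_bot.mp h)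
  have hfac := S.exists_factor ht
  set E' := ⁅F, Subgroup.zpowers t⁆ ⊔ Subgroup.zpowers t
  obtain ⟨hp, ⟨θ⟩, -⟩ := S.factor_equiv hfac
  have hEH : E' ≤ H := S.factor_le hfac
  have hHJC : (J ⊔ C).map f = H := by
    rw [Subgroup.map_sup, sup_eq_left.mpr]
    rw [Subgroup.map_le_iff_le_comap]
    exact fun g hg => Subgroup.mem_comap.mpr
      (((CfsgLib.FFModule.actionHom_eq_one_iff Z).mpr hg).symm ▸ one_mem _)
  set E := (J ⊔ C) ⊓ E'.comap f with hE
  have hCeq : Subgroup.centralizer (⨆ S : Sylow p G, ((Cfsg.omegaOne p ((S : Subgroup G) ⊓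
      Subgroup.centralizer ((S : Subgroup G) : Set G)) : Subgroup G) : Set G)) = C := by
    refine le_antisymm (fun g hg => ?_) (Subgroup.centralizer_le (iSup_le fun S => ?_))
    · show g ∈ Subgroup.centralizer ((⨆ S : Sylow p G, Cfsg.omegaOne p ((S : Subgroup G) ⊓
        Subgroup.centralizer ((S : Subgroup G) : Set G)) : Subgroup G) : Set G)
      have hle : (⨆ S : Sylow p G, Cfsg.omegaOne p ((S : Subgroup G) ⊓
          Subgroup.centralizer ((S : Subgroup G) : Set G))) ≤ Subgroup.centralizer ({g} : Set G) :=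
        iSup_le fun S z hz => Subgroup.mem_centralizer_singleton_iff.mpr
          (Subgroup.mem_centralizer_iff.mp hg z (Set.mem_iUnion.mpr ⟨S, hz⟩))
      exact Subgroup.mem_centralizer_iff.mpr fun z hz =>
        Subgroup.mem_centralizer_singleton_iff.mp (hle hz)
    · exact SetLike.coe_subset_coe.mpr (le_iSup (fun S : Sylow p G => Cfsg.omegaOne p
        ((S : Subgroup G) ⊓ Subgroup.centralizer ((S : Subgroup G) : Set G))) S)
  rw [hCeq]
  refine ⟨hp, E, le_inf le_sup_right fun g hg => Subgroup.mem_comap.mpr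
    (((CfsgLib.FFModule.actionHom_eq_one_iff Z).mpr hg).symm ▸ one_mem _), inf_le_left, ?_,
    (Subgroup.normal_centralizer : C.Normal).subgroupOf E, ?_⟩
  · have key : ∀ g ∈ J ⊔ C, ∀ x ∈ E, g * x * g⁻¹ ∈ E := by
      intro g hg x hx
      obtain ⟨hx1, hx2⟩ := Subgroup.mem_inf.mp hx
      refine Subgroup.mem_inf.mpr ⟨mul_mem (mul_mem hg hx1) (inv_mem hg), Subgroup.mem_comap.mpr ?_⟩
      rw [map_mul, map_mul, map_inv]
      exact (Subgroup.mem_normalizer_iff.mp (S.factor_normal hS3 hfac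
        (hHJC ▸ Subgroup.mem_map_of_mem f hg)) _).mp hx2
    intro g hg
    rw [Subgroup.mem_normalizer_iff]
    exact fun x => ⟨key g hg x, fun h => by simpa [mul_assoc] using key g⁻¹ (inv_mem hg) _ h⟩
  · let g : ↥E →* ↥E' := (f.comp E.subtype).codRestrict E' fun x =>
      Subgroup.mem_comap.mp (Subgroup.mem_inf.mp x.2).2
    have hsurj : Function.Surjective g := by
      rintro ⟨y, hy⟩
      obtain ⟨x, hx, hxy⟩ := (hHJC.symm ▸ hEH hy : y ∈ (J ⊔ C).map f)
      exact ⟨⟨x, Subgroup.mem_inf.mpr ⟨hx, Subgroup.mem_comap.mpr (hxy.symm ▸ hy)⟩⟩, Subtype.ext hxy⟩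
    have hgk : g.ker = C.subgroupOf E := by
      ext x
      rw [MonoidHom.mem_ker, Subgroup.mem_subgroupOf, ← hker, MonoidHom.mem_ker, Subtype.ext_iff]
      rfl
    have e2 := QuotientGroup.quotientKerEquivOfSurjective g hsurj
    have e1 := QuotientGroup.quotientMulEquivOfEq hgk
    have e3 := (e1.symm.trans e2).trans θ
    exact ⟨e3⟩

end Cfsg.Agent.S0618
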