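import Cfsg.Statements.S0658
import Cfsg.Agent.GlaubermanZJ.Constrained
-- import your own Cfsg.Agent.* helpers here

set_option autoImplicit false
open Cfsg

namespace Cfsg.Agent.S0658

/-- In a group of characteristic p type all of whose p-locals are p-stable (p odd), the normalizer of Z(J(P)) contains the normalizer of every nontrivial subgroup of the Sylow p-subgroup P. -/
theorem result {G : Type*} [Group G] [Finite G] {p : ℕ} [Fact p.Prime] (hp : p ≠ 2) (hloc : ∀ Q : Subgroup G, IsPGroup p Q → Q ≠ ⊥ → Cfsg.pPrimeCore p ↥(Subgroup.normalizer (Q : Set G)) = ⊥ ∧ Cfsg.IsPConstrained p ↥(Subgroup.normalizer (Q : Set G)) ∧ Cfsg.IsPStable p ↥(Subgroup.normalizer (Q : Set G))) (P : Sylow p G) (Q : Subgroup G) (hQP : Q ≤ (P : Subgroup G)) (hQ1 : Q ≠ ⊥) : Subgroup.normalizer (Q : Set G) ≤ Subgroup.normalizer (Cfsg.centerThompsonAOf ((P : Subgroup G)) : Set G) := by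
  haveI hinst : ∀ (T : Subgroup G), Finite T := fun _ => inferInstance
  set W := CfsgLib.GlaubermanZJ.abelianCenter p
  set M := Subgroup.normalizer (Cfsg.centerThompsonAOf ((P : Subgroup G)) : Set G) with hM
  induction hd : Nat.card G - Nat.card ↥((P : Subgroup G) ⊓ Subgroup.normalizer (Q : Set G))
    using Nat.strong_induction_on generalizing Q with
  | _ d ih =>
  set N := Subgroup.normalizer (Q : Set G) with hN
  have hQp : IsPGroup p Q := P.2.to_le hQP
  obtain ⟨hcore, hcon, hstab⟩ := hloc Q hQp hQ1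
  obtain ⟨T, hT⟩ := ((P.2.to_le (inf_le_left : (P : Subgroup G) ⊓ N ≤ P)).comap_subtype
    (K := N)).exists_le_sylow
  set TG := (T : Subgroup N).map N.subtype with hTG
  have hT0 : (P : Subgroup G) ⊓ N ≤ TG := fun x hx => ⟨⟨x, hx.2⟩, hT hx, rfl⟩
  have hfac := CfsgLib.GlaubermanZJ.pPrimeCore_sup_normalizer_obj_eq_top hp W hcon hstab T
    (CfsgLib.GlaubermanZJ.isStronglyClosed_self _)
  rw [hcore, bot_sup_eq] at hfac
  have hN' : N ≤ Subgroup.normalizer (W.obj G TG : Set G) := by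
    have h1 := (congrArg (Subgroup.map N.subtype) hfac).ge.trans (Subgroup.le_normalizer_map _)
    rw [← MonoidHom.range_eq_map, Subgroup.range_subtype,
      W.obj_map N G N.subtype _ (N.subtype_injective.comp (Subgroup.subtype_injective _))] at h1
    exact h1
  have hQN : Q ≤ (P : Subgroup G) ⊓ N := le_inf hQP Subgroup.le_normalizer
  have hTGp : IsPGroup p TG := T.2.map _
  have hlt_of : ∀ T₁ : Subgroup G, (P : Subgroup G) ⊓ N < T₁ →
      Nat.card G - Nat.card T₁ < d := by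
    intro T₁ h
    have h1 : Nat.card ↥((P : Subgroup G) ⊓ N) < Nat.card T₁ :=
      Set.ncard_lt_ncard (SetLike.coe_strictMono h) (Set.toFinite _)
    have h2 := Subgroup.card_le_card_group T₁
    rw [← hd]
    omega
  by_cases heq : (P : Subgroup G) ⊓ N = (P : Subgroup G)
  · have hPT : TG = (P : Subgroup G) := P.3 hTGp (heq ▸ hT0)
    rw [hPT] at hN'
    exact hN'
  haveI : Group.IsNilpotent (P : Subgroup G) := P.2.isNilpotent
  obtain ⟨T₁, h01, h1P, h1N⟩ := CfsgLib.GlaubermanZJ.exists_gt_normalizing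
    (lt_of_le_of_ne inf_le_left heq)
  by_cases hTeq : TG = (P : Subgroup G) ⊓ N
  · rw [hTeq] at hN'
    refine hN'.trans (ih _ ?_ _ ?_ ?_ rfl)
    · refine lt_of_le_of_lt (Nat.sub_le_sub_left ?_ _) (hlt_of T₁ h01)
      exact Subgroup.card_le_of_le (le_inf h1P (h1N.trans (W.normalizer_le_normalizer_obj _)))
    · exact (W.obj_le G _).trans inf_le_left
    · exact W.obj_ne_bot G _ (P.2.to_le inf_le_left) fun h => hQ1 (le_bot_iff.1 (h ▸ hQN))
  haveI : Group.IsNilpotent TG := hTGp.isNilpotent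
  obtain ⟨T₂, h02, h2T, h2N⟩ := CfsgLib.GlaubermanZJ.exists_gt_normalizing
    (lt_of_le_of_ne hT0 (Ne.symm hTeq))
  have hP0 : (P : Subgroup G) ≤ M := Subgroup.le_normalizer.trans (W.normalizer_le_normalizer_obj _)
  have h2M : T₂ ≤ M := by
    refine h2N.trans (ih _ ?_ ((P : Subgroup G) ⊓ N) inf_le_left (fun h => hQ1 (le_bot_iff.1 (h ▸ hQN))) rfl)
    exact lt_of_le_of_lt (Nat.sub_le_sub_left (Subgroup.card_le_of_le (le_inf h1P h1N)) _) (hlt_of T₁ h01)
  set PM := P.subtype hP0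
  obtain ⟨m, hm⟩ := ((hTGp.to_le h2T).comap_subtype (K := M)).exists_le_sylow
  obtain ⟨g, hg⟩ := MulAction.exists_smul_eq M m PM
  have hconj : ∀ x ∈ T₂, (g : G) * x * (g : G)⁻¹ ∈ (P : Subgroup G) := by
    intro x hx
    have h1 : g * (⟨x, h2M hx⟩ : M) * g⁻¹ ∈ (PM : Subgroup M) := by
      rw [← hg, Sylow.coe_subgroup_smul]
      exact ⟨⟨x, h2M hx⟩, hm hx, rfl⟩
    exact h1
  have hQ2 : Q ≤ T₂ := hQN.trans h02.le
  set Q' := Q.map (MulAut.conj (g : G)).toMonoidHom with hQ'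
  have hQ'P : Q' ≤ (P : Subgroup G) := by
    rintro _ ⟨x, hx, rfl⟩
    exact hconj x (hQ2 hx)
  have hQ'1 : Q' ≠ ⊥ := by
    rwa [hQ', Ne, Subgroup.map_eq_bot_iff_of_injective _ (MulAut.conj (g : G)).injective]
  have hle : T₂.map (MulAut.conj (g : G)).toMonoidHom ≤ (P : Subgroup G) ⊓ Subgroup.normalizer (Q' : Set G) := by
    refine le_inf ?_ ((Subgroup.map_mono (h2T.trans (Subgroup.map_subtype_le _))).trans
      (Subgroup.le_normalizer_map _))
    rintro _ ⟨x, hx, rfl⟩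
    exact hconj x hx
  have hrec := ih _ (lt_of_le_of_lt (Nat.sub_le_sub_left ((Subgroup.card_map_of_injective
    (MulAut.conj (g : G)).injective).symm.le.trans (Subgroup.card_le_of_le hle)) _) (hlt_of T₂ h02))
    Q' hQ'P hQ'1 rfl
  intro x hx
  have h3 : (g : G) * x * (g : G)⁻¹ ∈ M := hrec (Subgroup.le_normalizer_map _ ⟨x, hx, rfl⟩)
  have h4 := mul_mem (mul_mem (inv_mem g.2) h3) g.2
  simpa [mul_assoc] using h4

end Cfsg.Agent.S0658
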