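import Cfsg.Statements.S0742
import Cfsg.Agent.ZassAbelian.OfEven
import Cfsg.Agent.Eq.Def_Perm

set_option autoImplicit false
open Cfsg

namespace Cfsg.Agent.S0742


/-- A finite Zassenhaus group of degree `n + 1` with two-point stabilisers of even order `d` satisfying `2d ≤ n - 1` has `n = p^f` for an odd prime `p` and is isomorphic to `PSL(2, p^f)`. -/
theorem result {G Ω : Type*} [Group G] [Finite G] [MulAction G Ω] [Fintype Ω] (hZ : Cfsg.IsZassenhausGroup G Ω) {a b : Ω} (hab : a ≠ b) (heven : Even (Nat.card ↥(MulAction.stabilizer G a ⊓ MulAction.stabilizer G b))) (hd : 2 * Nat.card ↥(MulAction.stabilizer G a ⊓ MulAction.stabilizer G b) ≤ Fintype.card Ω - 2) : ∃ (p f : ℕ) (K : Type) (_ : Field K) (_ : Fintype K), p.Prime ∧ p ≠ 2 ∧ Fintype.card K = p ^ f ∧ Fintype.card Ω = p ^ f + 1 ∧ Nonempty (G ≃* Matrix.ProjectiveSpecialLinearGroup (Fin 2) K) := by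
  classical
  obtain ⟨hfaith, h2, h3, -, hnoreg⟩ := hZ
  have hpos : 0 < Nat.card ↥(MulAction.stabilizer G a ⊓ MulAction.stabilizer G b) := Nat.card_pos
  obtain ⟨D, hi, ho⟩ := CfsgLib.ZassAbelian.exists_setting_of_even
    (fun x y z w hxy hzw => MulAction.is_two_pretransitive_iff.1 h2 hxy hzw) h3
    (by rw [Nat.card_eq_fintype_card]; omega) hab heven
  have hH : Nat.card D.H = Nat.card ↥(MulAction.stabilizer G a ⊓ MulAction.stabilizer G b) := by
    rw [CfsgLib.ZassAbelian.Setting.H, hi, ho]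
  have hΩ : Fintype.card Ω = Nat.card D.F + 1 := by
    rw [← Nat.card_eq_fintype_card, D.card_Omega]
  rcases CfsgLib.ZassAbelian.classify D with h | ⟨h, hinv⟩ | ⟨M, hMn, ht, hf⟩
  · omega
  · obtain ⟨K, iF, iT, hK, hodd, hne⟩ := CfsgLib.ZassAbelian.psl_of_inverted D h hinv
    obtain ⟨p, hp⟩ := CharP.exists K
    obtain ⟨f, hpp, hcard⟩ := FiniteField.card K p
    refine ⟨p, f, K, iF, iT, hpp, ?_, hcard, by omega, hne⟩
    rintro rfl
    rw [hcard, Nat.odd_pow_iff f.ne_zero] at hodd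
    exact absurd hodd (by decide)
  · exfalso
    haveI := CfsgLib.ZassAbelian.isPretransitive_of_exists ht
    obtain ⟨x, hx⟩ := hnoreg M hMn inferInstance
    exact hx (CfsgLib.ZassAbelian.stabilizer_of_free hf x)

end Cfsg.Agent.S0742
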