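import Cfsg.Statements.S0810
import Cfsg.Agent.Eq.Def_CaseTheorems
import Cfsg.Agent.Dickson.MaxCoatom
import Cfsg.Agent.Classical.Linear.Simple
import Cfsg.Agent.Chars.Apps.Burnside

set_option autoImplicit false
open Cfsg
open CfsgLib.Dickson Matrix MulAction
open scoped MatrixGroups commutatorElement

namespace Cfsg.Agent.S0810

theorem not_solvable_alt_five : ¬ Group.IsSolvable (alternatingGroup (Fin 5)) := by
  intro h
  have : IsSimpleGroup (alternatingGroup (Fin 5)) := alternatingGroup.isSimpleGroup_five
  have hc := IsSimpleGroup.comm_iff_isSolvable.mpr h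
  have : ¬ ∀ a b : alternatingGroup (Fin 5), a * b = b * a := by decide +kernel
  exact this hc

theorem not_solvable_psl {K : Type*} [Field K] [Fintype K] [DecidableEq K] (h4 : 4 ≤ Fintype.card K) :
    ¬ Group.IsSolvable (Matrix.ProjectiveSpecialLinearGroup (Fin 2) K) ∧
      IsSimpleGroup (Matrix.ProjectiveSpecialLinearGroup (Fin 2) K) ∧
      ¬ IsMulCommutative (Matrix.ProjectiveSpecialLinearGroup (Fin 2) K) := by
  have hs := CfsgLib.Classical.Linear.isSimpleGroup_psl_fin (F := K) (n := 2) le_rfl
    (fun _ => by rwa [Nat.card_eq_fintype_card])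
  have : Nontrivial (Fin 2) := inferInstance
  have hc := CfsgLib.Classical.Linear.not_isMulCommutative_psl (ι := Fin 2) (F := K)
    (CfsgLib.Classical.Linear.commutator_sl_fin_eq_top 2 fun _ =>
      CfsgLib.Classical.Linear.exists_sq_ne_one_of_four_le (by rwa [Nat.card_eq_fintype_card]))
  refine ⟨fun h => hc ?_, hs, hc⟩
  exact ⟨⟨fun a b => (IsSimpleGroup.comm_iff_isSolvable.mpr h) a b⟩⟩

theorem isSolvable_of_dihedral {G : Type*} [Group G] {n : ℕ} (e : G ≃* DihedralGroup n) :
    Group.IsSolvable G := by
  have hc : ∀ g h : G, ∃ i, e ⁅g, h⁆ = DihedralGroup.r i := by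
    intro g h
    rw [map_commutatorElement, commutatorElement_def]
    cases e g <;> cases e h <;> exact ⟨_, rfl⟩
  have hcl : ∀ g ∈ derivedSeries G 1, ∃ i, e g = DihedralGroup.r i := by
    intro g hg
    rw [derivedSeries_one, commutator_eq_closure] at hg
    induction hg using Subgroup.closure_induction with
    | mem g hg => obtain ⟨a, b, rfl⟩ := hg; exact hc a b
    | one => exact ⟨0, by rw [map_one, DihedralGroup.one_def]⟩
    | mul a b _ _ ha hb =>
      obtain ⟨i, hi⟩ := ha; obtain ⟨j, hj⟩ := hb
      exact ⟨i + j, by rw [map_mul, hi, hj, DihedralGroup.r_mul_r]⟩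
    | inv a _ ha => obtain ⟨i, hi⟩ := ha; exact ⟨-i, by rw [map_inv, hi, DihedralGroup.inv_r]⟩
  refine ⟨⟨2, ?_⟩⟩
  rw [derivedSeries_succ, eq_bot_iff, Subgroup.commutator_le]
  intro a ha b hb
  obtain ⟨i, hi⟩ := hcl a ha
  obtain ⟨j, hj⟩ := hcl b hb
  rw [Subgroup.mem_bot, commutatorElement_eq_one_iff_mul_comm]
  exact e.injective (by rw [map_mul, map_mul, hi, hj, DihedralGroup.r_mul_r, DihedralGroup.r_mul_r, add_comm])


variable {F : Type*} [Field F] [Fintype F] [DecidableEq F]

theorem solvable_pslStab (p : ℕ) [Fact p.Prime] [CharP F p] (z : OnePoint F) :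
    Group.IsSolvable (pslStab z) := by
  set K := pslStab z
  obtain ⟨P, hP⟩ := exists_sylow_pslStab_le p z
  have hD : ∀ g ∈ commutator K, (g : Matrix.ProjectiveSpecialLinearGroup (Fin 2) F) ∈ (P : Subgroup _) := by
    intro g hg
    rw [commutator_eq_closure] at hg
    induction hg using Subgroup.closure_induction with
    | mem g hg =>
      obtain ⟨a, b, rfl⟩ := hg
      set c : Matrix.ProjectiveSpecialLinearGroup (Fin 2) F := Subtype.val ⁅a, b⁆ with hc
      have hcp : c ^ p = 1 := by
        refine ProjectiveSpecialLinearGroup.toPGL_injective ?_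
        rw [map_pow, map_one, hc, commutatorElement_def]
        simp only [Subgroup.coe_mul, Subgroup.coe_inv, map_mul, map_inv]
        exact stab_commutator_pow p a.2 b.2
      have hzc : IsPGroup p (Subgroup.zpowers c) :=
        IsPGroup.iff_card.mpr (by
          rw [Nat.card_zpowers]
          obtain ⟨k, -, hk⟩ := (Nat.dvd_prime_pow (m := 1) Fact.out).mp (show orderOf c ∣ p ^ 1 by
            rw [pow_one]; exact orderOf_dvd_of_pow_eq_one hcp)
          exact ⟨k, hk⟩)
      have hsup := hzc.to_sup_of_normal_right' P.isPGroup'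
        (Subgroup.zpowers_le.mpr (hP (⁅a, b⁆ : K).2))
      exact (P.is_maximal' hsup le_sup_right).le (le_sup_left (a := Subgroup.zpowers c) (Subgroup.mem_zpowers c))
    | one => exact one_mem _
    | mul a b _ _ ha hb => exact mul_mem ha hb
    | inv a _ ha => exact inv_mem ha
  have hp : IsPGroup p (commutator K) :=
    P.isPGroup'.of_injective
      ((K.subtype.comp (commutator K).subtype).codRestrict (P : Subgroup _) fun g => hD g.1 g.2)
      fun u v h => Subtype.ext (Subtype.ext (congrArg Subtype.val h :))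
  have : Group.IsNilpotent (commutator K) := hp.isNilpotent
  have : Group.IsSolvable (commutator K) := inferInstance
  exact Group.isSolvable_of_ker_le_range (commutator K).subtype (Abelianization.of (G := K))
    (by rw [Abelianization.ker_of, Subgroup.range_subtype])

/-- Proper subgroups are solvable unless there is an `A₅` or a subfield group. -/
theorem solvable_of_le (p : ℕ) [Fact p.Prime] [CharP F p] [DecidableEq (AlgebraicClosure F)]
    {H : Subgroup (Matrix.ProjectiveSpecialLinearGroup (Fin 2) F)} (hH : H ≠ ⊤)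
    (h60 : 5 ∣ Fintype.card F * (Fintype.card F ^ 2 - 1) →
      Nat.card (Matrix.ProjectiveSpecialLinearGroup (Fin 2) F) = 60)
    (hsub : ∀ Q m : ℕ, Q ^ m = Fintype.card F → 4 ≤ Q → Q = Fintype.card F) :
    Group.IsSolvable H := by
  have hlt : Nat.card H < Nat.card (Matrix.ProjectiveSpecialLinearGroup (Fin 2) F) :=
    lt_of_le_of_ne (Subgroup.card_le_card_group H) fun h => hH (Subgroup.eq_top_of_card_eq H h)
  rcases classify_psl p H with ⟨x, hx⟩ | ⟨hc, -⟩ | ⟨n, -, -, ⟨i⟩, -⟩ | ⟨-, ⟨i⟩⟩ | ⟨-, ⟨i⟩⟩ |
    ⟨-, ⟨i⟩⟩ | ⟨L, m, hm, h⟩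
  · have := solvable_pslStab p x
    exact Group.isSolvable_of_isSolvable_injective (f := Subgroup.inclusion hx) (Subgroup.inclusion_injective hx)
  · exact Group.isSolvable_of_comm fun a b => (IsCyclic.isMulCommutative (α := H)).is_comm.comm a b
  · exact isSolvable_of_dihedral i
  · exact CfsgLib.Chars.Apps.isSolvable_of_card_eq_pow_mul_pow H Nat.prime_two Nat.prime_three
      (a := 2) (b := 1) (by rw [Nat.card_congr i.toEquiv, Nat.card_eq_fintype_card]; decide +kernel)
  · exact CfsgLib.Chars.Apps.isSolvable_of_card_eq_pow_mul_pow H Nat.prime_two Nat.prime_three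
      (a := 3) (b := 1) (by
        rw [Nat.card_congr i.toEquiv, Nat.card_perm, Nat.card_eq_fintype_card, Fintype.card_fin]
        rfl)
  · exfalso
    have hc : Nat.card H = 60 := by
      rw [Nat.card_congr i.toEquiv, Nat.card_eq_fintype_card]; decide +kernel
    have := h60 (by
      rw [← card_psl (F := F)]
      exact Dvd.dvd.mul_right (dvd_trans (by rw [hc]; norm_num) H.card_subgroup_dvd_card) _)
    omega
  · have : Fintype L := Fintype.ofFinite L
    have hQ : 1 < Fintype.card L := Fintype.one_lt_card
    rw [Nat.card_eq_fintype_card] at hm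
    have hQle : Fintype.card L < 4 := by
      by_contra h4
      have hQF := hsub _ m hm (by omega)
      have hLc := card_psl (F := L)
      have hFc := card_psl (F := F)
      rw [hQF, ← hFc] at hLc
      have hd : 0 < Nat.gcd 2 (Fintype.card F - 1) := Nat.gcd_pos_of_pos_left _ (by norm_num)
      have hcc := Nat.eq_of_mul_eq_mul_right hd hLc
      rcases h with ⟨⟨i⟩, -⟩ | ⟨-, ⟨i⟩⟩
      · have hinj := Nat.card_le_card_of_injective _
          (ProjectiveSpecialLinearGroup.toPGL_injective (n := Fin 2) (R := L))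
        rw [← Nat.card_congr i.toEquiv] at hinj
        omega
      · rw [Nat.card_congr i.toEquiv] at hlt; omega
    have hdvd : Nat.card H = 6 ∨ Nat.card H = 12 ∨ Nat.card H = 24 := by
      have hc := card_psl (F := L)
      rcases h with ⟨⟨i⟩, -⟩ | ⟨-, ⟨i⟩⟩
      · rw [Nat.card_congr i.toEquiv, card_pgl2]
        rcases (show Fintype.card L = 2 ∨ Fintype.card L = 3 by omega) with h' | h' <;> rw [h'] <;> simp
      · rw [Nat.card_congr i.toEquiv]
        rcases (show Fintype.card L = 2 ∨ Fintype.card L = 3 by omega) with h' | h' <;> rw [h'] at hc <;>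
          norm_num [-Nat.card_eq_fintype_card] at hc ⊢ <;> omega
    rcases hdvd with h' | h' | h'
    · exact CfsgLib.Chars.Apps.isSolvable_of_card_eq_pow_mul_pow H Nat.prime_two Nat.prime_three
        (a := 1) (b := 1) (by rw [h']; rfl)
    · exact CfsgLib.Chars.Apps.isSolvable_of_card_eq_pow_mul_pow H Nat.prime_two Nat.prime_three
        (a := 2) (b := 1) (by rw [h']; rfl)
    · exact CfsgLib.Chars.Apps.isSolvable_of_card_eq_pow_mul_pow H Nat.prime_two Nat.prime_three
        (a := 3) (b := 1) (by rw [h']; rfl)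

/-- PSL_2(q) is minimal simple iff q is 2^r (r prime), 3^r (r an odd prime), a prime greater than 5 congruent to 2 or 3 mod 5, or 5. -/
theorem result {F : Type*} [Field F] [Fintype F] {q : ℕ} (hF : Fintype.card F = q) : Cfsg.IsMinimalSimple (Matrix.ProjectiveSpecialLinearGroup (Fin 2) F) ↔ ((∃ r : ℕ, r.Prime ∧ q = 2 ^ r) ∨ (∃ r : ℕ, r.Prime ∧ r ≠ 2 ∧ q = 3 ^ r) ∨ (q.Prime ∧ 5 < q ∧ (q % 5 = 2 ∨ q % 5 = 3)) ∨ q = 5) := by
  classical
  subst hF
  obtain ⟨p, _⟩ := CharP.exists F
  have : Fact p.Prime := ⟨CharP.char_is_prime F p⟩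
  obtain ⟨n, hpp, hn⟩ := FiniteField.card F p
  have hn0 : 1 ≤ (n : ℕ) := n.pos
  set G := Matrix.ProjectiveSpecialLinearGroup (Fin 2) F
  constructor
  · rintro ⟨hs, hnc, hsol⟩
    have h4 : 4 ≤ Fintype.card F := by
      by_contra h
      have h1 : 1 < Fintype.card F := Fintype.one_lt_card
      have hc := card_psl (F := F)
      change Nat.card G * _ = _ at hc
      have hG : Nat.card G = 6 ∨ Nat.card G = 12 := by
        rcases (show Fintype.card F = 2 ∨ Fintype.card F = 3 by omega) with h' | h' <;> rw [h'] at hc <;>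
          norm_num [-Nat.card_eq_fintype_card] at hc ⊢ <;> omega
      have hGs : Group.IsSolvable G := by
        rcases hG with h' | h'
        · exact CfsgLib.Chars.Apps.isSolvable_of_card_eq_pow_mul_pow G Nat.prime_two Nat.prime_three
            (a := 1) (b := 1) (by rw [h']; rfl)
        · exact CfsgLib.Chars.Apps.isSolvable_of_card_eq_pow_mul_pow G Nat.prime_two Nat.prime_three
            (a := 2) (b := 1) (by rw [h']; rfl)
      exact hnc ⟨⟨fun a b => (IsSimpleGroup.comm_iff_isSolvable.mpr hGs) a b⟩⟩
    have hA5 : 5 ∣ Fintype.card F * (Fintype.card F ^ 2 - 1) → p ≠ 2 → Nat.card G = 60 := by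
      intro h5 hp2
      by_contra hne
      obtain ⟨H, ⟨i⟩⟩ := exists_psl_a5_of_odd
        (CfsgLib.SL2.two_ne_zero_iff_odd.mpr ((odd_card_iff p).mpr hp2)) h5
      refine not_solvable_alt_five ?_
      have := hsol H (fun h => hne (by
        rw [← Subgroup.card_top, ← h, Nat.card_congr i.toEquiv, Nat.card_eq_fintype_card]
        decide +kernel))
      exact Group.isSolvable_of_isSolvable_injective (f := i.symm.toMonoidHom) i.symm.injective
    have hsubgp : ∀ d, d ∣ (n : ℕ) → d ≠ n → 4 ≤ p ^ d → False := by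
      intro d hd hdn hd4
      have hd0 : d ≠ 0 := fun h => by rw [h] at hd4; norm_num at hd4
      obtain ⟨e, he⟩ := hd
      have hbot := card_bot_subfield (F := F) p
      obtain ⟨L, -, hL⟩ := exists_intermediate (⊥ : Subfield F) (d := d) (m := n) ⟨e, he⟩
        (by rw [hbot, hn])
      rw [hbot] at hL
      have : Fintype L := Fintype.ofFinite L
      obtain ⟨H, -, ⟨i⟩⟩ := exists_psl_subfield L.subtype
      refine (not_solvable_psl (K := L) (by rwa [← Nat.card_eq_fintype_card, hL])).1 ?_
      have hlt : Nat.card L < Fintype.card F := by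
        rw [hL, hn]
        exact Nat.pow_lt_pow_right hpp.one_lt
          (lt_of_le_of_ne (Nat.le_of_dvd n.pos ⟨e, he⟩) hdn)
      have := hsol H (fun h => by
        have hc := Nat.card_congr i.toEquiv
        rw [h, Subgroup.card_top] at hc
        have h1 := card_psl (F := F)
        have h2 := card_psl (F := L)
        rw [hc] at h1
        rw [← Nat.card_eq_fintype_card] at h2
        have h3 := psl_order_lt (Finite.one_lt_card : 2 ≤ Nat.card L) hlt
        have hgg : Nat.gcd 2 (Nat.card L - 1) = Nat.gcd 2 (Fintype.card F - 1) := by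
          rw [hL, hn]
          rcases hpp.eq_two_or_odd' with rfl | ho
          · rw [Nat.Coprime.gcd_eq_one, Nat.Coprime.gcd_eq_one] <;>
              refine (Nat.coprime_two_left).mpr ?_ <;>
              refine Nat.Even.sub_odd (Nat.one_le_pow _ _ (by norm_num)) ?_ odd_one <;>
              exact (Nat.even_pow' (by omega)).mpr even_two
          · rw [Nat.gcd_eq_left_iff_dvd.mpr, Nat.gcd_eq_left_iff_dvd.mpr] <;>
              exact (Nat.Odd.sub_odd ho.pow odd_one).two_dvd
        rw [hgg] at h2
        omega)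
      exact Group.isSolvable_of_isSolvable_injective (f := i.symm.toMonoidHom) i.symm.injective
    rcases hpp.eq_two_or_odd' with rfl | hpo
    · left
      refine ⟨n, ?_, hn⟩
      by_contra hnp
      have hn2 : 2 ≤ (n : ℕ) := by
        by_contra h
        rw [show (n : ℕ) = 1 by omega] at hn
        omega
      obtain ⟨d, hd, hd2, hdn⟩ := Nat.exists_dvd_of_not_prime2 hn2 hnp
      exact hsubgp d hd (by omega) (le_trans (by norm_num) (Nat.pow_le_pow_right (by norm_num) hd2))
    · have hp2 : p ≠ 2 := fun h => by rw [h] at hpo; exact Nat.not_even_iff_odd.mpr hpo even_two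
      have hp3 : 3 ≤ p := by have := hpp.two_le; omega
      by_cases hp : p = 3
      · subst hp
        right; left
        have hn1 : (n : ℕ) ≠ 1 := fun h => by rw [h] at hn; omega
        have hno : Odd (n : ℕ) := by
          refine Nat.not_even_iff_odd.mp fun he => ?_
          obtain ⟨k, hk⟩ := he
          have h5 : 5 ∣ Fintype.card F * (Fintype.card F ^ 2 - 1) := by
            refine Dvd.dvd.mul_left ?_ _
            have : Fintype.card F ^ 2 % 5 = 1 := by
              rw [hn, ← pow_mul, hk, show (k + k) * 2 = 4 * k by ring, pow_mul, Nat.pow_mod]; simp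
            omega
          have := hA5 h5 hp2
          have hG := psl_two_mul_card ((odd_card_iff (F := F) 3).mpr hp2)
          change 2 * Nat.card G = _ at hG
          rw [this] at hG
          have h9 : 9 ≤ Fintype.card F := by
            rw [hn]; exact le_trans (by norm_num : 9 ≤ 3 ^ 2) (Nat.pow_le_pow_right (by norm_num) (by omega))
          have : 80 ≤ Fintype.card F ^ 2 - 1 := by
            have := Nat.pow_le_pow_left h9 2
            omega
          have := Nat.mul_le_mul h9 this
          omega
        refine ⟨n, ?_, fun h => Nat.not_even_iff_odd.mpr hno (h ▸ even_two), hn⟩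
        by_contra hnp
        obtain ⟨d, hd, hd2, hdn⟩ := Nat.exists_dvd_of_not_prime2 (by omega) hnp
        exact hsubgp d hd (by omega) (le_trans (by norm_num) (Nat.pow_le_pow_right (by norm_num) hd2))
      · right; right
        have hp5 : 5 ≤ p := by
          by_contra h
          interval_cases p
          · exact hp rfl
          · norm_num at hpp
        have hn1 : (n : ℕ) = 1 := by
          by_contra h
          exact hsubgp 1 (one_dvd _) (by omega) (by rw [pow_one]; omega)
        rw [hn1, pow_one] at hn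
        by_cases hp55 : p = 5
        · exact Or.inr (hn.trans hp55)
        · left
          refine ⟨hn ▸ hpp, by omega, ?_⟩
          by_contra h
          have h0 : p % 5 ≠ 0 := fun h0 => hp55
            ((Nat.prime_dvd_prime_iff_eq (by norm_num) hpp).mp (Nat.dvd_of_mod_eq_zero h0)).symm
          have h5 : 5 ∣ Fintype.card F * (Fintype.card F ^ 2 - 1) := by
            refine Dvd.dvd.mul_left ?_ _
            have : Fintype.card F ^ 2 % 5 = 1 := by
              rw [hn, Nat.pow_mod]
              rcases (show p % 5 = 1 ∨ p % 5 = 4 by omega) with e | e <;> rw [e]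
            omega
          have h7 : 7 ≤ Fintype.card F := by
            rcases hpp.eq_two_or_odd with h | h <;> omega
          have := hA5 h5 hp2
          have hG := psl_two_mul_card ((odd_card_iff (F := F) p).mpr hp2)
          change 2 * Nat.card G = _ at hG
          rw [this] at hG
          have : 48 ≤ Fintype.card F ^ 2 - 1 := by
            have := Nat.pow_le_pow_left h7 2
            omega
          have := Nat.mul_le_mul h7 this
          omega
  · intro h
    have hG60 : Fintype.card F = 4 ∨ Fintype.card F = 5 → Nat.card G = 60 := by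
      intro hq
      have hc := card_psl (F := F)
      change Nat.card G * _ = _ at hc
      rcases hq with hq | hq <;> rw [hq] at hc <;> norm_num [-Nat.card_eq_fintype_card] at hc <;> omega
    have hq4 : 4 ≤ Fintype.card F := by
      rcases h with ⟨r, hr, h⟩ | ⟨r, hr, -, h⟩ | h | h
      · rw [h]; exact le_trans (by norm_num) (Nat.pow_le_pow_right (by norm_num) hr.two_le)
      · rw [h]; exact le_trans (by norm_num) (Nat.pow_le_pow_right (by norm_num) hr.two_le)
      · omega
      · omega
    have h60 : 5 ∣ Fintype.card F * (Fintype.card F ^ 2 - 1) → Nat.card G = 60 := by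
      intro h5
      have hmod : ∀ Q r : ℕ, Q ^ 2 % 5 = 4 → Odd r → Fintype.card F = Q ^ r → False := by
        intro Q r hQ hr hF
        obtain ⟨t, rfl⟩ := hr
        have h2 : Fintype.card F ^ 2 % 5 = 4 := by
          rw [hF, ← pow_mul, show (2 * t + 1) * 2 = 2 * 2 * t + 2 by ring, pow_add, pow_mul, pow_mul,
            Nat.mul_mod, Nat.pow_mod, Nat.pow_mod (Q ^ 2), hQ]
          simp
        rcases (Nat.Prime.dvd_mul (by norm_num)).mp h5 with h | h
        · have : 5 ∣ Fintype.card F ^ 2 := dvd_pow h two_ne_zero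
          omega
        · omega
      rcases h with ⟨r, hr, h⟩ | ⟨r, hr, hr2, h⟩ | ⟨hq, h5', hq5⟩ | h
      · rcases hr.eq_two_or_odd' with rfl | ho
        · exact hG60 (Or.inl h)
        · exact (hmod 2 r rfl ho h).elim
      · exact (hmod 3 r rfl (hr.odd_of_ne_two hr2) h).elim
      · refine (hmod _ 1 ?_ odd_one (pow_one _).symm).elim
        rw [Nat.pow_mod]
        rcases hq5 with e | e <;> rw [e]
      · exact hG60 (Or.inr h)
    have hsub : ∀ Q m : ℕ, Q ^ m = Fintype.card F → 4 ≤ Q → Q = Fintype.card F := by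
      intro Q m hQ hQ4
      have key : ∀ ℓ r : ℕ, ℓ.Prime → ℓ ≤ 3 → r.Prime → Fintype.card F = ℓ ^ r → Q = Fintype.card F := by
        intro ℓ r hℓ hℓ3 hr hF
        have hm0 : m ≠ 0 := fun h => by rw [h, pow_zero] at hQ; omega
        obtain ⟨j, -, rfl⟩ := (Nat.dvd_prime_pow hℓ).mp (hF ▸ hQ ▸ dvd_pow_self Q hm0)
        have := Nat.pow_right_injective hℓ.two_le (((pow_mul ℓ j m).trans (hQ.trans hF)) : ℓ ^ (j * m) = ℓ ^ r)
        rcases Nat.prime_mul_iff.mp (this ▸ hr) with ⟨-, hm1⟩ | ⟨-, hj1⟩
        · rw [← hQ, hm1, pow_one]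
        · rw [hj1, pow_one] at hQ4; omega
      rcases h with ⟨r, hr, h⟩ | ⟨r, hr, -, h⟩ | ⟨hq, -, -⟩ | h
      · exact key 2 r Nat.prime_two (by norm_num) hr h
      · exact key 3 r Nat.prime_three le_rfl hr h
      · rw [← hQ, (Nat.Prime.pow_eq_iff hq).mp hQ |>.2, pow_one]
      · rw [← hQ, (Nat.Prime.pow_eq_iff (show (5 : ℕ).Prime by norm_num)).mp (hQ.trans h) |>.2, pow_one]
    obtain ⟨-, hs, hnc⟩ := not_solvable_psl (K := F) hq4
    exact ⟨hs, hnc, fun H hH => solvable_of_le p hH h60 hsub⟩

end Cfsg.Agent.S0810
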