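import Cfsg.Statements.S0811
import Cfsg.Agent.Dickson.MaxCoatom

set_option autoImplicit false
open Cfsg
open CfsgLib.Dickson Matrix MulAction
open scoped MatrixGroups

namespace Cfsg.Agent.S0811

/-- For q ∉ {2, 7, 9}, PSL_2(q) has a maximal subgroup isomorphic to the dihedral group of order 2(q + 1)/d, d = gcd(2, q − 1). -/
theorem result {F : Type*} [Field F] [Fintype F] {q : ℕ} (hF : Fintype.card F = q) (hq : q ∉ ({2, 7, 9} : Finset ℕ)) : ∃ H : Subgroup (Matrix.ProjectiveSpecialLinearGroup (Fin 2) F), IsCoatom H ∧ Nonempty (H ≃* DihedralGroup ((q + 1) / Nat.gcd 2 (q - 1))) := by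
  classical
  subst hF
  simp only [Finset.mem_insert, Finset.mem_singleton, not_or] at hq
  obtain ⟨x, y, -, ⟨i⟩⟩ := exists_pslPairN_quad (F := F)
  refine ⟨pslPairN x y, ?_, ⟨i⟩⟩
  have h1 : 1 < Fintype.card F := Fintype.one_lt_card
  by_cases h4 : 4 ≤ Fintype.card F
  · exact isCoatom_pslPairN_quad h4 hq.2.1 hq.2.2 i
  · -- the four group in `PSL(2, 3)`
    have h3 : Fintype.card F = 3 := by omega
    have hH := Nat.card_congr i.toEquiv
    rw [DihedralGroup.nat_card, h3] at hH
    have hG := card_psl (F := F)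
    rw [h3] at hG
    norm_num [-Nat.card_eq_fintype_card] at hG hH
    refine ⟨fun h => by rw [h, Subgroup.card_top] at hH; omega, fun M hM => ?_⟩
    by_contra hne
    have hd := Subgroup.card_dvd_of_le hM.le
    have hd2 := M.card_subgroup_dvd_card
    have hlt : Nat.card (pslPairN x y) < Nat.card M :=
      lt_of_le_of_ne (Subgroup.card_le_of_le hM.le) fun h =>
        hM.ne (Subgroup.eq_of_le_of_card_ge hM.le h.ge)
    have hlt2 : Nat.card M < Nat.card (Matrix.ProjectiveSpecialLinearGroup (Fin 2) F) :=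
      lt_of_le_of_ne (Subgroup.card_le_card_group M) fun h => hne (Subgroup.eq_top_of_card_eq M h)
    have hG12 : Nat.card (Matrix.ProjectiveSpecialLinearGroup (Fin 2) F) = 12 := by omega
    rw [hH] at hd hlt
    rw [hG12] at hd2 hlt2
    interval_cases Nat.card M <;> omega

end Cfsg.Agent.S0811
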