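import Cfsg.Statements.S0812
import Cfsg.Agent.Dickson.MaxCoatom

set_option autoImplicit false
open Cfsg
open CfsgLib.Dickson Matrix MulAction
open scoped MatrixGroups

namespace Cfsg.Agent.S0812

/-- For q ∉ {2, 3, 5, 7, 9, 11}, PSL_2(q) has a maximal subgroup isomorphic to the dihedral group of order 2(q − 1)/d, d = gcd(2, q − 1). -/
theorem result {F : Type*} [Field F] [Fintype F] {q : ℕ} (hF : Fintype.card F = q) (hq : q ∉ ({2, 3, 5, 7, 9, 11} : Finset ℕ)) : ∃ H : Subgroup (Matrix.ProjectiveSpecialLinearGroup (Fin 2) F), IsCoatom H ∧ Nonempty (H ≃* DihedralGroup ((q - 1) / Nat.gcd 2 (q - 1))) := by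
  classical
  subst hF
  simp only [Finset.mem_insert, Finset.mem_singleton, not_or] at hq
  obtain ⟨x, y, -, ⟨i⟩⟩ := exists_pslPairN_rat (F := F)
  have h1 : 1 < Fintype.card F := Fintype.one_lt_card
  obtain ⟨h2, h3, h5, h7, h9, h11⟩ := hq
  exact ⟨pslPairN x y, isCoatom_pslPairN_rat (by omega) h5 h7 h9 h11 i, ⟨i⟩⟩

end Cfsg.Agent.S0812
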