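import Cfsg.Statements.S0813
import Cfsg.Agent.AutPSL.Outer

set_option autoImplicit false
open Cfsg

namespace Cfsg.Agent.S0813

/-- |Aut(PSL_n(q))|, q = p^f: for n ≥ 3 it is 2 f |PGL_n(q)|, and for n = 2 (q ≥ 4) it is f |PGL_2(q)|. -/
theorem result {F : Type*} [Field F] [Fintype F] (p f : ℕ) [Fact p.Prime] (hf : 1 ≤ f) (hF : Fintype.card F = p ^ f) (n : ℕ) (hn : 2 ≤ n) (h2 : n = 2 → 4 ≤ p ^ f) : Nat.card (MulAut (Matrix.ProjectiveSpecialLinearGroup (Fin n) F)) = (if n = 2 then 1 else 2) * f * Nat.card (Matrix.ProjGenLinGroup (Fin n) F) := by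
  obtain ⟨eF⟩ := CfsgLib.AutPSL.autField_equiv hf hF
  have hfc : Nat.card (RingAut F) = f := by
    rw [Nat.card_congr (eF.toEquiv.trans Multiplicative.toAdd), Nat.card_zmod]
  have key : ∀ {C : Type _} [Group C] (ψ : MulAut (Matrix.ProjectiveSpecialLinearGroup (Fin n) F) →* C),
      Function.Surjective ψ → ψ.ker = CfsgLib.AutPSL.diagGroup →
      Nat.card (MulAut (Matrix.ProjectiveSpecialLinearGroup (Fin n) F)) =
        Nat.card C * Nat.card (Matrix.ProjGenLinGroup (Fin n) F) := by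
    intro C _ ψ hs hk
    rw [← Subgroup.card_mul_index ψ.ker, Subgroup.index_ker, MonoidHom.range_eq_top.mpr hs,
      Subgroup.card_top, hk, CfsgLib.AutPSL.card_diagGroup hn, mul_comm]
  split_ifs with h
  · subst h
    obtain ⟨ψ, hs, hk⟩ := CfsgLib.AutPSL.exists_hom_of_complement (n := 2) (F := F) le_rfl
      CfsgLib.AutPSL.fieldHom (MulEquiv.refl _) CfsgLib.AutPSL.exists_decomposition_two
      (fun x hx => CfsgLib.AutPSL.fieldHom_mem_diag le_rfl x hx)
    rw [key ψ hs hk, hfc, one_mul]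
  · obtain ⟨ψ, hs, hk⟩ := CfsgLib.AutPSL.exists_hom_of_complement (n := n) (F := F) hn
      CfsgLib.AutPSL.fieldGraphHom (MulEquiv.refl _) (CfsgLib.AutPSL.exists_decomposition' hn)
      (fun x hx => CfsgLib.AutPSL.fieldGraphHom_mem_diag (by omega) x hx)
    rw [key ψ hs hk, Nat.card_prod, hfc, Nat.card_congr Multiplicative.toAdd, Nat.card_zmod, mul_comm 2 f]

end Cfsg.Agent.S0813
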