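import Mathlib
import Cfsg.Statements.S0877
import Cfsg.Agent.Eq.Def_Characters
import Cfsg.Agent.Chars.Basic.Kernel
import Cfsg.Agent.Chars.Basic.Columns
import Cfsg.Agent.Chars.Exceptional.Inner
import Cfsg.Agent.Chars.Brauer.Characterization
import Cfsg.Agent.Chars.Brauer.PiPart
import Cfsg.Agent.Chars.Brauer.Frobenius

set_option autoImplicit false
open Cfsg

namespace Cfsg.Agent.S0877

open CfsgLib.Chars CfsgLib.Chars.Brauer

open scoped ComplexConjugate

universe u

variable {G : Type u} [Group G] [Fintype G]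

/-- The number of elements of `H` commuting with an element of `H`. -/
noncomputable def cCount (H : Subgroup G) (h : H) : ℕ :=
  Nat.card {g : H // g * h * g⁻¹ = h}

theorem cCount_pos (H : Subgroup G) (h : H) : 0 < cCount H h := by
  have : Nonempty {g : H // g * h * g⁻¹ = h} := ⟨⟨1, by simp⟩⟩
  exact Nat.card_pos

open scoped Classical in
theorem sum_cCount_class (H : Subgroup G) [Fintype H] (r : H) :
    ∑ h ∈ Finset.univ.filter (fun h : H => IsConj r h), cCount H h = Nat.card H := by
  rw [Nat.card_eq_fintype_card, ← Finset.card_univ,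
    Finset.card_eq_sum_card_fiberwise (f := fun g : H => g * r * g⁻¹)
      (t := Finset.univ.filter (fun h : H => IsConj r h))
      (fun g _ => Finset.mem_filter.mpr ⟨Finset.mem_univ _, isConj_iff.mpr ⟨g, rfl⟩⟩)]
  refine Finset.sum_congr rfl fun h hh => ?_
  obtain ⟨g₀, rfl⟩ := isConj_iff.mp (Finset.mem_filter.mp hh).2
  rw [cCount, Nat.card_eq_fintype_card, Fintype.card_subtype]
  refine Finset.card_bij' (fun g _ => g * g₀) (fun g _ => g * g₀⁻¹) ?_ ?_ ?_ ?_
  · intro g hg
    simp only [Finset.mem_filter, Finset.mem_univ, true_and] at hg ⊢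
    exact Eq.trans (by group) hg
  · intro g hg
    simp only [Finset.mem_filter, Finset.mem_univ, true_and] at hg ⊢
    exact Eq.trans (by group) hg
  · intro g _; simp
  · intro g _; simp

open scoped Classical in
/-- Let H be a subgroup of the finite group G whose order is coprime to its index. Suppose that elements of H conjugate in G are conjugate in H, and that every subgroup E of G that is elementary for some prime (in the sense used for Brauer's characterisation of characters) and whose order divides the order of H is conjugate to a subgroup of H. Then there is a normal subgroup K with K ⊔ H = ⊤ and K ⊓ H trivial. -/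
theorem main (H : Subgroup G) (hHall : Nat.Coprime (Nat.card H) H.index) (hfus : ∀ x ∈ H, ∀ y ∈ H, IsConj x y → ∃ h ∈ H, h * x * h⁻¹ = y) (helem : ∀ (E : Subgroup G) (p : ℕ), p.Prime → Cfsg.IsElementary p E → Nat.card E ∣ Nat.card H → ∃ g : G, E.map (MulAut.conj g).toMonoidHom ≤ H) : ∃ K : Subgroup G, K.Normal ∧ K ⊔ H = ⊤ ∧ K ⊓ H = ⊥ := by
  set m := H.index with hm
  set n := Nat.card H with hn
  have hcop : Nat.Coprime m n := hHall.symm
  have hcard : Nat.card G = m * n := by rw [mul_comm]; exact H.card_mul_index.symm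
  have hG : Nat.card G ∣ m * n := hcard ▸ dvd_rfl
  set k := piExp hcop with hk
  have hmpos : 0 < m := Nat.pos_of_ne_zero H.index_ne_zero_of_finite
  -- elements of H are their own parts
  have hHk : ∀ h : H, (h : G) ^ k = h := fun h =>
    pow_piExp_of_pow_right hcop (by
      rw [← Subgroup.coe_pow, hn, pow_card_eq_one', Subgroup.coe_one])
  -- every part is conjugate into H
  have hrep : ∀ x : G, ∃ h : H, IsConj (x ^ k) (h : G) := by
    intro x
    obtain ⟨p, hple, hp⟩ := Nat.exists_infinite_primes (Nat.card G + 1)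
    have hE : IsElementary p (Subgroup.zpowers (x ^ k)) := by
      refine isElementary_of_cyclic (⊤ : Subgroup (Subgroup.zpowers (x ^ k))) ?_ ?_ (k := 0)
        (by rw [Subgroup.index_top, pow_zero])
      · intro a _
        rw [Subgroup.mem_center_iff]
        intro b
        exact mul_comm' b a
      · rw [Subgroup.card_top]
        refine ((hp.coprime_iff_not_dvd).mpr fun hd => ?_).symm
        have := Nat.le_of_dvd Nat.card_pos (hd.trans (Subgroup.card_subgroup_dvd_card _))
        omega
    obtain ⟨g, hg⟩ := helem _ p hp hE (by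
      rw [Nat.card_zpowers]
      exact orderOf_dvd_of_pow_eq_one (pow_piExp_pow hcop hG x))
    exact ⟨⟨g * x ^ k * g⁻¹, hg ⟨_, Subgroup.mem_zpowers _, rfl⟩⟩, isConj_iff.mpr ⟨g, rfl⟩⟩
  choose rep hrep using hrep
  have hconjH : ∀ {a b : H}, IsConj (a : G) (b : G) → IsConj a b := fun {a b} hab => by
    obtain ⟨g, hg, he⟩ := hfus a a.2 b b.2 hab
    exact isConj_iff.mpr ⟨⟨g, hg⟩, Subtype.ext he⟩
  have hrep_iff : ∀ (x : G) (h : H), IsConj (x ^ k) (h : G) ↔ IsConj (rep x) h := fun x h =>
    ⟨fun hh => hconjH ((hrep x).symm.trans hh), fun hh => (hrep x).trans (by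
      obtain ⟨g, rfl⟩ := isConj_iff.mp hh
      exact isConj_iff.mpr ⟨(g : G), rfl⟩)⟩
  -- the weights
  let w : H → ℕ := fun h => Nat.card {x : G // IsConj (x ^ k) (h : G)} * cCount H h
  have hwsum : ∑ h : H, w h = Nat.card G * n := by
    have h1 : ∀ h : H, w h = ∑ x : G, if IsConj (rep x) h then cCount H h else 0 := by
      intro h
      simp only [w, hrep_iff, ← Finset.sum_filter, Finset.sum_const, smul_eq_mul]
      rw [Nat.card_eq_fintype_card, Fintype.card_subtype]
    rw [Finset.sum_congr rfl (fun h _ => h1 h), Finset.sum_comm]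
    have h2 : ∀ x : G, ∑ h : H, (if IsConj (rep x) h then cCount H h else 0) = n := fun x => by
      rw [← Finset.sum_filter, sum_cCount_class H (rep x)]
    simp only [h2, Finset.sum_const, smul_eq_mul, Finset.card_univ,
      Nat.card_eq_fintype_card (α := G)]
  have hwge : ∀ h : H, Nat.card G ≤ w h := by
    intro h
    let C : Subgroup G := Subgroup.centralizer {(h : G)}
    have hCG : Nat.card C ∣ m * n := (Subgroup.card_subgroup_dvd_card C).trans hG
    set N := Nat.card {u : C // u ^ k = 1} with hN
    have hsect : Nat.card {x : G // IsConj (x ^ k) (h : G)} * Nat.card C = Nat.card G * N := by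
      have hfib : Nat.card {x : G // x ^ k = (h : G)} = N := by
        have hcomm : ∀ x : G, x ^ k = (h : G) → Commute x (h : G) := fun x hx =>
          hx ▸ (Commute.refl x).pow_right k
        refine Nat.card_congr
          { toFun := fun x => ⟨⟨x * (h : G)⁻¹, ?_⟩, ?_⟩
            invFun := fun u => ⟨(u.1 : G) * (h : G), ?_⟩
            left_inv := fun x => by simp
            right_inv := fun u => by simp }
        · rw [Subgroup.mem_centralizer_singleton_iff]
          exact ((hcomm x x.2).mul_left (Commute.refl (h : G)).inv_left).eq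
        · apply Subtype.ext
          show ((x : G) * (h : G)⁻¹) ^ k = 1
          rw [((hcomm x x.2).inv_right).mul_pow, inv_pow, x.2, hHk, mul_inv_cancel]
        · have hu : Commute (u.1 : G) (h : G) := Subgroup.mem_centralizer_singleton_iff.mp u.1.2
          have hu1 : (u.1 : G) ^ k = 1 := by rw [← Subgroup.coe_pow, u.2, Subgroup.coe_one]
          rw [hu.mul_pow, hu1, hHk, one_mul]
      rw [← hfib]
      let T := {p : G × G // p.1 ^ k = p.2 * (h : G) * p.2⁻¹}
      have e1 : T ≃ G × {x : G // x ^ k = (h : G)} :=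
        { toFun := fun p => (p.1.2, ⟨p.1.2⁻¹ * p.1.1 * p.1.2, by
            have := conj_pow (a := p.1.2⁻¹) (b := p.1.1) (i := k)
            rw [inv_inv] at this
            rw [this, p.2]; group⟩)
          invFun := fun q => ⟨(q.1 * q.2.1 * q.1⁻¹, q.1), by
            show (q.1 * q.2.1 * q.1⁻¹) ^ k = _
            rw [conj_pow, q.2.2]⟩
          left_inv := fun p => by
            apply Subtype.ext
            simp [mul_assoc]
          right_inv := fun q => by
            simp [mul_assoc] }
      rw [← Nat.card_prod G, ← Nat.card_congr e1]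
      have g0 : ∀ x : {x : G // IsConj (x ^ k) (h : G)}, ∃ g : G, g * (h : G) * g⁻¹ = (x : G) ^ k :=
        fun x => isConj_iff.mp x.2.symm
      choose g0 hg0 using g0
      let e2 : {x : G // IsConj (x ^ k) (h : G)} × C ≃ T :=
        { toFun := fun q => ⟨((q.1 : G), g0 q.1 * (q.2 : G)), by
            have hc : Commute (q.2 : G) (h : G) := Subgroup.mem_centralizer_singleton_iff.mp q.2.2
            show (q.1 : G) ^ k = g0 q.1 * q.2 * h * (g0 q.1 * q.2)⁻¹
            rw [mul_assoc (g0 q.1), hc.eq, ← hg0 q.1]; group⟩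
          invFun := fun p => (⟨p.1.1, (isConj_iff.mpr ⟨p.1.2, p.2.symm⟩).symm⟩,
            ⟨(g0 ⟨p.1.1, (isConj_iff.mpr ⟨p.1.2, p.2.symm⟩).symm⟩)⁻¹ * p.1.2, by
              rw [Subgroup.mem_centralizer_singleton_iff]
              have h1 := hg0 ⟨p.1.1, (isConj_iff.mpr ⟨p.1.2, p.2.symm⟩).symm⟩
              simp only at h1
              replace h1 := h1.trans p.2
              have h2 := congrArg (fun z => (g0 ⟨p.1.1, (isConj_iff.mpr ⟨p.1.2, p.2.symm⟩).symm⟩)⁻¹ * z * p.1.2) h1
              simp only [mul_assoc, inv_mul_cancel_left, inv_mul_cancel, mul_one] at h2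
              simp only [mul_assoc]
              exact h2.symm⟩)
          left_inv := fun q => by simp
          right_inv := fun p => by apply Subtype.ext; simp }
      rw [← Nat.card_congr e2, Nat.card_prod]
    set n' := Nat.gcd (Nat.card C) n with hn'
    set m' := Nat.gcd (Nat.card C) m with hm'
    have hsplit : Nat.card C = m' * n' := by
      rw [hm', hn', ← Nat.Coprime.gcd_mul _ hcop]
      exact (Nat.gcd_eq_left hCG).symm
    have hNpos : 0 < N := by
      have : Nonempty {u : C // u ^ k = 1} := ⟨⟨1, one_pow _⟩⟩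
      exact Nat.card_pos
    have hm'N : m' ≤ N := by
      refine Nat.le_of_dvd hNpos ?_
      have h1 := card_dvd_mul_card_piPart_one (G := C) hcop hCG
      exact (Nat.Coprime.coprime_dvd_left (Nat.gcd_dvd_right _ _) hcop).dvd_of_dvd_mul_left
        ((Nat.gcd_dvd_left _ _).trans h1)
    have hn'c : n' ∣ cCount H h := by
      rw [Nat.dvd_iff_prime_pow_dvd_dvd]
      intro p j hp hpj
      rcases Nat.eq_zero_or_pos j with rfl | hj
      · simp
      have : Fact p.Prime := ⟨hp⟩
      have hpm : ¬ p ∣ m := fun hpm => hp.ne_one (Nat.eq_one_of_dvd_coprimes hcop hpm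
        ((dvd_pow_self p hj.ne').trans (hpj.trans (Nat.gcd_dvd_right _ _))))
      obtain ⟨Q, hQ⟩ := Sylow.exists_subgroup_card_pow_prime p (hpj.trans (Nat.gcd_dvd_left _ _))
      let Q' : Subgroup G := Q.map C.subtype
      have hQ'card : Nat.card Q' = p ^ j := by
        rw [← hQ]; exact (Nat.card_congr (Q.equivMapOfInjective _ C.subtype_injective).toEquiv).symm
      have hQ'comm : ∀ q ∈ Q', Commute q (h : G) := by
        rintro _ ⟨q, -, rfl⟩
        exact Subgroup.mem_centralizer_singleton_iff.mp q.2
      have hcomm : ∀ (a : Subgroup.zpowers (h : G)) (b : Q'),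
          Commute ((Subgroup.zpowers (h : G)).subtype a) (Q'.subtype b) := by
        rintro ⟨_, i, rfl⟩ ⟨b, hb⟩
        exact ((hQ'comm b hb).zpow_right i).symm
      let φ := MonoidHom.noncommCoprod (Subgroup.zpowers (h : G)).subtype Q'.subtype hcomm
      let E := φ.range
      have hEdiv : Nat.card E ∣ orderOf (h : G) * p ^ j := by
        refine (Subgroup.card_range_dvd φ).trans ?_
        rw [Nat.card_prod, Nat.card_zpowers, hQ'card]
      have hon : orderOf (h : G) ∣ n := by
        rw [Subgroup.orderOf_coe]; exact orderOf_dvd_natCard h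
      have hEn : Nat.card E ∣ n := by
        have hcop' : Nat.Coprime (Nat.card E) m := by
          refine Nat.Coprime.coprime_dvd_left hEdiv (Nat.Coprime.mul_left ?_ ?_)
          · exact (Nat.Coprime.coprime_dvd_left hon hHall)
          · exact Nat.Coprime.pow_left j ((hp.coprime_iff_not_dvd).mpr hpm)
        exact hcop'.dvd_of_dvd_mul_left ((Subgroup.card_subgroup_dvd_card E).trans hG)
      obtain ⟨a, c, hc, hord⟩ := Nat.exists_eq_pow_mul_and_not_dvd
        (orderOf_pos (h : G)).ne' p hp.ne_one
      have hxE : (h : G) ^ p ^ a ∈ E := by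
        refine ⟨(⟨(h : G) ^ p ^ a, Subgroup.pow_mem _ (Subgroup.mem_zpowers _) _⟩, 1), ?_⟩
        simp [φ]
      let x : E := ⟨(h : G) ^ p ^ a, hxE⟩
      have hordx : orderOf x = c := by
        rw [← Subgroup.orderOf_coe,
          orderOf_pow_of_dvd (pow_ne_zero _ hp.pos.ne') (hord ▸ dvd_mul_right _ _), hord,
          Nat.mul_div_cancel_left _ (pow_pos hp.pos _)]
      have hE : IsElementary p E := by
        refine ⟨x, ?_, ?_, ?_⟩
        · rw [Subgroup.mem_center_iff]
          rintro ⟨_, ⟨a', b'⟩, rfl⟩
          apply Subtype.ext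
          have h1 : Commute (a' : G) (h : G) := by
            obtain ⟨i, hi⟩ := Subgroup.mem_zpowers_iff.mp a'.2
            rw [← hi]; exact (Commute.refl _).zpow_left i
          exact ((h1.mul_left (hQ'comm _ b'.2)).pow_right (p ^ a)).eq
        · rw [hordx]; exact ((hp.coprime_iff_not_dvd).mpr hc).symm
        · have h1 := (Subgroup.zpowers x).card_mul_index
          rw [Nat.card_zpowers, hordx] at h1
          have h2 : c * (Subgroup.zpowers x).index ∣ c * (p ^ a * p ^ j) := by
            rw [h1]
            refine hEdiv.trans (dvd_of_eq ?_)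
            rw [hord]; ring
          have hcpos : 0 < c := Nat.pos_of_ne_zero fun h0 => hc (h0 ▸ dvd_zero p)
          have h3 := Nat.dvd_of_mul_dvd_mul_left hcpos h2
          rw [← pow_add] at h3
          obtain ⟨i, -, hi⟩ := (Nat.dvd_prime_pow hp).mp h3
          exact ⟨i, hi⟩
      obtain ⟨g, hg⟩ := helem E p hp hE hEn
      have hhE : (h : G) ∈ E :=
        ⟨(⟨(h : G), Subgroup.mem_zpowers _⟩, 1), by simp [φ]⟩
      obtain ⟨h0, hh0, he0⟩ := hfus h h.2 (g * h * g⁻¹) (hg ⟨_, hhE, rfl⟩) (isConj_iff.mpr ⟨g, rfl⟩)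
      -- conjugation by `h0⁻¹ g` maps `Q'` into the centraliser of `h` in `H`
      let C' : Subgroup H := Subgroup.centralizer {h}
      have hC' : Nat.card C' = cCount H h := by
        refine Nat.card_congr (Equiv.subtypeEquivRight fun z => ?_)
        rw [Subgroup.mem_centralizer_singleton_iff, mul_inv_eq_iff_eq_mul]
      have hmem : ∀ q : Q', (h0⁻¹ * g) * (q : G) * (h0⁻¹ * g)⁻¹ ∈ H := by
        intro q
        have hqE : (q : G) ∈ E := ⟨(1, q), by simp [φ]⟩
        have h2 : g * (q : G) * g⁻¹ ∈ H := hg ⟨_, hqE, rfl⟩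
        have e : (h0⁻¹ * g) * (q : G) * (h0⁻¹ * g)⁻¹ = h0⁻¹ * (g * (q : G) * g⁻¹) * h0 := by group
        rw [e]
        exact H.mul_mem (H.mul_mem (H.inv_mem hh0) h2) hh0
      let θ : Q' →* H :=
        ((MulAut.conj (h0⁻¹ * g)).toMonoidHom.comp Q'.subtype).codRestrict H hmem
      have hθC : ∀ q, θ q ∈ C' := by
        intro q
        rw [Subgroup.mem_centralizer_singleton_iff]
        apply Subtype.ext
        show (h0⁻¹ * g) * (q : G) * (h0⁻¹ * g)⁻¹ * (h : G)
          = (h : G) * ((h0⁻¹ * g) * (q : G) * (h0⁻¹ * g)⁻¹)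
        have hg0 : Commute (h0⁻¹ * g) (h : G) := by
          show h0⁻¹ * g * h = h * (h0⁻¹ * g)
          calc h0⁻¹ * g * h = h0⁻¹ * (g * h * g⁻¹) * g := by group
            _ = h0⁻¹ * (h0 * h * h0⁻¹) * g := by rw [he0]
            _ = _ := by group
        exact ((hg0.mul_left (hQ'comm q q.2)).mul_left hg0.inv_left).eq
      have hinj : Function.Injective (θ.codRestrict C' hθC) := fun a b hab => by
        apply Subtype.ext
        have h4 := congrArg (fun z : C' => ((z : H) : G)) hab
        exact (MulAut.conj (h0⁻¹ * g)).injective h4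
      have h5 := Subgroup.card_dvd_of_injective _ hinj
      rwa [hQ'card, hC'] at h5
    have hn'le : n' ≤ cCount H h := Nat.le_of_dvd (cCount_pos H h) hn'c
    have hm'pos : 0 < m' := Nat.gcd_pos_of_pos_left _ Nat.card_pos
    show Nat.card G ≤ Nat.card {x : G // IsConj (x ^ k) (h : G)} * cCount H h
    refine Nat.le_of_mul_le_mul_right ?_ hm'pos
    calc Nat.card G * m' ≤ Nat.card G * N := Nat.mul_le_mul_left _ hm'N
      _ = Nat.card {x : G // IsConj (x ^ k) (h : G)} * (m' * n') := by rw [← hsect, hsplit]
      _ ≤ Nat.card {x : G // IsConj (x ^ k) (h : G)} * (m' * cCount H h) :=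
          Nat.mul_le_mul_left _ (Nat.mul_le_mul_left _ hn'le)
      _ = _ := by ring
  have hweq : ∀ h : H, w h = Nat.card G := by
    intro h
    refine (((Finset.sum_eq_sum_iff_of_le (s := Finset.univ) fun h _ => hwge h).mp ?_) h
      (Finset.mem_univ h)).symm
    rw [hwsum, Finset.sum_const, smul_eq_mul, Finset.card_univ, hn,
      Nat.card_eq_fintype_card (α := H), mul_comm]
  -- the extensions
  let ext : (H → ℂ) → G → ℂ := fun f x => f (rep x)
  have hext_sum : ∀ f : H → ℂ, Cfsg.IsClassFunction H f →
      (n : ℂ) * ∑ x : G, ext f x = (Nat.card G : ℂ) * ∑ h : H, f h := by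
    intro f hf
    have h1 : ∀ x : G, (n : ℂ) * ext f x
        = ∑ h : H, if IsConj (rep x) h then (cCount H h : ℂ) * f h else 0 := by
      intro x
      rw [hn, ← sum_cCount_class H (rep x), Nat.cast_sum, Finset.sum_mul, Finset.sum_filter]
      refine Finset.sum_congr rfl fun h _ => ?_
      by_cases hh : IsConj (rep x) h
      · rw [if_pos hh, if_pos hh, show ext f x = f h from eq_of_isConj hf hh]
      · rw [if_neg hh, if_neg hh]
    rw [Finset.mul_sum, Finset.sum_congr rfl (fun x _ => h1 x), Finset.sum_comm, Finset.mul_sum]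
    refine Finset.sum_congr rfl fun h _ => ?_
    rw [← hweq h, ← Finset.sum_filter, Finset.sum_const, nsmul_eq_mul, ← mul_assoc]
    congr 1
    simp only [w, hrep_iff, Nat.cast_mul]
    rw [Nat.card_eq_fintype_card, Fintype.card_subtype]
  have hgen : ∀ f : H → ℂ, Cfsg.IsCharacter H f → Cfsg.IsGeneralizedCharacter G (ext f) := by
    intro f hf
    have hfc := CfsgLib.Chars.isClassFunction_of_isCharacter hf
    refine isGeneralizedCharacter_of_elementary (fun x y => ?_) fun E p hp hE => ?_
    · refine eq_of_isConj hfc ((hrep_iff _ _).mp ?_)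
      rw [conj_pow]
      exact (isConj_iff.mpr ⟨y, rfl⟩).symm.trans (hrep x)
    · have := isNilpotent_of_isElementary hp hE
      have hEd : Nat.card E ∣ m * n := (Subgroup.card_subgroup_dvd_card E).trans hG
      let π : E →* E := piHom hcop hEd
      have hBe : Cfsg.IsElementary p (π.range.map E.subtype) :=
        isElementary_map_subtype _ (isElementary_subgroup hp hE _)
      obtain ⟨g, hg⟩ := helem _ p hp hBe (by
        rw [Subgroup.card_map_of_injective E.subtype_injective]
        exact card_range_piHom hcop hEd)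
      let ψ : E →* H := (((MulAut.conj g).toMonoidHom.comp E.subtype).comp π).codRestrict H
        fun e => hg ⟨_, ⟨π e, ⟨e, rfl⟩, rfl⟩, rfl⟩
      refine CfsgLib.Chars.Exceptional.gen_of_char ?_
      have he : (fun e : E => ext f e) = fun e => f (ψ e) := by
        funext e
        refine eq_of_isConj hfc ((hrep_iff _ _).mp (isConj_iff.mpr ⟨g, ?_⟩))
        show g * (e : G) ^ k * g⁻¹ = g * ((π e : E) : G) * g⁻¹
        rw [piHom_apply, Subgroup.coe_pow]
      rw [he]
      exact isCharacter_comp hf ψ
  have hirr : ∀ φ : Cfsg.IrrCharacter H, Cfsg.IsIrrCharacter G (ext (φ : H → ℂ)) := by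
    intro φ
    have hnorm : Cfsg.classInner (ext (φ : H → ℂ)) (ext (φ : H → ℂ)) = 1 := by
      have h1 := hext_sum (fun h => (φ : H → ℂ) h * conj ((φ : H → ℂ) h))
        (fun a b => by simp only; rw [isClassFunction_coe φ a b])
      have h2 := classInner_self φ
      simp only [Cfsg.classInner] at h2 ⊢
      have hG0 : (Nat.card G : ℂ) ≠ 0 := Nat.cast_ne_zero.mpr Nat.card_pos.ne'
      have hn0 : (n : ℂ) ≠ 0 := Nat.cast_ne_zero.mpr (hn ▸ Nat.card_pos.ne')
      rw [← hn] at h2
      have hH : ∑ h : H, (φ : H → ℂ) h * conj ((φ : H → ℂ) h) = n := by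
        rw [inv_mul_eq_one₀ hn0] at h2
        exact h2.symm
      rw [hH, mul_comm] at h1
      rw [mul_right_cancel₀ hn0 h1, inv_mul_cancel₀ hG0]
    obtain ⟨ε, hε, hi⟩ := CfsgLib.Chars.Exceptional.gen_norm_one
      (hgen _ (isCharacter_coe φ)) hnorm
    rcases hε with rfl | rfl
    · simpa using hi
    · exfalso
      obtain ⟨a, ha, hae⟩ := exists_pos_natCast_map_one hi
      obtain ⟨b, hb, hbe⟩ := exists_pos_natCast_map_one φ.2
      have hr1 : IsConj (rep 1) 1 := (hrep_iff 1 1).mp (by rw [one_pow, Subgroup.coe_one])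
      have h1 : ext (φ : H → ℂ) 1 = b := by
        rw [← hbe]; exact eq_of_isConj (isClassFunction_coe φ) hr1
      simp only [Pi.smul_apply, h1, smul_eq_mul] at hae
      have : ((a + b : ℕ) : ℂ) = 0 := by push_cast at hae ⊢; rw [← hae]; ring
      have := Nat.cast_eq_zero.mp this
      omega
  -- the kernel
  let K : Subgroup G := ⨅ φ : Cfsg.IrrCharacter H, charKer (ext (φ : H → ℂ))
  have hKmem : ∀ x : G, x ∈ K ↔ x ^ k = 1 := by
    intro x
    have hr1 : IsConj (rep 1) 1 := (hrep_iff 1 1).mp (by rw [one_pow, Subgroup.coe_one])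
    simp only [K, Subgroup.mem_iInf,
      fun φ : Cfsg.IrrCharacter H => mem_charKer_iff (isCharacter_of_isIrrCharacter (hirr φ)) (g := x)]
    constructor
    · intro hx
      have h1 : rep x = 1 := eq_one_of_forall_eq fun φ =>
        (hx φ).trans (eq_of_isConj (isClassFunction_coe φ) hr1)
      have h2 := hrep x
      rw [h1, Subgroup.coe_one] at h2
      exact isConj_one_left.mp h2
    · intro hx φ
      refine eq_of_isConj (isClassFunction_coe φ) (((hrep_iff x 1).mp ?_).trans hr1.symm)
      rw [hx, Subgroup.coe_one]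
  have hKn : K.Normal := Subgroup.normal_iInf_normal fun φ =>
    charKer_normal (CfsgLib.Chars.isClassFunction_of_isCharacter
      (isCharacter_of_isIrrCharacter (hirr φ)))
  have hKcard : Nat.card K = m := by
    have h1 : cCount H 1 = n := Nat.card_congr (Equiv.subtypeUnivEquiv fun g => by simp)
    have h2 := hweq 1
    simp only [w, h1] at h2
    rw [hcard] at h2
    have h3 := Nat.eq_of_mul_eq_mul_right (hn ▸ Nat.card_pos) h2
    rw [← h3]
    refine Nat.card_congr (Equiv.subtypeEquivRight fun x => ?_)
    rw [hKmem, Subgroup.coe_one, isConj_one_left]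
  have hc : Subgroup.IsComplement' K H :=
    Subgroup.isComplement'_of_coprime (by rw [hKcard, ← hn, hcard]) (by rw [hKcard, ← hn]; exact hcop)
  exact ⟨K, hKn, hc.sup_eq_top, hc.disjoint.eq_bot⟩

/-- Let H be a subgroup of the finite group G whose order is coprime to its index. Suppose that elements of H conjugate in G are conjugate in H, and that every subgroup E of G that is elementary for some prime (in the sense used for Brauer's characterisation of characters) and whose order divides the order of H is conjugate to a subgroup of H. Then there is a normal subgroup K with K ⊔ H = ⊤ and K ⊓ H trivial. -/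
theorem result {G : Type*} [Group G] [Finite G] (H : Subgroup G) (hHall : Nat.Coprime (Nat.card H) H.index) (hfus : ∀ x ∈ H, ∀ y ∈ H, IsConj x y → ∃ h ∈ H, h * x * h⁻¹ = y) (helem : ∀ (E : Subgroup G) (p : ℕ), p.Prime → Cfsg.IsElementary p E → Nat.card E ∣ Nat.card H → ∃ g : G, E.map (MulAut.conj g).toMonoidHom ≤ H) : ∃ K : Subgroup G, K.Normal ∧ K ⊔ H = ⊤ ∧ K ⊓ H = ⊥ := by
  have := Fintype.ofFinite G
  exact main H hHall hfus helem

end Cfsg.Agent.S0877
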