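import Cfsg.Statements.S0892
import Cfsg.Agent.AltCover.Main

set_option autoImplicit false
open Cfsg

namespace Cfsg.Agent.S0892

/-- Let n ≥ 4 with n ≠ 6 and n ≠ 7, and let Γ be a finite group with a subgroup Z contained in both the centre and the commutator subgroup of Γ such that Γ / Z is isomorphic to the alternating group on n letters. Then Z has order at most 2. -/
theorem result (n : ℕ) (hn : 4 ≤ n) (h6 : n ≠ 6) (h7 : n ≠ 7) {Γ : Type*} [Group Γ] [Finite Γ] (Z : Subgroup Γ) [Z.Normal] (hZc : Z ≤ Subgroup.center Γ) (hZd : Z ≤ commutator Γ) (e : Γ ⧸ Z ≃* alternatingGroup (Fin n)) : Nat.card Z ≤ 2 := by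
  let q : Γ →* Equiv.Perm (Fin n) :=
    ((alternatingGroup (Fin n)).subtype.comp e.toMonoidHom).comp (QuotientGroup.mk' Z)
  have hker : q.ker = Z := by
    ext x
    simp [q, MonoidHom.mem_ker]
  have h : CfsgLib.AltCover.IsExt q := by
    refine ⟨?_, hker ▸ hZc⟩
    ext σ
    constructor
    · rintro ⟨x, rfl⟩; exact (e (QuotientGroup.mk' Z x)).2
    · intro hσ
      obtain ⟨x, hx⟩ := QuotientGroup.mk'_surjective Z (e.symm ⟨σ, hσ⟩)
      refine ⟨x, ?_⟩
      show ((e (QuotientGroup.mk' Z x)) : Equiv.Perm (Fin n)) = σ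
      rw [hx, MulEquiv.apply_symm_apply]
  have key : ∀ δ : Γ, δ * δ = 1 → Z ≤ Subgroup.zpowers δ → Nat.card Z ≤ 2 := by
    intro δ hδ hle
    refine (Subgroup.card_le_of_le hle).trans ?_
    rw [Nat.card_zpowers]
    exact Nat.le_of_dvd two_pos (orderOf_dvd_of_pow_eq_one (by rw [sq, hδ]))
  by_cases h4 : n = 4
  · subst h4
    obtain ⟨δ, hδ, hle⟩ := CfsgLib.AltCover.ker_le_zpowers_four h (hker ▸ hZd)
    exact key δ hδ (hker ▸ hle)
  · obtain ⟨m, rfl⟩ : ∃ m, n = m + 2 := ⟨n - 2, by omega⟩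
    obtain ⟨δ, hδ, hle⟩ := CfsgLib.AltCover.ker_le_zpowers (m := m) (by omega) (by omega) h (hker ▸ hZd)
    exact key δ hδ (hker ▸ hle)

end Cfsg.Agent.S0892
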