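import Cfsg.Statements.S0940
import Cfsg.Agent.Eq.Def_Blocks
import Cfsg.Agent.Blocks.HeightZero.Integral
import Cfsg.Agent.Blocks.Orth.Blocks
import Cfsg.Agent.Blocks.Basic.Principal

set_option autoImplicit false
open Cfsg

namespace Cfsg.Agent.S0940

open CfsgLib CfsgLib.Blocks CfsgLib.Blocks.HeightZero
open scoped ComplexConjugate Classical

universe u

variable {G : Type u} [Group G] [Fintype G] {p : ℕ} {M : Ideal AlgInt}

/-- The elements of `p`-power order. -/
noncomputable def pElts (G : Type u) [Group G] [Fintype G] (p : ℕ) : Finset G :=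
  Finset.univ.filter fun u => ∃ k : ℕ, orderOf u = p ^ k

theorem mem_pElts {u : G} : u ∈ pElts G p ↔ ∃ k : ℕ, orderOf u = p ^ k := by simp [pElts]

theorem orderOf_conj_eq (a u : G) : orderOf (a * u * a⁻¹) = orderOf u :=
  orderOf_injective (MulAut.conj a).toMonoidHom (MulAut.conj a).injective u

/-- Sums over the conjugation invariant set of `p`-elements multiply values. -/
theorem sum_pElts_mul (χ : IrrCharacter G) (g : G) :
    ∑ u ∈ pElts G p, (χ : G → ℂ) (g * u) =
      (∑ u ∈ pElts G p, (χ : G → ℂ) u) * (χ : G → ℂ) g / (χ : G → ℂ) 1 := by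
  have h0 : (Nat.card G : ℂ) ≠ 0 := Chars.natCard_ne_zero
  refine mul_left_cancel₀ h0 ?_
  calc (Nat.card G : ℂ) * ∑ u ∈ pElts G p, (χ : G → ℂ) (g * u)
      = ∑ a : G, ∑ u ∈ pElts G p, (χ : G → ℂ) (g * (a * u * a⁻¹)) := by
        rw [Nat.card_eq_fintype_card, ← Finset.card_univ, ← nsmul_eq_mul, ← Finset.sum_const]
        refine Finset.sum_congr rfl fun a _ => Finset.sum_nbij' (fun u => a⁻¹ * u * a)
          (fun u => a * u * a⁻¹) (fun u hu => ?_) (fun u hu => ?_) (fun u _ => by group)
          (fun u _ => by group) (fun u _ => by group)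
        · rw [mem_pElts] at hu ⊢
          rwa [show a⁻¹ * u * a = a⁻¹ * u * a⁻¹⁻¹ by group, orderOf_conj_eq]
        · rw [mem_pElts] at hu ⊢
          rwa [orderOf_conj_eq]
    _ = _ := by
        rw [Finset.sum_comm, Finset.sum_congr rfl fun u _ => Chars.sum_map_mul_conjugate χ g u,
          Finset.sum_mul, Finset.sum_div, Finset.mul_sum]
        exact Finset.sum_congr rfl fun u _ => by ring

theorem sum_pElts_inv (f : G → ℂ) : ∑ u ∈ pElts G p, f u = ∑ u ∈ pElts G p, f u⁻¹ := by
  refine Finset.sum_nbij' (fun u => u⁻¹) (fun u => u⁻¹) (fun u hu => ?_) (fun u hu => ?_)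
    (fun u _ => inv_inv u) (fun u _ => inv_inv u) (fun u _ => by rw [inv_inv])
  all_goals
    rw [mem_pElts] at hu ⊢
    rwa [orderOf_inv]

/-- Scaled by the `p'`-part of the order, the indicator of the `p`-elements is a generalized
character. -/
theorem isGeneralizedCharacter_pElts [Fact p.Prime] :
    IsGeneralizedCharacter G (fun x : G => if x ∈ pElts G p then
      ((Nat.card G / p ^ (Nat.card G).factorization p : ℕ) : ℂ) else 0) := by
  have hp : p.Prime := Fact.out
  set m := Nat.card G / p ^ (Nat.card G).factorization p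
  refine Chars.Brauer.isGeneralizedCharacter_of_elementary (fun g h => ?_) fun E r hr hE => ?_
  · simp only [mem_pElts, orderOf_conj_eq]
  have := Chars.Brauer.isNilpotent_of_isElementary hr hE
  have : Fintype E := Fintype.ofFinite E
  set P : Sylow p E := default
  have : Fintype (P : Subgroup E) := Fintype.ofFinite _
  obtain ⟨Q, hQmem, -, hcard⟩ := exists_regular_subgroup_of_nilpotent P
  have hPn : (P : Subgroup E).Normal := inferInstance
  have hP : ∀ x : E, (x : G) ∈ pElts G p ↔ x ∈ (P : Subgroup E) := by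
    intro x
    rw [mem_pElts, Subgroup.orderOf_coe]
    constructor
    · rintro ⟨k, hk⟩
      obtain ⟨R, hR⟩ := (IsPGroup.of_card (p := p) (n := k) (G := Subgroup.zpowers x)
        (by rw [Nat.card_zpowers, hk])).exists_le_sylow
      have : Subsingleton (Sylow p E) := (Sylow.unique_of_normal P hPn).instSubsingleton
      exact (Subsingleton.elim R P) ▸ hR (Subgroup.mem_zpowers x)
    · intro hx
      obtain ⟨k, hk⟩ := IsPGroup.iff_orderOf.1 P.2 ⟨x, hx⟩
      exact ⟨k, (Subgroup.orderOf_coe (⟨x, hx⟩ : (P : Subgroup E))).trans hk⟩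
  set θ : E → ℂ := fun x => if (x : G) ∈ pElts G p then (m : ℂ) else 0 with hθ
  have hcl : IsClassFunction E θ := fun g h => by
    simp only [hθ, mem_pElts, Subgroup.coe_mul, InvMemClass.coe_inv, orderOf_conj_eq]
  -- `|Q|` divides the `p'`-part
  obtain ⟨t, ht⟩ : Nat.card Q ∣ m := by
    have hQG : Nat.card Q ∣ Nat.card G :=
      (Subgroup.card_subgroup_dvd_card Q).trans (Subgroup.card_subgroup_dvd_card E)
    have hcop : Nat.Coprime (Nat.card Q) (p ^ (Nat.card G).factorization p) := by
      refine Nat.Coprime.pow_right _ (hp.coprime_iff_not_dvd.2 fun h => ?_).symm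
      obtain ⟨y, hy⟩ := exists_prime_orderOf_dvd_card' p h
      exact (hQmem y).1 y.2 (by rw [Subgroup.orderOf_coe, hy])
    rw [← Nat.ordProj_mul_ordCompl_eq_self (Nat.card G) p] at hQG
    exact hcop.dvd_of_dvd_mul_left hQG
  have hnat : ∀ μ : IrrCharacter E, ∃ n : ℕ, classInner θ (μ : E → ℂ) = n := by
    intro μ
    obtain ⟨n, hn⟩ := Chars.exists_nat_classInner' (G := (P : Subgroup E)) Chars.isCharacter_one
      (Chars.isCharacter_restrict (Chars.isCharacter_coe μ) (P : Subgroup E))
    refine ⟨t * n, ?_⟩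
    simp only [classInner, Pi.one_apply, one_mul] at hn
    have hP0 : (Nat.card (P : Subgroup E) : ℂ) ≠ 0 := Nat.cast_ne_zero.2 Nat.card_pos.ne'
    have hQ0 : (Nat.card Q : ℂ) ≠ 0 := Nat.cast_ne_zero.2 Nat.card_pos.ne'
    have e : ∑ x : E, θ x * conj ((μ : E → ℂ) x) =
        (m : ℂ) * ∑ y : (P : Subgroup E), conj ((μ : E → ℂ) y) := by
      rw [← Finset.sum_filter_add_sum_filter_not Finset.univ (fun x : E => x ∈ (P : Subgroup E)),
        Finset.sum_eq_zero (s := Finset.univ.filter fun x : E => x ∉ (P : Subgroup E)), add_zero,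
        Finset.mul_sum,
        ← Finset.sum_subtype (Finset.univ.filter fun x : E => x ∈ (P : Subgroup E)) (by simp)
          (fun x : E => (m : ℂ) * conj ((μ : E → ℂ) x))]
      · refine Finset.sum_congr rfl fun x hx => ?_
        simp only [hθ]
        rw [if_pos ((hP x).2 (Finset.mem_filter.1 hx).2)]
      · intro x hx
        simp only [hθ]
        rw [if_neg fun h => (Finset.mem_filter.1 hx).2 ((hP x).1 h), zero_mul]
    rw [classInner, e, ← hcard, ht, Nat.cast_mul, Nat.cast_mul, Nat.cast_mul, ← hn]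
    field_simp
  choose n hn using hnat
  have : Fintype (IrrCharacter E) := Fintype.ofFinite _
  refine Chars.Exceptional.gen_of_char ?_
  rw [Chars.eq_sum_classInner_smul hcl]
  simp only [hn, Nat.cast_smul_eq_nsmul]
  exact Chars.isCharacter_sum _ _ fun μ _ => Chars.isCharacter_nsmul _ (Chars.isCharacter_coe μ)

/-- The multiplicities of the indicator of the `p`-elements are local integers. -/
theorem memLocalRing_sum_pElts (hM : IsPModular p M) (χ : IrrCharacter G) :
    MemLocalRing M ((∑ u ∈ pElts G p, (χ : G → ℂ) u) / Nat.card G) := by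
  have := isMaximal_of_isPModular hM
  have : Fact p.Prime := ⟨hM.1⟩
  set m := Nat.card G / p ^ (Nat.card G).factorization p
  have hm : ¬ p ∣ m := Nat.not_dvd_ordCompl hM.1 Nat.card_pos.ne'
  obtain ⟨c, d, hc, hd, hcd⟩ := isGeneralizedCharacter_pElts (G := G) (p := p)
  obtain ⟨i, hi⟩ := Chars.exists_nat_classInner hc χ
  obtain ⟨j, hj⟩ := Chars.exists_nat_classInner hd χ
  have e : (∑ u ∈ pElts G p, (χ : G → ℂ) u) / Nat.card G = (m : ℂ)⁻¹ * ((i : ℂ) - j) := by
    rw [← hi, ← hj, ← Chars.classInner_sub_left, ← hcd, classInner, sum_pElts_inv]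
    simp only [ite_mul, zero_mul, Finset.sum_ite_mem, Finset.univ_inter, Finset.mul_sum,
      Finset.sum_div, Chars.map_inv_eq_conj (Chars.isCharacter_coe χ)]
    refine Finset.sum_congr rfl fun u _ => ?_
    have hm0 : (m : ℂ) ≠ 0 := Nat.cast_ne_zero.2 fun h => hm (h ▸ dvd_zero p)
    field_simp
    rfl
  rw [e]
  exact (localRing M).mul_mem (memLocalRing_inv_natCast hM hm)
    ((localRing M).sub_mem (natCast_mem _ _) (natCast_mem _ _))

/-- Let G be a finite group and M a maximal ideal of the algebraic integers containing the prime p. For every p-regular g, the idempotent coefficient of the principal block at g (the inverse of the group order times the sum over χ in the principal block of χ 1 * conj (χ g)) is congruent modulo the local ideal at M to N / R, where N is the number of pairs (x, y) with x of p-power order, y of order prime to p and x * y = g, and R is the number of elements of G of order prime to p. -/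
theorem result {G : Type*} [Group G] [Finite G] (p : ℕ) [Fact p.Prime] (M : Ideal Cfsg.AlgInt) (hM : Cfsg.IsPModular p M) (g : G) (hg : ¬ p ∣ orderOf g) : Cfsg.MemLocalIdeal M (Cfsg.blockCoeff (Cfsg.principalBlock M G) g - (Nat.card {xy : G × G // (∃ k : ℕ, orderOf xy.1 = p ^ k) ∧ ¬ p ∣ orderOf xy.2 ∧ xy.1 * xy.2 = g} : ℂ) / (Nat.card {y : G // ¬ p ∣ orderOf y} : ℂ)) := by
  have := Fintype.ofFinite G
  have := isMaximal_of_isPModular hM
  have hB : IsPBlock M (principalBlock M G) := isPBlock_principalBlock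
  have h1B : Chars.oneChar G ∈ principalBlock M G := oneChar_mem_principalBlock
  set B₀ := principalBlock M G with hB₀
  set one : G → ℂ := (Chars.oneChar G : G → ℂ) with hone
  set R : ℂ := regPair p one one with hR
  have hR' : R = (Nat.card {y : G // ¬ p ∣ orderOf y} : ℂ) := by
    rw [hR, regPair_eq_sum, Nat.card_eq_fintype_card, Fintype.card_subtype, Finset.card_filter,
      Nat.cast_sum]
    refine Finset.sum_congr rfl fun y _ => ?_
    by_cases h : p ∣ orderOf y <;> simp [hone, h]
  have hRu : ¬ MemLocalIdeal M R := by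
    have h := not_memLocalIdeal_regPair_of_height_zero hM hB h1B (φ := Chars.oneChar G) (by
      have h1 : charDegree (Chars.oneChar G : G → ℂ) = 1 :=
        (Chars.charDegree_eq_one_iff _).2 (by simp)
      simp [blockHeight, h1]) h1B
    rwa [Chars.oneChar_apply, div_one] at h
  have hRl : MemLocalRing M R := hR' ▸ natCast_mem (localRing M) _
  -- the element `Reg - R f₀`
  set a : G → ℂ := fun x => (if p ∣ orderOf x then 0 else 1) - R * blockCoeff B₀ x with ha
  have hacl : IsClassFunction G a := fun x h => by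
    have e : blockCoeff B₀ (h * x * h⁻¹) = blockCoeff B₀ x := by
      simpa [setIdem] using isCentralElt_setIdem B₀ x h
    simp only [ha, orderOf_conj_eq, e]
  have hsmall : ∀ χ : IrrCharacter G, MemLocalIdeal M (omega (χ : G → ℂ) (ofFun a)) := by
    intro χ
    have e : omega (χ : G → ℂ) (ofFun a) =
        omega (χ : G → ℂ) (regElt p one) - R * omega (χ : G → ℂ) (setIdem B₀) := by
      simp only [omega_ofFun, regElt, setIdem, Finset.mul_sum, ← Finset.sum_sub_distrib]
      refine Finset.sum_congr rfl fun x _ => ?_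
      simp only [ha, hone, Chars.oneChar_apply]
      ring
    rw [e, omega_regElt, omega_setIdem]
    by_cases hχ : χ ∈ B₀
    · rw [if_pos hχ, mul_one]
      have h := congr_regPair hM (f := one) (Chars.isClassFunction_coe _)
        (fun x _ => memLocalRing_apply (Chars.isCharacter_coe _) x) hB hχ h1B
      rw [Congr, Chars.oneChar_apply, div_one] at h
      exact h
    · rw [if_neg hχ, regPair_symm, regPair_eq_zero_of_ne_block hM hB h1B hχ, zero_div, mul_zero,
        sub_zero]
      exact memLocalIdeal_zero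
  -- its translates
  have hsum : MemLocalIdeal M (∑ u ∈ pElts G p, a (g⁻¹ * u)⁻¹) := by
    have hncl : IsClassFunction G fun x => a x⁻¹ := fun x h => by
      show a (h * x * h⁻¹)⁻¹ = a x⁻¹
      rw [show (h * x * h⁻¹)⁻¹ = h * x⁻¹ * h⁻¹ by group, hacl]
    rw [Finset.sum_congr rfl fun u _ => Chars.eq_sum_classInner_mul hncl (g⁻¹ * u), Finset.sum_comm]
    refine memLocalIdeal_sum _ fun χ _ => ?_
    have e : classInner (fun x => a x⁻¹) (χ : G → ℂ) =
        omega (χ : G → ℂ) (ofFun a) * (χ : G → ℂ) 1 / Nat.card G := by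
      rw [classInner, omega_ofFun, Finset.mul_sum, Finset.sum_mul, Finset.sum_div]
      refine Fintype.sum_equiv (Equiv.inv G) _ _ fun x => ?_
      simp only [Equiv.inv_apply]
      rw [← Chars.map_inv_eq_conj (Chars.isCharacter_coe χ)]
      field_simp [Chars.map_one_ne_zero χ]
    rw [← Finset.mul_sum, sum_pElts_mul, e]
    have e2 : omega (χ : G → ℂ) (ofFun a) * (χ : G → ℂ) 1 / Nat.card G *
        ((∑ u ∈ pElts G p, (χ : G → ℂ) u) * (χ : G → ℂ) g⁻¹ / (χ : G → ℂ) 1) =
        omega (χ : G → ℂ) (ofFun a) *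
          ((∑ u ∈ pElts G p, (χ : G → ℂ) u) / Nat.card G * (χ : G → ℂ) g⁻¹) := by
      field_simp [Chars.map_one_ne_zero χ]
    rw [e2]
    exact memLocalIdeal_mul_right (hsmall χ) ((localRing M).mul_mem (memLocalRing_sum_pElts hM χ)
      (memLocalRing_apply (Chars.isCharacter_coe χ) _))
  rw [sum_pElts_inv] at hsum
  simp only [mul_inv_rev, inv_inv] at hsum
  -- the idempotent part
  have hidem : ∑ u ∈ pElts G p, blockCoeff B₀ (u * g) = blockCoeff B₀ g := by
    have e : ∀ u, blockCoeff B₀ (u * g) = (Nat.card G : ℂ)⁻¹ *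
        ∑ χ ∈ B₀.toFinite.toFinset, (χ : G → ℂ) 1 * conj ((χ : G → ℂ) (g * u)) := fun u => by
      rw [blockCoeff, finsum_block_eq_sum]
      congr 1
      refine Finset.sum_congr rfl fun χ _ => ?_
      rw [Chars.classFunction_mul_comm (Chars.isClassFunction_coe χ)]
    simp only [e]
    rw [← Finset.mul_sum, blockCoeff, finsum_block_eq_sum, Finset.sum_comm]
    congr 1
    have e2 : ∀ χ : IrrCharacter G,
        ∑ u ∈ pElts G p, (χ : G → ℂ) 1 * conj ((χ : G → ℂ) (g * u)) =
          conj (∑ u ∈ pElts G p, (χ : G → ℂ) g * (χ : G → ℂ) u) := fun χ => by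
      rw [← Finset.mul_sum, ← map_sum, sum_pElts_mul]
      simp only [map_mul, map_div₀, map_sum, Chars.conj_map_one (Chars.isCharacter_coe χ),
        Finset.sum_mul, Finset.mul_sum, Finset.sum_div]
      refine Finset.sum_congr rfl fun u _ => ?_
      field_simp [Chars.map_one_ne_zero χ]
    simp only [e2, map_sum]
    rw [Finset.sum_comm, Finset.sum_eq_single_of_mem (1 : G) (mem_pElts.2 ⟨0, by simp⟩)]
    · refine Finset.sum_congr rfl fun χ _ => ?_
      rw [map_mul, Chars.conj_map_one (Chars.isCharacter_coe χ), mul_comm]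
    · intro u hu hu1
      obtain ⟨k, hk⟩ := mem_pElts.1 hu
      have hk0 : k ≠ 0 := fun h => hu1 (orderOf_eq_one_iff.1 (by rw [hk, h, pow_zero]))
      have hpu : p ∣ orderOf u⁻¹ := by rw [orderOf_inv, hk]; exact dvd_pow_self p hk0
      rw [← map_sum, ← RingHom.map_zero (starRingEnd ℂ)]
      congr 1
      rw [← finsum_block_regular_mul_conj_singular hM hB hg hpu, finsum_block_eq_sum]
      refine Finset.sum_congr rfl fun χ _ => ?_
      rw [← Chars.map_inv_eq_conj (Chars.isCharacter_coe χ), inv_inv]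
  -- the pairs
  have hN : (Nat.card {xy : G × G // (∃ k : ℕ, orderOf xy.1 = p ^ k) ∧ ¬ p ∣ orderOf xy.2 ∧
      xy.1 * xy.2 = g} : ℂ) = ∑ u ∈ pElts G p, if p ∣ orderOf (u * g) then (0 : ℂ) else 1 := by
    rw [Finset.sum_ite, Finset.sum_const_zero, zero_add, Finset.sum_const, nsmul_eq_mul, mul_one,
      ← Fintype.card_coe, Nat.card_eq_fintype_card, Nat.cast_inj]
    refine Fintype.card_congr ⟨fun z => ⟨z.1.1⁻¹, ?_⟩,
      fun u => ⟨((u : G)⁻¹, (u : G) * g), ?_⟩, fun z => ?_, fun u => Subtype.ext (inv_inv _)⟩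
    · obtain ⟨⟨x, y⟩, hx, hy, hxy⟩ := z
      simp only [Finset.mem_filter, mem_pElts, orderOf_inv]
      refine ⟨hx, ?_⟩
      rwa [← hxy, inv_mul_cancel_left]
    · obtain ⟨u, hu⟩ := u
      simp only [Finset.mem_filter, mem_pElts] at hu
      exact ⟨by simpa using hu.1, hu.2, inv_mul_cancel_left u g⟩
    · obtain ⟨⟨x, y⟩, hx, hy, hxy⟩ := z
      apply Subtype.ext
      simp [← hxy]
  simp only [ha, Finset.sum_sub_distrib, ← Finset.mul_sum, hidem, ← hN] at hsum
  rw [← hR']
  have hR0 : R ≠ 0 := fun h => hRu (h ▸ memLocalIdeal_zero)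
  have h := memLocalIdeal_neg (memLocalIdeal_mul_left (memLocalRing_inv hRl hRu) hsum)
  convert h using 1
  field_simp
  ring

end Cfsg.Agent.S0940
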