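import Cfsg.Statements.S0975
import Cfsg.Agent.Blocks.PrimeGram.SimpleOrder
-- import your own Cfsg.Agent.* helpers here

set_option autoImplicit false
open Cfsg

namespace Cfsg.Agent.S0975

/-- No finite simple group has order 3744 = 2^5 * 3^2 * 13. -/
theorem result {G : Type*} [Group G] [Finite G] [IsSimpleGroup G] : Nat.card G ≠ 3744 := by
  intro hcard
  haveI : Fact (Nat.Prime 13) := ⟨by norm_num⟩
  have hG : ¬ IsMulCommutative G :=
    CfsgLib.SmallSimple.not_comm_of_card_not_prime (by rw [hcard]; norm_num)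
  obtain ⟨hn, hP⟩ := CfsgLib.PrimeGram.card_sylow_mem_of_constraints hG 13 288
    (by rw [hcard]) (by norm_num)
  rw [show (Nat.divisors 288).filter (fun n => n % 13 = 1 ∧ n ≠ 1) = {144} from by decide +kernel,
    Finset.mem_singleton] at hn
  obtain ⟨P⟩ := (inferInstance : Nonempty (Sylow 13 G))
  obtain ⟨hPc, hN⟩ := hP P
  rw [hn] at hN
  obtain ⟨a, b, A, B, ha, hb, hA, hB, hAd, hBd, he, hlt, hA', hB'⟩ :=
    CfsgLib.PrimeGram.degree_equation_of_normalizer hG 13 (by norm_num) P hPc (by omega)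
  rw [hcard] at hAd hBd hlt
  norm_num at hlt
  have key : ∀ A' ∈ Nat.divisors 3744, ∀ B' ∈ Nat.divisors 3744, ∀ a' ∈ ([1, -1] : List ℤ),
      ∀ b' ∈ ([1, -1] : List ℤ), 2 ≤ A' → 2 ≤ B' → a' * A' + b' * B' = -1 →
      6 * B' ^ 2 + A' ^ 2 < 3744 → (A' : ℤ) % 13 = a' % 13 → (B' : ℤ) % 13 = (-2 * b') % 13 → False := by
    decide +kernel
  exact key A (Nat.mem_divisors.mpr ⟨hAd, by norm_num⟩) B (Nat.mem_divisors.mpr ⟨hBd, by norm_num⟩)
    a (by simpa using ha) b (by simpa using hb) hA hB he hlt hA' hB'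

end Cfsg.Agent.S0975
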