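import Cfsg.Statements.S0979
import Cfsg.Agent.Blocks.PrimeGram.BlockEquation
-- import your own Cfsg.Agent.* helpers here

set_option autoImplicit false
open Cfsg

namespace Cfsg.Agent.S0979

/-- No finite simple group has order 5472 = 2^5 * 3^2 * 19. -/
theorem result {G : Type*} [Group G] [Finite G] [IsSimpleGroup G] : Nat.card G ≠ 5472 := by
  intro hcard
  haveI : Fact (Nat.Prime 19) := ⟨by norm_num⟩
  have hG : ¬ IsMulCommutative G :=
    CfsgLib.SmallSimple.not_comm_of_card_not_prime (by rw [hcard]; norm_num)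
  obtain ⟨hn, hP⟩ := CfsgLib.PrimeGram.card_sylow_mem_of_constraints hG 19 288
    (by rw [hcard]) (by norm_num)
  rw [show (Nat.divisors 288).filter (fun n => n % 19 = 1 ∧ n ≠ 1) = {96} from by decide +kernel,
    Finset.mem_singleton] at hn
  obtain ⟨P⟩ := (inferInstance : Nonempty (Sylow 19 G))
  obtain ⟨hPc, hN⟩ := hP P
  rw [hn] at hN
  have hN57 : Nat.card (Subgroup.normalizer ((P : Subgroup G) : Set G)) = 57 := by omega
  have hmul := CfsgLib.PrimeGram.relIndex_mul_centralizer (P : Subgroup G)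
  rw [hN57] at hmul
  set e := (Subgroup.centralizer ((P : Subgroup G) : Set G)).relIndex
    (Subgroup.normalizer ((P : Subgroup G) : Set G)) with he
  have he1 : e ≠ 1 := fun h =>
    CfsgLib.SmallSimple.not_normalizer_le_centralizer hG 19 (by rw [hcard]; norm_num) P
      (Subgroup.relIndex_eq_one.mp h)
  obtain ⟨d, hd⟩ : 19 ∣ Nat.card (Subgroup.centralizer ((P : Subgroup G) : Set G)) := by
    haveI := isCyclic_of_prime_card hPc
    exact hPc.symm.dvd.trans (Subgroup.card_dvd_of_le
      (Subgroup.le_centralizer (P : Subgroup G)))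
  have he3 : e = 3 := by
    rw [hd] at hmul
    have h3 : e * d = 3 := by nlinarith
    rcases (Nat.dvd_prime (by norm_num : Nat.Prime 3)).mp ⟨d, h3.symm⟩ with h | h
    · exact absurd h he1
    · exact h
  obtain ⟨ε, B, l, hl, hε, hB2, hBd, hBc, hq, heq, hsum⟩ :=
    CfsgLib.PrimeGram.block_degree_equation hG 19 P hPc e (by omega) he.symm
  rw [he3] at hl hBc hsum
  rw [hcard] at hBd hsum
  obtain ⟨⟨a, A⟩, ⟨c, C⟩, rfl⟩ := List.length_eq_two.mp hl
  obtain ⟨ha, hA2, hAd, hAc⟩ := hq (a, A) (by simp)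
  obtain ⟨hc, hC2, hCd, hCc⟩ := hq (c, C) (by simp)
  simp only at ha hc hA2 hC2 hAc hCc hAd hCd
  rw [hcard] at hAd hCd
  simp only [List.map_cons, List.map_nil, List.sum_cons, List.sum_nil, add_zero] at heq hsum
  have hA : A ∈ ({18, 96} : Finset ℕ) := by
    have key : ∀ A' ∈ Nat.divisors 5472, 2 ≤ A' → (A' % 19 = 1 ∨ A' % 19 = 18) →
        A' ∈ ({18, 96} : Finset ℕ) := by decide +kernel
    refine key A (Nat.mem_divisors.mpr ⟨hAd, by norm_num⟩) hA2 ?_
    rcases ha with h | h <;> rw [h] at hAc <;> omega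
  have hC : C ∈ ({18, 96} : Finset ℕ) := by
    have key : ∀ A' ∈ Nat.divisors 5472, 2 ≤ A' → (A' % 19 = 1 ∨ A' % 19 = 18) →
        A' ∈ ({18, 96} : Finset ℕ) := by decide +kernel
    refine key C (Nat.mem_divisors.mpr ⟨hCd, by norm_num⟩) hC2 ?_
    rcases hc with h | h <;> rw [h] at hCc <;> omega
  have hA18 : A = 18 := by
    simp only [Finset.mem_insert, Finset.mem_singleton] at hA
    rcases hA with h | h
    · exact h
    · rw [h] at hsum; norm_num at hsum; omega
  have hC18 : C = 18 := by
    simp only [Finset.mem_insert, Finset.mem_singleton] at hC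
    rcases hC with h | h
    · exact h
    · rw [h] at hsum; norm_num at hsum; omega
  subst hA18; subst hC18
  have hB35 : B = 35 := by
    rcases hε with h | h <;> rcases ha with h' | h' <;> rcases hc with h'' | h'' <;>
      rw [h'] at hAc <;> rw [h''] at hCc <;> rw [h, h', h''] at heq <;> norm_num at heq <;>
      rw [h] at hBc <;> push_cast at hBc <;> omega
  subst hB35
  norm_num at hBd

end Cfsg.Agent.S0979
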