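import Cfsg.Statements.S1009
import Mathlib

set_option autoImplicit false
open Cfsg

namespace Cfsg.Agent.S1009

/-- Brodkey's Theorem: if a finite group has abelian Sylow p-subgroups, then there are two Sylow p-subgroups whose intersection equals the intersection of all Sylow p-subgroups. -/
theorem result {G : Type*} [Group G] [Finite G] (p : ℕ) [Fact p.Prime] (hab : ∀ P : Sylow p G, IsMulCommutative ↥(P : Subgroup G)) : ∃ P Q : Sylow p G, (P : Subgroup G) ⊓ (Q : Subgroup G) = ⨅ R : Sylow p G, (R : Subgroup G) := by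
  classical
  obtain ⟨⟨P, Q⟩, hmin⟩ := Finite.exists_min (fun x : Sylow p G × Sylow p G => Nat.card ↥((x.1 : Subgroup G) ⊓ (x.2 : Subgroup G)))
  refine ⟨P, Q, le_antisymm (le_iInf fun R => ?_) (le_inf (iInf_le _ P) (iInf_le _ Q))⟩
  set D : Subgroup G := (P : Subgroup G) ⊓ (Q : Subgroup G) with hD
  set C := Subgroup.centralizer (D : Set G) with hC
  have comm : ∀ S : Sylow p G, ∀ a ∈ (S : Subgroup G), ∀ b ∈ (S : Subgroup G), a * b = b * a := fun S a ha b hb =>
    congrArg Subtype.val ((hab S).is_comm.comm (⟨a, ha⟩ : (S : Subgroup G)) ⟨b, hb⟩)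
  have hPC : (P : Subgroup G) ≤ C := fun x hx => Subgroup.mem_centralizer_iff.2 fun d hd => comm P d hd.1 x hx
  have hQC : (Q : Subgroup G) ≤ C := fun x hx => Subgroup.mem_centralizer_iff.2 fun d hd => comm Q d hd.2 x hx
  have hR : IsPGroup p ((R : Subgroup G).subgroupOf C) := R.2.comap_of_injective _ (Subgroup.subtype_injective C)
  obtain ⟨T, hT⟩ := hR.exists_le_sylow
  obtain ⟨c, hc⟩ := MulAction.exists_smul_eq C T (P.subtype hPC)
  have key : ∀ x ∈ (Q : Subgroup G), (c : G)⁻¹ * x * c ∈ (R : Subgroup G) → x ∈ (P : Subgroup G) := by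
    intro x hx hx'
    have hxC : (c : G)⁻¹ * x * c ∈ C := mul_mem (mul_mem (inv_mem c.2) (hQC hx)) c.2
    have h1 : (⟨_, hxC⟩ : C) ∈ (T : Subgroup C) := hT hx'
    have h2 : c * ⟨_, hxC⟩ * c⁻¹ ∈ ((c • T : Sylow p C) : Subgroup C) :=
      ⟨⟨_, hxC⟩, h1, by simp [MulAut.conj_apply]⟩
    rw [hc] at h2
    simpa [Subgroup.mem_subgroupOf, mul_assoc] using h2
  have hle : ((((c : G) • R : Sylow p G)) : Subgroup G) ⊓ (Q : Subgroup G) ≤ D := by
    rintro x ⟨hx, hx'⟩
    refine ⟨key x hx' ?_, hx'⟩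
    obtain ⟨y, hy, rfl⟩ := hx
    simpa [MulAut.conj_apply, mul_assoc] using (show y ∈ (R : Subgroup G) from hy)
  have heq := Subgroup.eq_of_le_of_card_ge hle (hmin ((c : G) • R, Q))
  intro d hd
  have hd2 := hd
  rw [← heq] at hd2
  obtain ⟨y, hy, hyd⟩ := hd2.1
  have hcd : d * (c : G) = c * d := Subgroup.mem_centralizer_iff.1 c.2 d hd
  have : y = d := by
    have h := hyd
    simp [MulAut.conj_apply] at h
    rw [mul_inv_eq_iff_eq_mul, hcd] at h
    exact mul_left_cancel h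
  exact this ▸ hy

end Cfsg.Agent.S1009
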