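import Cfsg.Statements.S1254
import Cfsg.Agent.FusionTwo.DihedralCases

set_option autoImplicit false
open Cfsg

namespace Cfsg.Agent.S1254

/-- Let X be a finite group whose Sylow 2-subgroup S is dihedral (of order at least 4). Then X has a normal 2-complement if and only if, for every Klein four-subgroup U ≤ S, the normalizer N_X(U) is generated by C_X(U) and N_S(U). -/
theorem result {X : Type*} [Group X] [Finite X] (S : Sylow 2 X) (m : ℕ) (hm : 2 ≤ m) (eS : (S : Subgroup X) ≃* DihedralGroup m) : Cfsg.HasNormalPComplement 2 X ↔ ∀ U : Subgroup X, U ≤ S → IsKleinFour U → Subgroup.normalizer (U : Set X) = Subgroup.centralizer (U : Set X) ⊔ ((S : Subgroup X) ⊓ Subgroup.normalizer (U : Set X)) := by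
  obtain ⟨n, x, y, -, h⟩ := CfsgLib.FusionTwo.exists_isDihGen S.2 hm eS
  constructor
  · rintro ⟨P, N, hN, hc⟩ U hUS hU
    refine CfsgLib.FusionTwo.DihFusion.local_of_odd S ?_ hUS
    -- a normal complement contains the residual
    haveI := hN
    have hidx : N.index = Nat.card P := hc.symm.index_eq_card
    obtain ⟨e, he⟩ := IsPGroup.iff_card.1 P.2
    have hle : Cfsg.pResidual 2 X ≤ N := by
      refine (Subgroup.closure_le _).2 fun a ha => ?_
      rw [SetLike.mem_coe, ← QuotientGroup.eq_one_iff, ← orderOf_eq_one_iff]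
      refine Nat.eq_one_of_dvd_coprimes ((ha : Nat.Coprime (orderOf a) 2).pow_right e)
        (orderOf_map_dvd (QuotientGroup.mk' N) a) ?_
      rw [← he, ← hidx, Subgroup.index_eq_card]
      exact orderOf_dvd_natCard _
    rw [← Nat.not_even_iff_odd, even_iff_two_dvd]
    intro h2
    obtain ⟨⟨a, ha⟩, hord⟩ := exists_prime_orderOf_dvd_card' (hp := ⟨Nat.prime_two⟩) 2
      (h2.trans (Subgroup.card_dvd_of_le hle))
    have h2N : 2 ∣ Nat.card N := hord ▸ orderOf_dvd_natCard _
    have hmul := hc.card_mul
    have hdvd : 2 ^ (e + 1) ∣ Nat.card X := by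
      rw [← hmul, he, pow_succ']
      exact mul_dvd_mul_right h2N _
    have := Sylow.card_eq_multiplicity P
    rw [he] at this
    have h3 := (Nat.Prime.pow_dvd_iff_le_factorization Nat.prime_two Nat.card_pos.ne').1 hdvd
    have := Nat.pow_right_injective (le_refl 2) this
    omega
  · intro hloc
    exact CfsgLib.FusionTwo.hasNormalPComplement_of_odd S
      (CfsgLib.FusionTwo.DihFusion.odd_residual h
        (CfsgLib.FusionTwo.DihFusion.no_fusion_of_local h hloc))

end Cfsg.Agent.S1254
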