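import Cfsg.Statements.S1312
import Cfsg.Agent.Cores.Bender

set_option autoImplicit false
open Cfsg

namespace Cfsg.Agent.S1312

/-- Let G be a non-abelian finite simple group and M ≠ N maximal subgroups of G with F*(M) ≤ N and F*(N) ≤ M. Then there is a prime p such that F*(M) and F*(N) are both p-groups. -/
theorem result {G : Type*} [Group G] [Finite G] [IsSimpleGroup G] (hna : ¬ IsMulCommutative G) (M N : Subgroup G) (hM : IsCoatom M) (hN : IsCoatom N) (hMN : M ≠ N) (h1 : (Cfsg.generalizedFittingSubgroup ↥M).map M.subtype ≤ N) (h2 : (Cfsg.generalizedFittingSubgroup ↥N).map N.subtype ≤ M) : ∃ p : ℕ, p.Prime ∧ IsPGroup p ↥(Cfsg.generalizedFittingSubgroup ↥M) ∧ IsPGroup p ↥(Cfsg.generalizedFittingSubgroup ↥N) := by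
  have hnorm : ∀ (M' : Subgroup G), IsCoatom M' → ∀ A : Subgroup G, A ≠ ⊥ → A ≤ M' →
      M' ≤ Subgroup.normalizer (A : Set G) → Subgroup.normalizer (A : Set G) = M' := by
    intro M' hM' A hA hAM hn
    rcases hn.lt_or_eq with h | h
    · exfalso
      have htop := hM'.2 _ h
      haveI : A.Normal := Subgroup.normalizer_eq_top_iff.mp htop
      rcases IsSimpleGroup.eq_bot_or_eq_top_of_normal A inferInstance with e | e
      · exact hA e
      · exact hM'.1 (top_le_iff.mp (e ▸ hAM))
    · exact h.symm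
  obtain ⟨p, hp, c1, c2, -⟩ := CfsgLib.Cores.exists_characteristic_of_primitive_pair hMN (fun A hA hAD =>
    ⟨fun n => by rw [hnorm M hM A hA (hAD.trans inf_le_left) n, inf_comm],
     fun n => by rw [hnorm N hN A hA (hAD.trans inf_le_right) n]⟩) h1 h2
  haveI := Fact.mk hp
  exact ⟨p, hp, CfsgLib.FStar.generalizedFitting_isPGroup_iff.mpr c1,
    CfsgLib.FStar.generalizedFitting_isPGroup_iff.mpr c2⟩

end Cfsg.Agent.S1312
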