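import Cfsg.Statements.S1349
import Cfsg.Agent.Constrained.DihedralLemma
import Cfsg.Agent.Involution.Dihedral
-- import your own Cfsg.Agent.* helpers here

set_option autoImplicit false
open Cfsg

namespace Cfsg.Agent.S1349

/-- Let G be finite, L ≤ G solvable of odd order, and A an elementary abelian 2-subgroup of order 2^d (d ≥ 1) normalizing L with C_A(L) = 1. Then there are subgroups A_1, …, A_d of A of order 2 generating A and subgroups L_1, …, L_d of L such that each A_i ⊔ L_i is dihedral of order 2 n_i with n_i odd and at least 3, and A_i ⊔ L_i commutes elementwise with A_j ⊔ L_j for i ≠ j. -/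
theorem result {G : Type*} [Group G] [Finite G] (L A : Subgroup G) (hLs : Group.IsSolvable ↥L) (hLodd : Odd (Nat.card ↥L)) (hA : Cfsg.IsElementaryAbelian 2 A) (d : ℕ) (hd : 1 ≤ d) (hAd : Nat.card ↥A = 2 ^ d) (hAL : A ≤ Subgroup.normalizer (L : Set G)) (hfaith : A ⊓ Subgroup.centralizer (L : Set G) = ⊥) : ∃ (Ai : Fin d → Subgroup G) (Li : Fin d → Subgroup G) (n : Fin d → ℕ), (∀ i, Ai i ≤ A ∧ Nat.card ↥(Ai i) = 2 ∧ Li i ≤ L ∧ Odd (n i) ∧ 3 ≤ n i ∧ Nonempty (↥(Ai i ⊔ Li i) ≃* DihedralGroup (n i))) ∧ (⨆ i, Ai i) = A ∧ ∀ i j, i ≠ j → ∀ x ∈ Ai i ⊔ Li i, ∀ y ∈ Ai j ⊔ Li j, x * y = y * x := by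
  
  obtain ⟨N, hNL, hnil, hAN, hfN⟩ :=
    CfsgLib.DihedralLemma.fitting_faithful hLs hLodd hA hAL hfaith
  have hNodd : Odd (Nat.card N) := hLodd.of_dvd_nat (Subgroup.card_dvd_of_le hNL)
  obtain ⟨a, x, hax, hgen, hcomm⟩ :=
    CfsgLib.DihedralLemma.exists_pairs d N A hnil hNodd hA hAN hfN hAd
  have ha2 : ∀ i, orderOf (a i) = 2 := fun i =>
    CfsgLib.DihedralLemma.orderOf_eq_two hA (hax i).1 (hax i).2.1
  have hxodd : ∀ i, Odd (orderOf (x i)) := fun i =>
    CfsgLib.DihedralLemma.odd_orderOf hNodd (hax i).2.2.1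
  refine ⟨fun i => Subgroup.zpowers (a i), fun i => Subgroup.zpowers (x i),
    fun i => orderOf (x i), fun i => ?_, ?_, ?_⟩
  · obtain ⟨hai, ha1, hxi, hx1, hinv⟩ := hax i
    refine ⟨Subgroup.zpowers_le_of_mem hai, by rw [Nat.card_zpowers, ha2],
      Subgroup.zpowers_le_of_mem (hNL hxi), hxodd i, ?_, ?_⟩
    · show 3 ≤ orderOf (x i)
      rcases hxodd i with ⟨k, hk⟩
      have : orderOf (x i) ≠ 1 := fun h => hx1 (orderOf_eq_one_iff.mp h)
      omega
    · have haa : a i * a i = 1 := by rw [← sq]; exact hA.2 _ hai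
      have hy : orderOf (a i * x i) = 2 := by
        haveI : Fact (Nat.Prime 2) := ⟨Nat.prime_two⟩
        refine orderOf_eq_prime ?_ fun h => ?_
        · rw [CfsgLib.DihedralLemma.inv_eq_of_mem hA hai] at hinv
          rw [sq, ← mul_assoc, hinv, inv_mul_cancel]
        · have h2 := ha2 i
          rw [eq_inv_of_mul_eq_one_left h, orderOf_inv] at h2
          rcases hxodd i with ⟨k, hk⟩
          omega
      obtain ⟨e⟩ := CfsgLib.Involution.nonempty_dihedral_equiv (ha2 i) hy
      rw [← mul_assoc, haa, one_mul] at e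
      have hcl : Subgroup.zpowers (a i) ⊔ Subgroup.zpowers (x i) =
          Subgroup.closure ({a i, a i * x i} : Set G) := by
        apply le_antisymm
        · refine sup_le (Subgroup.zpowers_le_of_mem (Subgroup.subset_closure (Set.mem_insert _ _)))
            (Subgroup.zpowers_le_of_mem ?_)
          have := mul_mem
            (Subgroup.subset_closure (Set.mem_insert (a i) ({a i * x i} : Set G)))
            (Subgroup.subset_closure (Set.mem_insert_of_mem (a i) (Set.mem_singleton (a i * x i))))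
          rwa [← mul_assoc, haa, one_mul] at this
        · rw [Subgroup.closure_le]
          rintro g (rfl | rfl)
          · exact Subgroup.mem_sup_left (Subgroup.mem_zpowers _)
          · exact mul_mem (Subgroup.mem_sup_left (Subgroup.mem_zpowers _))
              (Subgroup.mem_sup_right (Subgroup.mem_zpowers _))
      exact ⟨(MulEquiv.subgroupCongr hcl).trans e⟩
  · exact le_antisymm (iSup_le fun i => Subgroup.zpowers_le_of_mem (hax i).1) hgen
  · intro i j hij
    have haij : Commute (a i) (a j) :=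
      congrArg Subtype.val (hA.1.is_comm.comm ⟨a i, (hax i).1⟩ ⟨a j, (hax j).1⟩)
    have h : Subgroup.zpowers (a i) ⊔ Subgroup.zpowers (x i) ≤
        Subgroup.centralizer ((Subgroup.zpowers (a j) ⊔ Subgroup.zpowers (x j) : Subgroup G) : Set G) := by
      rw [Subgroup.le_centralizer_iff]
      refine sup_le (Subgroup.zpowers_le_of_mem ?_) (Subgroup.zpowers_le_of_mem ?_) <;>
        refine Subgroup.mem_centralizer_iff.mpr fun g hg => ?_ <;>
        refine Subgroup.mem_centralizer_singleton_iff.mp ((?_ : Subgroup.zpowers (a i) ⊔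
          Subgroup.zpowers (x i) ≤ Subgroup.centralizer {_}) hg)
      · exact sup_le
          (Subgroup.zpowers_le_of_mem (Subgroup.mem_centralizer_singleton_iff.mpr haij.eq))
          (Subgroup.zpowers_le_of_mem
            (Subgroup.mem_centralizer_singleton_iff.mpr (hcomm j i hij.symm).1.symm.eq))
      · exact sup_le
          (Subgroup.zpowers_le_of_mem (Subgroup.mem_centralizer_singleton_iff.mpr (hcomm i j hij).1.eq))
          (Subgroup.zpowers_le_of_mem (Subgroup.mem_centralizer_singleton_iff.mpr (hcomm i j hij).2.eq))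
    intro g hg g' hg'
    exact (Subgroup.mem_centralizer_iff.mp (h hg) g' hg').symm

end Cfsg.Agent.S1349
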