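import Cfsg.Statements.S1446
import Cfsg.Agent.OddLocal.FrobCyclicSolvable
import Cfsg.Agent.FPFNilpotent.Main

set_option autoImplicit false
open Cfsg

namespace Cfsg.Agent.S1446

/-- Let X be a finite group with subgroups K, R, M such that: K and R are nontrivial, K ∩ R = 1, R normalizes K, no non-identity element of R centralizes a non-identity element of K, K ⊔ R is solvable of odd order; M is nilpotent and nontrivial, normalized by K and by R, with order coprime to that of K ⊔ R, M ∩ C(K) = 1, and M ∩ C(x) = M ∩ C(R) for all non-identity x ∈ R. Then R has prime order p, #M = #(M ∩ C(R)) ^ p, and if M ∩ C(R) is cyclic then [K, K] centralizes M. -/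
theorem result {X : Type*} [Group X] [Finite X] (K R M : Subgroup X) (hK1 : K ≠ ⊥) (hR1 : R ≠ ⊥) (hKR : K ⊓ R = ⊥)
    (hRK : R ≤ Subgroup.normalizer (K : Set X)) (hfrob : ∀ r ∈ R, r ≠ 1 → K ⊓ Subgroup.centralizer ({r} : Set X) = ⊥)
    (hsolv : Group.IsSolvable ↥(K ⊔ R)) (hodd : Odd (Nat.card ↥(K ⊔ R)))
    (hM1 : M ≠ ⊥) (hMn : Group.IsNilpotent M) (hKM : K ≤ Subgroup.normalizer (M : Set X)) (hRM : R ≤ Subgroup.normalizer (M : Set X))
    (hcop : (Nat.card ↥(K ⊔ R)).Coprime (Nat.card M)) (hCK : M ⊓ Subgroup.centralizer (K : Set X) = ⊥)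
    (hpr : ∀ x ∈ R, x ≠ 1 → M ⊓ Subgroup.centralizer ({x} : Set X) = M ⊓ Subgroup.centralizer (R : Set X)) :
    (Nat.card R).Prime ∧ Nat.card M = Nat.card ↥(M ⊓ Subgroup.centralizer (R : Set X)) ^ Nat.card R ∧
      (IsCyclic ↥(M ⊓ Subgroup.centralizer (R : Set X)) → ⁅K, K⁆ ≤ Subgroup.centralizer (M : Set X)) := by
  have hfpf : ∀ r ∈ R, r ≠ 1 → ∀ k ∈ K, r * k = k * r → k = 1 := by
    intro r hr hr1 k hk h
    have h1 : k ∈ K ⊓ Subgroup.centralizer ({r} : Set X) :=
      ⟨hk, Subgroup.mem_centralizer_singleton_iff.mpr h.symm⟩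
    rwa [hfrob r hr hr1, Subgroup.mem_bot] at h1
  haveI : Group.IsNilpotent M := hMn
  haveI : Group.IsNilpotent K := by
    haveI : Nontrivial R := (Subgroup.nontrivial_iff_ne_bot R).mpr hR1
    refine CfsgLib.FPFNilpotent.isNilpotent_of_fpf K
      (CfsgLib.OddLocal.FrobFormula.conjOn R K hRK) fun r hr k hk => ?_
    have h1 := congrArg Subtype.val hk
    rw [CfsgLib.OddLocal.FrobFormula.conjOn_apply] at h1
    exact Subtype.ext (hfpf r r.2 (fun e => hr (Subtype.ext e)) k k.2
      (mul_inv_eq_iff_eq_mul.mp h1))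
  have hformula : ∀ R₀ : Subgroup X, R₀ ≤ R → R₀ ≠ ⊥ →
      Nat.card M = Nat.card ↥(M ⊓ Subgroup.centralizer (R : Set X)) ^ Nat.card R₀ := by
    intro R₀ hle hne
    have hC : M ⊓ Subgroup.centralizer (R₀ : Set X) = M ⊓ Subgroup.centralizer (R : Set X) := by
      obtain ⟨x, hx, hx1⟩ : ∃ x ∈ R₀, x ≠ 1 := by
        by_contra hcon
        exact hne ((Subgroup.eq_bot_iff_forall _).mpr fun x hx =>
          by_contra fun h => hcon ⟨x, hx, h⟩)
      refine le_antisymm ?_ (inf_le_inf_left M (Subgroup.centralizer_le hle))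
      rw [← hpr x (hle hx) hx1]
      exact inf_le_inf_left M (Subgroup.centralizer_le (Set.singleton_subset_iff.mpr hx))
    have h := CfsgLib.OddLocal.FrobFormula.card_formula_internal K R₀ M
      (le_bot_iff.mp (hKR ▸ inf_le_inf_left K hle)) (hle.trans hRK)
      (fun r hr => hfpf r (hle hr)) (sup_le hKM (hle.trans hRM))
      (hcop.coprime_dvd_left (Subgroup.card_dvd_of_le (sup_le_sup_left hle K)))
    have hbot : M ⊓ Subgroup.centralizer ((K ⊔ R₀ : Subgroup X) : Set X) = ⊥ :=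
      le_bot_iff.mp (hCK ▸ inf_le_inf_left M (Subgroup.centralizer_le (SetLike.coe_subset_coe.mpr le_sup_left)))
    rw [hbot, hC, hCK, Subgroup.card_bot, one_pow, one_mul, mul_one] at h
    exact h
  have hR := hformula R le_rfl hR1
  refine ⟨?_, hR, fun hcyc => ?_⟩
  · set c := Nat.card ↥(M ⊓ Subgroup.centralizer (R : Set X))
    have hc : 2 ≤ c := by
      have h1 : 1 < Nat.card M := (Subgroup.one_lt_card_iff_ne_bot M).mpr hM1
      have h0 : 0 < c := Nat.card_pos
      by_contra hlt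
      rw [hR, show c = 1 by omega, one_pow] at h1
      exact lt_irrefl 1 h1
    obtain ⟨q, hq, hdvd⟩ := Nat.exists_prime_and_dvd (n := Nat.card R)
      (fun h => hR1 (Subgroup.card_eq_one.mp h))
    haveI := Fact.mk hq
    obtain ⟨x, hx⟩ := exists_prime_orderOf_dvd_card' q hdvd
    have h1 := hformula (Subgroup.zpowers (x : X)) (Subgroup.zpowers_le.mpr x.2) (by
      rw [Ne, Subgroup.zpowers_eq_bot, ← orderOf_eq_one_iff, Subgroup.orderOf_coe, hx]
      exact hq.ne_one)
    rw [hR, Nat.card_zpowers, Subgroup.orderOf_coe, hx] at h1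
    rwa [Nat.pow_right_injective hc h1]
  · exact CfsgLib.OddLocal.FrobFormula.commutator_le_centralizer_of_cyclic_fixed K R M hKR hRK
      hfpf (sup_le hKM hRM) hcop hcyc

end Cfsg.Agent.S1446
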