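import Cfsg.Statements.S1447
import Cfsg.Agent.OddLocal.MetacyclicInternal

set_option autoImplicit false
open Cfsg
open scoped commutatorElement

namespace Cfsg.Agent.S1447

/-- Let G be a finite group, p an odd prime, R a metacyclic p-subgroup and A a subgroup of order coprime to p normalizing R. Then [R, A] is abelian; R is generated by [R, A] and R ∩ C_G(A), which meet trivially; and if R is non-abelian and A does not centralize R, then [R, A] and R ∩ C_G(A) are nontrivial cyclic groups and [R, R] ≤ [R, A]. -/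
theorem result {G : Type*} [Group G] [Finite G] (p : ℕ) [Fact p.Prime] (hp : p ≠ 2) (R A : Subgroup G) (hR : IsPGroup p R) (hRm : Cfsg.IsMetacyclic R)
    (hA : (A ≤ Subgroup.normalizer (R : Set G))) (hcop : (Nat.card A).Coprime p) :
    IsMulCommutative ↥⁅R, A⁆ ∧ ⁅R, A⁆ ⊔ (R ⊓ Subgroup.centralizer (A : Set G)) = R ∧ ⁅R, A⁆ ⊓ (R ⊓ Subgroup.centralizer (A : Set G)) = ⊥ ∧
      (¬ IsMulCommutative R → ¬ A ≤ Subgroup.centralizer (R : Set G) →
        ⁅R, A⁆ ≠ ⊥ ∧ IsCyclic ↥⁅R, A⁆ ∧ (R ⊓ Subgroup.centralizer (A : Set G)) ≠ ⊥ ∧ IsCyclic ↥(R ⊓ Subgroup.centralizer (A : Set G)) ∧ ⁅R, R⁆ ≤ ⁅R, A⁆) := by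
  have hAp : ¬ p ∣ Nat.card A := (Nat.Prime.coprime_iff_not_dvd Fact.out).mp hcop.symm
  have hcopR : (Nat.card A).Coprime (Nat.card R) := by
    obtain ⟨k, hk⟩ := IsPGroup.iff_card.mp hR
    rw [hk]; exact hcop.pow_right k
  have hsolR := CfsgLib.Coprime.isSolvable_of_isPGroup hR
  have hSR : ⁅R, A⁆ ≤ R := CfsgLib.Coprime.commutator_le_of_le_normalizer hA
  set S := ⁅R, A⁆ with hSdef
  set C := R ⊓ Subgroup.centralizer (A : Set G) with hCdef
  have hAS : A ≤ Subgroup.normalizer (S : Set G) := Subgroup.normalizer_commutator_ge_right R A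
  have hRS : R ≤ Subgroup.normalizer (S : Set G) := Subgroup.normalizer_commutator_ge_left R A
  have hSS : ⁅S, A⁆ = S := CfsgLib.Coprime.commutator_commutator_eq hA hcopR (Or.inr hsolR)
  have hmS : Cfsg.IsMetacyclic S := CfsgLib.OddLocal.MetacyclicAction.of_mulEquiv
    (Subgroup.subgroupOfEquivOfLe hSR)
    (CfsgLib.OddLocal.MetacyclicAction.subgroup_isMetacyclic hRm (S.subgroupOf R))
  have hSab := CfsgLib.OddLocal.MetacyclicAction.commute_of_commutator_eq hp S A (hR.to_le hSR)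
    hmS hAS hAp hSS
  have hsup : S ⊔ C = R := CfsgLib.Coprime.eq_commutator_sup_centralizer hA hcopR (Or.inr hsolR)
  have hinf : S ⊓ C = ⊥ := by
    have h := CfsgLib.Coprime.commutator_inf_centralizer_eq_bot hSab hAS
      (hcopR.coprime_dvd_right (Subgroup.card_dvd_of_le hSR))
    rw [hSS] at h
    exact le_bot_iff.mp (h ▸ inf_le_inf_left S inf_le_right)
  refine ⟨hSab, hsup, hinf, fun hRna hAR => ?_⟩
  have hS1 : S ≠ ⊥ := fun h => hAR (by
    rw [Subgroup.commutator_eq_bot_iff_le_centralizer] at h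
    exact Subgroup.le_centralizer_iff.mp h)
  have hC1 : C ≠ ⊥ := fun h => hRna (by
    have h1 : S = R := by rw [← hsup, h, sup_bot_eq]
    exact h1 ▸ hSab)
  have hCp : IsPGroup p C := hR.to_le inf_le_left
  have hScyc : IsCyclic S := by
    by_contra hnc
    exact hC1 (CfsgLib.OddLocal.MetacyclicAction.eq_bot_of_inf S C hCp (fun x hx hxp =>
      CfsgLib.OddLocal.MetacyclicAction.omega_le hp R S hSR hR hRm hnc x hx.1 hxp) hinf)
  have hCcyc : IsCyclic C := by
    by_contra hnc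
    exact hS1 (CfsgLib.OddLocal.MetacyclicAction.eq_bot_of_inf C S (hR.to_le hSR) (fun x hx hxp =>
      CfsgLib.OddLocal.MetacyclicAction.omega_le hp R C inf_le_left hR hRm hnc x (hSR hx) hxp)
      (inf_comm S C ▸ hinf))
  refine ⟨hS1, hScyc, hC1, hCcyc, ?_⟩
  rw [Subgroup.commutator_le]
  intro r hr t ht
  haveI hn : (S.subgroupOf R).Normal := Subgroup.normal_subgroupOf_iff_le_normalizer hSR |>.mpr hRS
  have hdec : ∀ x : R, ∃ c : R, (c : G) ∈ C ∧
      QuotientGroup.mk' (S.subgroupOf R) x = QuotientGroup.mk' (S.subgroupOf R) c := by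
    intro x
    have hx : x ∈ S.subgroupOf R ⊔ C.subgroupOf R := by
      rw [← Subgroup.subgroupOf_sup hSR inf_le_left, hsup, Subgroup.subgroupOf_self]
      exact Subgroup.mem_top x
    rw [Subgroup.mem_sup_of_normal_left] at hx
    obtain ⟨s, hs, c, hc, rfl⟩ := hx
    exact ⟨c, hc, by rw [map_mul, show QuotientGroup.mk' (S.subgroupOf R) s = 1 from
      (QuotientGroup.eq_one_iff s).mpr hs, one_mul]⟩
  obtain ⟨c, hc, hrc⟩ := hdec ⟨r, hr⟩
  obtain ⟨d, hd, htd⟩ := hdec ⟨t, ht⟩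
  have hcd : c * d = d * c := Subtype.ext (congrArg Subtype.val
    ((IsCyclic.isMulCommutative (α := C)).is_comm.comm ⟨c, hc⟩ ⟨d, hd⟩) :)
  have h1 : QuotientGroup.mk' (S.subgroupOf R) ⁅(⟨r, hr⟩ : R), ⟨t, ht⟩⁆ = 1 := by
    rw [map_commutatorElement, hrc, htd, ← map_commutatorElement,
      commutatorElement_eq_one_iff_mul_comm.mpr hcd, map_one]
  exact (QuotientGroup.eq_one_iff (N := S.subgroupOf R) ⁅(⟨r, hr⟩ : R), ⟨t, ht⟩⁆).mp h1

end Cfsg.Agent.S1447
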