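import Cfsg.Statements.S1458
import Cfsg.Agent.Eq.Def_Local
import Cfsg.Agent.OddLocal.CenterThompson
import Cfsg.Agent.Involutions.SolvableCore

set_option autoImplicit false
open Cfsg

namespace Cfsg.Agent.S1458

/-- Let G be a solvable group of odd order, p a prime and S a Sylow p-subgroup of G. Then the subgroup generated by the centre of the Thompson subgroup of S and O_{p'}(G) is normal in G. -/
theorem result {G : Type*} [Group G] [Finite G] [Group.IsSolvable G] (hodd : Odd (Nat.card G)) (p : ℕ) [Fact p.Prime] (S : Sylow p G) :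
    (Cfsg.centerThompsonOf p (S : Subgroup G) ⊔ Cfsg.pPrimeCore p G).Normal := by
  have hp' : p.Prime := Fact.out
  set K := Cfsg.pPrimeCore p G with hK
  have hKn : K.Normal := inferInstance
  set T : Subgroup G := (S : Subgroup G) with hT
  set π := QuotientGroup.mk' K with hπ
  by_cases hp : p = 2
  · -- odd order: the Sylow 2-subgroup is trivial
    have hT1 : T = ⊥ := by
      subst hp
      obtain ⟨k, hk⟩ := IsPGroup.iff_card.mp S.2
      have hk0 : k = 0 := by
        by_contra h0
        exact (Nat.not_even_iff_odd.mpr hodd) (even_iff_two_dvd.mpr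
          (((dvd_pow_self 2 h0).trans (dvd_of_eq hk.symm)).trans (Subgroup.card_subgroup_dvd_card _)))
      exact Subgroup.eq_bot_of_card_eq _ (by rw [hk, hk0, pow_zero])
    have hY : Cfsg.centerThompsonOf p T = ⊥ :=
      le_bot_iff.mp (hT1 ▸ (inf_le_left.trans (CfsgLib.LocalP.thompsonSubgroupOf_le (p := p) T)))
    rw [hY, bot_sup_eq]
    exact hKn
  have hsur : Function.Surjective π := QuotientGroup.mk'_surjective K
  have hinj : Function.Injective (π.comp T.subtype) := by
    rw [← MonoidHom.ker_eq_bot_iff, eq_bot_iff]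
    intro x hx
    have hx' : (x : G) ∈ K ⊓ T := ⟨(QuotientGroup.eq_one_iff _).mp hx, x.2⟩
    rw [CfsgLib.PLength.inf_eq_bot_of_coprime (CfsgLib.PLength.pPrimeCore_card_coprime p G) S.2,
      Subgroup.mem_bot] at hx'
    exact Subgroup.mem_bot.mpr (Subtype.ext hx')
  have hTtop : (⊤ : Subgroup T).map T.subtype = T := by
    rw [← MonoidHom.range_eq_map, Subgroup.range_subtype]
  have hJmap : Cfsg.thompsonSubgroupOf p (T.map π) = (Cfsg.thompsonSubgroupOf p T).map π := by
    have h1 := CfsgLib.LocalP.thompsonSubgroupOf_map (p := p) (π.comp T.subtype) hinj (⊤ : Subgroup T)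
    have h2 := CfsgLib.LocalP.thompsonSubgroupOf_map (p := p) T.subtype T.subtype_injective (⊤ : Subgroup T)
    rw [hTtop] at h2
    rw [← Subgroup.map_map, hTtop, ← Subgroup.map_map, ← h2] at h1
    exact h1
  have hYmap : Cfsg.centerThompsonOf p (T.map π) = (Cfsg.centerThompsonOf p T).map π := by
    refine le_antisymm ?_ ?_
    · rintro q ⟨hqJ, hqC⟩
      rw [hJmap] at hqJ hqC
      obtain ⟨x, hx, rfl⟩ := hqJ
      refine ⟨x, ⟨hx, Subgroup.mem_centralizer_iff.mpr fun j hj => ?_⟩, rfl⟩
      have h := Subgroup.mem_centralizer_iff.mp hqC (π j) ⟨j, hj, rfl⟩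
      rw [← map_mul, ← map_mul] at h
      have hTle := CfsgLib.LocalP.thompsonSubgroupOf_le (p := p) T
      have h5 : (π.comp T.subtype) ((⟨j, hTle hj⟩ : T) * ⟨x, hTle hx⟩) =
          (π.comp T.subtype) ((⟨x, hTle hx⟩ : T) * ⟨j, hTle hj⟩) := h
      exact congrArg (fun t : T => (t : G)) (hinj h5)
    · rintro _ ⟨x, ⟨hx, hxC⟩, rfl⟩
      rw [Cfsg.centerThompsonOf, hJmap]
      refine ⟨⟨x, hx, rfl⟩, Subgroup.mem_centralizer_iff.mpr ?_⟩
      rintro _ ⟨j, hj, rfl⟩
      rw [← map_mul, ← map_mul, Subgroup.mem_centralizer_iff.mp hxC j hj]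
  have hn : ((Cfsg.centerThompsonOf p T).map π).Normal := by
    rw [← hYmap]
    exact CfsgLib.OddLocal.centerThompsonOf_normal hp (hodd.of_dvd_nat (Subgroup.card_quotient_dvd_card K))
      (CfsgLib.SolvableCore.centralizer_pCore_le CfsgLib.SolvableCore.pPrimeCore_quotient_eq_bot)
      (S.mapSurjective hsur)
  have h3 := hn.comap π
  rwa [Subgroup.comap_map_eq, hπ, QuotientGroup.ker_mk'] at h3

end Cfsg.Agent.S1458
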