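import Cfsg.Statements.S1526
import Cfsg.Agent.Chars.Exceptional.PartitionFinal
import Cfsg.Agent.CATheorem.KernelPerfect

set_option autoImplicit false
open Cfsg

namespace Cfsg.Agent.S1526

/-- Let G be a finite group of odd order and (L i, H i), i in a finite index type with at least two elements, pairs of subgroups with H i a nontrivial proper normal subgroup of L i such that every non-identity element of H i has its centraliser within L i contained in H i (L i is a Frobenius group with kernel H i), the orders of the H i pairwise coprime, and the underlying set of each H i a TI-subset of G with normaliser L i. If every non-identity element of G is conjugate to an element of some H i, we reach a contradiction. -/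
theorem result {G : Type*} [Group G] [Finite G] (hodd : Odd (Nat.card G)) {ι : Type*} [Fintype ι] (hι : 2 ≤ Fintype.card ι) (L H : ι → Subgroup G) (hHL : ∀ i, H i < L i) (hH1 : ∀ i, H i ≠ ⊥) (hHn : ∀ i, ∀ x ∈ L i, ∀ h ∈ H i, x * h * x⁻¹ ∈ H i) (hfrob : ∀ i, ∀ h ∈ H i, h ≠ 1 → L i ⊓ Subgroup.centralizer ({h} : Set G) ≤ H i) (hcop : ∀ i j, i ≠ j → Nat.Coprime (Nat.card (H i)) (Nat.card (H j))) (hTI : ∀ i, Cfsg.IsTISubset (H i : Set G) ∧ Subgroup.normalizer (H i : Set G) = L i) (hcover : ∀ g : G, g ≠ 1 → ∃ i, ∃ x : G, x * g * x⁻¹ ∈ H i) : False := by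
  classical
  haveI : Nonempty ι := Fintype.card_pos_iff.mp (by omega)
  have hF : ∀ i, CfsgLib.Chars.Exceptional.FrobTI (H i) (L i) := fun i => by
    have hle := (hHL i).le
    refine ⟨hle, ⟨fun n hn x => hHn i x x.2 n hn⟩, fun x a ha ha1 hx => ?_, fun k hk hk1 => ?_⟩
    · by_contra hxn
      refine ha1 ((hTI i).1 x⁻¹ (fun h => hxn ?_) a ha (by rw [inv_inv]; exact hx))
      rw [(hTI i).2] at h
      simpa using inv_mem h
    · intro c hc
      rw [Subgroup.mem_centralizer_singleton_iff] at hc
      have hcL : c ∈ L i := by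
        by_contra hcn
        refine hk1 ((hTI i).1 c (fun h => hcn (by rwa [(hTI i).2] at h)) k hk ?_)
        rw [hc, mul_assoc, mul_inv_cancel, mul_one]
        exact hk
      exact hfrob i k hk hk1 ⟨hcL, Subgroup.mem_centralizer_singleton_iff.mpr hc⟩
  exact CfsgLib.Chars.Exceptional.Partition.no_partition hodd L H hF hHL
    (fun i => CfsgLib.CATheorem.commutator_ne_top_of_nilpotent (hH1 i)
      (CfsgLib.CATheorem.isNilpotent_of_frobTI (hF i) (hHL i))) hcop hcover

end Cfsg.Agent.S1526
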