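import Cfsg.Statements.S1533
import Cfsg.Agent.Chars.Exceptional.SibleyWrap

set_option autoImplicit false
open Cfsg

namespace Cfsg.Agent.S1533

/-- Let G be a finite group, p an odd prime, and P a nontrivial Sylow p-subgroup whose underlying set is a TI-subset of G, with P properly contained in its set normaliser N and C_G(x) ≤ P for every non-identity x ∈ P. Let S be the set of irreducible characters χ of N with χ x ≠ χ 1 for some x ∈ P. Then either S has exactly one member, P is elementary abelian and Nat.card P = [N:P] + 1; or (S, N minus 1, induction to G) is coherent. -/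
theorem result {G : Type*} [Group G] [Fintype G] (p : ℕ) [Fact p.Prime] (hp : p ≠ 2) (P : Sylow p G) (hP1 : (P : Subgroup G) ≠ ⊥) (hTI : Cfsg.IsTISubset ((P : Subgroup G) : Set G)) (hlt : (P : Subgroup G) < Subgroup.normalizer ((P : Subgroup G) : Set G)) (hC : ∀ k ∈ (P : Subgroup G), k ≠ 1 → Subgroup.centralizer ({k} : Set G) ≤ (P : Subgroup G)) [Fintype ↥(Subgroup.normalizer ((P : Subgroup G) : Set G))] : (Nat.card {χ : ↥(Subgroup.normalizer ((P : Subgroup G) : Set G)) → ℂ // Cfsg.IsIrrCharacter ↥(Subgroup.normalizer ((P : Subgroup G) : Set G)) χ ∧ ∃ x : ↥(Subgroup.normalizer ((P : Subgroup G) : Set G)), (x : G) ∈ (P : Subgroup G) ∧ χ x ≠ χ 1} = 1 ∧ Cfsg.IsElementaryAbelian p (P : Subgroup G) ∧ Nat.card (P : Subgroup G) = ((P : Subgroup G).subgroupOf (Subgroup.normalizer ((P : Subgroup G) : Set G))).index + 1) ∨ Cfsg.IsCoherent {χ : ↥(Subgroup.normalizer ((P : Subgroup G) : Set G)) → ℂ | Cfsg.IsIrrCharacter ↥(Subgroup.normalizer ((P : Subgroup G) : Set G))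 χ ∧ ∃ x : ↥(Subgroup.normalizer ((P : Subgroup G) : Set G)), (x : G) ∈ (P : Subgroup G) ∧ χ x ≠ χ 1} {1}ᶜ (fun α => Cfsg.indFun (Subgroup.normalizer ((P : Subgroup G) : Set G)) α) := by
  have h : CfsgLib.Chars.Exceptional.FrobTI (P : Subgroup G) (Subgroup.normalizer ((P : Subgroup G) : Set G)) :=
    CfsgLib.Chars.Exceptional.frobTI_normalizer (fun g hg k hk hk' => hTI g hg k hk hk') hC
  have hnil : Group.IsNilpotent (P : Subgroup G) := P.isPGroup'.isNilpotent
  by_cases he : Nat.card (P : Subgroup G) = ((P : Subgroup G).subgroupOf (Subgroup.normalizer ((P : Subgroup G) : Set G))).index + 1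
  · obtain ⟨h1, q, hq, hel⟩ := h.singleton_case hP1 hnil he
    refine Or.inl ⟨h1, ?_, he⟩
    obtain ⟨b, hb, hb1⟩ := (Subgroup.bot_or_exists_ne_one (P : Subgroup G)).resolve_left hP1
    have ho : orderOf b = q := by
      haveI := Fact.mk hq
      exact orderOf_eq_prime (hel.2 b hb) hb1
    obtain ⟨i, hi⟩ := IsPGroup.iff_orderOf.mp P.isPGroup' ⟨b, hb⟩
    rw [← Subgroup.orderOf_coe, ho] at hi
    obtain rfl : q = p := (Nat.prime_dvd_prime_iff_eq hq Fact.out).mp
      (hq.dvd_of_dvd_pow (dvd_of_eq hi))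
    exact hel
  · refine Or.inr (h.feit_sibley rfl hlt hP1 hnil he fun h2 => ?_)
    obtain ⟨b, hb, hb1⟩ := (Subgroup.bot_or_exists_ne_one (P : Subgroup G)).resolve_left hP1
    obtain ⟨i, hi⟩ := IsPGroup.iff_orderOf.mp P.isPGroup' ⟨b, hb⟩
    obtain ⟨j, hj⟩ := IsPGroup.iff_orderOf.mp h2.1 ⟨b, hb⟩
    rw [hi] at hj
    rcases i with _ | i
    · rw [pow_zero, orderOf_eq_one_iff] at hi
      exact hb1 (congrArg Subtype.val hi)
    · exact hp ((Nat.prime_dvd_prime_iff_eq Fact.out Nat.prime_two).mp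
        ((Fact.out : p.Prime).dvd_of_dvd_pow (hj ▸ dvd_pow_self p i.succ_ne_zero)))


end Cfsg.Agent.S1533
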