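import Cfsg.Statements.S1534
import Cfsg.Agent.Chars.Exceptional.SibleyWrap

set_option autoImplicit false
open Cfsg

namespace Cfsg.Agent.S1534

/-- Let G be a finite group and K a nontrivial nilpotent subgroup whose underlying set is a TI-subset of G, properly contained in its set normaliser N, with C_G(k) ≤ K for every non-identity k ∈ K; let e be the index of K in N and S the set of irreducible characters χ of N with χ k ≠ χ 1 for some k ∈ K. Then one of: S has exactly one member, Nat.card K = e + 1 and K is an elementary abelian p-group for some prime p; or K is a Sylow 2-subgroup of G (Nat.card K is the largest power of 2 dividing Nat.card G) and [K : [K,K]] < 4e²; or (S, N minus 1, induction to G) is coherent. -/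
theorem result {G : Type*} [Group G] [Fintype G] (K : Subgroup G) (hK1 : K ≠ ⊥) (hnil : Group.IsNilpotent K) (hTI : Cfsg.IsTISubset (K : Set G)) (hlt : K < Subgroup.normalizer (K : Set G)) (hC : ∀ k ∈ K, k ≠ 1 → Subgroup.centralizer ({k} : Set G) ≤ K) [Fintype ↥(Subgroup.normalizer (K : Set G))] : (Nat.card {χ : ↥(Subgroup.normalizer (K : Set G)) → ℂ // Cfsg.IsIrrCharacter ↥(Subgroup.normalizer (K : Set G)) χ ∧ ∃ k : ↥(Subgroup.normalizer (K : Set G)), (k : G) ∈ K ∧ χ k ≠ χ 1} = 1 ∧ Nat.card K = (K.subgroupOf (Subgroup.normalizer (K : Set G))).index + 1 ∧ ∃ p : ℕ, p.Prime ∧ Cfsg.IsElementaryAbelian p K) ∨ (Nat.card K = 2 ^ (Nat.card G).factorization 2 ∧ (⁅K, K⁆.subgroupOf K).index < 4 * (K.subgroupOf (Subgroup.normalizer (K : Set G))).index ^ 2) ∨ Cfsg.IsCoherent {χ : ↥(Subgroup.normalizer (K : Set G)) → ℂ | Cfsg.IsIrrCharacter ↥(Subgroup.normalizer (K : Set G)) χ ∧ ∃ k : ↥(Subgroup.normalizer (K : Set G)), (k : G) ∈ K ∧ χ k ≠ χ 1} {1}ᶜ (fun α => Cfsg.indFun (Subgroup.normalizer (K :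 Set G)) α) := by
  have h : CfsgLib.Chars.Exceptional.FrobTI K (Subgroup.normalizer (K : Set G)) :=
    CfsgLib.Chars.Exceptional.frobTI_normalizer (fun g hg k hk hk' => hTI g hg k hk hk') hC
  by_cases he : Nat.card K = (K.subgroupOf (Subgroup.normalizer (K : Set G))).index + 1
  · obtain ⟨h1, hq⟩ := h.singleton_case hK1 hnil he
    exact Or.inl ⟨h1, he, hq⟩
  by_cases h2 : IsPGroup 2 K ∧ ¬ IsMulCommutative K ∧
      (commutator K).index ≤ 4 * (K.subgroupOf (Subgroup.normalizer (K : Set G))).index ^ 2 + 1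
  · refine Or.inr (Or.inl ?_)
    haveI : Fact (Nat.Prime 2) := ⟨Nat.prime_two⟩
    haveI := h.normal
    obtain ⟨P, hP⟩ := h.sylow_eq rfl h2.1 hK1
    refine ⟨by rw [← hP]; exact P.card_eq_multiplicity, ?_⟩
    have hc : ⁅K, K⁆.subgroupOf K = commutator K := by
      rw [← Subgroup.map_subtype_commutator]
      exact Subgroup.comap_map_eq_self_of_injective K.subtype_injective _
    rw [hc]
    obtain ⟨m, hm⟩ := IsPGroup.iff_card.mp h2.1
    obtain ⟨i, -, hi⟩ := (Nat.dvd_prime_pow Nat.prime_two).mp (hm ▸ (commutator K).index_dvd_card)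
    have hodd : Odd (K.subgroupOf (Subgroup.normalizer (K : Set G))).index := by
      rw [Nat.odd_iff, ← Nat.two_dvd_ne_zero]
      intro h0
      have hm0 : m ≠ 0 := fun e => hK1 (Subgroup.card_eq_one.mp (by rw [hm, e, pow_zero]))
      exact absurd (Nat.eq_one_of_dvd_coprimes h.coprime (hm ▸ dvd_pow_self 2 hm0) h0) (by omega)
    set e := (K.subgroupOf (Subgroup.normalizer (K : Set G))).index with hedef
    have hle := h2.2.2
    rw [hi] at hle ⊢
    have hepos : 1 < e := by
      refine Nat.one_lt_iff_ne_zero_and_ne_one.mpr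
        ⟨(K.subgroupOf (Subgroup.normalizer (K : Set G))).index_ne_zero_of_finite, fun e1 => hlt.ne ?_⟩
      exact le_antisymm h.le (Subgroup.subgroupOf_eq_top.mp (Subgroup.index_eq_one.mp e1))
    have h4 : 4 ≤ e ^ 2 := by nlinarith
    rcases i with _ | i
    · simp; omega
    rw [pow_succ] at hle ⊢
    by_contra hge
    have heq : 2 ^ i * 2 = 4 * e ^ 2 := by omega
    rcases i with _ | i
    · omega
    rw [pow_succ] at heq
    have heq' : 2 ^ i = e ^ 2 := by omega
    have h5 : Odd (2 ^ i) := heq' ▸ hodd.pow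
    rcases i with _ | i
    · simp at heq'; omega
    · exact (Nat.not_even_iff_odd.mpr h5) ⟨2 ^ i, by ring⟩
  · exact Or.inr (Or.inr (h.feit_sibley rfl hlt hK1 hnil he h2))


end Cfsg.Agent.S1534
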