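import Cfsg.Statements.S1708
import Cfsg.Agent.HN133.Cover

set_option autoImplicit false
open Cfsg

namespace Cfsg.Agent.S1708

theorem double_cover_transfer {H H' : Type*} [Group H] [Group H'] {K : Type*} [Group K]
    (e : H ≃* H') (h : Cfsg.IsNonsplitDoubleCover H K) : Cfsg.IsNonsplitDoubleCover H' K := by
  obtain ⟨hc, ⟨i⟩, hs⟩ := h
  have hm : (Subgroup.center H).map e.toMonoidHom = Subgroup.center H' := by
    ext a
    rw [Subgroup.mem_map, Subgroup.mem_center_iff]
    constructor
    · rintro ⟨b, hb, rfl⟩ g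
      obtain ⟨g, rfl⟩ := e.surjective g
      simp only [MulEquiv.toMonoidHom_eq_coe, MonoidHom.coe_coe, ← map_mul,
        Subgroup.mem_center_iff.1 hb g]
    · intro ha
      refine ⟨e.symm a, Subgroup.mem_center_iff.2 fun g => e.injective ?_, e.apply_symm_apply a⟩
      rw [map_mul, map_mul, e.apply_symm_apply, ha]
  refine ⟨?_, ⟨(QuotientGroup.congr (Subgroup.center H) (Subgroup.center H') e hm).symm.trans i⟩,
    fun L hL => hs (L.comap e.toMonoidHom) ?_⟩
  · rw [← hc, ← hm]
    exact Subgroup.card_map_of_injective e.injective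
  · have hcard : Nat.card (Subgroup.center H') = 2 := by
      rw [← hc, ← hm]
      exact Subgroup.card_map_of_injective e.injective
    refine Subgroup.isComplement'_of_disjoint_and_mul_eq_univ ?_ ?_
    · rw [disjoint_iff, eq_bot_iff]
      intro a ha
      have h1 : e a ∈ Subgroup.center H' ⊓ L :=
        ⟨hm ▸ Subgroup.mem_map_of_mem _ ha.1, ha.2⟩
      rw [hL.disjoint.eq_bot, Subgroup.mem_bot] at h1
      exact Subgroup.mem_bot.2 (e.injective (h1.trans (map_one e).symm))
    · refine Set.eq_univ_of_forall fun a => ?_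
      obtain ⟨⟨c, l⟩, hcl⟩ := hL.surjective (e a)
      obtain ⟨c0, hc0, hce⟩ := (SetLike.ext_iff.1 hm c.1).2 c.2
      have hl : e (c0⁻¹ * a) = l.1 := by
        rw [map_mul, map_inv, show e c0 = c.1 from hce, ← show c.1 * l.1 = e a from hcl,
          inv_mul_cancel_left]
      exact ⟨c0, hc0, c0⁻¹ * a, by show e (c0⁻¹ * a) ∈ L; rw [hl]; exact l.2,
        mul_inv_cancel_left c0 a⟩

/-- In the presented Harada–Norton group, the subgroup N generated by the images of x, y, z has a normal subgroup of index 2 which is a non-split double cover of the Higman–Sims group. -/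
theorem result : ∃ K : Subgroup (((Subgroup.closure ({Cfsg.Spor.HN.x, Cfsg.Spor.HN.y, Cfsg.Spor.HN.z} : Set (FreeGroup Cfsg.Spor.HN.Gen))).map (PresentedGroup.mk (Cfsg.Spor.coxRelators Cfsg.Spor.HN.edges ∪ {r | r ∈ Cfsg.Spor.HN.extra})))), K.Normal ∧ K.index = 2 ∧ Cfsg.IsNonsplitDoubleCover K Cfsg.Spor.HS := by
  have hN : CfsgLib.HN133.toHN.range = (Subgroup.closure ({Cfsg.Spor.HN.x, Cfsg.Spor.HN.y,
      Cfsg.Spor.HN.z} : Set (FreeGroup Cfsg.Spor.HN.Gen))).map (PresentedGroup.mk
        (Cfsg.Spor.coxRelators Cfsg.Spor.HN.edges ∪ {r | r ∈ Cfsg.Spor.HN.extra})) := by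
    rw [CfsgLib.HN133.toHN_range, MonoidHom.map_closure, Set.image_insert_eq, Set.image_insert_eq,
      Set.image_singleton]
    rfl
  let e := CfsgLib.HN133.equivRange.trans (MulEquiv.subgroupCongr hN)
  refine ⟨CfsgLib.HN133.K0.map e.toMonoidHom,
    CfsgLib.HN133.K0_normal.map _ e.surjective, ?_, ?_⟩
  · rw [Subgroup.index_map_of_bijective e.bijective]
    exact CfsgLib.HN133.index_K0
  · refine double_cover_transfer (CfsgLib.HN133.K0.equivMapOfInjective e.toMonoidHom e.injective)
      ⟨by rw [CfsgLib.HN133.center_K0]; exact CfsgLib.HN133.card_ker, ?_,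
        CfsgLib.HN133.not_complement⟩
    obtain ⟨i⟩ := CfsgLib.HSCover.nonempty_equiv
    exact ⟨((QuotientGroup.quotientMulEquivOfEq CfsgLib.HN133.center_K0).trans
      (QuotientGroup.quotientKerEquivOfSurjective CfsgLib.HN133.qK
        CfsgLib.HN133.qK_surjective)).trans i⟩

end Cfsg.Agent.S1708
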