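import Cfsg.Statements.S1892
import Cfsg.Agent.Constrained.HallHigman
import Cfsg.Agent.Coprime.Stabilizer
import Cfsg.Agent.Eq.Def_Local

set_option autoImplicit false
open Cfsg
open scoped commutatorElement

namespace Cfsg.Agent.S1892

/-- Let S be a finite p-solvable group with no nontrivial normal subgroup of order prime to p, A a p-subgroup of S, and Q a nontrivial A-invariant subgroup of order prime to p with [A, Q] = Q. Then the commutator [O_p(S), A, Q] is nontrivial. -/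
theorem result {S : Type*} [Group S] [Finite S] {p : ℕ} [Fact p.Prime]
    (hS : Cfsg.IsPSolvable p S) (hred : Cfsg.pPrimeCore p S = ⊥)
    (A Q : Subgroup S) (hA : IsPGroup p A) (hQ : ¬ p ∣ Nat.card Q) (hQ1 : Q ≠ ⊥)
    (hinv : ∀ a ∈ A, ∀ x ∈ Q, a * x * a⁻¹ ∈ Q) (hAQ : ⁅A, Q⁆ = Q) :
    ⁅⁅Cfsg.pCore p S, A⁆, Q⁆ ≠ ⊥ := by
  intro hbot
  set P := Cfsg.pCore p S with hP
  set K := ⁅P, A⁆ with hK
  haveI hPn : P.Normal := CfsgLib.Constrained.instNormalPCore p
  have hKP : K ≤ P := Subgroup.commutator_le_left P A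
  have hQK : Q ≤ Subgroup.centralizer (K : Set S) := by
    rw [← Subgroup.commutator_eq_bot_iff_le_centralizer, Subgroup.commutator_comm]
    exact hbot
  set N := Subgroup.normalizer (K : Set S) with hN
  have hQN : Q ≤ N := hQK.trans (Subgroup.centralizer_le_normalizer _)
  have hconj : ∀ g : S, (g ∈ P ∨ g ∈ A) → ∀ k ∈ K, g * k * g⁻¹ ∈ K := by
    intro g hg k hk
    have hle : K ≤ K.comap (MulAut.conj g).toMonoidHom := by
      conv_lhs => rw [hK, Subgroup.commutator_def, ]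
      rw [Subgroup.closure_le]
      rintro _ ⟨v, hv, b, hb, rfl⟩
      show g * ⁅v, b⁆ * g⁻¹ ∈ K
      rcases hg with hg | hg
      · have e : g * ⁅v, b⁆ * g⁻¹ = ⁅g * v, b⁆ * ⁅g, b⁆⁻¹ := by
          simp only [commutatorElement_def]; group
        rw [e]
        exact mul_mem (Subgroup.commutator_mem_commutator (P.mul_mem hg hv) hb)
          (inv_mem (Subgroup.commutator_mem_commutator hg hb))
      · have e : g * ⁅v, b⁆ * g⁻¹ = ⁅g * v * g⁻¹, g * b * g⁻¹⁆ := by
          simp only [commutatorElement_def]; group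
        rw [e]
        exact Subgroup.commutator_mem_commutator (hPn.conj_mem v hv g) (A.mul_mem (A.mul_mem hg hb) (A.inv_mem hg))
    exact hle hk
  have hPA : P ⊔ A ≤ N := by
    refine sup_le (fun g hg => ?_) (fun g hg => ?_)
    · refine Subgroup.mem_normalizer_iff.mpr fun k => ⟨hconj g (Or.inl hg) k, fun h => ?_⟩
      simpa [mul_assoc] using hconj g⁻¹ (Or.inl (P.inv_mem hg)) _ h
    · refine Subgroup.mem_normalizer_iff.mpr fun k => ⟨hconj g (Or.inr hg) k, fun h => ?_⟩
      simpa [mul_assoc] using hconj g⁻¹ (Or.inr (A.inv_mem hg)) _ h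
  have hPN : P ≤ N := le_sup_left.trans hPA
  have hAN : A ≤ N := le_sup_right.trans hPA
  haveI hKn : (K.subgroupOf N).Normal := Subgroup.normal_subgroupOf_iff_le_normalizer (hKP.trans hPN) |>.mpr le_rfl
  set π := QuotientGroup.mk' (K.subgroupOf N) with hπ
  set C := (Subgroup.centralizer ((P.subgroupOf N).map π : Set (↥N ⧸ K.subgroupOf N))).comap π with hC
  have hgen : ⁅A, Q⁆ ≤ C.map N.subtype := by
    rw [Subgroup.commutator_le]
    intro a ha u hu
    refine ⟨⁅(⟨a, hAN ha⟩ : N), (⟨u, hQN hu⟩ : N)⁆, ?_, rfl⟩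
    rw [hC, SetLike.mem_coe, Subgroup.mem_comap, Subgroup.mem_centralizer_iff]
    rintro _ ⟨v, hv, rfl⟩
    have key : ∀ w : N, (w : S) ∈ P → π ⟨a, hAN ha⟩ * π w = π w * π ⟨a, hAN ha⟩ := by
      intro w hw
      have h1 : π (⁅(⟨a, hAN ha⟩ : N), w⁆) = 1 := (QuotientGroup.eq_one_iff _).mpr (by
        show (⁅a, (w : S)⁆) ∈ K
        rw [hK, Subgroup.commutator_comm]
        exact Subgroup.commutator_mem_commutator ha hw)
      rw [map_commutatorElement] at h1
      exact commutatorElement_eq_one_iff_mul_comm.mp h1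
    set a' : N := ⟨a, hAN ha⟩
    set u' : N := ⟨u, hQN hu⟩
    have hv1 : (v : S) ∈ P := hv
    have hv2 : ((u'⁻¹ * v * u' : N) : S) ∈ P := by
      have := hPn.conj_mem _ hv1 u⁻¹
      rw [inv_inv] at this
      exact this
    have e1 := key v hv1
    have e2 := key _ hv2
    simp only [map_mul, map_inv] at e2
    rw [map_commutatorElement, commutatorElement_def]
    generalize π a' = α at *
    generalize π u' = β at *
    generalize π v = ν at *
    have e3 : α⁻¹ * (β⁻¹ * ν * β) * α = β⁻¹ * ν * β := by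
      rw [mul_assoc, ← e2, inv_mul_cancel_left]
    calc ν * (α * β * α⁻¹ * β⁻¹) = α * β * (β⁻¹ * α⁻¹ * ν * α * β) * α⁻¹ * β⁻¹ := by group
      _ = α * β * (β⁻¹ * (α⁻¹ * (α * ν)) * β) * α⁻¹ * β⁻¹ := by rw [e1]; group
      _ = α * β * (β⁻¹ * ν * β) * α⁻¹ * β⁻¹ := by rw [inv_mul_cancel_left]
      _ = α * β * (α⁻¹ * (β⁻¹ * ν * β) * α) * α⁻¹ * β⁻¹ := by rw [e3]
      _ = α * β * α⁻¹ * β⁻¹ * ν := by group
  rw [hAQ] at hgen
  have hQP : Q ≤ Subgroup.centralizer (P : Set S) := by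
    intro q hq
    rw [Subgroup.mem_centralizer_iff]
    intro v hv
    obtain ⟨q', hq', rfl⟩ := hgen hq
    rw [hC, SetLike.mem_coe, Subgroup.mem_comap, Subgroup.mem_centralizer_iff] at hq'
    have h1 := hq' _ (Subgroup.mem_map_of_mem π (show (⟨v, hPN hv⟩ : N) ∈ P.subgroupOf N from hv))
    have h2 : q' * ⟨v, hPN hv⟩ * q'⁻¹ * (⟨v, hPN hv⟩ : N)⁻¹ ∈ K.subgroupOf N := by
      rw [← QuotientGroup.eq_one_iff]
      show π _ = 1
      rw [map_mul, map_mul, map_mul, map_inv, map_inv, ← h1]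
      group
    have h3 : (q' : S) * v * (q' : S)⁻¹ * v⁻¹ ∈ K := h2
    have hcop : (orderOf (q' : S)).Coprime (Nat.card P) := by
      obtain ⟨k, hk⟩ := IsPGroup.iff_card.mp (CfsgLib.Constrained.isPGroup_pCore (G := S) (p := p))
      rw [hk]
      refine Nat.Coprime.pow_right k (Nat.Coprime.symm ?_)
      exact ((Fact.out : p.Prime).coprime_iff_not_dvd).mpr fun h => hQ (h.trans (Q.orderOf_dvd_natCard hq))
    exact (CfsgLib.Coprime.commute_of_commute_commutator_mem
      (Subgroup.mem_centralizer_iff.mp (hQK hq) _ h3).symm (hKP h3) hcop).symm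
  have hQp : Q ≤ P := hQP.trans (CfsgLib.Constrained.centralizer_pCore_le hS hred)
  obtain ⟨k, hk⟩ := IsPGroup.iff_card.mp ((CfsgLib.Constrained.isPGroup_pCore (G := S) (p := p)).to_le hQp)
  rcases k with _ | k
  · exact hQ1 (Subgroup.card_eq_one.mp (by simpa using hk))
  · exact hQ (hk ▸ dvd_pow_self p (Nat.succ_ne_zero k))

end Cfsg.Agent.S1892
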