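import Cfsg.Statements.S1894
import Cfsg.Agent.Eq.Def_OddOrderLocal

set_option autoImplicit false
open Cfsg

namespace Cfsg.Agent.S1894

/-- Let P be a finite p-group, A a normal subgroup of P and B an abelian subgroup of A that is normal in P. Then some subgroup C of A containing B is normal in P and is self-centralizing and normal in A (C ∈ SCN(A)). -/
theorem result {P : Type*} [Group P] [Finite P] {p : ℕ} [Fact p.Prime] (hP : IsPGroup p P)
    (A : Subgroup P) [A.Normal] (B : Subgroup P) [B.Normal] (hBA : B ≤ A) (hB : IsMulCommutative B) :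
    ∃ C : Subgroup P, C.Normal ∧ B ≤ C ∧ Cfsg.IsSCN A C := by
  classical
  let S : Set (Subgroup P) := {C | C.Normal ∧ B ≤ C ∧ C ≤ A ∧ ∀ x ∈ C, ∀ y ∈ C, x * y = y * x}
  have hBS : B ∈ S := ⟨inferInstance, le_rfl, hBA, fun x hx y hy => by
    have := hB.is_comm.comm (⟨x, hx⟩ : B) ⟨y, hy⟩
    exact congrArg Subtype.val this⟩
  obtain ⟨C, -, hC⟩ := (Set.toFinite S).exists_le_maximal hBS
  obtain ⟨hCn, hBC, hCA, hCab⟩ := hC.prop
  refine ⟨C, hCn, hBC, hCA, fun a _ => ?_, ?_⟩
  · rw [Subgroup.normalizer_eq_top_iff.mpr hCn]; trivial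
  apply le_antisymm ?_ (le_inf hCA fun x hx => ?_)
  swap
  · rw [Subgroup.mem_centralizer_iff]
    exact fun y hy => hCab y hy x hx
  by_contra hne
  obtain ⟨d, hd, hdC⟩ := SetLike.not_le_iff_exists.mp hne
  let π := QuotientGroup.mk' C
  let D := (A ⊓ Subgroup.centralizer (C : Set P)).map π
  have hDn : D.Normal := Subgroup.Normal.map inferInstance π (QuotientGroup.mk'_surjective C)
  have hQ : IsPGroup p (P ⧸ C) := hP.to_quotient C
  have hdne : π d ≠ 1 := fun h => hdC ((QuotientGroup.eq_one_iff d).mp h)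
  have hdD : π d ∈ D := Subgroup.mem_map_of_mem _ hd
  have : Nontrivial D := ⟨⟨⟨π d, hdD⟩, 1, fun h => hdne (congrArg Subtype.val h)⟩⟩
  obtain ⟨k, hk0, hk⟩ := (hQ.to_subgroup D).nontrivial_iff_card.mp this
  have hdvd : p ∣ Nat.card D := hk ▸ dvd_pow_self p (by omega)
  have hcQ : IsPGroup p (ConjAct (P ⧸ C)) := hQ.of_equiv ConjAct.toConjAct
  have hfix1 : (1 : D) ∈ MulAction.fixedPoints (ConjAct (P ⧸ C)) D := fun g => by
    ext; simp [ConjAct.Subgroup.val_conj_smul]
  obtain ⟨z, hz, hz1⟩ := hcQ.exists_fixed_point_of_prime_dvd_card_of_fixed_point D hdvd hfix1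
  obtain ⟨e, he, hez⟩ := Subgroup.mem_map.mp z.2
  have hzc : ∀ g : P ⧸ C, g * (z : P ⧸ C) * g⁻¹ = z := fun g => by
    have := congrArg Subtype.val (hz (ConjAct.toConjAct g))
    simpa [ConjAct.Subgroup.val_conj_smul, ConjAct.toConjAct_smul] using this
  have heC : e ∉ C := fun h => hz1 (by
    ext
    rw [Subgroup.coe_one, ← hez]
    exact ((QuotientGroup.eq_one_iff e).mpr h).symm)
  let C2 := C ⊔ Subgroup.zpowers e
  have hC2n : C2.Normal := ⟨fun x hx g => by
    have hle : C2 ≤ C2.comap (MulAut.conj g).toMonoidHom := by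
      refine sup_le (fun c hc => ?_) (Subgroup.zpowers_le.mpr ?_)
      · exact Subgroup.mem_sup_left (hCn.conj_mem c hc g)
      · have h1 : π (e⁻¹ * (g * e * g⁻¹)) = 1 := by
          rw [map_mul, map_mul, map_mul, map_inv, map_inv, hez, hzc, inv_mul_cancel]
        have h2 : e⁻¹ * (g * e * g⁻¹) ∈ C := (QuotientGroup.eq_one_iff _).mp h1
        have : g * e * g⁻¹ = e * (e⁻¹ * (g * e * g⁻¹)) := by group
        show g * e * g⁻¹ ∈ C2
        rw [this]
        exact mul_mem (Subgroup.mem_sup_right (Subgroup.mem_zpowers e)) (Subgroup.mem_sup_left h2)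
    exact hle hx⟩
  have hcen : ∀ c ∈ C, c * e = e * c := Subgroup.mem_centralizer_iff.mp he.2
  have hab : ∀ x ∈ C2, ∀ y ∈ C2, x * y = y * x := by
    have h1 : C2 ≤ Subgroup.centralizer (C : Set P) := sup_le
      (fun x hx => Subgroup.mem_centralizer_iff.mpr fun y hy => hCab y hy x hx)
      (Subgroup.zpowers_le.mpr he.2)
    have h2 : C2 ≤ Subgroup.centralizer ({e} : Set P) := sup_le
      (fun x hx => Subgroup.mem_centralizer_singleton_iff.mpr (hcen x hx))
      (Subgroup.zpowers_le.mpr (Subgroup.mem_centralizer_singleton_iff.mpr rfl))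
    have h3 : C2 ≤ Subgroup.centralizer (C2 : Set P) := by
      refine sup_le (fun x hx => ?_) (Subgroup.zpowers_le.mpr ?_) <;>
        rw [Subgroup.mem_centralizer_iff] <;> intro y hy
      · exact (Subgroup.mem_centralizer_iff.mp (h1 hy) x hx).symm
      · exact Subgroup.mem_centralizer_singleton_iff.mp (h2 hy)
    exact fun x hx y hy => (Subgroup.mem_centralizer_iff.mp (h3 hx) y hy).symm
  have hmem : C2 ∈ S :=
    ⟨hC2n, hBC.trans le_sup_left, sup_le hCA (Subgroup.zpowers_le.mpr he.1), hab⟩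
  exact heC (hC.2 hmem le_sup_left (Subgroup.mem_sup_right (Subgroup.mem_zpowers e)))

end Cfsg.Agent.S1894
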