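import Cfsg.Statements.S1895
import Cfsg.Agent.RankTwoChief.Main

set_option autoImplicit false
open Cfsg

namespace Cfsg.Agent.S1895

/-- Let p be an odd prime and G a finite p-solvable group with no elementary abelian subgroup of order p³. Then every chief factor H/K of G (H, K normal in G with no normal subgroup of G strictly between them) whose order is a power of p has order p or p². -/
theorem result {G : Type*} [Group G] [Finite G] {p : ℕ} [Fact p.Prime] (hp : p ≠ 2)
    (hG : Cfsg.IsPSolvable p G) (hr : Cfsg.PRankLE p 2 G)
    (H K : Subgroup G) [H.Normal] [K.Normal] (hKH : K < H) (hpow : ∃ n : ℕ, K.relIndex H = p ^ n)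
    (hchief : ∀ L : Subgroup G, L.Normal → K ≤ L → L ≤ H → L = K ∨ L = H) :
    K.relIndex H = p ∨ K.relIndex H = p ^ 2 := by
  obtain ⟨n, hn⟩ := hpow
  rcases (CfsgLib.RankTwoChief.small_top hp hG hr).chief_le hKH.le hn hchief with h | h
  · rw [inf_top_eq] at h
    exact absurd h (not_le_of_gt hKH)
  · interval_cases n
    · rw [pow_zero, Subgroup.relIndex_eq_one] at hn
      exact absurd hn (not_le_of_gt hKH)
    · exact .inl (by rw [hn, pow_one])
    · exact .inr hn

end Cfsg.Agent.S1895
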