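import Cfsg.Statements.S1899


set_option autoImplicit false
open Cfsg

namespace Cfsg.Agent.S1899

/-- Let a dihedral group of order 2n, n odd and n > 1, act on a finite abelian 2-group A through automorphisms d and t with d^n = 1, t² = 1 and t d t⁻¹ = d⁻¹, and suppose that d fixes only the identity. Then A is the internal direct product of C_A(t) and its image under d. -/
theorem result {A : Type*} [CommGroup A] [Finite A] (hA : IsPGroup 2 A)
    {n : ℕ} (hn : Odd n) (hn1 : 1 < n) (d t : MulAut A) (hd : d ^ n = 1) (ht : t ^ 2 = 1) (hdt : t * d * t⁻¹ = d⁻¹)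
    (hfix : ∀ a : A, d a = a → a = 1) :
    (MulEquiv.toMonoidHom t).eqLocus (MonoidHom.id A) ⊓ ((MulEquiv.toMonoidHom t).eqLocus (MonoidHom.id A)).map d.toMonoidHom = ⊥ ∧
      (MulEquiv.toMonoidHom t).eqLocus (MonoidHom.id A) ⊔ ((MulEquiv.toMonoidHom t).eqLocus (MonoidHom.id A)).map d.toMonoidHom = ⊤ := by
  have hodd : ∀ a : A, d (d a) = a → a = 1 := by
    intro a ha
    apply hfix
    obtain ⟨k, rfl⟩ := hn
    have hev : ∀ j : ℕ, (d ^ (2 * j)) a = a := by
      intro j
      induction j with
      | zero => simp
      | succ j ih =>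
        rw [show 2 * (j + 1) = 2 * j + 2 by ring, pow_add, MulAut.mul_apply, pow_two, MulAut.mul_apply, ha, ih]
    have hh : (d ^ (2 * k + 1)) a = a := by rw [hd]; rfl
    rw [pow_succ', MulAut.mul_apply, hev] at hh
    exact hh
  have htd : ∀ a : A, t (d a) = d.symm (t a) := by
    intro a
    have h1 : t * d = d⁻¹ * t := by rw [← hdt]; group
    exact DFunLike.congr_fun h1 a
  have mem : ∀ a : A, a ∈ (MulEquiv.toMonoidHom t).eqLocus (MonoidHom.id A) ↔ t a = a := fun a => Iff.rfl
  constructor
  · rw [eq_bot_iff]
    rintro a ⟨h1, h2⟩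
    obtain ⟨b, hb, rfl⟩ := Subgroup.mem_map.mp h2
    have hb1 : t b = b := (mem b).mp hb
    have h3 : t (d b) = d b := (mem (d b)).mp h1
    rw [htd, hb1] at h3
    have : d (d b) = b := by rw [← h3]; exact d.apply_symm_apply b
    rw [Subgroup.mem_bot, hodd b this]
    exact map_one _
  · rw [eq_top_iff]
    intro a _
    let F : A →* A := d.toMonoidHom / d.symm.toMonoidHom
    have Fap : ∀ y, F y = d y / d.symm y := fun y => rfl
    have Finj : Function.Injective F := by
      rw [injective_iff_map_eq_one]
      intro y hy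
      rw [Fap, div_eq_one] at hy
      apply hodd
      rw [hy]
      exact d.apply_symm_apply y
    obtain ⟨y, hy⟩ := (Finite.injective_iff_surjective.mp Finj) (a / t a)
    rw [Fap] at hy
    have tt : ∀ x, t (t x) = x := fun x => by
      have := DFunLike.congr_fun ht x
      rwa [pow_two] at this
    have htdi : ∀ x, t (d.symm x) = d (t x) := by
      intro x
      have := htd (d.symm x)
      rw [d.apply_symm_apply] at this
      rw [this, d.apply_symm_apply]
    have hty : t y = y := by
      apply Finj
      have := congrArg t hy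
      rw [map_div, map_div, htd, htdi, tt] at this
      rw [Fap, Fap, hy, ← inv_div, this, inv_div]
    have hx : t (a / d y) = a / d y := by
      rw [map_div, htd, hty]
      rw [div_eq_div_iff_mul_eq_mul] at hy ⊢
      rw [mul_comm (t a), hy, mul_comm]
    have : a = (a / d y) * d y := (div_mul_cancel a (d y)).symm
    rw [this]
    exact Subgroup.mul_mem_sup ((mem _).mpr hx) (Subgroup.mem_map_of_mem _ ((mem _).mpr hty))

end Cfsg.Agent.S1899
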