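import Cfsg.Statements.S1900
import Cfsg.Agent.CoprimeLines.Basic
import Cfsg.Agent.Eq.Def_Transfer

set_option autoImplicit false
open Cfsg

namespace Cfsg.Agent.S1900

/-- Let S = PQ be a finite group with P a normal Sylow p-subgroup and Q elementary abelian of order q², q a prime different from p. If exactly two subgroups X₁, X₂ of order q in Q have a nontrivial centralizer in P, then P is the internal direct product of C_P(X₁) and C_P(X₂): they commute elementwise, meet trivially and generate P. -/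
theorem result {S : Type*} [Group S] [Finite S] {p q : ℕ} [Fact p.Prime] [Fact q.Prime] (hpq : p ≠ q)
    (P : Sylow p S) [(P : Subgroup S).Normal] (Q : Subgroup S) (hQ : Cfsg.IsElementaryAbelian q Q) (hQc : Nat.card Q = q ^ 2)
    (hS : (P : Subgroup S) ⊔ Q = ⊤)
    (X₁ X₂ : Subgroup S) (h₁ : X₁ ≤ Q) (h₂ : X₂ ≤ Q) (h₁₂ : X₁ ≠ X₂) (hc₁ : Nat.card X₁ = q) (hc₂ : Nat.card X₂ = q)
    (hf₁ : (P : Subgroup S) ⊓ Subgroup.centralizer (X₁ : Set S) ≠ ⊥)
    (hf₂ : (P : Subgroup S) ⊓ Subgroup.centralizer (X₂ : Set S) ≠ ⊥)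
    (honly : ∀ X : Subgroup S, X ≤ Q → Nat.card X = q →
      (P : Subgroup S) ⊓ Subgroup.centralizer (X : Set S) ≠ ⊥ → X = X₁ ∨ X = X₂) :
    ⁅(P : Subgroup S) ⊓ Subgroup.centralizer (X₁ : Set S), (P : Subgroup S) ⊓ Subgroup.centralizer (X₂ : Set S)⁆ = ⊥ ∧
      ((P : Subgroup S) ⊓ Subgroup.centralizer (X₁ : Set S)) ⊓ ((P : Subgroup S) ⊓ Subgroup.centralizer (X₂ : Set S)) = ⊥ ∧
      ((P : Subgroup S) ⊓ Subgroup.centralizer (X₁ : Set S)) ⊔ ((P : Subgroup S) ⊓ Subgroup.centralizer (X₂ : Set S)) = P := by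
  exact CfsgLib.CoprimeLines.main hpq (P : Subgroup S) inferInstance P.isPGroup' Q hQ.1 hQ.2 X₁ X₂ h₁ h₂
    h₁₂ hc₁ hc₂ honly

end Cfsg.Agent.S1900
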