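import Cfsg.Statements.S1901
import Cfsg.Agent.PLength.One
import Cfsg.Agent.Coprime.Stabilizer
import Cfsg.Agent.Eq.Def_Local

set_option autoImplicit false
open Cfsg

namespace Cfsg.Agent.S1901

/-- Let G be a finite p-solvable group and Q a subgroup of order prime to p such that p divides the index of C_G(Q) in N_G(Q). Then Q normalizes no Sylow p-subgroup of G. -/
theorem result {G : Type*} [Group G] [Finite G] {p : ℕ} [Fact p.Prime]
    (hG : Cfsg.IsPSolvable p G) (Q : Subgroup G) (hQ : ¬ p ∣ Nat.card Q)
    (hA : p ∣ (Subgroup.centralizer (Q : Set G)).relIndex (Subgroup.normalizer (Q : Set G)))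
    (P : Sylow p G) : ¬ Q ≤ Subgroup.normalizer ((P : Subgroup G) : Set G) := by
  classical
  intro hQP
  obtain ⟨n, Hc, h0, hlast, -, hnorm, hfac⟩ := hG
  have hpp : p.Prime := Fact.out
  have hQcop : (Nat.card Q).Coprime p := Nat.Coprime.symm (hpp.coprime_iff_not_dvd.mpr hQ)
  let NQ := Subgroup.normalizer (Q : Set G)
  have claim : ∀ x ∈ NQ, (∃ k : ℕ, x ^ p ^ k = 1) → x ∈ Subgroup.centralizer (Q : Set G) := by
    intro x hxN hxk
    obtain ⟨k, hxk⟩ := hxk
    have main : ∀ i : Fin (n + 1), ∀ q ∈ Q, x * q * x⁻¹ * q⁻¹ ∈ Hc i := by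
      intro i
      induction i using Fin.reverseInduction with
      | last => intro q _; rw [hlast]; trivial
      | cast i ih =>
        haveI := hnorm i.castSucc
        haveI := hnorm i.succ
        intro q hq
        set c := x * q * x⁻¹ * q⁻¹ with hc
        have hcQ : c ∈ Q := Q.mul_mem ((Subgroup.mem_normalizer_iff.mp hxN q).mp hq) (Q.inv_mem hq)
        have hcS : c ∈ Q ⊓ Hc i.succ := ⟨hcQ, ih q hq⟩
        rcases hfac i with ⟨m, hm⟩ | hcopi
        · have h1 : (Hc i.castSucc).relIndex (Q ⊓ Hc i.succ) ∣ p ^ m := by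
            rw [← hm, inf_comm]
            have := Subgroup.relIndex_dvd_index_of_normal ((Hc i.castSucc).subgroupOf (Hc i.succ)) (Q.subgroupOf (Hc i.succ))
            rwa [Subgroup.relIndex, ← Subgroup.inf_subgroupOf_left, ← Subgroup.relIndex,
              Subgroup.relIndex_subgroupOf inf_le_left] at this
          have h2 : (Hc i.castSucc).relIndex (Q ⊓ Hc i.succ) ∣ Nat.card Q :=
            (Subgroup.relIndex_dvd_card _ _).trans (Subgroup.card_dvd_of_le inf_le_left)
          exact Subgroup.relIndex_eq_one.mp (Nat.eq_one_of_dvd_coprimes (hQcop.pow_right m) h2 h1) hcS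
        · let M := Hc i.castSucc
          let π := QuotientGroup.mk' M
          let Q1 := (Q ⊓ Hc i.succ).map π
          let C := Subgroup.centralizer (Q1 : Set (G ⧸ M))
          have hPC : (P : Subgroup G).map π ≤ C := by
            rintro _ ⟨a, ha, rfl⟩
            rw [Subgroup.mem_centralizer_iff]
            rintro _ ⟨u, hu, rfl⟩
            have h1 : u * a * u⁻¹ * a⁻¹ ∈ (P : Subgroup G) ⊓ Hc i.succ := by
              refine ⟨mul_mem ((Subgroup.mem_normalizer_iff.mp (hQP hu.1) a).mp ha) ((P : Subgroup G).inv_mem ha), ?_⟩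
              have e : u * a * u⁻¹ * a⁻¹ = u * (a * u⁻¹ * a⁻¹) := by group
              rw [e]
              exact mul_mem hu.2 ((hnorm i.succ).conj_mem _ (inv_mem hu.2) a)
            have hle : (P : Subgroup G) ⊓ Hc i.succ ≤ M := by
              obtain ⟨m, hm⟩ := IsPGroup.iff_card.mp (P.2.to_le (inf_le_left : (P : Subgroup G) ⊓ Hc i.succ ≤ P))
              have hd1 : M.relIndex ((P : Subgroup G) ⊓ Hc i.succ) ∣ p ^ m := hm ▸ Subgroup.relIndex_dvd_card _ _
              have hd2 : M.relIndex ((P : Subgroup G) ⊓ Hc i.succ) ∣ M.relIndex (Hc i.succ) := by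
                rw [inf_comm]
                have := Subgroup.relIndex_dvd_index_of_normal (M.subgroupOf (Hc i.succ)) ((P : Subgroup G).subgroupOf (Hc i.succ))
                rwa [Subgroup.relIndex, ← Subgroup.inf_subgroupOf_left, ← Subgroup.relIndex,
                  Subgroup.relIndex_subgroupOf inf_le_left] at this
              exact Subgroup.relIndex_eq_one.mp (Nat.eq_one_of_dvd_coprimes (hcopi.pow_right m) hd2 hd1)
            have h2 : π (u * a * u⁻¹ * a⁻¹) = 1 := (QuotientGroup.eq_one_iff _).mpr (hle h1)
            rw [map_mul, map_mul, map_mul, map_inv, map_inv] at h2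
            calc π u * π a = (π u * π a * (π u)⁻¹ * (π a)⁻¹) * (π a * π u) := by group
              _ = π a * π u := by rw [h2, one_mul]
          let NC := Subgroup.normalizer (C : Set (G ⧸ M))
          have hxQ1 : ∀ v, v ∈ Q1 → π x * v * (π x)⁻¹ ∈ Q1 := by
            rintro _ ⟨u, hu, rfl⟩
            rw [← map_mul, ← map_inv, ← map_mul]
            exact Subgroup.mem_map_of_mem π ⟨(Subgroup.mem_normalizer_iff.mp hxN u).mp hu.1, (hnorm i.succ).conj_mem u hu.2 x⟩
          have hxQ1' : ∀ v, v ∈ Q1 → (π x)⁻¹ * v * π x ∈ Q1 := by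
            rintro _ ⟨u, hu, rfl⟩
            rw [← map_inv, ← map_mul, ← map_mul]
            refine Subgroup.mem_map_of_mem π ⟨?_, ?_⟩
            · have := (Subgroup.mem_normalizer_iff.mp (inv_mem hxN) u).mp hu.1
              rwa [inv_inv] at this
            · have := (hnorm i.succ).conj_mem u hu.2 x⁻¹
              rwa [inv_inv] at this
          have hxC : π x ∈ NC := by
            refine Subgroup.mem_normalizer_iff.mpr fun w => ⟨fun hw => ?_, fun hw => ?_⟩
            · refine Subgroup.mem_centralizer_iff.mpr fun v hv => ?_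
              have := Subgroup.mem_centralizer_iff.mp hw _ (hxQ1' v hv)
              calc v * (π x * w * (π x)⁻¹) = π x * (((π x)⁻¹ * v * π x) * w) * (π x)⁻¹ := by group
                _ = π x * (w * ((π x)⁻¹ * v * π x)) * (π x)⁻¹ := by rw [this]
                _ = _ := by group
            · refine Subgroup.mem_centralizer_iff.mpr fun v hv => ?_
              have := Subgroup.mem_centralizer_iff.mp hw _ (hxQ1 v hv)
              calc v * w = (π x)⁻¹ * ((π x * v * (π x)⁻¹) * (π x * w * (π x)⁻¹)) * π x := by group
                _ = (π x)⁻¹ * ((π x * w * (π x)⁻¹) * (π x * v * (π x)⁻¹)) * π x := by rw [this]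
                _ = _ := by group
          have hidx : ¬ p ∣ C.relIndex NC := by
            intro h
            have h1 : p ∣ C.index := h.trans (Dvd.intro _ (Subgroup.relIndex_mul_index Subgroup.le_normalizer))
            have h2 : p ∣ ((P : Subgroup G).map π).index := h1.trans (Subgroup.index_dvd_of_le hPC)
            exact P.not_dvd_index (h2.trans (Subgroup.index_map_dvd _ (QuotientGroup.mk'_surjective M)))
          haveI : (C.subgroupOf NC).Normal := Subgroup.normal_subgroupOf_iff_le_normalizer Subgroup.le_normalizer |>.mpr le_rfl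
          have hr : π x ^ C.relIndex NC ∈ C := Subgroup.pow_index_mem (C.subgroupOf NC) ⟨π x, hxC⟩
          have hxCmem : π x ∈ C := by
            have hg : Nat.gcd (C.relIndex NC) (p ^ k) = 1 :=
              Nat.Coprime.pow_right k (Nat.Coprime.symm (hpp.coprime_iff_not_dvd.mpr hidx))
            have hz := Nat.gcd_eq_gcd_ab (C.relIndex NC) (p ^ k)
            rw [hg] at hz
            have : π x = (π x ^ C.relIndex NC) ^ Nat.gcdA (C.relIndex NC) (p ^ k) * (π x ^ (p ^ k)) ^ Nat.gcdB (C.relIndex NC) (p ^ k) := by
              rw [← zpow_natCast, ← zpow_natCast, ← zpow_mul, ← zpow_mul, ← zpow_add, ← hz, Nat.cast_one, zpow_one]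
            rw [this, ← map_pow π x (p ^ k), hxk, map_one, one_zpow, mul_one]
            exact C.zpow_mem hr _
          have hcc := Subgroup.mem_centralizer_iff.mp hxCmem (π c) (Subgroup.mem_map_of_mem π hcS)
          have hcom : π x * π q = π q * π x := by
            refine CfsgLib.Coprime.commute_of_commute_commutator ?_ ?_
            · rw [hc, map_mul, map_mul, map_mul, map_inv, map_inv] at hcc
              exact hcc.symm
            · have h1 : orderOf (π x) ∣ p ^ k := (orderOf_map_dvd π x).trans (orderOf_dvd_of_pow_eq_one hxk)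
              have h2 : orderOf (π c) ∣ Nat.card Q := (orderOf_map_dvd π c).trans (Q.orderOf_dvd_natCard hcQ)
              rw [hc, map_mul, map_mul, map_mul, map_inv, map_inv] at h2
              exact Nat.Coprime.coprime_dvd_left h1 (Nat.Coprime.coprime_dvd_right h2 (hQcop.pow_right k).symm)
          refine (QuotientGroup.eq_one_iff _).mp ?_
          show π c = 1
          rw [hc, map_mul, map_mul, map_mul, map_inv, map_inv, hcom]
          group
    rw [Subgroup.mem_centralizer_iff]
    intro q hq
    have h := main 0 q hq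
    rw [h0, Subgroup.mem_bot] at h
    calc q * x = (x * q * x⁻¹ * q⁻¹) * (q * x) := by rw [h, one_mul]
      _ = x * q := by group
  obtain ⟨R⟩ : Nonempty (Sylow p NQ) := inferInstance
  have hR : (R : Subgroup NQ) ≤ (Subgroup.centralizer (Q : Set G)).subgroupOf NQ := by
    intro z hz
    obtain ⟨k, hk⟩ := R.2 ⟨z, hz⟩
    exact claim z z.2 ⟨k, congrArg (fun w : (R : Subgroup NQ) => ((w : NQ) : G)) hk⟩
  exact R.not_dvd_index (hA.trans (Subgroup.index_dvd_of_le hR))

end Cfsg.Agent.S1901
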