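import Cfsg.Statements.S1902
import Cfsg.Agent.Constrained.BenderOmega
import Cfsg.Agent.Constrained.HallHigman
import Cfsg.Agent.LocalP.ThompsonJ


set_option autoImplicit false
open Cfsg

namespace Cfsg.Agent.S1902

/-- Let p be an odd prime, G a finite p-solvable group, and B an elementary abelian subgroup of order p² such that B is the subgroup generated by the elements of order p of some Sylow p-subgroup of C_G(b₀), for some nontrivial b₀ ∈ B. Then every B-invariant subgroup of G of order prime to p lies in O_{p'}(G). -/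
theorem result {G : Type*} [Group G] [Finite G] {p : ℕ} [Fact p.Prime] (hp : p ≠ 2)
    (hG : Cfsg.IsPSolvable p G) (B : Subgroup G) (hB : Cfsg.IsElementaryAbelian p B) (hBc : Nat.card B = p ^ 2)
    (b₀ : G) (hb₀ : b₀ ∈ B) (hb₁ : b₀ ≠ 1) (P : Sylow p ↥(Subgroup.centralizer ({b₀} : Set G)))
    (hBP : B = Subgroup.closure {x : G | x ∈ ((P : Subgroup ↥(Subgroup.centralizer ({b₀} : Set G))).map
      (Subgroup.centralizer ({b₀} : Set G)).subtype : Subgroup G) ∧ orderOf x = p})
    (Q : Subgroup G) (hQ : ¬ p ∣ Nat.card Q) (hinv : ∀ b ∈ B, ∀ x ∈ Q, b * x * b⁻¹ ∈ Q) :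
    Q ≤ Cfsg.pPrimeCore p G := by
  refine CfsgLib.Constrained.le_pPrimeCore_of_omega hp (CfsgLib.Constrained.IsPSolvable.isPConstrained hG)
    (E := B) (IsPGroup.of_card hBc) (fun x hx hxo => ?_) hQ ?_
  · -- an element of order `p` centralising `B` lies in a conjugate of `B`, which is `B`
    have hBC : B ≤ (Subgroup.centralizer ({b₀} : Set G)) := fun b hb => by
      rw [hBP] at hb
      refine (Subgroup.closure_le (Subgroup.centralizer ({b₀} : Set G))).2 ?_ hb
      rintro y ⟨⟨w, -, rfl⟩, -⟩
      exact w.2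
    have hxB : B ≤ Subgroup.centralizer ({x} : Set G) := fun b hb =>
      Subgroup.mem_centralizer_singleton_iff.2 (Subgroup.mem_centralizer_iff.1 hx b hb)
    have hxC : x ∈ (Subgroup.centralizer ({b₀} : Set G)) := Subgroup.mem_centralizer_singleton_iff.2
      (Subgroup.mem_centralizer_iff.1 hx b₀ hb₀).symm
    have hXp : IsPGroup p (Subgroup.zpowers x) := IsPGroup.of_card (n := 1) (by
      rw [Nat.card_zpowers, hxo, pow_one])
    have hsup : IsPGroup p (B ⊔ Subgroup.zpowers x : Subgroup G) := by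
      refine (IsPGroup.of_card hBc).to_sup_of_normal_left' hXp (Subgroup.zpowers_le.2 ?_)
      exact Subgroup.centralizer_le_normalizer _ hx
    have hle : B ⊔ Subgroup.zpowers x ≤ (Subgroup.centralizer ({b₀} : Set G)) := sup_le hBC (Subgroup.zpowers_le.2 hxC)
    obtain ⟨S, hS⟩ := (hsup.comap_of_injective (Subgroup.centralizer ({b₀} : Set G)).subtype (Subgroup.centralizer ({b₀} : Set G)).subtype_injective).exists_le_sylow
    obtain ⟨g, rfl⟩ := MulAction.exists_smul_eq ↥(Subgroup.centralizer ({b₀} : Set G)) P S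
    set B' := B.map (MulAut.conj (g : G)).toMonoidHom with hB'
    have hmem : ∀ y ∈ B ⊔ Subgroup.zpowers x, orderOf y = p → y ∈ B' := by
      intro y hy hyo
      have h1 : (⟨y, hle hy⟩ : (Subgroup.centralizer ({b₀} : Set G))) ∈ ((g • P : Sylow p (Subgroup.centralizer ({b₀} : Set G))) : Subgroup (Subgroup.centralizer ({b₀} : Set G))) := hS hy
      rw [Sylow.coe_subgroup_smul, Subgroup.mem_pointwise_smul_iff_inv_smul_mem] at h1
      refine ⟨(g : G)⁻¹ * y * (g : G), ?_, show (g : G) * ((g : G)⁻¹ * y * g) * (g : G)⁻¹ = y by group⟩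
      show (g : G)⁻¹ * y * (g : G) ∈ B
      rw [hBP]
      refine Subgroup.subset_closure ⟨?_, ?_⟩
      · exact ⟨_, h1, by simp⟩
      · rw [show (g : G)⁻¹ * y * g = MulAut.conj (g : G)⁻¹ y by simp, MulEquiv.orderOf_eq, hyo]
    have hBB' : B = B' := by
      refine Subgroup.eq_of_le_of_card_ge (fun b hb => ?_)
        (Subgroup.card_map_of_injective (MulAut.conj (g : G)).injective).le
      by_cases hb1 : b = 1
      · rw [hb1]; exact one_mem _
      · exact hmem b (Subgroup.mem_sup_left hb)
          (orderOf_eq_prime ((CfsgLib.LocalP.isElementaryAbelian_iff.1 hB).2 b hb) hb1)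
    rw [hBB']
    exact hmem x (Subgroup.mem_sup_right (Subgroup.mem_zpowers x)) hxo
  · intro b hb
    refine Subgroup.mem_normalizer_iff.2 fun a => ⟨fun ha => hinv b hb a ha, fun ha => ?_⟩
    have := hinv b⁻¹ (B.inv_mem hb) _ ha
    simpa [mul_assoc] using this

end Cfsg.Agent.S1902
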