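import Cfsg.Statements.S1904
import Cfsg.Agent.ScnThreeFree.Reduction

set_option autoImplicit false
open Cfsg

namespace Cfsg.Agent.S1904

/-- Let X be a finite nonabelian 2-group with no normal abelian subgroup that is self-centralizing and contains an elementary abelian subgroup of order 8. Suppose a group A of automorphisms of X of odd order satisfies [X, A] = X. Then X is the quaternion group of order 8, or X is special of order 64 with exactly three involutions, all central, or X is extraspecial of order 32 with exactly eleven involutions (the central product of a quaternion group and a dihedral group of order 8). -/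
theorem result {X : Type*} [Group X] [Finite X] (hX : IsPGroup 2 X) (hna : ¬ IsMulCommutative X)
    (hscn : ¬ ∃ A : Subgroup X, A.Normal ∧ Subgroup.centralizer (A : Set X) = A ∧
      ∃ E : Subgroup X, E ≤ A ∧ Cfsg.IsElementaryAbelian 2 E ∧ Nat.card E = 8)
    (A : Subgroup (MulAut X)) (hA : Odd (Nat.card A))
    (hXA : Subgroup.closure {g : X | ∃ φ ∈ A, ∃ x : X, g = x⁻¹ * φ x} = ⊤) :
    Nonempty (X ≃* QuaternionGroup 2) ∨
      (Cfsg.IsSpecial 2 X ∧ Nat.card X = 64 ∧ Nat.card {x : X // orderOf x = 2} = 3 ∧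
        ∀ x : X, orderOf x = 2 → x ∈ Subgroup.center X) ∨
      (Cfsg.IsExtraspecial 2 X ∧ Nat.card X = 32 ∧ Nat.card {x : X // orderOf x = 2} = 11) := by
  haveI : Fact (Nat.Prime 2) := ⟨Nat.prime_two⟩
  refine CfsgLib.ScnThreeFree.Hyp.shape (A := A) ⟨hX, hA, hXA, fun E hEn hEc hE2 => ?_, hna⟩
  by_contra hlt
  obtain ⟨B, hEB, hB⟩ := CfsgLib.PGroup.exists_maximal_normal_abelian (A₀ := E)
    (IsMulCommutative.of_comm fun a b => Subtype.ext (hEc a a.2 b b.2))
  obtain ⟨k, hk⟩ := IsPGroup.iff_card.1 (hX.to_subgroup E)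
  have hk3 : 3 ≤ k := by
    by_contra hk3
    exact hlt (hk ▸ (Nat.pow_le_pow_right (by omega) (show k ≤ 2 by omega) : 2 ^ k ≤ 2 ^ 2))
  obtain ⟨K, hK⟩ := Sylow.exists_subgroup_card_pow_prime (G := E) 2 (n := 3)
    (hk ▸ pow_dvd_pow 2 hk3)
  refine hscn ⟨B, hB.1.1, CfsgLib.PGroup.centralizer_eq_of_maximal_normal_abelian hX hB,
    K.map E.subtype, (Subgroup.map_subtype_le K).trans hEB, ⟨?_, ?_⟩, ?_⟩
  · exact IsMulCommutative.of_comm fun a b => Subtype.ext
      (hEc a ((Subgroup.map_subtype_le K) a.2) b ((Subgroup.map_subtype_le K) b.2))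
  · exact fun a ha => hE2 a ((Subgroup.map_subtype_le K) ha)
  · rw [← Nat.card_congr (Subgroup.equivMapOfInjective K E.subtype E.subtype_injective).toEquiv, hK]
    rfl

end Cfsg.Agent.S1904
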