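import Cfsg.Statements.S1905
import Cfsg.Agent.InvolCent.Basic

set_option autoImplicit false
open Cfsg

namespace Cfsg.Agent.S1905

/-- Let M be a subgroup of even order of a finite group S such that M contains the centralizer in S of each of its involutions and the normal core of M in S has odd order. Then all involutions of S are conjugate. If moreover N_S(X) ≤ M for a Sylow 2-subgroup X of M and I is an involution in the centre of X, then all involutions of M are conjugate in M and M = M₀ C_M(I) for some subgroup M₀ of M of odd order. -/
theorem result {S : Type*} [Group S] [Finite S] (M : Subgroup S) (hM : Even (Nat.card M))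
    (hC : ∀ i ∈ M, orderOf i = 2 → Subgroup.centralizer ({i} : Set S) ≤ M) (hcore : Odd (Nat.card M.normalCore)) :
    (∀ x y : S, orderOf x = 2 → orderOf y = 2 → IsConj x y) ∧
      ∀ (X : Sylow 2 M) (I : M), I ∈ (Subgroup.center ↥(X : Subgroup ↥M)).map (X : Subgroup ↥M).subtype → orderOf I = 2 →
        Subgroup.normalizer (((X : Subgroup M).map M.subtype : Subgroup S) : Set S) ≤ M →
        (∀ x y : M, orderOf x = 2 → orderOf y = 2 → IsConj x y) ∧
          ∃ M₀ : Subgroup M, Odd (Nat.card M₀) ∧
            ∀ m : M, ∃ a ∈ M₀, ∃ c ∈ Subgroup.centralizer ({I} : Set M), m = a * c := by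
  exact ⟨fun x y hx hy => CfsgLib.InvolCent.isConj_involutions' hM hC hcore x y hx hy,
    fun X I hI hI2 hN => CfsgLib.InvolCent.main hM hC hcore X I hI hI2 hN⟩

end Cfsg.Agent.S1905
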