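import Cfsg.Statements.S1906
import Cfsg.Agent.SylowGLThree.Diagonal
import Cfsg.Agent.SylowGLThree.Transfer
import Cfsg.Prelude.Def_Transfer
import Mathlib.GroupTheory.SpecificGroups.Cyclic
import Cfsg.Agent.PGroup.Normal
import Mathlib.GroupTheory.Nilpotent
import Mathlib.LinearAlgebra.Matrix.GeneralLinearGroup.Defs

set_option autoImplicit false
open Cfsg

namespace Cfsg.Agent.S1906

/-- Let G be a finite group with no subgroup of index 2 whose Sylow 2-subgroup X embeds in GL₃(F) for a finite field F of odd order. If X contains an elementary abelian subgroup of order 8, then X is abelian. -/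
theorem result {G : Type*} [Group G] [Finite G] (hG : ∀ H : Subgroup G, H.index ≠ 2) (X : Sylow 2 G)
    {F : Type*} [Field F] [Fintype F] (hF : Odd (Fintype.card F))
    (f : ↥(X : Subgroup G) →* GL (Fin 3) F) (hf : Function.Injective f)
    (E : Subgroup G) (hE : E ≤ (X : Subgroup G)) (hEa : Cfsg.IsElementaryAbelian 2 E) (hE8 : Nat.card E = 8) :
    IsMulCommutative (X : Subgroup G) := by
  classical
  by_contra hna
  obtain ⟨hEc, hE2⟩ := hEa
  have h2 : (2 : F) ≠ 0 := by
    intro h
    have hord : addOrderOf (1 : F) = 2 := by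
      refine addOrderOf_eq_prime ?_ one_ne_zero
      rw [nsmul_eq_mul, mul_one]
      exact_mod_cast h
    exact (Nat.not_even_iff_odd.2 hF) (even_iff_two_dvd.2 (hord ▸ addOrderOf_dvd_card))
  set E' : Subgroup (GL (Fin 3) F) := (E.subgroupOf (X : Subgroup G)).map f
  have hcardE : Nat.card E' = 8 := by
    rw [Subgroup.card_map_of_injective hf, Nat.card_congr (Subgroup.subgroupOfEquivOfLe hE).toEquiv, hE8]
  have hsq : ∀ e ∈ E', e * e = 1 := by
    rintro _ ⟨x, hx, rfl⟩
    rw [← map_mul, ← map_one f]
    congr 1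
    apply Subtype.ext
    have := hE2 _ (Subgroup.mem_subgroupOf.1 hx)
    simpa [pow_two] using this
  have hcomm : ∀ a ∈ E', ∀ b ∈ E', a * b = b * a := by
    rintro _ ⟨x, hx, rfl⟩ _ ⟨y, hy, rfl⟩
    rw [← map_mul, ← map_mul]
    congr 1
    apply Subtype.ext
    simpa using congrArg Subtype.val (mul_comm' (⟨x, hx⟩ : E) ⟨y, hy⟩)
  obtain ⟨hneg, hinv, hcen⟩ := CfsgLib.SylowGLThree.eight_facts h2 E' hsq hcomm hcardE
  obtain ⟨b, hbE, hfb⟩ := hneg
  -- `f b = -1` is central
  have hbc : ∀ x : (X : Subgroup G), x * b = b * x := fun x => hf (by rw [map_mul, map_mul, hfb]; simp)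
  have hb2 : b * b = 1 := hf (by rw [map_mul, hfb, map_one]; simp)
  have hdet : Matrix.GeneralLinearGroup.det (f b) ≠ 1 := by
    rw [hfb]
    intro h
    have := congrArg Units.val h
    simp [Matrix.GeneralLinearGroup.val_det_apply, Matrix.det_neg] at this
    exact h2 (by linear_combination -this)
  have hker : commutator (X : Subgroup G) ≤ (Matrix.GeneralLinearGroup.det.comp f).ker :=
    Abelianization.commutator_subset_ker _
  have hbC : b ∉ commutator (X : Subgroup G) := fun h => hdet (hker h)
  -- central involutions lie in `E`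
  have hcE : ∀ z : (X : Subgroup G), z ∈ Subgroup.center (X : Subgroup G) → z * z = 1 → z ∈ E.subgroupOf (X : Subgroup G) := by
    intro z hz hzz
    obtain ⟨e, he, hez⟩ : f z ∈ E' := by
      refine hinv (f z) ?_ (by rw [← map_mul, hzz, map_one])
      rintro _ ⟨e, -, rfl⟩
      rw [← map_mul, ← map_mul, Subgroup.mem_center_iff.1 hz e]
    rwa [← hf hez]
  -- a central involution of `X` inside the derived subgroup
  obtain ⟨a, haC, haZ, haa, ha1⟩ : ∃ a : (X : Subgroup G), a ∈ commutator (X : Subgroup G) ∧ a ∈ Subgroup.center (X : Subgroup G) ∧ a * a = 1 ∧ a ≠ 1 := by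
    haveI : Group.IsNilpotent (X : Subgroup G) := X.2.isNilpotent
    have hC : commutator (X : Subgroup G) ≠ ⊥ := fun h => hna
      ⟨⟨fun x y => by
        have h1 := Subgroup.commutator_mem_commutator (Subgroup.mem_top x) (Subgroup.mem_top y)
        rw [← commutator_def, h, Subgroup.mem_bot] at h1
        exact commutatorElement_eq_one_iff_mul_comm.1 h1⟩⟩
    obtain ⟨z, hz, hz1⟩ : ∃ z ∈ commutator (X : Subgroup G) ⊓ Subgroup.center (X : Subgroup G), z ≠ (1 : (X : Subgroup G)) := by
      rcases Subgroup.bot_or_exists_ne_one (commutator (X : Subgroup G) ⊓ Subgroup.center (X : Subgroup G)) with h | h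
      · exact absurd h (by
          exact CfsgLib.PGroup.inf_center_ne_bot X.2 _ hC)
      · exact h
    obtain ⟨k, hk⟩ := (X.2.to_subgroup (Subgroup.zpowers z)).exists_card_eq
    have h2d : 2 ∣ Nat.card (Subgroup.zpowers z) := by
      rw [hk]
      refine dvd_pow_self 2 fun h0 => hz1 ?_
      rw [h0, pow_zero, Nat.card_zpowers, orderOf_eq_one_iff] at hk
      exact hk
    obtain ⟨a, ha⟩ := exists_prime_orderOf_dvd_card' 2 h2d
    have hle : Subgroup.zpowers z ≤ commutator (X : Subgroup G) ⊓ Subgroup.center (X : Subgroup G) := Subgroup.zpowers_le.2 hz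
    refine ⟨a, (hle a.2).1, (hle a.2).2, ?_, ?_⟩
    · have := pow_orderOf_eq_one a
      rw [ha, pow_two] at this
      exact congrArg Subtype.val this
    · intro h
      rw [orderOf_eq_one_iff.2 (Subtype.ext h)] at ha
      omega
  -- at most three central involutions
  set Z := (E.subgroupOf (X : Subgroup G)) ⊓ Subgroup.center (X : Subgroup G) with hZ
  have hZ4 : Nat.card Z ≤ 4 := by
    have hdvd : Nat.card Z ∣ 8 := by
      rw [← hE8, ← Nat.card_congr (Subgroup.subgroupOfEquivOfLe hE).toEquiv]
      exact Subgroup.card_dvd_of_le inf_le_left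
    have hne : Nat.card Z ≠ 8 := fun h => by
      have hZE : Z = E.subgroupOf (X : Subgroup G) := Subgroup.eq_of_le_of_card_ge inf_le_left
        (by rw [h, Nat.card_congr (Subgroup.subgroupOfEquivOfLe hE).toEquiv, hE8])
      refine hna ⟨⟨fun x y => hf ?_⟩⟩
      rw [map_mul, map_mul]
      have hc : ∀ x : (X : Subgroup G), ∀ e ∈ E', f x * e = e * f x := by
        rintro x _ ⟨e, he, rfl⟩
        have : e ∈ Z := hZE ▸ he
        rw [← map_mul, ← map_mul, Subgroup.mem_center_iff.1 this.2 x]
      exact hcen _ _ (hc x) (hc y)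
    obtain ⟨i, hi, hi'⟩ := (Nat.dvd_prime_pow Nat.prime_two (m := 3)).1 hdvd
    interval_cases i <;> simp_all
  have hba : b ≠ a := fun h => hbC (h ▸ haC)
  have hb1 : b ≠ 1 := fun h => hbC (h ▸ one_mem _)
  have hbZ : b ∈ Z := ⟨hbE, Subgroup.mem_center_iff.2 hbc⟩
  have haZ' : a ∈ Z := ⟨hcE a haZ haa, haZ⟩
  have hfour : ∀ z ∈ Z, z = 1 ∨ z = a ∨ z = b ∨ z = a * b := by
    intro z hz
    by_contra hcon
    push Not at hcon
    obtain ⟨h1, h2, h3, h4⟩ := hcon
    have hab1 : a * b ≠ 1 := fun h => hba (by
      rw [← mul_one b, ← haa, ← mul_assoc, ← hbc a, h, one_mul])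
    have hsub : ({z, 1, a, b, a * b} : Set (X : Subgroup G)) ⊆ (Z : Set (X : Subgroup G)) := by
      rintro w (rfl | rfl | rfl | rfl | rfl)
      exacts [hz, Z.one_mem, haZ', hbZ, Z.mul_mem haZ' hbZ]
    have := Set.ncard_le_ncard hsub (Set.toFinite _)
    rw [← Nat.card_coe_set_eq (Z : Set (X : Subgroup G))] at this
    have e5 : ({z, 1, a, b, a * b} : Set (X : Subgroup G)).ncard = 5 := by
      rw [Set.ncard_insert_of_notMem (by simp [h1, h2, h3, h4]) (Set.toFinite _),
        Set.ncard_insert_of_notMem (by simp [Ne.symm ha1, Ne.symm hb1, Ne.symm hab1]) (Set.toFinite _),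
        Set.ncard_insert_of_notMem (by simp [Ne.symm hba, hb1]) (Set.toFinite _),
        Set.ncard_pair (by simpa using ha1)]
    rw [e5] at this
    exact absurd (this.trans hZ4) (by norm_num)
  -- `N(X)` fixes `b`
  have hiso : ∀ n ∈ Subgroup.normalizer ((X : Subgroup G) : Set G), n⁻¹ * (b : G) * n = b := by
    have key : ∀ n ∈ Subgroup.normalizer ((X : Subgroup G) : Set G), n⁻¹ * (b : G) * n = b ∨
        n⁻¹ * (b : G) * n = (a : G) * b := by
      intro n hn
      let θ : (X : Subgroup G) →* (X : Subgroup G) :=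
        { toFun := fun x => ⟨n⁻¹ * x * n, (Subgroup.mem_normalizer_iff''.1 hn x).1 x.2⟩
          map_one' := by ext; simp
          map_mul' := fun x y => by ext; simp [mul_assoc] }
      let θ' : (X : Subgroup G) →* (X : Subgroup G) :=
        { toFun := fun x => ⟨n * x * n⁻¹, (Subgroup.mem_normalizer_iff.1 hn x).1 x.2⟩
          map_one' := by ext; simp
          map_mul' := fun x y => by ext; simp [mul_assoc] }
      have hθθ : ∀ x, θ' (θ x) = x := fun x => by ext; simp [θ, θ', mul_assoc]
      have hθθ' : ∀ x, θ (θ' x) = x := fun x => by ext; simp [θ, θ', mul_assoc]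
      have hC' : θ b ∉ commutator (X : Subgroup G) := fun h => hbC (by
        rw [← hθθ b]
        have := Subgroup.mem_map_of_mem θ' h
        rw [commutator_def, Subgroup.map_commutator] at this
        exact Subgroup.commutator_mono le_top le_top this)
      have hmem : θ b ∈ Z := by
        have hc : θ b ∈ Subgroup.center (X : Subgroup G) := Subgroup.mem_center_iff.2 fun x => by
          rw [← hθθ' x, ← map_mul, ← map_mul, hbc]
        exact ⟨hcE _ hc (by rw [← map_mul, hb2, map_one]), hc⟩
      rcases hfour _ hmem with h | h | h | h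
      · exact absurd (h ▸ one_mem _) hC'
      · exact absurd (h ▸ haC) hC'
      · exact Or.inl (congrArg Subtype.val h)
      · exact Or.inr (congrArg Subtype.val h)
    -- the elements fixing `b` form a subgroup of index at most two containing `X`
    intro n hn
    set N := Subgroup.normalizer ((X : Subgroup G) : Set G)
    set St : Subgroup N := (Subgroup.centralizer ({(b : G)} : Set G)).subgroupOf N
    have hmem : ∀ m : N, m ∈ St ↔ (m : G)⁻¹ * b * m = b := by
      intro m
      simp only [St, Subgroup.mem_subgroupOf, Subgroup.mem_centralizer_singleton_iff]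
      constructor
      · intro h
        rw [mul_assoc, ← h, inv_mul_cancel_left]
      · intro h
        calc (m : G) * b = m * ((m : G)⁻¹ * b * m) := by rw [h]
          _ = b * m := by group
    by_contra hcon
    have hnot : (⟨n, hn⟩ : N) ∉ St := fun h => hcon ((hmem _).1 h)
    have hindex : St.index = 2 := by
      rw [Subgroup.index_eq_two_iff]
      refine ⟨⟨n, hn⟩, fun m => ?_⟩
      rw [xor_iff_iff_not]
      have hn' : n⁻¹ * (b : G) * n = (a : G) * b := (key n hn).resolve_left hcon
      rw [hmem, hmem]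
      simp only [Subgroup.coe_mul, mul_inv_rev]
      rcases key m m.2 with h | h
      · refine iff_of_false ?_ (not_not.2 h)
        intro h'
        apply hcon
        calc n⁻¹ * (b : G) * n = n⁻¹ * ((m : G)⁻¹ * b * m) * n := by rw [h]
          _ = _ := by group
          _ = b := h'
      · refine iff_of_true ?_ ?_
        · rcases key _ (N.mul_mem m.2 hn) with h' | h'
          · simpa [mul_assoc] using h'
          · exfalso
            have : n⁻¹ * ((m : G)⁻¹ * b * m) * n = n⁻¹ * (b : G) * n := by
              rw [hn', ← h']; group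
            have := mul_left_cancel (mul_right_cancel this)
            rw [h] at this
            exact ha1 (Subtype.ext (mul_eq_right.1 this))
        · intro h'
          rw [h'] at h
          exact ha1 (Subtype.ext (mul_eq_right.1 h.symm))
    have hdvd : St.index ∣ ((X : Subgroup G).subgroupOf N).index := by
      refine Subgroup.index_dvd_of_le fun m hm => (hmem m).2 ?_
      have := congrArg Subtype.val (hbc ⟨m, hm⟩)
      calc (m : G)⁻¹ * b * m = (m : G)⁻¹ * ((⟨m, hm⟩ : (X : Subgroup G)) * b : (X : Subgroup G)) := by rw [hbc ⟨m, hm⟩]; simp [mul_assoc]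
        _ = b := by simp
    rw [hindex] at hdvd
    refine X.not_dvd_index (hdvd.trans ?_)
    exact Subgroup.relIndex_dvd_index_of_le Subgroup.le_normalizer
  obtain ⟨H, hH⟩ := CfsgLib.SylowGLThree.exists_index_two_of_transfer X (b : G) b.2
    (congrArg Subtype.val hb2) (fun x hx => congrArg Subtype.val (hbc ⟨x, hx⟩)) hbC hiso
  exact hG H hH

end Cfsg.Agent.S1906
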