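import Cfsg.Statements.S1907
import Mathlib.GroupTheory.Perm.Cycle.Type
import Cfsg.Agent.PLength.One
import Cfsg.Agent.Eq.Def_Local

set_option autoImplicit false
open Cfsg

namespace Cfsg.Agent.S1907

/-- Let P be a Sylow p-subgroup of a finite group G, H = P ∩ O_{p',p}(G), N = N_G(H) and D = O_{p'}(G). (a) If y is an element of p-power order of N and d ∈ D with d⁻¹ y d ∈ N, then d = d₁ d₂ with d₁ ∈ C_D(y) and d₂ ∈ C_D(H). (b) Two elements of P that are conjugate in G are conjugate in N. -/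
theorem result {G : Type*} [Group G] [Finite G] {p : ℕ} [Fact p.Prime] (P : Sylow p G) :
    (∀ y ∈ Subgroup.normalizer (((P : Subgroup G) ⊓ Cfsg.pPrimePCore p G : Subgroup G) : Set G), (∃ k : ℕ, orderOf y = p ^ k) →
      ∀ d ∈ Cfsg.pPrimeCore p G, d⁻¹ * y * d ∈ Subgroup.normalizer (((P : Subgroup G) ⊓ Cfsg.pPrimePCore p G : Subgroup G) : Set G) →
        ∃ d₁ ∈ Cfsg.pPrimeCore p G ⊓ Subgroup.centralizer ({y} : Set G),
          ∃ d₂ ∈ Cfsg.pPrimeCore p G ⊓ Subgroup.centralizer (((P : Subgroup G) ⊓ Cfsg.pPrimePCore p G : Subgroup G) : Set G), d = d₁ * d₂) ∧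
    ∀ x y : G, x ∈ (P : Subgroup G) → y ∈ (P : Subgroup G) → IsConj x y →
      ∃ n ∈ Subgroup.normalizer (((P : Subgroup G) ⊓ Cfsg.pPrimePCore p G : Subgroup G) : Set G), n * x * n⁻¹ = y := by
  classical
  haveI := Fintype.ofFinite G
  set D := Cfsg.pPrimeCore p G with hD
  set L := Cfsg.pPrimePCore p G with hL
  set H := (P : Subgroup G) ⊓ L with hH
  set N := Subgroup.normalizer (H : Set G) with hN
  haveI hDn : D.Normal := Cfsg.pPrimeCore_normal p G
  haveI hLn : L.Normal := inferInstanceAs ((Cfsg.pCore p (G ⧸ Cfsg.pPrimeCore p G)).comap _).Normal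
  have hDcop : (Nat.card D).Coprime p := CfsgLib.PLength.pPrimeCore_card_coprime p G
  have hHp : IsPGroup p H := P.2.to_le inf_le_left
  have hnd : ∀ c ∈ D, c ∈ N → c ∈ Subgroup.centralizer (H : Set G) := by
    intro c hc hcN
    rw [Subgroup.mem_centralizer_iff]
    intro h hh
    exact (CfsgLib.PLength.commute_of_conj_mem hDcop hHp hc hh ((Subgroup.mem_normalizer_iff.mp hcN h).mp hh)).symm
  have hcN : ∀ c ∈ Subgroup.centralizer (H : Set G), c ∈ N := fun c hc =>
    Subgroup.mem_normalizer_iff.mpr fun h => by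
      constructor
      · intro hh
        rwa [← Subgroup.mem_centralizer_iff.mp hc h hh, mul_inv_cancel_right]
      · intro hh
        have := Subgroup.mem_centralizer_iff.mp hc _ hh
        have e : c * h * c⁻¹ = h := by
          rw [inv_mul_cancel_right] at this
          exact (mul_left_cancel this).symm
        rwa [e] at hh
  have key : ∀ y ∈ N, (∃ k : ℕ, orderOf y = p ^ k) → ∀ d ∈ D, d⁻¹ * y * d ∈ N →
      ∃ d₁ ∈ D ⊓ Subgroup.centralizer ({y} : Set G), ∃ d₂ ∈ D ⊓ Subgroup.centralizer (H : Set G), d = d₁ * d₂ := by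
    intro y hy hyk d hd hyd
    obtain ⟨k, hk⟩ := hyk
    let E := D ⊓ N
    let S := {x : G // d⁻¹ * x ∈ E}
    have he : y * E.subtype 1 * y⁻¹ = 1 := by simp
    have hconjE : ∀ g ∈ N, ∀ e ∈ E, g * e * g⁻¹ ∈ E := fun g hg e he =>
      ⟨hDn.conj_mem e he.1 g, N.mul_mem (N.mul_mem hg he.2) (N.inv_mem hg)⟩
    have hyd' : d⁻¹ * (y * d * y⁻¹) ∈ E := by
      refine ⟨D.mul_mem (D.inv_mem hd) (hDn.conj_mem d hd y), ?_⟩
      have := N.mul_mem hyd (N.inv_mem hy)
      simpa [mul_assoc] using this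
    have hinv : ∀ x : G, d⁻¹ * x ∈ E ↔ d⁻¹ * (MulAut.conj y x) ∈ E := by
      intro x
      have e : d⁻¹ * (MulAut.conj y x) = (d⁻¹ * (y * d * y⁻¹)) * (y * (d⁻¹ * x) * y⁻¹) := by
        simp [MulAut.conj_apply, mul_assoc]
      rw [e, E.mul_mem_cancel_left hyd']
      refine ⟨fun h => hconjE y hy _ h, fun h => ?_⟩
      have := hconjE y⁻¹ (N.inv_mem hy) _ h
      simpa [mul_assoc] using this
    let σ : Equiv.Perm S := (MulAut.conj y).toEquiv.subtypeEquiv hinv
    have hσ : ∀ j : ℕ, ∀ x : S, (((σ ^ j) x : S) : G) = MulAut.conj (y ^ j) (x : G) := by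
      intro j
      induction j with
      | zero => intro x; simp
      | succ j ih =>
        intro x
        rw [pow_succ', Equiv.Perm.mul_apply, pow_succ', map_mul, MulAut.mul_apply, ← ih x]
        rfl
    have hσp : σ ^ (p ^ k) = 1 := Equiv.ext fun x => Subtype.ext (by
      rw [hσ, ← hk, pow_orderOf_eq_one]; simp)
    have hcard : ¬ p ∣ Fintype.card S := by
      have e : S ≃ E :=
        { toFun := fun x => ⟨d⁻¹ * x.1, x.2⟩
          invFun := fun e => ⟨d * e.1, by rw [inv_mul_cancel_left]; exact e.2⟩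
          left_inv := fun x => Subtype.ext (mul_inv_cancel_left _ _)
          right_inv := fun e => Subtype.ext (inv_mul_cancel_left _ _) }
      rw [← Nat.card_eq_fintype_card, Nat.card_congr e]
      exact fun h => (Fact.out : p.Prime).not_dvd_one (by
        have h1 : p ∣ Nat.gcd (Nat.card D) p := Nat.dvd_gcd (h.trans (Subgroup.card_dvd_of_le inf_le_left)) dvd_rfl
        rwa [hDcop] at h1)
    obtain ⟨x, hx⟩ := Equiv.Perm.exists_fixed_point_of_prime hcard hσp
    have hxy : y * (x : G) * y⁻¹ = x := congrArg Subtype.val hx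
    refine ⟨x, ⟨?_, ?_⟩, (x : G)⁻¹ * d, ⟨?_, ?_⟩, by simp⟩
    · have := D.mul_mem hd x.2.1
      rwa [mul_inv_cancel_left] at this
    · refine Subgroup.mem_centralizer_singleton_iff.mpr ?_
      calc (x : G) * y = y * (x : G) * y⁻¹ * y := by rw [hxy]
        _ = y * (x : G) := by group
    · have := D.inv_mem x.2.1
      rwa [mul_inv_rev, inv_inv] at this
    · refine hnd _ ?_ ?_
      · have := D.inv_mem x.2.1
        rwa [mul_inv_rev, inv_inv] at this
      · have := N.inv_mem x.2.2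
        rwa [mul_inv_rev, inv_inv] at this
  refine ⟨key, ?_⟩
  have hPN : (P : Subgroup G) ≤ N := by
    intro g hg
    refine Subgroup.mem_normalizer_iff.mpr fun h => ?_
    simp only [hH, Subgroup.mem_inf]
    refine and_congr ⟨fun hh => mul_mem (mul_mem hg hh) (inv_mem hg), fun hh => ?_⟩ ⟨fun hh => hLn.conj_mem h hh g, fun hh => ?_⟩
    · have := mul_mem (mul_mem (inv_mem hg) hh) hg
      simpa [mul_assoc] using this
    · have := hLn.conj_mem _ hh g⁻¹
      simpa [mul_assoc] using this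
  obtain ⟨Q⟩ : Nonempty (Sylow p L) := inferInstance
  have hQH : Nat.card Q ≤ Nat.card H := by
    have hQp : IsPGroup p ((Q : Subgroup L).map L.subtype) := Q.2.map _
    obtain ⟨P', hP'⟩ := hQp.exists_le_sylow
    obtain ⟨g, hg⟩ := MulAction.exists_smul_eq G P' P
    have hle : ((Q : Subgroup L).map L.subtype).map (MulAut.conj g).toMonoidHom ≤ H := by
      rintro _ ⟨z, hz, rfl⟩
      refine ⟨?_, ?_⟩
      · rw [← hg]
        exact ⟨z, hP' hz, rfl⟩
      · obtain ⟨w, -, rfl⟩ := hz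
        exact hLn.conj_mem _ w.2 g
    have h1 := Subgroup.card_le_of_le hle
    rwa [Subgroup.card_map_of_injective (MulAut.conj g).injective, Subgroup.card_map_of_injective L.subtype_injective] at h1
  let H0 : Subgroup L := H.subgroupOf L
  have hH0c : Nat.card H0 = Nat.card H := Nat.card_congr (Subgroup.subgroupOfEquivOfLe inf_le_right).toEquiv
  have hH0p : IsPGroup p H0 := hHp.of_equiv (Subgroup.subgroupOfEquivOfLe inf_le_right).symm
  obtain ⟨Q', hQ'⟩ := hH0p.exists_le_sylow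
  have hQQ : Nat.card Q' = Nat.card Q := by rw [Q'.card_eq_multiplicity, Q.card_eq_multiplicity]
  have hQeq : H0 = (Q' : Subgroup L) := Subgroup.eq_of_le_of_card_ge hQ' (by omega)
  have htop := Sylow.normalizer_sup_eq_top Q'
  rw [← hQeq, show H0.map L.subtype = H from Subgroup.map_subgroupOf_eq_of_le inf_le_right] at htop
  obtain ⟨m, hm⟩ := IsPGroup.iff_card.mp (CfsgLib.PLength.pCore_isPGroup p (G ⧸ Cfsg.pPrimeCore p G))
  have hDL : D ≤ L := QuotientGroup.le_comap_mk' _ _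
  have hrel : D.relIndex L = p ^ m := by
    rw [← hm]
    have h := Subgroup.relIndex_comap ⊥ (QuotientGroup.mk' (Cfsg.pPrimeCore p G)) L
    rw [MonoidHom.comap_bot, QuotientGroup.ker_mk', Subgroup.relIndex_bot_left, hL, Cfsg.pPrimePCore,
      Subgroup.map_comap_eq_self_of_surjective (QuotientGroup.mk'_surjective _)] at h
    exact h
  have hLHD : L ≤ D ⊔ H := by
    refine Subgroup.relIndex_eq_one.mp (Nat.eq_one_of_dvd_coprimes (b := H.relIndex L) (a := p ^ m) ?_ ?_ ?_)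
    · refine ((Fact.out : p.Prime).coprime_iff_not_dvd.mpr ?_).pow_left m
      have : ¬ p ∣ (Q' : Subgroup L).index := Q'.not_dvd_index
      rwa [← hQeq] at this
    · rw [← hrel]; exact Subgroup.relIndex_dvd_of_le_left _ le_sup_left
    · exact Subgroup.relIndex_dvd_of_le_left _ le_sup_right
  have hG : (⊤ : Subgroup G) ≤ N ⊔ D := by
    rw [← htop]
    exact sup_le le_sup_left (hLHD.trans (sup_le le_sup_right (le_trans Subgroup.le_normalizer le_sup_left)))
  intro x y hx hy hxy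
  obtain ⟨g, hg⟩ := isConj_iff.mp hxy
  obtain ⟨n, hn, d, hd, rfl⟩ := Subgroup.mem_sup_of_normal_right.mp (hG (Subgroup.mem_top g))
  have hdx : d * x * d⁻¹ = n⁻¹ * y * n := by rw [← hg]; group
  have hmem : (d⁻¹)⁻¹ * x * d⁻¹ ∈ N := by
    rw [inv_inv, hdx]
    exact N.mul_mem (N.mul_mem (N.inv_mem hn) (hPN hy)) hn
  have hxk : ∃ k : ℕ, orderOf x = p ^ k := by
    obtain ⟨k, hk⟩ := IsPGroup.iff_orderOf.mp P.2 ⟨x, hx⟩
    exact ⟨k, by rwa [Subgroup.orderOf_mk] at hk⟩
  obtain ⟨d₁, hd₁, d₂, hd₂, hdd⟩ := key x (hPN hx) hxk d⁻¹ (D.inv_mem hd) hmem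
  have hc := Subgroup.mem_centralizer_singleton_iff.mp hd₁.2
  have hd' : d = d₂⁻¹ * d₁⁻¹ := by rw [← mul_inv_rev, ← hdd, inv_inv]
  refine ⟨n * d₂⁻¹, N.mul_mem hn (N.inv_mem (hcN _ hd₂.2)), ?_⟩
  rw [← hg, hd']
  have : d₁⁻¹ * x * d₁ = x := by rw [mul_assoc, ← hc, ← mul_assoc, inv_mul_cancel, one_mul]
  calc n * d₂⁻¹ * x * (n * d₂⁻¹)⁻¹ = n * d₂⁻¹ * (d₁⁻¹ * x * d₁) * (n * d₂⁻¹)⁻¹ := by rw [this]
    _ = _ := by group

end Cfsg.Agent.S1907
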