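import Cfsg.Statements.S1924
import Cfsg.Agent.Eq.Def_Transfer
import Cfsg.Agent.Transfer.Control

set_option autoImplicit false
open Cfsg

namespace Cfsg.Agent.S1924

theorem sign_eq_neg_one {α : Type*} [Fintype α] [DecidableEq α] (σ : Equiv.Perm α) {k : ℕ}
    (hk : 1 ≤ k) (hσ : σ ^ 2 ^ k = 1) (hfree : ∀ x, (σ ^ 2 ^ (k - 1)) x ≠ x)
    {m : ℕ} (hm : Odd m) (hcard : Fintype.card α = 2 ^ k * m) : Equiv.Perm.sign σ = -1 := by
  have hall : ∀ a ∈ σ.cycleType, a = 2 ^ k := by
    intro a ha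
    have h1 : a ∣ 2 ^ k := (Equiv.Perm.dvd_of_mem_cycleType ha).trans (orderOf_dvd_of_pow_eq_one hσ)
    obtain ⟨i, hik, rfl⟩ := (Nat.dvd_prime_pow Nat.prime_two).mp h1
    rcases hik.lt_or_eq with hlt | rfl
    · exfalso
      rw [Equiv.Perm.cycleType_def, Multiset.mem_map] at ha
      obtain ⟨c, hc, hca⟩ := ha
      rw [Finset.mem_val] at hc
      obtain ⟨hcyc, -⟩ := Equiv.Perm.mem_cycleFactorsFinset_iff.mp hc
      obtain ⟨x, hx, -⟩ := id hcyc
      have hcx : c = σ.cycleOf x :=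
        Equiv.Perm.cycle_is_cycleOf (Equiv.Perm.mem_support.mpr hx) hc
      have h2 : c ^ 2 ^ (k - 1) = 1 := by
        refine orderOf_dvd_iff_pow_eq_one.mp ?_
        rw [hcyc.orderOf]
        simp only [Function.comp_apply] at hca
        rw [hca]
        exact Nat.pow_dvd_pow 2 (by omega)
      apply hfree x
      rw [← Equiv.Perm.cycleOf_pow_apply_self, ← hcx, h2]
      rfl
    · rfl
  have hsupp : σ.support = Finset.univ := by
    refine Finset.eq_univ_of_forall fun x => Equiv.Perm.mem_support.mpr fun hx => hfree x ?_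
    exact Equiv.Perm.pow_apply_eq_self_of_apply_eq_self hx _
  have hrep : σ.cycleType = Multiset.replicate (Multiset.card σ.cycleType) (2 ^ k) :=
    Multiset.eq_replicate.mpr ⟨rfl, hall⟩
  have hsum : σ.cycleType.sum = 2 ^ k * m := by
    rw [Equiv.Perm.sum_cycleType, hsupp, Finset.card_univ, hcard]
  have hcnt : Multiset.card σ.cycleType = m := by
    have h := hsum
    rw [hrep, Multiset.sum_replicate, smul_eq_mul, mul_comm] at h
    exact Nat.eq_of_mul_eq_mul_left (pow_pos two_pos k) h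
  rw [Equiv.Perm.sign_of_cycleType, hsum, hcnt]
  have : Odd (2 ^ k * m + m) := by
    refine Even.add_odd (Even.mul_right ?_ _) hm
    exact (Nat.even_pow.mpr ⟨even_two, by omega⟩)
  rw [this.neg_one_pow]

/-- The parity step: the permutation character of `H` on the cosets of `U`. -/
theorem parity_step {G : Type*} [Group G] [Finite G] {U H : Subgroup G} (hUH : U ≤ H)
    {u : G} (hu : u ∈ H) {k : ℕ} (hk : 1 ≤ k) (huo : u ^ 2 ^ k = 1)
    (hfree : ∀ g : G, g⁻¹ * u ^ 2 ^ (k - 1) * g ∉ U) {m : ℕ} (hm : Odd m)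
    (hidx : U.relIndex H = 2 ^ k * m) :
    ∃ H' : Subgroup G, H' ≤ H ∧ H'.relIndex H = 2 ∧ u ∉ H' ∧
      (∀ g ∈ H, Odd (orderOf g) → g ∈ H') ∧
      ∀ (v : G), v ∈ H → v ^ 2 ^ k = 1 → (∀ g : G, g⁻¹ * v ^ 2 ^ (k - 1) * g ∉ U) → v ∉ H' := by
  classical
  letI : Fintype (H ⧸ U.subgroupOf H) := Fintype.ofFinite _
  let f : H →* ℤˣ := Equiv.Perm.sign.comp (MulAction.toPermHom H (H ⧸ U.subgroupOf H))
  have hval : ∀ (v : G) (hv : v ∈ H), v ^ 2 ^ k = 1 → (∀ g : G, g⁻¹ * v ^ 2 ^ (k - 1) * g ∉ U) →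
      f ⟨v, hv⟩ = -1 := by
    intro v hv hvo hvfree
    refine sign_eq_neg_one _ hk ?_ (fun q hq => ?_) hm ?_
    · rw [← map_pow, show (⟨v, hv⟩ : H) ^ 2 ^ k = 1 from Subtype.ext hvo, map_one]
    · rw [← map_pow, MulAction.toPermHom_apply, MulAction.toPerm_apply] at hq
      obtain ⟨g, rfl⟩ := QuotientGroup.mk_surjective q
      rw [MulAction.Quotient.smul_mk, smul_eq_mul, eq_comm, QuotientGroup.eq, Subgroup.mem_subgroupOf] at hq
      apply hvfree (g : G)
      simpa [mul_assoc] using hq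
    · rw [← Nat.card_eq_fintype_card, ← Subgroup.index_eq_card]
      exact hidx
  refine ⟨f.ker.map H.subtype, Subgroup.map_subtype_le _, ?_, ?_, fun g hg hodd => ?_,
    fun v hv hvo hvfree => ?_⟩
  · rw [Subgroup.relIndex, Subgroup.subgroupOf,
      Subgroup.comap_map_eq_self_of_injective H.subtype_injective, Subgroup.index_ker]
    have htop : f.range = ⊤ := by
      rw [eq_top_iff]
      intro y _
      rcases Int.units_eq_one_or y with rfl | rfl
      · exact one_mem _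
      · exact ⟨⟨u, hu⟩, hval u hu huo hfree⟩
    rw [htop, Subgroup.card_top, Nat.card_eq_fintype_card, Fintype.card_units_int]
  · rintro ⟨w, hw, hwu⟩
    have hw' : f ⟨u, hu⟩ = 1 := by rw [show (⟨u, hu⟩ : H) = w from Subtype.ext hwu.symm]; exact hw
    rw [hval u hu huo hfree] at hw'
    exact absurd hw' (by decide)
  · refine ⟨⟨g, hg⟩, ?_, rfl⟩
    rw [SetLike.mem_coe, MonoidHom.mem_ker, ← orderOf_eq_one_iff]
    refine Nat.eq_one_of_dvd_coprimes (Nat.coprime_two_right.mpr hodd)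
      ((orderOf_map_dvd f _).trans (by rw [Subgroup.orderOf_mk])) (orderOf_dvd_of_pow_eq_one ?_)
    exact Int.units_sq _
  · rintro ⟨w, hw, hwv⟩
    have hw' : f ⟨v, hv⟩ = 1 := by rw [show (⟨v, hv⟩ : H) = w from Subtype.ext hwv.symm]; exact hw
    rw [hval v hv hvo hvfree] at hw'
    exact absurd hw' (by decide)

/-- Descend along the cyclic part. -/
theorem descend {G : Type*} [Group G] [Finite G] (T : Subgroup G) (K : Subgroup G)
    (hK : K = Cfsg.pResidual 2 G) (hTK : T ≤ K) :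
    ∀ (k : ℕ) (H : Subgroup G), K ≤ H → ∀ c ∈ H, orderOf c = 2 ^ k →
      (∀ g : G, 1 ≤ k → g⁻¹ * c ^ 2 ^ (k - 1) * g ∉ T) → ∀ m : ℕ, Odd m →
      T.relIndex H = 2 ^ k * m → ¬ 2 ∣ T.relIndex K := by
  intro k
  induction k with
  | zero =>
    intro H hKH c _ _ _ m hm hidx h2
    rw [pow_zero, one_mul] at hidx
    have h3 : T.relIndex K ∣ m :=
      hidx ▸ (Subgroup.relIndex_mul_relIndex T K H hTK hKH ▸ dvd_mul_right _ _)
    exact (Nat.not_even_iff_odd.mpr hm) (even_iff_two_dvd.mpr (h2.trans h3))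
  | succ k ih =>
    intro H hKH c hc hco hfree m hm hidx
    have hfree' : ∀ g : G, g⁻¹ * c ^ 2 ^ (k + 1 - 1) * g ∉ T := fun g => hfree g (by omega)
    have hco' : c ^ 2 ^ (k + 1) = 1 := by rw [← hco, pow_orderOf_eq_one]
    obtain ⟨H', hH', hidx', hcH', hodd, -⟩ :=
      parity_step (hTK.trans hKH) hc (by omega) hco' hfree' hm hidx
    have hKH' : K ≤ H' := by
      rw [hK, Cfsg.pResidual, Subgroup.closure_le]
      intro g hg
      exact hodd g (hKH (hK ▸ Subgroup.subset_closure hg)) (Nat.coprime_two_right.mp hg)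
    refine ih H' hKH' (c ^ 2) ?_ ?_ ?_ m hm ?_
    · have h := Subgroup.sq_mem_of_index_two (H := H'.subgroupOf H) hidx' ⟨c, hc⟩
      exact h
    · rw [orderOf_pow, hco, Nat.gcd_eq_right (dvd_pow_self 2 (Nat.succ_ne_zero k)), pow_succ]
      simp
    · intro g hk1
      rw [← pow_mul, ← pow_succ', show k - 1 + 1 = k + 1 - 1 by omega]
      exact hfree' g
    · have h := Subgroup.relIndex_mul_relIndex T H' H (hTK.trans hKH') hH'
      rw [hidx', hidx, pow_succ, mul_right_comm] at h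
      exact Nat.eq_of_mul_eq_mul_right two_pos h

/-- In a dihedral group the elements outside a cyclic subgroup of index 2 are involutions. -/
theorem dihedral_outside {G : Type*} [Group G] [Finite G] {D C : Subgroup G} {n : ℕ} (hn : 2 ≤ n)
    (e : D ≃* DihedralGroup n) (hCD : C ≤ D) (hC : IsCyclic C) (hCi : C.relIndex D = 2) :
    Nat.card D = 2 * n ∧ Nat.card C = n ∧ ∀ y ∈ D, y ∉ C → orderOf y = 2 := by
  haveI : NeZero n := ⟨by omega⟩
  haveI : Fact (Nat.Prime 2) := ⟨Nat.prime_two⟩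
  have hcardD : Nat.card D = 2 * n := by rw [Nat.card_congr e.toEquiv, DihedralGroup.nat_card]
  have hcardC : Nat.card C = n := by
    have h := (C.subgroupOf D).card_mul_index
    rw [Nat.card_congr (Subgroup.subgroupOfEquivOfLe hCD).toEquiv, hcardD] at h
    rw [Subgroup.relIndex] at hCi
    rw [hCi] at h
    omega
  refine ⟨hcardD, hcardC, fun y hy hyC => ?_⟩
  have hy1 : y ≠ 1 := fun h => hyC (h ▸ one_mem C)
  obtain ⟨⟨c, hc⟩, hgen⟩ := IsCyclic.exists_generator (α := C)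
  have hco : orderOf c = n := by
    rw [← hcardC, ← orderOf_eq_card_of_forall_mem_zpowers hgen, Subgroup.orderOf_mk]
  rw [← Subgroup.orderOf_mk y hy, ← MulEquiv.orderOf_eq e]
  rcases hey : e ⟨y, hy⟩ with j | j
  · by_cases hn2 : n = 2
    · refine orderOf_eq_prime ?_ ?_
      · subst hn2
        rw [sq, DihedralGroup.r_mul_r, DihedralGroup.one_def]
        congr 1
        exact CharTwo.add_self_eq_zero j
      · intro h
        apply hy1
        rw [← hey, MulEquiv.map_eq_one_iff] at h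
        exact congrArg Subtype.val h
    · exfalso
      obtain ⟨i, hi⟩ : ∃ i, e ⟨c, hCD hc⟩ = DihedralGroup.r i := by
        rcases hec : e ⟨c, hCD hc⟩ with i | i
        · exact ⟨i, rfl⟩
        · exfalso
          have h := MulEquiv.orderOf_eq e ⟨c, hCD hc⟩
          rw [hec, DihedralGroup.orderOf_sr, Subgroup.orderOf_mk, hco] at h
          exact hn2 h.symm
      set R := Subgroup.zpowers (DihedralGroup.r 1 : DihedralGroup n) with hR
      have hrR : ∀ i : ZMod n, (DihedralGroup.r i : DihedralGroup n) ∈ R := fun i => by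
        have h : (DihedralGroup.r i : DihedralGroup n) = DihedralGroup.r 1 ^ i.val := by
          rw [DihedralGroup.r_one_pow, ZMod.natCast_val, ZMod.cast_id]
        rw [h]
        exact pow_mem (Subgroup.mem_zpowers _) _
      have hle : Subgroup.zpowers (e ⟨c, hCD hc⟩) ≤ R := Subgroup.zpowers_le.mpr (hi ▸ hrR i)
      have heq : Subgroup.zpowers (e ⟨c, hCD hc⟩) = R := Subgroup.eq_of_le_of_card_ge hle (by
        rw [hR, Nat.card_zpowers, Nat.card_zpowers, MulEquiv.orderOf_eq, Subgroup.orderOf_mk, hco,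
          DihedralGroup.orderOf_r_one])
      obtain ⟨t, ht⟩ := Subgroup.mem_zpowers_iff.mp (heq ▸ hey ▸ hrR j : e ⟨y, hy⟩ ∈ _)
      rw [← map_zpow] at ht
      have h := congrArg Subtype.val (e.injective ht)
      simp at h
      apply hyC
      rw [← h]
      exact C.zpow_mem hc t
  · exact DihedralGroup.orderOf_sr j


/-- A consequence of Thompson's transfer lemma. Let G be a finite group, L a subgroup with O²(L) = L, T a Sylow 2-subgroup of L and S a Sylow 2-subgroup of G containing T. Suppose D ≤ S is a dihedral subgroup of order at least 4 (the four-group counts) with D ∩ T = 1 and S = TD as a set of products (so |S| = |T|·|D|), and C ≤ D is cyclic of index 2 in D. If no involution of D outside C is G-conjugate to an involution of the subgroup generated by T and C, and the involution of C is not G-conjugate to any involution of T, then G has a normal subgroup K, containing every Sylow 2-subgroup of L as a Sylow 2-subgroup, with G = KD. -/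
theorem result {G : Type*} [Group G] [Finite G] (L T S D C : Subgroup G) (hL : Cfsg.pResidual 2 ↥L = ⊤)
    (hTL : T ≤ L) (hT2 : IsPGroup 2 T) (hTsyl : ¬ 2 ∣ T.relIndex L)
    (hS2 : IsPGroup 2 S) (hSsyl : ¬ 2 ∣ S.index) (hTS : T ≤ S)
    (hDS : D ≤ S) (hDih : ∃ n : ℕ, 2 ≤ n ∧ Nonempty (↥D ≃* DihedralGroup n)) (hDT : D ⊓ T = ⊥) (hTD : T ⊔ D = S) (hTDc : Nat.card T * Nat.card D = Nat.card S)
    (hCD : C ≤ D) (hC : IsCyclic ↥C) (hCi : C.relIndex D = 2)
    (h1 : ∀ x ∈ D, x ∉ C → orderOf x = 2 → ∀ g : G, g * x * g⁻¹ ∈ T ⊔ C → False)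
    (h2 : ∀ c ∈ C, orderOf c = 2 → ∀ g : G, g * c * g⁻¹ ∈ T → False) :
    ∃ K : Subgroup G, K.Normal ∧ K ⊔ D = ⊤ ∧
      ∀ T' : Subgroup G, T' ≤ L → IsPGroup 2 T' → ¬ 2 ∣ T'.relIndex L → T' ≤ K ∧ ¬ 2 ∣ T'.relIndex K := by
  haveI : Fact (Nat.Prime 2) := ⟨Nat.prime_two⟩
  obtain ⟨n, hn, ⟨e⟩⟩ := hDih
  obtain ⟨hcardD, hcardC, hinv⟩ := dihedral_outside hn e hCD hC hCi
  set K := Cfsg.pResidual 2 G with hK
  haveI hKn : K.Normal := CfsgLib.CharP.pResidual_normal
  have hLK : L ≤ K := by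
    intro l hl
    have h : (⟨l, hl⟩ : L) ∈ Cfsg.pResidual 2 L := hL ▸ Subgroup.mem_top _
    exact CfsgLib.Transfer.map_pResidual_le_pResidual L ⟨⟨l, hl⟩, h, rfl⟩
  obtain ⟨⟨c, hc⟩, hgen⟩ := IsCyclic.exists_generator (α := C)
  obtain ⟨k, hk⟩ := IsPGroup.iff_card.mp (hS2.to_le (hCD.trans hDS))
  have hco : orderOf c = 2 ^ k := by
    rw [← hk, ← orderOf_eq_card_of_forall_mem_zpowers hgen, Subgroup.orderOf_mk]
  -- an involution outside `C`
  obtain ⟨y, hyD, hyC⟩ : ∃ y ∈ D, y ∉ C := by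
    by_contra hno
    push Not at hno
    rw [Subgroup.relIndex_eq_one.mpr hno] at hCi
    omega
  have hy2 := hinv y hyD hyC
  -- `U = T ⊔ C`
  set U := T ⊔ C with hU
  have hyU : y ∉ U := fun h => h1 y hyD hyC hy2 1 (by simpa using h)
  have hUD : ∀ d ∈ D, d ∈ U → d ∈ C := fun d hd hdU => by
    by_contra hdC
    exact h1 d hd hdC (hinv d hd hdC) 1 (by simpa using hdU)
  have hcardU : Nat.card U = Nat.card T * Nat.card C := by
    let φ : T × C → U := fun a =>
      ⟨(a.1 : G) * (a.2 : G), mul_mem (Subgroup.mem_sup_left a.1.2) (Subgroup.mem_sup_right a.2.2)⟩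
    let ψ : T × D → S := fun a =>
      ⟨(a.1 : G) * (a.2 : G), mul_mem (hTS a.1.2) (hDS a.2.2)⟩
    have hinj : Function.Injective ψ := by
      rintro ⟨⟨a, ha⟩, ⟨b, hb⟩⟩ ⟨⟨a', ha'⟩, ⟨b', hb'⟩⟩ h
      have h' : a * b = a' * b' := congrArg Subtype.val h
      have h3 : a'⁻¹ * a = b' * b⁻¹ := by
        rw [eq_mul_inv_iff_mul_eq, mul_assoc, h', inv_mul_cancel_left]
      have h4 : b' * b⁻¹ ∈ D ⊓ T := ⟨D.mul_mem hb' (D.inv_mem hb), h3 ▸ T.mul_mem (T.inv_mem ha') ha⟩
      rw [hDT, Subgroup.mem_bot, mul_inv_eq_one] at h4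
      subst h4
      have h5 : a = a' := mul_right_cancel h'
      subst h5
      rfl
    have hbij : Function.Bijective ψ := hinj.bijective_of_nat_card_le (by
      rw [Nat.card_prod, hTDc])
    have hφi : Function.Injective φ := fun a b h => by
      have h6 : ψ (a.1, ⟨a.2, hCD a.2.2⟩) = ψ (b.1, ⟨b.2, hCD b.2.2⟩) :=
        Subtype.ext (congrArg Subtype.val h :)
      have h7 := hinj h6
      simp only [Prod.mk.injEq, Subtype.mk.injEq] at h7
      exact Prod.ext h7.1 (Subtype.ext h7.2)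
    have hφs : Function.Surjective φ := by
      rintro ⟨w, hw⟩
      have hwS : w ∈ S := sup_le hTS (hCD.trans hDS) hw
      obtain ⟨⟨a, d⟩, had⟩ := hbij.2 ⟨w, hwS⟩
      have had' : (a : G) * (d : G) = w := congrArg Subtype.val had
      have hdU : (d : G) ∈ U := by
        rw [show (d : G) = (a : G)⁻¹ * w by rw [← had', inv_mul_cancel_left]]
        exact mul_mem (inv_mem (Subgroup.mem_sup_left a.2)) hw
      exact ⟨(a, ⟨d, hUD d d.2 hdU⟩), Subtype.ext had'⟩
    rw [← Nat.card_congr (Equiv.ofBijective φ ⟨hφi, hφs⟩), Nat.card_prod]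
  obtain ⟨m, hm⟩ : ∃ m, m = S.index := ⟨_, rfl⟩
  have hmodd : Odd m := Nat.not_even_iff_odd.mp (fun h => hSsyl (hm ▸ even_iff_two_dvd.mp h))
  have hUidx : U.relIndex ⊤ = 2 ^ 1 * m := by
    rw [Subgroup.relIndex_top_right]
    have e1 := U.card_mul_index
    have e2 := S.card_mul_index
    rw [← hm, ← hTDc, hcardD] at e2
    rw [hcardU, hcardC, ← e2] at e1
    refine Nat.eq_of_mul_eq_mul_left (Nat.mul_pos Nat.card_pos (show 0 < n by omega)) (e1.trans ?_)
    rw [pow_one]; ring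
  have hfree1 : ∀ v ∈ D, v ∉ C → ∀ g : G, g⁻¹ * v ^ 2 ^ (1 - 1) * g ∉ U := by
    intro v hv hvC g hgv
    exact h1 v hv hvC (hinv v hv hvC) g⁻¹ (by simpa using hgv)
  have hsq : ∀ v ∈ D, v ∉ C → v ^ 2 ^ 1 = 1 := fun v hv hvC => by
    rw [pow_one, ← hinv v hv hvC, pow_orderOf_eq_one]
  obtain ⟨M, hMle, hMidx, hyM, hModd, hMout⟩ := parity_step le_top (Subgroup.mem_top y) le_rfl
    (hsq y hyD hyC) (hfree1 y hyD hyC) hmodd hUidx
  have hKM : K ≤ M := by
    rw [hK, Cfsg.pResidual, Subgroup.closure_le]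
    exact fun g hg => hModd g (Subgroup.mem_top g) (Nat.coprime_two_right.mp hg)
  have hycD : y * c ∈ D := mul_mem hyD (hCD hc)
  have hycC : y * c ∉ C := fun h => hyC (by simpa using mul_mem h (C.inv_mem hc))
  have hcM : c ∈ M := by
    have hidxM : M.index = 2 := by rwa [Subgroup.relIndex_top_right] at hMidx
    have h8 := Subgroup.mul_mem_iff_of_index_two hidxM (a := y) (b := c)
    have h9 := hMout (y * c) (Subgroup.mem_top _) (hsq _ hycD hycC) (hfree1 _ hycD hycC)
    tauto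
  have hTK : T ≤ K := hTL.trans hLK
  have hTM : T.relIndex M = 2 ^ k * m := by
    have hidxM : M.index = 2 := by rwa [Subgroup.relIndex_top_right] at hMidx
    have e3 := Subgroup.relIndex_mul_index (hTK.trans hKM)
    have e4 := T.card_mul_index
    rw [hidxM] at e3
    rw [← S.card_mul_index, ← hm, ← hTDc, hcardD, ← hcardC, hk, ← e3] at e4
    refine Nat.eq_of_mul_eq_mul_left (Nat.mul_pos (Nat.card_pos (α := T)) two_pos) ?_
    linarith
  have hnd : ¬ 2 ∣ T.relIndex K := by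
    refine descend T K hK hTK k M hKM c hcM hco (fun g hk1 => ?_) m hmodd hTM
    intro hg
    refine h2 (c ^ 2 ^ (k - 1)) (C.pow_mem hc _) ?_ g⁻¹ (by simpa using hg)
    rw [orderOf_pow, hco, Nat.gcd_eq_right (Nat.pow_dvd_pow 2 (Nat.sub_le k 1)),
      Nat.pow_div (Nat.sub_le k 1) two_pos, show k - (k - 1) = 1 by omega, pow_one]
  refine ⟨K, hKn, ?_, fun T' hT'L hT'2 hT'syl => ⟨hT'L.trans hLK, ?_⟩⟩
  · rw [← Subgroup.index_eq_one]
    obtain ⟨a, ha⟩ := CfsgLib.Transfer.exists_index_eq_pow_of_isPGroup_quotient (N := K) (p := 2)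
      (CfsgLib.CharP.isPGroup_quotient_pResidual (G := G) (p := 2) _ le_rfl)
    refine Nat.eq_one_of_dvd_coprimes (Nat.Coprime.pow_left a
      (Nat.prime_two.coprime_iff_not_dvd.mpr hSsyl)) (ha ▸ Subgroup.index_dvd_of_le le_sup_left) ?_
    refine Subgroup.index_dvd_of_le ?_
    rw [← hTD]
    exact sup_le (hTK.trans le_sup_left) le_sup_right
  · rw [← Subgroup.relIndex_mul_relIndex T' L K hT'L hLK]
    intro h
    rcases Nat.prime_two.dvd_mul.mp h with h | h
    · exact hT'syl h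
    · apply hnd
      rw [← Subgroup.relIndex_mul_relIndex T L K hTL hLK]
      exact h.mul_left _

end Cfsg.Agent.S1924
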