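import Cfsg.Statements.S1935
import Cfsg.Agent.ConjFunctor.OffenderNormalClosure

set_option autoImplicit false
open Cfsg

namespace Cfsg.Agent.S1935

/-- Let p ≥ 5 be a prime and, inside an ambient finite group, let G be a p-subgroup acting faithfully by conjugation on an elementary abelian p-subgroup V that it normalizes (only the identity of G centralizes V). Suppose V is an F-module for G: some nontrivial elementary abelian subgroup E of G satisfies #E · #C_V(E) ≥ #V. Then G contains such an offender A that moreover acts quadratically on V ([V, A, A] = 1) and is normal in its normal closure in G. -/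
theorem result {Ω : Type*} [Group Ω] [Finite Ω] (p : ℕ) [Fact p.Prime] (hp : 5 ≤ p) (V G : Subgroup Ω) (hV : Cfsg.IsElementaryAbelian p V) (hG : IsPGroup p ↥G) (hGV : G ≤ Subgroup.normalizer (V : Set Ω)) (hfaith : G ⊓ Subgroup.centralizer (V : Set Ω) = ⊥) (hF : ∃ E : Subgroup Ω, E ≤ G ∧ E ≠ ⊥ ∧ Cfsg.IsElementaryAbelian p E ∧ Nat.card ↥V ≤ Nat.card ↥E * Nat.card ↥(V ⊓ Subgroup.centralizer (E : Set Ω))) : ∃ A : Subgroup Ω, A ≤ G ∧ A ≠ ⊥ ∧ Cfsg.IsElementaryAbelian p A ∧ Nat.card ↥V ≤ Nat.card ↥A * Nat.card ↥(V ⊓ Subgroup.centralizer (A : Set Ω)) ∧ ⁅⁅V, A⁆, A⁆ = ⊥ ∧ ∀ g ∈ Subgroup.closure {x : Ω | ∃ h ∈ G, ∃ a ∈ A, x = h * a * h⁻¹}, ∀ a ∈ A, g * a * g⁻¹ ∈ A := by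
  obtain ⟨A, hAG, hA1, hAe, hAo, hAq, hAn⟩ :=
    CfsgLib.ConjFunctor.exists_offender_normal_in_closure (p := p) (by omega) hV hG hGV hfaith hF
  refine ⟨A, hAG, hA1, hAe, hAo, hAq, fun g hg a ha => ?_⟩
  have hle : Subgroup.closure {x : Ω | ∃ h ∈ G, ∃ a ∈ A, x = h * a * h⁻¹} ≤ Subgroup.normalizer (A : Set Ω) := by
    refine (Subgroup.closure_le _).mpr ?_
    rintro x ⟨h, hh, a, ha, rfl⟩
    exact hAn h hh a ha
  exact (Subgroup.mem_normalizer_iff.mp (hle hg) a).mp ha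

end Cfsg.Agent.S1935
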