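import Cfsg.Statements.S1939

set_option autoImplicit false
open Cfsg

namespace Cfsg.Agent.S1939

/-- Let S be a Sylow p-subgroup of the finite group G and a an element of S that is the only G-conjugate of a lying in S. Then every power of a has the same property: for every n, the only G-conjugate of a^n lying in S is a^n. -/
theorem result {G : Type*} [Group G] [Finite G] {p : ℕ} [Fact p.Prime] (S : Sylow p G) (a : G)
    (haS : a ∈ (S : Subgroup G)) (hwc : ∀ g : G, g * a * g⁻¹ ∈ (S : Subgroup G) → g * a * g⁻¹ = a) (n : ℕ) :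
    ∀ g : G, g * a ^ n * g⁻¹ ∈ (S : Subgroup G) → g * a ^ n * g⁻¹ = a ^ n := by
  intro g hb
  set b := g * a ^ n * g⁻¹ with hbdef
  have hcentral : ∀ s ∈ (S : Subgroup G), Commute s a := fun s hs => by
    have h := hwc s ((S : Subgroup G).mul_mem ((S : Subgroup G).mul_mem hs haS) ((S : Subgroup G).inv_mem hs))
    exact mul_inv_eq_iff_eq_mul.mp h
  have ha_pgroup : IsPGroup p ↥(Subgroup.zpowers a) :=
    S.2.to_le (Subgroup.zpowers_le.mpr haS)
  set C := Subgroup.centralizer ({b} : Set G) with hC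
  have haC : a ∈ C := Subgroup.mem_centralizer_singleton_iff.mpr (hcentral b hb).symm.eq
  have hgaC : g * a * g⁻¹ ∈ C := by
    rw [hC, Subgroup.mem_centralizer_singleton_iff, hbdef]
    group
  obtain ⟨R, hR⟩ := (ha_pgroup.comap_subtype (K := C)).exists_le_sylow
  have h2 : IsPGroup p ↥(Subgroup.zpowers (g * a * g⁻¹)) := by
    have : Subgroup.zpowers (g * a * g⁻¹) = (Subgroup.zpowers a).map (MulAut.conj g).toMonoidHom := by
      rw [MonoidHom.map_zpowers]; rfl
    rw [this]; exact ha_pgroup.map _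
  obtain ⟨R2, hR2⟩ := (h2.comap_subtype (K := C)).exists_le_sylow
  obtain ⟨c, hc⟩ := MulAction.exists_smul_eq C R2 R
  have hcg : (⟨(c : G) * (g * a * g⁻¹) * (c : G)⁻¹,
      C.mul_mem (C.mul_mem c.2 hgaC) (C.inv_mem c.2)⟩ : C) ∈ (R : Subgroup C) := by
    have h1 : (⟨g * a * g⁻¹, hgaC⟩ : C) ∈ (R2 : Subgroup C) :=
      hR2 (Subgroup.mem_zpowers (g * a * g⁻¹))
    have h3 := Subgroup.smul_mem_pointwise_smul _ (MulAut.conj c) _ h1
    rw [← hc]
    exact h3
  have haR : (⟨a, haC⟩ : C) ∈ (R : Subgroup C) := hR (Subgroup.mem_zpowers a)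
  obtain ⟨R0, hR0⟩ := (R.2.map C.subtype).exists_le_sylow
  obtain ⟨h, hh⟩ := MulAction.exists_smul_eq G R0 S
  have key : ∀ y : C, y ∈ (R : Subgroup C) → h * (y : G) * h⁻¹ ∈ (S : Subgroup G) := fun y hy => by
    have h3 := Subgroup.smul_mem_pointwise_smul _ (MulAut.conj h) _ (hR0 (Subgroup.mem_map_of_mem C.subtype hy))
    rw [← hh]
    exact h3
  have e1 : h * a * h⁻¹ = a := hwc h (key _ haR)
  have e2 : (h * (c : G) * g) * a * (h * (c : G) * g)⁻¹ = a := by
    apply hwc
    have := key _ hcg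
    simpa [mul_assoc] using this
  have e3 : (c : G) * g * a * ((c : G) * g)⁻¹ = a := by
    calc (c : G) * g * a * ((c : G) * g)⁻¹ = h⁻¹ * ((h * (c : G) * g) * a * (h * (c : G) * g)⁻¹) * h := by group
      _ = h⁻¹ * (h * a * h⁻¹) * h := by rw [e2, e1]
      _ = a := by group
  have e4 : (c : G) * b * (c : G)⁻¹ = a ^ n := by
    calc (c : G) * b * (c : G)⁻¹ = ((c : G) * g * a * ((c : G) * g)⁻¹) ^ n := by rw [conj_pow, hbdef]; group
      _ = a ^ n := by rw [e3]
  have e5 : (c : G) * b = b * (c : G) := Subgroup.mem_centralizer_singleton_iff.mp c.2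
  rw [← e4, e5]
  group

end Cfsg.Agent.S1939
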