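import Cfsg.Statements.S1940

set_option autoImplicit false
open Cfsg

namespace Cfsg.Agent.S1940

/-- Let the finite group L act by automorphisms on the finite abelian group M, and let N be an L-invariant subgroup of M such that M/N is a p-group on which L acts trivially (every l • m lies in the coset mN). If every element of M is a product of an element of N and an element fixed by a Sylow p-subgroup T of L, then every element of M is a product of an element of N and an element fixed by all of L. -/
theorem result {L : Type*} [Group L] [Finite L] {M : Type*} [CommGroup M] [Finite M] [MulDistribMulAction L M]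
    {p : ℕ} [Fact p.Prime] (N : Subgroup M) (hN : ∀ (l : L) (m : M), m ∈ N → l • m ∈ N)
    (hquot : IsPGroup p (M ⧸ N)) (htriv : ∀ (l : L) (m : M), (l • m) * m⁻¹ ∈ N) (T : Sylow p L)
    (hT : ∀ m : M, ∃ n ∈ N, ∃ c : M, (∀ t ∈ (T : Subgroup L), t • c = c) ∧ m = n * c) :
    ∀ m : M, ∃ n ∈ N, ∃ c : M, (∀ l : L, l • c = c) ∧ m = n * c := by
  classical
  intro m
  obtain ⟨n0, hn0, c, hc, rfl⟩ := hT m
  let F : L ⧸ (T : Subgroup L) → M := fun q => Quotient.liftOn' q (fun l => l • c) (by
    intro a b hab
    rw [QuotientGroup.leftRel_apply] at hab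
    show a • c = b • c
    calc a • c = a • ((a⁻¹ * b) • c) := by rw [hc _ hab]
      _ = b • c := by rw [smul_smul, mul_inv_cancel_left])
  haveI : Fintype (L ⧸ (T : Subgroup L)) := Fintype.ofFinite _
  let d : M := ∏ q, F q
  have hFl : ∀ (l : L) (q : L ⧸ (T : Subgroup L)), l • F q = F (l • q) := by
    intro l q
    induction q using QuotientGroup.induction_on with
    | H a =>
      show l • a • c = (l * a) • c
      rw [smul_smul]
  have hd : ∀ l : L, l • d = d := by
    intro l
    show l • ∏ q, F q = ∏ q, F q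
    rw [Finset.smul_prod']
    simp_rw [hFl]
    exact Equiv.prod_comp (MulAction.toPerm l) F
  have hmod : ∀ q, (QuotientGroup.mk (F q) : M ⧸ N) = QuotientGroup.mk c := by
    intro q
    induction q using QuotientGroup.induction_on with
    | H a =>
      show (QuotientGroup.mk (a • c) : M ⧸ N) = _
      rw [QuotientGroup.eq]
      have h1 := htriv a c
      have h2 := N.inv_mem h1
      simpa [mul_comm] using h2
  have hdk : (QuotientGroup.mk d : M ⧸ N) = (QuotientGroup.mk c : M ⧸ N) ^ Fintype.card (L ⧸ (T : Subgroup L)) := by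
    show QuotientGroup.mk' N (∏ q, F q) = _
    rw [map_prod]
    show ∏ q, (QuotientGroup.mk (F q) : M ⧸ N) = _
    simp_rw [hmod]
    rw [Finset.prod_const, Finset.card_univ]
  have hcop : (orderOf (QuotientGroup.mk c : M ⧸ N)).Coprime (Fintype.card (L ⧸ (T : Subgroup L))) := by
    obtain ⟨e, he⟩ := (IsPGroup.iff_orderOf.mp hquot) (QuotientGroup.mk c)
    rw [he]
    apply Nat.Coprime.pow_left
    rw [(Fact.out : p.Prime).coprime_iff_not_dvd, ← Nat.card_eq_fintype_card, ← Subgroup.index]
    exact T.not_dvd_index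
  obtain ⟨j, hj⟩ := exists_pow_eq_self_of_coprime (x := (QuotientGroup.mk c : M ⧸ N)) hcop.symm
  rw [← hdk] at hj
  have hj2 : (QuotientGroup.mk (d ^ j) : M ⧸ N) = QuotientGroup.mk c := hj
  rw [QuotientGroup.eq] at hj2
  refine ⟨n0 * ((d ^ j)⁻¹ * c), N.mul_mem hn0 hj2, d ^ j, fun l => ?_, ?_⟩
  · rw [smul_pow', hd]
  · rw [mul_assoc, mul_comm (d ^ j)⁻¹ c, inv_mul_cancel_right]

end Cfsg.Agent.S1940
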