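import Cfsg.Statements.S1941
-- import your own Cfsg.Agent.* helpers here
import Mathlib
import Cfsg.Agent.FStar.SelfCentralizing
import Cfsg.Agent.LocalCharP.NoComponent
import Cfsg.Agent.Eq.Def_Local

set_option autoImplicit false
open Cfsg

namespace Cfsg.Agent.S1941

/-- Let G be a finite group with no nontrivial normal subgroup of order prime to p, T a Sylow p-subgroup of G and E(G) the layer of G (the subgroup generated by its components). An automorphism of G of p-power order that fixes T and E(G) elementwise is inner. -/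
theorem result {G : Type*} [Group G] [Finite G] {p : ℕ} [Fact p.Prime] (hcore : Cfsg.pPrimeCore p G = ⊥)
    (T : Sylow p G) (α : MulAut G) (hα : ∃ j : ℕ, orderOf α = p ^ j) (hfixT : ∀ x ∈ (T : Subgroup G), α x = x)
    (hfixE : ∀ x ∈ Cfsg.layer G, α x = x) : ∃ g : G, ∀ x : G, α x = g * x * g⁻¹ := by
  classical
  have _ := hα
  set F := Cfsg.generalizedFittingSubgroup G with hF
  have hFn : F.Normal := inferInstance
  haveI := CfsgLib.Fitting.fittingSubgroup_normal G
  haveI hnil := CfsgLib.Fitting.fittingSubgroup_isNilpotent G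
  have hFitp : IsPGroup p ↥(Cfsg.fittingSubgroup G) :=
    CfsgLib.SolvableCore.isPGroup_of_nilpotent_normal hcore _
  obtain ⟨T', hT'⟩ := hFitp.exists_le_sylow
  have hFitT : ∀ T₁ : Sylow p G, Cfsg.fittingSubgroup G ≤ (T₁ : Subgroup G) := by
    intro T₁ f hf
    obtain ⟨g, rfl⟩ := MulAction.exists_smul_eq G T' T₁
    rw [Sylow.coe_subgroup_smul, Subgroup.mem_pointwise_smul_iff_inv_smul_mem]
    refine hT' ?_
    simpa using Subgroup.Normal.conj_mem inferInstance f hf g⁻¹
  have hfixF : ∀ x ∈ F, α x = x := by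
    have hle : F ≤ MonoidHom.eqLocus α.toMonoidHom (MonoidHom.id G) :=
      sup_le (fun x hx => hfixE x hx) (fun x hx => hfixT x (hFitT T hx))
    exact fun x hx => hle hx
  set Z := Subgroup.centralizer (F : Set G) with hZ
  have hZF : Z ≤ F := CfsgLib.FStar.centralizer_generalizedFitting_le
  haveI : Z.Normal := by
    refine ⟨fun z hz g => ?_⟩
    rw [hZ, Subgroup.mem_centralizer_iff] at hz ⊢
    intro f hf
    have hf' : g⁻¹ * f * g ∈ F := by simpa using hFn.conj_mem f hf g⁻¹
    calc f * (g * z * g⁻¹) = g * ((g⁻¹ * f * g) * z) * g⁻¹ := by group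
      _ = g * (z * (g⁻¹ * f * g)) * g⁻¹ := by rw [hz _ hf']
      _ = g * z * g⁻¹ * f := by group
  have hZc : ∀ a ∈ Z, ∀ b ∈ Z, a * b = b * a := fun a ha b hb =>
    (Subgroup.mem_centralizer_iff.1 hb a (hZF ha))
  letI icg : CommGroup ↥Z :=
    { (inferInstance : Group ↥Z) with
      mul_comm := fun a b => Subtype.ext (hZc a a.2 b b.2) }
  have hZp : IsPGroup p ↥Z := by
    haveI : Group.IsNilpotent ↥Z := inferInstance
    exact CfsgLib.SolvableCore.isPGroup_of_nilpotent_normal hcore Z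
  have hδ : ∀ x : G, α x * x⁻¹ ∈ Z := by
    intro x
    rw [hZ, Subgroup.mem_centralizer_iff]
    intro f hf
    have hn : x⁻¹ * f * x ∈ F := by simpa using hFn.conj_mem f hf x⁻¹
    have h1 := hfixF _ hn
    rw [map_mul, map_mul, map_inv, hfixF f hf] at h1
    calc f * (α x * x⁻¹) = α x * ((α x)⁻¹ * f * α x) * x⁻¹ := by group
      _ = α x * (x⁻¹ * f * x) * x⁻¹ := by rw [h1]
      _ = α x * x⁻¹ * f := by group
  let δ : G → ↥Z := fun x => ⟨α x * x⁻¹, hδ x⟩
  let κ : G → (↥Z →* ↥Z) := fun y => MonoidHom.mk'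
    (fun z => ⟨y * z * y⁻¹, Subgroup.Normal.conj_mem inferInstance _ z.2 y⟩)
    fun a b => Subtype.ext (by simp only [Subgroup.coe_mul]; group)
  have hcoc : ∀ y x, δ (y * x) = δ y * κ y (δ x) := fun y x => Subtype.ext (by
    show α (y * x) * (y * x)⁻¹ = α y * y⁻¹ * (y * (α x * x⁻¹) * y⁻¹)
    rw [map_mul]; group)
  have hwd : ∀ a b : G, (QuotientGroup.leftRel (T : Subgroup G)).r a b → δ a = δ b := by
    intro a b hab
    have ht : a⁻¹ * b ∈ (T : Subgroup G) := QuotientGroup.leftRel_apply.1 hab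
    refine Subtype.ext ?_
    show α a * a⁻¹ = α b * b⁻¹
    have hb : α b = α a * (a⁻¹ * b) := by
      rw [← hfixT _ ht, ← map_mul, mul_inv_cancel_left]
    rw [hb]; group
  let δq : G ⧸ (T : Subgroup G) → ↥Z := fun c => Quotient.liftOn' c δ hwd
  haveI : Fintype (G ⧸ (T : Subgroup G)) := Fintype.ofFinite _
  set g := ∏ c : G ⧸ (T : Subgroup G), δq c with hg
  set m := Fintype.card (G ⧸ (T : Subgroup G)) with hm
  have hkey : ∀ y, g = δ y ^ m * κ y g := by
    intro y
    have h1 : g = ∏ c : G ⧸ (T : Subgroup G), δq (y • c) :=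
      (Equiv.prod_comp (MulAction.toPerm y) δq).symm
    have h2 : ∀ c, δq (y • c) = δ y * κ y (δq c) := by
      intro c
      induction c using Quotient.inductionOn' with
      | h x => exact hcoc y x
    rw [map_prod]
    conv_lhs => rw [h1]
    simp only [h2, Finset.prod_mul_distrib, Finset.prod_const, Finset.card_univ]
    rfl
  have hmcop : m.Coprime (Nat.card ↥Z) := by
    obtain ⟨k, hk⟩ := IsPGroup.iff_card.1 hZp
    rw [hk, hm, ← Nat.card_eq_fintype_card]
    exact Nat.Coprime.pow_right _ ((Nat.Prime.coprime_iff_not_dvd Fact.out).2 T.not_dvd_index).symm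
  let g₁ : ↥Z := (powCoprime hmcop.symm).symm g
  have hg₁ : g₁ ^ m = g := (powCoprime hmcop.symm).apply_symm_apply g
  refine ⟨g₁, fun y => ?_⟩
  have h := hkey y
  rw [← hg₁, map_pow, ← mul_pow] at h
  have h3 : g₁ = δ y * κ y g₁ := (powCoprime hmcop.symm).injective h
  have h4 : (g₁ : G) = α y * y⁻¹ * (y * g₁ * y⁻¹) := congrArg Subtype.val h3
  calc α y = (α y * y⁻¹ * (y * g₁ * y⁻¹)) * y * (g₁ : G)⁻¹ := by group
    _ = (g₁ : G) * y * (g₁ : G)⁻¹ := by rw [← h4]

end Cfsg.Agent.S1941
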