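import Cfsg.Statements.S1945
import Cfsg.Agent.ConjFunctor.KInfFunctor
import Cfsg.Agent.Constrained.WeaklyClosedElements

set_option autoImplicit false
open Cfsg

namespace Cfsg.Agent.S1945

/-- Let S be a Sylow p-subgroup of the finite group G, and assume that p is odd or that G is solvable. The elements of S each of which is its only G-conjugate in S form a subgroup W of Z(S); W is then a direct factor of Z(S): there is a subgroup K of Z(S) with W ∩ K = 1 and WK = Z(S). (For p = 2 and G not solvable this can fail.) -/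
theorem result {G : Type*} [Group G] [Finite G] {p : ℕ} [Fact p.Prime] (S : Sylow p G) (h : p ≠ 2 ∨ Group.IsSolvable G) :
    ∃ W K : Subgroup G, (∀ x : G, x ∈ W ↔ (x ∈ (S : Subgroup G) ∧ ∀ g : G, g * x * g⁻¹ ∈ (S : Subgroup G) → g * x * g⁻¹ = x)) ∧
      K ≤ ((S : Subgroup G) ⊓ Subgroup.centralizer ((S : Subgroup G) : Set G)) ∧ W ⊓ K = ⊥ ∧ W ⊔ K = ((S : Subgroup G) ⊓ Subgroup.centralizer ((S : Subgroup G) : Set G)) := by
  rcases h with hp | hs
  · have hW := CfsgLib.ConjFunctor.isConjugacyFunctor_inducedFunctor (G := G)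
      (CfsgLib.ConjFunctor.isCharPFunctor_kInfLower (p := p))
    exact CfsgLib.Constrained.weaklyClosedSplits_of_controls S _ (hW S S.isPGroup').1
      (Subgroup.le_normalizer.trans
        (CfsgLib.ConjFunctor.normalizer_le_normalizer_functor hW S.isPGroup'))
      (CfsgLib.ConjFunctor.inducedFunctor_kInfLower_centre _ S.isPGroup')
      fun x hx g hg => CfsgLib.ConjFunctor.conj_eq_of_engel S hW
        CfsgLib.ConjFunctor.inducedFunctor_kInfLower_centre
        (CfsgLib.ConjFunctor.exists_engel_kInfLower hp) hx.1 hx.2 hg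
  · exact CfsgLib.Constrained.weaklyClosedSplits_of_isPSolvable
      CfsgLib.Constrained.isPSolvable_of_isSolvable S

end Cfsg.Agent.S1945
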