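import Cfsg.Statements.S1946
import Mathlib
import Cfsg.Agent.Eq.Def_Transfer
import Cfsg.Agent.Transfer.SmallElements

set_option autoImplicit false
open Cfsg
open CfsgLib.Transfer
open scoped commutatorElement

namespace Cfsg.Agent.S1946

/-- Let P be a Sylow p-subgroup of the finite group G. Then G has a normal p-complement if and only if P controls the fusion of its elements of order dividing p (dividing 4 when p = 2): whenever such an element a of P has a G-conjugate g a g⁻¹ in P, that conjugate is already x a x⁻¹ for some x in P. -/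
theorem result {G : Type*} [Group G] [Finite G] {p : ℕ} [Fact p.Prime] (P : Sylow p G) :
    Cfsg.HasNormalPComplement p G ↔
      ∀ a ∈ (P : Subgroup G), (a ^ p = 1 ∨ (p = 2 ∧ a ^ 4 = 1)) → ∀ g : G, g * a * g⁻¹ ∈ (P : Subgroup G) →
        ∃ x ∈ (P : Subgroup G), g * a * g⁻¹ = x * a * x⁻¹ := by
  constructor
  · intro h a ha _ g hg
    obtain ⟨z, hz, hza⟩ := fusion_in_sylow (hasNormalPComplement_iff_pLocal_centralizes.mp h) P ha hg
    exact ⟨z, hz, hza.symm⟩
  · intro h
    refine hasNormalPComplement_of_forall_le_sylow P fun Q hQP g hg hgc => ?_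
    haveI := P.2.isNilpotent
    obtain ⟨n, hn⟩ : ∃ n, (P : Subgroup G).lowerCentralSeries n = ⊥ := by
      obtain ⟨n, hn⟩ := Subgroup.nilpotent_iff_lowerCentralSeries.mp
        (inferInstance : Group.IsNilpotent (P : Subgroup G))
      refine ⟨n, ?_⟩
      have h1 : ((⊤ : Subgroup (P : Subgroup G)).lowerCentralSeries n).map (P : Subgroup G).subtype
          = ((⊤ : Subgroup (P : Subgroup G)).map (P : Subgroup G).subtype).lowerCentralSeries n :=
        Subgroup.map_lowerCentralSeries _ _ _
      rw [← MonoidHom.range_eq_map, Subgroup.range_subtype, hn, Subgroup.map_bot] at h1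
      exact h1.symm
    refine mem_centralizer_of_series (P.2.to_le hQP) hg hgc
      (fun i => (P : Subgroup G).lowerCentralSeries i) n hn ?_ ?_
    · intro a ha _
      exact hQP ha
    · intro i _ a ha hs hai j
      have hgja : g ^ j * a * (g ^ j)⁻¹ ∈ Q :=
        (Subgroup.mem_normalizer_iff.mp (zpow_mem hg j) a).mp ha
      obtain ⟨x, hx, hxa⟩ := h a (hQP ha) hs (g ^ j) (hQP hgja)
      show a⁻¹ * (g ^ j * a * (g ^ j)⁻¹) ∈ ⁅(P : Subgroup G).lowerCentralSeries i, (P : Subgroup G)⁆
      rw [hxa, show a⁻¹ * (x * a * x⁻¹) = ⁅a⁻¹, x⁆ by rw [commutatorElement_def]; group]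
      exact Subgroup.commutator_mem_commutator (inv_mem hai) hx

end Cfsg.Agent.S1946
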