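import Cfsg.Statements.S1947
import Mathlib
import Cfsg.Agent.Eq.Def_Transfer
import Cfsg.Agent.Transfer.SmallElements

set_option autoImplicit false
open Cfsg
open CfsgLib.Transfer
open scoped commutatorElement

namespace Cfsg.Agent.S1947

/-- Let G be a finite group and p a prime. If every element of G of order dividing p (dividing 4 when p = 2) lies in some fixed term Z_n(G) of the upper central series, then G has a normal p-complement. -/
theorem result {G : Type*} [Group G] [Finite G] {p : ℕ} [Fact p.Prime] (n : ℕ)
    (h : ∀ a : G, (a ^ p = 1 ∨ (p = 2 ∧ a ^ 4 = 1)) → a ∈ Subgroup.upperCentralSeries G n) : Cfsg.HasNormalPComplement p G := by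
  refine hasNormalPComplement_of_pLocal_centralizes fun Q hQ g hg hgc => ?_
  refine mem_centralizer_of_series hQ hg hgc (fun i => Subgroup.upperCentralSeries G (n - i)) n
    (by simp only [Nat.sub_self, Subgroup.upperCentralSeries_zero]) (fun a _ hs => by simpa using h a hs) ?_
  intro i hi a _ _ hai j
  show a⁻¹ * (g ^ j * a * (g ^ j)⁻¹) ∈ Subgroup.upperCentralSeries G (n - (i + 1))
  try simp only at hai
  rw [show n - i = (n - (i + 1)) + 1 by omega] at hai
  have h1 := Subgroup.mem_upperCentralSeries_succ_iff.mp (inv_mem hai) (g ^ j)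
  rw [commutatorElement_def, inv_inv] at h1
  simpa [mul_assoc] using h1

end Cfsg.Agent.S1947
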