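import Cfsg.Statements.S1949
import Cfsg.Agent.ConjFunctor.SmallExponent

set_option autoImplicit false
open Cfsg
open scoped commutatorElement

namespace Cfsg.Agent.S1949

/-- Let P be a finite p-group and G a group of automorphisms of P containing the inner automorphisms. Then there is a G-invariant subgroup D of P, contained in the subgroup generated by the elements x⁻¹α(x) with x in P and α in O^p(G), of exponent dividing p when p is odd and dividing 4 when p = 2, with [D, P] ≤ Z(D), such that every automorphism in G of order prime to p that fixes D elementwise is the identity; moreover every maximal abelian subgroup A of D is normal in P and every automorphism in G fixing A elementwise has p-power order. -/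
theorem result {P : Type*} [Group P] [Finite P] {p : ℕ} [Fact p.Prime] (hP : IsPGroup p P)
    (G : Subgroup (MulAut P)) (hG : Cfsg.Inn P ≤ G) :
    ∃ D : Subgroup P,
      (∀ α ∈ G, D.map α.toMonoidHom = D) ∧
      D ≤ Subgroup.closure {y : P | ∃ α ∈ Cfsg.pResidual p ↥G, ∃ x : P, y = x⁻¹ * (α : MulAut P) x} ∧
      (∀ d ∈ D, d ^ p = 1 ∨ (p = 2 ∧ d ^ 4 = 1)) ∧
      ⁅D, (⊤ : Subgroup P)⁆ ≤ D ⊓ Subgroup.centralizer (D : Set P) ∧
      (∀ α ∈ G, (orderOf α).Coprime p → (∀ d ∈ D, α d = d) → α = 1) ∧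
      ∀ A : Subgroup P, A ≤ D → IsMulCommutative ↥A →
        (∀ B : Subgroup P, A ≤ B → B ≤ D → IsMulCommutative ↥B → B = A) →
        A.Normal ∧ ∀ α ∈ G, (∀ a ∈ A, α a = a) → ∃ k : ℕ, orderOf α = p ^ k := by
  set W : Subgroup P := Subgroup.closure {y : P | ∃ α ∈ Cfsg.pResidual p ↥G, ∃ x : P, y = x⁻¹ * (α : MulAut P) x} with hWdef
  have hW : ∀ α ∈ G, ∀ w ∈ W, α w ∈ W := by
    intro α hα
    have : W ≤ W.comap (α : P ≃* P).toMonoidHom := by
      refine (Subgroup.closure_le _).mpr ?_
      rintro _ ⟨β, hβ, x, rfl⟩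
      refine Subgroup.subset_closure ⟨⟨α, hα⟩ * β * ⟨α, hα⟩⁻¹, ?_, α x, ?_⟩
      · refine (Subgroup.Normal.conj_mem ?_ β hβ _)
        constructor
        intro n hn g
        have : Cfsg.pResidual p ↥G ≤ (Cfsg.pResidual p ↥G).comap (MulAut.conj g).toMonoidHom := by
          refine (Subgroup.closure_le _).mpr fun y hy => Subgroup.subset_closure ?_
          show (orderOf ((MulAut.conj g) y)).Coprime p
          rwa [show orderOf ((MulAut.conj g) y) = orderOf y from
            orderOf_injective (MulAut.conj g).toMonoidHom (MulAut.conj g).injective y]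
        exact this hn
      · simp
    exact fun w hw => this hw
  have hfaith : ∀ α ∈ G, (orderOf α).Coprime p → ∀ x : P, x⁻¹ * α x ∈ W := fun α hα hc x =>
    Subgroup.subset_closure ⟨⟨α, hα⟩, Subgroup.subset_closure (by
      show (orderOf (⟨α, hα⟩ : ↥G)).Coprime p
      rwa [Subgroup.orderOf_mk]), x, rfl⟩
  obtain ⟨D, hinv, hDW, hexp, hcomm, hdet⟩ :=
    CfsgLib.ConjFunctor.exists_small_exponent_detecting hP G hG W hW hfaith
  refine ⟨D, hinv, hDW, hexp, hcomm, hdet, fun A hAD hAab hAmax => ?_⟩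
  have hcom : ∀ a ∈ A, ∀ b ∈ A, a * b = b * a := fun a ha b hb =>
    congrArg Subtype.val (hAab.is_comm.comm ⟨a, ha⟩ ⟨b, hb⟩)
  have hext : ∀ z ∈ D, (∀ a ∈ A, z * a = a * z) → z ∈ A := by
    intro z hz hzA
    have hle : Subgroup.closure ((A : Set P) ∪ {z}) ≤ D := (Subgroup.closure_le _).mpr
      (Set.union_subset hAD (by simpa using hz))
    have hc : IsMulCommutative ↥(Subgroup.closure ((A : Set P) ∪ {z})) := Subgroup.isMulCommutative_closure (by
      rintro x (hx | rfl) y (hy | rfl)
      · exact hcom x hx y hy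
      · exact (hzA x hx).symm
      · exact hzA y hy
      · rfl)
    have h := hAmax _ (fun a ha => Subgroup.subset_closure (Or.inl ha)) hle hc
    rw [← h]
    exact Subgroup.subset_closure (Or.inr rfl)
  have hAn : A.Normal := by
    constructor
    intro a ha g
    have h1 : ⁅a, g⁆ ∈ D ⊓ Subgroup.centralizer (D : Set P) :=
      hcomm (Subgroup.commutator_mem_commutator (hAD ha) (Subgroup.mem_top g))
    have h2 : ⁅a, g⁆ ∈ A := hext _ h1.1 fun b hb => (h1.2 b (hAD hb)).symm
    rw [show g * a * g⁻¹ = ⁅a, g⁆⁻¹ * a by rw [commutatorElement_def]; group]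
    exact A.mul_mem (A.inv_mem h2) ha
  refine ⟨hAn, fun α hα hfix => ?_⟩
  obtain ⟨k, m, hm, hkm⟩ := Nat.exists_eq_pow_mul_and_not_dvd (orderOf_pos α).ne' p (Fact.out : p.Prime).ne_one
  refine ⟨k, ?_⟩
  have hβc : (orderOf (α ^ p ^ k)).Coprime p := by
    have hd : orderOf (α ^ p ^ k) ∣ m := by
      apply orderOf_dvd_of_pow_eq_one
      rw [← pow_mul, ← hkm, pow_orderOf_eq_one]
    exact ((((Fact.out : p.Prime).coprime_iff_not_dvd).mpr hm).symm).coprime_dvd_left hd
  have hfixk : ∀ n : ℕ, ∀ a ∈ A, (α ^ n) a = a := by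
    intro n
    induction n with
    | zero => intro a _; simp
    | succ n ih => intro a ha; rw [pow_succ, MulAut.mul_apply, hfix a ha, ih a ha]
  have hβ : α ^ p ^ k = 1 := by
    refine hdet _ (G.pow_mem hα _) hβc (CfsgLib.ConjFunctor.apply_eq_of_fixed_selfCentralizing hP hβc
      (fun b _ a ha => by simpa using hAn.conj_mem a ha b⁻¹) hext ?_ (hfixk _))
    intro b hb
    rw [← hinv _ (G.pow_mem hα (p ^ k))]
    exact ⟨b, hb, rfl⟩
  obtain ⟨j, hj, hj'⟩ := (Nat.dvd_prime_pow (Fact.out : p.Prime)).mp (orderOf_dvd_of_pow_eq_one hβ)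
  have : p ^ k ∣ orderOf α := ⟨m, hkm⟩
  rw [hj'] at this ⊢
  exact congrArg _ (le_antisymm hj ((Nat.pow_dvd_pow_iff_le_right (Fact.out : p.Prime).one_lt).mp this))

end Cfsg.Agent.S1949
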