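import Cfsg.Statements.S1952
import Mathlib
import Cfsg.Agent.Eq.Def_Transfer
-- import your own Cfsg.Agent.* helpers here

set_option autoImplicit false
open Cfsg

namespace Cfsg.Agent.S1952


theorem exists_hom {G : Type*} [CommGroup G] {p : ℕ} [Fact p.Prime] (hp : ∀ a : G, a ^ p = 1)
    {v : G} (hv : v ≠ 1) : ∃ lam : Additive G →+ ZMod p, lam (Additive.ofMul v) = 1 := by
  letI : Module (ZMod p) (Additive G) := AddCommGroup.zmodModule (fun a =>
    show Additive.ofMul (a.toMul ^ p) = Additive.ofMul 1 from congrArg Additive.ofMul (hp _))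
  obtain ⟨g, hg⟩ := LinearMap.exists_leftInverse_of_injective
    (LinearMap.toSpanSingleton (ZMod p) (Additive G) (Additive.ofMul v))
    (LinearMap.ker_eq_bot'.2 fun c hc => by
      by_contra hc0
      refine hv (Additive.ofMul.injective (?_ : Additive.ofMul v = 0))
      have h1 : c • Additive.ofMul v = 0 := hc
      rw [← one_smul (ZMod p) (Additive.ofMul v), ← inv_mul_cancel₀ hc0, mul_smul, h1, smul_zero])
  exact ⟨g.toAddMonoidHom, by simpa using LinearMap.congr_fun hg 1⟩

/-- Let P be a finite p-group with a normal elementary abelian subgroup A of index p, and let x ∈ A and y ∈ P with y outside A. If the product of the p conjugates y^(-i) x y^i (i = 0, …, p−1) is not the identity, then the wreath product Z_p ≀ Z_p, realised as a Sylow p-subgroup of the symmetric group of degree p², is a homomorphic image of P. -/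
theorem result {P : Type*} [Group P] [Finite P] {p : ℕ} [Fact p.Prime] (hP : IsPGroup p P) (A : Subgroup P) [A.Normal]
    (hA : Cfsg.IsElementaryAbelian p A) (hidx : A.index = p) (x y : P) (hx : x ∈ A) (hy : y ∉ A)
    (hprod : ((List.range p).map (fun i => (y ^ i)⁻¹ * x * y ^ i)).prod ≠ 1) :
    ∃ (Q : Sylow p (Equiv.Perm (Fin (p ^ 2)))) (f : P →* ↥(Q : Subgroup (Equiv.Perm (Fin (p ^ 2))))), Function.Surjective f := by
  classical
  letI : CommGroup A := { (inferInstance : Group A) with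
    mul_comm := fun a b => hA.1.is_comm.comm a b }
  have hN : ((List.range p).map (fun i => (y ^ i)⁻¹ * x * y ^ i)).prod ∈ A := by
    refine list_prod_mem ?_
    intro z hz
    obtain ⟨i, -, rfl⟩ := List.mem_map.1 hz
    exact Subgroup.Normal.conj_mem' inferInstance x hx _
  obtain ⟨lam, hlam⟩ := exists_hom (p := p) (G := A) (fun a => Subtype.ext (by simpa using hA.2 _ a.2))
    (v := ⟨_, hN⟩) (fun h => hprod (congrArg Subtype.val h))
  let f : A →* Multiplicative (ZMod p) :=
    MonoidHom.mk' (fun a => Multiplicative.ofAdd (lam (Additive.ofMul a)))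
      (fun a b => by rw [ofMul_mul, map_add, ofAdd_add])
  let B : Subgroup P := f.ker.map A.subtype
  have hfs : Function.Surjective f := fun c =>
    ⟨(⟨_, hN⟩ : A) ^ c.toAdd.val, by
      show Multiplicative.ofAdd (lam _) = c
      rw [ofMul_pow, map_nsmul, hlam, nsmul_eq_mul, mul_one, ZMod.natCast_zmod_val, ofAdd_toAdd]⟩
  have hBi : B.index = p ^ 2 := by
    rw [Subgroup.index_map_of_injective _ A.subtype_injective, Subgroup.range_subtype, hidx,
      Subgroup.index_ker, MonoidHom.range_eq_top.2 hfs, Subgroup.card_top,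
      Nat.card_congr Multiplicative.toAdd, Nat.card_zmod, pow_two]
  obtain ⟨e⟩ : Nonempty ((P ⧸ B) ≃ Fin (p ^ 2)) :=
    ⟨Finite.equivFinOfCardEq (by rw [← Subgroup.index_eq_card, hBi])⟩
  let ψ : P →* Equiv.Perm (Fin (p ^ 2)) :=
    e.permCongrHom.toMonoidHom.comp (MulAction.toPermHom P (P ⧸ B))
  -- the coordinates
  have hy0 : ∀ a ∈ A, ∀ k : ℕ, (y ^ k)⁻¹ * a * y ^ k ∈ A := fun a ha k =>
    Subgroup.Normal.conj_mem' inferInstance a ha _
  have hyp : y ^ p ∈ A := hidx ▸ A.pow_index_mem y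
  let cj : ZMod p → A →* A := fun i =>
    { toFun := fun a => ⟨(y ^ i.val)⁻¹ * a * y ^ i.val, hy0 a a.2 _⟩
      map_one' := Subtype.ext (by simp)
      map_mul' := fun a b => Subtype.ext (by simp [mul_assoc]) }
  have hmod : ∀ (a : P), a ∈ A → ∀ n : ℕ,
      (y ^ n)⁻¹ * a * y ^ n = (y ^ (n % p))⁻¹ * a * y ^ (n % p) := by
    intro a ha n
    conv_lhs => rw [← Nat.mod_add_div n p, pow_add, pow_mul]
    generalize n % p = r
    have hc : (y ^ r)⁻¹ * a * y ^ r ∈ A := hy0 a ha r
    have hcomm : ((y ^ r)⁻¹ * a * y ^ r) * (y ^ p) ^ (n / p)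
        = (y ^ p) ^ (n / p) * ((y ^ r)⁻¹ * a * y ^ r) :=
      congrArg Subtype.val (hA.1.is_comm.comm (⟨_, hc⟩ : A) ⟨_, pow_mem hyp _⟩)
    calc (y ^ r * (y ^ p) ^ (n / p))⁻¹ * a * (y ^ r * (y ^ p) ^ (n / p))
        = ((y ^ p) ^ (n / p))⁻¹ * (((y ^ r)⁻¹ * a * y ^ r) * (y ^ p) ^ (n / p)) := by group
      _ = (y ^ r)⁻¹ * a * y ^ r := by rw [hcomm]; group
  have hcj : ∀ i j a, cj i (cj j a) = cj (i + j) a := by
    intro i j a
    apply Subtype.ext
    show (y ^ i.val)⁻¹ * ((y ^ j.val)⁻¹ * (a : P) * y ^ j.val) * y ^ i.val = _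
    rw [show (cj (i + j) a : P) = (y ^ (i + j).val)⁻¹ * a * y ^ (i + j).val from rfl, ZMod.val_add,
      add_comm i.val, ← hmod a a.2, pow_add]
    group
  let Φ : A →* Multiplicative (AddMonoidAlgebra (ZMod p) (ZMod p)) :=
    MonoidHom.mk' (fun a => Multiplicative.ofAdd
      (∑ i : ZMod p, AddMonoidAlgebra.single i (lam (Additive.ofMul (cj i a))))) (fun a b => by
      rw [← ofAdd_add, ← Finset.sum_add_distrib]
      congr 1
      refine Finset.sum_congr rfl fun i _ => ?_
      rw [map_mul, ofMul_mul, map_add, AddMonoidAlgebra.single_add])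
  let J : Set (AddMonoidAlgebra (ZMod p) (ZMod p)) := {v | ∃ a, Φ a = Multiplicative.ofAdd v}
  have hJshift : ∀ (k : ZMod p) v, v ∈ J → AddMonoidAlgebra.single k (1 : ZMod p) * v ∈ J := by
    rintro k v ⟨a, ha⟩
    refine ⟨cj (-k) a, ?_⟩
    have hv : v = ∑ i : ZMod p, AddMonoidAlgebra.single i (lam (Additive.ofMul (cj i a))) :=
      (congrArg Multiplicative.toAdd ha).symm
    show Multiplicative.ofAdd (∑ i : ZMod p,
      AddMonoidAlgebra.single i (lam (Additive.ofMul (cj i (cj (-k) a))))) = _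
    congr 1
    rw [hv, Finset.mul_sum]
    simp only [AddMonoidAlgebra.single_mul_single, one_mul, hcj]
    exact Fintype.sum_equiv (Equiv.addRight (-k)) _ _ (fun i => by simp)
  have hJadd : ∀ u v, u ∈ J → v ∈ J → u + v ∈ J := fun u v ⟨a, ha⟩ ⟨b, hb⟩ =>
    ⟨a * b, by rw [map_mul, ha, hb, ofAdd_add]⟩
  have hJ0 : (0 : AddMonoidAlgebra (ZMod p) (ZMod p)) ∈ J := ⟨1, by rw [map_one]; rfl⟩
  have hJmul : ∀ w v, v ∈ J → w * v ∈ J := by
    intro w v hv
    induction w using AddMonoidAlgebra.induction_linear with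
    | zero => rw [zero_mul]; exact hJ0
    | add u w hu hw => rw [add_mul]; exact hJadd _ _ hu hw
    | single k c =>
      have h1 : ∀ n : ℕ, n • (AddMonoidAlgebra.single k (1 : ZMod p) * v) ∈ J := by
        intro n
        induction n with
        | zero => simpa using hJ0
        | succ n ih => rw [succ_nsmul]; exact hJadd _ _ ih (hJshift k v hv)
      have hc : AddMonoidAlgebra.single k c = c.val • AddMonoidAlgebra.single k (1 : ZMod p) := by
        rw [AddMonoidAlgebra.smul_single, nsmul_eq_mul, mul_one, ZMod.natCast_zmod_val]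
      rw [hc, smul_mul_assoc]
      exact h1 _
  have hsum : ∑ i : ZMod p, lam (Additive.ofMul (cj i ⟨x, hx⟩)) = 1 := by
    rw [← map_sum, ← ofMul_prod, ← hlam]
    congr 2
    apply Subtype.ext
    have hval : ((∏ i : ZMod p, cj i ⟨x, hx⟩ : A) : P) =
        ((List.range p).map (fun i => (y ^ i)⁻¹ * x * y ^ i)).prod := by
      have h1 : (∏ i : ZMod p, cj i ⟨x, hx⟩ : A) =
          ∏ n ∈ Finset.range p, (⟨(y ^ n)⁻¹ * x * y ^ n, hy0 x hx n⟩ : A) := by
        refine Finset.prod_bij (fun i _ => i.val) (fun i _ => Finset.mem_range.2 i.val_lt)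
          (fun a _ b _ h => ZMod.val_injective p h)
          (fun n hn => ⟨(n : ZMod p), Finset.mem_univ _,
            ZMod.val_natCast_of_lt (Finset.mem_range.1 hn)⟩) (fun i _ => rfl)
      rw [h1, Finset.prod_eq_multiset_prod, Finset.range_val, Multiset.range, Multiset.map_coe,
        Multiset.prod_coe, ← Subgroup.coe_subtype, map_list_prod, List.map_map]
      rfl
    exact hval
  obtain ⟨u, hu⟩ : ∃ u, u ∈ J ∧ IsUnit u := by
    refine ⟨_, ⟨⟨⟨x, hx⟩, rfl⟩, ?_⟩⟩
    refine IsUnit.of_pow_eq_one (n := p) ?_ (Fact.out : p.Prime).ne_zero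
    haveI : CharP (AddMonoidAlgebra (ZMod p) (ZMod p)) p :=
      charP_of_injective_algebraMap (algebraMap (ZMod p) _).injective p
    rw [sum_pow_char]
    simp only [AddMonoidAlgebra.single_pow, nsmul_eq_mul, CharP.cast_eq_zero, zero_mul,
      ZMod.pow_card]
    exact ((map_sum (AddMonoidAlgebra.singleAddHom (R := ZMod p) (0 : ZMod p))
      (fun i => lam (Additive.ofMul (cj i ⟨x, hx⟩))) Finset.univ).symm.trans (congrArg _ hsum)).trans rfl
  obtain ⟨v, hv⟩ := hu.2.exists_left_inv
  have hΦs : Function.Surjective Φ := fun w => by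
    obtain ⟨a, ha⟩ := hJmul (w.toAdd * v) u hu.1
    refine ⟨a, ?_⟩
    rw [ha, mul_assoc, hv, mul_one, ofAdd_toAdd]
  -- the image
  have hker : ψ.ker ≤ Φ.ker.map A.subtype := by
    intro g hg
    have hB : ∀ r : P, r⁻¹ * g * r ∈ B := by
      intro r
      have h1 := DFunLike.congr_fun (MonoidHom.mem_ker.1 hg) (e (QuotientGroup.mk r))
      have h2 : e (g • e.symm (e (QuotientGroup.mk r : P ⧸ B))) = e (QuotientGroup.mk r) := h1
      rw [Equiv.symm_apply_apply, e.apply_eq_iff_eq, MulAction.Quotient.smul_mk, smul_eq_mul,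
        QuotientGroup.eq] at h2
      have h3 := inv_mem h2
      rw [show ((g * r)⁻¹ * r)⁻¹ = r⁻¹ * g * r by group] at h3
      exact h3
    have hgA : g ∈ A := by
      obtain ⟨b, -, hb⟩ := hB 1
      have : g = b := by simpa using hb.symm
      exact this ▸ b.2
    refine ⟨⟨g, hgA⟩, ?_, rfl⟩
    rw [SetLike.mem_coe, MonoidHom.mem_ker]
    show Multiplicative.ofAdd _ = 1
    rw [← ofAdd_zero]
    congr 1
    refine Finset.sum_eq_zero fun i _ => ?_
    obtain ⟨b, hb, hb'⟩ := hB (y ^ i.val)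
    have : cj i ⟨g, hgA⟩ = b := Subtype.ext hb'.symm
    rw [this]
    have hb0 : lam (Additive.ofMul b) = 0 := congrArg Multiplicative.toAdd (MonoidHom.mem_ker.1 hb)
    rw [hb0, AddMonoidAlgebra.single_zero]
  have hcardR : Nat.card (AddMonoidAlgebra (ZMod p) (ZMod p)) = p ^ p := by
    rw [Nat.card_congr (AddMonoidAlgebra.coeffEquiv.trans Finsupp.equivFunOnFinite), Nat.card_fun,
      Nat.card_zmod]
  have hlow : p ^ (p + 1) ≤ Nat.card ψ.range := by
    have h1 := Nat.le_of_dvd (Nat.pos_of_ne_zero Subgroup.index_ne_zero_of_finite)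
      (Subgroup.index_dvd_of_le hker)
    rw [Subgroup.index_map_of_injective _ A.subtype_injective, Subgroup.range_subtype, hidx,
      Subgroup.index_ker, Subgroup.index_ker, MonoidHom.range_eq_top.2 hΦs, Subgroup.card_top,
      Nat.card_congr Multiplicative.toAdd, hcardR] at h1
    exact le_trans (le_of_eq (pow_succ p p)) h1
  obtain ⟨Q, hQ⟩ := IsPGroup.exists_le_sylow
    (hP.of_surjective ψ.rangeRestrict ψ.rangeRestrict_surjective : IsPGroup p ψ.range)
  have hQc : Nat.card Q = p ^ (p + 1) := by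
    rw [Sylow.card_eq_multiplicity, Nat.card_perm, Nat.card_fin]
    congr 1
    rw [Nat.factorization_def _ Fact.out, pow_two, padicValNat_factorial_mul]
    have h1 : padicValNat p (p * 1).factorial = 1 := by
      rw [padicValNat_factorial_mul]; simp
    rw [mul_one] at h1
    omega
  have heq : ψ.range = (Q : Subgroup (Equiv.Perm (Fin (p ^ 2)))) :=
    Subgroup.eq_of_le_of_card_ge hQ (hQc ▸ hlow)
  refine ⟨Q, ψ.codRestrict _ fun g => heq ▸ ⟨g, rfl⟩, fun q => ?_⟩
  obtain ⟨g, hg⟩ : (q : Equiv.Perm (Fin (p ^ 2))) ∈ ψ.range := heq.symm ▸ q.2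
  exact ⟨g, Subtype.ext hg⟩

end Cfsg.Agent.S1952
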