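import Cfsg.Statements.S1954
import Cfsg.Agent.ConjFunctor.NormalSubgroupControl

set_option autoImplicit false
open Cfsg

namespace Cfsg.Agent.S1954

/-- Let N be a normal subgroup of the finite group G, P a Sylow p-subgroup of G, and V a subgroup of P ∩ N normal in P ∩ N such that N_N(V) controls strong fusion in P ∩ N with respect to N (whenever a subgroup A of P ∩ N has n A n⁻¹ ≤ P ∩ N for some n in N, then n = h c with h in N_N(V) and c in C_N(A)). Let W be the subgroup generated by the conjugates of V under N_G(P ∩ N). Then N_G(W) controls strong fusion in P with respect to G. -/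
theorem result {G : Type*} [Group G] [Finite G] {p : ℕ} [Fact p.Prime] (N : Subgroup G) [N.Normal] (P : Sylow p G) (V : Subgroup G)
    (hV : V ≤ (P : Subgroup G) ⊓ N) (hVn : ∀ x ∈ (P : Subgroup G) ⊓ N, V.map (MulAut.conj x).toMonoidHom = V)
    (hctrl : ∀ A : Subgroup G, A ≤ (P : Subgroup G) ⊓ N → ∀ n ∈ N, A.map (MulAut.conj n).toMonoidHom ≤ (P : Subgroup G) ⊓ N →
      ∃ h ∈ N ⊓ Subgroup.normalizer (V : Set G), ∃ c ∈ N ⊓ Subgroup.centralizer (A : Set G), n = h * c)
    (W : Subgroup G) (hW : W = Subgroup.closure (⋃ x ∈ Subgroup.normalizer (((P : Subgroup G) ⊓ N : Subgroup G) : Set G),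
      ((V.map (MulAut.conj x).toMonoidHom : Subgroup G) : Set G))) :
    ∀ A : Subgroup G, A ≤ (P : Subgroup G) → ∀ g : G, A.map (MulAut.conj g).toMonoidHom ≤ (P : Subgroup G) →
        ∃ h ∈ Subgroup.normalizer (W : Set G), ∃ c ∈ Subgroup.centralizer (A : Set G), g = h * c := by
  open CfsgLib.ConjFunctor in
  have main : ∀ A : Subgroup G, A ≤ (P : Subgroup G) → ∀ g : G, conjOf g A ≤ (P : Subgroup G) →
      SplitsIn (Subgroup.normalizer (W : Set G)) A g := by
    set D := (P : Subgroup G) ⊓ N with hDdef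
    set ND := Subgroup.normalizer (D : Set G) with hND
    have hVD : ∀ x ∈ ND, conjOf x V ≤ D := fun x hx =>
      (conjOf_mono hV).trans (mem_normalizer_iff_conjOf.mp hx).le
    have hWS : W ≤ D := by
      rw [hW, Subgroup.closure_le]
      exact Set.iUnion₂_subset fun x hx => hVD x hx
    have hNDW : ND ≤ Subgroup.normalizer (W : Set G) := by
      intro m hm
      refine mem_normalizer_iff_conjOf.mpr (Subgroup.eq_of_le_of_card_ge ?_ (card_conjOf _ _).ge)
      show W.map _ ≤ W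
      conv_lhs => rw [hW]
      rw [MonoidHom.map_closure, Subgroup.closure_le]
      rintro _ ⟨z, hz, rfl⟩
      obtain ⟨x, hx, hzx⟩ := Set.mem_iUnion₂.mp hz
      rw [hW]
      refine Subgroup.subset_closure (Set.mem_iUnion₂.mpr ⟨m * x, ND.mul_mem hm hx, ?_⟩)
      show _ ∈ conjOf (m * x) V
      rw [← conjOf_conjOf]
      exact conj_mem_conjOf hzx
    have hPND : (P : Subgroup G) ≤ ND := by
      intro s hs
      refine mem_normalizer_iff_conjOf.mpr (Subgroup.eq_of_le_of_card_ge ?_ (card_conjOf _ _).ge)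
      exact conjOf_le_iff.mpr fun y hy => ⟨Subgroup.mul_mem _ (Subgroup.mul_mem _ hs hy.1) (Subgroup.inv_mem _ hs),
        ‹N.Normal›.conj_mem y hy.2 s⟩
    have hsyl : ¬ p ∣ (D.subgroupOf N).index :=
      CfsgLib.Alperin.not_dvd_relIndex_inf P (N := ⊤)
        (by rw [inf_top_eq, Subgroup.relIndex_top_right]; exact P.not_dvd_index)
        le_top (by rw [Subgroup.normalizer_eq_top])
    have hDp : IsPGroup p ↥(D.subgroupOf N) := (P.2.to_le inf_le_left).comap_subtype
    let S : Sylow p ↥N := hDp.toSylow hsyl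
    have hSmap : (S : Subgroup ↥N).map N.subtype = D := Subgroup.map_subgroupOf_eq_of_le inf_le_right
    refine splitsIn_normalizer_of_normal P N hWS (hPND.trans hNDW) fun B hB g hg =>
      splitsIn_of_normal_sylow hNDW (fun B hB n hn hnB => ?_) hB hg
    let 𝒱 : Set (Subgroup ↥N) := (fun x => (conjOf x V).subgroupOf N) '' (ND : Set G)
    have hctrl1 : ∀ x ∈ ND, ∀ A : Subgroup G, A ≤ D → ∀ k ∈ N, conjOf k A ≤ D →
        ∃ h ∈ N ⊓ Subgroup.normalizer ((conjOf x V : Subgroup G) : Set G),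
          ∃ c ∈ N ⊓ Subgroup.centralizer (A : Set G), k = h * c := by
      intro x hx A hA k hk hkA
      have hxD := mem_normalizer_iff_conjOf.mp (ND.inv_mem hx)
      obtain ⟨h, hh, c, hc, e⟩ := hctrl (conjOf x⁻¹ A) ((conjOf_mono hA).trans hxD.le) (x⁻¹ * k * x)
        (by simpa using ‹N.Normal›.conj_mem k hk x⁻¹) (by
          show conjOf (x⁻¹ * k * x) (conjOf x⁻¹ A) ≤ _
          rw [conjOf_conjOf, show x⁻¹ * k * x * x⁻¹ = x⁻¹ * k by group, ← conjOf_conjOf]
          exact (conjOf_mono hkA).trans hxD.le)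
      refine ⟨x * h * x⁻¹, ⟨‹N.Normal›.conj_mem h hh.1 x, ?_⟩, x * c * x⁻¹, ⟨‹N.Normal›.conj_mem c hc.1 x, ?_⟩, ?_⟩
      · rw [normalizer_conjOf]
        exact conj_mem_conjOf hh.2
      · have := mem_centralizer_conj (H := A) (h := x⁻¹) (c := c) hc.2
        simpa using this
      · calc k = x * (x⁻¹ * k * x) * x⁻¹ := by group
          _ = _ := by rw [e]; group
    obtain ⟨h, hh, c, hc, e⟩ := splitsIn_iInf_normalizer S 𝒱 (by
        rintro _ ⟨x, hx, rfl⟩
        exact fun y hy => hVD x hx hy) (by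
        rintro _ ⟨x, hx, rfl⟩ s hs
        refine Subgroup.le_normalizer_comap N.subtype ?_
        show (s : G) ∈ Subgroup.normalizer ((conjOf x V : Subgroup G) : Set G)
        rw [normalizer_conjOf, mem_conjOf]
        have hs2 : x⁻¹ * (s : G) * x⁻¹⁻¹ ∈ D :=
          (Subgroup.mem_normalizer_iff.mp (ND.inv_mem hx) (s : G)).mp hs
        rw [inv_inv] at hs2
        exact Subgroup.mem_normalizer_iff_map_conj_eq.mpr (hVn _ hs2)) (by
        rintro _ ⟨x, hx, rfl⟩ A hA k hkA
        obtain ⟨h, hh, c, hc, e⟩ := hctrl1 x hx (A.map N.subtype) ((Subgroup.map_mono hA).trans hSmap.le) k k.2 (by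
          refine conjOf_le_iff.mpr ?_
          rintro _ ⟨a, ha, rfl⟩
          exact hkA (conj_mem_conjOf (g := k) ha))
        exact ⟨⟨h, hh.1⟩, Subgroup.le_normalizer_comap N.subtype hh.2, ⟨c, hc.1⟩,
          fun a ha => Subtype.ext (hc.2 (a : G) ⟨a, ha, rfl⟩), Subtype.ext e⟩)
      (B.subgroupOf N) (fun b hb => hB hb) ⟨n, hn⟩
      (conjOf_le_iff.mpr fun b hb => hnB (conj_mem_conjOf (g := n) hb))
    refine ⟨(h : G), ?_, (c : G), ⟨fun b hb => congrArg Subtype.val (hc ⟨b, (hB hb).2⟩ hb), c.2⟩, congrArg Subtype.val e⟩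
    refine mem_normalizer_iff_conjOf.mpr (Subgroup.eq_of_le_of_card_ge ?_ (card_conjOf _ _).ge)
    show W.map _ ≤ W
    conv_lhs => rw [hW]
    rw [MonoidHom.map_closure, Subgroup.closure_le]
    rintro _ ⟨z, hz, rfl⟩
    obtain ⟨x, hx, hzx⟩ := Set.mem_iUnion₂.mp hz
    rw [hW]
    refine Subgroup.subset_closure (Set.mem_iUnion₂.mpr ⟨x, hx, ?_⟩)
    have hh' := Subgroup.mem_iInf.mp (Subgroup.mem_iInf.mp hh _) ⟨x, hx, rfl⟩
    exact (Subgroup.mem_normalizer_iff.mp hh' ⟨z, (hVD x hx hzx).2⟩).mp hzx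
  intro A hA g hg
  exact main A hA g hg

end Cfsg.Agent.S1954
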