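import Cfsg.Statements.S1988
import Cfsg.Agent.SectionFunctors.KInfNormal
import Cfsg.Agent.ConjFunctor.KInfMax

set_option autoImplicit false
universe u
open Cfsg

namespace Cfsg.Agent.S1988

open CfsgLib.ConjFunctor CfsgLib.Transfer in
/-- If the `p'`-elements of `N(K)` centralize `K` and `K` contains its centralizer in a Sylow subgroup `S` normalizing
it, then `N(K)` has a normal `p`-complement. -/
theorem npc_normalizer {G : Type u} [Group G] [Finite G] {p : ℕ} [Fact p.Prime] (S : Sylow p G) (K : Subgroup G)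
    (hSK : (S : Subgroup G) ≤ Subgroup.normalizer (K : Set G))
    (hCK : (S : Subgroup G) ⊓ Subgroup.centralizer (K : Set G) ≤ K)
    (h : ∀ g ∈ Subgroup.normalizer (K : Set G), (orderOf g).Coprime p → g ∈ Subgroup.centralizer (K : Set G)) :
    Cfsg.HasNormalPComplement p ↥(Subgroup.normalizer (K : Set G)) := by
  set N := Subgroup.normalizer (K : Set G) with hN
  set C := (Subgroup.centralizer (K : Set G)).subgroupOf N with hC
  haveI hCn : C.Normal := ⟨fun c hc n => Subgroup.mem_centralizer_iff.mpr fun k hk => by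
    have h1 := Subgroup.mem_centralizer_iff.mp hc _
      ((Subgroup.mem_normalizer_iff''.mp n.2 k).mp hk)
    simp only [Subgroup.coe_subtype, Subgroup.coe_mul, InvMemClass.coe_inv] at *
    calc k * ((n : G) * c * (n : G)⁻¹) = n * (((n : G)⁻¹ * k * n) * c) * (n : G)⁻¹ := by group
      _ = n * c * (n : G)⁻¹ * k := by rw [h1]; group⟩
  have hCnpc : Cfsg.HasNormalPComplement p ↥C := by
    obtain ⟨P⟩ : Nonempty (Sylow p ↥C) := inferInstance
    refine hasNormalPComplement_of_normalizer_le_centralizer P fun c _ => Subgroup.mem_centralizer_iff.mpr fun x hx => ?_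
    obtain ⟨T, hT⟩ := (P.2.map C.subtype).exists_le_sylow
    obtain ⟨n, hn⟩ := MulAction.exists_smul_eq ↥N T (S.subtype hSK)
    have hxT : (x : ↥N) ∈ (T : Subgroup ↥N) := hT ⟨x, hx, rfl⟩
    have h1 : MulAut.conj n (x : ↥N) ∈ ((S.subtype hSK : Sylow p ↥N) : Subgroup ↥N) := by
      rw [← hn]; exact ⟨_, hxT, rfl⟩
    have hxK : ((x : ↥N) : G) ∈ K := by
      refine (Subgroup.mem_normalizer_iff.mp n.2 _).mpr (hCK ⟨h1, ?_⟩)
      exact hCn.conj_mem _ x.2 n
    have h2 := Subgroup.mem_centralizer_iff.mp c.2 _ hxK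
    exact Subtype.ext (Subtype.ext h2)
  set M := (Cfsg.pResidual p ↥C).map C.subtype with hM
  have hmemM : ∀ x : ↥N, x ∈ M ↔ x ∈ C ∧ (orderOf x).Coprime p := by
    intro x
    constructor
    · rintro ⟨c, hc, rfl⟩
      refine ⟨c.2, ?_⟩
      rw [Subgroup.coe_subtype, Subgroup.orderOf_coe]
      exact (mem_pResidual_iff hCnpc c).mp hc
    · rintro ⟨hx, hxc⟩
      exact ⟨⟨x, hx⟩, (mem_pResidual_iff hCnpc _).mpr (by rwa [← Subgroup.orderOf_coe]), rfl⟩
  haveI : M.Normal := ⟨fun x hx n => by
    rw [hmemM] at hx ⊢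
    refine ⟨hCn.conj_mem x hx.1 n, ?_⟩
    rw [← MulAut.conj_apply, MulEquiv.orderOf_eq]
    exact hx.2⟩
  refine hasNormalPComplement_of_normal M ?_ ?_
  · rw [hM, Subgroup.card_map_of_injective C.subtype_injective]
    exact hasNormalPComplement_iff_coprime_pResidual.mp hCnpc
  · intro q
    induction q using QuotientGroup.induction_on with
    | H x =>
      refine ⟨(orderOf x).factorization p, ?_⟩
      rw [← QuotientGroup.mk_pow, QuotientGroup.eq_one_iff, hmemM]
      have h1 : (orderOf (x ^ p ^ (orderOf x).factorization p)).Coprime p := by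
        rw [orderOf_pow_of_dvd (pow_ne_zero _ (Fact.out : p.Prime).ne_zero) (Nat.ordProj_dvd _ _)]
        exact coprime_of_not_dvd (Nat.not_dvd_ordCompl Fact.out (orderOf_pos x).ne')
      exact ⟨h _ (x ^ _).2 (by rwa [← Subgroup.orderOf_coe] at h1), h1⟩

/-- Let p be an odd prime, G a finite group with Sylow p-subgroup S and K the lower K-infinity subgroup of S. If N_G(K) has a normal p-complement, or if N_G(K)/C_G(K) is a p-group (every element of N_G(K) of order prime to p centralizes K), then G has a normal p-complement. -/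
theorem result {G : Type u} [Group G] [Finite G] {p : ℕ} [Fact p.Prime] (hp : p ≠ 2) (S : Sylow p G) (h : Cfsg.HasNormalPComplement p ↥(Subgroup.normalizer ((Cfsg.inducedFunctor Cfsg.kInfLower (S : Subgroup G) : Subgroup G) : Set G)) ∨ ∀ g ∈ Subgroup.normalizer ((Cfsg.inducedFunctor Cfsg.kInfLower (S : Subgroup G) : Subgroup G) : Set G), (orderOf g).Coprime p → g ∈ Subgroup.centralizer ((Cfsg.inducedFunctor Cfsg.kInfLower (S : Subgroup G) : Subgroup G) : Set G)) : Cfsg.HasNormalPComplement p G := by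
  have hW := CfsgLib.ConjFunctor.isCharPFunctor_kInfLower.{u} (p := p)
  refine CfsgLib.SectionFunctors.hasNormalPComplement_of_normalInMaximalSections kInfLower hW (Nat.card G) G rfl
    (fun K R _ hX hq T hT => (CfsgLib.SectionFunctors.kInf_normal_of_isCoatom hp hX hq T hT).1) S ?_
  rcases h with h | h
  · exact h
  · refine npc_normalizer S _ (CfsgLib.SectionFunctors.le_normalizer_inducedFunctor hW S.2) ?_ h
    rintro x ⟨hxS, hxC⟩
    refine ⟨⟨x, hxS⟩, CfsgLib.ConjFunctor.centralizer_kInfLower_le S.2.isNilpotent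
      (Subgroup.mem_centralizer_iff.mpr fun k hk => Subtype.ext ?_), rfl⟩
    exact Subgroup.mem_centralizer_iff.mp hxC k ⟨k, hk, rfl⟩

end Cfsg.Agent.S1988
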