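import Cfsg.Statements.S2000
import Cfsg.Agent.S3FreeOffender.Fusion
import Cfsg.Agent.S1987
-- import your own Cfsg.Agent.* helpers here

set_option autoImplicit false
universe u
open Cfsg

namespace Cfsg.Agent.S2000

/-- Let p be a prime and G a finite group. Then Qd(p) (the natural semidirect product of an elementary abelian group of order p² by SL₂(p)) is not involved in G if and only if there is a set 𝓦 of isomorphism-invariant p-group functors (each nontrivial on nontrivial finite p-groups and carried onto W(R) by every isomorphism from a finite p-group Q onto R, hence with characteristic values on finite p-groups) whose induced conjugacy functors control strong fusion in every section of G. -/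
theorem result {G : Type u} [Group G] [Finite G] {p : ℕ} [Fact p.Prime] : ¬ Cfsg.Involves ↥(Cfsg.qd p) G ↔ ∃ 𝓦 : Set (∀ (Q : Type u) [Group Q], Subgroup Q), (∀ W ∈ 𝓦, Cfsg.IsCharPFunctor.{u} p W) ∧ ∀ (K R : Subgroup G) [hR : (R.subgroupOf K).Normal], Cfsg.FamilyControlsStrongFusionIn p ((fun W => Cfsg.inducedFunctor (G := (↥K ⧸ R.subgroupOf K)) W) '' 𝓦) ⊤ := by
  constructor
  · intro hfree
    by_cases hp : p = 2
    · subst hp
      obtain ⟨e₂⟩ := Cfsg.Agent.S2761.result
      refine ⟨{CfsgLib.S3FreeOffender.centerFunctor, CfsgLib.S3FreeOffender.thompsonFunctor}, ?_, fun K R _ =>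
        CfsgLib.S3FreeOffender.pair_controls fun h => hfree ?_⟩
      · rintro W (rfl | rfl)
        exacts [CfsgLib.S3FreeOffender.isCharPFunctor_centerFunctor 2,
          CfsgLib.S3FreeOffender.isCharPFunctor_thompsonFunctor]
      · obtain ⟨K', R', hn, ⟨e⟩⟩ := CfsgLib.QdSection.involves_of_section K R h
        exact ⟨K', R', hn, ⟨e.trans e₂.symm⟩⟩
    · refine ⟨{Cfsg.kInfLower}, ?_, fun K R _ => ?_⟩
      · rintro W rfl
        exact CfsgLib.ConjFunctor.isCharPFunctor_kInfLower
      · obtain ⟨S⟩ : Nonempty (Sylow p (↥K ⧸ R.subgroupOf K)) := inferInstance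
        refine CfsgLib.ConjFunctor.familyControlsStrongFusionIn_of_at
          ⟨le_top, S.2, fun h => S.not_dvd_index (by rwa [Subgroup.relIndex_top_right] at h)⟩
          (CfsgLib.SectionFunctors.fusionControlledAt_top_of_factorization (p := p) Cfsg.kInfLower Cfsg.kInfLower
            CfsgLib.ConjFunctor.isCharPFunctor_kInfLower CfsgLib.ConjFunctor.isCharPFunctor_kInfLower
            {Cfsg.kInfLower} rfl rfl ?_ _ _ rfl ?_ S)
        · rintro W rfl
          exact CfsgLib.ConjFunctor.isCharPFunctor_kInfLower
        · intro K₂ R₂ _ hc T x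
          refine ⟨x, ?_, 1, one_mem _, (mul_one x).symm⟩
          rw [Subgroup.normalizer_eq_top_iff.mpr ((CfsgLib.ConjFunctor.kInf_normal_of_sections
            (fun K' R' _ => CfsgLib.QdSection.isNormalizerPStable_of_qdFree hp fun hi =>
              hfree (CfsgLib.QdSection.involves_of_section K R
                (CfsgLib.QdSection.involves_of_section K' R' hi))) K₂ R₂ hc T).1)]
          exact Subgroup.mem_top x
  · rintro ⟨𝓦, h𝓦, h⟩ ⟨K, R, hR, ⟨e⟩⟩
    exact CfsgLib.S3FreeOffender.qd_not_controlled e 𝓦 h𝓦 (h K R)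

end Cfsg.Agent.S2000
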