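import Cfsg.Statements.S2001
import Cfsg.Agent.SectionFunctors.PairInduction
import Mathlib.GroupTheory.Focal
open scoped commutatorElement

set_option autoImplicit false
open Cfsg

namespace Cfsg.Agent.S2001

/-- Let p be a prime dividing the order of the finite group G, P a Sylow p-subgroup, W a conjugacy functor for p on G with Z(H) ≤ W(H) for every nontrivial p-subgroup H, and V a central functor: a conjugacy functor with V(H) ≤ Z(H), and V(H) ≤ V(K) whenever Z(H) ≤ Z(K), for nontrivial p-subgroups H, K. Say that W with V controls transfer in a subgroup L when some Sylow p-subgroup Q of L satisfies Q ∩ L' = (Q ∩ (N_L(W(Q)))')·(Q ∩ (C_L(V(Q)))') as a product of two subgroups. If W with V controls transfer in N_G(H) for every subgroup H with Z(P) ≤ H ≤ P, then W with V controls transfer in G. -/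
theorem result {G : Type*} [Group G] [Finite G] {p : ℕ} [Fact p.Prime] (hdiv : p ∣ Nat.card G) (P : Sylow p G) (W V : Subgroup G → Subgroup G) (hW : Cfsg.IsConjugacyFunctor p W) (hV : Cfsg.IsConjugacyFunctor p V) (hWZ : ∀ H : Subgroup G, IsPGroup p ↥H → H ⊓ Subgroup.centralizer ((H : Subgroup G) : Set G) ≤ W H) (hVZ : ∀ H : Subgroup G, IsPGroup p ↥H → V H ≤ H ⊓ Subgroup.centralizer ((H : Subgroup G) : Set G)) (hVmono : ∀ H K : Subgroup G, IsPGroup p ↥H → IsPGroup p ↥K → H ≠ ⊥ → K ≠ ⊥ → H ⊓ Subgroup.centralizer ((H : Subgroup G) : Set G) ≤ K ⊓ Subgroup.centralizer ((K : Subgroup G) : Set G) → V H ≤ V K) (hloc : ∀ H : Subgroup G, (P : Subgroup G) ⊓ Subgroup.centralizer (((P : Subgroup G) : Subgroup G) : Set G) ≤ H → H ≤ (P : Subgroup G) → ∃ Q : Subgroup G, Q ≤ Subgroup.normalizer ((H : Subgroup G) : Set G) ∧ IsPGroup p ↥Q ∧ ¬ p ∣ (Q).relIndex (Subgroup.normalizer ((H : Subgroup G) : Set G)) ∧ ∀ x : G, x ∈ Q ⊓ ⁅Subgroup.normalizer ((H : Subgroup G) : Set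 G), Subgroup.normalizer ((H : Subgroup G) : Set G)⁆ ↔ ∃ a ∈ Q ⊓ ⁅Subgroup.normalizer ((H : Subgroup G) : Set G) ⊓ Subgroup.normalizer ((W Q : Subgroup G) : Set G), Subgroup.normalizer ((H : Subgroup G) : Set G) ⊓ Subgroup.normalizer ((W Q : Subgroup G) : Set G)⁆, ∃ b ∈ Q ⊓ ⁅Subgroup.normalizer ((H : Subgroup G) : Set G) ⊓ Subgroup.centralizer ((V Q : Subgroup G) : Set G), Subgroup.normalizer ((H : Subgroup G) : Set G) ⊓ Subgroup.centralizer ((V Q : Subgroup G) : Set G)⁆, x = a * b) : ∃ Q : Subgroup G, IsPGroup p ↥Q ∧ ¬ p ∣ Q.index ∧ ∀ x : G, x ∈ Q ⊓ commutator G ↔ ∃ a ∈ Q ⊓ ⁅Subgroup.normalizer ((W Q : Subgroup G) : Set G), Subgroup.normalizer ((W Q : Subgroup G) : Set G)⁆, ∃ b ∈ Q ⊓ ⁅Subgroup.centralizer ((V Q : Subgroup G) : Set G), Subgroup.centralizer ((V Q : Subgroup G) : Set G)⁆, x = a * b := by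
  set A₀ := (P : Subgroup G) ⊓ ⁅Subgroup.normalizer ((W (P : Subgroup G) : Subgroup G) : Set G),
    Subgroup.normalizer ((W (P : Subgroup G) : Subgroup G) : Set G)⁆ with hA₀
  set B₀ := (P : Subgroup G) ⊓ ⁅Subgroup.centralizer ((V (P : Subgroup G) : Subgroup G) : Set G),
    Subgroup.centralizer ((V (P : Subgroup G) : Subgroup G) : Set G)⁆ with hB₀
  set M := A₀ ⊔ B₀ with hM
  have hPne : (P : Subgroup G) ≠ ⊥ := P.ne_bot_of_dvd_card hdiv
  have hPW : (P : Subgroup G) ≤ Subgroup.normalizer ((W (P : Subgroup G) : Subgroup G) : Set G) :=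
    Subgroup.le_normalizer.trans (CfsgLib.ConjFunctor.normalizer_le_normalizer_functor hW P.2)
  have hPV : (P : Subgroup G) ≤ Subgroup.centralizer ((V (P : Subgroup G) : Subgroup G) : Set G) :=
    (Subgroup.le_centralizer_iff (H := V (P : Subgroup G))).mp ((hVZ _ P.2).trans inf_le_right)
  let L : Subgroup G → Prop := fun Y => ((P : Subgroup G) ⊓ Subgroup.normalizer (Y : Set G)) ⊓
    ⁅Subgroup.normalizer (Y : Set G), Subgroup.normalizer (Y : Set G)⁆ ≤ M
  have key := CfsgLib.SectionFunctors.pair_tower_induction P W hW hWZ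
    (fun H g => ∀ a ∈ H, g * a * g⁻¹ * a⁻¹ ∈ M)
    (fun H K g hHK _ _ h a ha => h a (hHK ha))
    (fun H g k _ _ _ h1 h2 a ha => by
      have h3 := M.mul_mem (h2 _ (CfsgLib.ConjFunctor.conj_mem_conjOf ha)) (h1 a ha)
      simpa [mul_assoc] using h3)
    (fun H c _ hc a ha => by
      rw [← Subgroup.mem_centralizer_iff.mp hc a ha]; simp)
    L ?_ ?_
  · refine ⟨(P : Subgroup G), P.2, P.not_dvd_index, fun x => ⟨fun hx => ?_, ?_⟩⟩
    · have hnorm : A₀ ≤ Subgroup.normalizer (B₀ : Set G) := by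
        intro a ha
        refine CfsgLib.ConjFunctor.mem_normalizer_iff_conjOf.mpr
          (Subgroup.eq_of_le_of_card_ge ?_ (CfsgLib.ConjFunctor.card_conjOf _ _).ge)
        show B₀.map _ ≤ B₀
        rw [hB₀, Subgroup.map_inf_eq _ _ _ (MulAut.conj a).injective, Subgroup.map_commutator]
        refine inf_le_inf (le_of_eq (CfsgLib.ConjFunctor.mem_normalizer_iff_conjOf.mp (Subgroup.le_normalizer ha.1))) ?_
        have he := CfsgLib.ConjFunctor.mem_normalizer_iff_conjOf.mp (Subgroup.le_normalizer (hPV ha.1))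
        rw [CfsgLib.ConjFunctor.conjOf] at he
        rw [he]
      have hxM : x ∈ M := by
        have hfoc := Subgroup.commutator_inf_eq_focalSubgroup P
        rw [inf_comm] at hfoc
        rw [hfoc, Subgroup.focalSubgroup_def] at hx
        refine (Subgroup.closure_le M).mpr ?_ hx
        rintro _ ⟨hzS, a, ha, u, rfl⟩
        have hu : u * a * u⁻¹ ∈ (P : Subgroup G) := by
          have h1 := (P : Subgroup G).mul_mem ((P : Subgroup G).inv_mem hzS) ha
          simpa [commutatorElement_def, mul_assoc] using h1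
        have h2 := M.inv_mem (key (Subgroup.zpowers a) u (Subgroup.zpowers_le.mpr ha)
          (by rw [CfsgLib.ConjFunctor.conjOf, MonoidHom.map_zpowers, Subgroup.zpowers_le]; exact hu) a
          (Subgroup.mem_zpowers a))
        simpa [commutatorElement_def, mul_assoc] using h2
      rw [← SetLike.mem_coe, hM, Subgroup.coe_mul_of_left_le_normalizer_right _ _ hnorm] at hxM
      obtain ⟨a, ha, b, hb, hab⟩ := Set.mem_mul.mp hxM
      exact ⟨a, ha, b, hb, hab.symm⟩
    · rintro ⟨a, ha, b, hb, rfl⟩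
      refine ⟨(P : Subgroup G).mul_mem ha.1 hb.1, (commutator G).mul_mem ?_ ?_⟩
      · rw [commutator_def]; exact Subgroup.commutator_mono le_top le_top ha.2
      · rw [commutator_def]; exact Subgroup.commutator_mono le_top le_top hb.2
  · intro U _ hU hLU n hn a ha
    have hUN : U ≤ (P : Subgroup G) ⊓ Subgroup.normalizer (U : Set G) := le_inf hU.1 Subgroup.le_normalizer
    have h1 : n * a * n⁻¹ * a⁻¹ ∈ U := U.mul_mem ((Subgroup.mem_normalizer_iff.mp hn a).mp ha) (U.inv_mem ha)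
    exact hLU ⟨hUN h1, Subgroup.commutator_mem_commutator hn (Subgroup.le_normalizer ha)⟩
  intro Y hZY hY hnext
  set N := Subgroup.normalizer (Y : Set G) with hN
  set T := (P : Subgroup G) ⊓ N with hT
  have hTp : IsPGroup p ↥T := P.2.to_le inf_le_left
  obtain ⟨Q, hQN, hQp, hQi, hiff⟩ := hloc Y hZY hY.1
  obtain ⟨h, hh, hhQ⟩ := hY.sylowIn.exists_conj_eq (⟨hQN, hQp, hQi⟩ : CfsgLib.ConjFunctor.SylowIn p Q N)
  change CfsgLib.ConjFunctor.conjOf h Q = T at hhQ
  have hhN : CfsgLib.ConjFunctor.conjOf h N = N :=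
    CfsgLib.ConjFunctor.mem_normalizer_iff_conjOf.mp (Subgroup.le_normalizer hh)
  have hNW : CfsgLib.ConjFunctor.conjOf h (Subgroup.normalizer ((W Q : Subgroup G) : Set G)) =
      Subgroup.normalizer ((W T : Subgroup G) : Set G) := by
    rw [← hhQ, CfsgLib.ConjFunctor.conjugacyFunctor_conjOf hW hQp, CfsgLib.ConjFunctor.normalizer_conjOf]
  have hCV : CfsgLib.ConjFunctor.conjOf h (Subgroup.centralizer ((V Q : Subgroup G) : Set G)) ≤
      Subgroup.centralizer ((V T : Subgroup G) : Set G) := by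
    rw [← hhQ, CfsgLib.ConjFunctor.conjugacyFunctor_conjOf hV hQp, CfsgLib.ConjFunctor.conjOf_le_iff]
    intro c hc
    exact CfsgLib.Alperin.mem_centralizer_conj_map.mpr (by simpa [mul_assoc] using hc)
  intro x hx
  have hx' : h⁻¹ * x * h ∈ Q ⊓ ⁅N, N⁆ := by
    refine ⟨?_, ?_⟩
    · have h1 : x ∈ T := hx.1
      rw [← hhQ] at h1; exact CfsgLib.ConjFunctor.mem_conjOf.mp h1
    · have h1 : x ∈ CfsgLib.ConjFunctor.conjOf h ⁅N, N⁆ := by
        rw [CfsgLib.ConjFunctor.conjOf, Subgroup.map_commutator]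
        rw [CfsgLib.ConjFunctor.conjOf] at hhN
        rw [hhN]; exact hx.2
      exact CfsgLib.ConjFunctor.mem_conjOf.mp h1
  obtain ⟨a, ha, b, hb, hab⟩ := (hiff _).mp hx'
  have hxab : x = (h * a * h⁻¹) * (h * b * h⁻¹) := by
    calc x = h * (h⁻¹ * x * h) * h⁻¹ := by group
      _ = _ := by rw [hab]; group
  have ha' : h * a * h⁻¹ ∈ T ⊓ ⁅N ⊓ Subgroup.normalizer ((W T : Subgroup G) : Set G),
      N ⊓ Subgroup.normalizer ((W T : Subgroup G) : Set G)⁆ := by
    refine ⟨hhQ.le (CfsgLib.ConjFunctor.conj_mem_conjOf ha.1), ?_⟩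
    have h1 := Subgroup.mem_map_of_mem (MulAut.conj h).toMonoidHom ha.2
    rw [Subgroup.map_commutator] at h1
    refine Subgroup.commutator_mono ?_ ?_ h1 <;>
      exact (Subgroup.map_inf_le _ _ _).trans (inf_le_inf hhN.le hNW.le)
  have hb' : h * b * h⁻¹ ∈ T ⊓ ⁅Subgroup.centralizer ((V T : Subgroup G) : Set G),
      Subgroup.centralizer ((V T : Subgroup G) : Set G)⁆ := by
    refine ⟨hhQ.le (CfsgLib.ConjFunctor.conj_mem_conjOf hb.1), ?_⟩
    have h1 := Subgroup.mem_map_of_mem (MulAut.conj h).toMonoidHom hb.2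
    rw [Subgroup.map_commutator] at h1
    refine Subgroup.commutator_mono ?_ ?_ h1 <;>
      exact (Subgroup.map_mono inf_le_right).trans hCV
  have hZT : (P : Subgroup G) ⊓ Subgroup.centralizer ((P : Subgroup G) : Set G) ≤
      T ⊓ Subgroup.centralizer (T : Set G) :=
    le_inf (hZY.trans (le_inf hY.1 Subgroup.le_normalizer))
      (inf_le_right.trans (Subgroup.centralizer_le inf_le_left))
  have hZne : (P : Subgroup G) ⊓ Subgroup.centralizer ((P : Subgroup G) : Set G) ≠ ⊥ := by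
    intro h0
    have := hV (P : Subgroup G) P.2
    exact this.2.1 hPne (le_bot_iff.mp ((hVZ _ P.2).trans h0.le))
  have hTne : T ≠ ⊥ := fun h0 => hZne (le_bot_iff.mp ((hZT.trans inf_le_left).trans h0.le))
  have hbM : h * b * h⁻¹ ∈ M := by
    have hmono := hVmono (P : Subgroup G) T P.2 hTp hPne hTne hZT
    refine Subgroup.mem_sup_right ⟨(hb'.1 : _ ∈ T).1, ?_⟩
    exact Subgroup.commutator_mono (Subgroup.centralizer_le hmono) (Subgroup.centralizer_le hmono) hb'.2
  rw [hxab]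
  refine M.mul_mem ?_ hbM
  rcases hnext with hTP | ⟨k, hkN, hk1, hk2, hLk⟩
  · refine Subgroup.mem_sup_left ⟨(ha'.1 : _ ∈ T).1, ?_⟩
    have hTP' : T = (P : Subgroup G) := hTP
    have := ha'.2
    rw [hTP'] at this
    exact Subgroup.commutator_mono inf_le_right inf_le_right this
  · set a' := h * a * h⁻¹ with hadef
    have haN1 : a' ∈ (P : Subgroup G) ⊓ Subgroup.normalizer ((W T : Subgroup G) : Set G) :=
      ⟨(ha'.1 : _ ∈ T).1, CfsgLib.ConjFunctor.normalizer_le_normalizer_functor hW hTp (Subgroup.le_normalizer ha'.1)⟩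
    have h1 : k * a' * k⁻¹ ∈ M := by
      refine hLk ⟨hkN (CfsgLib.ConjFunctor.conj_mem_conjOf haN1), ?_⟩
      have h2 := Subgroup.mem_map_of_mem (MulAut.conj k).toMonoidHom
        (Subgroup.commutator_mono inf_le_right inf_le_right ha'.2)
      rw [Subgroup.map_commutator] at h2
      rw [CfsgLib.ConjFunctor.normalizer_conjOf]
      exact h2
    have h3 := M.mul_mem (M.inv_mem (hk1 a' haN1)) h1
    simpa [mul_assoc] using h3

end Cfsg.Agent.S2001
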