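import Cfsg.Statements.S2002
import Cfsg.Agent.SectionFunctors.PairInduction

set_option autoImplicit false
open Cfsg

namespace Cfsg.Agent.S2002

open CfsgLib.ConjFunctor

theorem take_prod_eq {G : Type*} [Group G] {n : ℕ} (c : Fin (n + 1) → G) (h0 : c 0 = 1) :
    ∀ k (hk : k ≤ n), ((List.ofFn fun i : Fin n => c i.castSucc * (c i.succ)⁻¹).take k).prod =
      (c ⟨k, Nat.lt_succ_of_le hk⟩)⁻¹ := by
  intro k
  induction k with
  | zero => intro _; simp [h0]
  | succ k ih =>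
    intro hk
    rw [List.prod_take_succ _ _ (by simpa using hk), ih (by omega), List.getElem_ofFn]
    exact inv_mul_cancel_left _ _

/-- A product of steps in members of `𝒩` gives a chain for the inverse. -/
theorem chain_of_list {G : Type*} [Group G] {𝒩 : Set (Subgroup G)} {T A : Subgroup G} {n : ℕ}
    (b : Fin n → G) (hb : ∀ i, ∃ N ∈ 𝒩, b i ∈ N)
    (hA : ∀ k, k ≤ n → conjOf (((List.ofFn b).take k).prod)⁻¹ A ≤ T) :
    FusionChain 𝒩 T A ((List.ofFn b).prod)⁻¹ := by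
  have h := FusionChain.ofFin (𝒩 := 𝒩) (T := T) n (A := A)
    (fun i : Fin (n + 1) => (((List.ofFn b).take i.val).prod)⁻¹) (by simp) (fun i => by
      obtain ⟨N, hN, hbN⟩ := hb i
      refine ⟨N, hN, ?_⟩
      have hlen : i.val < (List.ofFn b).length := by simp
      rw [show (i.succ : Fin (n + 1)).val = i.val + 1 from rfl, show (i.castSucc : Fin (n + 1)).val = i.val from rfl,
        List.prod_take_succ _ _ hlen, List.getElem_ofFn]
      simpa using N.inv_mem hbN)
    (fun i => hA i.val (Nat.lt_succ_iff.mp i.isLt))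
  simpa [List.take_of_length_le] using h

/-- Replace every step by a chain in a larger subgroup. -/
theorem chain_bind {G : Type*} [Group G] {𝒩 𝒩' : Set (Subgroup G)} {T T' A : Subgroup G} {g : G} (hT : T ≤ T')
    (hstep : ∀ N ∈ 𝒩, ∀ (B : Subgroup G) (x : G), x ∈ N → B ≤ T → conjOf x B ≤ T → FusionChain 𝒩' T' B x)
    (h : FusionChain 𝒩 T A g) : FusionChain 𝒩' T' A g := by
  induction h with
  | refl A g hA hg => exact .refl A g (hA.trans hT) hg
  | step A x g k hA hx hc hg ih =>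
    obtain ⟨N, hN, hxN⟩ := hx
    exact ((hstep N hN A x hxN hA hc.domain_le).comp ih).congr hg


/-- Let p be a prime dividing the order of the finite group G, P a Sylow p-subgroup, W a conjugacy functor for p on G with Z(H) ≤ W(H) for every nontrivial p-subgroup H, and V a central functor (a conjugacy functor with V(H) ≤ Z(H), and V(H) ≤ V(K) whenever Z(H) ≤ Z(K)). Say that W with V controls strong fusion in a subgroup L when some Sylow p-subgroup Q of L has the property: whenever X ⊆ Q and a ∈ L with a⁻¹Xa ⊆ Q, then a = c b with c ∈ C_L(X) and b = b₁ ⋯ bₙ a product of elements each in N_L(W(Q)) or in C_L(V(Q)) such that every partial conjugate (b₁ ⋯ bₖ)⁻¹ X (b₁ ⋯ bₖ) lies in Q. If W with V controls strong fusion in N_G(H) for every subgroup H with Z(P) ≤ H ≤ P, then W with V controls strong fusion in G. -/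
theorem result {G : Type*} [Group G] [Finite G] {p : ℕ} [Fact p.Prime] (hdiv : p ∣ Nat.card G) (P : Sylow p G) (W V : Subgroup G → Subgroup G) (hW : Cfsg.IsConjugacyFunctor p W) (hV : Cfsg.IsConjugacyFunctor p V) (hWZ : ∀ H : Subgroup G, IsPGroup p ↥H → H ⊓ Subgroup.centralizer ((H : Subgroup G) : Set G) ≤ W H) (hVZ : ∀ H : Subgroup G, IsPGroup p ↥H → V H ≤ H ⊓ Subgroup.centralizer ((H : Subgroup G) : Set G)) (hVmono : ∀ H K : Subgroup G, IsPGroup p ↥H → IsPGroup p ↥K → H ≠ ⊥ → K ≠ ⊥ → H ⊓ Subgroup.centralizer ((H : Subgroup G) : Set G) ≤ K ⊓ Subgroup.centralizer ((K : Subgroup G) : Set G) → V H ≤ V K) (hloc : ∀ H : Subgroup G, (P : Subgroup G) ⊓ Subgroup.centralizer (((P : Subgroup G) : Subgroup G) : Set G) ≤ H → H ≤ (P : Subgroup G) → ∃ Q : Subgroup G, Q ≤ Subgroup.normalizer ((H : Subgroup G) : Set G) ∧ IsPGroup p ↥Q ∧ ¬ p ∣ (Q).relIndex (Subgroup.normalizer ((H : Subgroup G) : Set G)) ∧ ∀ (X : Set G) (a : G), X ⊆ Q → a ∈ Subgroup.normalizer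 ((H : Subgroup G) : Set G) → (fun x => a⁻¹ * x * a) '' X ⊆ Q → ∃ c ∈ Subgroup.normalizer ((H : Subgroup G) : Set G) ⊓ Subgroup.centralizer X, ∃ (n : ℕ) (b : Fin n → G), (∀ i, b i ∈ Subgroup.normalizer ((H : Subgroup G) : Set G) ⊓ Subgroup.normalizer ((W Q : Subgroup G) : Set G) ∨ b i ∈ Subgroup.normalizer ((H : Subgroup G) : Set G) ⊓ Subgroup.centralizer ((V Q : Subgroup G) : Set G)) ∧ a = c * (List.ofFn b).prod ∧ ∀ k : ℕ, k ≤ n → (fun x => (((List.ofFn b).take k).prod)⁻¹ * x * ((List.ofFn b).take k).prod) '' ((fun x => c⁻¹ * x * c) '' X) ⊆ Q) : ∃ Q : Subgroup G, IsPGroup p ↥Q ∧ ¬ p ∣ Q.index ∧ ∀ (X : Set G) (a : G), X ⊆ Q → (fun x => a⁻¹ * x * a) '' X ⊆ Q → ∃ c ∈ Subgroup.centralizer X, ∃ (n : ℕ) (b : Fin n → G), (∀ i, b i ∈ ⊤ ⊓ Subgroup.normalizer ((W Q : Subgroup G) : Set G) ∨ b i ∈ ⊤ ⊓ Subgroup.centralizer ((V Q : Subgroup G) : Set G)) ∧ a = c * (List.ofFn b).prod ∧ ∀ k : ℕ, k ≤ n → (fun x => (((List.ofFn b).take k).prod)⁻¹ * x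 * ((List.ofFn b).take k).prod) '' ((fun x => c⁻¹ * x * c) '' X) ⊆ Q := by
  set N₁ := Subgroup.normalizer ((W (P : Subgroup G) : Subgroup G) : Set G) with hN₁
  set N₂ := Subgroup.centralizer ((V (P : Subgroup G) : Subgroup G) : Set G) with hN₂
  let 𝒩 : Set (Subgroup G) := {N₁, N₂}
  have hPne : (P : Subgroup G) ≠ ⊥ := P.ne_bot_of_dvd_card hdiv
  let L : Subgroup G → Prop := fun Y => ∀ (B : Subgroup G) (g : G), g ∈ Subgroup.normalizer (Y : Set G) →
    B ≤ (P : Subgroup G) ⊓ Subgroup.normalizer (Y : Set G) →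
    CfsgLib.ConjFunctor.conjOf g B ≤ (P : Subgroup G) ⊓ Subgroup.normalizer (Y : Set G) →
    FusionChain 𝒩 (P : Subgroup G) B g
  have key := CfsgLib.SectionFunctors.pair_tower_induction P W hW hWZ
    (FusionChain 𝒩 (P : Subgroup G))
    (fun H K g hHK _ _ h => h.mono hHK) (fun H g k _ _ _ h1 h2 => h1.comp h2)
    (fun H c hH hc => .refl H c hH fun a ha => by rw [← Subgroup.mem_centralizer_iff.mp hc a ha]; group)
    L ?_ ?_
  · refine ⟨(P : Subgroup G), P.2, P.not_dvd_index, fun X a hX haX => ?_⟩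
    obtain ⟨n, c, h0, hs, hi, hl⟩ := (key (Subgroup.closure X) a⁻¹ ((Subgroup.closure_le _).mpr hX) (by
      rw [CfsgLib.ConjFunctor.conjOf, MonoidHom.map_closure, Subgroup.closure_le]
      rintro _ ⟨x, hx, rfl⟩
      exact haX ⟨x, hx, by simp⟩)).toFin
    set e := c (Fin.last n) with he
    have hc : a * e ∈ Subgroup.centralizer X := by
      rw [Subgroup.mem_centralizer_iff]
      intro x hx
      have h1 := hl x (Subgroup.subset_closure hx)
      calc x * (a * e) = a * (a⁻¹ * x * a⁻¹⁻¹) * e := by group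
        _ = a * (e * x * e⁻¹) * e := by rw [h1]
        _ = a * e * x := by group
    refine ⟨a * e, hc, n, fun i => c i.castSucc * (c i.succ)⁻¹, fun i => ?_, ?_, fun k hk => ?_⟩
    · obtain ⟨N, hN, hm⟩ := hs i
      have hm' := N.inv_mem hm
      rw [mul_inv_rev, inv_inv] at hm'
      rcases hN with rfl | rfl
      · exact Or.inl ⟨Subgroup.mem_top _, hm'⟩
      · exact Or.inr ⟨Subgroup.mem_top _, hm'⟩
    · have h1 := take_prod_eq c h0 n le_rfl
      rw [List.take_of_length_le (by simp)] at h1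
      rw [h1, he]; simp [Fin.last]
    · rintro _ ⟨_, ⟨x, hx, rfl⟩, rfl⟩
      have h1 : (a * e)⁻¹ * x * (a * e) = x := by
        rw [mul_assoc, Subgroup.mem_centralizer_iff.mp hc x hx]; group
      show (((List.ofFn fun i : Fin n => c i.castSucc * (c i.succ)⁻¹).take k).prod)⁻¹ * ((a * e)⁻¹ * x * (a * e)) *
        ((List.ofFn fun i : Fin n => c i.castSucc * (c i.succ)⁻¹).take k).prod ∈ _
      rw [h1, take_prod_eq c h0 k hk, inv_inv]
      exact hi _ (CfsgLib.ConjFunctor.conj_mem_conjOf (Subgroup.subset_closure hx))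
  · intro U _ hU hLU n hn
    have hUN : U ≤ (P : Subgroup G) ⊓ Subgroup.normalizer (U : Set G) := le_inf hU.1 Subgroup.le_normalizer
    exact hLU U n hn hUN (by rw [CfsgLib.ConjFunctor.mem_normalizer_iff_conjOf.mp hn]; exact hUN)
  intro Y hZY hY hnext B g hg hB hgB
  set N := Subgroup.normalizer (Y : Set G) with hN
  set T := (P : Subgroup G) ⊓ N with hT
  have hTp : IsPGroup p ↥T := P.2.to_le inf_le_left
  obtain ⟨Q, hQN, hQp, hQi, hctl⟩ := hloc Y hZY hY.1
  obtain ⟨h, hh, hhQ⟩ := hY.sylowIn.exists_conj_eq (⟨hQN, hQp, hQi⟩ : CfsgLib.ConjFunctor.SylowIn p Q N)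
  change CfsgLib.ConjFunctor.conjOf h Q = T at hhQ
  have hhN : CfsgLib.ConjFunctor.conjOf h N = N :=
    CfsgLib.ConjFunctor.mem_normalizer_iff_conjOf.mp (Subgroup.le_normalizer hh)
  have hsub : ∀ C : Subgroup G, C ≤ T → CfsgLib.ConjFunctor.conjOf h⁻¹ C ≤ Q := by
    intro C hC
    refine (CfsgLib.ConjFunctor.conjOf_mono (hC.trans hhQ.ge)).trans ?_
    simp
  set B' := CfsgLib.ConjFunctor.conjOf h⁻¹ B with hB'
  have hB'Q : B' ≤ Q := hsub B hB
  have hgB' : (fun x => (h⁻¹ * g⁻¹ * h)⁻¹ * x * (h⁻¹ * g⁻¹ * h)) '' (B' : Set G) ⊆ Q := by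
    rintro _ ⟨x, hx, rfl⟩
    refine hsub _ hgB ?_
    rw [CfsgLib.ConjFunctor.mem_conjOf, CfsgLib.ConjFunctor.mem_conjOf]
    rw [SetLike.mem_coe, hB', CfsgLib.ConjFunctor.mem_conjOf] at hx
    simpa [mul_assoc] using hx
  obtain ⟨c, hc, n, b, hb, hab, hpre⟩ := hctl (B' : Set G) (h⁻¹ * g⁻¹ * h) hB'Q
    (N.mul_mem (N.mul_mem (N.inv_mem hh) (N.inv_mem hg)) hh) hgB'
  have hfix : ∀ x ∈ B', c⁻¹ * x * c = x := fun x hx => by
    rw [mul_assoc, Subgroup.mem_centralizer_iff.mp hc.2 x hx]; group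
  set 𝒬 : Set (Subgroup G) := {N ⊓ Subgroup.normalizer ((W Q : Subgroup G) : Set G),
    N ⊓ Subgroup.centralizer ((V Q : Subgroup G) : Set G)} with h𝒬
  have hch : FusionChain 𝒬 Q B' ((List.ofFn b).prod)⁻¹ := by
    refine chain_of_list b (fun i => ?_) fun k hk => CfsgLib.ConjFunctor.conjOf_le_iff.mpr fun x hx => ?_
    · rcases hb i with h1 | h1
      · exact ⟨_, Or.inl rfl, h1⟩
      · exact ⟨_, Or.inr rfl, h1⟩
    · refine hpre k hk ⟨x, ⟨x, hx, hfix x hx⟩, ?_⟩
      simp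
  have hch2 : FusionChain 𝒬 Q B' (h⁻¹ * g * h) := by
    refine hch.congr fun x hx => ?_
    have e : h⁻¹ * g * h = (h⁻¹ * g⁻¹ * h)⁻¹ := by group
    rw [e, hab]
    calc (c * (List.ofFn b).prod)⁻¹ * x * ((c * (List.ofFn b).prod)⁻¹)⁻¹
        = ((List.ofFn b).prod)⁻¹ * (c⁻¹ * x * c) * (((List.ofFn b).prod)⁻¹)⁻¹ := by group
      _ = _ := by rw [hfix x hx]
  have h3 := hch2.map_conj h
  have e1 : CfsgLib.ConjFunctor.conjOf h B' = B := by rw [hB']; simp
  have e2 : h * (h⁻¹ * g * h) * h⁻¹ = g := by group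
  rw [hhQ, e1, e2] at h3
  -- replace every step
  have hZT : (P : Subgroup G) ⊓ Subgroup.centralizer ((P : Subgroup G) : Set G) ≤
      T ⊓ Subgroup.centralizer (T : Set G) :=
    le_inf (hZY.trans (le_inf hY.1 Subgroup.le_normalizer))
      (inf_le_right.trans (Subgroup.centralizer_le inf_le_left))
  have hTne : T ≠ ⊥ := fun h0 => (hV (P : Subgroup G) P.2).2.1 hPne
    (le_bot_iff.mp (((hVZ _ P.2).trans hZT).trans (inf_le_left.trans h0.le)))
  have hmono := hVmono (P : Subgroup G) T P.2 hTp hPne hTne hZT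
  refine chain_bind inf_le_left ?_ h3
  rintro _ ⟨_, hN'', rfl⟩ A x hxN' hA hxA
  show FusionChain 𝒩 (P : Subgroup G) A x
  rcases hN'' with rfl | rfl
  · have hxW : x ∈ Subgroup.normalizer ((W T : Subgroup G) : Set G) := by
      have h1 := CfsgLib.ConjFunctor.conjOf_mono inf_le_right hxN'
      rwa [← hhQ, CfsgLib.ConjFunctor.conjugacyFunctor_conjOf hW hQp, CfsgLib.ConjFunctor.normalizer_conjOf]
    rcases hnext with hTP | ⟨k, hkN, hk1, hk2, hLk⟩
    · have hTP' : T = (P : Subgroup G) := hTP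
      rw [hTP'] at hxW
      exact FusionChain.single (hA.trans inf_le_left) ⟨N₁, Or.inl rfl, hxW⟩ (hxA.trans inf_le_left)
    · have hTN1 : T ≤ (P : Subgroup G) ⊓ Subgroup.normalizer ((W T : Subgroup G) : Set G) :=
        le_inf inf_le_left (Subgroup.le_normalizer.trans
          (CfsgLib.ConjFunctor.normalizer_le_normalizer_functor hW hTp))
      have hz : k * x * k⁻¹ ∈ Subgroup.normalizer
          ((CfsgLib.ConjFunctor.conjOf k (W T) : Subgroup G) : Set G) := by
        rw [CfsgLib.ConjFunctor.mem_normalizer_conjOf]; simpa [mul_assoc] using hxW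
      have hzA : CfsgLib.ConjFunctor.conjOf (k * x * k⁻¹) (CfsgLib.ConjFunctor.conjOf k A) =
          CfsgLib.ConjFunctor.conjOf k (CfsgLib.ConjFunctor.conjOf x A) := by simp
      have h1 : FusionChain 𝒩 (P : Subgroup G) (CfsgLib.ConjFunctor.conjOf k A) (k * x * k⁻¹) :=
        hLk _ _ hz ((CfsgLib.ConjFunctor.conjOf_mono (hA.trans hTN1)).trans hkN)
          (by rw [hzA]; exact (CfsgLib.ConjFunctor.conjOf_mono (hxA.trans hTN1)).trans hkN)
      have h2 := (hk1.mono (hA.trans hTN1)).comp h1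
      have h4 := hk2.mono (CfsgLib.ConjFunctor.conjOf_mono (g := k) (hxA.trans hTN1))
      rw [show k * x * k⁻¹ * k = k * x by group] at h2
      rw [CfsgLib.ConjFunctor.conjOf_conjOf] at h4
      have h6 := h2.comp h4
      rwa [inv_mul_cancel_left] at h6
  · refine FusionChain.single (hA.trans inf_le_left) ⟨N₂, Or.inr rfl, ?_⟩ (hxA.trans inf_le_left)
    have h1 := CfsgLib.ConjFunctor.conjOf_mono inf_le_right hxN'
    refine Subgroup.centralizer_le hmono ?_
    rw [← hhQ, CfsgLib.ConjFunctor.conjugacyFunctor_conjOf hV hQp]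
    refine CfsgLib.Alperin.mem_centralizer_conj_map.mpr ?_
    exact CfsgLib.ConjFunctor.mem_conjOf.mp h1

end Cfsg.Agent.S2002
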