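import Cfsg.Statements.S2007
import Mathlib.GroupTheory.Transfer
import Mathlib.GroupTheory.SchurZassenhaus

set_option autoImplicit false
open Cfsg

namespace Cfsg.Agent.S2007

/-- Let p be a prime, G a finite group with Sylow p-subgroup S, and T a normal subgroup of S containing C_S(T). If N_G(T)/C_G(T) is a p-group (every element of N_G(T) of order prime to p centralizes T), then N_G(T) has a normal p-complement. -/
theorem result {G : Type*} [Group G] [Finite G] {p : ℕ} [Fact p.Prime] (S : Sylow p G) (T : Subgroup G) (hTS : T ≤ (S : Subgroup G)) (hTn : (S : Subgroup G) ≤ Subgroup.normalizer ((T : Subgroup G) : Set G)) (hC : (S : Subgroup G) ⊓ Subgroup.centralizer ((T : Subgroup G) : Set G) ≤ T) (hN : ∀ g ∈ Subgroup.normalizer ((T : Subgroup G) : Set G), (orderOf g).Coprime p → g ∈ Subgroup.centralizer ((T : Subgroup G) : Set G)) : Cfsg.HasNormalPComplement p ↥(Subgroup.normalizer ((T : Subgroup G) : Set G)) := by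
  have hCN : Subgroup.centralizer ((T : Subgroup G) : Set G) ≤ Subgroup.normalizer ((T : Subgroup G) : Set G) :=
    Subgroup.centralizer_le_normalizer _
  set C : Subgroup G := Subgroup.centralizer ((T : Subgroup G) : Set G) with hCdef
  set N : Subgroup G := Subgroup.normalizer ((T : Subgroup G) : Set G) with hNdef
  let Q : Sylow p ↥N := S.subtype hTn
  let C' : Subgroup ↥N := C.subgroupOf N
  have hC'n : C'.Normal := by
    constructor
    intro c hc g
    show (g : G) * c * (g : G)⁻¹ ∈ C
    rw [hCdef, Subgroup.mem_centralizer_iff]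
    intro t ht
    have htg : (g : G)⁻¹ * t * g ∈ T := by
      have := ((Subgroup.mem_normalizer_iff).1 (N.inv_mem g.2) t).1 ht
      simpa using this
    have hct : (c : G) ∈ Subgroup.centralizer ((T : Subgroup G) : Set G) := hc
    have h1 := (Subgroup.mem_centralizer_iff.1 hct) _ htg
    calc t * ((g : G) * c * (g : G)⁻¹) = g * (((g : G)⁻¹ * t * g) * c) * (g : G)⁻¹ := by group
      _ = g * ((c : G) * ((g : G)⁻¹ * t * g)) * (g : G)⁻¹ := by rw [h1]
      _ = g * c * (g : G)⁻¹ * t := by group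
  obtain ⟨P⟩ : Nonempty (Sylow p ↥C') := inferInstance
  obtain ⟨n, hn⟩ : ∃ n : ↥N, (P : Subgroup ↥C').map C'.subtype ≤ (n • Q : Sylow p ↥N) := by
    obtain ⟨R, hR⟩ := (P.2.map C'.subtype).exists_le_sylow
    obtain ⟨n, hn⟩ := MulAction.exists_smul_eq ↥N Q R
    exact ⟨n, hn ▸ hR⟩
  have hP : Subgroup.normalizer ((P : Subgroup ↥C') : Set ↥C') ≤ Subgroup.centralizer ((P : Subgroup ↥C') : Set ↥C') := by
    intro x _
    rw [Subgroup.mem_centralizer_iff]
    intro y hy
    have hyR : (y : ↥N) ∈ ((n • Q : Sylow p ↥N) : Subgroup ↥N) := hn ⟨y, hy, rfl⟩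
    rw [Sylow.coe_subgroup_smul, Subgroup.mem_pointwise_smul_iff_inv_smul_mem] at hyR
    have hy0 : (n : G)⁻¹ * ((y : ↥N) : G) * n ∈ (S : Subgroup G) := by
      simpa [Q, Sylow.coe_subtype, Subgroup.mem_subgroupOf, MulAut.smul_def] using hyR
    have hy1 : (n : G)⁻¹ * ((y : ↥N) : G) * n ∈ C := by
      have := hC'n.conj_mem (y : ↥N) y.2 n⁻¹
      simpa [C', Subgroup.mem_subgroupOf] using this
    have hyT : ((y : ↥N) : G) ∈ T := by
      have h0 : (n : G)⁻¹ * ((y : ↥N) : G) * n ∈ T := hC ⟨hy0, hy1⟩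
      have := ((Subgroup.mem_normalizer_iff).1 n.2 _).1 h0
      simpa [mul_assoc] using this
    have hx : ((x : ↥N) : G) ∈ Subgroup.centralizer ((T : Subgroup G) : Set G) := x.2
    apply Subtype.ext; apply Subtype.ext
    exact (Subgroup.mem_centralizer_iff.1 hx) _ hyT
  haveI : ((MonoidHom.transferSylow P hP).ker.map C'.subtype).Normal := by
    have hch : (MonoidHom.transferSylow P hP).ker.Characteristic := by
      rw [Subgroup.characteristic_iff_map_le]
      intro φ
      have hnd : ¬ p ∣ Nat.card (MonoidHom.transferSylow P hP).ker := MonoidHom.not_dvd_card_ker_transferSylow P hP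
      rintro _ ⟨k, hk, rfl⟩
      have hord : (orderOf (φ k)).Coprime p := by
        rw [MulEquiv.orderOf_eq φ k]
        have hd : orderOf k ∣ Nat.card (MonoidHom.transferSylow P hP).ker := by
          rw [← Subgroup.orderOf_mk k hk]; exact orderOf_dvd_natCard _
        exact ((Fact.out : p.Prime).coprime_iff_not_dvd.2 fun h => hnd (h.trans hd)).symm
      rw [MonoidHom.mem_ker]
      obtain ⟨m, hm⟩ := P.2 ((MonoidHom.transferSylow P hP) (φ k))
      have h1 : orderOf ((MonoidHom.transferSylow P hP) (φ k)) ∣ p ^ m := orderOf_dvd_of_pow_eq_one hm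
      have h2 : orderOf ((MonoidHom.transferSylow P hP) (φ k)) ∣ orderOf (φ k) := orderOf_map_dvd _ _
      exact orderOf_eq_one_iff.1 (Nat.eq_one_of_dvd_coprimes (hord.pow_right m) h2 h1)
    exact inferInstance
  refine ⟨Q, (MonoidHom.transferSylow P hP).ker.map C'.subtype, inferInstance, ?_⟩
  have hnd : ¬ p ∣ Nat.card ((MonoidHom.transferSylow P hP).ker.map C'.subtype) := by
    rw [Subgroup.card_map_of_injective (Subgroup.subtype_injective C')]
    exact MonoidHom.not_dvd_card_ker_transferSylow P hP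
  apply Subgroup.isComplement'_of_coprime
  swap
  · obtain ⟨m, hm⟩ := IsPGroup.iff_card.1 Q.2
    rw [hm]
    exact (((Fact.out : p.Prime).coprime_iff_not_dvd.2 hnd).symm).pow_right m
  have hker : Nat.card (MonoidHom.transferSylow P hP).ker * Nat.card (P : Subgroup ↥C') = Nat.card ↥C' :=
    (MonoidHom.ker_transferSylow_isComplement' P hP).card_mul
  rw [Subgroup.card_map_of_injective (Subgroup.subtype_injective C')]
  haveI := hC'n
  have hidx : ∃ m, Nat.card (↥N ⧸ C') = p ^ m := by
    refine IsPGroup.iff_card.1 ?_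
    intro q
    obtain ⟨g, rfl⟩ := QuotientGroup.mk'_surjective C' q
    obtain ⟨k, m, hm, hkm⟩ := Nat.exists_eq_pow_mul_and_not_dvd (orderOf_pos g).ne' p (Fact.out : p.Prime).ne_one
    refine ⟨k, ?_⟩
    rw [← map_pow, QuotientGroup.mk'_apply, QuotientGroup.eq_one_iff]
    show ((g ^ p ^ k : ↥N) : G) ∈ C
    refine hN _ (g ^ p ^ k).2 ?_
    rw [Subgroup.orderOf_coe]
    have hd : orderOf (g ^ p ^ k) ∣ m := by
      apply orderOf_dvd_of_pow_eq_one
      rw [← pow_mul, ← hkm, pow_orderOf_eq_one]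
    exact ((((Fact.out : p.Prime).coprime_iff_not_dvd).2 hm).symm).coprime_dvd_left hd
  obtain ⟨m, hm⟩ := hidx
  obtain ⟨a, ha⟩ := IsPGroup.iff_card.1 P.2
  obtain ⟨b, hb⟩ := IsPGroup.iff_card.1 Q.2
  have htot : Nat.card ↥N = Nat.card (MonoidHom.transferSylow P hP).ker * p ^ (a + m) := by
    rw [Subgroup.card_eq_card_quotient_mul_card_subgroup C', ← hker, hm, ha, pow_add]; ring
  have hQ : Nat.card (Q : Subgroup ↥N) = p ^ (a + m) := by
    rw [Sylow.card_eq_multiplicity, htot]
    congr 1
    rw [Nat.factorization_mul Nat.card_pos.ne' (pow_ne_zero _ (Fact.out : p.Prime).ne_zero), Finsupp.add_apply,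
      Nat.factorization_eq_zero_of_not_dvd (MonoidHom.not_dvd_card_ker_transferSylow P hP), zero_add,
      Nat.Prime.factorization_pow (Fact.out : p.Prime), Finsupp.single_eq_same]
  rw [hQ, htot]

end Cfsg.Agent.S2007
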