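import Cfsg.Statements.S2015
import Cfsg.Agent.ConjFunctor.KInfQuartic

set_option autoImplicit false
universe u
open Cfsg

namespace Cfsg.Agent.S2015

/-- For p ≥ 5, every finite p-group P has a characteristic subgroup K containing Z(P), depending only on P, whose normalizer controls transfer wherever P is a Sylow subgroup: for every finite group G and every embedding ι of P onto a Sylow p-subgroup of G, the intersection of ι(P) with the derived subgroup of G equals its intersection with the derived subgroup of N_G(ι(K)). -/
theorem result (p : ℕ) [Fact p.Prime] (hp : 5 ≤ p) (P : Type u) [Group P] [Finite P] (hP : IsPGroup p P) : ∃ K : Subgroup P, K.Characteristic ∧ Subgroup.center P ≤ K ∧ ∀ (G : Type u) [Group G] [Finite G] (ι : P →* G), Function.Injective ι → (∃ T : Sylow p G, (T : Subgroup G) = ι.range) → ι.range ⊓ commutator G = ι.range ⊓ (commutator ↥(Subgroup.normalizer ((K.map ι : Subgroup G) : Set G))).map (Subgroup.normalizer ((K.map ι : Subgroup G) : Set G)).subtype := by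
  refine ⟨Cfsg.kInfLower P, ?_, CfsgLib.ConjFunctor.center_le_kInfLower P hP, fun G _ _ ι hι hT => ?_⟩
  · rw [Subgroup.characteristic_iff_map_eq]
    exact fun φ => (CfsgLib.ConjFunctor.kInf_map_equiv φ).1
  obtain ⟨T, hT⟩ := hT
  have h := (CfsgLib.ConjFunctor.transfer_of_engelAt (G := G) CfsgLib.ConjFunctor.isCharPFunctor_kInfLower
    fun X _ _ => CfsgLib.ConjFunctor.engelAt_kInfLower hp X).2 T
  have e : Cfsg.inducedFunctor (G := G) Cfsg.kInfLower ι.range = (Cfsg.kInfLower P).map ι := by
    show (Cfsg.kInfLower ↥ι.range).map ι.range.subtype = _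
    rw [← (CfsgLib.ConjFunctor.kInf_map_equiv (MonoidHom.ofInjective hι)).1, Subgroup.map_map]
    rfl
  rw [hT, e] at h
  rw [commutator_def, commutator_def, Subgroup.map_commutator, ← MonoidHom.range_eq_map, Subgroup.range_subtype]
  exact h

end Cfsg.Agent.S2015
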