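import Cfsg.Statements.S2098
import Cfsg.Agent.O8Mult.Cover

set_option autoImplicit false
open Cfsg

namespace Cfsg.Agent.S2098

open CfsgLib.OrthGeo
open scoped Matrix MatrixGroups

variable {F K : Type*} [Field F] [Field K] (σ : K ≃+* F)

/-- Invertible matrices over isomorphic fields. -/
noncomputable def glMap (ι : Type) [Fintype ι] [DecidableEq ι] : GL ι K ≃* GL ι F :=
  Units.mapEquiv σ.mapMatrix.toMulEquiv

theorem coe_glMap {ι : Type} [Fintype ι] [DecidableEq ι] (g : GL ι K) :
    ((glMap σ ι g : GL ι F) : Matrix ι ι F) = (g : Matrix ι ι K).map σ := rfl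

theorem glMap_mem_iff (m : ℕ) (g : GL (Fin m ⊕ Fin m) K) :
    glMap σ _ g ∈ isometryGroup F (quadFormPlus m F) ↔ g ∈ isometryGroup K (quadFormPlus m K) := by
  rw [mem_isometryGroup, mem_isometryGroup]
  have hq : ∀ v : Fin m ⊕ Fin m → K, quadFormPlus m F (fun i => σ (v i)) = σ (quadFormPlus m K v) :=
    fun v => by simp [quadFormPlus, map_sum, map_mul]
  have hm : ∀ v : Fin m ⊕ Fin m → K, ((glMap σ _ g : GL (Fin m ⊕ Fin m) F) : Matrix (Fin m ⊕ Fin m) (Fin m ⊕ Fin m) F) *ᵥ (fun i => σ (v i)) =
      fun i => σ (((g : Matrix (Fin m ⊕ Fin m) (Fin m ⊕ Fin m) K) *ᵥ v) i) := fun v => by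
    funext i
    simp [coe_glMap, Matrix.mulVec, dotProduct, map_sum, map_mul]
  constructor
  · intro h v
    have := h fun i => σ (v i)
    rw [hm, hq, hq] at this
    exact σ.injective this
  · intro h w
    obtain ⟨v, rfl⟩ : ∃ v : Fin m ⊕ Fin m → K, (fun i => σ (v i)) = w :=
      ⟨fun i => σ.symm (w i), funext fun i => σ.apply_symm_apply _⟩
    rw [hm, hq, hq, h]

/-- The isometry groups over isomorphic fields. -/
noncomputable def isoMap (m : ℕ) : isometryGroup K (quadFormPlus m K) ≃* isometryGroup F (quadFormPlus m F) where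
  toFun g := ⟨glMap σ _ g.1, (glMap_mem_iff σ m _).2 g.2⟩
  invFun g := ⟨(glMap σ _).symm g.1, (glMap_mem_iff σ m _).1 (by rw [MulEquiv.apply_symm_apply]; exact g.2)⟩
  left_inv g := Subtype.ext ((glMap σ _).symm_apply_apply g.1)
  right_inv g := Subtype.ext ((glMap σ _).apply_symm_apply g.1)
  map_mul' g h := Subtype.ext (map_mul (glMap σ _) g.1 h.1)

theorem map_omega (m : ℕ) :
    (Omega K (quadFormPlus m K)).map (isoMap σ m).toMonoidHom = Omega F (quadFormPlus m F) := by
  show (commutator _).map _ = commutator _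
  rw [commutator_def, Subgroup.map_commutator, ← MonoidHom.range_eq_map,
    MonoidHom.range_eq_top.2 (isoMap σ m).surjective]
  rfl

/-- Exceptional Schur multiplier: over the field with 2 elements, PΩ⁺₈ (for the form Σ xᵢyᵢ) has Schur multiplier a four-group, the product of two cyclic groups of order 2 (here the Schur multiplier is described through stem extensions, as in the definitions). -/
theorem result {F : Type*} [Field F] [Fintype F] (hF : Fintype.card F = 2) : Cfsg.HasSchurMultiplier (Cfsg.POmega F (Cfsg.quadFormPlus 4 F)) (Multiplicative (ZMod 2 × ZMod 2)) := by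
  have σ : ZMod 2 ≃+* F := ZMod.ringEquivOfPrime F Nat.prime_two hF
  let e : Omega (ZMod 2) (quadFormPlus 4 (ZMod 2)) ≃* Omega F (quadFormPlus 4 F) :=
    ((isoMap σ 4).subgroupMap _).trans (MulEquiv.subgroupCongr (map_omega σ 4))
  have hz : Subgroup.center (Omega F (quadFormPlus 4 F)) = ⊥ := by
    rw [← Subgroup.card_eq_one, ← Nat.card_congr (Subgroup.centerCongr e).toEquiv]
    exact CfsgLib.O8Mult.card_center_G8
  exact CfsgLib.SchurMult.hasSchurMultiplier_congr_left
    (e.trans (QuotientGroup.quotientBot.symm.trans (QuotientGroup.quotientMulEquivOfEq hz.symm)))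
    CfsgLib.O8Mult.hasSchurMultiplier_G8

end Cfsg.Agent.S2098
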