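import Cfsg.Statements.S2162
import Cfsg.Agent.Classical.CharTwoInvolutionForm

set_option autoImplicit false
open Cfsg

namespace Cfsg.Agent.S2162
open Matrix CfsgLib.CharTwoInvolution

/-- Conjugacy of involutions in the special linear group over a finite field of characteristic two, in dimension at least 3: two elements of order 2 of SL_n(F) are conjugate in SL_n(F) exactly when the matrices a − 1 and b − 1 have the same rank (the rank of a − 1 is the dimension of the commutator space [V, a]). -/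
theorem result {F : Type*} [Field F] [Fintype F] [CharP F 2] {n : ℕ} (hn : 3 ≤ n) (a b : Matrix.SpecialLinearGroup (Fin n) F) (ha : orderOf a = 2) (hb : orderOf b = 2) :
    IsConj a b ↔ ((a : Matrix (Fin n) (Fin n) F) - 1).rank = ((b : Matrix (Fin n) (Fin n) F) - 1).rank := by
  classical
  have hsq : ∀ c : Matrix.SpecialLinearGroup (Fin n) F, orderOf c = 2 →
      (c : Matrix (Fin n) (Fin n) F) * (c : Matrix (Fin n) (Fin n) F) = 1 ∧ 0 < ((c : Matrix (Fin n) (Fin n) F) - 1).rank := by
    intro c hc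
    constructor
    · have h := pow_orderOf_eq_one c
      rw [hc, sq] at h
      exact congrArg Subtype.val h
    · refine Nat.pos_of_ne_zero fun h => ?_
      rw [Matrix.rank, Submodule.finrank_eq_zero, LinearMap.range_eq_bot] at h
      have h1 : (c : Matrix (Fin n) (Fin n) F) - 1 = 0 := Matrix.ext_iff_mulVec.mpr fun v => by
        rw [Matrix.zero_mulVec]; exact congrFun (congrArg DFunLike.coe h) v
      have hc1 : c = 1 := Subtype.ext (sub_eq_zero.1 h1)
      simp [hc1] at hc
  constructor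
  · intro h
    obtain ⟨g, hg⟩ := isConj_iff.1 h
    refine (rank_sub_one_eq (G := (g : Matrix (Fin n) (Fin n) F)) ?_ ?_).symm
    · exact (Matrix.isUnit_iff_isUnit_det _).2 (by rw [g.det_coe]; exact isUnit_one)
    · rw [← hg]
      show ((g * a * g⁻¹ * g : Matrix.SpecialLinearGroup (Fin n) F) : Matrix (Fin n) (Fin n) F) = ((g * a : Matrix.SpecialLinearGroup (Fin n) F) : Matrix (Fin n) (Fin n) F)
      rw [inv_mul_cancel_right]
  · intro hab
    have key : ∀ (c : Matrix.SpecialLinearGroup (Fin n) F) (r : ℕ) (hr : 2 * r ≤ n), orderOf c = 2 →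
        ((c : Matrix (Fin n) (Fin n) F) - 1).rank = r →
        ∃ g : Matrix.SpecialLinearGroup (Fin n) F, g⁻¹ * c * g = ⟨(pairSwap n r hr).permMatrix F, det_permMatrix _⟩ := by
      intro c r hr hc hcr
      subst hcr
      obtain ⟨h, G, hG, hGc⟩ := exists_conj_pairSwap _ (hsq c hc).1
      have hd := ((Matrix.isUnit_iff_isUnit_det _).1 hG).ne_zero
      obtain ⟨s, hs⟩ := exists_sq_eq (G.det)⁻¹
      obtain ⟨d, -, hdet, hcomm⟩ := exists_diagonal_commute h (hsq c hc).2 s
      obtain ⟨g, hgv⟩ : ∃ g : Matrix.SpecialLinearGroup (Fin n) F, (g : Matrix (Fin n) (Fin n) F) = G * Matrix.diagonal d :=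
        ⟨⟨G * Matrix.diagonal d, by rw [Matrix.det_mul, hdet, hs, mul_inv_cancel₀ hd]⟩, rfl⟩
      refine ⟨g, ?_⟩
      rw [mul_assoc]
      refine inv_mul_eq_iff_eq_mul.2 ?_
      apply Subtype.ext
      show (c : Matrix (Fin n) (Fin n) F) * (g : Matrix (Fin n) (Fin n) F) = (g : Matrix (Fin n) (Fin n) F) * _
      rw [hgv]
      show (c : Matrix (Fin n) (Fin n) F) * (G * Matrix.diagonal d) = G * Matrix.diagonal d * _
      rw [← mul_assoc, hGc, mul_assoc, ← hcomm.eq, mul_assoc]
    obtain ⟨hle, -⟩ := exists_conj_pairSwap _ (hsq a ha).1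
    obtain ⟨g, hg⟩ := key a _ hle ha rfl
    obtain ⟨g', hg'⟩ := key b _ hle hb hab.symm
    refine isConj_iff.2 ⟨g' * g⁻¹, ?_⟩
    rw [show g' * g⁻¹ * a * (g' * g⁻¹)⁻¹ = g' * (g⁻¹ * a * g) * g'⁻¹ by group, hg, ← hg']
    group

end Cfsg.Agent.S2162
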