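import Cfsg.Statements.S2163

set_option autoImplicit false
open Cfsg

namespace Cfsg.Agent.S2163

open Matrix in
theorem rank_eq_of_factor {F : Type*} [Field F] {n l : ℕ} (N : Matrix (Fin n) (Fin n) F)
    (A : Matrix (Fin n) (Fin l) F) (B : Matrix (Fin l) (Fin n) F) (hN : N = A * B)
    (f g : Fin l → Fin n) (h : N.submatrix f g = 1) : N.rank = l := by
  apply le_antisymm
  · rw [hN]
    exact ((Matrix.rank_mul_le_left A B).trans (Matrix.rank_le_card_width A)).trans (by simp)
  · have := Matrix.rank_submatrix_le N f g
    rw [h, Matrix.rank_one] at this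
    simpa using this


/-- Over a finite field of characteristic two and for n ≥ 3: for every ℓ with 1 ≤ ℓ and 2ℓ ≤ n, the matrix j_ℓ that is the identity plus the entries 1 in positions (n − ℓ + i, i) for i < ℓ (an identity block of size ℓ in the lower left corner) lies in SL_n(F), has order 2, and j_ℓ − 1 has rank ℓ. Together with the conjugacy criterion by rank, these matrices represent the conjugacy classes of involutions of SL_n(F). -/
theorem result {F : Type*} [Field F] [Fintype F] [CharP F 2] {n : ℕ} (hn : 3 ≤ n) (ℓ : ℕ) (h1 : 1 ≤ ℓ) (h2 : 2 * ℓ ≤ n) :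
    ∃ a : Matrix.SpecialLinearGroup (Fin n) F, (a : Matrix (Fin n) (Fin n) F) = 1 + Matrix.of (fun i j : Fin n => if j.val < ℓ ∧ i.val = j.val + (n - ℓ) then (1 : F) else 0) ∧ orderOf a = 2 ∧ ((a : Matrix (Fin n) (Fin n) F) - 1).rank = ℓ := by
  set N : Matrix (Fin n) (Fin n) F := Matrix.of (fun i j : Fin n => if j.val < ℓ ∧ i.val = j.val + (n - ℓ) then (1 : F) else 0) with hN
  have hdet : (1 + N).det = 1 := by
    rw [Matrix.det_of_isLowerTriangular]
    · refine Finset.prod_eq_one (fun i _ => ?_)
      have : ¬ (i.val < ℓ ∧ i.val = i.val + (n - ℓ)) := by omega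
      have : N i i = 0 := if_neg this
      simp [Matrix.add_apply, this]
    · intro i j hij
      have hne : i ≠ j := fun h => by subst h; exact lt_irrefl _ hij
      have : i.val < j.val := hij
      have h' : ¬ (j.val < ℓ ∧ i.val = j.val + (n - ℓ)) := by omega
      have : N i j = 0 := if_neg h'
      simp [Matrix.add_apply, Matrix.one_apply_ne hne, this]
  have hNN : N * N = 0 := by
    ext i j
    rw [Matrix.mul_apply, Matrix.zero_apply]
    refine Finset.sum_eq_zero (fun k _ => ?_)
    by_cases h : k.val < ℓ ∧ i.val = k.val + (n - ℓ)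
    · have h' : ¬ (j.val < ℓ ∧ k.val = j.val + (n - ℓ)) := by omega
      simp [N, h']
    · simp [N, h]
  have hrank : N.rank = ℓ := by
    refine rank_eq_of_factor N (Matrix.of fun i (k : Fin ℓ) => if i.val = k.val + (n - ℓ) then 1 else 0)
      (Matrix.of fun (k : Fin ℓ) j => if j.val = k.val then 1 else 0) ?_
      (fun k => ⟨k.val + (n - ℓ), by omega⟩) (fun k => ⟨k.val, by omega⟩) ?_
    · ext i j
      rw [Matrix.mul_apply]
      by_cases h : j.val < ℓ
      · rw [Finset.sum_eq_single (⟨j.val, h⟩ : Fin ℓ)]
        · simp [N, h]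
        · intro k _ hk
          have : j.val ≠ k.val := fun e => hk (Fin.ext e.symm)
          simp [this]
        · simp
      · rw [Finset.sum_eq_zero]
        · simp [N, h]
        · intro k _
          have : j.val ≠ k.val := by omega
          simp [this]
    · ext i j
      simp [N, Matrix.one_apply, Fin.ext_iff]
  refine ⟨⟨1 + N, hdet⟩, rfl, ?_, ?_⟩
  · apply orderOf_eq_prime
    · refine (pow_two _).trans ?_
      apply Subtype.ext
      show (1 + N) * (1 + N) = 1
      have : N + N = 0 := by
        ext i j
        simp [CharTwo.add_self_eq_zero]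
      calc (1 + N) * (1 + N) = 1 + (N + N) + N * N := by noncomm_ring
        _ = 1 := by rw [this, hNN, add_zero, add_zero]
    · intro h
      have h0 : (1 + N) = 1 := congrArg Subtype.val h
      have : N = 0 := by simpa using h0
      rw [this, Matrix.rank_zero] at hrank
      omega
  · simpa using hrank

end Cfsg.Agent.S2163
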