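import Cfsg.Statements.S2587
import Cfsg.Agent.Classical.Unitary.LangFinite

set_option autoImplicit false
open Cfsg

namespace Cfsg.Agent.S2587
open CfsgLib.Unitary

/-- Conjugacy in the finite general unitary group is controlled by the general linear group: two elements of GU_n(q) (the invertible matrices over the field with q² elements preserving the Hermitian form Σ u_i v_i^q) are conjugate in GU_n(q) if and only if they are conjugate in GL_n(q²). -/
theorem result {K : Type*} [Field K] [Fintype K] {q n : ℕ} (hK : Fintype.card K = q ^ 2) (A B : ↥(Cfsg.GU n K q)) : IsConj A B ↔ IsConj (A : GL (Fin n) K) (B : GL (Fin n) K) := by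
  classical
  refine ⟨fun h => (Cfsg.GU n K q).subtype.map_isConj h, fun h => ?_⟩
  obtain ⟨P, hP⟩ := isConj_iff.1 h
  set a : Matrix (Fin n) (Fin n) K := ((A : GL (Fin n) K) : Matrix (Fin n) (Fin n) K) with ha
  set b : Matrix (Fin n) (Fin n) K := ((B : GL (Fin n) K) : Matrix (Fin n) (Fin n) K) with hb
  set p : Matrix (Fin n) (Fin n) K := (P : Matrix (Fin n) (Fin n) K) with hp
  have hAu := (mem_GU_iff_cjT hK).1 A.2
  have hBu := (mem_GU_iff_cjT hK).1 B.2
  have hpa : p * a = b * p := by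
    have h1 : P * (A : GL (Fin n) K) = (B : GL (Fin n) K) * P := by rw [← hP, inv_mul_cancel_right]
    exact congrArg Units.val h1
  have hH : Commute a (cjT q p * p) := by
    have h1 : cjT q a * (cjT q p * p) * a = cjT q p * p := by
      calc cjT q a * (cjT q p * p) * a = cjT q (p * a) * (p * a) := by
            rw [cjT_mul hK]; simp only [mul_assoc]
        _ = cjT q p * (cjT q b * b) * p := by rw [hpa, cjT_mul hK]; simp only [mul_assoc]
        _ = cjT q p * p := by rw [hBu, mul_one]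
    show a * (cjT q p * p) = cjT q p * p * a
    conv_lhs => rw [← h1]
    rw [← mul_assoc, ← mul_assoc a, mul_eq_one_comm.1 hAu, one_mul]
  obtain ⟨Z, hZu, hZc, hZ⟩ := exists_cjT_mul_self hK (H := cjT q p * p)
    (by rw [cjT_mul hK, cjT_cjT hK]) ((isUnit_cjT hK P.isUnit).mul P.isUnit)
  set W := hZu.unit with hW
  have hZA : Commute (A : GL (Fin n) K) W := Units.ext (hZc a hH).eq
  have hQ : P * W⁻¹ ∈ Cfsg.GU n K q := by
    rw [mem_GU_iff_cjT hK]
    have hWi : Z * ((W⁻¹ : GL (Fin n) K) : Matrix (Fin n) (Fin n) K) = 1 := W.mul_inv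
    rw [Units.val_mul, cjT_mul hK]
    calc _ = cjT q ((W⁻¹ : GL (Fin n) K) : Matrix (Fin n) (Fin n) K) * (cjT q p * p) *
          ((W⁻¹ : GL (Fin n) K) : Matrix (Fin n) (Fin n) K) := by simp only [mul_assoc]; rfl
      _ = cjT q (Z * ((W⁻¹ : GL (Fin n) K) : Matrix (Fin n) (Fin n) K)) *
          (Z * ((W⁻¹ : GL (Fin n) K) : Matrix (Fin n) (Fin n) K)) := by
        rw [← hZ, cjT_mul hK]; simp only [mul_assoc]
      _ = 1 := by rw [hWi, cjT_one hK, one_mul]
  refine isConj_iff.2 ⟨⟨P * W⁻¹, hQ⟩, Subtype.ext ?_⟩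
  show P * W⁻¹ * (A : GL (Fin n) K) * (P * W⁻¹)⁻¹ = (B : GL (Fin n) K)
  rw [← hP, mul_inv_rev, inv_inv, mul_assoc P, (hZA.inv_right).symm.eq]
  group

end Cfsg.Agent.S2587
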