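import Cfsg.Statements.S2164
import Cfsg.Agent.Classical.CharTwoInvolutionForm
import Cfsg.Agent.Classical.Unitary.Group
import Cfsg.Agent.S2587

set_option autoImplicit false
open Cfsg

namespace Cfsg.Agent.S2164
open Matrix CfsgLib.CharTwoInvolution CfsgLib.Unitary

/-- Conjugacy of involutions in the special unitary group SU_n(q), q even, n ≥ 3, realised over the field F with q² elements as the matrices of determinant 1 preserving the form Σ u_i v_i^q: for two elements of order 2 of SU_n(q) the following are equivalent — they are conjugate in SU_n(q); they are conjugate in SL_n(F); the matrices a − 1 and b − 1 have the same rank. -/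
theorem result {F : Type*} [Field F] [Fintype F] [CharP F 2] {n q : ℕ} (hF : Fintype.card F = q ^ 2) (hn : 3 ≤ n) (a b : ↥(Cfsg.SU n F q)) (ha : orderOf a = 2) (hb : orderOf b = 2) :
    (IsConj a b ↔ IsConj (a : Matrix.SpecialLinearGroup (Fin n) F) (b : Matrix.SpecialLinearGroup (Fin n) F)) ∧
    (IsConj a b ↔ (((a : Matrix.SpecialLinearGroup (Fin n) F) : Matrix (Fin n) (Fin n) F) - 1).rank = (((b : Matrix.SpecialLinearGroup (Fin n) F) : Matrix (Fin n) (Fin n) F) - 1).rank) := by
  classical
  have hsq : ∀ c : ↥(Cfsg.SU n F q), orderOf c = 2 →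
      ((c : Matrix.SpecialLinearGroup (Fin n) F) : Matrix (Fin n) (Fin n) F) * ((c : Matrix.SpecialLinearGroup (Fin n) F) : Matrix (Fin n) (Fin n) F) = 1 ∧
      0 < (((c : Matrix.SpecialLinearGroup (Fin n) F) : Matrix (Fin n) (Fin n) F) - 1).rank := by
    intro c hc
    constructor
    · have h := pow_orderOf_eq_one c
      rw [hc, sq] at h
      exact congrArg (fun x : ↥(Cfsg.SU n F q) => ((x : Matrix.SpecialLinearGroup (Fin n) F) : Matrix (Fin n) (Fin n) F)) h
    · refine Nat.pos_of_ne_zero fun h => ?_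
      rw [Matrix.rank, Submodule.finrank_eq_zero, LinearMap.range_eq_bot] at h
      have h1 : ((c : Matrix.SpecialLinearGroup (Fin n) F) : Matrix (Fin n) (Fin n) F) - 1 = 0 :=
        Matrix.ext_iff_mulVec.mpr fun v => by
          rw [Matrix.zero_mulVec]; exact congrFun (congrArg DFunLike.coe h) v
      have hc1 : c = 1 := Subtype.ext (Subtype.ext (sub_eq_zero.1 h1))
      simp [hc1] at hc
  have hslrank : ∀ x y : Matrix.SpecialLinearGroup (Fin n) F, IsConj x y →
      ((x : Matrix (Fin n) (Fin n) F) - 1).rank = ((y : Matrix (Fin n) (Fin n) F) - 1).rank := by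
    intro x y h
    obtain ⟨g, hg⟩ := isConj_iff.1 h
    refine (rank_sub_one_eq (G := (g : Matrix (Fin n) (Fin n) F)) ?_ ?_).symm
    · exact (Matrix.isUnit_iff_isUnit_det _).2 (by rw [g.det_coe]; exact isUnit_one)
    · rw [← hg]
      show ((g * x * g⁻¹ * g : Matrix.SpecialLinearGroup (Fin n) F) : Matrix (Fin n) (Fin n) F) = ((g * x : Matrix.SpecialLinearGroup (Fin n) F) : Matrix (Fin n) (Fin n) F)
      rw [inv_mul_cancel_right]
  have main : (((a : Matrix.SpecialLinearGroup (Fin n) F) : Matrix (Fin n) (Fin n) F) - 1).rank = (((b : Matrix.SpecialLinearGroup (Fin n) F) : Matrix (Fin n) (Fin n) F) - 1).rank → IsConj a b := by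
    intro hab
    obtain ⟨hle, -⟩ := exists_conj_pairSwap _ (hsq a ha).1
    set σ := pairSwap n (((a : Matrix.SpecialLinearGroup (Fin n) F) : Matrix (Fin n) (Fin n) F) - 1).rank hle with hσ
    have hP : (⟨σ.permMatrix F, det_permMatrix _⟩ : Matrix.SpecialLinearGroup (Fin n) F) ∈ Cfsg.SU n F q := by
      refine mem_SU.2 fun u v => ?_
      show hermForm n F q (σ.permMatrix F *ᵥ u) (σ.permMatrix F *ᵥ v) = _
      rw [Matrix.permMatrix_mulVec, Matrix.permMatrix_mulVec]
      exact Equiv.sum_comp σ fun i => u i * v i ^ q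
    set P : ↥(Cfsg.SU n F q) := ⟨_, hP⟩ with hPdef
    have key : ∀ c : ↥(Cfsg.SU n F q), orderOf c = 2 →
        (((c : Matrix.SpecialLinearGroup (Fin n) F) : Matrix (Fin n) (Fin n) F) - 1).rank =
          (((a : Matrix.SpecialLinearGroup (Fin n) F) : Matrix (Fin n) (Fin n) F) - 1).rank →
        IsConj c P := by
      intro c hc hcr
      obtain ⟨h, G, hG, hGc⟩ := exists_conj_pairSwap _ (hsq c hc).1
      have hσc : pairSwap n _ h = σ := by rw [hσ]; congr 1
      rw [hσc] at hGc
      have hglconj : IsConj ((suToGU c : ↥(Cfsg.GU n F q)) : GL (Fin n) F) ((suToGU P : ↥(Cfsg.GU n F q)) : GL (Fin n) F) := by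
        refine (isConj_iff.2 ⟨hG.unit, ?_⟩).symm
        rw [mul_inv_eq_iff_eq_mul]
        exact Units.ext hGc.symm
      obtain ⟨g, hg⟩ := isConj_iff.1 ((Cfsg.Agent.S2587.result hF (suToGU c) (suToGU P)).2 hglconj).symm
      set t := ((g : GL (Fin n) F) : Matrix (Fin n) (Fin n) F).det with ht
      have htq : t ^ (q + 1) = 1 := det_pow_succ_eq_one hF g.2
      have ht0 : t ≠ 0 := by intro h0; rw [h0, zero_pow (Nat.succ_ne_zero q)] at htq; exact zero_ne_one htq
      obtain ⟨s, hs⟩ := exists_sq_eq t⁻¹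
      have hsq1 : s ^ (q + 1) = 1 := by
        have h2 : (s ^ (q + 1)) ^ 2 = 1 := by rw [← pow_mul, mul_comm, pow_mul, hs, inv_pow, htq, inv_one]
        exact frobenius_inj F 2 (by rw [frobenius_def, h2, frobenius_def, one_pow])
      obtain ⟨d, hd1, hdet, hcomm⟩ := exists_diagonal_commute hle (hcr ▸ (hsq c hc).2) s
      have hdU : ∀ i, d i ^ (q + 1) = 1 := fun i => (hd1 i).elim (fun h => by rw [h, one_pow]) (fun h => by rw [h, hsq1])
      set D := diagGU d hdU with hD
      have hgD : (detGU : ↥(Cfsg.GU n F q) →* Fˣ) (g * D) = 1 := by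
        apply Units.ext
        show (((g * D : ↥(Cfsg.GU n F q)) : GL (Fin n) F) : Matrix (Fin n) (Fin n) F).det = 1
        rw [Subgroup.coe_mul, Units.val_mul, Matrix.det_mul, ← ht, hD, diagGU_val, hdet, hs, mul_inv_cancel₀ ht0]
      obtain ⟨g', hg'⟩ : g * D ∈ (suToGU : ↥(Cfsg.SU n F q) →* ↥(Cfsg.GU n F q)).range := by
        rw [← ker_detGU]; exact hgD
      refine (isConj_iff.2 ⟨g', suToGU_injective ?_⟩).symm
      have hDP : D * suToGU P = suToGU P * D := Subtype.ext (Units.ext hcomm.eq)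
      rw [map_mul, map_mul, map_inv, hg', mul_assoc g, hDP, ← hg]
      group
    exact (key a ha rfl).trans (key b hb hab.symm).symm
  have hcoe : IsConj a b → IsConj (a : Matrix.SpecialLinearGroup (Fin n) F) (b : Matrix.SpecialLinearGroup (Fin n) F) :=
    fun h => (Cfsg.SU n F q).subtype.map_isConj h
  exact ⟨⟨hcoe, fun h => main (hslrank _ _ h)⟩, ⟨fun h => hslrank _ _ (hcoe h), main⟩⟩

end Cfsg.Agent.S2164
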