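import Cfsg.Statements.S2165
import Cfsg.Agent.Eq.Def_Classical

set_option autoImplicit false
open Cfsg

namespace Cfsg.Agent.S2165

open Matrix in
theorem rank_eq_of_factor {F : Type*} [Field F] {n l : ℕ} (N : Matrix (Fin n) (Fin n) F)
    (A : Matrix (Fin n) (Fin l) F) (B : Matrix (Fin l) (Fin n) F) (hN : N = A * B)
    (f g : Fin l → Fin n) (h : N.submatrix f g = 1) : N.rank = l := by
  apply le_antisymm
  · rw [hN]
    exact ((Matrix.rank_mul_le_left A B).trans (Matrix.rank_le_card_width A)).trans (by simp)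
  · have := Matrix.rank_submatrix_le N f g
    rw [h, Matrix.rank_one] at this
    simpa using this


/-- In SU_n(q), q even, n ≥ 3 (matrices of determinant 1 over the field with q² elements preserving Σ u_i v_i^q): for every ℓ with 1 ≤ ℓ and 2ℓ ≤ n, the permutation matrix of the involution of {0, …, n−1} exchanging i and n − ℓ + i for each i < ℓ lies in SU_n(q), has order 2, and differs from the identity by a matrix of rank ℓ. So every rank between 1 and n/2 occurs for involutions of SU_n(q). -/
theorem result {F : Type*} [Field F] [Fintype F] [CharP F 2] {n q : ℕ} (hF : Fintype.card F = q ^ 2) (hn : 3 ≤ n) (ℓ : ℕ) (h1 : 1 ≤ ℓ) (h2 : 2 * ℓ ≤ n) :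
    ∃ a : ↥(Cfsg.SU n F q), (((a : Matrix.SpecialLinearGroup (Fin n) F) : Matrix (Fin n) (Fin n) F) = Matrix.of (fun i j : Fin n => if (j.val < ℓ ∧ i.val = j.val + (n - ℓ)) ∨ (i.val < ℓ ∧ j.val = i.val + (n - ℓ)) ∨ (i = j ∧ ℓ ≤ i.val ∧ i.val < n - ℓ) then (1 : F) else 0)) ∧ orderOf a = 2 ∧ ((((a : Matrix.SpecialLinearGroup (Fin n) F) : Matrix (Fin n) (Fin n) F)) - 1).rank = ℓ := by
  let s : Fin n → Fin n := fun i =>
    if h : i.val < ℓ then ⟨i.val + (n - ℓ), by omega⟩
    else if h' : n - ℓ ≤ i.val then ⟨i.val - (n - ℓ), by omega⟩ else i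
  have hsv : ∀ i, (s i).val = if i.val < ℓ then i.val + (n - ℓ)
      else if n - ℓ ≤ i.val then i.val - (n - ℓ) else i.val := by
    intro i
    simp only [s]
    split_ifs <;> rfl
  have hs : Function.Involutive s := by
    intro i
    apply Fin.ext
    rw [hsv, hsv]
    split_ifs <;> omega
  set P : Matrix (Fin n) (Fin n) F := Matrix.of (fun i j : Fin n => if (j.val < ℓ ∧ i.val = j.val + (n - ℓ)) ∨ (i.val < ℓ ∧ j.val = i.val + (n - ℓ)) ∨ (i = j ∧ ℓ ≤ i.val ∧ i.val < n - ℓ) then (1 : F) else 0) with hP
  have hP' : ∀ i j, P i j = if s i = j then 1 else 0 := by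
    intro i j
    simp only [P, Matrix.of_apply]
    refine if_congr ?_ rfl rfl
    simp only [Fin.ext_iff]
    rw [hsv]
    split_ifs <;> omega
  have hPv : ∀ (u : Fin n → F) i, P.mulVec u i = u (s i) := by
    intro u i
    simp [Matrix.mulVec, dotProduct, hP']
  have hPP : P * P = 1 := by
    ext i j
    rw [Matrix.mul_apply, Finset.sum_eq_single (s i)]
    · simp [hP', hs i, Matrix.one_apply]
    · intro b _ hb
      simp [hP', Ne.symm hb]
    · simp
  have hdet : P.det = 1 := by
    have h := congrArg Matrix.det hPP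
    rw [Matrix.det_mul, Matrix.det_one] at h
    rcases mul_self_eq_one_iff.1 h with h | h
    · exact h
    · rwa [CharTwo.neg_eq] at h
  let aS : Matrix.SpecialLinearGroup (Fin n) F := ⟨P, hdet⟩
  have hmem : aS ∈ Cfsg.SU n F q := by
    intro u v
    show ∑ i, P.mulVec u i * (P.mulVec v i) ^ q = _
    simp only [hPv]
    exact Equiv.sum_comp (Function.Involutive.toPerm s hs) (fun i => u i * v i ^ q)
  have hrank : (P - 1).rank = ℓ := by
    let A : Matrix (Fin n) (Fin ℓ) F :=
      Matrix.of fun i k => if i.val = k.val ∨ i.val = k.val + (n - ℓ) then 1 else 0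
    refine rank_eq_of_factor _ A A.transpose ?_
      (fun k => ⟨k.val, by omega⟩) (fun k => ⟨k.val + (n - ℓ), by omega⟩) ?_
    · ext i j
      rw [Matrix.mul_apply, Matrix.sub_apply, CharTwo.sub_eq_add, hP']
      simp only [Matrix.transpose_apply, A, Matrix.of_apply, Matrix.one_apply]
      by_cases hi : i.val < ℓ ∨ n - ℓ ≤ i.val
      · let k₀ : Fin ℓ := if h : i.val < ℓ then ⟨i.val, h⟩ else ⟨i.val - (n - ℓ), by omega⟩
        have hk₀ : i.val = k₀.val ∨ i.val = k₀.val + (n - ℓ) := by
          simp only [k₀]; split_ifs <;> simp only [true_or] <;> omega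
        rw [Finset.sum_eq_single k₀]
        · have hv : k₀.val = if i.val < ℓ then i.val else i.val - (n - ℓ) := by
            simp only [k₀]; split_ifs <;> rfl
          rw [if_pos hk₀, one_mul]
          simp only [Fin.ext_iff]
          rw [hsv, hv]
          split_ifs <;> first | omega | simp
        · intro k _ hk
          rw [if_neg, zero_mul]
          intro hc
          exact hk (Fin.ext (by omega))
        · simp
      · rw [Finset.sum_eq_zero]
        · simp only [Fin.ext_iff]
          rw [hsv]
          split_ifs <;> first | omega | simp [CharTwo.add_self_eq_zero]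
        · intro k _
          rw [if_neg (by omega), zero_mul]
    · ext i j
      rw [Matrix.submatrix_apply, Matrix.sub_apply, CharTwo.sub_eq_add, hP']
      simp only [Matrix.one_apply, Fin.ext_iff]
      rw [hsv]
      simp only
      split_ifs <;> first | omega | simp
  refine ⟨⟨aS, hmem⟩, rfl, ?_, hrank⟩
  apply orderOf_eq_prime
  · rw [pow_two]
    apply Subtype.ext
    apply Subtype.ext
    exact hPP
  · intro h
    have h0 : P = 1 := congrArg (fun x : ↥(Cfsg.SU n F q) => ((x : Matrix.SpecialLinearGroup (Fin n) F) : Matrix (Fin n) (Fin n) F)) h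
    rw [h0, sub_self, Matrix.rank_zero] at hrank
    omega

end Cfsg.Agent.S2165
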