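import Cfsg.Statements.S2166
import Cfsg.Agent.Classical.Symp.InvolutionCharTwo

set_option autoImplicit false
open Cfsg

namespace Cfsg.Agent.S2166
open Matrix CfsgLib.Classical.Symp CfsgLib.Classical.SympCharTwo

/-- Conjugacy of involutions in the symplectic group Sp_{2m}(F), F a finite field of characteristic two, m ≥ 2 (Sp taken as the matrices A with A J Aᵀ = J, acting on column vectors, with the alternating form f(u, v) = u ⬝ (J v)). For an involution t write V(t) for the set of vectors v with f(v, t v) = 0 (a subspace). Two involutions a, b are conjugate in Sp_{2m}(F) exactly when a − 1 and b − 1 have the same rank and, in case that rank is even, V(a) and V(b) have the same number of elements. -/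
theorem result {F : Type*} [Field F] [Fintype F] [CharP F 2] {m : ℕ} (hm : 2 ≤ m) (a b : ↥(Matrix.symplecticGroup (Fin m) F)) (ha : orderOf a = 2) (hb : orderOf b = 2) :
    IsConj a b ↔ ((((a : ↥(Matrix.symplecticGroup (Fin m) F)) : Matrix (Fin m ⊕ Fin m) (Fin m ⊕ Fin m) F) - 1).rank = (((b : ↥(Matrix.symplecticGroup (Fin m) F)) : Matrix (Fin m ⊕ Fin m) (Fin m ⊕ Fin m) F) - 1).rank ∧
      (Even (((a : ↥(Matrix.symplecticGroup (Fin m) F)) : Matrix (Fin m ⊕ Fin m) (Fin m ⊕ Fin m) F) - 1).rank → Nat.card {v : Fin m ⊕ Fin m → F // Cfsg.sympForm m F v (Matrix.mulVec ((a : ↥(Matrix.symplecticGroup (Fin m) F)) : Matrix (Fin m ⊕ Fin m) (Fin m ⊕ Fin m) F) v) = 0} = Nat.card {v : Fin m ⊕ Fin m → F // Cfsg.sympForm m F v (Matrix.mulVec ((b : ↥(Matrix.symplecticGroup (Fin m) F)) : Matrix (Fin m ⊕ Fin m) (Fin m ⊕ Fin m) F) v) = 0})) := by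
  classical
  have hsq : ∀ c : ↥(Matrix.symplecticGroup (Fin m) F), orderOf c = 2 → c * c = 1 := fun c hc => by
    have h := pow_orderOf_eq_one c
    rwa [hc, sq] at h
  have ha2 := hsq a ha
  have hb2 := hsq b hb
  constructor
  · intro h
    obtain ⟨g, hg⟩ := isConj_iff.1 h
    have hd : ∀ x, (b : Matrix (Fin m ⊕ Fin m) (Fin m ⊕ Fin m) F) *ᵥ ((g : Matrix (Fin m ⊕ Fin m) (Fin m ⊕ Fin m) F) *ᵥ x) =
        (g : Matrix (Fin m ⊕ Fin m) (Fin m ⊕ Fin m) F) *ᵥ ((a : Matrix (Fin m ⊕ Fin m) (Fin m ⊕ Fin m) F) *ᵥ x) := fun x => by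
      rw [← mul_mulVec, ← mul_mulVec, ← hg, inv_mul_cancel_right]
    refine ⟨?_, fun _ => ?_⟩
    · have hu : IsUnit ((g : Matrix (Fin m ⊕ Fin m) (Fin m ⊕ Fin m) F)).det := SymplecticGroup.symplectic_det g.2
      rw [← Matrix.rank_mul_eq_left_of_isUnit_det _ ((b : Matrix (Fin m ⊕ Fin m) (Fin m ⊕ Fin m) F) - 1) hu,
        sub_mul, one_mul, show (b : Matrix (Fin m ⊕ Fin m) (Fin m ⊕ Fin m) F) * (g : Matrix (Fin m ⊕ Fin m) (Fin m ⊕ Fin m) F) =
          (g : Matrix (Fin m ⊕ Fin m) (Fin m ⊕ Fin m) F) * (a : Matrix (Fin m ⊕ Fin m) (Fin m ⊕ Fin m) F) from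
          Matrix.ext_iff_mulVec.mpr fun x => by rw [← mulVec_mulVec, ← mulVec_mulVec, hd],
        ← mul_sub_one, Matrix.rank_mul_eq_right_of_isUnit_det _ _ hu]
    · refine Nat.card_congr (Equiv.subtypeEquiv
        { toFun := fun x => (g : Matrix (Fin m ⊕ Fin m) (Fin m ⊕ Fin m) F) *ᵥ x
          invFun := fun x => ((g⁻¹ : ↥(Matrix.symplecticGroup (Fin m) F)) : Matrix (Fin m ⊕ Fin m) (Fin m ⊕ Fin m) F) *ᵥ x
          left_inv := inv_mulVec_cancel g
          right_inv := mulVec_inv_cancel g } fun x => ?_)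
      show _ ↔ Cfsg.sympForm m F _ _ = 0
      rw [Equiv.coe_fn_mk, hd, form_mulVec]
  · rintro ⟨hr, hc⟩
    rcases exists_normalFamily ha2 with ⟨pa, k, hk, v, hv⟩ | ⟨pa, v, hv⟩ <;>
      rcases exists_normalFamily hb2 with ⟨pb, k', hk', v', hv'⟩ | ⟨pb, v', hv'⟩
    · obtain rfl : k = k' := by
        have : Module.finrank F (LinearMap.range (disp a)) = Module.finrank F (LinearMap.range (disp b)) := hr
        omega
      exact isConj_of_normalFamily ha2 hb2 hv hv'
    · exfalso
      have he := hc ⟨k, hk.trans (two_mul k)⟩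
      rcases card_invariant_set hb2 with ⟨hb', -⟩ | ⟨-, hb'⟩
      · exact pb hb'
      rcases card_invariant_set ha2 with ⟨-, ha'⟩ | ⟨ha', -⟩
      · rw [← he, ha'] at hb'
        have h1 := Fintype.one_lt_card (α := F)
        have h2 : 0 < Fintype.card F ^ (2 * m) := pow_pos (by omega) _
        nlinarith
      · exact ha' pa
    · exfalso
      have he := hc (hr ▸ ⟨k', hk'.trans (two_mul k')⟩)
      rcases card_invariant_set ha2 with ⟨ha', -⟩ | ⟨-, ha'⟩
      · exact pa ha'
      rcases card_invariant_set hb2 with ⟨-, hb'⟩ | ⟨hb', -⟩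
      · rw [he, hb'] at ha'
        have h1 := Fintype.one_lt_card (α := F)
        have h2 : 0 < Fintype.card F ^ (2 * m) := pow_pos (by omega) _
        nlinarith
      · exact hb' pb
    · have hr' : Module.finrank F (LinearMap.range (disp b)) = Module.finrank F (LinearMap.range (disp a)) := hr.symm
      revert v'
      rw [hr']
      intro v' hv'
      exact isConj_of_normalFamily ha2 hb2 hv hv'

end Cfsg.Agent.S2166
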