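import Cfsg.Statements.S2167
import Cfsg.Agent.Classical.Symp.InvolutionCharTwo

set_option autoImplicit false
open Cfsg

namespace Cfsg.Agent.S2167
open CfsgLib.Classical.SympCharTwo

/-- For an involution t of the symplectic group Sp_{2m}(F), m ≥ 2, F a finite field of characteristic two (matrices A with A J Aᵀ = J acting on column vectors, alternating form f(u, v) = u ⬝ (J v)): the set V(t) of vectors v with f(v, t v) = 0 has either q^{2m} or q^{2m−1} elements, q the order of F (it is a subspace of codimension at most 1), and if it is the whole space then t − 1 has even rank. -/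
theorem result {F : Type*} [Field F] [Fintype F] [CharP F 2] {m : ℕ} (hm : 2 ≤ m) (a : ↥(Matrix.symplecticGroup (Fin m) F)) (ha : orderOf a = 2) :
    (Nat.card {v : Fin m ⊕ Fin m → F // Cfsg.sympForm m F v (Matrix.mulVec ((a : ↥(Matrix.symplecticGroup (Fin m) F)) : Matrix (Fin m ⊕ Fin m) (Fin m ⊕ Fin m) F) v) = 0} = Fintype.card F ^ (2 * m) ∨ Nat.card {v : Fin m ⊕ Fin m → F // Cfsg.sympForm m F v (Matrix.mulVec ((a : ↥(Matrix.symplecticGroup (Fin m) F)) : Matrix (Fin m ⊕ Fin m) (Fin m ⊕ Fin m) F) v) = 0} * Fintype.card F = Fintype.card F ^ (2 * m)) ∧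
    ((∀ v : Fin m ⊕ Fin m → F, Cfsg.sympForm m F v (Matrix.mulVec ((a : ↥(Matrix.symplecticGroup (Fin m) F)) : Matrix (Fin m ⊕ Fin m) (Fin m ⊕ Fin m) F) v) = 0) → Even (((a : ↥(Matrix.symplecticGroup (Fin m) F)) : Matrix (Fin m ⊕ Fin m) (Fin m ⊕ Fin m) F) - 1).rank) := by
  classical
  have ha2 : a * a = 1 := by
    have h := pow_orderOf_eq_one a
    rwa [ha, sq] at h
  refine ⟨?_, fun h => ?_⟩
  · rcases card_invariant_set ha2 with ⟨-, h⟩ | ⟨-, h⟩
    · exact Or.inl h
    · exact Or.inr h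
  · rcases exists_normalFamily ha2 with ⟨-, k, hk, -⟩ | ⟨hn, -⟩
    · exact ⟨k, hk.trans (two_mul k)⟩
    · exact absurd h hn

end Cfsg.Agent.S2167
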