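import Cfsg.Statements.S2168
import Cfsg.Agent.Classical.CharTwoOrthoConj

set_option autoImplicit false
open Cfsg

namespace Cfsg.Agent.S2168

/-- Involutions in the full isometry group O of the hyperbolic quadratic form Σ x_i y_i in dimension 2m over a finite field F of characteristic two, m ≥ 4 (plus type): two elements of order 2 of O are conjugate in O exactly when they are conjugate under the group of all invertible matrices preserving the polar bilinear form (u, v) ↦ Q(u + v) − Q(u) − Q(v) (the symplectic group of that form). -/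
theorem result {F : Type*} [Field F] [Fintype F] [CharP F 2] {m : ℕ} (hm : 4 ≤ m) (t s : ↥(Cfsg.isometryGroup F (Cfsg.quadFormPlus m F))) (ht : orderOf t = 2) (hs : orderOf s = 2) :
    IsConj t s ↔ ∃ g ∈ Cfsg.preserving (Units.coeHom (Matrix (Fin m ⊕ Fin m) (Fin m ⊕ Fin m) F)) (fun u v => Cfsg.quadFormPlus m F (u + v) - Cfsg.quadFormPlus m F u - Cfsg.quadFormPlus m F v), g * ((t : ↥(Cfsg.isometryGroup F (Cfsg.quadFormPlus m F))) : GL (Fin m ⊕ Fin m) F) * g⁻¹ = ((s : ↥(Cfsg.isometryGroup F (Cfsg.quadFormPlus m F))) : GL (Fin m ⊕ Fin m) F) := by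
  classical
  let B : (Fin m ⊕ Fin m → F) →ₗ[F] (Fin m ⊕ Fin m → F) →ₗ[F] F :=
    LinearMap.mk₂ F (fun u v => ∑ i : Fin m, (u (.inl i) * v (.inr i) + v (.inl i) * u (.inr i)))
      (fun a b c => by simp only [Pi.add_apply, ← Finset.sum_add_distrib]; exact Finset.sum_congr rfl (fun i _ => by ring))
      (fun a b c => by simp only [Pi.smul_apply, smul_eq_mul, Finset.mul_sum]; exact Finset.sum_congr rfl (fun i _ => by ring))
      (fun a b c => by simp only [Pi.add_apply, ← Finset.sum_add_distrib]; exact Finset.sum_congr rfl (fun i _ => by ring))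
      (fun a b c => by simp only [Pi.smul_apply, smul_eq_mul, Finset.mul_sum]; exact Finset.sum_congr rfl (fun i _ => by ring))
  refine CfsgLib.OrthoCharTwo.isConj_of_polar_conj _ B ?_ ?_ ?_ t s
  · intro c v
    simp only [Cfsg.quadFormPlus, Pi.smul_apply, smul_eq_mul, Finset.mul_sum]
    exact Finset.sum_congr rfl (fun i _ => by ring)
  · intro u v
    simp only [Cfsg.quadFormPlus, B, LinearMap.mk₂_apply, Pi.add_apply, ← Finset.sum_add_distrib]
    exact Finset.sum_congr rfl (fun i _ => by ring)
  · intro z hz
    funext j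
    rcases j with j | j
    · have := hz (Pi.single (.inr j) 1)
      simpa [B, Pi.single_apply] using this
    · have := hz (Pi.single (.inl j) 1)
      simpa [B, Pi.single_apply] using this

end Cfsg.Agent.S2168
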