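import Cfsg.Statements.S2170
import Cfsg.Agent.Classical.CharTwoOrthoConj

set_option autoImplicit false
open Cfsg

namespace Cfsg.Agent.S2170

/-- Involutions in the full isometry group O of the quadratic form Σ x_i y_i + (z₁² + c z₁ z₂ + d z₂²) in dimension 2m with anisotropic binary part over a finite field F of characteristic two, m ≥ 4 (minus type): two elements of order 2 of O are conjugate in O exactly when they are conjugate under the group of all invertible matrices preserving the polar bilinear form (u, v) ↦ Q(u + v) − Q(u) − Q(v) (the symplectic group of that form). -/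
theorem result {F : Type*} [Field F] [Fintype F] [CharP F 2] {m : ℕ} (hm : 4 ≤ m) (c d : F) (hcd : ∀ z₁ z₂ : F, z₁ ^ 2 + c * z₁ * z₂ + d * z₂ ^ 2 = 0 → z₁ = 0 ∧ z₂ = 0) (t s : ↥(Cfsg.isometryGroup F (Cfsg.quadFormMinus (m - 1) F c d))) (ht : orderOf t = 2) (hs : orderOf s = 2) :
    IsConj t s ↔ ∃ g ∈ Cfsg.preserving (Units.coeHom (Matrix ((Fin (m - 1) ⊕ Fin (m - 1)) ⊕ Fin 2) ((Fin (m - 1) ⊕ Fin (m - 1)) ⊕ Fin 2) F)) (fun u v => Cfsg.quadFormMinus (m - 1) F c d (u + v) - Cfsg.quadFormMinus (m - 1) F c d u - Cfsg.quadFormMinus (m - 1) F c d v), g * ((t : ↥(Cfsg.isometryGroup F (Cfsg.quadFormMinus (m - 1) F c d))) : GL ((Fin (m - 1) ⊕ Fin (m - 1)) ⊕ Fin 2) F) * g⁻¹ = ((s : ↥(Cfsg.isometryGroup F (Cfsg.quadFormMinus (m - 1) F c d))) : GL ((Fin (m - 1) ⊕ Fin (m - 1)) ⊕ Fin 2) F) := by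
  classical
  have hc : c ≠ 0 := by
    rintro rfl
    obtain ⟨r, hr⟩ := (bijective_frobenius F 2).2 d
    have hr' : r ^ 2 = d := hr
    have := (hcd r 1 (by rw [← hr']; simp [CharTwo.add_self_eq_zero])).2
    exact one_ne_zero this
  let B : ((Fin (m - 1) ⊕ Fin (m - 1)) ⊕ Fin 2 → F) →ₗ[F] ((Fin (m - 1) ⊕ Fin (m - 1)) ⊕ Fin 2 → F) →ₗ[F] F :=
    LinearMap.mk₂ F (fun u v => (∑ i : Fin (m - 1), (u (.inl (.inl i)) * v (.inl (.inr i)) + v (.inl (.inl i)) * u (.inl (.inr i))))
        + c * (u (.inr 0) * v (.inr 1) + v (.inr 0) * u (.inr 1)))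
      (fun a b e => by simp only [Pi.add_apply, add_mul, mul_add, Finset.sum_add_distrib]; ring)
      (fun a b e => by simp only [Pi.smul_apply, smul_eq_mul, mul_add, Finset.mul_sum, Finset.sum_add_distrib, mul_assoc, mul_left_comm]; try ring)
      (fun a b e => by simp only [Pi.add_apply, add_mul, mul_add, Finset.sum_add_distrib]; ring)
      (fun a b e => by simp only [Pi.smul_apply, smul_eq_mul, mul_add, Finset.mul_sum, Finset.sum_add_distrib, mul_assoc, mul_left_comm]; try ring)
  refine CfsgLib.OrthoCharTwo.isConj_of_polar_conj _ B ?_ ?_ ?_ t s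
  · intro e v
    simp only [Cfsg.quadFormMinus, Pi.smul_apply, smul_eq_mul]
    have : (∑ i : Fin (m - 1), e * v (.inl (.inl i)) * (e * v (.inl (.inr i))))
        = e ^ 2 * ∑ i : Fin (m - 1), v (.inl (.inl i)) * v (.inl (.inr i)) := by
      rw [Finset.mul_sum]; exact Finset.sum_congr rfl (fun i _ => by ring)
    rw [this]; ring
  · intro u v
    simp only [Cfsg.quadFormMinus, B, LinearMap.mk₂_apply, Pi.add_apply, CharTwo.add_sq, add_mul, mul_add, Finset.sum_add_distrib]
    ring
  · intro z hz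
    funext j
    rcases j with (j | j) | j
    · have := hz (Pi.single (.inl (.inr j)) 1)
      simpa [B, Pi.single_apply] using this
    · have := hz (Pi.single (.inl (.inl j)) 1)
      simpa [B, Pi.single_apply] using this
    · fin_cases j
      · have := hz (Pi.single (.inr 1) 1)
        simpa [B, Pi.single_apply, hc] using this
      · have := hz (Pi.single (.inr 0) 1)
        simpa [B, Pi.single_apply, hc] using this

end Cfsg.Agent.S2170
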