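import Cfsg.Statements.S2172
import Cfsg.Agent.Eq.Def_ClassicalGeometry
import Cfsg.Agent.OrthGeo.InvolutionTwo
import Cfsg.Agent.OrthGeo.Forms

set_option autoImplicit false
open Cfsg

namespace Cfsg.Agent.S2172

/-- Splitting of involution classes from O to Ω for the hyperbolic quadratic form Q = Σ x_i y_i in dimension 2m over a finite field F of characteristic two, m ≥ 4. Let t, s be involutions of the commutator subgroup Ω that are conjugate in the full isometry group O. If it is not the case that t − 1 has rank m and Q(v + t v) = 0 for every vector v, then t and s are conjugate by an element of Ω. If t − 1 has rank m and Q(v + t v) = 0 for all v, then t and s are conjugate by an element of Ω exactly when the intersection of the images of t − 1 and s − 1 has even dimension (so the class of t in O meets at most two classes of Ω). -/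
theorem result {F : Type*} [Field F] [Fintype F] [CharP F 2] {m : ℕ} (hm : 4 ≤ m) (t s : ↥(Cfsg.isometryGroup F (Cfsg.quadFormPlus m F))) (ht : orderOf t = 2) (hs : orderOf s = 2) (htO : t ∈ Cfsg.Omega F (Cfsg.quadFormPlus m F)) (hsO : s ∈ Cfsg.Omega F (Cfsg.quadFormPlus m F)) (hconj : IsConj t s) :
    (¬ (((((t : ↥(Cfsg.isometryGroup F (Cfsg.quadFormPlus m F))) : GL (Fin m ⊕ Fin m) F) : Matrix (Fin m ⊕ Fin m) (Fin m ⊕ Fin m) F) - 1).rank = m ∧ ∀ v : Fin m ⊕ Fin m → F, Cfsg.quadFormPlus m F (v + Matrix.mulVec (((t : ↥(Cfsg.isometryGroup F (Cfsg.quadFormPlus m F))) : GL (Fin m ⊕ Fin m) F) : Matrix (Fin m ⊕ Fin m) (Fin m ⊕ Fin m) F) v) = 0) →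
      ∃ g ∈ Cfsg.Omega F (Cfsg.quadFormPlus m F), g * t * g⁻¹ = s) ∧
    ((((((t : ↥(Cfsg.isometryGroup F (Cfsg.quadFormPlus m F))) : GL (Fin m ⊕ Fin m) F) : Matrix (Fin m ⊕ Fin m) (Fin m ⊕ Fin m) F) - 1).rank = m ∧ ∀ v : Fin m ⊕ Fin m → F, Cfsg.quadFormPlus m F (v + Matrix.mulVec (((t : ↥(Cfsg.isometryGroup F (Cfsg.quadFormPlus m F))) : GL (Fin m ⊕ Fin m) F) : Matrix (Fin m ⊕ Fin m) (Fin m ⊕ Fin m) F) v) = 0) →
      ((∃ g ∈ Cfsg.Omega F (Cfsg.quadFormPlus m F), g * t * g⁻¹ = s) ↔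
        Even (Module.finrank F ↥(LinearMap.range (Matrix.toLin' ((((t : ↥(Cfsg.isometryGroup F (Cfsg.quadFormPlus m F))) : GL (Fin m ⊕ Fin m) F) : Matrix (Fin m ⊕ Fin m) (Fin m ⊕ Fin m) F) - 1)) ⊓ LinearMap.range (Matrix.toLin' ((((s : ↥(Cfsg.isometryGroup F (Cfsg.quadFormPlus m F))) : GL (Fin m ⊕ Fin m) F) : Matrix (Fin m ⊕ Fin m) (Fin m ⊕ Fin m) F) - 1)))))) := by
  have hQ := CfsgLib.OrthGeo.isNondegenerateQuadraticForm_quadFormPlus (F := F) m
  have hexc : ¬ (Nat.card F = 2 ∧ Fintype.card (Fin m ⊕ Fin m) = 4) := fun h => by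
    have := h.2; simp only [Fintype.card_sum, Fintype.card_fin] at this; omega
  have ht2 : t * t = 1 := by rw [← sq, ← ht, pow_orderOf_eq_one]
  have hd := CfsgLib.OrthGeo.involution_fixed_dichotomy hQ ht2
  have hneg : ∀ v : Fin m ⊕ Fin m → F,
      ((((t : ↥(Cfsg.isometryGroup F (Cfsg.quadFormPlus m F))) : GL (Fin m ⊕ Fin m) F) :
        Matrix (Fin m ⊕ Fin m) (Fin m ⊕ Fin m) F) - 1).mulVec v =
      v + Matrix.mulVec (((t : ↥(Cfsg.isometryGroup F (Cfsg.quadFormPlus m F))) : GL (Fin m ⊕ Fin m) F) :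
        Matrix (Fin m ⊕ Fin m) (Fin m ⊕ Fin m) F) v := fun v => by
    rw [Matrix.sub_mulVec, Matrix.one_mulVec, sub_eq_add_neg, add_comm, ← neg_one_smul F v, CharTwo.neg_eq,
      one_smul]
  constructor
  · intro hno
    refine CfsgLib.OrthGeo.omega_conj_of_fixed hQ hexc hconj (hd.resolve_right ?_)
    rintro ⟨hsing, hrank⟩
    refine hno ⟨?_, fun v => ?_⟩
    · simp only [Fintype.card_sum, Fintype.card_fin] at hrank; omega
    · rw [← hneg]
      exact hsing _ ⟨v, Matrix.toLin'_apply _ v⟩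
  · rintro ⟨hr, hv⟩
    refine CfsgLib.OrthGeo.omega_conj_iff_of_residual hQ
      (by simp only [Fintype.card_sum, Fintype.card_fin]; omega) hexc htO hconj ?_
      (by simp only [Fintype.card_sum, Fintype.card_fin]; omega)
    rintro _ ⟨v, rfl⟩
    rw [Matrix.toLin'_apply, hneg]
    exact hv v

end Cfsg.Agent.S2172
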