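import Cfsg.Statements.S2173
import Cfsg.Agent.Eq.Def_ClassicalGeometry
import Cfsg.Agent.OrthGeo.InvolutionTwo
import Cfsg.Agent.OrthGeo.Forms

set_option autoImplicit false
open Cfsg

namespace Cfsg.Agent.S2173

/-- For the quadratic form Σ x_i y_i + (z₁² + c z₁ z₂ + d z₂²) in dimension 2m with anisotropic binary part over a finite field F of characteristic two, m ≥ 4 (minus type): two involutions of the commutator subgroup Ω that are conjugate in the full isometry group O are conjugate by an element of Ω (no class of involutions of O inside Ω splits). -/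
theorem result {F : Type*} [Field F] [Fintype F] [CharP F 2] {m : ℕ} (hm : 4 ≤ m) (c d : F) (hcd : ∀ z₁ z₂ : F, z₁ ^ 2 + c * z₁ * z₂ + d * z₂ ^ 2 = 0 → z₁ = 0 ∧ z₂ = 0) (t s : ↥(Cfsg.isometryGroup F (Cfsg.quadFormMinus (m - 1) F c d))) (ht : orderOf t = 2) (hs : orderOf s = 2) (htO : t ∈ Cfsg.Omega F (Cfsg.quadFormMinus (m - 1) F c d)) (hsO : s ∈ Cfsg.Omega F (Cfsg.quadFormMinus (m - 1) F c d)) (hconj : IsConj t s) :
    ∃ g ∈ Cfsg.Omega F (Cfsg.quadFormMinus (m - 1) F c d), g * t * g⁻¹ = s := by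
  have hQ := CfsgLib.OrthGeo.isNondegenerateQuadraticForm_quadFormMinus (m - 1) c d
    (CfsgLib.OrthGeo.discr_ne_zero_of_anisotropic c d hcd)
  have hexc : ¬ (Nat.card F = 2 ∧ Fintype.card ((Fin (m - 1) ⊕ Fin (m - 1)) ⊕ Fin 2) = 4) := fun h => by
    have := h.2; simp only [Fintype.card_sum, Fintype.card_fin] at this; omega
  have ht2 : t * t = 1 := by have h := pow_orderOf_eq_one t; rwa [ht, sq] at h
  refine CfsgLib.OrthGeo.omega_conj_of_fixed hQ hexc hconj
    ((CfsgLib.OrthGeo.involution_fixed_dichotomy hQ ht2).resolve_right ?_)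
  rintro ⟨hsing, hrank⟩
  set R := LinearMap.range (Matrix.toLin' ((((t : ↥(Cfsg.isometryGroup F (Cfsg.quadFormMinus (m - 1) F c d))) :
    GL ((Fin (m - 1) ⊕ Fin (m - 1)) ⊕ Fin 2) F) : Matrix ((Fin (m - 1) ⊕ Fin (m - 1)) ⊕ Fin 2)
    ((Fin (m - 1) ⊕ Fin (m - 1)) ⊕ Fin 2) F) - 1)) with hR
  change 2 * Module.finrank F R = _ at hrank
  set U := LinearMap.ker (LinearMap.funLeft F F
    (Sum.elim (Sum.inl ∘ Sum.inr) Sum.inr : Fin (m - 1) ⊕ Fin 2 → (Fin (m - 1) ⊕ Fin (m - 1)) ⊕ Fin 2)) with hU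
  have hUmem : ∀ v ∈ U, (∀ i, v (.inl (.inr i)) = 0) ∧ ∀ j, v (.inr j) = 0 := fun v hv => by
    rw [hU, LinearMap.mem_ker, funext_iff] at hv
    exact ⟨fun i => hv (.inl i), fun j => hv (.inr j)⟩
  have hUdim : m - 1 ≤ Module.finrank F U := by
    have h1 := LinearMap.finrank_range_add_finrank_ker (LinearMap.funLeft F F
      (Sum.elim (Sum.inl ∘ Sum.inr) Sum.inr : Fin (m - 1) ⊕ Fin 2 → (Fin (m - 1) ⊕ Fin (m - 1)) ⊕ Fin 2))
    have h2 := Submodule.finrank_le (LinearMap.range (LinearMap.funLeft F F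
      (Sum.elim (Sum.inl ∘ Sum.inr) Sum.inr : Fin (m - 1) ⊕ Fin 2 → (Fin (m - 1) ⊕ Fin (m - 1)) ⊕ Fin 2)))
    rw [← hU] at h1
    simp only [Module.finrank_fintype_fun_eq_card, Fintype.card_sum, Fintype.card_fin] at h1 h2
    omega
  simp only [Fintype.card_sum, Fintype.card_fin] at hrank
  have hRm : CfsgLib.OrthGeo.IsMaxTS (Cfsg.quadFormMinus (m - 1) F c d) R :=
    ⟨hsing, by simp only [Fintype.card_sum, Fintype.card_fin]; omega⟩
  -- the hyperbolic half and the residual space would give a singular vector in the anisotropic plane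
  set X := R ⊓ CfsgLib.OrthGeo.perp hQ U with hX
  set T := U ⊔ X with hT
  have hUs : Cfsg.Geo.IsTotallySingularQuad (Cfsg.quadFormMinus (m - 1) F c d) U := fun v hv => by
    obtain ⟨h1, h2⟩ := hUmem v hv
    simp [Cfsg.quadFormMinus, h1, h2]
  have hTs : Cfsg.Geo.IsTotallySingularQuad (Cfsg.quadFormMinus (m - 1) F c d) T := by
    intro v hv
    obtain ⟨a, ha, b, hb, rfl⟩ := Submodule.mem_sup.1 hv
    rw [CfsgLib.OrthGeo.q_add hQ, hUs a ha, hsing b hb.1, hb.2 a ha]
    ring
  have hTdim : m ≤ Module.finrank F T := by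
    have e1 := Submodule.finrank_sup_add_finrank_inf_eq U X
    have e2 := Submodule.finrank_sup_add_finrank_inf_eq U R
    have e3 : CfsgLib.OrthGeo.perp hQ (U ⊔ R) = X := by
      rw [CfsgLib.OrthGeo.perp_sup hQ, hRm.perp_eq hQ, inf_comm]
    have e4 := CfsgLib.OrthGeo.finrank_perp_add hQ (U ⊔ R)
    rw [e3] at e4
    simp only [Fintype.card_sum, Fintype.card_fin] at e4
    have e5 : U ⊓ X = U ⊓ R := by
      rw [hX, ← inf_assoc, inf_eq_left.2]
      exact inf_le_left.trans (CfsgLib.OrthGeo.le_perp_self hQ hUs)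
    rw [e5] at e1
    have eT : Module.finrank F ↥(U ⊔ X) = Module.finrank F T := by rw [hT]
    omega
  -- every vector of `T` is perpendicular to `U`, so its tail is zero
  have hTU : ∀ v ∈ T, v ∈ U := by
    intro v hv
    have hvP : v ∈ CfsgLib.OrthGeo.perp hQ U :=
      (sup_le (CfsgLib.OrthGeo.le_perp_self hQ hUs) inf_le_right : T ≤ _) hv
    have hr : ∀ i, v (.inl (.inr i)) = 0 := by
      intro i
      have he : (Pi.single (.inl (.inl i)) 1 : (Fin (m - 1) ⊕ Fin (m - 1)) ⊕ Fin 2 → F) ∈ U := by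
        rw [hU, LinearMap.mem_ker, funext_iff]
        rintro (j | j) <;> simp [LinearMap.funLeft_apply]
      have h := hvP _ he
      rw [CfsgLib.OrthGeo.bform_apply] at h
      simpa [QuadraticMap.polar, Cfsg.quadFormMinus, Pi.single_apply, add_mul, mul_add, Finset.sum_add_distrib,
        Finset.sum_ite_eq'] using h
    have hq := hTs v hv
    simp only [Cfsg.quadFormMinus, hr, mul_zero, Finset.sum_const_zero, zero_add] at hq
    obtain ⟨z0, z1⟩ := hcd _ _ hq
    rw [hU, LinearMap.mem_ker, funext_iff]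
    rintro (j | j)
    · exact hr j
    · fin_cases j
      · exact z0
      · exact z1
  have hU2 := CfsgLib.OrthGeo.two_mul_finrank_le hQ hUs
  have h3 : Module.finrank F U = m - 1 := by
    refine le_antisymm ?_ hUdim
    have h1 := LinearMap.finrank_range_add_finrank_ker (LinearMap.funLeft F F
      (Sum.elim (Sum.inl ∘ Sum.inr) Sum.inr : Fin (m - 1) ⊕ Fin 2 → (Fin (m - 1) ⊕ Fin (m - 1)) ⊕ Fin 2))
    rw [LinearMap.range_eq_top.2 (LinearMap.funLeft_surjective_of_injective F F _ (by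
      intro a b hab; rcases a with a | a <;> rcases b with b | b <;> simp at hab <;> simp [hab])), finrank_top,
      ← hU] at h1
    simp only [Module.finrank_fintype_fun_eq_card, Fintype.card_sum, Fintype.card_fin] at h1
    omega
  have := Submodule.finrank_mono (show T ≤ U from hTU)
  omega

end Cfsg.Agent.S2173
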