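import Cfsg.Statements.S2175
import Cfsg.Agent.Chevalley.InvSeparate
import Cfsg.Agent.Chevalley.InvDataE6
import Cfsg.Agent.Eq.Def_ChevE6

set_option autoImplicit false
open Cfsg

namespace Cfsg.Agent.S2175

/-- Conjugacy classes of involutions in the Chevalley group of type E₆ over a finite field F of characteristic two (the matrix group generated by the root elements x_r(t)). In this problem's root numbering for type E₆ (the Chevalley data module; fundamental roots numbered so that p₁–p₃–p₄–p₅–p₆ is the long chain of the diagram and p₂ is joined to p₄; roots indexed by their coefficient vectors in increasing order) let r = 71 be the highest root (1,2,2,3,2,1), α = 68 = (1,1,2,2,1,1), β = 66 = (1,1,1,2,2,1), γ = 55 = (0,1,1,2,2,1), δ = 65 = (1,1,1,2,1,1), ε = 67 = (1,1,2,2,1,0) (α ⊥ β and γ, δ, ε pairwise orthogonal); consider x_r(1), x_α(1)x_β(1) and x_γ(1)x_δ(1)x_ε(1). Then: each invertible matrix equal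 to one of these three products lies in the group and has order 2; every element of order 2 of the group is conjugate in the group to one of them; and no two of them are conjugate in the group (so, the three matrices being distinct, the group has exactly three conjugacy classes of involutions). -/
theorem result {F : Type*} [Field F] [Fintype F] [CharP F 2] :
    (∀ y : GL Cfsg.Lie.chevE6.Idx F, ((y : GL Cfsg.Lie.chevE6.Idx F) : Matrix Cfsg.Lie.chevE6.Idx Cfsg.Lie.chevE6.Idx F) ∈ [Cfsg.Lie.chevE6.x F 71 1, Cfsg.Lie.chevE6.x F 68 1 * Cfsg.Lie.chevE6.x F 66 1, Cfsg.Lie.chevE6.x F 55 1 * Cfsg.Lie.chevE6.x F 65 1 * Cfsg.Lie.chevE6.x F 67 1] → y ∈ Cfsg.Lie.chevE6.group F ∧ orderOf y = 2) ∧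
    (∀ g ∈ Cfsg.Lie.chevE6.group F, orderOf g = 2 → ∃ y ∈ Cfsg.Lie.chevE6.group F, ((y : GL Cfsg.Lie.chevE6.Idx F) : Matrix Cfsg.Lie.chevE6.Idx Cfsg.Lie.chevE6.Idx F) ∈ [Cfsg.Lie.chevE6.x F 71 1, Cfsg.Lie.chevE6.x F 68 1 * Cfsg.Lie.chevE6.x F 66 1, Cfsg.Lie.chevE6.x F 55 1 * Cfsg.Lie.chevE6.x F 65 1 * Cfsg.Lie.chevE6.x F 67 1] ∧ ∃ h ∈ Cfsg.Lie.chevE6.group F, h * g * h⁻¹ = y) ∧
    (∀ y₁ ∈ Cfsg.Lie.chevE6.group F, ∀ y₂ ∈ Cfsg.Lie.chevE6.group F, ((y₁ : GL Cfsg.Lie.chevE6.Idx F) : Matrix Cfsg.Lie.chevE6.Idx Cfsg.Lie.chevE6.Idx F) ∈ [Cfsg.Lie.chevE6.x F 71 1, Cfsg.Lie.chevE6.x F 68 1 * Cfsg.Lie.chevE6.x F 66 1, Cfsg.Lie.chevE6.x F 55 1 * Cfsg.Lie.chevE6.x F 65 1 * Cfsg.Lie.chevE6.x F 67 1] → ((y₂ : GL Cfsg.Lie.chevE6.Idx F) : Matrix Cfsg.Lie.chevE6.Idx Cfsg.Lie.chevE6.Idx F) ∈ [Cfsg.Lie.chevE6.x F 71 1, Cfsg.Lie.chevE6.x F 68 1 * Cfsg.Lie.chevE6.x F 66 1, Cfsg.Lie.chevE6.x F 55 1 * Cfsg.Lie.chevE6.x F 65 1 *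 Cfsg.Lie.chevE6.x F 67 1] →
      (∃ h ∈ Cfsg.Lie.chevE6.group F, h * y₁ * h⁻¹ = y₂) → ((y₁ : GL Cfsg.Lie.chevE6.Idx F) : Matrix Cfsg.Lie.chevE6.Idx Cfsg.Lie.chevE6.Idx F) = ((y₂ : GL Cfsg.Lie.chevE6.Idx F) : Matrix Cfsg.Lie.chevE6.Idx Cfsg.Lie.chevE6.Idx F)) := by
  open CfsgLib.Chevalley CfsgLib.Chevalley.InvE6 in
  have hrk : ∀ R ∈ reps, ((sysE6.xProd F R (fun _ => (1 : F)) : Matrix Cfsg.Lie.chevE6.Idx
      Cfsg.Lie.chevE6.Idx F) - 1).rank = [22, 32, 38].getD (reps.idxOf R) 0 := by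
    intro R hR
    simp only [reps, List.mem_cons, List.not_mem_nil, or_false] at hR
    rcases hR with rfl | rfl | rfl
    · rw [sysE6.rank_sub_one F chk_rank0]; rfl
    · rw [sysE6.rank_sub_one F chk_rank1]; rfl
    · rw [sysE6.rank_sub_one F chk_rank2]; rfl
  open CfsgLib.Chevalley CfsgLib.Chevalley.InvE6 in
  exact sysE6.classes_statement F (Ts := states) (E := edges) (L := steps) (reps := reps) chk_inv
    (by decide +kernel) chk_steps chk_cover (by decide +kernel) chk_sq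
    (fun R hR e => by
      have h := hrk R hR
      rw [e, Units.val_one, sub_self, Matrix.rank_zero] at h
      exact absurd h.symm ((show ∀ R ∈ reps, [22, 32, 38].getD (reps.idxOf R) 0 ≠ 0 by decide +kernel) R hR))
    (sysE6.sep_of_rank F _ hrk (by decide +kernel))

end Cfsg.Agent.S2175
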