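import Cfsg.Statements.S2177
import Cfsg.Agent.Chevalley.G2Even
import Cfsg.Agent.Eq.Def_ChevG2

set_option autoImplicit false
open Cfsg

namespace Cfsg.Agent.S2177

/-- Conjugacy classes of involutions in the Chevalley group of type G₂ over a finite field F of characteristic two with at least four elements (the matrix group generated by the root elements x_r(t)). In this problem's root numbering for type G₂ (the Chevalley data module; p₁ = a short, p₂ = b long; roots indexed by coefficient vectors in increasing order) let 11 be the highest root 3a + 2b (long) and 9 the short root 2a + b; consider x_{3a+2b}(1) and x_{2a+b}(1). Then: each invertible matrix equal to one of these two products lies in the group and has order 2; every element of order 2 of the group is conjugate in the group to one of them; and no two of them are conjugate in the group (so, the two matrices being distinct, the group has exactly two conjugacy classes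 of involutions). -/
theorem result {F : Type*} [Field F] [Fintype F] [CharP F 2] (hF : 4 ≤ Fintype.card F) :
    (∀ y : GL Cfsg.Lie.chevG2.Idx F, ((y : GL Cfsg.Lie.chevG2.Idx F) : Matrix Cfsg.Lie.chevG2.Idx Cfsg.Lie.chevG2.Idx F) ∈ [Cfsg.Lie.chevG2.x F 11 1, Cfsg.Lie.chevG2.x F 9 1] → y ∈ Cfsg.Lie.chevG2.group F ∧ orderOf y = 2) ∧
    (∀ g ∈ Cfsg.Lie.chevG2.group F, orderOf g = 2 → ∃ y ∈ Cfsg.Lie.chevG2.group F, ((y : GL Cfsg.Lie.chevG2.Idx F) : Matrix Cfsg.Lie.chevG2.Idx Cfsg.Lie.chevG2.Idx F) ∈ [Cfsg.Lie.chevG2.x F 11 1, Cfsg.Lie.chevG2.x F 9 1] ∧ ∃ h ∈ Cfsg.Lie.chevG2.group F, h * g * h⁻¹ = y) ∧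
    (∀ y₁ ∈ Cfsg.Lie.chevG2.group F, ∀ y₂ ∈ Cfsg.Lie.chevG2.group F, ((y₁ : GL Cfsg.Lie.chevG2.Idx F) : Matrix Cfsg.Lie.chevG2.Idx Cfsg.Lie.chevG2.Idx F) ∈ [Cfsg.Lie.chevG2.x F 11 1, Cfsg.Lie.chevG2.x F 9 1] → ((y₂ : GL Cfsg.Lie.chevG2.Idx F) : Matrix Cfsg.Lie.chevG2.Idx Cfsg.Lie.chevG2.Idx F) ∈ [Cfsg.Lie.chevG2.x F 11 1, Cfsg.Lie.chevG2.x F 9 1] →
      (∃ h ∈ Cfsg.Lie.chevG2.group F, h * y₁ * h⁻¹ = y₂) → ((y₁ : GL Cfsg.Lie.chevG2.Idx F) : Matrix Cfsg.Lie.chevG2.Idx Cfsg.Lie.chevG2.Idx F) = ((y₂ : GL Cfsg.Lie.chevG2.Idx F) : Matrix Cfsg.Lie.chevG2.Idx Cfsg.Lie.chevG2.Idx F)) := by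
  open CfsgLib.Chevalley in
  classical
  have h9 : ∀ y : GL Cfsg.Lie.chevG2.Idx F, (y : Matrix _ _ F) = Cfsg.Lie.chevG2.x F 9 1 →
      y = G2E.xr F 9 1 := fun y h => sysG2.eq_xG F h
  have h11 : ∀ y : GL Cfsg.Lie.chevG2.Idx F, (y : Matrix _ _ F) = Cfsg.Lie.chevG2.x F 11 1 →
      y = G2E.xr F 11 1 := fun y h => sysG2.eq_xG F h
  have hord : ∀ r : ℕ, r < Cfsg.Lie.chevG2.nroots → orderOf (G2E.xr F r 1) = 2 := fun r hr => by
    rw [orderOf_eq_prime_iff]
    refine ⟨?_, fun h => one_ne_zero ((sysG2.xG_eq_one_iff F hr 1).mp h)⟩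
    rw [pow_two, G2E.xr_merge, CharTwo.add_self_eq_zero]
    exact sysG2.xG_zero F r
  refine ⟨fun y hy => ?_, fun g hg h2 => ?_, fun y₁ _ y₂ _ hy₁ hy₂ hc => ?_⟩
  · simp only [List.mem_cons, List.not_mem_nil, or_false] at hy
    rcases hy with h | h
    · rw [h11 y h]
      exact ⟨sysG2.xG_mem F (by decide +kernel) 1, hord 11 (by decide +kernel)⟩
    · rw [h9 y h]
      exact ⟨sysG2.xG_mem F (by decide +kernel) 1, hord 9 (by decide +kernel)⟩
  · obtain ⟨h, hh, e | e⟩ := G2E.isStd_of_orderOf_two F hg h2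
    · exact ⟨G2E.xr F 9 1, sysG2.xG_mem F (by decide +kernel) 1,
        by simp [G2E.xr, sysG2.xG_val], h, hh, e⟩
    · exact ⟨G2E.xr F 11 1, sysG2.xG_mem F (by decide +kernel) 1,
        by simp [G2E.xr, sysG2.xG_val], h, hh, e⟩
  · obtain ⟨h, hh, e⟩ := hc
    simp only [List.mem_cons, List.not_mem_nil, or_false] at hy₁ hy₂
    rcases hy₁ with a | a <;> rcases hy₂ with b | b
    · rw [a, b]
    · rw [h11 _ a, h9 _ b] at e
      exact absurd e (G2E.not_conj_eleven_nine F hh)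
    · rw [h9 _ a, h11 _ b] at e
      refine absurd ?_ (G2E.not_conj_eleven_nine F (inv_mem hh))
      rw [← e]
      group
    · rw [a, b]


end Cfsg.Agent.S2177
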