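import Cfsg.Statements.S2179
import Cfsg.Agent.Chevalley.F4Mixed
import Cfsg.Agent.Eq.Def_ChevF4

set_option autoImplicit false
open Cfsg

namespace Cfsg.Agent.S2179

/-- Centralizers of the two remaining classes of involutions in the Chevalley group G of type F₄ over a finite field F of characteristic two (this problem's root numbering for type F₄, from the Chevalley data module: p₁, p₂ short, p₃, p₄ long with indices 33, 27, 25, 24 and negatives 14, 20, 22, 23; U generated by the positive root subgroups). For an element of G with matrix x_47(1)x_44(1) (highest root times highest short root): its centralizer in G is generated by U, X_{−p₂} and X_{−p₃}. For an element of G with matrix x_39(1)x_45(1) (roots (1,2,2,1) and (2,4,2,1), an orthogonal short/long pair): its centralizer in G is generated by X_{p₁}, X_{−p₁}, X_{p₄}, X_{−p₄} and the root subgroups of all positive roots other than p₂ (27), p₃ (25), p₁ + p₂ (34) and p₃ + p₄ (26). -/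
theorem result {F : Type*} [Field F] [Fintype F] [CharP F 2] (w v : GL Cfsg.Lie.chevF4.Idx F) (hw : (w : Matrix Cfsg.Lie.chevF4.Idx Cfsg.Lie.chevF4.Idx F) = Cfsg.Lie.chevF4.x F 47 1 * Cfsg.Lie.chevF4.x F 44 1) (hv : (v : Matrix Cfsg.Lie.chevF4.Idx Cfsg.Lie.chevF4.Idx F) = Cfsg.Lie.chevF4.x F 39 1 * Cfsg.Lie.chevF4.x F 45 1) :
    Cfsg.Lie.chevF4.group F ⊓ Subgroup.centralizer {w} = Cfsg.Lie.chevF4.posUnipotent F ⊔ Cfsg.Lie.chevF4.rootSubgroup F 20 ⊔ Cfsg.Lie.chevF4.rootSubgroup F 22 ∧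
    Cfsg.Lie.chevF4.group F ⊓ Subgroup.centralizer {v} = Cfsg.Lie.chevF4.rootSubgroup F 33 ⊔ Cfsg.Lie.chevF4.rootSubgroup F 14 ⊔ Cfsg.Lie.chevF4.rootSubgroup F 24 ⊔ Cfsg.Lie.chevF4.rootSubgroup F 23 ⊔
      Subgroup.closure {g : GL Cfsg.Lie.chevF4.Idx F | ∃ (r : ℕ) (c : F), Cfsg.Lie.chevF4.IsPosRoot r ∧ r ∉ [27, 25, 34, 26] ∧ (g : Matrix Cfsg.Lie.chevF4.Idx Cfsg.Lie.chevF4.Idx F) = Cfsg.Lie.chevF4.x F r c} := by
  open CfsgLib.Chevalley in
  obtain rfl : w = sysF4.xG F 47 1 * sysF4.xG F 44 1 :=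
    Units.ext (by rw [hw, Units.val_mul, sysF4.xG_val, sysF4.xG_val])
  open CfsgLib.Chevalley in
  obtain rfl : v = sysF4.xG F 39 1 * sysF4.xG F 45 1 :=
    Units.ext (by rw [hv, Units.val_mul, sysF4.xG_val, sysF4.xG_val])
  exact ⟨CfsgLib.Chevalley.F4E.centralizer_mixed F, CfsgLib.Chevalley.F4E.centralizer_pair F⟩

end Cfsg.Agent.S2179
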