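import Cfsg.Statements.S2180
import Cfsg.Agent.Chevalley.G2Even
import Cfsg.Agent.Chevalley.HighData
import Cfsg.Agent.Eq.Def_ChevG2

set_option autoImplicit false
open Cfsg

namespace Cfsg.Agent.S2180

/-- Centralizers of involutions in the Chevalley group G of type G₂ over a finite field F of characteristic two with at least four elements (this problem's root numbering for type G₂, from the Chevalley data module: a = p₁ short with index 7, b = p₂ long with index 6, −a = 4, −b = 5, 2a + b = 9, 3a + b = 10, 3a + 2b = 11; U generated by the positive root subgroups). For an element z of G with matrix x_{3a+2b}(1): the centralizer of z in G is generated by U and X_{−a}. For an element t of G with matrix x_{2a+b}(1): the centralizer of t in G is generated by X_{2a+b}, X_{3a+b}, X_{3a+2b}, X_b and X_{−b}. -/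
theorem result {F : Type*} [Field F] [Fintype F] [CharP F 2] (hF : 4 ≤ Fintype.card F) (z t : GL Cfsg.Lie.chevG2.Idx F) (hz : (z : Matrix Cfsg.Lie.chevG2.Idx Cfsg.Lie.chevG2.Idx F) = Cfsg.Lie.chevG2.x F 11 1) (ht : (t : Matrix Cfsg.Lie.chevG2.Idx Cfsg.Lie.chevG2.Idx F) = Cfsg.Lie.chevG2.x F 9 1) :
    Cfsg.Lie.chevG2.group F ⊓ Subgroup.centralizer {z} = Cfsg.Lie.chevG2.posUnipotent F ⊔ Cfsg.Lie.chevG2.rootSubgroup F 4 ∧
    Cfsg.Lie.chevG2.group F ⊓ Subgroup.centralizer {t} = Cfsg.Lie.chevG2.rootSubgroup F 9 ⊔ Cfsg.Lie.chevG2.rootSubgroup F 10 ⊔ Cfsg.Lie.chevG2.rootSubgroup F 11 ⊔ Cfsg.Lie.chevG2.rootSubgroup F 6 ⊔ Cfsg.Lie.chevG2.rootSubgroup F 5 := by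
  open CfsgLib.Chevalley in
  classical
  obtain rfl : z = G2E.xr F 11 1 := sysG2.eq_xG F hz
  obtain rfl : t = G2E.xr F 9 1 := sysG2.eq_xG F ht
  refine ⟨?_, G2E.centralizer_nine F⟩
  have h := sysG2.centralizer_top F (highFacts_of_chk checkedG2 (T := tabG2) (by decide +kernel))
    (lst := [4]) (by decide +kernel)
  rw [show topIdx Cfsg.Lie.chevG2 = 11 by decide +kernel] at h
  refine h.trans ?_
  rw [Sys.centSub, Cfsg.Lie.ChevalleyDatum.rootSubgroup]
  congr 2
  ext g
  simp


end Cfsg.Agent.S2180
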