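import Cfsg.Statements.S2181
import Cfsg.Agent.Chevalley.InvSeparate
import Cfsg.Agent.Chevalley.InvDataE7
import Cfsg.Agent.Eq.Def_ChevE7

set_option autoImplicit false
open Cfsg

namespace Cfsg.Agent.S2181

/-- The Chevalley group of type E₇ over a finite field of characteristic two (the matrix group generated by the root elements) has exactly five conjugacy classes of elements of order 2. -/
theorem result {F : Type*} [Field F] [Fintype F] [CharP F 2] :
    (ConjClasses.mk '' {g : ↥(Cfsg.Lie.chevE7.group F) | orderOf g = 2}).ncard = 5 := by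
  open CfsgLib.Chevalley CfsgLib.Chevalley.InvE7 in
  classical
  have hlt : ∀ R ∈ reps, ∀ r ∈ R, r < Cfsg.Lie.chevE7.nroots := by decide +kernel
  have hrk : ∀ R ∈ reps, ((sysE7.xProd F R (fun _ => (1 : F)) : Matrix Cfsg.Lie.chevE7.Idx
      Cfsg.Lie.chevE7.Idx F) - 1).rank = [34, 52, 62, 53, 63].getD (reps.idxOf R) 0 := by
    intro R hR
    simp only [reps, List.mem_cons, List.not_mem_nil, or_false] at hR
    rcases hR with rfl | rfl | rfl | rfl | rfl
    · rw [sysE7.rank_sub_one F chk_rank0]; rfl
    · rw [sysE7.rank_sub_one F chk_rank1]; rfl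
    · rw [sysE7.rank_sub_one F chk_rank2]; rfl
    · rw [sysE7.rank_sub_one F chk_rank3]; rfl
    · rw [sysE7.rank_sub_one F chk_rank4]; rfl
  have hsep := sysE7.sep_of_rank F _ hrk (by decide +kernel)
  have hne : ∀ R ∈ reps, sysE7.xProd F R (fun _ => (1 : F)) ≠ 1 := fun R hR e => by
    have h := hrk R hR
    rw [e, Units.val_one, sub_self, Matrix.rank_zero] at h
    exact absurd h.symm ((show ∀ R ∈ reps, [34, 52, 62, 53, 63].getD (reps.idxOf R) 0 ≠ 0
      by decide +kernel) R hR)
  let el : Fin reps.length → ↥(Cfsg.Lie.chevE7.group F) := fun k =>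
    ⟨sysE7.xProd F (reps.get k) (fun _ => 1),
      sysE7.xProd_mem_group F (hlt _ (List.get_mem reps k)) _⟩
  have him : ConjClasses.mk '' {g : ↥(Cfsg.Lie.chevE7.group F) | orderOf g = 2} =
      Set.range fun k => ConjClasses.mk (el k) := by
    ext C
    constructor
    · rintro ⟨g, hg, rfl⟩
      obtain ⟨R, hR, h, hh, e⟩ := sysE7.exists_rep F (Ts := states) (E := edges) (L := steps)
        (reps := reps) chk_inv (by decide +kernel) chk_steps chk_cover g.2
        (by rw [Subgroup.orderOf_coe]; exact hg)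
      obtain ⟨k, rfl⟩ := List.mem_iff_get.mp hR
      exact ⟨k, (ConjClasses.mk_eq_mk_iff_isConj.mpr
        (isConj_iff.mpr ⟨⟨h, hh⟩, Subtype.ext e⟩)).symm⟩
    · rintro ⟨k, rfl⟩
      refine ⟨el k, ?_, rfl⟩
      show orderOf (el k) = 2
      rw [← Subgroup.orderOf_coe]
      exact sysE7.orderOf_xProd F (chk_sq _ (List.get_mem reps k)) (hne _ (List.get_mem reps k))
  rw [him, Set.ncard_range_of_injective]
  · simp [reps]
  · intro a b hab
    obtain ⟨h, e⟩ := isConj_iff.mp (ConjClasses.mk_eq_mk_iff_isConj.mp hab)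
    have := hsep _ (List.get_mem reps a) _ (List.get_mem reps b) h h.2 (congrArg Subtype.val e)
    exact (show reps.Nodup by decide +kernel).get_inj_iff.mp this

end Cfsg.Agent.S2181
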