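import Cfsg.Statements.S2183
import Cfsg.Agent.TwistedLie.D4EvenInvolution
import Cfsg.Agent.TwistedLie.D4EvenRank

set_option autoImplicit false
open Cfsg

namespace Cfsg.Agent.S2183

/-- The twisted group ³D₄(q), q even, realised inside the Chevalley group of type D₄ over the field K with q³ elements, has exactly two conjugacy classes of elements of order 2. -/
theorem result {K : Type*} [Field K] [Fintype K] [CharP K 2] (q : ℕ) (hK : Fintype.card K = q ^ 3) :
    (ConjClasses.mk '' {g : ↥(Cfsg.Lie.twistedD4 K q) | orderOf g = 2}).ncard = 2 := by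
  classical
  haveI : Fact (Nat.Prime 2) := ⟨Nat.prime_two⟩
  have hq : IsPrimePow q := by
    have h : IsPrimePow (Fintype.card K) := FiniteField.isPrimePow_card K
    rw [hK] at h
    exact (isPrimePow_pow_iff three_ne_zero).mp h
  have hS := CfsgLib.TwistedLie.D4E.shortInv_mem hq hK
  have hL := CfsgLib.TwistedLie.D4E.longInv_mem hq hK
  set S : ↥(Cfsg.Lie.twistedD4 K q) := ⟨_, hS⟩
  set L : ↥(Cfsg.Lie.twistedD4 K q) := ⟨_, hL⟩
  have hne : ConjClasses.mk S ≠ ConjClasses.mk L := by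
    intro h
    obtain ⟨c, hc⟩ := isConj_iff.mp (ConjClasses.mk_eq_mk_iff_isConj.mp h.symm)
    refine CfsgLib.TwistedLie.D4E.not_conj_long_short K (c : GL Cfsg.Lie.chevD4.Idx K) ?_
    exact congrArg Subtype.val hc
  have hord : ∀ (w : ↥(Cfsg.Lie.twistedD4 K q)), (w : GL Cfsg.Lie.chevD4.Idx K) *
      (w : GL Cfsg.Lie.chevD4.Idx K) = 1 → w ≠ 1 → orderOf w = 2 := fun w h1 h2 =>
    orderOf_eq_prime (by rw [pow_two]; exact Subtype.ext h1) h2
  have hsqS : CfsgLib.TwistedLie.D4E.shortInv K * CfsgLib.TwistedLie.D4E.shortInv K = 1 := by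
    rw [CfsgLib.TwistedLie.D4E.shortInv, CfsgLib.TwistedLie.D4E.uD_mul,
      ← CfsgLib.TwistedLie.D4E.uD_zero K]
    simp [CharTwo.add_self_eq_zero]
  have hsqL : CfsgLib.TwistedLie.D4E.longInv K * CfsgLib.TwistedLie.D4E.longInv K = 1 := by
    rw [CfsgLib.TwistedLie.D4E.longInv, CfsgLib.TwistedLie.D4E.uD_mul,
      ← CfsgLib.TwistedLie.D4E.uD_zero K]
    simp [CharTwo.add_self_eq_zero]
  have hS1 : S ≠ 1 := by
    intro h
    have h' : CfsgLib.TwistedLie.D4E.shortInv K = 1 := congrArg Subtype.val h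
    rw [CfsgLib.TwistedLie.D4E.shortInv, ← CfsgLib.TwistedLie.D4E.uD_zero K] at h'
    exact one_ne_zero (CfsgLib.TwistedLie.D4E.uD_inj K h').2.2.2.2.2.2.2.1
  have hL1 : L ≠ 1 := by
    intro h
    have h' : CfsgLib.TwistedLie.D4E.longInv K = 1 := congrArg Subtype.val h
    rw [CfsgLib.TwistedLie.D4E.longInv, ← CfsgLib.TwistedLie.D4E.uD_zero K] at h'
    exact one_ne_zero (CfsgLib.TwistedLie.D4E.uD_inj K h').2.2.2.2.2.2.2.2.2.2.2
  have hset : ConjClasses.mk '' {g : ↥(Cfsg.Lie.twistedD4 K q) | orderOf g = 2} =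
      {ConjClasses.mk S, ConjClasses.mk L} := by
    ext x
    constructor
    · rintro ⟨g, hg, rfl⟩
      have h2 : orderOf (g : GL Cfsg.Lie.chevD4.Idx K) = 2 := by
        rw [Subgroup.orderOf_coe]; exact hg
      rcases CfsgLib.TwistedLie.D4E.std_of_orderOf_two hq hK g.2 h2 with ⟨x, hx, h⟩ | ⟨x, hx, h⟩
      · exact Or.inl (ConjClasses.mk_eq_mk_iff_isConj.mpr
          (isConj_iff.mpr ⟨⟨x, hx⟩, Subtype.ext h⟩))
      · exact Or.inr (ConjClasses.mk_eq_mk_iff_isConj.mpr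
          (isConj_iff.mpr ⟨⟨x, hx⟩, Subtype.ext h⟩))
    · rintro (rfl | rfl)
      · exact ⟨S, hord S hsqS hS1, rfl⟩
      · exact ⟨L, hord L hsqL hL1, rfl⟩
  rw [hset, Set.ncard_pair hne]

end Cfsg.Agent.S2183
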