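import Cfsg.Statements.S2192
import Cfsg.Agent.TwistedLie.D4Subfield65

set_option autoImplicit false
open Cfsg

namespace Cfsg.Agent.S2192

/-- In the twisted group ³D₄(q), realised inside the Chevalley group of type D₄ over the field K with q³ elements (q a power of the characteristic) as the subgroup generated by the root elements, and products of root elements, that the twisting map fixes, the subgroup of matrices all of whose entries lie in the subfield with q elements (it contains the subgroup of type G₂ over that subfield) is a proper maximal subgroup. -/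
theorem result {K : Type*} [Field K] [Fintype K] (p : ℕ) [Fact p.Prime] [CharP K p] (q : ℕ) (hq : ∃ a : ℕ, 1 ≤ a ∧ q = p ^ a) (hK : Fintype.card K = q ^ 3) (M : Subgroup (GL Cfsg.Lie.chevD4.Idx K))
    (hM : ∀ g : GL Cfsg.Lie.chevD4.Idx K, g ∈ M ↔ g ∈ Cfsg.Lie.twistedD4 K q ∧ ∀ i j : Cfsg.Lie.chevD4.Idx, ((g : Matrix Cfsg.Lie.chevD4.Idx Cfsg.Lie.chevD4.Idx K) i j) ^ q = (g : Matrix Cfsg.Lie.chevD4.Idx Cfsg.Lie.chevD4.Idx K) i j) :
    M ≠ Cfsg.Lie.twistedD4 K q ∧ ∀ H : Subgroup (GL Cfsg.Lie.chevD4.Idx K), M ≤ H → H ≤ Cfsg.Lie.twistedD4 K q → H = M ∨ H = Cfsg.Lie.twistedD4 K q := by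
  obtain ⟨a, ha, rfl⟩ := hq
  exact CfsgLib.TwistedLie.D4.Subfield65.maximal
    ((Fact.out : p.Prime).prime.isPrimePow.pow (by omega)) hK M hM

end Cfsg.Agent.S2192
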