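import Cfsg.Statements.S2205
import Cfsg.Agent.TwoTransSquarePlusOne.Final
import Cfsg.Agent.PermGroups.NormalSubgroup

/-!
A doubly transitive group of degree `p ^ 2 + 1` is doubly primitive, or has order `20`.
-/

set_option autoImplicit false
set_option linter.style.haveILetI false
open Cfsg

namespace Cfsg.Agent.S2205

open MulAction CfsgLib.TwoTransSquare
open scoped Pointwise

/-- A finite group acting faithfully and 2-transitively on a set with p² + 1 points, p a prime, is doubly primitive — a point stabilizer acts primitively on the remaining p² points — unless p = 2 and the group is the Frobenius group of order 20. -/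
theorem result {G Ω : Type*} [Group G] [Finite G] [Fintype Ω] [MulAction G Ω] [FaithfulSMul G Ω] (p : ℕ) (hp : p.Prime) (hΩ : Fintype.card Ω = p ^ 2 + 1) (h2 : MulAction.IsMultiplyPretransitive G Ω 2) (a : Ω) :
    MulAction.IsPreprimitive ↥(MulAction.stabilizer G a) ↥(SubMulAction.ofStabilizer G a) ∨ (p = 2 ∧ Nat.card G = 20) := by
  classical
  haveI := Fact.mk hp
  have hΩ' : Nat.card Ω = p ^ 2 + 1 := by rw [Nat.card_eq_fintype_card, hΩ]
  have hpair : ∀ {x y z w : Ω}, x ≠ y → z ≠ w → ∃ g : G, g • x = z ∧ g • y = w :=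
    fun hxy hzw => exists_smul_pair h2 hxy hzw
  haveI htG : IsPretransitive G Ω := by
    haveI := h2; exact MulAction.isPretransitive_of_is_two_pretransitive
  haveI htr : IsPretransitive (stabilizer G a) (SubMulAction.ofStabilizer G a) :=
    ⟨fun x y => by
      obtain ⟨g, hga, hgx⟩ := hpair (Ne.symm x.2) (Ne.symm y.2)
      exact ⟨⟨g, hga⟩, Subtype.ext hgx⟩⟩
  by_cases hprim : IsPreprimitive (stabilizer G a) (SubMulAction.ofStabilizer G a)
  · exact Or.inl hprim
  right
  have hcardA : Nat.card (SubMulAction.ofStabilizer G a) = p ^ 2 := by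
    have h := CfsgLib.PermGroups.card_ofStabilizer (G := G) a
    omega
  obtain ⟨b, hab⟩ : ∃ b : Ω, b ≠ a := by
    haveI : Nonempty (SubMulAction.ofStabilizer G a) :=
      (Nat.card_pos_iff.1 (hcardA ▸ pow_pos hp.pos 2)).1
    exact ⟨(Classical.arbitrary (SubMulAction.ofStabilizer G a) : Ω),
      (Classical.arbitrary (SubMulAction.ofStabilizer G a)).2⟩
  obtain ⟨B₀, hbB, hB, hBnt⟩ : ∃ B₀ : Set (SubMulAction.ofStabilizer G a),
      (⟨b, hab⟩ : SubMulAction.ofStabilizer G a) ∈ B₀ ∧
        IsBlock (stabilizer G a) B₀ ∧ ¬ IsTrivialBlock B₀ := by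
    by_contra hh
    push Not at hh
    exact hprim (IsPreprimitive.of_isTrivialBlock_base
      (⟨b, hab⟩ : SubMulAction.ofStabilizer G a) fun {B} h1 h2 => hh B h1 h2)
  have hr : B₀.ncard = p := by
    have hd := hB.ncard_dvd_card ⟨_, hbB⟩
    rw [hcardA] at hd
    obtain ⟨i, hi, hie⟩ := (Nat.dvd_prime_pow hp).1 hd
    interval_cases i
    · refine absurd (Or.inl ((Set.ncard_le_one_iff_subsingleton).1 ?_)) hBnt
      rw [hie, pow_zero]
    · rw [hie, pow_one]
    · refine absurd (Or.inr ?_) hBnt
      exact Set.eq_of_subset_of_ncard_le (Set.subset_univ _)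
        (by rw [Set.ncard_univ, hcardA, hie]) (Set.toFinite _)
  set B : Set Ω := Subtype.val '' B₀ with hBdef
  have hBa : ∀ z ∈ B, z ≠ a := by rintro _ ⟨z, -, rfl⟩; exact z.2
  have hBcard : B.ncard = p := by
    rw [hBdef, Set.ncard_image_of_injective _ Subtype.val_injective, hr]
  have hbB' : b ∈ B := ⟨_, hbB, rfl⟩
  -- translates that meet are equal
  have hblock : ∀ g : G, g • a = a → ∀ z ∈ B, g • z ∈ B → ∀ w ∈ B, g • w ∈ B := by
    rintro g hga _ ⟨z, hz, rfl⟩ hgz _ ⟨w, hw, rfl⟩
    obtain ⟨z', hz', hzz⟩ := hgz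
    have hne : (((⟨g, hga⟩ : stabilizer G a) • B₀) ∩ B₀).Nonempty :=
      ⟨z', ⟨z, hz, Subtype.ext hzz.symm⟩, hz'⟩
    rcases hB.smul_eq_or_disjoint (⟨g, hga⟩ : stabilizer G a) with h | h
    · exact ⟨(⟨g, hga⟩ : stabilizer G a) • w, h ▸ Set.smul_mem_smul_set hw, rfl⟩
    · exact absurd hne (Set.not_nonempty_iff_eq_empty.2 h.inter_eq)
  by_cases hp2 : p = 2
  · subst hp2
    refine ⟨rfl, ?_⟩
    have hH : ∀ g : G, g • a = a → g • b = b → g ^ 3 = 1 → g = 1 := by
      intro g hga hgb hg3
      obtain ⟨c, hc, hcb⟩ := Set.exists_ne_of_one_lt_ncard (by rw [hBcard]; norm_num) b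
      have hgc : g • c ∈ B := hblock g hga b hbB' (by rw [hgb]; exact hbB') c hc
      have hgc' : g • c = c := by
        by_contra hne
        have hne' : g • c ≠ b := fun e => hcb (MulAction.injective g (e.trans hgb.symm))
        have : ({b, c, g • c} : Set Ω) ⊆ B := by
          rintro z (rfl | rfl | rfl)
          exacts [hbB', hc, hgc]
        have h3 := Set.ncard_le_ncard this (Set.toFinite _)
        rw [Set.ncard_insert_of_notMem (by simp [hcb.symm, hne'.symm]), Set.ncard_pair (Ne.symm hne),
          hBcard] at h3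
        omega
      refine FaithfulSMul.eq_of_smul_eq_smul (α := Ω) fun z => ?_
      rw [one_smul]
      by_cases hz : z ∈ ({a, b, c} : Set Ω)
      · rcases hz with rfl | rfl | rfl
        exacts [hga, hgb, hgc']
      haveI : Fact (Nat.Prime 3) := ⟨Nat.prime_three⟩
      refine smul_eq_of_pow_of_small (p := 3) (k := 1) (S := ({a, b, c} : Set Ω)ᶜ)
        (by rwa [pow_one]) (fun w hw hgw => hw ?_) ?_ hz
      · rcases hgw with e | e | e
        · exact Or.inl (MulAction.injective g (e.trans hga.symm))
        · exact Or.inr (Or.inl (MulAction.injective g (e.trans hgb.symm)))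
        · exact Or.inr (Or.inr (MulAction.injective g ((Set.mem_singleton_iff.1 e).trans hgc'.symm)))
      · rw [Set.ncard_compl, hΩ', Set.ncard_insert_of_notMem
          (by simp [hab.symm, (hBa c hc).symm]), Set.ncard_pair hcb.symm]
        norm_num
    have hGa := CfsgLib.PermGroups.card_mul_card_stabilizer (G := G) a
    have hGab := CfsgLib.PermGroups.card_mul_card_stabilizer (G := stabilizer G a)
      (⟨b, hab⟩ : SubMulAction.ofStabilizer G a)
    rw [hcardA] at hGab
    rw [hΩ'] at hGa
    set h := Nat.card (stabilizer (stabilizer G a) (⟨b, hab⟩ : SubMulAction.ofStabilizer G a))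
      with hh
    have h3 : ¬ 3 ∣ h := by
      intro hd
      haveI : Fact (Nat.Prime 3) := ⟨Nat.prime_three⟩
      obtain ⟨g, hg⟩ := exists_prime_orderOf_dvd_card' 3 hd
      have h1 := hH ((g : stabilizer G a) : G) g.1.2 (congrArg Subtype.val g.2)
        (by
          have := pow_orderOf_eq_one g
          rw [hg] at this
          exact congrArg (fun x : stabilizer (stabilizer G a) _ => ((x : stabilizer G a) : G)) this)
      rw [show g = 1 from Subtype.ext (Subtype.ext h1), orderOf_one] at hg
      norm_num at hg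
    have hG : Nat.card G = 20 * h := by rw [← hGa, ← hGab]; ring
    have hdvd : Nat.card G ∣ 120 := by
      have := CfsgLib.PermGroups.card_dvd_factorial (G := G) (X := Ω)
      rw [hΩ'] at this
      exact this
    rw [hG, show 120 = 20 * 6 by norm_num] at hdvd
    have h6 : h ∣ 6 := Nat.dvd_of_mul_dvd_mul_left (by norm_num) hdvd
    have hle : h ≤ 6 := Nat.le_of_dvd (by norm_num) h6
    have h12 : h = 1 ∨ h = 2 := by
      interval_cases h <;> omega
    rcases h12 with e | e
    · rw [hG, e]
    · exfalso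
      haveI : Fact (Nat.Prime 5) := ⟨by norm_num⟩
      have hX : Nat.card Ω = 5 := by rw [hΩ']; norm_num
      obtain ⟨P⟩ : Nonempty (Sylow 5 G) := inferInstance
      have hPc := CfsgLib.PermGroups.card_sylow_prime_degree hX P
      have hidx : (P : Subgroup G).index = 8 := by
        have := Subgroup.card_mul_index (P : Subgroup G)
        rw [hPc, hG, e] at this
        omega
      have hn : Nat.card (Sylow 5 G) = 1 := by
        have h1 : Nat.card (Sylow 5 G) ∣ 8 := hidx ▸ P.card_dvd_index
        have h2 := card_sylow_modEq_one 5 G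
        have h3 := Nat.le_of_dvd (by norm_num) h1
        unfold Nat.ModEq at h2
        interval_cases Nat.card (Sylow 5 G) <;> omega
      have hnorm : Subgroup.normalizer ((P : Subgroup G) : Set G) = ⊤ := by
        rw [← Subgroup.index_eq_one]
        exact (Sylow.card_eq_index_normalizer P).symm.trans hn
      obtain ⟨d, hd, hdc⟩ := CfsgLib.PermGroups.exists_card_normalizer_sylow hX P
      rw [hnorm, Subgroup.card_top, hG, e] at hdc
      have := Nat.le_of_dvd (by norm_num) hd
      omega
  · exfalso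
    have C : Ctx G Ω p := ⟨hp2, hΩ', h2⟩
    let E : Ω → Ω → Prop := fun y z => ∃ g : G, g • a = a ∧ g • y ∈ B ∧ g • z ∈ B
    have hEne : ∀ {y z}, E y z → y ≠ a ∧ z ≠ a := by
      rintro y z ⟨g, hga, hy, hz⟩
      exact ⟨fun e => hBa _ hy (by rw [e, hga]), fun e => hBa _ hz (by rw [e, hga])⟩
    have hEtrans : ∀ {y z w}, E y z → E z w → E y w := by
      rintro y z w ⟨g, hga, hy, hz⟩ ⟨k, hka, hz', hw⟩
      refine ⟨k, hka, ?_, hw⟩
      have := hblock (k * g⁻¹) (by rw [mul_smul, inv_smul_eq_iff.2 hga.symm, hka]) (g • z) hz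
        (by rw [mul_smul, inv_smul_smul]; exact hz') (g • y) hy
      rwa [mul_smul, inv_smul_smul] at this
    have hto : ∀ {y}, y ≠ a → ∃ g : G, g • a = a ∧ g • y = b := by
      intro y hy
      obtain ⟨g, hga, hgy⟩ := hpair (Ne.symm hy) hab.symm
      exact ⟨g, hga, hgy⟩
    let S : Sys G Ω p := Sys.ofBase C a E hEne
      (fun {y} hy => by
        obtain ⟨g, hga, hgy⟩ := hto hy
        exact ⟨g, hga, hgy ▸ hbB', hgy ▸ hbB'⟩)
      (fun {y z} h => by
        obtain ⟨g, hga, hy, hz⟩ := h
        exact ⟨g, hga, hz, hy⟩)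
      hEtrans
      (fun k hk {y z} h => by
        obtain ⟨g, hga, hy, hz⟩ := h
        exact ⟨g * k⁻¹, by rw [mul_smul, inv_smul_eq_iff.2 hk.symm, hga],
          by rwa [mul_smul, inv_smul_smul], by rwa [mul_smul, inv_smul_smul]⟩)
      (fun {y} hy => by
        obtain ⟨g, hga, hgy⟩ := hto hy
        rw [← hBcard, ← Set.ncard_image_of_injective B (MulAction.injective g⁻¹)]
        congr 1
        ext z
        constructor
        · rintro ⟨k, hka, hky, hkz⟩
          refine ⟨g • z, ?_, inv_smul_smul _ _⟩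
          have := hblock (g * k⁻¹) (by rw [mul_smul, inv_smul_eq_iff.2 hka.symm, hga]) (k • y) hky
            (by rw [mul_smul, inv_smul_smul, hgy]; exact hbB') (k • z) hkz
          rwa [mul_smul, inv_smul_smul] at this
        · rintro ⟨w, hw, rfl⟩
          exact ⟨g, hga, hgy ▸ hbB', by rwa [smul_inv_smul]⟩)
    exact S.false_of_sys C

end Cfsg.Agent.S2205
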