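import Cfsg.Statements.S2214
import Cfsg.Agent.ChevField.Fixed
import Cfsg.Agent.Chevalley.All

set_option autoImplicit false
open Cfsg

namespace Cfsg.Agent.S2214

open Cfsg.Lie CfsgLib.Chevalley CfsgLib.ChevField

/-- An element fixed by `σ` conjugates into itself every intermediate subgroup. -/
theorem conj_mem_of_fixed {D : ChevalleyDatum} (S : Sys D) {E F : Type*} [Field E] [Field F]
    (f : E →+* F) (σ : F →+* F) (hf : ∀ x, σ x = x ↔ ∃ y, f y = x) (K : Subgroup (GL D.Idx F))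
    (hKG : K ≤ D.group F) (hLK : ∀ r < D.nroots, ∀ y, S.xG F r (f y) ∈ K)
    (hKfix : ∀ g ∈ K, gmap D σ g = g) {g : GL D.Idx F} (hg : g ∈ D.group F)
    (hσ : gmap D σ g = g) {k : GL D.Idx F} (hk : k ∈ K) : g * k * g⁻¹ ∈ K := by
  have hfix : ∀ x, σ x = x → ∃ y, f y = x := fun x hx => (hf x).1 hx
  have hle : (D.group E).map (gmap D f) ≤ K := by
    rw [map_group S, Subgroup.closure_le]
    rintro _ ⟨r, hr, y, rfl⟩
    exact hLK r hr y
  obtain ⟨a, ha, c, hc, b, hb, rfl⟩ := exists_fixed_decomp S f σ hfix hg hσ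
  have hk1 : b * k * b⁻¹ ∈ K := mul_mem (mul_mem (hle hb) hk) (inv_mem (hle hb))
  obtain ⟨a1, ha1, c1, hc1, b1, hb1, e1⟩ :=
    exists_fixed_decomp S f σ hfix (hKG hk1) (hKfix _ hk1)
  have hnorm : ∀ z ∈ (D.group E).map (gmap D f),
      tor D F c * z * (tor D F c)⁻¹ ∈ (D.group E).map (gmap D f) := by
    rw [map_group S]
    intro z hz
    refine closure_conj_mem ?_ hz
    rintro _ ⟨r, hr, y, rfl⟩
    obtain ⟨y', hy'⟩ := hfix _ (torusVal_fixed S σ c hc hr)
    rw [S.tor_conj F c hr, ← hy', ← map_mul]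
    exact Subgroup.subset_closure ⟨r, hr, _, rfl⟩
  have ht1 : tor D F c1 ∈ K := by
    have : tor D F c1 = a1⁻¹ * (b * k * b⁻¹) * b1⁻¹ := by rw [e1]; group
    rw [this]
    exact mul_mem (mul_mem (inv_mem (hle ha1)) hk1) (inv_mem (hle hb1))
  have hcomm : tor D F c * tor D F c1 * (tor D F c)⁻¹ = tor D F c1 := by
    rw [← map_mul, mul_comm, map_mul, mul_inv_cancel_right]
  have e : a * tor D F c * b * k * (a * tor D F c * b)⁻¹ =
      a * ((tor D F c * a1 * (tor D F c)⁻¹) * (tor D F c * tor D F c1 * (tor D F c)⁻¹) *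
        (tor D F c * b1 * (tor D F c)⁻¹)) * a⁻¹ := by
    calc _ = a * (tor D F c * (b * k * b⁻¹) * (tor D F c)⁻¹) * a⁻¹ := by group
      _ = _ := by rw [e1]; group
  rw [e, hcomm]
  exact mul_mem (mul_mem (hle ha)
    (mul_mem (mul_mem (hle (hnorm _ ha1)) ht1) (hle (hnorm _ hb1)))) (inv_mem (hle ha))

/-- Let k be an algebraically closed field of prime characteristic p, G the adjoint Chevalley group of type G₂, B₂, D₄, F₄, E₆, E₇ or E₈ over k (the matrix group generated by the root elements x_s(t), t ∈ k, acting on the Lie algebra), q = p^a with a ≥ 1, and K a subgroup of G containing every root element x_s(t) with t^q = t and consisting of matrices all of whose entries c satisfy c^q = c. Then the centralizer of K in G is trivial, and the normalizer of K in G is exactly the set of elements of G all of whose entries c satisfy c^q = c. -/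
theorem result {k : Type*} [Field k] [IsAlgClosed k] (p : ℕ) [Fact p.Prime] [CharP k p] (D : Cfsg.Lie.ChevalleyDatum) (hD : D ∈ [Cfsg.Lie.chevG2, Cfsg.Lie.chevB2, Cfsg.Lie.chevD4, Cfsg.Lie.chevF4, Cfsg.Lie.chevE6, Cfsg.Lie.chevE7, Cfsg.Lie.chevE8]) (a : ℕ) (ha : 1 ≤ a) (K : Subgroup (GL D.Idx k)) (hKG : K ≤ D.group k)
    (hLK : Subgroup.closure {g : GL D.Idx k | ∃ (s : ℕ) (t : k), t ^ (p ^ a) = t ∧ (g : Matrix D.Idx D.Idx k) = D.x k s t} ≤ K)
    (hKfix : ∀ g ∈ K, ∀ i j : D.Idx, ((g : Matrix D.Idx D.Idx k) i j) ^ (p ^ a) = (g : Matrix D.Idx D.Idx k) i j) :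
    D.group k ⊓ Subgroup.centralizer (K : Set (GL D.Idx k)) = ⊥ ∧
    ∀ g : GL D.Idx k, g ∈ D.group k → (g ∈ Subgroup.normalizer (K : Set (GL D.Idx k)) ↔ ∀ i j : D.Idx, ((g : Matrix D.Idx D.Idx k) i j) ^ (p ^ a) = (g : Matrix D.Idx D.Idx k) i j) := by
  obtain ⟨S⟩ := CfsgLib.Chevalley.sys_of_mem hD
  set σ : k →+* k := iterateFrobenius k p a with hσdef
  have hσ : ∀ x, σ x = x ^ p ^ a := fun x => iterateFrobenius_def p a x
  let E : Subfield k := RingHom.eqLocusField σ (RingHom.id k)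
  have hf : ∀ x, σ x = x ↔ ∃ y : E, E.subtype y = x :=
    fun x => ⟨fun h => ⟨⟨x, h⟩, rfl⟩, by rintro ⟨y, rfl⟩; exact y.2⟩
  have hfix : ∀ g : GL D.Idx k, CfsgLib.ChevField.gmap D σ g = g ↔
      ∀ i j, ((g : Matrix D.Idx D.Idx k) i j) ^ (p ^ a) = (g : Matrix D.Idx D.Idx k) i j := by
    intro g
    constructor
    · intro h i j
      conv_rhs => rw [← h]
      rw [CfsgLib.ChevField.gmap_val, hσ]
    · intro h
      refine Units.ext ?_
      ext i j
      rw [CfsgLib.ChevField.gmap_val, hσ]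
      exact h i j
  have hx : ∀ r < D.nroots, S.xG k r 1 ∈ K := fun r _ =>
    hLK (Subgroup.subset_closure ⟨r, 1, one_pow _, rfl⟩)
  refine ⟨?_, fun g hg => ⟨fun hn => ?_, fun hgf => ?_⟩⟩
  · rw [eq_bot_iff]
    rintro g ⟨hg, hgc⟩
    exact Subgroup.mem_bot.2 (CfsgLib.ChevField.eq_one_of_commute S hg fun r hr =>
      (Subgroup.mem_centralizer_iff.1 hgc _ (hx r hr)).symm)
  · have key : g⁻¹ * CfsgLib.ChevField.gmap D σ g = 1 := by
      refine CfsgLib.ChevField.eq_one_of_commute S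
        (mul_mem (inv_mem hg) (CfsgLib.ChevField.gmap_mem S σ hg)) fun r hr => ?_
      have hmem := (Subgroup.mem_normalizer_iff.1 hn _).1 (hx r hr)
      have h := (hfix _).2 (hKfix _ hmem)
      rw [map_mul, map_mul, map_inv, CfsgLib.ChevField.gmap_xG S, map_one] at h
      have h2 : g⁻¹ * (CfsgLib.ChevField.gmap D σ g * S.xG k r 1 *
          (CfsgLib.ChevField.gmap D σ g)⁻¹) * CfsgLib.ChevField.gmap D σ g
          = g⁻¹ * (g * S.xG k r 1 * g⁻¹) * CfsgLib.ChevField.gmap D σ g := by rw [h]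
      simp only [mul_assoc, inv_mul_cancel, mul_one, inv_mul_cancel_left] at h2 ⊢
      exact h2
    exact (hfix g).1 ((inv_mul_eq_one.1 key).symm)
  · have hconj : ∀ g' : GL D.Idx k, g' ∈ D.group k → CfsgLib.ChevField.gmap D σ g' = g' →
        ∀ z ∈ K, g' * z * g'⁻¹ ∈ K := fun g' h1 h2 z hz =>
      conj_mem_of_fixed S E.subtype σ hf K hKG
        (fun r _ y => hLK (Subgroup.subset_closure ⟨r, (y : k), by rw [← hσ]; exact y.2, rfl⟩))
        (fun z hz => (hfix z).2 (hKfix z hz)) h1 h2 hz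
    have hg2 := (hfix g).2 hgf
    refine Subgroup.mem_normalizer_iff.2 fun z => ⟨hconj g hg hg2 z, fun hz => ?_⟩
    have := hconj g⁻¹ (inv_mem hg) (by rw [map_inv, hg2]) _ hz
    simpa [mul_assoc] using this

end Cfsg.Agent.S2214
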