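import Cfsg.Statements.S2221
import Cfsg.Agent.SymSylow54.Main

set_option autoImplicit false
open Cfsg

namespace Cfsg.Agent.S2221

private theorem exp_two_five : ∀ g : Equiv.Perm (Fin 5), Equiv.Perm.sign g = 1 → g ^ 4 = 1 → g ^ 2 = 1 := by
  decide +kernel

private theorem exp_two_four : ∀ g : Equiv.Perm (Fin 4), Equiv.Perm.sign g = 1 → g ^ 4 = 1 → g ^ 2 = 1 := by
  decide +kernel

private theorem small (n : ℕ) (hn : 4 ≤ n) (h5 : n ≤ 5) (P : Sylow 2 (alternatingGroup (Fin n))) :
    ∃ S₁ S₂ : Subgroup (alternatingGroup (Fin n)), S₁ ≠ ⊥ ∧ S₂ ≠ ⊥ ∧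
      Cfsg.IsInternalDirectProduct S₁ S₂ (P : Subgroup (alternatingGroup (Fin n))) := by
  classical
  have hc : Nat.card (P : Subgroup (alternatingGroup (Fin n))) = 4 := by
    haveI : Nontrivial (Fin n) := Fin.nontrivial_iff_two_le.mpr (by omega)
    have hA : Nat.card (alternatingGroup (Fin n)) = n.factorial / 2 := by
      rw [nat_card_alternatingGroup, Nat.card_fin]
    rw [P.card_eq_multiplicity, hA]
    interval_cases n
    · rw [show Nat.factorial 4 / 2 = 2 ^ 2 * 3 by rfl, Nat.factorization_mul (by norm_num) (by norm_num)]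
      rw [Finsupp.add_apply, Nat.factorization_pow, Finsupp.smul_apply, Nat.prime_two.factorization_self,
        Nat.factorization_eq_zero_of_not_dvd (by norm_num : ¬ 2 ∣ 3)]
      rfl
    · rw [show Nat.factorial 5 / 2 = 2 ^ 2 * 15 by rfl, Nat.factorization_mul (by norm_num) (by norm_num)]
      rw [Finsupp.add_apply, Nat.factorization_pow, Finsupp.smul_apply, Nat.prime_two.factorization_self,
        Nat.factorization_eq_zero_of_not_dvd (by norm_num : ¬ 2 ∣ 15)]
      rfl
  set Q : Subgroup (alternatingGroup (Fin n)) := (P : Subgroup (alternatingGroup (Fin n)))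
  have hsq : ∀ x ∈ Q, x * x = 1 := by
    intro x hx
    have h4 : (x : Equiv.Perm (Fin n)) ^ 4 = 1 := by
      have := pow_card_eq_one' (x := (⟨x, hx⟩ : Q))
      rw [hc] at this
      simpa using congrArg (fun t : Q => ((t : alternatingGroup (Fin n)) : Equiv.Perm (Fin n))) this
    have h2 : (x : Equiv.Perm (Fin n)) ^ 2 = 1 := by
      interval_cases n
      · exact exp_two_four _ x.2 h4
      · exact exp_two_five _ x.2 h4
    exact Subtype.ext (by rw [pow_two] at h2; simpa using h2)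
  have hinv : ∀ x ∈ Q, x⁻¹ = x := fun x hx => inv_eq_of_mul_eq_one_right (hsq x hx)
  have hcomm : ∀ x ∈ Q, ∀ y ∈ Q, x * y = y * x := fun x hx y hy => by
    rw [← hinv (x * y) (Q.mul_mem hx hy), mul_inv_rev, hinv x hx, hinv y hy]
  haveI : Nontrivial Q := Finite.one_lt_card_iff_nontrivial.mp (by omega)
  obtain ⟨⟨a, ha⟩, ha1'⟩ := exists_ne (1 : Q)
  have ha1 : a ≠ 1 := fun e => ha1' (Subtype.ext e)
  have hza : Nat.card (Subgroup.zpowers a) = 2 := by
    rw [Nat.card_zpowers]
    exact orderOf_eq_prime (by rw [pow_two]; exact hsq a ha) ha1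
  obtain ⟨b, hb, hba⟩ : ∃ b ∈ Q, b ∉ Subgroup.zpowers a := by
    by_contra h
    push_neg at h
    have := Subgroup.card_le_of_le (show Q ≤ Subgroup.zpowers a from h)
    omega
  have hb1 : b ≠ 1 := fun e => hba (e ▸ one_mem _)
  refine ⟨Subgroup.zpowers a, Subgroup.zpowers b, Subgroup.zpowers_ne_bot.mpr ha1,
    Subgroup.zpowers_ne_bot.mpr hb1, Subgroup.zpowers_le.mpr ha, Subgroup.zpowers_le.mpr hb, ?_, ?_, ?_⟩
  · intro u hu v hv
    exact hcomm u (Subgroup.zpowers_le.mpr ha hu) v (Subgroup.zpowers_le.mpr hb hv)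
  · rw [eq_bot_iff]
    intro x hx
    rw [Subgroup.mem_bot]
    by_contra hx1
    apply hba
    have hzb : Nat.card (Subgroup.zpowers b) = 2 := by
      rw [Nat.card_zpowers]
      exact orderOf_eq_prime (by rw [pow_two]; exact hsq b hb) hb1
    have hle : Subgroup.zpowers x ≤ Subgroup.zpowers b := Subgroup.zpowers_le.mpr hx.2
    have hzx : Nat.card (Subgroup.zpowers x) = 2 := by
      rw [Nat.card_zpowers]
      exact orderOf_eq_prime (by rw [pow_two]; exact hsq x (Subgroup.zpowers_le.mpr ha hx.1)) hx1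
    have e := Subgroup.eq_of_le_of_card_ge hle (by omega)
    exact (Subgroup.zpowers_le.mpr hx.1 : Subgroup.zpowers x ≤ _) (e ▸ Subgroup.mem_zpowers b)
  · have hle : Subgroup.zpowers a ⊔ Subgroup.zpowers b ≤ Q :=
      sup_le (Subgroup.zpowers_le.mpr ha) (Subgroup.zpowers_le.mpr hb)
    refine Subgroup.eq_of_le_of_card_ge hle ?_
    have h2 : Nat.card (Subgroup.zpowers a) ∣ Nat.card ↥(Subgroup.zpowers a ⊔ Subgroup.zpowers b) :=
      Subgroup.card_dvd_of_le le_sup_left
    have h3 : Nat.card ↥(Subgroup.zpowers a ⊔ Subgroup.zpowers b) ∣ 4 := hc ▸ Subgroup.card_dvd_of_le hle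
    have h4 : Nat.card ↥(Subgroup.zpowers a ⊔ Subgroup.zpowers b) ≠ 2 := by
      intro h
      have e := Subgroup.eq_of_le_of_card_ge (le_sup_left : Subgroup.zpowers a ≤ Subgroup.zpowers a ⊔ Subgroup.zpowers b) (by omega)
      exact hba (e ▸ Subgroup.mem_sup_right (Subgroup.mem_zpowers b))
    have h6 := Nat.le_of_dvd (by norm_num) h3
    have h7 := Nat.le_of_dvd Nat.card_pos h2
    rw [hc]
    by_contra hlt
    have h8 : Nat.card ↥(Subgroup.zpowers a ⊔ Subgroup.zpowers b) = 3 := by omega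
    rw [h8] at h3
    omega

/-- Direct decomposability of the Sylow 2-subgroups of the alternating groups. Let n ≥ 4 and let P be a Sylow 2-subgroup of the alternating group of degree n. Then P is the internal direct product of two nontrivial subgroups if and only if n = 4, n = 5, or n ≡ 2, 3 (mod 4) with 4⌊n/4⌋ not a power of 2. In the remaining cases (n ≡ 0, 1 (mod 4) with n ≥ 8, or n ≡ 2, 3 (mod 4) with 4⌊n/4⌋ a power of 2) P is directly indecomposable. -/
theorem result (n : ℕ) (hn : 4 ≤ n)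
    (P : Sylow 2 (alternatingGroup (Fin n))) :
    (∃ S₁ S₂ : Subgroup (alternatingGroup (Fin n)), S₁ ≠ ⊥ ∧ S₂ ≠ ⊥ ∧
        Cfsg.IsInternalDirectProduct S₁ S₂ (P : Subgroup (alternatingGroup (Fin n)))) ↔
      (n = 4 ∨ n = 5 ∨ ((n % 4 = 2 ∨ n % 4 = 3) ∧ ∀ r : ℕ, 4 * (n / 4) ≠ 2 ^ r)) := by
  classical
  have key := CfsgLib.SymSylow54.decomposable_iff (α := Fin n) (by rw [Fintype.card_fin]; exact hn) P
  rw [Fintype.card_fin] at key
  refine key fun h5 => small n hn h5 P

end Cfsg.Agent.S2221
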