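import Cfsg.Statements.S2222
import Cfsg.Agent.SymSylow.Normalizer
import Cfsg.Agent.SymSylow.Pronormal

set_option autoImplicit false
open Cfsg

namespace Cfsg.Agent.S2222

/-- No even permutation of five points has order six. -/
lemma orderOf_ne_six (g : Equiv.Perm (Fin 5)) (hs : Equiv.Perm.sign g = 1) : orderOf g ≠ 6 := by
  intro hg
  have hl : g.cycleType.lcm = 6 := by rw [Equiv.Perm.lcm_cycleType, hg]
  have hsum : g.cycleType.sum ≤ 5 := by
    rw [Equiv.Perm.sum_cycleType]
    exact (Finset.card_le_univ _).trans (by simp)
  have h3 : ∃ a ∈ g.cycleType, 3 ∣ a := by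
    by_contra hne
    push Not at hne
    have : g.cycleType.lcm ∣ 20 := by
      refine Multiset.lcm_dvd.mpr fun a ha => ?_
      have h1 : a ≤ 5 := (Multiset.le_sum_of_mem ha).trans hsum
      have h2 := hne a ha
      have h0 : 2 ≤ a := Equiv.Perm.two_le_of_mem_cycleType ha
      interval_cases a <;> omega
    rw [hl] at this
    omega
  have h2 : ∃ a ∈ g.cycleType, 2 ∣ a := by
    by_contra hne
    push Not at hne
    have : g.cycleType.lcm ∣ 15 := by
      refine Multiset.lcm_dvd.mpr fun a ha => ?_
      have h1 : a ≤ 5 := (Multiset.le_sum_of_mem ha).trans hsum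
      have h2 := hne a ha
      have h0 : 2 ≤ a := Equiv.Perm.two_le_of_mem_cycleType ha
      interval_cases a <;> omega
    rw [hl] at this
    omega
  obtain ⟨a, ha, ha3⟩ := h3
  obtain ⟨b, hb, hb2⟩ := h2
  have ha5 : a ≤ 5 := (Multiset.le_sum_of_mem ha).trans hsum
  have ha2 := Equiv.Perm.two_le_of_mem_cycleType ha
  have hb5 := Equiv.Perm.two_le_of_mem_cycleType hb
  have haa : a = 3 := by omega
  obtain ⟨r, hr⟩ := Multiset.exists_cons_of_mem ha
  have hbr : b ∈ r := by
    rw [hr, Multiset.mem_cons] at hb
    rcases hb with rfl | hb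
    · omega
    · exact hb
  obtain ⟨r', hr'⟩ := Multiset.exists_cons_of_mem hbr
  rw [hr, hr', Multiset.sum_cons, Multiset.sum_cons] at hsum
  have hb' : b = 2 := by omega
  have hr0 : r' = 0 := by
    apply Multiset.eq_zero_of_forall_notMem
    intro c hc
    have h1 := Multiset.le_sum_of_mem hc
    have h2 := Equiv.Perm.two_le_of_mem_cycleType (σ := g) (n := c)
      (by rw [hr, hr']; simp [hc])
    omega
  rw [Equiv.Perm.sign_of_cycleType, hr, hr', hr0, haa, hb'] at hs
  revert hs
  decide

/-- A subgroup of odd index in A₅ is normalized by the normalizer of its Sylow 2-subgroups. -/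
lemma normalizer_le_five (H : Subgroup (alternatingGroup (Fin 5))) (hH : Odd H.index)
    (S : Sylow 2 (alternatingGroup (Fin 5))) (hS : (S : Subgroup _) ≤ H) :
    Subgroup.normalizer ((S : Subgroup (alternatingGroup (Fin 5))) : Set (alternatingGroup (Fin 5))) ≤
      Subgroup.normalizer (H : Set (alternatingGroup (Fin 5))) := by
  haveI : IsSimpleGroup (alternatingGroup (Fin 5)) := alternatingGroup.isSimpleGroup_five
  have h60 : Nat.card (alternatingGroup (Fin 5)) = 60 := by
    rw [nat_card_alternatingGroup, Nat.card_fin]; decide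
  have hS4 : Nat.card (S : Subgroup (alternatingGroup (Fin 5))) = 4 := by
    rw [S.card_eq_multiplicity, h60, Nat.factorization_def _ Nat.prime_two]
    have h : padicValNat 2 60 = 2 := by
      rw [show (60 : ℕ) = 4 * 15 from rfl, padicValNat.mul (by norm_num) (by norm_num),
        show (4 : ℕ) = 2 ^ 2 from rfl, padicValNat.prime_pow,
        padicValNat.eq_zero_of_not_dvd (by norm_num)]
    rw [h]
    norm_num
  have hmul := H.card_mul_index
  rw [h60] at hmul
  have hdvd := Subgroup.card_dvd_of_le hS
  rw [hS4] at hdvd
  obtain ⟨k, hk⟩ := hdvd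
  have hk15 : k * H.index = 15 := by rw [hk] at hmul; linarith
  have hk' : k = 1 ∨ k = 3 ∨ k = 5 ∨ k = 15 := by
    have : k ∈ Nat.divisors 15 := Nat.mem_divisors.mpr ⟨⟨_, hk15.symm⟩, by norm_num⟩
    rw [show Nat.divisors 15 = {1, 3, 5, 15} from by decide] at this
    simpa using this
  rcases hk' with rfl | rfl | rfl | rfl
  · have hHS : H = (S : Subgroup (alternatingGroup (Fin 5))) :=
      (Subgroup.eq_of_le_of_card_ge hS (by rw [hk, hS4])).symm
    subst hHS
    exact le_rfl
  · -- order 12: the Sylow subgroup is normal in `H`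
    let T := (S : Subgroup (alternatingGroup (Fin 5))).subgroupOf H
    have hT4 : Nat.card T = 4 := by
      rw [Nat.card_congr (Subgroup.subgroupOfEquivOfLe hS).toEquiv, hS4]
    have hT3 : T.index = 3 := by
      have := T.card_mul_index; rw [hT4, hk] at this; omega
    have hTn : T.Normal := by
      have hK : T.normalCore ≤ T := Subgroup.normalCore_le T
      have hidx : T.normalCore.index ∣ 6 := by
        rw [Subgroup.normalCore_eq_ker, Subgroup.index_ker]
        refine dvd_trans (Subgroup.card_subgroup_dvd_card _) ?_
        rw [Nat.card_perm, ← Subgroup.index_eq_card, hT3]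
        decide
      have hcm := T.normalCore.card_mul_index
      rw [hk] at hcm
      have hcd := Subgroup.card_dvd_of_le hK
      rw [hT4] at hcd
      have hc4 : Nat.card T.normalCore ∈ Nat.divisors 4 := Nat.mem_divisors.mpr ⟨hcd, by norm_num⟩
      rw [show Nat.divisors 4 = {1, 2, 4} from by decide] at hc4
      simp only [Finset.mem_insert, Finset.mem_singleton] at hc4
      rcases hc4 with hc | hc | hc
      · rw [hc] at hcm; rw [show T.normalCore.index = 12 by omega] at hidx; omega
      · exfalso
        haveI : Fact (Nat.Prime 3) := ⟨Nat.prime_three⟩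
        obtain ⟨a, ha⟩ := exists_prime_orderOf_dvd_card' (G := H) 3 (by rw [hk]; norm_num)
        obtain ⟨b, hb, huniq⟩ := (Nat.card_eq_two_iff' (1 : T.normalCore)).mp hc
        have hconj : a * (b : H) * a⁻¹ = (b : H) := by
          have hmem := (T.normalCore_normal).conj_mem _ b.2 a
          refine congrArg Subtype.val (huniq ⟨_, hmem⟩ ?_)
          intro h1
          apply hb
          have h2 := congrArg Subtype.val h1
          simp only [OneMemClass.coe_one] at h2
          exact Subtype.ext (conj_eq_one_iff.mp h2)
        have hb2 : orderOf (b : H) = 2 := by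
          rw [Subgroup.orderOf_coe]
          refine orderOf_eq_prime ?_ hb
          rw [← hc]; exact pow_card_eq_one'
        have hcomm : Commute a (b : H) := mul_inv_eq_iff_eq_mul.mp hconj
        have h6 : orderOf (a * (b : H)) = 6 := by
          rw [hcomm.orderOf_mul_eq_mul_orderOf_of_coprime (by rw [ha, hb2]; decide), ha, hb2]
        refine orderOf_ne_six (((a * (b : H) : H) : alternatingGroup (Fin 5)) : Equiv.Perm (Fin 5))
          ((a * (b : H) : H) : alternatingGroup (Fin 5)).2 ?_
        rw [Subgroup.orderOf_coe, Subgroup.orderOf_coe, h6]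
      · have : T.normalCore = T := Subgroup.eq_of_le_of_card_ge hK (by rw [hc, hT4])
        rw [← this]
        exact T.normalCore_normal
    have hHN : H ≤ Subgroup.normalizer ((S : Subgroup (alternatingGroup (Fin 5))) : Set (alternatingGroup (Fin 5))) :=
      (Subgroup.normal_subgroupOf_iff_le_normalizer hS).mp hTn
    suffices Subgroup.normalizer ((S : Subgroup (alternatingGroup (Fin 5))) : Set (alternatingGroup (Fin 5))) = H by
      rw [this]; exact Subgroup.le_normalizer
    refine (Subgroup.eq_of_le_of_card_ge hHN ?_).symm
    set N := Subgroup.normalizer ((S : Subgroup (alternatingGroup (Fin 5))) : Set (alternatingGroup (Fin 5))) with hN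
    have hNne : N ≠ ⊤ := by
      intro htop
      have hn : (S : Subgroup (alternatingGroup (Fin 5))).Normal :=
        Subgroup.normalizer_eq_top_iff.mp htop
      rcases hn.eq_bot_or_eq_top with h | h
      · rw [h, Subgroup.card_bot] at hS4; omega
      · rw [h, Subgroup.card_top, h60] at hS4; omega
    have h1 := Subgroup.card_dvd_of_le hHN
    rw [hk] at h1 ⊢
    obtain ⟨j, hj⟩ := h1
    have h2 := N.card_mul_index
    rw [h60, hj] at h2
    have hne1 : N.index ≠ 1 := fun h => hNne (Subgroup.index_eq_one.mp h)
    rw [hj]
    have : j * N.index = 5 := by linarith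
    have hj5 : j ∈ Nat.divisors 5 := Nat.mem_divisors.mpr ⟨⟨_, this.symm⟩, by norm_num⟩
    rw [show Nat.divisors 5 = {1, 5} from by decide] at hj5
    simp only [Finset.mem_insert, Finset.mem_singleton] at hj5
    rcases hj5 with rfl | rfl
    · omega
    · omega
  · -- order 20 is impossible
    exfalso
    have hidx : H.index = 3 := by omega
    have h1 : H.normalCore.index ∣ 6 := by
      rw [Subgroup.normalCore_eq_ker, Subgroup.index_ker]
      refine dvd_trans (Subgroup.card_subgroup_dvd_card _) ?_
      rw [Nat.card_perm, ← Subgroup.index_eq_card, hidx]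
      decide
    rcases (H.normalCore_normal).eq_bot_or_eq_top with h | h
    · rw [h, Subgroup.index_bot, h60] at h1; omega
    · have := H.normalCore_le
      rw [h, top_le_iff] at this
      rw [this, Subgroup.index_top] at hidx; omega
  · have : H = ⊤ := Subgroup.index_eq_one.mp (by omega)
    subst this
    exact le_trans le_top Subgroup.le_normalizer

/-- In the alternating group of degree n ≥ 5 every subgroup H of odd index is pronormal: for every element g, the subgroups H and gHg⁻¹ are conjugate by an element of the subgroup they generate. -/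
theorem result (n : ℕ) (hn : 5 ≤ n)
    (H : Subgroup (alternatingGroup (Fin n))) (hH : Odd H.index) : Cfsg.IsPronormal H := by
  refine CfsgLib.SymSylow.isPronormal_of_odd_index H hH fun S hS => ?_
  by_cases h6 : 6 ≤ n
  · rw [CfsgLib.SymSylow.normalizer_sylow_alternating (by rwa [Fintype.card_fin]) S]
    exact hS.trans Subgroup.le_normalizer
  · obtain rfl : n = 5 := by omega
    exact normalizer_le_five H hH S hS

end Cfsg.Agent.S2222
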