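import Cfsg.Statements.S2225
import Cfsg.Agent.SymSylow.WreathLinear
import Cfsg.Agent.SymSylow.FlagOvergroup
import Cfsg.Agent.SymSylow.PSLTwoFour

set_option autoImplicit false
open Cfsg

namespace Cfsg.Agent.S2225

/-- Let F be a finite field and d = 2^w ≥ 2 a power of 2 such that PSL_d(F) is simple. Then every subgroup H of PSL_d(F) of odd index is pronormal: for every g, H and gHg⁻¹ are conjugate by an element of the subgroup they generate. -/
theorem result {F : Type*} [Field F] [Fintype F]
    (w : ℕ) (hw : 1 ≤ w) (hs : IsSimpleGroup (Matrix.ProjectiveSpecialLinearGroup (Fin (2 ^ w)) F))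
    (H : Subgroup (Matrix.ProjectiveSpecialLinearGroup (Fin (2 ^ w)) F)) (hH : Odd H.index) : Cfsg.IsPronormal H := by
  rcases Nat.even_or_odd (Fintype.card F) with he | ho
  · haveI : Fact (Nat.Prime 2) := ⟨Nat.prime_two⟩
    haveI : CharP F 2 := by
      have h : ringChar F = 2 := FiniteField.even_card_iff_char_two.2 (Nat.even_iff.1 he)
      exact ringChar.of_eq h
    exact CfsgLib.SymSylow.isPronormal_quotient _
      (fun K S hS => CfsgLib.SymSylow.flag_normalizer_le K S hS) H hH
  obtain ⟨k, rfl⟩ : ∃ k, w = k + 1 := ⟨w - 1, by omega⟩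
  by_cases h : 1 ≤ k ∨ Fintype.card F % 8 = 1 ∨ Fintype.card F % 8 = 7
  · exact CfsgLib.SymSylow.isPronormal_quotient_self _
      (fun S => CfsgLib.SymSylow.WreathNorm.linear_normalizer_le ho rfl h S) H hH
  obtain rfl : k = 0 := by omega
  have := Nat.odd_iff.1 ho
  exact CfsgLib.SymSylow.PSLTwoFour.pronormal (by omega) H hH

end Cfsg.Agent.S2225
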