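import Cfsg.Statements.S2226
import Cfsg.Agent.SymSylow.WreathUnitary
import Cfsg.Agent.SymSylow.UnitOvergroup

set_option autoImplicit false
open Cfsg

namespace Cfsg.Agent.S2226

/-- Let F be a finite field with q² elements and d = 2^w ≥ 4 a power of 2 such that the unitary group PSU_d(q) (realised over F) is simple. Then every subgroup H of PSU_d(q) of odd index is pronormal: for every g, H and gHg⁻¹ are conjugate by an element of the subgroup they generate. -/
theorem result {F : Type*} [Field F] [Fintype F] (q : ℕ)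
    (hF : Fintype.card F = q ^ 2) (w : ℕ) (hw : 2 ≤ w) (hs : IsSimpleGroup (Cfsg.PSU (2 ^ w) F q))
    (H : Subgroup (Cfsg.PSU (2 ^ w) F q)) (hH : Odd H.index) : Cfsg.IsPronormal H := by
  obtain ⟨k, rfl⟩ : ∃ k, w = k + 1 := ⟨w - 1, by omega⟩
  rcases Nat.even_or_odd (Fintype.card F) with he | ho
  · haveI : Fact (Nat.Prime 2) := ⟨Nat.prime_two⟩
    haveI : CharP F 2 := by
      have h : ringChar F = 2 := FiniteField.even_card_iff_char_two.2 (Nat.even_iff.1 he)
      exact ringChar.of_eq h
    exact CfsgLib.SymSylow.isPronormal_quotient _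
      (fun K S hS => CfsgLib.SymSylow.unitary_flag_normalizer_le (m := 2 ^ k) hF
        (by ring) K S hS) H hH
  exact CfsgLib.SymSylow.isPronormal_quotient_self _
    (fun S => CfsgLib.SymSylow.WreathNorm.unitary_normalizer_le hF ho rfl (by omega) S) H hH

end Cfsg.Agent.S2226
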