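import Cfsg.Statements.S2227
import Cfsg.Agent.E6TwoFive.Alt

set_option autoImplicit false
open Cfsg

namespace Cfsg.Agent.S2227

/-- In the twisted group ²E₆(2) all elements of order 5 are conjugate, and the centralizer of an element of order 5 is isomorphic to the direct product of a cyclic group of order 5 with the alternating group of degree 8. -/
theorem result {K : Type*} [Field K] [Fintype K] (hK : Fintype.card K = 4) :
    (∀ x y : ↥(Cfsg.Lie.twistedE6 K 2), orderOf x = 5 → orderOf y = 5 → IsConj x y) ∧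
      ∀ x : ↥(Cfsg.Lie.twistedE6 K 2), orderOf x = 5 →
        Nonempty (↥(Subgroup.centralizer ({x} : Set ↥(Cfsg.Lie.twistedE6 K 2))) ≃* (Multiplicative (ZMod 5) × ↥(alternatingGroup (Fin 8)))) := by
  have hK' : Fintype.card K = 2 ^ 2 := by rw [hK]; norm_num
  obtain ⟨hc, w, hw⟩ := CfsgLib.Fi22Twist.exists_omega hK
  exact CfsgLib.E6TwoFive.main_of hK' w hw (CfsgLib.E6TwoFive.exists_alt8 hK' w hw)
    fun z hz ho => CfsgLib.E6TwoFive.exists_conj_x0 hK' w hw hz ho

end Cfsg.Agent.S2227
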