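import Cfsg.Statements.S2231
import Cfsg.Agent.DefChar.UnipotentFlags

set_option autoImplicit false
open Cfsg

namespace Cfsg.Agent.S2231

/-- Let p be an odd prime and K a finite field of characteristic p. Then Qd(p) (the natural semidirect product of an elementary abelian group of order p² by SL₂(p)) is not involved in the projective special linear group PSL₂(K). -/
theorem result {p : ℕ} [Fact p.Prime] (hp : p ≠ 2) {K : Type*} [Field K] [Fintype K] [CharP K p] : ¬ Cfsg.Involves ↥(Cfsg.qd p) (Matrix.ProjectiveSpecialLinearGroup (Fin 2) K) := by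
  let ρ : Matrix.SpecialLinearGroup (Fin 2) K →* Matrix (Fin 2) (Fin 2) K :=
    { toFun := fun g => g.1, map_one' := rfl, map_mul' := fun _ _ => rfl }
  exact CfsgLib.DefChar.not_involves_qd hp
    (CfsgLib.DefChar.normalizerPClosed_two ρ Subtype.val_injective)
    (QuotientGroup.mk' _) (QuotientGroup.mk'_surjective _)

end Cfsg.Agent.S2231
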