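import Cfsg.Statements.S2232
import Cfsg.Agent.Eq.Def_Classical
import Cfsg.Agent.DefChar.UnipotentFlags

set_option autoImplicit false
open Cfsg
open scoped Matrix

namespace Cfsg.Agent.S2232

/-- Let p be an odd prime, q a power of p and K a finite field with q² elements. Then Qd(p) (the natural semidirect product of an elementary abelian group of order p² by SL₂(p)) is not involved in the projective special unitary group PSU₃(q) realised over K. -/
theorem result {p : ℕ} [Fact p.Prime] (hp : p ≠ 2) {K : Type*} [Field K] [Fintype K] [CharP K p] (n : ℕ) (hn : 1 ≤ n) (hK : Fintype.card K = (p ^ n) ^ 2) : ¬ Cfsg.Involves ↥(Cfsg.qd p) (Cfsg.PSU 3 K (p ^ n)) := by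
  let ρ : ↥(Cfsg.SU 3 K (p ^ n)) →* Matrix (Fin 3) (Fin 3) K :=
    (Cfsg.slToMat 3 K).comp (Cfsg.SU 3 K (p ^ n)).subtype
  have hρ : Function.Injective ρ := fun a b h => Subtype.ext (Subtype.ext h)
  have hiso : ∀ g u v, CfsgLib.DefChar.hermLeft (p ^ n) (ρ g *ᵥ v) (ρ g *ᵥ u) =
      CfsgLib.DefChar.hermLeft (p ^ n) v u := fun g u v => g.2 u v
  exact CfsgLib.DefChar.not_involves_qd hp
    (CfsgLib.DefChar.normalizerPClosed_three n ρ hρ hiso)
    (QuotientGroup.mk' _) (QuotientGroup.mk'_surjective _)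

end Cfsg.Agent.S2232
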