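import Cfsg.Statements.S2239
import Cfsg.Agent.Suzuki.SubfieldModel
import Cfsg.Agent.Suzuki.Bridge

set_option autoImplicit false
open Cfsg

namespace Cfsg.Agent.S2239

/-- Subfield subgroups of the Suzuki group: let q = 2^(2m+1) and s = 2^(2k+1) with m, k ≥ 1 and 2k+1 dividing 2m+1 (so q is a power of s), both groups realised as stabilisers in SL₄ of the Suzuki–Tits ovoid. Then Sz(q) has a subgroup isomorphic to Sz(s), and any two subgroups of Sz(q) isomorphic to Sz(s) are conjugate. -/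
theorem result {F : Type*} [Field F] [Fintype F] {m : ℕ} (hm : 1 ≤ m) (hF : Fintype.card F = 2 ^ (2 * m + 1)) {K : Type*} [Field K] [Fintype K] {k : ℕ} (hk : 1 ≤ k) (hK : Fintype.card K = 2 ^ (2 * k + 1)) (hdiv : 2 * k + 1 ∣ 2 * m + 1) :
    (∃ S : Subgroup ↥(Cfsg.Sz F m), Nonempty (↥S ≃* ↥(Cfsg.Sz K k))) ∧
    ∀ S₁ S₂ : Subgroup ↥(Cfsg.Sz F m), Nonempty (↥S₁ ≃* ↥(Cfsg.Sz K k)) → Nonempty (↥S₂ ≃* ↥(Cfsg.Sz K k)) →
      ∃ g : ↥(Cfsg.Sz F m), S₂ = S₁.map (MulAut.conj g).toMonoidHom := by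
  haveI := CfsgLib.Suzuki.charP_two hF
  haveI := CfsgLib.Suzuki.charP_two hK
  rw [CfsgLib.Suzuki.sz_eq (F := F), CfsgLib.Suzuki.sz_eq (F := K)]
  letI := ZMod.algebra F 2
  letI := ZMod.algebra K 2
  have hι : Nonempty (K →ₐ[ZMod 2] F) := by
    refine FiniteField.nonempty_algHom_of_finrank_dvd ?_
    have e1 := Module.natCard_eq_pow_finrank (K := ZMod 2) (V := K)
    have e2 := Module.natCard_eq_pow_finrank (K := ZMod 2) (V := F)
    rw [Nat.card_zmod, Nat.card_eq_fintype_card, hK] at e1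
    rw [Nat.card_zmod, Nat.card_eq_fintype_card, hF] at e2
    rw [← Nat.pow_right_injective le_rfl e1, ← Nat.pow_right_injective le_rfl e2]
    exact hdiv
  obtain ⟨ι⟩ := hι
  obtain ⟨f, hf, hr⟩ := CfsgLib.Suzuki.exists_embedding hm hF hk hK hdiv ι.toRingHom
  refine ⟨⟨f.range, ⟨(MonoidHom.ofInjective hf).symm⟩⟩, fun S₁ S₂ ⟨e₁⟩ ⟨e₂⟩ => ?_⟩
  have hcard := CfsgLib.Suzuki.card_range_embedding hk hK hf
  rw [← Nat.card_congr (MonoidHom.ofInjective hf).toEquiv] at hcard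
  obtain ⟨y₁, h₁⟩ := CfsgLib.Suzuki.conj_of_iso hm hF hk hK hdiv ι.toRingHom hf hr S₁
    ((Nat.card_congr e₁.toEquiv).trans hcard)
  obtain ⟨y₂, h₂⟩ := CfsgLib.Suzuki.conj_of_iso hm hF hk hK hdiv ι.toRingHom hf hr S₂
    ((Nat.card_congr e₂.toEquiv).trans hcard)
  refine ⟨y₂ * y₁⁻¹, ?_⟩
  rw [h₁, h₂, Subgroup.map_map]
  congr 1
  ext x
  simp [mul_assoc]

end Cfsg.Agent.S2239
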