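import Cfsg.Statements.S2240
import Cfsg.Agent.Suzuki.Bridge
import Cfsg.Agent.Suzuki.TISubgroups

set_option autoImplicit false
open Cfsg

namespace Cfsg.Agent.S2240

/-- Elementary abelian TI-subgroups of the Suzuki group: let q = 2^(2m+1) with m ≥ 1, the group realised as the stabiliser in SL₄ of the Suzuki–Tits ovoid, and n ≥ 2. There is an elementary abelian 2-subgroup E of order 2^n that is a TI-subgroup (every conjugate of E meeting E nontrivially is E itself) if and only if n divides 2m + 1. -/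
theorem result {F : Type*} [Field F] [Fintype F] {m : ℕ} (hm : 1 ≤ m) (hF : Fintype.card F = 2 ^ (2 * m + 1)) (n : ℕ) (hn : 2 ≤ n) :
    (∃ E : Subgroup ↥(Cfsg.Sz F m), Cfsg.IsElementaryAbelian 2 E ∧ Nat.card ↥E = 2 ^ n ∧
      ∀ x : ↥(Cfsg.Sz F m), E ⊓ E.map (MulAut.conj x).toMonoidHom ≠ ⊥ → x ∈ Subgroup.normalizer (E : Set ↥(Cfsg.Sz F m))) ↔ n ∣ 2 * m + 1 := by
  haveI := CfsgLib.Suzuki.charP_two hF
  have hT := CfsgLib.Suzuki.titsEndo_theta hm hF
  have hq : Nat.card F = 2 ^ (2 * m + 1) := by rw [Nat.card_eq_fintype_card, hF]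
  rw [CfsgLib.Suzuki.sz_eq]
  refine ⟨?_, fun h => CfsgLib.Suzuki.exists_ti hT hq (by omega) h⟩
  rintro ⟨E, ⟨-, hsq⟩, hcard, hTI⟩
  have hp : IsPGroup 2 E := IsPGroup.of_card hcard
  obtain ⟨P, hP⟩ := hp.exists_le_sylow
  obtain ⟨g, hg⟩ := MulAction.exists_smul_eq
    (CfsgLib.Suzuki.grp (CfsgLib.Suzuki.theta F m)) (CfsgLib.Suzuki.uSylow hT) P
  set f := MulAut.conj g⁻¹ with hf
  have hfg : f.symm = MulAut.conj g := by
    ext x; simp [hf]
  refine CfsgLib.Suzuki.dvd_of_ti hT hq (by omega) (E := E.map f.toMonoidHom) ?_ ?_ ?_ ?_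
  · rintro _ ⟨x, hx, rfl⟩
    have hx' := hP hx
    rw [← hg] at hx'
    obtain ⟨u, hu, rfl⟩ := hx'
    have hu' : u ∈ CfsgLib.Suzuki.uGrp hT := hu
    simpa [hf, mul_assoc] using hu'
  · rintro _ ⟨x, hx, rfl⟩
    rw [← map_pow, hsq x hx, map_one]
  · rw [Subgroup.card_map_of_injective f.injective, hcard]
  · intro x hne
    have hconj : (E.map f.toMonoidHom).map (MulAut.conj x).toMonoidHom =
        (E.map (MulAut.conj (f.symm x)).toMonoidHom).map f.toMonoidHom := by
      rw [Subgroup.map_map, Subgroup.map_map]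
      congr 1
      ext y
      simp
    rw [hconj, ← Subgroup.map_inf _ _ _ f.injective] at hne
    have hne' : E ⊓ E.map (MulAut.conj (f.symm x)).toMonoidHom ≠ ⊥ := fun h =>
      hne (by rw [h, Subgroup.map_bot])
    rw [← Subgroup.map_equiv_normalizer_eq]
    exact ⟨f.symm x, hTI _ hne', f.apply_symm_apply x⟩

end Cfsg.Agent.S2240
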