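import Cfsg.Statements.S2245
import Cfsg.Agent.SymSylow.Overgroups

set_option autoImplicit false
open Cfsg

namespace Cfsg.Agent.S2245

open CfsgLib.SymSylow

/-- The criterion inside `G`, which contains all even permutations. -/
lemma unique_iff {n : ℕ} (hn : 5 ≤ n) (G : Subgroup (Equiv.Perm (Fin n)))
    (hAG : alternatingGroup (Fin n) ≤ G) (P : Sylow 2 (Equiv.Perm (Fin n))) (R : Subgroup G)
    (hR : R.map G.subtype = (P : Subgroup (Equiv.Perm (Fin n))) ⊓ G)
    (hgen : ∀ J : Subgroup (Equiv.Perm (Fin n)), alternatingGroup (Fin n) ≤ J →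
      (P : Subgroup (Equiv.Perm (Fin n))) ⊓ G ≤ J → G ≤ J) :
    (∃! M : Subgroup G, IsCoatom M ∧ R ≤ M) ↔ ∃ k : ℕ, 2 ≤ k ∧ n = 2 ^ k + 1 := by
  have hP := isSylowOn_univ P
  have hcard : 5 ≤ Fintype.card (Fin n) := by rwa [Fintype.card_fin]
  have proper : ∀ A : Subgroup (Equiv.Perm (Fin n)), ¬ alternatingGroup (Fin n) ≤ A →
      A.subgroupOf G ≠ ⊤ := fun A hA h =>
    hA (hAG.trans (Subgroup.subgroupOf_eq_top.mp h))
  have hle : ∀ A : Subgroup (Equiv.Perm (Fin n)),
      (P : Subgroup (Equiv.Perm (Fin n))) ⊓ G ≤ A → R ≤ A.subgroupOf G := by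
    intro A hA r hr
    exact Subgroup.mem_subgroupOf.mpr (hA (hR ▸ ⟨r, hr, rfl⟩))
  constructor
  · rintro ⟨M, ⟨hM, hRM⟩, huniq⟩
    rcases hP.splits_or hcard with ⟨A, B, hPA, hPB, hA, hB, hJ⟩ | ⟨j, hj, hjn⟩
    · exfalso
      have get : ∀ C : Subgroup (Equiv.Perm (Fin n)), (P : Subgroup (Equiv.Perm (Fin n))) ≤ C →
          ¬ alternatingGroup (Fin n) ≤ C → C.subgroupOf G ≤ M := by
        intro C hPC hC
        obtain ⟨N, hN, hCN⟩ := (eq_top_or_exists_le_coatom (C.subgroupOf G)).resolve_left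
          (proper C hC)
        exact huniq N ⟨hN, (hle C (inf_le_left.trans hPC)).trans hCN⟩ ▸ hCN
      have hAlt : alternatingGroup (Fin n) ≤ M.map G.subtype :=
        hJ _ (fun g hs hg => ⟨⟨g, hAG hs⟩, get A hPA hA hg, rfl⟩)
          (fun g hs hg => ⟨⟨g, hAG hs⟩, get B hPB hB hg, rfl⟩)
      have htop : G ≤ M.map G.subtype := hgen _ hAlt (hR ▸ Subgroup.map_mono hRM)
      apply hM.1
      rw [eq_top_iff]
      intro g _
      obtain ⟨m, hm, hmg⟩ := htop g.2
      rwa [← Subtype.ext hmg]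
    · exact ⟨j, hj, by rwa [Fintype.card_fin] at hjn⟩
  · rintro ⟨k, hk, hnk⟩
    obtain ⟨x, hfix, hPx, htr⟩ :=
      hP.exists_fixed_point (j := k) (by omega) (by rwa [Fintype.card_fin])
    set M0 : Subgroup G :=
      (MulAction.stabilizer (Equiv.Perm (Fin n)) x).subgroupOf G with hM0
    have hRM0 : R ≤ M0 := hle _ (fun g hg => hfix g hg.1)
    have hM0top : M0 ≠ ⊤ := by
      refine proper _ fun h => ?_
      refine not_alternatingGroup_le_keeps (t := ({x} : Finset (Fin n)))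
        (Finset.mem_singleton_self x)
        (y := if (⟨0, by omega⟩ : Fin n) = x then ⟨1, by omega⟩ else ⟨0, by omega⟩) ?_ (by omega)
        fun g hg => ?_
      · rw [Finset.mem_singleton]
        split
        · rename_i h0; rw [← h0]; simp
        · assumption
      · have hgx : g x = x := h hg
        intro z
        rw [Finset.mem_singleton, Finset.mem_singleton]
        exact ⟨fun e => g.injective (e.trans hgx.symm), fun e => by rw [e, hgx]⟩
    have hmax : ∀ H : Subgroup G, H ≠ ⊤ → R ≤ H → H ≤ M0 := by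
      intro H hH hRH g hg
      by_contra hgx
      apply hH
      have hT : evenPart (P : Subgroup (Equiv.Perm (Fin n))) ≤ H.map G.subtype := by
        intro a ha
        have : a ∈ R.map G.subtype := hR ▸ ⟨ha.1, hAG ha.2⟩
        exact Subgroup.map_mono hRH this
      have hAlt := hPx.alternatingGroup_le htr hcard hT ⟨g, ⟨g, hg, rfl⟩, hgx⟩
      have htop : G ≤ H.map G.subtype := hgen _ hAlt (hR ▸ Subgroup.map_mono hRH)
      rw [eq_top_iff]
      intro y _
      obtain ⟨m, hm, hmy⟩ := htop y.2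
      rwa [← Subtype.ext hmy]
    have hco : IsCoatom M0 := ⟨hM0top, fun H hlt => by
      by_contra hH
      exact absurd (hmax H hH (hRM0.trans hlt.le)) (not_le_of_gt hlt)⟩
    exact ⟨M0, ⟨hco, hRM0⟩, fun N hN =>
      (hN.1.le_iff.mp (hmax N hN.1.1 hN.2)).resolve_left hM0top |>.symm⟩

/-- For n ≥ 5 with n ≠ 6, a Sylow 2-subgroup of the alternating group A_n lies in exactly one maximal subgroup of A_n if and only if n = 2^k + 1 for some k ≥ 2; the same holds for the symmetric group S_n. -/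
theorem result (n : ℕ) (hn : 5 ≤ n) (h6 : n ≠ 6) :
    ((∀ R : Sylow 2 ↥(alternatingGroup (Fin n)), (∃! M : Subgroup ↥(alternatingGroup (Fin n)), IsCoatom M ∧ (R : Subgroup ↥(alternatingGroup (Fin n))) ≤ M) ↔ ∃ k : ℕ, 2 ≤ k ∧ n = 2 ^ k + 1) ∧
    (∀ R : Sylow 2 (Equiv.Perm (Fin n)), (∃! M : Subgroup (Equiv.Perm (Fin n)), IsCoatom M ∧ (R : Subgroup (Equiv.Perm (Fin n))) ≤ M) ↔ ∃ k : ℕ, 2 ≤ k ∧ n = 2 ^ k + 1)) := by
  refine ⟨fun R => ?_, fun R => ?_⟩
  · obtain ⟨P, hP⟩ := CfsgLib.SymSylow.exists_evenPart_eq R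
    exact unique_iff hn _ le_rfl P _ hP (fun J hJ _ => hJ)
  · -- the symmetric group, seen as the top subgroup of itself
    let e : (⊤ : Subgroup (Equiv.Perm (Fin n))) ≃* Equiv.Perm (Fin n) := Subgroup.topEquiv
    have h1 := unique_iff hn ⊤ le_top R ((R : Subgroup (Equiv.Perm (Fin n))).comap e.toMonoidHom)
      (by
        rw [inf_top_eq]
        exact Subgroup.map_comap_eq_self_of_surjective e.surjective _)
      (fun J hAlt hPJ g _ => by
        obtain ⟨a, ha, has⟩ :=
          (CfsgLib.SymSylow.isSylowOn_univ R).exists_sign_neg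
            (by rw [Finset.card_univ, Fintype.card_fin]; omega)
        rcases Int.units_eq_one_or (Equiv.Perm.sign g) with h | h
        · exact hAlt h
        · have h2 : g * a⁻¹ ∈ alternatingGroup (Fin n) := by
            rw [Equiv.Perm.mem_alternatingGroup, map_mul, map_inv, h, has]; simp
          have h3 := J.mul_mem (hAlt h2) (hPJ ⟨ha, trivial⟩)
          simpa using h3)
    rw [← h1]
    let o := MulEquiv.comapSubgroup e
    constructor
    · rintro ⟨M, ⟨hM, hRM⟩, huniq⟩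
      refine ⟨o M, ⟨(o.isCoatom_iff M).mpr hM, o.monotone hRM⟩, fun N hN => ?_⟩
      obtain ⟨N', rfl⟩ := o.surjective N
      rw [huniq N' ⟨(o.isCoatom_iff N').mp hN.1, o.le_iff_le.mp hN.2⟩]
    · rintro ⟨M, ⟨hM, hRM⟩, huniq⟩
      obtain ⟨M', rfl⟩ := o.surjective M
      exact ⟨M', ⟨(o.isCoatom_iff M').mp hM, o.le_iff_le.mp hRM⟩,
        fun N hN => o.injective (huniq (o N) ⟨(o.isCoatom_iff N).mpr hN.1, o.monotone hN.2⟩)⟩

end Cfsg.Agent.S2245
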