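import Cfsg.Statements.S2250
import Cfsg.Agent.SymSylow.SympRank
import Cfsg.Agent.Eq.Def_Transfer

set_option autoImplicit false
open Cfsg

namespace Cfsg.Agent.S2250

/-- The normal 2-rank of the symplectic group over a finite field of odd order: for n ≥ 1 and S a Sylow 2-subgroup of Sp_{2n}(F), the largest rank of an elementary abelian subgroup of S that is normal in S equals n. -/
theorem result {F : Type*} [Field F] [Fintype F] (hF : Odd (Fintype.card F)) (n : ℕ) (hn : 1 ≤ n) (S : Sylow 2 ↥(Matrix.symplecticGroup (Fin n) F)) :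
    ((∃ E : Subgroup ↥(S : Subgroup ↥(Matrix.symplecticGroup (Fin n) F)), E.Normal ∧ Cfsg.IsElementaryAbelian 2 E ∧ 2 ^ (n) ≤ Nat.card ↥E) ∧
      ∀ E : Subgroup ↥(S : Subgroup ↥(Matrix.symplecticGroup (Fin n) F)), E.Normal → Cfsg.IsElementaryAbelian 2 E → Nat.card ↥E ≤ 2 ^ (n)) := by
  have h2 : (2 : F) ≠ 0 := CfsgLib.SL2.two_ne_zero_iff_odd.2 hF
  obtain ⟨E, h1, h3, h4, h5⟩ := CfsgLib.SymSylow.SympTwo.exists_normal_elementary hF S
  refine ⟨⟨E, h1, ⟨h3, h4⟩, h5⟩, fun E _ hE => ?_⟩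
  refine CfsgLib.SymSylow.SympTwo.card_le_two_pow h2
    (((S : Subgroup ↥(Matrix.symplecticGroup (Fin n) F)).subtype).comp E.subtype)
    (Subtype.val_injective.comp Subtype.val_injective) (fun a b => hE.1.is_comm.comm a b)
    (fun a => Subtype.ext ?_)
  have := hE.2 a a.2
  rwa [sq] at this

end Cfsg.Agent.S2250
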