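import Cfsg.Statements.S2251
import Cfsg.Agent.Suzuki.SubfieldModel
import Cfsg.Agent.Suzuki.Bridge

set_option autoImplicit false
open Cfsg

namespace Cfsg.Agent.S2251

/-- The subgroups of the Suzuki group: with q = 2^(2m+1), m ≥ 1, r = 2^m and the group realised as the stabiliser in SL₄ of the Suzuki–Tits ovoid, every proper subgroup is contained in the normalizer of a Sylow 2-subgroup, or in the normalizer of a cyclic subgroup of order q − 1, q + 2r + 1 or q − 2r + 1, or in a subgroup isomorphic to a smaller Suzuki group Sz(s) with s = 2^(2k+1) ≥ 8 and 2k+1 a proper divisor of 2m+1. -/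
theorem result {F : Type*} [Field F] [Fintype F] {m : ℕ} (hm : 1 ≤ m) (hF : Fintype.card F = 2 ^ (2 * m + 1)) (M : Subgroup ↥(Cfsg.Sz F m)) (hM : M ≠ ⊤) :
    (∃ P : Sylow 2 ↥(Cfsg.Sz F m), M ≤ Subgroup.normalizer ((P : Subgroup ↥(Cfsg.Sz F m)) : Set ↥(Cfsg.Sz F m))) ∨
    (∃ U : Subgroup ↥(Cfsg.Sz F m), IsCyclic ↥U ∧ Nat.card ↥U ∈ ({2 ^ (2 * m + 1) - 1, 2 ^ (2 * m + 1) + 2 ^ (m + 1) + 1, 2 ^ (2 * m + 1) - 2 ^ (m + 1) + 1} : Set ℕ) ∧
      M ≤ Subgroup.normalizer (U : Set ↥(Cfsg.Sz F m))) ∨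
    (∃ (K : Type) (_ : Field K) (_ : Fintype K) (k : ℕ), 1 ≤ k ∧ k < m ∧ Fintype.card K = 2 ^ (2 * k + 1) ∧ 2 * k + 1 ∣ 2 * m + 1 ∧
      ∃ S : Subgroup ↥(Cfsg.Sz F m), Nonempty (↥S ≃* ↥(Cfsg.Sz K k)) ∧ M ≤ S) := by
  haveI := CfsgLib.Suzuki.charP_two hF
  revert M
  rw [CfsgLib.Suzuki.sz_eq]
  intro M hM
  rcases CfsgLib.Suzuki.subgroup_cases hm hF M hM with h | ⟨g, hg, hgnu, hgM⟩ | ⟨y, K, hK, hKF, hy⟩
  · exact Or.inl h
  · obtain ⟨hc, hk⟩ := (CfsgLib.Suzuki.translation_or_centralizer hm hF hg).resolve_left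
      fun ⟨x, hx⟩ => hgnu x hx
    exact Or.inr (Or.inl ⟨_, hc, hk, hgM⟩)
  · obtain ⟨K', _, _, _, k, hk, hcardK, hK', hdiv, f, hf, hr⟩ :=
      CfsgLib.Suzuki.exists_model hm hF K hK
    have hS : M = f.range.map (MulAut.conj y).toMonoidHom :=
      CfsgLib.Suzuki.eq_map_conj fun g => (hy g).trans (hr g).symm
    refine Or.inr (Or.inr ⟨K', inferInstance, inferInstance, k, hk, ?_, hK', hdiv, M, ?_, le_rfl⟩)
    · rw [hcardK, Nat.card_eq_fintype_card, hF] at hKF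
      have := (Nat.pow_lt_pow_iff_right (by norm_num)).1 hKF
      omega
    · rw [CfsgLib.Suzuki.sz_eq]
      exact ⟨(MulEquiv.subgroupCongr hS).trans
        (((MulAut.conj y).subgroupMap f.range).symm.trans (MonoidHom.ofInjective hf).symm)⟩

end Cfsg.Agent.S2251
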