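import Cfsg.Statements.S2254
import Cfsg.Agent.SymSylow.NilpotentBound
import Cfsg.Agent.SymSylow.NilpotentLargest

set_option autoImplicit false
open Cfsg

namespace Cfsg.Agent.S2254

/-- Let n ≡ 3 (mod 4). Then every nilpotent subgroup of the symmetric group on n letters has order at most 3 times the order of a Sylow 2-subgroup of the symmetric group on n − 3 letters; the bound is attained by a nilpotent subgroup isomorphic to the direct product of such a Sylow 2-subgroup with a cyclic group of order 3; and any two nilpotent subgroups attaining the bound are conjugate. -/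
theorem result  (n : ℕ) (hn : n % 4 = 3)
    (P : Sylow 2 (Equiv.Perm (Fin (n - 3)))) :
    (∀ N : Subgroup (Equiv.Perm (Fin n)), Group.IsNilpotent N → Nat.card N ≤ 3 * Nat.card P) ∧
    (∃ M : Subgroup (Equiv.Perm (Fin n)), Group.IsNilpotent M ∧ Nat.card M = 3 * Nat.card P ∧
      Nonempty (M ≃* (↥(P : Subgroup (Equiv.Perm (Fin (n - 3)))) × Multiplicative (ZMod 3)))) ∧
    (∀ N₁ N₂ : Subgroup (Equiv.Perm (Fin n)), Group.IsNilpotent N₁ → Group.IsNilpotent N₂ →
      Nat.card N₁ = 3 * Nat.card P → Nat.card N₂ = 3 * Nat.card P →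
      ∃ g : Equiv.Perm (Fin n), N₂ = N₁.map (MulAut.conj g).toMonoidHom) := by
  haveI : Fact (Nat.Prime 2) := ⟨Nat.prime_two⟩
  set v := padicValNat 2 (n - 3).factorial with hv
  have hP : Nat.card P = 2 ^ v := by
    rw [P.card_eq_multiplicity, Nat.card_perm, Nat.card_fin, Nat.factorization_def _ Nat.prime_two]
  refine ⟨fun N hN => ?_, ?_, fun N₁ N₂ h₁ h₂ e₁ e₂ => ?_⟩
  · have h := (CfsgLib.SymSylow.Nilp.bound n (Fin n) (Fintype.card_fin n) N hN).1
    rw [CfsgLib.SymSylow.Nilp.gVal, if_pos hn] at h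
    rw [hP]; exact h
  · obtain ⟨z, hz⟩ := CfsgLib.SymSylow.Largest.exists_z
    let f := CfsgLib.SymSylow.Largest.prodEmb (by omega : 3 ≤ n)
      (P : Subgroup (Equiv.Perm (Fin (n - 3)))).subtype z
    have hf : Function.Injective f :=
      CfsgLib.SymSylow.Largest.prodEmb_injective _ _ _ (Subgroup.subtype_injective _) hz
    have e := MonoidHom.ofInjective hf
    refine ⟨f.range, (Group.isNilpotent_congr e).1
      (CfsgLib.SymSylow.Largest.nilpotent_prod P.isPGroup'), ?_, ⟨e.symm⟩⟩
    rw [← Nat.card_congr e.toEquiv, Nat.card_prod, mul_comm]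
    simp
  · rw [hP] at e₁ e₂
    rcases Nat.lt_or_ge n 7 with h7 | h7
    · obtain rfl : n = 3 := by omega
      refine ⟨1, ?_⟩
      have hv0 : v = 0 := by rw [hv]; simp
      rw [hv0] at e₁ e₂
      have hS : ∀ N : Subgroup (Equiv.Perm (Fin 3)), Nat.card N = 3 * 2 ^ 0 →
          N = alternatingGroup (Fin 3) := fun N hN => by
        refine Equiv.Perm.eq_alternatingGroup_of_index_eq_two ?_
        have := Subgroup.card_mul_index N
        rw [hN, Nat.card_perm, Nat.card_fin, show Nat.factorial 3 = 6 from rfl] at this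
        omega
      rw [hS N₁ e₁, hS N₂ e₂]
      ext x; simp
    obtain ⟨k, hk⟩ : ∃ k, n = 4 * k + 3 := ⟨n / 4, by omega⟩
    have hk4 : 4 * k = n - 3 := by omega
    have hcyc : ∀ (c : Equiv.Perm (Fin n)) (B : Subgroup (Equiv.Perm (Fin n))), orderOf c = 3 →
        Nat.card B = 2 ^ v → B ≤ Subgroup.centralizer {c} → c.IsThreeCycle := by
      intro c B hc hB hBc
      refine CfsgLib.SymSylow.Largest.isThreeCycle_of_centralizes (k := k) (by omega)
        (by rw [Fintype.card_fin, hk]) c hc ((Nat.pow_dvd_pow 2 (Nat.sub_le _ 1)).trans ?_)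
      rw [hk4, ← hv, ← hB]
      exact Subgroup.card_dvd_of_le hBc
    refine CfsgLib.SymSylow.Largest.conj_of_class v (fun c B hc hB hBc => ?_)
      (fun c c' B B' hc hB hBc hc' hB' hBc' => ?_) N₁ N₂ h₁ h₂ e₁ e₂
    · rw [CfsgLib.SymSylow.Largest.factorization_centralizer c (hcyc c B hc hB hBc), Fintype.card_fin]
    · rw [Equiv.Perm.isConj_iff_cycleType_eq, (hcyc c B hc hB hBc).cycleType,
        (hcyc c' B' hc' hB' hBc').cycleType]

end Cfsg.Agent.S2254
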