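import Cfsg.Statements.S2255
import Cfsg.Agent.SymSylow.NilpotentBound

set_option autoImplicit false
open Cfsg

namespace Cfsg.Agent.S2255

/-- Let n be a natural number not congruent to 3 modulo 4, with n ∉ {5, 6, 9}. Then every nilpotent subgroup of the alternating group on n letters has order at most the order of a Sylow 2-subgroup of the alternating group (so the nilpotent subgroups of largest order are exactly the Sylow 2-subgroups). -/
theorem result  (n : ℕ) (hn : n % 4 ≠ 3)
    (h5 : n ≠ 5) (h6 : n ≠ 6) (h9 : n ≠ 9)
    (N : Subgroup (alternatingGroup (Fin n))) (hN : Group.IsNilpotent N)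
    (P : Sylow 2 (alternatingGroup (Fin n))) :
    Nat.card N ≤ Nat.card P := by
  rcases le_or_gt n 1 with h1 | h1
  · have : Subsingleton (Fin n) := Fin.subsingleton_iff_le_one.2 h1
    have : Subsingleton (alternatingGroup (Fin n)) := inferInstance
    rw [Nat.card_of_subsingleton (1 : N)]
    exact Nat.card_pos
  set M := N.map (alternatingGroup (Fin n)).subtype with hM
  have hnil : Group.IsNilpotent M :=
    (Group.isNilpotent_congr (N.equivMapOfInjective _ (Subgroup.subtype_injective _))).1 hN
  have h := (CfsgLib.SymSylow.Nilp.bound n (Fin n) (Fintype.card_fin n) M hnil).2 (by omega)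
    (by rintro _ ⟨x, -, rfl⟩; exact x.2)
  rw [Subgroup.card_map_of_injective (Subgroup.subtype_injective _), CfsgLib.SymSylow.Nilp.hVal,
    if_neg (by omega), if_neg (by omega), if_neg h5, if_neg h6, if_neg h9,
    CfsgLib.SymSylow.Nilp.gVal, if_neg hn, CfsgLib.SymSylow.Nilp.sVal] at h
  have : Nontrivial (Fin n) := Fin.nontrivial_iff_two_le.2 h1
  have hA : 2 * Nat.card (alternatingGroup (Fin n)) = n.factorial := by
    rw [two_mul_nat_card_alternatingGroup, Nat.card_perm, Nat.card_fin]
  have hv : padicValNat 2 n.factorial = 1 + padicValNat 2 (Nat.card (alternatingGroup (Fin n))) := by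
    rw [← hA, padicValNat.mul two_ne_zero Nat.card_pos.ne', padicValNat.self one_lt_two]
  rw [hv, pow_add, pow_one] at h
  rw [P.card_eq_multiplicity, Nat.factorization_def _ Nat.prime_two]
  omega

end Cfsg.Agent.S2255
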