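import Cfsg.Statements.S2256
import Cfsg.Agent.SymSylow.NilpotentBound
import Cfsg.Agent.SymSylow.NilpotentLargest

set_option autoImplicit false
open Cfsg

namespace Cfsg.Agent.S2256

/-- Let n ≡ 3 (mod 4) with n ≥ 7. Then every nilpotent subgroup of the alternating group on n letters has order at most 3 times the order of a Sylow 2-subgroup of the alternating group on n − 3 letters; the bound is attained by a nilpotent subgroup isomorphic to the direct product of such a Sylow 2-subgroup with a cyclic group of order 3; and any two nilpotent subgroups of the alternating group attaining the bound are conjugate in it. -/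
theorem result  (n : ℕ) (hn : n % 4 = 3) (h7 : 7 ≤ n)
    (P : Sylow 2 (alternatingGroup (Fin (n - 3)))) :
    (∀ N : Subgroup (alternatingGroup (Fin n)), Group.IsNilpotent N → Nat.card N ≤ 3 * Nat.card P) ∧
    (∃ M : Subgroup (alternatingGroup (Fin n)), Group.IsNilpotent M ∧ Nat.card M = 3 * Nat.card P ∧
      Nonempty (M ≃* (↥(P : Subgroup (alternatingGroup (Fin (n - 3)))) × Multiplicative (ZMod 3)))) ∧
    (∀ N₁ N₂ : Subgroup (alternatingGroup (Fin n)), Group.IsNilpotent N₁ → Group.IsNilpotent N₂ →
      Nat.card N₁ = 3 * Nat.card P → Nat.card N₂ = 3 * Nat.card P →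
      ∃ g : alternatingGroup (Fin n), N₂ = N₁.map (MulAut.conj g).toMonoidHom) := by
  haveI : Fact (Nat.Prime 2) := ⟨Nat.prime_two⟩
  set v := padicValNat 2 (n - 3).factorial with hv
  have hv1 : 1 ≤ v := (padicValNat_dvd_iff_le (Nat.factorial_ne_zero _)).1
    (by rw [pow_one]; exact Nat.dvd_factorial two_pos (by omega))
  have hP : Nat.card P = 2 ^ (v - 1) := by
    haveI : Nontrivial (Fin (n - 3)) := Fin.nontrivial_iff_two_le.2 (by omega)
    have hA : 2 * Nat.card (alternatingGroup (Fin (n - 3))) = (n - 3).factorial := by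
      rw [two_mul_nat_card_alternatingGroup, Nat.card_perm, Nat.card_fin]
    have hval : v = 1 + padicValNat 2 (Nat.card (alternatingGroup (Fin (n - 3)))) := by
      rw [hv, ← hA, padicValNat.mul two_ne_zero Nat.card_pos.ne', padicValNat.self one_lt_two]
    rw [P.card_eq_multiplicity, Nat.factorization_def _ Nat.prime_two]
    congr 1
    omega
  refine ⟨fun N hN => ?_, ?_, fun N₁ N₂ h₁ h₂ e₁ e₂ => ?_⟩
  · set M := N.map (alternatingGroup (Fin n)).subtype with hM
    have hnil : Group.IsNilpotent M :=
      (Group.isNilpotent_congr (N.equivMapOfInjective _ (Subgroup.subtype_injective _))).1 hN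
    have h := (CfsgLib.SymSylow.Nilp.bound n (Fin n) (Fintype.card_fin n) M hnil).2 (by omega)
      (by rintro _ ⟨x, -, rfl⟩; exact x.2)
    rw [Subgroup.card_map_of_injective (Subgroup.subtype_injective _), CfsgLib.SymSylow.Nilp.hVal,
      if_neg (by omega), if_neg (by omega), if_neg (by omega), if_neg (by omega), if_neg (by omega),
      CfsgLib.SymSylow.Nilp.gVal, if_pos hn, CfsgLib.SymSylow.Nilp.sVal, ← hv,
      ← Nat.sub_add_cancel hv1, pow_succ] at h
    rw [hP]
    omega
  · obtain ⟨z, hz⟩ := CfsgLib.SymSylow.Largest.exists_z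
    let ι := (alternatingGroup (Fin (n - 3))).subtype.comp
      (P : Subgroup (alternatingGroup (Fin (n - 3)))).subtype
    let f₀ := CfsgLib.SymSylow.Largest.prodEmb (by omega : 3 ≤ n) ι z
    have hmem : ∀ x, f₀ x ∈ alternatingGroup (Fin n) := fun x => by
      rw [Equiv.Perm.mem_alternatingGroup, CfsgLib.SymSylow.Largest.sign_prodEmb]
      exact Equiv.Perm.mem_alternatingGroup.1 ((x.1 : alternatingGroup (Fin (n - 3)))).2
    let f := f₀.codRestrict (alternatingGroup (Fin n)) hmem
    have hf : Function.Injective f := fun x y h =>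
      CfsgLib.SymSylow.Largest.prodEmb_injective _ ι z
        (Subtype.val_injective.comp Subtype.val_injective) hz (congrArg Subtype.val h)
    have e := MonoidHom.ofInjective hf
    refine ⟨f.range, (Group.isNilpotent_congr e).1
      (CfsgLib.SymSylow.Largest.nilpotent_prod P.isPGroup'), ?_, ⟨e.symm⟩⟩
    rw [← Nat.card_congr e.toEquiv, Nat.card_prod, mul_comm]
    simp
  · rw [hP] at e₁ e₂
    obtain ⟨k, hk⟩ : ∃ k, n = 4 * k + 3 := ⟨n / 4, by omega⟩
    have hk4 : 4 * k = n - 3 := by omega
    have hcyc : ∀ (c : alternatingGroup (Fin n)) (B : Subgroup (alternatingGroup (Fin n))),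
        orderOf c = 3 → Nat.card B = 2 ^ (v - 1) → B ≤ Subgroup.centralizer {c} →
        (c : Equiv.Perm (Fin n)).IsThreeCycle := by
      intro c B hc hB hBc
      refine CfsgLib.SymSylow.Largest.isThreeCycle_of_centralizes (k := k) (by omega)
        (by rw [Fintype.card_fin, hk]) (c : Equiv.Perm (Fin n)) (by rw [Subgroup.orderOf_coe, hc]) ?_
      have hcard := Subgroup.card_map_of_injective (K := B)
        (f := (alternatingGroup (Fin n)).subtype) (Subgroup.subtype_injective _)
      rw [hk4, ← hv, ← hB, ← hcard]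
      refine Subgroup.card_dvd_of_le ?_
      rintro _ ⟨b, hb, rfl⟩
      rw [Subgroup.mem_centralizer_singleton_iff]
      exact congrArg Subtype.val (Subgroup.mem_centralizer_singleton_iff.1 (hBc hb))
    refine CfsgLib.SymSylow.Largest.conj_of_class (v - 1) (fun c B hc hB hBc => ?_)
      (fun c c' B B' hc hB hBc hc' hB' hBc' => ?_) N₁ N₂ h₁ h₂ e₁ e₂
    · rw [CfsgLib.SymSylow.Largest.factorization_centralizer_alt (by rw [Fintype.card_fin]; omega) c
        (hcyc c B hc hB hBc), Fintype.card_fin]
    · exact alternatingGroup.isThreeCycle_isConj (by rw [Nat.card_fin]; omega)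
        (hcyc c B hc hB hBc) (hcyc c' B' hc' hB' hBc')

end Cfsg.Agent.S2256
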