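import Cfsg.Statements.S2258
import Cfsg.Agent.PSLSolub.Count

set_option autoImplicit false
open Cfsg

namespace Cfsg.Agent.S2258

open CfsgLib CfsgLib.SL2 CfsgLib.PSLSolub Matrix
open scoped MatrixGroups

/-- Let G = PSL_2(F) with F a field of order q = 3^p, p an odd prime, and for x ∈ G call the solubilizer of x the set of y ∈ G such that x and y generate a solvable subgroup. Then the solubilizer of an involution has q(q + 1) elements; that of an element of order 3 has q(q + 5)/2 elements; that of an element of order neither 1 nor 2 dividing q − 1 has q(q − 1) elements; and that of an element of order neither 1 nor 2 dividing q + 1 has q + 1 elements. -/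
theorem result (p : ℕ) (hp : p.Prime) (hodd : Odd p) {F : Type*} [Field F] [Fintype F]
    (hF : Fintype.card F = 3 ^ p) (x : Matrix.ProjectiveSpecialLinearGroup (Fin 2) F) :
    (orderOf x = 2 → Nat.card {y : Matrix.ProjectiveSpecialLinearGroup (Fin 2) F // Group.IsSolvable ↥(Subgroup.closure ({x, y} : Set (Matrix.ProjectiveSpecialLinearGroup (Fin 2) F)))} = 3 ^ p * (3 ^ p + 1)) ∧
    (orderOf x = 3 → 2 * Nat.card {y : Matrix.ProjectiveSpecialLinearGroup (Fin 2) F // Group.IsSolvable ↥(Subgroup.closure ({x, y} : Set (Matrix.ProjectiveSpecialLinearGroup (Fin 2) F)))} = 3 ^ p * (3 ^ p + 5)) ∧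
    (x ≠ 1 → orderOf x ≠ 2 → orderOf x ∣ 3 ^ p - 1 → Nat.card {y : Matrix.ProjectiveSpecialLinearGroup (Fin 2) F // Group.IsSolvable ↥(Subgroup.closure ({x, y} : Set (Matrix.ProjectiveSpecialLinearGroup (Fin 2) F)))} = 3 ^ p * (3 ^ p - 1)) ∧
    (x ≠ 1 → orderOf x ≠ 2 → orderOf x ∣ 3 ^ p + 1 → Nat.card {y : Matrix.ProjectiveSpecialLinearGroup (Fin 2) F // Group.IsSolvable ↥(Subgroup.closure ({x, y} : Set (Matrix.ProjectiveSpecialLinearGroup (Fin 2) F)))} = 3 ^ p + 1) := by
  classical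
  have := charP_three hp hF
  have : Fact (Nat.Prime 3) := ⟨Nat.prime_three⟩
  have h3 : (3 : F) = 0 := CharP.cast_eq_zero F 3
  have h2 := two_ne_zero' hp hF
  have h4 : (4 : F) = 1 := by linear_combination h3

  obtain ⟨g, rfl⟩ := pmk_surjective x
  have hsol := two_mul_card hp hodd hF g
  have hq3 : 3 ≤ 3 ^ p := Nat.le_self_pow hp.ne_zero 3
  have h3p : 3 ∣ 3 ^ p := dvd_pow_self 3 hp.ne_zero
  have hgcd : ∀ d, d ∣ 3 ^ p - 1 → d ∣ 3 ^ p + 1 → d = 1 ∨ d = 2 := fun d h1 h1' => by
    have hd : d ∣ 2 := by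
      have := Nat.dvd_sub h1' h1
      rwa [show 3 ^ p + 1 - (3 ^ p - 1) = 2 by omega] at this
    exact (Nat.dvd_prime Nat.prime_two).1 hd
  -- semisimple elements
  have semis : pmk g ≠ 1 → orderOf (pmk g) ≠ 2 → ¬ 3 ∣ orderOf (pmk g) →
      tr g ^ 2 ≠ 4 ∧ tr g ≠ 0 ∧ tr g ^ 3 ≠ tr g := by
    intro h1 ho h3d
    have ht : tr g ^ 2 ≠ 4 := by
      intro ht
      have hh : (pmk g) ^ (2 * 3) = 1 := by rw [← map_pow, pow_two_mul_char_eq_one ht, map_one]
      have hd := orderOf_dvd_of_pow_eq_one hh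
      have hle := Nat.le_of_dvd (by norm_num) hd
      have hne1 : orderOf (pmk g) ≠ 1 := fun e => h1 (orderOf_eq_one_iff.1 e)
      interval_cases orderOf (pmk g) <;> omega
    have ht0 : tr g ≠ 0 := fun e => ho ((orderOf_pmk_eq_two_iff h2).2 e)
    refine ⟨ht, ht0, fun e => ?_⟩
    have : tr g * (tr g ^ 2 - 1) = 0 := by linear_combination e
    exact ht (by rw [sub_eq_zero.1 ((mul_eq_zero.1 this).resolve_left ht0), h4])
  have hdvd : orderOf (pmk g) ∣ orderOf g := orderOf_map_dvd pmk g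
  refine ⟨fun ho => ?_, fun ho => ?_, fun h1 ho hd => ?_, fun h1 ho hd => ?_⟩
  · have ht := (orderOf_pmk_eq_two_iff h2).1 ho
    obtain ⟨c, hc⟩ := isConj_iff.1 (isConj_of_tr_eq (tr_zero_sq_ne_four h2 ht) (ht.trans tr_w.symm))
    rw [← num_conj c g, hc, num_involution hp hodd hF, hF] at hsol
    exact Nat.eq_of_mul_eq_mul_left two_pos hsol
  · have ht2 : tr g ^ 2 = 4 := by
      have hh : pmk (g * g * g) = 1 := by
        rw [map_mul, map_mul, ← pow_two, ← pow_succ, show 2 + 1 = 3 from rfl, ← ho, pow_orderOf_eq_one]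
      have h := tr_mul_self_mul g
      rcases pmk_eq_one_iff.1 hh with e | e <;> rw [e] at h
      · rw [tr_one'] at h
        have : (tr g - 2) ^ 3 = 0 := by linear_combination -h + (-2 * tr g ^ 2 + 5 * tr g - 2) * h3
        rw [sub_eq_zero.1 ((pow_eq_zero_iff (by norm_num)).1 this)]; ring
      · rw [tr_neg', tr_one'] at h
        have : (tr g + 2) ^ 3 = 0 := by linear_combination -h + (2 * tr g ^ 2 + 5 * tr g + 2) * h3
        rw [eq_neg_of_add_eq_zero_left ((pow_eq_zero_iff (by norm_num)).1 this)]; ring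
    have hg1 : ∀ g' : SL(2, F), (g' = g ∨ g' = -g) → g' ≠ 1 := fun g' hg' e => by
      have : pmk g = 1 := by
        rcases hg' with rfl | rfl
        · rw [e, map_one]
        · exact pmk_eq_one_iff.2 (Or.inr (neg_eq_iff_eq_neg.1 e))
      rw [this, orderOf_one] at ho; omega
    obtain ⟨g', hg', htg'⟩ : ∃ g' : SL(2, F), (g' = g ∨ g' = -g) ∧ tr g' = 2 := by
      have : (tr g - 2) * (tr g + 2) = 0 := by linear_combination ht2
      rcases mul_eq_zero.1 this with e | e
      · exact ⟨g, Or.inl rfl, sub_eq_zero.1 e⟩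
      · exact ⟨-g, Or.inr rfl, by rw [tr_neg', eq_neg_of_add_eq_zero_left e, neg_neg]⟩
    have hn : num g' = num g := by rcases hg' with rfl | rfl <;> [rfl; exact num_neg g]
    obtain ⟨s, hs, hc⟩ := exists_isConj_u (hg1 g' hg') htg'
    obtain ⟨c, hc⟩ := isConj_iff.1 hc
    rw [← hn, ← num_conj c g', hc, num_unipotent hp hodd hF hs, hF] at hsol
    exact hsol
  · obtain ⟨ht, ht0, ht3⟩ := semis h1 ho (fun h => by
      obtain ⟨a, ha⟩ := h.trans hd; obtain ⟨b, hb⟩ := h3p; omega)
    have hs : IsSplitTrace (tr g) := by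
      by_contra hs
      have := hdvd.trans (orderOf_dvd_nonsplit hs)
      rw [hF] at this
      rcases hgcd _ hd this with e | e
      exacts [h1 (orderOf_eq_one_iff.1 e), ho e]
    obtain ⟨a, -, hc⟩ := exists_isConj_d ht hs
    have hta := tr_eq_of_isConj hc
    obtain ⟨c, hc⟩ := isConj_iff.1 hc
    rw [← num_conj c g, hc, num_split hp hodd hF a (hta ▸ ht0) (hta ▸ ht3), hF] at hsol
    exact Nat.eq_of_mul_eq_mul_left two_pos hsol
  · obtain ⟨ht, ht0, ht3⟩ := semis h1 ho (fun h => by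
      obtain ⟨a, ha⟩ := h.trans hd; obtain ⟨b, hb⟩ := h3p; omega)
    have hs : ¬ IsSplitTrace (tr g) := by
      intro hs
      have := hdvd.trans (orderOf_dvd_split ht hs)
      rw [hF] at this
      rcases hgcd _ this hd with e | e
      exacts [h1 (orderOf_eq_one_iff.1 e), ho e]
    -- the nonsplit normal form
    have hsq : ¬ IsSquare (tr g ^ 2 - 4) := by
      rintro ⟨r, hr⟩
      refine hs (isSplitTrace_iff_root.2 ⟨(tr g + r) / 2, ?_⟩)
      field_simp
      linear_combination -hr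
    obtain ⟨r, hr⟩ := Sl2Classes.isSquare_mul_of_not (not_isSquare_neg_one hp hodd hF) hsq
    have hx3 : (2 * (tr g / 2)) ^ 3 ≠ 2 * (tr g / 2) := by rwa [mul_div_cancel₀ _ h2]
    have hxy : tr g / 2 * (tr g / 2) - r / 2 * (-(r / 2)) = 1 := by
      field_simp
      linear_combination -hr
    have hr0 : r ≠ 0 := fun e => by
      rw [e, mul_zero, mul_eq_zero] at hr
      rcases hr with h | h
      · exact one_ne_zero (neg_eq_zero.1 h)
      · exact ht (sub_eq_zero.1 h)
    have htr : tr g = tr (mk4 (tr g / 2) (r / 2) (-(r / 2)) (tr g / 2) hxy) := by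
      simp [tr]; field_simp; ring
    obtain ⟨c, hc⟩ := isConj_iff.1 (isConj_of_tr_eq ht htr)
    rw [← num_conj c g, hc, num_nonsplit hp hodd hF hxy (div_ne_zero hr0 h2) (div_ne_zero ht0 h2) hx3, hF] at hsol
    exact Nat.eq_of_mul_eq_mul_left two_pos hsol

end Cfsg.Agent.S2258
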