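import Cfsg.Statements.S2268
-- import your own Cfsg.Agent.* helpers here

set_option autoImplicit false
open Cfsg

namespace Cfsg.Agent.S2268

/-- Let G be a finite group with an abelian Sylow p-subgroup P and let Q ≤ P. Then N_G(Q) = (N_G(Q) ∩ N_G(P))·C_G(Q), so that N_G(Q)/C_G(Q) is a homomorphic image of the subgroup (N_G(Q) ∩ N_G(P))/C_G(P) of N_G(P)/C_G(P); in particular the order of N_G(Q)/C_G(Q) divides the order of N_G(P)/C_G(P). -/
theorem result {G : Type*} [Group G] [Finite G] {p : ℕ} [Fact p.Prime]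
    (P : Sylow p G) (hP : IsMulCommutative (P : Subgroup G)) (Q : Subgroup G) (hQ : Q ≤ (P : Subgroup G)) :
    Subgroup.normalizer (Q : Set G) =
      (Subgroup.normalizer (Q : Set G) ⊓ Subgroup.normalizer ((P : Subgroup G) : Set G)) ⊔ Subgroup.centralizer (Q : Set G) ∧
    ((Subgroup.centralizer (Q : Set G)).subgroupOf (Subgroup.normalizer (Q : Set G))).index ∣ ((Subgroup.centralizer ((P : Subgroup G) : Set G)).subgroupOf (Subgroup.normalizer ((P : Subgroup G) : Set G))).index := by
  have hPQ : (P : Subgroup G) ≤ Subgroup.centralizer (Q : Set G) := by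
    intro x hx y hy
    have := hP.is_comm.comm ⟨y, hQ hy⟩ ⟨x, hx⟩
    exact congrArg Subtype.val this
  have hCN : Subgroup.centralizer (Q : Set G) ≤ Subgroup.normalizer (Q : Set G) :=
    Subgroup.centralizer_le_normalizer _
  have heq : Subgroup.normalizer (Q : Set G) =
      (Subgroup.normalizer (Q : Set G) ⊓ Subgroup.normalizer ((P : Subgroup G) : Set G)) ⊔
        Subgroup.centralizer (Q : Set G) := by
    refine le_antisymm ?_ (sup_le inf_le_left hCN)
    intro n hn
    have h2 : ((n • P : Sylow p G) : Subgroup G) ≤ Subgroup.centralizer (Q : Set G) := by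
      rintro - ⟨z, hz, rfl⟩
      intro y hy
      have hy' : n⁻¹ * y * n ∈ (Q : Subgroup G) := by
        have := (Subgroup.mem_normalizer_iff.1 (inv_mem hn) y).1 hy
        simpa using this
      have := hPQ hz (n⁻¹ * y * n) hy'
      simp only [MulDistribMulAction.toMonoidEnd_apply, MulDistribMulAction.toMonoidHom_apply,
        MulAut.smul_def, MulAut.conj_apply]
      calc y * (n * z * n⁻¹) = n * ((n⁻¹ * y * n) * z) * n⁻¹ := by group
        _ = n * (z * (n⁻¹ * y * n)) * n⁻¹ := by rw [this]
        _ = n * z * n⁻¹ * y := by group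
    obtain ⟨h, hh⟩ := MulAction.exists_smul_eq (Subgroup.centralizer (Q : Set G))
      ((n • P).subtype h2) (P.subtype hPQ)
    simp_rw [Sylow.smul_subtype, Subgroup.smul_def, smul_smul] at hh
    have hmem : (h : G) * n ∈ Subgroup.normalizer ((P : Subgroup G) : Set G) :=
      Sylow.smul_eq_iff_mem_normalizer.mp (Sylow.subtype_injective hh)
    have h1 : (h : G) * n ∈ Subgroup.normalizer (Q : Set G) := mul_mem (hCN h.2) hn
    have : n = (h : G)⁻¹ * ((h : G) * n) := by group
    rw [this]
    exact mul_mem (inv_mem (Subgroup.mem_sup_right h.2))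
      (Subgroup.mem_sup_left ⟨h1, hmem⟩)
  refine ⟨heq, ?_⟩
  set NQ := Subgroup.normalizer (Q : Set G)
  set NP := Subgroup.normalizer ((P : Subgroup G) : Set G)
  set CQ := Subgroup.centralizer (Q : Set G)
  set CP := Subgroup.centralizer ((P : Subgroup G) : Set G)
  have hCPQ : CP ≤ CQ := Subgroup.centralizer_le hQ
  have hCPM : CP ≤ NQ ⊓ NP := le_inf (hCPQ.trans hCN) (Subgroup.centralizer_le_normalizer _)
  show CQ.relIndex NQ ∣ CP.relIndex NP
  haveI hn : (CQ.subgroupOf NQ).Normal := Subgroup.normal_subgroupOf_centralizer_normalizer _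
  have e1 : CQ.relIndex NQ = CQ.relIndex (NQ ⊓ NP) := by
    have hsup : (NQ ⊓ NP).subgroupOf NQ ⊔ CQ.subgroupOf NQ = ⊤ := by
      rw [← Subgroup.subgroupOf_sup inf_le_left hCN, ← heq, Subgroup.subgroupOf_self]
    have h1 := Subgroup.relIndex_sup_right ((NQ ⊓ NP).subgroupOf NQ) (CQ.subgroupOf NQ)
    rw [hsup, Subgroup.relIndex_top_right, Subgroup.relIndex_subgroupOf inf_le_left] at h1
    exact h1
  rw [e1]
  exact (Subgroup.relIndex_dvd_of_le_left _ hCPQ).trans
    (Dvd.intro _ (Subgroup.relIndex_mul_relIndex _ _ _ hCPM inf_le_right))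

end Cfsg.Agent.S2268
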