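import Cfsg.Statements.S2270
import Cfsg.Agent.Fusion.AbelianSylowReal

set_option autoImplicit false
open Cfsg

namespace Cfsg.Agent.S2270

/-- Let n ≥ 3, p an odd prime, and P an abelian Sylow p-subgroup of the symmetric group S_n (with p dividing n!, so that P ≠ 1). Then N(P)/C(P) has even order. -/
theorem result (n : ℕ) (hn : 3 ≤ n) {p : ℕ} [Fact p.Prime] (hp : p ≠ 2) (hpn : p ≤ n)
    (P : Sylow p (Equiv.Perm (Fin n))) (hP : IsMulCommutative (P : Subgroup (Equiv.Perm (Fin n)))) :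
    2 ∣ ((Subgroup.centralizer ((P : Subgroup (Equiv.Perm (Fin n))) : Set (Equiv.Perm (Fin n)))).subgroupOf (Subgroup.normalizer ((P : Subgroup (Equiv.Perm (Fin n))) : Set (Equiv.Perm (Fin n))))).index := by
  have hpp := (Fact.out : p.Prime)
  have hdvd : p ∣ Nat.card (P : Subgroup (Equiv.Perm (Fin n))) :=
    P.dvd_card_of_dvd_card (by
      rw [Nat.card_perm, Nat.card_eq_fintype_card, Fintype.card_fin]
      exact Nat.dvd_factorial hpp.pos hpn)
  obtain ⟨x, hx⟩ := exists_prime_orderOf_dvd_card' p hdvd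
  have hxo : orderOf (x : Equiv.Perm (Fin n)) = p := by rw [Subgroup.orderOf_coe, hx]
  refine CfsgLib.Fusion.two_dvd_automizer_of_real P hP x.2 ?_ ?_
  · intro h
    have h2 : (x : Equiv.Perm (Fin n)) ^ 2 = 1 := by
      rw [pow_two]; nth_rw 1 [← h]; exact inv_mul_cancel _
    have h3 := Nat.le_of_dvd (by norm_num) (orderOf_dvd_of_pow_eq_one h2)
    have := hpp.two_le
    omega
  · rw [Equiv.Perm.isConj_iff_cycleType_eq, Equiv.Perm.cycleType_inv]

end Cfsg.Agent.S2270
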