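import Cfsg.Statements.S2278
import Cfsg.Agent.SLRegGen.Three
import Cfsg.Agent.SLRegGen.TwoThree
import Cfsg.Agent.SLRegGen.TwoThreeFour

set_option autoImplicit false
open Cfsg

namespace Cfsg.Agent.S2278

/-- Let F be a finite field. Then SL_3(F) is generated by two conjugate regular unipotent elements: there are u with u − 1 nilpotent and (u − 1)² ≠ 0, and g, such that u and g u g⁻¹ generate SL_3(F). -/
theorem result {F : Type*} [Field F] [Fintype F] :
    ∃ u g : Matrix.SpecialLinearGroup (Fin 3) F, IsNilpotent ((u : Matrix (Fin 3) (Fin 3) F) - 1) ∧ ((u : Matrix (Fin 3) (Fin 3) F) - 1) ^ (3 - 1) ≠ 0 ∧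
      Subgroup.closure ({u, g * u * g⁻¹} : Set (Matrix.SpecialLinearGroup (Fin 3) F)) = ⊤ := by
  classical
  obtain ⟨g0, hg0⟩ := IsCyclic.exists_generator (α := Fˣ)
  set a : F := (g0 : F) with ha
  have ha0 : a ≠ 0 := g0.ne_zero
  have hord : orderOf a = Fintype.card F - 1 := by
    rw [ha, orderOf_units, orderOf_eq_card_of_forall_mem_zpowers hg0, Nat.card_eq_fintype_card,
      Fintype.card_units]
  have hgen : ∀ c : F, c ≠ 0 → ∃ k : ℕ, a ^ k = c := by
    intro c hc
    obtain ⟨k, hk⟩ := (mem_powers_iff_mem_zpowers.2 (hg0 (Units.mk0 c hc)) :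
      Units.mk0 c hc ∈ Submonoid.powers g0)
    exact ⟨k, by simpa [ha] using congrArg Units.val hk⟩
  by_cases ha3 : a ^ 3 ≠ 1
  · have ha1 : a ≠ 1 := fun e => ha3 (by rw [e, one_pow])
    set u := CfsgLib.SLRegGen.up3 F with hu
    set g := CfsgLib.SLRegGen.gElt a ha0 ha1 with hg
    have hN : ((u : Matrix (Fin 3) (Fin 3) F) - 1) = !![0, 1, 0; 0, 0, 1; 0, 0, 0] := by
      ext i j
      fin_cases i <;> fin_cases j <;> simp [hu, CfsgLib.SLRegGen.up3]
    refine ⟨u, g, ⟨3, ?_⟩, ?_, ?_⟩
    · rw [hN, pow_succ, pow_two]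
      ext i j
      fin_cases i <;> fin_cases j <;> simp [Matrix.mul_fin_three]
    · rw [hN, show 3 - 1 = 2 from rfl, pow_two, Matrix.mul_fin_three]
      intro h
      have := congrFun (congrFun h 0) 2
      simp at this
    · refine CfsgLib.SLRegGen.eq_top_of_up3_sElt a ha0 hord ha3
        (Subgroup.subset_closure (by simp [hu])) ?_
      rw [CfsgLib.SLRegGen.sElt_eq a ha0 ha1]
      exact Subgroup.mul_mem _ (Subgroup.subset_closure (by simp [hu]))
        (Subgroup.subset_closure (by simp [hu, hg]))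
  rw [not_not] at ha3
  by_cases ha1 : a = 1
  · -- two elements
    have h2 : (1 : F) + 1 = 0 := by
      by_contra h
      obtain ⟨k, hk⟩ := hgen (1 + 1) h
      rw [ha1, one_pow] at hk
      have : (1 : F) = 0 := by linear_combination -hk
      exact one_ne_zero this
    set u := CfsgLib.SLRegGen.up F 2 with hu
    refine ⟨u, CfsgLib.SLRegGen.twist F 2, CfsgLib.SLRegGen.up_isNilpotent,
      CfsgLib.SLRegGen.up_regular, ?_⟩
    rw [← CfsgLib.SLRegGen.low_inv_eq_conj]
    set K := Subgroup.closure ({u, (CfsgLib.SLRegGen.low F 2)⁻¹} :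
      Set (Matrix.SpecialLinearGroup (Fin 3) F))
    have k1 : u ∈ K := Subgroup.subset_closure (by simp)
    have k2 : CfsgLib.SLRegGen.low F 2 ∈ K := by
      have : (CfsgLib.SLRegGen.low F 2)⁻¹ ∈ K := Subgroup.subset_closure (by simp)
      simpa using K.inv_mem this
    refine CfsgLib.SLRegGen.eq_top_of_up_low_transvection k1 k2 le_rfl hgen ha0 fun h => ?_
    have e : Matrix.SpecialLinearGroup.transvection h a = u * u := by
      apply Subtype.ext
      rw [Matrix.SpecialLinearGroup.coe_mul, Matrix.SpecialLinearGroup.transvection_coe]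
      ext i j
      fin_cases i <;> fin_cases j <;>
        simp [hu, CfsgLib.SLRegGen.up_coe, CfsgLib.SLRegGen.upMat_apply, Matrix.mul_apply,
          Fin.sum_univ_three, ha1, h2]
    rw [e]
    exact K.mul_mem k1 k1
  -- four elements
  have hq : Fintype.card F - 1 = 3 := by
    rw [← hord]
    exact orderOf_eq_prime ha3 ha1
  have hcard : Fintype.card F = 4 := by omega
  haveI : CharP F 2 := by
    obtain ⟨p, hp⟩ := CharP.exists F
    haveI := hp
    obtain ⟨n, hpp, hn⟩ := FiniteField.card F p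
    have : p ∣ 4 := by rw [← hcard, hn]; exact dvd_pow_self p n.pos.ne'
    have hle : p ≤ 4 := Nat.le_of_dvd (by norm_num) this
    have h2 := hpp.two_le
    interval_cases p
    · exact hp
    · norm_num at this
    · norm_num at hpp
  have h2 : (1 : F) + 1 = 0 := by
    rw [one_add_one_eq_two]
    exact CharTwo.two_eq_zero
  have haa : a * a = 1 + a := by
    have hm : (a - 1) * (a * a + a + 1) = 0 := by linear_combination ha3
    have := (mul_eq_zero.1 hm).resolve_left (sub_ne_zero.2 ha1)
    linear_combination this - (a + 1) * h2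
  have hF : ∀ c : F, c = 0 ∨ c = 1 ∨ c = a ∨ c = 1 + a := by
    intro c
    by_cases hc : c = 0
    · exact Or.inl hc
    obtain ⟨k, hk⟩ := hgen c hc
    rw [← Nat.mod_add_div k 3, pow_add, pow_mul, ha3, one_pow, mul_one] at hk
    have : k % 3 < 3 := Nat.mod_lt _ (by norm_num)
    interval_cases h : k % 3
    · exact Or.inr (Or.inl (by simpa using hk.symm))
    · exact Or.inr (Or.inr (Or.inl (by simpa using hk.symm)))
    · exact Or.inr (Or.inr (Or.inr (by rw [← hk, pow_two, haa])))
  set f := CfsgLib.SLRegGen.fourSL a haa with hf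
  have hN : ((f CfsgLib.SLRegGen.uFour : Matrix (Fin 3) (Fin 3) F) - 1) =
      !![0, 1, 0; 0, 0, 1; 0, 0, 0] := by
    rw [hf]
    simp only [CfsgLib.SLRegGen.fourSL, Matrix.SpecialLinearGroup.map_apply_coe,
      RingHom.mapMatrix_apply]
    simp only [CfsgLib.SLRegGen.uFour]
    ext i j
    fin_cases i <;> fin_cases j <;> simp
  refine ⟨f CfsgLib.SLRegGen.uFour, f CfsgLib.SLRegGen.gFour, ⟨3, ?_⟩, ?_, ?_⟩
  · rw [hN, pow_succ, pow_two]
    ext i j
    fin_cases i <;> fin_cases j <;> simp [Matrix.mul_fin_three]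
  · rw [hN, show 3 - 1 = 2 from rfl, pow_two, Matrix.mul_fin_three]
    intro h
    have := congrFun (congrFun h 0) 2
    simp at this
  · rw [← map_mul, CfsgLib.SLRegGen.gFour_mul_uFour, map_mul, mul_inv_cancel_right]
    exact CfsgLib.SLRegGen.eq_top_four a haa hF (Subgroup.subset_closure (by simp [hf]))
      (Subgroup.subset_closure (by simp [hf]))

end Cfsg.Agent.S2278
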