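import Cfsg.Statements.S2280
import Cfsg.Agent.SLRegGen.Three

set_option autoImplicit false
open Cfsg

namespace Cfsg.Agent.S2280

/-- Let F be a finite field and n ≥ 3. Then SL_n(F) is generated by three conjugate regular unipotent elements: there are u with u − 1 nilpotent and (u − 1)^(n−1) ≠ 0, and g, h, such that u, g u g⁻¹ and h u h⁻¹ generate SL_n(F). -/
theorem result {F : Type*} [Field F] [Fintype F] (n : ℕ) (hn : 3 ≤ n) :
    ∃ u g h : Matrix.SpecialLinearGroup (Fin n) F, (IsNilpotent ((u : Matrix (Fin n) (Fin n) F) - 1) ∧ ((u : Matrix (Fin n) (Fin n) F) - 1) ^ (n - 1) ≠ 0) ∧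
      Subgroup.closure ({u, g * u * g⁻¹, h * u * h⁻¹} : Set (Matrix.SpecialLinearGroup (Fin n) F)) = ⊤ := by
  classical
  obtain ⟨l, rfl⟩ : ∃ l, n = l + 1 := ⟨n - 1, by omega⟩
  obtain ⟨g0, hg0⟩ := IsCyclic.exists_generator (α := Fˣ)
  set a : F := (g0 : F) with ha
  have hgen : ∀ c : F, c ≠ 0 → ∃ k : ℕ, a ^ k = c := by
    intro c hc
    obtain ⟨k, hk⟩ := (mem_powers_iff_mem_zpowers.2 (hg0 (Units.mk0 c hc)) :
      Units.mk0 c hc ∈ Submonoid.powers g0)
    exact ⟨k, by simpa [ha] using congrArg Units.val hk⟩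
  have ha0 : a ≠ 0 := g0.ne_zero
  have hl : 2 ≤ l := by omega
  set I : Fin (l + 1) := ⟨1, by omega⟩ with hI
  have hIL : I ≠ Fin.last l := by
    rw [Ne, Fin.ext_iff]
    simp [hI]
    omega
  have h0L : (0 : Fin (l + 1)) ≠ Fin.last l := by
    rw [Ne, Fin.ext_iff]
    simp
    omega
  set x := Matrix.SpecialLinearGroup.transvection hIL a with hx
  set x0 := Matrix.SpecialLinearGroup.transvection h0L a with hx0
  set u := CfsgLib.SLRegGen.up F l with hu
  have hsplit : u * x = x * x0 * u := by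
    refine CfsgLib.SLRegGen.conj_transvection_split _ hIL h0L a ?_ ?_
    · exact CfsgLib.SLRegGen.upMat_mulVec_single I 0 (by simp [hI])
    · exact CfsgLib.SLRegGen.single_last_vecMul_upMat
  refine ⟨u, CfsgLib.SLRegGen.twist F l, x⁻¹,
    ⟨CfsgLib.SLRegGen.up_isNilpotent, ?_⟩, ?_⟩
  · rw [show l + 1 - 1 = l from rfl]
    exact CfsgLib.SLRegGen.up_regular
  have hc : x⁻¹ * u * x⁻¹⁻¹ = x0 * u := by
    rw [inv_inv, mul_assoc, hsplit]
    group
  rw [← CfsgLib.SLRegGen.low_inv_eq_conj, hc]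
  set K := Subgroup.closure ({u, (CfsgLib.SLRegGen.low F l)⁻¹, x0 * u} :
    Set (Matrix.SpecialLinearGroup (Fin (l + 1)) F))
  have h1 : u ∈ K := Subgroup.subset_closure (by simp)
  have h2 : CfsgLib.SLRegGen.low F l ∈ K := by
    have : (CfsgLib.SLRegGen.low F l)⁻¹ ∈ K := Subgroup.subset_closure (by simp)
    simpa using K.inv_mem this
  have h3 : x0 ∈ K := by
    have : x0 * u ∈ K := Subgroup.subset_closure (by simp)
    simpa using K.mul_mem this (K.inv_mem h1)
  exact CfsgLib.SLRegGen.eq_top_of_up_low_transvection h1 h2 hl hgen ha0 fun _ => h3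

end Cfsg.Agent.S2280
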