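import Cfsg.Statements.S2282
import Cfsg.Agent.SURegGen.Three
import Cfsg.Agent.SURegGen.OddTwo

set_option autoImplicit false
open Cfsg

namespace Cfsg.Agent.S2282

/-- Let F be a field with q² elements, n ≥ 3 odd with (n, q) ≠ (3, 2), and SU_n(q) the special unitary group of the standard Hermitian form Σ u_i v_i^q. Then SU_n(q) is generated by three conjugate regular unipotent elements: there are u ∈ SU_n(q) with u − 1 nilpotent and (u − 1)^(n−1) ≠ 0, and g, h ∈ SU_n(q), such that u, g u g⁻¹ and h u h⁻¹ generate SU_n(q). -/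
theorem result {F : Type*} [Field F] [Fintype F] (q : ℕ) (hF : Fintype.card F = q ^ 2) (n : ℕ) (hn : 3 ≤ n) (hodd : Odd n) (h32 : ¬ (n = 3 ∧ q = 2)) :
    ∃ u g h : ↥(Cfsg.SU n F q), (IsNilpotent (((u : Matrix.SpecialLinearGroup (Fin n) F) : Matrix (Fin n) (Fin n) F) - 1) ∧ (((u : Matrix.SpecialLinearGroup (Fin n) F) : Matrix (Fin n) (Fin n) F) - 1) ^ (n - 1) ≠ 0) ∧
      Subgroup.closure ({u, g * u * g⁻¹, h * u * h⁻¹} : Set ↥(Cfsg.SU n F q)) = ⊤ := by
  obtain ⟨σ, hσ, hf⟩ := CfsgLib.LinAlg.Witt.exists_isUnitaryForm_hermForm (n := n) hF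
  obtain ⟨u, E, D, c, R, hnil, hne⟩ := CfsgLib.SURegGen.exists_regular_SU (n := n) hF hf hn
  have hud : ((CfsgLib.SURegGen.toG u : GL (Fin n) F) : Matrix (Fin n) (Fin n) F).det = 1 := u.1.2
  have hq := CfsgLib.Unitary.two_le_q hF
  have key : CfsgLib.SURegGen.ThreeCentres hf (CfsgLib.SURegGen.toG u) := by
    rcases eq_or_lt_of_le hn with hn3 | hn5
    · subst hn3
      obtain ⟨g, hg, hd, hc⟩ := R.exists_two_conjugate hf hσ hF (by omega) hud
      exact ⟨g, g, hg, hd, hg, hd, fun H h1 h2 _ => hc H h1 h2⟩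
    · obtain ⟨k, hk⟩ := hodd
      by_cases hq2 : q = 2
      · subst hq2
        exact R.threeCentres_two hf hσ hF hk (by omega)
      · exact R.threeCentres_large hf hσ hF (by omega) hk (by omega)
  obtain ⟨g, h, hg, hgd, hh, hhd, hc⟩ := key
  obtain ⟨g', rfl⟩ := CfsgLib.SURegGen.exists_toG (q := q) hg hgd
  obtain ⟨h', rfl⟩ := CfsgLib.SURegGen.exists_toG (q := q) hh hhd
  refine ⟨u, g', h', ⟨hnil, hne⟩, CfsgLib.SURegGen.eq_top_of_centres hF h32 hσ hf _ fun v hv => ?_⟩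
  refine hc _ (Subgroup.mem_map_of_mem _ (Subgroup.subset_closure (by simp))) ?_ ?_ v hv
  all_goals rw [← map_inv, ← map_mul, ← map_mul]
  all_goals exact Subgroup.mem_map_of_mem _ (Subgroup.subset_closure (by simp))

end Cfsg.Agent.S2282
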