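import Cfsg.Statements.S2283
import Cfsg.Agent.SURegGen.Three

set_option autoImplicit false
open Cfsg

namespace Cfsg.Agent.S2283

/-- Let F be a field with q² elements, q ≥ 3, and SU_3(q) the special unitary group of the standard Hermitian form. Then SU_3(q) is generated by two conjugate regular unipotent elements: there are u ∈ SU_3(q) with u − 1 nilpotent and (u − 1)² ≠ 0, and g ∈ SU_3(q), such that u and g u g⁻¹ generate SU_3(q). -/
theorem result {F : Type*} [Field F] [Fintype F] (q : ℕ) (hq : 3 ≤ q) (hF : Fintype.card F = q ^ 2) :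
    ∃ u g : ↥(Cfsg.SU 3 F q), (IsNilpotent (((u : Matrix.SpecialLinearGroup (Fin 3) F) : Matrix (Fin 3) (Fin 3) F) - 1) ∧ (((u : Matrix.SpecialLinearGroup (Fin 3) F) : Matrix (Fin 3) (Fin 3) F) - 1) ^ (3 - 1) ≠ 0) ∧
      Subgroup.closure ({u, g * u * g⁻¹} : Set ↥(Cfsg.SU 3 F q)) = ⊤ := by
  obtain ⟨σ, hσ, hf⟩ := CfsgLib.LinAlg.Witt.exists_isUnitaryForm_hermForm (n := 3) hF
  obtain ⟨u, E, D, c, R, hnil, hne⟩ := CfsgLib.SURegGen.exists_regular_SU (n := 3) hF hf le_rfl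
  have hud : ((CfsgLib.SURegGen.toG u : GL (Fin 3) F) : Matrix (Fin 3) (Fin 3) F).det = 1 := u.1.2
  obtain ⟨g, hg, hd, hc⟩ := R.exists_two_conjugate hf hσ hF hq hud
  obtain ⟨g', rfl⟩ := CfsgLib.SURegGen.exists_toG (q := q) hg hd
  refine ⟨u, g', ⟨hnil, hne⟩, CfsgLib.SURegGen.eq_top_of_centres hF (by omega) hσ hf _ fun v hv => ?_⟩
  refine hc _ (Subgroup.mem_map_of_mem _ (Subgroup.subset_closure (by simp))) ?_ v hv
  rw [← map_inv, ← map_mul, ← map_mul]
  exact Subgroup.mem_map_of_mem _ (Subgroup.subset_closure (by simp))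

end Cfsg.Agent.S2283
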