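import Cfsg.Statements.S2284
import Cfsg.Agent.AltPres54.Small
import Cfsg.Agent.AltPres54.Tietze
import Cfsg.Agent.AltPres54.TwoGen
import Cfsg.Agent.AltPres54.Tiny

set_option autoImplicit false
open Cfsg

namespace Cfsg.Agent.S2284


/-- For every n, the symmetric group S_n and the alternating group A_n each have a presentation with 2 generators and at most 8 relations. -/
theorem result (n : ℕ) : (∃ rels : Finset (FreeGroup (Fin 2)), rels.card ≤ 8 ∧ Nonempty (PresentedGroup (↑rels : Set (FreeGroup (Fin 2))) ≃* Equiv.Perm (Fin n))) ∧ (∃ rels : Finset (FreeGroup (Fin 2)), rels.card ≤ 8 ∧ Nonempty (PresentedGroup (↑rels : Set (FreeGroup (Fin 2))) ≃* ↥(alternatingGroup (Fin n)))) := by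
  by_cases hn : 5 ≤ n
  · obtain ⟨⟨R, hR, e, he⟩, ⟨R', hR', e', he'⟩⟩ := CfsgLib.AltPres54.has37_all hn
    obtain ⟨N, rfl⟩ : ∃ N, n = N + 1 := ⟨n - 1, by omega⟩
    refine ⟨?_, ?_⟩
    · obtain ⟨y, hy⟩ := CfsgLib.AltPres54.sym_partner (by omega) he
      obtain ⟨S, hS, f⟩ := CfsgLib.AltPres54.change_two R e 1 y hy
      exact ⟨S, hS.trans (Nat.add_le_add_right hR 1), f⟩
    · obtain ⟨y, hy⟩ := CfsgLib.AltPres54.alt_partner (by omega) he'
      obtain ⟨S, hS, f⟩ := CfsgLib.AltPres54.change_two R' e' 1 y hy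
      exact ⟨S, hS.trans (Nat.add_le_add_right hR' 1), f⟩
  · exact CfsgLib.AltPres54.has28_tiny (by omega)

end Cfsg.Agent.S2284
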