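import Cfsg.Statements.S2286
import Cfsg.Agent.SLTwoPres.Bruhat
import Cfsg.Agent.SLTwoPres.Unipotent

set_option autoImplicit false
open Cfsg

namespace Cfsg.Agent.S2286

open CfsgLib.SLTwoPres CfsgLib.Psl2Unipotent Polynomial

/-- The three generators. -/
noncomputable def gU : FreeGroup (Fin 3) := FreeGroup.of 0
/-- The torus generator. -/
noncomputable def gH : FreeGroup (Fin 3) := FreeGroup.of 1
/-- The Weyl generator. -/
noncomputable def gW : FreeGroup (Fin 3) := FreeGroup.of 2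

variable {F : Type*} [Field F] [Fintype F]

/-- The images of the three generators in `SL₂`. -/
noncomputable def slHom (ζ : Fˣ) : FreeGroup (Fin 3) →* Matrix.SpecialLinearGroup (Fin 2) F :=
  FreeGroup.lift ![upperU 1, diagA ζ, weylSL]

omit [Fintype F] in
@[simp] theorem slHom_U (ζ : Fˣ) : slHom ζ gU = upperU 1 := by simp [slHom, gU]
omit [Fintype F] in
@[simp] theorem slHom_H (ζ : Fˣ) : slHom ζ gH = diagA ζ := by simp [slHom, gH]
omit [Fintype F] in
@[simp] theorem slHom_W (ζ : Fˣ) : slHom ζ gW = weylSL := by simp [slHom, gW]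

/-- What the relations have to give in an abstract group. -/
def GivesData (ζ : Fˣ) (G : Type) [Group G] (φ : FreeGroup (Fin 3) →* G) : Prop :=
  ∃ x : F → G, SLData ζ x (φ gH) (φ gW) ∧ x 1 = φ gU

section Adj

variable {p : ℕ} [Fact p.Prime] [Algebra (ZMod p) F]

theorem adjoin_sq_eq_top {ζ : Fˣ} (hζ : ∀ u : Fˣ, u ∈ Subgroup.zpowers ζ) :
    Algebra.adjoin (ZMod p) {(ζ : F) ^ 2} = ⊤ := by
  by_contra h
  obtain ⟨d, hd1, hd2, hd⟩ := pow_eq_self_of_adjoin_ne_top (p := p) _ h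
  have hq := card_field (p := p) (F := F)
  have hpp := (Fact.out : p.Prime).two_le
  have hpd : 1 < p ^ d := Nat.one_lt_pow (by omega) hpp
  have h1 : ζ ^ (2 * (p ^ d - 1)) = 1 := by
    apply Units.ext
    rw [Units.val_pow_eq_pow_val, Units.val_one, pow_mul]
    apply mul_right_cancel₀ (pow_ne_zero 2 ζ.ne_zero)
    rw [← pow_succ, Nat.sub_add_cancel hpd.le, hd, one_mul]
  have h2 : orderOf ζ = Fintype.card F - 1 := by
    rw [orderOf_eq_card_of_forall_mem_zpowers hζ, Nat.card_units, Nat.card_eq_fintype_card]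
  have h3 := Nat.le_of_dvd (by omega) (h2 ▸ orderOf_dvd_of_pow_eq_one h1)
  have h4 : p ^ (d + 1) ≤ p ^ Module.finrank (ZMod p) F :=
    Nat.pow_le_pow_right (by omega) (by omega)
  rw [pow_succ] at h4
  have h5 : p ^ d * 2 ≤ p ^ d * p := Nat.mul_le_mul_left _ hpp
  omega

end Adj

section CrwTwo

variable [Algebra (ZMod 2) F]

theorem crw_two {ζ : Fˣ} (hζ : ∀ u : Fˣ, u ∈ Subgroup.zpowers ζ)
    (he : 2 ≤ Module.finrank (ZMod 2) F) :
    ∃ β : ℕ, ((ζ : F) ^ 2) ^ 1 = 1 + ((ζ : F) ^ 2) ^ β := by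
  haveI : CharP F 2 := (Algebra.charP_iff (ZMod 2) F 2).1 inferInstance
  have hne : (ζ : F) + 1 ≠ 0 := by
    intro h
    rw [CharTwo.add_eq_zero] at h
    have h1 : orderOf ζ = 1 := orderOf_eq_one_iff.2 (Units.ext h)
    rw [orderOf_eq_card_of_forall_mem_zpowers hζ, Nat.card_units, Nat.card_eq_fintype_card,
      card_field (p := 2) (F := F)] at h1
    have : 2 ^ 2 ≤ 2 ^ Module.finrank (ZMod 2) F := Nat.pow_le_pow_right (by norm_num) he
    omega
  obtain ⟨β, hβ⟩ := (mem_powers_iff_mem_zpowers).2 (hζ (Units.mk0 _ hne))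
  refine ⟨β, ?_⟩
  have hb : (ζ : F) ^ β = (ζ : F) + 1 := by
    rw [← Units.val_pow_eq_pow_val, show ζ ^ β = _ from hβ, Units.val_mk0]
  rw [pow_one, ← pow_mul (ζ : F) 2 β, mul_comm 2 β, pow_mul, hb, CharTwo.add_sq, one_pow,
    add_left_comm, CharTwo.add_self_eq_zero, add_zero]

end CrwTwo

theorem pres_iso {ζ : Fˣ} (hζ : ∀ u : Fˣ, u ∈ Subgroup.zpowers ζ) (rels : Finset (FreeGroup (Fin 3)))
    (hsat : ∀ r ∈ rels, slHom ζ r = 1)
    (hprop : ∀ {G : Type} [Group G] (φ : FreeGroup (Fin 3) →* G),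
      (∀ r ∈ rels, φ r = 1) → GivesData ζ G φ) :
    ∃ e : PresentedGroup (↑rels : Set (FreeGroup (Fin 3))) ≃* Matrix.SpecialLinearGroup (Fin 2) F,
      ∀ w, e (PresentedGroup.mk _ w) = slHom ζ w := by
  set R : Set (FreeGroup (Fin 3)) := ↑rels with hR
  obtain ⟨x, D, hx1⟩ := hprop (PresentedGroup.mk R) fun r hr => PresentedGroup.one_of_mem hr
  have hgen : Subgroup.closure ({x 1, PresentedGroup.mk R gH, PresentedGroup.mk R gW} :
      Set (PresentedGroup R)) = ⊤ := by
    refine eq_top_iff.2 ((PresentedGroup.closure_range_of R).ge.trans (Subgroup.closure_mono ?_))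
    rintro _ ⟨i, rfl⟩
    fin_cases i
    · exact Or.inl hx1.symm
    · exact Or.inr (Or.inl rfl)
    · exact Or.inr (Or.inr rfl)
  obtain ⟨hfin, hcard⟩ := D.finite_and_card_le hζ hgen
  let φ : PresentedGroup R →* Matrix.SpecialLinearGroup (Fin 2) F :=
    PresentedGroup.toGroup (f := ![upperU 1, diagA ζ, weylSL]) hsat
  have hφ : ∀ w, φ (PresentedGroup.mk R w) = slHom ζ w := fun w => rfl
  have hsurj : Function.Surjective φ := by
    intro g
    change g ∈ φ.range
    obtain ⟨q, hq⟩ := CharP.exists F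
    haveI : Fact q.Prime := ⟨CharP.char_is_prime F q⟩
    letI : Algebra (ZMod q) F := ZMod.algebra F q
    refine mem_of_generators hζ φ.range (fun t => ?_)
      ⟨PresentedGroup.mk R gH, (hφ gH).trans (slHom_H ζ)⟩
      ⟨PresentedGroup.mk R gW, (hφ gW).trans (slHom_W ζ)⟩ g
    have hadj := adjoin_sq_eq_top (p := q) hζ
    obtain ⟨f, hf⟩ : ∃ f : (ZMod q)[X], aeval ((ζ : F) ^ 2) f = t := by
      have ht : t ∈ Algebra.adjoin (ZMod q) {(ζ : F) ^ 2} := hadj ▸ Algebra.mem_top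
      rwa [Algebra.adjoin_singleton_eq_range_aeval] at ht
    refine ⟨PresentedGroup.mk R (polyWord f gU gH), ?_⟩
    rw [hφ, map_polyWord, slHom_U, slHom_H,
      polyWord_eq (x := upperU) (slData_matrix ζ).add (slData_matrix ζ).conj_x f, hf]
  haveI := Fintype.ofFinite (PresentedGroup R)
  have hbij : Function.Bijective φ := by
    have hle := Nat.card_le_card_of_surjective φ hsurj
    exact (Nat.bijective_iff_surjective_and_card φ).2 ⟨hsurj, le_antisymm hcard hle⟩
  exact ⟨MulEquiv.ofBijective φ hbij, hφ⟩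

theorem center_cases {g : Matrix.SpecialLinearGroup (Fin 2) F}
    (hg : g ∈ Subgroup.center (Matrix.SpecialLinearGroup (Fin 2) F)) :
    g = 1 ∨ g = weylSL * weylSL := by
  obtain ⟨r, hr, hr'⟩ := Matrix.SpecialLinearGroup.mem_center_iff.1 hg
  rw [Fintype.card_fin, sq_eq_one_iff] at hr
  rcases hr with rfl | rfl
  · exact Or.inl (Subtype.ext (by rw [← hr']; simp))
  · exact Or.inr (Subtype.ext (by rw [← hr', weylSL_sq, map_neg, map_one]))

theorem psl_iso {ζ : Fˣ} (hζ : ∀ u : Fˣ, u ∈ Subgroup.zpowers ζ) (rels : Finset (FreeGroup (Fin 3)))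
    (hsat : ∀ r ∈ rels, slHom ζ r = 1)
    (hprop : ∀ {G : Type} [Group G] (φ : FreeGroup (Fin 3) →* G),
      (∀ r ∈ rels, φ r = 1) → GivesData ζ G φ) :
    Nonempty (PresentedGroup (↑(insert (gW * gW) rels) : Set (FreeGroup (Fin 3))) ≃*
      Matrix.ProjectiveSpecialLinearGroup (Fin 2) F) := by
  set R : Set (FreeGroup (Fin 3)) := ↑rels with hR
  set R' : Set (FreeGroup (Fin 3)) := ↑(insert (gW * gW) rels) with hR'
  obtain ⟨e, he⟩ : ∃ e : PresentedGroup R ≃* Matrix.SpecialLinearGroup (Fin 2) F,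
      ∀ w, e (PresentedGroup.mk R w) = slHom ζ w := pres_iso hζ rels hsat hprop
  let θ : PresentedGroup R →* PresentedGroup R' :=
    PresentedGroup.toGroup (f := fun i => PresentedGroup.of i) (fun r hr => by
      have h1 : FreeGroup.lift (fun i => (PresentedGroup.of i : PresentedGroup R')) =
          PresentedGroup.mk R' := FreeGroup.ext_hom _ _ (fun i => by simp [PresentedGroup.of])
      rw [h1]
      exact PresentedGroup.one_of_mem (Finset.mem_coe.2 (Finset.mem_insert_of_mem hr)))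
  have hθ : ∀ w, θ (PresentedGroup.mk R w) = PresentedGroup.mk R' w := by
    intro w
    exact DFunLike.congr_fun (FreeGroup.ext_hom (θ.comp (PresentedGroup.mk R))
      (PresentedGroup.mk R') (fun i => rfl)) w
  let ψ : Matrix.ProjectiveSpecialLinearGroup (Fin 2) F →* PresentedGroup R' :=
    QuotientGroup.lift _ (θ.comp e.symm.toMonoidHom) (by
      intro g hg
      rcases center_cases hg with rfl | rfl
      · exact one_mem _
      · have h1 : e.symm (weylSL * weylSL) = PresentedGroup.mk R (gW * gW) := by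
          rw [MulEquiv.symm_apply_eq, he, map_mul, slHom_W]
        change θ (e.symm (weylSL * weylSL)) = 1
        rw [h1, hθ]
        exact PresentedGroup.one_of_mem (Finset.mem_coe.2 (Finset.mem_insert_self _ _)))
  have hinj : Function.Injective ψ := by
    let χ : PresentedGroup R' →* Matrix.ProjectiveSpecialLinearGroup (Fin 2) F :=
      PresentedGroup.toGroup (f := fun i => QuotientGroup.mk' _ (![upperU 1, diagA ζ, weylSL] i))
        (fun r hr => by
          have h1 : FreeGroup.lift (fun i => QuotientGroup.mk' (Subgroup.center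
              (Matrix.SpecialLinearGroup (Fin 2) F)) (![upperU 1, diagA ζ, weylSL] i)) =
              (QuotientGroup.mk' _).comp (slHom ζ) :=
            FreeGroup.ext_hom _ _ (fun i => by simp [slHom])
          rw [h1]
          rcases Finset.mem_insert.1 (Finset.mem_coe.1 hr) with rfl | hr'
          · rw [MonoidHom.comp_apply, map_mul, slHom_W, QuotientGroup.mk'_apply,
              QuotientGroup.eq_one_iff, Matrix.SpecialLinearGroup.mem_center_iff]
            exact ⟨-1, by simp, by rw [weylSL_sq, map_neg, map_one]⟩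
          · rw [MonoidHom.comp_apply, hsat r hr', map_one])
    have hχ : ∀ w, χ (PresentedGroup.mk R' w) = QuotientGroup.mk' _ (slHom ζ w) := by
      intro w
      exact DFunLike.congr_fun (FreeGroup.ext_hom (χ.comp (PresentedGroup.mk R'))
        ((QuotientGroup.mk' _).comp (slHom ζ))
        (fun i => rfl)) w
    refine Function.LeftInverse.injective (g := χ) fun y => ?_
    obtain ⟨g, rfl⟩ := QuotientGroup.mk_surjective y
    obtain ⟨w, hw⟩ := PresentedGroup.mk_surjective R (e.symm g)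
    change χ (θ (e.symm g)) = _
    rw [← hw, hθ, hχ, ← he, hw, MulEquiv.apply_symm_apply]
    rfl
  have hsurj : Function.Surjective ψ := by
    intro y
    obtain ⟨w, rfl⟩ := PresentedGroup.mk_surjective R' y
    refine ⟨QuotientGroup.mk (e (PresentedGroup.mk R w)), ?_⟩
    change θ (e.symm (e _)) = _
    rw [MulEquiv.symm_apply_apply, hθ]
  exact ⟨(MulEquiv.ofBijective ψ ⟨hinj, hsurj⟩).symm⟩

section Rels

variable {p : ℕ} [Fact p.Prime] [Algebra (ZMod p) F]

/-- A word for `x(s)` in the conjugates of `u` by `h ^ α`. -/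
noncomputable def xWord {α : ℕ} {ζ : Fˣ}
    (hadj : Algebra.adjoin (ZMod p) {((ζ : F) ^ 2) ^ α} = ⊤) (s : F) : FreeGroup (Fin 3) :=
  polyWord (Classical.choose (show ∃ f : (ZMod p)[X], aeval (((ζ : F) ^ 2) ^ α) f = s from by
    have ht : s ∈ Algebra.adjoin (ZMod p) {((ζ : F) ^ 2) ^ α} := hadj ▸ Algebra.mem_top
    rwa [Algebra.adjoin_singleton_eq_range_aeval] at ht)) gU (gH ^ α)

omit [Fintype F] in
theorem xWord_map {α : ℕ} {ζ : Fˣ} (hadj : Algebra.adjoin (ZMod p) {((ζ : F) ^ 2) ^ α} = ⊤) (s : F)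
    {G : Type*} [Group G] (φ : FreeGroup (Fin 3) →* G) {x : F → G}
    (hadd : ∀ s t, x (s + t) = x s * x t) (hu : x 1 = φ gU)
    (hA : ∀ t, φ gH ^ α * x t * (φ gH ^ α)⁻¹ = x (((ζ : F) ^ 2) ^ α * t)) :
    φ (xWord hadj s) = x s := by
  rw [xWord, map_polyWord, map_pow, ← hu, polyWord_eq hadd hA]
  congr 1
  exact Classical.choose_spec (show ∃ f : (ZMod p)[X], aeval (((ζ : F) ^ 2) ^ α) f = s from by
    have ht : s ∈ Algebra.adjoin (ZMod p) {((ζ : F) ^ 2) ^ α} := hadj ▸ Algebra.mem_top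
    rwa [Algebra.adjoin_singleton_eq_range_aeval] at ht)

/-- The root-group part of a presentation. -/
def RootRels (p : ℕ) (ζ : Fˣ) (α : ℕ) (L : List (FreeGroup (Fin 3))) : Prop :=
  (∀ r ∈ L, slHom ζ r = 1) ∧ ∀ {G : Type} [Group G] (φ : FreeGroup (Fin 3) →* G),
    (∀ r ∈ L, φ r = 1) → ∃ x : F → G, (∀ s t, x (s + t) = x s * x t) ∧ x 1 = φ gU ∧
      φ gU ^ p = 1 ∧ ∀ t, φ gH ^ α * x t * (φ gH ^ α)⁻¹ = x (((ζ : F) ^ 2) ^ α * t)

omit [Fintype F] in
theorem sl_conj_pow (ζ : Fˣ) (n : ℕ) (t : F) :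
    diagA ζ ^ n * upperU t * (diagA ζ ^ n)⁻¹ = upperU (((ζ : F) ^ 2) ^ n * t) :=
  conj_pow_param (x := upperU) (slData_matrix ζ).conj_x n t

omit [Fintype F] in
theorem sl_upper_pow (t : F) : upperU t ^ p = 1 := by
  haveI : CharP F p := (Algebra.charP_iff (ZMod p) F p).1 inferInstance
  have h : ∀ k : ℕ, upperU t ^ k = upperU (k • t) := by
    intro k
    induction k with
    | zero => exact Subtype.ext (by simp [Matrix.one_fin_two])
    | succ k ih => rw [pow_succ, ih, succ_nsmul]; exact ((slData_matrix (1 : Fˣ)).add _ _).symm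
  rw [h, nsmul_eq_mul, CharP.cast_eq_zero, zero_mul]
  exact (slData_matrix (1 : Fˣ)).x_zero

omit [Fintype F] in
theorem sl_minpoly (ζ : Fˣ) (α : ℕ) :
    slHom ζ (polyWord (minpoly (ZMod p) (((ζ : F) ^ 2) ^ α)) gU (gH ^ α)) = 1 := by
  rw [map_polyWord, map_pow, slHom_U, slHom_H,
    polyWord_eq (x := upperU) (slData_matrix ζ).add (sl_conj_pow ζ α), minpoly.aeval]
  exact (slData_matrix ζ).x_zero

/-- Few generators: one commutator relation. -/
theorem rootRels_small {ζ : Fˣ} (hζ : ∀ u : Fˣ, u ∈ Subgroup.zpowers ζ)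
    (he : Module.finrank (ZMod p) F ≤ 2) :
    RootRels p ζ 1 [gU ^ p, gU * (gH * gU * gH⁻¹) * gU⁻¹ * (gH * gU * gH⁻¹)⁻¹,
      polyWord (minpoly (ZMod p) ((ζ : F) ^ 2)) gU gH] := by
  have hadj := adjoin_sq_eq_top (p := p) hζ
  refine ⟨fun r hr => ?_, fun {G} _ φ hr => ?_⟩
  · simp only [List.mem_cons, List.not_mem_nil, or_false] at hr
    rcases hr with rfl | rfl | rfl
    · rw [map_pow, slHom_U, sl_upper_pow]
    · have hc : Commute (upperU (1 : F)) (diagA ζ * upperU 1 * (diagA ζ)⁻¹) := by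
        rw [(slData_matrix ζ).conj_x, Commute, SemiconjBy, ← (slData_matrix ζ).add,
          ← (slData_matrix ζ).add, add_comm]
      simp only [map_mul, map_inv, slHom_U, slHom_H]
      rw [hc.eq, mul_inv_cancel_right, mul_inv_cancel]
    · simpa using sl_minpoly (p := p) ζ 1
  · have hu : φ gU ^ p = 1 := by rw [← map_pow]; exact hr _ (by simp)
    have h1 := hr (gU * (gH * gU * gH⁻¹) * gU⁻¹ * (gH * gU * gH⁻¹)⁻¹) (by simp)
    have h2 := hr (polyWord (minpoly (ZMod p) ((ζ : F) ^ 2)) gU gH) (by simp)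
    rw [map_mul, map_inv, mul_inv_eq_one, map_mul, map_inv, mul_inv_eq_iff_eq_mul] at h1
    rw [map_polyWord] at h2
    have hint : IsIntegral (ZMod p) ((ζ : F) ^ 2) := Algebra.IsIntegral.isIntegral _
    have hcomm := commute_of_two (φ gU) (φ gH) (minpoly.monic hint) (minpoly.natDegree_pos hint)
      ((minpoly.natDegree_le _).trans he) (by simpa [Commute, SemiconjBy] using h1) h2
    obtain ⟨x, hx1, hx2, hx3⟩ := exists_param _ _ _ hadj hu hcomm h2
    exact ⟨x, hx1, hx2, hu, fun t => by simpa using hx3 t⟩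

/-- Two commutation relations. -/
theorem rootRels_crw {ζ : Fˣ} (α β : ℕ) (hab : ((ζ : F) ^ 2) ^ α = 1 + ((ζ : F) ^ 2) ^ β)
    (hadj : Algebra.adjoin (ZMod p) {((ζ : F) ^ 2) ^ α} = ⊤) :
    RootRels p ζ α ([gU ^ p, gH ^ α * gU * (gH ^ α)⁻¹ * (gU * (gH ^ β * gU * (gH ^ β)⁻¹))⁻¹,
      polyWord (minpoly (ZMod p) (((ζ : F) ^ 2) ^ α)) gU (gH ^ α)] ++
      if p = 2 then [] else [gU * (gH ^ β * gU * (gH ^ β)⁻¹) * gU⁻¹ * (gH ^ β * gU * (gH ^ β)⁻¹)⁻¹]) := by
  refine ⟨fun r hr => ?_, fun {G} _ φ hr => ?_⟩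
  · rw [List.mem_append] at hr
    rcases hr with hr | hr
    · simp only [List.mem_cons, List.not_mem_nil, or_false] at hr
      rcases hr with rfl | rfl | rfl
      · rw [map_pow, slHom_U, sl_upper_pow]
      · simp only [map_mul, map_inv, map_pow, slHom_U, slHom_H]
        rw [mul_inv_eq_one, sl_conj_pow, sl_conj_pow, mul_one, mul_one, hab,
          (slData_matrix ζ).add]
      · exact sl_minpoly ζ α
    · split_ifs at hr
      · simp at hr
      · rw [List.mem_singleton] at hr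
        subst hr
        simp only [map_mul, map_inv, map_pow, slHom_U, slHom_H, sl_conj_pow]
        rw [← (slData_matrix ζ).add, add_comm, (slData_matrix ζ).add, mul_inv_cancel_right,
          mul_inv_cancel]
  · have hu : φ gU ^ p = 1 := by rw [← map_pow]; exact hr _ (by simp)
    have h1 := hr (gH ^ α * gU * (gH ^ α)⁻¹ * (gU * (gH ^ β * gU * (gH ^ β)⁻¹))⁻¹) (by simp)
    have h2 := hr (polyWord (minpoly (ZMod p) (((ζ : F) ^ 2) ^ α)) gU (gH ^ α)) (by simp)
    simp only [map_mul, map_inv, map_pow, mul_inv_eq_one] at h1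
    rw [map_polyWord, map_pow] at h2
    have hB : Commute (φ gU) (φ gH ^ β * φ gU * (φ gH ^ β)⁻¹) := by
      by_cases hp2 : p = 2
      · subst hp2
        have hv : (φ gH ^ β * φ gU * (φ gH ^ β)⁻¹) ^ 2 = 1 := by
          rw [conj_pow, hu, mul_one, mul_inv_cancel]
        have hw : (φ gU * (φ gH ^ β * φ gU * (φ gH ^ β)⁻¹)) ^ 2 = 1 := by
          rw [← h1, conj_pow, hu, mul_one, mul_inv_cancel]
        rw [pow_two, mul_eq_one_iff_eq_inv] at hw hv hu
        rw [mul_inv_rev, ← hv, ← hu] at hw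
        exact hw
      · have h3 := hr (gU * (gH ^ β * gU * (gH ^ β)⁻¹) * gU⁻¹ * (gH ^ β * gU * (gH ^ β)⁻¹)⁻¹)
          (by simp [hp2])
        simp only [map_mul, map_inv, map_pow] at h3
        rw [mul_inv_eq_one, mul_inv_eq_iff_eq_mul] at h3
        exact h3
    obtain ⟨x, hx1, hx2, hx3⟩ := exists_param _ _ _ hadj hu (commute_crw _ _ α β h1 hB) h2
    exact ⟨x, hx1, hx2, hu, hx3⟩

/-- The torus action and the two Bruhat relations. -/
noncomputable def bruhatRels {α : ℕ} {ζ : Fˣ}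
    (hadj : Algebra.adjoin (ZMod p) {((ζ : F) ^ 2) ^ α} = ⊤) : List (FreeGroup (Fin 3)) :=
  [gU * (gW * gU * gW⁻¹) * gU * gW⁻¹,
    xWord hadj (ζ : F) * (gW * xWord hadj (ζ : F)⁻¹ * gW⁻¹) * xWord hadj (ζ : F) * (gH * gW)⁻¹]

omit [Fintype F] in
theorem bruhat_sat {α : ℕ} {ζ : Fˣ} (hadj : Algebra.adjoin (ZMod p) {((ζ : F) ^ 2) ^ α} = ⊤)
    {r : FreeGroup (Fin 3)} (hr : r ∈ bruhatRels hadj) : slHom ζ r = 1 := by
  have hx : ∀ s, slHom ζ (xWord hadj s) = upperU s := fun s =>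
    xWord_map hadj s (slHom ζ) (slData_matrix ζ).add (slHom_U ζ).symm
      (by simpa using sl_conj_pow ζ α)
  simp only [bruhatRels, List.mem_cons, List.not_mem_nil, or_false] at hr
  rcases hr with rfl | rfl
  · simp only [map_mul, map_inv, slHom_U, slHom_W]
    rw [mul_inv_eq_one]
    simpa [weylWord] using (slData_matrix ζ).rel_one
  · simp only [map_mul, map_inv, slHom_H, slHom_W, hx]
    rw [mul_inv_eq_one]
    exact (slData_matrix ζ).rel_zeta

omit [Fintype F] in
theorem bruhat_gives {α : ℕ} {ζ : Fˣ} (hadj : Algebra.adjoin (ZMod p) {((ζ : F) ^ 2) ^ α} = ⊤)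
    {G : Type} [Group G] (φ : FreeGroup (Fin 3) →* G) (hr : ∀ r ∈ bruhatRels hadj, φ r = 1)
    {x : F → G} (hadd : ∀ s t, x (s + t) = x s * x t) (hu : x 1 = φ gU)
    (hA : ∀ t, φ gH ^ α * x t * (φ gH ^ α)⁻¹ = x (((ζ : F) ^ 2) ^ α * t)) :
    weylWord x (φ gW) 1 = φ gW ∧ weylWord x (φ gW) (ζ : F) = φ gH * φ gW := by
  have hx : ∀ s, φ (xWord hadj s) = x s := fun s => xWord_map hadj s φ hadd hu hA
  constructor
  · have h := hr (gU * (gW * gU * gW⁻¹) * gU * gW⁻¹) (by simp [bruhatRels])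
    simp only [map_mul, map_inv, mul_inv_eq_one, ← hu] at h
    simpa [weylWord] using h
  · have h := hr _ (List.mem_cons_of_mem _ (List.mem_singleton_self _))
    simp only [map_mul, map_inv, mul_inv_eq_one, hx] at h
    exact h

end Rels

theorem sl_rels (p : ℕ) [Fact p.Prime] [Algebra (ZMod p) F] {ζ : Fˣ} (hζ : ∀ u : Fˣ, u ∈ Subgroup.zpowers ζ) :
    ∃ L : List (FreeGroup (Fin 3)), L.length ≤ 8 ∧ (∀ r ∈ L, slHom ζ r = 1) ∧
      ∀ {G : Type} [Group G] (φ : FreeGroup (Fin 3) →* G), (∀ r ∈ L, φ r = 1) → GivesData ζ G φ := by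
  obtain ⟨α, L, hlen, hadj, hroot⟩ : ∃ (α : ℕ) (L : List (FreeGroup (Fin 3))), L.length ≤ 4 ∧
      Algebra.adjoin (ZMod p) {((ζ : F) ^ 2) ^ α} = ⊤ ∧ RootRels p ζ α L := by
    by_cases he : Module.finrank (ZMod p) F ≤ 2
    · exact ⟨1, _, le_of_eq_of_le rfl (by norm_num), by simpa using adjoin_sq_eq_top (p := p) hζ,
        rootRels_small hζ he⟩
    by_cases hp : p = 2
    · subst hp
      obtain ⟨β, hβ⟩ := crw_two hζ (by omega)
      exact ⟨1, _, le_of_eq_of_le rfl (by simp), by simpa using adjoin_sq_eq_top (p := 2) hζ,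
        rootRels_crw 1 β hβ (by simpa using adjoin_sq_eq_top (p := 2) hζ)⟩
    · obtain ⟨c, d, hc, hd, hcd, hadj⟩ := exists_square_pair (p := p) (F := F) hp (by omega)
      obtain ⟨α, hα⟩ := (mem_powers_iff_mem_zpowers).2 (hζ (Units.mk0 c hc))
      obtain ⟨β, hβ⟩ := (mem_powers_iff_mem_zpowers).2 (hζ (Units.mk0 d hd))
      have hα' : ((ζ : F) ^ 2) ^ α = c ^ 2 := by
        rw [← pow_mul, mul_comm, pow_mul, ← Units.val_pow_eq_pow_val, show ζ ^ α = _ from hα,
          Units.val_mk0]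
      have hβ' : ((ζ : F) ^ 2) ^ β = d ^ 2 := by
        rw [← pow_mul, mul_comm, pow_mul, ← Units.val_pow_eq_pow_val, show ζ ^ β = _ from hβ,
          Units.val_mk0]
      exact ⟨α, _, le_of_eq_of_le rfl (by simp [hp]), by rw [hα']; exact hadj,
        rootRels_crw α β (by rw [hα', hβ', hcd]) (by rw [hα']; exact hadj)⟩
  refine ⟨L ++ [gH * gU * gH⁻¹ * (xWord hadj ((ζ : F) ^ 2))⁻¹, gW * gH * gW⁻¹ * gH] ++
    bruhatRels hadj, by simp [bruhatRels]; omega, fun r hr => ?_, fun {G} _ φ hr => ?_⟩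
  · simp only [List.mem_append, List.mem_cons, List.not_mem_nil, or_false] at hr
    rcases hr with (hr | rfl | rfl) | hr
    · exact hroot.1 r hr
    · rw [map_mul, map_inv, mul_inv_eq_one, map_mul, map_mul, map_inv, slHom_H, slHom_U,
        xWord_map hadj _ (slHom ζ) (slData_matrix ζ).add (slHom_U ζ).symm
          (by simpa using sl_conj_pow ζ α), (slData_matrix ζ).conj_x, mul_one]
    · simp only [map_mul, map_inv, slHom_W, slHom_H]
      rw [(slData_matrix ζ).conj_h, inv_mul_cancel]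
    · exact bruhat_sat hadj hr
  · obtain ⟨x, hadd, hu, -, hA⟩ := hroot.2 φ fun r hr' => hr r (by simp [hr'])
    obtain ⟨h1, h2⟩ := bruhat_gives hadj φ (fun r hr' => hr r (by simp [hr'])) hadd hu hA
    have h3 := hr (gH * gU * gH⁻¹ * (xWord hadj ((ζ : F) ^ 2))⁻¹) (by simp)
    have h4 := hr (gW * gH * gW⁻¹ * gH) (by simp)
    rw [map_mul, map_inv, mul_inv_eq_one, map_mul, map_mul, map_inv,
      xWord_map hadj _ φ hadd hu hA, ← hu] at h3
    simp only [map_mul, map_inv] at h4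
    exact ⟨x, ⟨hadd, conj_param hadd hA hadj (Commute.self_pow _ _) h3,
      eq_inv_of_mul_eq_one_left h4, h1, h2⟩, hu⟩



section Two

variable [Algebra (ZMod 2) F]

theorem sl_rels_two {ζ : Fˣ} (hζ : ∀ u : Fˣ, u ∈ Subgroup.zpowers ζ) :
    ∃ L : List (FreeGroup (Fin 3)), L.length ≤ 5 ∧ (∀ r ∈ L, slHom ζ r = 1) ∧
      ∀ {G : Type} [Group G] (φ : FreeGroup (Fin 3) →* G), (∀ r ∈ L, φ r = 1) → GivesData ζ G φ := by
  haveI : CharP F 2 := (Algebra.charP_iff (ZMod 2) F 2).1 inferInstance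
  have hadj : Algebra.adjoin (ZMod 2) {((ζ : F) ^ 2) ^ 1} = ⊤ := by
    simpa using adjoin_sq_eq_top (p := 2) hζ
  obtain ⟨L, hlen, hroot⟩ : ∃ L : List (FreeGroup (Fin 3)), L.length ≤ 3 ∧ RootRels 2 ζ 1 L := by
    by_cases he : Module.finrank (ZMod 2) F ≤ 2
    · exact ⟨_, le_of_eq_of_le rfl le_rfl, rootRels_small hζ he⟩
    · obtain ⟨β, hβ⟩ := crw_two hζ (by omega)
      exact ⟨_, le_of_eq_of_le rfl (by simp), rootRels_crw 1 β hβ hadj⟩
  refine ⟨L ++ bruhatRels hadj, by simp [bruhatRels]; omega, fun r hr => ?_, fun {G} _ φ hr => ?_⟩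
  · rcases List.mem_append.1 hr with hr | hr
    · exact hroot.1 r hr
    · exact bruhat_sat hadj hr
  · obtain ⟨x, hadd, hu, -, hA⟩ := hroot.2 φ fun r hr' => hr r (by simp [hr'])
    obtain ⟨h1, h2⟩ := bruhat_gives hadj φ (fun r hr' => hr r (by simp [hr'])) hadd hu hA
    have hx0 : x 0 = 1 := mul_eq_left.1 (by rw [← hadd, add_zero] : x 0 * x 0 = x 0)
    have hinv : ∀ s, weylWord x (φ gW) s * weylWord x (φ gW) s = 1 := fun s => by
      have h : ∀ t, x t * x t = 1 := fun t => by rw [← hadd, CharTwo.add_self_eq_zero, hx0]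
      simp only [weylWord, mul_assoc]
      simp only [← mul_assoc (x s) (x s), h, one_mul, inv_mul_cancel_left,
        ← mul_assoc (x s⁻¹) (x s⁻¹), mul_inv_cancel_left]
    have hw := hinv 1
    rw [h1] at hw
    have hhw := hinv (ζ : F)
    rw [h2] at hhw
    refine ⟨x, ⟨hadd, fun t => by simpa using hA t, ?_, h1, h2⟩, hu⟩
    rw [inv_eq_of_mul_eq_one_right hw]
    exact eq_inv_of_mul_eq_one_right (by simpa only [mul_assoc] using hhw)

end Two

/-- For every finite field F, SL_2(F) and PSL_2(F) have presentations with 3 generators and at most 9 relations; when F has characteristic 2, PSL_2(F) has a presentation with 3 generators and at most 5 relations. -/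
theorem result {F : Type*} [Field F] [Fintype F] :
    (∃ rels : Finset (FreeGroup (Fin 3)), rels.card ≤ 9 ∧ Nonempty (PresentedGroup (↑rels : Set (FreeGroup (Fin 3))) ≃* Matrix.SpecialLinearGroup (Fin 2) F)) ∧ (∃ rels : Finset (FreeGroup (Fin 3)), rels.card ≤ 9 ∧ Nonempty (PresentedGroup (↑rels : Set (FreeGroup (Fin 3))) ≃* Matrix.ProjectiveSpecialLinearGroup (Fin 2) F)) ∧
    (CharP F 2 → ∃ rels : Finset (FreeGroup (Fin 3)), rels.card ≤ 5 ∧ Nonempty (PresentedGroup (↑rels : Set (FreeGroup (Fin 3))) ≃* Matrix.ProjectiveSpecialLinearGroup (Fin 2) F)) := by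
  classical
  obtain ⟨p, hp⟩ := CharP.exists F
  haveI : Fact p.Prime := ⟨CharP.char_is_prime F p⟩
  letI : Algebra (ZMod p) F := ZMod.algebra F p
  obtain ⟨ζ, hζ⟩ := IsCyclic.exists_generator (α := Fˣ)
  refine ⟨?_, ?_, fun h2 => ?_⟩
  · obtain ⟨L, hlen, hsat, hprop⟩ := sl_rels p hζ
    obtain ⟨e, -⟩ := pres_iso hζ L.toFinset (fun r hr => hsat r (List.mem_toFinset.1 hr))
      (fun {G} _ φ hr => hprop φ fun r hr' => hr r (List.mem_toFinset.2 hr'))
    exact ⟨L.toFinset, (List.toFinset_card_le L).trans (hlen.trans (by norm_num)), ⟨e⟩⟩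
  · obtain ⟨L, hlen, hsat, hprop⟩ := sl_rels p hζ
    obtain ⟨e⟩ := psl_iso hζ L.toFinset (fun r hr => hsat r (List.mem_toFinset.1 hr))
      (fun {G} _ φ hr => hprop φ fun r hr' => hr r (List.mem_toFinset.2 hr'))
    refine ⟨_, ?_, ⟨e⟩⟩
    exact (Finset.card_insert_le _ _).trans (Nat.succ_le_succ ((List.toFinset_card_le L).trans hlen))
  · obtain rfl : p = 2 := (CharP.eq F hp h2)
    obtain ⟨L, hlen, hsat, hprop⟩ := sl_rels_two hζ
    obtain ⟨e, -⟩ := pres_iso hζ L.toFinset (fun r hr => hsat r (List.mem_toFinset.1 hr))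
      (fun {G} _ φ hr => hprop φ fun r hr' => hr r (List.mem_toFinset.2 hr'))
    refine ⟨L.toFinset, (List.toFinset_card_le L).trans hlen, ⟨e.trans ?_⟩⟩
    have hbot : Subgroup.center (Matrix.SpecialLinearGroup (Fin 2) F) = ⊥ := by
      rw [eq_bot_iff]
      intro g hg
      rcases center_cases hg with h | h
      · exact h
      · rw [Subgroup.mem_bot]
        apply Subtype.ext
        rw [h, weylSL_sq, CharTwo.neg_eq' (R := Matrix (Fin 2) (Fin 2) F)]
        rfl
    exact (QuotientGroup.quotientBot.symm.trans (QuotientGroup.quotientMulEquivOfEq hbot.symm))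

end Cfsg.Agent.S2286
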