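import Cfsg.Statements.S2287
import Cfsg.Agent.S2286
import Cfsg.Agent.SLThreePres.Matrix

set_option autoImplicit false
open Cfsg

namespace Cfsg.Agent.S2287

open CfsgLib.SLTwoPres CfsgLib.SLThreePres CfsgLib.Psl2Unipotent Polynomial
open Cfsg.Agent.S2286 (slHom GivesData gU gH gW adjoin_sq_eq_top sl_rels sl_rels_two)

/-- The fourth generator. -/
noncomputable def gC : FreeGroup (Fin 4) := FreeGroup.of 3

/-- The three old generators among the four. -/
noncomputable def up4 : FreeGroup (Fin 3) →* FreeGroup (Fin 4) := FreeGroup.map Fin.castSucc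

variable {F : Type*} [Field F] [Fintype F]

/-- The images of the four generators in `SL₃`. -/
noncomputable def hom3 (ζ : Fˣ) : FreeGroup (Fin 4) →* Matrix.SpecialLinearGroup (Fin 3) F :=
  FreeGroup.lift ![corner (upperU 1), corner (diagA ζ), corner weylSL, cycleSL]

omit [Fintype F] in
theorem hom3_up4 (ζ : Fˣ) (r : FreeGroup (Fin 3)) : hom3 ζ (up4 r) = corner (slHom ζ r) := by
  have : (hom3 ζ).comp up4 = corner.comp (slHom ζ) :=
    FreeGroup.ext_hom _ _ fun i => by
      fin_cases i <;> simp [hom3, up4, slHom, MonoidHom.comp_apply]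
  exact DFunLike.congr_fun this r

omit [Fintype F] in
theorem hom3_C (ζ : Fˣ) : hom3 ζ gC = cycleSL := by simp [hom3, gC]

variable {p : ℕ} [Fact p.Prime] [Algebra (ZMod p) F]

/-- A word for `x(s)`. -/
noncomputable def xw {ζ : Fˣ} (hζ : ∀ u : Fˣ, u ∈ Subgroup.zpowers ζ) (s : F) : FreeGroup (Fin 4) :=
  polyWord (Classical.choose (show ∃ f : (ZMod p)[X], aeval ((ζ : F) ^ 2) f = s from by
    have ht : s ∈ Algebra.adjoin (ZMod p) {(ζ : F) ^ 2} :=
      (adjoin_sq_eq_top (p := p) hζ) ▸ Algebra.mem_top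
    rwa [Algebra.adjoin_singleton_eq_range_aeval] at ht)) (up4 gU) (up4 gH)

theorem xw_map {ζ : Fˣ} (hζ : ∀ u : Fˣ, u ∈ Subgroup.zpowers ζ) (s : F) {G : Type*} [Group G]
    (φ : FreeGroup (Fin 4) →* G) {x : F → G} {w : G} (D : SLData ζ x (φ (up4 gH)) w)
    (hu : x 1 = φ (up4 gU)) : φ (xw (p := p) hζ s) = x s := by
  rw [xw, map_polyWord, ← hu, polyWord_eq D.add D.conj_x]
  congr 1
  exact Classical.choose_spec (show ∃ f : (ZMod p)[X], aeval ((ζ : F) ^ 2) f = s from by
    have ht : s ∈ Algebra.adjoin (ZMod p) {(ζ : F) ^ 2} :=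
      (adjoin_sq_eq_top (p := p) hζ) ▸ Algebra.mem_top
    rwa [Algebra.adjoin_singleton_eq_range_aeval] at ht)

/-- The relations tying the two `SL₂` subgroups together. -/
noncomputable def extraRels {ζ : Fˣ} (hζ : ∀ u : Fˣ, u ∈ Subgroup.zpowers ζ) (L : List F) :
    List (FreeGroup (Fin 4)) :=
  [gC * (up4 gW * (gC * up4 gW * gC⁻¹) * (up4 gW * up4 gW))⁻¹,
   up4 gH * (gC * up4 gH * gC⁻¹) * (gC * up4 gH * gC⁻¹ * up4 gH)⁻¹,
   up4 gH * (gC * up4 gU * gC⁻¹) * (up4 gH)⁻¹ * (gC * xw (p := p) hζ (ζ : F)⁻¹ * gC⁻¹)⁻¹,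
   up4 gW * (gC * up4 gH * gC⁻¹) * (up4 gW)⁻¹ * (up4 gH * (gC * up4 gH * gC⁻¹))⁻¹] ++
  L.map (fun s => xw (p := p) hζ s * (gC * up4 gU * gC⁻¹) *
    (up4 gW * (gC * xw (p := p) hζ s * gC⁻¹) * (up4 gW)⁻¹ * (gC * up4 gU * gC⁻¹) *
      xw (p := p) hζ s)⁻¹) ++
  L.map (fun s => xw (p := p) hζ s * (up4 gW * (gC * up4 gU * gC⁻¹) * (up4 gW)⁻¹) *
    (up4 gW * (gC * up4 gU * gC⁻¹) * (up4 gW)⁻¹ * xw (p := p) hζ s)⁻¹)

theorem pres3 (p : ℕ) [Fact p.Prime] [Algebra (ZMod p) F] {ζ : Fˣ} (hζ : ∀ u : Fˣ, u ∈ Subgroup.zpowers ζ) (L2 : List (FreeGroup (Fin 3)))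
    (hsat : ∀ r ∈ L2, slHom ζ r = 1)
    (hprop : ∀ {G : Type} [Group G] (φ : FreeGroup (Fin 3) →* G),
      (∀ r ∈ L2, φ r = 1) → GivesData ζ G φ)
    (L : List F)
    (hspan : ∀ K : AddSubgroup F, (∀ t ∈ K, (ζ : F) ^ 3 * t ∈ K) → {t | t ∈ L} ⊆ (K : Set F) →
      ∀ t, t ∈ K) :
    ∃ rels : Finset (FreeGroup (Fin 4)), rels.card ≤ L2.length + (4 + 2 * L.length) ∧
      Nonempty (PresentedGroup (↑rels : Set (FreeGroup (Fin 4))) ≃*
        Matrix.SpecialLinearGroup (Fin 3) F) := by
  classical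
  set all : List (FreeGroup (Fin 4)) := L2.map up4 ++ extraRels (p := p) hζ L with hall
  refine ⟨all.toFinset, (List.toFinset_card_le all).trans (by simp [hall, extraRels]; omega), ?_⟩
  set R : Set (FreeGroup (Fin 4)) := ↑all.toFinset with hR
  have hmem : ∀ r ∈ all, r ∈ R := fun r hr => by simpa [hR] using hr
  set mk := PresentedGroup.mk R with hmk
  have hrel : ∀ r ∈ all, mk r = 1 := fun r hr => PresentedGroup.one_of_mem (hmem r hr)
  obtain ⟨x, D, hx1⟩ := hprop (mk.comp up4) fun r hr => hrel _ (by simp [hall]; left; exact ⟨r, hr, rfl⟩)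
  simp only [MonoidHom.comp_apply] at D hx1
  have hxw : ∀ s, mk (xw (p := p) hζ s) = x s := fun s => xw_map hζ s mk D hx1
  have hE : ∀ r ∈ extraRels (p := p) hζ L, mk r = 1 := fun r hr => hrel r (by simp [hall, hr])
  have E : SL3Data ζ x (mk (up4 gH)) (mk (up4 gW)) (mk gC) {t | t ∈ L} :=
    { sl2 := D
      rel_c := by
        have := hE (gC * (up4 gW * (gC * up4 gW * gC⁻¹) * (up4 gW * up4 gW))⁻¹)
          (by simp [extraRels])
        rw [map_mul, map_inv, mul_inv_eq_one] at this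
        simpa only [map_mul, map_inv] using this
      rel_hh := by
        have := hE (up4 gH * (gC * up4 gH * gC⁻¹) * (gC * up4 gH * gC⁻¹ * up4 gH)⁻¹)
          (by simp [extraRels])
        rw [map_mul, map_inv, mul_inv_eq_one] at this
        simpa only [map_mul, map_inv] using this
      rel_hv := by
        have := hE (up4 gH * (gC * up4 gU * gC⁻¹) * (up4 gH)⁻¹ *
          (gC * xw (p := p) hζ (ζ : F)⁻¹ * gC⁻¹)⁻¹) (by simp [extraRels])
        rw [map_mul, map_inv, mul_inv_eq_one] at this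
        simpa only [map_mul, map_inv, hxw, ← hx1] using this
      rel_wh := by
        have := hE (up4 gW * (gC * up4 gH * gC⁻¹) * (up4 gW)⁻¹ *
          (up4 gH * (gC * up4 gH * gC⁻¹))⁻¹) (by simp [extraRels])
        rw [map_mul, map_inv, mul_inv_eq_one] at this
        simpa only [map_mul, map_inv] using this
      rel_comm := fun s hs => by
        have := hE _ (List.mem_append_left _ (List.mem_append_right _
          (List.mem_map.2 ⟨s, hs, rfl⟩)))
        rw [map_mul, map_inv, mul_inv_eq_one] at this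
        simpa only [map_mul, map_inv, hxw, ← hx1] using this
      rel_cent := fun s hs => by
        have := hE _ (List.mem_append_right _ (List.mem_map.2 ⟨s, hs, rfl⟩))
        rw [map_mul, map_inv, mul_inv_eq_one] at this
        simpa only [map_mul, map_inv, hxw, ← hx1] using this }
  have hgen : Subgroup.closure ({x 1, mk (up4 gH), mk (up4 gW), mk gC} :
      Set (PresentedGroup R)) = ⊤ := by
    refine eq_top_iff.2 ((PresentedGroup.closure_range_of R).ge.trans (Subgroup.closure_mono ?_))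
    rintro _ ⟨i, rfl⟩
    fin_cases i
    · refine Or.inl ?_
      rw [hx1]; simp [hmk, up4, gU, PresentedGroup.of]
    · refine Or.inr (Or.inl ?_)
      simp [hmk, up4, gH, PresentedGroup.of]
    · refine Or.inr (Or.inr (Or.inl ?_))
      simp [hmk, up4, gW, PresentedGroup.of]
    · refine Or.inr (Or.inr (Or.inr ?_))
      simp [hmk, gC, PresentedGroup.of]
  obtain ⟨hfin, hcard⟩ := E.finite_and_card_le hζ hspan hgen
  have hsat3 : ∀ r ∈ R, hom3 ζ r = 1 := by
    intro r hr
    have hr' : r ∈ all := by simpa [hR] using hr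
    rw [hall, List.mem_append] at hr'
    rcases hr' with hr' | hr'
    · obtain ⟨r', hr'', rfl⟩ := List.mem_map.1 hr'
      rw [hom3_up4, hsat r' hr'', map_one]
    · have M := sl3Data_matrix (F := F) ζ {t | t ∈ L}
      have hU : hom3 ζ (up4 gU) = corner (upperU 1) := by rw [hom3_up4, Cfsg.Agent.S2286.slHom_U]
      have hH : hom3 ζ (up4 gH) = corner (diagA ζ) := by rw [hom3_up4, Cfsg.Agent.S2286.slHom_H]
      have hW : hom3 ζ (up4 gW) = corner weylSL := by rw [hom3_up4, Cfsg.Agent.S2286.slHom_W]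
      have hX : ∀ s, hom3 ζ (xw (p := p) hζ s) = corner (upperU s) := fun s =>
        xw_map hζ s (hom3 ζ) (x := fun t => corner (upperU t))
          (w := corner weylSL) (by rw [hH]; exact M.sl2) hU.symm
      rw [extraRels, List.mem_append, List.mem_append] at hr'
      rcases hr' with (hr' | hr') | hr'
      · simp only [List.mem_cons, List.not_mem_nil, or_false] at hr'
        rcases hr' with rfl | rfl | rfl | rfl <;>
          (rw [map_mul, map_inv, mul_inv_eq_one]
           simp only [map_mul, map_inv, hU, hH, hW, hX, hom3_C])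
        · exact M.rel_c
        · exact M.rel_hh
        · exact M.rel_hv
        · exact M.rel_wh
      · obtain ⟨s, hs, rfl⟩ := List.mem_map.1 hr'
        rw [map_mul, map_inv, mul_inv_eq_one]
        simp only [map_mul, map_inv, hU, hW, hX, hom3_C]
        exact M.rel_comm s hs
      · obtain ⟨s, hs, rfl⟩ := List.mem_map.1 hr'
        rw [map_mul, map_inv, mul_inv_eq_one]
        simp only [map_mul, map_inv, hU, hW, hX, hom3_C]
        exact M.rel_cent s hs
  let ψ : PresentedGroup R →* Matrix.SpecialLinearGroup (Fin 3) F :=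
    PresentedGroup.toGroup (f := ![corner (upperU 1), corner (diagA ζ), corner weylSL, cycleSL])
      hsat3
  have hψ : ∀ r, ψ (mk r) = hom3 ζ r := fun r => rfl
  have hsurj : Function.Surjective ψ := by
    rw [← MonoidHom.range_eq_top]
    refine eq_top_of_generators hζ _ (fun t => ⟨mk (xw (p := p) hζ t), ?_⟩)
      ⟨mk (up4 gH), by rw [hψ, hom3_up4, Cfsg.Agent.S2286.slHom_H]⟩
      ⟨mk (up4 gW), by rw [hψ, hom3_up4, Cfsg.Agent.S2286.slHom_W]⟩
      ⟨mk gC, by rw [hψ, hom3_C]⟩
    rw [hψ]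
    exact xw_map hζ t (hom3 ζ) (x := fun t => corner (upperU t)) (w := corner weylSL)
      (by rw [hom3_up4, Cfsg.Agent.S2286.slHom_H]; exact slData_corner ζ)
      (by rw [hom3_up4, Cfsg.Agent.S2286.slHom_U])
  haveI := hfin
  haveI := Fintype.ofFinite (PresentedGroup R)
  have hle := Nat.card_le_card_of_surjective ψ hsurj
  exact ⟨MulEquiv.ofBijective ψ ((Nat.bijective_iff_surjective_and_card ψ).2
    ⟨hsurj, le_antisymm (hcard.trans card_bound) hle⟩)⟩

/-- For every finite field F other than the field with 9 elements, SL_3(F) has a presentation with 4 generators and at most 14 relations. -/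
theorem result {F : Type*} [Field F] [Fintype F] (hq9 : Fintype.card F ≠ 9) : ∃ rels : Finset (FreeGroup (Fin 4)), rels.card ≤ 14 ∧ Nonempty (PresentedGroup (↑rels : Set (FreeGroup (Fin 4))) ≃* Matrix.SpecialLinearGroup (Fin 3) F) := by
  classical
  obtain ⟨p, hp⟩ := CharP.exists F
  haveI := hp
  haveI : Fact p.Prime := ⟨CharP.char_is_prime F p⟩
  letI : Algebra (ZMod p) F := ZMod.algebra F p
  obtain ⟨ζ, hζ⟩ := IsCyclic.exists_generator (α := Fˣ)
  by_cases h4 : Fintype.card F = 4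
  · obtain rfl : p = 2 := by
      obtain ⟨n, hpp, hn⟩ := FiniteField.card F p
      have h : p ∣ 2 ^ 2 := by
        rw [show (2 : ℕ) ^ 2 = Fintype.card F by rw [h4]; norm_num, hn]
        exact dvd_pow_self p n.pos.ne'
      exact (Nat.prime_dvd_prime_iff_eq hpp Nat.prime_two).1 (hpp.dvd_of_dvd_pow h)
    obtain ⟨L2, hlen, hsat, hprop⟩ := sl_rels_two hζ
    suffices hsp : ∀ K : AddSubgroup F, (∀ t ∈ K, (ζ : F) ^ 3 * t ∈ K) →
        {t | t ∈ [1, (ζ : F)]} ⊆ (K : Set F) → ∀ t, t ∈ K by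
      obtain ⟨rels, hcard, he⟩ := pres3 2 hζ L2 hsat hprop [1, (ζ : F)] hsp
      exact ⟨rels, hcard.trans (by simp; omega), he⟩
    intro K _ hS t
    have k1 : (1 : F) ∈ K := hS (by simp)
    have kz : (ζ : F) ∈ K := hS (by simp)
    by_cases ht : t = 0
    · subst ht; exact K.zero_mem
    obtain ⟨k, hk⟩ := (mem_powers_iff_mem_zpowers).2 (hζ (Units.mk0 t ht))
    have h3 : (ζ : F) ^ 3 = 1 := by
      have h := FiniteField.pow_card_sub_one_eq_one (ζ : F) ζ.ne_zero
      rwa [h4] at h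
    have hk' : t = (ζ : F) ^ (k % 3) := by
      rw [← Units.val_mk0 ht, ← show ζ ^ k = _ from hk, Units.val_pow_eq_pow_val]
      conv_lhs => rw [← Nat.mod_add_div k 3, pow_add, pow_mul, h3, one_pow, mul_one]
    have h2 : (ζ : F) ^ 2 = 1 + (ζ : F) := by
      have hne : (ζ : F) - 1 ≠ 0 := by
        intro h
        have h1 : orderOf ζ = 1 := orderOf_eq_one_iff.2 (Units.ext (sub_eq_zero.1 h))
        rw [orderOf_eq_card_of_forall_mem_zpowers hζ, Nat.card_units, Nat.card_eq_fintype_card,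
          h4] at h1
        omega
      have h5 : ((ζ : F) - 1) * ((ζ : F) ^ 2 + (ζ : F) + 1) = 0 := by linear_combination h3
      have h6 := (mul_eq_zero.1 h5).resolve_left hne
      have htwo : (2 : F) = 0 := CharTwo.two_eq_zero
      linear_combination h6 - (1 + (ζ : F)) * htwo
    rw [hk']
    have : k % 3 < 3 := Nat.mod_lt _ (by norm_num)
    interval_cases h : k % 3
    · simpa using k1
    · simpa using kz
    · rw [h2]; exact K.add_mem k1 kz
  · obtain ⟨L2, hlen, hsat, hprop⟩ := sl_rels p hζ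
    obtain ⟨rels, hcard, he⟩ := pres3 p hζ L2 hsat hprop [1] (fun K hK hS t =>
      all_mem_of_mul_closed hζ 3 (Or.inr ⟨rfl, h4⟩) K hK (hS (by simp)) t)
    exact ⟨rels, hcard.trans (by simp; omega), he⟩

end Cfsg.Agent.S2287
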