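import Cfsg.Statements.S2289
import Cfsg.Agent.Eq.Def_Classical
import Cfsg.Agent.SUThreePres.Pres
import Cfsg.Agent.SpFourPres.Quot
import Cfsg.Agent.Classical.Unitary.Center
-- import your own Cfsg.Agent.* helpers here

set_option autoImplicit false
set_option linter.style.haveILetI false
open Cfsg

namespace Cfsg.Agent.S2289

/-- Killing a cyclic centre costs one relator. -/
theorem mod_center {m : ℕ} {S : Type*} [Group S] (rels : Finset (FreeGroup (Fin m)))
    (E : PresentedGroup (↑rels : Set (FreeGroup (Fin m))) ≃* S) [IsCyclic (Subgroup.center S)] :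
    ∃ rels' : Finset (FreeGroup (Fin m)), rels'.card ≤ rels.card + 1 ∧
      Nonempty (PresentedGroup (↑rels' : Set (FreeGroup (Fin m))) ≃* S ⧸ Subgroup.center S) := by
  classical
  obtain ⟨g, hg⟩ := IsCyclic.exists_generator (α := Subgroup.center S)
  obtain ⟨c, hc⟩ := PresentedGroup.mk_surjective _ (E.symm g.1)
  have hec : E (PresentedGroup.mk _ c) = g.1 := by rw [hc, MulEquiv.apply_symm_apply]
  refine ⟨insert c rels, Finset.card_insert_le _ _, ?_⟩
  rw [Finset.coe_insert]
  refine CfsgLib.SpFourPres.presented_quotient E (Subgroup.center S) c (by rw [hec]; exact g.2)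
    fun x hx => ?_
  rw [hec]
  obtain ⟨k, hk⟩ := Subgroup.mem_zpowers_iff.1 (hg ⟨x, hx⟩)
  have hk' : (g : S) ^ k = x := (SubgroupClass.coe_zpow g k).symm.trans (congrArg Subtype.val hk)
  rw [← hk']
  exact Subgroup.zpow_mem _ (Subgroup.subset_normalClosure (Set.mem_singleton (g : S))) k

/-- Let F be a field with q² elements, q ∉ {2, 3, 5}, and SU_3(q), PSU_3(q) the special unitary group of the standard Hermitian form and its central quotient. Then SU_3(q) has a presentation with 3 generators and at most 23 relations, and PSU_3(q) one with 3 generators and at most 24 relations. -/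
theorem result {F : Type*} [Field F] [Fintype F] (q : ℕ) (hF : Fintype.card F = q ^ 2) (h2 : q ≠ 2) (h3 : q ≠ 3) (h5 : q ≠ 5) :
    (∃ rels : Finset (FreeGroup (Fin 3)), rels.card ≤ 23 ∧ Nonempty (PresentedGroup (↑rels : Set (FreeGroup (Fin 3))) ≃* ↥(Cfsg.SU 3 F q))) ∧ (∃ rels : Finset (FreeGroup (Fin 3)), rels.card ≤ 24 ∧ Nonempty (PresentedGroup (↑rels : Set (FreeGroup (Fin 3))) ≃* Cfsg.PSU 3 F q)) := by
  classical
  obtain ⟨p, e, hp, hc, -, he⟩ := CfsgLib.Unitary.exists_char hF
  haveI := hc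
  haveI : Fact p.Prime := ⟨hp⟩
  letI : Algebra (ZMod p) F := ZMod.algebra F p
  obtain ⟨ζ, hζ⟩ := IsCyclic.exists_generator (α := Fˣ)
  obtain ⟨rels, hcard, ⟨e0⟩⟩ := CfsgLib.SUThreePres.exists_presentation hF ζ hζ he h2
  obtain ⟨e1⟩ := CfsgLib.SUThreePres.exists_iso hF
  set E := e0.trans e1
  refine ⟨⟨rels, hcard, ⟨E⟩⟩, ?_⟩
  set Z := Subgroup.center ↥(Cfsg.SU 3 F q) with hZ
  have hsc := fun A : Z => (CfsgLib.Unitary.mem_center_SU_iff hF (by norm_num) A.1).1 A.2
  let f : Z →* F :=
    { toFun := fun A => A.1.1.1 0 0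
      map_one' := by simp
      map_mul' := fun A B => by
        obtain ⟨a, ha⟩ := hsc A
        obtain ⟨b, hb⟩ := hsc B
        simp [Matrix.mul_apply, Fin.sum_univ_three, ha, hb] }
  have hf : Function.Injective f := fun A B h => by
    obtain ⟨a, ha⟩ := hsc A
    obtain ⟨b, hb⟩ := hsc B
    have hab : a = b := by simpa [f, ha, hb] using h
    exact Subtype.ext (Subtype.ext (Subtype.ext (by rw [ha, hb, hab])))
  haveI : IsCyclic Z := isCyclic_of_subgroup_isDomain f hf
  obtain ⟨rels', h1, h2'⟩ := mod_center rels E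
  exact ⟨rels', h1.trans (by omega), h2'⟩

end Cfsg.Agent.S2289
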