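import Cfsg.Statements.S2293
import Cfsg.Agent.Eq.Def_Classical
import Cfsg.Agent.S2286
import Cfsg.Agent.SpFourPres.Matrix
import Cfsg.Agent.SpFourPres.Quot
import Cfsg.Agent.Classical.Symp.Simple

set_option autoImplicit false
open Cfsg

namespace Cfsg.Agent.S2293

open CfsgLib.SLTwoPres CfsgLib.SpFourPres Polynomial
open CfsgLib.Psl2Unipotent (upperU diagA)
open Cfsg.Agent.S2286 (slHom GivesData gU gH gW adjoin_sq_eq_top sl_rels)

/-- The short root generators among the six. -/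
noncomputable def inS : FreeGroup (Fin 3) →* FreeGroup (Fin 6) := FreeGroup.map (Fin.castAdd 3)

/-- The long root generators among the six. -/
noncomputable def inL : FreeGroup (Fin 3) →* FreeGroup (Fin 6) := FreeGroup.map (Fin.natAdd 3)

/-- The two sides of the fourteen relations tying the two copies of `SL₂` together. -/
def pairs {G : Type*} [Group G] (u h w v h' w' xm xz yz : G) : List (G × G) :=
  [(h * h', h' * h), (h * v * h⁻¹, yz), (h' * u * h'⁻¹, xz), (w * h' * w⁻¹, h * h'),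
   (w' * h * w'⁻¹, h * (h' * h')),
   (w * (w' * xm * w'⁻¹) * w⁻¹, w' * u * w'⁻¹),
   (w' * (w * v * w⁻¹) * w'⁻¹, w * v * w⁻¹),
   (w' * w * w' * w, w * w' * w * w'),
   (v * (w * v * w⁻¹), w * v * w⁻¹ * v),
   (v * (w' * xm * w'⁻¹), w' * xm * w'⁻¹ * v),
   (w * v * w⁻¹ * (w' * xm * w'⁻¹), w' * xm * w'⁻¹ * (w * v * w⁻¹)),
   (u * (w * v * w⁻¹), w * v * w⁻¹ * u),
   (u * v * u⁻¹, w' * xm * w'⁻¹ * (w * v * w⁻¹) * v),
   (u * (w' * xm * w'⁻¹) * u⁻¹, w * v * w⁻¹ * (w * v * w⁻¹) * (w' * xm * w'⁻¹))]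

theorem map_pairs {G G' : Type*} [Group G] [Group G'] (φ : G →* G')
    (u h w v h' w' xm xz yz : G) :
    (pairs u h w v h' w' xm xz yz).map (Prod.map φ φ) =
      pairs (φ u) (φ h) (φ w) (φ v) (φ h') (φ w') (φ xm) (φ xz) (φ yz) := by
  simp [pairs]

section Pres

variable {F : Type*} [Field F]

theorem sp4Data_of_pairs {ζ : Fˣ} {P : Type*} [Group P] {x : F → P} {h w : P} {y : F → P}
    {h' w' : P} (D : SLData ζ x h w) (D' : SLData ζ y h' w')
    (hp : ∀ q ∈ pairs (x 1) h w (y 1) h' w' (x (-1)) (x (ζ : F)⁻¹) (y ((ζ : F) ^ 2)⁻¹),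
      q.1 = q.2) : Sp4Data ζ x h w y h' w' := by
  simp only [pairs, List.forall_mem_cons, List.not_mem_nil, false_imp_iff, implies_true,
    and_true] at hp
  obtain ⟨h1, h2, h3, h4, h5, h6, h7, h8, h9, h10, h11, h12, h13, h14⟩ := hp
  exact ⟨D, D', h1, h2, h3, h4, h5, h6, h7, h8, h9, h10, h11, h12, h13, h14⟩

theorem pairs_of_sp4Data {ζ : Fˣ} {P : Type*} [Group P] {x : F → P} {h w : P} {y : F → P}
    {h' w' : P} (E : Sp4Data ζ x h w y h' w') :
    ∀ q ∈ pairs (x 1) h w (y 1) h' w' (x (-1)) (x (ζ : F)⁻¹) (y ((ζ : F) ^ 2)⁻¹),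
      q.1 = q.2 := by
  simp only [pairs, List.forall_mem_cons, List.not_mem_nil, false_imp_iff, implies_true,
    and_true]
  exact ⟨E.rel_hh, E.rel_hy, E.rel_hx, E.rel_wh, E.rel_wh', E.rel_wr, E.rel_wz, E.rel_braid,
    E.rel_yz, E.rel_yr, E.rel_zr, E.rel_xz, E.rel_xy, E.rel_xr⟩

/-- The images of the six generators. -/
noncomputable def hom6 (ζ : Fˣ) : FreeGroup (Fin 6) →* Matrix.symplecticGroup (Fin 2) F :=
  FreeGroup.lift ![short (upperU 1), short (diagA ζ), short weylSL,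
    long (upperU 1), long (diagA ζ), long weylSL]

theorem hom6_inS (ζ : Fˣ) (r : FreeGroup (Fin 3)) : hom6 ζ (inS r) = short (slHom ζ r) := by
  have : (hom6 ζ).comp inS = short.comp (slHom ζ) :=
    FreeGroup.ext_hom _ _ fun i => by
      fin_cases i <;> simp [hom6, inS, slHom, MonoidHom.comp_apply]
  exact DFunLike.congr_fun this r

theorem hom6_inL (ζ : Fˣ) (r : FreeGroup (Fin 3)) : hom6 ζ (inL r) = long (slHom ζ r) := by
  have : (hom6 ζ).comp inL = long.comp (slHom ζ) :=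
    FreeGroup.ext_hom _ _ fun i => by
      fin_cases i <;> simp [hom6, inL, slHom, MonoidHom.comp_apply]
  exact DFunLike.congr_fun this r

variable [Fintype F] {p : ℕ} [Fact p.Prime] [Algebra (ZMod p) F]

/-- A word for `x(s)`. -/
noncomputable def xw {ζ : Fˣ} (hζ : ∀ u : Fˣ, u ∈ Subgroup.zpowers ζ) (s : F) : FreeGroup (Fin 3) :=
  polyWord (Classical.choose (show ∃ f : (ZMod p)[X], aeval ((ζ : F) ^ 2) f = s from by
    have ht : s ∈ Algebra.adjoin (ZMod p) {(ζ : F) ^ 2} :=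
      (adjoin_sq_eq_top (p := p) hζ) ▸ Algebra.mem_top
    rwa [Algebra.adjoin_singleton_eq_range_aeval] at ht)) gU gH

theorem xw_map {ζ : Fˣ} (hζ : ∀ u : Fˣ, u ∈ Subgroup.zpowers ζ) (s : F) {G : Type*} [Group G]
    (φ : FreeGroup (Fin 3) →* G) {x : F → G} {w : G} (D : SLData ζ x (φ gH) w)
    (hu : x 1 = φ gU) : φ (xw (p := p) hζ s) = x s := by
  rw [xw, map_polyWord, ← hu, polyWord_eq D.add D.conj_x]
  congr 1
  exact Classical.choose_spec (show ∃ f : (ZMod p)[X], aeval ((ζ : F) ^ 2) f = s from by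
    have ht : s ∈ Algebra.adjoin (ZMod p) {(ζ : F) ^ 2} :=
      (adjoin_sq_eq_top (p := p) hζ) ▸ Algebra.mem_top
    rwa [Algebra.adjoin_singleton_eq_range_aeval] at ht)

/-- The fourteen relators. -/
noncomputable def tieRels {ζ : Fˣ} (hζ : ∀ u : Fˣ, u ∈ Subgroup.zpowers ζ) :
    List (FreeGroup (Fin 6)) :=
  (pairs (inS gU) (inS gH) (inS gW) (inL gU) (inL gH) (inL gW) (inS (xw (p := p) hζ (-1)))
    (inS (xw (p := p) hζ (ζ : F)⁻¹)) (inL (xw (p := p) hζ ((ζ : F) ^ 2)⁻¹))).map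
      fun q => q.1 * q.2⁻¹

theorem pres6 (p : ℕ) [Fact p.Prime] [Algebra (ZMod p) F] {ζ : Fˣ}
    (hζ : ∀ u : Fˣ, u ∈ Subgroup.zpowers ζ) :
    ∃ rels : Finset (FreeGroup (Fin 6)), rels.card ≤ 35 ∧
      Nonempty (PresentedGroup (↑rels : Set (FreeGroup (Fin 6))) ≃*
        Matrix.symplecticGroup (Fin 2) F) := by
  classical
  obtain ⟨L2, hlen, hsat, hprop⟩ := sl_rels p hζ
  set all : List (FreeGroup (Fin 6)) :=
    L2.map inS ++ L2.map inL ++ tieRels (p := p) hζ with hall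
  refine ⟨all.toFinset, (List.toFinset_card_le all).trans
    (by simp [hall, tieRels, pairs]; omega), ?_⟩
  set R : Set (FreeGroup (Fin 6)) := ↑all.toFinset with hR
  have hrel : ∀ r ∈ all, PresentedGroup.mk R r = 1 :=
    fun r hr => PresentedGroup.one_of_mem (by simpa [hR] using hr)
  set mk := PresentedGroup.mk R with hmk
  obtain ⟨x, D, hx1⟩ := hprop (mk.comp inS) fun r hr => hrel _
    (List.mem_append_left _ (List.mem_append_left _ (List.mem_map.2 ⟨r, hr, rfl⟩)))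
  obtain ⟨y, D', hy1⟩ := hprop (mk.comp inL) fun r hr => hrel _
    (List.mem_append_left _ (List.mem_append_right _ (List.mem_map.2 ⟨r, hr, rfl⟩)))
  have hxw : ∀ s, mk (inS (xw (p := p) hζ s)) = x s := fun s => xw_map hζ s (mk.comp inS) D hx1
  have hyw : ∀ s, mk (inL (xw (p := p) hζ s)) = y s := fun s => xw_map hζ s (mk.comp inL) D' hy1
  have E : Sp4Data ζ x ((mk.comp inS) gH) ((mk.comp inS) gW) y ((mk.comp inL) gH)
      ((mk.comp inL) gW) := by
    refine sp4Data_of_pairs D D' ?_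
    rw [hx1, hy1, ← hxw, ← hxw, ← hyw]
    simp only [MonoidHom.comp_apply]
    rw [← map_pairs mk]
    intro q hq
    obtain ⟨q', hq', rfl⟩ := List.mem_map.1 hq
    have h := hrel (q'.1 * q'.2⁻¹) (List.mem_append_right _ (List.mem_map.2 ⟨q', hq', rfl⟩))
    rwa [map_mul, map_inv, mul_inv_eq_one] at h
  have hgen : Subgroup.closure ({x 1, (mk.comp inS) gH, (mk.comp inS) gW, y 1,
      (mk.comp inL) gH, (mk.comp inL) gW} : Set (PresentedGroup R)) = ⊤ := by
    refine eq_top_iff.2 ((PresentedGroup.closure_range_of R).ge.trans (Subgroup.closure_mono ?_))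
    rintro _ ⟨i, rfl⟩
    rw [hx1, hy1]
    fin_cases i <;> simp [hmk, inS, inL, gU, gH, gW, PresentedGroup.of]
  obtain ⟨hfin, hcard⟩ := E.finite_and_card_le hζ hgen
  have M := sp4Data_matrix (F := F) ζ
  have hXS : ∀ s, hom6 ζ (inS (xw (p := p) hζ s)) = short (upperU s) := fun s =>
    xw_map hζ s ((hom6 ζ).comp inS) (x := fun t => short (upperU t)) (w := short weylSL)
      (by rw [MonoidHom.comp_apply, hom6_inS, Cfsg.Agent.S2286.slHom_H]; exact M.sl)
      (by rw [MonoidHom.comp_apply, hom6_inS, Cfsg.Agent.S2286.slHom_U])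
  have hXL : ∀ s, hom6 ζ (inL (xw (p := p) hζ s)) = long (upperU s) := fun s =>
    xw_map hζ s ((hom6 ζ).comp inL) (x := fun t => long (upperU t)) (w := long weylSL)
      (by rw [MonoidHom.comp_apply, hom6_inL, Cfsg.Agent.S2286.slHom_H]; exact M.sl')
      (by rw [MonoidHom.comp_apply, hom6_inL, Cfsg.Agent.S2286.slHom_U])
  have hsat6 : ∀ r ∈ R, hom6 ζ r = 1 := by
    intro r hr
    have hr' : r ∈ all := by simpa [hR] using hr
    rw [hall, List.mem_append, List.mem_append] at hr'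
    rcases hr' with (hr' | hr') | hr'
    · obtain ⟨r', hr'', rfl⟩ := List.mem_map.1 hr'
      rw [hom6_inS, hsat r' hr'', map_one]
    · obtain ⟨r', hr'', rfl⟩ := List.mem_map.1 hr'
      rw [hom6_inL, hsat r' hr'', map_one]
    · obtain ⟨q, hq, rfl⟩ := List.mem_map.1 hr'
      have hm := List.mem_map_of_mem (f := Prod.map (hom6 ζ) (hom6 ζ)) hq
      rw [map_pairs, hXS, hXS, hXL] at hm
      simp only [hom6_inS, hom6_inL, Cfsg.Agent.S2286.slHom_U, Cfsg.Agent.S2286.slHom_H,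
        Cfsg.Agent.S2286.slHom_W] at hm
      rw [map_mul, map_inv, mul_inv_eq_one]
      exact pairs_of_sp4Data M _ hm
  let ψ : PresentedGroup R →* Matrix.symplecticGroup (Fin 2) F :=
    PresentedGroup.toGroup (f := ![short (upperU 1), short (diagA ζ), short weylSL,
      long (upperU 1), long (diagA ζ), long weylSL]) hsat6
  have hψ : ∀ r, ψ (mk r) = hom6 ζ r := fun r => rfl
  have hsurj : Function.Surjective ψ := by
    rw [← MonoidHom.range_eq_top]
    refine eq_top_of_generators hζ _ (fun t => ⟨mk (inS (xw (p := p) hζ t)), (hψ _).trans (hXS t)⟩)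
      ⟨mk (inS gH), by rw [hψ, hom6_inS, Cfsg.Agent.S2286.slHom_H]⟩
      ⟨mk (inS gW), by rw [hψ, hom6_inS, Cfsg.Agent.S2286.slHom_W]⟩
      (fun t => ⟨mk (inL (xw (p := p) hζ t)), (hψ _).trans (hXL t)⟩)
      ⟨mk (inL gH), by rw [hψ, hom6_inL, Cfsg.Agent.S2286.slHom_H]⟩
      ⟨mk (inL gW), by rw [hψ, hom6_inL, Cfsg.Agent.S2286.slHom_W]⟩
  haveI := hfin
  haveI := Fintype.ofFinite (PresentedGroup R)
  have hle := Nat.card_le_card_of_surjective ψ hsurj
  exact ⟨MulEquiv.ofBijective ψ ((Nat.bijective_iff_surjective_and_card ψ).2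
    ⟨hsurj, le_antisymm (hcard.trans card_bound) hle⟩)⟩

end Pres

/-- For every finite field F, Sp_4(F) has a presentation with 6 generators and at most 35 relations, and PSp_4(F) one with 6 generators and at most 36 relations. -/
theorem result {F : Type*} [Field F] [Fintype F] : (∃ rels : Finset (FreeGroup (Fin 6)), rels.card ≤ 35 ∧ Nonempty (PresentedGroup (↑rels : Set (FreeGroup (Fin 6))) ≃* Matrix.symplecticGroup (Fin 2) F)) ∧ (∃ rels : Finset (FreeGroup (Fin 6)), rels.card ≤ 36 ∧ Nonempty (PresentedGroup (↑rels : Set (FreeGroup (Fin 6))) ≃* Cfsg.PSp 2 F)) := by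
  classical
  obtain ⟨p, hp⟩ := CharP.exists F
  haveI := hp
  haveI : Fact p.Prime := ⟨CharP.char_is_prime F p⟩
  letI : Algebra (ZMod p) F := ZMod.algebra F p
  obtain ⟨ζ, hζ⟩ := IsCyclic.exists_generator (α := Fˣ)
  obtain ⟨rels, hcard, ⟨e⟩⟩ := pres6 p hζ
  refine ⟨⟨rels, hcard, ⟨e⟩⟩, ?_⟩
  obtain ⟨c, hc⟩ := PresentedGroup.mk_surjective _
    (e.symm (CfsgLib.Classical.Symp.negOne 2 F))
  have hec : e (PresentedGroup.mk _ c) = CfsgLib.Classical.Symp.negOne 2 F := by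
    rw [hc, MulEquiv.apply_symm_apply]
  refine ⟨insert c rels, (Finset.card_insert_le _ _).trans (by omega), ?_⟩
  rw [Finset.coe_insert]
  refine presented_quotient e (Subgroup.center (Matrix.symplecticGroup (Fin 2) F)) c ?_ ?_
  · rw [hec, CfsgLib.Classical.Symp.mem_center_iff]
    exact Or.inr rfl
  · intro g hg
    rw [hec]
    rcases CfsgLib.Classical.Symp.mem_center_iff.1 hg with h | h
    · rw [show g = 1 from Subtype.ext h]; exact one_mem _
    · rw [show g = CfsgLib.Classical.Symp.negOne 2 F from Subtype.ext h]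
      exact Subgroup.subset_normalClosure rfl

end Cfsg.Agent.S2293
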