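import Cfsg.Statements.S2300
import Cfsg.Agent.Sl2Chars.Degrees
import Cfsg.Agent.Eq.Def_Characters
-- import your own Cfsg.Agent.* helpers here

set_option autoImplicit false
open Cfsg

namespace Cfsg.Agent.S2300

/-- Over a finite field F with q elements, q even, every irreducible complex character of SL₂ has degree 1, q − 1, q or q + 1; and when q ≥ 4 (so that these four numbers are distinct) there are exactly one irreducible character of degree 1, one of degree q, (q − 2)/2 of degree q + 1 and q/2 of degree q − 1. -/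
theorem result {F : Type*} [Field F] [Fintype F] [CharP F 2] :
    (∀ χ : Matrix.SpecialLinearGroup (Fin 2) F → ℂ, Cfsg.IsIrrCharacter (Matrix.SpecialLinearGroup (Fin 2) F) χ →
      χ 1 = 1 ∨ χ 1 = (Fintype.card F : ℂ) - 1 ∨ χ 1 = (Fintype.card F : ℂ) ∨ χ 1 = (Fintype.card F : ℂ) + 1) ∧
    (4 ≤ Fintype.card F →
      Nat.card {χ : Cfsg.IrrCharacter (Matrix.SpecialLinearGroup (Fin 2) F) // (χ : Matrix.SpecialLinearGroup (Fin 2) F → ℂ) 1 = 1} = 1 ∧
      Nat.card {χ : Cfsg.IrrCharacter (Matrix.SpecialLinearGroup (Fin 2) F) // (χ : Matrix.SpecialLinearGroup (Fin 2) F → ℂ) 1 = (Fintype.card F : ℂ)} = 1 ∧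
      Nat.card {χ : Cfsg.IrrCharacter (Matrix.SpecialLinearGroup (Fin 2) F) // (χ : Matrix.SpecialLinearGroup (Fin 2) F → ℂ) 1 = (Fintype.card F : ℂ) + 1} = (Fintype.card F - 2) / 2 ∧
      Nat.card {χ : Cfsg.IrrCharacter (Matrix.SpecialLinearGroup (Fin 2) F) // (χ : Matrix.SpecialLinearGroup (Fin 2) F → ℂ) 1 = (Fintype.card F : ℂ) - 1} = Fintype.card F / 2) := by
  classical
  refine ⟨fun χ hχ => ?_, fun hq => ?_⟩
  · obtain ⟨n, hn⟩ := CfsgLib.Chars.exists_natCast_map_one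
      (CfsgLib.Chars.isCharacter_of_isIrrCharacter hχ)
    rw [hn]
    have hpos := Fintype.card_pos (α := F)
    rcases CfsgLib.Sl2Chars.patTwo_deg_cases ⟨χ, hχ⟩ hn with ⟨-, e⟩ | ⟨-, e⟩ | ⟨-, e⟩ | ⟨-, e⟩
    · exact Or.inr (Or.inr (Or.inr (by rw [e]; push_cast; rfl)))
    · exact Or.inl (by rw [e, Nat.cast_one])
    · exact Or.inr (Or.inr (Or.inl (by rw [e])))
    · exact Or.inr (Or.inl (by rw [e, Nat.cast_sub hpos, Nat.cast_one]))
  have heven : Fintype.card F % 2 = 0 :=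
    FiniteField.even_card_of_char_two (ringChar.eq F 2)
  obtain ⟨k, hk⟩ : ∃ k, Fintype.card F = 2 * k := ⟨Fintype.card F / 2, by omega⟩
  have count : ∀ (n m : ℕ) (S : Finset (ℕ × ℕ)),
      (∀ p ∈ ({(2, 1), (1, 0), (1, 1), (0, 1)} : Finset (ℕ × ℕ)),
        n = CfsgLib.Sl2Chars.patTwoDeg (Fintype.card F) p ↔ p ∈ S) →
      ((Fintype.card F : ℂ) - 2) / 2 * (if (2, 1) ∈ S then 1 else 0) +
        ((if (1, 0) ∈ S then 1 else 0) + (if (1, 1) ∈ S then 1 else 0)) +
      (Fintype.card F : ℂ) / 2 * (if (0, 1) ∈ S then 1 else 0) = (m : ℂ) →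
      Nat.card {χ : IrrCharacter (Matrix.SpecialLinearGroup (Fin 2) F) //
        (χ : Matrix.SpecialLinearGroup (Fin 2) F → ℂ) 1 = n} = m := by
    intro n m S h hm
    have hS : ∀ χ : IrrCharacter (Matrix.SpecialLinearGroup (Fin 2) F),
        (χ : Matrix.SpecialLinearGroup (Fin 2) F → ℂ) 1 = n ↔
          CfsgLib.Sl2Chars.patTwo χ ∈ S := fun χ => by
      rw [CfsgLib.Sl2Chars.apply_one_patTwo, Nat.cast_inj, eq_comm,
        h _ (CfsgLib.Sl2Chars.patTwo_cases χ)]
    rw [Nat.card_congr (Equiv.subtypeEquivRight hS), Nat.card_eq_fintype_card,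
      Fintype.card_subtype]
    apply Nat.cast_injective (R := ℂ)
    rw [Finset.natCast_card_filter, ← hm]
    exact CfsgLib.Sl2Chars.sum_patTwo fun p => if p ∈ S then (1 : ℂ) else 0
  rw [← Nat.cast_add_one, ← Nat.cast_one (R := ℂ), ← Nat.cast_sub (show 1 ≤ Fintype.card F by omega)]
  refine ⟨count _ _ {(1, 0)} ?_ ?_, count _ _ {(1, 1)} ?_ ?_,
    count _ _ {(2, 1)} ?_ ?_, count _ _ {(0, 1)} ?_ ?_⟩
  all_goals first
    | (intro p hp
       simp only [Finset.mem_insert, Finset.mem_singleton] at hp ⊢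
       rcases hp with rfl | rfl | rfl | rfl <;>
         simp [CfsgLib.Sl2Chars.patTwoDeg, Prod.mk.injEq] <;> omega)
    | (simp only [hk]
       simp [show (2 * k - 2) / 2 = k - 1 by omega,
         Nat.cast_sub (show 1 ≤ k by omega)]
       try ring)

end Cfsg.Agent.S2300
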