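import Cfsg.Statements.S2302
import Cfsg.Agent.PSL2.Sl2Unipotent

set_option autoImplicit false
open Cfsg

namespace Cfsg.Agent.S2302

/-- Over a finite field with q elements of characteristic 2, the involutions of SL₂ (the non-identity unipotent elements) form a single conjugacy class, of size q² − 1. -/
theorem result {F : Type*} [Field F] [Fintype F] [CharP F 2] (g h : Matrix.SpecialLinearGroup (Fin 2) F) (hg : orderOf g = 2) (hh : orderOf h = 2) :
    IsConj g h ∧ Nat.card (ConjClasses.mk g).carrier = Fintype.card F ^ 2 - 1 := by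
  obtain ⟨s, hs, hgs⟩ := CfsgLib.Psl2Unipotent.exists_isConj_upperU g hg
  obtain ⟨t, ht, hht⟩ := CfsgLib.Psl2Unipotent.exists_isConj_upperU h hh
  refine ⟨hgs.trans (((CfsgLib.Psl2Unipotent.isConj_upperU_iff hs ht).2
    (FiniteField.isSquare_of_char_two ((ringChar.eq_iff).2 inferInstance) _)).trans hht.symm), ?_⟩
  rw [ConjClasses.mk_eq_mk_iff_isConj.2 hgs]
  have h := CfsgLib.Psl2Unipotent.card_conj_carrier (CfsgLib.Psl2Unipotent.upperU s)
  rw [CfsgLib.Psl2Unipotent.card_centralizer_upperU hs,
    CfsgLib.Psl2Unipotent.card_sq_eq_one_of_two, CfsgLib.Psl2Unipotent.card_sl2, one_mul,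
    mul_comm (Fintype.card F)] at h
  exact Nat.eq_of_mul_eq_mul_right Fintype.card_pos h

end Cfsg.Agent.S2302
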