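import Cfsg.Statements.S2321
import Cfsg.Agent.Sl2Chars.Degrees
import Cfsg.Agent.Eq.Def_Characters
-- import your own Cfsg.Agent.* helpers here

set_option autoImplicit false
open Cfsg

namespace Cfsg.Agent.S2321

/-- Over a finite field F with q elements, an irreducible complex character of SL₂ of degree q (the Steinberg character) takes the value 1 at every diagonal matrix whose diagonal entry a has a² ≠ 1, the value −1 at every element with no eigenvector in F², and the value 0 at every upper triangular matrix with equal diagonal entries and non-zero upper right entry. -/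
theorem result {F : Type*} [Field F] [Fintype F] (χ : Matrix.SpecialLinearGroup (Fin 2) F → ℂ) (hχ : Cfsg.IsIrrCharacter (Matrix.SpecialLinearGroup (Fin 2) F) χ) (hdeg : χ 1 = (Fintype.card F : ℂ)) (g : Matrix.SpecialLinearGroup (Fin 2) F) :
    ((g : Matrix (Fin 2) (Fin 2) F) 0 1 = 0 → (g : Matrix (Fin 2) (Fin 2) F) 1 0 = 0 → (g : Matrix (Fin 2) (Fin 2) F) 0 0 ^ 2 ≠ 1 → χ g = 1) ∧
    ((∀ (c : F) (v : Fin 2 → F), v ≠ 0 → (g : Matrix (Fin 2) (Fin 2) F).mulVec v ≠ c • v) → χ g = -1) ∧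
    ((g : Matrix (Fin 2) (Fin 2) F) 1 0 = 0 → (g : Matrix (Fin 2) (Fin 2) F) 0 0 = (g : Matrix (Fin 2) (Fin 2) F) 1 1 → (g : Matrix (Fin 2) (Fin 2) F) 0 1 ≠ 0 → χ g = 0) := by
  classical
  obtain rfl : χ = CfsgLib.Sl2Chars.stFun F :=
    congrArg Subtype.val (CfsgLib.Sl2Chars.eq_stChar_of_degree (χ := ⟨χ, hχ⟩) hdeg)
  refine ⟨fun h01 h10 h00 => ?_, fun h => ?_, fun h10 heq h01 => ?_⟩
  · obtain ⟨a, ha, rfl⟩ := CfsgLib.Sl2Chars.exists_d_of_diag h01 h10 h00
    have h := CfsgLib.Sl2Chars.P_apply_split (1 : MulChar F ℂ) ha 0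
    rw [CfsgLib.SL2.u_zero, mul_one] at h
    simp only [CfsgLib.Sl2Chars.stFun, h]
    rw [MulChar.one_apply_coe, MulChar.one_apply_coe]
    norm_num
  · simp [CfsgLib.Sl2Chars.stFun,
      CfsgLib.Sl2Chars.P_apply_nonsplit _ (CfsgLib.Sl2Chars.not_isSplitTrace_of_forall h)]
  · obtain ⟨a, t, rfl⟩ := CfsgLib.Sl2Chars.exists_eq_d_mul_u (CfsgLib.SL2.mem_B.2 h10)
    simp [Matrix.mul_apply, Fin.sum_univ_two] at heq h01
    have ha : a * a = 1 := Units.ext (by
      rw [Units.val_mul, Units.val_one]; nth_rw 2 [heq]; exact mul_inv_cancel₀ a.ne_zero)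
    simp only [CfsgLib.Sl2Chars.stFun]
    rw [CfsgLib.Sl2Chars.P_apply_unip _ ha h01, MulChar.one_apply_coe, sub_self]

end Cfsg.Agent.S2321
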