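import Cfsg.Statements.S2323
import Cfsg.Agent.Sl2Chars.Degrees
import Cfsg.Agent.Eq.Def_Characters
-- import your own Cfsg.Agent.* helpers here

set_option autoImplicit false
open Cfsg

namespace Cfsg.Agent.S2323

/-- Over a finite field F with q ≥ 4 elements, let u be the upper unitriangular matrix of SL₂ with off-diagonal entry 1. An irreducible complex character of SL₂ takes at u the value 1 if its degree is q + 1 and the value −1 if its degree is q − 1. -/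
theorem result {F : Type*} [Field F] [Fintype F] (hq : 4 ≤ Fintype.card F) (χ : Matrix.SpecialLinearGroup (Fin 2) F → ℂ) (hχ : Cfsg.IsIrrCharacter (Matrix.SpecialLinearGroup (Fin 2) F) χ)
    (u : Matrix.SpecialLinearGroup (Fin 2) F) (hu : (u : Matrix (Fin 2) (Fin 2) F) = !![1, 1; 0, 1]) :
    (χ 1 = (Fintype.card F : ℂ) + 1 → χ u = 1) ∧ (χ 1 = (Fintype.card F : ℂ) - 1 → χ u = -1) := by
  classical
  obtain rfl : u = CfsgLib.SL2.u 1 := Subtype.ext hu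
  obtain ⟨χ, rfl⟩ : ∃ x : IrrCharacter (Matrix.SpecialLinearGroup (Fin 2) F),
      (x : Matrix.SpecialLinearGroup (Fin 2) F → ℂ) = χ := ⟨⟨χ, hχ⟩, rfl⟩
  have hsub : (Fintype.card F : ℂ) - 1 = ((Fintype.card F - 1 : ℕ) : ℂ) := by
    rw [Nat.cast_sub (by omega), Nat.cast_one]
  rw [hsub, ← Nat.cast_add_one]
  rcases CfsgLib.Sl2Chars.two_ne_zero_or_charTwo (F := F) with h2 | h2
  · obtain ⟨ν, hν⟩ := CfsgLib.Sl2Chars.exists_nonsquare h2
    refine ⟨fun hd => ?_, fun hd => ?_⟩ <;>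
      rcases CfsgLib.Sl2Chars.pat_deg_cases h2 hν χ hd with
        ⟨h, e⟩ | ⟨h, e⟩ | ⟨h, e⟩ | ⟨h, e⟩ | ⟨h, e⟩ | ⟨h, e⟩ <;>
      first | omega | (rw [CfsgLib.Sl2Chars.apply_u_pat hν χ one_ne_zero h]; norm_num)
  · refine ⟨fun hd => ?_, fun hd => ?_⟩ <;>
      rcases CfsgLib.Sl2Chars.patTwo_deg_cases χ hd with ⟨h, e⟩ | ⟨h, e⟩ | ⟨h, e⟩ | ⟨h, e⟩ <;>
      first | omega | (rw [CfsgLib.Sl2Chars.apply_u_patTwo χ one_ne_zero h]; norm_num)

end Cfsg.Agent.S2323
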