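import Cfsg.Statements.S2332
import Cfsg.Agent.SlMinDegree.Bound
import Cfsg.Agent.SlMinDegree.Exist
-- import your own Cfsg.Agent.* helpers here

set_option autoImplicit false
open Cfsg

namespace Cfsg.Agent.S2332

/-- Smallest degree of a non-linear irreducible complex representation of SL_n over a finite field with q elements, for n ≥ 3 and (n, q) not one of (3, 2), (3, 4), (4, 2), (4, 3): every irreducible complex representation of SL_n(F) of degree at least 2 has degree at least (q^n − q)/(q − 1), and there is an irreducible complex representation of exactly that degree. -/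
theorem result {F : Type*} [Field F] [Fintype F] [DecidableEq F] (n : ℕ) (hn : 3 ≤ n)
    (hex : (n, Fintype.card F) ≠ (3, 2) ∧ (n, Fintype.card F) ≠ (3, 4) ∧ (n, Fintype.card F) ≠ (4, 2) ∧ (n, Fintype.card F) ≠ (4, 3)) :
    (∀ (k : ℕ) (ρ : Representation ℂ (Matrix.SpecialLinearGroup (Fin n) F) (Fin k → ℂ)), ρ.IsIrreducible → 2 ≤ k → (Fintype.card F ^ n - Fintype.card F) / (Fintype.card F - 1) ≤ k) ∧
    (∃ ρ : Representation ℂ (Matrix.SpecialLinearGroup (Fin n) F) (Fin ((Fintype.card F ^ n - Fintype.card F) / (Fintype.card F - 1)) → ℂ), ρ.IsIrreducible) := by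
  classical
  obtain ⟨l, rfl⟩ : ∃ l, n = l + 2 := ⟨n - 2, by omega⟩
  refine ⟨fun k ρ hρ hk => ?_, CfsgLib.SlMinDegree.exists_irreducible hn⟩
  rw [show l + 2 = (l + 1) + 1 from rfl, CfsgLib.SlMinDegree.geomN_eq_div _ _ Fintype.one_lt_card]
  let ι := Unit ⊕ (Unit ⊕ Fin l)
  let e : Fin (l + 2) ≃ ι := (Fintype.equivFinOfCardEq (by simp [ι]; omega)).symm
  let φ : Matrix.SpecialLinearGroup ι F →* Matrix.SpecialLinearGroup (Fin (l + 2)) F :=
    { toFun := fun g => ⟨(g : Matrix ι ι F).submatrix e e, by rw [Matrix.det_submatrix_equiv_self]; exact g.2⟩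
      map_one' := Subtype.ext (by simp)
      map_mul' := fun g h => Subtype.ext (Matrix.submatrix_mul_equiv (g : Matrix ι ι F) h e e e).symm }
  have hφ : Function.Surjective φ := fun g =>
    ⟨⟨(g : Matrix (Fin (l + 2)) (Fin (l + 2)) F).submatrix e.symm e.symm,
      by rw [Matrix.det_submatrix_equiv_self]; exact g.2⟩, Subtype.ext (by
      show ((g : Matrix (Fin (l + 2)) (Fin (l + 2)) F).submatrix e.symm e.symm).submatrix e e = _
      simp)⟩
  let R : Matrix.SpecialLinearGroup ι F →* Matrix (Fin k) (Fin k) ℂ :=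
    (LinearMap.toMatrixAlgEquiv' : Module.End ℂ (Fin k → ℂ) ≃ₐ[ℂ] Matrix (Fin k) (Fin k) ℂ).toMonoidHom.comp
      (ρ.comp φ)
  refine CfsgLib.SlMinDegree.lower_bound R hk (by omega) ?_ ?_
  · simp only [ne_eq, Prod.mk.injEq] at hex
    exact ⟨hex.1, hex.2.1, hex.2.2.1, hex.2.2.2⟩
  intro X hX
  haveI : Nonempty (Fin k) := ⟨⟨0, by omega⟩⟩
  haveI : Nontrivial (Fin k → ℂ) := inferInstance
  let L : Module.End ℂ (Fin k → ℂ) := Matrix.toLinAlgEquiv' X
  have hL : ∀ g, L * ρ g = ρ g * L := fun g => by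
    obtain ⟨h, rfl⟩ := hφ g
    have e1 := congrArg (Matrix.toLinAlgEquiv' : Matrix (Fin k) (Fin k) ℂ ≃ₐ[ℂ] _) (hX h)
    rw [map_mul, map_mul] at e1
    have e2 : (Matrix.toLinAlgEquiv' : Matrix (Fin k) (Fin k) ℂ ≃ₐ[ℂ] _) (R h) = ρ (φ h) :=
      Matrix.toLinAlgEquiv'_toMatrixAlgEquiv' _
    rwa [e2] at e1
  obtain ⟨c, hc⟩ := Module.End.exists_eigenvalue L
  have hinv : ∀ g, ∀ x ∈ L.eigenspace c, ρ g x ∈ L.eigenspace c := fun g x hx => by
    rw [Module.End.mem_eigenspace_iff] at hx ⊢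
    have := LinearMap.congr_fun (hL g) x
    rw [Module.End.mul_apply, Module.End.mul_apply, hx, map_smul] at this
    exact this
  haveI : IsSimpleOrder (Subrepresentation ρ) := hρ
  rcases eq_bot_or_eq_top (⟨L.eigenspace c, fun g x hx => hinv g x hx⟩ : Subrepresentation ρ) with h | h
  · exact absurd (congrArg Subrepresentation.toSubmodule h) hc
  · refine ⟨c, ?_⟩
    have htop : L.eigenspace c = ⊤ := congrArg Subrepresentation.toSubmodule h
    apply (Matrix.toLinAlgEquiv' : Matrix (Fin k) (Fin k) ℂ ≃ₐ[ℂ] _).injective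
    refine LinearMap.ext fun x => ?_
    show L x = _
    have hx : x ∈ L.eigenspace c := htop ▸ Submodule.mem_top
    rw [Module.End.mem_eigenspace_iff.1 hx, map_smul, map_one]
    rfl
end Cfsg.Agent.S2332
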