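import Cfsg.Statements.S2336
import Cfsg.Agent.SlVectorChars.Basic
import Cfsg.Agent.Eq.Def_Characters
-- import your own Cfsg.Agent.* helpers here

set_option autoImplicit false
open Cfsg

namespace Cfsg.Agent.S2336

/-- Let F be a finite field with q elements and n ≥ 3. The permutation character of SL_n(F) on the non-zero vectors of F^n (the function sending a matrix to the number of non-zero vectors it fixes) is the sum of the principal character and q − 1 pairwise distinct irreducible complex characters. -/
theorem result {F : Type*} [Field F] [Fintype F] [DecidableEq F] (n : ℕ) (hn : 3 ≤ n) :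
    ∃ χ : Fin (Fintype.card F - 1) → (Matrix.SpecialLinearGroup (Fin n) F → ℂ),
      (∀ i, Cfsg.IsIrrCharacter (Matrix.SpecialLinearGroup (Fin n) F) (χ i)) ∧ Function.Injective χ ∧
      ∀ g : Matrix.SpecialLinearGroup (Fin n) F,
        (Nat.card {v : Fin n → F // v ≠ 0 ∧ (g : Matrix (Fin n) (Fin n) F).mulVec v = v} : ℂ) = 1 + ∑ i, χ i g := by
  classical
  set G := Matrix.SpecialLinearGroup (Fin n) F
  letI : Fintype (MulChar F ℂ) := Fintype.ofFinite _
  have hc : ∀ α : MulChar F ℂ, IsCharacter G (CfsgLib.SlVectorChars.chiA α) :=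
    CfsgLib.SlVectorChars.chiA_isCharacter (by omega)
  have hip := CfsgLib.SlVectorChars.classInner_chiA (F := F) hn
  have hirr : ∀ α : MulChar F ℂ, α ≠ 1 → IsIrrCharacter G (CfsgLib.SlVectorChars.chiA α) :=
    fun α hα => CfsgLib.Chars.isIrrCharacter_of_classInner_self (hc α) (by
      rw [hip, if_neg hα, if_pos rfl]; ring)
  -- `chiA 1` is `1` plus an irreducible character
  set one : G → ℂ := (CfsgLib.Chars.oneChar G : G → ℂ) with hone
  have hone_eq : ∀ α : MulChar F ℂ,
      classInner (CfsgLib.SlVectorChars.chiA α) one = if α = 1 then 1 else 0 := by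
    intro α
    haveI : NeZero n := ⟨by omega⟩
    rw [← CfsgLib.SlVectorChars.indFun_lineChar (n := n) (by omega) α, hone,
      CfsgLib.Chars.Induced.classInner_indFun _ _ (CfsgLib.Chars.isClassFunction_coe _)]
    simp only [classInner, CfsgLib.Chars.oneChar_apply, map_one, mul_one]
    rw [Nat.card_eq_fintype_card]
    have hs := sum_hom_units (CfsgLib.SlVectorChars.lineChar (n := n) α)
    rw [hs]
    by_cases hα : α = 1
    · subst hα
      rw [if_pos rfl, if_pos]
      · rw [inv_mul_cancel₀ (Nat.cast_ne_zero.2 Fintype.card_ne_zero)]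
      · ext g
        obtain ⟨c, hc⟩ := g.2
        show (1 : MulChar F ℂ) _ = 1
        rw [CfsgLib.SlVectorChars.lineScalar g hc, MulChar.one_apply_coe]
    · rw [if_neg hα, if_neg, Nat.cast_zero, mul_zero]
      intro h
      apply hα
      rw [MulChar.eq_one_iff]
      intro c
      have hlin : ∀ e : Fˣ, LinearIndependent F (fun _ : Fin 1 =>
          (e : F) • CfsgLib.SlVectorChars.base F n) := fun e =>
        CfsgLib.SlVectorChars.linearIndependent_single
          (smul_ne_zero e.ne_zero (by simp [CfsgLib.SlVectorChars.base]))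
      obtain ⟨g, hg⟩ := CfsgLib.Classical.Linear.exists_sl_map_family (ι := Fin n)
        (by simp; omega) (hlin 1) (hlin c)
      have hg' := hg 0
      rw [Units.val_one, one_smul] at hg'
      have hgl := DFunLike.congr_fun h ⟨g, ⟨c, hg'⟩⟩
      rwa [show CfsgLib.SlVectorChars.lineChar α ⟨g, ⟨c, hg'⟩⟩ = α c from congrArg α
        (CfsgLib.SlVectorChars.lineScalar ⟨g, ⟨c, hg'⟩⟩ hg'), MonoidHom.one_apply] at hgl
  obtain ⟨φ, hφ, he⟩ := CfsgLib.Chars.exists_add_of_classInner_ne_zero (hc 1)
    (CfsgLib.Chars.oneChar G) (by rw [← hone, hone_eq, if_pos rfl]; exact one_ne_zero)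
  have hφ' : φ = CfsgLib.SlVectorChars.chiA (1 : MulChar F ℂ) - one := by rw [he]; simp [hone]
  have hφ1 : classInner φ one = 0 := by
    rw [hφ', CfsgLib.Chars.classInner_sub_left, hone_eq, if_pos rfl, hone,
      CfsgLib.Chars.classInner_self]
    ring
  have hφα : ∀ α : MulChar F ℂ,
      classInner φ (CfsgLib.SlVectorChars.chiA α) = if α = 1 then 1 else 0 := by
    intro α
    rw [hφ', CfsgLib.Chars.classInner_sub_left, hip, ← CfsgLib.Chars.classInner_conj_symm
      (CfsgLib.SlVectorChars.chiA α) one, hone_eq, if_pos rfl]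
    simp only [eq_comm (a := (1 : MulChar F ℂ))]
    split_ifs <;> simp
  have hφi : IsIrrCharacter G φ := by
    refine CfsgLib.Chars.isIrrCharacter_of_classInner_self hφ ?_
    have h := hφα 1
    rw [if_pos rfl, he, ← CfsgLib.Chars.classInner_conj_symm, CfsgLib.Chars.classInner_add_left,
      ← hone, map_add, CfsgLib.Chars.classInner_conj_symm, CfsgLib.Chars.classInner_conj_symm,
      hφ1] at h
    simpa using h
  let X : MulChar F ℂ → G → ℂ := fun α => if α = 1 then φ else CfsgLib.SlVectorChars.chiA α
  have hX : ∀ α, IsIrrCharacter G (X α) := fun α => by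
    by_cases hα : α = 1
    · simp only [X, if_pos hα]; exact hφi
    · simp only [X, if_neg hα]; exact hirr α hα
  have hinj : Function.Injective X := by
    intro α β hab
    by_contra hne
    by_cases hα : α = 1
    · subst hα
      simp only [X, if_pos rfl, if_neg (Ne.symm hne), hφ'] at hab
      have h := congrArg (fun f => classInner f (CfsgLib.SlVectorChars.chiA β)) hab
      simp only [← hφ', hφα, hip, if_neg (Ne.symm hne), if_pos rfl] at h
      simp at h
    · by_cases hβ : β = 1
      · subst hβ
        simp only [X, if_pos rfl, if_neg hα] at hab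
        have h := congrArg (fun f => classInner f (CfsgLib.SlVectorChars.chiA α)) hab
        simp only [hφα, hip, if_neg hα, if_pos rfl] at h
        simp at h
      · simp only [X, if_neg hα, if_neg hβ] at hab
        have h := congrArg (fun f => classInner f (CfsgLib.SlVectorChars.chiA α)) hab
        simp only [hip, if_neg hα, if_neg hβ, if_neg (Ne.symm hne), if_pos rfl] at h
        simp at h
  have hcard : Fintype.card (MulChar F ℂ) = Fintype.card F - 1 := by
    rw [← Nat.card_eq_fintype_card, MulChar.card_eq_card_units_of_hasEnoughRootsOfUnity F ℂ,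
      Nat.card_eq_fintype_card, Fintype.card_units]
  let E := (finCongr hcard.symm).trans (Fintype.equivFin (MulChar F ℂ)).symm
  refine ⟨fun i => X (E i), fun i => hX _, hinj.comp E.injective, fun g => ?_⟩
  rw [E.sum_comp (fun α => X α g)]
  have hsum : ∀ α, X α g = CfsgLib.SlVectorChars.chiA α g - if α = 1 then one g else 0 := by
    intro α
    by_cases hα : α = 1
    · simp [X, hα, hφ']
    · simp [X, hα]
  rw [Finset.sum_congr rfl (fun α _ => hsum α), Finset.sum_sub_distrib]
  simp only [Finset.sum_ite_eq', Finset.mem_univ, if_true, hone, CfsgLib.Chars.oneChar_apply]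
  rw [add_sub_cancel]
  simp only [CfsgLib.SlVectorChars.chiA, ← Finset.mul_sum]
  rw [Finset.sum_comm]
  have hone' : ∀ c : Fˣ, ∑ α : MulChar F ℂ, α c = if c = 1 then (Fintype.card Fˣ : ℂ) else 0 := by
    intro c
    split_ifs with h
    · subst h
      simp [hcard, Fintype.card_units]
    · obtain ⟨β, hβ⟩ := MulChar.exists_apply_ne_one_of_hasEnoughRootsOfUnity F ℂ
        (a := (c : F)) (fun ha => h (Units.ext ha))
      have h' : ∑ α : MulChar F ℂ, α c = β c * ∑ α : MulChar F ℂ, α c := by
        rw [Finset.mul_sum]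
        refine (Fintype.sum_equiv (Equiv.mulLeft β) _ _ fun α => ?_).symm
        simp [MulChar.mul_apply]
      have : (β c - 1) * ∑ α : MulChar F ℂ, α c = 0 := by linear_combination -h'
      exact (mul_eq_zero.1 this).resolve_left (sub_ne_zero.2 hβ)
  have hv : ∀ v : {v : Fin n → F // v ≠ 0}, ∑ α : MulChar F ℂ, ∑ c : Fˣ,
      (if (g : Matrix (Fin n) (Fin n) F).mulVec (v : Fin n → F) = (c : F) • (v : Fin n → F)
        then α c else 0) = (Fintype.card Fˣ : ℂ) *
      (if (g : Matrix (Fin n) (Fin n) F).mulVec (v : Fin n → F) = (v : Fin n → F)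
        then 1 else 0) := by
    intro v
    rw [Finset.sum_comm, Fintype.sum_eq_single (1 : Fˣ)]
    · rw [Units.val_one, one_smul]
      split_ifs
      · simp [hcard, Fintype.card_units]
      · simp
    · intro c hc1
      split_ifs
      · rw [hone', if_neg hc1]
      · simp
  rw [Finset.sum_congr rfl (fun v _ => hv v), ← Finset.mul_sum,
    inv_mul_cancel_left₀ (Nat.cast_ne_zero.2 Fintype.card_ne_zero), ← Finset.natCast_card_filter,
    Nat.card_eq_fintype_card]
  congr 1
  rw [Fintype.card_subtype]
  refine Finset.card_bij (fun v hv => ⟨v, (Finset.mem_filter.1 hv).2.1⟩) (fun v hv => by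
    simp only [Finset.mem_filter, Finset.mem_univ, true_and] at hv ⊢; exact hv.2)
    (fun a _ b _ h => congrArg Subtype.val h) (fun v hv => ?_)
  simp only [Finset.mem_filter, Finset.mem_univ, true_and] at hv
  exact ⟨v, by simp [v.2, hv], rfl⟩

end Cfsg.Agent.S2336
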