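import Cfsg.Statements.S2337
import Cfsg.Agent.Suzuki.LieModel
import Cfsg.Agent.Suzuki.MinDegree

set_option autoImplicit false
open Cfsg

namespace Cfsg.Agent.S2337

/-- For the Suzuki group Sz(q), q = 2^(2m+1) with m ≥ 1 (realised inside Sp₄ over the field with q elements), every irreducible complex representation of degree at least 2 has degree at least 2^m·(q − 1). -/
theorem result {F : Type*} [Field F] [Fintype F] (m : ℕ) (hm : 1 ≤ m) (hF : Fintype.card F = 2 ^ (2 * m + 1)) :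
    (∀ (k : ℕ) (ρ : Representation ℂ (Cfsg.Lie.Sz F (2 ^ (m + 1))) (Fin k → ℂ)), ρ.IsIrreducible → 2 ≤ k → 2 ^ m * (2 ^ (2 * m + 1) - 1) ≤ k) := by
  intro k ρ hρ hk
  haveI := CfsgLib.Suzuki.charP_two hF
  have hT := CfsgLib.Suzuki.titsEndo_theta hm hF
  have hq : Nat.card F = 2 ^ (2 * m + 1) := by rw [Nat.card_eq_fintype_card, hF]
  let ψ : ↥(Cfsg.Lie.Sz F (2 ^ (m + 1))) ≃* CfsgLib.Suzuki.grp (CfsgLib.Suzuki.theta F m) :=
    (CfsgLib.Suzuki.lieSzEquiv hm hF).symm.trans (MulEquiv.subgroupCongr CfsgLib.Suzuki.sz_eq)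
  let ρ' : Representation ℂ (CfsgLib.Suzuki.grp (CfsgLib.Suzuki.theta F m)) (Fin k → ℂ) :=
    ρ.comp ψ.symm.toMonoidHom
  let e : Subrepresentation ρ' ≃o Subrepresentation ρ :=
    { toFun := fun σ => ⟨σ.toSubmodule, fun g v hv => by
        have := σ.apply_mem_toSubmodule (ψ g) hv
        simpa [ρ'] using this⟩
      invFun := fun σ => ⟨σ.toSubmodule, fun g v hv => σ.apply_mem_toSubmodule (ψ.symm g) hv⟩
      left_inv := fun σ => rfl
      right_inv := fun σ => rfl
      map_rel_iff' := Iff.rfl }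
  haveI := hρ
  have hirr : ρ'.IsIrreducible := e.isSimpleOrder
  have h := CfsgLib.Suzuki.min_degree hT hq ρ' hirr (by rwa [Module.finrank_fin_fun])
  rwa [Module.finrank_fin_fun] at h

end Cfsg.Agent.S2337
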