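import Cfsg.Statements.S2344
import Cfsg.Agent.OrthOddDeg.Main
-- import your own Cfsg.Agent.* helpers here

set_option autoImplicit false
set_option linter.style.haveILetI false
open Cfsg

namespace Cfsg.Agent.S2344

/-- For a finite field F of odd order q > 3 and n ≥ 3, every irreducible complex representation of degree at least 2 of Ω_{2n+1}(F) (the commutator subgroup of the isometry group of the quadratic form x₀² + x₁y₁ + ⋯ + x_ny_n) has degree at least (q^{2n} − 1)/(q² − 1). -/
theorem result {F : Type*} [Field F] [Fintype F] (n : ℕ) (hn : 3 ≤ n) (hodd : Odd (Fintype.card F)) (h3 : 3 < Fintype.card F) :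
    (∀ (k : ℕ) (ρ : Representation ℂ (Cfsg.Omega F (Cfsg.quadFormOdd n F)) (Fin k → ℂ)), ρ.IsIrreducible → 2 ≤ k → (Fintype.card F ^ (2 * n) - 1) / (Fintype.card F ^ 2 - 1) ≤ k) := by
  intro k ρ hρ hk2
  classical
  haveI : NeZero (2 : F) := ⟨Ring.two_ne_zero fun h => by
    exact absurd (FiniteField.even_card_of_char_two h) (Nat.mod_two_ne_zero.2 (Nat.odd_iff.1 hodd))⟩
  let R : CfsgLib.OrthOddDeg.OmOdd n F →* Matrix (Fin k) (Fin k) ℂ :=
    (LinearMap.toMatrixAlgEquiv' : Module.End ℂ (Fin k → ℂ) ≃ₐ[ℂ] Matrix (Fin k) (Fin k) ℂ).toMonoidHom.comp ρ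
  haveI : Nonempty (Fin k) := ⟨⟨0, by omega⟩⟩
  haveI : IsSimpleOrder (Subrepresentation ρ) := hρ
  have hschur : ∀ X, (∀ g, X * R g = R g * X) → ∃ c : ℂ, X = c • 1 := by
    intro X hX
    let L : Module.End ℂ (Fin k → ℂ) := Matrix.toLinAlgEquiv' X
    have hL : ∀ g, L * ρ g = ρ g * L := fun g => by
      have e1 := congrArg (Matrix.toLinAlgEquiv' : Matrix (Fin k) (Fin k) ℂ ≃ₐ[ℂ] _) (hX g)
      rw [map_mul, map_mul] at e1
      have e2 : (Matrix.toLinAlgEquiv' : Matrix (Fin k) (Fin k) ℂ ≃ₐ[ℂ] _) (R g) = ρ g :=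
        Matrix.toLinAlgEquiv'_toMatrixAlgEquiv' _
      rwa [e2] at e1
    obtain ⟨c, hc⟩ := Module.End.exists_eigenvalue L
    have hinv : ∀ g, ∀ x ∈ L.eigenspace c, ρ g x ∈ L.eigenspace c := fun g x hx => by
      rw [Module.End.mem_eigenspace_iff] at hx ⊢
      have := LinearMap.congr_fun (hL g) x
      rw [Module.End.mul_apply, Module.End.mul_apply, hx, map_smul] at this
      exact this
    rcases eq_bot_or_eq_top (⟨L.eigenspace c, fun g x hx => hinv g x hx⟩ : Subrepresentation ρ) with h | h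
    · exact absurd (congrArg Subrepresentation.toSubmodule h) hc
    · refine ⟨c, ?_⟩
      have htop : L.eigenspace c = ⊤ := congrArg Subrepresentation.toSubmodule h
      apply (Matrix.toLinAlgEquiv' : Matrix (Fin k) (Fin k) ℂ ≃ₐ[ℂ] _).injective
      refine LinearMap.ext fun x => ?_
      show L x = _
      have hx : x ∈ L.eigenspace c := htop ▸ Submodule.mem_top
      rw [Module.End.mem_eigenspace_iff.1 hx, map_smul, map_one]
      rfl
  have hnf : CfsgLib.OrthOddDeg.NoFix R Set.univ := by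
    intro y hy
    by_contra hy0
    have hfix : ∀ g, ρ g y = y := fun g => by
      have e2 : (Matrix.toLinAlgEquiv' : Matrix (Fin k) (Fin k) ℂ ≃ₐ[ℂ] _) (R g) = ρ g :=
        Matrix.toLinAlgEquiv'_toMatrixAlgEquiv' _
      rw [← e2]
      exact hy g (Set.mem_univ _)
    let W : Subrepresentation ρ := ⟨ℂ ∙ y, fun g x hx => by
      obtain ⟨c, rfl⟩ := Submodule.mem_span_singleton.1 hx
      rw [map_smul, hfix]
      exact Submodule.mem_span_singleton.2 ⟨c, rfl⟩⟩
    rcases eq_bot_or_eq_top W with h | h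
    · exact hy0 (Submodule.span_singleton_eq_bot.1 (congrArg Subrepresentation.toSubmodule h))
    · have h' : (ℂ ∙ y) = ⊤ := congrArg Subrepresentation.toSubmodule h
      have := congrArg (fun S : Submodule ℂ (Fin k → ℂ) => Module.finrank ℂ S) h'
      simp only [finrank_span_singleton hy0, finrank_top, Module.finrank_fin_fun] at this
      omega
  by_contra hlt
  push Not at hlt
  have hq : 5 ≤ Fintype.card F := by
    obtain ⟨r, hr⟩ := hodd
    omega
  refine CfsgLib.OrthOddDeg.no_small R hn hq hodd (by omega) hnf hschur ?_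
  have hd : 0 < Fintype.card F ^ 2 - 1 := by
    have : 25 ≤ Fintype.card F ^ 2 := le_trans (by norm_num) (Nat.pow_le_pow_left hq 2)
    omega
  have h1 := Nat.div_mul_le_self (Fintype.card F ^ (2 * n) - 1) (Fintype.card F ^ 2 - 1)
  have h2 := Nat.mul_le_mul_right (Fintype.card F ^ 2 - 1) (Nat.succ_le_of_lt hlt)
  rw [Nat.succ_mul] at h2
  omega

end Cfsg.Agent.S2344
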