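import Cfsg.Statements.S2347
import Cfsg.Agent.SympWeil.Lower
import Cfsg.Agent.SympWeil.Weil

set_option autoImplicit false
open Cfsg

namespace Cfsg.Agent.S2347

/-- Smallest degree of a non-linear irreducible complex representation of the symplectic group Sp_{2n} over a finite field of odd order q, n ≥ 2: every irreducible complex representation of degree at least 2 has degree at least (q^n − 1)/2, and there is an irreducible complex representation of exactly that degree (a Weil representation). -/
theorem result {F : Type*} [Field F] [Fintype F] [DecidableEq F] (n : ℕ) (hn : 2 ≤ n) (hodd : Odd (Fintype.card F)) :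
    (∀ (k : ℕ) (ρ : Representation ℂ (Matrix.symplecticGroup (Fin n) F) (Fin k → ℂ)), ρ.IsIrreducible → 2 ≤ k → (Fintype.card F ^ n - 1) / 2 ≤ k) ∧
    (∃ ρ : Representation ℂ (Matrix.symplecticGroup (Fin n) F) (Fin ((Fintype.card F ^ n - 1) / 2) → ℂ), ρ.IsIrreducible) := by
  have h2 : (2 : F) ≠ 0 := by
    refine Ring.two_ne_zero fun h2 => ?_
    have he := FiniteField.even_card_of_char_two h2
    rw [Nat.odd_iff] at hodd
    omega
  have hL : ringChar ℂ ≠ ringChar F := by
    have hp : (ringChar F).Prime := CharP.char_is_prime F _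
    rw [ringChar.eq_zero]
    exact hp.ne_zero.symm
  obtain ⟨ψ, hψ⟩ := CfsgLib.CrossChar.exists_primitive_char (F := F) ℂ hL
  refine ⟨fun k ρ hρ hk => CfsgLib.SympWeil.degree_bound hn hodd k ρ hρ hk, ?_⟩
  refine CfsgLib.SympWeil.exists_irreducible (by omega) _ ?_ ψ hψ h2
  have ho : Odd (Fintype.card F ^ n) := hodd.pow
  rw [Nat.odd_iff] at ho
  omega

end Cfsg.Agent.S2347
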