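import Cfsg.Statements.S2355
import Cfsg.Agent.Eq.Def_Classical
import Cfsg.Agent.FreeGroupLaws.Classical

set_option autoImplicit false
open Cfsg

namespace Cfsg.Agent.S2355

/-- A non-trivial law is satisfied by only finitely many finite simple groups that are alternating or classical, up to isomorphism: for every non-trivial element w of the free group on countably many generators there is a bound N such that every alternating group of degree ≥ 5 and every simple classical group (linear, symplectic, unitary or orthogonal, in this problem's sense) in which w is a law has order at most N. -/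
theorem result (w : FreeGroup ℕ) (hw : w ≠ 1) :
    ∃ N : ℕ, ∀ (G : Type*) [Group G] [Finite G],
      (Cfsg.IsAlternating G ∨ Cfsg.IsPSL G ∨ Cfsg.IsPSp G ∨ Cfsg.IsPSU G ∨ Cfsg.IsPOmegaOdd G ∨
          Cfsg.IsPOmegaPlus G ∨ Cfsg.IsPOmegaMinus G) →
      (∀ f : ℕ → G, FreeGroup.lift f w = 1) → Nat.card G ≤ N := by
  classical
  obtain ⟨NA, hNA⟩ := CfsgLib.FreeGroupLaws.witness_alternating w hw
  set M : ℕ := NA + CfsgLib.FreeGroupLaws.sl2Bound w + 1 with hM
  refine ⟨max (Nat.factorial M) ((M ^ 2) ^ ((2 * M + 3) ^ 2)), fun G _ _ hG hlaw => ?_⟩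
  have hG' : ∀ (H : Type) [Group H], (G ≃* H) → ∀ f : ℕ → H, FreeGroup.lift f w = 1 := by
    intro H _ e f
    have h := hlaw fun i => e.symm (f i)
    have h' := CfsgLib.FreeGroupLaws.lift_comp_apply e.symm.toMonoidHom f w
    simp only [MulEquiv.coe_toMonoidHom] at h'
    rw [h'] at h
    simpa using congrArg e h
  have hquot : ∀ (X : Type) [Group X] [Finite X], (G ≃* X ⧸ Subgroup.center X) →
      ¬ CfsgLib.FreeGroupLaws.Witness w X ∧ Nat.card G ≤ Nat.card X := by
    intro X _ _ e
    refine ⟨fun h => ?_, ?_⟩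
    · obtain ⟨f, hf⟩ := h.not_law
      exact hf (hG' _ e f)
    · rw [Nat.card_congr e.toEquiv]
      exact Nat.card_le_card_of_surjective _ QuotientGroup.mk_surjective
  have hquot' : ∀ (X : Type) [Group X] [Finite X],
      (G ≃* (commutator X : Subgroup X) ⧸ Subgroup.center (commutator X : Subgroup X)) →
      ¬ CfsgLib.FreeGroupLaws.Witness w X ∧ Nat.card G ≤ Nat.card X := by
    intro X _ _ e
    refine ⟨fun h => ?_, ?_⟩
    · obtain ⟨f, hf⟩ := h.not_law_commutator
      exact hf (hG' _ e f)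
    · rw [Nat.card_congr e.toEquiv]
      exact le_trans (Nat.card_le_card_of_surjective _ QuotientGroup.mk_surjective)
        (Subgroup.card_le_card_group _)
  have hsl : ∀ (F : Type) [Field F] [Fintype F] (n : ℕ), 2 ≤ n → (M ≤ n ∨ M ≤ Fintype.card F) →
      CfsgLib.FreeGroupLaws.Witness w (Matrix.SpecialLinearGroup (Fin n) F) := by
    intro F _ _ n hn h
    rcases h with h | h
    · exact CfsgLib.FreeGroupLaws.witness_sl_of_alt (hNA n (by omega))
    · exact CfsgLib.FreeGroupLaws.witness_sl_of_sl2 hn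
        (CfsgLib.FreeGroupLaws.witness_sl2 w hw (by omega))
  have hbound : ∀ (F : Type) [Field F] [Fintype F] (ι : Type) [Fintype ι] (X : Type)
      (φ : X → Matrix ι ι F), Function.Injective φ → Fintype.card F ≤ M ^ 2 →
      Fintype.card ι ≤ 2 * M + 3 → Nat.card X ≤ (M ^ 2) ^ ((2 * M + 3) ^ 2) := by
    intro F _ _ ι _ X φ hφ hF hι
    refine (Nat.card_le_card_of_injective φ hφ).trans ?_
    change Nat.card (ι → ι → F) ≤ _
    rw [Nat.card_fun, Nat.card_fun, Nat.card_eq_fintype_card, Nat.card_eq_fintype_card, ← pow_mul]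
    calc Fintype.card F ^ (Fintype.card ι * Fintype.card ι)
        ≤ (M ^ 2) ^ (Fintype.card ι * Fintype.card ι) := Nat.pow_le_pow_left hF _
      _ ≤ (M ^ 2) ^ ((2 * M + 3) ^ 2) := Nat.pow_le_pow_right (pow_pos (by omega) 2) (by
          rw [sq]; exact Nat.mul_le_mul hι hι)
  have hM2 : M ≤ M ^ 2 := Nat.le_self_pow two_ne_zero M
  rcases hG with h | h | h | h | h | h | h
  · obtain ⟨n, hn, ⟨e⟩⟩ := h
    refine le_max_of_le_left ?_
    have hlt : n < M := by
      by_contra hc
      obtain ⟨f, y, _, _, hne⟩ := hNA n (by omega)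
      exact hne (by rw [hG' _ e f]; exact Commute.one_left y)
    rw [Nat.card_congr e.toEquiv]
    refine (Subgroup.card_le_card_group _).trans ?_
    rw [Nat.card_perm, Nat.card_eq_fintype_card, Fintype.card_fin]
    exact Nat.factorial_le hlt.le
  · obtain ⟨F, _, _, n, hn, -, ⟨e⟩⟩ := h
    refine le_max_of_le_right ?_
    obtain ⟨h1, h2⟩ := hquot _ e
    have hs : ¬ (M ≤ n ∨ M ≤ Fintype.card F) := fun h => h1 (hsl F n hn h)
    push Not at hs
    exact h2.trans (hbound F (Fin n) _ Subtype.val Subtype.val_injective (by omega)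
      (by simp; omega))
  · obtain ⟨F, _, _, m, hm, -, ⟨e⟩⟩ := h
    refine le_max_of_le_right ?_
    obtain ⟨h1, h2⟩ := hquot _ e
    have hs : ¬ (M ≤ m ∨ M ≤ Fintype.card F) := fun h =>
      h1 (CfsgLib.FreeGroupLaws.witness_sp (hsl F m hm h))
    push Not at hs
    exact h2.trans (hbound F (Fin m ⊕ Fin m) _ Subtype.val Subtype.val_injective (by omega)
      (by simp; omega))
  · obtain ⟨F, _, _, n, q, hq, hn, -, ⟨e⟩⟩ := h
    refine le_max_of_le_right ?_
    obtain ⟨h1, h2⟩ := hquot _ e
    have hsn : n < M := by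
      by_contra hc
      exact h1 (CfsgLib.FreeGroupLaws.witness_su_of_alt (hNA n (by omega)))
    have hsq : q < M := by
      by_contra hc
      exact h1 (CfsgLib.FreeGroupLaws.witness_su_of_sl2 (by omega) hq hw (by omega))
    exact h2.trans (hbound F (Fin n) _ (fun g => g.1.1)
      (Subtype.val_injective.comp Subtype.val_injective)
      (hq ▸ Nat.pow_le_pow_left hsq.le 2) (by simp; omega))
  · obtain ⟨F, _, _, m, hm, -, ⟨e⟩⟩ := h
    refine le_max_of_le_right ?_
    obtain ⟨h1, h2⟩ := hquot' _ e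
    have hs : ¬ (M ≤ m ∨ M ≤ Fintype.card F) := fun h =>
      h1 (CfsgLib.FreeGroupLaws.witness_quadFormOdd (hsl F m (by omega) h))
    push Not at hs
    exact h2.trans (hbound F (Unit ⊕ (Fin m ⊕ Fin m)) _ (fun g => g.1.1)
      (fun a b hab => Subtype.ext (Units.ext hab)) (by omega) (by simp; omega))
  · obtain ⟨F, _, _, m, hm, ⟨e⟩⟩ := h
    refine le_max_of_le_right ?_
    obtain ⟨h1, h2⟩ := hquot' _ e
    have hs : ¬ (M ≤ m ∨ M ≤ Fintype.card F) := fun h =>
      h1 (CfsgLib.FreeGroupLaws.witness_quadFormPlus (hsl F m (by omega) h))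
    push Not at hs
    exact h2.trans (hbound F (Fin m ⊕ Fin m) _ (fun g => g.1.1)
      (fun a b hab => Subtype.ext (Units.ext hab)) (by omega) (by simp; omega))
  · obtain ⟨F, _, _, m, a, b, hm, -, ⟨e⟩⟩ := h
    refine le_max_of_le_right ?_
    obtain ⟨h1, h2⟩ := hquot' _ e
    have hs : ¬ (M ≤ m - 1 ∨ M ≤ Fintype.card F) := fun h =>
      h1 (CfsgLib.FreeGroupLaws.witness_quadFormMinus a b (hsl F (m - 1) (by omega) h))
    push Not at hs
    exact h2.trans (hbound F ((Fin (m - 1) ⊕ Fin (m - 1)) ⊕ Fin 2) _ (fun g => g.1.1)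
      (fun a b hab => Subtype.ext (Units.ext hab)) (by omega) (by simp; omega))

end Cfsg.Agent.S2355
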