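import Cfsg.Statements.S2356
import Cfsg.Agent.Classical.Unitary.InvolutionsThree

set_option autoImplicit false
open Cfsg

namespace Cfsg.Agent.S2356
open Matrix CfsgLib.Unitary

/-- Let q be odd, F the field with q² elements, S = SU_3(F) (determinant-one isometries of the standard Hermitian form) and t an involution of S. Then: exactly q(q−1) involutions other than t commute with t; exactly q(q−2)(q²−1) involutions do not commute with t but commute with some involution commuting with t; exactly (q+1)(q²−1) involutions x do not commute with t and admit no involution commuting with both t and x; and every involution can be reached from t in at most three steps, each step going to an involution that commutes with the previous one (the commuting involution graph is connected of diameter 3). -/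
theorem result {F : Type*} [Field F] [Fintype F] {q : ℕ} (hq : Odd q)
    (hF : Fintype.card F = q ^ 2) (t : ↥(Cfsg.SU 3 F q)) (ht : t ≠ 1) (ht2 : t * t = 1) :
    Nat.card {x : ↥(Cfsg.SU 3 F q) // x ≠ 1 ∧ x * x = 1 ∧ x ≠ t ∧ Commute t x} = q * (q - 1) ∧
    Nat.card {x : ↥(Cfsg.SU 3 F q) // x ≠ 1 ∧ x * x = 1 ∧ ¬ Commute t x ∧
        ∃ y : ↥(Cfsg.SU 3 F q), y ≠ 1 ∧ y * y = 1 ∧ Commute t y ∧ Commute y x} = q * (q - 2) * (q ^ 2 - 1) ∧
    Nat.card {x : ↥(Cfsg.SU 3 F q) // x ≠ 1 ∧ x * x = 1 ∧ ¬ Commute t x ∧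
        ∀ y : ↥(Cfsg.SU 3 F q), y ≠ 1 → y * y = 1 → ¬ (Commute t y ∧ Commute y x)} = (q + 1) * (q ^ 2 - 1) ∧
    ∀ x : ↥(Cfsg.SU 3 F q), x ≠ 1 → x * x = 1 →
      ∃ y z : ↥(Cfsg.SU 3 F q), y ≠ 1 ∧ y * y = 1 ∧ z ≠ 1 ∧ z * z = 1 ∧
        Commute t y ∧ Commute y z ∧ Commute z x := by
  classical
  have h2 := two_ne_zero_of_odd hF hq
  have hq2 := two_le_q hF
  obtain ⟨v, rfl⟩ := exists_eq_refl hF h2 t ht ht2
  obtain ⟨hperp, hdeg⟩ := card_positions hF v.2
  have hline : ∀ w : {v : Fin 3 → F // hermForm 3 F q v v = 1}, refl hF v = refl hF w →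
      hermForm 3 F q w.1 v.1 ^ (q + 1) = 1 := by
    intro w h
    obtain ⟨c, hc⟩ := (refl_eq_refl_iff hF h2 v w).1 h
    have h1 := w.2
    rw [hc, herm_self_smul, v.2, mul_one] at h1
    rw [hc, herm_smul_left, v.2, mul_one, h1]
  have hzero : ∀ w : {v : Fin 3 → F // hermForm 3 F q v v = 1}, hermForm 3 F q w.1 v.1 = 0 → refl hF v ≠ refl hF w := by
    intro w h e
    have := hline w e
    rw [h, zero_pow (Nat.succ_ne_zero q)] at this
    exact zero_ne_one this
  have hc1 : Nat.card {x : ↥(Cfsg.SU 3 F q) // x ≠ 1 ∧ x * x = 1 ∧ x ≠ refl hF v ∧ Commute (refl hF v) x} = q * (q - 1) := by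
    have h := card_units_vec hF h2 (fun x => x ≠ refl hF v ∧ Commute (refl hF v) x)
    rw [Nat.card_congr (Equiv.subtypeEquivRight (fun w => show (refl hF w ≠ refl hF v ∧ Commute (refl hF v) (refl hF w)) ↔
      hermForm 3 F q w.1 v.1 = 0 from ⟨fun h => ((commute_refl_iff hF h2 v w).1 h.2).resolve_left (fun e => h.1 e.symm),
        fun h => ⟨fun e => hzero w h e.symm, (commute_refl_iff hF h2 v w).2 (Or.inr h)⟩⟩)), hperp] at h
    refine Nat.eq_of_mul_eq_mul_left (Nat.succ_pos q) ?_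
    rw [Nat.succ_eq_add_one, ← h, show q ^ 2 - 1 = (q + 1) * (q - 1) by rw [← Nat.sq_sub_sq, one_pow]]
    ring
  -- a common perpendicular exists exactly off the degenerate position
  have hy : ∀ w : {v : Fin 3 → F // hermForm 3 F q v v = 1}, ¬ Commute (refl hF v) (refl hF w) →
      ((∃ y : ↥(Cfsg.SU 3 F q), y ≠ 1 ∧ y * y = 1 ∧ Commute (refl hF v) y ∧ Commute y (refl hF w)) ↔
        hermForm 3 F q w.1 v.1 ^ (q + 1) ≠ 1) := by
    intro w hnc
    have hnl : refl hF v ≠ refl hF w := fun e => hnc ((commute_refl_iff hF h2 v w).2 (Or.inl e))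
    have hn0 : hermForm 3 F q w.1 v.1 ≠ 0 := fun e => hnc ((commute_refl_iff hF h2 v w).2 (Or.inr e))
    set a := hermForm 3 F q w.1 v.1 with ha
    set r := w.1 - a • v.1 with hr
    have hrv : hermForm 3 F q r v.1 = 0 := by rw [hr, herm_sub_left, herm_smul_left, v.2, mul_one, sub_self]
    have hrr : hermForm 3 F q r r = 1 - a ^ (q + 1) := by
      conv_lhs => arg 5; rw [hr]
      rw [herm_sub_right hF, herm_smul_right, hrv, mul_zero, sub_zero, hr, herm_sub_left, herm_smul_left, w.2,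
        show hermForm 3 F q v.1 w.1 = a ^ q from herm_conj hF w.1 v.1]
      ring
    constructor
    · rintro ⟨y, hy, hy2, hcy, hyw⟩ hdeg'
      obtain ⟨z, rfl⟩ := exists_eq_refl hF h2 y hy hy2
      rcases (commute_refl_iff hF h2 v z).1 hcy with e | hzv
      · rw [← e] at hyw; exact hnc hyw
      rcases (commute_refl_iff hF h2 z w).1 hyw with e | hwz
      · rw [← e] at hnc; exact hnc hcy
      obtain ⟨u, -, hu1, hu⟩ := exists_orthonorm_next hF (isNondeg_top hF) (orthonorm_pair hF v.2 z.2 hzv)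
        (fun _ => trivial) (by simp)
      have hg := (orthonorm_pair hF v.2 z.2 hzv).snoc hF hu1 hu
      have hexp : w.1 = a • v.1 + hermForm 3 F q w.1 u • u := by
        conv_lhs => rw [orthonorm_expand hF hg w.1, Fin.sum_univ_castSucc]
        simp [Fin.sum_univ_two, hwz, ha]
      have hc : hermForm 3 F q w.1 u = 0 := by
        have h9 : hermForm 3 F q r r = hermForm 3 F q w.1 u ^ (q + 1) := by
          rw [show r = hermForm 3 F q w.1 u • u by rw [hr]; linear_combination (norm := module) hexp,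
            herm_self_smul, hu1, mul_one]
        rw [hrr, hdeg', sub_self] at h9
        exact eq_zero_of_pow_eq_zero h9.symm
      rw [hc, zero_smul, add_zero] at hexp
      exact hnl ((refl_eq_refl_iff hF h2 v w).2 ⟨a, hexp⟩)
    · intro hne
      obtain ⟨c, hc⟩ := exists_norm_eq hF (a := (1 - a ^ (q + 1))⁻¹) (by
        rw [inv_pow_q, sub_pow_q hF, one_pow, norm_pow_q hF])
      have hr1 : hermForm 3 F q (c • r) (c • r) = 1 := by
        rw [herm_self_smul, hc, hrr, inv_mul_cancel₀ (sub_ne_zero.2 (Ne.symm hne))]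
      have hrv' : hermForm 3 F q (c • r) v.1 = 0 := by rw [herm_smul_left, hrv, mul_zero]
      obtain ⟨u, -, hu1, hu⟩ := exists_orthonorm_next hF (isNondeg_top hF) (orthonorm_pair hF v.2 hr1 hrv')
        (fun _ => trivial) (by simp)
      have huv : hermForm 3 F q u v.1 = 0 := hu 0
      have hur : hermForm 3 F q u (c • r) = 0 := hu 1
      have hc0 : c ≠ 0 := by
        rintro rfl
        simp [herm_zero_left] at hr1
      rw [herm_smul_right] at hur
      have hur' := (mul_eq_zero.1 hur).resolve_left (pow_ne_zero _ hc0)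
      have huw : hermForm 3 F q u w.1 = 0 := by
        rw [show w.1 = r + a • v.1 by rw [hr]; module, herm_add_right hF, herm_smul_right, hur', huv]; ring
      refine ⟨refl hF ⟨u, hu1⟩, refl_ne_one hF h2 _, refl_mul_self hF _, (commute_refl_iff hF h2 _ _).2 (Or.inr huv),
        (commute_refl_iff hF h2 _ _).2 (Or.inr (herm_eq_zero_comm hF huw))⟩
  have hc3 : Nat.card {x : ↥(Cfsg.SU 3 F q) // x ≠ 1 ∧ x * x = 1 ∧ ¬ Commute (refl hF v) x ∧
      ∀ y : ↥(Cfsg.SU 3 F q), y ≠ 1 → y * y = 1 → ¬ (Commute (refl hF v) y ∧ Commute y x)} = (q + 1) * (q ^ 2 - 1) := by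
    have h := card_units_vec hF h2 (fun x => ¬ Commute (refl hF v) x ∧
      ∀ y : ↥(Cfsg.SU 3 F q), y ≠ 1 → y * y = 1 → ¬ (Commute (refl hF v) y ∧ Commute y x))
    rw [Nat.card_congr (Equiv.subtypeEquivRight (fun w => ?_)), hdeg] at h
    · exact (Nat.eq_of_mul_eq_mul_left (Nat.succ_pos q) h).symm
    constructor
    · rintro ⟨hnc, hno⟩
      refine ⟨?_, fun e => hnc ((commute_refl_iff hF h2 v w).2 (Or.inl ((refl_eq_refl_iff hF h2 v w).2 e)))⟩
      by_contra hne
      obtain ⟨y, hy1, hy2, hy3, hy4⟩ := (hy w hnc).2 hne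
      exact hno y hy1 hy2 ⟨hy3, hy4⟩
    · rintro ⟨hd, hnl⟩
      have hnc : ¬ Commute (refl hF v) (refl hF w) := fun h => by
        rcases (commute_refl_iff hF h2 v w).1 h with e | e
        · exact hnl ((refl_eq_refl_iff hF h2 v w).1 e)
        · rw [e, zero_pow (Nat.succ_ne_zero q)] at hd; exact zero_ne_one hd
      exact ⟨hnc, fun y hy1 hy2 hy34 => (hy w hnc).1 ⟨y, hy1, hy2, hy34.1, hy34.2⟩ hd⟩
  have hsplit : ∀ P Q : ↥(Cfsg.SU 3 F q) → Prop, Nat.card {x : ↥(Cfsg.SU 3 F q) // P x} =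
      Nat.card {x : ↥(Cfsg.SU 3 F q) // P x ∧ Q x} + Nat.card {x : ↥(Cfsg.SU 3 F q) // P x ∧ ¬ Q x} := fun P Q => by
    rw [← Nat.card_sum, ← Nat.card_congr (Equiv.sumCongr (Equiv.subtypeSubtypeEquivSubtypeInter P Q)
      (Equiv.subtypeSubtypeEquivSubtypeInter P fun x => ¬ Q x))]
    exact Nat.card_congr (Equiv.sumCompl fun x : {x // P x} => Q x.1).symm
  refine ⟨hc1, ?_, hc3, ?_⟩
  · have htot := card_involutions hF h2
    have hs1 := hsplit (fun x => x ≠ 1 ∧ x * x = 1) (fun x => Commute (refl hF v) x)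
    have hs2 := hsplit (fun x => (x ≠ 1 ∧ x * x = 1) ∧ ¬ Commute (refl hF v) x)
      (fun x => ∃ y : ↥(Cfsg.SU 3 F q), y ≠ 1 ∧ y * y = 1 ∧ Commute (refl hF v) y ∧ Commute y x)
    have hs3 := hsplit (fun x => (x ≠ 1 ∧ x * x = 1) ∧ Commute (refl hF v) x) (fun x => x = refl hF v)
    have e0 : Nat.card {x : ↥(Cfsg.SU 3 F q) // ((x ≠ 1 ∧ x * x = 1) ∧ Commute (refl hF v) x) ∧ x = refl hF v} = 1 := by
      rw [Nat.card_eq_one_iff_unique]
      exact ⟨⟨fun a b => Subtype.ext (a.2.2.trans b.2.2.symm)⟩,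
        ⟨⟨refl hF v, ⟨⟨refl_ne_one hF h2 v, refl_mul_self hF v⟩, Commute.refl _⟩, rfl⟩⟩⟩
    have e1 : Nat.card {x : ↥(Cfsg.SU 3 F q) // ((x ≠ 1 ∧ x * x = 1) ∧ Commute (refl hF v) x) ∧ ¬ x = refl hF v} = q * (q - 1) := by
      rw [← hc1]
      exact Nat.card_congr (Equiv.subtypeEquivRight fun x => ⟨fun h => ⟨h.1.1.1, h.1.1.2, h.2, h.1.2⟩,
        fun h => ⟨⟨⟨h.1, h.2.1⟩, h.2.2.2⟩, h.2.2.1⟩⟩)
    have e2 : Nat.card {x : ↥(Cfsg.SU 3 F q) // ((x ≠ 1 ∧ x * x = 1) ∧ ¬ Commute (refl hF v) x) ∧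
        ¬ ∃ y : ↥(Cfsg.SU 3 F q), y ≠ 1 ∧ y * y = 1 ∧ Commute (refl hF v) y ∧ Commute y x} = (q + 1) * (q ^ 2 - 1) := by
      rw [← hc3]
      exact Nat.card_congr (Equiv.subtypeEquivRight fun x => ⟨fun h => ⟨h.1.1.1, h.1.1.2, h.1.2,
          fun y h1 h2' h3 => h.2 ⟨y, h1, h2', h3.1, h3.2⟩⟩,
        fun h => ⟨⟨⟨h.1, h.2.1⟩, h.2.2.1⟩, fun ⟨y, h1, h2', h3, h4⟩ => h.2.2.2 y h1 h2' ⟨h3, h4⟩⟩⟩)
    rw [Nat.card_congr (Equiv.subtypeEquivRight (q := fun x : ↥(Cfsg.SU 3 F q) =>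
      ((x ≠ 1 ∧ x * x = 1) ∧ ¬ Commute (refl hF v) x) ∧
        ∃ y : ↥(Cfsg.SU 3 F q), y ≠ 1 ∧ y * y = 1 ∧ Commute (refl hF v) y ∧ Commute y x) fun x =>
      ⟨fun h => ⟨⟨⟨h.1, h.2.1⟩, h.2.2.1⟩, h.2.2.2⟩, fun h => ⟨h.1.1.1, h.1.1.2, h.1.2, h.2⟩⟩)]
    skip
    rw [e0, e1] at hs3
    rw [hs3, hs2, e2, htot] at hs1
    obtain ⟨k, hk⟩ := hq
    subst hk
    have hk1 : 1 ≤ k := by omega
    obtain ⟨k, rfl⟩ : ∃ l, k = l + 1 := ⟨k - 1, by omega⟩
    have e3 : (2 * (k + 1) + 1) ^ 2 - (2 * (k + 1) + 1) = (2 * (k + 1) + 1) * (2 * k + 2) := by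
      rw [sq, ← Nat.mul_sub_one]; congr 1
    have e4 : (2 * (k + 1) + 1) ^ 2 - 1 = (2 * (k + 1) + 1 + 1) * (2 * k + 2) := by
      rw [show 2 * k + 2 = (2 * (k + 1) + 1) - 1 by omega, ← Nat.sq_sub_sq, one_pow]
    rw [e3, e4, show 2 * (k + 1) + 1 - 1 = 2 * k + 2 by omega] at hs1
    rw [e4, show 2 * (k + 1) + 1 - 2 = 2 * k + 1 by omega]
    linarith
  · intro x hx hx2
    obtain ⟨w, rfl⟩ := exists_eq_refl hF h2 x hx hx2
    suffices h : ∃ y : {v : Fin 3 → F // hermForm 3 F q v v = 1}, hermForm 3 F q y.1 v.1 = 0 ∧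
        hermForm 3 F q w.1 y.1 ^ (q + 1) ≠ 1 by
      obtain ⟨y, hyv, hyw⟩ := h
      set r := w.1 - hermForm 3 F q w.1 y.1 • y.1 with hr
      have hry : hermForm 3 F q r y.1 = 0 := by rw [hr, herm_sub_left, herm_smul_left, y.2, mul_one, sub_self]
      have hrr : hermForm 3 F q r r = 1 - hermForm 3 F q w.1 y.1 ^ (q + 1) := by
        conv_lhs => arg 5; rw [hr]
        rw [herm_sub_right hF, herm_smul_right, hry, mul_zero, sub_zero, hr, herm_sub_left, herm_smul_left, w.2,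
          herm_conj hF w.1 y.1]
        ring
      obtain ⟨c, hc⟩ := exists_norm_eq hF (a := (1 - hermForm 3 F q w.1 y.1 ^ (q + 1))⁻¹) (by
        rw [inv_pow_q, sub_pow_q hF, one_pow, norm_pow_q hF])
      have hr1 : hermForm 3 F q (c • r) (c • r) = 1 := by
        rw [herm_self_smul, hc, hrr, inv_mul_cancel₀ (sub_ne_zero.2 (Ne.symm hyw))]
      obtain ⟨u, -, hu1, hu⟩ := exists_orthonorm_next hF (isNondeg_top hF)
        (orthonorm_pair hF y.2 hr1 (by rw [herm_smul_left, hry, mul_zero])) (fun _ => trivial) (by simp)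
      have huy : hermForm 3 F q u y.1 = 0 := hu 0
      have hur : hermForm 3 F q u (c • r) = 0 := hu 1
      have hc0 : c ≠ 0 := by
        rintro rfl
        simp [herm_zero_left] at hr1
      rw [herm_smul_right] at hur
      have hur' := (mul_eq_zero.1 hur).resolve_left (pow_ne_zero _ hc0)
      refine ⟨refl hF y, refl hF ⟨u, hu1⟩, refl_ne_one hF h2 _, refl_mul_self hF _, refl_ne_one hF h2 _,
        refl_mul_self hF _, (commute_refl_iff hF h2 _ _).2 (Or.inr hyv), (commute_refl_iff hF h2 _ _).2 (Or.inr huy),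
        (commute_refl_iff hF h2 _ _).2 (Or.inr ?_)⟩
      refine herm_eq_zero_comm hF ?_
      show hermForm 3 F q u w.1 = 0
      rw [show w.1 = r + hermForm 3 F q w.1 y.1 • y.1 by rw [hr]; module, herm_add_right hF, herm_smul_right, hur', huy]
      ring
    obtain ⟨e₁, -, he1, he1v⟩ := exists_orthonorm_next hF (isNondeg_top hF) (f := fun _ : Fin 1 => v.1)
      (fun i j => by simpa [Subsingleton.elim i j] using v.2) (fun _ => trivial) (by simp)
    obtain ⟨e₂, -, he2, he2v⟩ := exists_orthonorm_next hF (isNondeg_top hF) (orthonorm_pair hF v.2 he1 (he1v 0))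
      (fun _ => trivial) (by simp)
    set b := hermForm 3 F q w.1 e₁ with hb
    set c := hermForm 3 F q w.1 e₂ with hc
    by_cases hbn : b ^ (q + 1) = 1
    swap
    · exact ⟨⟨e₁, he1⟩, he1v 0, hbn⟩
    by_cases hcn : c ^ (q + 1) = 1
    swap
    · exact ⟨⟨e₂, he2⟩, he2v 0, hcn⟩
    obtain ⟨s, hs⟩ := exists_norm_eq hF (a := (2 : F)⁻¹) (by
      rw [inv_pow_q, show (2 : F) = 1 + 1 by norm_num, add_pow_q hF, one_pow])
    obtain ⟨ε, hε, hεt⟩ : ∃ ε : F, ε ^ (q + 1) = 1 ∧ ε + ε ^ q ≠ 0 :=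
      ⟨1, one_pow _, by rw [one_pow]; norm_num; exact h2⟩
    have hb0 : b ≠ 0 := by rintro e; rw [e, zero_pow (Nat.succ_ne_zero q)] at hbn; exact zero_ne_one hbn
    -- choose `y` with `h(w, y) = s^q (1 + ε)`
    refine ⟨⟨(s * b) • e₁ + (s * ε * c) • e₂, ?_⟩, ?_, ?_⟩
    · have h12 : hermForm 3 F q e₂ e₁ = 0 := he2v 1
      simp only [herm_add_left, herm_add_right hF, herm_smul_left, herm_smul_right, he1, he2, h12,
        herm_eq_zero_comm hF h12]
      rw [pow_succ] at hbn hcn hε hs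
      simp only [mul_pow]
      linear_combination (s ^ q * s) * hbn + (s ^ q * s * (ε ^ q * ε)) * hcn + (s ^ q * s) * hε + 2 * hs + mul_inv_cancel₀ h2
    · show hermForm 3 F q ((s * b) • e₁ + (s * ε * c) • e₂) v.1 = 0
      rw [herm_add_left, herm_smul_left, herm_smul_left, he1v 0, show hermForm 3 F q e₂ v.1 = 0 from he2v 0]; ring
    · show hermForm 3 F q w.1 ((s * b) • e₁ + (s * ε * c) • e₂) ^ (q + 1) ≠ 1
      rw [herm_add_right hF, herm_smul_right, herm_smul_right, ← hb, ← hc]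
      rw [pow_succ] at hbn hcn hε hs
      have hval : (s * b) ^ q * b + (s * ε * c) ^ q * c = s ^ q * (1 + ε ^ q) := by
        rw [mul_pow, mul_pow, mul_pow]
        linear_combination s ^ q * hbn + s ^ q * ε ^ q * hcn
      rw [hval, pow_succ, mul_pow, pow_q_q hF, add_pow_q hF, one_pow, pow_q_q hF]
      intro h
      have h3 : (s ^ q * s) * ((1 + ε) * (1 + ε ^ q)) = 1 := by linear_combination h
      rw [hs, show (1 + ε) * (1 + ε ^ q) = 1 + (ε + ε ^ q) + ε ^ q * ε by ring, hε,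
        inv_mul_eq_iff_eq_mul₀ h2] at h3
      exact hεt (by linear_combination h3)

end Cfsg.Agent.S2356
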