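import Cfsg.Statements.S2357
import Cfsg.Agent.Ree.Local

set_option autoImplicit false
open Cfsg

namespace Cfsg.Agent.S2357

/-- Let R be the small Ree group over the field with q = 3^(2m+1) ≥ 27 elements and write φ for Euler's totient function. Then R has exactly q²(q²−q+1) involutions, (q²−1)(q³+1) elements of order 3, and q²(q−1)(q³+1) elements of order 6 and as many of order 9; for i > 2 dividing q−1 it has φ(i)q³(q³+1)/2 elements of order i; for i > 1 dividing (q+1)/4 it has φ(i)q³(q−1)(q²−q+1)/6 elements of order i and φ(i)q³(q−1)(q²−q+1)/2 elements of order 2i; and for i > 1 dividing q − 3^(m+1) + 1 (respectively q + 3^(m+1) + 1) it has φ(i)q³(q²−1)(q + 3^(m+1) + 1)/6 (respectively φ(i)q³(q²−1)(q − 3^(m+1) + 1)/6) elements of order i. -/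
theorem result {K : Type*} [Field K] [Fintype K] {m : ℕ} (hm : 1 ≤ m)
    (hK : Fintype.card K = 3 ^ (2 * m + 1)) :
    Nat.card {g : ↥(Cfsg.Lie.twistedG2 K (3 ^ m)) // orderOf g = 2} = (3 ^ (2 * m + 1)) ^ 2 * ((3 ^ (2 * m + 1)) ^ 2 - 3 ^ (2 * m + 1) + 1) ∧
    Nat.card {g : ↥(Cfsg.Lie.twistedG2 K (3 ^ m)) // orderOf g = 3} = ((3 ^ (2 * m + 1)) ^ 2 - 1) * ((3 ^ (2 * m + 1)) ^ 3 + 1) ∧
    Nat.card {g : ↥(Cfsg.Lie.twistedG2 K (3 ^ m)) // orderOf g = 6} = (3 ^ (2 * m + 1)) ^ 2 * (3 ^ (2 * m + 1) - 1) * ((3 ^ (2 * m + 1)) ^ 3 + 1) ∧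
    Nat.card {g : ↥(Cfsg.Lie.twistedG2 K (3 ^ m)) // orderOf g = 9} = (3 ^ (2 * m + 1)) ^ 2 * (3 ^ (2 * m + 1) - 1) * ((3 ^ (2 * m + 1)) ^ 3 + 1) ∧
    (∀ i : ℕ, 2 < i → i ∣ 3 ^ (2 * m + 1) - 1 →
      2 * Nat.card {g : ↥(Cfsg.Lie.twistedG2 K (3 ^ m)) // orderOf g = i} = Nat.totient i * (3 ^ (2 * m + 1)) ^ 3 * ((3 ^ (2 * m + 1)) ^ 3 + 1)) ∧
    (∀ i : ℕ, 1 < i → i ∣ (3 ^ (2 * m + 1) + 1) / 4 →
      6 * Nat.card {g : ↥(Cfsg.Lie.twistedG2 K (3 ^ m)) // orderOf g = i} =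
          Nat.totient i * (3 ^ (2 * m + 1)) ^ 3 * (3 ^ (2 * m + 1) - 1) * ((3 ^ (2 * m + 1)) ^ 2 - 3 ^ (2 * m + 1) + 1) ∧
        2 * Nat.card {g : ↥(Cfsg.Lie.twistedG2 K (3 ^ m)) // orderOf g = 2 * i} =
          Nat.totient i * (3 ^ (2 * m + 1)) ^ 3 * (3 ^ (2 * m + 1) - 1) * ((3 ^ (2 * m + 1)) ^ 2 - 3 ^ (2 * m + 1) + 1)) ∧
    (∀ i : ℕ, 1 < i → i ∣ 3 ^ (2 * m + 1) - 3 ^ (m + 1) + 1 →
      6 * Nat.card {g : ↥(Cfsg.Lie.twistedG2 K (3 ^ m)) // orderOf g = i} =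
        Nat.totient i * (3 ^ (2 * m + 1)) ^ 3 * ((3 ^ (2 * m + 1)) ^ 2 - 1) * (3 ^ (2 * m + 1) + 3 ^ (m + 1) + 1)) ∧
    (∀ i : ℕ, 1 < i → i ∣ 3 ^ (2 * m + 1) + 3 ^ (m + 1) + 1 →
      6 * Nat.card {g : ↥(Cfsg.Lie.twistedG2 K (3 ^ m)) // orderOf g = i} =
        Nat.totient i * (3 ^ (2 * m + 1)) ^ 3 * ((3 ^ (2 * m + 1)) ^ 2 - 1) * (3 ^ (2 * m + 1) - 3 ^ (m + 1) + 1)) := by
  haveI : CharP K 3 := CfsgLib.Ree.charP_of_card hK
  have hP := CfsgLib.Ree.params hm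
  have h8 := hP.mod8
  have hr := hP.rle
  have hsq := hP.sq
  have hle := hP.le
  refine ⟨CfsgLib.Ree.card_involutions hK, CfsgLib.Ree.card_order_three hK,
    CfsgLib.Ree.card_order_six hK, CfsgLib.Ree.card_order_nine hK, ?_, ?_, ?_, ?_⟩
  all_goals intro i h1 hd
  all_goals have hG := CfsgLib.Ree.card_twisted hK
  all_goals have hprime : ∀ k, k ∣ i → Nat.Coprime 6 k → 1 < k → ∃ p, p.Prime ∧ 5 ≤ p ∧ p ∣ i ∧ p ∣ k :=
    fun k hk hco h => (CfsgLib.Ree.exists_prime_ge_five hco h).elim fun p hp =>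
      ⟨p, hp.1, hp.2.1, hp.2.2.trans hk, hp.2.2⟩
  · obtain ⟨x, p, hp, h5, ho, hpd⟩ := CfsgLib.Ree.exists_prime_torus hm hK 0
    have hz := CfsgLib.Ree.isRoot_mk hp h5 ho hpd
    have hhall : CfsgLib.Ree.torusHall m 0 = (3 ^ (2 * m + 1) - 1) / 2 := rfl
    have hgt : 1 < Nat.gcd i ((3 ^ (2 * m + 1) - 1) / 2) := by
      by_contra hle1
      have hg1 : Nat.Coprime i ((3 ^ (2 * m + 1) - 1) / 2) := by
        have := Nat.gcd_pos_of_pos_left ((3 ^ (2 * m + 1) - 1) / 2) (by omega : 0 < i)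
        show Nat.gcd _ _ = 1
        omega
      have hi2 : i ∣ 2 := hg1.dvd_of_dvd_mul_right (by
        rwa [show 2 * ((3 ^ (2 * m + 1) - 1) / 2) = 3 ^ (2 * m + 1) - 1 by omega])
      have := Nat.le_of_dvd (by norm_num) hi2
      omega
    obtain ⟨l, hl, hl5, hli, hlk⟩ := hprime _ (Nat.gcd_dvd_left _ _)
      ((hhall ▸ CfsgLib.Ree.torusHall_coprime hm 0).coprime_dvd_right (Nat.gcd_dvd_right _ _)) hgt
    have e := CfsgLib.Ree.card_order_class hm hK hz (n := i) (by omega)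
      ⟨l, hl, hl5, hli, hhall ▸ hlk.trans (Nat.gcd_dvd_right _ _)⟩
    rw [CfsgLib.Ree.card_order_split hm hK hz hd, if_pos rfl, hG] at e
    rw [show CfsgLib.Ree.torusNum m 0 = 3 ^ (2 * m + 1) - 1 from rfl] at e
    refine Nat.eq_of_mul_eq_mul_right (show 0 < 3 ^ (2 * m + 1) - 1 by omega) ?_
    linear_combination e
  · obtain ⟨x, p, hp, h5, ho, hpd⟩ := CfsgLib.Ree.exists_prime_torus hm hK 1
    have hz := CfsgLib.Ree.isRoot_mk hp h5 ho hpd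
    have hhall : CfsgLib.Ree.torusHall m 1 = (3 ^ (2 * m + 1) + 1) / 4 := rfl
    obtain ⟨l, hl, hl5, hli, -⟩ := hprime i dvd_rfl
      ((hhall ▸ CfsgLib.Ree.torusHall_coprime hm 1).coprime_dvd_right hd) h1
    have e1 := CfsgLib.Ree.card_order_class hm hK hz (n := i) h1
      ⟨l, hl, hl5, hli, hhall ▸ hli.trans hd⟩
    have e2 := CfsgLib.Ree.card_order_class hm hK hz (n := 2 * i) (by omega)
      ⟨l, hl, hl5, dvd_mul_of_dvd_right hli 2, hhall ▸ hli.trans hd⟩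
    rw [CfsgLib.Ree.card_order_hall hm hK hz (hhall ▸ hd), if_neg (by decide), hG] at e1
    rw [CfsgLib.Ree.card_order_double hm hK hz (hhall ▸ hd), if_neg (by decide), hG] at e2
    rw [show CfsgLib.Ree.torusNum m 1 = 3 ^ (2 * m + 1) + 1 from rfl] at e1 e2
    obtain ⟨n, hn⟩ : ∃ n, 3 ^ (2 * m + 1) = n + 1 := ⟨3 ^ (2 * m + 1) - 1, by omega⟩
    rw [hn] at e1 e2 ⊢
    rw [show (n + 1) ^ 2 - (n + 1) + 1 = n ^ 2 + n + 1 by
      rw [show (n + 1) ^ 2 = n ^ 2 + n + (n + 1) by ring, Nat.add_sub_cancel]]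
    rw [Nat.add_sub_cancel] at e1 e2 ⊢
    constructor
    · refine Nat.eq_of_mul_eq_mul_right (show 0 < n + 1 + 1 by omega) ?_
      linear_combination e1
    · refine Nat.eq_of_mul_eq_mul_right (show 0 < 3 * (n + 1 + 1) by omega) ?_
      linear_combination e2
  · obtain ⟨x, p, hp, h5, ho, hpd⟩ := CfsgLib.Ree.exists_prime_torus hm hK 2
    have hz := CfsgLib.Ree.isRoot_mk hp h5 ho hpd
    have hhall : CfsgLib.Ree.torusHall m 2 = 3 ^ (2 * m + 1) - 3 ^ (m + 1) + 1 := by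
      simp [CfsgLib.Ree.torusHall, CfsgLib.Ree.torusNum, CfsgLib.Ree.torusSmall]; omega
    obtain ⟨l, hl, hl5, hli, -⟩ := hprime i dvd_rfl
      ((hhall ▸ CfsgLib.Ree.torusHall_coprime hm 2).coprime_dvd_right hd) h1
    have e := CfsgLib.Ree.card_order_class hm hK hz (n := i) h1
      ⟨l, hl, hl5, hli, hhall ▸ hli.trans hd⟩
    rw [CfsgLib.Ree.card_order_hall hm hK hz (hhall ▸ hd), if_neg (by decide), hG] at e
    rw [show CfsgLib.Ree.torusNum m 2 = 3 ^ (2 * m + 1) - 3 ^ (m + 1) + 1 by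
      simp [CfsgLib.Ree.torusNum]; omega] at e
    obtain ⟨a, ha⟩ : ∃ a, 3 ^ (2 * m + 1) - 3 ^ (m + 1) + 1 = a := ⟨_, rfl⟩
    obtain ⟨b, hb⟩ : ∃ b, 3 ^ (2 * m + 1) + 3 ^ (m + 1) + 1 = b := ⟨_, rfl⟩
    have hab := hP.prod_eq
    rw [show 3 ^ (2 * m + 1) + 1 - 3 ^ (m + 1) = a by omega, hb] at hab
    rw [ha] at e
    rw [hb]
    obtain ⟨n, hn⟩ : ∃ n, 3 ^ (2 * m + 1) = n + 1 := ⟨3 ^ (2 * m + 1) - 1, by omega⟩
    rw [hn] at e hab ⊢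
    rw [show (n + 1) ^ 2 - (n + 1) + 1 = n ^ 2 + n + 1 by
      rw [show (n + 1) ^ 2 = n ^ 2 + n + (n + 1) by ring, Nat.add_sub_cancel]] at hab
    rw [show (n + 1) ^ 2 - 1 = n * (n + 2) by
      rw [show (n + 1) ^ 2 = n * (n + 2) + 1 by ring, Nat.add_sub_cancel]]
    rw [Nat.add_sub_cancel] at e
    refine Nat.eq_of_mul_eq_mul_right (show 0 < a by omega) ?_
    linear_combination e - (n * (n + 1) ^ 3 * (n + 2) * Nat.totient i) * hab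
  · obtain ⟨x, p, hp, h5, ho, hpd⟩ := CfsgLib.Ree.exists_prime_torus hm hK 3
    have hz := CfsgLib.Ree.isRoot_mk hp h5 ho hpd
    have hhall : CfsgLib.Ree.torusHall m 3 = 3 ^ (2 * m + 1) + 3 ^ (m + 1) + 1 := by
      simp [CfsgLib.Ree.torusHall, CfsgLib.Ree.torusNum, CfsgLib.Ree.torusSmall]
    obtain ⟨l, hl, hl5, hli, -⟩ := hprime i dvd_rfl
      ((hhall ▸ CfsgLib.Ree.torusHall_coprime hm 3).coprime_dvd_right hd) h1
    have e := CfsgLib.Ree.card_order_class hm hK hz (n := i) h1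
      ⟨l, hl, hl5, hli, hhall ▸ hli.trans hd⟩
    rw [CfsgLib.Ree.card_order_hall hm hK hz (hhall ▸ hd), if_neg (by decide), hG] at e
    rw [show CfsgLib.Ree.torusNum m 3 = 3 ^ (2 * m + 1) + 3 ^ (m + 1) + 1 from rfl] at e
    obtain ⟨a, ha⟩ : ∃ a, 3 ^ (2 * m + 1) - 3 ^ (m + 1) + 1 = a := ⟨_, rfl⟩
    obtain ⟨b, hb⟩ : ∃ b, 3 ^ (2 * m + 1) + 3 ^ (m + 1) + 1 = b := ⟨_, rfl⟩
    have hab := hP.prod_eq
    rw [show 3 ^ (2 * m + 1) + 1 - 3 ^ (m + 1) = a by omega, hb] at hab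
    rw [hb] at e
    rw [ha]
    obtain ⟨n, hn⟩ : ∃ n, 3 ^ (2 * m + 1) = n + 1 := ⟨3 ^ (2 * m + 1) - 1, by omega⟩
    rw [hn] at e hab ⊢
    rw [show (n + 1) ^ 2 - (n + 1) + 1 = n ^ 2 + n + 1 by
      rw [show (n + 1) ^ 2 = n ^ 2 + n + (n + 1) by ring, Nat.add_sub_cancel]] at hab
    rw [show (n + 1) ^ 2 - 1 = n * (n + 2) by
      rw [show (n + 1) ^ 2 = n * (n + 2) + 1 by ring, Nat.add_sub_cancel]]
    rw [Nat.add_sub_cancel] at e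
    refine Nat.eq_of_mul_eq_mul_right (show 0 < b by omega) ?_
    linear_combination e - (n * (n + 1) ^ 3 * (n + 2) * Nat.totient i) * hab

end Cfsg.Agent.S2357
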