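import Cfsg.Statements.S2359
import Cfsg.Agent.Ree.Local

set_option autoImplicit false
open Cfsg

namespace Cfsg.Agent.S2359

/-- Let R be the small Ree group over the field with q = 3^(2m+1) ≥ 27 elements. If H is a cyclic subgroup of R of order (q−1)/2, then the centralizer of H in R is cyclic of order q−1, and every non-trivial subgroup of H has the same centralizer as H. If H is a cyclic subgroup of order (q+1)/4, then the centralizer of H is abelian of order q+1 with no element of order 4 (so it is the direct product of H and a group of order 4 whose non-identity elements all have order 2), and every non-trivial subgroup of H has the same centralizer as H. -/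
theorem result {K : Type*} [Field K] [Fintype K] {m : ℕ} (hm : 1 ≤ m)
    (hK : Fintype.card K = 3 ^ (2 * m + 1)) (H : Subgroup ↥(Cfsg.Lie.twistedG2 K (3 ^ m))) (hH : IsCyclic H) :
    (Nat.card H = (3 ^ (2 * m + 1) - 1) / 2 →
      IsCyclic ↥(Subgroup.centralizer (H : Set ↥(Cfsg.Lie.twistedG2 K (3 ^ m)))) ∧
        Nat.card ↥(Subgroup.centralizer (H : Set ↥(Cfsg.Lie.twistedG2 K (3 ^ m)))) = 3 ^ (2 * m + 1) - 1 ∧
        ∀ A : Subgroup ↥(Cfsg.Lie.twistedG2 K (3 ^ m)), A ≤ H → A ≠ ⊥ →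
          Subgroup.centralizer (A : Set ↥(Cfsg.Lie.twistedG2 K (3 ^ m))) = Subgroup.centralizer (H : Set ↥(Cfsg.Lie.twistedG2 K (3 ^ m)))) ∧
    (Nat.card H = (3 ^ (2 * m + 1) + 1) / 4 →
      IsMulCommutative ↥(Subgroup.centralizer (H : Set ↥(Cfsg.Lie.twistedG2 K (3 ^ m)))) ∧
        Nat.card ↥(Subgroup.centralizer (H : Set ↥(Cfsg.Lie.twistedG2 K (3 ^ m)))) = 3 ^ (2 * m + 1) + 1 ∧
        (∀ x ∈ Subgroup.centralizer (H : Set ↥(Cfsg.Lie.twistedG2 K (3 ^ m))), orderOf x ≠ 4) ∧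
        ∀ A : Subgroup ↥(Cfsg.Lie.twistedG2 K (3 ^ m)), A ≤ H → A ≠ ⊥ →
          Subgroup.centralizer (A : Set ↥(Cfsg.Lie.twistedG2 K (3 ^ m))) = Subgroup.centralizer (H : Set ↥(Cfsg.Lie.twistedG2 K (3 ^ m)))) := by
  haveI : CharP K 3 := CfsgLib.Ree.charP_of_card hK
  have key : ∀ i : Fin 4, Nat.card H = CfsgLib.Ree.torusHall m i → ∃ z, CfsgLib.Ree.IsRoot i z ∧
      Subgroup.centralizer (H : Set ↥(Cfsg.Lie.twistedG2 K (3 ^ m))) = Subgroup.centralizer {z} ∧
      ∀ A : Subgroup ↥(Cfsg.Lie.twistedG2 K (3 ^ m)), A ≤ H → A ≠ ⊥ →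
        Subgroup.centralizer (A : Set ↥(Cfsg.Lie.twistedG2 K (3 ^ m))) =
          Subgroup.centralizer (H : Set ↥(Cfsg.Lie.twistedG2 K (3 ^ m))) := by
    intro i hi
    have hne : H ≠ ⊥ := fun h => by
      rw [h, Subgroup.card_bot] at hi
      have := CfsgLib.Ree.torusHall_one_lt hm i
      omega
    obtain ⟨z, hz, -, hle⟩ := CfsgLib.Ree.exists_root_of_cyclic hm hK hH hi.dvd hne
    have e := CfsgLib.Ree.centralizer_eq_of_le hm hK hz hH hi.dvd hle hne
    refine ⟨z, hz, e, fun A hA hA0 => ?_⟩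
    haveI := hH
    rw [e]
    exact CfsgLib.Ree.centralizer_eq_of_le hm hK hz
      (isCyclic_of_injective (Subgroup.inclusion hA) (Subgroup.inclusion_injective hA))
      ((Subgroup.card_dvd_of_le hA).trans hi.dvd) (hA.trans hle) hA0
  refine ⟨fun h => ?_, fun h => ?_⟩
  · obtain ⟨z, hz, e, hA⟩ := key 0 h
    refine ⟨?_, ?_, hA⟩
    · rw [e]; exact CfsgLib.Ree.cent_isCyclic hm hK hz (by decide)
    · rw [e, CfsgLib.Ree.card_of_root hm hK hz, ← CfsgLib.Ree.torusNum_eq hm]; rfl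
  · obtain ⟨z, hz, e, hA⟩ := key 1 h
    refine ⟨?_, ?_, fun x _ => CfsgLib.Ree.orderOf_ne_four hK x, hA⟩
    · rw [e]
      exact ⟨⟨fun a b => Subtype.ext (CfsgLib.Ree.comm_of_root hm hK hz a.2 b.2)⟩⟩
    · rw [e, CfsgLib.Ree.card_of_root hm hK hz, ← CfsgLib.Ree.torusNum_eq hm]; rfl

end Cfsg.Agent.S2359
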