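import Cfsg.Statements.S2360
import Cfsg.Agent.Classical.Unitary.InvolutionsThree

set_option autoImplicit false
open Cfsg

namespace Cfsg.Agent.S2360
open Matrix CfsgLib.Unitary

/-- Let q be odd, F the field with q² elements and S = SU_3(F) (determinant-one isometries of the standard Hermitian form). Then all involutions of S are conjugate; there are exactly q²(q²−q+1) of them; the centralizer of an involution has order q(q+1)(q²−1), the order of the full unitary group of degree 2; and for two distinct commuting involutions t and x there is exactly one further involution commuting with both. -/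
theorem result {F : Type*} [Field F] [Fintype F] {q : ℕ} (hq : Odd q)
    (hF : Fintype.card F = q ^ 2) (t : ↥(Cfsg.SU 3 F q)) (ht : t ≠ 1) (ht2 : t * t = 1) :
    (∀ x : ↥(Cfsg.SU 3 F q), x ≠ 1 → x * x = 1 → ∃ g : ↥(Cfsg.SU 3 F q), g * t * g⁻¹ = x) ∧
    Nat.card {x : ↥(Cfsg.SU 3 F q) // x ≠ 1 ∧ x * x = 1} = q ^ 2 * (q ^ 2 - q + 1) ∧
    Nat.card ↥(Subgroup.centralizer ({t} : Set ↥(Cfsg.SU 3 F q))) = q * (q + 1) * (q ^ 2 - 1) ∧
    ∀ x : ↥(Cfsg.SU 3 F q), x ≠ 1 → x * x = 1 → x ≠ t → Commute t x →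
      Nat.card {y : ↥(Cfsg.SU 3 F q) // y ≠ 1 ∧ y * y = 1 ∧ y ≠ t ∧ y ≠ x ∧ Commute t y ∧ Commute x y} = 1 := by
  classical
  have h2 := two_ne_zero_of_odd hF hq
  obtain ⟨v, rfl⟩ := exists_eq_refl hF h2 t ht ht2
  have htrans : ∀ x : ↥(Cfsg.SU 3 F q), x ≠ 1 → x * x = 1 → ∃ g : ↥(Cfsg.SU 3 F q), g * refl hF v * g⁻¹ = x := by
    intro x hx hx2
    obtain ⟨w, rfl⟩ := exists_eq_refl hF h2 x hx hx2
    obtain ⟨g, hg⟩ := exists_SU_map_orthonorm hF (f := fun _ : Fin 1 => v.1) (f' := fun _ : Fin 1 => w.1)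
      (fun i j => by simpa [Subsingleton.elim i j] using v.2)
      (fun i j => by simpa [Subsingleton.elim i j] using w.2) (by norm_num)
    exact ⟨g, by rw [refl_conj]; congr 1; exact Subtype.ext (hg 0)⟩
  have hcount := card_involutions hF h2
  refine ⟨htrans, hcount, ?_, ?_⟩
  · have h := card_eq_card_mul_of_surjective (Subgroup.centralizer ({refl hF v} : Set ↥(Cfsg.SU 3 F q)))
      (fun g => (⟨g * refl hF v * g⁻¹, fun h => refl_ne_one hF h2 v (by
          have := congrArg (fun y => g⁻¹ * y * g) h; simpa [mul_assoc] using this),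
        by rw [show g * refl hF v * g⁻¹ * (g * refl hF v * g⁻¹) = g * (refl hF v * refl hF v) * g⁻¹ by group,
          refl_mul_self]; group⟩ : {x : ↥(Cfsg.SU 3 F q) // x ≠ 1 ∧ x * x = 1}))
      (fun x => by obtain ⟨g, hg⟩ := htrans x.1 x.2.1 x.2.2; exact ⟨g, Subtype.ext hg⟩)
      (fun a b => by
        rw [Subtype.ext_iff, Subgroup.mem_centralizer_singleton_iff]
        constructor
        · intro h
          calc a⁻¹ * b * refl hF v = a⁻¹ * (b * refl hF v * b⁻¹) * b := by group
            _ = a⁻¹ * (a * refl hF v * a⁻¹) * b := by rw [show a * refl hF v * a⁻¹ = b * refl hF v * b⁻¹ from h]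
            _ = _ := by group
        · intro h
          show a * refl hF v * a⁻¹ = b * refl hF v * b⁻¹
          calc a * refl hF v * a⁻¹ = a * (refl hF v * (a⁻¹ * b)) * b⁻¹ := by group
            _ = a * (a⁻¹ * b * refl hF v) * b⁻¹ := by rw [h]
            _ = _ := by group)
    rw [hcount] at h
    have hsu := card_SU hF 3 (by norm_num)
    rw [h] at hsu
    simp only [Finset.prod_range_succ, Finset.prod_range_zero, one_mul, Nat.even_iff] at hsu
    norm_num at hsu
    have hq2 := two_le_q hF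
    have hle : q ≤ q ^ 2 := Nat.le_self_pow two_ne_zero q
    have hone : 1 ≤ q ^ 2 := Nat.one_le_pow _ _ (by omega)
    refine Nat.eq_of_mul_eq_mul_left (show 0 < (q + 1) * (q ^ 2 * (q ^ 2 - q + 1)) by positivity) ?_
    rw [Nat.card_eq_fintype_card, mul_assoc, hsu]
    zify [hle, hone]; ring
  · intro x hx hx2 hxt hcomm
    obtain ⟨w, rfl⟩ := exists_eq_refl hF h2 x hx hx2
    have hwv : hermForm 3 F q w.1 v.1 = 0 :=
      ((commute_refl_iff hF h2 v w).1 hcomm).resolve_left (fun h => hxt h.symm)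
    obtain ⟨u, -, hu1, hu⟩ := exists_orthonorm_next hF (isNondeg_top hF) (orthonorm_pair hF v.2 w.2 hwv)
      (fun _ => trivial) (by simp)
    have hg := (orthonorm_pair hF v.2 w.2 hwv).snoc hF hu1 hu
    have huv : hermForm 3 F q u v.1 = 0 := hu 0
    have huw : hermForm 3 F q u w.1 = 0 := hu 1
    have hne : ∀ a : {v : Fin 3 → F // hermForm 3 F q v v = 1}, hermForm 3 F q u a.1 = 0 → refl hF ⟨u, hu1⟩ ≠ refl hF a := by
      intro a h e
      obtain ⟨c, hc⟩ := (refl_eq_refl_iff hF h2 ⟨u, hu1⟩ a).1 e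
      have h9 := a.2
      rw [show hermForm 3 F q a.1 a.1 = c * hermForm 3 F q u a.1 by conv_lhs => arg 4; rw [hc]
                                                                    rw [herm_smul_left], h, mul_zero] at h9
      exact zero_ne_one h9
    rw [Nat.card_eq_one_iff_unique]
    refine ⟨⟨fun a b => ?_⟩, ⟨⟨refl hF ⟨u, hu1⟩, refl_ne_one hF h2 _, refl_mul_self hF _, hne v huv, hne w huw,
      (commute_refl_iff hF h2 _ _).2 (Or.inr huv), (commute_refl_iff hF h2 _ _).2 (Or.inr huw)⟩⟩⟩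
    have key : ∀ y : {y : ↥(Cfsg.SU 3 F q) // y ≠ 1 ∧ y * y = 1 ∧ y ≠ refl hF v ∧ y ≠ refl hF w ∧ Commute (refl hF v) y ∧ Commute (refl hF w) y},
        y.1 = refl hF ⟨u, hu1⟩ := by
      rintro ⟨y, hy, hy2, hyv, hyw, hcv, hcw⟩
      obtain ⟨z, rfl⟩ := exists_eq_refl hF h2 y hy hy2
      have hzv := ((commute_refl_iff hF h2 v z).1 hcv).resolve_left (fun h => hyv h.symm)
      have hzw := ((commute_refl_iff hF h2 w z).1 hcw).resolve_left (fun h => hyw h.symm)
      refine ((refl_eq_refl_iff hF h2 _ _).2 ⟨hermForm 3 F q z.1 u, ?_⟩).symm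
      conv_lhs => rw [orthonorm_expand hF hg z.1, Fin.sum_univ_castSucc]
      simp [Fin.sum_univ_two, hzv, hzw]
    exact Subtype.ext ((key a).trans (key b).symm)

end Cfsg.Agent.S2360
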