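import Cfsg.Statements.S2371
import Cfsg.Agent.G2Oct.SingerCycle
-- import your own Cfsg.Agent.* helpers here

set_option autoImplicit false
open Cfsg

namespace Cfsg.Agent.S2371

/-- The group G₂(q), q ≥ 3, contains a cyclic subgroup of order q² + q + 1 which is its own centralizer. -/
theorem result {F : Type*} [Field F] [Fintype F] (q : ℕ) (hF : Fintype.card F = q) (hq : 3 ≤ q) :
    ∃ H : Subgroup ↥(Cfsg.Lie.chevG2.group F), IsCyclic ↥H ∧ Nat.card ↥H = q ^ 2 + q + 1 ∧
      Subgroup.centralizer (H : Set ↥(Cfsg.Lie.chevG2.group F)) = H := by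
  subst hF
  obtain ⟨H, hc, hn, hz⟩ := CfsgLib.G2Oct.exists_cyclic_self_centralizing (F := F) hq
  let e := CfsgLib.G2Oct.chevIso F
  refine ⟨H.map e.toMonoidHom, isCyclic_of_surjective (H.equivMapOfInjective e.toMonoidHom e.injective)
    (H.equivMapOfInjective e.toMonoidHom e.injective).surjective, ?_, ?_⟩
  · rw [← hn]
    exact Nat.card_congr (H.equivMapOfInjective e.toMonoidHom e.injective).toEquiv.symm
  · refine le_antisymm (fun c hc' => ?_) ?_
    · obtain ⟨c, rfl⟩ := e.surjective c
      refine Subgroup.mem_map_of_mem _ ?_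
      rw [← hz, Subgroup.mem_centralizer_iff]
      intro k hk
      refine e.injective ?_
      rw [map_mul, map_mul]
      exact Subgroup.mem_centralizer_iff.1 hc' _ (Subgroup.mem_map_of_mem _ hk)
    · rintro _ ⟨c, hc', rfl⟩
      rw [SetLike.mem_coe, ← hz] at hc'
      rw [Subgroup.mem_centralizer_iff]
      rintro _ ⟨k, hk, rfl⟩
      rw [← map_mul, ← map_mul, Subgroup.mem_centralizer_iff.1 hc' k hk]

end Cfsg.Agent.S2371
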