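import Cfsg.Statements.S2444
import Cfsg.Agent.SLCommutator.Two
import Cfsg.Agent.SLCommutator.Three

set_option autoImplicit false
open Cfsg

namespace Cfsg.Agent.S2444

/-- In the special linear group SL(n,F) over a finite field F, with n ≥ 2 and (n, |F|) not (2,2) or (2,3), every element is a commutator a·b·a⁻¹·b⁻¹ of two elements of SL(n,F). -/
theorem result {F : Type*} [Field F] [Fintype F] (n : ℕ) (hn : 2 ≤ n) (hex : n = 2 → 4 ≤ Fintype.card F) :
    ∀ g : Matrix.SpecialLinearGroup (Fin n) F, ∃ a b : Matrix.SpecialLinearGroup (Fin n) F, g = a * b * a⁻¹ * b⁻¹ := by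
  classical
  refine CfsgLib.SLCommutator.commutator_of_forms n fun s hs hdet hdeg => ?_
  by_cases h4 : 4 ≤ Fintype.card F
  · exact CfsgLib.SLCommutator.comm_large h4 hs hdet
  have h1 := Fintype.one_lt_card (α := F)
  have hn3 : 3 ≤ n := by
    rcases Nat.lt_or_ge n 3 with h | h
    · exact absurd (hex (by omega)) h4
    · exact h
  rcases (by omega : Fintype.card F = 2 ∨ Fintype.card F = 3) with h2 | h3
  · exact CfsgLib.SLCommutator.comm_two_elements h2 hs (by omega)
  · exact CfsgLib.SLCommutator.comm_three_elements h3 hs hdet (by omega)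

end Cfsg.Agent.S2444
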