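import Cfsg.Statements.S2450

set_option autoImplicit false
open Cfsg

namespace Cfsg.Agent.S2450

open Matrix

private theorem conj_coe {F : Type*} [Field F] (g A : SpecialLinearGroup (Fin 2) F) :
    ((g * A * g⁻¹ : SpecialLinearGroup (Fin 2) F) : Matrix (Fin 2) (Fin 2) F) =
      (g : Matrix (Fin 2) (Fin 2) F) * (A : Matrix (Fin 2) (Fin 2) F) * adjugate (g : Matrix (Fin 2) (Fin 2) F) := by
  simp

private def mk2 {F : Type*} [Field F] (a b c d : F) (h : a * d - b * c = 1) : SpecialLinearGroup (Fin 2) F :=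
  ⟨!![a, b; c, d], by simpa [det_fin_two] using h⟩

private theorem mk2_coe {F : Type*} [Field F] (a b c d : F) (h : a * d - b * c = 1) :
    (mk2 a b c d h : Matrix (Fin 2) (Fin 2) F) = !![a, b; c, d] := rfl

private theorem exists_conj_low_ne {F : Type*} [Field F] (A : SpecialLinearGroup (Fin 2) F)
    (hA : A ∉ Subgroup.center (SpecialLinearGroup (Fin 2) F)) :
    ∃ g : SpecialLinearGroup (Fin 2) F, ((g * A * g⁻¹ : SpecialLinearGroup (Fin 2) F) : Matrix (Fin 2) (Fin 2) F) 1 0 ≠ 0 := by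
  by_cases h10 : (A : Matrix (Fin 2) (Fin 2) F) 1 0 ≠ 0
  · exact ⟨1, by simpa using h10⟩
  push Not at h10
  by_cases h01 : (A : Matrix (Fin 2) (Fin 2) F) 0 1 ≠ 0
  · refine ⟨mk2 0 1 (-1) 0 (by ring), ?_⟩
    rw [conj_coe, mk2_coe]
    simp [adjugate_fin_two, mul_apply, vecMul, dotProduct, Fin.sum_univ_two, h01, h10]
  push Not at h01
  refine ⟨mk2 1 0 1 1 (by ring), ?_⟩
  rw [conj_coe, mk2_coe]
  simp [adjugate_fin_two, mul_apply, vecMul, dotProduct, Fin.sum_univ_two, h01, h10]
  intro hc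
  apply hA
  have hd : (A : Matrix (Fin 2) (Fin 2) F) 0 0 = (A : Matrix (Fin 2) (Fin 2) F) 1 1 := by
    linear_combination hc
  have hdet : (A : Matrix (Fin 2) (Fin 2) F) 0 0 ^ 2 = 1 := by
    have h := A.det_coe
    rw [det_fin_two, h01, h10, ← hd] at h
    linear_combination h
  rw [SpecialLinearGroup.mem_center_iff]
  refine ⟨(A : Matrix (Fin 2) (Fin 2) F) 0 0, by simpa using hdet, ?_⟩
  ext i j
  fin_cases i <;> fin_cases j <;> simp [h01, h10, hd]

private theorem card_quad_fiber_le {F : Type*} [Field F] [Fintype F] [DecidableEq F] (c0 c1 c2 : F)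
    (h : c2 ≠ 0) :
    (Finset.univ.filter (fun t : F => c0 + c1 * t + c2 * t ^ 2 = 0)).card ≤ 2 := by
  classical
  let P : Polynomial F := Polynomial.C c2 * Polynomial.X ^ 2 + Polynomial.C c1 * Polynomial.X + Polynomial.C c0
  have hd : P.natDegree = 2 := Polynomial.natDegree_quadratic h
  have hP : P ≠ 0 := fun hz => by rw [hz] at hd; simp at hd
  have hsub : (Finset.univ.filter (fun t : F => c0 + c1 * t + c2 * t ^ 2 = 0)) ⊆ P.roots.toFinset := by
    intro t ht
    have ht2 : c0 + c1 * t + c2 * t ^ 2 = 0 := by simpa using ht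
    simp only [Multiset.mem_toFinset, Polynomial.mem_roots hP, Polynomial.IsRoot.def, P,
      Polynomial.eval_add, Polynomial.eval_mul, Polynomial.eval_C, Polynomial.eval_pow, Polynomial.eval_X]
    linear_combination ht2
  calc _ ≤ P.roots.toFinset.card := Finset.card_le_card hsub
    _ ≤ P.roots.card := Multiset.toFinset_card_le _
    _ ≤ 2 := hd ▸ Polynomial.card_roots' P

private theorem central_entries {F : Type*} [Field F] (z : SpecialLinearGroup (Fin 2) F)
    (hz : z ∈ Subgroup.center (SpecialLinearGroup (Fin 2) F)) (X : SpecialLinearGroup (Fin 2) F) :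
    trace ((X * z : SpecialLinearGroup (Fin 2) F) : Matrix (Fin 2) (Fin 2) F) = trace (X : Matrix (Fin 2) (Fin 2) F) ∨
    trace ((X * z : SpecialLinearGroup (Fin 2) F) : Matrix (Fin 2) (Fin 2) F) = - trace (X : Matrix (Fin 2) (Fin 2) F) := by
  obtain ⟨r, hr, hzr⟩ := SpecialLinearGroup.mem_center_iff.mp hz
  have hr' : r = 1 ∨ r = -1 := by simpa [sq_eq_one_iff] using hr
  rw [SpecialLinearGroup.coe_mul, ← hzr]
  rcases hr' with h | h <;> subst h
  · left; simp
  · right; simp [trace_fin_two]; ring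


/-- The Arad–Herzog conjecture for PSL(2,q): let F be a finite field with q ≥ 4 elements. For any two non-identity elements a, b of PSL(2,F), the set of products of a conjugate of a with a conjugate of b is not a single conjugacy class. -/
theorem result {F : Type*} [Field F] [Fintype F] (h4 : 4 ≤ Fintype.card F)
    (a b : Matrix.ProjectiveSpecialLinearGroup (Fin 2) F) (ha : a ≠ 1) (hb : b ≠ 1) (c : Matrix.ProjectiveSpecialLinearGroup (Fin 2) F) :
    {g : Matrix.ProjectiveSpecialLinearGroup (Fin 2) F | ∃ u v : Matrix.ProjectiveSpecialLinearGroup (Fin 2) F, g = (u * a * u⁻¹) * (v * b * v⁻¹)} ≠ {g | IsConj c g} := by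
  classical
  intro hEq
  obtain ⟨A, rfl⟩ := QuotientGroup.mk_surjective a
  obtain ⟨B, rfl⟩ := QuotientGroup.mk_surjective b
  obtain ⟨C, rfl⟩ := QuotientGroup.mk_surjective c
  have hA : A ∉ Subgroup.center (SpecialLinearGroup (Fin 2) F) := fun h => ha ((QuotientGroup.eq_one_iff _).mpr h)
  have hB : B ∉ Subgroup.center (SpecialLinearGroup (Fin 2) F) := fun h => hb ((QuotientGroup.eq_one_iff _).mpr h)
  obtain ⟨g, hg⟩ := exists_conj_low_ne A hA
  obtain ⟨h, hh⟩ := exists_conj_low_ne B hB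
  obtain ⟨A', hA'⟩ : ∃ A', g * A * g⁻¹ = A' := ⟨_, rfl⟩
  obtain ⟨B', hB'⟩ : ∃ B', h * B * h⁻¹ = B' := ⟨_, rfl⟩
  rw [hA'] at hg; rw [hB'] at hh
  let U : F → SpecialLinearGroup (Fin 2) F := fun t => mk2 1 t 0 1 (by ring)
  let τ := trace (C : Matrix (Fin 2) (Fin 2) F)
  have key : ∀ t, trace ((A' * (U t * B' * (U t)⁻¹) : SpecialLinearGroup (Fin 2) F) : Matrix (Fin 2) (Fin 2) F) = τ ∨
      trace ((A' * (U t * B' * (U t)⁻¹) : SpecialLinearGroup (Fin 2) F) : Matrix (Fin 2) (Fin 2) F) = -τ := by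
    intro t
    have hm : (QuotientGroup.mk (A' * (U t * B' * (U t)⁻¹)) : ProjectiveSpecialLinearGroup (Fin 2) F) ∈
        {x | IsConj (QuotientGroup.mk C : ProjectiveSpecialLinearGroup (Fin 2) F) x} := by
      rw [← hEq]
      refine ⟨QuotientGroup.mk g, QuotientGroup.mk (U t * h), ?_⟩
      simp only [← hA', ← hB', QuotientGroup.mk_mul, QuotientGroup.mk_inv, _root_.mul_inv_rev, mul_assoc]
    obtain ⟨k, hk⟩ := isConj_iff.mp hm
    obtain ⟨K, rfl⟩ := QuotientGroup.mk_surjective k
    rw [← QuotientGroup.mk_inv, ← QuotientGroup.mk_mul, ← QuotientGroup.mk_mul, QuotientGroup.eq] at hk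
    have htr : trace ((K * C * K⁻¹ : SpecialLinearGroup (Fin 2) F) : Matrix (Fin 2) (Fin 2) F) = τ := by
      have hc := C.det_coe
      have hk1 := K.det_coe
      simp only [τ]
      rw [SpecialLinearGroup.coe_mul, trace_mul_comm, ← SpecialLinearGroup.coe_mul]
      simp
    have := central_entries _ hk (K * C * K⁻¹)
    rw [mul_inv_cancel_left, htr] at this
    exact this
  obtain ⟨d0, d1, d2, hd2, hpoly⟩ : ∃ d0 d1 d2 : F, d2 ≠ 0 ∧ ∀ t, trace ((A' * (U t * B' * (U t)⁻¹) : SpecialLinearGroup (Fin 2) F) : Matrix (Fin 2) (Fin 2) F) = d0 + d1 * t + d2 * t ^ 2 := by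
    set a00 := (A' : Matrix (Fin 2) (Fin 2) F) 0 0
    set a01 := (A' : Matrix (Fin 2) (Fin 2) F) 0 1
    set a10 := (A' : Matrix (Fin 2) (Fin 2) F) 1 0
    set a11 := (A' : Matrix (Fin 2) (Fin 2) F) 1 1
    set b00 := (B' : Matrix (Fin 2) (Fin 2) F) 0 0
    set b01 := (B' : Matrix (Fin 2) (Fin 2) F) 0 1
    set b10 := (B' : Matrix (Fin 2) (Fin 2) F) 1 0
    set b11 := (B' : Matrix (Fin 2) (Fin 2) F) 1 1
    refine ⟨a00 * b00 + a01 * b10 + a10 * b01 + a11 * b11, a00 * b10 - a11 * b10 + a10 * (b11 - b00),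
      -(a10 * b10), neg_ne_zero.mpr (mul_ne_zero hg hh), fun t => ?_⟩
    rw [SpecialLinearGroup.coe_mul, conj_coe, mk2_coe]
    simp [U, trace_fin_two, mul_apply, vecMul, dotProduct, Fin.sum_univ_two, adjugate_fin_two, a00, a01, a10, a11, b00, b01, b10, b11]
    ring
  simp only [hpoly] at key
  have hsplit : (Finset.univ : Finset F) ⊆ (Finset.univ.filter (fun t : F => (d0 - τ) + d1 * t + d2 * t ^ 2 = 0)) ∪
      (Finset.univ.filter (fun t : F => (d0 + τ) + d1 * t + d2 * t ^ 2 = 0)) := by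
    intro t _
    simp only [Finset.mem_union, Finset.mem_filter, Finset.mem_univ, true_and]
    rcases key t with h' | h'
    · left; linear_combination h'
    · right; linear_combination h'
  have hle := (Finset.card_le_card hsplit).trans (Finset.card_union_le _ _)
  have h1 := card_quad_fiber_le (d0 - τ) d1 d2 hd2
  have h2 := card_quad_fiber_le (d0 + τ) d1 d2 hd2
  have hq : Fintype.card F = 4 := by rw [← Finset.card_univ] at h4 ⊢; omega
  have htwo : (2 : F) = 0 := by
    have := Nat.cast_card_eq_zero F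
    rw [hq] at this
    have h22 : (2 : F) * 2 = 0 := by exact_mod_cast this
    simpa using h22
  have hneg : τ = -τ := by linear_combination τ * htwo
  have hplus : d0 + τ = d0 - τ := by linear_combination τ * htwo
  rw [hplus, Finset.union_self] at hsplit
  have := Finset.card_le_card hsplit
  rw [Finset.card_univ] at this
  omega

end Cfsg.Agent.S2450
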