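import Cfsg.Statements.S2456
import Cfsg.Agent.Psl2Cover.Macbeath
-- import your own Cfsg.Agent.* helpers here

set_option autoImplicit false
open Cfsg

namespace Cfsg.Agent.S2456

/-- A strong covering result in the direction of Thompson's conjecture (non-identity elements) for PSL(2,q), q even: let F be a finite field of characteristic 2 with q ≥ 4 elements and let x ∈ PSL(2,F) have order greater than 2 and not dividing q + 1. Then every non-identity element of PSL(2,F) is a product of two conjugates of x. -/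
theorem result {F : Type*} [Field F] [Fintype F] [CharP F 2] (h4 : 4 ≤ Fintype.card F)
    (x : Matrix.ProjectiveSpecialLinearGroup (Fin 2) F) (hx2 : 2 < orderOf x) (hxq : ¬ orderOf x ∣ Fintype.card F + 1) : ∀ g : Matrix.ProjectiveSpecialLinearGroup (Fin 2) F, g ≠ 1 → ∃ u v : Matrix.ProjectiveSpecialLinearGroup (Fin 2) F, g = (u * x * u⁻¹) * (v * x * v⁻¹) := by
  classical
  obtain ⟨A, rfl⟩ := QuotientGroup.mk'_surjective (Subgroup.center (Matrix.SpecialLinearGroup (Fin 2) F)) x
  intro g hg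
  obtain ⟨G, rfl⟩ := QuotientGroup.mk'_surjective (Subgroup.center (Matrix.SpecialLinearGroup (Fin 2) F)) g
  set π := QuotientGroup.mk' (Subgroup.center (Matrix.SpecialLinearGroup (Fin 2) F)) with hπ
  have h20 : (2 : F) = 0 := CharTwo.two_eq_zero
  have h40 : (4 : F) = 0 := by linear_combination 2 * h20
  have ht : CfsgLib.SL2.tr A ^ 2 ≠ 4 := by
    intro h
    rw [h40] at h
    have h0 : CfsgLib.SL2.tr A = 0 := sq_eq_zero_iff.1 h
    have h1 : (π A) ^ 2 = 1 := by
      rw [pow_two, ← map_mul, CfsgLib.SL2.mul_self_of_tr_eq_zero h0,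
        CfsgLib.SL2.neg_one_eq_one, map_one]
    exact absurd (Nat.le_of_dvd two_pos (orderOf_dvd_of_pow_eq_one h1)) (by omega)
  have hsplit : CfsgLib.SL2.IsSplitTrace (CfsgLib.SL2.tr A) := by
    by_contra hns
    have hA : A ∈ Subgroup.centralizer ({A} : Set (Matrix.SpecialLinearGroup (Fin 2) F)) :=
      Subgroup.mem_centralizer_singleton_iff.2 rfl
    have h1 := Subgroup.orderOf_dvd_natCard _ hA
    rw [CfsgLib.SL2.card_centralizer_nonsplit hns] at h1
    exact hxq ((orderOf_map_dvd π A).trans h1)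
  suffices H : ∃ (a b : Matrix.SpecialLinearGroup (Fin 2) F),
      G = (a * A * a⁻¹) * (b * A * b⁻¹) by
    obtain ⟨a, b, hab⟩ := H
    exact ⟨π a, π b, by rw [hab]; simp [map_mul, map_inv]⟩
  by_cases hs : CfsgLib.SL2.tr G ^ 2 = 4
  · have htr : CfsgLib.SL2.tr G = 2 := by
      rw [h20]
      rw [h40] at hs
      exact sq_eq_zero_iff.1 hs
    have hne : G ≠ 1 := by
      rintro rfl
      exact hg (map_one _)
    obtain ⟨r, hr, hc⟩ := CfsgLib.SL2.exists_isConj_u hne htr
    obtain ⟨c, hc⟩ := isConj_iff.1 hc.symm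
    obtain ⟨a, b, hab⟩ := CfsgLib.Psl2Cover.exists_conj_mul_eq_u ht hsplit r
    exact ⟨c * a, c * b, CfsgLib.Psl2Cover.conj_factor hab c hc⟩
  · exact CfsgLib.Psl2Cover.exists_conj_mul_eq_of_tr_sq_ne ht hs

end Cfsg.Agent.S2456
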