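import Cfsg.Statements.S2458
import Cfsg.Agent.ReeSquare.Q27

set_option autoImplicit false
open Cfsg

namespace Cfsg.Agent.S2458

/-- A strong covering result in the direction of Thompson's conjecture (non-identity elements) for the small Ree groups: let q = 3^(2m+1) ≥ 27, K the field with q elements and ²G₂(q) the Ree group over K. For every element x of ²G₂(q) of order greater than 2 and not divisible by 3, every non-identity element of ²G₂(q) is a product of two conjugates of x. -/
theorem result {K : Type*} [Field K] [Fintype K] (m : ℕ) (hm : 1 ≤ m) (hK : Fintype.card K = 3 ^ (2 * m + 1))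
    (x : Cfsg.Lie.twistedG2 K (3 ^ m)) (hx2 : 2 < orderOf x) (hx3 : ¬ 3 ∣ orderOf x) : ∀ g : Cfsg.Lie.twistedG2 K (3 ^ m), g ≠ 1 → ∃ u v : Cfsg.Lie.twistedG2 K (3 ^ m), g = (u * x * u⁻¹) * (v * x * v⁻¹) := by
  haveI : Fact (Nat.Prime 3) := ⟨Nat.prime_three⟩
  haveI hchar : CharP K 3 := by
    obtain ⟨p, hp⟩ := CharP.exists K
    obtain ⟨n, hn, hcard⟩ := FiniteField.card K p
    have h3 : p ∣ 3 ^ (2 * m + 1) := hK ▸ hcard ▸ dvd_pow_self p n.ne_zero
    rwa [(Nat.prime_dvd_prime_iff_eq hn Nat.prime_three).1 (hn.dvd_of_dvd_pow h3)] at hp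
  intro g hg
  obtain ⟨i, z, hz, hx, hxS⟩ := CfsgLib.ReeSquare.exists_torus hm hK hx2 hx3
  have hx1 : x ≠ 1 := fun h => by rw [h, orderOf_one] at hx2; omega
  have hnb : (orderOf g = 2 ∨ orderOf g = 3) → ¬ CfsgLib.Ree.IsBig g := by
    rintro h ⟨p, -, h5, hd⟩
    rcases h with h | h <;> rw [h] at hd <;> have := Nat.le_of_dvd (by norm_num) hd <;> omega
  by_cases h2 : orderOf g = 2
  · by_cases hs : CfsgLib.Ree.torusSmall i = 1
    · have hi : i = 2 ∨ i = 3 := by
        fin_cases i <;> simp [CfsgLib.Ree.torusSmall] at hs ⊢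
      rcases Nat.lt_or_ge m 2 with h | h
      · obtain rfl : m = 1 := by omega
        rcases hi with rfl | rfl
        · exact CfsgLib.ReeSquare.covers_19 hK hz hx hx1 h2
        · refine CfsgLib.ReeSquare.covers_37 hK hz hx hx1 (hnb (Or.inl h2)) ?_
          rw [CfsgLib.ReeSquare.card_cent_involution hK h2]
          norm_num
      · refine CfsgLib.ReeSquare.covers_large hm hK h hi hz hx hx1 (hnb (Or.inl h2)) ?_
        rw [CfsgLib.ReeSquare.card_cent_involution hK h2, pow_succ' (3 ^ (2 * m + 1)) 2]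
        exact Nat.mul_le_mul_left _ (Nat.sub_le _ _)
    · exact CfsgLib.ReeSquare.covers_involution_psl hm hK hz hs hx hx2 hx3 h2
  by_cases h3 : orderOf g = 3
  · by_cases hi : i = 3
    · subst hi
      have hC := (CfsgLib.ReeSquare.three_data hK h3).1
      rcases Nat.lt_or_ge m 2 with h | h
      · obtain rfl : m = 1 := by omega
        exact CfsgLib.ReeSquare.covers_37 hK hz hx hx1 (hnb (Or.inr h3)) (le_trans hC (by norm_num))
      · exact CfsgLib.ReeSquare.covers_large hm hK h (Or.inr rfl) hz hx hx1 (hnb (Or.inr h3)) hC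
    · exact CfsgLib.ReeSquare.covers_three hm hK hz hi hx hxS h3
  exact CfsgLib.ReeSquare.covers_small hm hK hz hx hxS hg h2 h3

end Cfsg.Agent.S2458
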