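import Cfsg.Statements.S2459
import Cfsg.Agent.Psl3Cover.FieldThree
import Cfsg.Agent.Classical.Linear.Generation
-- import your own Cfsg.Agent.* helpers here

set_option autoImplicit false
open Cfsg

namespace Cfsg.Agent.S2459

/-- A form of Thompson's conjecture for PSL(3,q), q > 2 (covering the non-identity elements), with a semisimple class: for F a finite field of characteristic p with more than 2 elements there is an element x of PSL(3,F) of order prime to p such that every non-identity element of PSL(3,F) is a product of two conjugates of x. -/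
theorem result {F : Type*} [Field F] [Fintype F] (p : ℕ) [Fact p.Prime] [CharP F p] (h3 : 3 ≤ Fintype.card F) :
    ∃ x : Matrix.ProjectiveSpecialLinearGroup (Fin 3) F, ¬ p ∣ orderOf x ∧ ∀ g : Matrix.ProjectiveSpecialLinearGroup (Fin 3) F, g ≠ 1 → ∃ u v : Matrix.ProjectiveSpecialLinearGroup (Fin 3) F, g = (u * x * u⁻¹) * (v * x * v⁻¹) := by
  classical
  set π := QuotientGroup.mk' (Subgroup.center (Matrix.SpecialLinearGroup (Fin 3) F)) with hπ
  have fin : ∀ D : Matrix.SpecialLinearGroup (Fin 3) F, ∀ m : ℕ, ¬ p ∣ m → D ^ m = 1 →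
      (∀ M : Matrix.SpecialLinearGroup (Fin 3) F,
        M ∉ Subgroup.center (Matrix.SpecialLinearGroup (Fin 3) F) →
        ∃ u v : Matrix.SpecialLinearGroup (Fin 3) F, M = (u * D * u⁻¹) * (v * D * v⁻¹)) →
      ∃ x : Matrix.ProjectiveSpecialLinearGroup (Fin 3) F, ¬ p ∣ orderOf x ∧
        ∀ g : Matrix.ProjectiveSpecialLinearGroup (Fin 3) F, g ≠ 1 →
          ∃ u v : Matrix.ProjectiveSpecialLinearGroup (Fin 3) F,
            g = (u * x * u⁻¹) * (v * x * v⁻¹) := by
    intro D m hm hD h
    refine ⟨π D, fun hd => hm (hd.trans (orderOf_dvd_of_pow_eq_one ?_)), fun g hg => ?_⟩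
    · rw [← map_pow, hD, map_one]
    · obtain ⟨M, rfl⟩ := QuotientGroup.mk'_surjective
        (Subgroup.center (Matrix.SpecialLinearGroup (Fin 3) F)) g
      obtain ⟨u, v, huv⟩ := h M fun hc => hg ((QuotientGroup.eq_one_iff M).2 hc)
      exact ⟨π u, π v, by rw [huv]; simp [map_mul, map_inv, hπ]⟩
  rcases Nat.lt_or_ge (Fintype.card F) 4 with h4 | h4
  · have hcard : Fintype.card F = 3 := by omega
    haveI : Fact (Nat.Prime 3) := ⟨Nat.prime_three⟩
    have hp3 : p = 3 := by
      obtain ⟨n, hpp, hn⟩ := FiniteField.card F p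
      rw [hcard] at hn
      exact (Nat.prime_dvd_prime_iff_eq hpp Nat.prime_three).1 (hn ▸ dvd_pow_self p n.pos.ne')
    subst hp3
    let e : ZMod 3 ≃+* F := ZMod.ringEquivOfPrime F Nat.prime_three hcard
    let D0 : Matrix.SpecialLinearGroup (Fin 3) (ZMod 3) := ⟨CfsgLib.Psl3Cover.four, by decide⟩
    have hD0 : ∀ c : ZMod 3, ∃ E : Matrix (Fin 3) (Fin 3) (ZMod 3), E.det = c ∧
        E * (D0 : Matrix (Fin 3) (Fin 3) (ZMod 3)) =
          (D0 : Matrix (Fin 3) (Fin 3) (ZMod 3)) * E :=
      fun c => ⟨!![1, 0, 0; 0, c, 0; 0, 0, 1], by simp [Matrix.det_fin_three], by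
        ext x y
        fin_cases x <;> fin_cases y <;>
          simp [D0, CfsgLib.Psl3Cover.four, Matrix.mul_apply, Fin.sum_univ_three]⟩
    let f : Matrix.SpecialLinearGroup (Fin 3) (ZMod 3) →* Matrix.SpecialLinearGroup (Fin 3) F :=
      Matrix.SpecialLinearGroup.map e.toRingHom
    have hf : Function.Surjective f := fun M =>
      ⟨Matrix.SpecialLinearGroup.map e.symm.toRingHom M, by
        ext i j
        simp [f]⟩
    refine fin (f D0) 4 (by norm_num) ?_ fun M hM => ?_
    · rw [← map_pow, show D0 ^ 4 = 1 from Subtype.ext (by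
        rw [Matrix.SpecialLinearGroup.coe_pow]; decide), map_one]
    · obtain ⟨M0, rfl⟩ := hf M
      have hM0 : M0 ∉ Subgroup.center (Matrix.SpecialLinearGroup (Fin 3) (ZMod 3)) := fun hc =>
        hM (Subgroup.mem_center_iff.2 fun N => by
          obtain ⟨N0, rfl⟩ := hf N
          rw [← map_mul, ← map_mul, Subgroup.mem_center_iff.1 hc N0])
      obtain ⟨u, v, huv⟩ := CfsgLib.Psl3Cover.exists_conj_mul D0 M0 hD0
        (CfsgLib.Psl3Cover.prod2_four M0 hM0)
      exact ⟨f u, f v, by rw [huv]; simp [map_mul, map_inv]⟩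
  · obtain ⟨l, hl, hl2⟩ := CfsgLib.Classical.Linear.exists_sq_ne_one_of_four_le (F := F)
      (by rwa [Nat.card_eq_fintype_card])
    let D : Matrix.SpecialLinearGroup (Fin 3) F :=
      ⟨!![1, 0, 0; 0, l, 0; 0, 0, l⁻¹], by simp [Matrix.det_fin_three, hl]⟩
    refine fin D (Fintype.card F - 1) ?_ ?_ fun M hM => ?_
    · intro hd
      obtain ⟨n, hpp, hn⟩ := FiniteField.card F p
      have h0 : p ∣ Fintype.card F := hn ▸ dvd_pow_self p n.pos.ne'
      have := Nat.dvd_sub h0 hd
      rw [Nat.sub_sub_self (by omega)] at this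
      exact hpp.not_dvd_one this
    · apply Subtype.ext
      have hd : (D : Matrix (Fin 3) (Fin 3) F) = Matrix.diagonal ![1, l, l⁻¹] := by
        ext x y
        fin_cases x <;> fin_cases y <;> simp [D]
      rw [Matrix.SpecialLinearGroup.coe_pow, Matrix.SpecialLinearGroup.coe_one, hd,
        Matrix.diagonal_pow, ← Matrix.diagonal_one]
      congr 1
      funext x
      fin_cases x <;> simp [FiniteField.pow_card_sub_one_eq_one, hl]
    · obtain ⟨G, hsim, h00, hmin⟩ := CfsgLib.Psl3Cover.exists_sim_pivots M hM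
      exact CfsgLib.Psl3Cover.exists_conj_mul D M
        (fun c => ⟨!![c, 0, 0; 0, 1, 0; 0, 0, 1], by simp [Matrix.det_fin_three], by
          ext x y
          fin_cases x <;> fin_cases y <;>
            simp [D, Matrix.mul_apply, Fin.sum_univ_three]⟩)
        ((CfsgLib.Psl3Cover.prod2_of_pivots (hsim.det_eq.symm.trans M.2) h00 hmin hl hl2).of_sim
          hsim)

end Cfsg.Agent.S2459
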