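import Cfsg.Statements.S2460
import Cfsg.Agent.SpFourCover.Three
import Cfsg.Agent.SpFourCover.Four
import Cfsg.Agent.SpFourCover.Five

set_option autoImplicit false
open Cfsg

namespace Cfsg.Agent.S2460

open CfsgLib.SpFourCover Matrix

/-- The covering statement inside the symplectic group. -/
def SpCover (F : Type*) [Field F] (p : ℕ) : Prop :=
  ∃ (X : Matrix.symplecticGroup (Fin 2) F) (n : ℕ), ¬ p ∣ n ∧ X ^ n = 1 ∧
    ∀ g ∉ Subgroup.center (Matrix.symplecticGroup (Fin 2) F),
      ∃ z ∈ Subgroup.center (Matrix.symplecticGroup (Fin 2) F),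
        ∃ u v, g = z * ((u * X * u⁻¹) * (v * X * v⁻¹))

/-- Field isomorphism on the symplectic group. -/
def spMap {K F : Type*} [Field K] [Field F] (e : K →+* F) :
    Matrix.symplecticGroup (Fin 2) K →* Matrix.symplecticGroup (Fin 2) F where
  toFun A := ⟨(A : Mat K).map e, SymplecticGroup.map_mem A.2 e⟩
  map_one' := Subtype.ext (by simp)
  map_mul' A B := Subtype.ext (by simp [Matrix.map_mul])

theorem spCover_of_equiv {K F : Type*} [Field K] [Field F] (e : K ≃+* F) (p : ℕ)
    (h : SpCover K p) : SpCover F p := by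
  obtain ⟨X, n, hn, hX, hg⟩ := h
  obtain ⟨f, hf⟩ : ∃ f, f = spMap (K := K) (F := F) e.toRingHom := ⟨_, rfl⟩
  have hsur : Function.Surjective f := fun A => ⟨spMap e.symm.toRingHom A, by
    rw [hf]
    apply Subtype.ext
    ext i j
    simp [spMap]⟩
  have hcen : ∀ z ∈ Subgroup.center _, f z ∈ Subgroup.center _ := fun z hz =>
    Subgroup.mem_center_iff.2 fun y => by
      obtain ⟨y0, rfl⟩ := hsur y
      rw [← map_mul, ← map_mul, Subgroup.mem_center_iff.1 hz y0]
  refine ⟨f X, n, hn, by rw [← map_pow, hX, map_one], fun g hgc => ?_⟩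
  obtain ⟨g0, rfl⟩ := hsur g
  obtain ⟨z, hz, u, v, he⟩ := hg g0 fun hc => hgc (hcen g0 hc)
  exact ⟨f z, hcen z hz, f u, f v, by rw [he]; simp⟩

theorem spCover_of_check {K : Type*} [Field K] [DecidableEq K] (p n : ℕ) (hn : ¬ p ∣ n)
    {x : M4 K} (hpow : M4.pow x n = M4.one)
    (h : ∃ X : Matrix.symplecticGroup (Fin 2) K, (X : Mat K) = x.toMat ∧
      ∀ g ∉ Subgroup.center (Matrix.symplecticGroup (Fin 2) K),
        ∃ z ∈ Subgroup.center (Matrix.symplecticGroup (Fin 2) K),
          ∃ u v, g = z * ((u * X * u⁻¹) * (v * X * v⁻¹))) : SpCover K p := by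
  obtain ⟨X, hX, hg⟩ := h
  refine ⟨X, n, hn, Subtype.ext ?_, hg⟩
  rw [SubmonoidClass.coe_pow, hX, ← M4.toMat_pow, hpow, M4.toMat_one]
  rfl

theorem spCover_large {F : Type*} [Field F] [Fintype F] (p : ℕ) [Fact p.Prime] [CharP F p]
    (h7 : 7 ≤ Fintype.card F) : SpCover F p := by
  classical
  have avoid : ∀ s : Finset F, s.card ≤ 5 → ∃ x, x ∉ s := fun s hs => by
    by_contra hc
    push Not at hc
    have := Finset.card_le_card (show Finset.univ ⊆ s from fun x _ => hc x)
    rw [Finset.card_univ] at this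
    omega
  obtain ⟨a, ha⟩ := avoid {0, 1, -1} (Finset.card_le_three.trans (by norm_num))
  obtain ⟨b, hb⟩ := avoid {0, 1, -1, a, a⁻¹} Finset.card_le_five
  simp only [Finset.mem_insert, Finset.mem_singleton, not_or] at ha hb
  obtain ⟨a0, a1, am⟩ := ha
  obtain ⟨b0, b1, bm, ba, bai⟩ := hb
  have sq : ∀ z : F, z ≠ 0 → z ≠ 1 → z ≠ -1 → z ≠ z⁻¹ := fun z z0 z1 zm h => by
    have h2 : z * z = 1 := by nth_rw 2 [h]; exact mul_inv_cancel₀ z0
    rcases mul_self_eq_one_iff.1 h2 with h3 | h3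
    · exact z1 h3
    · exact zm h3
  obtain ⟨d, hd⟩ : ∃ d : Idx → F, d = Sum.elim ![a, b] ![a⁻¹, b⁻¹] := ⟨_, rfl⟩
  have hinj : Function.Injective d := by
    have e1 := sq a a0 a1 am
    have e2 := sq b b0 b1 bm
    have e3 : a ≠ b⁻¹ := fun h => bai (by rw [h, inv_inv])
    have e4 : a⁻¹ ≠ b⁻¹ := fun h => ba (inv_injective h).symm
    rw [hd]
    rintro (i | i) (j | j) h <;> fin_cases i <;> fin_cases j <;>
      simp [e1, e1.symm, e2, e2.symm, e3, e3.symm, e4, e4.symm, ba, Ne.symm ba, bai, Ne.symm bai] at h ⊢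
  have hne : ∀ i, d i ≠ 0 := by
    rw [hd]; rintro (i | i) <;> fin_cases i <;> simp [a0, b0]
  have hprod : ∀ i, d i.swap * d i = 1 := by
    rw [hd]; rintro (i | i) <;> fin_cases i <;> simp [a0, b0]
  obtain ⟨X, hX⟩ : ∃ X : Matrix.symplecticGroup (Fin 2) F, (X : Mat F) = Matrix.diagonal d := by
    refine ⟨⟨_, mem_of_cols _ ?_ ?_ ?_ ?_ ?_ ?_⟩, rfl⟩ <;> rw [hd] <;> simp [ω, a0, b0]
  refine ⟨X, Fintype.card F - 1, ?_, Subtype.ext ?_, fun g hg => ?_⟩
  · intro hdv
    obtain ⟨n, hpp, hn⟩ := FiniteField.card F p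
    have h0 : p ∣ Fintype.card F := hn ▸ dvd_pow_self p n.pos.ne'
    have := Nat.dvd_sub h0 hdv
    rw [Nat.sub_sub_self (by omega)] at this
    exact hpp.not_dvd_one this
  · rw [SubmonoidClass.coe_pow, hX, Matrix.diagonal_pow]
    show _ = (1 : Mat F)
    rw [← Matrix.diagonal_one]
    exact congrArg _ (funext fun i => FiniteField.pow_card_sub_one_eq_one _ (hne i))
  · obtain ⟨u, v, h⟩ := exists_conj_mul_conj_of_regular X d hX hinj hprod g hg
    exact ⟨1, one_mem _, u, v, by rw [one_mul]; exact h⟩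

theorem spCover {F : Type*} [Field F] [Fintype F] (p : ℕ) [Fact p.Prime] [CharP F p]
    (h3 : 3 ≤ Fintype.card F) : SpCover F p := by
  rcases Nat.lt_or_ge (Fintype.card F) 7 with h | h
  swap
  · exact spCover_large p h
  obtain ⟨n, hpp, hn⟩ := FiniteField.card F p
  have hpq : p ∣ Fintype.card F := hn ▸ dvd_pow_self p n.pos.ne'
  have h6 : Fintype.card F ≠ 6 := fun h6 => by
    rw [h6] at hn
    rcases (Nat.Prime.dvd_mul hpp).1 (by rw [show 2 * 3 = 6 from rfl, hn]; exact dvd_pow_self p n.pos.ne')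
      with hd | hd
    · have := (Nat.prime_dvd_prime_iff_eq hpp Nat.prime_two).1 hd
      subst this
      have : 3 ∣ 2 ^ (n : ℕ) := hn ▸ ⟨2, rfl⟩
      exact absurd (Nat.prime_three.dvd_of_dvd_pow this) (by decide)
    · have := (Nat.prime_dvd_prime_iff_eq hpp Nat.prime_three).1 hd
      subst this
      have : 2 ∣ 3 ^ (n : ℕ) := hn ▸ ⟨3, rfl⟩
      exact absurd (Nat.prime_two.dvd_of_dvd_pow this) (by decide)
  have hcases : Fintype.card F = 3 ∨ Fintype.card F = 4 ∨ Fintype.card F = 5 := by omega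
  have hp2 : ∀ m, p ∣ m → 0 < m → p ≤ m := fun m hm h0 => Nat.le_of_dvd h0 hm
  rcases hcases with hc | hc | hc
  · haveI : Fact (Nat.Prime 3) := ⟨Nat.prime_three⟩
    have hp : p = 3 := (Nat.prime_dvd_prime_iff_eq hpp Nat.prime_three).1 (hc ▸ hpq)
    exact spCover_of_equiv (ZMod.ringEquivOfPrime F Nat.prime_three hc) p
      (spCover_of_check p 5 (by rw [hp]; decide) Three.x_pow
        (cover_of_check Three.x Three.x_symp Three.Y Three.es (by decide +kernel) Three.cs Three.cs_spec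
          Three.hs Three.covers Three.data Three.y_check Three.all_check))
  · have hp : p = 2 := (Nat.prime_dvd_prime_iff_eq hpp Nat.prime_two).1
      (hpp.dvd_of_dvd_pow (show p ∣ 2 ^ 2 by rw [← show Fintype.card F = 2 ^ 2 from hc]; exact hpq))
    exact spCover_of_equiv (FiniteField.ringEquivOfCardEq
        (CfsgLib.CosetEnum.Suz.G2.F4.card_eq.trans hc.symm)) p
      (spCover_of_check p 15 (by rw [hp]; decide) Four.x_pow
        (cover_of_check Four.x Four.x_symp Four.Y Four.es (by decide +kernel) Four.cs Four.cs_spec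
          Four.hs Four.covers Four.data Four.y_check Four.all_check))
  · haveI : Fact (Nat.Prime 5) := ⟨Nat.prime_five⟩
    have hp : p = 5 := (Nat.prime_dvd_prime_iff_eq hpp Nat.prime_five).1 (hc ▸ hpq)
    exact spCover_of_equiv (ZMod.ringEquivOfPrime F Nat.prime_five hc) p
      (spCover_of_check p 13 (by rw [hp]; decide) Five.x_pow
        (cover_of_check Five.x Five.x_symp Five.Y Five.es (by decide +kernel) Five.cs Five.cs_spec
          Five.hs Five.covers Five.data Five.y_check Five.all_check))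

/-- A form of Thompson's conjecture for the simple groups PSp(4,q), q ≥ 3 (covering the non-identity elements), with a semisimple class: for F a finite field of characteristic p with at least 3 elements there is an element x of PSp(4,F) of order prime to p such that every non-identity element of PSp(4,F) is a product of two conjugates of x. -/
theorem result {F : Type*} [Field F] [Fintype F] (p : ℕ) [Fact p.Prime] [CharP F p] (h3 : 3 ≤ Fintype.card F) :
    ∃ x : Cfsg.PSp 2 F, ¬ p ∣ orderOf x ∧ ∀ g : Cfsg.PSp 2 F, g ≠ 1 → ∃ u v : Cfsg.PSp 2 F, g = (u * x * u⁻¹) * (v * x * v⁻¹) := by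
  obtain ⟨X, n, hn, hX, hg⟩ := spCover p h3
  obtain ⟨π, hπ⟩ : ∃ π, π = QuotientGroup.mk' (Subgroup.center (Matrix.symplecticGroup (Fin 2) F)) :=
    ⟨_, rfl⟩
  refine ⟨π X, fun hd => hn (hd.trans (orderOf_dvd_of_pow_eq_one (by rw [← map_pow, hX, map_one]))),
    fun g hg1 => ?_⟩
  obtain ⟨M, rfl⟩ := QuotientGroup.mk'_surjective
    (Subgroup.center (Matrix.symplecticGroup (Fin 2) F)) g
  obtain ⟨z, hz, u, v, he⟩ := hg M fun hc => hg1 ((QuotientGroup.eq_one_iff M).2 hc)
  refine ⟨π u, π v, ?_⟩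
  rw [← hπ, he, map_mul, show π z = 1 by rw [hπ]; exact (QuotientGroup.eq_one_iff z).2 hz, one_mul]
  simp

end Cfsg.Agent.S2460
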