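import Cfsg.Statements.S2462
import Cfsg.Agent.D4Cover.Large
import Cfsg.Agent.D4Cover.Three
import Cfsg.Agent.D4Cover.Two

set_option autoImplicit false
open Cfsg

namespace Cfsg.Agent.S2462

/-- A form of Thompson's conjecture for the triality groups ³D₄(q) (covering the non-identity elements) with a semisimple class: for q a power of the prime p and K the field with q³ elements there is an element x of ³D₄(q) (realised over K) of order prime to p such that every non-identity element of ³D₄(q) is a product of two conjugates of x. -/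
theorem result {K : Type*} [Field K] [Fintype K] (p : ℕ) [Fact p.Prime] [CharP K p] (q : ℕ) (hq : IsPrimePow q) (hK : Fintype.card K = q ^ 3) :
    ∃ x : Cfsg.Lie.twistedD4 K q, ¬ p ∣ orderOf x ∧ ∀ g : Cfsg.Lie.twistedD4 K q, g ≠ 1 → ∃ u v : Cfsg.Lie.twistedD4 K q, g = (u * x * u⁻¹) * (v * x * v⁻¹) := by
  obtain ⟨x, hx, hp, hcov⟩ : ∃ x ∈ Cfsg.Lie.chevD4.genSubgroup K (Cfsg.Lie.d4Words K q),
      ¬ p ∣ orderOf x ∧ ∀ g ∈ Cfsg.Lie.chevD4.genSubgroup K (Cfsg.Lie.d4Words K q), g ≠ 1 →
        CfsgLib.D4Cover.Covered (Cfsg.Lie.chevD4.genSubgroup K (Cfsg.Lie.d4Words K q)) x g := by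
    have h1 := hq.one_lt
    have hzero : ((q : K)) ^ 3 = 0 := by
      have := Nat.cast_card_eq_zero (R := K)
      rwa [hK, Nat.cast_pow] at this
    rcases (show q = 2 ∨ q = 3 ∨ 4 ≤ q by omega) with h | h | h
    · subst h
      have h2 : (2 : K) = 0 := by exact_mod_cast (pow_eq_zero_iff (n := 3) (by norm_num)).1 hzero
      have : CharP K 2 := CharTwo.of_one_ne_zero_of_two_eq_zero one_ne_zero h2
      obtain rfl : p = 2 := CharP.eq K ‹_› ‹_›
      exact CfsgLib.D4Cover.two_cover hq hK rfl
    · subst h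
      have h3 : (3 : K) = 0 := by exact_mod_cast (pow_eq_zero_iff (n := 3) (by norm_num)).1 hzero
      refine CfsgLib.D4Cover.three_cover hq hK h3 fun z hz => ?_
      have hz0 : z ≠ 0 := by
        rintro rfl
        exact one_ne_zero (α := K) (by linear_combination h3 + hz)
      have h26 := FiniteField.pow_card_sub_one_eq_one z hz0
      rw [hK, show 3 ^ 3 - 1 = 2 * 13 from rfl, pow_mul, sq, hz,
        show (2 : K) = -1 by linear_combination h3] at h26
      norm_num at h26
      exact one_ne_zero (α := K) (by linear_combination h3 + h26)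
    · exact CfsgLib.D4Cover.four_le_cover hq hK h
  refine ⟨⟨x, hx⟩, by rwa [← Subgroup.orderOf_coe], fun g hg => ?_⟩
  obtain ⟨u, hu, v, hv, e⟩ := hcov g.1 g.2 fun h => hg (Subtype.ext h)
  exact ⟨⟨u, hu⟩, ⟨v, hv⟩, Subtype.ext e⟩

end Cfsg.Agent.S2462
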