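import Cfsg.Statements.S2463
import Cfsg.Agent.F4Cover.Main
import Cfsg.Agent.TitsCover.Main

set_option autoImplicit false
open Cfsg

namespace Cfsg.Agent.S2463

theorem transfer {Γ : Type*} [Group Γ] {H : Subgroup Γ} {M : Type*} [Group M] (e : M ≃* ↥H)
    {x : Γ} (hx : x ∈ H) (ho : Odd (orderOf x))
    (hc : ∀ g ∈ H, g ≠ 1 → CfsgLib.D4Cover.Covered H x g) :
    ∃ x : M, Odd (orderOf x) ∧ ∀ g : M, g ≠ 1 →
      ∃ u v : M, g = (u * x * u⁻¹) * (v * x * v⁻¹) := by
  refine ⟨e.symm ⟨x, hx⟩, ?_, fun g hg => ?_⟩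
  · rwa [e.symm.orderOf_eq, Subgroup.orderOf_mk]
  · have hne : ((e g : ↥H) : Γ) ≠ 1 := fun h =>
      hg (e.injective ((Subtype.ext h).trans (map_one e).symm))
    obtain ⟨u, hu, v, hv, heq⟩ := hc _ (e g).2 hne
    refine ⟨e.symm ⟨u, hu⟩, e.symm ⟨v, hv⟩, e.injective (Subtype.ext ?_)⟩
    simp only [map_mul, map_inv, MulEquiv.apply_symm_apply]
    exact heq

open CfsgLib in
/-- A form of Thompson's conjecture for the simple groups of type ²F₄ (covering the non-identity elements) with a semisimple class: if M is a large Ree group ²F₄(2^(2m+1)) with m ≥ 1, or the Tits group, then there is an element x of M of odd order such that every non-identity element of M is a product of two conjugates of x. -/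
theorem result {M : Type*} [Group M] [Finite M] (hM : Cfsg.Lie.Iso2F4 M ∨ Cfsg.Lie.IsoTits M) :
    ∃ x : M, Odd (orderOf x) ∧ ∀ g : M, g ≠ 1 → ∃ u v : M, g = (u * x * u⁻¹) * (v * x * v⁻¹) := by
  rcases hM with ⟨K, _, _, m, hm, hK, ⟨e⟩⟩ | hT
  · classical
    obtain ⟨z, hz⟩ := IsCyclic.exists_ofOrder_eq_natCard (α := Kˣ)
    have hord : orderOf z = 2 ^ (2 * m + 1) - 1 := by
      rw [hz, Nat.card_eq_fintype_card, Fintype.card_units, hK]
    have hx : F4Cover.xx hK z ∈ CfsgLib.TwistedLie.Tw.G (CfsgLib.TwistedLie.F4.tw hK) :=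
      ((F4Cover.mem_LL hK).mp (F4Cover.xx_mem hK z)).2
    exact transfer (H := CfsgLib.TwistedLie.Tw.G (CfsgLib.TwistedLie.F4.tw hK)) e hx
      (F4Cover.xx_odd hK hord) (fun g hg h1 => F4Cover.covered_all hK hm hord hg h1)
  · obtain ⟨e⟩ : Nonempty (M ≃* Cfsg.Lie.TitsGroup) := hT
    let e' : M ≃* ↥TitsCover.TT := e.trans
      ((commutator ↥TitsInvolutions.G).equivMapOfInjective TitsInvolutions.G.subtype
        Subtype.val_injective)
    exact transfer e' TitsCover.x_TT TitsCover.x_odd (fun g hg h1 => TitsCover.covered_all hg h1)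

end Cfsg.Agent.S2463
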