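import Mathlib
import Cfsg.Statements.S2466
-- import your own Cfsg.Agent.* helpers here

set_option autoImplicit false
open Cfsg

namespace Cfsg.Agent.S2466

theorem exists_dvd_of_dvd_lcm {p : ℕ} (hp : p.Prime) (m : Multiset ℕ) (h : p ∣ m.lcm) :
    ∃ a ∈ m, p ∣ a := by
  induction m using Multiset.induction_on with
  | empty => simp at h; exact absurd h hp.ne_one
  | cons a m ih =>
    rw [Multiset.lcm_cons] at h
    rcases hp.dvd_mul.1 (h.trans (Nat.lcm_dvd_mul a m.lcm)) with h | h
    · exact ⟨a, Multiset.mem_cons_self a m, h⟩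
    · obtain ⟨b, hb, hpb⟩ := ih h
      exact ⟨b, Multiset.mem_cons_of_mem hb, hpb⟩

/-- Adjacency of odd primes in the prime graph of the alternating groups: let r ≠ s be odd primes at most n. The alternating group of degree n has an element of order r·s if and only if r + s ≤ n. -/
theorem result (n r s : ℕ) (hr : r.Prime) (hs : s.Prime) (hr2 : r ≠ 2) (hs2 : s ≠ 2) (hrs : r ≠ s) (hrn : r ≤ n) (hsn : s ≤ n) :
    (r * s ∈ Set.range (orderOf : alternatingGroup (Fin n) → ℕ)) ↔ r + s ≤ n := by
  constructor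
  · rintro ⟨⟨g, hgA⟩, hg⟩
    rw [Subgroup.orderOf_mk, ← Equiv.Perm.lcm_cycleType] at hg
    have hsum := Equiv.Perm.sum_cycleType_le g
    rw [Fintype.card_fin] at hsum
    obtain ⟨a, ha, hra⟩ := exists_dvd_of_dvd_lcm hr g.cycleType (hg ▸ dvd_mul_right r s)
    obtain ⟨b, hb, hsb⟩ := exists_dvd_of_dvd_lcm hs g.cycleType (hg ▸ dvd_mul_left s r)
    have ha0 : 0 < a := Nat.lt_of_lt_of_le Nat.zero_lt_two (Equiv.Perm.two_le_of_mem_cycleType ha)
    have hb0 : 0 < b := Nat.lt_of_lt_of_le Nat.zero_lt_two (Equiv.Perm.two_le_of_mem_cycleType hb)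
    by_cases hab : a = b
    · subst hab
      have h1 : r * s ≤ a := Nat.le_of_dvd ha0
        (((Nat.coprime_primes hr hs).2 hrs).mul_dvd_of_dvd_of_dvd hra hsb)
      have h2 := Multiset.le_sum_of_mem ha
      have h3 : r + s ≤ r * s := Nat.add_le_mul hr.two_le hs.two_le
      omega
    · obtain ⟨m, hm⟩ := Multiset.exists_cons_of_mem ha
      have hb' : b ∈ m := by
        rw [hm, Multiset.mem_cons] at hb
        exact hb.resolve_left (Ne.symm hab)
      have h2 := Multiset.le_sum_of_mem hb'
      rw [hm, Multiset.sum_cons] at hsum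
      have := Nat.le_of_dvd ha0 hra
      have := Nat.le_of_dvd hb0 hsb
      omega
  · intro h
    obtain ⟨g, hg⟩ := (Equiv.Perm.exists_with_cycleType_iff (α := Fin n) (m := {r, s})).2
      ⟨by simpa using h, by
        intro a ha
        simp at ha
        rcases ha with rfl | rfl
        · exact hr.two_le
        · exact hs.two_le⟩
    have hA : g ∈ alternatingGroup (Fin n) := by
      rw [Equiv.Perm.mem_alternatingGroup, Equiv.Perm.sign_of_cycleType, hg]
      apply Even.neg_one_pow
      have h1 := hr.odd_of_ne_two hr2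
      have h2 := hs.odd_of_ne_two hs2
      rw [Nat.odd_iff] at h1 h2
      rw [Nat.even_iff]
      simp
      omega
    refine ⟨⟨g, hA⟩, ?_⟩
    rw [Subgroup.orderOf_mk, ← Equiv.Perm.lcm_cycleType, hg]
    simpa [lcm_eq_nat_lcm, Nat.lcm_one_right] using ((Nat.coprime_primes hr hs).2 hrs).lcm_eq_mul

end Cfsg.Agent.S2466
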