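import Mathlib
import Cfsg.Statements.S2467
-- import your own Cfsg.Agent.* helpers here

set_option autoImplicit false
open Cfsg

namespace Cfsg.Agent.S2467

theorem exists_dvd_of_dvd_lcm {p : ℕ} (hp : p.Prime) (m : Multiset ℕ) (h : p ∣ m.lcm) :
    ∃ a ∈ m, p ∣ a := by
  induction m using Multiset.induction_on with
  | empty => simp at h; exact absurd h hp.ne_one
  | cons a m ih =>
    rw [Multiset.lcm_cons] at h
    rcases hp.dvd_mul.1 (h.trans (Nat.lcm_dvd_mul a m.lcm)) with h | h
    · exact ⟨a, Multiset.mem_cons_self a m, h⟩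
    · obtain ⟨b, hb, hpb⟩ := ih h
      exact ⟨b, Multiset.mem_cons_of_mem hb, hpb⟩

/-- Adjacency of 2 and an odd prime in the prime graph of the alternating groups: let r be an odd prime at most n, with n ≥ 4. The alternating group of degree n has an element of order 2r if and only if r + 4 ≤ n. -/
theorem result (n r : ℕ) (hn : 4 ≤ n) (hr : r.Prime) (hr2 : r ≠ 2) (hrn : r ≤ n) :
    (2 * r ∈ Set.range (orderOf : alternatingGroup (Fin n) → ℕ)) ↔ r + 4 ≤ n := by
  have hodd := Nat.odd_iff.1 (hr.odd_of_ne_two hr2)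
  have h3 : 3 ≤ r := by have := hr.two_le; omega
  constructor
  · rintro ⟨⟨g, hgA⟩, hg⟩
    rw [Subgroup.orderOf_mk, ← Equiv.Perm.lcm_cycleType] at hg
    have hpar : (g.cycleType.sum + Multiset.card g.cycleType) % 2 = 0 := by
      rw [Equiv.Perm.mem_alternatingGroup, Equiv.Perm.sign_of_cycleType] at hgA
      exact Nat.even_iff.1 ((neg_one_pow_eq_one_iff_even (by decide)).1 hgA)
    have hsum := Equiv.Perm.sum_cycleType_le g
    rw [Fintype.card_fin] at hsum
    have hdvd : ∀ c ∈ g.cycleType, c ∣ 2 * r := fun c hc => hg ▸ Multiset.dvd_lcm hc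
    have h2 : ∀ c ∈ g.cycleType, 2 ≤ c := fun c hc => Equiv.Perm.two_le_of_mem_cycleType hc
    have hval : ∀ c ∈ g.cycleType, c = 2 ∨ c = r ∨ c = 2 * r := by
      intro c hc
      obtain ⟨c1, c2, hc1, hc2, rfl⟩ := Nat.dvd_mul.1 (hdvd c hc)
      have := h2 _ hc
      rcases (Nat.dvd_prime Nat.prime_two).1 hc1 with rfl | rfl <;>
        rcases (Nat.dvd_prime hr).1 hc2 with rfl | rfl <;> omega
    obtain ⟨a, ha, hra⟩ := exists_dvd_of_dvd_lcm hr g.cycleType (hg ▸ dvd_mul_left r 2)
    obtain ⟨m, hm⟩ := Multiset.exists_cons_of_mem ha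
    have hmem : ∀ c ∈ m, c ∈ g.cycleType := fun c hc => hm ▸ Multiset.mem_cons_of_mem hc
    rw [hm, Multiset.sum_cons, Multiset.card_cons] at hpar
    rw [hm, Multiset.sum_cons] at hsum
    rcases hval a ha with rfl | rfl | rfl
    · exact absurd ((Nat.prime_dvd_prime_iff_eq hr Nat.prime_two).1 hra) hr2
    · obtain ⟨b, hb, h2b⟩ := exists_dvd_of_dvd_lcm Nat.prime_two g.cycleType
        (hg ▸ dvd_mul_right 2 a)
      have hba : b ≠ a := by rintro rfl; omega
      have hbm : b ∈ m := by
        rw [hm, Multiset.mem_cons] at hb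
        exact hb.resolve_left hba
      rcases hval b (hmem b hbm) with rfl | rfl | rfl
      · obtain ⟨m', hm'⟩ := Multiset.exists_cons_of_mem hbm
        rw [hm', Multiset.sum_cons, Multiset.card_cons] at hpar
        rw [hm', Multiset.sum_cons] at hsum
        have hne : m' ≠ 0 := by
          rintro rfl
          simp at hpar <;> omega
        obtain ⟨c, hc⟩ := Multiset.exists_mem_of_ne_zero hne
        have := Multiset.le_sum_of_mem hc
        have := h2 c (hmem c (hm' ▸ Multiset.mem_cons_of_mem hc))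
        omega
      · exact absurd rfl hba
      · have := Multiset.le_sum_of_mem hbm
        omega
    · have hne : m ≠ 0 := by
        rintro rfl
        simp at hpar
      obtain ⟨c, hc⟩ := Multiset.exists_mem_of_ne_zero hne
      have := Multiset.le_sum_of_mem hc
      have := h2 c (hmem c hc)
      omega
  · intro h
    obtain ⟨g, hg⟩ := (Equiv.Perm.exists_with_cycleType_iff (α := Fin n) (m := {r, 2, 2})).2
      ⟨by simp; omega, by
        intro a ha
        simp at ha
        rcases ha with rfl | rfl <;> omega⟩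
    have hA : g ∈ alternatingGroup (Fin n) := by
      rw [Equiv.Perm.mem_alternatingGroup, Equiv.Perm.sign_of_cycleType, hg]
      apply Even.neg_one_pow
      rw [Nat.even_iff]
      simp
      omega
    refine ⟨⟨g, hA⟩, ?_⟩
    rw [Subgroup.orderOf_mk, ← Equiv.Perm.lcm_cycleType, hg]
    have h : Nat.Coprime r 2 := (Nat.coprime_primes hr Nat.prime_two).2 hr2
    simpa [lcm_eq_nat_lcm, mul_comm] using h.lcm_eq_mul

end Cfsg.Agent.S2467
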