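import Mathlib
import Cfsg.Statements.S2471
-- import your own Cfsg.Agent.* helpers here

set_option autoImplicit false
open Cfsg

namespace Cfsg.Agent.S2471

open Matrix

/-- In PSL(2,q) with q odd, the characteristic p is isolated from 2 in the prime graph: for F a finite field of odd characteristic p with at least 5 elements, PSL(2,F) has no element of order 2p. -/
theorem result {F : Type*} [Field F] [Fintype F] (p : ℕ) [Fact p.Prime] [CharP F p] (hp : p ≠ 2) (h5 : 5 ≤ Fintype.card F) (g : Matrix.ProjectiveSpecialLinearGroup (Fin 2) F) :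
    orderOf g ≠ 2 * p := by
  intro hg
  obtain ⟨M, rfl⟩ := QuotientGroup.mk_surjective g
  have hp' : p.Prime := Fact.out
  have hcen : ∀ N : Matrix.SpecialLinearGroup (Fin 2) F, ∀ c : F,
      (N : Matrix (Fin 2) (Fin 2) F) = scalar (Fin 2) c →
      N ∈ Subgroup.center (Matrix.SpecialLinearGroup (Fin 2) F) := by
    intro N c hN
    refine Matrix.SpecialLinearGroup.mem_center_iff.2 ⟨c, ?_, hN.symm⟩
    have := N.2
    rw [hN] at this
    simpa using this
  have hnot : ∀ k, k < 2 * p → 0 < k → ∀ c : F,
      (M : Matrix (Fin 2) (Fin 2) F) ^ k ≠ scalar (Fin 2) c := by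
    intro k hk hk0 c hc
    have h1 := hcen (M ^ k) c (by simpa using hc)
    have h2 := orderOf_dvd_of_pow_eq_one (n := k)
      (show (QuotientGroup.mk M : ProjectiveSpecialLinearGroup (Fin 2) F) ^ k = 1 by
        rw [← QuotientGroup.mk_pow, QuotientGroup.eq_one_iff]; exact h1)
    rw [hg] at h2
    exact absurd (Nat.le_of_dvd hk0 h2) (not_le.2 hk)
  have hpow : M ^ (2 * p) ∈ Subgroup.center (Matrix.SpecialLinearGroup (Fin 2) F) := by
    rw [← QuotientGroup.eq_one_iff, QuotientGroup.mk_pow]
    have := pow_orderOf_eq_one (QuotientGroup.mk M : ProjectiveSpecialLinearGroup (Fin 2) F)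
    rwa [hg] at this
  obtain ⟨e, he2, he⟩ := Matrix.SpecialLinearGroup.mem_center_iff.1 hpow
  rw [Fintype.card_fin] at he2
  have hep : e ^ p = e := by
    obtain ⟨j, hj⟩ := hp'.odd_of_ne_two hp
    rw [hj, pow_succ, pow_mul, he2, one_pow, one_mul]
  set A : Matrix (Fin 2) (Fin 2) F := (M : Matrix (Fin 2) (Fin 2) F) with hA
  have hAdet : A.det = 1 := M.2
  set t := A.trace with ht
  have hCH : A ^ 2 = t • A - 1 := by
    rw [Matrix.det_fin_two] at hAdet
    ext i j
    fin_cases i <;> fin_cases j <;>
      simp [pow_two, Matrix.mul_apply, Fin.sum_univ_two, ht, Matrix.trace_fin_two,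
        Matrix.one_apply] <;>
      (first | ring1 | linear_combination hAdet | linear_combination -hAdet | linear_combination 2 * hAdet | linear_combination -2 * hAdet)
  have hnil : IsNilpotent (A ^ 2 - scalar (Fin 2) e) := by
    refine ⟨p, ?_⟩
    rw [sub_pow_char_of_commute _ ((scalar_commute e (Commute.all e) _).symm), ← map_pow, hep,
      ← pow_mul, he]
    simp [hA]
  have htr := (Matrix.isNilpotent_trace_of_isNilpotent hnil).eq_zero
  rw [hCH, Matrix.trace_sub, Matrix.trace_sub, Matrix.trace_smul, ← ht, Matrix.trace_one] at htr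
  simp [Matrix.scalar_apply, Matrix.trace_diagonal, Fin.sum_univ_two] at htr
  have he1 : e = 1 ∨ e = -1 := by
    have : (e - 1) * (e + 1) = 0 := by linear_combination he2
    rcases mul_eq_zero.1 this with h | h
    · exact .inl (sub_eq_zero.1 h)
    · exact .inr (eq_neg_of_add_eq_zero_left h)
  have hp2 := hp'.two_le
  rcases he1 with rfl | rfl
  · have h2 : (2 : F) ≠ 0 := Ring.two_ne_zero (by rw [ringChar.eq F p]; exact hp)
    have : (t - 2) * (t + 2) = 0 := by linear_combination htr
    obtain ⟨c, hc, hc2⟩ : ∃ c : F, c * c = 1 ∧ t = 2 * c := by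
      rcases mul_eq_zero.1 this with h | h
      · exact ⟨1, by ring, by linear_combination h⟩
      · exact ⟨-1, by ring, by linear_combination h⟩
    have hN : (A - scalar (Fin 2) c) ^ 2 = 0 := by
      have : (A - scalar (Fin 2) c) ^ 2
          = A ^ 2 - (2 * c) • A + scalar (Fin 2) (c * c) := by
        ext i j
        fin_cases i <;> fin_cases j <;>
          simp [pow_two, Matrix.mul_apply, Fin.sum_univ_two] <;> ring
      rw [this, hCH, hc2, hc]
      simp
    have : (A - scalar (Fin 2) c) ^ p = 0 := pow_eq_zero_of_le hp2 hN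
    rw [sub_pow_char_of_commute _ ((scalar_commute c (Commute.all c) _).symm), sub_eq_zero,
      ← map_pow] at this
    exact hnot p (by omega) (by omega) _ this
  · have ht0 : t = 0 := by
      have : t * t = 0 := by linear_combination htr
      simpa using this
    refine hnot 2 (by omega) two_pos (-1) ?_
    rw [hCH, ht0]
    ext i j
    fin_cases i <;> fin_cases j <;> simp

end Cfsg.Agent.S2471
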