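import Cfsg.Statements.S2476
import Cfsg.Agent.Spec53.PSL3Spectrum

set_option autoImplicit false
open Cfsg

namespace Cfsg.Agent.S2476

/-- The set of element orders of PSL(3,q): let F be a finite field of characteristic p with q elements and d = gcd(3, q − 1). The orders of elements of PSL(3,F) are exactly the divisors of (q² + q + 1)/d, of (q² − 1)/d, of q − 1, of p(q − 1)/d, and, when p = 2, of 4. -/
theorem result {F : Type*} [Field F] [Fintype F] (p : ℕ) [Fact p.Prime] [CharP F p] :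
    Set.range (orderOf : Matrix.ProjectiveSpecialLinearGroup (Fin 3) F → ℕ) =
      {m : ℕ | m ∣ (Fintype.card F ^ 2 + Fintype.card F + 1) / Nat.gcd 3 (Fintype.card F - 1) ∨
        m ∣ (Fintype.card F ^ 2 - 1) / Nat.gcd 3 (Fintype.card F - 1) ∨ m ∣ Fintype.card F - 1 ∨
        m ∣ p * (Fintype.card F - 1) / Nat.gcd 3 (Fintype.card F - 1) ∨ (p = 2 ∧ m ∣ 4)} := by
  classical
  rw [CfsgLib.Spec53.range_orderOf_eq_of_targets _ (CfsgLib.Spec53.psl3_upper p)
    (fun n hn => CfsgLib.Spec53.psl3_lower p hn)]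
  have hQ : 1 ≤ Fintype.card F := Fintype.card_pos
  have hQ2 : 1 ≤ Fintype.card F ^ 2 := Nat.one_le_pow _ _ Fintype.card_pos
  have e1 : ((Fintype.card F : ℤ) - 1).natAbs = Fintype.card F - 1 := by omega
  have e2 : ((Fintype.card F : ℤ) ^ 2 - 1).natAbs = Fintype.card F ^ 2 - 1 := by
    have : ((Fintype.card F ^ 2 - 1 : ℕ) : ℤ) = (Fintype.card F : ℤ) ^ 2 - 1 := by
      rw [Nat.cast_sub hQ2]; simp
    rw [← this]; rfl
  have e3 : ((Fintype.card F : ℤ) ^ 2 + Fintype.card F + 1).natAbs =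
      Fintype.card F ^ 2 + Fintype.card F + 1 := by
    rw [show (Fintype.card F : ℤ) ^ 2 + Fintype.card F + 1 =
      ((Fintype.card F ^ 2 + Fintype.card F + 1 : ℕ) : ℤ) by push_cast; ring]; rfl
  ext m
  simp only [Set.mem_ofPred_eq, CfsgLib.Spec53.Cubic3Target, e1, e2, e3]
  constructor
  · rintro ⟨n, rfl | rfl | rfl | rfl | ⟨hp, rfl⟩, hm⟩ <;> simp [*]
  · rintro (hm | hm | hm | hm | ⟨hp, hm⟩)
    · exact ⟨_, .inr (.inr (.inr (.inl rfl))), hm⟩
    · exact ⟨_, .inr (.inr (.inl rfl)), hm⟩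
    · exact ⟨_, .inl rfl, hm⟩
    · exact ⟨_, .inr (.inl rfl), hm⟩
    · exact ⟨_, .inr (.inr (.inr (.inr ⟨hp, rfl⟩))), hm⟩

end Cfsg.Agent.S2476
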