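import Cfsg.Statements.S2482
import Cfsg.Agent.IsometryClasses.SympClasses

set_option autoImplicit false
open Cfsg

namespace Cfsg.Agent.S2482

/-- The number of conjugacy classes of Sp(2n,q), q odd: for F a finite field of odd order q and n ≥ 1, the number k of conjugacy classes of Sp(2n,F) satisfies q^n ≤ k ≤ 10.8·q^n. -/
theorem result {F : Type*} [Field F] [Fintype F] (hodd : Odd (Fintype.card F)) (n : ℕ) (hn : 1 ≤ n) :
    Fintype.card F ^ n ≤ Nat.card (ConjClasses (Matrix.symplecticGroup (Fin n) F)) ∧ 5 * Nat.card (ConjClasses (Matrix.symplecticGroup (Fin n) F)) ≤ 54 * Fintype.card F ^ n := by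
  have h2 : (2 : F) ≠ 0 := by
    intro h
    haveI : CharP F 2 := CharP.ringChar_of_prime_eq_zero Nat.prime_two (by exact_mod_cast h) ▸ ringChar.charP F
    obtain ⟨k, -, hk⟩ := FiniteField.card F 2
    exact Nat.not_even_iff_odd.2 hodd (hk ▸ Nat.even_pow.2 ⟨even_two, k.pos.ne'⟩)
  have hq : 3 ≤ Fintype.card F := by
    have := Fintype.one_lt_card (α := F)
    obtain ⟨r, hr⟩ := hodd
    omega
  exact ⟨CfsgLib.IsometryClasses.le_card_classes, CfsgLib.IsometryClasses.card_classes_le h2 hq⟩

end Cfsg.Agent.S2482
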