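import Mathlib
import Cfsg.Statements.S2485
-- import your own Cfsg.Agent.* helpers here

set_option autoImplicit false
open scoped Pointwise
open Cfsg

namespace Cfsg.Agent.S2485

open scoped Matrix

variable {q : ℕ}

/-- The rotation matrix `J`, a square root of `-1`. -/
private def jMat (q : ℕ) : Matrix (Fin 2) (Fin 2) (ZMod q) := !![0, -1; 1, 0]

/-- The matrices anticommuting with `J`. -/
private def symMat {q : ℕ} (a b : ZMod q) : Matrix (Fin 2) (Fin 2) (ZMod q) := !![a, b; b, -a]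

private theorem jMat_sq : jMat q * jMat q = -1 := by
  ext i j
  fin_cases i <;> fin_cases j <;> simp [jMat, Matrix.mul_apply, Fin.sum_univ_two]

private theorem symMat_anti (a b : ZMod q) : symMat a b * jMat q = -(jMat q * symMat a b) := by
  ext i j
  fin_cases i <;> fin_cases j <;> simp [jMat, symMat, Matrix.mul_apply, Fin.sum_univ_two]

private theorem eq_symMat_of_anti {g : Matrix (Fin 2) (Fin 2) (ZMod q)}
    (h : g * jMat q = -(jMat q * g)) : g = symMat (g 0 0) (g 0 1) := by
  have h00 := congrFun (congrFun h 0) 0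
  have h01 := congrFun (congrFun h 0) 1
  simp [jMat, Matrix.mul_apply, Fin.sum_univ_two, Matrix.neg_apply,
    Matrix.vecMul, Matrix.vecHead, Matrix.vecTail, dotProduct] at h00 h01
  ext i j
  fin_cases i <;> fin_cases j <;> simp [symMat]
  · exact h00.symm
  · linear_combination -h01

private theorem symMat_sq (a b : ZMod q) :
    symMat a b * symMat a b = (a ^ 2 + b ^ 2) • (1 : Matrix (Fin 2) (Fin 2) (ZMod q)) := by
  ext i j
  fin_cases i <;> fin_cases j <;> simp [symMat, Matrix.mul_apply, Fin.sum_univ_two] <;> ring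

private theorem eq_of_comm {g : Matrix (Fin 2) (Fin 2) (ZMod q)}
    (h : g * jMat q = jMat q * g) : g = g 0 0 • 1 + g 1 0 • jMat q := by
  have h00 := congrFun (congrFun h 0) 0
  have h01 := congrFun (congrFun h 0) 1
  simp [jMat, Matrix.mul_apply, Fin.sum_univ_two] at h00 h01
  ext i j
  fin_cases i <;> fin_cases j <;> simp [jMat]
  · exact h00
  · linear_combination -h01

variable [Fact q.Prime]

/-- Elements commuting with `J` have scalar `q + 1`-st power. -/
private theorem pow_succ_of_comm (h34 : q % 4 = 3) {g : Matrix (Fin 2) (Fin 2) (ZMod q)}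
    (h : g * jMat q = jMat q * g) :
    g ^ (q + 1) = (g 0 0 ^ 2 + g 1 0 ^ 2) • (1 : Matrix (Fin 2) (Fin 2) (ZMod q)) := by
  obtain ⟨m, hm⟩ : ∃ m, q = 2 * (2 * m + 1) + 1 := ⟨q / 4, by omega⟩
  have hJ : jMat q ^ q = -jMat q := by
    conv_lhs => arg 2; rw [hm]
    rw [pow_succ, pow_mul, pow_two, jMat_sq, Odd.neg_one_pow (odd_two_mul_add_one m), neg_one_mul]
  conv_lhs => rw [eq_of_comm h]
  rw [pow_succ, add_pow_char_of_commute q ((Commute.one_left (g 1 0 • jMat q)).smul_left (g 0 0)), smul_pow, smul_pow, one_pow, hJ,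
    ZMod.pow_card, ZMod.pow_card]
  generalize g 0 0 = a
  generalize g 1 0 = b
  ext i j
  fin_cases i <;> fin_cases j <;> simp [jMat, Matrix.mul_apply, Fin.sum_univ_two] <;> ring

private theorem mem_center_of_smul {g : GL (Fin 2) (ZMod q)} {c : ZMod q}
    (h : (g : Matrix (Fin 2) (Fin 2) (ZMod q)) = c • 1) :
    g ∈ Subgroup.center (GL (Fin 2) (ZMod q)) := by
  rw [Subgroup.mem_center_iff]
  intro z
  refine Units.ext ?_
  simp [h]

/-- The unit `J`. -/
private def jUnit (q : ℕ) [Fact q.Prime] : GL (Fin 2) (ZMod q) :=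
  ⟨jMat q, -jMat q, by rw [mul_neg, jMat_sq, neg_neg], by rw [neg_mul, jMat_sq, neg_neg]⟩

/-- The normaliser of the non-split torus. -/
private def torusNorm (q : ℕ) [Fact q.Prime] : Subgroup (GL (Fin 2) (ZMod q)) where
  carrier := {g | g * jUnit q = jUnit q * g ∨ g * jUnit q = -(jUnit q * g)}
  one_mem' := .inl (by simp)
  mul_mem' := by
    rintro a b (ha | ha) (hb | hb)
    · exact .inl (by rw [mul_assoc, hb, ← mul_assoc, ha, mul_assoc])
    · exact .inr (by rw [mul_assoc, hb, mul_neg, ← mul_assoc, ha, mul_assoc])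
    · exact .inr (by rw [mul_assoc, hb, ← mul_assoc, ha, neg_mul, mul_assoc])
    · exact .inl (by rw [mul_assoc, hb, mul_neg, ← mul_assoc, ha, neg_mul, neg_neg, mul_assoc])
  inv_mem' := by
    intro a ha
    rcases ha with ha | ha
    · exact .inl (Commute.inv_left ha).eq
    · refine .inr ?_
      rw [inv_mul_eq_iff_eq_mul, mul_neg, ← mul_assoc, ha, neg_mul, neg_neg, mul_inv_cancel_right]

private theorem exists_witness (h34 : q % 4 = 3) (y : GL (Fin 2) (ZMod q)) :
    ∃ M ∈ torusNorm q, y * M * y⁻¹ ∈ torusNorm q ∧ M ∉ Subgroup.center (GL (Fin 2) (ZMod q)) := by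
  let f : ZMod q → ZMod q → ZMod q := fun a b =>
    ((y : Matrix (Fin 2) (Fin 2) (ZMod q)) * symMat a b * ((y⁻¹ : GL (Fin 2) (ZMod q)) :
      Matrix (Fin 2) (Fin 2) (ZMod q))) 0 1 -
    ((y : Matrix (Fin 2) (Fin 2) (ZMod q)) * symMat a b * ((y⁻¹ : GL (Fin 2) (ZMod q)) :
      Matrix (Fin 2) (Fin 2) (ZMod q))) 1 0
  have hf : ∀ a b, f a b = a * f 1 0 + b * f 0 1 := by
    intro a b
    have e : symMat a b = a • symMat 1 0 + b • symMat 0 1 := by
      ext i j
      fin_cases i <;> fin_cases j <;> simp [symMat]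
    simp only [f, e, Matrix.mul_add, Matrix.add_mul, Matrix.mul_smul, Matrix.smul_mul,
      Matrix.add_apply, Matrix.smul_apply, smul_eq_mul]
    ring
  obtain ⟨a, b, hab, h0⟩ : ∃ a b, (a ≠ 0 ∨ b ≠ 0) ∧ f a b = 0 := by
    by_cases hb : f 0 1 = 0
    · exact ⟨0, 1, .inr one_ne_zero, hb⟩
    · exact ⟨f 0 1, -f 1 0, .inl hb, by rw [hf]; ring⟩
  have hns : a ^ 2 + b ^ 2 ≠ 0 := by
    intro h
    have key : ¬ IsSquare (-1 : ZMod q) := by
      rw [FiniteField.isSquare_neg_one_iff, ZMod.card]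
      simp [h34]
    rcases eq_or_ne b 0 with rfl | hb
    · simp at h hab
      exact hab h
    · exact key ⟨a / b, by field_simp; linear_combination -h⟩
  have hdet : (symMat a b).det ≠ 0 := by
    rw [symMat, Matrix.det_fin_two_of]
    intro h
    exact hns (by linear_combination -h)
  let M := Matrix.GeneralLinearGroup.mkOfDetNeZero _ hdet
  have hanti : M * jUnit q = -(jUnit q * M) := Units.ext (symMat_anti a b)
  refine ⟨M, .inr hanti, .inr (Units.ext ?_), fun hc => ?_⟩
  · have h00 : ((y * M * y⁻¹ : GL (Fin 2) (ZMod q)) : Matrix (Fin 2) (Fin 2) (ZMod q)).trace =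
        0 := by
      rw [Units.val_mul, Units.val_mul, Matrix.coe_units_inv, Matrix.trace_conj y.isUnit]
      simp [M, symMat, Matrix.trace_fin_two]
    set N := ((y * M * y⁻¹ : GL (Fin 2) (ZMod q)) : Matrix (Fin 2) (Fin 2) (ZMod q)) with hN
    have h01 : N 0 1 - N 1 0 = 0 := by
      rw [hN, Units.val_mul, Units.val_mul]
      exact h0
    rw [Matrix.trace_fin_two] at h00
    have e : N = symMat (N 0 0) (N 0 1) := by
      ext i j
      fin_cases i <;> fin_cases j <;> simp [symMat]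
      · linear_combination -h01
      · linear_combination h00
    change N * jMat q = -(jMat q * N)
    rw [e]
    exact symMat_anti _ _
  · have h : (symMat a b * jMat q) = -(symMat a b * jMat q) := by
      have := congrArg Units.val ((Subgroup.mem_center_iff.1 hc (jUnit q)).symm)
      change symMat a b * jMat q = jMat q * symMat a b at this
      nth_rw 1 [symMat_anti, ← this]
    have h10 := congrFun (congrFun h 1) 0
    have h11 := congrFun (congrFun h 1) 1
    simp [symMat, jMat, Matrix.mul_apply, Fin.sum_univ_two] at h10 h11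
    have h2 : (2 : ZMod q) ≠ 0 := by
      intro h2
      have h2' : ((2 : ℕ) : ZMod q) = 0 := by exact_mod_cast h2
      rw [ZMod.natCast_eq_zero_iff] at h2'
      have := Nat.le_of_dvd two_pos h2'
      omega
    have ha : a = 0 := mul_left_cancel₀ h2 (by rw [mul_zero]; linear_combination -h10)
    have hb : b = 0 := mul_left_cancel₀ h2 (by rw [mul_zero]; linear_combination -h11)
    exact hab.elim (fun h => h ha) (fun h => h hb)

/-- Let q = 2^k − 1 ≥ 7 be a prime and let G = PGL(2,q), the general linear group of degree 2 over the field with q elements modulo its centre. Then any two Sylow 2-subgroups of G have a non-trivial intersection: for a Sylow 2-subgroup H and every x ∈ G, H ∩ H^x ≠ 1. -/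
theorem result {q k : ℕ} [Fact q.Prime] (hk : q + 1 = 2 ^ k) (hq : 7 ≤ q)
    (H : Sylow 2 (GL (Fin 2) (ZMod q) ⧸ Subgroup.center (GL (Fin 2) (ZMod q))))
    (x : GL (Fin 2) (ZMod q) ⧸ Subgroup.center (GL (Fin 2) (ZMod q))) :
    (H : Subgroup (GL (Fin 2) (ZMod q) ⧸ Subgroup.center (GL (Fin 2) (ZMod q)))) ⊓ MulAut.conj x • (H : Subgroup _) ≠ ⊥ := by
  classical
  obtain ⟨j, rfl⟩ : ∃ j, k = j + 2 := by
    refine ⟨k - 2, ?_⟩
    rcases k with _ | _ | k <;> simp at hk ⊢ <;> omega
  have h34 : q % 4 = 3 := by rw [pow_add] at hk; omega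
  let π := QuotientGroup.mk' (Subgroup.center (GL (Fin 2) (ZMod q)))
  have hp : IsPGroup 2 ((torusNorm q).map π) := by
    rintro ⟨_, g, hg, rfl⟩
    refine ⟨j + 2, Subtype.ext ?_⟩
    rw [SubmonoidClass.coe_pow, OneMemClass.coe_one, ← map_pow, ← hk,
      QuotientGroup.mk'_apply, QuotientGroup.eq_one_iff]
    rcases hg with hg | hg
    · exact mem_center_of_smul (by
        rw [Units.val_pow_eq_pow_val]
        exact pow_succ_of_comm h34 (congrArg Units.val hg))
    · have e := eq_symMat_of_anti (congrArg Units.val hg)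
      obtain ⟨m, hm⟩ : 2 ∣ q + 1 := ⟨2 ^ (j + 1), by rw [hk, pow_succ']⟩
      rw [hm, pow_mul]
      refine Subgroup.pow_mem _ (mem_center_of_smul
        (c := (g : Matrix (Fin 2) (Fin 2) (ZMod q)) 0 0 ^ 2 +
          (g : Matrix (Fin 2) (Fin 2) (ZMod q)) 0 1 ^ 2) ?_) m
      rw [pow_two, Units.val_mul]
      conv_lhs => rw [e]
      exact symMat_sq _ _
  obtain ⟨P, hP⟩ := hp.exists_le_sylow
  obtain ⟨g, hgP⟩ := MulAction.exists_smul_eq
    (GL (Fin 2) (ZMod q) ⧸ Subgroup.center (GL (Fin 2) (ZMod q))) P H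
  rw [← hgP]
  obtain ⟨y₁, rfl⟩ := QuotientGroup.mk'_surjective _ g
  obtain ⟨z, rfl⟩ := QuotientGroup.mk'_surjective _ x
  obtain ⟨M, hM, hM', hMc⟩ := exists_witness h34 ((z * y₁)⁻¹ * y₁)
  rw [Sylow.coe_subgroup_smul, smul_smul, ← map_mul, ← map_mul]
  intro hbot
  have hmem : π (y₁ * M * y₁⁻¹) ∈ (⊥ : Subgroup (GL (Fin 2) (ZMod q) ⧸ _)) := by
    rw [← hbot]
    refine ⟨(Subgroup.mem_smul_pointwise_iff_exists _ _ _).2 ⟨π M, hP ⟨M, hM, rfl⟩, ?_⟩,
      (Subgroup.mem_smul_pointwise_iff_exists _ _ _).2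
        ⟨π ((z * y₁)⁻¹ * y₁ * M * ((z * y₁)⁻¹ * y₁)⁻¹), hP ⟨_, hM', rfl⟩, ?_⟩⟩
    · simp [π]
    · rw [MulAut.smul_def, MulAut.conj_apply, ← map_mul, ← map_inv, ← map_mul]
      congr 1
      group
  rw [Subgroup.mem_bot, QuotientGroup.mk'_apply, QuotientGroup.eq_one_iff] at hmem
  apply hMc
  simpa [mul_assoc] using Subgroup.Normal.conj_mem inferInstance _ hmem y₁⁻¹

end Cfsg.Agent.S2485
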