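import Cfsg.Statements.S2487
import Cfsg.Agent.Classical.Orth.InvolutionTwoCent

set_option autoImplicit false
open scoped Pointwise
open Cfsg

namespace Cfsg.Agent.S2487

open Matrix CfsgLib.OrthGeo CfsgLib.OrthTwoCent CfsgLib.Classical.Symp CfsgLib.Classical.SympCharTwo
open scoped Pointwise

variable {F : Type*} [Field F] [Fintype F] [CharP F 2] {m : ℕ}

local notation "q₀" => Cfsg.quadFormPlus m F
local notation "B" => Cfsg.sympForm m F
local notation "V" => Fin m ⊕ Fin m → F
local notation "Mat" => Matrix (Fin m ⊕ Fin m) (Fin m ⊕ Fin m) F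

theorem two_cases (hF : Fintype.card F = 2) (x : F) : x = 0 ∨ x = 1 := by
  classical
  by_contra h
  push Not at h
  have : ({x, 0, 1} : Finset F).card ≤ Fintype.card F := Finset.card_le_univ _
  rw [Finset.card_insert_of_notMem (by simp [h.1, h.2]), Finset.card_pair zero_ne_one] at this
  omega

/-- The vectors supported on the first coordinates other than the initial one. -/
def flagSpace (i₀ : Fin m) : Submodule F V where
  carrier := {v | v (.inl i₀) = 0 ∧ ∀ i, v (.inr i) = 0}
  add_mem' {u v} hu hv := ⟨by simp [hu.1, hv.1], fun i => by simp [hu.2, hv.2]⟩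
  zero_mem' := ⟨rfl, fun _ => rfl⟩
  smul_mem' c v hv := ⟨by simp [hv.1], fun i => by simp [hv.2]⟩

/-- The orthogonal space of `flagSpace`. -/
def flagPerp (i₀ : Fin m) : Submodule F V where
  carrier := {v | ∀ i, i ≠ i₀ → v (.inr i) = 0}
  add_mem' {u v} hu hv := fun i hi => by simp [hu i hi, hv i hi]
  zero_mem' := fun _ _ => rfl
  smul_mem' c v hv := fun i hi => by simp [hv i hi]

theorem form_flag {i₀ : Fin m} {u w : V} (hu : u ∈ flagPerp i₀) (hw : w ∈ flagSpace i₀) : B u w = 0 := by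
  rw [form_apply]
  refine Finset.sum_eq_zero fun i _ => ?_
  rw [hw.2 i, mul_zero, sub_zero]
  by_cases h : i = i₀
  · rw [h, hw.1, mul_zero]
  · rw [hu i h, zero_mul]

theorem mem_flagPerp_of_form {i₀ : Fin m} {u : V} (h : ∀ w ∈ flagSpace i₀, B u w = 0) : u ∈ flagPerp i₀ := by
  intro i hi
  have := h (Pi.single (.inl i) 1) ⟨by simp [Ne.symm hi], fun j => by simp⟩
  rwa [form_apply, Finset.sum_eq_single i (fun j _ hj => by simp [hj]) (by simp), Pi.single_eq_same, mul_one,
    Pi.single_eq_of_ne (by simp), mul_zero, sub_zero] at this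

/-- The pointwise stabiliser of `flagSpace`. -/
def flagFixer (i₀ : Fin m) : Subgroup (Cfsg.isometryGroup F q₀) where
  carrier := {g | ∀ w ∈ flagSpace i₀, ((g : GL (Fin m ⊕ Fin m) F) : Mat) *ᵥ w = w}
  one_mem' w _ := by simp
  mul_mem' {g h} hg hh w hw := by
    rw [Subgroup.coe_mul, Units.val_mul, ← mulVec_mulVec, hh w hw, hg w hw]
  inv_mem' {g} hg w hw := by
    conv_lhs => rw [← hg w hw]
    rw [mulVec_mulVec, ← Units.val_mul, ← Subgroup.coe_mul, inv_mul_cancel]
    simp

theorem pow_eight_eq_one (hF : Fintype.card F = 2) {i₀ : Fin m} {g : Cfsg.isometryGroup F q₀}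
    (hg : g ∈ flagFixer i₀) : g ^ 8 = 1 := by
  classical
  obtain ⟨A, hA⟩ : ∃ A : V →ₗ[F] V, ∀ v, A v = ((g : GL (Fin m ⊕ Fin m) F) : Mat) *ᵥ v :=
    ⟨_, fun v => Matrix.mulVecLin_apply _ v⟩
  have hform : ∀ u v, B (A u) (A v) = B u v := fun u v => by
    rw [hA, hA]; exact form_mulVec (toSymp g) u v
  have hq : ∀ v, q₀ (A v) = q₀ v := fun v => by rw [hA]; exact mem_isometryGroup.1 g.2 v
  have hfix : ∀ w ∈ flagSpace i₀, A w = w := fun w hw => by rw [hA]; exact hg w hw
  have hperp : ∀ v ∈ flagPerp i₀, A v ∈ flagPerp i₀ := fun v hv => mem_flagPerp_of_form fun w hw => by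
    rw [← hfix w hw, hform]; exact form_flag hv hw
  let π : V → F × F := fun v => (v (.inl i₀), v (.inr i₀))
  have hπq : ∀ v ∈ flagPerp i₀, q₀ v = v (.inl i₀) * v (.inr i₀) := fun v hv =>
    Finset.sum_eq_single i₀ (fun i _ hi => by rw [hv i hi, mul_zero]) (by simp)
  obtain ⟨e, he⟩ : ∃ e : V, e = Pi.single (.inl i₀) 1 := ⟨_, rfl⟩
  obtain ⟨f, hf⟩ : ∃ f : V, f = Pi.single (.inr i₀) 1 := ⟨_, rfl⟩
  have heP : e ∈ flagPerp i₀ := fun i _ => by simp [he]
  have hfP : f ∈ flagPerp i₀ := fun i hi => by simp [hf, hi]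
  have hdec : ∀ v ∈ flagPerp (F := F) i₀, v - v (.inl i₀) • e - v (.inr i₀) • f ∈ flagSpace i₀ := by
    intro v hv
    refine ⟨by simp [he, hf], fun i => ?_⟩
    by_cases h : i = i₀
    · subst h; simp [he, hf]
    · simp [he, hf, h, hv i h]
  have hcoord : ∀ v ∈ flagPerp i₀, ∀ k, k = Sum.inl i₀ ∨ k = Sum.inr i₀ →
      A v k = v (.inl i₀) * A e k + v (.inr i₀) * A f k := by
    intro v hv k hk
    have h1 := hfix _ (hdec v hv)
    rw [map_sub, map_sub, map_smul, map_smul] at h1
    have h2 := congrFun h1 k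
    have h3 : (v - v (.inl i₀) • e - v (.inr i₀) • f) k = 0 := by
      rcases hk with rfl | rfl
      · exact (hdec v hv).1
      · exact (hdec v hv).2 i₀
    rw [h3] at h2
    simp only [Pi.sub_apply, Pi.smul_apply, smul_eq_mul] at h2
    linear_combination h2
  obtain ⟨a, ha⟩ : ∃ a, A e (.inl i₀) = a := ⟨_, rfl⟩
  obtain ⟨b, hb⟩ : ∃ b, A e (.inr i₀) = b := ⟨_, rfl⟩
  obtain ⟨c, hc⟩ : ∃ c, A f (.inl i₀) = c := ⟨_, rfl⟩
  obtain ⟨d, hd⟩ : ∃ d, A f (.inr i₀) = d := ⟨_, rfl⟩
  have e1 : a * b = 0 := by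
    rw [← ha, ← hb, ← hπq _ (hperp e heP), hq, hπq e heP]; simp [he]
  have e2 : c * d = 0 := by
    rw [← hc, ← hd, ← hπq _ (hperp f hfP), hq, hπq f hfP]; simp [hf]
  have e3 : a * d + b * c = 1 := by
    have h := hπq _ (hperp (e + f) ((flagPerp i₀).add_mem heP hfP))
    rw [hq, hπq _ ((flagPerp i₀).add_mem heP hfP), map_add] at h
    rw [show (e + f) (.inl i₀) = 1 by simp [he, hf], show (e + f) (.inr i₀) = 1 by simp [he, hf],
      Pi.add_apply, Pi.add_apply, ha, hb, hc, hd] at h
    linear_combination -h - e1 - e2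
  have hsq : ∀ v ∈ flagPerp i₀, ∀ k, k = Sum.inl i₀ ∨ k = Sum.inr i₀ → A (A v) k = v k := by
    intro v hv k hk
    rw [hcoord _ (hperp v hv) k hk, hcoord v hv _ (Or.inl rfl), hcoord v hv _ (Or.inr rfl)]
    rcases two_cases hF a with rfl | rfl <;> rcases two_cases hF b with rfl | rfl <;>
      rcases two_cases hF c with rfl | rfl <;> rcases two_cases hF d with rfl | rfl <;>
      first
        | (exfalso; simp [CharTwo.add_self_eq_zero] at e1 e2 e3; done)
        | (rcases hk with rfl | rfl <;> simp [ha, hb, hc, hd])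
  obtain ⟨N, hN⟩ : ∃ N : V →ₗ[F] V, ∀ v, N v = A (A v) + v := ⟨A ∘ₗ A + LinearMap.id, fun v => rfl⟩
  have hN1 : ∀ v, N v ∈ flagPerp i₀ := fun v => mem_flagPerp_of_form fun w hw => by
    rw [hN, form_add_left]
    have h := hform (A v) (A w)
    rw [hfix w hw, hfix w hw] at h
    have h' := hform v w
    rw [hfix w hw] at h'
    rw [h, h', CharTwo.add_self_eq_zero]
  have hN2 : ∀ v ∈ flagPerp i₀, N v ∈ flagSpace i₀ := by
    intro v hv
    have hp : N v ∈ flagPerp i₀ := hN1 v
    refine ⟨by rw [hN, Pi.add_apply, hsq v hv _ (Or.inl rfl), CharTwo.add_self_eq_zero], fun i => ?_⟩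
    by_cases h : i = i₀
    · subst h; rw [hN, Pi.add_apply, hsq v hv _ (Or.inr rfl), CharTwo.add_self_eq_zero]
    · exact hp i h
  have hN3 : ∀ v ∈ flagSpace i₀, N v = 0 := fun v hv => by rw [hN, hfix v hv, hfix v hv, add_self_vec]
  have hN4 : ∀ v, N (N (N (N v))) = 0 := fun v => by rw [hN3 _ (hN2 _ (hN1 v)), map_zero]
  have hA4 : ∀ v, A (A (A (A v))) = v + N (N v) := fun v => by
    rw [hN, hN, map_add, map_add]
    funext k
    simp only [Pi.add_apply]
    linear_combination (-(A (A v) k) - v k) * (CharTwo.two_eq_zero : (2 : F) = 0)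
  have hA8 : ∀ v, A (A (A (A (A (A (A (A v))))))) = v := fun v => by
    rw [hA4, hA4, map_add, map_add, hN4, add_zero]
    rw [add_assoc, add_self_vec, add_zero]
  refine Subtype.ext (Units.ext (Matrix.ext_of_mulVec_single fun i => ?_))
  have h := hA8 (Pi.single i 1)
  simp only [hA] at h
  rw [SubgroupClass.coe_pow, Units.val_pow_eq_pow_val, OneMemClass.coe_one, Units.val_one, one_mulVec]
  simp only [pow_succ, pow_zero, one_mul, ← mulVec_mulVec]
  exact h

theorem exists_common (hF : Fintype.card F = 2) (hm : 2 ≤ m) (i₀ : Fin m) (g : Cfsg.isometryGroup F q₀) :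
    ∃ e ∈ flagFixer i₀, e ≠ 1 ∧ g⁻¹ * e * g ∈ flagFixer i₀ := by
  classical
  have hQ := isNondegenerateQuadraticForm_quadFormPlus (F := F) m
  let U : Submodule F V := flagPerp i₀ ⊓ (flagPerp i₀).map (toSymp g : Mat).mulVecLin
  have hinj : Function.Injective (toSymp g : Mat).mulVecLin := CfsgLib.Classical.Symp.mulVec_injective (toSymp g)
  have hdim : Module.finrank F (flagPerp (F := F) i₀) = m + 1 := by
    let e : flagPerp (F := F) i₀ ≃ₗ[F] ((Fin m → F) × F) :=
      { toFun := fun v => (fun i => v.1 (.inl i), v.1 (.inr i₀))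
        map_add' := fun u v => rfl
        map_smul' := fun c v => rfl
        invFun := fun p => ⟨Sum.elim p.1 (Pi.single i₀ p.2), fun i hi => by simp [hi]⟩
        left_inv := fun v => Subtype.ext (funext fun k => by
          rcases k with i | i
          · rfl
          · by_cases h : i = i₀
            · subst h; simp
            · simp [h, v.2 i h])
        right_inv := fun p => by simp }
    rw [e.finrank_eq, Module.finrank_prod, Module.finrank_fintype_fun_eq_card, Fintype.card_fin, Module.finrank_self]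
  have hU : 2 ≤ Module.finrank F U := by
    have h := Submodule.finrank_sup_add_finrank_inf_eq (flagPerp i₀) ((flagPerp i₀).map (toSymp g : Mat).mulVecLin)
    rw [← (Submodule.equivMapOfInjective _ hinj _).finrank_eq, hdim] at h
    have h2 := Submodule.finrank_le (flagPerp i₀ ⊔ (flagPerp i₀).map (toSymp g : Mat).mulVecLin)
    rw [Module.finrank_fintype_fun_eq_card, Fintype.card_sum, Fintype.card_fin] at h2
    show 2 ≤ Module.finrank F ↥(flagPerp i₀ ⊓ (flagPerp i₀).map (toSymp g : Mat).mulVecLin)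
    omega
  have hgood : ∀ u ∈ U, ∀ w ∈ flagSpace i₀, B u w = 0 ∧ B u ((toSymp g : Mat) *ᵥ w) = 0 := by
    rintro u ⟨hu1, u', hu', rfl⟩ w hw
    exact ⟨form_flag hu1 hw, by rw [Matrix.mulVecLin_apply, form_mulVec]; exact form_flag hu' hw⟩
  suffices h : ∃ e : Cfsg.isometryGroup F q₀, e ≠ 1 ∧ ∀ v, (∀ u ∈ U, B u v = 0) →
      ((e : GL (Fin m ⊕ Fin m) F) : Mat) *ᵥ v = v by
    obtain ⟨e, he, hfix⟩ := h
    refine ⟨e, fun w hw => hfix w fun u hu => (hgood u hu w hw).1, he, fun w hw => ?_⟩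
    have h1 := hfix ((toSymp g : Mat) *ᵥ w) fun u hu => (hgood u hu w hw).2
    rw [Subgroup.coe_mul, Subgroup.coe_mul, Units.val_mul, Units.val_mul, ← mulVec_mulVec, ← mulVec_mulVec]
    show _ *ᵥ (_ *ᵥ ((toSymp g : Mat) *ᵥ w)) = w
    rw [h1]
    show _ *ᵥ (((g : GL (Fin m ⊕ Fin m) F) : Mat) *ᵥ w) = w
    rw [mulVec_mulVec, ← Units.val_mul, ← Subgroup.coe_mul, inv_mul_cancel]
    simp
  by_cases hns : ∃ a ∈ U, q₀ a ≠ 0
  · obtain ⟨a, haU, ha⟩ := hns
    refine ⟨⟨reflection hQ ha, reflection_mem hQ ha⟩, fun h => ?_, fun v hv => ?_⟩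
    · obtain ⟨y, hy⟩ := exists_form_eq_one (u := a) (fun h0 => ha (by simp [h0, quadFormPlus]))
      have h1 := congrArg (fun x : Cfsg.isometryGroup F q₀ => ((x : GL (Fin m ⊕ Fin m) F) : Mat) *ᵥ y) h
      simp only [reflection_mulVec hQ, OneMemClass.coe_one, Units.val_one, one_mulVec, sub_eq_self,
        smul_eq_zero] at h1
      have hb : bform hQ a y = 1 := by
        rw [bform_apply, QuadraticMap.polar, CfsgLib.OrthTwoCent.q_add, hy]; ring
      rw [hb, mul_one, inv_eq_zero] at h1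
      rcases h1 with h1 | h1
      · exact ha h1
      · exact ha (by simp [h1, quadFormPlus])
    · show ((reflection hQ ha : GL (Fin m ⊕ Fin m) F) : Mat) *ᵥ v = v
      have hb : bform hQ a v = 0 := by
        rw [bform_apply, QuadraticMap.polar, CfsgLib.OrthTwoCent.q_add, hv a haU]; ring
      rw [reflection_mulVec hQ, hb, mul_zero, zero_smul, sub_zero]
  · push Not at hns
    have hBU : ∀ u ∈ U, ∀ w ∈ U, B u w = 0 := fun u hu w hw => by
      have h := CfsgLib.OrthTwoCent.q_add (F := F) (m := m) u w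
      rw [hns _ (U.add_mem hu hw), hns u hu, hns w hw] at h
      simpa using h.symm
    obtain ⟨u, hu, hu0⟩ := Submodule.exists_mem_ne_zero_of_ne_bot (p := U) fun h => by
      rw [h, finrank_bot] at hU; omega
    obtain ⟨w, hw, hwu⟩ : ∃ w ∈ U, w ∉ Submodule.span F {u} := by
      by_contra h; push Not at h
      have := Submodule.finrank_mono (show U ≤ Submodule.span F {u} from h)
      rw [finrank_span_singleton hu0] at this; omega
    let T : V →ₗ[F] V :=
      { toFun := fun v => v + (B v w • u + B v u • w)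
        map_add' := fun x y => by simp only [form_add_left]; module
        map_smul' := fun c x => by simp only [form_smul_left, RingHom.id_apply]; module }
    have hTT : ∀ v, T (T v) = v := fun v => by
      show (v + (B v w • u + B v u • w)) + (B (v + (B v w • u + B v u • w)) w • u +
        B (v + (B v w • u + B v u • w)) u • w) = v
      simp only [form_add_left, form_smul_left, form_self, hBU u hu w hw, hBU w hw u hu, mul_zero, add_zero]
      rw [add_assoc, add_self_vec, add_zero]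
    have hM : LinearMap.toMatrix' T * LinearMap.toMatrix' T = 1 := by
      rw [← LinearMap.toMatrix'_comp, show T ∘ₗ T = LinearMap.id from LinearMap.ext hTT, LinearMap.toMatrix'_id]
    refine ⟨⟨⟨LinearMap.toMatrix' T, LinearMap.toMatrix' T, hM, hM⟩, mem_isometryGroup.2 fun v => ?_⟩,
      fun h => ?_, fun v hv => ?_⟩
    · show q₀ (LinearMap.toMatrix' T *ᵥ v) = q₀ v
      rw [LinearMap.toMatrix'_mulVec]
      show q₀ (v + (B v w • u + B v u • w)) = q₀ v
      rw [CfsgLib.OrthTwoCent.q_add, CfsgLib.OrthTwoCent.q_add, CfsgLib.OrthTwoCent.q_smul, CfsgLib.OrthTwoCent.q_smul, hns u hu, hns w hw, form_smul_left, form_smul_right, hBU u hu w hw,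
        form_add_right, form_smul_right, form_smul_right, form_comm v w, form_comm v u]
      simp only [mul_zero, zero_mul, zero_add, add_zero, mul_comm (B u v), CharTwo.add_self_eq_zero]
    · obtain ⟨y, hy⟩ := exists_form_eq_one hu0
      have h1 : LinearMap.toMatrix' T *ᵥ y = y := by
        have := congrArg (fun x : Cfsg.isometryGroup F q₀ => ((x : GL (Fin m ⊕ Fin m) F) : Mat) *ᵥ y) h
        simpa using this
      rw [LinearMap.toMatrix'_mulVec] at h1
      have h2 : B y w • u + B y u • w = 0 := left_eq_add.1 h1.symm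
      rw [form_comm y u, hy, one_smul] at h2
      refine hwu (Submodule.mem_span_singleton.2 ⟨B y w, ?_⟩)
      funext k
      exact CharTwo.add_eq_zero.1 (congrFun h2 k)
    · show LinearMap.toMatrix' T *ᵥ v = v
      rw [LinearMap.toMatrix'_mulVec]
      show v + (B v w • u + B v u • w) = v
      rw [form_comm v w, hv w hw, form_comm v u, hv u hu, zero_smul, zero_smul, add_zero, add_zero]

/-- Let m ≥ 4 and let G be the full isometry group of the hyperbolic quadratic form x₁y₁ + ⋯ + x_m y_m on the 2m-dimensional space over the field with 2 elements (the orthogonal group O⁺(2m,2), which contains Ω⁺(2m,2) with index 2). Then any two Sylow 2-subgroups of G have a non-trivial intersection: for a Sylow 2-subgroup H and every x ∈ G, H ∩ H^x ≠ 1. -/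
theorem result {F : Type*} [Field F] [Fintype F] (hF : Fintype.card F = 2) {m : ℕ} (hm : 4 ≤ m)
    (H : Sylow 2 (Cfsg.isometryGroup F (Cfsg.quadFormPlus m F)))
    (x : Cfsg.isometryGroup F (Cfsg.quadFormPlus m F)) :
    (H : Subgroup (Cfsg.isometryGroup F (Cfsg.quadFormPlus m F))) ⊓ MulAut.conj x • (H : Subgroup _) ≠ ⊥ := by
  classical
  haveI : CharP F 2 := charP_of_card_eq_prime hF
  haveI : Fact (Nat.Prime 2) := ⟨Nat.prime_two⟩
  let i₀ : Fin m := ⟨0, by omega⟩
  have hK : IsPGroup 2 (flagFixer (F := F) i₀) := fun g =>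
    ⟨3, Subtype.ext (pow_eight_eq_one hF g.2)⟩
  obtain ⟨S, hS⟩ := hK.exists_le_sylow
  obtain ⟨a, rfl⟩ := MulAction.exists_smul_eq (Cfsg.isometryGroup F (Cfsg.quadFormPlus m F)) S H
  obtain ⟨e, he, he1, heg⟩ := exists_common hF (by omega) i₀ (a⁻¹ * x * a)
  intro hbot
  apply he1
  have hmem : a * e * a⁻¹ ∈ ((a • S : Sylow 2 _) : Subgroup _) ⊓
      MulAut.conj x • ((a • S : Sylow 2 _) : Subgroup _) := by
    refine ⟨?_, ?_⟩
    · rw [Sylow.smul_def, Sylow.pointwise_smul_def]
      exact ⟨e, hS he, rfl⟩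
    · rw [Sylow.smul_def, Sylow.pointwise_smul_def]
      refine ⟨a * ((a⁻¹ * x * a)⁻¹ * e * (a⁻¹ * x * a)) * a⁻¹, ⟨_, hS heg, rfl⟩, ?_⟩
      show x * (a * ((a⁻¹ * x * a)⁻¹ * e * (a⁻¹ * x * a)) * a⁻¹) * x⁻¹ = a * e * a⁻¹
      group
  rw [hbot, Subgroup.mem_bot, mul_inv_eq_one] at hmem
  exact mul_eq_left.1 hmem

end Cfsg.Agent.S2487
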