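import Mathlib

set_option autoImplicit false

open scoped Pointwise

namespace Cfsg.Agent.S2488

theorem orders_six : ∀ x : Equiv.Perm (Fin 6), Equiv.Perm.sign x = 1 →
    x ^ 4 = 1 ∨ x ^ 3 = 1 ∨ x ^ 5 = 1 := by
  decide +kernel

theorem count_three : (Finset.univ.filter fun x : Equiv.Perm (Fin 6) => x ^ 3 = 1).card = 81 := by
  decide +kernel

theorem count_five : (Finset.univ.filter fun x : Equiv.Perm (Fin 6) => x ^ 5 = 1).card = 145 := by
  decide +kernel

/-- The centralizer bounds in the symmetric group. -/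
theorem centralizer_six (c : Equiv.Perm (Fin 6)) (hs : Equiv.Perm.sign c = 1) {p : ℕ} [Fact p.Prime]
    (ho : orderOf c = p) :
    Nat.card (Subgroup.centralizer ({c} : Set (Equiv.Perm (Fin 6)))) ∣
      if p = 2 then 16 else if p = 3 then 18 else 5 := by
  obtain ⟨n, hn⟩ := Equiv.Perm.cycleType_prime_order (σ := c) (ho ▸ Fact.out)
  rw [ho] at hn
  have hsum := c.sum_cycleType
  rw [hn, Multiset.sum_replicate, smul_eq_mul] at hsum
  have hle := Finset.card_le_univ c.support
  rw [Fintype.card_fin, ← hsum] at hle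
  have hp2 := (Fact.out : p.Prime).two_le
  rw [Equiv.Perm.nat_card_centralizer, hn]
  rw [Equiv.Perm.sign_of_cycleType, hn, Multiset.sum_replicate, Multiset.card_replicate,
    smul_eq_mul] at hs
  have hn6 : n ≤ 2 := by nlinarith
  have hp6 : p ≤ 6 := by nlinarith
  have hp := (Fact.out : p.Prime)
  rcases (show p = 2 ∨ p = 3 ∨ p = 4 ∨ p = 5 ∨ p = 6 by omega) with rfl | rfl | rfl | rfl | rfl
  all_goals first
    | (revert hp; norm_num; done)
    | (rcases (show n = 0 ∨ n = 1 ∨ n = 2 by omega) with rfl | rfl | rfl <;>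
        revert hs hle <;> decide)

theorem result {G : Type*} [Group G] [Finite G] (N : Subgroup G) [N.Normal]
    (e : N ≃* alternatingGroup (Fin 6)) (hidx : N.index = 4)
    (hC : Subgroup.centralizer (N : Set G) = ⊥)
    (H : Sylow 2 G) (x : G) :
    (H : Subgroup G) ⊓ MulAut.conj x • (H : Subgroup G) ≠ ⊥ := by
  haveI : Fact (Nat.Prime 2) := ⟨Nat.prime_two⟩
  have hNcard : Nat.card N = 360 := by
    rw [Nat.card_congr e.toEquiv, nat_card_alternatingGroup, Nat.card_eq_fintype_card,
      Fintype.card_fin]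
    rfl
  have hGcard : Nat.card G = 1440 := by
    rw [← N.card_mul_index, hNcard, hidx]
  have hHcard : Nat.card (H : Subgroup G) = 32 := by
    rw [H.card_eq_multiplicity, hGcard, show (1440 : ℕ).factorization 2 = 5 from ?_]
    · rfl
    · rw [show (1440 : ℕ) = 2 ^ 5 * 45 from rfl, Nat.factorization_mul_of_coprime (by norm_num),
        Finsupp.add_apply, Nat.Prime.factorization_pow Nat.prime_two, Finsupp.single_eq_same,
        Nat.factorization_eq_zero_of_not_dvd (by norm_num : ¬ (2 : ℕ) ∣ 45)]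
  let f : N →* Equiv.Perm (Fin 6) := (alternatingGroup (Fin 6)).subtype.comp e.toMonoidHom
  have hf : Function.Injective f := Subtype.coe_injective.comp e.injective
  have hfs : ∀ c : N, Equiv.Perm.sign (f c) = 1 := fun c => (e c).2
  -- centralizers inside `N`
  have hcN : ∀ c : N, ∀ p : ℕ, [Fact p.Prime] → orderOf (c : G) = p →
      Nat.card (Subgroup.centralizer ({c} : Set N)) ∣
        if p = 2 then 16 else if p = 3 then 18 else 5 := by
    intro c p _ ho
    refine dvd_trans ?_ (centralizer_six (f c) (hfs c)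
      (by rw [orderOf_injective f hf, ← Subgroup.orderOf_coe, ho]))
    rw [← Subgroup.card_map_of_injective hf]
    refine Subgroup.card_dvd_of_le ?_
    rintro _ ⟨y, hy, rfl⟩
    rw [Subgroup.mem_centralizer_singleton_iff, ← map_mul, ← map_mul]
    exact congrArg f (Subgroup.mem_centralizer_singleton_iff.mp hy)
  have hcNG : ∀ c : N, Nat.card (Subgroup.centralizer ({c} : Set N)) =
      Nat.card ↥(N ⊓ Subgroup.centralizer ({(c : G)} : Set G)) := fun c =>
    Nat.card_congr
      { toFun := fun y => ⟨y.1.1, y.1.2, Subgroup.mem_centralizer_singleton_iff.mpr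
          (congrArg Subtype.val (Subgroup.mem_centralizer_singleton_iff.mp y.2))⟩
        invFun := fun y => ⟨⟨y.1, y.2.1⟩, Subgroup.mem_centralizer_singleton_iff.mpr
          (Subtype.ext (Subgroup.mem_centralizer_singleton_iff.mp y.2.2))⟩
        left_inv := fun y => rfl
        right_inv := fun y => rfl }
  -- a central involution of `H` inside `N`
  obtain ⟨z, hzN, hzo, hzH⟩ : ∃ z : G, z ∈ N ∧ orderOf z = 2 ∧
      (H : Subgroup G) = Subgroup.centralizer ({z} : Set G) := by
    let M := N.subgroupOf (H : Subgroup G)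
    have hM : M ≠ ⊥ := fun h => by
      have h1 : M.index ∣ 4 := hidx ▸ Subgroup.relIndex_dvd_index_of_normal N _
      have h2 := M.card_mul_index
      rw [h, Subgroup.card_bot, one_mul, hHcard] at h2
      rw [h, h2] at h1
      norm_num at h1
    obtain ⟨m, hm, hm1⟩ : ∃ m : (H : Subgroup G), m ∈ M ⊓ Subgroup.center _ ∧ orderOf m = 2 := by
      haveI : Nontrivial M := (Subgroup.nontrivial_iff_ne_bot M).mpr hM
      haveI : Nontrivial (M ⊓ Subgroup.center (H : Subgroup G) : Subgroup _) :=
        (Subgroup.nontrivial_iff_ne_bot _).mpr fun h => by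
          obtain ⟨⟨k, hk⟩, hk1⟩ := exists_ne (1 : M)
          have hfix := (H.isPGroup').of_equiv
            (ConjAct.toConjAct : (H : Subgroup G) ≃* ConjAct (H : Subgroup G))
          obtain ⟨kk, hkk, hne⟩ := hfix.exists_fixed_point_of_prime_dvd_card_of_fixed_point (α := M)
            (by
              obtain ⟨i, hi⟩ := IsPGroup.iff_card.mp (H.isPGroup'.to_subgroup M)
              rw [hi]
              refine dvd_pow_self 2 fun h0 => ?_
              rw [h0, pow_zero, Subgroup.card_eq_one] at hi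
              exact hM hi)
            (a := (1 : M)) (fun g => smul_one g)
          refine hne (Subtype.ext ?_).symm
          have : (kk : (H : Subgroup G)) ∈ M ⊓ Subgroup.center _ := ⟨kk.2,
            Subgroup.mem_center_iff.mpr fun g => by
              have h1 := congrArg Subtype.val (hkk (ConjAct.toConjAct g))
              rw [ConjAct.Subgroup.val_conj_smul, ConjAct.toConjAct_smul] at h1
              rwa [mul_inv_eq_iff_eq_mul] at h1⟩
          rw [h, Subgroup.mem_bot] at this
          exact this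
      obtain ⟨⟨m, hm⟩, hmo⟩ := exists_prime_orderOf_dvd_card' (G := ↥(M ⊓ Subgroup.center _)) 2 (by
        obtain ⟨i, hi⟩ := IsPGroup.iff_card.mp (H.isPGroup'.to_subgroup (M ⊓ Subgroup.center _))
        rw [hi]
        refine dvd_pow_self 2 fun h0 => ?_
        rw [h0, pow_zero] at hi
        exact absurd hi Finite.one_lt_card.ne')
      refine ⟨m, hm, ?_⟩
      rw [← Subgroup.orderOf_coe] at hmo
      exact hmo
    have hmo : orderOf (m : G) = 2 := by rw [Subgroup.orderOf_coe, hm1]
    refine ⟨m, hm.1, hmo, ?_⟩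
    have hle : (H : Subgroup G) ≤ Subgroup.centralizer ({(m : G)} : Set G) := fun h hh =>
      Subgroup.mem_centralizer_singleton_iff.mpr
        (congrArg Subtype.val (Subgroup.mem_center_iff.mp hm.2 ⟨h, hh⟩))
    refine Subgroup.eq_of_le_of_card_ge hle ?_
    set C := Subgroup.centralizer ({(m : G)} : Set G)
    have h1 : (N.subgroupOf C).index ∣ 4 := hidx ▸ Subgroup.relIndex_dvd_index_of_normal N _
    have h2 := (N.subgroupOf C).card_mul_index
    have h3 : Nat.card (N.subgroupOf C) = Nat.card ↥(N ⊓ C) := by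
      rw [← Subgroup.inf_subgroupOf_right]
      exact Nat.card_congr (Subgroup.subgroupOfEquivOfLe inf_le_right).toEquiv
    have h4 := hcN ⟨(m : G), hm.1⟩ 2 hmo
    rw [if_pos rfl, hcNG] at h4
    have h5 : Nat.card ↥(N ⊓ C) ∣ 360 := hNcard ▸ Subgroup.card_dvd_of_le inf_le_left
    have h6 : Nat.card ↥(N ⊓ C) ∣ 8 := (show Nat.gcd 16 360 = 8 from rfl) ▸ Nat.dvd_gcd h4 h5
    rw [hHcard, ← h2, h3]
    exact Nat.le_of_dvd (by norm_num) (show _ ∣ 8 * 4 from Nat.mul_dvd_mul h6 h1)
  have hz2 : z * z = 1 := by rw [← sq, ← hzo, pow_orderOf_eq_one]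
  set s := x * z * x⁻¹ with hs_def
  have hsN : s ∈ N := Subgroup.Normal.conj_mem inferInstance z hzN x
  have hs2 : s * s = 1 := by
    rw [hs_def, show x * z * x⁻¹ * (x * z * x⁻¹) = x * (z * z) * x⁻¹ by group, hz2]
    group
  have hzi : z⁻¹ = z := inv_eq_of_mul_eq_one_right hz2
  have hsi : s⁻¹ = s := inv_eq_of_mul_eq_one_right hs2
  suffices h : ∃ w : G, w ≠ 1 ∧ Commute w z ∧ Commute w s by
    obtain ⟨w, hw1, hwz, hws⟩ := h
    intro hbot
    refine hw1 (Subgroup.mem_bot.mp (hbot ▸ ⟨?_, ?_⟩))
    · rw [hzH]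
      exact Subgroup.mem_centralizer_singleton_iff.mpr hwz.eq
    · show w ∈ MulAut.conj x • (H : Subgroup G)
      rw [Subgroup.mem_pointwise_smul_iff_inv_smul_mem, hzH,
        ← map_inv, MulAut.smul_def, MulAut.conj_apply, Subgroup.mem_centralizer_singleton_iff]
      have h1 := hws.eq
      rw [hs_def] at h1
      calc x⁻¹ * w * x⁻¹⁻¹ * z = x⁻¹ * (w * (x * z * x⁻¹)) * x := by group
        _ = x⁻¹ * (x * z * x⁻¹ * w) * x := by rw [h1]
        _ = z * (x⁻¹ * w * x⁻¹⁻¹) := by group
  set c := z * s with hc_def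
  have hcNmem : c ∈ N := mul_mem hzN hsN
  have hci0 : c⁻¹ = s * z := by rw [hc_def, mul_inv_rev, hzi, hsi]
  have hinv_s : s * c * s⁻¹ = c⁻¹ := by
    rw [hci0, hc_def, hsi, mul_assoc, mul_assoc z, hs2, mul_one]
  have hinv_z : z * c * z⁻¹ = c⁻¹ := by
    rw [hci0, hc_def, hzi, ← mul_assoc, hz2, one_mul]
  by_cases hc1 : c = 1
  · have : s = z := by rw [← one_mul s, ← hz2, mul_assoc, ← hc_def, hc1, mul_one]
    exact ⟨z, fun h => by simp [h] at hzo, Commute.refl z, this ▸ Commute.refl z⟩
  have hcase : c ^ 4 = 1 ∨ c ^ 3 = 1 ∨ c ^ 5 = 1 := by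
    have key : ∀ n : ℕ, (f ⟨c, hcNmem⟩) ^ n = 1 → c ^ n = 1 := fun n h =>
      congrArg Subtype.val (hf ((map_pow f _ n).trans (h.trans (map_one f).symm)))
    rcases orders_six (f ⟨c, hcNmem⟩) (hfs _) with h | h | h
    · exact Or.inl (key 4 h)
    · exact Or.inr (Or.inl (key 3 h))
    · exact Or.inr (Or.inr (key 5 h))
  rcases hcase with h4 | hodd
  · obtain ⟨w, hw1, hw2, k, rfl⟩ : ∃ w : G, w ≠ 1 ∧ w⁻¹ = w ∧ ∃ k : ℕ, w = c ^ k := by
      by_cases h2 : c ^ 2 = 1
      · exact ⟨c, hc1, inv_eq_of_mul_eq_one_right (by rw [← sq, h2]), 1, (pow_one c).symm⟩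
      · exact ⟨c ^ 2, h2, inv_eq_of_mul_eq_one_right (by rw [← pow_add, h4]), 2, rfl⟩
    have aux : ∀ t : G, t * c * t⁻¹ = c⁻¹ → Commute (c ^ k) t := fun t ht => by
      have : t * c ^ k * t⁻¹ = c ^ k := by rw [← conj_pow, ht, inv_pow, hw2]
      exact (mul_inv_eq_iff_eq_mul.mp this).symm
    exact ⟨c ^ k, hw1, aux z hinv_z, aux s hinv_s⟩
  · set C := Subgroup.centralizer ({c} : Set G) with hC_def
    have heven : 2 ∣ Nat.card C := by
      by_contra hno
      have hle : C ≤ N := Subgroup.relIndex_eq_one.mp (by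
        have h1 : N.relIndex C ∣ 2 ^ 2 := by
          have := Subgroup.relIndex_dvd_index_of_normal N C
          rwa [hidx] at this
        have h2 : N.relIndex C ∣ Nat.card C := Subgroup.index_dvd_card _
        have h3 : (Nat.card C).Coprime (2 ^ 2) :=
          ((Nat.prime_two.coprime_iff_not_dvd).mpr hno).symm.pow_right 2
        exact Nat.eq_one_of_dvd_coprimes h3 h2 h1)
      obtain ⟨p, hp, hcp, hcount⟩ : ∃ p : ℕ, (p = 3 ∨ p = 5) ∧ c ^ p = 1 ∧
          (Finset.univ.filter fun x : Equiv.Perm (Fin 6) => x ^ p = 1).card ≤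
            if p = 3 then 81 else 145 := by
        rcases hodd with h | h
        · exact ⟨3, Or.inl rfl, h, by rw [count_three]; rfl⟩
        · exact ⟨5, Or.inr rfl, h, by rw [count_five]; rfl⟩
      haveI : Fact p.Prime := ⟨by rcases hp with rfl | rfl <;> norm_num⟩
      have ho : orderOf c = p := orderOf_eq_prime hcp hc1
      have h4 := hcN ⟨c, hcNmem⟩ p ho
      rw [hcNG] at h4
      rw [show N ⊓ C = C from inf_eq_right.mpr hle] at h4
      have horb : Nat.card {y : G // IsConj c y} * Nat.card C = 1440 := by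
        rw [← hGcard, ← C.card_mul_index, mul_comm (Nat.card C)]
        congr 1
        rw [hC_def, Subgroup.centralizer_eq_comap_stabilizer]
        refine Eq.trans ?_ (Subgroup.index_comap_of_surjective _ ?_).symm
        · rw [MulAction.index_stabilizer, ← Nat.card_coe_set_eq]
          refine Nat.card_congr (Equiv.subtypeEquivRight fun y => ?_)
          rw [ConjAct.orbit_eq_carrier_conjClasses, ConjClasses.mem_carrier_iff_mk_eq]
          exact ⟨fun h => (ConjClasses.mk_eq_mk_iff_isConj.mpr h).symm,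
            fun h => (ConjClasses.mk_eq_mk_iff_isConj.mp h).symm⟩
        · exact ConjAct.toConjAct.surjective
      have hinj : Nat.card {y : G // IsConj c y} ≤
          Nat.card {u : Equiv.Perm (Fin 6) // u ^ p = 1} := by
        have hy : ∀ y, IsConj c y → y ∈ N ∧ y ^ p = 1 := fun y hy => by
          obtain ⟨g, rfl⟩ := isConj_iff.mp hy
          exact ⟨Subgroup.Normal.conj_mem inferInstance c hcNmem g,
            by rw [conj_pow, hcp, mul_one, mul_inv_cancel]⟩
        refine Nat.card_le_card_of_injective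
          (fun y => ⟨f ⟨y.1, (hy y.1 y.2).1⟩, by
            rw [← map_pow, ← map_one f]; exact congrArg f (Subtype.ext (hy y.1 y.2).2)⟩) ?_
        intro a b hab
        have h1 : f ⟨a.1, (hy a.1 a.2).1⟩ = f ⟨b.1, (hy b.1 b.2).1⟩ :=
          congrArg (fun u : {u : Equiv.Perm (Fin 6) // u ^ p = 1} => (u : Equiv.Perm (Fin 6))) hab
        exact Subtype.ext (Subtype.mk_eq_mk.mp (hf h1))
      rw [Nat.card_eq_fintype_card (α := {u : Equiv.Perm (Fin 6) // u ^ p = 1}),
        Fintype.card_subtype] at hinj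
      have hbound := hinj.trans hcount
      rcases hp with rfl | rfl
      · simp only [reduceIte, show ¬((3 : ℕ) = 2) by norm_num, if_false] at h4 hbound
        have hC9 : Nat.card C ∣ 9 :=
          (((Nat.prime_two.coprime_iff_not_dvd).mpr hno).symm).dvd_of_dvd_mul_left
            (show Nat.card C ∣ 2 * 9 from h4)
        nlinarith [Nat.le_of_dvd (by norm_num) hC9]
      · simp only [reduceIte, show ¬((5 : ℕ) = 2) by norm_num, show ¬((5 : ℕ) = 3) by norm_num,
          if_false] at h4 hbound
        nlinarith [Nat.le_of_dvd (by norm_num) h4]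
    -- `s` fixes a nontrivial element of `C`
    have hmap : ∀ v : C, s * (v : G) * s⁻¹ ∈ C := fun v => by
      have hv := Subgroup.mem_centralizer_singleton_iff.mp v.2
      have hci : s * c⁻¹ * s⁻¹ = c := by rw [← conj_inv, hinv_s, inv_inv]
      refine Subgroup.mem_centralizer_singleton_iff.mpr ?_
      have hvi : Commute (v : G) c⁻¹ := (show Commute (v : G) c from hv).inv_right
      calc s * (v : G) * s⁻¹ * c = s * (v : G) * s⁻¹ * (s * c⁻¹ * s⁻¹) := by rw [hci]
        _ = s * ((v : G) * c⁻¹) * s⁻¹ := by group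
        _ = s * (c⁻¹ * (v : G)) * s⁻¹ := by rw [hvi.eq]
        _ = s * c⁻¹ * s⁻¹ * (s * (v : G) * s⁻¹) := by group
        _ = c * (s * (v : G) * s⁻¹) := by rw [hci]
    let τ : Function.End C := fun v => ⟨s * (v : G) * s⁻¹, hmap v⟩
    obtain ⟨w, hw, hw1⟩ : ∃ w : C, s * (w : G) * s⁻¹ = w ∧ w ≠ 1 := by
      haveI : Fintype C := Fintype.ofFinite _
      let σ : Equiv.Perm C :=
        { toFun := τ
          invFun := τ
          left_inv := fun v => Subtype.ext (by
            show s * (s * (v : G) * s⁻¹) * s⁻¹ = v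
            rw [hsi, show s * (s * (v : G) * s) * s = s * s * v * (s * s) by group, hs2, one_mul,
              mul_one])
          right_inv := fun v => Subtype.ext (by
            show s * (s * (v : G) * s⁻¹) * s⁻¹ = v
            rw [hsi, show s * (s * (v : G) * s) * s = s * s * v * (s * s) by group, hs2, one_mul,
              mul_one]) }
      classical
      have hσ : σ ^ 2 ^ 1 = 1 := by
        rw [pow_one]
        exact Equiv.ext fun v => σ.left_inv v
      have hcard : (2 : ℕ) ∣ Fintype.card C := by rwa [← Nat.card_eq_fintype_card]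
      obtain ⟨w, hw, hne⟩ := Equiv.Perm.exists_fixed_point_of_prime' (p := 2) hcard hσ
        (a := (1 : C)) (Subtype.ext (by show s * ((1 : C) : G) * s⁻¹ = _; simp))
      exact ⟨w, congrArg Subtype.val hw, hne⟩
    have hws : Commute (w : G) s := (mul_inv_eq_iff_eq_mul.mp hw).symm
    have hwc : Commute (w : G) c := Subgroup.mem_centralizer_singleton_iff.mp w.2
    refine ⟨w, fun h => hw1 (Subtype.ext h), ?_, hws⟩
    have : z = c * s := by rw [hc_def, mul_assoc, hs2, mul_one]
    rw [this]
    exact hwc.mul_right hws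

end Cfsg.Agent.S2488
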