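import Cfsg.Statements.S2495
import Cfsg.Agent.PrimeGraphPSL.SingerOrder
import Cfsg.Agent.Zsigmondy.Main
-- import your own Cfsg.Agent.* helpers here

set_option autoImplicit false
open Cfsg

namespace Cfsg.Agent.S2495

/-- Let q be an odd prime power, n ≥ 4 even, and L = PSL(n,q). Then L has an element of order q^(n/2) + 1 if and only if the 2-part of n exceeds the 2-part of q − 1. -/
theorem result {F : Type*} [Field F] [Fintype F] {q : ℕ} (hF : Fintype.card F = q) (hodd : Odd q)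
    {n : ℕ} (hn : 4 ≤ n) (heven : Even n) :
    (∃ g : Matrix.ProjectiveSpecialLinearGroup (Fin n) F, orderOf g = q ^ (n / 2) + 1) ↔
      padicValNat 2 (q - 1) < padicValNat 2 n := by
  classical
  subst hF
  obtain ⟨h, hh⟩ := heven
  obtain rfl : n = 2 * h := by omega
  rw [Nat.mul_div_cancel_left h two_pos]
  set q := Fintype.card F with hq
  have hq1 : 1 < q := Fintype.one_lt_card
  have hq2 : q % 2 = 1 := Nat.odd_iff.1 hodd
  set d := Nat.gcd (2 * h) (q - 1) with hd
  set S := ∑ i ∈ Finset.range h, q ^ i with hS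
  have hd0 : 0 < d := Nat.gcd_pos_of_pos_right _ (by omega)
  have hT : ∑ i ∈ Finset.range (2 * h), q ^ i = (q ^ h + 1) * S := by
    rw [two_mul, Finset.sum_range_add, add_mul, one_mul, Finset.mul_sum, hS, add_comm]
    simp [pow_add]
  have hdS : d ∣ S ↔ padicValNat 2 (q - 1) < padicValNat 2 (2 * h) := by
    have hm := CfsgLib.PrimeGraphPSL.sum_pow_modEq hq1.le h
    rw [← hS] at hm
    have hd1 : d ∣ q - 1 := Nat.gcd_dvd_right _ _
    rw [Nat.ModEq.dvd_iff hm hd1]
    have hv : padicValNat 2 (2 * h) = padicValNat 2 h + 1 := by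
      rw [padicValNat.mul two_ne_zero (by omega), padicValNat.self one_lt_two, add_comm]
    constructor
    · intro hdh
      by_contra hle
      push Not at hle
      have h1 : 2 ^ padicValNat 2 (2 * h) ∣ d :=
        Nat.dvd_gcd pow_padicValNat_dvd ((pow_dvd_pow 2 hle).trans pow_padicValNat_dvd)
      have h2 := (padicValNat_dvd_iff_le (p := 2) (by omega : h ≠ 0)).1 (h1.trans hdh)
      omega
    · intro hlt
      obtain ⟨c, hc⟩ := Nat.gcd_dvd_left (2 * h) (q - 1)
      rw [← hd] at hc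
      rcases Nat.even_or_odd c with ⟨c', rfl⟩ | hcodd
      · exact ⟨c', by rw [mul_add] at hc; omega⟩
      · exfalso
        have h1 : 2 ^ padicValNat 2 (2 * h) ∣ d := by
          have h2 : 2 ^ padicValNat 2 (2 * h) ∣ d * c := hc ▸ pow_padicValNat_dvd
          exact ((Nat.coprime_two_left.2 hcodd).pow_left _).dvd_of_dvd_mul_right h2
        have h2 := (padicValNat_dvd_iff_le (p := 2) (by omega : q - 1 ≠ 0)).1 (h1.trans hd1)
        omega
  rw [← hdS]
  constructor
  · rintro ⟨x, hx⟩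
    obtain ⟨r, hr⟩ := CfsgLib.Zsigmondy.exists_isPPD_of_three_le (a := q) (n := 2 * h) hq1
      (by omega) (by omega)
    haveI : Fact r.Prime := ⟨hr.1⟩
    have hi : orderOf (q : ZMod r) = 2 * h := hr.orderOf_eq hq1.le (by omega)
    have hdvd1 : ¬ r ∣ q - 1 := by
      have := hr.2.2 1 one_pos (by omega)
      rwa [pow_one] at this
    have hrF : (r : F) ≠ 0 := by
      intro h0
      obtain ⟨p, hp⟩ := CharP.exists F
      obtain ⟨j, hpp, hj⟩ := FiniteField.card F p
      have hrp : p = r :=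
        (Nat.prime_dvd_prime_iff_eq hpp hr.1).1 ((CharP.cast_eq_zero_iff F p r).1 h0)
      subst hrp
      have h2 : (p : ℕ) ∣ q := by rw [hq, hj]; exact dvd_pow_self p j.pos.ne'
      have h3 : p ∣ q ^ (2 * h) - 1 := hr.2.1
      have h4 := Nat.dvd_sub (h2.trans (dvd_pow_self q (by omega : 2 * h ≠ 0))) h3
      rw [Nat.sub_sub_self (Nat.one_le_pow _ _ (by omega))] at h4
      exact hpp.not_dvd_one h4
    have hrQ : r ∣ q ^ h + 1 := by
      have h1 : (q ^ h + 1) * (q ^ h - 1) = q ^ (2 * h) - 1 := by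
        rw [← Nat.sq_sub_sq, one_pow, ← pow_mul, mul_comm h]
      have h2 : r ∣ (q ^ h + 1) * (q ^ h - 1) := by rw [h1]; exact hr.2.1
      exact (hr.1.dvd_mul.1 h2).resolve_right (hr.2.2 h (by omega) (by omega))
    obtain ⟨e, he⟩ := hrQ
    have he0 : e ≠ 0 := by rintro rfl; simp at he
    have hy : orderOf (x ^ e) = r := by
      rw [orderOf_pow' _ he0, hx, he, Nat.gcd_eq_right (dvd_mul_left e r),
        Nat.mul_div_cancel _ (Nat.pos_of_ne_zero he0)]
    set Z := Subgroup.center (Matrix.SpecialLinearGroup (Fin (2 * h)) F)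
    haveI : Nonempty (Fin (2 * h)) := ⟨⟨0, by omega⟩⟩
    have hcop : Nat.Coprime r (Nat.card Z) := by
      rw [CfsgLib.Classical.Linear.center_sl_card]
      exact hr.1.coprime_iff_not_dvd.2 fun h0 => hdvd1 (h0.trans (Nat.gcd_dvd_right _ _))
    obtain ⟨g', hg', hg'x, hg'o⟩ := CfsgLib.CommutingOrderP.exists_lift_pow Z hcop _ hy
    have hg1 : g' ≠ 1 := fun h1 => by
      rw [h1] at hg'x
      rw [← hg'x, QuotientGroup.mk_one, orderOf_one] at hg'o
      exact hr.1.one_lt.ne hg'o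
    obtain ⟨g, hg⟩ := CfsgLib.SpecLinear.proj_surjective x
    have hc : Commute g g' := by
      refine (CfsgLib.CommutingOrderP.commute_of_lifts Z le_rfl hcop g' g hg' ?_).symm
      rw [hg'x, show (g : Matrix.SpecialLinearGroup (Fin (2 * h)) F ⧸ Z) = x from hg]
      exact ((Commute.refl x).pow_left _).pow_left _
    have hdvd := CfsgLib.PrimeGraphPSL.orderOf_dvd_of_commute_primitive (by omega) hrF hi g g' hg' hg1 hc
    rw [hg, hx, ← hq, hT, ← hd] at hdvd
    have hdT : d ∣ (q ^ h + 1) * S := by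
      rw [← hT, hd, ← CfsgLib.PrimeGraphPSL.gcd_sum_pow hq1.le (2 * h)]
      exact Nat.gcd_dvd_left _ _
    obtain ⟨M, hM⟩ := hdT
    rw [hM, Nat.mul_div_cancel_left _ hd0] at hdvd
    obtain ⟨c, rfl⟩ := hdvd
    refine ⟨c, Nat.eq_of_mul_eq_mul_left (Nat.succ_pos (q ^ h)) ?_⟩
    calc (q ^ h + 1) * S = d * ((q ^ h + 1) * c) := hM
      _ = (q ^ h + 1) * (d * c) := mul_left_comm _ _ _
  · rintro ⟨c, hc⟩
    obtain ⟨x, hx⟩ := CfsgLib.PrimeGraphPSL.exists_orderOf_singer (F := F) (n := 2 * h) (by omega)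
    rw [← hq, hT, ← hd, hc, mul_left_comm, Nat.mul_div_cancel_left _ hd0] at hx
    have hc0 : c ≠ 0 := by
      rintro rfl
      have : 0 < S := Finset.sum_pos (fun i _ => Nat.pow_pos (by omega)) ⟨0, by simp; omega⟩
      simp [hc] at this
    refine ⟨x ^ c, ?_⟩
    rw [orderOf_pow' _ hc0, hx, Nat.gcd_eq_right (dvd_mul_left _ _),
      Nat.mul_div_cancel _ (Nat.pos_of_ne_zero hc0)]

end Cfsg.Agent.S2495
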