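import Cfsg.Statements.S2496
import Cfsg.Agent.Spec53.PSUHalfTorus

set_option autoImplicit false
open Cfsg

namespace Cfsg.Agent.S2496

/-- Let q be an odd prime power, n ≥ 4 even, and U = PSU(n,q) (realised over the field with q² elements). Then U has an element of order q^(n/2) + (−1)^(n/2) — that is, q^(n/2) + 1 when n/2 is even and q^(n/2) − 1 when n/2 is odd — if and only if the 2-part of n exceeds the 2-part of q + 1. -/
theorem result {F : Type*} [Field F] [Fintype F] {q : ℕ} (hF : Fintype.card F = q ^ 2) (hodd : Odd q)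
    {n : ℕ} (hn : 4 ≤ n) (heven : Even n) :
    (∃ g : Cfsg.PSU n F q, orderOf g = if Even (n / 2) then q ^ (n / 2) + 1 else q ^ (n / 2) - 1) ↔
      padicValNat 2 (q + 1) < padicValNat 2 n := by
  obtain ⟨m, hm⟩ := heven
  obtain rfl : n = 2 * m := by omega
  rw [Nat.mul_div_cancel_left m two_pos]
  exact CfsgLib.Spec53.psu_half_torus_criterion hF hodd (by omega)

end Cfsg.Agent.S2496
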