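import Mathlib
import Cfsg.Statements.S2503
-- import your own Cfsg.Agent.* helpers here

set_option autoImplicit false
open Cfsg

namespace Cfsg.Agent.S2503

open Matrix

variable {F : Type*} [Field F]

/-- The underlying matrix. -/
def mat (M : Matrix.SpecialLinearGroup (Fin 2) F) : Matrix (Fin 2) (Fin 2) F := ↑M

theorem mat_mul (A B : Matrix.SpecialLinearGroup (Fin 2) F) : mat (A * B) = mat A * mat B := rfl

theorem mat_one : mat (1 : Matrix.SpecialLinearGroup (Fin 2) F) = 1 := rfl

theorem mat_inv (A : Matrix.SpecialLinearGroup (Fin 2) F) :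
    mat A⁻¹ = !![mat A 1 1, -mat A 0 1; -mat A 1 0, mat A 0 0] :=
  Matrix.adjugate_fin_two _

theorem mat_det (A : Matrix.SpecialLinearGroup (Fin 2) F) :
    mat A 0 0 * mat A 1 1 - mat A 0 1 * mat A 1 0 = 1 :=
  (Matrix.det_fin_two (mat A)).symm.trans A.2

theorem mat_ext {A B : Matrix.SpecialLinearGroup (Fin 2) F} (h00 : mat A 0 0 = mat B 0 0)
    (h01 : mat A 0 1 = mat B 0 1) (h10 : mat A 1 0 = mat B 1 0) (h11 : mat A 1 1 = mat B 1 1) :
    A = B := by
  ext i j
  fin_cases i <;> fin_cases j <;> assumption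

/-- The norm-one torus attached to `X² + X + d`. -/
def torus (d : F) : Subgroup (Matrix.SpecialLinearGroup (Fin 2) F) where
  carrier := {M | mat M 0 1 = mat M 1 0 * d ∧ mat M 1 1 = mat M 0 0 + mat M 1 0}
  one_mem' := by simp [mat_one]
  mul_mem' := by
    rintro A B ⟨ha1, ha2⟩ ⟨hb1, hb2⟩
    simp only [Set.mem_setOf_eq, mat_mul, Matrix.mul_apply, Fin.sum_univ_two]
    rw [ha1, ha2, hb1, hb2]
    constructor <;> ring
  inv_mem' := by
    rintro A ⟨ha1, ha2⟩
    simp [mat_inv, ha1, ha2]

/-- The upper unitriangular subgroup. -/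
def unip : Subgroup (Matrix.SpecialLinearGroup (Fin 2) F) where
  carrier := {M | mat M 0 0 = 1 ∧ mat M 1 0 = 0 ∧ mat M 1 1 = 1}
  one_mem' := by simp [mat_one]
  mul_mem' := by
    rintro A B ⟨ha1, ha2, ha3⟩ ⟨hb1, hb2, hb3⟩
    simp [mat_mul, Matrix.mul_apply, Fin.sum_univ_two, ha1, ha2, ha3, hb1, hb2, hb3]
  inv_mem' := by
    rintro A ⟨ha1, ha2, ha3⟩
    simp [mat_inv, ha1, ha2, ha3]

def upper (x : F) : Matrix.SpecialLinearGroup (Fin 2) F :=
  ⟨!![1, x; 0, 1], by simp [Matrix.det_fin_two]⟩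

theorem mat_upper (x : F) : mat (upper x) = !![1, x; 0, 1] := rfl

theorem unip_eq (M : Matrix.SpecialLinearGroup (Fin 2) F) (h : M ∈ (unip : Subgroup _)) :
    M = upper (mat M 0 1) := by
  obtain ⟨h1, h2, h3⟩ := h
  apply mat_ext <;> simp [mat_upper, h1, h2, h3]

def torusElt (d a b : F) (h : a * (a + b) - b * d * b = 1) : Matrix.SpecialLinearGroup (Fin 2) F :=
  ⟨!![a, b * d; b, a + b], by rw [Matrix.det_fin_two]; simpa using h⟩

theorem mat_torusElt (d a b : F) (h : a * (a + b) - b * d * b = 1) :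
    mat (torusElt d a b h) = !![a, b * d; b, a + b] := rfl

theorem torusElt_mem (d a b : F) (h : a * (a + b) - b * d * b = 1) :
    torusElt d a b h ∈ torus d := ⟨rfl, rfl⟩

/-- Let F be a finite field with q = 2^t ≥ 4 elements and L = PSL(2,F). Then L has a cyclic subgroup A of order q + 1 and an elementary abelian 2-subgroup B of order q such that L = ABA: every element of L is a product a·b·a' with a, a' ∈ A and b ∈ B. -/
theorem result {F : Type*} [Field F] [Fintype F]
    (h2 : 2 ∣ Fintype.card F) (h4 : 4 ≤ Fintype.card F) :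
    ∃ A B : Subgroup (Matrix.ProjectiveSpecialLinearGroup (Fin 2) F),
      IsCyclic A ∧ Nat.card A = Fintype.card F + 1 ∧ IsMulCommutative B ∧ (∀ b ∈ B, b * b = 1) ∧
        Nat.card B = Fintype.card F ∧
        ∀ g : Matrix.ProjectiveSpecialLinearGroup (Fin 2) F, ∃ a ∈ A, ∃ b ∈ B, ∃ c ∈ A, g = a * b * c := by
  classical
  haveI hchar : CharP F 2 := by
    obtain ⟨p, hp⟩ := CharP.exists F
    obtain ⟨n, hpp, hcard⟩ := FiniteField.card F p
    rw [hcard] at h2
    obtain rfl : 2 = p :=
      (Nat.prime_dvd_prime_iff_eq Nat.prime_two hpp).1 (Nat.prime_two.dvd_of_dvd_pow h2)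
    exact hp
  have hsq : ∀ a : F, ∃ c, c ^ 2 = a := fun a => by
    obtain ⟨c, hc⟩ := FiniteField.isSquare_of_char_two (ringChar.eq F 2) a
    exact ⟨c, by rw [hc, sq]⟩
  have hneg : ∀ a : F, -a = a := CharTwo.neg_eq
  have h20 : (2 : F) = 0 := CharTwo.two_eq_zero
  obtain ⟨d, hd⟩ : ∃ d : F, ∀ r : F, r ^ 2 + r ≠ d := by
    by_contra hc
    push Not at hc
    have hinj := Finite.injective_iff_surjective.2 (show Function.Surjective fun r : F => r ^ 2 + r
      from hc)
    have := hinj (a₁ := 0) (a₂ := 1) (by simp [CharTwo.add_self_eq_zero])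
    exact zero_ne_one this
  haveI hfact : Fact (∀ r : F, r ^ 2 ≠ d + 1 * r) := ⟨fun r hr => hd r (by
    rw [one_mul] at hr; rw [hr, add_assoc, CharTwo.add_self_eq_zero, add_zero])⟩
  set N : F → F → F := fun a b => a * (a + b) - b * d * b with hN
  have hNne : ∀ a b : F, ¬(a = 0 ∧ b = 0) → N a b ≠ 0 := by
    intro a b hab h
    by_cases hb : b = 0
    · subst hb
      apply hab
      simpa [N] using h
    · refine hd (a / b) ?_
      simp only [N] at h
      field_simp
      linear_combination h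
  have hscale : ∀ c a b : F, N (c * a) (c * b) = c ^ 2 * N a b := fun c a b => by
    simp only [N]; ring
  let π := QuotientGroup.mk' (Subgroup.center (Matrix.SpecialLinearGroup (Fin 2) F))
  have hπs : Function.Surjective π := QuotientGroup.mk'_surjective _
  have hπi : Function.Injective π := by
    rw [← MonoidHom.ker_eq_bot_iff, QuotientGroup.ker_mk', Subgroup.eq_bot_iff_forall]
    intro M hM
    obtain ⟨r, hr, hrM⟩ := Matrix.SpecialLinearGroup.mem_center_iff.1 hM
    rw [Fintype.card_fin] at hr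
    have : (r - 1) ^ 2 = 0 := by linear_combination hr + (1 - r) * h20
    rw [sub_eq_zero.1 (sq_eq_zero_iff.1 this), map_one] at hrM
    exact Subtype.ext hrM.symm
  refine ⟨(torus d).map π, (unip : Subgroup (Matrix.SpecialLinearGroup (Fin 2) F)).map π,
    ?_, ?_, ?_, ?_, ?_, ?_⟩
  · let f : torus d →* QuadraticAlgebra F d 1 :=
      { toFun := fun M => ⟨mat M.1 0 0, mat M.1 1 0⟩
        map_one' := by ext <;> simp [mat_one, QuadraticAlgebra.re_one, QuadraticAlgebra.im_one]
        map_mul' := by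
          rintro ⟨A, ha1, ha2⟩ ⟨B, hb1, hb2⟩
          ext <;> simp only [QuadraticAlgebra.re_mul, QuadraticAlgebra.im_mul, Subgroup.coe_mul,
            mat_mul, Matrix.mul_apply, Fin.sum_univ_two, ha1, ha2] <;> ring }
    have hf : Function.Injective f := by
      rintro ⟨A, ha1, ha2⟩ ⟨B, hb1, hb2⟩ h
      simp only [f, MonoidHom.coe_mk, OneHom.coe_mk, QuadraticAlgebra.mk.injEq] at h
      refine Subtype.ext ?_
      apply mat_ext <;> simp [ha1, ha2, hb1, hb2, h.1, h.2]
    haveI := isCyclic_of_injective_ringHom f hf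
    exact isCyclic_of_surjective _ ((torus d).equivMapOfInjective π hπi).surjective
  · rw [Subgroup.card_map_of_injective hπi]
    let φ : torus d × {c : F // c ≠ 0} → {v : F × F // v ≠ 0} := fun x =>
      ⟨(x.2.1 * mat x.1.1 0 0, x.2.1 * mat x.1.1 1 0), by
        intro h
        obtain ⟨⟨A, ha1, ha2⟩, c, hc⟩ := x
        simp only [Prod.mk_eq_zero, mul_eq_zero, hc, false_or] at h
        have hA := mat_det A
        simp [h.1, h.2, ha1, ha2] at hA⟩
    have hdet : ∀ A : torus d, N (mat A.1 0 0) (mat A.1 1 0) = 1 := by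
      rintro ⟨A, ha1, ha2⟩
      have hA := mat_det A
      rw [ha1, ha2] at hA
      simp only [N]
      linear_combination hA
    have hbij : Function.Bijective φ := by
      constructor
      · rintro ⟨A, c⟩ ⟨B, e⟩ h
        simp only [φ, Subtype.mk.injEq, Prod.mk.injEq] at h
        have h' := congrArg₂ N h.1 h.2
        rw [hscale, hscale, hdet, hdet, mul_one, mul_one] at h'
        have hce : c.1 = e.1 := by
          have : (c.1 - e.1) ^ 2 = 0 := by
            linear_combination h' + (e.1 * e.1 - c.1 * e.1) * h20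
          exact sub_eq_zero.1 (sq_eq_zero_iff.1 this)
        rw [hce] at h
        refine Prod.ext (Subtype.ext ?_) (Subtype.ext hce)
        have ha := mul_left_cancel₀ e.2 h.1
        have hb := mul_left_cancel₀ e.2 h.2
        apply mat_ext <;> simp [A.2.1, A.2.2, B.2.1, B.2.2, ha, hb]
      · rintro ⟨⟨a, b⟩, hv⟩
        have hn := hNne a b (by simpa [Prod.ext_iff] using hv)
        obtain ⟨c, hc⟩ := hsq (N a b)
        have hc0 : c ≠ 0 := by rintro rfl; exact hn (by rw [← hc]; simp)
        have h1 : N (c⁻¹ * a) (c⁻¹ * b) = 1 := by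
          rw [hscale, inv_pow, hc, inv_mul_cancel₀ hn]
        refine ⟨(⟨torusElt d (c⁻¹ * a) (c⁻¹ * b) h1, torusElt_mem _ _ _ _⟩, ⟨c, hc0⟩), ?_⟩
        simp [φ, mat_torusElt, hc0]
    have h := Nat.card_eq_of_bijective φ hbij
    rw [Nat.card_prod, Nat.card_eq_fintype_card (α := {c : F // c ≠ 0}),
      Nat.card_eq_fintype_card (α := {v : F × F // v ≠ 0}), Fintype.card_subtype_compl,
      Fintype.card_subtype_compl, Fintype.card_subtype_eq, Fintype.card_subtype_eq,
      Fintype.card_prod] at h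
    obtain ⟨k, hk⟩ : ∃ k, Fintype.card F = k + 1 := ⟨Fintype.card F - 1, by omega⟩
    rw [hk] at h ⊢
    have : (k + 1) * (k + 1) - 1 = (k + 2) * k := by
      rw [Nat.sub_eq_iff_eq_add (by nlinarith)]; ring
    rw [this, Nat.add_sub_cancel] at h
    exact Nat.eq_of_mul_eq_mul_right (by omega) h
  · refine ⟨⟨?_⟩⟩
    rintro ⟨_, A, hA, rfl⟩ ⟨_, B, hB, rfl⟩
    ext
    simp only [Subgroup.coe_mul, ← map_mul]
    refine congrArg π ?_
    rw [unip_eq A hA, unip_eq B hB]
    apply mat_ext <;> simp [mat_mul, mat_upper, add_comm]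
  · rintro _ ⟨A, hA, rfl⟩
    rw [← map_mul, ← map_one π]
    refine congrArg π ?_
    rw [unip_eq A hA]
    apply mat_ext <;> simp [mat_mul, mat_one, mat_upper, CharTwo.add_self_eq_zero]
  · rw [Subgroup.card_map_of_injective hπi, ← Nat.card_eq_fintype_card]
    refine Nat.card_congr
      { toFun := fun M => mat M.1 0 1
        invFun := fun x => ⟨upper x, by
          change mat (upper x) 0 0 = 1 ∧ mat (upper x) 1 0 = 0 ∧ mat (upper x) 1 1 = 1
          simp [mat_upper]⟩
        left_inv := fun M => Subtype.ext (unip_eq M.1 M.2).symm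
        right_inv := fun x => by simp [mat_upper] }
  · intro g
    obtain ⟨M, rfl⟩ := hπs g
    have hM := mat_det M
    set m00 := mat M 0 0
    set m01 := mat M 0 1
    set m10 := mat M 1 0
    set m11 := mat M 1 1
    obtain ⟨u, hu⟩ := hsq (N m00 m10 + 1)
    obtain ⟨w, hw⟩ := hsq (N m01 m11 + N 0 1)
    -- a common value of the two norms
    obtain ⟨a, b, hab, hiso⟩ : ∃ a b : F, ¬(a = 0 ∧ b = 0) ∧ u * a + w * b = 0 := by
      by_cases hw0 : w = 0
      · exact ⟨0, 1, by simp, by simp [hw0]⟩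
      · exact ⟨w, u, by simp [hw0], by linear_combination (u * w) * h20⟩
    have hkey : N (m00 * a + m01 * b) (m10 * a + m11 * b) = N a b := by
      simp only [N] at hu hw ⊢
      linear_combination (u * a + w * b) * hiso - a ^ 2 * hu - b ^ 2 * hw - (a * b) * hM
        + (-a ^ 2 - a * b * u * w + (a + b) * 0 - a * b
          + m00 * m11 * a * b - m10 * d * m11 * a * b + m00 * m01 * a * b
          + b ^ 2 * d) * h20
    obtain ⟨c, hc⟩ := hsq (N a b)
    have hn := hNne a b hab
    have hc0 : c ≠ 0 := by rintro rfl; exact hn (by rw [← hc]; simp)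
    have h1 : N (c⁻¹ * a) (c⁻¹ * b) = 1 := by rw [hscale, inv_pow, hc, inv_mul_cancel₀ hn]
    have h1' : N (c⁻¹ * (m00 * a + m01 * b)) (c⁻¹ * (m10 * a + m11 * b)) = 1 := by
      rw [hscale, hkey, inv_pow, hc, inv_mul_cancel₀ hn]
    set C := torusElt d _ _ h1 with hC
    set A := torusElt d _ _ h1' with hA'
    have hfc : ∀ i, mat (M * C) i 0 = mat A i 0 := by
      intro i
      fin_cases i <;>
        simp [hA', hC, mat_torusElt, mat_mul, Matrix.mul_apply, Fin.sum_univ_two, m00, m01, m10, m11] <;> ring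
    have hU : A⁻¹ * (M * C) ∈ (unip : Subgroup (Matrix.SpecialLinearGroup (Fin 2) F)) := by
      have hcol : ∀ i, mat (A⁻¹ * (M * C)) i 0 = mat (A⁻¹ * A) i 0 := by
        intro i
        rw [mat_mul A⁻¹, mat_mul A⁻¹, Matrix.mul_apply, Matrix.mul_apply]
        simp only [hfc]
      rw [inv_mul_cancel] at hcol
      set U := A⁻¹ * (M * C)
      have hUd := mat_det U
      have e0 : mat U 0 0 = 1 := by simpa [mat_one] using hcol 0
      have e1 : mat U 1 0 = 0 := by simpa [mat_one] using hcol 1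
      refine ⟨e0, e1, ?_⟩
      rw [e0, e1] at hUd
      simpa using hUd
    refine ⟨π A, ⟨A, torusElt_mem _ _ _ _, rfl⟩, π _, ⟨_, hU, rfl⟩, π C⁻¹,
      ⟨C⁻¹, (torus d).inv_mem (torusElt_mem _ _ _ _), rfl⟩, ?_⟩
    rw [← map_mul, ← map_mul]
    congr 1
    group

end Cfsg.Agent.S2503
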