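import Cfsg.Statements.S2504
import Cfsg.Agent.AbelianPerm.Exists
-- import your own Cfsg.Agent.* helpers here

set_option autoImplicit false
open Cfsg

namespace Cfsg.Agent.S2504

/-- The largest order of an abelian subgroup of the alternating group of degree n is 3^k when n = 3k, 4·3^(k−1) when n = 3k + 1, and 16·3^(k−2) when n = 3k + 2, for every k ≥ 2 (so for all degrees n ≥ 6). -/
theorem result (k : ℕ) (hk : 2 ≤ k) :
    IsGreatest {c : ℕ | ∃ A : Subgroup (alternatingGroup (Fin (3 * k))), IsMulCommutative A ∧ Nat.card A = c} (3 ^ k) ∧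
    IsGreatest {c : ℕ | ∃ A : Subgroup (alternatingGroup (Fin (3 * k + 1))), IsMulCommutative A ∧ Nat.card A = c}
      (4 * 3 ^ (k - 1)) ∧
    IsGreatest {c : ℕ | ∃ A : Subgroup (alternatingGroup (Fin (3 * k + 2))), IsMulCommutative A ∧ Nat.card A = c}
      (16 * 3 ^ (k - 2)) := by
  
  obtain ⟨j, rfl⟩ : ∃ j, k = j + 2 := ⟨k - 2, by omega⟩
  refine ⟨CfsgLib.AbelianPerm.isGreatest_alternating (CfsgLib.AbelianPerm.hasAbelian_pow_three _ _)
    fun B hB _ => (CfsgLib.AbelianPerm.card_le_maxProd B hB).trans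
      (by rw [Fintype.card_fin, CfsgLib.AbelianPerm.maxProd_three_mul]), ?_, ?_⟩
  · rw [show 3 * (j + 2) + 1 = 3 * (j + 1) + 4 by ring, show j + 2 - 1 = j + 1 by omega]
    exact CfsgLib.AbelianPerm.isGreatest_alternating (CfsgLib.AbelianPerm.hasAbelian_four_mul _ _)
      fun B hB _ => (CfsgLib.AbelianPerm.card_le_maxProd B hB).trans
        (by rw [Fintype.card_fin, CfsgLib.AbelianPerm.maxProd_three_mul_add_one])
  · rw [show 3 * (j + 2) + 2 = 3 * j + 8 by ring, Nat.add_sub_cancel]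
    exact CfsgLib.AbelianPerm.isGreatest_alternating (CfsgLib.AbelianPerm.hasAbelian_sixteen_mul _ _)
      fun B hB hs => CfsgLib.AbelianPerm.card_le_of_even B hB j (Fintype.card_fin _) hs

end Cfsg.Agent.S2504
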