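import Cfsg.Statements.S2506
import Mathlib

set_option autoImplicit false
open scoped Pointwise
open Cfsg

namespace Cfsg.Agent.S2506

open Equiv

universe u

/-! ### The arithmetic -/

/-- The largest product of parts with sum `n`. -/
def maxProd : ℕ → ℕ
  | 0 => 1
  | 1 => 1
  | 2 => 2
  | 3 => 3
  | 4 => 4
  | n + 5 => 3 * maxProd (n + 2)

theorem maxProd_add_three {a : ℕ} (ha : 2 ≤ a) : maxProd (a + 3) = 3 * maxProd a := by
  obtain ⟨n, rfl⟩ : ∃ n, a = n + 2 := ⟨a - 2, by omega⟩
  rw [show n + 2 + 3 = n + 5 from rfl, maxProd]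

theorem maxProd_steps : ∀ a, maxProd a ≤ maxProd (a + 1) ∧ 2 * maxProd a ≤ maxProd (a + 2) ∧
    3 * maxProd a ≤ maxProd (a + 3) := by
  intro a
  induction a using Nat.strong_induction_on with
  | _ a ih =>
  by_cases ha : a < 5
  · interval_cases a <;> decide
  obtain ⟨b, rfl⟩ : ∃ b, a = b + 3 := ⟨a - 3, by omega⟩
  obtain ⟨h1, h2, h3⟩ := ih b (by omega)
  rw [show b + 3 + 1 = (b + 1) + 3 by omega, show b + 3 + 2 = (b + 2) + 3 by omega,
    maxProd_add_three (a := b) (by omega), maxProd_add_three (a := b + 1) (by omega),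
    maxProd_add_three (a := b + 2) (by omega), maxProd_add_three (a := b + 3) (by omega),
    maxProd_add_three (a := b) (by omega)]
  omega

theorem mul_maxProd (m a : ℕ) : m * maxProd a ≤ maxProd (a + m) := by
  induction m using Nat.strong_induction_on with
  | _ m ih =>
  by_cases hm : m < 5
  · have h0 := maxProd_steps a
    have h2 := (maxProd_steps (a + 2)).2.1
    rw [show a + 2 + 2 = a + 4 from rfl] at h2
    interval_cases m <;> simp <;> omega
  · obtain ⟨b, rfl⟩ : ∃ b, m = b + 3 := ⟨m - 3, by omega⟩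
    have h1 := ih b (by omega)
    have h2 := (maxProd_steps (a + b)).2.2
    rw [← add_assoc]
    nlinarith

theorem prod_le_maxProd {ι : Type*} [DecidableEq ι] (s : Finset ι) (m : ι → ℕ) :
    ∏ i ∈ s, m i ≤ maxProd (∑ i ∈ s, m i) := by
  induction s using Finset.induction_on with
  | empty => simp [maxProd]
  | @insert a t ha ih =>
    rw [Finset.prod_insert ha, Finset.sum_insert ha, add_comm]
    exact le_trans (Nat.mul_le_mul_left _ ih) (mul_maxProd _ _)

theorem maxProd_closed (k : ℕ) : maxProd (3 * k + 3) = 3 * 3 ^ k ∧ maxProd (3 * k + 4) = 4 * 3 ^ k ∧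
    maxProd (3 * k + 2) = 2 * 3 ^ k := by
  induction k with
  | zero => decide
  | succ k ih =>
    obtain ⟨h1, h2, h3⟩ := ih
    have e1 := maxProd_add_three (a := 3 * k + 3) (by omega)
    have e2 := maxProd_add_three (a := 3 * k + 4) (by omega)
    have e3 := maxProd_add_three (a := 3 * k + 2) (by omega)
    rw [show 3 * (k + 1) + 3 = 3 * k + 6 by ring, show 3 * (k + 1) + 4 = 3 * k + 7 by ring,
      show 3 * (k + 1) + 2 = 3 * k + 5 by ring]
    rw [h1, show 3 * k + 3 + 3 = 3 * k + 6 from rfl] at e1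
    rw [h2, show 3 * k + 4 + 3 = 3 * k + 7 from rfl] at e2
    rw [h3, show 3 * k + 2 + 3 = 3 * k + 5 from rfl] at e3
    simp only [pow_succ]
    omega

/-- The largest order of an abelian subgroup of `A_n`, for `n ≥ 3`. -/
def target (n : ℕ) : ℕ :=
  if n = 5 then 5 else if n % 3 = 2 then 16 * 3 ^ (n / 3 - 2) else maxProd n

/-- The three local shapes. -/
def threes (n : ℕ) : ℕ := if n = 5 then 0 else if n % 3 = 0 then n / 3 else if n % 3 = 1 then n / 3 - 1 else n / 3 - 2
def fours (n : ℕ) : ℕ := if n = 5 then 0 else if n % 3 = 0 then 0 else if n % 3 = 1 then 1 else 2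
def fives (n : ℕ) : ℕ := if n = 5 then 1 else 0

theorem target_eq (n : ℕ) (hn : 3 ≤ n) : 3 * threes n + 4 * fours n + 5 * fives n = n ∧
    target n = 3 ^ threes n * 4 ^ fours n * 5 ^ fives n ∧ 0 < target n ∧ maxProd n < 2 * target n := by
  by_cases h5 : n = 5
  · subst h5; decide
  rcases (by omega : n % 3 = 0 ∨ n % 3 = 1 ∨ n % 3 = 2) with h | h | h
  · obtain ⟨k, rfl⟩ : ∃ k, n = 3 * k + 3 := ⟨n / 3 - 1, by omega⟩
    simp only [threes, fours, fives, target, if_neg h5, h, if_neg (show ¬ (0 : ℕ) = 2 by decide),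
      (maxProd_closed k).1, show (3 * k + 3) / 3 = k + 1 by omega, if_true]
    have := Nat.pow_pos (n := k) (show 0 < 3 by norm_num)
    refine ⟨by omega, by ring, by omega, by omega⟩
  · obtain ⟨k, rfl⟩ : ∃ k, n = 3 * k + 4 := ⟨n / 3 - 1, by omega⟩
    simp only [threes, fours, fives, target, if_neg h5, h, if_neg (show ¬ (1 : ℕ) = 2 by decide),
      if_neg (show ¬ (1 : ℕ) = 0 by decide), (maxProd_closed k).2.1, show (3 * k + 4) / 3 = k + 1 by omega, if_true]
    have := Nat.pow_pos (n := k) (show 0 < 3 by norm_num)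
    refine ⟨by omega, by simp; ring, by omega, by omega⟩
  · obtain ⟨k, hk⟩ : ∃ k, n = 3 * (k + 2) + 2 := ⟨n / 3 - 2, by omega⟩
    have hm : maxProd n = 2 * 3 ^ (k + 2) := hk ▸ (maxProd_closed (k + 2)).2.2
    have hd : n / 3 - 2 = k := by omega
    simp only [threes, fours, fives, target, if_neg h5, h, if_neg (show ¬ (2 : ℕ) = 1 by decide),
      if_neg (show ¬ (2 : ℕ) = 0 by decide), hm, hd, if_true]
    have := Nat.pow_pos (n := k) (show 0 < 3 by norm_num)
    have h9 : 3 ^ (k + 2) = 9 * 3 ^ k := by ring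
    refine ⟨by omega, by simp; ring, by omega, by omega⟩

theorem small_bad (n : ℕ) (hn : 3 ≤ n) :
    maxProd (n - 1) < target n ∧ (6 ≤ n → 5 * maxProd (n - 5) < target n) ∧
      2 * maxProd n < 3 * target n ∧ (12 ≤ n → 64 * maxProd (n - 12) < target n) := by
  by_cases hsmall : n < 18
  · interval_cases n <;> decide
  rcases (by omega : n % 3 = 0 ∨ n % 3 = 1 ∨ n % 3 = 2) with h | h | h
  · obtain ⟨k, rfl⟩ : ∃ k, n = 3 * (k + 5) + 3 := ⟨n / 3 - 6, by omega⟩
    have h0 := maxProd_closed (k + 5)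
    have h1 := (maxProd_closed (k + 5)).2.2
    have h5 := (maxProd_closed (k + 3)).2.1
    have h12 := (maxProd_closed (k + 1)).1
    simp only [target, if_neg (show ¬ 3 * (k + 5) + 3 = 5 by omega), if_neg (show ¬ (3 * (k + 5) + 3) % 3 = 2 by omega)]
    rw [show 3 * (k + 5) + 3 - 1 = 3 * (k + 5) + 2 by omega, show 3 * (k + 5) + 3 - 5 = 3 * (k + 3) + 4 by omega,
      show 3 * (k + 5) + 3 - 12 = 3 * (k + 1) + 3 by omega, h1, h0.1, h5, h12]
    have := Nat.pow_pos (n := k) (show 0 < 3 by norm_num)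
    simp only [pow_succ]
    omega
  · obtain ⟨k, rfl⟩ : ∃ k, n = 3 * (k + 5) + 4 := ⟨n / 3 - 6, by omega⟩
    have h0 := (maxProd_closed (k + 5)).2.1
    have h1 := (maxProd_closed (k + 5)).1
    have h5 := (maxProd_closed (k + 4)).2.2
    have h12 := (maxProd_closed (k + 1)).2.1
    simp only [target, if_neg (show ¬ 3 * (k + 5) + 4 = 5 by omega), if_neg (show ¬ (3 * (k + 5) + 4) % 3 = 2 by omega)]
    rw [show 3 * (k + 5) + 4 - 1 = 3 * (k + 5) + 3 by omega, show 3 * (k + 5) + 4 - 5 = 3 * (k + 4) + 2 by omega,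
      show 3 * (k + 5) + 4 - 12 = 3 * (k + 1) + 4 by omega, h1, h0, h5, h12]
    have := Nat.pow_pos (n := k) (show 0 < 3 by norm_num)
    simp only [pow_succ]
    omega
  · obtain ⟨k, rfl⟩ : ∃ k, n = 3 * (k + 6) + 2 := ⟨n / 3 - 6, by omega⟩
    have h0 := (maxProd_closed (k + 6)).2.2
    have h1 := (maxProd_closed (k + 5)).2.1
    have h5 := (maxProd_closed (k + 4)).1
    have h12 := (maxProd_closed (k + 2)).2.2
    simp only [target, if_neg (show ¬ 3 * (k + 6) + 2 = 5 by omega), if_pos (show (3 * (k + 6) + 2) % 3 = 2 by omega)]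
    rw [show 3 * (k + 6) + 2 - 1 = 3 * (k + 5) + 4 by omega, show 3 * (k + 6) + 2 - 5 = 3 * (k + 4) + 3 by omega,
      show 3 * (k + 6) + 2 - 12 = 3 * (k + 2) + 2 by omega, show (3 * (k + 6) + 2) / 3 - 2 = k + 4 by omega, h1, h0, h5, h12]
    have := Nat.pow_pos (n := k) (show 0 < 3 by norm_num)
    simp only [pow_succ]
    omega

/-- The shape of an optimal family of parts. -/
theorem shape {ι : Type*} [Fintype ι] [DecidableEq ι] (m : ι → ℕ) (n : ℕ) (hn : 3 ≤ n) (hsum : ∑ i, m i = n)
    (hm2 : ∀ i, m i ≠ 2) (hm0 : ∀ i, m i ≠ 0) (hge : target n ≤ ∏ i, m i) :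
    (∀ i, m i = 3 ∨ m i = 4 ∨ m i = 5) ∧ (Finset.univ.filter fun i => m i = 3).card = threes n ∧
      (Finset.univ.filter fun i => m i = 4).card = fours n ∧ (Finset.univ.filter fun i => m i = 5).card = fives n := by
  obtain ⟨b1, b5, b6, b12⟩ := small_bad n hn
  have hrest : ∀ s : Finset ι, ∏ i, m i ≤ (∏ i ∈ s, m i) * maxProd (n - ∑ i ∈ s, m i) ∧ ∑ i ∈ s, m i ≤ n := by
    intro s
    have h1 := Finset.sum_add_sum_compl s m
    rw [hsum] at h1
    refine ⟨?_, by omega⟩
    rw [← Finset.prod_mul_prod_compl s m, show n - ∑ i ∈ s, m i = ∑ i ∈ sᶜ, m i by omega]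
    exact Nat.mul_le_mul_left _ (prod_le_maxProd _ _)
  have hparts : ∀ i, m i = 3 ∨ m i = 4 ∨ (m i = 5 ∧ n = 5) := by
    intro i
    obtain ⟨h1, h2⟩ := hrest {i}
    rw [Finset.prod_singleton, Finset.sum_singleton] at h1
    rw [Finset.sum_singleton] at h2
    have h0 := hm0 i
    have h2' := hm2 i
    by_contra hne
    push Not at hne
    rcases (by omega : m i = 1 ∨ m i = 5 ∨ 6 ≤ m i) with h | h | h
    · rw [h, one_mul] at h1; omega
    · have := b5 (by have := hne.2.2 h; omega)
      rw [h] at h1; omega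
    · have h3 := mul_maxProd (m i - 3) (n - m i)
      have h4 := (maxProd_steps (n - m i + (m i - 3))).2.2
      rw [show n - m i + (m i - 3) + 3 = n by omega] at h4
      have h5 : 3 * (m i * maxProd (n - m i)) ≤ 2 * (3 * ((m i - 3) * maxProd (n - m i))) := by
        rw [← mul_assoc, ← mul_assoc, ← mul_assoc]
        exact Nat.mul_le_mul_right _ (by omega)
      omega
  have hd : (Finset.univ.filter fun i => m i = 4).card ≤ 2 := by
    by_contra hd
    obtain ⟨s, hs, hsc⟩ := Finset.exists_subset_card_eq (show 3 ≤ (Finset.univ.filter fun i => m i = 4).card by omega)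
    have h4 : ∀ i ∈ s, m i = 4 := fun i hi => (Finset.mem_filter.1 (hs hi)).2
    obtain ⟨h1, h2⟩ := hrest s
    rw [Finset.sum_congr rfl h4, Finset.sum_const, hsc] at h2
    rw [Finset.prod_congr rfl h4, Finset.sum_congr rfl h4, Finset.sum_const, Finset.prod_const, hsc] at h1
    have := b12 (by simpa using h2)
    simp only [smul_eq_mul] at h1
    norm_num at h1
    omega
  refine ⟨fun i => by rcases hparts i with h | h | ⟨h, -⟩ <;> simp [h], ?_⟩
  have hnum : n = 3 * (Finset.univ.filter fun i => m i = 3).card + 4 * (Finset.univ.filter fun i => m i = 4).card +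
      5 * (Finset.univ.filter fun i => m i = 5).card := by
    rw [← hsum, Finset.card_filter, Finset.card_filter, Finset.card_filter, Finset.mul_sum, Finset.mul_sum, Finset.mul_sum,
      ← Finset.sum_add_distrib, ← Finset.sum_add_distrib]
    refine Finset.sum_congr rfl fun i _ => ?_
    rcases hparts i with h | h | ⟨h, -⟩ <;> simp [h]
  have hfive : 0 < (Finset.univ.filter fun i => m i = 5).card → n = 5 := by
    intro h
    obtain ⟨i, hi⟩ := Finset.card_pos.1 h
    rcases hparts i with h' | h' | h'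
    · simp [h'] at hi
    · simp [h'] at hi
    · exact h'.2
  obtain ⟨e1, -⟩ := target_eq n hn
  simp only [threes, fours, fives] at e1 ⊢
  by_cases h5 : n = 5
  · simp only [h5, if_true] at e1 hnum ⊢
    generalize (Finset.univ.filter fun i => m i = 3).card = x at *
    generalize (Finset.univ.filter fun i => m i = 4).card = y at *
    generalize (Finset.univ.filter fun i => m i = 5).card = z at *
    have hx : x ≤ 1 := by omega
    have hy : y ≤ 1 := by omega
    have hz : z ≤ 1 := by omega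
    interval_cases x <;> interval_cases y <;> interval_cases z <;> simp at hnum ⊢
  · have : (Finset.univ.filter fun i => m i = 5).card = 0 := by
      by_contra h; exact h5 (hfive (Nat.pos_of_ne_zero h))
    simp only [h5, if_false, this] at e1 hnum ⊢
    refine ⟨?_, ?_, trivial⟩
    all_goals (split_ifs <;> omega)

/-! ### Translations on a disjoint union of groups -/

section trans

variable {Ω : Type*} {ι : Type*} {H : ι → Type*} [∀ i, Group (H i)]

/-- Componentwise left translation, carried to `Ω`. -/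
def trans (e : Ω ≃ Σ i, H i) : (∀ i, H i) →* Perm Ω where
  toFun g := e.symm.permCongr (Equiv.sigmaCongrRight fun i => Equiv.mulLeft (g i))
  map_one' := by ext ω; simp [Equiv.permCongr_apply, Sigma.eta]
  map_mul' g h := by ext ω; simp [Equiv.permCongr_apply, mul_assoc]

theorem trans_apply (e : Ω ≃ Σ i, H i) (g : ∀ i, H i) (ω : Ω) :
    trans e g ω = e.symm ⟨(e ω).1, g (e ω).1 * (e ω).2⟩ := by
  simp [trans, Equiv.permCongr_apply]

theorem trans_injective (e : Ω ≃ Σ i, H i) : Function.Injective (trans e) := by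
  intro g h hgh
  funext i
  have := congrArg (fun p : Perm Ω => e (p (e.symm ⟨i, 1⟩))) hgh
  rw [trans_apply, trans_apply, Equiv.apply_symm_apply, Equiv.apply_symm_apply] at this
  simpa using this

theorem card_range_trans [Fintype ι] [∀ i, Finite (H i)] (e : Ω ≃ Σ i, H i) :
    Nat.card (trans e).range = ∏ i, Nat.card (H i) := by
  rw [← Nat.card_congr (MonoidHom.ofInjective (trans_injective e)).toEquiv, Nat.card_pi]

/-- Relabelling the summands. -/
theorem range_trans_relabel {κ : Type*} {K : κ → Type*} [∀ j, Group (K j)] (e : Ω ≃ Σ i, H i) (f : ι ≃ κ)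
    (θ : ∀ i, H i ≃* K (f i)) :
    (trans (e.trans (Equiv.sigmaCongr f fun i => (θ i).toEquiv))).range = (trans e).range := by
  have key : ∀ g : ∀ j, K j, trans (e.trans (Equiv.sigmaCongr f fun i => (θ i).toEquiv)) g =
      trans e (fun i => (θ i).symm (g (f i))) := by
    intro g
    ext ω
    obtain ⟨⟨i, a⟩, rfl⟩ := e.symm.surjective ω
    set e' := e.trans (Equiv.sigmaCongr f fun i => (θ i).toEquiv) with he'
    apply e'.injective
    have hlab : ∀ (i : ι) (b : H i), e' (e.symm ⟨i, b⟩) = ⟨f i, θ i b⟩ := by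
      intro i b
      rw [he', Equiv.trans_apply, Equiv.apply_symm_apply]
      rfl
    rw [trans_apply, trans_apply, Equiv.apply_symm_apply, Equiv.apply_symm_apply, hlab, hlab, map_mul,
      MulEquiv.apply_symm_apply]
  apply le_antisymm
  · rintro _ ⟨g, rfl⟩; exact ⟨_, (key g).symm⟩
  · rintro _ ⟨g, rfl⟩
    obtain ⟨g', hg'⟩ : ∃ g' : ∀ j, K j, ∀ i, g' (f i) = θ i (g i) := by
      refine ⟨fun j => f.apply_symm_apply j ▸ θ (f.symm j) (g (f.symm j)), fun i => ?_⟩
      have : ∀ (i' : ι) (h : f i' = f i), (h ▸ θ i' (g i') : K (f i)) = θ i (g i) := by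
        intro i' h
        obtain rfl := f.injective h
        rfl
      exact this _ _
    exact ⟨g', by rw [key]; congr 1; funext i; simp [hg']⟩

/-- Relabelling inside the summands. -/
theorem range_trans_congr {K : ι → Type*} [∀ j, Group (K j)] (e : Ω ≃ Σ i, H i) (θ : ∀ i, H i ≃* K i) :
    (trans (e.trans (Equiv.sigmaCongrRight fun i => (θ i).toEquiv))).range = (trans e).range := by
  have key : ∀ g : ∀ j, K j, trans (e.trans (Equiv.sigmaCongrRight fun i => (θ i).toEquiv)) g =
      trans e (fun i => (θ i).symm (g i)) := by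
    intro g
    ext ω
    obtain ⟨⟨i, a⟩, rfl⟩ := e.symm.surjective ω
    rw [trans_apply, trans_apply, Equiv.trans_apply, Equiv.apply_symm_apply]
    apply e.injective
    simp only [Equiv.symm_trans_apply, Equiv.apply_symm_apply]
    show (⟨i, (θ i).symm (g i * θ i a)⟩ : Σ i, H i) = ⟨i, (θ i).symm (g i) * a⟩
    rw [map_mul, MulEquiv.symm_apply_apply]
  apply le_antisymm
  · rintro _ ⟨g, rfl⟩; exact ⟨_, (key g).symm⟩
  · rintro _ ⟨g, rfl⟩
    exact ⟨fun i => θ i (g i), by rw [key]; simp⟩

theorem sign_single [Fintype ι] [DecidableEq ι] [∀ i, Fintype (H i)] [∀ i, DecidableEq (H i)] (i : ι)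
    (τ : Perm (H i)) :
    Perm.sign (Equiv.sigmaCongrRight (Function.update (fun j => (1 : Perm (H j))) i τ)) = Perm.sign τ := by
  induction τ using Perm.swap_induction_on with
  | one =>
    rw [show Function.update (fun j => (1 : Perm (H j))) i 1 = fun j => 1 by simp]
    rw [show (Equiv.sigmaCongrRight fun j => (1 : Perm (H j))) = 1 from Equiv.ext fun x => rfl, map_one, map_one]
  | swap_mul τ a b hab ih =>
    rw [map_mul, ← ih, Perm.sign_swap hab]
    have : Equiv.sigmaCongrRight (Function.update (fun j => (1 : Perm (H j))) i (swap a b * τ)) =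
        swap (⟨i, a⟩ : Σ j, H j) ⟨i, b⟩ * Equiv.sigmaCongrRight (Function.update (fun j => (1 : Perm (H j))) i τ) := by
      ext ⟨j, x⟩ : 1
      simp only [Perm.mul_apply, Equiv.sigmaCongrRight_apply]
      by_cases hj : j = i
      · subst hj
        simp only [Function.update_self, Perm.mul_apply]
        rw [← Function.Injective.map_swap (sigma_mk_injective (i := j))]
      · simp only [Function.update_of_ne hj, Perm.one_apply]
        rw [swap_apply_of_ne_of_ne] <;> simp [hj]
    rw [this, map_mul, Perm.sign_swap]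
    simp [hab]

theorem sign_trans_single [Fintype Ω] [DecidableEq Ω] [Fintype ι] [DecidableEq ι] [∀ i, Fintype (H i)]
    [∀ i, DecidableEq (H i)] (e : Ω ≃ Σ i, H i) (i : ι) (a : H i) :
    Perm.sign (trans e (Pi.mulSingle i a)) = Perm.sign (Equiv.mulLeft a) := by
  show Perm.sign (e.symm.permCongr (Equiv.sigmaCongrRight fun j => Equiv.mulLeft (Pi.mulSingle i a j))) = _
  rw [Perm.sign_permCongr, ← sign_single i (Equiv.mulLeft a)]
  congr 2
  funext j
  by_cases hj : j = i
  · subst hj; simp
  · rw [Pi.mulSingle_eq_of_ne hj, Function.update_of_ne hj]; ext x; simp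

end trans

/-- The model group of a given shape. -/
abbrev Model (m : ℕ) : Type := Multiplicative (ZMod (if m = 4 then 2 else m) × ZMod (if m = 4 then 2 else 1))

/-- Transport along an equality of sizes. -/
def modelCast {m m' : ℕ} (h : m = m') : Model m ≃* Model m' := h ▸ MulEquiv.refl _

theorem iso_model {X : Type u} [Group X] [Finite X] (hX : Nat.card X = 3 ∨ Nat.card X = 5 ∨ (Nat.card X = 4 ∧ Monoid.exponent X = 2))
    {m : ℕ} (hm : Nat.card X = m) : Nonempty (X ≃* Model m) := by
  subst hm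
  rcases hX with h | h | ⟨h, h'⟩
  · rw [h]
    haveI := Fact.mk Nat.prime_three
    exact ⟨mulEquivOfPrimeCardEq h (by rw [Nat.card_eq_fintype_card]; rfl)⟩
  · rw [h]
    haveI := Fact.mk Nat.prime_five
    exact ⟨mulEquivOfPrimeCardEq h (by rw [Nat.card_eq_fintype_card]; rfl)⟩
  · rw [h]
    haveI : IsKleinFour X := ⟨h, h'⟩
    exact IsKleinFour.nonempty_mulEquiv (G₁ := X) (G₂ := Multiplicative (ZMod 2 × ZMod 2))

theorem odd_aut_three : ∃ d : Multiplicative (ZMod 3 × ZMod 1) ≃* Multiplicative (ZMod 3 × ZMod 1),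
    Perm.sign d.toEquiv = -1 :=
  ⟨{ toFun := fun x => Multiplicative.ofAdd (-(Multiplicative.toAdd x))
     invFun := fun x => Multiplicative.ofAdd (-(Multiplicative.toAdd x))
     left_inv := by decide
     right_inv := by decide
     map_mul' := by decide }, by decide⟩

theorem odd_aut_four : ∃ d : Multiplicative (ZMod 2 × ZMod 2) ≃* Multiplicative (ZMod 2 × ZMod 2),
    Perm.sign d.toEquiv = -1 :=
  ⟨{ toFun := fun x => Multiplicative.ofAdd ((Multiplicative.toAdd x).2, (Multiplicative.toAdd x).1)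
     invFun := fun x => Multiplicative.ofAdd ((Multiplicative.toAdd x).2, (Multiplicative.toAdd x).1)
     left_inv := by decide
     right_inv := by decide
     map_mul' := by decide }, by decide⟩

theorem odd_aut_five : ∃ d : Multiplicative (ZMod 5 × ZMod 1) ≃* Multiplicative (ZMod 5 × ZMod 1),
    Perm.sign d.toEquiv = -1 :=
  ⟨{ toFun := fun x => Multiplicative.ofAdd (2 * (Multiplicative.toAdd x).1, (Multiplicative.toAdd x).2)
     invFun := fun x => Multiplicative.ofAdd (3 * (Multiplicative.toAdd x).1, (Multiplicative.toAdd x).2)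
     left_inv := by decide
     right_inv := by decide
     map_mul' := by decide }, by decide⟩

theorem exists_odd_aut {X : Type*} [Group X] [Fintype X] [DecidableEq X] (m : ℕ) (hm : m = 3 ∨ m = 4 ∨ m = 5)
    (θ : X ≃* Model m) : ∃ φ : X ≃* X, Perm.sign φ.toEquiv = -1 := by
  have key : ∀ {Y : Type} [Group Y] [Fintype Y] [DecidableEq Y], (X ≃* Y) → (∃ d : Y ≃* Y, Perm.sign d.toEquiv = -1) →
      ∃ φ : X ≃* X, Perm.sign φ.toEquiv = -1 := by
    intro Y _ _ _ θ ⟨d, hd⟩
    refine ⟨(θ.trans d).trans θ.symm, ?_⟩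
    rw [show ((θ.trans d).trans θ.symm).toEquiv = θ.toEquiv.symm.permCongr d.toEquiv from Equiv.ext fun x => rfl,
      Perm.sign_permCongr, hd]
  rcases hm with rfl | rfl | rfl
  · exact key (Y := Multiplicative (ZMod 3 × ZMod 1)) θ odd_aut_three
  · exact key (Y := Multiplicative (ZMod 2 × ZMod 2)) θ odd_aut_four
  · exact key (Y := Multiplicative (ZMod 5 × ZMod 1)) θ odd_aut_five

theorem even_three : ∀ a : Multiplicative (ZMod 3 × ZMod 1), Perm.sign (Equiv.mulLeft a) = 1 := by decide
theorem even_four : ∀ a : Multiplicative (ZMod 2 × ZMod 2), Perm.sign (Equiv.mulLeft a) = 1 := by decide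
theorem even_five : ∀ a : Multiplicative (ZMod 5 × ZMod 1), Perm.sign (Equiv.mulLeft a) = 1 := by decide

theorem even_model {X : Type*} [Group X] [Fintype X] [DecidableEq X] (m : ℕ) (hm : m = 3 ∨ m = 4 ∨ m = 5)
    (θ : X ≃* Model m) (a : X) : Perm.sign (Equiv.mulLeft a) = 1 := by
  have key : ∀ {Y : Type} [Group Y] [Fintype Y] [DecidableEq Y], (X ≃* Y) → (∀ b : Y, Perm.sign (Equiv.mulLeft b) = 1) →
      Perm.sign (Equiv.mulLeft a) = 1 := by
    intro Y _ _ _ θ h
    rw [show Equiv.mulLeft a = θ.toEquiv.symm.permCongr (Equiv.mulLeft (θ a)) from Equiv.ext fun x => by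
      simp [Equiv.permCongr_apply], Perm.sign_permCongr, h]
  rcases hm with rfl | rfl | rfl
  · exact key (Y := Multiplicative (ZMod 3 × ZMod 1)) θ even_three
  · exact key (Y := Multiplicative (ZMod 2 × ZMod 2)) θ even_four
  · exact key (Y := Multiplicative (ZMod 5 × ZMod 1)) θ even_five

section main

variable {Ω : Type u} [Fintype Ω] [DecidableEq Ω]

/-- An abelian subgroup of the alternating group of the target order exists. -/
theorem exists_large (hn : 3 ≤ Fintype.card Ω) : ∃ C : Subgroup (Perm Ω), C ≤ alternatingGroup Ω ∧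
    (∀ a ∈ C, ∀ b ∈ C, a * b = b * a) ∧ target (Fintype.card Ω) ≤ Nat.card C := by
  classical
  obtain ⟨h1, h2, -⟩ := target_eq (Fintype.card Ω) hn
  set n := Fintype.card Ω
  let κ : Fin (threes n) ⊕ (Fin (fours n) ⊕ Fin (fives n)) → ℕ := Sum.elim (fun _ => 3) (Sum.elim (fun _ => 4) fun _ => 5)
  have hκ : ∀ i, κ i = 3 ∨ κ i = 4 ∨ κ i = 5 := by rintro (_ | _ | _) <;> simp [κ]
  haveI : ∀ i, Finite (Model (κ i)) := fun i => by
    apply Nat.finite_of_card_ne_zero
    rcases hκ i with h | h | h <;> rw [h] <;> norm_num [Nat.card_eq_fintype_card]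
  letI : ∀ i, Fintype (Model (κ i)) := fun i => Fintype.ofFinite _
  have hc : ∀ i, Nat.card (Model (κ i)) = κ i := by
    intro i
    rcases hκ i with h | h | h <;> rw [h] <;> norm_num [Nat.card_eq_fintype_card]
  have hsum : Fintype.card (Σ i, Model (κ i)) = n := by
    rw [Fintype.card_sigma]
    simp only [← Nat.card_eq_fintype_card, hc]
    simp [κ, Fintype.sum_sum_type]
    omega
  let e : Ω ≃ Σ i, Model (κ i) := Fintype.equivOfCardEq hsum.symm
  refine ⟨(trans e).range, ?_, ?_, ?_⟩
  · rintro _ ⟨g, rfl⟩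
    rw [Equiv.Perm.mem_alternatingGroup]
    have this_aux : ∀ i, Perm.sign (Equiv.mulLeft (g i)) = 1 := fun i =>
      even_model (κ i) (hκ i) (MulEquiv.refl _) (g i)
    show Perm.sign (e.symm.permCongr (Equiv.sigmaCongrRight fun i => Equiv.mulLeft (g i))) = 1
    rw [Equiv.Perm.sign_permCongr]
    -- one summand at a time
    suffices ∀ s : Finset _, Perm.sign (Equiv.sigmaCongrRight fun i => if i ∈ s then Equiv.mulLeft (g i) else (1 : Perm (Model (κ i)))) = 1 by
      simpa using this Finset.univ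
    intro s
    induction s using Finset.induction_on with
    | empty =>
      simp only [Finset.notMem_empty, if_false]
      rw [show (Equiv.sigmaCongrRight fun j => (1 : Perm (Model (κ j)))) = 1 from Equiv.ext fun x => rfl, map_one]
    | @insert a t hat ih =>
      have : (Equiv.sigmaCongrRight fun i => if i ∈ insert a t then Equiv.mulLeft (g i) else (1 : Perm (Model (κ i)))) =
          Equiv.sigmaCongrRight (Function.update (fun j => (1 : Perm (Model (κ j)))) a (Equiv.mulLeft (g a))) *
            Equiv.sigmaCongrRight fun i => if i ∈ t then Equiv.mulLeft (g i) else (1 : Perm (Model (κ i))) := by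
        ext ⟨j, x⟩ : 1
        simp only [Perm.mul_apply, Equiv.sigmaCongrRight_apply]
        by_cases hj : j = a
        · subst hj; simp [hat]
        · simp [hj]
      rw [this, map_mul, sign_single, ih, this_aux a, one_mul]
  · rintro _ ⟨g, rfl⟩ _ ⟨g', rfl⟩
    rw [← map_mul, ← map_mul, mul_comm]
  · rw [card_range_trans, h2]
    simp only [hc]
    simp [κ, Fintype.prod_sum_type, mul_assoc]

set_option maxHeartbeats 1000000 in
/-- A largest abelian subgroup of the alternating group is a translation group of the standard shape. -/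
theorem structure_of_max (hn : 3 ≤ Fintype.card Ω) (A : Subgroup (Perm Ω)) (hA : A ≤ alternatingGroup Ω)
    (hab : ∀ a ∈ A, ∀ b ∈ A, a * b = b * a)
    (hmax : ∀ C : Subgroup (Perm Ω), C ≤ alternatingGroup Ω → (∀ a ∈ C, ∀ b ∈ C, a * b = b * a) → Nat.card C ≤ Nat.card A) :
    ∃ (ι : Type u) (_ : Fintype ι) (κ : ι → ℕ) (e : Ω ≃ Σ i, Model (κ i)), A = (trans e).range ∧
      (∀ i, κ i = 3 ∨ κ i = 4 ∨ κ i = 5) ∧ Nat.card {i // κ i = 3} = threes (Fintype.card Ω) ∧
      Nat.card {i // κ i = 4} = fours (Fintype.card Ω) ∧ Nat.card {i // κ i = 5} = fives (Fintype.card Ω) := by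
  classical
  letI : CommGroup A := { mul_comm := fun a b => Subtype.ext (hab a a.2 b b.2) }
  let I := MulAction.orbitRel.Quotient A Ω
  let e : Ω ≃ Σ i : I, A ⧸ MulAction.stabilizer A i.out := MulAction.selfEquivSigmaOrbitsQuotientStabilizer A Ω
  -- the labelling is equivariant
  have hsymm : ∀ (i : I) (a : A), e.symm ⟨i, (a : A ⧸ MulAction.stabilizer A i.out)⟩ = a • i.out := by
    intro i a
    rfl
  have hle : A ≤ (trans e).range := by
    intro a ha
    refine ⟨fun i => ((⟨a, ha⟩ : A) : A ⧸ MulAction.stabilizer A i.out), ?_⟩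
    ext ω
    obtain ⟨⟨i, q⟩, rfl⟩ := e.symm.surjective ω
    obtain ⟨b, rfl⟩ := QuotientGroup.mk_surjective q
    rw [trans_apply, Equiv.apply_symm_apply]
    show e.symm ⟨i, ((⟨a, ha⟩ * b : A) : A ⧸ MulAction.stabilizer A i.out)⟩ = _
    rw [hsymm, hsymm, mul_smul]
    rfl
  have hPab : ∀ x ∈ (trans e).range, ∀ y ∈ (trans e).range, x * y = y * x := by
    rintro _ ⟨g, rfl⟩ _ ⟨g', rfl⟩
    rw [← map_mul, ← map_mul, mul_comm]
  obtain ⟨C, hC, hCab, hCcard⟩ := exists_large hn
  have hAt : target (Fintype.card Ω) ≤ Nat.card A := hCcard.trans (hmax C hC hCab)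
  set m : I → ℕ := fun i => Nat.card (A ⧸ MulAction.stabilizer A i.out) with hm
  have hsum : ∑ i, m i = Fintype.card Ω := by
    rw [← Nat.card_eq_fintype_card, Nat.card_congr e, Nat.card_sigma]
  have hPcard : Nat.card (trans e).range = ∏ i, m i := card_range_trans e
  have hPle : Nat.card (trans e).range ≤ maxProd (Fintype.card Ω) := by
    rw [hPcard, ← hsum]; exact prod_le_maxProd _ _
  -- translations are even
  have hPA : (trans e).range ≤ alternatingGroup Ω := by
    by_contra hh
    obtain ⟨σ, hσ, hσA⟩ := SetLike.not_le_iff_exists.1 hh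
    have h2 : 2 * Nat.card A ≤ Nat.card (trans e).range := by
      obtain ⟨c, hc⟩ := Subgroup.card_dvd_of_le hle
      rw [hc, mul_comm]
      refine Nat.mul_le_mul_left _ ?_
      by_contra hc2
      interval_cases c
      · rw [mul_zero] at hc; exact Nat.card_pos.ne' hc
      · rw [mul_one] at hc
        exact hσA (hA ((Subgroup.eq_of_le_of_card_ge hle hc.le) ▸ hσ))
    have := (target_eq _ hn).2.2.2
    omega
  have hAP : A = (trans e).range := Subgroup.eq_of_le_of_card_ge hle (hmax _ hPA hPab)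
  have hm0 : ∀ i, m i ≠ 0 := fun i => Nat.card_pos.ne'
  -- odd components are excluded
  have heven : ∀ (i : I) (a : A ⧸ MulAction.stabilizer A i.out), Perm.sign (Equiv.mulLeft a) = 1 := by
    intro i a
    rw [← sign_trans_single e i a]
    exact Equiv.Perm.mem_alternatingGroup.1 (hPA (MonoidHom.mem_range.2 ⟨_, rfl⟩))
  have horder : ∀ (i : I) (a : A ⧸ MulAction.stabilizer A i.out), orderOf a = m i → ¬ Even (m i) := by
    intro i a ha he
    have h1 := heven i a
    have hsupp : (Equiv.mulLeft a).IsCycle ∧ (Equiv.mulLeft a).support.card = m i := by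
      have hne : a ≠ 1 := fun h => by
        rw [h, orderOf_one] at ha; obtain ⟨k, hk⟩ := he; omega
      have hs : (Equiv.mulLeft a).support = Finset.univ := by
        ext x; simp [Equiv.Perm.mem_support, hne]
      refine ⟨⟨1, by simp [hne], fun y _ => ?_⟩, by rw [hs, Finset.card_univ, ← Nat.card_eq_fintype_card]⟩
      have : y ∈ Subgroup.zpowers a := by
        rw [Subgroup.eq_top_of_card_eq (Subgroup.zpowers a) (by rw [Nat.card_zpowers, ha])]; exact Subgroup.mem_top y
      obtain ⟨k, rfl⟩ := this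
      exact ⟨k, by rw [Equiv.zpow_mulLeft]; simp⟩
    rw [hsupp.1.sign, hsupp.2, he.neg_one_pow] at h1
    exact absurd h1 (by decide)
  have hm2 : ∀ i, m i ≠ 2 := by
    intro i h
    haveI := Fact.mk Nat.prime_two
    obtain ⟨a, ha⟩ := exists_prime_orderOf_dvd_card' (G := A ⧸ MulAction.stabilizer A i.out) 2 (by
      show 2 ∣ m i
      rw [h])
    exact horder i a (ha.trans h.symm) (by rw [h]; decide)
  obtain ⟨hparts, h3, h4, h5⟩ := shape m _ hn hsum hm2 hm0 (by rw [← hPcard, ← hAP]; exact hAt)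
  have hiso : ∀ i, Nonempty ((A ⧸ MulAction.stabilizer A i.out) ≃* Model (m i)) := by
    intro i
    refine iso_model ?_ rfl
    rcases hparts i with h | h | h
    · exact Or.inl h
    · refine Or.inr (Or.inr ⟨h, ?_⟩)
      refine Nat.dvd_antisymm (Monoid.exponent_dvd_of_forall_pow_eq_one fun a => ?_) ?_
      · have hd : orderOf a ∣ 4 := h ▸ orderOf_dvd_natCard a
        have hn4 : orderOf a ≠ 4 := fun e4 => horder i a (e4.trans h.symm) (by rw [h]; decide)
        have hle4 := Nat.le_of_dvd (by norm_num) hd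
        apply orderOf_dvd_iff_pow_eq_one.1
        interval_cases hh : orderOf a <;> omega
      · haveI := Fact.mk Nat.prime_two
        obtain ⟨a, ha⟩ := exists_prime_orderOf_dvd_card' (G := A ⧸ MulAction.stabilizer A i.out) 2 (by
          show 2 ∣ m i
          rw [h]; norm_num)
        exact ha ▸ Monoid.order_dvd_exponent a
    · exact Or.inr (Or.inl h)
  refine ⟨I, inferInstance, m, e.trans (Equiv.sigmaCongrRight fun i => (hiso i).some.toEquiv), ?_, hparts, ?_, ?_, ?_⟩
  · exact hAP.trans (range_trans_congr e fun i => (hiso i).some).symm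
  all_goals rw [Nat.card_eq_fintype_card, Fintype.card_subtype]
  · convert h3 using 2
  · convert h4 using 2
  · convert h5 using 2

/-- Conjugation carries translations to translations. -/
theorem conj_trans {ι : Type*} {H : ι → Type*} [∀ i, Group (H i)] (e e' : Ω ≃ Σ i, H i) (g : ∀ i, H i) :
    MulAut.conj (e'.trans e.symm : Perm Ω) (trans e' g) = trans e g := by
  rw [MulAut.conj_apply, mul_inv_eq_iff_eq_mul]
  ext ω
  rw [Perm.mul_apply, Perm.mul_apply, trans_apply, trans_apply, Equiv.trans_apply, Equiv.trans_apply,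
    Equiv.apply_symm_apply, Equiv.apply_symm_apply]

end main

set_option maxHeartbeats 1000000 in
/-- In the alternating group of any degree, any two abelian subgroups of the largest possible order (among abelian subgroups) are conjugate. -/
theorem result (n : ℕ)
    (A B : Subgroup (alternatingGroup (Fin n))) (hA : IsMulCommutative A) (hB : IsMulCommutative B)
    (hAmax : ∀ C : Subgroup (alternatingGroup (Fin n)), IsMulCommutative C → Nat.card C ≤ Nat.card A)
    (hBmax : ∀ C : Subgroup (alternatingGroup (Fin n)), IsMulCommutative C → Nat.card C ≤ Nat.card B) :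
    ∃ g : alternatingGroup (Fin n), B = MulAut.conj g • A := by
  classical
  by_cases hn : n < 3
  · haveI : Subsingleton (alternatingGroup (Fin n)) := by
      refine (Nat.card_eq_one_iff_unique.mp ?_).1
      interval_cases n <;> simp [Nat.card_eq_fintype_card] <;> decide
    exact ⟨1, Subgroup.ext fun x => by simp [Subsingleton.elim x 1, one_mem]⟩
  push Not at hn
  have lift : ∀ A : Subgroup (alternatingGroup (Fin n)), IsMulCommutative A →
      (∀ C : Subgroup (alternatingGroup (Fin n)), IsMulCommutative C → Nat.card C ≤ Nat.card A) →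
      ∃ (ι : Type) (_ : Fintype ι) (κ : ι → ℕ) (e : Fin n ≃ Σ i, Model (κ i)),
        A.map (alternatingGroup (Fin n)).subtype = (trans e).range ∧ (∀ i, κ i = 3 ∨ κ i = 4 ∨ κ i = 5) ∧
        Nat.card {i // κ i = 3} = threes n ∧ Nat.card {i // κ i = 4} = fours n ∧ Nat.card {i // κ i = 5} = fives n := by
    intro A hAc hmax
    have := structure_of_max (Ω := Fin n) (by simpa using hn) (A.map (alternatingGroup (Fin n)).subtype)
      (Subgroup.map_subtype_le _) ?_ ?_
    · rwa [Fintype.card_fin] at this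
    · rintro _ ⟨a, ha, rfl⟩ _ ⟨b, hb, rfl⟩
      exact congrArg Subtype.val (congrArg Subtype.val (hAc.is_comm.comm ⟨a, ha⟩ ⟨b, hb⟩))
    · intro C hC hCc
      rw [Subgroup.card_map_of_injective (alternatingGroup (Fin n)).subtype_injective,
        ← Nat.card_congr (Subgroup.subgroupOfEquivOfLe hC).toEquiv]
      exact hmax _ ⟨⟨fun a b => Subtype.ext (Subtype.ext (hCc _ a.2 _ b.2))⟩⟩
  obtain ⟨ι, _, κ, eA, hAe, hκ, a3, a4, a5⟩ := lift A hA hAmax
  obtain ⟨ι', _, κ', eB, hBe, hκ', b3, b4, b5⟩ := lift B hB hBmax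
  have hfib : ∀ c : ℕ, Nat.card {i // κ i = c} = Nat.card {j // κ' j = c} := by
    intro c
    by_cases h : c = 3 ∨ c = 4 ∨ c = 5
    · rcases h with rfl | rfl | rfl
      · rw [a3, b3]
      · rw [a4, b4]
      · rw [a5, b5]
    · haveI : IsEmpty {i // κ i = c} := ⟨fun i => h (i.2 ▸ hκ i.1)⟩
      haveI : IsEmpty {j // κ' j = c} := ⟨fun i => h (i.2 ▸ hκ' i.1)⟩
      simp
  let F : ∀ c, {i // κ i = c} ≃ {j // κ' j = c} := fun c =>
    Fintype.equivOfCardEq (by rw [← Nat.card_eq_fintype_card, ← Nat.card_eq_fintype_card, hfib])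
  let f : ι ≃ ι' := (Equiv.sigmaFiberEquiv κ).symm.trans ((Equiv.sigmaCongrRight F).trans (Equiv.sigmaFiberEquiv κ'))
  have hf : ∀ i, κ i = κ' (f i) := fun i => (F (κ i) ⟨i, rfl⟩).2.symm
  let θ : ∀ i, Model (κ i) ≃* Model (κ' (f i)) := fun i => modelCast (hf i)
  let e₁ := eA.trans (Equiv.sigmaCongr (β₂ := fun j => Model (κ' j)) f fun i => (θ i).toEquiv)
  have hA₁ : A.map (alternatingGroup (Fin n)).subtype = (trans e₁).range :=
    hAe.trans (range_trans_relabel (H := fun i => Model (κ i)) (K := fun j => Model (κ' j)) eA f θ).symm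
  haveI : ∀ j, Finite (Model (κ' j)) := fun j => Finite.of_injective (fun x => eB.symm ⟨j, x⟩)
    (eB.symm.injective.comp sigma_mk_injective)
  letI : ∀ j, Fintype (Model (κ' j)) := fun j => Fintype.ofFinite _
  obtain ⟨e₂, hA₂, hsign⟩ : ∃ e₂ : Fin n ≃ Σ j, Model (κ' j),
      A.map (alternatingGroup (Fin n)).subtype = (trans e₂).range ∧ Perm.sign (e₂.trans eB.symm) = 1 := by
    rcases Int.units_eq_one_or (Perm.sign (e₁.trans eB.symm)) with hs | hs
    · exact ⟨e₁, hA₁, hs⟩
    obtain ⟨j₀⟩ : Nonempty ι' := ⟨(eB ⟨0, by omega⟩).1⟩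
    obtain ⟨φ, hφ⟩ := exists_odd_aut (X := Model (κ' j₀)) _ (hκ' j₀) (MulEquiv.refl _)
    let ψ : ∀ j, Model (κ' j) ≃* Model (κ' j) := Function.update (fun j => MulEquiv.refl _) j₀ φ
    refine ⟨e₁.trans (Equiv.sigmaCongrRight fun j => (ψ j).toEquiv),
      hA₁.trans (range_trans_congr e₁ ψ).symm, ?_⟩
    have hdec : (e₁.trans (Equiv.sigmaCongrRight fun j => (ψ j).toEquiv)).trans eB.symm =
        (e₁.trans eB.symm : Perm (Fin n)) * e₁.symm.permCongr (Equiv.sigmaCongrRight
          (Function.update (fun j => (1 : Perm (Model (κ' j)))) j₀ φ.toEquiv)) := by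
      ext ω : 1
      have hψ : ∀ j, (ψ j).toEquiv = Function.update (fun j => (1 : Perm (Model (κ' j)))) j₀ φ.toEquiv j := by
        intro j
        by_cases hj : j = j₀
        · subst hj; simp [ψ]
        · simp [ψ, hj]; rfl
      simp [Equiv.permCongr_apply, Perm.mul_apply]
      exact Equiv.congr_fun (hψ _) _
    rw [hdec, map_mul, Perm.sign_permCongr, sign_single, hs, hφ]
    decide
  refine ⟨⟨e₂.trans eB.symm, Equiv.Perm.mem_alternatingGroup.2 hsign⟩, ?_⟩
  apply Subgroup.map_injective (alternatingGroup (Fin n)).subtype_injective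
  rw [hBe, Subgroup.pointwise_smul_def]
  have hc : ∀ g : ∀ j, Model (κ' j), MulAut.conj (e₂.trans eB.symm : Perm (Fin n)) (trans e₂ g) = trans eB g :=
    conj_trans eB e₂
  ext x
  constructor
  · rintro ⟨g, rfl⟩
    obtain ⟨a, ha, hag⟩ : trans e₂ g ∈ A.map (alternatingGroup (Fin n)).subtype := hA₂ ▸ ⟨g, rfl⟩
    refine ⟨_, ⟨a, ha, rfl⟩, ?_⟩
    rw [← hc g, ← hag]
    rfl
  · rintro ⟨_, ⟨a, ha, rfl⟩, rfl⟩
    obtain ⟨g, hg⟩ : (a : Perm (Fin n)) ∈ (trans e₂).range := hA₂ ▸ ⟨a, ha, rfl⟩
    refine ⟨g, ?_⟩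
    rw [← hc g, hg]
    rfl

end Cfsg.Agent.S2506
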