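import Cfsg.Statements.S2507
import Cfsg.Agent.Psl2Cover.CentCard
-- import your own Cfsg.Agent.* helpers here

set_option autoImplicit false
open Cfsg

namespace Cfsg.Agent.S2507

/-- Let F be a finite field with q = 2^f ≥ 4 elements. The conjugacy class sizes of PSL(2,F) are exactly 1, q(q − 1), q² − 1 and q(q + 1). -/
theorem result {F : Type*} [Field F] [Fintype F]
    (h2 : 2 ∣ Fintype.card F) (h4 : 4 ≤ Fintype.card F) :
    Set.range (fun g : (Matrix.ProjectiveSpecialLinearGroup (Fin 2) F) => (Subgroup.centralizer ({g} : Set (Matrix.ProjectiveSpecialLinearGroup (Fin 2) F))).index) =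
      {1, Fintype.card F * (Fintype.card F - 1), Fintype.card F ^ 2 - 1, Fintype.card F * (Fintype.card F + 1)} := by
  classical
  haveI hchar : CharP F 2 := by
    obtain ⟨p, hp⟩ := CharP.exists F
    obtain ⟨n, hpp, hcard⟩ := FiniteField.card F p
    rw [hcard] at h2
    obtain rfl : 2 = p :=
      (Nat.prime_dvd_prime_iff_eq Nat.prime_two hpp).1 (Nat.prime_two.dvd_of_dvd_pow h2)
    exact hp
  have h20 : (2 : F) = 0 := CharTwo.two_eq_zero
  set q := Fintype.card F with hq
  have hd : Nat.gcd 2 (q - 1) = 1 := by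
    rw [hq, ← CfsgLib.Psl2Cover.center_card, CfsgLib.SL2.center_eq_bot, Subgroup.card_bot]
  have hG : Nat.card (Matrix.ProjectiveSpecialLinearGroup (Fin 2) F) = q * (q ^ 2 - 1) :=
    CfsgLib.SL2.card_PSL_two
  have hfac : q ^ 2 - 1 = (q + 1) * (q - 1) := by simpa using Nat.sq_sub_sq q 1
  have hidx : ∀ (x : Matrix.ProjectiveSpecialLinearGroup (Fin 2) F) (c v : ℕ),
      CfsgLib.Psl2Cover.centCard x = c → c ≠ 0 → v * c = q * (q ^ 2 - 1) →
      (Subgroup.centralizer ({x} : Set (Matrix.ProjectiveSpecialLinearGroup (Fin 2) F))).index =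
        v := by
    intro x c v hc hc0 hv
    refine Nat.eq_of_mul_eq_mul_right (Nat.pos_of_ne_zero hc0) ?_
    rw [hv, ← hG, ← hc]
    exact Subgroup.index_mul_card _
  have hA : q * (q - 1) * (q + 1) = q * (q ^ 2 - 1) := by rw [hfac]; ring
  have hB : q * (q + 1) * (q - 1) = q * (q ^ 2 - 1) := by rw [hfac]; ring
  have hC : (q ^ 2 - 1) * q = q * (q ^ 2 - 1) := mul_comm _ _
  ext m
  simp only [Set.mem_range, Set.mem_insert_iff, Set.mem_singleton_iff]
  constructor
  · rintro ⟨x, rfl⟩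
    rcases CfsgLib.Psl2Cover.centCard_cases x with h | h | h | h | ⟨h, -⟩
    · subst h
      exact .inl (hidx 1 _ 1 CfsgLib.Psl2Cover.centCard_one Nat.card_pos.ne' (by rw [one_mul, hG]))
    · exact .inr (.inr (.inl (hidx x _ _ h (by omega) hC)))
    · rw [hd, Nat.div_one] at h
      exact .inr (.inr (.inr (hidx x _ _ h (by omega) hB)))
    · rw [hd, Nat.div_one] at h
      exact .inr (.inl (hidx x _ _ h (by omega) hA))
    · exact absurd h20 h
  · rintro (rfl | rfl | rfl | rfl)
    · exact ⟨1, hidx 1 _ 1 CfsgLib.Psl2Cover.centCard_one Nat.card_pos.ne' (by rw [one_mul, hG])⟩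
    · obtain ⟨x, hx⟩ := CfsgLib.Psl2Cover.exists_centCard_add_one (F := F) h4
      rw [hd, Nat.div_one] at hx
      exact ⟨x, hidx x _ _ hx (by omega) hA⟩
    · exact ⟨_, hidx _ _ _ (CfsgLib.Psl2Cover.centCard_u (F := F) one_ne_zero) (by omega) hC⟩
    · obtain ⟨x, hx⟩ := CfsgLib.Psl2Cover.exists_centCard_sub_one (F := F) h4 (.inr h20)
      rw [hd, Nat.div_one] at hx
      exact ⟨x, hidx x _ _ hx (by omega) hB⟩

end Cfsg.Agent.S2507
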