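import Cfsg.Statements.S2508
import Cfsg.Agent.Psl2Cover.CentCard
-- import your own Cfsg.Agent.* helpers here

set_option autoImplicit false
open Cfsg

namespace Cfsg.Agent.S2508

/-- Let F be a finite field with q elements, q odd and q ≥ 7. If q ≡ 1 (mod 4) the conjugacy class sizes of PSL(2,F) are exactly 1, (q² − 1)/2, q(q + 1)/2, q(q − 1) and q(q + 1); if q ≡ 3 (mod 4) they are exactly 1, (q² − 1)/2, q(q − 1)/2, q(q + 1) and q(q − 1). -/
theorem result {F : Type*} [Field F] [Fintype F]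
    (hodd : ¬ 2 ∣ Fintype.card F) (h7 : 7 ≤ Fintype.card F) :
    (Fintype.card F % 4 = 1 →
      Set.range (fun g : (Matrix.ProjectiveSpecialLinearGroup (Fin 2) F) => (Subgroup.centralizer ({g} : Set (Matrix.ProjectiveSpecialLinearGroup (Fin 2) F))).index) =
        {1, (Fintype.card F ^ 2 - 1) / 2, Fintype.card F * (Fintype.card F + 1) / 2,
          Fintype.card F * (Fintype.card F - 1), Fintype.card F * (Fintype.card F + 1)}) ∧
    (Fintype.card F % 4 = 3 →
      Set.range (fun g : (Matrix.ProjectiveSpecialLinearGroup (Fin 2) F) => (Subgroup.centralizer ({g} : Set (Matrix.ProjectiveSpecialLinearGroup (Fin 2) F))).index) =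
        {1, (Fintype.card F ^ 2 - 1) / 2, Fintype.card F * (Fintype.card F - 1) / 2,
          Fintype.card F * (Fintype.card F + 1), Fintype.card F * (Fintype.card F - 1)}) := by
  classical
  set q := Fintype.card F with hq
  have ho : Odd q := Nat.not_even_iff_odd.1 fun h => hodd (even_iff_two_dvd.1 h)
  have h20 : (2 : F) ≠ 0 := CfsgLib.SL2.two_ne_zero_iff_odd.2 ho
  have hd : Nat.gcd 2 (q - 1) = 2 := by
    rw [hq, ← CfsgLib.Psl2Cover.center_card, CfsgLib.SL2.card_center_odd h20]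
  obtain ⟨k, hk⟩ := ho
  have hfac : q ^ 2 - 1 = (q + 1) * (q - 1) := by simpa using Nat.sq_sub_sq q 1
  have e1 : (q - 1) / 2 = k := by omega
  have e2 : (q + 1) / 2 = k + 1 := by omega
  have e3 : (q ^ 2 - 1) / 2 = (q + 1) * k := by
    rw [hfac, show q - 1 = 2 * k by omega, show (q + 1) * (2 * k) = 2 * ((q + 1) * k) by ring,
      Nat.mul_div_cancel_left _ two_pos]
  have e4 : q * (q + 1) / 2 = q * (k + 1) := by
    rw [show q * (q + 1) = 2 * (q * (k + 1)) by rw [hk]; ring,
      Nat.mul_div_cancel_left _ two_pos]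
  have e5 : q * (q - 1) / 2 = q * k := by
    rw [show q - 1 = 2 * k by omega, show q * (2 * k) = 2 * (q * k) by ring,
      Nat.mul_div_cancel_left _ two_pos]
  set G := Nat.card (Matrix.ProjectiveSpecialLinearGroup (Fin 2) F) with hGdef
  have hG : G = q * ((q + 1) * k) := by
    have h := CfsgLib.SL2.card_PSL_mul_center (F := F)
    rw [CfsgLib.SL2.card_center_odd h20, ← hGdef, hfac, show q - 1 = 2 * k by omega] at h
    have h' : G * 2 = q * ((q + 1) * k) * 2 := by
      rw [show q * ((q + 1) * k) * 2 = q * ((q + 1) * (2 * k)) by ring]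
      linarith
    omega
  have hidx : ∀ (x : Matrix.ProjectiveSpecialLinearGroup (Fin 2) F) (c v : ℕ),
      CfsgLib.Psl2Cover.centCard x = c → c ≠ 0 → v * c = G →
      (Subgroup.centralizer ({x} : Set (Matrix.ProjectiveSpecialLinearGroup (Fin 2) F))).index =
        v := by
    intro x c v hc hc0 hv
    refine Nat.eq_of_mul_eq_mul_right (Nat.pos_of_ne_zero hc0) ?_
    rw [hv, hGdef, ← hc]
    exact Subgroup.index_mul_card _
  have hq1 : q - 1 = 2 * k := by omega
  have hA : q * (q + 1) * ((q - 1) / 2) = G := by rw [e1, hG]; ring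
  have hB : q * (q - 1) * ((q + 1) / 2) = G := by rw [e2, hG, hq1, hk]; ring
  have hC : (q ^ 2 - 1) / 2 * q = G := by rw [e3, hG]; ring
  have hI1 : q * (q + 1) / 2 * (q - 1) = G := by rw [e4, hG, hq1, hk]; ring
  have hI3 : q * (q - 1) / 2 * (q + 1) = G := by rw [e5, hG]; ring
  have hcases : ∀ x : Matrix.ProjectiveSpecialLinearGroup (Fin 2) F,
      let m := (Subgroup.centralizer
        ({x} : Set (Matrix.ProjectiveSpecialLinearGroup (Fin 2) F))).index
      m = 1 ∨ m = (q ^ 2 - 1) / 2 ∨ m = q * (q + 1) ∨ m = q * (q - 1) ∨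
        (q % 4 = 1 ∧ m = q * (q + 1) / 2) ∨ (q % 4 = 3 ∧ m = q * (q - 1) / 2) := by
    intro x m
    rcases CfsgLib.Psl2Cover.centCard_cases x with h | h | h | h | ⟨-, ⟨hs, h⟩ | ⟨hs, h⟩⟩
    · subst h
      exact .inl (hidx 1 _ 1 CfsgLib.Psl2Cover.centCard_one Nat.card_pos.ne' (by rw [one_mul]))
    · exact .inr (.inl (hidx x _ _ h (by omega) hC))
    · rw [hd] at h
      exact .inr (.inr (.inl (hidx x _ _ h (by omega) hA)))
    · rw [hd] at h
      exact .inr (.inr (.inr (.inl (hidx x _ _ h (by omega) hB))))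
    · rw [CfsgLib.Psl2Cover.isSplitTrace_zero_iff] at hs
      exact .inr (.inr (.inr (.inr (.inl ⟨by omega, hidx x _ _ h (by omega) hI1⟩))))
    · rw [CfsgLib.Psl2Cover.isSplitTrace_zero_iff] at hs
      exact .inr (.inr (.inr (.inr (.inr ⟨by omega, hidx x _ _ h (by omega) hI3⟩))))
  have x0 : (Subgroup.centralizer
      ({1} : Set (Matrix.ProjectiveSpecialLinearGroup (Fin 2) F))).index = 1 :=
    hidx 1 _ 1 CfsgLib.Psl2Cover.centCard_one Nat.card_pos.ne' (by rw [one_mul])
  obtain ⟨xu, hxu⟩ : ∃ x, CfsgLib.Psl2Cover.centCard (F := F) x = q :=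
    ⟨_, CfsgLib.Psl2Cover.centCard_u (F := F) one_ne_zero⟩
  obtain ⟨xs, hxs⟩ := CfsgLib.Psl2Cover.exists_centCard_sub_one (F := F) (by omega) (.inl (by omega))
  obtain ⟨xn, hxn⟩ := CfsgLib.Psl2Cover.exists_centCard_add_one (F := F) (by omega)
  rw [hd] at hxs hxn
  have yu := hidx xu _ _ hxu (by omega) hC
  have ys := hidx xs _ _ hxs (by omega) hA
  have yn := hidx xn _ _ hxn (by omega) hB
  obtain ⟨xi, hxi⟩ := CfsgLib.Psl2Cover.exists_centCard_involution (F := F) h20
  rw [CfsgLib.Psl2Cover.isSplitTrace_zero_iff] at hxi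
  refine ⟨fun hm => ?_, fun hm => ?_⟩
  · ext m
    simp only [Set.mem_range, Set.mem_insert_iff, Set.mem_singleton_iff]
    constructor
    · rintro ⟨x, rfl⟩
      rcases hcases x with h | h | h | h | ⟨-, h⟩ | ⟨h, -⟩
      · exact .inl h
      · exact .inr (.inl h)
      · exact .inr (.inr (.inr (.inr h)))
      · exact .inr (.inr (.inr (.inl h)))
      · exact .inr (.inr (.inl h))
      · omega
    · rcases hxi with ⟨-, hi⟩ | ⟨hs, -⟩
      swap
      · exact absurd (by omega) hs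
      rintro (rfl | rfl | rfl | rfl | rfl)
      exacts [⟨1, x0⟩, ⟨xu, yu⟩, ⟨xi, hidx xi _ _ hi (by omega) hI1⟩, ⟨xn, yn⟩, ⟨xs, ys⟩]
  · ext m
    simp only [Set.mem_range, Set.mem_insert_iff, Set.mem_singleton_iff]
    constructor
    · rintro ⟨x, rfl⟩
      rcases hcases x with h | h | h | h | ⟨h, -⟩ | ⟨-, h⟩
      · exact .inl h
      · exact .inr (.inl h)
      · exact .inr (.inr (.inr (.inl h)))
      · exact .inr (.inr (.inr (.inr h)))
      · omega
      · exact .inr (.inr (.inl h))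
    · rcases hxi with ⟨hs, -⟩ | ⟨-, hi⟩
      · exact absurd hm hs
      rintro (rfl | rfl | rfl | rfl | rfl)
      exacts [⟨1, x0⟩, ⟨xu, yu⟩, ⟨xi, hidx xi _ _ hi (by omega) hI3⟩, ⟨xs, ys⟩, ⟨xn, yn⟩]

end Cfsg.Agent.S2508
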