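import Cfsg.Statements.S2509
import Cfsg.Agent.Eq.Def_Classical
import Cfsg.Agent.PronSymp.Pi
import Cfsg.Agent.PronSymp.Main

set_option autoImplicit false
open Cfsg

namespace Cfsg.Agent.S2509

/-- Let G be a finite direct product of groups PSp_{2m_i}(F_i) (the symplectic group on a 2m_i-dimensional space modulo its centre), where each m_i is a power of 2 (m_i = 1, giving PSL₂, is allowed), each F_i is a finite field of odd order, and each factor PSp_{2m_i}(F_i) is a simple group. Then every subgroup H of G of odd index is pronormal in G: for every g ∈ G the subgroups H and gHg⁻¹ are conjugate by an element of the subgroup they generate. -/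
theorem result {t : ℕ}
    (m : Fin t → ℕ) (F : Fin t → Type*) [∀ i, Field (F i)] [∀ i, Fintype (F i)]
    (hm : ∀ i, ∃ k : ℕ, m i = 2 ^ k) (hodd : ∀ i, Odd (Fintype.card (F i)))
    (hs : ∀ i, IsSimpleGroup (Cfsg.PSp (m i) (F i)))
    (H : Subgroup (Π i, Cfsg.PSp (m i) (F i))) (hH : Odd H.index) : Cfsg.IsPronormal H := by
  choose k hk using hm
  exact CfsgLib.PronSymp.isPronormal_pi
    (fun i => (CfsgLib.PronSymp.psp_facts (F := F i) (hk i) (hodd i)).1)
    (fun i => (CfsgLib.PronSymp.psp_facts (F := F i) (hk i) (hodd i)).2) H hH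

end Cfsg.Agent.S2509
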