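import Cfsg.Statements.S2511
import Cfsg.Agent.SpecUnitary.Group

set_option autoImplicit false
open Cfsg CfsgLib.SpecUnitary

namespace Cfsg.Agent.S2511

theorem mem_range_of_dvd {G : Type*} [Group G] [Finite G] {T : ℕ} (w : G) (h : T ∣ orderOf w) :
    T ∈ Set.range (orderOf : G → ℕ) :=
  ⟨w ^ (orderOf w / T), orderOf_pow_orderOf_div (orderOf_pos w).ne' h⟩


/-- Let F be a finite field with q² elements, q = p^a, n ≥ 3 with (n, q) ≠ (3, 2), L = PSU(n, q) realised over F, and let r be a prime dividing q + 1 and not dividing n. Then for every m the direct product L × L × L × (ℤ/r)^m has the same set of element orders as L × L × L; and if n − 1 is not a power of p, then already L × L × (ℤ/r)^m has the same set of element orders as L × L. -/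
theorem result {F : Type*} [Field F] [Fintype F] (p a n q r m : ℕ) (hp : p.Prime) (ha : 1 ≤ a) (hq : q = p ^ a) (hF : Fintype.card F = q ^ 2)
    (hn : 3 ≤ n) (hn3 : ¬ (n = 3 ∧ q = 2)) (hr : r.Prime) (hrq : r ∣ q + 1) (hrn : ¬ r ∣ n) :
    Set.range (orderOf : Cfsg.PSU n F q × Cfsg.PSU n F q × Cfsg.PSU n F q × Multiplicative (Fin m → ZMod r) → ℕ) = Set.range (orderOf : Cfsg.PSU n F q × Cfsg.PSU n F q × Cfsg.PSU n F q → ℕ) ∧
    ((¬ ∃ j : ℕ, n - 1 = p ^ j) →
      Set.range (orderOf : Cfsg.PSU n F q × Cfsg.PSU n F q × Multiplicative (Fin m → ZMod r) → ℕ) = Set.range (orderOf : Cfsg.PSU n F q × Cfsg.PSU n F q → ℕ)) := by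
  classical
  haveI : Fact p.Prime := ⟨hp⟩
  have hF' : Fintype.card F = p ^ (2 * a) := by rw [hF, hq, ← pow_mul, mul_comm]
  haveI : CharP F p := charP_of_card_eq_prime_pow hF'
  have hn2 : 2 ≤ n := by omega
  obtain ⟨z, hz⟩ := exists_toral_generator (F := F) (n := n) hF hn2
  obtain ⟨ρ, hρ⟩ : ∃ x : Cfsg.PSU n F q, orderOf x = r := by
    obtain ⟨x, hx⟩ := (isSplit_one hF hn2).exists_orderOf_lcm hF hn2 hr hrq hrn
    exact ⟨x, by rw [hx, orderOf_one, Nat.lcm_one_left]⟩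
  obtain ⟨t, ht1, ht2⟩ : ∃ t, n ≤ p ^ (t + 1) ∧ p ^ t < n := by
    refine ⟨Nat.clog p n - 1, ?_, Nat.pow_pred_clog_lt_self hp.one_lt hn2⟩
    have := Nat.clog_pos hp.one_lt hn2
    rw [Nat.sub_add_cancel this]
    exact Nat.le_pow_clog hp.one_lt n
  obtain ⟨u, hu, husplit⟩ := exists_unipotent (F := F) (n := n) hF hn2 p t ht2
  have hc : ∀ c : Multiplicative (Fin m → ZMod r), orderOf c = 1 ∨ orderOf c = r := by
    intro c
    refine (Nat.dvd_prime hr).1 (orderOf_dvd_of_pow_eq_one ?_)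
    apply Multiplicative.toAdd.injective
    funext i
    simp [toAdd_pow]
  have hbad := orderOf_dvd_of_not_isSplit (F := F) (n := n) hF hn2 p z hz t ht1
  refine ⟨Set.Subset.antisymm ?_ ?_, fun hj => Set.Subset.antisymm ?_ ?_⟩
  · rintro _ ⟨⟨x, y, w, c⟩, rfl⟩
    rcases hc c with h | h
    · refine ⟨(x, y, w), ?_⟩
      simp [Prod.orderOf, h]
    by_cases hx : IsSplit x
    · obtain ⟨x', hx'⟩ := hx.exists_orderOf_lcm hF hn2 hr hrq hrn
      refine ⟨(x', y, w), ?_⟩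
      simp only [Prod.orderOf, hx', h]
      ac_rfl
    by_cases hy : IsSplit y
    · obtain ⟨y', hy'⟩ := hy.exists_orderOf_lcm hF hn2 hr hrq hrn
      refine ⟨(x, y', w), ?_⟩
      simp only [Prod.orderOf, hy', h]
      ac_rfl
    by_cases hw : IsSplit w
    · obtain ⟨w', hw'⟩ := hw.exists_orderOf_lcm hF hn2 hr hrq hrn
      refine ⟨(x, y, w'), ?_⟩
      simp only [Prod.orderOf, hw', h]
    refine mem_range_of_dvd (z, u, ρ) ?_
    simp only [Prod.orderOf, h, hu, hρ, ← Nat.lcm_assoc]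
    have key : ∀ v, ¬ IsSplit v → orderOf v ∣ Nat.lcm (Nat.lcm (orderOf z) (p ^ (t + 1))) r :=
      fun v hv => (hbad v hv).trans (Nat.dvd_lcm_left _ _)
    exact Nat.lcm_dvd (Nat.lcm_dvd (Nat.lcm_dvd (key x hx) (key y hy)) (key w hw)) (Nat.dvd_lcm_right _ _)
  · rintro _ ⟨⟨x, y, w⟩, rfl⟩
    exact ⟨(x, y, w, 1), by simp [Prod.orderOf]⟩
  · rintro _ ⟨⟨x, y, c⟩, rfl⟩
    rcases hc c with h | h
    · refine ⟨(x, y), ?_⟩
      simp [Prod.orderOf, h]
    by_cases hx : IsSplit x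
    · obtain ⟨x', hx'⟩ := hx.exists_orderOf_lcm hF hn2 hr hrq hrn
      refine ⟨(x', y), ?_⟩
      simp only [Prod.orderOf, hx', h]
      ac_rfl
    by_cases hy : IsSplit y
    · obtain ⟨y', hy'⟩ := hy.exists_orderOf_lcm hF hn2 hr hrq hrn
      refine ⟨(x, y'), ?_⟩
      simp only [Prod.orderOf, hy', h]
    have husp : IsSplit u := husplit (lt_of_le_of_ne ht2 fun h => hj ⟨t, by omega⟩)
    obtain ⟨u', hu'⟩ := husp.exists_orderOf_lcm hF hn2 hr hrq hrn
    refine mem_range_of_dvd (z, u') ?_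
    simp only [Prod.orderOf, h, hu', hu, ← Nat.lcm_assoc]
    exact Nat.lcm_dvd (Nat.lcm_dvd ((hbad x hx).trans (Nat.dvd_lcm_left _ _))
      ((hbad y hy).trans (Nat.dvd_lcm_left _ _))) (Nat.dvd_lcm_right _ _)
  · rintro _ ⟨⟨x, y⟩, rfl⟩
    exact ⟨(x, y, 1), by simp [Prod.orderOf]⟩

end Cfsg.Agent.S2511
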