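import Cfsg.Statements.S2512
import Cfsg.Agent.Eq.Def_Classical
import Cfsg.Agent.SL2.Elements
import Cfsg.Agent.Classical.Symp.Blocks
import Cfsg.Agent.Classical.Symp.RegularUnipotent
import Cfsg.Agent.Classical.Symp.OddOrderTypes
import Mathlib.FieldTheory.Finite.Extension

set_option autoImplicit false
open Cfsg

namespace Cfsg.Agent.S2512

open CfsgLib.Classical.Symp

section Facts

variable {F : Type*} [Field F] [Fintype F] {n : ℕ}

lemma exists_sl2_orderOf {K : Type*} [Field K] [Fintype K] (h2 : (2 : K) ≠ 0) (l : ℕ) (hl0 : 0 < l)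
    (hl : 2 * l = Fintype.card K - 1 ∨ 2 * l = Fintype.card K + 1) :
    ∃ s : Matrix.SpecialLinearGroup (Fin 2) K, orderOf s = 2 * l ∧ s ^ l = -1 := by
  suffices ∃ s : Matrix.SpecialLinearGroup (Fin 2) K, orderOf s = 2 * l by
    obtain ⟨s, hs⟩ := this
    refine ⟨s, hs, (CfsgLib.SL2.orderOf_eq_two_iff h2).1 ?_⟩
    rw [orderOf_pow' _ hl0.ne', hs, Nat.gcd_eq_right (Dvd.intro_left 2 rfl), Nat.mul_div_cancel _ hl0]
  rcases hl with hl | hl
  · obtain ⟨u, hu⟩ := IsCyclic.exists_ofOrder_eq_natCard (α := Kˣ)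
    refine ⟨CfsgLib.SL2.d u, ?_⟩
    rw [orderOf_injective _ CfsgLib.SL2.d_injective, hu, Nat.card_units, Nat.card_eq_fintype_card, hl]
  · obtain ⟨t, ht⟩ := CfsgLib.SL2.exists_not_isSplitTrace (F := K)
    have hs : ¬ CfsgLib.SL2.IsSplitTrace (CfsgLib.SL2.tr (CfsgLib.SL2.comp t)) := by
      rwa [CfsgLib.SL2.tr_comp]
    obtain ⟨hc, hcard⟩ := CfsgLib.SL2.centralizer_nonsplit hs
    obtain ⟨x, hx⟩ := IsCyclic.exists_ofOrder_eq_natCard
      (α := Subgroup.centralizer ({CfsgLib.SL2.comp t} : Set (Matrix.SpecialLinearGroup (Fin 2) K)))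
    exact ⟨x, by rw [Subgroup.orderOf_coe, hx, hcard, hl]⟩

lemma exists_torus_element (p : ℕ) [Fact p.Prime] [CharP F p] (hq : Odd (Fintype.card F)) {D : ℕ} (hD : 0 < D)
    (l : ℕ) (hl0 : 0 < l)
    (hl : 2 * l = Fintype.card F ^ D - 1 ∨ 2 * l = Fintype.card F ^ D + 1) :
    ∃ s : Matrix.symplecticGroup (Fin D) F, orderOf s = 2 * l ∧ s ^ l = negOne D F := by
  haveI : NeZero D := ⟨hD.ne'⟩
  set K := FiniteField.Extension F p D
  haveI : Fintype K := Fintype.ofFinite K
  have hcK : Fintype.card K = Fintype.card F ^ D := by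
    rw [Fintype.card_eq_nat_card, FiniteField.natCard_extension, Fintype.card_eq_nat_card]
  have h2K : (2 : K) ≠ 0 := CfsgLib.SL2.two_ne_zero_iff_odd.mpr (by rw [hcK]; exact hq.pow)
  rw [← hcK] at hl
  obtain ⟨s, hs, hsl⟩ := exists_sl2_orderOf h2K l hl0 hl
  let β := (Module.finBasis F K).reindex (finCongr (FiniteField.finrank_extension F p D))
  exact ⟨Blocks.sl2ToSp β s, by rw [orderOf_injective _ (Blocks.sl2ToSp_injective β), hs],
    by rw [← map_pow, hsl, Blocks.sl2ToSp_neg_one]⟩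

lemma mem_center (z : Matrix.symplecticGroup (Fin n) F) :
    z ∈ Subgroup.center (Matrix.symplecticGroup (Fin n) F) ↔ z = 1 ∨ z = negOne n F := by
  rw [mem_center_iff]
  constructor
  · rintro (h | h)
    · exact Or.inl (Subtype.ext h)
    · exact Or.inr (Subtype.ext h)
  · rintro (rfl | rfl)
    · exact Or.inl rfl
    · exact Or.inr rfl

lemma negOne_sq : (negOne n F) ^ 2 = 1 :=
  Subtype.ext (by rw [SubmonoidClass.coe_pow]; simp [negOne])

/-- `k` is the order of some element of `PSp_2n(F)`. -/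
def IsOrd (n : ℕ) (F : Type*) [Field F] (k : ℕ) : Prop := ∃ y : Cfsg.PSp n F, orderOf y = k

lemma IsOrd.of_dvd [NeZero n] {a b : ℕ} (h : IsOrd n F a) (hb : b ∣ a) : IsOrd n F b := by
  obtain ⟨y, rfl⟩ := h
  exact ⟨y ^ (orderOf y / b), orderOf_pow_orderOf_div (orderOf_pos y).ne' hb⟩

lemma mk_eq_one {g : Matrix.symplecticGroup (Fin n) F} :
    (QuotientGroup.mk g : Cfsg.PSp n F) = 1 ↔ g = 1 ∨ g = negOne n F := by
  rw [QuotientGroup.eq_one_iff, mem_center]

lemma orderOf_mk_of_odd {g : Matrix.symplecticGroup (Fin n) F} (hg : Odd (orderOf g)) :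
    orderOf (QuotientGroup.mk g : Cfsg.PSp n F) = orderOf g := by
  refine Nat.dvd_antisymm (orderOf_map_dvd (QuotientGroup.mk' _) g) ?_
  set j := orderOf (QuotientGroup.mk g : Cfsg.PSp n F)
  have h : (QuotientGroup.mk (g ^ j) : Cfsg.PSp n F) = 1 := by
    rw [QuotientGroup.mk_pow]; exact pow_orderOf_eq_one _
  rw [mk_eq_one] at h
  have h' : g ^ (2 * j) = 1 := by
    rw [mul_comm, pow_mul]
    rcases h with h | h
    · rw [h, one_pow]
    · rw [h, negOne_sq]
  exact ((Nat.coprime_two_right.mpr hg)).dvd_of_dvd_mul_left (orderOf_dvd_of_pow_eq_one h')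

lemma isOrd_two_mul [NeZero n] {g t : Matrix.symplecticGroup (Fin n) F} (hg : Odd (orderOf g))
    (hc : Commute g t) (ht : t ^ 2 = 1) (ht1 : t ≠ 1) (ht2 : t ≠ negOne n F) :
    IsOrd n F (2 * orderOf g) := by
  set k := orderOf g with hk
  set y := (QuotientGroup.mk (g * t) : Cfsg.PSp n F) with hy
  have hy2 : y ^ 2 = (QuotientGroup.mk (g ^ 2) : Cfsg.PSp n F) := by
    rw [hy, ← QuotientGroup.mk_pow, hc.mul_pow, ht, mul_one]
  have hg2 : orderOf (g ^ 2) = k := (Nat.Coprime.orderOf_pow (Nat.coprime_two_right.mpr hg))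
  have hk' : k ∣ orderOf y := by
    rw [← hg2, ← orderOf_mk_of_odd (by rw [hg2]; exact hg), ← hy2]
    exact orderOf_pow_dvd 2
  have heven : 2 ∣ orderOf y := by
    by_contra hodd
    have h1 : y ^ (2 * k) = 1 := by
      rw [pow_mul, hy2, ← QuotientGroup.mk_pow, ← pow_mul, mul_comm, pow_mul, hk,
        pow_orderOf_eq_one, one_pow, QuotientGroup.mk_one]
    have h2 : orderOf y ∣ k :=
      (Nat.coprime_two_right.mpr (Nat.not_even_iff_odd.mp (fun h => hodd h.two_dvd))).dvd_of_dvd_mul_left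
        (orderOf_dvd_of_pow_eq_one h1)
    have h3 : (QuotientGroup.mk t : Cfsg.PSp n F) = 1 := by
      have h4 := orderOf_dvd_iff_pow_eq_one.1 h2
      rw [hy, ← QuotientGroup.mk_pow, hc.mul_pow, hk, pow_orderOf_eq_one, one_mul] at h4
      obtain ⟨c, hc'⟩ := hg
      rwa [← hk, hc', pow_succ, pow_mul, ht, one_pow, one_mul] at h4
    rcases mk_eq_one.1 h3 with h | h
    · exact ht1 h
    · exact ht2 h
  exact IsOrd.of_dvd ⟨y, rfl⟩ (((Nat.coprime_two_left.mpr hg)).mul_dvd_of_dvd_of_dvd heven hk')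

lemma isOrd_torus (p : ℕ) [Fact p.Prime] [CharP F p] (hq : Odd (Fintype.card F)) [NeZero n] (l : ℕ)
    (hl0 : 0 < l) (hl : 2 * l = Fintype.card F ^ n - 1 ∨ 2 * l = Fintype.card F ^ n + 1) :
    IsOrd n F l := by
  obtain ⟨s, hs, hsl⟩ := exists_torus_element p hq (Nat.pos_of_ne_zero (NeZero.ne n)) l hl0 hl
  set y := (QuotientGroup.mk s : Cfsg.PSp n F) with hy
  refine ⟨y, Nat.dvd_antisymm (orderOf_dvd_of_pow_eq_one ?_) ?_⟩
  · rw [hy, ← QuotientGroup.mk_pow, mk_eq_one]
    exact Or.inr hsl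
  · have h : (QuotientGroup.mk (s ^ orderOf y) : Cfsg.PSp n F) = 1 := by
      rw [QuotientGroup.mk_pow, ← hy]; exact pow_orderOf_eq_one _
    have h' : s ^ (2 * orderOf y) = 1 := by
      rw [mul_comm, pow_mul]
      rcases mk_eq_one.1 h with h | h
      · rw [h, one_pow]
      · rw [h, negOne_sq]
    have := orderOf_dvd_of_pow_eq_one h'
    rw [hs] at this
    exact (Nat.mul_dvd_mul_iff_left (by norm_num)).1 this

lemma isOrd_block (p : ℕ) [Fact p.Prime] [CharP F p] (hp2 : p ≠ 2) (hq : Odd (Fintype.card F)) {D b : ℕ}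
    (hD : 0 < D) (hb : 0 < b) {r e k : ℕ} (hr : Odd r) (hrq : r ∣ Fintype.card F ^ D - 1 ∨ r ∣ Fintype.card F ^ D + 1)
    (he : e = 0 ∨ p ^ (e - 1) < 2 * b) (hk : k ∣ r * p ^ e) :
    IsOrd (D + b) F (2 * k) := by
  haveI : NeZero (D + b) := ⟨by omega⟩
  have hp : p.Prime := Fact.out
  have hqD : Odd (Fintype.card F ^ D) := hq.pow
  have hq3 : 3 ≤ Fintype.card F ^ D := by
    have h1 := Nat.le_self_pow hD.ne' (Fintype.card F)
    have := Fintype.one_lt_card (α := F)
    obtain ⟨c, hc⟩ := hq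
    omega
  obtain ⟨l, hl0, hl, hrl⟩ : ∃ l, 0 < l ∧
      (2 * l = Fintype.card F ^ D - 1 ∨ 2 * l = Fintype.card F ^ D + 1) ∧ r ∣ 2 * l := by
    obtain ⟨c, hc⟩ := hqD
    rcases hrq with h | h
    · exact ⟨c, by omega, Or.inl (by omega), by rwa [show 2 * c = Fintype.card F ^ D - 1 by omega]⟩
    · exact ⟨c + 1, by omega, Or.inr (by omega), by rwa [show 2 * (c + 1) = Fintype.card F ^ D + 1 by omega]⟩
  obtain ⟨s, hs, -⟩ := exists_torus_element p hq hD l hl0 hl
  obtain ⟨s', hs'⟩ : ∃ s' : Matrix.symplecticGroup (Fin D) F, orderOf s' = r :=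
    ⟨s ^ (orderOf s / r), orderOf_pow_orderOf_div (orderOf_pos s).ne' (hs.symm ▸ hrl)⟩
  obtain ⟨u, hu⟩ := RegUnip.exists_orderOf_eq (F := F) p e b hp2 he
  obtain ⟨a, -, hpa⟩ := FiniteField.card F p
  have hco : Nat.Coprime r (p ^ e) := by
    refine (Nat.Coprime.pow_left e ((Nat.Prime.coprime_iff_not_dvd hp).mpr fun hpr => ?_)).symm
    have hpq : p ∣ Fintype.card F ^ D := (hpa ▸ dvd_pow_self p a.pos.ne').trans (dvd_pow_self _ hD.ne')
    have : p ∣ 1 := by
      rcases hrq with h | h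
      · have := Nat.dvd_sub hpq (hpr.trans h)
        rwa [Nat.sub_sub_self (by omega)] at this
      · exact (Nat.dvd_add_right hpq).mp (hpr.trans h)
    exact hp.ne_one (Nat.dvd_one.mp this)
  set g := Blocks.blockSp D b F (s', u) with hg
  have hog : orderOf g = r * p ^ e := by
    rw [hg, orderOf_injective _ Blocks.blockSp_injective, Prod.orderOf, hs', hu, hco.lcm_eq_mul]
  have hgodd : Odd (orderOf g) := by
    rw [hog]; exact hr.mul ((hp.odd_of_ne_two hp2).pow)
  have key : ∀ {d : ℕ}, 0 < d → negOne d F ≠ 1 := by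
    intro d hd h
    have h1 := congrFun (congrFun (congrArg Subtype.val h) (Sum.inl ⟨0, hd⟩)) (Sum.inl ⟨0, hd⟩)
    simp [negOne] at h1
    exact CfsgLib.SL2.two_ne_zero_iff_odd.mpr hq (by linear_combination -h1)
  have h := isOrd_two_mul (t := Blocks.blockSp D b F (negOne D F, 1)) hgodd ?_ ?_ ?_ ?_
  · exact h.of_dvd (by rw [hog]; exact mul_dvd_mul_left 2 hk)
  · refine Commute.map ?_ (Blocks.blockSp D b F)
    refine Prod.ext ?_ ?_
    · exact (Subgroup.mem_center_iff.mp ((mem_center _).mpr (Or.inr rfl)) s')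
    · exact (mul_one u).trans (one_mul u).symm
  · rw [← map_pow, Prod.pow_mk, negOne_sq, one_pow, Prod.mk_one_one, map_one]
  · intro h
    rw [← map_one (Blocks.blockSp D b F)] at h
    exact key hD (congrArg Prod.fst (Blocks.blockSp_injective h))
  · intro h
    rw [← Blocks.blockSp_neg_one] at h
    exact key hb (congrArg Prod.snd (Blocks.blockSp_injective h)).symm

/-- The odd one of `(q^n - 1)/2` and `(q^n + 1)/2`. -/
def oddTorus (q n : ℕ) : ℕ := if q ^ n % 4 = 1 then (q ^ n + 1) / 2 else (q ^ n - 1) / 2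

lemma cases_odd (p : ℕ) [Fact p.Prime] [CharP F p] (hq : Odd (Fintype.card F)) (hn : 2 ≤ n) {k : ℕ}
    (hk : IsOrd n F k) (hodd : Odd k) :
    IsOrd n F (2 * k) ∨ k ∣ oddTorus (Fintype.card F) n ∨ ∃ j, 2 * n - 1 = p ^ j ∧ k ∣ p ^ (j + 1) := by
  haveI : NeZero n := ⟨by omega⟩
  have hp : p.Prime := Fact.out
  have h2 : (2 : F) ≠ 0 := CfsgLib.SL2.two_ne_zero_iff_odd.mpr hq
  have hp2 : p ≠ 2 := by
    intro h
    exact h2 (by have := CharP.cast_eq_zero F p; rw [h] at this; exact_mod_cast this)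
  obtain ⟨x, rfl⟩ := hk
  obtain ⟨g0, rfl⟩ := QuotientGroup.mk_surjective x
  obtain ⟨g, hgx, hgodd⟩ : ∃ g : Matrix.symplecticGroup (Fin n) F,
      (QuotientGroup.mk g : Cfsg.PSp n F) = QuotientGroup.mk g0 ∧ Odd (orderOf g) := by
    set k := orderOf (QuotientGroup.mk g0 : Cfsg.PSp n F) with hk'
    have h : (QuotientGroup.mk (g0 ^ k) : Cfsg.PSp n F) = 1 := by
      rw [QuotientGroup.mk_pow]; exact pow_orderOf_eq_one _
    rcases mk_eq_one.1 h with h | h
    · exact ⟨g0, rfl, hodd.of_dvd_nat (orderOf_dvd_of_pow_eq_one h)⟩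
    · have hc : negOne n F ∈ Subgroup.center (Matrix.symplecticGroup (Fin n) F) := (mem_center _).mpr (Or.inr rfl)
      refine ⟨g0 * negOne n F, ?_, hodd.of_dvd_nat (orderOf_dvd_of_pow_eq_one (n := k) ?_)⟩
      · rw [QuotientGroup.eq]
        have : (g0 * negOne n F)⁻¹ * g0 = (negOne n F)⁻¹ := by group
        rw [this]
        exact inv_mem hc
      · obtain ⟨c, hc'⟩ := hodd
        have hcomm : Commute g0 (negOne n F) := Subgroup.mem_center_iff.mp hc g0
        rw [hcomm.mul_pow, h, hc', ← pow_succ', show 2 * c + 1 + 1 = 2 * (c + 1) by omega, pow_mul,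
          negOne_sq, one_pow]
  rw [← hgx, orderOf_mk_of_odd hgodd]
  rcases OddTypes.odd_order_cases (by omega) h2 g hgodd with ⟨t, hc, ht, ht1, ht2⟩ | hu |
    ⟨D, a, r, hD, ha, haD, hr, hrq, hkill⟩
  · exact Or.inl (isOrd_two_mul hgodd hc ht ht1 ht2)
  · set e := Nat.clog p (2 * n) with he
    have hge : orderOf g ∣ p ^ e := by
      refine orderOf_dvd_of_pow_eq_one (Subtype.ext ?_)
      rw [SubmonoidClass.coe_pow]
      have h1 := pow_eq_zero_of_le (Nat.le_pow_clog hp.one_lt (2 * n)) hu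
      haveI : Nonempty (Fin n) := ⟨0⟩
      rw [sub_pow_char_pow_of_commute _ _ (Commute.one_right _), one_pow, sub_eq_zero] at h1
      exact h1
    have hlt : p ^ (e - 1) < 2 * n := Nat.pow_pred_clog_lt_self hp.one_lt (by omega)
    by_cases hsmall : p ^ (e - 1) < 2 * (n - 1)
    · left
      have := isOrd_block (F := F) p hp2 hq (D := 1) (b := n - 1) (r := 1) (e := e) one_pos (by omega)
        odd_one (Or.inl (one_dvd _)) (Or.inr hsmall) (k := orderOf g) (by rwa [one_mul])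
      rwa [show 1 + (n - 1) = n by omega] at this
    · right; right
      have hpo : Odd (p ^ (e - 1)) := (hp.odd_of_ne_two hp2).pow
      refine ⟨e - 1, by obtain ⟨c, hc⟩ := hpo; omega, ?_⟩
      rwa [Nat.sub_add_cancel (Nat.clog_pos hp.one_lt (by omega))]
  · set e := Nat.clog p a with he
    have hge : orderOf g ∣ r * p ^ e := by
      refine orderOf_dvd_of_pow_eq_one (Subtype.ext ?_)
      rw [SubmonoidClass.coe_pow, pow_mul]
      have h1 := pow_eq_zero_of_le (Nat.le_pow_clog hp.one_lt a) hkill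
      haveI : Nonempty (Fin n) := ⟨0⟩
      rw [sub_pow_char_pow_of_commute _ _ (Commute.one_right _), one_pow, sub_eq_zero] at h1
      exact h1
    rcases Nat.lt_or_ge D n with hDn | hDn
    · left
      have hb : e = 0 ∨ p ^ (e - 1) < 2 * (n - D) := by
        rcases Nat.lt_or_ge a 2 with ha2 | ha2
        · exact Or.inl (Nat.clog_of_right_le_one (by omega) p)
        · refine Or.inr (lt_of_lt_of_le (Nat.pow_pred_clog_lt_self hp.one_lt ha2) ?_)
          have : (a - 1) * D ≤ n - D := by rw [Nat.sub_mul, one_mul]; omega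
          have := Nat.le_mul_of_pos_right (a - 1) (show 0 < D by omega)
          omega
      have := isOrd_block (F := F) p hp2 hq (D := D) (b := n - D) (by omega) (by omega) hr hrq hb hge
      rwa [show D + (n - D) = n by omega] at this
    · obtain rfl : D = n := by
        have := Nat.le_mul_of_pos_left D (show 0 < a by omega)
        omega
      obtain rfl : a = 1 := by
        have : a * D ≤ 1 * D := by omega
        have := Nat.le_of_mul_le_mul_right this (by omega)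
        omega
      rw [Nat.clog_of_right_le_one le_rfl p] at he
      rw [he, pow_zero, mul_one] at hge
      have hk2 : Nat.Coprime (orderOf g) 2 := Nat.coprime_two_right.mpr hgodd
      obtain ⟨c, hc⟩ : Odd (Fintype.card F ^ D) := hq.pow
      have hq3 : 3 ≤ Fintype.card F ^ D := by
        have h1 := Nat.le_self_pow (show D ≠ 0 by omega) (Fintype.card F)
        have := Fintype.one_lt_card (α := F)
        obtain ⟨c', hc'⟩ := hq
        omega
      rcases hrq with h | h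
      · have hkc : orderOf g ∣ c := hk2.dvd_of_dvd_mul_left
          (hge.trans (by rwa [show Fintype.card F ^ D - 1 = 2 * c by omega] at h))
        rcases Nat.even_or_odd c with hev | hod
        · left
          exact (isOrd_torus p hq c (by omega) (Or.inl (by omega))).of_dvd
            ((Nat.coprime_two_left.mpr hgodd).mul_dvd_of_dvd_of_dvd hev.two_dvd hkc)
        · right; left
          obtain ⟨c', hc'⟩ := hod
          rw [oddTorus, if_neg (by omega)]
          rwa [show (Fintype.card F ^ D - 1) / 2 = c by omega]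
      · have hkc : orderOf g ∣ c + 1 := hk2.dvd_of_dvd_mul_left
          (hge.trans (by rwa [show Fintype.card F ^ D + 1 = 2 * (c + 1) by omega] at h))
        rcases Nat.even_or_odd (c + 1) with hev | hod
        · left
          exact (isOrd_torus p hq (c + 1) (by omega) (Or.inr (by omega))).of_dvd
            ((Nat.coprime_two_left.mpr hgodd).mul_dvd_of_dvd_of_dvd hev.two_dvd hkc)
        · right; left
          obtain ⟨c', hc'⟩ := hod
          rw [oddTorus, if_pos (by omega)]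
          rwa [show (Fintype.card F ^ D + 1) / 2 = c + 1 by omega]

lemma isOrd_oddTorus (p : ℕ) [Fact p.Prime] [CharP F p] (hq : Odd (Fintype.card F)) (hn : 2 ≤ n) :
    IsOrd n F (oddTorus (Fintype.card F) n) := by
  haveI : NeZero n := ⟨by omega⟩
  obtain ⟨c, hc⟩ : Odd (Fintype.card F ^ n) := hq.pow
  have hq3 : 3 ≤ Fintype.card F ^ n := by
    have h1 := Nat.le_self_pow (show n ≠ 0 by omega) (Fintype.card F)
    have := Fintype.one_lt_card (α := F)
    obtain ⟨c', hc'⟩ := hq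
    omega
  unfold oddTorus
  split_ifs
  · exact isOrd_torus p hq _ (by omega) (Or.inr (by omega))
  · exact isOrd_torus p hq _ (by omega) (Or.inl (by omega))

lemma isOrd_exceptional (p : ℕ) [Fact p.Prime] [CharP F p] (hq : Odd (Fintype.card F)) {j : ℕ}
    (hj : 2 * n - 1 = p ^ j) : IsOrd n F (p ^ (j + 1)) := by
  have hp : p.Prime := Fact.out
  have hpos : 0 < p ^ j := pow_pos hp.pos j
  have hp2 : p ≠ 2 := by
    intro h
    apply CfsgLib.SL2.two_ne_zero_iff_odd.mpr hq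
    have := CharP.cast_eq_zero F p; rw [h] at this; exact_mod_cast this
  obtain ⟨u, hu⟩ := RegUnip.exists_orderOf_eq (F := F) p (j + 1) n hp2
    (Or.inr (by rw [Nat.add_sub_cancel]; omega))
  exact ⟨QuotientGroup.mk u, by rw [orderOf_mk_of_odd (by rw [hu]; exact (hp.odd_of_ne_two hp2).pow), hu]⟩

lemma isOrd_two (p : ℕ) [Fact p.Prime] [CharP F p] (hq : Odd (Fintype.card F)) (hn : 2 ≤ n) :
    IsOrd n F 2 := by
  have hp2 : p ≠ 2 := by
    intro h
    apply CfsgLib.SL2.two_ne_zero_iff_odd.mpr hq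
    have := CharP.cast_eq_zero F p; rw [h] at this; exact_mod_cast this
  have := isOrd_block (F := F) p hp2 hq (D := 1) (b := n - 1) (r := 1) (e := 0) (k := 1) one_pos (by omega)
    odd_one (Or.inl (one_dvd _)) (Or.inl rfl) (one_dvd _)
  rwa [show 1 + (n - 1) = n by omega, mul_one] at this

lemma lcm_two_of_odd {N : ℕ} (hN : Odd N) : Nat.lcm N 2 = 2 * N := by
  rw [(Nat.coprime_two_right.mpr hN).lcm_eq_mul, mul_comm]

lemma odd_left {a b : ℕ} (h : Odd (Nat.lcm a b)) : Odd a := h.of_dvd_nat (Nat.dvd_lcm_left a b)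

lemma odd_right {a b : ℕ} (h : Odd (Nat.lcm a b)) : Odd b := h.of_dvd_nat (Nat.dvd_lcm_right a b)

lemma two_mul_lcm_right (a b : ℕ) (hodd : Odd (Nat.lcm a b)) :
    Nat.lcm a (2 * b) = 2 * Nat.lcm a b := by
  rw [← lcm_two_of_odd (odd_right hodd), ← lcm_two_of_odd hodd, Nat.lcm_assoc]

lemma two_mul_lcm_left (a b : ℕ) (hodd : Odd (Nat.lcm a b)) :
    Nat.lcm (2 * a) b = 2 * Nat.lcm a b := by
  rw [Nat.lcm_comm, two_mul_lcm_right _ _ (Nat.lcm_comm a b ▸ hodd), Nat.lcm_comm b a]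

/-- Two elements can be traded for two elements of twice the common order. -/
lemma pair_trade (T : ℕ) (hT : IsOrd n F T) (hI : IsOrd n F 2) [NeZero n] {a b : ℕ}
    (ha : a ∣ T) (hb : b ∣ T) (hodd : Odd (Nat.lcm a b)) :
    ∃ y z : Cfsg.PSp n F, Nat.lcm (orderOf y) (orderOf z) = 2 * Nat.lcm a b := by
  obtain ⟨y, hy⟩ := hT.of_dvd (Nat.lcm_dvd ha hb)
  obtain ⟨z, hz⟩ := hI
  exact ⟨y, z, by rw [hy, hz, lcm_two_of_odd hodd]⟩

lemma triple (p : ℕ) [Fact p.Prime] [CharP F p] (hq : Odd (Fintype.card F)) (hn : 2 ≤ n)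
    (a b c : Cfsg.PSp n F) (hodd : Odd (Nat.lcm (orderOf a) (Nat.lcm (orderOf b) (orderOf c)))) :
    ∃ a' b' c' : Cfsg.PSp n F, Nat.lcm (orderOf a') (Nat.lcm (orderOf b') (orderOf c')) =
      2 * Nat.lcm (orderOf a) (Nat.lcm (orderOf b) (orderOf c)) := by
  haveI : NeZero n := ⟨by omega⟩
  have hI := isOrd_two (F := F) p hq hn
  have hT := isOrd_oddTorus (F := F) p hq hn
  have hbc := odd_right hodd
  have ha := odd_left hodd
  have hb := odd_left hbc
  have hc := odd_right hbc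
  rcases cases_odd p hq hn ⟨a, rfl⟩ ha with ⟨a', h⟩ | hA
  · exact ⟨a', b, c, by rw [h, two_mul_lcm_left _ _ hodd]⟩
  rcases cases_odd p hq hn ⟨b, rfl⟩ hb with ⟨b', h⟩ | hB
  · exact ⟨a, b', c, by rw [h, two_mul_lcm_left _ _ hbc, two_mul_lcm_right _ _ hodd]⟩
  rcases cases_odd p hq hn ⟨c, rfl⟩ hc with ⟨c', h⟩ | hC
  · exact ⟨a, b, c', by rw [h, two_mul_lcm_right _ _ hbc, two_mul_lcm_right _ _ hodd]⟩
  have merge : ∀ {x y z : ℕ} (T : ℕ), IsOrd n F T → x ∣ T → y ∣ T →
      (∃ w : Cfsg.PSp n F, orderOf w = z) → Odd (Nat.lcm (Nat.lcm x y) z) →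
      ∃ a' b' c' : Cfsg.PSp n F, Nat.lcm (orderOf a') (Nat.lcm (orderOf b') (orderOf c')) =
        2 * Nat.lcm (Nat.lcm x y) z := by
    intro x y z T hT hx hy hz ho
    obtain ⟨u, v, huv⟩ := pair_trade T hT hI hx hy (odd_left ho)
    obtain ⟨w, hw⟩ := hz
    exact ⟨u, v, w, by rw [← Nat.lcm_assoc, huv, hw, two_mul_lcm_left _ _ ho]⟩
  have e1 : Nat.lcm (orderOf a) (Nat.lcm (orderOf b) (orderOf c)) =
      Nat.lcm (Nat.lcm (orderOf a) (orderOf b)) (orderOf c) := (Nat.lcm_assoc _ _ _).symm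
  have e2 : Nat.lcm (orderOf a) (Nat.lcm (orderOf b) (orderOf c)) =
      Nat.lcm (Nat.lcm (orderOf a) (orderOf c)) (orderOf b) := by
    rw [Nat.lcm_comm (orderOf b), Nat.lcm_assoc]
  have e3 : Nat.lcm (orderOf a) (Nat.lcm (orderOf b) (orderOf c)) =
      Nat.lcm (Nat.lcm (orderOf b) (orderOf c)) (orderOf a) := Nat.lcm_comm _ _
  have hje : ∀ {i j : ℕ}, 2 * n - 1 = p ^ i → 2 * n - 1 = p ^ j → i = j := fun h1 h2 =>
    Nat.pow_right_injective (Fact.out : p.Prime).two_le (h1.symm.trans h2)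
  rcases hA with hA | ⟨i, hi, hA⟩ <;> rcases hB with hB | ⟨j, hj, hB⟩
  · rw [e1] at hodd ⊢; exact merge _ hT hA hB ⟨c, rfl⟩ hodd
  · rcases hC with hC | ⟨l, hl, hC⟩
    · rw [e2] at hodd ⊢; exact merge _ hT hA hC ⟨b, rfl⟩ hodd
    · obtain rfl := hje hj hl
      rw [e3] at hodd ⊢; exact merge _ (isOrd_exceptional p hq hj) hB hC ⟨a, rfl⟩ hodd
  · rcases hC with hC | ⟨l, hl, hC⟩
    · rw [e3] at hodd ⊢; exact merge _ hT hB hC ⟨a, rfl⟩ hodd
    · obtain rfl := hje hi hl
      rw [e2] at hodd ⊢; exact merge _ (isOrd_exceptional p hq hi) hA hC ⟨b, rfl⟩ hodd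
  · obtain rfl := hje hi hj
    rw [e1] at hodd ⊢; exact merge _ (isOrd_exceptional p hq hi) hA hB ⟨c, rfl⟩ hodd

lemma double (p : ℕ) [Fact p.Prime] [CharP F p] (hq : Odd (Fintype.card F)) (hn : 2 ≤ n)
    (hex : ¬ ∃ j : ℕ, 2 * n - 1 = p ^ j)
    (a b : Cfsg.PSp n F) (hodd : Odd (Nat.lcm (orderOf a) (orderOf b))) :
    ∃ a' b' : Cfsg.PSp n F,
      Nat.lcm (orderOf a') (orderOf b') = 2 * Nat.lcm (orderOf a) (orderOf b) := by
  haveI : NeZero n := ⟨by omega⟩
  rcases cases_odd p hq hn ⟨a, rfl⟩ (odd_left hodd) with ⟨a', h⟩ | hA | ⟨j, hj, -⟩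
  · exact ⟨a', b, by rw [h, two_mul_lcm_left _ _ hodd]⟩
  · rcases cases_odd p hq hn ⟨b, rfl⟩ (odd_right hodd) with ⟨b', h⟩ | hB | ⟨j, hj, -⟩
    · exact ⟨a, b', by rw [h, two_mul_lcm_right _ _ hodd]⟩
    · exact pair_trade _ (isOrd_oddTorus p hq hn) (isOrd_two p hq hn) hA hB hodd
    · exact absurd ⟨j, hj⟩ hex
  · exact absurd ⟨j, hj⟩ hex

end Facts

/-- Adjoining an elementary abelian 2-factor to a group whose odd orders double. -/
lemma range_orderOf_prod {G E : Type*} [Monoid G] [Monoid E] (hE : ∀ z : E, z ^ 2 = 1)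
    (h : ∀ x : G, Odd (orderOf x) → ∃ y : G, orderOf y = 2 * orderOf x) :
    Set.range (orderOf : G × E → ℕ) = Set.range (orderOf : G → ℕ) := by
  refine Set.Subset.antisymm ?_ ?_
  · rintro _ ⟨⟨x, z⟩, rfl⟩
    rw [Prod.orderOf]
    rcases (Nat.dvd_prime Nat.prime_two).1 (orderOf_dvd_of_pow_eq_one (hE z)) with hz | hz
    · exact ⟨x, by simp [hz]⟩
    · rcases Nat.even_or_odd (orderOf x) with hev | hod
      · exact ⟨x, by rw [hz, Nat.lcm_eq_left hev.two_dvd]⟩
      · obtain ⟨y, hy⟩ := h x hod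
        exact ⟨y, by rw [hy, hz, lcm_two_of_odd hod]⟩
  · rintro _ ⟨x, rfl⟩
    exact ⟨(x, 1), by rw [Prod.orderOf]; simp⟩

lemma elementary_sq {m : ℕ} (z : Multiplicative (Fin m → ZMod 2)) : z ^ 2 = 1 := by
  apply Multiplicative.toAdd.injective
  funext i
  simp only [toAdd_pow, toAdd_one, Pi.zero_apply, Pi.smul_apply]
  rw [two_nsmul]
  exact CharTwo.add_self_eq_zero _

lemma range_orderOf_congr {G H : Type*} [Monoid G] [Monoid H] (e : G ≃* H) :
    Set.range (orderOf : G → ℕ) = Set.range (orderOf : H → ℕ) := by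
  rw [← e.surjective.range_comp]
  congr 1
  funext x
  exact (e.orderOf_eq x).symm


/-- Let F be a finite field of odd order q = p^a, n ≥ 2 (with q ≥ 3 automatic), and L = PSp(2n, F). Then for every m the direct product L × L × L × (ℤ/2)^m has the same set of element orders as L × L × L; and if 2n − 1 is not a power of p, then already L × L × (ℤ/2)^m has the same set of element orders as L × L. -/
theorem result {F : Type*} [Field F] [Fintype F] (p a n m : ℕ) (hp : p.Prime) (ha : 1 ≤ a) (hF : Fintype.card F = p ^ a) (hodd : Odd (Fintype.card F))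
    (hn : 2 ≤ n) :
    Set.range (orderOf : Cfsg.PSp n F × Cfsg.PSp n F × Cfsg.PSp n F × Multiplicative (Fin m → ZMod 2) → ℕ) = Set.range (orderOf : Cfsg.PSp n F × Cfsg.PSp n F × Cfsg.PSp n F → ℕ) ∧
    ((¬ ∃ j : ℕ, 2 * n - 1 = p ^ j) →
      Set.range (orderOf : Cfsg.PSp n F × Cfsg.PSp n F × Multiplicative (Fin m → ZMod 2) → ℕ) = Set.range (orderOf : Cfsg.PSp n F × Cfsg.PSp n F → ℕ)) := by
  haveI : Fact p.Prime := ⟨hp⟩
  haveI : CharP F p := charP_of_card_eq_prime_pow hF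
  constructor
  · rw [range_orderOf_congr (G := Cfsg.PSp n F × Cfsg.PSp n F × Cfsg.PSp n F ×
        Multiplicative (Fin m → ZMod 2))
      (H := Cfsg.PSp n F × (Cfsg.PSp n F × Cfsg.PSp n F) × Multiplicative (Fin m → ZMod 2))
      (MulEquiv.prodCongr (MulEquiv.refl _) MulEquiv.prodAssoc.symm),
      range_orderOf_congr (MulEquiv.prodAssoc (M := Cfsg.PSp n F) (N := Cfsg.PSp n F × Cfsg.PSp n F)
        (P := Multiplicative (Fin m → ZMod 2))).symm]
    refine range_orderOf_prod elementary_sq ?_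
    rintro ⟨a, b, c⟩ h
    rw [Prod.orderOf, Prod.orderOf] at h ⊢
    obtain ⟨a', b', c', h'⟩ := triple p hodd hn a b c h
    exact ⟨(a', b', c'), by rw [Prod.orderOf, Prod.orderOf]; exact h'⟩
  · intro hex
    rw [range_orderOf_congr (MulEquiv.prodAssoc (M := Cfsg.PSp n F) (N := Cfsg.PSp n F)
      (P := Multiplicative (Fin m → ZMod 2))).symm]
    refine range_orderOf_prod elementary_sq ?_
    rintro ⟨a, b⟩ h
    rw [Prod.orderOf] at h ⊢
    obtain ⟨a', b', h'⟩ := double p hodd hn hex a b h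
    exact ⟨(a', b'), by rw [Prod.orderOf]; exact h'⟩

end Cfsg.Agent.S2512
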