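import Cfsg.Statements.S2513
import Cfsg.Agent.SpecLinear.Group

set_option autoImplicit false
open Cfsg CfsgLib.SpecLinear

namespace Cfsg.Agent.S2513

open scoped Matrix

theorem mem_range_of_dvd {G : Type*} [Group G] [Finite G] {T : ℕ} (w : G) (h : T ∣ orderOf w) :
    T ∈ Set.range (orderOf : G → ℕ) :=
  ⟨w ^ (orderOf w / T), orderOf_pow_orderOf_div (orderOf_pos w).ne' h⟩

section
variable {F : Type*} [Field F] [Fintype F] {n : ℕ}

theorem eq_one_of_ne_zero_two (hF : Fintype.card F = 2) (c : F) (hc : c ≠ 0) : c = 1 := by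
  have := FiniteField.pow_card_sub_one_eq_one c hc
  rwa [hF, pow_one] at this

theorem orderOf_proj (hF : Fintype.card F = 2) (g : Matrix.SpecialLinearGroup (Fin n) F) (hn : 1 ≤ n) :
    orderOf (proj g) = orderOf g := by
  refine orderOf_injective proj ((injective_iff_map_eq_one _).2 fun h hh => ?_) g
  obtain ⟨c, hc⟩ := (proj_eq_one_iff h).1 hh
  apply Subtype.ext
  have hne : c ≠ 0 := by
    rintro rfl
    have h1 : (h : Matrix (Fin n) (Fin n) F).det = 1 := h.2
    haveI : Nonempty (Fin n) := ⟨⟨0, hn⟩⟩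
    rw [hc, map_zero, Matrix.det_zero] at h1
    exact zero_ne_one h1
  rw [hc, eq_one_of_ne_zero_two hF c hne, map_one]
  rfl

theorem exists_field_element (hF : Fintype.card F = 2) (d : ℕ) (hd : 1 ≤ d) (hdn : d ≤ n) :
    ∃ x : Matrix.ProjectiveSpecialLinearGroup (Fin n) F, orderOf x = 2 ^ d - 1 := by
  classical
  haveI : CharP F 2 := charP_of_card_eq_prime hF
  haveI : NeZero d := ⟨by omega⟩
  haveI : Module.Finite F (FiniteField.Extension F 2 d) := Module.Finite.of_finite
  let L := FiniteField.Extension F 2 d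
  have hL : Module.finrank F L = d := FiniteField.finrank_extension F 2 d
  let b : Module.Basis (Fin d) F L := Module.finBasisOfFinrankEq F L hL
  let e : Fin d ⊕ Fin (n - d) ≃ Fin n := finSumFinEquiv.trans (finCongr (by omega))
  have hcardL : Nat.card Lˣ = 2 ^ d - 1 := by
    rw [Nat.card_units, Module.natCard_eq_pow_finrank (K := F), Nat.card_eq_fintype_card, hF, hL]
  let ψ : Lˣ →* Matrix (Fin n) (Fin n) F :=
    { toFun := fun y => Matrix.reindexAlgEquiv F F e (Matrix.fromBlocks (Algebra.leftMulMatrix b (y : L)) 0 0 1)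
      map_one' := by rw [Units.val_one, map_one, Matrix.fromBlocks_one, map_one]
      map_mul' := fun y z => by
        rw [← map_mul, Matrix.fromBlocks_multiply]
        simp [map_mul] }
  have hψ : Function.Injective ψ := fun y z h => by
    have h' := (Matrix.reindexAlgEquiv F F e).injective h
    exact Units.ext (Algebra.leftMulMatrix_injective b (Matrix.fromBlocks_inj.1 h').1)
  have hdet : ∀ y, (ψ y).det = 1 := fun y => by
    refine eq_one_of_ne_zero_two hF _ fun h => ?_
    have h2 : (ψ y).det * (ψ y⁻¹).det = 1 := by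
      rw [← Matrix.det_mul, ← map_mul, mul_inv_cancel, map_one, Matrix.det_one]
    rw [h, zero_mul] at h2
    exact zero_ne_one h2
  let Ψ : Lˣ →* Matrix.SpecialLinearGroup (Fin n) F :=
    { toFun := fun y => ⟨ψ y, hdet y⟩
      map_one' := Subtype.ext (map_one ψ)
      map_mul' := fun y z => Subtype.ext (map_mul ψ y z) }
  obtain ⟨g, hg⟩ := IsCyclic.exists_generator (α := Lˣ)
  refine ⟨proj (Ψ g), ?_⟩
  rw [orderOf_proj hF _ (by omega), orderOf_injective Ψ (fun y z h => hψ (congrArg Subtype.val h)),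
    orderOf_eq_card_of_forall_mem_zpowers hg, hcardL]

theorem orderOf_dvd_two_power_mul (hF : Fintype.card F = 2) (hn : 1 ≤ n) (t : ℕ) (ht : n ≤ 2 ^ (t + 1))
    (E : ℕ) (hE : ∀ d, 1 ≤ d → d ≤ n → 2 ^ d - 1 ∣ E) (hE2 : 2 ^ (t + 1) ∣ E)
    (x : Matrix.ProjectiveSpecialLinearGroup (Fin n) F) : orderOf x ∣ E := by
  classical
  haveI : CharP F 2 := charP_of_card_eq_prime hF
  obtain ⟨g, rfl⟩ := proj_surjective x
  refine (orderOf_map_dvd proj g).trans ?_
  have hg0 : orderOf g ≠ 0 := (orderOf_pos g).ne'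
  obtain ⟨i, M, hM, hgo⟩ := Nat.exists_eq_pow_mul_and_not_dvd hg0 2 (by norm_num)
  have hgm : orderOf (g : Matrix (Fin n) (Fin n) F) = orderOf g :=
    orderOf_injective (⟨⟨fun g => (g : Matrix (Fin n) (Fin n) F), rfl⟩, fun _ _ => rfl⟩ :
      Matrix.SpecialLinearGroup (Fin n) F →* Matrix (Fin n) (Fin n) F) Subtype.val_injective g
  have hMF : (M : F) ≠ 0 := fun h => hM ((CharP.cast_eq_zero_iff F 2 M).1 h)
  have h1 : M ∣ E := by
    have hs : ((g : Matrix (Fin n) (Fin n) F) ^ 2 ^ i) ^ M = 1 := by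
      rw [← pow_mul, ← hgo, ← hgm, pow_orderOf_eq_one]
    have h := pow_eq_one_of_forall_dvd hn _ M hMF hs E (by rw [hF]; exact hE)
    rw [← pow_mul] at h
    have h' := orderOf_dvd_of_pow_eq_one h
    rw [hgm, hgo] at h'
    exact Nat.dvd_of_mul_dvd_mul_left (by positivity) h'
  rw [hgo]
  refine Nat.Coprime.mul_dvd_of_dvd_of_dvd (((Nat.prime_two.coprime_iff_not_dvd).2 hM).pow_left i) ?_ h1
  refine (pow_dvd_pow 2 ?_).trans hE2
  rcases Nat.eq_zero_or_pos i with rfl | hi
  · omega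
  · obtain ⟨j, rfl⟩ := Nat.exists_eq_succ_of_ne_zero hi.ne'
    have hj := pow_lt_of_dvd_orderOf 2 hn (g : Matrix (Fin n) (Fin n) F) (by rw [hgm]; exact hg0) (j := j)
      (by rw [hgm, hgo]; exact dvd_mul_right _ _)
    have := (Nat.pow_lt_pow_iff_right (by norm_num : 1 < 2)).1 (hj.trans_le ht)
    omega

end


/-- Let F be the field with two elements, n ≥ 2, L = PSL(n, F) and k₀ = ⌊(n + 3)/2⌋. Then for every k ≥ k₀ the direct product of k copies of L has the same set of element orders as the direct product of k₀ copies of L. -/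
theorem result {F : Type*} [Field F] [Fintype F] (hF : Fintype.card F = 2) (n k : ℕ) (hn : 2 ≤ n) (hk : (n + 3) / 2 ≤ k) :
    Set.range (orderOf : (Fin k → Matrix.ProjectiveSpecialLinearGroup (Fin n) F) → ℕ) = Set.range (orderOf : (Fin ((n + 3) / 2) → Matrix.ProjectiveSpecialLinearGroup (Fin n) F) → ℕ) := by
  classical
  haveI : CharP F 2 := charP_of_card_eq_prime hF
  obtain ⟨B, hB⟩ : ∃ B, B = (n + 3) / 2 := ⟨_, rfl⟩
  rw [← hB] at hk ⊢
  obtain ⟨t, ht1, ht2⟩ : ∃ t, n ≤ 2 ^ (t + 1) ∧ 2 ^ t < n := by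
    refine ⟨Nat.clog 2 n - 1, ?_, Nat.pow_pred_clog_lt_self (by norm_num) hn⟩
    have := Nat.clog_pos (by norm_num : 1 < 2) hn
    rw [Nat.sub_add_cancel this]
    exact Nat.le_pow_clog (by norm_num) n
  obtain ⟨u, hu, -⟩ := exists_unipotent (F := F) (n := n) 2 t ht2
  have hw : ∀ i : Fin B, ∃ x : Matrix.ProjectiveSpecialLinearGroup (Fin n) F,
      orderOf x = if n / 2 + 1 + (i : ℕ) ≤ n then 2 ^ (n / 2 + 1 + (i : ℕ)) - 1 else 2 ^ (t + 1) := by
    intro i
    split_ifs with h
    · exact exists_field_element hF _ (by omega) h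
    · exact ⟨u, hu⟩
  choose w hw using hw
  have hdvd : ∀ i, orderOf (w i) ∣ orderOf w := fun i => orderOf_map_dvd (Pi.evalMonoidHom _ i) w
  have hE2 : 2 ^ (t + 1) ∣ orderOf w := by
    have h := hdvd ⟨B - 1, by omega⟩
    rw [hw, if_neg (by simp only []; omega)] at h
    exact h
  have hE : ∀ d, 1 ≤ d → d ≤ n → 2 ^ d - 1 ∣ orderOf w := by
    intro d hd1 hdn
    have hmul : n / d * d ≤ n := Nat.div_mul_le_self n d
    have hlow : n / 2 < n / d * d := by
      have h1 := Nat.lt_mul_div_succ n (by omega : 0 < d)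
      have h2 : 1 ≤ n / d := (Nat.one_le_div_iff (by omega)).2 hdn
      have h3 : d * (n / d + 1) ≤ 2 * (n / d * d) := by
        rw [mul_add, mul_one, mul_comm d]; nlinarith
      omega
    have h := hdvd ⟨n / d * d - (n / 2 + 1), by omega⟩
    rw [hw, if_pos (by simp only []; omega)] at h
    refine dvd_trans ?_ h
    show 2 ^ d - 1 ∣ 2 ^ (n / 2 + 1 + (n / d * d - (n / 2 + 1))) - 1
    rw [Nat.add_sub_cancel' (by omega : n / 2 + 1 ≤ n / d * d)]
    exact Nat.pow_sub_one_dvd_pow_sub_one 2 (dvd_mul_left d _)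
  refine Set.Subset.antisymm ?_ ?_
  · rintro _ ⟨f, rfl⟩
    refine mem_range_of_dvd w (orderOf_dvd_of_pow_eq_one (funext fun i => ?_))
    exact orderOf_dvd_iff_pow_eq_one.1 (orderOf_dvd_two_power_mul hF (by omega) t ht1 _ hE hE2 (f i))
  · rintro _ ⟨f, rfl⟩
    refine ⟨fun i => if h : (i : ℕ) < B then f ⟨i, h⟩ else 1, orderOf_eq_orderOf_iff.2 fun s => ?_⟩
    constructor
    · intro h
      funext i
      have := congrFun h ⟨i, i.2.trans_le hk⟩
      simpa using this
    · intro h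
      funext i
      by_cases hi : (i : ℕ) < B
      · simpa [hi] using congrFun h ⟨i, hi⟩
      · simp [hi]

end Cfsg.Agent.S2513
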