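import Cfsg.Statements.S2514
-- import your own Cfsg.Agent.* helpers here

set_option autoImplicit false
open Cfsg

namespace Cfsg.Agent.S2514

theorem exists_orderOf_of_dvd {G : Type*} [Group G] [Finite G] (g : G) {n : ℕ}
    (h : n ∣ orderOf g) : ∃ g' : G, orderOf g' = n :=
  ⟨g ^ (orderOf g / n), orderOf_pow_orderOf_div (orderOf_pos g).ne' h⟩

theorem exists_maximal {G : Type*} [Group G] [Finite G] (g : G) :
    ∃ m, (m ∈ Set.range (orderOf : G → ℕ) ∧ ∀ m' ∈ Set.range (orderOf : G → ℕ), m ∣ m' → m' = m)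
      ∧ orderOf g ∣ m := by
  classical
  have := Fintype.ofFinite G
  obtain ⟨y, hy, hmax⟩ := (Finset.univ.filter fun y : G => orderOf g ∣ orderOf y).exists_max_image
    orderOf ⟨g, by simp⟩
  simp only [Finset.mem_filter, Finset.mem_univ, true_and] at hy hmax
  refine ⟨orderOf y, ⟨⟨y, rfl⟩, ?_⟩, hy⟩
  rintro _ ⟨z, rfl⟩ hz
  exact le_antisymm (hmax z (hy.trans hz)) (Nat.le_of_dvd (orderOf_pos z) hz)

theorem pi_orderOf_dvd {ι : Type*} {M : Type*} [Group M] (f : ι → M) (d : ℕ) :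
    orderOf f ∣ d ↔ ∀ i, orderOf (f i) ∣ d := by
  simp only [orderOf_dvd_iff_pow_eq_one, funext_iff, Pi.pow_apply, Pi.one_apply]

theorem prod_orderOf_dvd {A B : Type*} [Group A] [Group B] (x : A × B) (d : ℕ) :
    orderOf x ∣ d ↔ orderOf x.1 ∣ d ∧ orderOf x.2 ∣ d := by
  simp only [orderOf_dvd_iff_pow_eq_one, Prod.ext_iff, Prod.pow_fst, Prod.pow_snd,
    Prod.fst_one, Prod.snd_one]

theorem eq_of_dvd_iff {a b : ℕ} (h : ∀ d, a ∣ d ↔ b ∣ d) : a = b :=
  Nat.dvd_antisymm ((h b).2 dvd_rfl) ((h a).1 dvd_rfl)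

/-- For a finite group X write μ(X) for the set of element orders of X that are maximal under divisibility. Let G and H be finite groups and k ≥ 1 such that μ(H) ⊆ μ(G) and μ(G) has fewer than k elements outside μ(H). Then the direct product of k copies of G has the same set of element orders as the direct product of k − 1 copies of G with H. -/
theorem result {G H : Type*} [Group G] [Finite G] [Group H] [Finite H] (k : ℕ) (hk : 1 ≤ k)
    (hsub : {n : ℕ | n ∈ Set.range (orderOf : H → ℕ) ∧ ∀ m ∈ Set.range (orderOf : H → ℕ), n ∣ m → m = n} ⊆ {n : ℕ | n ∈ Set.range (orderOf : G → ℕ) ∧ ∀ m ∈ Set.range (orderOf : G → ℕ), n ∣ m → m = n})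
    (hfew : ({n : ℕ | n ∈ Set.range (orderOf : G → ℕ) ∧ ∀ m ∈ Set.range (orderOf : G → ℕ), n ∣ m → m = n} \ {n : ℕ | n ∈ Set.range (orderOf : H → ℕ) ∧ ∀ m ∈ Set.range (orderOf : H → ℕ), n ∣ m → m = n}).ncard < k) :
    Set.range (orderOf : (Fin k → G) → ℕ) = Set.range (orderOf : (Fin (k - 1) → G) × H → ℕ) := by
  classical
  obtain ⟨n, rfl⟩ : ∃ n, k = n + 1 := ⟨k - 1, by omega⟩
  show Set.range (orderOf : (Fin (n + 1) → G) → ℕ) = Set.range (orderOf : (Fin n → G) × H → ℕ)
  apply Set.eq_of_subset_of_subset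
  · rintro _ ⟨f, rfl⟩
    choose m hm hdvd using fun i => exists_maximal (f i)
    by_cases hT : ∃ i, m i ∈ {n : ℕ | n ∈ Set.range (orderOf : H → ℕ) ∧
        ∀ m ∈ Set.range (orderOf : H → ℕ), n ∣ m → m = n}
    · obtain ⟨i, ⟨y, hy⟩, -⟩ := hT
      obtain ⟨h, hh⟩ := exists_orderOf_of_dvd y (hy ▸ hdvd i)
      refine ⟨(fun j => f (i.succAbove j), h), eq_of_dvd_iff fun d => ?_⟩
      rw [prod_orderOf_dvd, pi_orderOf_dvd, pi_orderOf_dvd, hh, Fin.forall_iff_succAbove i,
        and_comm]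
    · push Not at hT
      rw [← Nat.card_fin (n + 1), ← Set.ncard_univ] at hfew
      obtain ⟨i, -, j, -, hij, hmij⟩ := Set.exists_ne_map_eq_of_ncard_lt_of_maps_to hfew
        (f := m) (fun a _ => ⟨hm a, hT a⟩)
        ((Set.toFinite (Set.range (orderOf : G → ℕ))).subset fun a ha => ha.1.1)
      obtain ⟨y, hy⟩ := (hm i).1
      obtain ⟨c, hc⟩ := exists_orderOf_of_dvd y (n := Nat.lcm (orderOf (f i)) (orderOf (f j)))
        (Nat.lcm_dvd (hy ▸ hdvd i) (by rw [hy, hmij]; exact hdvd j))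
      refine ⟨(fun a => if i.succAbove a = j then c else f (i.succAbove a), 1),
        eq_of_dvd_iff fun d => ?_⟩
      rw [prod_orderOf_dvd, pi_orderOf_dvd, pi_orderOf_dvd]
      simp only [orderOf_one, one_dvd, and_true]
      constructor
      · intro h a
        obtain ⟨b, hb⟩ := Fin.exists_succAbove_eq hij.symm
        have hb' := h b
        rw [if_pos hb, hc, Nat.lcm_dvd_iff] at hb'
        rcases Fin.eq_self_or_eq_succAbove i a with rfl | ⟨b', rfl⟩
        · exact hb'.1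
        · by_cases hbj : i.succAbove b' = j
          · rw [hbj]; exact hb'.2
          · simpa [hbj] using h b'
      · intro h a
        split_ifs
        · rw [hc]; exact Nat.lcm_dvd (h i) (h j)
        · exact h _
  · rintro _ ⟨⟨f, h⟩, rfl⟩
    obtain ⟨m, hm, hdvd⟩ := exists_maximal h
    obtain ⟨⟨y, hy⟩, -⟩ := hsub hm
    obtain ⟨c, hc⟩ := exists_orderOf_of_dvd y (hy ▸ hdvd)
    refine ⟨Fin.cons c f, eq_of_dvd_iff fun d => ?_⟩
    rw [prod_orderOf_dvd, pi_orderOf_dvd, pi_orderOf_dvd, Fin.forall_fin_succ]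
    simp only [Fin.cons_zero, Fin.cons_succ, hc, and_comm]

end Cfsg.Agent.S2514
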