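import Cfsg.Statements.S2516
-- import your own Cfsg.Agent.* helpers here

set_option autoImplicit false
open Cfsg

namespace Cfsg.Agent.S2516

/-- Let F be a field of characteristic p > 0, V a non-zero finite-dimensional F-vector space, G a finite group and ρ a representation of G on V; form the semidirect product V ⋊ G. For g ∈ G of order k, the coset Vg contains an element of order pk if and only if the minimal polynomial of ρ(g) does not divide 1 + X + ⋯ + X^(k−1). -/
theorem result {F : Type*} [Field F] (p : ℕ) [Fact p.Prime] [CharP F p] {V : Type*} [AddCommGroup V] [Module F V] [FiniteDimensional F V] [Nontrivial V]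
    {G : Type*} [Group G] [Finite G] (ρ : Representation F G V) (g : G) :
    (∃ x : Multiplicative V ⋊[(MulAutMultiplicative V).symm.toMonoidHom.comp
        ((DistribMulAction.toAddAut ((V →ₗ[F] V)ˣ) V).comp ρ.asGroupHom)] G,
        x.right = g ∧ orderOf x = p * orderOf g) ↔
      ¬ (minpoly F (ρ g) ∣ ∑ i ∈ Finset.range (orderOf g), (Polynomial.X : Polynomial F) ^ i) := by
  classical
  set φ := (MulAutMultiplicative V).symm.toMonoidHom.comp
        ((DistribMulAction.toAddAut ((V →ₗ[F] V)ˣ) V).comp ρ.asGroupHom) with hφ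
  have hact : ∀ (a : G) (v : Multiplicative V), (φ a v).toAdd = ρ a v.toAdd := fun a v => rfl
  have hpow : ∀ (x : Multiplicative V ⋊[φ] G) (k : ℕ), (x ^ k).right = x.right ^ k ∧
      (x ^ k).left.toAdd = ∑ i ∈ Finset.range k, (ρ x.right ^ i) x.left.toAdd := by
    intro x k
    induction k with
    | zero => simp
    | succ k ih =>
      refine ⟨by rw [pow_succ, SemidirectProduct.mul_right, ih.1, pow_succ], ?_⟩
      rw [pow_succ, SemidirectProduct.mul_left, toAdd_mul, ih.2, hact, ih.1,
        Finset.sum_range_succ, map_pow]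
  rw [minpoly.dvd_iff]
  simp only [map_sum, map_pow, Polynomial.aeval_X]
  have hp : p.Prime := Fact.out
  constructor
  · rintro ⟨x, hx, hord⟩ h0
    have h1 : x ^ orderOf g = 1 := by
      refine SemidirectProduct.ext (Multiplicative.toAdd.injective ?_) ?_
      · rw [(hpow x _).2, hx, ← LinearMap.sum_apply, h0]; rfl
      · rw [(hpow x _).1, hx, pow_orderOf_eq_one]; rfl
    have := Nat.le_of_dvd (orderOf_pos g) (hord ▸ orderOf_dvd_of_pow_eq_one h1)
    nlinarith [orderOf_pos g, hp.two_le]
  · intro h0
    obtain ⟨v, hv⟩ : ∃ v, (∑ i ∈ Finset.range (orderOf g), ρ g ^ i) v ≠ 0 := by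
      by_contra hc
      push Not at hc
      exact h0 (LinearMap.ext hc)
    let x : Multiplicative V ⋊[φ] G := ⟨Multiplicative.ofAdd v, g⟩
    refine ⟨x, rfl, ?_⟩
    set y := (x ^ orderOf g).left with hy
    have hk : x ^ orderOf g = SemidirectProduct.inl y :=
      SemidirectProduct.ext (by simp [hy]) (by
        rw [(hpow x _).1]; simp [x, pow_orderOf_eq_one])
    have hyne : y ≠ 1 := by
      intro hy1
      apply hv
      rw [LinearMap.sum_apply]
      have := (hpow x (orderOf g)).2
      rw [← hy, hy1] at this
      simpa [x] using this.symm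
    have hyp : orderOf (x ^ orderOf g) = p := by
      rw [hk, orderOf_injective _ SemidirectProduct.inl_injective]
      refine orderOf_eq_prime (Multiplicative.toAdd.injective ?_) hyne
      rw [toAdd_pow, toAdd_one, ← Nat.cast_smul_eq_nsmul F, CharP.cast_eq_zero, zero_smul]
    have hdvd : orderOf g ∣ orderOf x :=
      orderOf_map_dvd (SemidirectProduct.rightHom : Multiplicative V ⋊[φ] G →* G) x
    have hpow0 : orderOf g ≠ 0 := (orderOf_pos g).ne'
    rw [orderOf_pow_of_dvd hpow0 hdvd] at hyp
    rw [← hyp, Nat.div_mul_cancel hdvd]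

end Cfsg.Agent.S2516
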