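import Cfsg.Statements.S2517
import Cfsg.Agent.OrthSpectrum99.Main
import Cfsg.Agent.OrthSpectrum99.Space
import Cfsg.Agent.Classical.Orth.CentreOmega

set_option autoImplicit false
open Cfsg

namespace Cfsg.Agent.S2517

set_option synthInstance.maxHeartbeats 200000

private theorem range_orderOf_congr {N G : Type*} [Group N] [Group G] {φ ψ : G →* MulAut N} (h : φ = ψ) :
    Set.range (orderOf : N ⋊[φ] G → ℕ) = Set.range (orderOf : N ⋊[ψ] G → ℕ) := by
  subst h; rfl

/-- Let F be a finite field of odd order q, let Ω₉ be the simple orthogonal group PΩ(9, F), and let Ω₈⁻ be the commutator subgroup of the isometry group of a minus-type non-singular quadratic form on V = F⁸ (the simple group PΩ⁻(8, F), acting on its natural module V). Then Ω₉ and the semidirect product V ⋊ Ω₈⁻ have exactly the same set of element orders. -/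
theorem result {F : Type*} [Field F] [Fintype F] (hF : Odd (Fintype.card F)) (a b : F)
    (hab : ∀ z₁ z₂ : F, z₁ ^ 2 + a * z₁ * z₂ + b * z₂ ^ 2 = 0 → z₁ = 0 ∧ z₂ = 0) :
    Set.range (orderOf : Cfsg.POmega F (Cfsg.quadFormOdd 4 F) → ℕ) =
      Set.range (orderOf :
        (Multiplicative (((Fin 3 ⊕ Fin 3) ⊕ Fin 2) → F)) ⋊[
          (MulAutMultiplicative (((Fin 3 ⊕ Fin 3) ⊕ Fin 2) → F)).symm.toMonoidHom.comp
           ((DistribMulAction.toAddAut (LinearMap.GeneralLinearGroup F (((Fin 3 ⊕ Fin 3) ⊕ Fin 2) → F))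
              (((Fin 3 ⊕ Fin 3) ⊕ Fin 2) → F)).comp
            (Matrix.GeneralLinearGroup.toLin.toMonoidHom.comp
              ((Cfsg.isometryGroup F (Cfsg.quadFormMinus 3 F a b)).subtype.comp
                (Cfsg.Omega F (Cfsg.quadFormMinus 3 F a b)).subtype)))]
          ↥(Cfsg.Omega F (Cfsg.quadFormMinus 3 F a b)) → ℕ) := by
  classical
  have hQ := CfsgLib.OrthGeo.isNondegenerateQuadraticForm_quadFormMinus 3 a b
    (CfsgLib.OrthGeo.discr_ne_zero_of_anisotropic a b hab)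
  obtain ⟨p, hchar⟩ := CharP.exists F
  haveI : Fact p.Prime := ⟨CharP.char_is_prime F p⟩
  obtain ⟨f, -, hf⟩ := FiniteField.card F p
  have hp2 : p ≠ 2 := by
    rintro rfl
    rw [hf] at hF
    exact absurd hF (Nat.not_odd_iff_even.2 ((even_two).pow_of_ne_zero f.ne_zero))
  have h2 : (2 : F) ≠ 0 := fun h => hp2 ((Nat.prime_dvd_prime_iff_eq Fact.out Nat.prime_two).1
    ((CharP.cast_eq_zero_iff F p 2).1 (by exact_mod_cast h)))
  have h9 := CfsgLib.OrthGeo.isNondegenerateQuadraticForm_quadFormOdd (F := F) 4 h2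
  obtain ⟨L, e₀, hL, he, hperp, hspan⟩ := CfsgLib.OrthSpectrum99.exists_embedding h2 hQ h9
  have H : CfsgLib.OrthSpectrum99.Hyper h9 hQ L e₀ :=
    ⟨h2, hL, he, hperp, hspan, fun h => by simp at h, fun h => by simp at h⟩
  have hD : quadraticChar F (CfsgLib.LinAlg.Witt.gram (CfsgLib.OrthGeo.bform hQ)
      (Pi.basisFun F CfsgLib.OrthSpectrum99.I8)).det = -1 :=
    quadraticChar_neg_one_iff_not_isSquare.2 (CfsgLib.OrthSpectrum99.det_gram_minus h2 a b hab hQ)
  -- the centre of the group in dimension nine is trivial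
  have hexc : ¬ (Nat.card F = 2 ∧ Fintype.card CfsgLib.OrthSpectrum99.I9 = 4) := fun h => by simp at h
  have hno : ¬ ∃ g : ↥(Cfsg.isometryGroup F (Cfsg.quadFormOdd 4 F)), g ∈ Cfsg.Omega F (Cfsg.quadFormOdd 4 F) ∧
      ((g : GL (Unit ⊕ (Fin 4 ⊕ Fin 4)) F) : Matrix (Unit ⊕ (Fin 4 ⊕ Fin 4)) (Unit ⊕ (Fin 4 ⊕ Fin 4)) F) = -1 := by
    rintro ⟨g, hg, hv⟩
    have hd := CfsgLib.Classical.Orth.det_eq_neg_one_pow h9 hexc g.2
    rw [hv, ((CfsgLib.Classical.Orth.mem_omega_iff h9 hexc g).1 hg).1.neg_one_pow,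
      Matrix.det_neg, Matrix.det_one, mul_one, Odd.neg_one_pow ⟨4, by simp⟩] at hd
    exact h2 (by linear_combination -hd)
  have hc := Subgroup.card_eq_one.1 ((CfsgLib.Classical.Orth.card_center_omega h9
    (by simp)).1 (Or.inl hno))
  have hinj : Function.Injective (QuotientGroup.mk' (Subgroup.center (Cfsg.Omega F (Cfsg.quadFormOdd 4 F)))) := by
    rw [← MonoidHom.ker_eq_bot_iff, QuotientGroup.ker_mk']
    exact hc
  refine Eq.trans (?_ : _ = Set.range (orderOf :
    CfsgLib.Spec53.Aff (↥(Cfsg.Omega F (Cfsg.quadFormMinus 3 F a b))) (CfsgLib.OrthSpectrum99.I8 → F) → ℕ))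
    (range_orderOf_congr (MonoidHom.ext fun x => MulEquiv.ext fun v => rfl))
  haveI : Finite (CfsgLib.Spec53.Aff (↥(Cfsg.Omega F (Cfsg.quadFormMinus 3 F a b)))
      (CfsgLib.OrthSpectrum99.I8 → F)) := Finite.of_equiv _ SemidirectProduct.equivProd.symm
  apply subset_antisymm
  · rintro _ ⟨z, rfl⟩
    obtain ⟨g, rfl⟩ := QuotientGroup.mk'_surjective _ z
    rw [orderOf_injective _ hinj]
    obtain ⟨y, hy⟩ := H.small_of_big hp2 (by simp) (by simp) hD g
    exact ⟨y ^ (orderOf y / orderOf g), orderOf_pow_orderOf_div (orderOf_pos y).ne' hy⟩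
  · rintro _ ⟨y, rfl⟩
    obtain ⟨z, hz⟩ := H.big_of_small hp2 ⟨4, by simp⟩ y
    refine ⟨QuotientGroup.mk' _ (z ^ (orderOf z / orderOf y)), ?_⟩
    rw [orderOf_injective _ hinj]
    exact orderOf_pow_orderOf_div (orderOf_pos z).ne' hz

end Cfsg.Agent.S2517
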