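import Cfsg.Statements.S2519
import Cfsg.Agent.G2Oct.SmallOrders
import Cfsg.Agent.G2Oct.OrderWitness
-- import your own Cfsg.Agent.* helpers here

set_option autoImplicit false
open Cfsg

namespace Cfsg.Agent.S2519

open CfsgLib.G2Oct

theorem antichain {p q : ℕ} (hp : p.Prime) (hpq : p ∣ q) (hq : 5 ≤ q) (hp2 : p ≠ 2) :
    ∀ t ∈ ({p * (q + 1), p * (q - 1), q ^ 2 - 1, q ^ 2 + q + 1, q ^ 2 - q + 1, p ^ 2} : Set ℕ),
    ∀ u ∈ ({p * (q + 1), p * (q - 1), q ^ 2 - 1, q ^ 2 + q + 1, q ^ 2 - q + 1, p ^ 2} : Set ℕ),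
      t ∣ u → t = u := by
  have hp3 : 3 ≤ p := by have := hp.two_le; omega
  have hp0 : 0 < p := hp.pos
  have hsq : q * 5 ≤ q ^ 2 := by rw [sq]; exact Nat.mul_le_mul_left q hq
  have hcop : ∀ x, (x = 1 ∨ x + 1 = q ∨ x = q + 1) → ¬p ∣ x := by
    intro x hx hd
    refine hp.not_dvd_one ?_
    rcases hx with rfl | hx | rfl
    · exact hd
    · rw [← hx] at hpq; exact (Nat.dvd_add_right hd).1 hpq
    · exact (Nat.dvd_add_right hpq).1 hd
  have hpC : ¬p ∣ q ^ 2 - 1 := fun hd => hp.not_dvd_one (by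
    have := Nat.dvd_sub (hpq.trans (dvd_pow_self q two_ne_zero)) hd
    rwa [show q ^ 2 - (q ^ 2 - 1) = 1 by omega] at this)
  have hpD : ¬p ∣ q ^ 2 + q + 1 := fun hd =>
    hp.not_dvd_one ((Nat.dvd_add_right (dvd_add (hpq.trans (dvd_pow_self q two_ne_zero)) hpq)).1 hd)
  have hpE : ¬p ∣ q ^ 2 - q + 1 := fun hd =>
    hp.not_dvd_one ((Nat.dvd_add_right (Nat.dvd_sub (hpq.trans (dvd_pow_self q two_ne_zero)) hpq)).1 hd)
  have red : ∀ t x, ¬p ∣ t → t ∣ p * x → t ∣ x := fun t x ht h =>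
    Nat.Coprime.dvd_of_dvd_mul_left ((hp.coprime_iff_not_dvd.2 ht).symm) h
  have small : ∀ {t x : ℕ}, x < t → 0 < x → ¬t ∣ x := fun hlt hx h =>
    absurd (Nat.le_of_dvd hx h) (by omega)
  intro t ht u hu hdvd
  simp only [Set.mem_insert_iff, Set.mem_singleton_iff] at ht hu
  rcases ht with rfl | rfl | rfl | rfl | rfl | rfl <;> rcases hu with rfl | rfl | rfl | rfl | rfl | rfl
  all_goals first
    | rfl
    | exact absurd (dvd_of_mul_right_dvd hdvd) hpC
    | exact absurd (dvd_of_mul_right_dvd hdvd) hpD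
    | exact absurd (dvd_of_mul_right_dvd hdvd) hpE
    | exact absurd ((dvd_pow_self p two_ne_zero).trans hdvd) hpC
    | exact absurd ((dvd_pow_self p two_ne_zero).trans hdvd) hpD
    | exact absurd ((dvd_pow_self p two_ne_zero).trans hdvd) hpE
    | exact absurd (red _ _ hpC hdvd) (small (by omega) (by omega))
    | exact absurd (red _ _ hpD hdvd) (small (by omega) (by omega))
    | exact absurd (red _ _ hpE hdvd) (small (by omega) (by omega))
    | exact absurd (red _ _ hpC (by rwa [sq p] at hdvd)) (fun h => small (by omega) Nat.one_pos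
        (red _ 1 hpC (by rwa [mul_one])))
    | exact absurd (red _ _ hpD (by rwa [sq p] at hdvd)) (fun h => small (by omega) Nat.one_pos
        (red _ 1 hpD (by rwa [mul_one])))
    | exact absurd (red _ _ hpE (by rwa [sq p] at hdvd)) (fun h => small (by omega) Nat.one_pos
        (red _ 1 hpE (by rwa [mul_one])))
    | exact absurd hdvd (small (by omega) (by omega))
    | exact absurd (Nat.dvd_sub hdvd dvd_rfl) (small (by omega) (by omega))
    | exact absurd (Nat.le_of_dvd (by omega) (Nat.dvd_sub ((Nat.mul_dvd_mul_iff_left hp0).1 hdvd) dvd_rfl))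
        (by omega)
    | exact absurd (Nat.le_of_dvd (by omega) ((Nat.mul_dvd_mul_iff_left hp0).1 hdvd)) (by omega)
    | (rw [sq p, Nat.mul_dvd_mul_iff_left hp0] at hdvd
       first
       | exact absurd hdvd (hcop _ (Or.inr (Or.inr rfl)))
       | exact absurd hdvd (hcop _ (Or.inr (Or.inl (by omega))))
       | (rcases (Nat.dvd_prime hp).1 hdvd with h | h
          · omega
          · exact absurd (h.symm.dvd) (hcop _ (by omega))))


/-- Let F be a finite field of odd order q = p^a ≥ 5. The element orders of the Chevalley group G₂(F) that are maximal under divisibility are exactly p(q + 1), p(q − 1), q² − 1, q² + q + 1, q² − q + 1, together with p² when p is 3 or 5. -/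
theorem result {F : Type*} [Field F] [Fintype F] (p a : ℕ) (hp : p.Prime) (hp2 : p ≠ 2) (ha : 1 ≤ a) (hF : Fintype.card F = p ^ a) (hq5 : 5 ≤ Fintype.card F) :
    {n : ℕ | n ∈ Set.range (orderOf : ↥(Cfsg.Lie.chevG2.group F) → ℕ) ∧ ∀ m ∈ Set.range (orderOf : ↥(Cfsg.Lie.chevG2.group F) → ℕ), n ∣ m → m = n} =
      ({p * (p ^ a + 1), p * (p ^ a - 1), p ^ (2 * a) - 1, p ^ (2 * a) + p ^ a + 1, p ^ (2 * a) - p ^ a + 1} : Set ℕ) ∪
        (if p = 3 ∨ p = 5 then ({p ^ 2} : Set ℕ) else ∅) := by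
  classical
  haveI : Fact p.Prime := ⟨hp⟩
  haveI : CharP F p := charP_of_card_eq_prime_pow hF
  set q := Fintype.card F with hq
  haveI : CharP (AlgebraicClosure F) p :=
    charP_of_injective_algebraMap (algebraMap F (AlgebraicClosure F)).injective p
  rw [show (2 : ℕ) * a = a * 2 from Nat.mul_comm 2 a, pow_mul, ← hF]
  have hpq : p ∣ q := by rw [hF]; exact dvd_pow_self p (by omega)
  let e := chevIso F
  have horder : ∀ n, n ∈ Set.range (orderOf : ↥(Cfsg.Lie.chevG2.group F) → ℕ) ↔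
      ∃ g : ↥(Cfsg.Lie.G2 F), orderOf g = n := fun n =>
    ⟨fun ⟨g, hg⟩ => ⟨e.symm g, by rw [MulEquiv.orderOf_eq, hg]⟩,
      fun ⟨g, hg⟩ => ⟨e g, by rw [MulEquiv.orderOf_eq, hg]⟩⟩
  set T : Set ℕ := ({p * (q + 1), p * (q - 1), q ^ 2 - 1, q ^ 2 + q + 1, q ^ 2 - q + 1} : Set ℕ) ∪
        (if p = 3 ∨ p = 5 then ({p ^ 2} : Set ℕ) else ∅) with hT
  have hsub : ∀ t ∈ T, t ∈ ({p * (q + 1), p * (q - 1), q ^ 2 - 1, q ^ 2 + q + 1, q ^ 2 - q + 1,
      p ^ 2} : Set ℕ) := by
    intro t ht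
    rw [hT] at ht
    split_ifs at ht <;> simp only [Set.mem_union, Set.mem_insert_iff, Set.mem_singleton_iff,
      Set.mem_empty_iff_false, or_false] at ht ⊢ <;> tauto
  have hanti : ∀ t ∈ T, ∀ u ∈ T, t ∣ u → t = u := fun t ht u hu =>
    antichain hp hpq hq5 hp2 t (hsub t ht) u (hsub u hu)
  have hwit : ∀ t ∈ T, ∃ g : ↥(Cfsg.Lie.G2 F), orderOf g = t := by
    intro t ht
    rw [hT] at ht
    rcases ht with (rfl | rfl | rfl | rfl | rfl) | ht
    · exact exists_order_mul_add_one p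
    · exact exists_order_mul_sub_one p
    · exact exists_order_sq_sub_one p
    · exact exists_order_singer (by omega)
    · exact exists_order_sq_sub p
    · split_ifs at ht with h
      · rw [Set.mem_singleton_iff.1 ht]; exact exists_order_prime_sq p h
      · exact absurd ht (Set.notMem_empty t)
  have hcover : ∀ g : ↥(Cfsg.Lie.G2 F), ∃ t ∈ T, orderOf g ∣ t := by
    intro g
    obtain ⟨k, m, φ, hn, -, hd⟩ := exists_orderData (algebraMap F (AlgebraicClosure F)) p g
      (isOfFinOrder_of_finite g)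
    rw [hn]
    have hpow : ∀ j, k ≤ j → p ^ k ∣ p ^ j := fun j hj => pow_dvd_pow p hj
    rcases orderData_cases_odd hp2 hd with ⟨rfl, hk | ⟨h35, hk⟩⟩ | ⟨hm, hk⟩ | ⟨rfl, hm⟩
    · refine ⟨p * (q + 1), by simp [hT], ?_⟩
      rw [mul_one]; exact ((hpow 1 hk).trans (pow_one p).dvd).trans (dvd_mul_right _ _)
    · refine ⟨p ^ 2, by simp [hT, h35], ?_⟩
      rw [mul_one]; exact hpow 2 hk
    · have hk' : p ^ k ∣ p := (hpow 1 hk).trans (pow_one p).dvd
      rcases hm with h | h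
      · exact ⟨p * (q - 1), by simp [hT], Nat.mul_dvd_mul hk' h⟩
      · exact ⟨p * (q + 1), by simp [hT], Nat.mul_dvd_mul hk' h⟩
    · rcases hm with h | h | h <;> rw [pow_zero, one_mul]
      · exact ⟨q ^ 2 - 1, by simp [hT], h⟩
      · exact ⟨q ^ 2 + q + 1, by simp [hT], h⟩
      · exact ⟨q ^ 2 - q + 1, by simp [hT], h⟩
  ext n
  constructor
  · rintro ⟨hn, hmax⟩
    obtain ⟨g, hg⟩ := (horder n).1 hn
    obtain ⟨t, ht, hd⟩ := hcover g
    rw [hg] at hd
    rwa [← hmax t ((horder t).2 (hwit t ht)) hd]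
  · intro hn
    refine ⟨(horder n).2 (hwit n hn), fun m hm hnm => ?_⟩
    obtain ⟨g, hg⟩ := (horder m).1 hm
    obtain ⟨t, ht, hd⟩ := hcover g
    rw [hg] at hd
    have := hanti n hn t ht (hnm.trans hd)
    exact Nat.dvd_antisymm (this ▸ hd) hnm

end Cfsg.Agent.S2519
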