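import Cfsg.Statements.S2520
import Cfsg.Agent.G2Oct.SmallOrders
import Cfsg.Agent.G2Oct.OrderWitness
-- import your own Cfsg.Agent.* helpers here

set_option autoImplicit false
open Cfsg

namespace Cfsg.Agent.S2520

open CfsgLib.G2Oct

/-- Let F be a finite field with q = 2^a ≥ 4 elements and G₂(F) the Chevalley group of type G₂ over it. Every element order of G₂(F) maximal under divisibility lies in the set {8, 12, 2(q + 1), 2(q − 1), q² − 1, q² + q + 1, q² − q + 1}, and every member of that set is an element order of G₂(F). -/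
theorem result {F : Type*} [Field F] [Fintype F] (a : ℕ) (ha : 2 ≤ a) (hF : Fintype.card F = 2 ^ a) :
    {n : ℕ | n ∈ Set.range (orderOf : ↥(Cfsg.Lie.chevG2.group F) → ℕ) ∧ ∀ m ∈ Set.range (orderOf : ↥(Cfsg.Lie.chevG2.group F) → ℕ), n ∣ m → m = n} ⊆ ({8, 12, 2 * (2 ^ a + 1), 2 * (2 ^ a - 1), 2 ^ (2 * a) - 1, 2 ^ (2 * a) + 2 ^ a + 1, 2 ^ (2 * a) - 2 ^ a + 1} : Set ℕ) ∧
    ({8, 12, 2 * (2 ^ a + 1), 2 * (2 ^ a - 1), 2 ^ (2 * a) - 1, 2 ^ (2 * a) + 2 ^ a + 1, 2 ^ (2 * a) - 2 ^ a + 1} : Set ℕ) ⊆ Set.range (orderOf : ↥(Cfsg.Lie.chevG2.group F) → ℕ) := by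
  classical
  haveI : Fact (Nat.Prime 2) := ⟨Nat.prime_two⟩
  haveI : CharP F 2 := charP_of_card_eq_prime_pow hF
  haveI : CharP (AlgebraicClosure F) 2 :=
    charP_of_injective_algebraMap (algebraMap F (AlgebraicClosure F)).injective 2
  set q := Fintype.card F with hq
  rw [show (2 : ℕ) * a = a * 2 from Nat.mul_comm 2 a, pow_mul, ← hF]
  have hq4 : 4 ≤ q := by
    rw [hF]; exact le_trans (by norm_num) (Nat.pow_le_pow_right (by norm_num : 1 ≤ 2) ha)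
  let e := chevIso F
  have horder : ∀ n, n ∈ Set.range (orderOf : ↥(Cfsg.Lie.chevG2.group F) → ℕ) ↔
      ∃ g : ↥(Cfsg.Lie.G2 F), orderOf g = n := fun n =>
    ⟨fun ⟨g, hg⟩ => ⟨e.symm g, by rw [MulEquiv.orderOf_eq, hg]⟩,
      fun ⟨g, hg⟩ => ⟨e g, by rw [MulEquiv.orderOf_eq, hg]⟩⟩
  set T : Set ℕ := ({8, 12, 2 * (q + 1), 2 * (q - 1), q ^ 2 - 1, q ^ 2 + q + 1, q ^ 2 - q + 1} : Set ℕ)
    with hT
  have hwit : ∀ t ∈ T, ∃ g : ↥(Cfsg.Lie.G2 F), orderOf g = t := by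
    intro t ht
    rw [hT] at ht
    rcases ht with rfl | rfl | rfl | rfl | rfl | rfl | rfl
    · exact exists_order_eight
    · exact exists_order_twelve
    · exact exists_order_mul_add_one 2
    · exact exists_order_mul_sub_one 2
    · exact exists_order_sq_sub_one 2
    · exact exists_order_singer (by omega)
    · exact exists_order_sq_sub 2
  have hcover : ∀ g : ↥(Cfsg.Lie.G2 F), ∃ t ∈ T, orderOf g ∣ t := by
    intro g
    obtain ⟨k, m, φ, hn, -, hd⟩ := exists_orderData (algebraMap F (AlgebraicClosure F)) 2 g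
      (isOfFinOrder_of_finite g)
    rw [hn]
    have hpow : ∀ j, k ≤ j → 2 ^ k ∣ 2 ^ j := fun j hj => pow_dvd_pow 2 hj
    rcases orderData_cases_two hd with ⟨rfl, hk⟩ | ⟨hm, hk⟩ | ⟨hm, hk⟩ | ⟨rfl, hm⟩
    · exact ⟨8, by simp [hT], by rw [mul_one]; exact hpow 3 hk⟩
    · exact ⟨12, by simp [hT], (Nat.mul_dvd_mul (hpow 2 hk) hm).trans (by norm_num)⟩
    · have hk' : 2 ^ k ∣ 2 := (hpow 1 hk).trans (pow_one 2).dvd
      rcases hm with h | h
      · exact ⟨2 * (q - 1), by simp [hT], Nat.mul_dvd_mul hk' h⟩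
      · exact ⟨2 * (q + 1), by simp [hT], Nat.mul_dvd_mul hk' h⟩
    · rcases hm with h | h | h <;> rw [pow_zero, one_mul]
      · exact ⟨q ^ 2 - 1, by simp [hT], h⟩
      · exact ⟨q ^ 2 + q + 1, by simp [hT], h⟩
      · exact ⟨q ^ 2 - q + 1, by simp [hT], h⟩
  refine ⟨?_, fun t ht => (horder t).2 (hwit t ht)⟩
  rintro n ⟨hn, hmax⟩
  obtain ⟨g, hg⟩ := (horder n).1 hn
  obtain ⟨t, ht, hd⟩ := hcover g
  rw [hg] at hd
  rwa [← hmax t ((horder t).2 (hwit t ht)) hd]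

end Cfsg.Agent.S2520
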