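import Cfsg.Statements.S2522
import Cfsg.Agent.Sourour.Factor

set_option autoImplicit false
open Cfsg

namespace Cfsg.Agent.S2522

open CfsgLib.Sourour Module in
theorem conj_of_ru {K : Type*} [Field K] (n : ℕ) (J : GL (Fin n) K)
    (hJ : ∀ i j : Fin n, (J : Matrix (Fin n) (Fin n) K) i j = if i = j then 1 else if j.val = i.val + 1 then 1 else 0)
    (X : Module.End K (Fin n → K)) (hX : RU X) :
    ∃ x : GL (Fin n) K, ((x * J * x⁻¹ : GL (Fin n) K) : Matrix (Fin n) (Fin n) K) = LinearMap.toMatrix' X := by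
  obtain ⟨b₀, hb₀⟩ := exists_basis hX
  have hn : finrank K (Fin n → K) = n := Module.finrank_fin_fun K
  let b := b₀.reindex (finCongr hn)
  have hb : ∀ i : Fin n, X (b i) = b i + if h : 0 < i.val then b ⟨i.val - 1, by omega⟩ else 0 := by
    intro i
    simp only [b, Module.Basis.reindex_apply]
    rw [hb₀]
    rfl
  let P : Matrix (Fin n) (Fin n) K := (Pi.basisFun K (Fin n)).toMatrix b
  have hP : IsUnit P := by
    haveI := (Pi.basisFun K (Fin n)).invertibleToMatrix b
    exact isUnit_of_invertible P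
  refine ⟨hP.unit, ?_⟩
  have hPij : ∀ i j, P i j = b j i := fun i j => rfl
  have hmul : LinearMap.toMatrix' X * P = P * (J : Matrix (Fin n) (Fin n) K) := by
    ext i j
    have h1 : (LinearMap.toMatrix' X * P) i j = X (b j) i := by
      have h2 := congrFun (LinearMap.congr_fun (Matrix.toLin'_toMatrix' X) (b j)) i
      rw [Matrix.toLin'_apply] at h2
      exact h2
    rw [h1, hb, Matrix.mul_apply, Pi.add_apply]
    simp only [hPij, hJ]
    by_cases hj : 0 < j.val
    · rw [dif_pos hj, Fintype.sum_eq_add j ⟨j.val - 1, by omega⟩ (by simp only [Ne, Fin.ext_iff]; omega)]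
      · rw [if_pos rfl, if_neg (by simp only [Fin.ext_iff]; omega), if_pos (by simp only; omega), mul_one, mul_one]
      · intro k hk
        rw [if_neg hk.1, if_neg (fun h => hk.2 (Fin.ext (by simp only; omega))), mul_zero]
    · rw [dif_neg hj, Fintype.sum_eq_single j]
      · simp
      · intro k hk
        rw [if_neg hk, if_neg (by omega), mul_zero]
  calc ((hP.unit * J * hP.unit⁻¹ : GL (Fin n) K) : Matrix (Fin n) (Fin n) K)
      = P * (J : Matrix (Fin n) (Fin n) K) * ((hP.unit⁻¹ : GL (Fin n) K) : Matrix (Fin n) (Fin n) K) := rfl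
    _ = LinearMap.toMatrix' X := by
      rw [← hmul, mul_assoc, show P * ((hP.unit⁻¹ : GL (Fin n) K) : Matrix (Fin n) (Fin n) K) = 1 from hP.mul_val_inv, mul_one]

/-- Let K be a field with at least four elements (finite or infinite), n ≥ 3, and J ∈ GL(n, K) the regular unipotent matrix (ones on the diagonal and the superdiagonal, zeros elsewhere). Then every non-scalar g ∈ GL(n, K) with det g = 1 is a product of two GL(n, K)-conjugates of J. -/
theorem result {K : Type*} [Field K] (hK : 4 ≤ Cardinal.mk K) (n : ℕ) (hn : 3 ≤ n) (J g : GL (Fin n) K)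
    (hJ : ∀ i j : Fin n, (J : Matrix (Fin n) (Fin n) K) i j = if i = j then 1 else if j.val = i.val + 1 then 1 else 0)
    (hg : ¬ ∃ c : K, (g : Matrix (Fin n) (Fin n) K) = c • (1 : Matrix (Fin n) (Fin n) K))
    (hdet : (g : Matrix (Fin n) (Fin n) K).det = 1) :
    ∃ x y : GL (Fin n) K, g = (x * J * x⁻¹) * (y * J * y⁻¹) := by
  obtain ⟨X, Y, hX, hY, hXY⟩ := CfsgLib.Sourour.factor hK (Matrix.toLin' (g : Matrix (Fin n) (Fin n) K))
    (by rw [Module.finrank_fin_fun]; exact hn) (by rw [LinearMap.det_toLin', hdet])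
    (fun c h => hg ⟨c, by
      have := congrArg LinearMap.toMatrix' h
      rw [LinearMap.toMatrix'_toLin', map_smul] at this
      rw [this, Module.End.one_eq_id, LinearMap.toMatrix'_id]⟩)
  obtain ⟨x, hx⟩ := conj_of_ru n J hJ X hX
  obtain ⟨y, hy⟩ := conj_of_ru n J hJ Y hY
  refine ⟨x, y, Units.ext ?_⟩
  rw [Units.val_mul, hx, hy, ← LinearMap.toMatrix'_mul, ← hXY, LinearMap.toMatrix'_toLin']

end Cfsg.Agent.S2522
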