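import Cfsg.Statements.S2524
import Cfsg.Agent.SpWeilChars.Exist

set_option autoImplicit false
open Cfsg

namespace CfsgLib.SpWeilChars

open Matrix CfsgLib.SympWeil

universe u

variable {F : Type u} [Field F] [Fintype F] {n : ℕ}

theorem two_ne_zero_of_odd (hodd : Odd (Fintype.card F)) : (2 : F) ≠ 0 := by
  refine Ring.two_ne_zero fun h2 => ?_
  have he := FiniteField.even_card_of_char_two h2
  rw [Nat.odd_iff] at hodd
  omega

theorem three_le_card (hodd : Odd (Fintype.card F)) : 3 ≤ Fintype.card F := by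
  have := Fintype.one_lt_card (α := F)
  rw [Nat.odd_iff] at hodd
  omega

theorem commutator_symplectic (hodd : Odd (Fintype.card F)) (hn : 2 ≤ n) :
    commutator (symplecticGroup (Fin n) F) = ⊤ :=
  CfsgLib.Classical.Symp.commutator_eq_top (by
    rcases (show n = 2 ∨ 3 ≤ n by omega) with h | h
    · exact Or.inr (Or.inl ⟨h, three_le_card hodd⟩)
    · exact Or.inl h)

/-- The degree of a character is its value at one. -/
theorem exists_rep (χ : Cfsg.IrrCharacter (symplecticGroup (Fin n) F)) :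
    ∃ (k : ℕ) (ρ : Representation ℂ (symplecticGroup (Fin n) F) (Fin k → ℂ)), ρ.IsIrreducible ∧
      (χ : symplecticGroup (Fin n) F → ℂ) = ρ.character ∧ 1 ≤ k ∧
      (χ : symplecticGroup (Fin n) F → ℂ) 1 = (k : ℂ) := by
  obtain ⟨k, ρ, hρ, hχ⟩ := χ.2
  refine ⟨k, ρ, hρ, hχ.symm, ?_, by rw [← hχ, Representation.char_one, Module.finrank_fin_fun]⟩
  by_contra hk
  obtain rfl : k = 0 := by omega
  obtain ⟨U, U', hne⟩ := hρ.exists_pair_ne
  exact hne (Subrepresentation.toSubmodule_injective (Subsingleton.elim _ _))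

theorem nontrivial_of_two_le {k : ℕ} {ρ : Representation ℂ (symplecticGroup (Fin n) F) (Fin k → ℂ)}
    (hρ : ρ.IsIrreducible) (hk : 2 ≤ k) : ∃ g, ρ g ≠ 1 := by
  by_contra hc
  push Not at hc
  let e : Fin k → ℂ := Pi.single ⟨0, by omega⟩ 1
  let S : Subrepresentation ρ := ⟨Submodule.span ℂ {e}, fun g v hv => by simpa [hc g] using hv⟩
  rcases @IsSimpleOrder.eq_bot_or_eq_top _ _ _ hρ S with h | h
  · have h' : Submodule.span ℂ {e} = ⊥ := congrArg Subrepresentation.toSubmodule h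
    simp [e, Submodule.span_singleton_eq_bot] at h'
  · have h' : Submodule.span ℂ {e} = ⊤ := congrArg Subrepresentation.toSubmodule h
    have h1 := finrank_span_le_card (R := ℂ) ({e} : Set (Fin k → ℂ))
    rw [h'] at h1
    simp at h1
    omega

/-- An irreducible representation gives an irreducible character. -/
theorem exists_irrCharacter {V : Type*} [AddCommGroup V] [Module ℂ V] [FiniteDimensional ℂ V]
    (ρ : Representation ℂ (symplecticGroup (Fin n) F) V) (hρ : ρ.IsIrreducible) :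
    Cfsg.IsIrrCharacter (symplecticGroup (Fin n) F) ρ.character := by
  classical
  let e : V ≃ₗ[ℂ] (Fin (Module.finrank ℂ V) → ℂ) := (Module.finBasis ℂ V).equivFun
  let ρ' : Representation ℂ (symplecticGroup (Fin n) F) (Fin (Module.finrank ℂ V) → ℂ) :=
    (e.conjAlgEquiv ℂ).toAlgHom.toMonoidHom.comp ρ
  refine ⟨_, ρ', ?_, funext fun g => LinearMap.trace_conj' (ρ g) e⟩
  have hap : ∀ g v, ρ' g (e v) = e (ρ g v) := fun g v => by simp [ρ']
  have : Nontrivial (Subrepresentation ρ') := by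
    refine ⟨⟨⊥, ⊤, fun h => ?_⟩⟩
    obtain ⟨U, U', hne⟩ := hρ.exists_pair_ne
    have h' : (⊥ : Submodule ℂ (Fin (Module.finrank ℂ V) → ℂ)) = ⊤ := congrArg Subrepresentation.toSubmodule h
    refine hne (Subrepresentation.toSubmodule_injective ?_)
    have hsub : ∀ x : V, x = 0 := fun x => e.injective ((Submodule.mem_bot ℂ).1
      (h' ▸ Submodule.mem_top : e x ∈ (⊥ : Submodule ℂ (Fin (Module.finrank ℂ V) → ℂ))) |>.trans e.map_zero.symm)
    ext x
    simp [hsub x]
  refine ⟨fun U => ?_⟩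
  rcases eq_bot_or_top hρ (U.toSubmodule.comap e.toLinearMap) (fun g v hv => by
      rw [Submodule.mem_comap] at hv ⊢
      simpa [hap] using U.apply_mem_toSubmodule g hv) with h | h
  · left
    refine Subrepresentation.toSubmodule_injective ((Submodule.eq_bot_iff _).2 fun y hy => ?_)
    have h1 : e.symm y ∈ U.toSubmodule.comap e.toLinearMap := by simpa using hy
    rw [h, Submodule.mem_bot] at h1
    simpa using congrArg e h1
  · right
    refine Subrepresentation.toSubmodule_injective (Submodule.eq_top_iff'.2 fun y => ?_)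
    have h1 : e.symm y ∈ U.toSubmodule.comap e.toLinearMap := h ▸ Submodule.mem_top
    simpa using h1

/-- Irreducible characters of `Sp_2n(q)` of degree `(q^n ± 1)/2`, and the degree gap. -/
theorem weil_characters (hodd : Odd (Fintype.card F)) (hn : 2 ≤ n) :
    ∀ d : ℕ, (2 * d + 1 = Fintype.card F ^ n ∨ 2 * d = Fintype.card F ^ n + 1) →
      Nat.card {χ : Cfsg.IrrCharacter (symplecticGroup (Fin n) F) //
        (χ : symplecticGroup (Fin n) F → ℂ) 1 = (d : ℂ)} = 2 ∧
      ∀ (χ : Cfsg.IrrCharacter (symplecticGroup (Fin n) F)) (k : ℕ),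
        (χ : symplecticGroup (Fin n) F → ℂ) 1 = (k : ℂ) → 2 ≤ k →
        2 * k + 1 ≠ Fintype.card F ^ n → 2 * k ≠ Fintype.card F ^ n + 1 →
          (Fintype.card F ^ n - 1) * (Fintype.card F ^ n - Fintype.card F) ≤
            2 * (Fintype.card F + 1) * k := by
  classical
  intro d hd
  have h2 := two_ne_zero_of_odd hodd
  have hq3 := three_le_card hodd
  have hperf := commutator_symplectic hodd hn
  have hL : ringChar ℂ ≠ ringChar F := by
    have hp : (ringChar F).Prime := CharP.char_is_prime F _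
    rw [ringChar.eq_zero]
    exact hp.ne_zero.symm
  obtain ⟨ψ, hψ⟩ := CfsgLib.CrossChar.exists_primitive_char (F := F) ℂ hL
  obtain ⟨ν, hν⟩ := FiniteField.exists_nonsquare (F := F) fun h => h2 (by
    have : CharP F 2 := h ▸ ringChar.charP F
    exact CharTwo.two_eq_zero)
  have hν0 : ν ≠ 0 := fun h => hν (h ▸ IsSquare.zero)
  let j : Fin n := ⟨0, by omega⟩
  let av : Bool → F := fun b => if b then 1 else ν
  let sv : Bool → ℂ := fun b => if b then 1 else -1
  have hav : ∀ b, av b ≠ 0 := fun b => by cases b <;> simp [av, hν0]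
  have hsv : ∀ b, sv b = 1 ∨ sv b = -1 := fun b => by cases b <;> simp [sv]
  have hbound : ∀ (χ : Cfsg.IrrCharacter (symplecticGroup (Fin n) F)) (k : ℕ)
      (ρ : Representation ℂ (symplecticGroup (Fin n) F) (Fin k → ℂ)), ρ.IsIrreducible →
      (χ : symplecticGroup (Fin n) F → ℂ) = ρ.character → 2 ≤ k →
      (∃ c : Bool × Bool, HasKey ρ ψ j (av c.1) (sv c.2) ∧
        (2 * k + 1 = Fintype.card F ^ n ∨ 2 * k = Fintype.card F ^ n + 1)) ∨
      ((Fintype.card F ^ n - 1) * (Fintype.card F ^ n - Fintype.card F) ≤ 2 * (Fintype.card F + 1) * k) := by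
    intro χ k ρ hρ _ hk
    by_cases hlow : LowRank ρ ψ
    · left
      obtain ⟨a, σ, ha, hσ, hkey⟩ := exists_hasKey hψ h2 hn hperf hρ (nontrivial_of_two_le hρ hk) hlow ν hν j
      obtain ⟨b, rfl⟩ : ∃ b, av b = a := by
        rcases ha with rfl | rfl
        exacts [⟨true, rfl⟩, ⟨false, rfl⟩]
      obtain ⟨b', rfl⟩ : ∃ b', sv b' = σ := by
        rcases hσ with rfl | rfl
        exacts [⟨true, rfl⟩, ⟨false, rfl⟩]
      refine ⟨(b, b'), hkey, ?_⟩
      have := finrank_of_hasKey hψ h2 hn (hav b) hρ hkey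
      rwa [Module.finrank_fin_fun] at this
    · right
      have := bound_of_not_lowRank (ρ := ρ) hψ h2 hlow
      rwa [Module.finrank_fin_fun] at this
  refine ⟨?_, fun χ k hk1 hk h1 h3 => ?_⟩
  swap
  · obtain ⟨k', ρ, hρ, hχ, -, hk'⟩ := exists_rep χ
    obtain rfl : k' = k := by exact_mod_cast hk'.symm.trans hk1
    rcases hbound χ k' ρ hρ hχ hk with ⟨c, -, h | h⟩ | h
    · exact absurd h h1
    · exact absurd h h3
    · exact h
  -- the four Weil characters
  set q := Fintype.card F with hq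
  have hqn : q * q ≤ q ^ n := by
    rw [← pow_two]; exact Nat.pow_le_pow_right (by omega) hn
  let ρW : Bool × Bool → Σ s : ℂ, Representation ℂ (symplecticGroup (Fin n) F) (parityPart F n s) :=
    fun c => ⟨sv c.2, wRep (n := n) hψ h2 (hav c.1) (sv c.2)⟩
  have hfd : ∀ s : ℂ, FiniteDimensional ℂ (parityPart F n s) := fun s => inferInstance
  have hirr : ∀ c : Bool × Bool, (ρW c).2.IsIrreducible := fun c =>
    wRep_irreducible hψ h2 (hav c.1) (by omega) (hsv c.2)
  let g : Bool × Bool → Cfsg.IrrCharacter (symplecticGroup (Fin n) F) := fun c =>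
    ⟨(ρW c).2.character, exists_irrCharacter _ (hirr c)⟩
  have hdim : ∀ c : Bool × Bool, (g c : symplecticGroup (Fin n) F → ℂ) 1 =
      ((Module.finrank ℂ (parityPart F n (sv c.2)) : ℕ) : ℂ) := fun c => Representation.char_one _
  obtain ⟨hp, hm⟩ := finrank_parityPart_nat (F := F) (n := n) h2
  rw [← hq] at hp hm
  have hdimn : ∀ c : Bool × Bool, ∀ k : ℕ, (g c : symplecticGroup (Fin n) F → ℂ) 1 = (k : ℂ) →
      ((c.2 = true → 2 * k = q ^ n + 1) ∧ (c.2 = false → 2 * k + 1 = q ^ n)) := by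
    intro c k hk
    rw [hdim] at hk
    obtain rfl := Nat.cast_injective hk
    constructor <;> intro hc
    · obtain ⟨c1, c2⟩ := c
      obtain rfl : c2 = true := hc
      exact hp
    · obtain ⟨c1, c2⟩ := c
      obtain rfl : c2 = false := hc
      exact hm
  have ginj : Function.Injective g := by
    rintro ⟨b, s⟩ ⟨b', s'⟩ he
    have hs : s = s' := by
      have h1 := hdimn (b', s') _ (he ▸ hdim (b, s))
      cases s <;> cases s' <;> simp [sv] at h1 ⊢ <;> omega
    subst hs
    by_contra hne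
    have hbb : b ≠ b' := fun h => hne (by rw [h])
    obtain ⟨v, hv0, hv⟩ := wRep_exists_weight (n := n) hψ h2 (hav b) (hsv s) j
    have hW : wt (wRep (n := n) hψ h2 (hav b') (sv s)) ψ (rk1 (av b * 2⁻¹) (Pi.single j 1)) = ⊥ := by
      rw [Submodule.eq_bot_iff]
      intro u hu
      by_contra hu0
      obtain ⟨t, ht⟩ := wRep_weight hψ h2 (hav b') hu0 hu
      have h1 := congrArg (fun W : symSub n F => (W : Matrix (Fin n) (Fin n) F) j j) ht
      simp only [rk1_apply, Pi.single_eq_same, mul_one] at h1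
      have h2' : av b = av b' * (t j * t j) := by
        have h4 : (2 : F)⁻¹ ≠ 0 := inv_ne_zero h2
        exact mul_right_cancel₀ h4 (by linear_combination h1)
      refine hν ?_
      cases b <;> cases b'
      · exact absurd rfl hbb
      · simp [av] at h2'; exact ⟨t j, h2'⟩
      · simp [av] at h2'
        have htj : t j ≠ 0 := fun h => one_ne_zero (α := F) (by rw [h2', h]; simp)
        exact ⟨(t j)⁻¹, by field_simp; linear_combination -h2'⟩
      · exact absurd rfl hbb
    have h5 := finrank_wt_eq_of_character (ρ := wRep (n := n) hψ h2 (hav b) (sv s))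
      (ρ' := wRep (n := n) hψ h2 (hav b') (sv s)) hψ h2
      (fun x => congrFun (congrArg Subtype.val he) x) (rk1 (av b * 2⁻¹) (Pi.single j 1))
    rw [hW, finrank_bot] at h5
    have := Submodule.finrank_eq_zero.1 h5
    rw [this, Submodule.mem_bot] at hv
    exact hv0 hv
  let L : Set (Cfsg.IrrCharacter (symplecticGroup (Fin n) F)) :=
    {χ | ∃ (k : ℕ) (ρ : Representation ℂ (symplecticGroup (Fin n) F) (Fin k → ℂ)) (c : Bool × Bool),
      ρ.IsIrreducible ∧ (χ : symplecticGroup (Fin n) F → ℂ) = ρ.character ∧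
        HasKey ρ ψ j (av c.1) (sv c.2)}
  have hdeg : ∀ (χ : Cfsg.IrrCharacter (symplecticGroup (Fin n) F)) (k : ℕ),
      (χ : symplecticGroup (Fin n) F → ℂ) 1 = (k : ℂ) →
      (2 * k + 1 = q ^ n ∨ 2 * k = q ^ n + 1) → χ ∈ L := by
    intro χ k hk1 hk
    obtain ⟨k', ρ, hρ, hχ, -, hk'⟩ := exists_rep χ
    obtain rfl : k' = k := by exact_mod_cast hk'.symm.trans hk1
    rcases hbound χ k' ρ hρ hχ (by have : 3 * 3 ≤ q * q := Nat.mul_le_mul hq3 hq3; omega) with ⟨c, hc, -⟩ | h
    · exact ⟨k', ρ, c, hρ, hχ, hc⟩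
    · exfalso
      obtain ⟨A, hA⟩ := Nat.exists_eq_add_of_le (show 1 ≤ q ^ n by nlinarith)
      obtain ⟨B, hB⟩ := Nat.exists_eq_add_of_le (show q ≤ q ^ n by nlinarith)
      rw [show q ^ n - 1 = A by omega, show q ^ n - q = B by omega] at h
      have h2k : 2 * k' ≤ A + 2 := by omega
      have h9 : (q + 1) * (2 * k') ≤ (q + 1) * (A + 2) := Nat.mul_le_mul_left _ h2k
      rcases le_or_gt (q + 4) B with h8 | h8
      · have : A * (q + 4) ≤ A * B := Nat.mul_le_mul_left _ h8
        nlinarith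
      · nlinarith
  have hgL : ∀ c, g c ∈ L := by
    intro c
    rcases Bool.dichotomy c.2 with hc | hc
    · exact hdeg _ _ (hdim c) (Or.inl ((hdimn c _ (hdim c)).2 hc))
    · exact hdeg _ _ (hdim c) (Or.inr ((hdimn c _ (hdim c)).1 hc))
  choose kk rr key hkey1 hkey2 hkey3 using fun x : L => x.2
  have hkinj : Function.Injective key := by
    intro x y he
    apply Subtype.ext
    apply Subtype.ext
    funext g'
    rw [hkey2 x, hkey2 y]
    exact trace_eq_of_hasKey hψ h2 hn (hav _) (hkey1 x) (hkey1 y) (hkey3 x) (he ▸ hkey3 y) g'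
  let g' : Bool × Bool → L := fun c => ⟨g c, hgL c⟩
  have hcomp : Function.Bijective (key ∘ g') :=
    Finite.injective_iff_bijective.1 (hkinj.comp fun c c' h => ginj (congrArg Subtype.val h))
  have hgsurj : ∀ χ ∈ L, ∃ c, g c = χ := fun χ hχ => by
    obtain ⟨c, hc⟩ := hcomp.2 (key ⟨χ, hχ⟩)
    exact ⟨c, congrArg Subtype.val (hkinj hc)⟩
  obtain ⟨s, hs⟩ : ∃ s : Bool, ∀ c : Bool × Bool,
      (g c : symplecticGroup (Fin n) F → ℂ) 1 = (d : ℂ) ↔ c.2 = s := by
    rcases hd with hd | hd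
    · refine ⟨false, fun c => ⟨fun h => ?_, fun h => ?_⟩⟩
      · rcases Bool.dichotomy c.2 with hc | hc
        · exact hc
        · have := (hdimn c d h).1 hc; omega
      · rw [hdim]; have := (hdimn c _ (hdim c)).2 h; congr 1; omega
    · refine ⟨true, fun c => ⟨fun h => ?_, fun h => ?_⟩⟩
      · rcases Bool.dichotomy c.2 with hc | hc
        · have := (hdimn c d h).2 hc; omega
        · exact hc
      · rw [hdim]; have := (hdimn c _ (hdim c)).1 h; congr 1; omega
  let f : Bool → {χ : Cfsg.IrrCharacter (symplecticGroup (Fin n) F) //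
      (χ : symplecticGroup (Fin n) F → ℂ) 1 = (d : ℂ)} := fun b => ⟨g (b, s), (hs (b, s)).2 rfl⟩
  have hf : Function.Bijective f := by
    refine ⟨fun b b' h => congrArg Prod.fst (ginj (congrArg Subtype.val h)), fun χ => ?_⟩
    obtain ⟨c, hc⟩ := hgsurj χ.1 (hdeg χ.1 d χ.2 hd)
    have hcs : c.2 = s := (hs c).1 (hc ▸ χ.2)
    refine ⟨c.1, Subtype.ext ?_⟩
    rw [← hc]
    show g (c.1, s) = g c
    rw [← hcs]
  rw [← Nat.card_eq_of_bijective f hf, Nat.card_eq_fintype_card, Fintype.card_bool]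

end CfsgLib.SpWeilChars

namespace Cfsg.Agent.S2524

/-- Let F be a finite field of odd order q and G = Sp(2n, F) with n ≥ 2. Then G has exactly four irreducible complex characters of degree (q^n + 1)/2 or (q^n − 1)/2 (two of each), and every other non-principal irreducible character has degree at least (q^n − 1)(q^n − q)/(2(q + 1)). -/
theorem result {F : Type*} [Field F] [Fintype F] (hodd : Odd (Fintype.card F)) (n : ℕ) (hn : 2 ≤ n) :
    Nat.card {χ : Cfsg.IrrCharacter ↥(Matrix.symplecticGroup (Fin n) F) // (χ : ↥(Matrix.symplecticGroup (Fin n) F) → ℂ) 1 = (((Fintype.card F) ^ n + 1 : ℕ) : ℂ) / 2} = 2 ∧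
    Nat.card {χ : Cfsg.IrrCharacter ↥(Matrix.symplecticGroup (Fin n) F) // (χ : ↥(Matrix.symplecticGroup (Fin n) F) → ℂ) 1 = (((Fintype.card F) ^ n - 1 : ℕ) : ℂ) / 2} = 2 ∧
    ∀ χ : Cfsg.IrrCharacter ↥(Matrix.symplecticGroup (Fin n) F),
      (χ : ↥(Matrix.symplecticGroup (Fin n) F) → ℂ) 1 ≠ 1 →
      (χ : ↥(Matrix.symplecticGroup (Fin n) F) → ℂ) 1 ≠ (((Fintype.card F) ^ n + 1 : ℕ) : ℂ) / 2 →
      (χ : ↥(Matrix.symplecticGroup (Fin n) F) → ℂ) 1 ≠ (((Fintype.card F) ^ n - 1 : ℕ) : ℂ) / 2 →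
      (((Fintype.card F) ^ n - 1 : ℕ) : ℝ) * (((Fintype.card F) ^ n - Fintype.card F : ℕ) : ℝ) / (2 * ((Fintype.card F : ℕ) + 1 : ℝ)) ≤ ‖(χ : ↥(Matrix.symplecticGroup (Fin n) F) → ℂ) 1‖ := by
  classical
  have hq3 := CfsgLib.SpWeilChars.three_le_card hodd
  have hqn : (Fintype.card F) ≤ (Fintype.card F) ^ n := Nat.le_self_pow (by omega) (Fintype.card F)
  obtain ⟨r, hr⟩ : Odd ((Fintype.card F) ^ n) := hodd.pow
  have hm : ((((Fintype.card F) ^ n - 1 : ℕ) : ℂ)) / 2 = (r : ℂ) := by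
    rw [show (Fintype.card F) ^ n - 1 = 2 * r by omega]; push_cast; ring
  have hp : ((((Fintype.card F) ^ n + 1 : ℕ) : ℂ)) / 2 = ((r + 1 : ℕ) : ℂ) := by
    rw [show (Fintype.card F) ^ n + 1 = 2 * (r + 1) by omega]; push_cast; ring
  obtain ⟨hm2, hgap⟩ := CfsgLib.SpWeilChars.weil_characters hodd hn r (Or.inl hr.symm)
  obtain ⟨hp2, -⟩ := CfsgLib.SpWeilChars.weil_characters hodd hn (r + 1) (Or.inr (by omega))
  refine ⟨?_, ?_, fun χ h1 hχp hχm => ?_⟩
  · rw [hp]; exact hp2
  · rw [hm]; exact hm2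
  obtain ⟨k, ρ, -, -, hk0, hk⟩ := CfsgLib.SpWeilChars.exists_rep χ
  rw [hk] at h1 hχp hχm ⊢
  rw [hp] at hχp
  rw [hm] at hχm
  have e1 : k ≠ 1 := fun h => h1 (by rw [h]; norm_num)
  have e2 : k ≠ r + 1 := fun h => hχp (by rw [h])
  have e3 : k ≠ r := fun h => hχm (by rw [h])
  have hb := hgap χ k hk (by omega) (by omega) (by omega)
  rw [Complex.norm_natCast]
  have hb' : (((Fintype.card F) ^ n - 1 : ℕ) : ℝ) * (((Fintype.card F) ^ n - (Fintype.card F) : ℕ) : ℝ) ≤ 2 * (((Fintype.card F) : ℝ) + 1) * (k : ℝ) := by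
    exact_mod_cast hb
  rw [div_le_iff₀ (by positivity)]
  linarith

end Cfsg.Agent.S2524
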