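import Cfsg.Statements.S2525
import Cfsg.Agent.F4PrimeGraph.Words
import Cfsg.Agent.F4PrimeGraph.NonAdj

set_option autoImplicit false
open Cfsg

namespace Cfsg.Agent.S2525

open CfsgLib.F4PrimeGraph in
theorem adj_odd {F : Type*} [Field F] [Fintype F] {n : ℕ} (hn : 1 ≤ n)
    (hF : Fintype.card F = 2 ^ n) {r s : ℕ} [Fact r.Prime] [Fact s.Prime] (hr2 : r ≠ 2)
    (hs2 : s ≠ 2) (hrs : r ≠ s) {k l : ℕ}
    (hk : orderOf ((Fintype.card F : ℕ) : ZMod r) = k)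
    (hl : orderOf ((Fintype.card F : ℕ) : ZMod s) = l)
    (h : (k ∈ ({1, 2, 4} : Finset ℕ) ∧ l ∈ ({1, 2, 4} : Finset ℕ)) ∨
      (k ∈ ({1, 2, 3} : Finset ℕ) ∧ l ∈ ({1, 2, 3} : Finset ℕ)) ∨
      (k ∈ ({1, 2, 6} : Finset ℕ) ∧ l ∈ ({1, 2, 6} : Finset ℕ)) ∨ (k = 8 ∧ l = 8) ∨
      (k = 12 ∧ l = 12)) :
    ∃ x : ↥(Cfsg.Lie.chevF4.group F), orderOf x = r * s := by
  have hA : ∀ {t : ℕ} [Fact t.Prime] (a : ZMod t), a = ((Fintype.card F : ℕ) : ZMod t) →
      orderOf a ∈ ({1, 2, 4} : Finset ℕ) →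
      (chiAt (quad wordA) (Fintype.card F : ℤ) : ZMod t) = 0 := by
    intro t _ a ha ht
    rw [chi_A]; push_cast; rw [← ha]
    simp only [Finset.mem_insert, Finset.mem_singleton] at ht
    rcases ht with ht | ht | ht
    · rw [orderOf_eq_one_iff.1 ht]; ring
    · linear_combination (a - 1) * (a ^ 2 + 1) * pow_half (k := 1) ht one_pos
    · linear_combination (a - 1) * (a + 1) * pow_half (k := 2) ht two_pos
  have hB : ∀ {t : ℕ} [Fact t.Prime] (a : ZMod t), a = ((Fintype.card F : ℕ) : ZMod t) →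
      orderOf a ∈ ({1, 2, 3} : Finset ℕ) →
      (chiAt (quad wordB) (Fintype.card F : ℤ) : ZMod t) = 0 := by
    intro t _ a ha ht
    rw [chi_B]; push_cast; rw [← ha]
    simp only [Finset.mem_insert, Finset.mem_singleton] at ht
    rcases ht with ht | ht | ht
    · rw [orderOf_eq_one_iff.1 ht]; ring
    · linear_combination (a - 1) * (a ^ 2 + a + 1) * pow_half (k := 1) ht one_pos
    · linear_combination (a - 1) * (a + 1) * phi3_zero ht
  have hC : ∀ {t : ℕ} [Fact t.Prime] (a : ZMod t), a = ((Fintype.card F : ℕ) : ZMod t) →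
      orderOf a ∈ ({1, 2, 6} : Finset ℕ) →
      (chiAt (quad wordC) (Fintype.card F : ℤ) : ZMod t) = 0 := by
    intro t _ a ha ht
    rw [chi_C]; push_cast; rw [← ha]
    simp only [Finset.mem_insert, Finset.mem_singleton] at ht
    rcases ht with ht | ht | ht
    · rw [orderOf_eq_one_iff.1 ht]; ring
    · linear_combination (a - 1) * (a ^ 2 - a + 1) * pow_half (k := 1) ht one_pos
    · linear_combination (a - 1) * (a + 1) * phi6_zero ht
  have hD : ∀ {t : ℕ} [Fact t.Prime] (a : ZMod t), a = ((Fintype.card F : ℕ) : ZMod t) →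
      orderOf a = 8 → (chiAt (quad wordD) (Fintype.card F : ℤ) : ZMod t) = 0 := by
    intro t _ a ha ht
    rw [chi_D]; push_cast; rw [← ha]
    linear_combination pow_half (k := 4) ht (by norm_num)
  have hE : ∀ {t : ℕ} [Fact t.Prime] (a : ZMod t), a = ((Fintype.card F : ℕ) : ZMod t) →
      orderOf a = 12 → (chiAt (quad wordE) (Fintype.card F : ℤ) : ZMod t) = 0 := by
    intro t _ a ha ht
    rw [chi_E]; push_cast; rw [← ha]
    linear_combination phi12_zero ht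
  subst hk hl
  rcases h with ⟨a, b⟩ | ⟨a, b⟩ | ⟨a, b⟩ | ⟨a, b⟩ | ⟨a, b⟩
  · exact exists_odd hn hF hr2 hs2 hrs wordA (hA _ rfl a) (hA _ rfl b)
  · exact exists_odd hn hF hr2 hs2 hrs wordB (hB _ rfl a) (hB _ rfl b)
  · exact exists_odd hn hF hr2 hs2 hrs wordC (hC _ rfl a) (hC _ rfl b)
  · exact exists_odd hn hF hr2 hs2 hrs wordD (hD _ rfl a) (hD _ rfl b)
  · exact exists_odd hn hF hr2 hs2 hrs wordE (hE _ rfl a) (hE _ rfl b)

open CfsgLib.F4PrimeGraph CfsgLib.Chevalley in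
theorem adj_two {F : Type*} [Field F] [Fintype F] {n : ℕ} (hn : 1 ≤ n)
    (hF : Fintype.card F = 2 ^ n) {r : ℕ} [Fact r.Prime] (hr2 : r ≠ 2)
    (h : orderOf ((Fintype.card F : ℕ) : ZMod r) ∈ ({1, 2, 3, 4, 6} : Finset ℕ)) :
    ∃ x : ↥(Cfsg.Lie.chevF4.group F), orderOf x = 2 * r := by
  generalize ha : ((Fintype.card F : ℕ) : ZMod r) = a at h
  have key : ∀ L, act (quad L) (rc 47) = rc 47 → orderOf a ≠ 1 →
      (chiAt (quad L) (Fintype.card F : ℤ) : ZMod r) = 0 →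
      ∃ x : ↥(Cfsg.Lie.chevF4.group F), orderOf x = 2 * r := by
    intro L hL h1 hc
    obtain ⟨φ, hφ, hsc⟩ := exists_scaled_of_det L hc
    refine exists_two hn hF hr2 L hL hφ hsc ?_
    have e : ev φ (rc ((root47 : Fin Cfsg.Lie.chevF4.nroots) : ℕ)) =
        a * ev φ (rc ((root47 : Fin Cfsg.Lie.chevF4.nroots) : ℕ)) := by
      have e := hsc root47
      rwa [wperm_root47 hL, ha] at e
    refine (mul_eq_zero.1 (show (a - 1) * ev φ (rc 47) = 0 by
      rw [sub_mul, one_mul, sub_eq_zero]; exact e.symm)).resolve_left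
        (sub_ne_zero.2 fun h2 => h1 (orderOf_eq_one_iff.2 h2))
  simp only [Finset.mem_insert, Finset.mem_singleton] at h
  rcases h with h | h | h | h | h
  · refine exists_two hn hF hr2 [] ?_ (φ := ![1, 0, 0, -1]) ?_ ?_ ?_
    · rw [quad_nil]; decide +kernel
    · intro he; exact one_ne_zero (congrFun he 0)
    · intro s
      rw [ha, orderOf_eq_one_iff.1 h, one_mul]
      simp [Sys.wperm]
    · rw [show rc 47 = (2, 4, 3, 2) by decide +kernel]
      simp [ev]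
  · refine key wordA fix_A (by omega) ?_
    rw [chi_A]; push_cast; rw [ha]
    linear_combination (a - 1) * (a ^ 2 + 1) * pow_half (k := 1) h one_pos
  · refine key wordF fix_F (by omega) ?_
    rw [chi_F]; push_cast; rw [ha]
    linear_combination (a - 1) ^ 2 * phi3_zero h
  · refine key wordA fix_A (by omega) ?_
    rw [chi_A]; push_cast; rw [ha]
    linear_combination (a - 1) * (a + 1) * pow_half (k := 2) h two_pos
  · refine key wordC fix_C (by omega) ?_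
    rw [chi_C]; push_cast; rw [ha]
    linear_combination (a - 1) * (a + 1) * phi6_zero h

theorem classify : ∀ k ∈ ({1, 2, 3, 4, 6, 8, 12} : Finset ℕ),
    ∀ l ∈ ({1, 2, 3, 4, 6, 8, 12} : Finset ℕ),
      ¬ ((k < l ∧ (l ∈ ({8, 12} : Finset ℕ) ∨ (l = 6 ∧ k ∈ ({3, 4} : Finset ℕ)) ∨
          (l = 4 ∧ k = 3))) ∨
        (l < k ∧ (k ∈ ({8, 12} : Finset ℕ) ∨ (k = 6 ∧ l ∈ ({3, 4} : Finset ℕ)) ∨
          (k = 4 ∧ l = 3)))) →
      (k ∈ ({1, 2, 4} : Finset ℕ) ∧ l ∈ ({1, 2, 4} : Finset ℕ)) ∨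
        (k ∈ ({1, 2, 3} : Finset ℕ) ∧ l ∈ ({1, 2, 3} : Finset ℕ)) ∨
        (k ∈ ({1, 2, 6} : Finset ℕ) ∧ l ∈ ({1, 2, 6} : Finset ℕ)) ∨ (k = 8 ∧ l = 8) ∨
        (k = 12 ∧ l = 12) := by decide

/-- Let F be a finite field with q = 2^n elements and G = F₄(F). For an odd prime r let e(r, q) be the multiplicative order of q modulo r. Two distinct primes r, s dividing the order of G are non-adjacent in the prime graph of G (no element of order rs) if and only if, up to swapping r and s, either r = 2 and e(s, q) ∈ {8, 12}, or r, s are both odd with k = e(r, q) < l = e(s, q) and one of: l ∈ {8, 12}; l = 6 and k ∈ {3, 4}; l = 4 and k = 3. -/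
theorem result {F : Type*} [Field F] [Fintype F] (n : ℕ) (hn : 1 ≤ n) (hF : Fintype.card F = 2 ^ n)
    (r s : ℕ) (hr : r.Prime) (hs : s.Prime) (hrs : r ≠ s) (hrG : r ∣ Nat.card ↥(Cfsg.Lie.chevF4.group F)) (hsG : s ∣ Nat.card ↥(Cfsg.Lie.chevF4.group F)) :
    (¬ ∃ x : ↥(Cfsg.Lie.chevF4.group F), orderOf x = r * s) ↔
      ((r = 2 ∧ orderOf ((Fintype.card F : ℕ) : ZMod s) ∈ ({8, 12} : Finset ℕ)) ∨ (s = 2 ∧ orderOf ((Fintype.card F : ℕ) : ZMod r) ∈ ({8, 12} : Finset ℕ)) ∨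
       (r ≠ 2 ∧ s ≠ 2 ∧
         ((orderOf ((Fintype.card F : ℕ) : ZMod r) < orderOf ((Fintype.card F : ℕ) : ZMod s) ∧ (orderOf ((Fintype.card F : ℕ) : ZMod s) ∈ ({8, 12} : Finset ℕ) ∨ (orderOf ((Fintype.card F : ℕ) : ZMod s) = 6 ∧ orderOf ((Fintype.card F : ℕ) : ZMod r) ∈ ({3, 4} : Finset ℕ)) ∨ (orderOf ((Fintype.card F : ℕ) : ZMod s) = 4 ∧ orderOf ((Fintype.card F : ℕ) : ZMod r) = 3))) ∨
          (orderOf ((Fintype.card F : ℕ) : ZMod s) < orderOf ((Fintype.card F : ℕ) : ZMod r) ∧ (orderOf ((Fintype.card F : ℕ) : ZMod r) ∈ ({8, 12} : Finset ℕ) ∨ (orderOf ((Fintype.card F : ℕ) : ZMod r) = 6 ∧ orderOf ((Fintype.card F : ℕ) : ZMod s) ∈ ({3, 4} : Finset ℕ)) ∨ (orderOf ((Fintype.card F : ℕ) : ZMod r) = 4 ∧ orderOf ((Fintype.card F : ℕ) : ZMod s) = 3)))))) := by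
  haveI := Fact.mk hr
  haveI := Fact.mk hs
  constructor
  · intro hno
    by_contra hc
    apply hno
    rcases eq_or_ne r 2 with rfl | hr2
    · have hs2 : s ≠ 2 := Ne.symm hrs
      refine adj_two hn hF hs2 ?_
      have hm := CfsgLib.F4PrimeGraph.orderOf_mem hn hF hs2 hsG
      have hne := fun h => hc (Or.inl ⟨rfl, h⟩)
      simp only [Finset.mem_insert, Finset.mem_singleton] at hm hne ⊢
      tauto
    rcases eq_or_ne s 2 with rfl | hs2
    · rw [mul_comm]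
      refine adj_two hn hF hr2 ?_
      have hm := CfsgLib.F4PrimeGraph.orderOf_mem hn hF hr2 hrG
      have hne := fun h => hc (Or.inr (Or.inl ⟨rfl, h⟩))
      simp only [Finset.mem_insert, Finset.mem_singleton] at hm hne ⊢
      tauto
    exact adj_odd hn hF hr2 hs2 hrs rfl rfl (classify _
      (CfsgLib.F4PrimeGraph.orderOf_mem hn hF hr2 hrG) _
      (CfsgLib.F4PrimeGraph.orderOf_mem hn hF hs2 hsG)
      fun h => hc (Or.inr (Or.inr ⟨hr2, hs2, h⟩)))
  · rintro hc ⟨x, hx⟩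
    have hx' : orderOf x = s * r := by rw [hx, mul_comm]
    simp only [Finset.mem_insert, Finset.mem_singleton] at hc
    rcases hc with ⟨rfl, h⟩ | ⟨rfl, h⟩ | ⟨hr2, hs2, h⟩
    · exact (CfsgLib.F4PrimeGraph.top_pair hn hF hrs hsG h x hx).1 rfl
    · exact (CfsgLib.F4PrimeGraph.top_pair hn hF hrs.symm hrG h x hx').1 rfl
    rcases h with ⟨hlt, h⟩ | ⟨hlt, h⟩
    · rcases h with h | ⟨h6, h34 | h34⟩ | ⟨h4, h3⟩
      · exact hlt.ne (CfsgLib.F4PrimeGraph.top_pair hn hF hrs hsG h x hx).2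
      · exact CfsgLib.F4PrimeGraph.no_odd_pair hn hF hrs hrG hsG (.inr (.inl ⟨h34, h6⟩)) x hx
      · exact CfsgLib.F4PrimeGraph.no_odd_pair hn hF hrs hrG hsG (.inr (.inr ⟨h34, h6⟩)) x hx
      · exact CfsgLib.F4PrimeGraph.no_odd_pair hn hF hrs hrG hsG (.inl ⟨h3, h4⟩) x hx
    · rcases h with h | ⟨h6, h34 | h34⟩ | ⟨h4, h3⟩
      · exact hlt.ne (CfsgLib.F4PrimeGraph.top_pair hn hF hrs.symm hrG h x hx').2
      · exact CfsgLib.F4PrimeGraph.no_odd_pair hn hF hrs.symm hsG hrG (.inr (.inl ⟨h34, h6⟩)) x hx'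
      · exact CfsgLib.F4PrimeGraph.no_odd_pair hn hF hrs.symm hsG hrG (.inr (.inr ⟨h34, h6⟩)) x hx'
      · exact CfsgLib.F4PrimeGraph.no_odd_pair hn hF hrs.symm hsG hrG (.inl ⟨h3, h4⟩) x hx'

end Cfsg.Agent.S2525
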