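import Cfsg.Statements.S2556
import Cfsg.Agent.Suzuki.AutSylowTwo
import Cfsg.Agent.Suzuki.LieModel

set_option autoImplicit false
open Cfsg

namespace Cfsg.Agent.S2556

open CfsgLib.Suzuki

/-- The 2-core is the kernel when that is a 2-group and the image has odd order. -/
theorem pCore_eq_ker {A B : Type*} [Group A] [Finite A] [Group B] (f : A →* B)
    (h2 : IsPGroup 2 f.ker) (hodd : Odd (Nat.card f.range)) : Cfsg.pCore 2 A = f.ker := by
  refine le_antisymm (sSup_le fun N hN x hx => ?_) (le_sSup ⟨inferInstance, h2⟩)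
  obtain ⟨k, hk⟩ := hN.2 ⟨x, hx⟩
  have h1 : f x ^ 2 ^ k = 1 := by
    rw [← map_pow, show x ^ 2 ^ k = 1 from congrArg Subtype.val hk, map_one]
  rw [MonoidHom.mem_ker, ← orderOf_eq_one_iff]
  exact Nat.eq_one_of_dvd_coprimes ((Nat.coprime_two_left.mpr hodd).pow_left k)
    (orderOf_dvd_of_pow_eq_one h1) (Subgroup.orderOf_dvd_natCard _ ⟨x, rfl⟩)

/-- Let S be a Sylow 2-subgroup of the Suzuki group Sz(q), q = 2ⁿ with n = 2m + 1 ≥ 3 (realised as 4 × 4 matrices over the field with q elements). Then the largest normal 2-subgroup of the automorphism group of S is elementary abelian of order 2^(n²), and the automorphism group of S has order 2^(n²) · n · (q − 1). -/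
theorem result {S : Type*} [Group S] [Finite S] (m : ℕ) (hm : 1 ≤ m)
    {F : Type*} [Field F] [Fintype F] (hF : Fintype.card F = 2 ^ (2 * m + 1))
    (P : Sylow 2 ↥(Cfsg.Lie.Sz F (2 ^ (m + 1)))) (hS : Nonempty (S ≃* ↥(P : Subgroup ↥(Cfsg.Lie.Sz F (2 ^ (m + 1)))))) :
    Cfsg.IsElementaryAbelian 2 (Cfsg.pCore 2 (MulAut S)) ∧ Nat.card ↥(Cfsg.pCore 2 (MulAut S)) = 2 ^ ((2 * m + 1) ^ 2) ∧
      Nat.card (MulAut S) = 2 ^ ((2 * m + 1) ^ 2) * ((2 * m + 1) * (2 ^ (2 * m + 1) - 1)) := by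
  classical
  haveI hchar := charP_two hF
  have hT := titsEndo_theta hm hF
  obtain ⟨eS⟩ := hS
  let e : ↥(grp (theta F m)) ≃* ↥(Cfsg.Lie.Sz F (2 ^ (m + 1))) :=
    (MulEquiv.subgroupCongr (sz_eq (F := F) (m := m)).symm).trans (lieSzEquiv hm hF)
  let Q : Sylow 2 ↥(Cfsg.Lie.Sz F (2 ^ (m + 1))) :=
    (uSylow hT).mapSurjective (f := e.toMonoidHom) e.surjective
  let ι : S ≃* ↥(uGrp hT) := eS.trans ((P.equiv Q).trans
    (((uSylow hT : Subgroup (grp (theta F m))).equivMapOfInjective e.toMonoidHom e.injective).symm))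
  have hcomm : ∀ (σ : F ≃+* F) (x : F), theta F m (σ x) = σ (theta F m x) := fun σ x => by
    rw [theta_apply, theta_apply, map_pow]
  have hcard : Nat.card F = 2 ^ (2 * m + 1) := by rw [Nat.card_eq_fintype_card, hF]
  have hu : Nat.card Fˣ = 2 ^ (2 * m + 1) - 1 := by rw [Nat.card_units, hcard]
  have h4 : ∃ x : F, x ^ 4 ≠ x := by
    obtain ⟨g, hg⟩ := IsCyclic.exists_ofOrder_eq_natCard (α := Fˣ)
    refine ⟨g, fun h => ?_⟩
    have h3 : g ^ 3 = 1 := Units.ext (mul_right_cancel₀ g.ne_zero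
      (by rw [Units.val_pow_eq_pow_val, ← pow_succ, Units.val_one, one_mul, h]))
    have hle := Nat.le_of_dvd (by norm_num) (orderOf_dvd_of_pow_eq_one h3)
    rw [hg, hu] at hle
    have : 2 ^ 3 ≤ 2 ^ (2 * m + 1) := Nat.pow_le_pow_right (by norm_num) (by omega)
    omega
  let f : MulAut S →* Equiv.Perm F := (layerHom hT).comp (MulAut.congr ι).toMonoidHom
  have hker : f.ker = (layerHom hT).ker.comap (MulAut.congr ι).toMonoidHom := rfl
  have hrange : f.range = (layerHom hT).range :=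
    (MonoidHom.range_comp _ _).trans (by rw [MonoidHom.range_eq_top.mpr (MulAut.congr ι).surjective, MonoidHom.range_eq_map])
  have hcr : Nat.card f.range = (2 * m + 1) * (2 ^ (2 * m + 1) - 1) := by
    rw [hrange, card_range_layerHom hT hcomm h4, hu, CfsgLib.SuzukiAut.card_ringAut hF, mul_comm]
  have hck : Nat.card f.ker = 2 ^ ((2 * m + 1) ^ 2) := by
    rw [← card_ker_layerHom hT hcard]
    exact Nat.card_congr ((MulAut.congr ι).toEquiv.subtypeEquiv fun α => Iff.rfl)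
  have hodd : Odd (Nat.card f.range) := by
    rw [hcr]
    refine Odd.mul ⟨m, rfl⟩ (Nat.Even.sub_odd (Nat.one_le_two_pow) ?_ odd_one)
    exact (even_two.pow_of_ne_zero (by omega))
  have hpc := pCore_eq_ker f (IsPGroup.of_card hck) hodd
  refine ⟨?_, by rw [hpc, hck], ?_⟩
  · obtain ⟨⟨⟨hc⟩⟩, h2⟩ := ker_layerHom_elementary hT
    rw [hpc]
    refine ⟨⟨⟨fun a b => Subtype.ext ((MulAut.congr ι).injective ?_)⟩⟩,
      fun a ha => (MulAut.congr ι).injective ?_⟩
    · rw [Subgroup.coe_mul, Subgroup.coe_mul, map_mul, map_mul]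
      exact congrArg Subtype.val (hc ⟨_, a.2⟩ ⟨_, b.2⟩)
    · rw [map_pow, map_one]
      exact h2 _ ha
  · rw [← f.ker.card_mul_index, Subgroup.index_ker, hck, hcr]

end Cfsg.Agent.S2556
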