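import Cfsg.Statements.S2558
import Cfsg.Agent.IsometryClasses.OrthLower
import Cfsg.Agent.Classical.Orth.Forms

set_option autoImplicit false
open Cfsg

namespace Cfsg.Agent.S2558

/-- The number of conjugacy classes of the full orthogonal groups O⁺(2n,q) and O⁻(2n,q), q odd, 2n ≥ 4: for F a finite field of odd order q and n ≥ 2, the number k of conjugacy classes of the isometry group of the hyperbolic quadratic form Σ xᵢyᵢ on F^{2n}, and likewise of the elliptic form Σ xᵢyᵢ + (z₁² + a z₁z₂ + b z₂²) with anisotropic binary part, satisfies q^n/2 ≤ k ≤ 9.5·q^n. -/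
theorem result {F : Type*} [Field F] [Fintype F] (hodd : Odd (Fintype.card F)) (n : ℕ) (hn : 2 ≤ n) (a b : F) (hab : ∀ z₁ z₂ : F, z₁ ^ 2 + a * z₁ * z₂ + b * z₂ ^ 2 = 0 → z₁ = 0 ∧ z₂ = 0) :
    (Fintype.card F ^ n ≤ 2 * Nat.card (ConjClasses ↥(Cfsg.isometryGroup F (Cfsg.quadFormPlus n F))) ∧
      2 * Nat.card (ConjClasses ↥(Cfsg.isometryGroup F (Cfsg.quadFormPlus n F))) ≤ 19 * Fintype.card F ^ n) ∧
    (Fintype.card F ^ n ≤ 2 * Nat.card (ConjClasses ↥(Cfsg.isometryGroup F (Cfsg.quadFormMinus (n - 1) F a b))) ∧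
      2 * Nat.card (ConjClasses ↥(Cfsg.isometryGroup F (Cfsg.quadFormMinus (n - 1) F a b))) ≤ 19 * Fintype.card F ^ n) := by
  have h2 : (2 : F) ≠ 0 := by
    intro h
    have hc : ringChar F = 2 := ringChar.eq_iff.2 (CharTwo.of_one_ne_zero_of_two_eq_zero one_ne_zero h)
    exact (Nat.not_even_iff_odd.2 hodd) (Nat.even_iff.2 (FiniteField.even_card_iff_char_two.1 hc))
  have hq : 3 ≤ Fintype.card F := by
    have := Fintype.one_lt_card (α := F)
    obtain ⟨j, hj⟩ := hodd
    omega
  have hP := CfsgLib.Classical.Orth.isNondegQF_quadFormPlus (F := F) n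
  have hM := CfsgLib.Classical.Orth.isNondegQF_quadFormMinus (F := F) (n - 1) a b hab
  exact ⟨⟨CfsgLib.IsometryClasses.le_two_mul_card_classes h2 hq hP hn
      (by simp only [Fintype.card_sum, Fintype.card_fin]; omega),
    CfsgLib.IsometryClasses.card_classes_le_even h2 hq hP
      (by simp only [Fintype.card_sum, Fintype.card_fin]; omega)⟩,
    ⟨CfsgLib.IsometryClasses.le_two_mul_card_classes h2 hq hM hn
      (by simp only [Fintype.card_sum, Fintype.card_fin]; omega),
    CfsgLib.IsometryClasses.card_classes_le_even h2 hq hM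
      (by simp only [Fintype.card_sum, Fintype.card_fin]; omega)⟩⟩

end Cfsg.Agent.S2558
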