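import Cfsg.Statements.S2560
import Cfsg.Agent.OmegaClasses.Main
import Cfsg.Agent.OrthGeo.QuadOdd

set_option autoImplicit false
open Cfsg

namespace Cfsg.Agent.S2560

/-- The number of conjugacy classes of Ω(2n+1,q), q odd, n ≥ 2: for F a finite field of odd order q, the number k of conjugacy classes of the commutator subgroup of the isometry group of the quadratic form x₀² + Σ xᵢyᵢ on F^{2n+1} satisfies q^n/2 ≤ k ≤ 7.3·q^n. -/
theorem result {F : Type*} [Field F] [Fintype F] (hodd : Odd (Fintype.card F)) (n : ℕ) (hn : 2 ≤ n) :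
    Fintype.card F ^ n ≤ 2 * Nat.card (ConjClasses ↥(Cfsg.Omega F (Cfsg.quadFormOdd n F))) ∧
      10 * Nat.card (ConjClasses ↥(Cfsg.Omega F (Cfsg.quadFormOdd n F))) ≤ 73 * Fintype.card F ^ n := by
  have h2 : (2 : F) ≠ 0 := fun e => by
    have h1 : ringChar F = 2 := by
      haveI := CharP.char_is_prime F (ringChar F)
      exact ((Nat.prime_dvd_prime_iff_eq (CharP.char_is_prime F (ringChar F)) Nat.prime_two).1
        (ringChar.dvd (by exact_mod_cast e)))
    have := FiniteField.even_card_iff_char_two.1 h1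
    obtain ⟨k, hk⟩ := hodd
    omega
  have hq : 3 ≤ Fintype.card F := by
    have := Fintype.one_lt_card (α := F)
    obtain ⟨k, hk⟩ := hodd
    omega
  exact CfsgLib.OmegaClasses.card_classes_omega_bounds h2 hq
    (CfsgLib.OrthGeo.isNondegenerateQuadraticForm_quadFormOdd n h2) hn
    (by simp only [Fintype.card_sum, Fintype.card_fin, Fintype.card_unit]; omega)

end Cfsg.Agent.S2560
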