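import Cfsg.Statements.S2658
import Cfsg.Agent.AltExc.G2Main

set_option autoImplicit false
open scoped MatrixGroups
open Cfsg
open scoped commutatorElement Pointwise

namespace Cfsg.Agent.S2658

/-- Alternating sections of the groups of type G₂. Let `F` be a finite field of characteristic `p` and let `G` be the Chevalley group of type G₂ over `F`. If some subgroup of `G` has a quotient isomorphic to the alternating group of degree `r`, then `r` is at most 6, or 7 in characteristic 5. (Only an upper bound is asserted.) -/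
theorem result {F : Type*} [Field F] [Fintype F] (p : ℕ) [Fact p.Prime] [CharP F p]
    (r : ℕ) (H : Subgroup ↥(Cfsg.Lie.chevG2.group F)) (K : Subgroup ↥H) [K.Normal]
    (h : Nonempty (↥H ⧸ K ≃* ↥(alternatingGroup (Fin r)))) :
    r ≤ 6 + (if p = 5 then 1 else 0) := by
  by_contra hr
  rw [Nat.not_le] at hr
  let e := (CfsgLib.G2Oct.chevIso F).symm
  have hm : ∀ m, m ≤ r → ∃ (H' : Subgroup ↥(Cfsg.Lie.G2 F)) (φ : H' →* CfsgLib.AltLinear.Alt m),
      Function.Surjective φ := by
    intro m hmr
    obtain ⟨H₀, φ, hφ⟩ := CfsgLib.AltExc.exists_smaller hmr H K h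
    exact ⟨H₀.map e.toMonoidHom, φ.comp (H₀.equivMapOfInjective e.toMonoidHom e.injective).symm.toMonoidHom,
      hφ.comp (H₀.equivMapOfInjective e.toMonoidHom e.injective).symm.surjective⟩
  have hcast : ∀ q : ℕ, q.Prime → p ≠ q → (q : F) ≠ 0 := fun q hq hne e0 => hne
    ((Nat.prime_dvd_prime_iff_eq Fact.out hq).1 ((CharP.cast_eq_zero_iff F p q).1 e0))
  by_cases hp : p = 5
  · rw [if_pos hp] at hr
    obtain ⟨H', φ, hφ⟩ := hm 8 (by omega)
    exact CfsgLib.AltExc.no_alt8 (by exact_mod_cast hcast 3 (by norm_num) (by omega)) H' φ hφ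
  · rw [if_neg hp] at hr
    obtain ⟨H', φ, hφ⟩ := hm 7 (by omega)
    exact CfsgLib.AltExc.no_alt7 (by exact_mod_cast hcast 5 (by norm_num) hp) H' φ hφ

end Cfsg.Agent.S2658
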