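import Cfsg.Statements.S2660
import Cfsg.Agent.D4AltSection.Eight
import Cfsg.Agent.D4AltSection.Five

set_option autoImplicit false
open scoped MatrixGroups
open Cfsg
open scoped commutatorElement Pointwise

namespace Cfsg.Agent.S2660

/-- Alternating sections of the triality-twisted groups ³D₄. Let `q = p^a` be a prime power and `K` a field with `q³` elements, and let `G` be the twisted group ³D₄(q) realised over `K`. If some subgroup of `G` has a quotient isomorphic to the alternating group of degree `r`, then `r` is at most 6, or 7 in characteristic 5. (Only an upper bound is asserted.) -/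
theorem result {K : Type*} [Field K] [Fintype K] (p a : ℕ) [Fact p.Prime] [CharP K p]
    (ha : 1 ≤ a) (hK : Fintype.card K = (p ^ a) ^ 3) (r : ℕ) (H : Subgroup ↥(Cfsg.Lie.twistedD4 K (p ^ a))) (N : Subgroup ↥H) [N.Normal]
    (h : Nonempty (↥H ⧸ N ≃* ↥(alternatingGroup (Fin r)))) :
    r ≤ 6 + (if p = 5 then 1 else 0) := by
  by_contra hr
  rw [Nat.not_le] at hr
  have hq : IsPrimePow (p ^ a) := (Fact.out : p.Prime).isPrimePow.pow (by omega)
  obtain ⟨E, _, _, _, f, hf, hE⟩ := CfsgLib.D4AltSection.exists_baseChange hq hK p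
  have hq4 : IsPrimePow ((p ^ a) ^ 4) := hq.pow (by norm_num)
  have hm : ∀ m, m ≤ r → ∃ (H' : Subgroup ↥(Cfsg.Lie.twistedD4 K (p ^ a))) (φ : H' →* CfsgLib.AltLinear.Alt m),
      Function.Surjective φ := fun m hmr => CfsgLib.AltExc.exists_smaller hmr H N h
  by_cases hp : p = 5
  · subst hp
    rw [if_pos rfl] at hr
    obtain ⟨H', φ, hφ⟩ := hm 8 (by omega)
    haveI : Finite ↥(Cfsg.Lie.twistedD4 K (5 ^ a)) := inferInstance
    exact CfsgLib.D4AltSection.no_alt8 hq4 hE
      (CfsgLib.D4AltSection.dvd_pow_four_sub_one rfl Nat.prime_three (by norm_num) (by norm_num))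
      (f.comp H'.subtype) (hf.comp H'.subtype_injective) φ hφ
  · rw [if_neg hp] at hr
    obtain ⟨H', φ, hφ⟩ := hm 7 (by omega)
    exact CfsgLib.D4AltSection.no_alt7 hq4 hE
      (CfsgLib.D4AltSection.dvd_pow_four_sub_one rfl Nat.prime_five hp (by norm_num))
      (f.comp H'.subtype) (hf.comp H'.subtype_injective) φ hφ

end Cfsg.Agent.S2660
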