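import Cfsg.Statements.S2730
import Cfsg.Agent.AutPSp.LocalBalance

set_option autoImplicit false
open Cfsg

namespace Cfsg.Agent.S2730

/-- A criterion for the failure of local balance in almost simple groups whose socle is a projective symplectic group PSp_{2m}(F) (m ≥ 2, (2m, |F|) ≠ (4, 2)). Let F be a finite field of characteristic r and K the (simple) group in question; let A be a group of automorphisms of K containing all inner automorphisms, and x ∈ A an automorphism of prime order p ≠ r that is not inner-diagonal (not induced by a conformal symplectic matrix). Then the largest normal subgroup of C_A(x) of order prime to p is nontrivial if and only if x is a field automorphism of K (conjugate under Aut(K) to a non-identity standard field automorphism) and p does not divide the number of fixed points of x on K. -/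
theorem result {F : Type*} [Field F] [Fintype F] {r : ℕ} [Fact r.Prime] [CharP F r] {m : ℕ} (hm : 2 ≤ m) (hs : m = 2 → 3 ≤ Fintype.card F) (hK : IsSimpleGroup (Cfsg.PSp m F)) (A : Subgroup (MulAut (Cfsg.PSp m F))) (hinn : ∀ k : Cfsg.PSp m F, MulAut.conj k ∈ A) {p : ℕ} [Fact p.Prime] (hpr : p ≠ r) (x : MulAut (Cfsg.PSp m F)) (hxA : x ∈ A) (hord : orderOf x = p) (hnot : ¬ Cfsg.IsInnerDiagonalAutPSp x) :
    Cfsg.pPrimeCore p ↥(A ⊓ Subgroup.centralizer {x}) ≠ ⊥ ↔ (Cfsg.IsFieldAutClassPSp x ∧ Nat.Coprime p (Nat.card ↥(MonoidHom.eqLocus x.toMonoidHom (MonoidHom.id (Cfsg.PSp m F))))) := by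
  haveI : NeZero m := ⟨by omega⟩
  exact CfsgLib.AutPSp.local_balance (r := r) hm A hinn hpr x hord hnot

end Cfsg.Agent.S2730
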