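import Cfsg.Statements.S2766
import Cfsg.Agent.S2764
import Cfsg.Agent.S2765
import Cfsg.Agent.MinParFF.QdPush.Final

set_option autoImplicit false
open Cfsg

namespace Cfsg.Agent.S2766

/-- Let p ≥ 5 be prime and G a maximal p-local subgroup of a finite group H (G is the normalizer of a nontrivial p-subgroup and lies in no other such normalizer). Suppose C_G(O_p(G)) ≤ O_p(G), G/K ≅ PSL₂(p^n) for some normal K and n ≥ 1, a Sylow p-subgroup S of G lies in exactly one maximal subgroup of G, and N_H(S) is not contained in G. Then G = G₀ × E for subgroups G₀ ≅ Qd(p^n) (the natural semidirect product of the plane over the field with p^n elements by SL₂) and E an elementary abelian p-group. -/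
theorem result {H : Type*} [Group H] [Finite H] {p : ℕ} [Fact p.Prime] (hp : 5 ≤ p) (G : Subgroup H) (hloc : ∃ R : Subgroup H, IsPGroup p ↥R ∧ R ≠ ⊥ ∧ G = Subgroup.normalizer (R : Set H)) (hmax : ∀ R : Subgroup H, IsPGroup p ↥R → R ≠ ⊥ → G ≤ Subgroup.normalizer (R : Set H) → Subgroup.normalizer (R : Set H) = G) (S : Sylow p ↥G) (hE₁ : Subgroup.centralizer (Cfsg.pCore p ↥G : Set ↥G) ≤ Cfsg.pCore p ↥G) (hE₂ : ∃! M : Subgroup ↥G, IsCoatom M ∧ (S : Subgroup ↥G) ≤ M) (K : Subgroup ↥G) [K.Normal] (F : Type) [Field F] [Fintype F] (n : ℕ) (hn : 1 ≤ n) (hF : Fintype.card F = p ^ n) (hE₃ : Nonempty (↥G ⧸ K ≃* Matrix.ProjectiveSpecialLinearGroup (Fin 2) F)) (hN : ¬ Subgroup.normalizer (((S : Subgroup ↥G).map G.subtype : Subgroup H) : Set H) ≤ G) : ∃ G₀ E : Subgroup H, Cfsg.IsInternalDirectProduct G₀ E G ∧ Cfsg.IsElementaryAbelian p E ∧ Nonempty (↥G₀ ≃* ↥(Cfsg.qdOver F)) := by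
  classical
  haveI hchar : CharP F p := charP_of_card_eq_prime_pow hF
  have h5 : 5 ≤ Fintype.card F := by rw [hF]; exact hp.trans (Nat.le_self_pow (by omega) p)
  set SH : Subgroup H := (S : Subgroup ↥G).map G.subtype with hSH
  obtain ⟨α, hαN, hαG⟩ := SetLike.not_le_iff_exists.1 hN
  -- no characteristic subgroup of the Sylow subgroup is normal
  have hd : ∀ T : Subgroup ↥(S : Subgroup ↥G), T ≠ ⊥ → T.Characteristic →
      ¬ (T.map (S : Subgroup ↥G).subtype).Normal := by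
    intro T hT hchar hn'
    set R : Subgroup H := (T.map (S : Subgroup ↥G).subtype).map G.subtype with hR
    have hRN : Subgroup.normalizer (R : Set H) = G := by
      refine hmax R ((((S.isPGroup').to_subgroup T).map _).map _) ?_ ?_
      · intro h0
        apply hT
        rwa [hR, Subgroup.map_eq_bot_iff_of_injective _ Subtype.val_injective,
          Subgroup.map_eq_bot_iff_of_injective _ Subtype.val_injective] at h0
      · intro g hg
        refine CfsgLib.MinParFF.QdPush.mem_normalizer_of_le ?_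
        rintro _ ⟨d, hd, rfl⟩
        exact ⟨⟨g, hg⟩ * d * ⟨g, hg⟩⁻¹, hn'.conj_mem d hd _, rfl⟩
    apply hαG
    rw [← hRN]
    refine CfsgLib.MinParFF.QdPush.mem_normalizer_of_le ?_
    rintro _ ⟨_, ⟨x, hx, rfl⟩, rfl⟩
    let eS : (S : Subgroup ↥G) ≃* SH := (S : Subgroup ↥G).equivMapOfInjective G.subtype Subtype.val_injective
    let φ : MulAut (S : Subgroup ↥G) := MulAut.congr eS.symm (SH.normalizerMonoidHom ⟨α, hαN⟩)
    have h1 : ∀ y : SH, (((eS.symm y : (S : Subgroup ↥G)) : G) : H) = y := fun y => by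
      conv_rhs => rw [← eS.apply_symm_apply y]
      rfl
    refine ⟨(φ x : (S : Subgroup ↥G)), ⟨φ x, ?_, rfl⟩, ?_⟩
    · have h2 := hchar.fixed φ
      rw [← h2] at hx
      exact hx
    · show (((eS.symm ((SH.normalizerMonoidHom ⟨α, hαN⟩) (eS x)) : (S : Subgroup ↥G)) : G) : H) = _
      rw [h1]
      rfl
  obtain ⟨hiso, hnat⟩ := Cfsg.Agent.S2764.result S hE₁ hE₂ K F n hn hF hE₃ hd
  rcases Cfsg.Agent.S2765.result S hE₁ hE₂ K F n hn hF hE₃ hd with
    ⟨hcl, -, -, hexp, U, W, hWU, hUQ, hUW, hne, hW, hQU⟩ | ⟨h3, -⟩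
  swap
  · omega
  haveI : W.Normal := hUW.2.2.1
  obtain ⟨D⟩ := CfsgLib.MinParFF.QdPush.exists_data (p := p) (F := F) (by omega) (by omega) S U W hUQ hUW
    (hnat U W hUQ hUW hne) hiso hW hQU hcl (hexp (by omega))
  obtain ⟨G₀, E, ⟨-, -, hcomm, hbot, htop⟩, ⟨hEc, hEp⟩, ⟨e⟩⟩ :=
    D.exists_split hp (D.core_abelian hp hmax hαN hαG)
  refine ⟨G₀.map G.subtype, E.map G.subtype, ⟨?_, ?_, ?_, ?_, ?_⟩, ⟨?_, ?_⟩,
    ⟨(G₀.equivMapOfInjective G.subtype Subtype.val_injective).symm.trans e⟩⟩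
  · rintro _ ⟨a, -, rfl⟩
    exact a.2
  · rintro _ ⟨a, -, rfl⟩
    exact a.2
  · rintro _ ⟨a, ha, rfl⟩ _ ⟨b, hb, rfl⟩
    rw [← map_mul, hcomm a ha b hb, map_mul]
  · rw [← Subgroup.map_inf_eq _ _ _ Subtype.val_injective, hbot, Subgroup.map_bot]
  · rw [← Subgroup.map_sup, htop, ← MonoidHom.range_eq_map, Subgroup.range_subtype]
  · refine ⟨⟨?_⟩⟩
    rintro ⟨_, a, ha, rfl⟩ ⟨_, b, hb, rfl⟩
    refine Subtype.ext ?_
    show (a : H) * b = b * a
    exact congrArg Subtype.val (show a * b = b * a from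
      congrArg Subtype.val (hEc.is_comm.comm ⟨a, ha⟩ ⟨b, hb⟩))
  · rintro _ ⟨a, ha, rfl⟩
    rw [← map_pow, hEp a ha, map_one]

end Cfsg.Agent.S2766
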