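import Cfsg.Statements.S2773
import Cfsg.Agent.TransferThree23.Final

set_option autoImplicit false
universe u
open Cfsg

namespace Cfsg.Agent.S2773

/-- For every nontrivial finite 3-group S there is a nontrivial characteristic subgroup K of S such that, in every finite group G containing S as a Sylow 3-subgroup, S ∩ G' is the product of S ∩ (C_G(Z(S)))' and S ∩ (N_G(K))' (derived subgroups; product taken elementwise). -/
theorem result {S : Type u} [Group S] [Finite S] [Nontrivial S] (hS : IsPGroup 3 S) : ∃ K : Subgroup S, K ≠ ⊥ ∧ K.Characteristic ∧ ∀ (G : Type u) [Group G] [Finite G] (τ : S →* G), Function.Injective τ → (∃ P : Sylow 3 G, (P : Subgroup G) = τ.range) → ∀ g : G, g ∈ τ.range ⊓ commutator G ↔ ∃ a ∈ τ.range ⊓ ⁅Subgroup.centralizer ((τ.range ⊓ Subgroup.centralizer (τ.range : Set G) : Subgroup G) : Set G), Subgroup.centralizer ((τ.range ⊓ Subgroup.centralizer (τ.range : Set G) : Subgroup G) : Set G)⁆, ∃ b ∈ τ.range ⊓ ⁅Subgroup.normalizer ((K.map τ : Subgroup G) : Set G), Subgroup.normalizer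 ((K.map τ : Subgroup G) : Set G)⁆, g = a * b := by
  haveI : Fact (Nat.Prime 3) := ⟨Nat.prime_three⟩
  have hW := CfsgLib.TransferThree23.isCharPFunctor_kFunctor.{u} 3
  refine ⟨CfsgLib.TransferThree23.kFunctor 3 S, hW.1 S hS inferInstance,
    Subgroup.characteristic_iff_map_eq.2 fun φ => hW.2 S S hS φ, ?_⟩
  intro G _ _ τ hτ hP g
  obtain ⟨P, hP⟩ := hP
  exact CfsgLib.TransferThree23.exists_product (by decide) τ hτ P hP g

end Cfsg.Agent.S2773
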