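import Cfsg.Statements.S2774
import Cfsg.Agent.TwoSubgroup16.Reduction

set_option autoImplicit false
open Cfsg

namespace Cfsg.Agent.S2774

/-- Let p be an odd prime and S a nontrivial Sylow p-subgroup of a finite group G. Then S ∩ G' is generated by the subgroups S ∩ (N_G(K))' as K ranges over the nontrivial characteristic subgroups of S (derived subgroups of the normalizers). -/
theorem result {G : Type*} [Group G] [Finite G] {p : ℕ} [Fact p.Prime] (hp : p ≠ 2) (S : Sylow p G) (hS : (S : Subgroup G) ≠ ⊥) : (S : Subgroup G) ⊓ commutator G = ⨆ K : {K : Subgroup ↥(S : Subgroup G) // K ≠ ⊥ ∧ K.Characteristic}, (S : Subgroup G) ⊓ ⁅Subgroup.normalizer ((((K : Subgroup ↥(S : Subgroup G))).map (S : Subgroup G).subtype : Subgroup G) : Set G), Subgroup.normalizer ((((K : Subgroup ↥(S : Subgroup G))).map (S : Subgroup G).subtype : Subgroup G) : Set G)⁆ := by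
  refine le_antisymm ((le_of_eq ?_).trans ((CfsgLib.TwoSubgroup16.transferLe_allFunctors hp _ G le_rfl S).trans
    (iSup₂_le ?_))) (iSup_le fun _ => inf_le_inf_left _ (by rw [commutator_def]; exact Subgroup.commutator_mono le_top le_top))
  · rw [commutator_def]
  rintro _ ⟨_, ⟨W, hW, rfl⟩, rfl⟩
  haveI : Nontrivial ↥(S : Subgroup G) := (Subgroup.nontrivial_iff_ne_bot _).mpr hS
  have hne : W ↥(S : Subgroup G) ≠ ⊥ := hW.1 _ S.2 inferInstance
  have hch : (W ↥(S : Subgroup G)).Characteristic :=
    Subgroup.characteristic_iff_map_eq.mpr fun σ => hW.2 _ _ S.2 σ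
  refine le_trans (inf_le_inf_left _ (Subgroup.commutator_mono inf_le_right inf_le_right)) ?_
  exact le_iSup (fun K : {K : Subgroup ↥(S : Subgroup G) // K ≠ ⊥ ∧ K.Characteristic} => (S : Subgroup G) ⊓
    ⁅Subgroup.normalizer ((((K : Subgroup ↥(S : Subgroup G))).map (S : Subgroup G).subtype : Subgroup G) : Set G),
      Subgroup.normalizer ((((K : Subgroup ↥(S : Subgroup G))).map (S : Subgroup G).subtype : Subgroup G) : Set G)⁆)
    ⟨W ↥(S : Subgroup G), hne, hch⟩

end Cfsg.Agent.S2774
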