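import Cfsg.Statements.S2793
import Cfsg.Agent.ZJFailure.Main
import Cfsg.Agent.Eq.Def_LocalEven

set_option autoImplicit false
open Cfsg

namespace Cfsg.Agent.S2793

/-- Let p be an odd prime, S a Sylow p-subgroup of the finite group G, J(S) the subgroup generated by the abelian subgroups of S of largest order, and suppose Z(J(S)) does not control strong fusion in G. Put H = N_G(Z(J(S))). Then the group F(p) of upper triangular 3 × 3 matrices (a b c; 0 a⁻¹ d; 0 0 1) over the field with p elements is involved in H, and Z(J(S)) contains a subgroup C of order p with |N_H(C) : C_H(C)| = p − 1. -/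
theorem result {G : Type*} [Group G] [Finite G] {p : ℕ} [Fact p.Prime] (hp : p ≠ 2) (S : Sylow p G) (h : ¬ Cfsg.ControlsStrongFusion p (Cfsg.centerThompsonAOf (S : Subgroup G))) (H : Subgroup G) (hH : H = Subgroup.normalizer ((Cfsg.centerThompsonAOf (S : Subgroup G)) : Set G)) : Cfsg.Involves ↥(Cfsg.fOver (ZMod p)) ↥H ∧ ∃ C : Subgroup G, C ≤ (Cfsg.centerThompsonAOf (S : Subgroup G)) ∧ Nat.card C = p ∧ (H ⊓ Subgroup.centralizer (C : Set G)).relIndex (H ⊓ Subgroup.normalizer (C : Set G)) = p - 1 := by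
  subst hH
  have hfail : ¬ CfsgLib.ZJFailure.FusControlled S := by
    intro hc
    refine h ⟨S, ?_, fun A hA => ⟨hA, fun g hg => ?_⟩⟩
    · intro z hz
      exact (Subgroup.map_subtype_le _ : Cfsg.thompsonSubgroupAOf (S : Subgroup G) ≤ (S : Subgroup G)) hz.1
    · have hA' : Subgroup.closure A ≤ (S : Subgroup G) := (Subgroup.closure_le _).2 hA
      have hgA : CfsgLib.ConjFunctor.conjOf g (Subgroup.closure A) ≤ (S : Subgroup G) := by
        unfold CfsgLib.ConjFunctor.conjOf
        rw [MonoidHom.map_closure, Subgroup.closure_le]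
        rintro _ ⟨a, ha, rfl⟩
        exact hg ⟨a, ha, by simp⟩
      obtain ⟨n, hn, hn'⟩ := hc _ g hA' hgA
      exact ⟨n, hn, fun a ha => (hn' a (Subgroup.subset_closure ha)).symm⟩
  obtain ⟨hinv, c, hc, hc1, hcp, n, hn, s, hs, hnc⟩ :=
    CfsgLib.ZJFailure.failureData_of_not_controlled hp (Nat.card G) G rfl S hfail
  refine ⟨hinv, Subgroup.zpowers c, Subgroup.zpowers_le.mpr hc, ?_,
    CfsgLib.ZJFailure.relIndex_eq_pred hc1 hcp hn hs hnc⟩
  rw [Nat.card_zpowers, orderOf_eq_prime hcp hc1]

end Cfsg.Agent.S2793
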