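import Cfsg.Statements.S2896
import Cfsg.Agent.Eq.Def_LocalEven
import Cfsg.Agent.Eq.Def_LocalStructure
import Cfsg.Agent.Eq.Def_PLocal
import Cfsg.Agent.FStar.SelfCentralizing

set_option autoImplicit false
open Cfsg

namespace Cfsg.Agent.S2896

open CfsgLib.CharPClimb

/-- `N(U)` has characteristic `p` when some element of `U` has centralizer of characteristic `p`. -/
theorem charP_normalizer_of_element {G : Type*} [Group G] [Finite G] {p : ℕ} [Fact p.Prime]
    {U : Subgroup G} (hU : IsPGroup p U) {z : G} (hz : z ∈ U)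
    (hc : CharP p (Subgroup.centralizer ({z} : Set G))) :
    CharP p (Subgroup.normalizer (U : Set G)) := by
  have hV : Subgroup.centralizer ((Subgroup.zpowers z : Subgroup G) : Set G) =
      Subgroup.centralizer ({z} : Set G) := by
    rw [Subgroup.zpowers_eq_closure, Subgroup.centralizer_closure]
  exact charP_normalizer hU (charP_centralizer_of_le hU _ (Subgroup.zpowers_le.mpr hz) (hV ▸ hc))

/-- Characteristic `p` of an element centralizer is invariant under conjugation. -/
theorem charP_centralizer_conj {G : Type*} [Group G] [Finite G] {p : ℕ} [Fact p.Prime] (g z : G)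
    (hc : CharP p (Subgroup.centralizer ({z} : Set G))) :
    CharP p (Subgroup.centralizer ({g * z * g⁻¹} : Set G)) := by
  have hm : (Subgroup.centralizer ({z} : Set G)).map (MulAut.conj g).toMonoidHom =
      Subgroup.centralizer ({g * z * g⁻¹} : Set G) := by
    ext x
    rw [Subgroup.mem_map_equiv, MulAut.conj_symm_apply, Subgroup.mem_centralizer_singleton_iff,
      Subgroup.mem_centralizer_singleton_iff]
    constructor
    · intro h
      calc x * (g * z * g⁻¹) = g * (g⁻¹ * x * g * z) * g⁻¹ := by group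
        _ = g * (z * (g⁻¹ * x * g)) * g⁻¹ := by rw [h]
        _ = g * z * g⁻¹ * x := by group
    · intro h
      calc g⁻¹ * x * g * z = g⁻¹ * (x * (g * z * g⁻¹)) * g := by group
        _ = g⁻¹ * (g * z * g⁻¹ * x) * g := by rw [h]
        _ = z * (g⁻¹ * x * g) := by group
  exact CfsgLib.LocalP.charP_of_mulEquiv
    ((MulEquiv.subgroupMap (MulAut.conj g) _).trans (MulEquiv.subgroupCongr hm)) hc

/-- A nontrivial normal subgroup of a `p`-group contains a central element of order `p`. -/
theorem exists_central_prime_order {G : Type*} [Group G] [Finite G] {p : ℕ} [Fact p.Prime]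
    {T R : Subgroup G} (hT : IsPGroup p T) (hRT : R ≤ T) (hR : R ≠ ⊥)
    (hn : T ≤ Subgroup.normalizer (R : Set G)) :
    ∃ w ∈ R, orderOf w = p ∧ ∀ t ∈ T, t * w = w * t := by
  haveI : (R.subgroupOf T).Normal := (Subgroup.normal_subgroupOf_iff_le_normalizer hRT).mpr hn
  have hne : R.subgroupOf T ≠ ⊥ := by
    rw [Ne, Subgroup.subgroupOf_eq_bot, disjoint_iff, inf_eq_left.mpr hRT]
    exact hR
  let C : Subgroup ↥T := R.subgroupOf T ⊓ Subgroup.center ↥T
  letI : MulAction ↥T ↥(R.subgroupOf T) :=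
    { smul := fun t r => ⟨t * r * t⁻¹, ‹(R.subgroupOf T).Normal›.conj_mem r r.2 t⟩
      one_smul := fun r => Subtype.ext (show (1 : ↥T) * r * 1⁻¹ = r by group)
      mul_smul := fun a b r => Subtype.ext (show a * b * r * (a * b)⁻¹ = a * (b * r * b⁻¹) * a⁻¹ by group) }
  have hRp : IsPGroup p ↥(R.subgroupOf T) := hT.to_subgroup _
  obtain ⟨k, hk⟩ := IsPGroup.iff_card.mp hRp
  have hdvd : p ∣ Nat.card ↥(R.subgroupOf T) := by
    rcases k with _ | k
    · exact absurd (Subgroup.card_eq_one.mp hk) hne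
    · exact hk ▸ dvd_pow_self p (Nat.succ_ne_zero k)
  obtain ⟨r, hr, hr1⟩ := hT.exists_fixed_point_of_prime_dvd_card_of_fixed_point ↥(R.subgroupOf T) hdvd
    (a := 1) (fun t => Subtype.ext (show t * (1 : ↥T) * t⁻¹ = 1 by group))
  have hrc : (r : ↥T) ∈ C := by
    refine ⟨r.2, Subgroup.mem_center_iff.mpr fun t => ?_⟩
    have h := congrArg Subtype.val (hr t)
    change t * (r : ↥T) * t⁻¹ = r at h
    conv_rhs => rw [← h]
    group
  have hCne : C ≠ ⊥ := fun h => hr1 (Subtype.ext (Subgroup.mem_bot.mp (h ▸ hrc)).symm)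
  obtain ⟨j, hj⟩ := IsPGroup.iff_card.mp (hT.to_subgroup C)
  rcases j with _ | j
  · exact absurd (Subgroup.card_eq_one.mp hj) hCne
  obtain ⟨⟨w, hwR, hwZ⟩, hw⟩ :=
    exists_prime_orderOf_dvd_card' (G := ↥C) p (hj ▸ dvd_pow_self p (Nat.succ_ne_zero j))
  refine ⟨w, hwR, ?_, fun t ht => congrArg Subtype.val (Subgroup.mem_center_iff.mp hwZ ⟨t, ht⟩)⟩
  rwa [← Subgroup.orderOf_coe, ← Subgroup.orderOf_coe] at hw

/-- Let p be a prime dividing the order of the finite group G, S a Sylow p-subgroup of G and X a subgroup of S. (i) If some nontrivial element z of the centre of X has F*(C_G(z)) = O_p(C_G(z)), then F*(N_G(X)) = O_p(N_G(X)). (ii) G has parabolic characteristic p if and only if F*(C_G(z)) = O_p(C_G(z)) for every nontrivial z ∈ Ω₁(Z(S)). (iii) If F*(C_G(z)) = O_p(C_G(z)) for every element z of S of order p, then G has local characteristic p. -/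
theorem result {G : Type*} [Group G] [Finite G] {p : ℕ} [Fact p.Prime] (hdiv : p ∣ Nat.card G) (S : Sylow p G) (X : Subgroup G) (hX : X ≤ (S : Subgroup G)) : (∀ z : G, z ≠ 1 → z ∈ X → (∀ x ∈ X, x * z = z * x) → Cfsg.generalizedFittingSubgroup ↥(Subgroup.centralizer ({z} : Set G)) = Cfsg.pCore p ↥(Subgroup.centralizer ({z} : Set G)) → Cfsg.generalizedFittingSubgroup ↥(Subgroup.normalizer (X : Set G)) = Cfsg.pCore p ↥(Subgroup.normalizer (X : Set G))) ∧ (Cfsg.IsOfParabolicCharacteristic p G ↔ ∀ z : G, z ≠ 1 → z ∈ Cfsg.omegaOne p ((S : Subgroup G) ⊓ Subgroup.centralizer ((S : Subgroup G) : Set G)) → Cfsg.generalizedFittingSubgroup ↥(Subgroup.centralizer ({z} : Set G)) = Cfsg.pCore p ↥(Subgroup.centralizer ({z} : Set G))) ∧ ((∀ z : G, z ∈ (S : Subgroup G) → orderOf z = p → Cfsg.generalizedFittingSubgroup ↥(Subgroup.centralizer ({z} : Set G)) = Cfsg.pCore p ↥(Subgroup.centralizer ({z} : Set G))) → Cfsg.IsOfLocalCharacteristic p G) := by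
  refine ⟨fun z _ hzX _ hz => ?_, ⟨fun hpar z hz1 hz => ?_, fun hall R hR hR1 hpar => ?_⟩, fun hall => ⟨hdiv, fun T hT hT1 => ?_⟩⟩
  · exact generalizedFitting_eq_pCore (charP_normalizer_of_element (S.isPGroup'.to_le hX) hzX
      (CfsgLib.FStar.generalizedFitting_eq_pCore_iff.mp hz))
  · have hzS : z ∈ (S : Subgroup G) ⊓ Subgroup.centralizer ((S : Subgroup G) : Set G) :=
      ((Subgroup.closure_le _).mpr fun x hx => hx.1) hz
    set V := Subgroup.zpowers z with hVdef
    have hVp : IsPGroup p ↥V := S.isPGroup'.to_le (Subgroup.zpowers_le.mpr hzS.1)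
    have hV : Subgroup.centralizer (V : Set G) = Subgroup.centralizer ({z} : Set G) := by
      rw [hVdef, Subgroup.zpowers_eq_closure, Subgroup.centralizer_closure]
    have hS : (S : Subgroup G) ≤ Subgroup.centralizer ({z} : Set G) := fun s hs =>
      Subgroup.mem_centralizer_singleton_iff.mpr (hzS.2 s hs)
    have hle : Subgroup.centralizer (V : Set G) ≤ Subgroup.normalizer (V : Set G) := by
      intro g hg
      rw [Subgroup.mem_normalizer_iff]
      intro v
      constructor
      · intro hv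
        rwa [show g * v * g⁻¹ = v by rw [← hg v hv]; group]
      · intro hv
        rwa [show v = g * v * g⁻¹ by
          calc v = g⁻¹ * ((g * v * g⁻¹) * g) := by group
            _ = g⁻¹ * (g * (g * v * g⁻¹)) := by rw [hg _ hv]
            _ = g * v * g⁻¹ := by group]
    have hN : CharP p (Subgroup.normalizer (V : Set G)) :=
      hpar V hVp (Subgroup.zpowers_ne_bot.mpr hz1) ⟨S, hS.trans (hV ▸ hle)⟩
    have := charP_inf_centralizer hN hVp (Subgroup.le_normalizer.trans Subgroup.le_normalizer)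
    rw [inf_eq_right.mpr hle, hV] at this
    exact generalizedFitting_eq_pCore this
  · obtain ⟨T, hT⟩ := hpar
    have hRT : R ≤ (T : Subgroup G) := by
      have hp := T.isPGroup'.to_sup_of_normal_right' hR hT
      exact le_sup_right.trans (T.3 hp le_sup_left).le
    obtain ⟨w, hwR, hwo, hwc⟩ := exists_central_prime_order T.isPGroup' hRT hR1 hT
    obtain ⟨g, rfl⟩ := MulAction.exists_smul_eq G S T
    have hmem : ∀ s, s ∈ (S : Subgroup G) → g * s * g⁻¹ ∈ ((g • S : Sylow p G) : Subgroup G) := fun s hs => by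
      rw [Sylow.smul_def, Sylow.pointwise_smul_def]
      exact ⟨s, hs, rfl⟩
    have hwT := hRT hwR
    rw [Sylow.smul_def, Sylow.pointwise_smul_def] at hwT
    obtain ⟨z, hzS, hzw⟩ := hwT
    change g * z * g⁻¹ = w at hzw
    subst hzw
    have hzo : orderOf z = p := by
      have h := MulEquiv.orderOf_eq (MulAut.conj g) z
      rw [MulAut.conj_apply, hwo] at h
      exact h.symm
    have hzm : z ∈ omegaOne p ((S : Subgroup G) ⊓ Subgroup.centralizer ((S : Subgroup G) : Set G)) := by
      refine Subgroup.subset_closure ⟨⟨hzS, fun s hs => ?_⟩, hzo ▸ pow_orderOf_eq_one z⟩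
      have := hwc _ (hmem s hs)
      calc s * z = g⁻¹ * (g * s * g⁻¹ * (g * z * g⁻¹)) * g := by group
        _ = g⁻¹ * (g * z * g⁻¹ * (g * s * g⁻¹)) * g := by rw [this]
        _ = z * s := by group
    have hz1 : z ≠ 1 := fun h => (Fact.out : p.Prime).ne_one (by rw [← hzo, h, orderOf_one])
    exact charP_normalizer_of_element hR hwR
      (charP_centralizer_conj g z (CfsgLib.FStar.generalizedFitting_eq_pCore_iff.mp (hall z hz1 hzm)))
  · obtain ⟨w, hw, hwo, -⟩ := exists_central_prime_order hT le_rfl hT1 Subgroup.le_normalizer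
    obtain ⟨R, hR⟩ := hT.exists_le_sylow
    obtain ⟨g, rfl⟩ := MulAction.exists_smul_eq G S R
    have hwR := hR hw
    rw [Sylow.smul_def, Sylow.pointwise_smul_def] at hwR
    obtain ⟨z, hzS, hzw⟩ := hwR
    change g * z * g⁻¹ = w at hzw
    subst hzw
    have hzo : orderOf z = p := by
      have h := MulEquiv.orderOf_eq (MulAut.conj g) z
      rw [MulAut.conj_apply, hwo] at h
      exact h.symm
    exact charP_normalizer_of_element hT hw
      (charP_centralizer_conj g z (CfsgLib.FStar.generalizedFitting_eq_pCore_iff.mp (hall z hzS hzo)))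

end Cfsg.Agent.S2896
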