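import Cfsg.Statements.S2897
import Cfsg.Agent.Eq.Def_LocalStructure
import Cfsg.Agent.Eq.Def_PLocal
import Cfsg.Agent.LocalCharP.Residual
import Cfsg.Agent.S2896

set_option autoImplicit false
open Cfsg

namespace Cfsg.Agent.S2897

/-- Let p be a prime dividing the order of the finite group G, suppose G has parabolic characteristic p, let S be a Sylow p-subgroup of G and G₁ a normal subgroup of G. If Ω₁(Z(S ∩ G₁)) is nontrivial and contained in Ω₁(Z(S)), then G₁ has parabolic characteristic p. -/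
theorem result {G : Type*} [Group G] [Finite G] {p : ℕ} [Fact p.Prime] (hdiv : p ∣ Nat.card G) (hG : Cfsg.IsOfParabolicCharacteristic p G) (S : Sylow p G) (G₁ : Subgroup G) [G₁.Normal] (hne : Cfsg.omegaOne p (((S : Subgroup G) ⊓ G₁) ⊓ Subgroup.centralizer (((S : Subgroup G) ⊓ G₁ : Subgroup G) : Set G)) ≠ ⊥) (hle : Cfsg.omegaOne p (((S : Subgroup G) ⊓ G₁) ⊓ Subgroup.centralizer (((S : Subgroup G) ⊓ G₁ : Subgroup G) : Set G)) ≤ Cfsg.omegaOne p ((S : Subgroup G) ⊓ Subgroup.centralizer ((S : Subgroup G) : Set G))) : Cfsg.IsOfParabolicCharacteristic p ↥G₁ := by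
  intro R hR hR1 hpar
  obtain ⟨T, hT⟩ := hpar
  have hRT : R ≤ (T : Subgroup G₁) :=
    le_sup_right.trans (T.3 (T.isPGroup'.to_sup_of_normal_right' hR hT) le_sup_left).le
  obtain ⟨w, hwR, hwo, hwc⟩ := Cfsg.Agent.S2896.exists_central_prime_order T.isPGroup' hRT hR1 hT
  obtain ⟨S₁, hS₁⟩ := CfsgLib.LocalCharP.exists_sylow_inf S (inferInstance : G₁.Normal)
  obtain ⟨g, hg⟩ := MulAction.exists_smul_eq G₁ T S₁
  have hconj : ∀ t, t ∈ (T : Subgroup G₁) ↔ g * t * g⁻¹ ∈ (S₁ : Subgroup G₁) := by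
    intro t
    rw [← hg, Sylow.coe_subgroup_smul]
    exact ⟨fun h => ⟨t, h, rfl⟩, fun ⟨u, hu, hu'⟩ => by
      rwa [← mul_left_cancel (mul_right_cancel (hu' : g * u * g⁻¹ = g * t * g⁻¹))]⟩
  set z : G₁ := g * w * g⁻¹ with hz
  have hzS₁ : (z : G) ∈ (S : Subgroup G) ⊓ G₁ := by
    rw [← hS₁]; exact ⟨z, (hconj w).mp (hRT hwR), rfl⟩
  have hzp : (z : G) ^ p = 1 := by
    rw [← Subgroup.coe_pow, hz, conj_pow, ← hwo, pow_orderOf_eq_one]; simp
  have hz1 : (z : G) ≠ 1 := by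
    intro h
    have hw1 : w = 1 := conj_eq_one_iff.mp (Subtype.ext h : z = 1)
    exact (Fact.out : p.Prime).ne_one (by rw [← hwo, hw1, orderOf_one])
  have hzc : (z : G) ∈ Subgroup.centralizer (((S : Subgroup G) ⊓ G₁ : Subgroup G) : Set G) := by
    intro s hs
    have hs' : s ∈ (S₁ : Subgroup G₁).map G₁.subtype := hS₁.symm ▸ hs
    obtain ⟨s₁, hs₁, rfl⟩ := hs'
    have h0 := hwc (g⁻¹ * s₁ * g) ((hconj _).mpr (by rw [show g * (g⁻¹ * s₁ * g) * g⁻¹ = s₁ by simp [mul_assoc]]; exact hs₁))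
    have h1 : s₁ * z = z * s₁ := by
      calc s₁ * z = g * (g⁻¹ * s₁ * g * w) * g⁻¹ := by simp [hz, mul_assoc]
        _ = z * s₁ := by rw [h0]; simp [hz, mul_assoc]
    exact congrArg Subtype.val h1
  have hzΩ : (z : G) ∈ Cfsg.omegaOne p ((S : Subgroup G) ⊓ Subgroup.centralizer ((S : Subgroup G) : Set G)) :=
    hle (Subgroup.subset_closure ⟨⟨hzS₁, hzc⟩, hzp⟩)
  have hC := CfsgLib.FStar.generalizedFitting_eq_pCore_iff.mp
    ((Cfsg.Agent.S2896.result hdiv S ⊥ bot_le).2.1.mp hG (z : G) hz1 hzΩ)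
  have hn : (G₁.subgroupOf (Subgroup.centralizer ({(z : G)} : Set G))).Normal :=
    Subgroup.Normal.subgroupOf inferInstance _
  have hC₁ := CfsgLib.LocalP.charP_of_isSubnormal hC _ hn.isSubnormal
  let e : G₁.subgroupOf (Subgroup.centralizer ({(z : G)} : Set G)) ≃* Subgroup.centralizer ({z} : Set G₁) :=
    { toFun := fun x => ⟨⟨x.1.1, x.2⟩, Subgroup.mem_centralizer_singleton_iff.mpr
        (Subtype.ext (Subgroup.mem_centralizer_singleton_iff.mp x.1.2))⟩
      invFun := fun y => ⟨⟨y.1.1, Subgroup.mem_centralizer_singleton_iff.mpr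
        (congrArg Subtype.val (Subgroup.mem_centralizer_singleton_iff.mp y.2))⟩, y.1.2⟩
      left_inv := fun x => rfl
      right_inv := fun x => rfl
      map_mul' := fun x y => rfl }
  have hCw := Cfsg.Agent.S2896.charP_centralizer_conj g⁻¹ z (CfsgLib.LocalP.charP_of_mulEquiv e hC₁)
  rw [show g⁻¹ * z * g⁻¹⁻¹ = w by simp [hz, mul_assoc]] at hCw
  exact Cfsg.Agent.S2896.charP_normalizer_of_element hR hwR hCw

end Cfsg.Agent.S2897
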