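import Cfsg.Statements.S2898
import Cfsg.Agent.Eq.Def_CaseTheorems
import Cfsg.Agent.Eq.Def_Solvable
import Cfsg.Agent.Eq.Def_LocalStructure
import Cfsg.Agent.LocalCharP.StronglyEmbedded
import Cfsg.Agent.Balance.ExtendedLayer

set_option autoImplicit false
open Cfsg

namespace Cfsg.Agent.S2898

theorem exists_fixed_in_normal {T : Type*} [Group T] [Finite T] (hT : IsPGroup 2 T) (C : Subgroup T)
    [hC : C.Normal] (hne : C ≠ ⊥) : ∃ x ∈ C, orderOf x = 2 ∧ ∀ s : T, s * x = x * s := by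
  have hnt : Nontrivial C := (Subgroup.nontrivial_iff_ne_bot C).mpr hne
  obtain ⟨n, hn, hcard⟩ := (hT.to_subgroup C).nontrivial_iff_card.mp hnt
  letI : MulAction T C := MulAction.compHom C (MulAut.conjNormal : T →* MulAut C)
  obtain ⟨b, hb, hb1⟩ := hT.exists_fixed_point_of_prime_dvd_card_of_fixed_point C
    (hcard ▸ dvd_pow_self 2 hn.ne') (a := (1 : C)) (fun s => map_one (MulAut.conjNormal s : MulAut C))
  have hbc : ∀ s : T, s * (b : T) = b * s := by
    intro s
    have : s * (b : T) * s⁻¹ = b := congrArg Subtype.val (hb s)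
    exact mul_inv_eq_iff_eq_mul.mp this
  have hbne : (b : T) ≠ 1 := fun h => hb1 (Subtype.ext h.symm)
  refine ⟨(b : T) ^ (orderOf (b : T) / 2), C.pow_mem b.2 _, ?_, fun s => ?_⟩
  · exact orderOf_pow_orderOf_div (orderOf_pos _).ne' (hT.dvd_orderOf hbne)
  · exact ((show Commute s (b : T) from hbc s).pow_right _).eq

theorem commutes_aux {G : Type*} [Group G] {O : Subgroup G} (z g u : G) (hzz : z * z = 1)
    (hg : g * u * g⁻¹ ∈ O) (hinv : ∀ v ∈ O, z * v * z = v⁻¹) (hu : u ∈ O) :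
    u * (z * g⁻¹ * (z * g)) = z * g⁻¹ * (z * g) * u := by
  have h1 : z * (g * u * g⁻¹) * z = g * u⁻¹ * g⁻¹ := by
    rw [hinv _ hg]; simp [mul_assoc]
  have h2 : z * u⁻¹ * z = u := by rw [hinv _ (O.inv_mem hu), inv_inv]
  have hzi : z⁻¹ = z := inv_eq_of_mul_eq_one_right hzz
  have h3 : z * g⁻¹ * (z * g) * u * (z * g⁻¹ * (z * g))⁻¹ = u := by
    calc z * g⁻¹ * (z * g) * u * (z * g⁻¹ * (z * g))⁻¹
        = z * g⁻¹ * (z * (g * u * g⁻¹) * z) * g * z := by simp [hzi, mul_assoc]
      _ = z * g⁻¹ * (g * u⁻¹ * g⁻¹) * g * z := by rw [h1]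
      _ = z * u⁻¹ * z := by simp [mul_assoc]
      _ = u := h2
  exact (mul_inv_eq_iff_eq_mul.mp h3).symm

/-- Let G be a finite group of even order with parabolic characteristic 2. If the centre of G ⧸ O(G) is trivial, then O(G) = 1. -/
theorem result {G : Type*} [Group G] [Finite G] (h2 : 2 ∣ Nat.card G) (hG : Cfsg.IsOfParabolicCharacteristic 2 G) [hN : (Cfsg.oddCore G).Normal] (hZ : Subgroup.center (G ⧸ Cfsg.oddCore G) = ⊥) : Cfsg.oddCore G = ⊥ := by
  classical
  by_contra hOne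
  set O := Cfsg.oddCore G with hO
  have hOodd : ¬ 2 ∣ Nat.card O := CfsgLib.Balance.pPrimeCore_not_dvd 2 G
  have key : ∀ z : G, orderOf z = 2 → (∃ S : Sylow 2 G, ∀ s ∈ (S : Subgroup G), s * z = z * s) →
      ∀ u ∈ O, z * u = u * z → u = 1 := by
    rintro z hz ⟨S, hS⟩ u hu huz
    set N := Subgroup.normalizer ((Subgroup.zpowers z : Subgroup G) : Set G) with hNdef
    have hcN : ∀ c : G, c * z = z * c → c ∈ N := by
      intro c hc
      rw [hNdef, Subgroup.mem_normalizer_iff_map_conj_eq, MonoidHom.map_zpowers]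
      congr 1
      show c * z * c⁻¹ = z
      rw [hc, mul_inv_cancel_right]
    have hchar := hG (Subgroup.zpowers z) (IsPGroup.of_card (n := 1) (by rw [Nat.card_zpowers, hz, pow_one]))
      (by rw [Ne, Subgroup.zpowers_eq_bot]; rintro rfl; simp at hz) ⟨S, fun s hs => hcN s (hS s hs)⟩
    have hKn : (O.subgroupOf N).Normal := Subgroup.normal_subgroupOf
    have hWn : (Cfsg.pCore 2 ↥N).Normal := Cfsg.pCore_normal 2 ↥N
    have hWp : IsPGroup 2 (Cfsg.pCore 2 ↥N) := by
      show IsPGroup 2 (sSup {M : Subgroup ↥N | M.Normal ∧ IsPGroup 2 M} : Subgroup ↥N)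
      rw [sSup_eq_iSup']
      haveI : ∀ M : {M : Subgroup ↥N | M.Normal ∧ IsPGroup 2 M}, (M : Subgroup ↥N).Normal :=
        fun M => M.2.1
      exact Sylow.iSup_of_normal _ fun M => M.2.2
    have hdis : Disjoint (O.subgroupOf N) (Cfsg.pCore 2 ↥N) := by
      rw [disjoint_iff]
      apply Subgroup.inf_eq_bot_of_coprime
      obtain ⟨n, hn⟩ := IsPGroup.iff_card.mp hWp
      rw [hn]
      refine Nat.Coprime.pow_right n ((Nat.prime_two.coprime_iff_not_dvd.mpr ?_).symm)
      intro hdvd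
      apply hOodd
      exact hdvd.trans (Subgroup.card_comap_dvd_of_injective O N.subtype N.subtype_injective)
    have hmem : (⟨u, hcN u huz.symm⟩ : N) ∈ O.subgroupOf N := Subgroup.mem_subgroupOf.mpr hu
    have h2 : (⟨u, hcN u huz.symm⟩ : N) ∈ Cfsg.pCore 2 ↥N := by
      refine hchar (Subgroup.mem_centralizer_iff.mpr fun w hw => ?_)
      exact (Subgroup.commute_of_normal_of_disjoint _ _ hKn hWn hdis _ w hmem hw).eq.symm
    exact congrArg Subtype.val (Subgroup.disjoint_def.mp hdis hmem h2)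
  obtain ⟨S⟩ := (inferInstance : Nonempty (Sylow 2 G))
  obtain ⟨z, hzS, hz2, hzc⟩ := CfsgLib.LocalCharP.exists_central_orderOf_eq S.isPGroup'
    (S.ne_bot_of_dvd_card h2)
  have hzz : z * z = 1 := by have := pow_orderOf_eq_one z; rwa [hz2, pow_two] at this
  have hzi : z⁻¹ = z := inv_eq_of_mul_eq_one_right hzz
  have hinv : ∀ v ∈ O, z * v * z = v⁻¹ := by
    let f : O → O := fun u => ⟨(u : G)⁻¹ * z * u * z, by
      have := O.mul_mem (O.inv_mem u.2) (hN.conj_mem _ u.2 z)
      rw [hzi] at this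
      simpa [mul_assoc] using this⟩
    have hf : Function.Injective f := by
      intro u w h
      have h' : (u : G)⁻¹ * z * u * z = (w : G)⁻¹ * z * w * z := congrArg Subtype.val h
      have h'' : z * ((u : G) * (w : G)⁻¹) = (u : G) * (w : G)⁻¹ * z := by
        have := congrArg (fun v => (u : G) * v * z * (w : G)⁻¹) h'
        simpa [mul_assoc, hzz, mul_assoc z z] using this
      have := key z hz2 ⟨S, hzc⟩ _ (O.mul_mem u.2 (O.inv_mem w.2)) h''
      exact Subtype.ext (mul_inv_eq_one.mp this)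
    intro v hv
    obtain ⟨u, hu⟩ := Finite.surjective_of_injective hf ⟨v, hv⟩
    have hu' : (u : G)⁻¹ * z * u * z = v := congrArg Subtype.val hu
    rw [← hu']
    simp only [mul_inv_rev, inv_inv, hzi, mul_assoc]
    have : ∀ y : G, z * (z * y) = y := fun y => by rw [← mul_assoc, hzz, one_mul]
    simp [this, hzz]
  set C := Subgroup.centralizer (O : Set G) with hC
  have hCodd : ¬ 2 ∣ Nat.card C := by
    intro hd
    have hCn : C.Normal := inferInstance
    obtain ⟨c, hc⟩ := exists_prime_orderOf_dvd_card' (G := C) 2 hd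
    rw [← Subgroup.orderOf_coe] at hc
    obtain ⟨T, hT⟩ := (CfsgLib.LocalCharP.isPGroup_zpowers_of_orderOf hc).exists_le_sylow
    have hne : (T : Subgroup G) ⊓ C ≠ ⊥ := fun hb => by
      have : (c : G) ∈ (T : Subgroup G) ⊓ C := ⟨hT (Subgroup.mem_zpowers _), c.2⟩
      rw [hb, Subgroup.mem_bot] at this
      simp [this] at hc
    obtain ⟨e, he, he2, hec⟩ : ∃ e ∈ C, orderOf e = 2 ∧ ∀ s ∈ (T : Subgroup G), s * e = e * s := by
      have hnorm : (C.subgroupOf (T : Subgroup G)).Normal := Subgroup.normal_subgroupOf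
      have hTp := T.isPGroup'
      have hne' : C.subgroupOf (T : Subgroup G) ≠ ⊥ := by
        rw [Ne, Subgroup.subgroupOf_eq_bot, disjoint_iff, inf_comm]; exact hne
      obtain ⟨x, hxC, hx2, hxc⟩ := exists_fixed_in_normal hTp _ hne'
      exact ⟨x, Subgroup.mem_subgroupOf.mp hxC, by rw [Subgroup.orderOf_coe, hx2],
        fun s hs => congrArg Subtype.val (hxc ⟨s, hs⟩)⟩
    obtain ⟨u, hu, hu1⟩ := (Subgroup.bot_or_exists_ne_one O).resolve_left hOne
    exact hu1 (key e he2 ⟨T, hec⟩ u hu (Subgroup.mem_centralizer_iff.mp he u hu).symm)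
  have hCO : C ≤ O := by
    refine le_sSup ⟨inferInstance, ?_⟩
    exact Nat.Coprime.symm (Nat.prime_two.coprime_iff_not_dvd.mpr hCodd)
  have hzcenter : (QuotientGroup.mk z : G ⧸ O) ∈ Subgroup.center (G ⧸ O) := by
    rw [Subgroup.mem_center_iff]
    intro q
    induction q using QuotientGroup.induction_on with
    | H g =>
      rw [← QuotientGroup.mk_mul, ← QuotientGroup.mk_mul, QuotientGroup.eq]
      apply hCO
      rw [hC, Subgroup.mem_centralizer_iff]
      intro u hu
      rw [mul_inv_rev, hzi]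
      exact commutes_aux z g u hzz (hN.conj_mem u hu g) hinv hu
  have hzO : z ∈ O := by
    rw [hZ, Subgroup.mem_bot, QuotientGroup.eq_one_iff] at hzcenter
    exact hzcenter
  exact absurd (hz2 ▸ Subgroup.orderOf_dvd_natCard O hzO) hOodd

end Cfsg.Agent.S2898
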