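import Cfsg.Statements.S2905
import Cfsg.Agent.Eq.Def_LocalEven
import Cfsg.Agent.Eq.Def_Transfer
import Cfsg.Agent.LocalCharP.Residual
import Cfsg.Agent.Subnormal.Basic
import Cfsg.Agent.PLength.One
import Mathlib

set_option autoImplicit false
open Cfsg

namespace Cfsg.Agent.S2905

variable {P : Type*} [Group P] [Finite P] {p : ℕ} [Fact p.Prime]

theorem le_max (hP : Cfsg.IsPMinimal p P) (S : Sylow p P) (M : Subgroup P) (hM : IsCoatom M)
    (hSM : (S : Subgroup P) ≤ M) {X : Subgroup P} (hX : (S : Subgroup P) ≤ X) (hne : X ≠ ⊤) : X ≤ M := by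
  obtain ⟨M', -, huniq⟩ := (hP S).2
  obtain h | ⟨C, hC, hXC⟩ := eq_top_or_exists_le_coatom X
  · exact absurd h hne
  · rwa [huniq M ⟨hM, hSM⟩, ← huniq C ⟨hC, hX.trans hXC⟩]

/-- Subnormal subgroups inside the maximal subgroup lie in its core. -/
theorem subnormal_le_core (M : Subgroup P) (hM : IsCoatom M) {N : Subgroup P} (hN : N.IsSubnormal)
    (hNM : N ≤ M) : N ≤ M.normalCore := by
  set J : Subgroup P := sSup {U | U.IsSubnormal ∧ U ≤ M} with hJ
  have hJsn : J.IsSubnormal := CfsgLib.Subnormal.isSubnormal_sSup fun U hU => hU.1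
  have hJM : J ≤ M := sSup_le fun U hU => hU.2
  have hmax : ∀ U : Subgroup P, U.IsSubnormal → U ≤ M → U ≤ J := fun U h1 h2 => le_sSup ⟨h1, h2⟩
  have hMN : M ≤ Subgroup.normalizer (J : Set P) := by
    have hc : ∀ m ∈ M, ∀ x ∈ J, m * x * m⁻¹ ∈ J := by
      intro m hm x hx
      refine hmax (J.map (MulAut.conj m).toMonoidHom) (hJsn.map (MulAut.conj m).surjective) ?_ ⟨x, hx, rfl⟩
      rintro _ ⟨y, hy, rfl⟩
      exact M.mul_mem (M.mul_mem hm (hJM hy)) (M.inv_mem hm)
    intro m hm
    rw [Subgroup.mem_normalizer_iff]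
    exact fun x => ⟨hc m hm x, fun hx => by simpa [mul_assoc] using hc m⁻¹ (M.inv_mem hm) _ hx⟩
  have hnor : J.Normal := by
    rcases hM.le_iff.mp hMN with h | h
    · exact Subgroup.normalizer_eq_top_iff.mp h
    · exfalso
      rcases Subgroup.IsSubnormal.iff_eq_top_or_exists.mp hJsn with h' | ⟨K, hJK, hK, hKn⟩
      · exact hM.1 (top_le_iff.mp (h' ▸ hJM))
      · have hKM : K ≤ M := h ▸ (Subgroup.normal_subgroupOf_iff_le_normalizer hJK.le).mp hKn
        exact not_le_of_gt hJK (hmax K hK hKM)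
  exact (hmax N hN hNM).trans (Subgroup.normal_le_normalCore.mpr hJM)

theorem part_one (hP : Cfsg.IsPMinimal p P) (S : Sylow p P) (M : Subgroup P) (hM : IsCoatom M)
    (hSM : (S : Subgroup P) ≤ M) : M.normalCore ⊓ (S : Subgroup P) ≤ Cfsg.pCore p P := by
  set F := M.normalCore
  obtain ⟨T, hT⟩ := CfsgLib.LocalCharP.exists_sylow_inf S (Subgroup.normalCore_normal M)
  have hfr := Sylow.normalizer_sup_eq_top (N := F) T
  rw [hT] at hfr
  have hSN : (S : Subgroup P) ≤ Subgroup.normalizer (((S : Subgroup P) ⊓ F : Subgroup P) : Set P) := by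
    have hc : ∀ s ∈ (S : Subgroup P), ∀ x ∈ (S : Subgroup P) ⊓ F, s * x * s⁻¹ ∈ (S : Subgroup P) ⊓ F :=
      fun s hs x hx => ⟨(S : Subgroup P).mul_mem ((S : Subgroup P).mul_mem hs hx.1) ((S : Subgroup P).inv_mem hs),
        (Subgroup.normalCore_normal M).conj_mem x hx.2 s⟩
    intro s hs
    rw [Subgroup.mem_normalizer_iff]
    exact fun x => ⟨hc s hs x, fun hx => by simpa [mul_assoc] using hc s⁻¹ ((S : Subgroup P).inv_mem hs) _ hx⟩
  have htop : Subgroup.normalizer (((S : Subgroup P) ⊓ F : Subgroup P) : Set P) = ⊤ := by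
    by_contra hne
    exact hM.1 (top_le_iff.mp (hfr ▸ sup_le (le_max hP S M hM hSM hSN hne) (Subgroup.normalCore_le M)))
  rw [inf_comm]
  exact le_sSup ⟨Subgroup.normalizer_eq_top_iff.mp htop, S.2.to_le inf_le_left⟩

theorem part_three (hP : Cfsg.IsPMinimal p P) (S : Sylow p P) (M : Subgroup P) (hM : IsCoatom M)
    (hSM : (S : Subgroup P) ≤ M) (N : Subgroup P) (hN : N.Normal) :
    Cfsg.pResidual p P ≤ N ∨ N ≤ M.normalCore := by
  by_cases h : N ⊔ (S : Subgroup P) = ⊤
  · exact Or.inl (CfsgLib.LocalCharP.pResidual_le_of_isPGroup_quotient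
      (CfsgLib.LocalCharP.isPGroup_quotient_of_sup_eq_top S.2 h))
  · exact Or.inr (Subgroup.normal_le_normalCore.mpr
      (le_sup_left.trans (le_max hP S M hM hSM le_sup_right h)))

theorem part_two (hP : Cfsg.IsPMinimal p P) (S : Sylow p P) (M : Subgroup P) (hM : IsCoatom M)
    (hSM : (S : Subgroup P) ≤ M) (hT : ∀ T : Sylow p ↥(Cfsg.pResidual p P),
      (T : Subgroup ↥(Cfsg.pResidual p P)).Normal) : (Nat.card P).primeFactors.card ≤ 2 := by
  classical
  set R := Cfsg.pResidual p P with hR
  haveI hRn : R.Normal := by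
    haveI : R.Characteristic := CfsgLib.LocalCharP.pResidual_characteristic
    infer_instance
  let T : Sylow p R := Classical.arbitrary _
  haveI hTc : (T : Subgroup R).Characteristic := T.characteristic_of_normal (hT T)
  set T₀ := (T : Subgroup R).map R.subtype with hT₀
  haveI hT₀n : T₀.Normal := ConjAct.normal_of_characteristic_of_normal
  have hT₀R : T₀ ≤ R := Subgroup.map_subtype_le _
  have hT₀card : Nat.card T₀ = p ^ (Nat.card R).factorization p := by
    rw [hT₀, Subgroup.card_map_of_injective R.subtype_injective, T.card_eq_multiplicity]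
  by_contra hcard
  -- every Sylow subgroup has a conjugate inside `M`
  have key : ∀ q : ℕ, q.Prime → q ^ (Nat.card P).factorization q ∣ Nat.card M := by
    intro q hq
    rcases eq_or_ne q p with rfl | hqp
    · rw [← S.card_eq_multiplicity]; exact Subgroup.card_dvd_of_le hSM
    haveI : Fact q.Prime := ⟨hq⟩
    let Q : Sylow q P := Classical.arbitrary _
    have hQR : ∀ Q' : Sylow q P, (Q' : Subgroup P) ≤ R := by
      intro Q' x hx
      obtain ⟨n, hn⟩ := IsPGroup.iff_orderOf.mp Q'.2 ⟨x, hx⟩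
      refine CfsgLib.LocalCharP.mem_pResidual ?_
      rw [← Subgroup.orderOf_mk x hx, hn]
      exact ((Nat.coprime_primes hq Fact.out).mpr hqp).pow_left n
    set A := (Q : Subgroup P) ⊔ T₀ with hA
    set N := Subgroup.normalizer (A : Set P) with hN
    have hNN : Subgroup.normalizer ((Q : Subgroup P) : Set P) ≤ N := by
      have hc : ∀ x ∈ Subgroup.normalizer ((Q : Subgroup P) : Set P), ∀ y ∈ A, x * y * x⁻¹ ∈ A := by
        intro x hx
        have h1 : A ≤ A.comap (MulAut.conj x).toMonoidHom := sup_le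
          (fun y hy => Subgroup.mem_comap.mpr ((le_sup_left : _ ≤ A) ((Subgroup.mem_normalizer_iff.mp hx y).mp hy)))
          (fun y hy => Subgroup.mem_comap.mpr ((le_sup_right : _ ≤ A) (hT₀n.conj_mem y hy x)))
        exact fun y hy => h1 hy
      intro x hx
      rw [hN, Subgroup.mem_normalizer_iff]
      exact fun y => ⟨hc x hx y, fun hy => by simpa [mul_assoc] using hc x⁻¹ (inv_mem hx) _ hy⟩
    have hNR : N ⊔ R = ⊤ :=
      top_le_iff.mp ((Sylow.normalizer_sup_eq_top' Q (hQR Q)).ge.trans (sup_le_sup_right hNN R))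
    have hNcard : p ^ (Nat.card P).factorization p ∣ Nat.card N := by
      have h1 : R.relIndex N = R.index := by
        rw [← Subgroup.relIndex_sup_right, hNR, Subgroup.relIndex_top_right]
      have h2 : Nat.card ↥(R ⊓ N) * R.index = Nat.card N := by
        rw [← h1, ← Subgroup.inf_relIndex_right, ← Subgroup.relIndex_bot_left, ← Subgroup.relIndex_bot_left,
          Subgroup.relIndex_mul_relIndex _ _ _ bot_le inf_le_right]
      have h3 : T₀ ≤ R ⊓ N := le_inf hT₀R ((le_sup_right : T₀ ≤ A).trans Subgroup.le_normalizer)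
      rw [← h2, ← R.card_mul_index, Nat.factorization_mul Nat.card_pos.ne' Subgroup.index_ne_zero_of_finite,
        Finsupp.add_apply, pow_add, ← hT₀card]
      exact Nat.mul_dvd_mul (Subgroup.card_dvd_of_le h3) (Nat.ordProj_dvd _ _)
    obtain ⟨U, hU⟩ := Sylow.exists_subgroup_card_pow_prime p hNcard
    obtain ⟨S', hS'⟩ := (IsPGroup.of_card (G := U.map N.subtype)
      (by rw [Subgroup.card_map_of_injective N.subtype_injective, hU])).exists_le_sylow
    have hS'N : (S' : Subgroup P) ≤ N := by
      rw [← Subgroup.eq_of_le_of_card_ge hS' (by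
        rw [Subgroup.card_map_of_injective N.subtype_injective, hU, S'.card_eq_multiplicity])]
      exact Subgroup.map_subtype_le _
    obtain ⟨g, hg⟩ := MulAction.exists_smul_eq P S' S
    set Q' : Sylow q P := g • Q with hQ'
    set A' := (Q' : Subgroup P) ⊔ T₀ with hA'
    have hA'eq : A' = A.map (MulAut.conj g).toMonoidHom := by
      have hTT : T₀.map (MulAut.conj g).toMonoidHom = T₀ :=
        CfsgLib.Subnormal.conj_smul_normal hT₀n g
      rw [hA, Subgroup.map_sup, hTT]
      rfl
    have hSA' : (S : Subgroup P) ≤ Subgroup.normalizer (A' : Set P) := by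
      rw [hA'eq, ← Subgroup.map_equiv_normalizer_eq A (MulAut.conj g), ← hg]
      exact Subgroup.map_mono hS'N
    by_cases hX : A' ⊔ (S : Subgroup P) = ⊤
    · exfalso
      apply hcard
      haveI hA'n : A'.Normal := Subgroup.normalizer_eq_top_iff.mp
        (top_le_iff.mp (hX.ge.trans (sup_le Subgroup.le_normalizer hSA')))
      have hd : Nat.card P ∣ p ^ ((Nat.card R).factorization p + (Nat.card P).factorization p) *
          q ^ (Nat.card P).factorization q := by
        have h4 := CfsgLib.PLength.card_sup_dvd_mul (S : Subgroup P) A'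
        rw [sup_comm, hX, Subgroup.card_top, S.card_eq_multiplicity] at h4
        have h5 := CfsgLib.PLength.card_sup_dvd_mul (Q' : Subgroup P) T₀
        rw [Q'.card_eq_multiplicity, hT₀card] at h5
        refine h4.trans ((Nat.mul_dvd_mul_left _ h5).trans (dvd_of_eq ?_))
        rw [pow_add]; ring
      refine (Finset.card_le_card (t := {p, q}) ?_).trans Finset.card_le_two
      intro ℓ hℓ
      obtain ⟨hℓp, hℓd, -⟩ := Nat.mem_primeFactors.mp hℓ
      rcases hℓp.dvd_mul.mp (hℓd.trans hd) with h | h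
      · simp [(Nat.prime_dvd_prime_iff_eq hℓp Fact.out).mp (hℓp.dvd_of_dvd_pow h)]
      · simp [(Nat.prime_dvd_prime_iff_eq hℓp hq).mp (hℓp.dvd_of_dvd_pow h)]
    · rw [← Q'.card_eq_multiplicity]
      exact Subgroup.card_dvd_of_le ((le_sup_left.trans le_sup_left).trans (le_max hP S M hM hSM le_sup_right hX))
  refine hM.1 (Subgroup.eq_top_of_card_eq _ (Nat.dvd_antisymm M.card_subgroup_dvd_card ?_))
  rw [← Nat.factorization_le_iff_dvd Nat.card_pos.ne' Nat.card_pos.ne']
  intro q
  by_cases hq : q.Prime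
  · exact (hq.pow_dvd_iff_le_factorization Nat.card_pos.ne').mp (key q hq)
  · simp [Nat.factorization_eq_zero_of_not_prime _ hq]

/-- Let P be a finite p-minimal group (a Sylow p-subgroup S is not normal and lies in a unique maximal subgroup M of P) and let F be the normal core of M. Then: every subnormal subgroup N of P contained in M satisfies N ∩ S ≤ O_p(P); if O^p(P) has a normal Sylow p-subgroup then the order of P has at most two prime divisors; every normal subgroup N of P either contains O^p(P) or is contained in F; and O^p(P)F ⧸ F is a minimal normal subgroup of P ⧸ F. -/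
theorem result {P : Type*} [Group P] [Finite P] {p : ℕ} [Fact p.Prime] (hP : Cfsg.IsPMinimal p P) (S : Sylow p P) (M : Subgroup P) (hM : IsCoatom M) (hSM : (S : Subgroup P) ≤ M) [hF : M.normalCore.Normal] : (∀ N : Subgroup P, N.IsSubnormal → N ≤ M → N ⊓ (S : Subgroup P) ≤ Cfsg.pCore p P) ∧ ((∀ T : Sylow p ↥(Cfsg.pResidual p P), (T : Subgroup ↥(Cfsg.pResidual p P)).Normal) → (Nat.card P).primeFactors.card ≤ 2) ∧ (∀ N : Subgroup P, N.Normal → Cfsg.pResidual p P ≤ N ∨ N ≤ M.normalCore) ∧ (∀ N : Subgroup P, N.Normal → M.normalCore ≤ N → N ≤ Cfsg.pResidual p P ⊔ M.normalCore → N = M.normalCore ∨ N = Cfsg.pResidual p P ⊔ M.normalCore) ∧ M.normalCore < Cfsg.pResidual p P ⊔ M.normalCore := by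
  refine ⟨fun N hN hNM => (inf_le_inf_right _ (subnormal_le_core M hM hN hNM)).trans (part_one hP S M hM hSM),
    part_two hP S M hM hSM, part_three hP S M hM hSM, fun N hN hFN hNR => ?_, ?_⟩
  · rcases part_three hP S M hM hSM N hN with h | h
    · exact Or.inr (le_antisymm hNR (sup_le h hFN))
    · exact Or.inl (le_antisymm h hFN)
  · refine lt_of_le_of_ne le_sup_right fun h => hM.1 (top_le_iff.mp ?_)
    rw [← CfsgLib.LocalCharP.pResidual_sup_sylow S]
    exact sup_le (le_sup_left.trans (h.ge.trans (Subgroup.normalCore_le M))) hSM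

end Cfsg.Agent.S2905
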