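import Cfsg.Statements.S2906
import Cfsg.Agent.S2905
import Cfsg.Agent.Cores.GenFitting
import Cfsg.Agent.CharP.SylowInNormal
import Cfsg.Agent.Eq.Def_Local
import Cfsg.Agent.Eq.Def_Solvable
import Mathlib

set_option autoImplicit false
open Cfsg

namespace Cfsg.Agent.S2906

variable {P : Type*} [Group P] [Finite P] {p : ℕ} [Fact p.Prime]

theorem sylow_sup_pResidual (S : Sylow p P) : Cfsg.pResidual p P ⊔ (S : Subgroup P) = ⊤ :=
  CfsgLib.LocalCharP.pResidual_sup_sylow S

/-- The core of the maximal subgroup is nilpotent when `O_p = 1`. -/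
theorem isNilpotent_core (hP : Cfsg.IsPMinimal p P) (hOp : Cfsg.pCore p P = ⊥) (S : Sylow p P)
    (M : Subgroup P) (hM : IsCoatom M) (hSM : (S : Subgroup P) ≤ M) : Group.IsNilpotent M.normalCore := by
  set F := M.normalCore
  haveI hFn : F.Normal := Subgroup.normalCore_normal M
  have hFS : F ⊓ (S : Subgroup P) = ⊥ := le_bot_iff.mp (hOp ▸ Cfsg.Agent.S2905.part_one hP S M hM hSM)
  obtain ⟨T, hT⟩ := CfsgLib.LocalCharP.exists_sylow_inf S hFn
  have hT1 : (T : Subgroup F) = ⊥ := (Subgroup.map_eq_bot_iff_of_injective _ F.subtype_injective).mp (by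
    rw [hT, inf_comm, hFS])
  have hpF : ¬ p ∣ Nat.card F := fun h => T.ne_bot_of_dvd_card h hT1
  refine (Group.isNilpotent_of_finite_tfae (G := F)).out 3 0 |>.mp ?_
  intro q hq Q
  set Q₀ := (Q : Subgroup F).map F.subtype with hQ₀
  suffices hQn : Q₀.Normal by
    have : (Q : Subgroup F) = Q₀.subgroupOf F := by
      rw [hQ₀, ← Subgroup.comap_subtype, Subgroup.comap_map_eq_self_of_injective F.subtype_injective]
    rw [this]; exact hQn.subgroupOf F
  by_contra hQn
  set N := Subgroup.normalizer (Q₀ : Set P) with hN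
  have hfr : N ⊔ F = ⊤ := Sylow.normalizer_sup_eq_top Q
  have hcard : p ^ (Nat.card P).factorization p ∣ Nat.card N := by
    have h1 : F.relIndex N = F.index := by
      rw [← Subgroup.relIndex_sup_right, hfr, Subgroup.relIndex_top_right]
    have h2 : F.index ∣ Nat.card N := by rw [← h1]; exact Subgroup.relIndex_dvd_card _ _
    refine dvd_trans ?_ h2
    rw [← F.card_mul_index, Nat.factorization_mul Nat.card_pos.ne' Subgroup.index_ne_zero_of_finite,
      Finsupp.add_apply, Nat.factorization_eq_zero_of_not_dvd hpF, zero_add]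
    exact Nat.ordProj_dvd _ _
  obtain ⟨U, hU⟩ := Sylow.exists_subgroup_card_pow_prime p hcard
  obtain ⟨S', hS'⟩ := (IsPGroup.of_card (G := U.map N.subtype)
    (by rw [Subgroup.card_map_of_injective N.subtype_injective, hU])).exists_le_sylow
  have hS'N : (S' : Subgroup P) ≤ N := by
    rw [← Subgroup.eq_of_le_of_card_ge hS' (by
      rw [Subgroup.card_map_of_injective N.subtype_injective, hU, S'.card_eq_multiplicity])]
    exact Subgroup.map_subtype_le _
  obtain ⟨g, hg⟩ := MulAction.exists_smul_eq P S' S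
  set N₁ := N.map (MulAut.conj g).toMonoidHom with hN₁
  have hSN₁ : (S : Subgroup P) ≤ N₁ := by
    rw [← hg]; exact Subgroup.map_mono hS'N
  have hfr₁ : N₁ ⊔ F = ⊤ := by
    have h := congrArg (Subgroup.map (MulAut.conj g).toMonoidHom) hfr
    rw [Subgroup.map_sup, Subgroup.map_top_of_surjective _ (MulAut.conj g).surjective,
      show F.map (MulAut.conj g).toMonoidHom = F from CfsgLib.Subnormal.conj_smul_normal hFn g] at h
    exact h
  have hne : N₁ ≠ ⊤ := by
    intro h
    apply hQn
    refine Subgroup.normalizer_eq_top_iff.mp ?_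
    apply Subgroup.map_injective (f := (MulAut.conj g).toMonoidHom) (MulAut.conj g).injective
    rw [Subgroup.map_top_of_surjective _ (MulAut.conj g).surjective]
    exact h
  exact hM.1 (top_le_iff.mp (hfr₁ ▸ sup_le (Cfsg.Agent.S2905.le_max hP S M hM hSM hSN₁ hne)
    (Subgroup.normalCore_le M)))

theorem component_not_le (hP : Cfsg.IsPMinimal p P) (hOp : Cfsg.pCore p P = ⊥) (S : Sylow p P)
    (M : Subgroup P) (hM : IsCoatom M) (hSM : (S : Subgroup P) ≤ M) {K : Subgroup P}
    (hK : Cfsg.IsComponent K) : ¬ K ≤ M.normalCore := by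
  intro h
  haveI := isNilpotent_core hP hOp S M hM hSM
  apply CfsgLib.Cores.not_isSolvable_of_isQuasisimple hK.2
  exact Group.isSolvable_of_isSolvable_injective (f := Subgroup.inclusion h) (Subgroup.inclusion_injective h)

/-- The join of the conjugates of a subgroup under `S`. -/
abbrev conjJoin (S H : Subgroup P) : Subgroup P :=
  ⨆ s : ↥S, H.map (MulAut.conj (s : P)).toMonoidHom

omit [Finite P] in
theorem le_conjJoin (S H : Subgroup P) : H ≤ conjJoin S H := by
  refine le_trans (le_of_eq ?_) (le_iSup _ (1 : ↥S))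
  ext; simp

omit [Finite P] in
theorem le_normalizer_conjJoin (S H : Subgroup P) :
    S ≤ Subgroup.normalizer (conjJoin S H : Set P) := by
  have hc : ∀ s ∈ S, ∀ y ∈ conjJoin S H, s * y * s⁻¹ ∈ conjJoin S H := by
    intro s hs
    have h1 : conjJoin S H ≤ (conjJoin S H).comap (MulAut.conj s).toMonoidHom := by
      refine iSup_le fun t => ?_
      rintro _ ⟨h, hh, rfl⟩
      refine Subgroup.mem_comap.mpr ((le_iSup (fun u : ↥S => H.map (MulAut.conj (u : P)).toMonoidHom)
        (⟨s, hs⟩ * t)) ⟨h, hh, ?_⟩)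
      simp [mul_assoc]
    exact fun y hy => h1 hy
  intro s hs
  rw [Subgroup.mem_normalizer_iff]
  exact fun y => ⟨hc s hs y, fun hy => by simpa [mul_assoc] using hc s⁻¹ (S.inv_mem hs) _ hy⟩

theorem residual_le_conjJoin (S : Sylow p P) (H : Subgroup P)
    (h : conjJoin (S : Subgroup P) H ⊔ (S : Subgroup P) = ⊤) :
    Cfsg.pResidual p P ≤ conjJoin (S : Subgroup P) H := by
  haveI : (conjJoin (S : Subgroup P) H).Normal := Subgroup.normalizer_eq_top_iff.mp
    (top_le_iff.mp (h.ge.trans (sup_le Subgroup.le_normalizer (le_normalizer_conjJoin _ H))))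
  exact CfsgLib.LocalCharP.pResidual_le_of_isPGroup_quotient
    (CfsgLib.LocalCharP.isPGroup_quotient_of_sup_eq_top S.2 h)

theorem residual_eq (hP : Cfsg.IsPMinimal p P) (hOp : Cfsg.pCore p P = ⊥) (S : Sylow p P)
    {K : Subgroup P} (hK : Cfsg.IsComponent K) :
    Cfsg.pResidual p P = Cfsg.generalizedFittingSubgroup P ∧
      Cfsg.generalizedFittingSubgroup P = Cfsg.layer P ∧
      Cfsg.layer P = conjJoin (S : Subgroup P) K := by
  obtain ⟨M, ⟨hM, hSM⟩, -⟩ := (hP S).2
  set R := Cfsg.pResidual p P with hR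
  haveI : R.Normal := by
    haveI : R.Characteristic := CfsgLib.LocalCharP.pResidual_characteristic
    infer_instance
  have hRL : R ≤ Cfsg.layer P := (Cfsg.Agent.S2905.part_three hP S M hM hSM _ inferInstance).resolve_right
    fun h => component_not_le hP hOp S M hM hSM hK ((CfsgLib.Cores.le_layer hK).trans h)
  have hLR : Cfsg.layer P ≤ R := by
    haveI : IsPGroup p (P ⧸ R) := CfsgLib.LocalCharP.isPGroup_quotient_pResidual
    haveI : Group.IsNilpotent (P ⧸ R) := IsPGroup.isNilpotent this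
    have h1 : (Cfsg.layer P).map (QuotientGroup.mk' R) = ⊥ := by
      by_contra hne
      have hlt := Group.IsSolvable.commutator_lt_of_ne_bot hne
      rw [← Subgroup.map_commutator, CfsgLib.Cores.isPerfect_layer] at hlt
      exact lt_irrefl _ hlt
    intro x hx
    have h2 : (QuotientGroup.mk' R) x ∈ (⊥ : Subgroup (P ⧸ R)) := h1 ▸ Subgroup.mem_map_of_mem _ hx
    exact (QuotientGroup.eq_one_iff x).mp (Subgroup.mem_bot.mp h2)
  have hfit : Cfsg.fittingSubgroup P ≤ R := by
    have hnd : ¬ p ∣ Nat.card (Cfsg.fittingSubgroup P) := by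
      intro hd
      haveI hnil := CfsgLib.Fitting.fittingSubgroup_isNilpotent P
      let T : Sylow p (Cfsg.fittingSubgroup P) := Classical.arbitrary _
      haveI : (T : Subgroup (Cfsg.fittingSubgroup P)).Characteristic :=
        T.characteristic_of_normal ((((Group.isNilpotent_of_finite_tfae (G := Cfsg.fittingSubgroup P)).out 0 3
          : Group.IsNilpotent (Cfsg.fittingSubgroup P) ↔ ∀ (q : ℕ), Fact q.Prime → ∀ Q : Sylow q (Cfsg.fittingSubgroup P),
            (Q : Subgroup (Cfsg.fittingSubgroup P)).Normal).mp hnil) p inferInstance T)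
      have hn : ((T : Subgroup (Cfsg.fittingSubgroup P)).map (Cfsg.fittingSubgroup P).subtype).Normal :=
        inferInstance
      have h1 : (T : Subgroup (Cfsg.fittingSubgroup P)).map (Cfsg.fittingSubgroup P).subtype ≤ Cfsg.pCore p P :=
        le_sSup ⟨hn, T.2.map _⟩
      rw [hOp, le_bot_iff, Subgroup.map_eq_bot_iff_of_injective _ (Subgroup.subtype_injective _)] at h1
      exact T.ne_bot_of_dvd_card hd h1
    intro x hx
    refine CfsgLib.LocalCharP.mem_pResidual ?_
    refine Nat.Coprime.coprime_dvd_left ?_ ((Nat.Prime.coprime_iff_not_dvd Fact.out).mpr hnd).symm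
    exact Subgroup.orderOf_dvd_natCard _ hx
  have hF : Cfsg.generalizedFittingSubgroup P = Cfsg.layer P :=
    sup_eq_left.mpr (hfit.trans hRL)
  refine ⟨(le_antisymm hRL hLR).trans hF.symm, hF, le_antisymm ?_ ?_⟩
  · have hWtop : conjJoin (S : Subgroup P) K ⊔ (S : Subgroup P) = ⊤ := by
      by_contra hne
      have h1 : K ≤ M := (le_conjJoin _ K).trans
        (le_sup_left.trans (Cfsg.Agent.S2905.le_max hP S M hM hSM le_sup_right hne))
      exact component_not_le hP hOp S M hM hSM hK
        (Cfsg.Agent.S2905.subnormal_le_core M hM hK.1 h1)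
    exact hLR.trans (residual_le_conjJoin S K hWtop)
  · exact iSup_le fun s => CfsgLib.Cores.le_layer (CfsgLib.Cores.isComponent_conj hK _)

/-- A component is not a `p'`-group. -/
theorem component_inf_sylow_ne_bot (hP : Cfsg.IsPMinimal p P) (hOp : Cfsg.pCore p P = ⊥) (S : Sylow p P)
    {K : Subgroup P} (hK : Cfsg.IsComponent K) : (S : Subgroup P) ⊓ K ≠ ⊥ := by
  intro hbot
  obtain ⟨M, ⟨hM, hSM⟩, -⟩ := (hP S).2
  obtain ⟨hRF, hFL, hLW⟩ := residual_eq hP hOp S hK
  have hRW : Cfsg.pResidual p P = conjJoin (S : Subgroup P) K := hRF.trans (hFL.trans hLW)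
  have hnK : ¬ p ∣ Nat.card K := by
    intro hd
    obtain ⟨x, hx⟩ := exists_prime_orderOf_dvd_card' p hd
    have hxP : IsPGroup p (Subgroup.zpowers (x : P)) :=
      IsPGroup.of_card (n := 1) (by rw [Nat.card_zpowers, Subgroup.orderOf_coe, hx, pow_one])
    have h := CfsgLib.CharP.inf_subnormal_maximal S hK.1 (Subgroup.zpowers (x : P))
      (Subgroup.zpowers_le.mpr x.2) hxP (by rw [hbot]; exact bot_le)
    rw [hbot, Subgroup.zpowers_eq_bot] at h
    rw [← Subgroup.orderOf_coe, h, orderOf_one] at hx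
    exact (Fact.out : p.Prime).ne_one hx.symm
  set R := Cfsg.pResidual p P with hR
  have hcopR : ¬ p ∣ Nat.card R := by
    have htop : Cfsg.pPrimeCore p R = ⊤ := by
      rw [eq_top_iff]
      have hle : ∀ s : ↥(S : Subgroup P), K.map (MulAut.conj (s : P)).toMonoidHom ≤
          (Cfsg.pPrimeCore p R).map R.subtype := by
        intro s
        set L := K.map (MulAut.conj (s : P)).toMonoidHom with hL
        have hLc : Cfsg.IsComponent L := CfsgLib.Cores.isComponent_conj hK _
        have hLR : L ≤ R := hRW ▸ le_iSup (fun u : ↥(S : Subgroup P) => K.map (MulAut.conj (u : P)).toMonoidHom) s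
        have hn : (L.subgroupOf R).Normal := by
          rw [Subgroup.normal_subgroupOf_iff_le_normalizer hLR]
          exact (hRF.trans hFL).le.trans (CfsgLib.Cores.layer_le_normalizer hLc)
        have hc : (Nat.card (L.subgroupOf R)).Coprime p := by
          rw [Nat.card_congr (Subgroup.subgroupOfEquivOfLe hLR).toEquiv, hL,
            Subgroup.card_map_of_injective (MulAut.conj (s : P)).injective]
          exact ((Nat.Prime.coprime_iff_not_dvd Fact.out).mpr hnK).symm
        intro x hx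
        exact ⟨⟨x, hLR hx⟩, CfsgLib.PLength.le_pPrimeCore _ hn hc hx, rfl⟩
      intro x _
      have hx' : (x : P) ∈ (Cfsg.pPrimeCore p R).map R.subtype := iSup_le hle (hRW.le x.2)
      obtain ⟨y, hy, hyx⟩ := hx'
      rwa [← R.subtype_injective hyx]
    intro hd
    have h := CfsgLib.PLength.pPrimeCore_card_coprime p R
    rw [htop, Subgroup.card_top] at h
    exact (Fact.out : p.Prime).ne_one (Nat.eq_one_of_dvd_coprimes h hd dvd_rfl)
  -- so the order of `R` is a power of a single prime
  have htwo : (Nat.card P).primeFactors.card ≤ 2 := by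
    refine Cfsg.Agent.S2905.part_two hP S M hM hSM fun T => ?_
    have : (T : Subgroup R) = ⊥ := by
      obtain ⟨i, hi⟩ := IsPGroup.iff_card.mp T.2
      rcases Nat.eq_zero_or_pos i with h0 | h0
      · exact Subgroup.card_eq_one.mp (by rw [hi, h0, pow_zero])
      · exact absurd ((hi ▸ dvd_pow_self p h0.ne').trans (Subgroup.card_subgroup_dvd_card _)) hcopR
    rw [this]; infer_instance
  have hpP : p ∈ (Nat.card P).primeFactors := by
    refine Nat.mem_primeFactors.mpr ⟨Fact.out, ?_, Nat.card_pos.ne'⟩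
    by_contra hd
    refine (hP S).1 ?_
    have : (S : Subgroup P) = ⊥ := by
      rw [Subgroup.eq_bot_iff_card, S.card_eq_multiplicity, Nat.factorization_eq_zero_of_not_dvd hd, pow_zero]
    rw [this]; infer_instance
  have hnil : Group.IsNilpotent R := by
    have hsub : (Nat.card R).primeFactors ⊆ (Nat.card P).primeFactors.erase p := by
      intro q hq
      refine Finset.mem_erase.mpr ⟨fun h => hcopR (h ▸ (Nat.mem_primeFactors.mp hq).2.1), ?_⟩
      exact Nat.primeFactors_mono (Subgroup.card_subgroup_dvd_card R) Nat.card_pos.ne' hq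
    have hcard : (Nat.card R).primeFactors.card ≤ 1 := by
      have := Finset.card_le_card hsub
      rw [Finset.card_erase_of_mem hpP] at this
      omega
    rcases Finset.card_le_one_iff_subset_singleton.mp hcard with ⟨q, hq⟩
    by_cases hR1 : Nat.card R = 1
    · haveI := (Nat.card_eq_one_iff_unique.mp hR1).1
      infer_instance
    obtain ⟨q', hq', hqd⟩ := Nat.exists_prime_and_dvd hR1
    haveI : Fact q'.Prime := ⟨hq'⟩
    refine IsPGroup.isNilpotent (p := q') (IsPGroup.of_card
      (Nat.eq_prime_pow_of_unique_prime_dvd Nat.card_pos.ne' fun {d} hd hdd => ?_))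
    have h1 := hq (Nat.mem_primeFactors.mpr ⟨hq', hqd, Nat.card_pos.ne'⟩)
    have h2 := hq (Nat.mem_primeFactors.mpr ⟨hd, hdd, Nat.card_pos.ne'⟩)
    rw [Finset.mem_singleton] at h1 h2
    rw [h1, h2]
  have hKR : K ≤ R := hRW ▸ le_conjJoin _ K
  apply CfsgLib.Cores.not_isSolvable_of_isQuasisimple hK.2
  exact Group.isSolvable_of_isSolvable_injective (f := Subgroup.inclusion hKR) (Subgroup.inclusion_injective hKR)

theorem isPMinimal_of_one {X : Type*} [Group X] [Finite X] (T : Sylow p X) (hn : ¬ (T : Subgroup X).Normal)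
    (hu : ∃! M : Subgroup X, IsCoatom M ∧ (T : Subgroup X) ≤ M) : Cfsg.IsPMinimal p X := by
  intro T'
  obtain ⟨g, rfl⟩ := MulAction.exists_smul_eq X T T'
  let e := (MulAut.conj g).mapSubgroup
  have he : ((g • T : Sylow p X) : Subgroup X) = e (T : Subgroup X) := rfl
  refine ⟨fun h => hn ?_, ?_⟩
  · have h1 : (((g⁻¹ • (g • T)) : Sylow p X) : Subgroup X).Normal := by
      rw [Sylow.coe_subgroup_smul]
      exact h.map _ (MulAut.conj g⁻¹).surjective
    rwa [inv_smul_smul] at h1
  · obtain ⟨M, ⟨hM, hTM⟩, huniq⟩ := hu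
    refine ⟨e M, ⟨(e.isCoatom_iff M).mpr hM, he ▸ e.monotone hTM⟩, fun C hC => ?_⟩
    obtain ⟨C₀, rfl⟩ := e.surjective C
    rw [huniq C₀ ⟨(e.isCoatom_iff C₀).mp hC.1, e.le_iff_le.mp (he ▸ hC.2)⟩]

theorem isPMinimal_component (hP : Cfsg.IsPMinimal p P) (hOp : Cfsg.pCore p P = ⊥) (S : Sylow p P)
    {K : Subgroup P} (hK : Cfsg.IsComponent K) :
    Cfsg.IsPMinimal p ↥(K ⊔ ((S : Subgroup P) ⊓ Subgroup.normalizer (K : Set P))) := by
  obtain ⟨M, ⟨hM, hSM⟩, -⟩ := (hP S).2
  set S₀ := (S : Subgroup P) ⊓ Subgroup.normalizer (K : Set P) with hS₀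
  set X := K ⊔ S₀ with hX
  have hKX : K ≤ X := le_sup_left
  have hS₀X : S₀ ≤ X := le_sup_right
  have hSK : (S : Subgroup P) ⊓ K ≤ S₀ := le_inf inf_le_left (inf_le_right.trans Subgroup.le_normalizer)
  have hmul : ∀ x ∈ X, ∃ k ∈ K, ∃ s ∈ S₀, x = k * s := by
    intro x hx
    rw [hX, ← SetLike.mem_coe, sup_comm, Subgroup.coe_mul_of_left_le_normalizer_right S₀ K inf_le_right] at hx
    obtain ⟨s, hs, k, hk, rfl⟩ := hx
    refine ⟨s * k * s⁻¹, (Subgroup.mem_normalizer_iff.mp hs.2 k).mp hk, s, hs, by simp⟩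
  obtain ⟨T, hT⟩ := ((S.2.to_le (inf_le_left : S₀ ≤ _)).comap_of_injective X.subtype X.subtype_injective).exists_le_sylow
  have hTmap : (T : Subgroup X).map X.subtype = S₀ := by
    refine le_antisymm ?_ fun s hs => ⟨⟨s, hS₀X hs⟩, hT hs, rfl⟩
    have hle : S₀ ≤ (T : Subgroup X).map X.subtype := fun s hs => ⟨⟨s, hS₀X hs⟩, hT hs, rfl⟩
    have hTK := CfsgLib.CharP.inf_subnormal_maximal S hK.1 ((T : Subgroup X).map X.subtype ⊓ K) inf_le_right
      ((T.2.map X.subtype).to_le inf_le_left) (le_inf (hSK.trans hle) inf_le_right)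
    intro t ht
    obtain ⟨k, hk, s, hs, rfl⟩ := hmul t (Subgroup.map_subtype_le _ ht)
    have hkT : k ∈ (T : Subgroup X).map X.subtype ⊓ K :=
      ⟨mul_inv_cancel_right k s ▸ Subgroup.mul_mem _ ht (Subgroup.inv_mem _ (hle hs)), hk⟩
    rw [hTK] at hkT
    exact S₀.mul_mem (hSK hkT) hs
  refine isPMinimal_of_one T ?_ ?_
  · intro hn
    -- otherwise `S ⊓ K` would be a subnormal `p`-subgroup
    apply component_inf_sylow_ne_bot hP hOp S hK
    have hXn : X ≤ Subgroup.normalizer (S₀ : Set P) := by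
      intro x hx
      rw [Subgroup.mem_normalizer_iff]
      intro y
      rw [← hTmap]
      constructor
      · rintro ⟨t, ht, rfl⟩
        exact ⟨⟨x, hx⟩ * t * ⟨x, hx⟩⁻¹, hn.conj_mem t ht ⟨x, hx⟩, rfl⟩
      · rintro ⟨t, ht, hty⟩
        exact ⟨⟨x, hx⟩⁻¹ * t * ⟨x, hx⟩, (by simpa only [inv_inv, SetLike.mem_coe] using hn.conj_mem t ht ⟨x, hx⟩⁻¹), by
          simp at hty ⊢; rw [hty]; simp [mul_assoc]⟩
    have hn2 : (((S : Subgroup P) ⊓ K).subgroupOf K).Normal := by
      rw [Subgroup.normal_subgroupOf_iff_le_normalizer inf_le_right]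
      intro k hk
      rw [Subgroup.mem_normalizer_iff]
      intro y
      have hy := Subgroup.mem_normalizer_iff.mp (hXn (hKX hk)) y
      constructor
      · intro h
        exact ⟨(hy.mp (hSK h)).1, K.mul_mem (K.mul_mem hk h.2) (K.inv_mem hk)⟩
      · intro h
        have hyK : y ∈ K := by simpa [mul_assoc] using K.mul_mem (K.mul_mem (K.inv_mem hk) h.2) hk
        exact ⟨(hy.mpr (hSK h)).1, hyK⟩
    rw [← le_bot_iff, ← hOp]
    exact CfsgLib.LocalCharP.le_pCore_of_isSubnormal
      (Subgroup.IsSubnormal.trans inf_le_right hn2.isSubnormal hK.1) (S.2.to_le inf_le_left)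
  · -- every proper overgroup of `S₀` in `X` lies in `M`
    have hprop : ∀ Y : Subgroup P, S₀ ≤ Y → Y ≤ X → Y ≠ X → Y ≤ M := by
      intro Y hS₀Y hYX hne
      set H := Y ⊓ K with hH
      have hYeq : Y ≤ H ⊔ S₀ := by
        intro y hy
        obtain ⟨k, hk, s, hs, rfl⟩ := hmul y (hYX hy)
        refine Subgroup.mul_mem_sup ⟨?_, hk⟩ hs
        simpa using Y.mul_mem hy (Y.inv_mem (hS₀Y hs))
      by_cases htop : conjJoin (S : Subgroup P) H ⊔ (S : Subgroup P) = ⊤
      · exfalso
        have hR := residual_le_conjJoin S H htop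
        obtain ⟨hRF, hFL, hLW⟩ := residual_eq hP hOp S hK
        have hKR : K ≤ Cfsg.pResidual p P := (hRF.trans (hFL.trans hLW)).ge.trans' (le_conjJoin _ K)
        set C := Subgroup.centralizer (K : Set P) with hC
        have hWle : conjJoin (S : Subgroup P) H ≤ H ⊔ C := by
          refine iSup_le fun s => ?_
          by_cases hs : K.map (MulAut.conj (s : P)).toMonoidHom = K
          · have hsN : (s : P) ∈ Subgroup.normalizer (K : Set P) := by
              rw [Subgroup.mem_normalizer_iff]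
              intro k
              constructor
              · intro hk; rw [← hs]; exact ⟨k, hk, rfl⟩
              · intro hk
                rw [← hs] at hk
                obtain ⟨k', hk', h⟩ := hk
                rwa [← mul_left_cancel (mul_right_cancel (h : (s : P) * k' * (s : P)⁻¹ = s * k * (s : P)⁻¹))]
            have hsY : (s : P) ∈ Y := hS₀Y ⟨s.2, hsN⟩
            refine le_trans ?_ le_sup_left
            rintro _ ⟨h, hh, rfl⟩
            exact ⟨Y.mul_mem (Y.mul_mem hsY hh.1) (Y.inv_mem hsY),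
              (Subgroup.mem_normalizer_iff.mp hsN h).mp hh.2⟩
          · refine le_trans ((Subgroup.map_mono inf_le_right).trans ?_) le_sup_right
            exact Subgroup.commutator_eq_bot_iff_le_centralizer.mp
              (CfsgLib.Cores.commutator_eq_bot_of_ne (CfsgLib.Cores.isComponent_conj hK _) hK hs)
        have hHC : H ≤ Subgroup.normalizer (C : Set P) := by
          intro h hh
          rw [Subgroup.mem_normalizer_iff]
          have hc : ∀ g ∈ K, ∀ c ∈ C, g * c * g⁻¹ ∈ C := fun g hg c hc => by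
            rwa [hc g hg, mul_inv_cancel_right]
          exact fun c => ⟨hc h hh.2 c, fun hc' => by
            simpa [mul_assoc] using hc h⁻¹ (K.inv_mem hh.2) _ hc'⟩
        have hKdec : ∀ k ∈ K, ∃ h ∈ H, ∃ c ∈ C, k = h * c := by
          intro k hk
          have h1 := hWle (hR (hKR hk))
          rw [← SetLike.mem_coe, Subgroup.coe_mul_of_left_le_normalizer_right H C hHC] at h1
          obtain ⟨h, hh, c, hc, rfl⟩ := h1
          exact ⟨h, hh, c, hc, rfl⟩
        have hKH : K ≤ H := by
          rw [← CfsgLib.Cores.commutator_self_of_isComponent hK, Subgroup.commutator_le]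
          intro a ha b hb
          obtain ⟨h, hh, c, hc, rfl⟩ := hKdec a ha
          obtain ⟨h', hh', c', hc', rfl⟩ := hKdec b hb
          have hcK : c ∈ K := by simpa using K.mul_mem (K.inv_mem hh.2) ha
          have hc'K : c' ∈ K := by simpa using K.mul_mem (K.inv_mem hh'.2) hb
          have e1 : ∀ w, h' * (c * w) = c * (h' * w) := fun w => by
            rw [← mul_assoc, hc h' hh'.2, mul_assoc]
          have e2 : ∀ w, c' * (h⁻¹ * w) = h⁻¹ * (c' * w) := fun w => by
            rw [← mul_assoc, ← hc' h⁻¹ (K.inv_mem hh.2), mul_assoc]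
          have e3 : c' * c = c * c' := (hc' c hcK).symm
          have key : h * c * (h' * c') * (h * c)⁻¹ * (h' * c')⁻¹ = h * h' * h⁻¹ * h'⁻¹ := by
            calc h * c * (h' * c') * (h * c)⁻¹ * (h' * c')⁻¹
                = h * (c * h') * (c' * c⁻¹) * h⁻¹ * c'⁻¹ * h'⁻¹ := by simp [mul_assoc]
              _ = h * (h' * c) * (c⁻¹ * c') * h⁻¹ * c'⁻¹ * h'⁻¹ := by
                  rw [hc h' hh'.2, show c' * c⁻¹ = c⁻¹ * c' from (hc' c⁻¹ (K.inv_mem hcK)).symm]
              _ = h * h' * (c' * h⁻¹) * c'⁻¹ * h'⁻¹ := by simp [mul_assoc]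
              _ = h * h' * h⁻¹ * h'⁻¹ := by
                  rw [← hc' h⁻¹ (K.inv_mem hh.2)]; simp [mul_assoc]
          rw [commutatorElement_def, key]
          exact H.mul_mem (H.mul_mem (H.mul_mem hh hh') (H.inv_mem hh)) (H.inv_mem hh')
        exact hne (le_antisymm hYX (sup_le (hKH.trans inf_le_left) hS₀Y))
      · exact hYeq.trans ((sup_le ((le_conjJoin _ H).trans le_sup_left)
          ((inf_le_left : S₀ ≤ (S : Subgroup P)).trans le_sup_right)).trans
          (Cfsg.Agent.S2905.le_max hP S M hM hSM le_sup_right htop))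
    set MX := M.subgroupOf X with hMX
    have hMXne : MX ≠ ⊤ := by
      intro h
      have hKM : K ≤ M := hKX.trans (Subgroup.subgroupOf_eq_top.mp h)
      exact component_not_le hP hOp S M hM hSM hK (Cfsg.Agent.S2905.subnormal_le_core M hM hK.1 hKM)
    have hall : ∀ Y : Subgroup X, (T : Subgroup X) ≤ Y → Y ≠ ⊤ → Y ≤ MX := by
      intro Y hTY hY y hy
      refine hprop (Y.map X.subtype) (hTmap ▸ Subgroup.map_mono hTY) (Subgroup.map_subtype_le _) ?_ ⟨y, hy, rfl⟩
      intro h
      apply hY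
      rw [eq_top_iff]
      intro z _
      have hz : (z : P) ∈ Y.map X.subtype := h.symm ▸ z.2
      obtain ⟨w, hw, hwz⟩ := hz
      rwa [← X.subtype_injective hwz]
    have hTMX : (T : Subgroup X) ≤ MX := fun t ht => by
      have : (t : P) ∈ S₀ := hTmap ▸ ⟨t, ht, rfl⟩
      exact hSM this.1
    obtain h | ⟨C, hC, hle⟩ := eq_top_or_exists_le_coatom MX
    · exact absurd h hMXne
    refine ⟨C, ⟨hC, hTMX.trans hle⟩, fun C' hC' => ?_⟩
    have h1 : MX = C' := (hC'.1.le_iff.mp (hall C' hC'.2 hC'.1.1)).resolve_left hMXne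
    exact ((hC'.1.le_iff.mp (h1 ▸ hle)).resolve_left hC.1).symm

/-- Let P be a finite p-minimal group with O_p(P) = 1, S a Sylow p-subgroup of P and K a component of P. Then O^p(P) = F*(P) = E(P) is generated by the S-conjugates of K, and the subgroup K·N_S(K) is again p-minimal. -/
theorem result {P : Type*} [Group P] [Finite P] {p : ℕ} [Fact p.Prime] (hP : Cfsg.IsPMinimal p P) (hOp : Cfsg.pCore p P = ⊥) (S : Sylow p P) (K : Subgroup P) (hK : Cfsg.IsComponent K) : Cfsg.pResidual p P = Cfsg.generalizedFittingSubgroup P ∧ Cfsg.generalizedFittingSubgroup P = Cfsg.layer P ∧ Cfsg.layer P = ⨆ s : ↥(S : Subgroup P), K.map (MulAut.conj (s : P)).toMonoidHom ∧ Cfsg.IsPMinimal p ↥(K ⊔ ((S : Subgroup P) ⊓ Subgroup.normalizer (K : Set P))) := by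
  obtain ⟨h1, h2, h3⟩ := residual_eq hP hOp S hK
  exact ⟨h1, h2, h3, isPMinimal_component hP hOp S hK⟩

end Cfsg.Agent.S2906
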