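import Cfsg.Statements.S2907
import Cfsg.Agent.Eq.Def_AlmostLie

set_option autoImplicit false
open Cfsg

namespace Cfsg.Agent.S2907

/-- Let X be a finite semi-extraspecial p-group and x an element of X outside the centre. Then the index of C_X(x) in X equals the order of Z(X), and the commutators [x, y], y ∈ X, form exactly the centre Z(X). -/
theorem result {X : Type*} [Group X] [Finite X] {p : ℕ} [Fact p.Prime] (hX : Cfsg.IsSemiExtraspecial p X) (x : X) (hx : x ∉ Subgroup.center X) : (Subgroup.centralizer ({x} : Set X)).index = Nat.card ↥(Subgroup.center X) ∧ {z : X | ∃ y : X, z = x * y * x⁻¹ * y⁻¹} = (Subgroup.center X : Set X) := by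
  obtain ⟨⟨-, -, hcomm⟩, hquot⟩ := hX
  classical
  have hc : ∀ y : X, x * y * x⁻¹ * y⁻¹ ∈ Subgroup.center X := fun y => by
    rw [← hcomm]
    exact Subgroup.commutator_mem_commutator (Subgroup.mem_top x) (Subgroup.mem_top y)
  let f : X →* Subgroup.center X :=
    MonoidHom.mk' (fun y => ⟨x * y * x⁻¹ * y⁻¹, hc y⟩) (fun a b => Subtype.ext (by
      show x * (a * b) * x⁻¹ * (a * b)⁻¹ = (x * a * x⁻¹ * a⁻¹) * (x * b * x⁻¹ * b⁻¹)
      have h := Subgroup.mem_center_iff.mp (hc b) a⁻¹
      calc x * (a * b) * x⁻¹ * (a * b)⁻¹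
          = x * a * x⁻¹ * ((x * b * x⁻¹ * b⁻¹) * a⁻¹) := by simp [mul_assoc]
        _ = x * a * x⁻¹ * (a⁻¹ * (x * b * x⁻¹ * b⁻¹)) := by rw [h]
        _ = (x * a * x⁻¹ * a⁻¹) * (x * b * x⁻¹ * b⁻¹) := by simp [mul_assoc]))
  have hrange : f.range = ⊤ := by
    rcases eq_top_or_exists_le_coatom f.range with h | ⟨Y', hY', hle⟩
    · exact h
    exfalso
    set Y : Subgroup X := Y'.map (Subgroup.center X).subtype with hY
    have hYZ : Y ≤ Subgroup.center X := Subgroup.map_subtype_le _
    have hYY : Y.subgroupOf (Subgroup.center X) = Y' :=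
      Subgroup.comap_map_eq_self_of_injective (Subgroup.center X).subtype_injective _
    obtain ⟨hYn, -, hcard⟩ := hquot Y hYZ (hYY.symm ▸ hY')
    have hxc : QuotientGroup.mk' Y x ∈ Subgroup.center (X ⧸ Y) := by
      rw [Subgroup.mem_center_iff]
      intro q
      obtain ⟨y, rfl⟩ := QuotientGroup.mk'_surjective Y q
      have hyY : x * y * x⁻¹ * y⁻¹ ∈ Y := ⟨f y, hle ⟨y, rfl⟩, rfl⟩
      rw [← QuotientGroup.eq_one_iff] at hyY
      simp only [QuotientGroup.mk'_apply, QuotientGroup.mk_mul, QuotientGroup.mk_inv] at hyY ⊢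
      exact (mul_inv_eq_one.mp (by simpa [mul_assoc] using hyY) :
        (x : X ⧸ Y) * y * (x : X ⧸ Y)⁻¹ = y) |> fun h => by
          conv_lhs => rw [← h]
          simp [mul_assoc]
    set W : Subgroup (X ⧸ Y) := (Subgroup.center X).map (QuotientGroup.mk' Y) with hW
    have hWle : W ≤ Subgroup.center (X ⧸ Y) := by
      rintro _ ⟨z, hz, rfl⟩
      rw [Subgroup.mem_center_iff]
      intro q
      obtain ⟨y, rfl⟩ := QuotientGroup.mk'_surjective Y q
      rw [← map_mul, ← map_mul, Subgroup.mem_center_iff.mp hz y]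
    have hWne : W ≠ ⊥ := by
      intro h
      apply hY'.1
      rw [← hYY, Subgroup.subgroupOf_eq_top]
      have := (Subgroup.map_eq_bot_iff (Subgroup.center X)).mp h
      rwa [QuotientGroup.ker_mk'] at this
    have hWeq : W = Subgroup.center (X ⧸ Y) := by
      refine Subgroup.eq_of_le_of_card_ge hWle ?_
      rw [hcard]
      have hd : Nat.card W ∣ p := hcard ▸ Subgroup.card_dvd_of_le hWle
      rcases (Nat.dvd_prime (Fact.out : p.Prime)).mp hd with h1 | h1
      · exact absurd (Subgroup.eq_bot_of_card_eq W h1) hWne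
      · omega
    rw [← hWeq] at hxc
    obtain ⟨z, hz, hzx⟩ := hxc
    have : z⁻¹ * x ∈ Y := (QuotientGroup.eq).mp hzx
    exact hx (by simpa using mul_mem hz (hYZ this))
  refine ⟨?_, ?_⟩
  · have hker : f.ker = Subgroup.centralizer ({x} : Set X) := by
      ext y
      rw [MonoidHom.mem_ker, Subgroup.mem_centralizer_singleton_iff, Subtype.ext_iff]
      show x * y * x⁻¹ * y⁻¹ = 1 ↔ _
      rw [mul_inv_eq_one, mul_inv_eq_iff_eq_mul]
      exact eq_comm
    rw [← hker, Subgroup.index_ker, hrange]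
    exact Subgroup.card_top
  · ext w
    constructor
    · rintro ⟨y, rfl⟩; exact hc y
    · intro hw
      obtain ⟨y, hy⟩ : (⟨w, hw⟩ : Subgroup.center X) ∈ f.range := hrange ▸ Subgroup.mem_top _
      exact ⟨y, (congrArg Subtype.val hy).symm⟩

end Cfsg.Agent.S2907
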