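import Cfsg.Statements.S2908
import Cfsg.Agent.Coprime.Basic

set_option autoImplicit false
open Cfsg

open scoped commutatorElement

namespace Cfsg.Agent.S2908

/-- Let P be a p-subgroup of a finite group, normalized by a p-subgroup A and by a subgroup B of order prime to p that commutes elementwise with A. If [P, B] ≤ [P, A], then B centralizes P. -/
theorem result {G : Type*} [Group G] [Finite G] {p : ℕ} [Fact p.Prime] (P A B : Subgroup G) (hP : IsPGroup p ↥P) (hA : IsPGroup p ↥A) (hB : ¬ p ∣ Nat.card ↥B) (hnA : A ≤ Subgroup.normalizer (P : Set G)) (hnB : B ≤ Subgroup.normalizer (P : Set G)) (hAB : ⁅A, B⁆ = ⊥) (hcomm : ⁅P, B⁆ ≤ ⁅P, A⁆) : ⁅P, B⁆ = ⊥ := by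
  have hcop : (Nat.card B).Coprime (Nat.card P) := by
    obtain ⟨k, hk⟩ := hP.exists_card_eq
    rw [hk]
    exact ((Fact.out : p.Prime).coprime_iff_not_dvd.mpr hB).symm.pow_right k
  set R := ⁅P, B⁆ with hR
  have hRB : ⁅R, B⁆ = R := CfsgLib.Coprime.commutator_commutator_eq hnB hcop
    (Or.inr (CfsgLib.Coprime.isSolvable_of_isPGroup hP))
  have hcommAB : ∀ a ∈ A, ∀ b ∈ B, b * a = a * b := fun a ha b hb => by
    have := Subgroup.commutator_mem_commutator ha hb
    rw [hAB, Subgroup.mem_bot] at this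
    exact (commutatorElement_eq_one_iff_mul_comm.mp this).symm
  set T := P ⊔ A with hT
  have hTp : IsPGroup p T := hP.to_sup_of_normal_left' hA hnA
  have hRP : R ≤ P := CfsgLib.Coprime.commutator_le_of_le_normalizer hnB
  have hBR : B ≤ Subgroup.normalizer (R : Set G) := Subgroup.normalizer_commutator_ge_right P B
  have hAR : A ≤ Subgroup.normalizer (R : Set G) := by
    intro a ha
    rw [Subgroup.mem_normalizer_iff_map_conj_eq, hR, Subgroup.map_commutator]
    congr 1
    · exact Subgroup.mem_normalizer_iff_map_conj_eq.mp (hnA ha)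
    · refine Subgroup.mem_normalizer_iff_map_conj_eq.mp (Subgroup.centralizer_le_normalizer _ ?_)
      exact Subgroup.mem_centralizer_iff.mpr fun b hb => hcommAB a ha b hb
  have hTR : T ≤ Subgroup.normalizer (R : Set G) := sup_le (Subgroup.normalizer_commutator_ge_left P B) hAR
  have hBT : B ≤ Subgroup.normalizer (T : Set G) := by
    intro b hb
    rw [Subgroup.mem_normalizer_iff_map_conj_eq, hT, Subgroup.map_sup]
    congr 1
    · exact Subgroup.mem_normalizer_iff_map_conj_eq.mp (hnB hb)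
    · refine Subgroup.mem_normalizer_iff_map_conj_eq.mp (Subgroup.centralizer_le_normalizer _ ?_)
      exact Subgroup.mem_centralizer_iff.mpr fun a ha => (hcommAB a ha b hb).symm
  set D := ⁅R, T⁆ with hD
  have hTD : T ≤ Subgroup.normalizer (D : Set G) := Subgroup.normalizer_commutator_ge_right R T
  have hBD : B ≤ Subgroup.normalizer (D : Set G) := by
    intro b hb
    rw [Subgroup.mem_normalizer_iff_map_conj_eq, hD, Subgroup.map_commutator,
      Subgroup.mem_normalizer_iff_map_conj_eq.mp (hBR hb), Subgroup.mem_normalizer_iff_map_conj_eq.mp (hBT hb)]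
  -- elements of `T` whose commutators with `B` lie in `D`
  let K : Subgroup G :=
    { carrier := {g | g ∈ T ∧ ∀ b ∈ B, ⁅b, g⁆ ∈ D}
      one_mem' := ⟨one_mem T, fun b _ => by simp⟩
      mul_mem' := fun {g h} hg hh => ⟨mul_mem hg.1 hh.1, fun b hb => by
        rw [show ⁅b, g * h⁆ = ⁅b, g⁆ * (g * ⁅b, h⁆ * g⁻¹) by simp only [commutatorElement_def]; group]
        exact mul_mem (hg.2 b hb) ((Subgroup.mem_normalizer_iff.mp (hTD hg.1) _).mp (hh.2 b hb))⟩
      inv_mem' := fun {g} hg => ⟨inv_mem hg.1, fun b hb => by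
        rw [show ⁅b, g⁻¹⁆ = g⁻¹ * ⁅b, g⁆⁻¹ * g⁻¹⁻¹ by simp only [commutatorElement_def]; group]
        exact (Subgroup.mem_normalizer_iff.mp (hTD (inv_mem hg.1)) _).mp (inv_mem (hg.2 b hb))⟩ }
  have hK : ⁅P, A⁆ ≤ K := by
    rw [Subgroup.commutator_le]
    intro x hx a ha
    have hxT : x ∈ T := Subgroup.mem_sup_left hx
    have haT : a ∈ T := Subgroup.mem_sup_right ha
    have hc : ⁅x, a⁆ ∈ T := by
      rw [commutatorElement_def]
      exact mul_mem (mul_mem (mul_mem hxT haT) (inv_mem hxT)) (inv_mem haT)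
    refine ⟨hc, fun b hb => ?_⟩
    set r := b * x * b⁻¹ * x⁻¹ with hr
    have hrR : r ∈ R := by
      rw [hR, Subgroup.commutator_comm]
      exact Subgroup.commutator_mem_commutator hb hx
    have hba : b * a * b⁻¹ = a := by rw [hcommAB a ha b hb, mul_inv_cancel_right]
    have e : ⁅b, ⁅x, a⁆⁆ = ⁅r, ⁅x, a⁆⁆ * (⁅x, a⁆ * ⁅r, a⁆ * ⁅x, a⁆⁻¹) := by
      calc ⁅b, ⁅x, a⁆⁆ = (r * x) * (b * a * b⁻¹) * (r * x)⁻¹ * (b * a * b⁻¹)⁻¹ * ⁅x, a⁆⁻¹ := by
            simp only [commutatorElement_def, hr]; group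
        _ = (r * x) * a * (r * x)⁻¹ * a⁻¹ * ⁅x, a⁆⁻¹ := by rw [hba]
        _ = _ := by simp only [commutatorElement_def]; group
    rw [e]
    exact mul_mem (Subgroup.commutator_mem_commutator hrR hc)
      ((Subgroup.mem_normalizer_iff.mp (hTD hc) _).mp (Subgroup.commutator_mem_commutator hrR haT))
  have hRD : R ≤ D := by
    conv_lhs => rw [← hRB]
    rw [Subgroup.commutator_le]
    intro g hg b hb
    rw [← commutatorElement_inv]
    exact inv_mem ((hK (hcomm hg)).2 b hb)
  -- nilpotency of `T`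
  have : Group.IsNilpotent T := hTp.isNilpotent
  obtain ⟨n, hn⟩ := (Subgroup.isNilpotent_iff_lowerCentralSeries T).1 inferInstance
  have hlow : ∀ i, R ≤ T.lowerCentralSeries i := by
    intro i
    induction i with
    | zero => rw [Subgroup.lowerCentralSeries_zero]; exact hRP.trans le_sup_left
    | succ i ih =>
      rw [Subgroup.lowerCentralSeries_succ]
      exact hRD.trans (Subgroup.commutator_mono ih le_rfl)
  exact le_bot_iff.mp (hn ▸ hlow n)

end Cfsg.Agent.S2908
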