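import Cfsg.Statements.S2909
import Cfsg.Agent.Eq.Def_Transfer
import Cfsg.Agent.Coprime.Generation
import Cfsg.Agent.GlaubermanZJ.AxB
import Cfsg.Agent.S2908

set_option autoImplicit false
open Cfsg

open scoped commutatorElement

namespace Cfsg.Agent.S2909

/-- Let p be a prime, E a normal p-subgroup of the finite group G, and U a non-cyclic elementary abelian p-subgroup of G such that either C_E(U) = C_E(u) for every nontrivial u ∈ U, or [E, U] = [E, ⟨u⟩] for every nontrivial u ∈ U. If R is a subgroup of order prime to p normalized by U, then [R, U] centralizes E. -/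
theorem result {G : Type*} [Group G] [Finite G] {p : ℕ} [Fact p.Prime] (E : Subgroup G) [E.Normal] (hE : IsPGroup p ↥E) (U : Subgroup G) (hU : Cfsg.IsElementaryAbelian p U) (hnc : ¬ IsCyclic ↥U) (hcond : (∀ u ∈ U, u ≠ 1 → E ⊓ Subgroup.centralizer (U : Set G) = E ⊓ Subgroup.centralizer ({u} : Set G)) ∨ (∀ u ∈ U, u ≠ 1 → ⁅E, U⁆ = ⁅E, Subgroup.zpowers u⁆)) (R : Subgroup G) (hR : ¬ p ∣ Nat.card ↥R) (hRU : U ≤ Subgroup.normalizer (R : Set G)) : ⁅R, U⁆ ≤ Subgroup.centralizer (E : Set G) := by
  obtain ⟨hUc, hUp⟩ := hU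
  have hUg : IsPGroup p U := fun u => ⟨1, by rw [pow_one]; exact Subtype.ext (hUp u u.2)⟩
  have hRp : (Nat.card R).Coprime p := ((Fact.out : p.Prime).coprime_iff_not_dvd.mpr hR).symm
  have hcopU : (Nat.card U).Coprime (Nat.card R) := by
    obtain ⟨k, hk⟩ := hUg.exists_card_eq
    rw [hk]
    exact hRp.symm.pow_left k
  refine CfsgLib.Coprime.commutator_le_of_cocyclic hUc hRU hcopU fun B hBU hB => ?_
  obtain ⟨u, huB, hu1⟩ : ∃ u ∈ B, u ≠ 1 := by
    rcases Subgroup.bot_or_exists_ne_one B with rfl | h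
    · obtain ⟨a, -, ha⟩ := hB
      rw [bot_sup_eq] at ha
      exact absurd (ha ▸ (inferInstance : IsCyclic (Subgroup.zpowers a))) hnc
    · exact h
  set X := R ⊓ Subgroup.centralizer (B : Set G) with hX
  have hUX : U ≤ Subgroup.normalizer (X : Set G) := by
    intro v hv
    rw [Subgroup.mem_normalizer_iff]
    have hcomm : ∀ w ∈ B, v * w = w * v := fun w hw =>
      congrArg Subtype.val (hUc.is_comm.comm (⟨v, hv⟩ : U) ⟨w, hBU hw⟩)
    intro x
    rw [hX, Subgroup.mem_inf, Subgroup.mem_inf, ← Subgroup.mem_normalizer_iff.mp (hRU hv) x]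
    refine and_congr_right fun _ => ?_
    have hfix : v ∈ Subgroup.centralizer (B : Set G) :=
      Subgroup.mem_centralizer_iff.mpr fun w hw => (hcomm w hw).symm
    exact ⟨fun h => mul_mem (mul_mem hfix h) (inv_mem hfix), fun h => by
      simpa [mul_assoc] using mul_mem (mul_mem (inv_mem hfix) h) hfix⟩
  set Y := ⁅X, U⁆ with hY
  have hYX : Y ≤ X := CfsgLib.Coprime.commutator_le_of_le_normalizer hUX
  have hXu : ∀ x ∈ X, u * x = x * u := fun x hx =>
    Subgroup.mem_centralizer_iff.mp (Subgroup.mem_inf.mp hx).2 u huB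
  have huE : Subgroup.zpowers u ≤ Subgroup.normalizer (E : Set G) :=
    Subgroup.le_normalizer_of_normal
  have huP : IsPGroup p (Subgroup.zpowers u) := hUg.to_le (Subgroup.zpowers_le.mpr (hBU huB))
  have hYR : (Nat.card Y).Coprime p :=
    hRp.coprime_dvd_left (Subgroup.card_dvd_of_le (hYX.trans inf_le_left))
  have hYcomm : ∀ y ∈ Y, y ∈ Subgroup.centralizer (Subgroup.zpowers u : Set G) := fun y hy => by
    rw [Subgroup.mem_centralizer_iff]
    rintro _ ⟨k, rfl⟩
    exact ((show Commute u y from hXu y (hYX hy)).zpow_left k).eq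
  rcases hcond with h | h
  · refine CfsgLib.GlaubermanZJ.thompson_axb (A := Y) hE huP huE
      Subgroup.le_normalizer_of_normal hYcomm hYR ?_
    have hW : E ⊓ Subgroup.centralizer (Subgroup.zpowers u : Set G) = E ⊓ Subgroup.centralizer (U : Set G) := by
      rw [h u (hBU huB) hu1, Subgroup.zpowers_eq_closure, Subgroup.centralizer_closure]
    rw [hW]
    set W := E ⊓ Subgroup.centralizer (U : Set G) with hW'
    have hWX : ⁅W, X⁆ ≤ W := by
      rw [← Subgroup.le_normalizer_iff_commutator_le_left]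
      intro x hx
      rw [h u (hBU huB) hu1, Subgroup.mem_normalizer_iff]
      intro e
      rw [Subgroup.mem_inf, Subgroup.mem_inf,
        ← Subgroup.mem_normalizer_iff.mp ((Subgroup.le_normalizer_of_normal : ⊤ ≤ Subgroup.normalizer (E : Set G))
          (Subgroup.mem_top x)) e]
      refine and_congr_right fun _ => ?_
      have hxc : x ∈ Subgroup.centralizer ({u} : Set G) :=
        Subgroup.mem_centralizer_singleton_iff.mpr (hXu x hx).symm
      exact ⟨fun h => mul_mem (mul_mem hxc h) (inv_mem hxc), fun h => by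
        simpa [mul_assoc] using mul_mem (mul_mem (inv_mem hxc) h) hxc⟩
    have hWU : ⁅W, U⁆ = ⊥ := Subgroup.commutator_eq_bot_iff_le_centralizer.mpr inf_le_right
    have h3 : ⁅Y, W⁆ = ⊥ := by
      refine Subgroup.commutator_commutator_eq_bot_of_rotate ?_ ?_
      · rw [Subgroup.commutator_comm U W, hWU, Subgroup.commutator_bot_left]
      · refine le_bot_iff.mp ((Subgroup.commutator_mono hWX le_rfl).trans hWU.le)
    exact Subgroup.commutator_eq_bot_iff_le_centralizer.mp (by rw [Subgroup.commutator_comm]; exact h3)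
  · set D := ⁅E, Subgroup.zpowers u⁆ with hD
    have hDU : ⁅E, U⁆ = D := h u (hBU huB) hu1
    have hNX : X ≤ Subgroup.normalizer (D : Set G) := by
      intro x hx
      rw [Subgroup.mem_normalizer_iff_map_conj_eq, hD, Subgroup.map_commutator]
      congr 1
      · exact Subgroup.mem_normalizer_iff_map_conj_eq.mp
          ((Subgroup.le_normalizer_of_normal : ⊤ ≤ Subgroup.normalizer (E : Set G)) (Subgroup.mem_top x))
      · rw [MonoidHom.map_zpowers]
        congr 1
        show x * u * x⁻¹ = u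
        rw [← hXu x hx, mul_inv_cancel_right]
    have hNU : U ≤ Subgroup.normalizer (D : Set G) := hDU ▸ Subgroup.normalizer_commutator_ge_right E U
    let K : Subgroup G :=
      { carrier := {g | g ∈ Subgroup.normalizer (D : Set G) ∧ ∀ e ∈ E, ⁅e, g⁆ ∈ D}
        one_mem' := ⟨one_mem _, fun e _ => by simp⟩
        mul_mem' := fun {g k} hg hk => ⟨mul_mem hg.1 hk.1, fun e he => by
          rw [show ⁅e, g * k⁆ = ⁅e, g⁆ * (g * ⁅e, k⁆ * g⁻¹) by simp only [commutatorElement_def]; group]
          exact mul_mem (hg.2 e he) ((Subgroup.mem_normalizer_iff.mp hg.1 _).mp (hk.2 e he))⟩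
        inv_mem' := fun {g} hg => ⟨inv_mem hg.1, fun e he => by
          rw [show ⁅e, g⁻¹⁆ = g⁻¹ * ⁅e, g⁆⁻¹ * g⁻¹⁻¹ by simp only [commutatorElement_def]; group]
          exact (Subgroup.mem_normalizer_iff.mp (inv_mem hg.1) _).mp (inv_mem (hg.2 e he))⟩ }
    have hUK : ∀ v ∈ U, v ∈ K := fun v hv =>
      ⟨hNU hv, fun e he => hDU ▸ Subgroup.commutator_mem_commutator he hv⟩
    have hYK : Y ≤ K := by
      rw [hY, Subgroup.commutator_le]
      intro x hx v hv
      rw [commutatorElement_def]
      refine K.mul_mem ⟨?_, fun e he => ?_⟩ (inv_mem (hUK v hv))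
      · exact mul_mem (mul_mem (hNX hx) (hNU hv)) (inv_mem (hNX hx))
      · rw [show ⁅e, x * v * x⁻¹⁆ = x * ⁅x⁻¹ * e * x, v⁆ * x⁻¹ by simp only [commutatorElement_def]; group]
        refine (Subgroup.mem_normalizer_iff.mp (hNX hx) _).mp ((hUK v hv).2 _ ?_)
        simpa using (inferInstance : E.Normal).conj_mem e he x⁻¹
    have hBot := Cfsg.Agent.S2908.result E (Subgroup.zpowers u) Y hE huP
      (fun hd => (Fact.out : p.Prime).ne_one (Nat.dvd_one.mp (hYR ▸ Nat.dvd_gcd hd dvd_rfl)))
      huE Subgroup.le_normalizer_of_normal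
      (Subgroup.commutator_eq_bot_iff_le_centralizer.mpr fun v hv => by
        rw [Subgroup.mem_centralizer_iff]
        exact fun y hy => (Subgroup.mem_centralizer_iff.mp (hYcomm y hy) v hv).symm)
      (by rw [Subgroup.commutator_le]; exact fun e he y hy => (hYK hy).2 e he)
    exact Subgroup.commutator_eq_bot_iff_le_centralizer.mp (by rw [Subgroup.commutator_comm]; exact hBot)

end Cfsg.Agent.S2909
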