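import Cfsg.Statements.S2910
import Cfsg.Agent.Eq.Def_Transfer
import Cfsg.Agent.Eq.Def_PLocal
import Cfsg.Agent.Coprime.FixOrderP
import Cfsg.Agent.Transfer.Frobenius

set_option autoImplicit false
open scoped Pointwise
open Cfsg

open scoped commutatorElement

namespace Cfsg.Agent.S2910

/-- Let p be an odd prime dividing the order of the finite group G and P a Sylow p-subgroup of G. If Ω₁(P) (generated by the elements of order dividing p) is contained in the centre of G, then G has a normal p-complement. In particular, if G is quasisimple then Ω₁(P) is not central in G. -/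
theorem result {G : Type*} [Group G] [Finite G] {p : ℕ} [Fact p.Prime] (hp : p ≠ 2) (hdiv : p ∣ Nat.card G) (P : Sylow p G) (hZ : Cfsg.omegaOne p (P : Subgroup G) ≤ Subgroup.center G) : Cfsg.HasNormalPComplement p G ∧ ¬ Cfsg.IsQuasisimple G := by
  have hN : Cfsg.HasNormalPComplement p G := by
    refine CfsgLib.Transfer.hasNormalPComplement_iff_pLocal_centralizes.mpr fun Q hQ g hg hgc => ?_
    rw [Subgroup.mem_centralizer_iff]
    intro y hy
    refine (CfsgLib.Coprime.fixes_of_fixes_order_p hp g hgc Q hQ hg (fun x hx hxp => ?_) y hy).symm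
    have hxc : x ∈ Subgroup.center G := by
      obtain ⟨T, hT⟩ := hQ.exists_le_sylow
      obtain ⟨c, hc⟩ := MulAction.exists_smul_eq G P T
      have hxT : x ∈ (T : Subgroup G) := hT hx
      rw [← hc] at hxT
      change x ∈ MulAut.conj c • (P : Subgroup G) at hxT
      rw [Subgroup.mem_pointwise_smul_iff_inv_smul_mem] at hxT
      have hxP : c⁻¹ * x * c ∈ (P : Subgroup G) := by simpa [mul_assoc] using hxT
      have hpow : (c⁻¹ * x * c) ^ p = 1 := by
        have := conj_pow (a := c⁻¹) (b := x) (i := p)
        simpa [hxp] using this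
      have hz := hZ (Subgroup.subset_closure ⟨hxP, hpow⟩)
      have := (inferInstance : (Subgroup.center G).Normal).conj_mem _ hz c
      simpa [mul_assoc] using this
    exact Subgroup.mem_center_iff.mp hxc g
  refine ⟨hN, fun hq => ?_⟩
  obtain ⟨P', N, hNn, hNc⟩ := hN
  have hne : (P' : Subgroup G) ≠ ⊥ := P'.ne_bot_of_dvd_card hdiv
  have hnt : Nontrivial (P' : Subgroup G) := (Subgroup.nontrivial_iff_ne_bot _).mpr hne
  have hnil : Group.IsNilpotent (P' : Subgroup G) := P'.isPGroup'.isNilpotent
  have hlt := Group.IsSolvable.commutator_lt_top_of_nontrivial (G := (P' : Subgroup G))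
  let f : G →* (P' : Subgroup G) := hNc.symm.QuotientMulEquiv.toMonoidHom.comp (QuotientGroup.mk' N)
  have hf : Function.Surjective f :=
    hNc.symm.QuotientMulEquiv.surjective.comp (QuotientGroup.mk'_surjective N)
  apply hlt.ne
  have htop : commutator G = ⊤ := hq.1.commutator_eq_top
  rw [commutator_def, ← MonoidHom.range_eq_top.mpr hf, MonoidHom.range_eq_map, ← Subgroup.map_commutator,
    ← commutator_def, htop]

end Cfsg.Agent.S2910
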