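import Cfsg.Statements.S2911
import Cfsg.Agent.TransferTwo.CentralInvolution

set_option autoImplicit false
open Cfsg

namespace Cfsg.Agent.S2911

theorem central_Z (w : Multiplicative (ZMod 2) × DihedralGroup 4) :
    w * (Multiplicative.ofAdd 1, 1) = (Multiplicative.ofAdd 1, 1) * w := by
  revert w; decide

theorem square_eq (u : Multiplicative (ZMod 2) × DihedralGroup 4) :
    u * u ≠ 1 → u * u = (1, DihedralGroup.r 2) := by
  revert u; decide

theorem central_cases (u : Multiplicative (ZMod 2) × DihedralGroup 4) (h1 : ∀ w, w * u = u * w)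
    (h2 : u * u = 1) (h3 : u ≠ 1) (h4 : u ≠ (1, DihedralGroup.r 2)) :
    u = (Multiplicative.ofAdd 1, 1) ∨
      u = (Multiplicative.ofAdd 1, 1) * (1, DihedralGroup.r 2) := by
  revert u; decide

/-- A finite group whose Sylow 2-subgroups are isomorphic to the direct product of a group of order 2 and a dihedral group of order 8 has a subgroup of index two. -/
theorem result {G : Type*} [Group G] [Finite G] (S : Sylow 2 G) (hS : Nonempty (↥(S : Subgroup G) ≃* Multiplicative (ZMod 2) × DihedralGroup 4)) : ∃ H : Subgroup G, H.index = 2 := by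
  obtain ⟨e⟩ := hS
  set Z : Multiplicative (ZMod 2) × DihedralGroup 4 := (Multiplicative.ofAdd 1, 1) with hZdef
  set c : Multiplicative (ZMod 2) × DihedralGroup 4 := (1, DihedralGroup.r 2) with hcdef
  set z : G := ((e.symm Z : (S : Subgroup G)) : G) with hz
  have hzS : z ∈ (S : Subgroup G) := (e.symm Z).2
  have hzc : ∀ s ∈ (S : Subgroup G), s * z = z * s := by
    intro s hs
    have : (⟨s, hs⟩ : (S : Subgroup G)) * e.symm Z = e.symm Z * ⟨s, hs⟩ := by
      apply e.injective
      rw [map_mul, map_mul, MulEquiv.apply_symm_apply]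
      exact central_Z _
    exact congrArg Subtype.val this
  have hzz : z * z = 1 := by
    rw [hz, ← Subgroup.coe_mul, ← map_mul, show Z * Z = 1 by decide, map_one, Subgroup.coe_one]
  have hN : ∀ g ∈ Subgroup.normalizer ((S : Subgroup G) : Set G), g * z * g⁻¹ = z := by
    intro g hg
    let α : (S : Subgroup G) →* (S : Subgroup G) :=
      MonoidHom.mk' (fun s => ⟨g * (s : G) * g⁻¹, (Subgroup.mem_normalizer_iff.mp hg s).mp s.2⟩)
        (fun a b => Subtype.ext (by simp [mul_assoc]))
    let β : Multiplicative (ZMod 2) × DihedralGroup 4 →* Multiplicative (ZMod 2) × DihedralGroup 4 :=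
      (e.toMonoidHom.comp α).comp e.symm.toMonoidHom
    have hβinj : Function.Injective β := by
      intro a b h
      apply e.symm.injective
      have h' : g * ((e.symm a : (S : Subgroup G)) : G) * g⁻¹ = g * ((e.symm b : (S : Subgroup G)) : G) * g⁻¹ :=
        congrArg Subtype.val (e.injective h)
      exact Subtype.ext (mul_left_cancel (mul_right_cancel h'))
    have hsq : c = (1, DihedralGroup.r 1) * (1, DihedralGroup.r 1) := by decide
    have hβc : β c = c := by
      have h1 : β c ≠ 1 := fun h => absurd (hβinj (h.trans (map_one β).symm)) (by decide)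
      rw [hsq, map_mul] at h1 ⊢
      rw [← hsq]
      exact square_eq _ h1
    have hβZ : β Z = Z ∨ β Z = Z * c := by
      refine central_cases (β Z) ?_ ?_ ?_ ?_
      · intro w
        obtain ⟨s, hs⟩ : ∃ s, β s = w := (Finite.surjective_of_injective hβinj) w
        rw [← hs, ← map_mul, ← map_mul, central_Z]
      · rw [← map_mul, show Z * Z = 1 by decide, map_one]
      · exact fun h => absurd (hβinj (h.trans (map_one β).symm)) (by decide)
      · exact fun h => absurd (hβinj (h.trans hβc.symm)) (by decide)
    rcases hβZ with h | h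
    · have := congrArg (fun w => ((e.symm w : (S : Subgroup G)) : G)) h
      simpa [β, α, hz] using this
    · exfalso
      set cG : G := ((e.symm c : (S : Subgroup G)) : G) with hcG
      have hgz : g * z * g⁻¹ = z * cG := by
        have := congrArg (fun w => ((e.symm w : (S : Subgroup G)) : G)) h
        simpa [β, α, hz, hcG] using this
      have hgc : g * cG * g⁻¹ = cG := by
        have := congrArg (fun w => ((e.symm w : (S : Subgroup G)) : G)) hβc
        simpa [β, α, hcG] using this
      have hpow : ∀ m : ℕ, g ^ m * z * (g ^ m)⁻¹ = z * cG ^ m := by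
        intro m
        induction m with
        | zero => simp
        | succ m ih =>
          calc g ^ (m + 1) * z * (g ^ (m + 1))⁻¹ = g * (g ^ m * z * (g ^ m)⁻¹) * g⁻¹ := by
                simp [pow_succ', mul_assoc]
            _ = g * (z * cG ^ m) * g⁻¹ := by rw [ih]
            _ = (g * z * g⁻¹) * (g * cG * g⁻¹) ^ m := by rw [conj_pow]; simp [mul_assoc]
            _ = z * cG * cG ^ m := by rw [hgz, hgc]
            _ = z * cG ^ (m + 1) := by rw [mul_assoc, ← pow_succ']
      obtain ⟨a, m, hm, hord⟩ := Nat.exists_eq_two_pow_mul_odd (orderOf_pos g).ne'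
      have hgm : g ^ m ∈ (S : Subgroup G) := by
        have hp : IsPGroup 2 (Subgroup.zpowers (g ^ m)) := by
          refine IsPGroup.of_card_dvd_pow (n := a) ?_
          rw [Nat.card_zpowers, orderOf_dvd_iff_pow_eq_one, ← pow_mul, mul_comm, ← hord,
            pow_orderOf_eq_one]
        have := hp.inf_normalizer_sylow S
        have hmem : g ^ m ∈ Subgroup.zpowers (g ^ m) ⊓ Subgroup.normalizer ((S : Subgroup G) : Set G) :=
          ⟨Subgroup.mem_zpowers _, Subgroup.pow_mem _ hg _⟩
        exact (this.le hmem).2
      have h1 := hpow m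
      rw [hzc _ hgm, mul_inv_cancel_right] at h1
      have hcm : cG ^ m = 1 := by simpa using h1.symm
      have hc2 : cG ^ 2 = 1 := by
        rw [hcG, ← Subgroup.coe_pow, ← map_pow, show c ^ 2 = 1 by decide, map_one, Subgroup.coe_one]
      obtain ⟨k, rfl⟩ := hm
      rw [pow_succ, pow_mul, hc2, one_pow, one_mul] at hcm
      have : c = 1 := e.symm.injective (by rw [map_one]; exact Subtype.ext hcm)
      exact absurd this (by decide)
  let f : (S : Subgroup G) →* Multiplicative (ZMod 2) :=
    (MonoidHom.fst (Multiplicative (ZMod 2)) (DihedralGroup 4)).comp e.toMonoidHom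
  refine CfsgLib.TransferTwo.exists_index_two S hzS hzz hzc hN f.ker ?_ ?_
  · rw [Subgroup.index_ker]
    have : f.range = ⊤ := MonoidHom.range_eq_top.mpr
      ((Prod.fst_surjective).comp e.surjective)
    rw [this]; simp
  · show ¬ (f ⟨z, hzS⟩ = 1)
    show ¬ ((e (e.symm Z)).1 = 1)
    rw [MulEquiv.apply_symm_apply]
    decide

end Cfsg.Agent.S2911
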