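import Cfsg.Statements.S2916
import Cfsg.Agent.Eq.Def_Transfer
import Cfsg.Agent.Eq.Def_Spor_Mathieu
import Cfsg.Agent.GLTwoThree.Recognition

set_option autoImplicit false
open Cfsg

namespace Cfsg.Agent.S2916

/-- Let G be a finite group with O²(G) = G (no proper normal subgroup of 2-power index), and let t be an involution of G whose centralizer C_G(t) is isomorphic to GL₂(3). Then G is isomorphic to PSL₃(3) or to the Mathieu group M₁₁. -/
theorem result {G : Type*} [Group G] [Finite G] (hO : Cfsg.pResidual 2 G = ⊤) (t : G) (ht : orderOf t = 2) (hC : Nonempty (↥(Subgroup.centralizer ({t} : Set G)) ≃* GL (Fin 2) (ZMod 3))) : (∃ (F : Type) (_ : Field F) (_ : Fintype F), Fintype.card F = 3 ∧ Nonempty (G ≃* Matrix.ProjectiveSpecialLinearGroup (Fin 3) F)) ∨ Cfsg.Spor.IsoM11 G := by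
  obtain ⟨e⟩ := hC
  have hidx : ∀ M : Subgroup G, M.Normal → M.index ≠ 2 := by
    intro M hM h2
    have hle : Cfsg.pResidual 2 G ≤ M := by
      refine (Subgroup.closure_le _).mpr fun g hg => ?_
      obtain ⟨j, hj⟩ := Nat.coprime_two_right.mp (show Nat.Coprime (orderOf g) 2 from hg)
      have hgg : (g ^ 2) ^ (j + 1) = g := by
        rw [← pow_mul, show 2 * (j + 1) = (2 * j + 1) + 1 by ring, pow_succ, ← hj, pow_orderOf_eq_one,
          one_mul]
      rw [← hgg]
      exact pow_mem (Subgroup.sq_mem_of_index_two h2 g) _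
    rw [hO] at hle
    rw [top_unique hle, Subgroup.index_top] at h2
    omega
  obtain ⟨ι, h⟩ := CfsgLib.GLTwoThree.exists_hyp t ht e hidx
  rcases h.card_eq with hN | hN
  · exact Or.inl (h.iso_psl hN)
  · haveI := h.isSimpleGroup (by rw [hN]; norm_num)
    exact Or.inr (CfsgLib.GLTwoThree.isoM11 h hN)

end Cfsg.Agent.S2916
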