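import Cfsg.Statements.S2922
import Cfsg.Agent.CharP.Climb
import Cfsg.Agent.LocalCharP.NoComponent
import Cfsg.Agent.LocalP.Basic

set_option autoImplicit false
open Cfsg

namespace Cfsg.Agent.S2922

/-- Let p be a prime, X a finite group, B a p-subgroup of X and C a normal subgroup of B. If N_X(C) has characteristic p (its generalized Fitting subgroup is O_p(N_X(C))), then N_X(B) and C_X(B) have characteristic p. -/
theorem result {X : Type*} [Group X] [Finite X] {p : ℕ} [Fact p.Prime] (B C : Subgroup X) (hB : IsPGroup p ↥B) (hCB : C ≤ B) (hCn : (C.subgroupOf B).Normal) (hC : Cfsg.generalizedFittingSubgroup ↥(Subgroup.normalizer (C : Set X)) = Cfsg.pCore p ↥(Subgroup.normalizer (C : Set X))) : Cfsg.generalizedFittingSubgroup ↥(Subgroup.normalizer (B : Set X)) = Cfsg.pCore p ↥(Subgroup.normalizer (B : Set X)) ∧ Cfsg.generalizedFittingSubgroup ↥(Subgroup.centralizer (B : Set X)) = Cfsg.pCore p ↥(Subgroup.centralizer (B : Set X)) := by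
  have hN := CfsgLib.NoComponent.centralizer_pCore_le_of_gfit hC
  have hle : Subgroup.centralizer (C : Set X) ≤ Subgroup.normalizer (C : Set X) :=
    Subgroup.centralizer_le_normalizer _
  have hn : ((Subgroup.centralizer (C : Set X)).subgroupOf (Subgroup.normalizer (C : Set X))).Normal :=
    Subgroup.normal_subgroupOf_iff_le_normalizer hle |>.mpr fun w hw => by
      rw [Subgroup.mem_normalizer_iff]
      intro u
      have key : ∀ v ∈ Subgroup.normalizer (C : Set X), ∀ u ∈ Subgroup.centralizer (C : Set X),
          v * u * v⁻¹ ∈ Subgroup.centralizer (C : Set X) := by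
        intro v hv u hu
        rw [Subgroup.mem_centralizer_iff]
        intro c hc
        have hc' : v⁻¹ * c * v ∈ C := by
          simpa using (Subgroup.mem_normalizer_iff.mp (inv_mem hv) c).mp hc
        have h := Subgroup.mem_centralizer_iff.mp hu _ hc'
        calc c * (v * u * v⁻¹) = v * ((v⁻¹ * c * v) * u) * v⁻¹ := by group
          _ = v * (u * (v⁻¹ * c * v)) * v⁻¹ := by rw [h]
          _ = v * u * v⁻¹ * c := by group
      exact ⟨key w hw u, fun hu => by simpa [mul_assoc] using key w⁻¹ (inv_mem hw) _ hu⟩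
  have hCV : CfsgLib.CharPClimb.CharP p (Subgroup.centralizer (C : Set X)) :=
    CfsgLib.LocalP.charP_of_mulEquiv (Subgroup.subgroupOfEquivOfLe hle)
      (CfsgLib.LocalP.charP_of_isSubnormal hN _ hn.isSubnormal)
  have hCB := CfsgLib.CharPClimb.charP_centralizer_of_le hB C hCB hCV
  exact ⟨CfsgLib.CharPClimb.generalizedFitting_eq_pCore (CfsgLib.CharPClimb.charP_normalizer hB hCB),
    CfsgLib.CharPClimb.generalizedFitting_eq_pCore hCB⟩

end Cfsg.Agent.S2922
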