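import Cfsg.Statements.S2924
import Cfsg.Agent.LocalP.CoreGeneration

set_option autoImplicit false
open Cfsg

namespace Cfsg.Agent.S2924

/-- Let X be a finite group and Y an elementary abelian 2-subgroup of X of order at least 8 such that C_X(x) has no components (E(C_X(x)) = 1) for every nontrivial x ∈ Y, and F*(C_X(z)) = O₂(C_X(z)) for some nontrivial z ∈ Y. Then the subgroup generated by the cores O(C_X(y)), y ∈ Y nontrivial, has odd order and is normalized by N_X(Y). -/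
theorem result {X : Type*} [Group X] [Finite X] (Y : Subgroup X) (hY : Cfsg.IsElementaryAbelian 2 Y) (h8 : 8 ≤ Nat.card ↥Y) (hE : ∀ x ∈ Y, x ≠ 1 → Cfsg.layer ↥(Subgroup.centralizer ({x} : Set X)) = ⊥) (hz : ∃ z ∈ Y, z ≠ 1 ∧ Cfsg.generalizedFittingSubgroup ↥(Subgroup.centralizer ({z} : Set X)) = Cfsg.pCore 2 ↥(Subgroup.centralizer ({z} : Set X))) : Odd (Nat.card ↥(⨆ y : {y : X // y ∈ Y ∧ y ≠ 1}, (Cfsg.oddCore ↥(Subgroup.centralizer ({(y : X)} : Set X))).map (Subgroup.centralizer ({(y : X)} : Set X)).subtype)) ∧ Subgroup.normalizer (Y : Set X) ≤ Subgroup.normalizer ((⨆ y : {y : X // y ∈ Y ∧ y ≠ 1}, (Cfsg.oddCore ↥(Subgroup.centralizer ({(y : X)} : Set X))).map (Subgroup.centralizer ({(y : X)} : Set X)).subtype : Subgroup X) : Set X) := by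
  obtain ⟨z, hzY, hz1, hzF⟩ := hz
  haveI := hY.1
  have hcomm : ∀ a ∈ Y, ∀ b ∈ Y, a * b = b * a := fun a ha b hb =>
    congrArg Subtype.val (mul_comm' (⟨a, ha⟩ : ↥Y) ⟨b, hb⟩)
  have hsq : ∀ a ∈ Y, a * a = 1 := fun a ha => by rw [← sq]; exact hY.2 a ha
  have hchar : CfsgLib.CharPClimb.CharP 2 (Subgroup.centralizer ({z} : Set X)) :=
    CfsgLib.NoComponent.centralizer_pCore_le_of_gfit hzF
  have hinv : ∀ y ∈ Y, ∀ w ∈ CfsgLib.CoreGen.core y, z * w * z = w⁻¹ := fun y hy =>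
    CfsgLib.CoreGen.core_inverted (hsq z hzY) (hsq y hy) (hcomm z hzY y hy) hchar
  have hnorm : ∀ y ∈ Y, ∀ g ∈ Y, ∀ u ∈ CfsgLib.CoreGen.core y, g * u * g⁻¹ ∈ CfsgLib.CoreGen.core y :=
    fun y hy g hg u hu => CfsgLib.CoreGen.conj_mem_core (hcomm g hg y hy) hu
  -- all the cores commute with each other
  have heig : ∀ y ∈ Y, CfsgLib.CoreGen.core y ≤ Subgroup.closure
      {u | u ∈ CfsgLib.CoreGen.core y ∧ ∀ g ∈ Y, g * u * g⁻¹ = u ∨ g * u * g⁻¹ = u⁻¹} := by
    intro y hy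
    obtain ⟨l, hl⟩ : ∃ l : List X, ∀ g, g ∈ l ↔ g ∈ Y := by
      classical
      haveI := Fintype.ofFinite X
      exact ⟨(Finset.univ.filter fun g => g ∈ Y).toList, fun g => by simp⟩
    refine (CfsgLib.CoreGen.le_closure_eigen
      (fun a ha b hb => CfsgLib.CoreGen.commute_of_inverted (hsq z hzY) (hinv y hy) ha hb)
      (CfsgLib.CoreGen.odd_card_core y) l
      (fun g hg h hh => hcomm g ((hl g).mp hg) h ((hl h).mp hh))
      (fun g hg => hsq g ((hl g).mp hg)) (fun g hg => hnorm y hy g ((hl g).mp hg))).trans ?_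
    exact Subgroup.closure_mono fun u hu => ⟨hu.1, fun g hg => hu.2 g ((hl g).mpr hg)⟩
  have hcross : ∀ a ∈ Y, a ≠ 1 → ∀ b ∈ Y, b ≠ 1 → ∀ u ∈ CfsgLib.CoreGen.core a,
      ∀ v ∈ CfsgLib.CoreGen.core b, u * v = v * u := by
    intro a ha ha1 b hb hb1 u hu v hv
    have key : ∀ u ∈ {u | u ∈ CfsgLib.CoreGen.core a ∧ ∀ g ∈ Y, g * u * g⁻¹ = u ∨ g * u * g⁻¹ = u⁻¹},
        ∀ v ∈ {u | u ∈ CfsgLib.CoreGen.core b ∧ ∀ g ∈ Y, g * u * g⁻¹ = u ∨ g * u * g⁻¹ = u⁻¹},
          u * v = v * u := by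
      rintro u ⟨hu, hu'⟩ v ⟨hv, hv'⟩
      obtain ⟨e, he, he1, heu, hev⟩ := CfsgLib.CoreGen.exists_common_fixed h8 hu' hv'
      have mem : ∀ c ∈ Y, ∀ w ∈ CfsgLib.CoreGen.core c, e * w * e⁻¹ = w →
          w ∈ CfsgLib.CoreGen.core e := fun c hc w hw hew =>
        CfsgLib.CoreGen.balance (hsq c hc) (hsq e he) (hsq z hzY) (hcomm c hc e he) (hcomm z hzY c hc)
          (hcomm z hzY e he) hchar (hE e he he1) hw (mul_inv_eq_iff_eq_mul.mp hew).symm
      exact (CfsgLib.CoreGen.commute_of_inverted (hsq z hzY) (hinv e he) (mem a ha u hu heu)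
        (mem b hb v hv hev)).eq
    have h1 : CfsgLib.CoreGen.core b ≤ Subgroup.centralizer (CfsgLib.CoreGen.core a : Set X) := by
      refine (heig b hb).trans ((Subgroup.closure_le _).mpr fun v hv => ?_)
      have h2 : CfsgLib.CoreGen.core a ≤ Subgroup.centralizer {v} := by
        refine (heig a ha).trans ((Subgroup.closure_le _).mpr fun u hu => ?_)
        exact Subgroup.mem_centralizer_singleton_iff.mpr (key u hu v hv)
      exact Subgroup.mem_centralizer_iff.mpr fun w hw => Subgroup.mem_centralizer_singleton_iff.mp (h2 hw)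
    exact Subgroup.mem_centralizer_iff.mp (h1 hv) u hu
  set W : Subgroup X := ⨆ y : {y : X // y ∈ Y ∧ y ≠ 1},
    (Cfsg.oddCore ↥(Subgroup.centralizer ({(y : X)} : Set X))).map
      (Subgroup.centralizer ({(y : X)} : Set X)).subtype with hW
  refine ⟨?_, fun g hg => ?_⟩
  · -- odd order
    set U : Set X := ⋃ y : {y : X // y ∈ Y ∧ y ≠ 1}, (CfsgLib.CoreGen.core (y : X) : Set X) with hU
    have hWU : W = Subgroup.closure U := by
      rw [hW, hU, Subgroup.closure_iUnion]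
      simp only [Subgroup.closure_eq]
      rfl
    have hUc : ∀ a ∈ U, ∀ b ∈ U, a * b = b * a := by
      intro a ha b hb
      obtain ⟨y, hy⟩ := Set.mem_iUnion.mp ha
      obtain ⟨y', hy'⟩ := Set.mem_iUnion.mp hb
      exact hcross y y.2.1 y.2.2 y' y'.2.1 y'.2.2 a hy b hy'
    haveI := Subgroup.isMulCommutative_closure hUc
    have hoddel : ∀ a ∈ Subgroup.closure U, Odd (orderOf a) := by
      intro a ha
      induction ha using Subgroup.closure_induction with
      | mem a h =>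
        obtain ⟨y, hy⟩ := Set.mem_iUnion.mp h
        exact CfsgLib.CoreGen.odd_orderOf_mem_core hy
      | one => simp
      | mul a b ha hb iha ihb =>
        have hc : Commute a b :=
          congrArg Subtype.val (mul_comm' (⟨a, ha⟩ : ↥(Subgroup.closure U)) ⟨b, hb⟩)
        exact (iha.mul ihb).of_dvd_nat hc.orderOf_mul_dvd_mul_orderOf
      | inv a _ iha => rwa [orderOf_inv]
    rw [hWU, Nat.odd_iff, ← Nat.two_dvd_ne_zero]
    intro hdvd
    haveI : Fact (Nat.Prime 2) := ⟨Nat.prime_two⟩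
    obtain ⟨a, ha⟩ := exists_prime_orderOf_dvd_card' 2 hdvd
    have := hoddel a a.2
    rw [Subgroup.orderOf_coe, ha] at this
    exact absurd this (by decide)
  · -- invariance
    rw [Subgroup.mem_normalizer_iff_map_conj_eq]
    have hle : ∀ c ∈ Subgroup.normalizer (Y : Set X), W.map (MulAut.conj c).toMonoidHom ≤ W := by
      intro c hc
      rw [hW, Subgroup.map_iSup]
      refine iSup_le fun y => ?_
      have hy : c * (y : X) * c⁻¹ ∈ Y := (Subgroup.mem_normalizer_iff.mp hc _).mp y.2.1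
      have hy1 : c * (y : X) * c⁻¹ ≠ 1 := fun h => y.2.2 (conj_eq_one_iff.mp h)
      have hcent : (Subgroup.centralizer ({(y : X)} : Set X)).map (MulAut.conj c).toMonoidHom =
          Subgroup.centralizer ({c * (y : X) * c⁻¹} : Set X) := by
        ext u
        rw [Subgroup.mem_centralizer_singleton_iff]
        constructor
        · rintro ⟨v, hv, rfl⟩
          have hv' := Subgroup.mem_centralizer_singleton_iff.mp hv
          show c * v * c⁻¹ * (c * y * c⁻¹) = c * y * c⁻¹ * (c * v * c⁻¹)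
          calc c * v * c⁻¹ * (c * y * c⁻¹) = c * (v * y) * c⁻¹ := by group
            _ = c * (y * v) * c⁻¹ := by rw [hv']
            _ = c * y * c⁻¹ * (c * v * c⁻¹) := by group
        · intro hu
          refine ⟨c⁻¹ * u * c, Subgroup.mem_centralizer_singleton_iff.mpr ?_, by simp [mul_assoc]⟩
          calc c⁻¹ * u * c * y = c⁻¹ * (u * (c * y * c⁻¹)) * c := by group
            _ = c⁻¹ * (c * y * c⁻¹ * u) * c := by rw [hu]
            _ = y * (c⁻¹ * u * c) := by group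
      refine le_trans (le_of_eq ?_) (le_iSup
        (fun y : {y : X // y ∈ Y ∧ y ≠ 1} => (Cfsg.oddCore ↥(Subgroup.centralizer ({(y : X)} : Set X))).map
          (Subgroup.centralizer ({(y : X)} : Set X)).subtype) ⟨_, hy, hy1⟩)
      exact (CfsgLib.Balance.oddCoreIn_map (MulAut.conj c) _).trans
        (congrArg CfsgLib.Balance.oddCoreIn hcent)
    refine le_antisymm (hle g hg) fun u hu => ⟨g⁻¹ * u * g, ?_, by simp [mul_assoc]⟩
    simpa [mul_assoc] using hle g⁻¹ (inv_mem hg) ⟨u, hu, rfl⟩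

end Cfsg.Agent.S2924
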