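import Cfsg.Statements.S2925
import Cfsg.Agent.Cores.Components
import Cfsg.Agent.CharP.SubnormalJoin

set_option autoImplicit false
open Cfsg

namespace Cfsg.Agent.S2925

/-- Let K be a component of the finite group X and T a Sylow 2-subgroup of X. If some abelian normal subgroup Y of T does not normalize K, then K ⧸ Z(K) has abelian Sylow 2-subgroups. -/
theorem result {X : Type*} [Group X] [Finite X] (K : Subgroup X) (hK : Cfsg.IsComponent K) (T : Sylow 2 X) (Y : Subgroup X) (hYT : Y ≤ (T : Subgroup X)) (hYn : (Y.subgroupOf (T : Subgroup X)).Normal) (hYab : IsMulCommutative ↥Y) (hnot : ¬ Y ≤ Subgroup.normalizer (K : Set X)) (P : Sylow 2 (↥K ⧸ Subgroup.center ↥K)) : IsMulCommutative ↥(P : Subgroup (↥K ⧸ Subgroup.center ↥K)) := by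
  obtain ⟨y, hy, hyK⟩ := SetLike.not_le_iff_exists.mp hnot
  set K2 := K.map (MulAut.conj y).toMonoidHom with hK2
  have hne : K ≠ K2 := fun h => hyK (Subgroup.mem_normalizer_iff_map_conj_eq.mpr h.symm)
  have hKK2 := CfsgLib.Cores.commutator_eq_bot_of_ne hK (CfsgLib.Cores.isComponent_conj hK y) hne
  have hcK2 : ∀ k ∈ K, ∀ l ∈ K2, Commute k l := fun k hk l hl =>
    Subgroup.commutator_eq_bot_iff_le_centralizer.mp hKK2 hk |>
      fun h => (Subgroup.mem_centralizer_iff.mp h l hl).symm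
  obtain ⟨S, hS⟩ := CfsgLib.CharP.exists_sylow_eq_inf_subnormal T hK.1
  have hYmem : ∀ u ∈ (T : Subgroup X) ⊓ K, u * (y * u⁻¹ * y⁻¹) ∈ Y := by
    intro u hu
    have hu' : u ∈ Subgroup.normalizer (Y : Set X) :=
      (Subgroup.normal_subgroupOf_iff_le_normalizer hYT).mp hYn hu.1
    have h := mul_mem ((Subgroup.mem_normalizer_iff.mp hu' y).mp hy) (inv_mem hy)
    simpa [mul_assoc] using h
  have hcomm : ∀ a b : ↥K, (a : X) ∈ (T : Subgroup X) → (b : X) ∈ (T : Subgroup X) →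
      (b * a)⁻¹ * (a * b) ∈ Subgroup.center ↥K := by
    rintro ⟨u, huK⟩ ⟨v, hvK⟩ huT hvT
    have hu : u ∈ (T : Subgroup X) ⊓ K := ⟨huT, huK⟩
    have hv : v ∈ (T : Subgroup X) ⊓ K := ⟨hvT, hvK⟩
    set u' := y * u⁻¹ * y⁻¹ with hu'
    set v' := y * v⁻¹ * y⁻¹ with hv'
    have hu'2 : u' ∈ K2 := ⟨u⁻¹, inv_mem hu.2, rfl⟩
    have hv'2 : v' ∈ K2 := ⟨v⁻¹, inv_mem hv.2, rfl⟩
    have hab : u * u' * (v * v') = v * v' * (u * u') := congrArg Subtype.val
      (hYab.is_comm.comm ⟨_, hYmem u hu⟩ ⟨_, hYmem v hv⟩)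
    have h1 : u * u' * (v * v') = u * v * (u' * v') := by
      calc u * u' * (v * v') = u * (u' * v) * v' := by group
        _ = u * (v * u') * v' := by rw [(hcK2 v hv.2 u' hu'2).eq]
        _ = u * v * (u' * v') := by group
    have h2 : v * v' * (u * u') = v * u * (v' * u') := by
      calc v * v' * (u * u') = v * (v' * u) * u' := by group
        _ = v * (u * v') * u' := by rw [(hcK2 u hu.2 v' hv'2).eq]
        _ = v * u * (v' * u') := by group
    rw [h1, h2] at hab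
    have h3 : (v * u)⁻¹ * (u * v) = v' * u' * (u' * v')⁻¹ := by
      calc (v * u)⁻¹ * (u * v) = (v * u)⁻¹ * (u * v * (u' * v')) * (u' * v')⁻¹ := by group
        _ = v' * u' * (u' * v')⁻¹ := by rw [hab]; group
    refine Subgroup.mem_center_iff.mpr fun k => Subtype.ext ?_
    show (k : X) * ((v * u)⁻¹ * (u * v)) = (v * u)⁻¹ * (u * v) * k
    rw [h3]
    exact (hcK2 k k.2 _ (mul_mem (mul_mem hv'2 hu'2) (inv_mem (mul_mem hu'2 hv'2)))).eq
  -- the image of `T ⊓ K` is an abelian Sylow subgroup of `K / Z(K)`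
  obtain ⟨g, hg⟩ := MulAction.exists_smul_eq (↥K ⧸ Subgroup.center ↥K)
    (S.mapSurjective (QuotientGroup.mk'_surjective (Subgroup.center ↥K))) P
  have hS' : ∀ a ∈ ((S.mapSurjective (QuotientGroup.mk'_surjective (Subgroup.center ↥K))) :
      Subgroup (↥K ⧸ Subgroup.center ↥K)), ∀ b ∈ ((S.mapSurjective (QuotientGroup.mk'_surjective
        (Subgroup.center ↥K))) : Subgroup (↥K ⧸ Subgroup.center ↥K)), a * b = b * a := by
    rintro _ ⟨a, ha, rfl⟩ _ ⟨b, hb, rfl⟩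
    have h := hcomm a b (hS.le ⟨a, ha, rfl⟩).1 (hS.le ⟨b, hb, rfl⟩).1
    simp only [QuotientGroup.mk'_apply]
    rw [← QuotientGroup.mk_mul, ← QuotientGroup.mk_mul, QuotientGroup.eq]
    have h' := inv_mem h
    simpa [mul_assoc] using h'
  refine ⟨⟨?_⟩⟩
  rintro ⟨a, ha⟩ ⟨b, hb⟩
  rw [← hg] at ha hb
  obtain ⟨a', ha', rfl⟩ := ha
  obtain ⟨b', hb', rfl⟩ := hb
  apply Subtype.ext
  show (MulDistribMulAction.toMonoidEnd _ _ (MulAut.conj g)) a' * (MulDistribMulAction.toMonoidEnd _ _ (MulAut.conj g)) b' =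
    (MulDistribMulAction.toMonoidEnd _ _ (MulAut.conj g)) b' * (MulDistribMulAction.toMonoidEnd _ _ (MulAut.conj g)) a'
  rw [← map_mul, ← map_mul, hS' a' ha' b' hb']

end Cfsg.Agent.S2925
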