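import Cfsg.Statements.S2928
import Cfsg.Agent.SymSylow.PairThreeCycle
import Cfsg.Agent.Perm.ThreeCycleClasses
import Cfsg.Agent.Cores.Components
import Cfsg.Agent.Cores.GenFitting
import Cfsg.Agent.FStar.SelfCentralizing
import Cfsg.Agent.Eq.Def_Local
import Cfsg.Agent.Eq.Def_CaseTheorems

set_option autoImplicit false
open Cfsg

namespace Cfsg.Agent.S2928

open Equiv Equiv.Perm
open CfsgLib.ThreeCycleClasses CfsgLib.SymSylow

variable {α : Type*} [Fintype α] [DecidableEq α]

private theorem isSolvable_altOn' {C : Finset α} (h : C.card ≤ 4) :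
    Group.IsSolvable ↥(altOn C) := by
  haveI := isSolvable_perm_of_card_le_four (β := C) (by simpa using h)
  exact CfsgLib.Cores.isSolvable_map _ inferInstance

private theorem quasisimple_of_simple {A : Type*} [Group A] [IsSimpleGroup A]
    (hz : Subgroup.center A = ⊥) : Cfsg.IsQuasisimple A := by
  constructor
  · constructor
    rcases (inferInstance : (commutator A).Normal).eq_bot_or_eq_top with h | h
    · rw [commutator_eq_bot_iff_center_eq_top, hz] at h
      exact absurd h bot_ne_top
    · exact h
  · haveI : Nontrivial (A ⧸ Subgroup.center A) :=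
      QuotientGroup.nontrivial_iff.mpr (by rw [hz]; exact bot_ne_top)
    exact IsSimpleGroup.isSimpleGroup_of_surjective (QuotientGroup.mk' _)
      (QuotientGroup.mk'_surjective _)

/-- An element commuting with `F*` and moving at most four points is trivial. -/
private theorem eq_one_of_commute {H : Subgroup (Perm α)}
    [Group.IsPerfect ↥(Cfsg.generalizedFittingSubgroup ↥H)] {d : ↥H}
    (hd : ∀ f ∈ Cfsg.generalizedFittingSubgroup ↥H, f * d = d * f)
    (h4 : (d : Perm α).support.card ≤ 4) : d = 1 := by
  have hdF : d ∈ Cfsg.generalizedFittingSubgroup ↥H :=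
    CfsgLib.FStar.centralizer_generalizedFitting_le (Subgroup.mem_centralizer_iff.2 hd)
  let φ : ↥(Cfsg.generalizedFittingSubgroup ↥H) →* Perm α :=
    H.subtype.comp (Cfsg.generalizedFittingSubgroup ↥H).subtype
  have hinv : ∀ k x, φ k x ∈ (d : Perm α).support ↔ x ∈ (d : Perm α).support := by
    intro k x
    have hc : (φ k) * (d : Perm α) = (d : Perm α) * φ k := congrArg Subtype.val (hd k k.2)
    rw [mem_support, mem_support, ← Perm.mul_apply, ← hc, Perm.mul_apply]
    exact (φ k).injective.ne_iff
  apply Subtype.ext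
  ext x
  by_contra hx
  exact hx (perfect_fixes φ _ h4 hinv ⟨d, hdF⟩ (mem_support.2 hx))

private theorem support_two_swaps (x y u v : α) :
    (swap x y * swap u v).support.card ≤ 4 := by
  refine le_trans (Finset.card_le_card (t := {x, y, u, v}) fun z hz => ?_) Finset.card_le_four
  by_contra h
  simp only [Finset.mem_insert, Finset.mem_singleton, not_or] at h
  exact mem_support.1 hz (by
    simp [Perm.mul_apply, swap_apply_of_ne_of_ne, h.1, h.2.1, h.2.2.1, h.2.2.2])

private theorem exists_two_pairs {τ : Perm α} (hfix : ∀ x y, τ x = x → τ y = y → x = y)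
    (h5 : 5 ≤ Fintype.card α) : ∃ x y, τ x ≠ x ∧ τ y ≠ y ∧ y ≠ x ∧ y ≠ τ x := by
  have h1 : (Finset.univ.filter fun x => τ x = x).card ≤ 1 := Finset.card_le_one.2 fun x hx y hy =>
    hfix x y (Finset.mem_filter.1 hx).2 (Finset.mem_filter.1 hy).2
  obtain ⟨x, hx⟩ : ∃ x, x ∉ Finset.univ.filter fun x => τ x = x := by
    by_contra h
    push Not at h
    rw [Finset.eq_univ_of_forall h, Finset.card_univ] at h1
    omega
  obtain ⟨y, hy⟩ : ((Finset.univ \ Finset.univ.filter fun x => τ x = x) \ {x, τ x}).Nonempty := by
    rw [← Finset.card_pos]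
    have := Finset.le_card_sdiff ({x, τ x} : Finset α) (Finset.univ \ Finset.univ.filter fun x => τ x = x)
    have := Finset.card_univ_sdiff (Finset.univ.filter fun x => τ x = x)
    have := Finset.card_le_two (a := x) (b := τ x)
    omega
  simp only [Finset.mem_filter, Finset.mem_univ, true_and] at hx
  simp only [Finset.mem_sdiff, Finset.mem_univ, true_and, Finset.mem_filter, Finset.mem_insert,
    Finset.mem_singleton, not_or] at hy
  exact ⟨x, y, hx, hy.1, hy.2.1, hy.2.2⟩

/-- The case where all of `H` fixes the points outside an eight-point set. -/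
private theorem three_cycle_eight {H : Subgroup (Perm α)}
    (hF : Cfsg.IsQuasisimple ↥(Cfsg.generalizedFittingSubgroup ↥H)) (p : α → Prop) [DecidablePred p]
    (hp : ∀ g ∈ H, ∀ x, ¬ p x → g x = x) (e : {x // p x} ≃ Fin 8) (S : Subgroup (Perm α))
    (hS : S ≤ H) (hSe : S ≤ alternatingGroup α) (h64 : 64 ∣ Nat.card S) :
    ∃ c ∈ H, Perm.IsThreeCycle c := by
  haveI := hF.1
  haveI hFn : (Cfsg.generalizedFittingSubgroup ↥H).Normal := by infer_instance
  have hinv : ∀ g : ↥H, ∀ x, p ((g : Perm α) x) ↔ p x := fun g x => by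
    constructor
    · intro h; by_contra hx; rw [hp g g.2 x hx] at h; exact hx h
    · intro hx
      by_contra h
      have := (g : Perm α).injective (hp g g.2 _ h)
      exact h (by rwa [this])
  let ψ : ↥H →* Perm (Fin 8) :=
    { toFun := fun g => e.permCongr ((g : Perm α).subtypePerm (hinv g))
      map_one' := by ext x; simp
      map_mul' := fun a b => Equiv.ext fun x => by simp }
  have hψ : Function.Injective ψ := by
    intro a b hab
    apply Subtype.ext
    ext x
    by_cases hx : p x
    · have := congrArg (fun u : Perm (Fin 8) => (e.symm (u (e ⟨x, hx⟩)) : α)) hab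
      simpa [ψ] using this
    · rw [hp a a.2 x hx, hp b b.2 x hx]
  have hsign : ∀ g : ↥H, Perm.sign (ψ g) = Perm.sign (g : Perm α) := by
    intro g
    show Perm.sign (e.permCongr _) = _
    rw [Perm.sign_permCongr, Perm.sign_subtypePerm]
    intro x hx
    by_contra h
    exact hx (hp g g.2 x h)
  set A := (alternatingGroup α).subgroupOf H with hA
  set F := Cfsg.generalizedFittingSubgroup ↥H with hFdef
  have hFA : F ≤ A := by
    intro f hf
    rw [hA, Subgroup.mem_subgroupOf, Perm.mem_alternatingGroup]
    exact map_eq_one_of_perfect ((Perm.sign.comp H.subtype).comp F.subtype) ⟨f, hf⟩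
  let ι : ↥F ≃* ↥(F.map ψ) := F.equivMapOfInjective ψ hψ
  haveI : Group.IsPerfect ↥(F.map ψ) := CfsgLib.Cores.isPerfect_of_mulEquiv ι hF.1
  obtain ⟨c, hc, hc3⟩ := three_cycle_of_eight (A.map ψ) (F.map ψ)
    (by rintro _ ⟨g, hg, rfl⟩; rw [Perm.mem_alternatingGroup, hsign]; exact hg)
    (by
      rw [Subgroup.card_map_of_injective hψ]
      refine h64.trans ?_
      rw [← Nat.card_congr (Subgroup.subgroupOfEquivOfLe hS).toEquiv]
      exact Subgroup.card_dvd_of_le fun g hg => hSe hg)
    (Subgroup.map_mono hFA)
    (by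
      rintro _ ⟨g, -, rfl⟩ _ ⟨f, hf, rfl⟩
      exact ⟨g * f * g⁻¹, hFn.conj_mem f hf g, by simp⟩)
    (by
      intro h
      haveI := CfsgLib.Cores.nontrivial_of_isQuasisimple hF
      obtain ⟨a, ha⟩ := exists_ne (1 : ↥F)
      have h2 : ψ a = 1 := Subgroup.mem_bot.1 (h ▸ Subgroup.mem_map_of_mem ψ a.2)
      exact ha (Subtype.ext (hψ (h2.trans (map_one ψ).symm))))
    (by
      intro M hM hne m hm
      have hM' : (M.comap ι.toMonoidHom).Normal := hM.comap _
      haveI := hF.2
      have hcase : M.comap ι.toMonoidHom ≤ Subgroup.center ↥F ∨ M.comap ι.toMonoidHom = ⊤ :=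
        (CfsgLib.Cores.normal_eq_top_or_le_center hF (M.comap ι.toMonoidHom) hM').symm
      rcases hcase with h | h
      · rw [Subgroup.mem_center_iff]
        intro k
        obtain ⟨a, rfl⟩ := ι.surjective k
        obtain ⟨b, rfl⟩ := ι.surjective m
        rw [← map_mul, ← map_mul, Subgroup.mem_center_iff.1 (h hm) a]
      · refine absurd ((Subgroup.eq_top_iff' M).2 fun k => ?_) hne
        obtain ⟨a, rfl⟩ := ι.surjective k
        exact (h ▸ Subgroup.mem_top a : a ∈ M.comap ι.toMonoidHom))
  obtain ⟨g, -, rfl⟩ := hc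
  refine ⟨g, g.2, ?_⟩
  rw [← card_support_eq_three_iff] at hc3 ⊢
  rw [← hc3]
  refine Finset.card_bij (fun x hx => e ⟨x, by
    by_contra h; exact mem_support.1 hx (hp g g.2 x h)⟩) ?_ ?_ ?_
  · intro x hx
    rw [mem_support]
    intro h
    simp [ψ] at h
    exact mem_support.1 hx h
  · intro a _ b _ h
    exact congrArg Subtype.val (e.injective h)
  · intro y hy
    refine ⟨e.symm y, ?_, by simp⟩
    rw [mem_support] at hy ⊢
    intro h
    apply hy
    simp [ψ]
    rw [← e.eq_symm_apply]
    exact Subtype.ext h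

/-- Let n ≥ 8 and let H be a subgroup of the symmetric group of degree n whose generalized Fitting subgroup F*(H) is quasisimple. If H contains a Sylow 2-subgroup of the alternating group of degree n, then F*(H) is isomorphic to an alternating group of degree m for some m ∈ {n − 3, n − 2, n − 1, n}. -/
theorem result (n : ℕ) (hn : 8 ≤ n) (H : Subgroup (Equiv.Perm (Fin n))) (hF : Cfsg.IsQuasisimple ↥(Cfsg.generalizedFittingSubgroup ↥H)) (hS : ∃ P : Sylow 2 ↥(alternatingGroup (Fin n)), ((P : Subgroup ↥(alternatingGroup (Fin n))).map (alternatingGroup (Fin n)).subtype) ≤ H) : ∃ m : ℕ, (m = n - 3 ∨ m = n - 2 ∨ m = n - 1 ∨ m = n) ∧ Nonempty (↥(Cfsg.generalizedFittingSubgroup ↥H) ≃* ↥(alternatingGroup (Fin m))) := by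
  classical
  haveI : Fact (Nat.Prime 2) := ⟨Nat.prime_two⟩
  haveI := hF.1
  obtain ⟨S, hS⟩ := hS
  obtain ⟨P, hP⟩ := exists_evenPart_eq S
  rw [hP] at hS
  -- a standard pairing, conjugated into `P`
  let f : Fin n → Fin n := fun x =>
    if h : (x : ℕ) % 2 = 0 then (if h' : (x : ℕ) + 1 < n then ⟨x + 1, h'⟩ else x)
    else ⟨(x : ℕ) - 1, by omega⟩
  have hff : ∀ x, f (f x) = x := by
    intro x
    by_cases h : (x : ℕ) % 2 = 0
    · by_cases h' : (x : ℕ) + 1 < n
      · simp only [f, dif_pos h, dif_pos h']
        rw [dif_neg (by omega)]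
        exact Fin.ext (by simp)
      · simp only [f, dif_pos h, dif_neg h']
    · simp only [f, dif_neg h]
      rw [dif_pos (by omega), dif_pos (by omega)]
      exact Fin.ext (by simp; omega)
  set τ0 : Perm (Fin n) := Function.Involutive.toPerm f hff with hτ0
  have hf0 : ∀ x : Fin n, τ0 x = x → (x : ℕ) = n - 1 := by
    intro x hx
    have hx' := congrArg Fin.val hx
    change (f x).val = x.val at hx'
    simp only [f] at hx'
    split_ifs at hx' with h h' <;> simp at hx' <;> omega
  let T : Subgroup (Perm (Fin n)) :=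
    { carrier := {g | ∀ x, g x = x ∨ g x = τ0 x}
      one_mem' := fun x => Or.inl rfl
      mul_mem' := fun {a b} ha hb x => by
        rw [Perm.mul_apply]
        rcases hb x with h | h <;> rw [h]
        · exact ha x
        · rcases ha (τ0 x) with h' | h'
          · exact Or.inr h'
          · exact Or.inl (by rw [h']; exact hff x)
      inv_mem' := fun {a} ha x => by
        rcases ha (a⁻¹ x) with h | h <;> rw [show a (a⁻¹ x) = x from a.apply_symm_apply x] at h
        · exact Or.inl h.symm
        · exact Or.inr (by conv_rhs => rw [h]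
                           exact (hff _).symm) }
  have hT2 : IsPGroup 2 T := fun g => ⟨1, Subtype.ext (Equiv.ext fun x => by
    show ((g : Perm (Fin n)) ^ (2 ^ 1)) x = x
    rw [pow_one, sq, Perm.mul_apply]
    rcases g.2 x with h | h
    · rw [h, h]
    · rcases g.2 (τ0 x) with h' | h'
      · have hx : τ0 x = x := (g : Perm (Fin n)).injective (h'.trans h.symm)
        rw [hx] at h
        rw [h, h]
      · rw [h, h']; exact hff x)⟩
  obtain ⟨R, hR⟩ := hT2.exists_le_sylow
  obtain ⟨k, hk⟩ := MulAction.exists_smul_eq (Perm (Fin n)) R P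
  set τ : Perm (Fin n) := k * τ0 * k⁻¹ with hτ
  have hτk : ∀ x, τ (k x) = k (τ0 x) := fun x => by simp [hτ]
  have hpair : Pairing H τ := by
    refine ⟨fun x => ?_, fun x y hx hy => ?_, fun x y hx hy hyx hyt => hS ?_⟩
    · obtain ⟨x, rfl⟩ := k.surjective x
      rw [hτk, hτk]; exact congrArg k (hff x)
    · obtain ⟨x, rfl⟩ := k.surjective x
      obtain ⟨y, rfl⟩ := k.surjective y
      rw [hτk] at hx hy
      have h1 := hf0 x (k.injective hx)
      have h2 := hf0 y (k.injective hy)
      exact congrArg k (Fin.ext (h1.trans h2.symm))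
    · refine ⟨?_, ?_⟩
      · have hsw : ∀ u, τ u ≠ u → swap u (τ u) ∈ (P : Subgroup (Perm (Fin n))) := by
          intro u hu
          rw [← hk, Sylow.coe_subgroup_smul]
          obtain ⟨u, rfl⟩ := k.surjective u
          refine ⟨swap u (τ0 u), hR fun z => ?_, ?_⟩
          · by_cases h1 : z = u
            · exact Or.inr (by rw [h1, swap_apply_left])
            by_cases h2 : z = τ0 u
            · exact Or.inr (by rw [h2, swap_apply_right]; exact (hff u).symm)
            exact Or.inl (swap_apply_of_ne_of_ne h1 h2)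
          · show k * swap u (τ0 u) * k⁻¹ = _
            rw [hτk, ← swap_apply_apply]
        exact mul_mem (hsw x hx) (hsw y hy)
      · show Perm.sign (swap x (τ x) * swap y (τ y)) = 1
        rw [map_mul, Perm.sign_swap (Ne.symm hx), Perm.sign_swap (Ne.symm hy)]; simp
  have hodd : n % 2 = 1 → ∃ w, τ w = w := by
    intro h
    refine ⟨k ⟨n - 1, by omega⟩, ?_⟩
    rw [hτk]
    refine congrArg k ?_
    show f _ = _
    simp only [f]
    rw [dif_pos (show (n - 1) % 2 = 0 by omega), dif_neg (by simp; omega)]
  have hcard : Fintype.card (Fin n) = n := Fintype.card_fin n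
  set F := Cfsg.generalizedFittingSubgroup ↥H with hFdef
  haveI hFn : F.Normal := by rw [hFdef]; infer_instance
  have hFcomp : Cfsg.IsComponent F := ⟨hFn.isSubnormal, hF⟩
  -- a three-cycle in `H`
  have h3c : ∃ c ∈ H, Perm.IsThreeCycle c := by
    by_cases hcomm : ∀ g ∈ H, g * τ = τ * g
    · exfalso
      let K : Subgroup ↥H :=
        { carrier := {g | ∀ x, (g : Perm (Fin n)) x = x ∨ (g : Perm (Fin n)) x = τ x}
          one_mem' := fun x => Or.inl rfl
          mul_mem' := fun {a b} ha hb x => by
            rw [Subgroup.coe_mul, Perm.mul_apply]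
            rcases hb x with h | h <;> rw [h]
            · exact ha x
            · rcases ha (τ x) with h' | h'
              · exact Or.inr h'
              · exact Or.inl (by rw [h']; exact hpair.inv x)
          inv_mem' := fun {a} ha x => by
            rcases ha ((a : Perm (Fin n))⁻¹ x) with h | h <;> simp at h
            · exact Or.inl (by simpa using h.symm)
            · refine Or.inr ?_
              show (a : Perm (Fin n))⁻¹ x = τ x
              conv_rhs => rw [h]
              rw [hpair.inv]; simp }
      have hKn : K.Normal := ⟨fun g hg h x => by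
        simp only [Subgroup.coe_mul, Subgroup.coe_inv, Perm.mul_apply]
        rcases hg ((h : Perm (Fin n))⁻¹ x) with e | e <;> rw [e]
        · exact Or.inl (by simp)
        · refine Or.inr ?_
          rw [← Perm.mul_apply, hcomm h h.2, Perm.mul_apply]
          simp⟩
      have hKc : ∀ a ∈ K, ∀ b ∈ K, a * b = b * a := by
        intro a ha b hb
        refine Subtype.ext (Equiv.ext fun x => ?_)
        simp only [Subgroup.coe_mul, Perm.mul_apply]
        have ea := congrArg (fun u : Perm (Fin n) => u x) (hcomm a a.2)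
        have eb := congrArg (fun u : Perm (Fin n) => u x) (hcomm b b.2)
        simp only [Perm.mul_apply] at ea eb
        rcases ha x with h | h <;> rcases hb x with h' | h' <;> simp [h, h', ea, eb]
      have hKs : Group.IsSolvable ↥K :=
        Group.isSolvable_of_comm fun a b => Subtype.ext (hKc a a.2 b b.2)
      have h0 := CfsgLib.Cores.commutator_solvable_eq_bot hFcomp hKs
        ((Subgroup.normalizer_eq_top_iff.mpr hKn).symm ▸ le_top)
      obtain ⟨x, y, hx, hy, hyx, hyt⟩ := exists_two_pairs hpair.fixed (by rw [hcard]; omega)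
      let d : ↥H := ⟨_, hpair.mem x y hx hy hyx hyt⟩
      have hdK : d ∈ K := by
        intro z
        show (swap x (τ x) * swap y (τ y)) z = z ∨ (swap x (τ x) * swap y (τ y)) z = τ z
        have hxy : τ y ≠ x := fun e => hyt (by rw [← e, hpair.inv])
        have hxy' : τ y ≠ τ x := fun e => hyx (τ.injective e)
        rw [Perm.mul_apply]
        by_cases h1 : z = x
        · right; rw [h1, swap_apply_of_ne_of_ne (Ne.symm hyx) (Ne.symm hxy), swap_apply_left]
        by_cases h2 : z = τ x
        · right
          rw [h2, swap_apply_of_ne_of_ne (Ne.symm hyt) (Ne.symm hxy'), swap_apply_right, hpair.inv]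
        by_cases h3 : z = y
        · right; rw [h3, swap_apply_left, swap_apply_of_ne_of_ne hxy hxy']
        by_cases h4 : z = τ y
        · right; rw [h4, swap_apply_right, swap_apply_of_ne_of_ne hyx hyt, hpair.inv]
        left; rw [swap_apply_of_ne_of_ne h3 h4, swap_apply_of_ne_of_ne h1 h2]
      have hd1 : d = 1 := eq_one_of_commute
        (fun f' hf' => CfsgLib.Cores.commute_of_commutator_eq_bot h0 hf' hdK)
        (support_two_swaps _ _ _ _)
      have := congrArg (fun u : ↥H => (u : Perm (Fin n)) y) hd1
      simp only [d, Perm.mul_apply, swap_apply_left, OneMemClass.coe_one, Perm.one_apply] at this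
      rw [swap_apply_of_ne_of_ne (fun e => hyt (by rw [← e, hpair.inv]))
        (fun e => hyx (τ.injective e))] at this
      exact hy this
    · by_cases h10 : 10 ≤ n
      · push Not at hcomm
        obtain ⟨g, hg, hne⟩ := hcomm
        set σ := g * τ * g⁻¹ with hσ
        have hσp : Pairing H σ := hpair.conj hg
        obtain ⟨a, ha⟩ : ∃ a, σ a ≠ τ a := by
          by_contra h
          push Not at h
          exact hne (mul_inv_eq_iff_eq_mul.1 (Equiv.ext h))
        have h10' : 10 ≤ Fintype.card (Fin n) := by rw [hcard]; exact h10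
        by_cases h1 : τ a = a
        · refine three_cycle_of_crossing hpair hσp (a := σ a) ?_ ?_ ?_ (Or.inl h10')
          · exact fun e => ha (by rw [hpair.fixed _ _ e h1, h1])
          · rw [hσp.inv]; exact fun e => ha (by rw [← e, h1])
          · rw [hσp.inv]; exact fun e => ha (by rw [h1]; exact τ.injective (by rw [← e, h1]))
        by_cases h2 : σ a = a
        · refine three_cycle_of_crossing hpair hσp (a := τ a) ?_ ?_ ?_ (Or.inl h10')
          · rw [hpair.inv]; exact fun e => h1 e.symm
          · exact fun e => h1 (hσp.fixed _ _ e h2)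
          · rw [hpair.inv]; exact fun e => h1 (σ.injective (e.trans h2.symm))
        exact three_cycle_of_crossing hpair hσp h1 h2 ha (Or.inl h10')
      · have h64 : 64 ∣ Nat.card (evenPart (P : Subgroup (Perm (Fin n)))) := by
          rw [← hP, Subgroup.card_map_of_injective (Subgroup.subtype_injective _)]
          refine (show 64 = 2 ^ 6 from rfl) ▸ S.pow_dvd_card_of_pow_dvd_card ?_
          haveI : Nontrivial (Fin n) := Fin.nontrivial_iff_two_le.2 (by omega)
          rw [nat_card_alternatingGroup, Nat.card_fin]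
          rcases (show n = 8 ∨ n = 9 by omega) with rfl | rfl <;> norm_num [Nat.factorial]
        have hev : evenPart (P : Subgroup (Perm (Fin n))) ≤ alternatingGroup (Fin n) := fun g hg => hg.2
        rcases (show n = 8 ∨ n = 9 by omega) with h8 | h9
        · exact three_cycle_eight hF (fun _ => True) (fun g _ x hx => absurd trivial hx)
            ((Equiv.subtypeUnivEquiv (fun _ => trivial)).trans (finCongr h8)) _ hS hev h64
        · obtain ⟨w, hw⟩ := hodd (by omega)
          by_cases hwfix : ∀ g ∈ H, g w = w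
          · exact three_cycle_eight hF (fun x => x ≠ w)
              (fun g hg x hx => by rw [not_not.1 hx]; exact hwfix g hg)
              (Fintype.equivFinOfCardEq (by
                rw [Fintype.card_subtype_compl, Fintype.card_fin, Fintype.card_subtype_eq, h9]))
              _ hS hev h64
          · push Not at hwfix
            obtain ⟨g, hg, hgw⟩ := hwfix
            set σ := g * τ * g⁻¹ with hσ
            have hσp : Pairing H σ := hpair.conj hg
            have hσg : σ (g w) = g w := by simp [hσ, hw]
            have hσw : σ w ≠ w := fun e => hgw (hσp.fixed _ _ e hσg).symm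
            refine three_cycle_of_crossing hpair hσp (a := σ w) ?_ ?_ ?_ (Or.inr ⟨by omega, ?_⟩)
            · exact fun e => hσw (hpair.fixed _ _ e hw)
            · rw [hσp.inv]; exact Ne.symm hσw
            · rw [hσp.inv]; exact fun e => hσw (τ.injective (by rw [← e, hw]))
            · rw [hσp.inv, hw]
  -- the classes of three-cycles
  obtain ⟨c, hcH, hc3⟩ := h3c
  set N₀ := Subgroup.closure {d : Perm (Fin n) | d ∈ H ∧ d.IsThreeCycle} with hN₀
  have hN₀H : N₀ ≤ H := (Subgroup.closure_le _).mpr fun d hd => hd.1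
  have hN₀n : (N₀.subgroupOf H).Normal := by
    refine ⟨fun x hx h => ?_⟩
    rw [Subgroup.mem_subgroupOf] at hx ⊢
    simp only [Subgroup.coe_mul, Subgroup.coe_inv]
    have hle : N₀ ≤ N₀.comap (MulAut.conj (h : Perm (Fin n))).toMonoidHom := by
      refine (Subgroup.closure_le _).mpr ?_
      rintro d ⟨hdH, hd⟩
      refine Subgroup.subset_closure ⟨mul_mem (mul_mem h.2 hdH) (inv_mem h.2), ?_⟩
      show ((h : Perm (Fin n)) * d * (h : Perm (Fin n))⁻¹).cycleType = {3}
      rw [cycleType_conj]
      exact hd
    exact hle hx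
  have haltN : ∀ C, IsClass H C → altOn C ≤ N₀ := by
    intro C hC
    rw [altOn, ← closure_three_cycles_eq_alternating, MonoidHom.map_closure]
    refine Subgroup.closure_mono ?_
    rintro _ ⟨d, hd, rfl⟩
    have h3 : (ofSubtype d : Perm (Fin n)).IsThreeCycle := by
      show (ofSubtype d : Perm (Fin n)).cycleType = {3}
      rw [cycleType_ofSubtype]
      exact hd
    exact ⟨altOn_le hC.1 (Subgroup.mem_map_of_mem _ hd.mem_alternatingGroup), h3⟩
  have hnorm : ∀ C, IsClass H C → N₀ ≤ Subgroup.normalizer (altOn C : Set (Perm (Fin n))) := by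
    intro C hC
    refine (Subgroup.closure_le _).mpr fun d hd => ?_
    by_cases h : _root_.Disjoint d.support C
    · refine Subgroup.centralizer_le_normalizer _ (Subgroup.mem_centralizer_iff.mpr fun g hg => ?_)
      refine (Perm.Disjoint.commute ?_).eq
      exact disjoint_iff_disjoint_support.mpr ((h.mono_right (mem_altOn.mp hg).1).symm)
    · obtain ⟨a, ha, haC⟩ := Finset.not_disjoint_iff.mp h
      exact Subgroup.le_normalizer (mem_altOn.mpr
        ⟨hC.subset_of_meet ⟨d, hd.1, hd.2, rfl⟩ ha haC, hd.2.mem_alternatingGroup⟩)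
  by_cases hbig : ∃ C, IsClass H C ∧ 5 ≤ C.card
  · obtain ⟨C, hC, hC5⟩ := hbig
    set A := (altOn C).subgroupOf H with hA
    let e₁ : ↥A ≃* ↥(altOn C) := Subgroup.subgroupOfEquivOfLe (altOn_le hC.1)
    let e₂ : ↥(alternatingGroup C) ≃* ↥(altOn C) :=
      Subgroup.equivMapOfInjective _ _ ofSubtype_injective
    haveI hsimp : IsSimpleGroup ↥(alternatingGroup C) :=
      alternatingGroup.isSimpleGroup (by rw [Nat.card_eq_fintype_card, Fintype.card_coe]; exact hC5)
    have hqs : Cfsg.IsQuasisimple ↥(alternatingGroup C) :=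
      quasisimple_of_simple (alternatingGroup.center_eq_bot (by
        rw [Nat.card_eq_fintype_card, Fintype.card_coe]; omega))
    have hAN : A ≤ N₀.subgroupOf H := fun x hx => haltN C hC hx
    have hAcomp : Cfsg.IsComponent A := by
      have h1 : Cfsg.IsComponent (A.subgroupOf (N₀.subgroupOf H)) := by
        refine ⟨Subgroup.Normal.isSubnormal ⟨fun x hx m => ?_⟩, CfsgLib.Cores.isQuasisimple_congr
          ((e₂.trans e₁.symm).trans (Subgroup.subgroupOfEquivOfLe hAN).symm) hqs⟩
        exact (Subgroup.mem_normalizer_iff.mp (hnorm C hC m.2) _).mp hx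
      have h2 := CfsgLib.Cores.isComponent_map_subtype hN₀n.isSubnormal h1
      rwa [Subgroup.subgroupOf_map_subtype, inf_eq_left.mpr hAN] at h2
    have hAF : A = F := CfsgLib.Cores.eq_of_component_le hAcomp hFcomp
      ((CfsgLib.Cores.le_layer hAcomp).trans le_sup_left)
    -- `H` leaves `C` invariant
    have hkeep : ∀ h ∈ H, ∀ x ∈ C, h x ∈ C := by
      intro h hh x hx
      obtain ⟨u, hu, hxu, v, hv, hxv, huv⟩ : ∃ u ∈ C, x ≠ u ∧ ∃ v ∈ C, x ≠ v ∧ u ≠ v := by
        obtain ⟨u, hu, v, hv, huv⟩ := Finset.one_lt_card.1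
          (show 1 < (C.erase x).card by rw [Finset.card_erase_of_mem hx]; omega)
        rw [Finset.mem_erase] at hu hv
        exact ⟨u, hu.2, Ne.symm hu.1, v, hv.2, Ne.symm hv.1, huv⟩
      have hd3 := isThreeCycle_swap_mul_swap_same hxu hxv huv
      have hdA : (swap x u * swap x v) ∈ altOn C := by
        refine mem_altOn.2 ⟨fun z hz => ?_, hd3.mem_alternatingGroup⟩
        by_contra hzC
        exact mem_support.1 hz (by
          simp [Perm.mul_apply, swap_apply_of_ne_of_ne, show z ≠ x from fun e => hzC (e ▸ hx),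
            show z ≠ u from fun e => hzC (e ▸ hu), show z ≠ v from fun e => hzC (e ▸ hv)])
      have hconj : (⟨h, hh⟩ : ↥H) * ⟨_, altOn_le hC.1 hdA⟩ * (⟨h, hh⟩ : ↥H)⁻¹ ∈ A := by
        rw [hAF]; exact hFn.conj_mem _ (hAF ▸ (show (⟨_, altOn_le hC.1 hdA⟩ : ↥H) ∈ A from hdA)) _
      refine (mem_altOn.1 hconj).1 ?_
      rw [mem_support]
      intro e
      simp [Perm.mul_apply, swap_apply_of_ne_of_ne hxv.symm huv.symm, swap_apply_left] at e
      exact hxv e.symm
    -- pairs do not cross `C`
    have hcross : ∀ x, τ x ≠ x → x ∈ C → τ x ∈ C := by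
      intro x hx hxC
      obtain ⟨a, b, ha, hb, hba, hbt⟩ := exists_two_pairs hpair.fixed (by rw [hcard]; omega)
      obtain ⟨y, hy, hyx, hyt⟩ : ∃ y, τ y ≠ y ∧ y ≠ x ∧ y ≠ τ x := by
        by_cases h : a = x ∨ a = τ x
        · refine ⟨b, hb, ?_, ?_⟩
          · rcases h with rfl | rfl
            · exact hba
            · rw [hpair.inv] at hbt; exact hbt
          · rcases h with rfl | rfl
            · exact hbt
            · exact hba
        · push Not at h; exact ⟨a, ha, h.1, h.2⟩
      have := hkeep _ (hpair.mem x y hx hy hyx hyt) x hxC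
      rwa [Perm.mul_apply, swap_apply_of_ne_of_ne (Ne.symm hyx) (fun e => hyt (by rw [e, hpair.inv])),
        swap_apply_left] at this
    have hout : ∀ x y, τ x ≠ x → τ y ≠ y → x ∉ C → y ∉ C → y = x ∨ y = τ x := by
      intro x y hx hy hxC hyC
      by_contra h
      push Not at h
      have hnot : ∀ u, τ u ≠ u → u ∉ C → τ u ∉ C := fun u hu huC hc' => huC (by
        have := hcross (τ u) (by rw [hpair.inv]; exact Ne.symm hu) hc'
        rwa [hpair.inv] at this)
      let d : ↥H := ⟨_, hpair.mem x y hx hy h.1 h.2⟩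
      have hd1 : d = 1 := eq_one_of_commute (fun f' hf' => by
        rw [← hFdef, ← hAF] at hf'
        refine Subtype.ext (Perm.Disjoint.commute ?_).eq
        refine fun z => ?_
        by_cases hzC : z ∈ C
        · right
          show (swap x (τ x) * swap y (τ y)) z = z
          simp [Perm.mul_apply, swap_apply_of_ne_of_ne, show z ≠ x from fun e => hxC (e ▸ hzC),
            show z ≠ y from fun e => hyC (e ▸ hzC), show z ≠ τ x from fun e => hnot x hx hxC (e ▸ hzC),
            show z ≠ τ y from fun e => hnot y hy hyC (e ▸ hzC)]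
        · left
          by_contra hz
          exact hzC ((mem_altOn.1 hf').1 (mem_support.2 hz)))
        (support_two_swaps _ _ _ _)
      have := congrArg (fun u : ↥H => (u : Perm (Fin n)) y) hd1
      simp only [d, Perm.mul_apply, swap_apply_left, OneMemClass.coe_one, Perm.one_apply] at this
      rw [swap_apply_of_ne_of_ne (fun e => h.2 (by rw [← e, hpair.inv]))
        (fun e => h.1 (τ.injective e))] at this
      exact hy this
    have hsmall : (Finset.univ \ C).card ≤ 3 := by
      rw [← Finset.card_filter_add_card_filter_not (s := Finset.univ \ C) (fun x => τ x = x)]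
      have h1 : ((Finset.univ \ C).filter fun x => τ x = x).card ≤ 1 := Finset.card_le_one.2
        fun x hx y hy => hpair.fixed x y (Finset.mem_filter.1 hx).2 (Finset.mem_filter.1 hy).2
      have h2 : ((Finset.univ \ C).filter fun x => ¬ τ x = x).card ≤ 2 := by
        rcases Finset.eq_empty_or_nonempty ((Finset.univ \ C).filter fun x => ¬ τ x = x) with e | ⟨x, hx⟩
        · rw [e]; simp
        · refine (Finset.card_le_card (t := {x, τ x}) fun y hy => ?_).trans Finset.card_le_two
          simp only [Finset.mem_filter, Finset.mem_sdiff, Finset.mem_univ, true_and] at hx hy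
          rw [Finset.mem_insert, Finset.mem_singleton]
          exact hout x y hx.2 hy.2 hx.1 hy.1
      omega
    refine ⟨C.card, ?_, ⟨?_⟩⟩
    · rw [Finset.card_univ_sdiff, hcard] at hsmall
      have := C.card_le_univ
      rw [hcard] at this
      omega
    · exact (MulEquiv.subgroupCongr hAF.symm).trans (e₁.trans (e₂.symm.trans
        (Equiv.altCongrHom (C.equivFin))))
  · push Not at hbig
    exfalso
    have htop : CfsgLib.Cores.solvRad ↥N₀ = ⊤ := by
      rw [eq_top_iff]
      have hle : N₀ ≤ (CfsgLib.Cores.solvRad ↥N₀).map N₀.subtype := by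
        refine (Subgroup.closure_le _).mpr ?_
        rintro d ⟨hdH, hd⟩
        obtain ⟨C, hC, hsub⟩ := exists_class (H := H) ⟨d, hdH, hd, rfl⟩
        refine ⟨⟨d, Subgroup.subset_closure ⟨hdH, hd⟩⟩, ?_, rfl⟩
        refine CfsgLib.Cores.le_solvRad (N := (altOn C).subgroupOf N₀)
          ⟨fun x hx m => (Subgroup.mem_normalizer_iff.mp (hnorm C hC m.2) _).mp hx⟩ ?_
          (show d ∈ altOn C from mem_altOn.mpr ⟨hsub, hd.mem_alternatingGroup⟩)
        haveI := isSolvable_altOn' (C := C) (by have := hbig C hC; omega)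
        exact Group.isSolvable_of_isSolvable_injective
          (f := (Subgroup.subgroupOfEquivOfLe (haltN C hC)).toMonoidHom)
          (Subgroup.subgroupOfEquivOfLe (haltN C hC)).injective
      intro x _
      obtain ⟨y, hy, hxy⟩ := hle x.2
      exact (Subtype.ext hxy : y = x) ▸ hy
    have hsolv := CfsgLib.Cores.solvRad_isSolvable (G := ↥N₀)
    rw [htop] at hsolv
    haveI := hsolv
    haveI : Group.IsSolvable ↥N₀ :=
      Group.isSolvable_of_isSolvable_injective
        (f := (Subgroup.topEquiv (G := ↥N₀)).symm.toMonoidHom) Subgroup.topEquiv.symm.injective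
    have hsolv' : Group.IsSolvable ↥(N₀.subgroupOf H) :=
      Group.isSolvable_of_isSolvable_injective
        (f := (Subgroup.subgroupOfEquivOfLe hN₀H).toMonoidHom)
        (Subgroup.subgroupOfEquivOfLe hN₀H).injective
    have h0 := CfsgLib.Cores.commutator_solvable_eq_bot hFcomp hsolv'
      ((Subgroup.normalizer_eq_top_iff.mpr hN₀n).symm ▸ le_top)
    have hc1 : (⟨c, hcH⟩ : ↥H) = 1 := eq_one_of_commute (fun f' hf' =>
      CfsgLib.Cores.commute_of_commutator_eq_bot h0 hf'
        (show (⟨c, hcH⟩ : ↥H) ∈ N₀.subgroupOf H from Subgroup.subset_closure ⟨hcH, hc3⟩))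
      (by show c.support.card ≤ 4; rw [hc3.card_support]; omega)
    exact hc3.ne_one (congrArg Subtype.val hc1)

end Cfsg.Agent.S2928
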