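import Cfsg.Statements.S2929
import Cfsg.Agent.Perm.ThreeCycleClasses
import Cfsg.Agent.Cores.Components
import Cfsg.Agent.Cores.GenFitting
import Cfsg.Agent.FStar.SelfCentralizing
import Cfsg.Agent.SmallPerm.DegreeSix
import Cfsg.Agent.Eq.Def_Local
import Cfsg.Agent.Eq.Def_CaseTheorems

set_option autoImplicit false
open Cfsg

namespace Cfsg.Agent.S2929


open Equiv Equiv.Perm
open CfsgLib.ThreeCycleClasses
open scoped commutatorElement

section
variable {α : Type*} [Fintype α] [DecidableEq α]

private theorem isSolvable_altOn {C : Finset α} (h : C.card ≤ 4) :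
    Group.IsSolvable ↥(altOn C) := by
  refine CfsgLib.Cores.isSolvable_map _ ?_
  refine CfsgLib.SmallPerm.isSolvable_of_two_primes _ 2 3 3 1 Nat.prime_two (by norm_num) ?_
  refine (Subgroup.card_subgroup_dvd_card _).trans ?_
  rw [Nat.card_perm, Nat.card_eq_fintype_card, Fintype.card_coe]
  exact (Nat.factorial_dvd_factorial h).trans (by decide)

private theorem isQuasisimple_of_simple {A : Type*} [Group A] [IsSimpleGroup A]
    (hz : Subgroup.center A = ⊥) : Cfsg.IsQuasisimple A := by
  constructor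
  · constructor
    rcases (inferInstance : (commutator A).Normal).eq_bot_or_eq_top with h | h
    · rw [commutator_eq_bot_iff_center_eq_top, hz] at h
      exact absurd h bot_ne_top
    · exact h
  · haveI : Nontrivial (A ⧸ Subgroup.center A) :=
      QuotientGroup.nontrivial_iff.mpr (by rw [hz]; exact bot_ne_top)
    exact IsSimpleGroup.isSimpleGroup_of_surjective (QuotientGroup.mk' _)
      (QuotientGroup.mk'_surjective _)

private theorem closure_commuting_isPGroup {G : Type*} [Group G] {S : Set G}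
    (hc : ∀ x ∈ S, ∀ y ∈ S, x * y = y * x) (h3 : ∀ x ∈ S, x ^ 3 = 1) :
    IsPGroup 3 ↥(Subgroup.closure S) := by
  haveI := Subgroup.isMulCommutative_closure hc
  suffices h : ∀ g ∈ Subgroup.closure S, g ^ 3 = 1 from
    fun g => ⟨1, Subtype.ext (by simpa using h g g.2)⟩
  intro g hg
  induction hg using Subgroup.closure_induction with
  | mem x hx => exact h3 x hx
  | one => exact one_pow 3
  | mul x y hx hy hpx hpy =>
    have e : x * y = y * x := congrArg Subtype.val
      (mul_comm' (⟨x, hx⟩ : Subgroup.closure S) ⟨y, hy⟩)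
    rw [Commute.mul_pow e, hpx, hpy, one_mul]
  | inv x _ hpx => rw [inv_pow, hpx, inv_one]

/-- Permutations centralizing 3-cycles covering all but two points commute. -/
private theorem commute_of_covered {U : Finset α} (hU : (Finset.univ \ U).card ≤ 2)
    {cs : Set (Perm α)} (h3 : ∀ c ∈ cs, c.IsThreeCycle)
    (hcov : ∀ x ∈ U, ∃ c ∈ cs, x ∈ c.support) (hsub : ∀ c ∈ cs, c.support ⊆ U)
    {f g : Perm α} (hf : ∀ c ∈ cs, f * c = c * f) (hg : ∀ c ∈ cs, g * c = c * g) :
    f * g = g * f := by
  ext x : 1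
  simp only [Perm.mul_apply]
  by_cases hx : x ∈ U
  · obtain ⟨c, hc, hxc⟩ := hcov x hx
    have key : ∀ h : Perm α, (∀ c ∈ cs, h * c = c * h) → h x ∈ c.support ∧
        ∀ i : ℕ, h ((c ^ i) x) = (c ^ i) (h x) := by
      intro h hh
      have hcom : Commute h c := hh c hc
      refine ⟨?_, fun i => ?_⟩
      · rw [mem_support] at hxc ⊢
        intro he
        apply hxc
        apply h.injective
        rw [← Perm.mul_apply, hcom.eq, Perm.mul_apply, he]
      · rw [← Perm.mul_apply, (hcom.pow_right i).eq, Perm.mul_apply]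
    obtain ⟨hfx, hf'⟩ := key f hf
    obtain ⟨hgx, hg'⟩ := key g hg
    have hcyc := (h3 c hc).isCycle
    obtain ⟨i, hi⟩ := hcyc.exists_pow_eq (mem_support.mp hxc) (mem_support.mp hfx)
    obtain ⟨j, hj⟩ := hcyc.exists_pow_eq (mem_support.mp hxc) (mem_support.mp hgx)
    rw [← hj, hf', ← hi, hg', ← hj, ← Perm.mul_apply, ← Perm.mul_apply, ← pow_add, ← pow_add,
      add_comm]
  · have key : ∀ h : Perm α, (∀ c ∈ cs, h * c = c * h) → ∀ z, z ∉ U → h z ∉ U := by
      intro h hh z hz hmem
      obtain ⟨c, hc, hzc⟩ := hcov _ hmem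
      apply hz
      refine hsub c hc ?_
      rw [mem_support] at hzc ⊢
      intro he
      apply hzc
      rw [← Perm.mul_apply, ← hh c hc, Perm.mul_apply, he]
    obtain ⟨r, s, hrs⟩ : ∃ r s, ∀ z, z ∉ U → z = r ∨ z = s := by
      rcases Nat.lt_or_ge (Finset.univ \ U).card 2 with h2 | h2
      · have h1 : (Finset.univ \ U).card ≤ 1 := by omega
        exact ⟨x, x, fun z hz => Or.inl (Finset.card_le_one.mp h1 z (by simp [hz]) x (by simp [hx]))⟩
      · obtain ⟨r, s, -, he⟩ := Finset.card_eq_two.mp (le_antisymm hU h2)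
        refine ⟨r, s, fun z hz => ?_⟩
        have : z ∈ Finset.univ \ U := by simp [hz]
        simpa [he] using this
    have a1 := hrs x hx
    have a2 := hrs _ (key f hf x hx)
    have a3 := hrs _ (key g hg x hx)
    have a4 := hrs _ (key f hf _ (key g hg x hx))
    have a5 := hrs _ (key g hg _ (key f hf x hx))
    have i1 : f (g x) = f x → g x = x := fun h => f.injective h
    have i2 : g (f x) = g x → f x = x := fun h => g.injective h
    rcases a1 with a1 | a1 <;> rcases a2 with a2 | a2 <;> rcases a3 with a3 | a3 <;>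
      rcases a4 with a4 | a4 <;> rcases a5 with a5 | a5 <;> grind

/-- A permutation 3-cycle inside a class, or disjoint from it, normalizes its alternating group. -/
private theorem mem_normalizer_altOn {H : Subgroup (Perm α)} {C : Finset α} (hC : IsClass H C)
    {c : Perm α} (hcH : c ∈ H) (hc : c.IsThreeCycle) :
    c ∈ Subgroup.normalizer (altOn C : Set (Perm α)) := by
  by_cases h : _root_.Disjoint c.support C
  · refine Subgroup.centralizer_le_normalizer _ (Subgroup.mem_centralizer_iff.mpr fun g hg => ?_)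
    refine (Perm.Disjoint.commute ?_).eq
    exact disjoint_iff_disjoint_support.mpr ((h.mono_right (mem_altOn.mp hg).1).symm)
  · obtain ⟨a, ha, haC⟩ := Finset.not_disjoint_iff.mp h
    refine Subgroup.le_normalizer (mem_altOn.mpr ⟨?_, hc.mem_alternatingGroup⟩)
    exact hC.subset_of_meet ⟨c, hcH, hc, rfl⟩ ha haC

end


/-- Let n ≥ 5 and let H be a subgroup of the symmetric group of degree n whose generalized Fitting subgroup F*(H) is quasisimple. If H contains a Sylow 3-subgroup of the symmetric group, then F*(H) is isomorphic to an alternating group of degree m for some m ∈ {n − 2, n − 1, n}. -/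
theorem result (n : ℕ) (hn : 5 ≤ n) (H : Subgroup (Equiv.Perm (Fin n))) (hF : Cfsg.IsQuasisimple ↥(Cfsg.generalizedFittingSubgroup ↥H)) (hS : ∃ P : Sylow 3 (Equiv.Perm (Fin n)), (P : Subgroup (Equiv.Perm (Fin n))) ≤ H) : ∃ m : ℕ, (m = n - 2 ∨ m = n - 1 ∨ m = n) ∧ Nonempty (↥(Cfsg.generalizedFittingSubgroup ↥H) ≃* ↥(alternatingGroup (Fin m))) := by

  classical
  haveI : Fact (Nat.Prime 3) := ⟨Nat.prime_three⟩
  obtain ⟨P, hP⟩ := hS
  -- disjoint 3-cycles inside `H`
  let e : Fin (n / 3) → Fin 3 → Fin n := fun i j => ⟨3 * (i : ℕ) + (j : ℕ), by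
    have := i.2; have := j.2; omega⟩
  have he : ∀ i i' j j', e i j = e i' j' → i = i' ∧ j = j' := by
    intro i i' j j' h
    have h' : 3 * (i : ℕ) + (j : ℕ) = 3 * (i' : ℕ) + (j' : ℕ) := congrArg Fin.val h
    have := j.2; have := j'.2
    exact ⟨Fin.ext (by omega), Fin.ext (by omega)⟩
  let c₀ : Fin (n / 3) → Perm (Fin n) := fun i =>
    swap (e i 0) (e i 1) * swap (e i 0) (e i 2)
  have hc₀ : ∀ i, (c₀ i).IsThreeCycle ∧ (c₀ i).support = {e i 0, e i 1, e i 2} := by
    intro i
    have h01 : e i 0 ≠ e i 1 := fun h => absurd (he _ _ _ _ h).2 (by decide)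
    have h02 : e i 0 ≠ e i 2 := fun h => absurd (he _ _ _ _ h).2 (by decide)
    have h12 : e i 1 ≠ e i 2 := fun h => absurd (he _ _ _ _ h).2 (by decide)
    refine ⟨isThreeCycle_swap_mul_swap_same h01 h02 h12, Finset.eq_of_subset_of_card_le ?_ ?_⟩
    · intro z hz
      have := support_mul_le _ _ hz
      simp [support_swap h01, support_swap h02] at this ⊢
      tauto
    · rw [(isThreeCycle_swap_mul_swap_same h01 h02 h12).card_support]
      exact le_of_eq (Finset.card_eq_three.mpr ⟨_, _, _, h01, h02, h12, rfl⟩)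
  have hdisj : ∀ i i', i ≠ i' → _root_.Disjoint (c₀ i).support (c₀ i').support := by
    intro i i' hne
    rw [(hc₀ i).2, (hc₀ i').2, Finset.disjoint_left]
    intro z hz hz'
    simp only [Finset.mem_insert, Finset.mem_singleton] at hz hz'
    rcases hz with rfl | rfl | rfl <;> rcases hz' with h | h | h <;> exact hne (he _ _ _ _ h).1
  have hp3 : IsPGroup 3 ↥(Subgroup.closure (Set.range c₀)) := by
    refine closure_commuting_isPGroup ?_ ?_
    · rintro _ ⟨i, rfl⟩ _ ⟨i', rfl⟩
      by_cases h : i = i'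
      · rw [h]
      · exact (disjoint_iff_disjoint_support.mpr (hdisj i i' h)).commute.eq
    · rintro _ ⟨i, rfl⟩
      rw [← (hc₀ i).1.orderOf]
      exact pow_orderOf_eq_one _
  obtain ⟨Q, hQ⟩ := hp3.exists_le_sylow
  obtain ⟨g, hg⟩ := MulAction.exists_smul_eq (Perm (Fin n)) Q P
  let c : Fin (n / 3) → Perm (Fin n) := fun i => g * c₀ i * g⁻¹
  have hcH : ∀ i, c i ∈ H := by
    intro i
    apply hP
    rw [← hg, Sylow.coe_subgroup_smul]
    exact ⟨c₀ i, hQ (Subgroup.subset_closure (Set.mem_range_self i)), rfl⟩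
  have hc3 : ∀ i, (c i).IsThreeCycle := fun i => by
    show (g * c₀ i * g⁻¹).cycleType = {3}
    rw [cycleType_conj]
    exact (hc₀ i).1
  set U : Finset (Fin n) := Finset.univ.biUnion fun i => (c i).support with hU
  have hUcard : U.card = 3 * (n / 3) := by
    rw [hU, Finset.card_biUnion]
    · simp [fun i => (hc3 i).card_support, Nat.mul_comm]
    · intro i _ i' _ hne
      simp only [Function.onFun, c, support_conj]
      exact (Finset.disjoint_map _).mpr (hdisj i i' hne)
  have hUcompl : (Finset.univ \ U).card ≤ 2 := by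
    rw [Finset.card_univ_sdiff, hUcard, Fintype.card_fin]
    omega
  set F := Cfsg.generalizedFittingSubgroup ↥H with hFdef
  haveI hFn : F.Normal := by rw [hFdef]; infer_instance
  have hFcomp : Cfsg.IsComponent F := ⟨hFn.isSubnormal, hF⟩
  -- the subgroup generated by the 3-cycles of `H`
  set N₀ := Subgroup.closure {d : Perm (Fin n) | d ∈ H ∧ d.IsThreeCycle} with hN₀
  have hN₀H : N₀ ≤ H := (Subgroup.closure_le _).mpr fun d hd => hd.1
  have hN₀n : (N₀.subgroupOf H).Normal := by
    refine ⟨fun x hx h => ?_⟩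
    rw [Subgroup.mem_subgroupOf] at hx ⊢
    simp only [Subgroup.coe_mul, Subgroup.coe_inv]
    have hle : N₀ ≤ N₀.comap (MulAut.conj (h : Perm (Fin n))).toMonoidHom := by
      refine (Subgroup.closure_le _).mpr ?_
      rintro d ⟨hdH, hd⟩
      refine Subgroup.subset_closure ⟨mul_mem (mul_mem h.2 hdH) (inv_mem h.2), ?_⟩
      show ((h : Perm (Fin n)) * d * (h : Perm (Fin n))⁻¹).cycleType = {3}
      rw [cycleType_conj]
      exact hd
    exact hle hx
  have haltN : ∀ C, IsClass H C → altOn C ≤ N₀ := by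
    intro C hC
    rw [altOn, ← closure_three_cycles_eq_alternating, MonoidHom.map_closure]
    refine Subgroup.closure_mono ?_
    rintro _ ⟨d, hd, rfl⟩
    have h3 : (ofSubtype d : Perm (Fin n)).IsThreeCycle := by
      show (ofSubtype d : Perm (Fin n)).cycleType = {3}
      rw [cycleType_ofSubtype]
      exact hd
    exact ⟨altOn_le hC.1 (Subgroup.mem_map_of_mem _ hd.mem_alternatingGroup), h3⟩
  have hnorm : ∀ C, IsClass H C → N₀ ≤ Subgroup.normalizer (altOn C : Set (Perm (Fin n))) :=
    fun C hC => (Subgroup.closure_le _).mpr fun d hd => mem_normalizer_altOn hC hd.1 hd.2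
  by_cases hbig : ∃ C, IsClass H C ∧ 5 ≤ C.card
  · obtain ⟨C, hC, hC5⟩ := hbig
    set A := (altOn C).subgroupOf H with hA
    let e₁ : ↥A ≃* ↥(altOn C) := Subgroup.subgroupOfEquivOfLe (altOn_le hC.1)
    let e₂ : ↥(alternatingGroup C) ≃* ↥(altOn C) :=
      Subgroup.equivMapOfInjective _ _ ofSubtype_injective
    haveI hsimp : IsSimpleGroup ↥(alternatingGroup C) :=
      alternatingGroup.isSimpleGroup (by rw [Nat.card_eq_fintype_card, Fintype.card_coe]; exact hC5)
    have hqs : Cfsg.IsQuasisimple ↥(alternatingGroup C) :=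
      isQuasisimple_of_simple (alternatingGroup.center_eq_bot (by
        rw [Nat.card_eq_fintype_card, Fintype.card_coe]; omega))
    have hAN : A ≤ N₀.subgroupOf H := fun x hx => haltN C hC hx
    have hAcomp : Cfsg.IsComponent A := by
      have h1 : Cfsg.IsComponent (A.subgroupOf (N₀.subgroupOf H)) := by
        refine ⟨Subgroup.Normal.isSubnormal ⟨fun x hx m => ?_⟩, CfsgLib.Cores.isQuasisimple_congr
          ((e₂.trans e₁.symm).trans (Subgroup.subgroupOfEquivOfLe hAN).symm) hqs⟩
        exact (Subgroup.mem_normalizer_iff.mp (hnorm C hC m.2) _).mp hx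
      have h2 := CfsgLib.Cores.isComponent_map_subtype hN₀n.isSubnormal h1
      rwa [Subgroup.subgroupOf_map_subtype, inf_eq_left.mpr hAN] at h2
    have hAF : A = F := CfsgLib.Cores.eq_of_component_le hAcomp hFcomp
      ((CfsgLib.Cores.le_layer hAcomp).trans le_sup_left)
    have hsub : U ⊆ C := by
      intro x hx
      obtain ⟨i, -, hxi⟩ := Finset.mem_biUnion.mp hx
      by_contra hxC
      by_cases hd : _root_.Disjoint (c i).support C
      · have hmem : (⟨c i, hcH i⟩ : ↥H) ∈ Subgroup.centralizer (F : Set ↥H) := by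
          rw [← hAF, Subgroup.mem_centralizer_iff]
          intro a ha
          refine Subtype.ext (Perm.Disjoint.commute ?_).eq
          exact disjoint_iff_disjoint_support.mpr ((hd.mono_right (mem_altOn.mp ha).1).symm)
        have hmem' := CfsgLib.FStar.centralizer_generalizedFitting_le hmem
        rw [← hFdef, ← hAF] at hmem'
        exact hxC ((mem_altOn.mp hmem').1 hxi)
      · obtain ⟨a, ha, haC⟩ := Finset.not_disjoint_iff.mp hd
        exact hxC (hC.subset_of_meet ⟨c i, hcH i, hc3 i, rfl⟩ ha haC hxi)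
    refine ⟨C.card, ?_, ⟨?_⟩⟩
    · have := Finset.card_le_card hsub
      have := C.card_le_univ
      rw [Fintype.card_fin] at this
      omega
    · exact (MulEquiv.subgroupCongr hAF.symm).trans (e₁.trans (e₂.symm.trans
        (Equiv.altCongrHom (C.equivFin))))
  · push Not at hbig
    exfalso
    have hsolv : Group.IsSolvable ↥N₀ := by
      have htop : CfsgLib.Cores.solvRad ↥N₀ = ⊤ := by
        rw [eq_top_iff]
        have hle : N₀ ≤ (CfsgLib.Cores.solvRad ↥N₀).map N₀.subtype := by
          refine (Subgroup.closure_le _).mpr ?_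
          rintro d ⟨hdH, hd⟩
          obtain ⟨C, hC, hsub⟩ := exists_class (H := H) ⟨d, hdH, hd, rfl⟩
          refine ⟨⟨d, Subgroup.subset_closure ⟨hdH, hd⟩⟩, ?_, rfl⟩
          refine CfsgLib.Cores.le_solvRad (N := (altOn C).subgroupOf N₀)
            ⟨fun x hx m => (Subgroup.mem_normalizer_iff.mp (hnorm C hC m.2) _).mp hx⟩ ?_
            (show d ∈ altOn C from mem_altOn.mpr ⟨hsub, hd.mem_alternatingGroup⟩)
          haveI := isSolvable_altOn (C := C) (by have := hbig C hC; omega)
          exact Group.isSolvable_of_isSolvable_injective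
            (f := (Subgroup.subgroupOfEquivOfLe (haltN C hC)).toMonoidHom)
            (Subgroup.subgroupOfEquivOfLe (haltN C hC)).injective
        intro x _
        obtain ⟨y, hy, hxy⟩ := hle x.2
        exact (Subtype.ext hxy : y = x) ▸ hy
      have := CfsgLib.Cores.solvRad_isSolvable (G := ↥N₀)
      rw [htop] at this
      haveI := this
      exact Group.isSolvable_of_isSolvable_injective
        (f := (Subgroup.topEquiv (G := ↥N₀)).symm.toMonoidHom) Subgroup.topEquiv.symm.injective
    haveI := hsolv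
    have hsolv' : Group.IsSolvable ↥(N₀.subgroupOf H) :=
      Group.isSolvable_of_isSolvable_injective
        (f := (Subgroup.subgroupOfEquivOfLe hN₀H).toMonoidHom)
        (Subgroup.subgroupOfEquivOfLe hN₀H).injective
    have hcomm := CfsgLib.Cores.commutator_solvable_eq_bot hFcomp hsolv'
      ((Subgroup.normalizer_eq_top_iff.mpr hN₀n).symm ▸ le_top)
    have hcen : ∀ f ∈ F, ∀ d ∈ Set.range c, (f : Perm (Fin n)) * d = d * (f : Perm (Fin n)) := by
      rintro f hf _ ⟨i, rfl⟩
      exact congrArg Subtype.val (CfsgLib.Cores.commute_of_commutator_eq_bot hcomm hf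
        (show (⟨c i, hcH i⟩ : ↥H) ∈ N₀.subgroupOf H from Subgroup.subset_closure ⟨hcH i, hc3 i⟩))
    have hab : ⁅F, F⁆ = ⊥ := CfsgLib.Cores.commutator_eq_bot_of_forall_commute fun a ha b hb =>
      Subtype.ext (commute_of_covered hUcompl (cs := Set.range c)
        (by rintro _ ⟨i, rfl⟩; exact hc3 i)
        (fun x hx => by
          obtain ⟨i, -, hxi⟩ := Finset.mem_biUnion.mp hx
          exact ⟨c i, Set.mem_range_self i, hxi⟩)
        (by rintro _ ⟨i, rfl⟩; exact Finset.subset_biUnion_of_mem (fun i => (c i).support) (Finset.mem_univ i))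
        (hcen a ha) (hcen b hb))
    exact CfsgLib.Cores.not_commutator_self_eq_bot hFcomp hab

end Cfsg.Agent.S2929
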