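import Cfsg.Statements.S2930
import Cfsg.Agent.SymSylow.ThreeSplits
import Cfsg.Agent.SymSylow.AutThreeCycles
import Cfsg.Agent.Cores.GenFitting

set_option autoImplicit false
open Cfsg

namespace Cfsg.Agent.S2930

private lemma index_eq_one {X : Type*} [Group X] [Finite X] (F : Subgroup X) [F.Normal]
    (hCF : Subgroup.centralizer (F : Set X) = ⊥) {k : ℕ} (hidx : F.index = 3 ^ k) {n : ℕ}
    (hn : 5 ≤ n) (e : ↥F ≃* ↥(alternatingGroup (Fin n))) : F = ⊤ := by
  let c : X →* MulAut ↥(alternatingGroup (Fin n)) :=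
    ((MulAut.congr e).toMonoidHom).comp (MulAut.conjNormal : X →* MulAut ↥F)
  have hc : Function.Injective c := by
    rw [injective_iff_map_eq_one]
    intro x hx
    have h1 : (MulAut.conjNormal x : MulAut ↥F) = 1 := (MulAut.congr e).injective (hx.trans (map_one _).symm)
    have hmem : x ∈ Subgroup.centralizer (F : Set X) := by
      rw [Subgroup.mem_centralizer_iff]
      intro f hf
      have h2 := congrArg (fun u : MulAut ↥F => (u ⟨f, hf⟩ : X)) h1
      simp only [MulAut.conjNormal_apply, MulAut.one_apply] at h2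
      calc f * x = x * f * x⁻¹ * x := by rw [h2]
        _ = x * f := by group
    rw [hCF] at hmem
    exact hmem
  have h4 : 4 ≤ Fintype.card (Fin n) := by rw [Fintype.card_fin]; omega
  have hrange : ∀ x, c x ∈ (MulAut.conjNormal : Equiv.Perm (Fin n) →* MulAut ↥(alternatingGroup (Fin n))).range := by
    intro x
    by_cases h6 : n = 6
    · have hpre := CfsgLib.AutThreeCycles.preserves_of_odd_pow (α := Fin n)
        (by rw [Fintype.card_fin, h6]) (c x) (m := F.index)
        (by rw [hidx]; exact Odd.pow (by decide))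
        (s := e ⟨x ^ F.index, F.pow_index_mem x⟩)
        (by
          rw [← map_pow]
          apply MulEquiv.ext
          intro g
          show e (MulAut.conjNormal (x ^ F.index) (e.symm g)) = _
          rw [MulAut.conj_apply]
          have : (MulAut.conjNormal (x ^ F.index) (e.symm g) : ↥F) =
              ⟨x ^ F.index, F.pow_index_mem x⟩ * e.symm g * ⟨x ^ F.index, F.pow_index_mem x⟩⁻¹ :=
            Subtype.ext (by rw [MulAut.conjNormal_apply]; rfl)
          rw [this, map_mul, map_mul, map_inv, MulEquiv.apply_symm_apply])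
      exact CfsgLib.AutThreeCycles.exists_conjNormal_eq h4 (c x) hpre
    · exact Cfsg.Agent.S2119.surjective_conjNormal h4 (by rw [Fintype.card_fin]; exact h6) (c x)
  have hdvd : Nat.card X ∣ n.factorial := by
    refine dvd_trans ?_ (dvd_trans
      (Subgroup.card_range_dvd
        (MulAut.conjNormal : Equiv.Perm (Fin n) →* MulAut ↥(alternatingGroup (Fin n))))
      (by rw [Nat.card_perm, Nat.card_fin]))
    rw [Nat.card_congr (MonoidHom.ofInjective hc).toEquiv]
    exact Subgroup.card_dvd_of_le (by rintro _ ⟨x, rfl⟩; exact hrange x)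
  have hF : 2 * Nat.card ↥F = n.factorial := by
    haveI : Nontrivial (Fin n) := Fin.nontrivial_iff_two_le.2 (by omega)
    rw [Nat.card_congr e.toEquiv, Nat.card_eq_fintype_card, two_mul_card_alternatingGroup,
      Fintype.card_perm, Fintype.card_fin]
  rw [← F.card_mul_index, hidx, ← hF, mul_comm 2] at hdvd
  have h3 : 3 ^ k ∣ 2 := Nat.dvd_of_mul_dvd_mul_left Nat.card_pos hdvd
  have hk : k = 0 := by
    by_contra hk
    exact absurd ((dvd_pow_self 3 hk).trans h3) (by norm_num)
  exact Subgroup.index_eq_one.1 (by rw [hidx, hk, pow_zero])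

/-- Let X be a finite 3-minimal group (a Sylow 3-subgroup is not normal and lies in a unique maximal subgroup) whose generalized Fitting subgroup is isomorphic to an alternating group of degree n ≥ 5. Then X = F*(X), and n = 6, n = 9, or n = 3ᵃ + 1 for some a ≥ 2. -/
theorem result {X : Type*} [Group X] [Finite X] (hX : Cfsg.IsPMinimal 3 X) (n : ℕ) (hn : 5 ≤ n) (hF : Nonempty (↥(Cfsg.generalizedFittingSubgroup X) ≃* ↥(alternatingGroup (Fin n)))) : Cfsg.generalizedFittingSubgroup X = ⊤ ∧ (n = 6 ∨ n = 9 ∨ ∃ a : ℕ, 2 ≤ a ∧ n = 3 ^ a + 1) := by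
  haveI : Fact (Nat.Prime 3) := ⟨by norm_num⟩
  obtain ⟨e⟩ := hF
  set F := generalizedFittingSubgroup X with hFdef
  haveI : IsSimpleGroup ↥(alternatingGroup (Fin n)) :=
    alternatingGroup.isSimpleGroup (by rw [Nat.card_fin]; omega)
  haveI : Nontrivial (Fin n) := Fin.nontrivial_iff_two_le.2 (by omega)
  haveI : Nontrivial ↥F := e.toEquiv.nontrivial
  haveI : IsSimpleGroup ↥F := IsSimpleGroup.isSimpleGroup_of_surjective e.symm.toMonoidHom e.symm.surjective
  have hcardF : 2 * Nat.card ↥F = n.factorial := by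
    rw [Nat.card_congr e.toEquiv, Nat.card_eq_fintype_card, two_mul_card_alternatingGroup,
      Fintype.card_perm, Fintype.card_fin]
  have h60 : 60 ≤ Nat.card ↥F := by
    have : (5).factorial ≤ n.factorial := Nat.factorial_le hn
    norm_num [Nat.factorial] at this
    omega
  have hnc : Subgroup.center ↥F = ⊥ := by
    rw [eq_bot_iff]
    intro x hx
    have h1 : e x ∈ Subgroup.center ↥(alternatingGroup (Fin n)) :=
      Subgroup.mem_center_iff.2 fun g => by
        obtain ⟨y, rfl⟩ := e.surjective g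
        rw [← map_mul, ← map_mul, Subgroup.mem_center_iff.1 hx y]
    rw [alternatingGroup.center_eq_bot (by rw [Nat.card_fin]; omega), Subgroup.mem_bot] at h1
    exact Subgroup.mem_bot.2 (e.injective (h1.trans (map_one e).symm))
  have hCF : Subgroup.centralizer (F : Set X) = ⊥ := by
    rw [eq_bot_iff]
    intro x hx
    have hxF : x ∈ F := CfsgLib.Cores.centralizer_generalizedFitting_le hx
    have : (⟨x, hxF⟩ : ↥F) ∈ Subgroup.center ↥F :=
      Subgroup.mem_center_iff.2 fun g => Subtype.ext (Subgroup.mem_centralizer_iff.1 hx g g.2)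
    rw [hnc, Subgroup.mem_bot] at this
    exact congrArg Subtype.val this
  -- `F` together with a Sylow subgroup is everything
  obtain ⟨R⟩ : Nonempty (Sylow 3 ↥F) := inferInstance
  obtain ⟨P, hPR⟩ := Sylow.exists_comap_subtype_eq R
  obtain ⟨hPn, M, ⟨hM, hPM⟩, huniq⟩ := hX P
  have h3F : 3 ∣ Nat.card ↥F := by
    have h : 6 ∣ n.factorial :=
      dvd_trans (by norm_num [Nat.factorial]) (Nat.factorial_dvd_factorial (show 3 ≤ n by omega))
    omega
  have hFP : F ⊔ (P : Subgroup X) = ⊤ := by
    by_contra hne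
    obtain ⟨M₁, hM₁, hle⟩ := (eq_top_or_exists_le_coatom (F ⊔ (P : Subgroup X))).resolve_left hne
    have hFM : F ≤ M := huniq M₁ ⟨hM₁, le_sup_right.trans hle⟩ ▸ le_sup_left.trans hle
    have hR : (R : Subgroup ↥F) = (P : Subgroup X).subgroupOf F := hPR.symm
    have hfr := Sylow.normalizer_sup_eq_top R
    have hmap : (R : Subgroup ↥F).map F.subtype = (P : Subgroup X) ⊓ F := by
      rw [hR, Subgroup.subgroupOf_map_subtype]
    have hPN : (P : Subgroup X) ≤ Subgroup.normalizer (((P : Subgroup X) ⊓ F : Subgroup X) : Set X) := by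
      intro p hp
      rw [Subgroup.mem_normalizer_iff]
      intro h
      simp only [Subgroup.mem_inf]
      refine and_congr ⟨fun hh => mul_mem (mul_mem hp hh) (inv_mem hp), fun hh => ?_⟩
        ⟨fun hh => (inferInstance : F.Normal).conj_mem h hh p, fun hh => ?_⟩
      · simpa [mul_assoc] using mul_mem (mul_mem (inv_mem hp) hh) hp
      · simpa [mul_assoc] using (inferInstance : F.Normal).conj_mem _ hh p⁻¹
    rw [hmap] at hfr
    rcases eq_top_or_exists_le_coatom
      (Subgroup.normalizer (((P : Subgroup X) ⊓ F : Subgroup X) : Set X)) with hN | ⟨M₂, hM₂, hle₂⟩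
    · haveI hn' : ((R : Subgroup ↥F)).Normal := by
        rw [hR]
        refine ⟨fun a ha b => ?_⟩
        have hb : (b : X) ∈ Subgroup.normalizer (((P : Subgroup X) ⊓ F : Subgroup X) : Set X) :=
          hN ▸ Subgroup.mem_top _
        exact ((Subgroup.mem_normalizer_iff.1 hb a).1 ⟨ha, a.2⟩).1
      rcases IsSimpleGroup.eq_bot_or_eq_top_of_normal (R : Subgroup ↥F) hn' with h | h
      · exact R.ne_bot_of_dvd_card h3F h
      · obtain ⟨k, hk⟩ := IsPGroup.iff_card.1 R.isPGroup'
        rw [h, Subgroup.card_top] at hk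
        have h4 : 4 ∣ n.factorial :=
          dvd_trans (by norm_num [Nat.factorial]) (Nat.factorial_dvd_factorial (show 4 ≤ n by omega))
        have h2F : 2 ∣ Nat.card ↥F := by omega
        rw [hk] at h2F
        exact absurd (Nat.prime_two.dvd_of_dvd_pow h2F) (by norm_num)
    · have hNM : Subgroup.normalizer (((P : Subgroup X) ⊓ F : Subgroup X) : Set X) ≤ M :=
        huniq M₂ ⟨hM₂, hPN.trans hle₂⟩ ▸ hle₂
      exact hM.1 (top_le_iff.1 (hfr ▸ sup_le hNM hFM))
  obtain ⟨k, hk⟩ : ∃ k, F.index = 3 ^ k := by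
    have : F.index ∣ Nat.card (P : Subgroup X) := by
      rw [← Subgroup.relIndex_top_right, ← hFP, sup_comm, Subgroup.relIndex_sup_right]
      exact Subgroup.relIndex_dvd_card _ _
    obtain ⟨j, hj⟩ := IsPGroup.iff_card.1 P.isPGroup'
    rw [hj] at this
    obtain ⟨i, -, hi⟩ := (Nat.dvd_prime_pow (by norm_num)).1 this
    exact ⟨i, hi⟩
  have htop : F = ⊤ := index_eq_one F hCF hk hn e
  refine ⟨htop, ?_⟩
  let ι : X ≃* ↥(alternatingGroup (Fin n)) :=
    ((Subgroup.topEquiv (G := X)).symm.trans (MulEquiv.subgroupCongr htop.symm)).trans e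
  let f : X →* Equiv.Perm (Fin n) := (alternatingGroup (Fin n)).subtype.comp ι.toMonoidHom
  have hfinj : Function.Injective f := Subtype.val_injective.comp ι.injective
  have hsplit := CfsgLib.SymSylow.splits_or_of_three_group (Q := (P : Subgroup X).map f)
    (P.isPGroup'.map f) (by rw [Fintype.card_fin]; exact hn)
  rw [Fintype.card_fin] at hsplit
  refine hsplit.resolve_left ?_
  rintro ⟨A, B, hA, hB, hnA, hnB, hgen⟩
  have prop : ∀ C : Subgroup (Equiv.Perm (Fin n)), (P : Subgroup X).map f ≤ C →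
      ¬ alternatingGroup (Fin n) ≤ C → C.comap f ≤ M := by
    intro C hC hnC
    rcases eq_top_or_exists_le_coatom (C.comap f) with h | ⟨M', hM', hle⟩
    · refine absurd ?_ hnC
      intro g hg
      obtain ⟨x, hx⟩ := ι.surjective ⟨g, hg⟩
      have : x ∈ C.comap f := h ▸ Subgroup.mem_top x
      have hfx : f x = g := congrArg Subtype.val hx
      rw [← hfx]; exact this
    · exact huniq M' ⟨hM', (Subgroup.map_le_iff_le_comap.1 hC).trans hle⟩ ▸ hle
  have hJ : alternatingGroup (Fin n) ≤ M.map f := by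
    refine hgen _ (fun g hs hg => ?_) (fun g hs hg => ?_)
    · obtain ⟨x, hx⟩ := ι.surjective ⟨g, hs⟩
      have hfx : f x = g := congrArg Subtype.val hx
      exact ⟨x, prop A hA hnA (by show f x ∈ A; rw [hfx]; exact hg), hfx⟩
    · obtain ⟨x, hx⟩ := ι.surjective ⟨g, hs⟩
      have hfx : f x = g := congrArg Subtype.val hx
      exact ⟨x, prop B hB hnB (by show f x ∈ B; rw [hfx]; exact hg), hfx⟩
  refine hM.1 (top_le_iff.1 fun x _ => ?_)
  obtain ⟨y, hy, hyx⟩ := hJ (ι x).2
  exact hfinj hyx ▸ hy

end Cfsg.Agent.S2930
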