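import Cfsg.Statements.S2931
import Cfsg.Agent.OrthSmall.SylowEightSix

set_option autoImplicit false
open Cfsg

namespace Cfsg.Agent.S2931

theorem exists_isotropic : ∀ x y : ZMod 2, (x ≠ 1 ∨ y ≠ 1) →
    ∃ u v : ZMod 2, u ^ 2 + x * u * v + y * v ^ 2 = 0 ∧ ¬ (u = 0 ∧ v = 0) := by decide

/-- An injective map from a group of the order of a Sylow subgroup identifies it with every Sylow subgroup. -/
theorem nonempty_equiv_of_injective {p : ℕ} [Fact p.Prime] {H G : Type*} [Group H] [Group G] [Finite G] (f : H →* G)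
    (hf : Function.Injective f) (hc : Nat.card H = p ^ (Nat.card G).factorization p) (P : Sylow p G) :
    Nonempty (H ≃* P) := by
  have hr : Nat.card f.range = p ^ (Nat.card G).factorization p := by
    rw [← hc, ← Nat.card_congr (MonoidHom.ofInjective hf).toEquiv]
  exact ⟨(MonoidHom.ofInjective hf).trans ((Sylow.ofCard f.range hr).equiv P)⟩

theorem factorization_eq {n k r : ℕ} (h : n = 2 ^ k * r) (hr : ¬ 2 ∣ r) : n.factorization 2 = k := by
  have hr0 : r ≠ 0 := fun h0 => hr (h0 ▸ dvd_zero 2)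
  rw [h, Nat.factorization_mul (pow_ne_zero _ two_ne_zero) hr0, Finsupp.add_apply,
    Nat.Prime.factorization_pow Nat.prime_two, Finsupp.single_eq_same, Nat.factorization_eq_zero_of_not_dvd hr, add_zero]

/-- The Sylow 2-subgroups of the alternating group of degree 8 and of PSp₄(3) are isomorphic, and so are the Sylow 2-subgroups of the symmetric group of degree 8 and of the full isometry group of a non-degenerate quadratic form of minus type in dimension 6 over the field with 2 elements. -/
theorem result (F : Type) [Field F] [Fintype F] (hF : Fintype.card F = 3) (K : Type) [Field K] [Fintype K] (hK : Fintype.card K = 2) (a b : K) (hab : ∀ z₁ z₂ : K, z₁ ^ 2 + a * z₁ * z₂ + b * z₂ ^ 2 = 0 → z₁ = 0 ∧ z₂ = 0) (P : Sylow 2 ↥(alternatingGroup (Fin 8))) (Q : Sylow 2 (Cfsg.PSp 2 F)) (P' : Sylow 2 (Equiv.Perm (Fin 8))) (Q' : Sylow 2 ↥(Cfsg.isometryGroup K (Cfsg.quadFormMinus 2 K a b))) : Nonempty (↥(P : Subgroup ↥(alternatingGroup (Fin 8))) ≃* ↥(Q : Subgroup (Cfsg.PSp 2 F))) ∧ Nonempty (↥(P' :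 Subgroup (Equiv.Perm (Fin 8))) ≃* ↥(Q' : Subgroup ↥(Cfsg.isometryGroup K (Cfsg.quadFormMinus 2 K a b)))) := by
  classical
  haveI : Fact (Nat.Prime 2) := ⟨Nat.prime_two⟩
  haveI : Fact (Nat.Prime 3) := ⟨Nat.prime_three⟩
  let e : ZMod 2 ≃+* K := FiniteField.ringEquivOfCardEq (by rw [hK, ZMod.card])
  have hab1 : a = 1 ∧ b = 1 := by
    obtain ⟨x, rfl⟩ := e.surjective a
    obtain ⟨y, rfl⟩ := e.surjective b
    have h := exists_isotropic
    by_contra hc
    obtain ⟨u, v, h0, h1⟩ := h x y (by
      by_contra hx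
      push Not at hx
      exact hc ⟨by rw [hx.1, map_one], by rw [hx.2, map_one]⟩)
    obtain ⟨hu, hv⟩ := hab (e u) (e v) (by simp only [← map_pow, ← map_mul, ← map_add, h0, map_zero])
    exact h1 ⟨e.injective (hu.trans (map_zero e).symm), e.injective (hv.trans (map_zero e).symm)⟩
  obtain ⟨rfl, rfl⟩ := hab1
  let C := CfsgLib.SylowEightSix.common e
  let π := CfsgLib.SylowEightSix.toPerm e
  let ω := CfsgLib.SylowEightSix.toOrth e
  have hπ := CfsgLib.SylowEightSix.toPerm_injective e
  have hω := CfsgLib.SylowEightSix.toOrth_injective e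
  have hC : Nat.card C = 128 := CfsgLib.SylowEightSix.card_common e
  have hS8 : Nat.card (Equiv.Perm (Fin 8)) = 40320 := by
    rw [Nat.card_eq_fintype_card, Fintype.card_perm, Fintype.card_fin]; rfl
  have hO : Nat.card (Cfsg.isometryGroup K (Cfsg.quadFormMinus 2 K (1 : K) 1)) = 51840 := by
    rw [CfsgLib.Classical.Orth.card_isometryGroup_minus 1 1 hab 2, hK]
    norm_num [CfsgLib.Classical.Orth.evenProd, Finset.prod_range_succ]
  refine ⟨?_, ?_⟩
  · let χ : C →* ℤˣ := Equiv.Perm.sign.comp π
    have hK64 : Nat.card χ.ker = 64 := by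
      have h := χ.ker.card_mul_index
      rw [hC, Subgroup.index_ker] at h
      have hs : Function.Surjective χ := by
        intro u
        rcases Int.units_eq_one_or u with rfl | rfl
        · exact ⟨1, map_one _⟩
        · exact ⟨⟨_, CfsgLib.SylowEightSix.el_mem e (CfsgLib.SylowEightSix.genIdx 0)⟩, by
            show Equiv.Perm.sign (CfsgLib.SylowEightSix.perm (CfsgLib.SylowEightSix.genIdx 0)) = -1
            decide +kernel⟩
      rw [MonoidHom.range_eq_top.2 hs, Subgroup.card_top, Nat.card_eq_fintype_card (α := ℤˣ), Fintype.card_units_int] at h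
      omega
    let fA : χ.ker →* ↥(alternatingGroup (Fin 8)) :=
      (π.comp χ.ker.subtype).codRestrict _ fun x => Equiv.Perm.mem_alternatingGroup.2 x.2
    let fΩ : χ.ker →* ↥(Cfsg.Omega K (Cfsg.quadFormMinus 2 K (1 : K) 1)) :=
      (ω.comp χ.ker.subtype).codRestrict _ fun x => (CfsgLib.SylowEightSix.parity e x.1).1 x.2
    have hfA : Function.Injective fA := fun x y h => Subtype.ext (hπ (congrArg Subtype.val h))
    have hfΩ : Function.Injective fΩ := fun x y h => Subtype.ext (hω (congrArg Subtype.val h))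
    let F4 := CfsgLib.UFourTwo.F4m
    obtain ⟨E1⟩ := CfsgLib.OrthSmall.pomega_six_minus_equiv hK
      (show Fintype.card F4 = 2 ^ 2 from CfsgLib.UFourTwo.F4m.card_eq) 1 1 hab
    obtain ⟨E2⟩ := CfsgLib.UFourTwo.psu_equiv_psp
    let eF : ZMod 3 ≃+* F := FiniteField.ringEquivOfCardEq (by rw [hF, ZMod.card])
    let E3 := CfsgLib.FieldChange.pspEquiv eF 2
    have hidx := CfsgLib.SylowEightSix.index_omega e
    have hΩ : Nat.card (Cfsg.Omega K (Cfsg.quadFormMinus 2 K (1 : K) 1)) = 25920 := by
      have h := (Cfsg.Omega K (Cfsg.quadFormMinus 2 K (1 : K) 1)).card_mul_index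
      rw [hidx, hO] at h
      omega
    have hcen : Subgroup.center (Cfsg.Omega K (Cfsg.quadFormMinus 2 K (1 : K) 1)) = ⊥ :=
      Subgroup.eq_bot_of_card_eq _ ((CfsgLib.Classical.Orth.card_center_omega
        (CfsgLib.SylowEightSix.isNondeg e) (by simp)).1 (Or.inr (CfsgLib.SylowEightSix.two_zero e)))
    let proj : ↥(Cfsg.Omega K (Cfsg.quadFormMinus 2 K (1 : K) 1)) →* Cfsg.PSp 2 F :=
      (((E1.trans E2).trans E3).toMonoidHom).comp (QuotientGroup.mk' _)
    have hproj : Function.Injective proj := fun x y h => by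
      have h' := ((E1.trans E2).trans E3).injective h
      rw [QuotientGroup.mk'_apply, QuotientGroup.mk'_apply, QuotientGroup.eq, hcen, Subgroup.mem_bot,
        inv_mul_eq_one] at h'
      exact h'
    have hPSp : Nat.card (Cfsg.PSp 2 F) = 25920 := by
      rw [← Nat.card_congr ((E1.trans E2).trans E3).toEquiv, ← hΩ]
      exact (Nat.card_congr (Equiv.ofBijective _ ⟨fun x y h => by
        rw [QuotientGroup.mk'_apply, QuotientGroup.mk'_apply, QuotientGroup.eq, hcen, Subgroup.mem_bot,
          inv_mul_eq_one] at h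
        exact h, QuotientGroup.mk'_surjective _⟩)).symm
    have hA8 : Nat.card ↥(alternatingGroup (Fin 8)) = 20160 := by
      have h := two_mul_card_alternatingGroup (α := Fin 8)
      rw [← Nat.card_eq_fintype_card, ← Nat.card_eq_fintype_card, hS8] at h
      omega
    obtain ⟨e1⟩ := nonempty_equiv_of_injective fA hfA
      (by rw [hK64, hA8, factorization_eq (k := 6) (r := 315) (by norm_num) (by norm_num)]; rfl) P
    obtain ⟨e2⟩ := nonempty_equiv_of_injective (proj.comp fΩ) (hproj.comp hfΩ)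
      (by rw [hK64, hPSp, factorization_eq (k := 6) (r := 405) (by norm_num) (by norm_num)]; rfl) Q
    exact ⟨e1.symm.trans e2⟩
  · obtain ⟨e1⟩ := nonempty_equiv_of_injective π hπ
      (by rw [hC, hS8, factorization_eq (k := 7) (r := 315) (by norm_num) (by norm_num)]; rfl) P'
    obtain ⟨e2⟩ := nonempty_equiv_of_injective ω hω
      (by rw [hC, hO, factorization_eq (k := 7) (r := 405) (by norm_num) (by norm_num)]; rfl) Q'
    exact ⟨e1.symm.trans e2⟩

end Cfsg.Agent.S2931
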