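import Cfsg.Statements.S2939
import Cfsg.Agent.LocalP.SylowChain

set_option autoImplicit false
open Cfsg

namespace Cfsg.Agent.S2939

/-- Let p be a prime dividing the order of the finite group G and 𝓕 a family of subgroups of G closed under conjugation, with conjugates taken as X^g = g⁻¹Xg. Then 𝓕 controls Sylow p-intersections in G (any two distinct Sylow p-subgroups S and T with S ∩ T ≠ 1 are joined by a chain S = S₀, S₁, …, Sₙ = T of Sylow p-subgroups where, for each i, some member Xᵢ of 𝓕 meets both S_{i-1} and Sᵢ in Sylow p-subgroups of Xᵢ, satisfies S ∩ T ≤ Sᵢ ∩ Xᵢ, and contains an element xᵢ with Sᵢ^{xᵢ} = S_{i-1}) if and only if 𝓕 strongly controls p-fusion in G (whenever A is a subset of a Sylow p-subgroup S, A contains an element other than 1, and A^g ⊆ S, the element g factorises as g = y₁⋯yₙy with y ∈ N_G(S) and each yᵢ in a member Yᵢ of 𝓕 that meets S in a Sylow p-subgroup of Yᵢ, with A^{y₁⋯yᵢ} ⊆ S ∩ Yᵢ for each i). -/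
theorem result {G : Type*} [Group G] [Finite G] {p : ℕ} [Fact p.Prime] (hdiv : p ∣ Nat.card G) (𝓕 : Set (Subgroup G)) (h𝓕 : Cfsg.IsNormalSet 𝓕) : Cfsg.ControlsSylowIntersections p 𝓕 ↔ Cfsg.FamilyStronglyControlsFusion p 𝓕 := by
  constructor
  · intro hc S A g hA ⟨a, haA, ha1⟩ hg
    have hAT : A ⊆ ((CfsgLib.SylowChain.conjS g⁻¹ S : Sylow p G) : Subgroup G) := by
      intro u hu
      show u ∈ Cfsg.subgroupConjRight g⁻¹ (S : Subgroup G)
      rw [CfsgLib.SylowChain.mem_conjR, inv_inv]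
      exact hg ⟨u, hu, rfl⟩
    set T : Sylow p G := CfsgLib.SylowChain.conjS g⁻¹ S with hT
    have hne : (S : Subgroup G) ⊓ (T : Subgroup G) ≠ ⊥ := fun h =>
      ha1 (Subgroup.mem_bot.mp (h ▸ Subgroup.mem_inf.mpr ⟨hA haA, hAT haA⟩))
    obtain ⟨z, hz, hzT⟩ := CfsgLib.SylowChain.exists_fac_of_linked h𝓕
      (CfsgLib.SylowChain.linked_of_controls hc hne inf_le_left inf_le_right :
        CfsgLib.SylowChain.Linked 𝓕 ((S : Subgroup G) ⊓ (T : Subgroup G)) S T)
    obtain ⟨n, Y, y, h1, h2, h3⟩ :=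
      CfsgLib.SylowChain.fac_to_fin (hz.mono (fun u hu => Subgroup.mem_inf.mpr ⟨hA hu, hAT hu⟩))
    refine ⟨n, Y, y, z⁻¹ * g, ?_, h1, by rw [← h2]; group, h3⟩
    have key : g⁻¹ * z ∈ Subgroup.normalizer ((S : Subgroup G) : Set G) := by
      rw [← CfsgLib.SylowChain.conjS_eq_self_iff, ← CfsgLib.SylowChain.conjS_conjS, ← hT, hzT]
    simpa using inv_mem key
  · intro hf
    rw [CfsgLib.SylowChain.controls_iff]
    intro S T _ hD
    obtain ⟨g, hg⟩ := CfsgLib.SylowChain.exists_conjS S T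
    have hsub : Cfsg.conjRight g (((S : Subgroup G) ⊓ (T : Subgroup G) : Subgroup G) : Set G) ⊆
        ((S : Subgroup G) : Set G) := by
      rintro _ ⟨d, hd, rfl⟩
      rw [SetLike.mem_coe, ← hg, CfsgLib.SylowChain.coe_conjS, CfsgLib.SylowChain.mem_conjR]
      have e : g * (g⁻¹ * d * g) * g⁻¹ = d := by group
      rw [e]
      exact hd.2
    obtain ⟨a, ha, ha1⟩ := (Subgroup.bot_or_exists_ne_one _).resolve_left hD
    obtain ⟨n, Y, y, y₀, hy₀, h1, h2, h3⟩ :=
      hf S _ g (fun d hd => hd.1) ⟨a, ha, ha1⟩ hsub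
    have hl := CfsgLib.SylowChain.linked_of_fac h𝓕 (CfsgLib.SylowChain.fac_of_fin n Y y h1 h3)
    have hT : CfsgLib.SylowChain.conjS (List.ofFn y).prod⁻¹ S = T := by
      have e1 : CfsgLib.SylowChain.conjS g⁻¹ S = T := by
        rw [← hg, CfsgLib.SylowChain.conjS_conjS, mul_inv_cancel, CfsgLib.SylowChain.conjS_one]
      have e2 : CfsgLib.SylowChain.conjS y₀⁻¹ S = S :=
        CfsgLib.SylowChain.conjS_eq_self_iff.mpr (inv_mem hy₀)
      rw [← e1, h2, mul_inv_rev, ← CfsgLib.SylowChain.conjS_conjS, e2]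
    rwa [hT] at hl

end Cfsg.Agent.S2939
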