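import Cfsg.Statements.S2940
import Cfsg.Agent.LocalP.SylowChain

set_option autoImplicit false
open Cfsg

namespace Cfsg.Agent.S2940

/-- Let S be a Sylow p-subgroup of the finite group G and G₁, G₂ subgroups containing S with G = G₁G₂. Then for every g ∈ G there is a Sylow p-subgroup U of G with S ∩ S^g ≤ U ≤ G₁ ∩ G₂^g (conjugates taken as X^g = g⁻¹Xg). -/
theorem result {G : Type*} [Group G] [Finite G] {p : ℕ} [Fact p.Prime] (S : Sylow p G) (G₁ G₂ : Subgroup G) (h1 : (S : Subgroup G) ≤ G₁) (h2 : (S : Subgroup G) ≤ G₂) (hfact : ∀ g : G, ∃ g₁ ∈ G₁, ∃ g₂ ∈ G₂, g = g₁ * g₂) (g : G) : ∃ U : Sylow p G, (S : Subgroup G) ⊓ Cfsg.subgroupConjRight g (S : Subgroup G) ≤ (U : Subgroup G) ∧ (U : Subgroup G) ≤ G₁ ⊓ Cfsg.subgroupConjRight g G₂ := by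
  obtain ⟨g₁, hg₁, g₂, hg₂, hg⟩ := hfact g⁻¹
  have hgb : g = g₂⁻¹ * g₁⁻¹ := by rw [← mul_inv_rev, ← hg, inv_inv]
  have hG2 : Cfsg.subgroupConjRight g G₂ = Cfsg.subgroupConjRight g₁⁻¹ G₂ := by
    rw [hgb, ← CfsgLib.SylowChain.conjR_conjR, CfsgLib.SylowChain.conjR_eq_self (inv_mem hg₂)]
  refine CfsgLib.SylowChain.exists_sylow_between (CfsgLib.SylowChain.conjS g₁⁻¹ S) ?_
    (S.isPGroup'.to_le inf_le_left) (inf_le_inf h1 (CfsgLib.SylowChain.conjR_mono g h2))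
  rw [CfsgLib.SylowChain.coe_conjS, hG2]
  refine le_inf ?_ (CfsgLib.SylowChain.conjR_mono _ h2)
  exact le_trans (CfsgLib.SylowChain.conjR_mono _ h1)
    (le_of_eq (CfsgLib.SylowChain.conjR_eq_self (inv_mem hg₁)))

end Cfsg.Agent.S2940
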