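import Cfsg.Statements.S2955
import Cfsg.Agent.LocalP.SylowChain

set_option autoImplicit false
open Cfsg

namespace Cfsg.Agent.S2955

/-- Let p be a prime dividing the order of the finite group G and 𝓕 a conjugation-closed family of subgroups that controls Sylow p-intersections in G. Suppose the Sylow p-subgroups of G are chain-connected: any two of them are joined by a chain of Sylow p-subgroups, consecutive ones distinct with nontrivial intersection, all containing the intersection of the two ends (equivalently, the graph on the Sylow p-subgroups whose edges are the distinct pairs meeting nontrivially is connected). Then for every Sylow p-subgroup S, G is generated by N_G(S) together with the members of 𝓕 that meet S in a Sylow p-subgroup of themselves. -/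
theorem result {G : Type*} [Group G] [Finite G] (p : ℕ) [Fact p.Prime] (hdiv : p ∣ Nat.card G)
    (𝓕 : Set (Subgroup G)) (h𝓕 : Cfsg.IsNormalSet 𝓕) (hc : Cfsg.ControlsSylowIntersections p 𝓕)
    (hconn : Cfsg.IsSylowChainConnected p G) (S : Sylow p G) :
    (⨆ X ∈ Cfsg.sylowMembers p 𝓕 (S : Subgroup G), X) ⊔ Subgroup.normalizer ((S : Subgroup G) : Set G) = ⊤ := by
  set H := (⨆ X ∈ Cfsg.sylowMembers p 𝓕 (S : Subgroup G), X) ⊔
    Subgroup.normalizer ((S : Subgroup G) : Set G) with hH
  have hmem : ∀ X ∈ Cfsg.sylowMembers p 𝓕 (S : Subgroup G), X ≤ H := fun X hX =>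
    le_trans (le_iSup₂ (f := fun X (_ : X ∈ Cfsg.sylowMembers p 𝓕 (S : Subgroup G)) => X) X hX)
      le_sup_left
  -- every Sylow subgroup is moved to `S` by an element of `H`
  have key : ∀ (n : ℕ) (c : Fin (n + 1) → Sylow p G), c 0 = S →
      (∀ i : Fin n, (c i.castSucc : Subgroup G) ⊓ (c i.succ : Subgroup G) ≠ ⊥) →
        ∀ i : Fin (n + 1), ∃ h ∈ H, CfsgLib.SylowChain.conjS h (c i) = S := by
    intro n c h0 hadj i
    induction i using Fin.induction with
    | zero => exact ⟨1, one_mem H, by rw [h0, CfsgLib.SylowChain.conjS_one]⟩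
    | succ i ih =>
      obtain ⟨h, hh, hhS⟩ := ih
      have hne : (S : Subgroup G) ⊓ (CfsgLib.SylowChain.conjS h (c i.succ) : Subgroup G) ≠ ⊥ := by
        rw [← hhS, CfsgLib.SylowChain.coe_conjS, CfsgLib.SylowChain.coe_conjS,
          ← CfsgLib.SylowChain.conjR_inf]
        exact CfsgLib.SylowChain.conjR_ne_bot (hadj i)
      obtain ⟨z, hz, hzS⟩ := CfsgLib.SylowChain.exists_fac_of_linked h𝓕
        (CfsgLib.SylowChain.linked_of_controls hc hne inf_le_left inf_le_right :
          CfsgLib.SylowChain.Linked 𝓕 ((S : Subgroup G) ⊓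
            (CfsgLib.SylowChain.conjS h (c i.succ) : Subgroup G)) S
            (CfsgLib.SylowChain.conjS h (c i.succ)))
      exact ⟨h * z, mul_mem hh (hz.mem hmem), by rw [← CfsgLib.SylowChain.conjS_conjS, hzS]⟩
  rw [eq_top_iff]
  intro g _
  obtain ⟨n, c, h0, hn, -, hc'⟩ := hconn S (CfsgLib.SylowChain.conjS g⁻¹ S)
  obtain ⟨h, hh, hhS⟩ := key n c h0 (fun i => (hc' i).2) (Fin.last n)
  rw [hn, CfsgLib.SylowChain.conjS_conjS, CfsgLib.SylowChain.conjS_eq_self_iff] at hhS
  have h1 : g⁻¹ * h ∈ H := Subgroup.mem_sup_right hhS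
  simpa [mul_assoc] using inv_mem (mul_mem h1 (inv_mem hh))

end Cfsg.Agent.S2955
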