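import Cfsg.Statements.S2956
import Cfsg.Agent.LocalP.FunctorChain

set_option autoImplicit false
open Cfsg

namespace Cfsg.Agent.S2956

/-- Let p be a prime dividing the order of the finite group G, and f an assignment to every p-subgroup P of a set f(P) of subgroups of P, each normalized by N_G(P), compatible with conjugation, such that for P ≠ 1 the members of f(P) are nontrivial. Let 𝓕 be the family of the normalizers N_G(F) of the members F of f(S) over the Sylow p-subgroups S of G, and 𝓕' the family of the maximal p-local subgroups M of G that are singular for f (the corresponding family of normalizers inside M does not control Sylow p-intersections in M). Then 𝓕 ∪ 𝓕' controls Sylow p-intersections in G. -/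
theorem result {G : Type*} [Group G] [Finite G] (p : ℕ) [Fact p.Prime] (hdiv : p ∣ Nat.card G)
    (f : Subgroup G → Set (Subgroup G)) (hf : Cfsg.IsNormalizerFunctor p f)
    (hf1 : ∀ P : Subgroup G, IsPGroup p ↥P → P ≠ ⊥ → ∀ F ∈ f P, F ≠ ⊥)
    (𝓕 𝓕' : Set (Subgroup G)) (h𝓕 : 𝓕 = Cfsg.functorFamily p f ⊤)
    (h𝓕' : 𝓕' = {M | Cfsg.IsMaximalPLocal p M ∧ ¬ Cfsg.IsFunctorRegular p f M}) :
    Cfsg.ControlsSylowIntersections p (𝓕 ∪ 𝓕') := by
  subst h𝓕 h𝓕'
  rw [CfsgLib.SylowChain.functorFamily_top]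
  set 𝓕 := CfsgLib.SylowChain.normFamily p f ∪
    {M | Cfsg.IsMaximalPLocal p M ∧ ¬ Cfsg.IsFunctorRegular p f M} with h𝓕
  have main : ∀ D : Subgroup G, IsPGroup p ↥D → D ≠ ⊥ → ∀ U V : Sylow p G, D ≤ (U : Subgroup G) →
      D ≤ (V : Subgroup G) → CfsgLib.SylowChain.Linked 𝓕 D U V := by
    intro D
    induction D using WellFoundedGT.induction with
    | _ D ihD =>
    intro hDp hD1
    have up : ∀ (E : Subgroup G), D < E → ∀ U V : Sylow p G, E ≤ (U : Subgroup G) →
        E ≤ (V : Subgroup G) → CfsgLib.SylowChain.Linked 𝓕 D U V := fun E hE U V hU hV =>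
      (ihD E hE (U.isPGroup'.to_le hU) (ne_bot_of_gt hE) U V hU hV).mono hE.le
    have cardLt : ∀ (L : Subgroup G) (R : Sylow p ↥L) (U : Sylow p G),
        Nat.card ↥(R : Subgroup ↥L) ≤ Nat.card ↥(U : Subgroup G) := by
      intro L R U
      obtain ⟨V, hV⟩ := (R.isPGroup'.map L.subtype).exists_le_sylow
      rw [← CfsgLib.SylowChain.card_map_subtype, CfsgLib.SylowChain.card_sylow_eq U V]
      exact Subgroup.card_le_of_le hV
    have inner : ∀ (m : ℕ) (L : Subgroup G) (R R' : Sylow p ↥L), Cfsg.IsPLocal p L →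
        Nat.card G - Nat.card ↥(R : Subgroup ↥L) = m →
        D < (R : Subgroup ↥L).map L.subtype → D < (R' : Subgroup ↥L).map L.subtype →
        ∀ U V : Sylow p G, (R : Subgroup ↥L).map L.subtype ≤ (U : Subgroup G) →
          (R' : Subgroup ↥L).map L.subtype ≤ (V : Subgroup G) →
            CfsgLib.SylowChain.Linked 𝓕 D U V := by
      intro m
      induction m using Nat.strong_induction_on with
      | _ m ihm =>
      intro L R R' hL hm hDR hDR' U V hU hV
      obtain ⟨M, hLM, hMl, hMmax⟩ :=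
        Finite.exists_le_maximal (p := fun M : Subgroup G => Cfsg.IsPLocal p M) hL
      have hMmax' : Cfsg.IsMaximalPLocal p M :=
        ⟨hMl, fun N hN hMN => le_antisymm (hMmax hN hMN) hMN⟩
      have extend : ∀ T : Sylow p ↥L, ∃ (T₁ : Sylow p ↥M) (U₁ : Sylow p G),
          (T : Subgroup ↥L).map L.subtype ≤ (T₁ : Subgroup ↥M).map M.subtype ∧
          (T₁ : Subgroup ↥M).map M.subtype ≤ (U₁ : Subgroup G) := by
        intro T
        obtain ⟨T₁, hT₁⟩ := ((T.isPGroup'.map L.subtype).comap_of_injective M.subtype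
          M.subtype_injective).exists_le_sylow
        obtain ⟨U₁, hU₁⟩ := (T₁.isPGroup'.map M.subtype).exists_le_sylow
        refine ⟨T₁, U₁, ?_, hU₁⟩
        rintro _ ⟨t, ht, rfl⟩
        exact ⟨⟨t, hLM t.2⟩, hT₁ ⟨t, ht, rfl⟩, rfl⟩
      obtain ⟨R₁, U₁, hR₁, hU₁⟩ := extend R
      obtain ⟨R₁', V₁, hR₁', hV₁⟩ := extend R'
      refine ((up _ hDR U U₁ hU (hR₁.trans hU₁)).trans ?_).trans
        (up _ hDR' V₁ V (hR₁'.trans hV₁) hV)
      have hcardM : Nat.card ↥(R : Subgroup ↥L) ≤ Nat.card ↥(R₁ : Subgroup ↥M) := by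
        rw [← CfsgLib.SylowChain.card_map_subtype, ← CfsgLib.SylowChain.card_map_subtype (R₁ : Subgroup ↥M)]
        exact Subgroup.card_le_of_le hR₁
      have hDR₁ : D < (R₁ : Subgroup ↥M).map M.subtype := hDR.trans_le hR₁
      have hDR₁' : D < (R₁' : Subgroup ↥M).map M.subtype := hDR'.trans_le hR₁'
      by_cases hreg : Cfsg.IsFunctorRegular p f M
      · -- regular: follow a chain inside `M`
        set D' := D.subgroupOf M with hD'
        have hD'map : D'.map M.subtype = D :=
          Subgroup.map_subgroupOf_eq_of_le (hDR₁.le.trans (Subgroup.map_subtype_le _))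
        have hD'ne : D' ≠ ⊥ := fun h => hD1 (by rw [← hD'map, h, Subgroup.map_bot])
        have hsub : ∀ T : Subgroup ↥M, D ≤ T.map M.subtype → D' ≤ T := by
          intro T hT u hu
          obtain ⟨t, ht, he⟩ := hT hu
          exact M.subtype_injective he ▸ ht
        suffices key : ∀ P : Sylow p ↥M, CfsgLib.SylowChain.Linked
            ((fun X : Subgroup G => X.subgroupOf M) '' Cfsg.functorFamily p f M) D' R₁ P →
            D < (P : Subgroup ↥M).map M.subtype ∧ ∀ W : Sylow p G,
              (P : Subgroup ↥M).map M.subtype ≤ (W : Subgroup G) →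
                CfsgLib.SylowChain.Linked 𝓕 D U₁ W by
          exact (key R₁' (CfsgLib.SylowChain.linked_of_controls hreg hD'ne (hsub _ hDR₁.le)
            (hsub _ hDR₁'.le))).2 V₁ hV₁
        intro P hP
        induction hP with
        | refl => exact ⟨hDR₁, fun W hW => up _ hDR₁ U₁ W hU₁ hW⟩
        | @tail P P' _ hs ih =>
          obtain ⟨Q, F, x, hF, hQN, hPN, hP'N, hx, hconj, hDP⟩ :=
            CfsgLib.SylowChain.step_inside hf hs
          rw [hD'map] at hDP
          have hcard : ∀ T : Sylow p ↥M, Nat.card ↥((T : Subgroup ↥M).map M.subtype) =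
              Nat.card ↥(Q : Subgroup ↥M) := fun T => by
            rw [CfsgLib.SylowChain.card_map_subtype, CfsgLib.SylowChain.card_sylow_eq T Q]
          have hDP' : D < (P' : Subgroup ↥M).map M.subtype := by
            refine lt_of_le_of_ne hDP fun he => ?_
            have h1 : Nat.card ↥D = Nat.card ↥((R₁ : Subgroup ↥M).map M.subtype) := by
              rw [he, hcard, hcard]
            exact hDR₁.ne (Subgroup.eq_of_le_of_card_ge hDR₁.le h1.ge)
          refine ⟨hDP', fun W hW => ?_⟩
          by_cases hfull : Nat.card ↥(Q : Subgroup ↥M) = Nat.card ↥(U₁ : Subgroup G)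
          · obtain ⟨W₀, hW₀⟩ := CfsgLib.SylowChain.exists_sylow_of_card U₁ ((hcard P).trans hfull)
            obtain ⟨S₀, hS₀⟩ := CfsgLib.SylowChain.exists_sylow_of_card U₁ ((hcard Q).trans hfull)
            have hW' : (P' : Subgroup ↥M).map M.subtype = (W : Subgroup G) :=
              Subgroup.eq_of_le_of_card_ge hW (by
                rw [hcard, hfull, CfsgLib.SylowChain.card_sylow_eq U₁ W])
            have hmem : Subgroup.normalizer (F : Set G) ∈ 𝓕 := Or.inl ⟨S₀, F, hS₀ ▸ hF, rfl⟩
            refine (ih.2 W₀ hW₀.ge).tail ⟨Subgroup.normalizer (F : Set G), x,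
              CfsgLib.SylowChain.mem_sylowMembers_of_le hmem W₀ (hW₀ ▸ hPN),
              CfsgLib.SylowChain.mem_sylowMembers_of_le hmem W (hW' ▸ hP'N), hx, ?_, ?_⟩
            · rw [← hW', hW₀, hconj]
            · rw [← hW', inf_of_le_left hP'N]
              exact hDP
          · set Qg := (Q : Subgroup ↥M).map M.subtype with hQg
            obtain ⟨hFle, hNle⟩ := (hf Qg (Q.isPGroup'.map M.subtype)).1 F hF
            have hQ1 : Qg ≠ ⊥ := by
              intro h
              have h1 : Nat.card ↥((P' : Subgroup ↥M).map M.subtype) = 1 := by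
                rw [hcard, ← hcard Q, ← hQg, h, Subgroup.card_bot]
              exact hD1 (le_bot_iff.mp ((Subgroup.eq_bot_of_card_eq _ h1) ▸ hDP))
            have hLoc : Cfsg.IsPLocal p (Subgroup.normalizer (F : Set G)) :=
              ⟨F, (Q.isPGroup'.map M.subtype).to_le hFle,
                hf1 Qg (Q.isPGroup'.map M.subtype) hQ1 F hF, rfl⟩
            set L' := Subgroup.normalizer (F : Set G) with hL'
            have sylowIn : ∀ T : Subgroup G, T ≤ L' → IsPGroup p ↥T →
                ∃ T₂ : Sylow p ↥L', T ≤ (T₂ : Subgroup ↥L').map L'.subtype := by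
              intro T hT hTp
              obtain ⟨T₂, hT₂⟩ := (hTp.comap_of_injective L'.subtype L'.subtype_injective :
                IsPGroup p ↥(T.subgroupOf L')).exists_le_sylow
              exact ⟨T₂, fun t ht => ⟨⟨t, hT ht⟩, hT₂ ht, rfl⟩⟩
            obtain ⟨S₁, hS₁⟩ := (Q.isPGroup'.map M.subtype).exists_le_sylow
            have hne : Qg ≠ (S₁ : Subgroup G) := fun h => hfull (by
              rw [← CfsgLib.SylowChain.card_map_subtype, ← hQg, h,
                CfsgLib.SylowChain.card_sylow_eq S₁ U₁])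
            obtain ⟨r, hrS, hrN, hrQ⟩ :=
              CfsgLib.LocalP.exists_normalizes_not_mem S₁.isPGroup' hS₁ hne
            have hbig : Qg ⊔ Subgroup.zpowers r ≤ L' :=
              sup_le hQN (Subgroup.zpowers_le.mpr (hNle hrN))
            have hbigp : IsPGroup p ↥(Qg ⊔ Subgroup.zpowers r : Subgroup G) :=
              S₁.isPGroup'.to_le (sup_le hS₁ (Subgroup.zpowers_le.mpr hrS))
            obtain ⟨T₃, hT₃⟩ := sylowIn _ hbig hbigp
            obtain ⟨R₂, hR₂⟩ := sylowIn _ hPN (P.isPGroup'.map M.subtype)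
            obtain ⟨R₂', hR₂'⟩ := sylowIn _ hP'N (P'.isPGroup'.map M.subtype)
            have hlt : Nat.card ↥(R₁ : Subgroup ↥M) < Nat.card ↥(R₂ : Subgroup ↥L') := by
              rw [CfsgLib.SylowChain.card_sylow_eq R₁ Q, CfsgLib.SylowChain.card_sylow_eq R₂ T₃,
                ← CfsgLib.SylowChain.card_map_subtype, ← hQg,
                ← CfsgLib.SylowChain.card_map_subtype (T₃ : Subgroup ↥L')]
              refine lt_of_lt_of_le ?_ (Subgroup.card_le_of_le hT₃)
              refine lt_of_le_of_ne (Subgroup.card_le_of_le le_sup_left) fun he => hrQ ?_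
              have := Subgroup.eq_of_le_of_card_ge (le_sup_left : Qg ≤ Qg ⊔ Subgroup.zpowers r) he.ge
              exact this.ge (Subgroup.mem_sup_right (Subgroup.mem_zpowers r))
            obtain ⟨U₂, hU₂⟩ := (R₂.isPGroup'.map L'.subtype).exists_le_sylow
            obtain ⟨V₂, hV₂⟩ := (R₂'.isPGroup'.map L'.subtype).exists_le_sylow
            have hlt2 : Nat.card ↥(R₂ : Subgroup ↥L') ≤ Nat.card G :=
              (cardLt L' R₂ U₁).trans (Subgroup.card_le_card_group _)
            refine ((ih.2 U₂ (hR₂.trans hU₂)).trans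
              (ihm _ (by omega) L' R₂ R₂' hLoc rfl (ih.1.trans_le hR₂) (hDP'.trans_le hR₂')
                U₂ V₂ hU₂ hV₂)).trans (up _ hDP' V₂ W (hR₂'.trans hV₂) hW)
      · -- singular: `M` itself is a member
        have hM𝓕 : M ∈ 𝓕 := Or.inr ⟨hMmax', hreg⟩
        have hmem : ∀ (T : Sylow p ↥M) (W : Sylow p G), (T : Subgroup ↥M).map M.subtype ≤ (W : Subgroup G) →
            M ∈ Cfsg.sylowMembers p 𝓕 (W : Subgroup G) := by
          intro T W hW
          refine CfsgLib.SylowChain.mem_sylowMembers_iff.mpr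
            ⟨hM𝓕, W.isPGroup'.to_le inf_le_left, fun h => T.not_dvd_index ?_⟩
          refine h.trans (Subgroup.index_dvd_of_le fun t ht => Subgroup.mem_subgroupOf.mpr (hW ⟨t, ht, rfl⟩))
        obtain ⟨x, hx⟩ := MulAction.exists_smul_eq ↥M R₁' R₁
        set V₀ := CfsgLib.SylowChain.conjS ((x : G)⁻¹) V₁ with hV₀
        have hR₁V₀ : (R₁ : Subgroup ↥M).map M.subtype ≤ (V₀ : Subgroup G) := by
          rw [← hx]
          rintro _ ⟨t, ⟨s, hs, rfl⟩, rfl⟩
          rw [hV₀, CfsgLib.SylowChain.coe_conjS, CfsgLib.SylowChain.mem_conjR]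
          have := hV₁ ⟨s, hs, rfl⟩
          simpa [mul_assoc] using this
        refine (up _ hDR₁ U₁ V₀ hU₁ hR₁V₀).tail ⟨M, (x : G)⁻¹, hmem R₁ V₀ hR₁V₀, hmem R₁' V₁ hV₁,
          inv_mem x.2, rfl, le_inf (hDR₁'.le.trans hV₁) (hDR₁'.le.trans (Subgroup.map_subtype_le _))⟩
    intro U V hDU hDV
    by_cases hDU' : D = (U : Subgroup G)
    · have : U = V := Sylow.ext (U.is_maximal' V.isPGroup' (hDU' ▸ hDV)).symm
      rw [this]
      exact Relation.ReflTransGen.refl
    by_cases hDV' : D = (V : Subgroup G)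
    · have : U = V := Sylow.ext (V.is_maximal' U.isPGroup' (hDV' ▸ hDU))
      rw [this]
      exact Relation.ReflTransGen.refl
    set L := Subgroup.normalizer (D : Set G) with hL
    have hLoc : Cfsg.IsPLocal p L := ⟨D, hDp, hD1, rfl⟩
    have grow : ∀ W : Sylow p G, D ≤ (W : Subgroup G) → D ≠ (W : Subgroup G) →
        ∃ (E : Subgroup G) (R : Sylow p ↥L), D < E ∧ E ≤ (W : Subgroup G) ∧
          E ≤ (R : Subgroup ↥L).map L.subtype := by
      intro W hW hne
      obtain ⟨r, hrW, hrN, hrD⟩ := CfsgLib.LocalP.exists_normalizes_not_mem W.isPGroup' hW hne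
      have hE : D ⊔ Subgroup.zpowers r ≤ (W : Subgroup G) := sup_le hW (Subgroup.zpowers_le.mpr hrW)
      have hEL : D ⊔ Subgroup.zpowers r ≤ L :=
        sup_le Subgroup.le_normalizer (Subgroup.zpowers_le.mpr hrN)
      obtain ⟨R, hR⟩ := ((W.isPGroup'.to_le hE).comap_of_injective L.subtype L.subtype_injective :
        IsPGroup p ↥((D ⊔ Subgroup.zpowers r).subgroupOf L)).exists_le_sylow
      refine ⟨D ⊔ Subgroup.zpowers r, R, lt_of_le_of_ne le_sup_left fun he => hrD ?_, hE,
        fun e he => ⟨⟨e, hEL he⟩, hR he, rfl⟩⟩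
      rw [he]
      exact Subgroup.mem_sup_right (Subgroup.mem_zpowers r)
    obtain ⟨E, R, hDE, hEU, hER⟩ := grow U hDU hDU'
    obtain ⟨E', R', hDE', hEV, hER'⟩ := grow V hDV hDV'
    obtain ⟨U₁, hU₁⟩ := (R.isPGroup'.map L.subtype).exists_le_sylow
    obtain ⟨V₁, hV₁⟩ := (R'.isPGroup'.map L.subtype).exists_le_sylow
    exact ((up E hDE U U₁ hEU (hER.trans hU₁)).trans
      (inner _ L R R' hLoc rfl (hDE.trans_le hER) (hDE'.trans_le hER') U₁ V₁ hU₁ hV₁)).trans
      (up E' hDE' V₁ V (hER'.trans hV₁) hEV)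
  rw [CfsgLib.SylowChain.controls_iff]
  exact fun S T _ hD => main _ (S.isPGroup'.to_le inf_le_left) hD S T inf_le_left inf_le_right

end Cfsg.Agent.S2956
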