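import Cfsg.Statements.S2957
import Cfsg.Agent.LocalP.FunctorChain
import Cfsg.Agent.S2940

set_option autoImplicit false
open Cfsg

namespace Cfsg.Agent.S2957

/-- Let p be a prime dividing the order of the finite group G, f an equivariant assignment of a set of subgroups f(P) of P to every p-subgroup P, each normalized by N_G(P), and S a Sylow p-subgroup. If G = G₁G₂ for subgroups G₁, G₂ both containing S and both regular for f (in each Gᵢ, the family of normalizers in Gᵢ of the members of f(P), P a Sylow p-subgroup of Gᵢ, controls Sylow p-intersections), then G itself is regular for f. -/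
theorem result {G : Type*} [Group G] [Finite G] (p : ℕ) [Fact p.Prime] (hdiv : p ∣ Nat.card G)
    (f : Subgroup G → Set (Subgroup G)) (hf : Cfsg.IsNormalizerFunctor p f) (S : Sylow p G)
    (G₁ G₂ : Subgroup G) (h₁ : (S : Subgroup G) ≤ G₁) (h₂ : (S : Subgroup G) ≤ G₂)
    (hprod : ∀ g : G, ∃ g₁ ∈ G₁, ∃ g₂ ∈ G₂, g = g₁ * g₂)
    (hr₁ : Cfsg.IsFunctorRegular p f G₁) (hr₂ : Cfsg.IsFunctorRegular p f G₂) :
    Cfsg.IsFunctorRegular p f ⊤ := by
  apply CfsgLib.SylowChain.regular_top
  intro A B hD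
  -- conjugate everything to start at `S`
  obtain ⟨a, ha⟩ := CfsgLib.SylowChain.exists_conjS S A
  set T := CfsgLib.SylowChain.conjS a B with hTdef
  have hDa : (S : Subgroup G) ⊓ (T : Subgroup G) =
      Cfsg.subgroupConjRight a ((A : Subgroup G) ⊓ (B : Subgroup G)) := by
    rw [← ha, CfsgLib.SylowChain.conjR_inf]
    rfl
  suffices h : CfsgLib.SylowChain.Linked (CfsgLib.SylowChain.normFamily p f)
      ((S : Subgroup G) ⊓ (T : Subgroup G)) S T by
    have h' := h.conjS (CfsgLib.SylowChain.normFamily_isNormalSet hf) a⁻¹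
    rw [hDa, CfsgLib.SylowChain.conjR_conjR, mul_inv_cancel, CfsgLib.SylowChain.conjR_one,
      hTdef, ← ha, CfsgLib.SylowChain.conjS_conjS, CfsgLib.SylowChain.conjS_conjS, mul_inv_cancel,
      CfsgLib.SylowChain.conjS_one, CfsgLib.SylowChain.conjS_one] at h'
    exact h'
  have hDne : (S : Subgroup G) ⊓ (T : Subgroup G) ≠ ⊥ := hDa ▸ CfsgLib.SylowChain.conjR_ne_bot hD
  obtain ⟨g, hg⟩ := CfsgLib.SylowChain.exists_conjS T S
  -- the intermediate Sylow subgroup
  obtain ⟨U, hDU, hU⟩ := Cfsg.Agent.S2940.result S G₁ G₂ h₁ h₂ hprod g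
  have hT : Cfsg.subgroupConjRight g (S : Subgroup G) = (T : Subgroup G) := by
    rw [← CfsgLib.SylowChain.coe_conjS, hg]
  rw [hT] at hDU
  have h1 : CfsgLib.SylowChain.Linked (CfsgLib.SylowChain.normFamily p f)
      ((S : Subgroup G) ⊓ (T : Subgroup G)) S U :=
    CfsgLib.SylowChain.linked_of_regular_full hf hr₁ hDne h₁ (hU.trans inf_le_left) inf_le_left hDU
  have hU2 : (CfsgLib.SylowChain.conjS g⁻¹ U : Subgroup G) ≤ G₂ := by
    rw [CfsgLib.SylowChain.coe_conjS]
    refine (CfsgLib.SylowChain.conjR_mono _ (hU.trans inf_le_right)).trans (le_of_eq ?_)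
    rw [CfsgLib.SylowChain.conjR_conjR, mul_inv_cancel, CfsgLib.SylowChain.conjR_one]
  have h2 := CfsgLib.SylowChain.linked_of_regular_full hf hr₂
    (CfsgLib.SylowChain.conjR_ne_bot (g := g⁻¹) hDne) hU2 h₂
    (CfsgLib.SylowChain.conjR_mono g⁻¹ hDU)
    (by
      refine (CfsgLib.SylowChain.conjR_mono g⁻¹ inf_le_right).trans (le_of_eq ?_)
      rw [← hT, CfsgLib.SylowChain.conjR_conjR, mul_inv_cancel, CfsgLib.SylowChain.conjR_one])
  have h3 := h2.conjS (CfsgLib.SylowChain.normFamily_isNormalSet hf) g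
  rw [CfsgLib.SylowChain.conjR_conjR, inv_mul_cancel, CfsgLib.SylowChain.conjR_one,
    CfsgLib.SylowChain.conjS_conjS, inv_mul_cancel, CfsgLib.SylowChain.conjS_one, hg] at h3
  exact h1.trans h3

end Cfsg.Agent.S2957
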