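import Cfsg.Statements.S2958


set_option autoImplicit false
open Cfsg

namespace Cfsg.Agent.S2958

/-- Let X, A, B be subgroups of a group G such that G is generated by the conjugates of X and every conjugate of X is contained in A or in B. Then A = G or B = G. -/
theorem result {G : Type*} [Group G] (X A B : Subgroup G) (hgen : (⨆ g : G, X.map (MulAut.conj g).toMonoidHom) = ⊤) (hcover : ∀ g : G, X.map (MulAut.conj g).toMonoidHom ≤ A ∨ X.map (MulAut.conj g).toMonoidHom ≤ B) : A = ⊤ ∨ B = ⊤ := by
  set H : Subgroup G := ⨆ g : {g : G // ¬ X.map (MulAut.conj g).toMonoidHom ≤ A},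
    X.map (MulAut.conj (g : G)).toMonoidHom with hH
  have hHB : H ≤ B := iSup_le fun g => (hcover g).resolve_left g.2
  have hmap : ∀ g h : G, (X.map (MulAut.conj g).toMonoidHom).map (MulAut.conj h).toMonoidHom
      = X.map (MulAut.conj (h * g)).toMonoidHom := by
    intro g h
    rw [Subgroup.map_map]
    congr 1
    ext u
    simp [mul_assoc]
  have hAinv : ∀ (g : G) (u : G), u ∈ A → X.map (MulAut.conj (u * g)).toMonoidHom ≤ A →
      X.map (MulAut.conj g).toMonoidHom ≤ A := by
    intro g u hu hle v hv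
    have h1 : u * v * u⁻¹ ∈ X.map (MulAut.conj (u * g)).toMonoidHom := by
      rw [← hmap]
      exact ⟨v, hv, by simp⟩
    have h2 := mul_mem (mul_mem (inv_mem hu) (hle h1)) hu
    simpa [mul_assoc] using h2
  have hnorm : ∀ g : G, X.map (MulAut.conj g).toMonoidHom ≤ Subgroup.normalizer (H : Set G) := by
    intro g
    by_cases hg : X.map (MulAut.conj g).toMonoidHom ≤ A
    · intro u hu
      have key : ∀ w ∈ A, H.map (MulAut.conj w).toMonoidHom ≤ H := by
        intro w hw
        rw [hH, Subgroup.map_iSup]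
        refine iSup_le fun k => ?_
        rw [hmap]
        exact le_iSup (fun g : {g : G // ¬ X.map (MulAut.conj g).toMonoidHom ≤ A} =>
          X.map (MulAut.conj (g : G)).toMonoidHom) ⟨w * k, fun h => k.2 (hAinv k w hw h)⟩
      rw [Subgroup.mem_normalizer_iff]
      intro v
      constructor
      · intro hv
        exact key u (hg hu) ⟨v, hv, by simp⟩
      · intro hv
        have := key u⁻¹ (inv_mem (hg hu)) ⟨u * v * u⁻¹, hv, rfl⟩
        simpa [mul_assoc] using this
    · exact le_trans (le_iSup (fun g : {g : G // ¬ X.map (MulAut.conj g).toMonoidHom ≤ A} =>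
          X.map (MulAut.conj (g : G)).toMonoidHom) ⟨g, hg⟩) Subgroup.le_normalizer
  have hn : H.Normal := Subgroup.normalizer_eq_top_iff.mp (top_le_iff.mp (hgen ▸ iSup_le hnorm))
  by_cases hall : ∀ g : G, X.map (MulAut.conj g).toMonoidHom ≤ A
  · exact Or.inl (top_le_iff.mp (hgen ▸ iSup_le hall))
  · push Not at hall
    obtain ⟨g, hg⟩ := hall
    refine Or.inr (top_le_iff.mp ?_)
    rw [← hgen]
    refine iSup_le fun k => le_trans ?_ hHB
    intro u hu
    have hgH : X.map (MulAut.conj g).toMonoidHom ≤ H :=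
      le_iSup (fun g : {g : G // ¬ X.map (MulAut.conj g).toMonoidHom ≤ A} =>
        X.map (MulAut.conj (g : G)).toMonoidHom) ⟨g, hg⟩
    obtain ⟨v, hv, rfl⟩ := hu
    have h1 : g * v * g⁻¹ ∈ H := hgH ⟨v, hv, by simp⟩
    have h2 := hn.conj_mem _ h1 (k * g⁻¹)
    simpa [mul_assoc] using h2

end Cfsg.Agent.S2958
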