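import Cfsg.Statements.S2960
import Cfsg.Agent.LocalP.AxB

set_option autoImplicit false
open Cfsg

namespace Cfsg.Agent.S2960

/-- Let G be a finite group of characteristic p (C_G(O_p(G)) ≤ O_p(G)), p prime, T a Sylow p-subgroup of G and Q a normal subgroup of T with C_T(Q) ≤ Q. Then C_G(Q) ≤ Q. -/
theorem result {G : Type*} [Group G] [Finite G] {p : ℕ} [Fact p.Prime] (hG : Subgroup.centralizer (Cfsg.pCore p G : Set G) ≤ Cfsg.pCore p G) (T : Sylow p G) (Q : Subgroup G) (hQT : Q ≤ (T : Subgroup G)) (hQn : (T : Subgroup G) ≤ Subgroup.normalizer (Q : Set G)) (hC : (T : Subgroup G) ⊓ Subgroup.centralizer (Q : Set G) ≤ Q) : Subgroup.centralizer (Q : Set G) ≤ Q := by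
  have hPT : Cfsg.pCore p G ≤ (T : Subgroup G) :=
    CfsgLib.LocalP.isPGroup_pCore.le_sylow_of_normal T
  have hQ : IsPGroup p Q := T.isPGroup'.to_le hQT
  have hCp : IsPGroup p (Subgroup.centralizer (Q : Set G)) := by
    refine CfsgLib.LocalP.isPGroup_of_forall_coprime _ fun x hx hcop => ?_
    apply CfsgLib.LocalP.eq_one_of_centralizes_pCore hG hcop
    have hxQ : ∀ q ∈ Q, x * q = q * x := fun q hq => (Subgroup.mem_centralizer_iff.mp hx q hq).symm
    refine CfsgLib.LocalP.commute_of_centralizes_fixed CfsgLib.LocalP.isPGroup_pCore hQ ?_ hcop ?_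
      hxQ fun u hu hfix => hxQ u (hC ⟨hPT hu, Subgroup.mem_centralizer_iff.mpr hfix⟩)
    · exact Subgroup.normalizer_eq_top (Cfsg.pCore p G) ▸ le_top
    · exact Subgroup.normalizer_eq_top (Cfsg.pCore p G) ▸ Subgroup.mem_top x
  have hTN : (T : Subgroup G) ≤ Subgroup.normalizer (Subgroup.centralizer (Q : Set G) : Set G) := by
    intro t ht
    rw [Subgroup.mem_normalizer_iff]
    have key : ∀ w ∈ (T : Subgroup G), ∀ u ∈ Subgroup.centralizer (Q : Set G),
        w * u * w⁻¹ ∈ Subgroup.centralizer (Q : Set G) := by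
      intro w hw u hu
      rw [Subgroup.mem_centralizer_iff]
      intro q hq
      have hq' : w⁻¹ * q * w ∈ Q := by
        simpa using (Subgroup.mem_normalizer_iff.mp (hQn (inv_mem hw)) q).mp hq
      have h := Subgroup.mem_centralizer_iff.mp hu _ hq'
      calc q * (w * u * w⁻¹) = w * ((w⁻¹ * q * w) * u) * w⁻¹ := by group
        _ = w * (u * (w⁻¹ * q * w)) * w⁻¹ := by rw [h]
        _ = w * u * w⁻¹ * q := by group
    exact fun u => ⟨key t ht u, fun hu => by simpa [mul_assoc] using key t⁻¹ (inv_mem ht) _ hu⟩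
  have hle : Subgroup.centralizer (Q : Set G) ≤ (T : Subgroup G) := by
    have hsup : IsPGroup p ((T : Subgroup G) ⊔ Subgroup.centralizer (Q : Set G) : Subgroup G) :=
      T.isPGroup'.to_sup_of_normal_right' hCp hTN
    exact le_sup_right.trans (T.is_maximal' hsup le_sup_left).le
  exact fun x hx => hC ⟨hle hx, hx⟩

end Cfsg.Agent.S2960
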