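import Cfsg.Statements.S2961
import Cfsg.Agent.LocalP.AxB
import Cfsg.Agent.S2960

set_option autoImplicit false
open Cfsg

namespace Cfsg.Agent.S2961

/-- Let G be a finite group of characteristic p (C_G(O_p(G)) ≤ O_p(G)), p prime, T a Sylow p-subgroup of G and Q a normal subgroup of T with C_T(Q) ≤ Q. Then every subgroup L of G containing Q has characteristic p: C_L(O_p(L)) ≤ O_p(L). -/
theorem result {G : Type*} [Group G] [Finite G] {p : ℕ} [Fact p.Prime] (hG : Subgroup.centralizer (Cfsg.pCore p G : Set G) ≤ Cfsg.pCore p G) (T : Sylow p G) (Q : Subgroup G) (hQT : Q ≤ (T : Subgroup G)) (hQn : (T : Subgroup G) ≤ Subgroup.normalizer (Q : Set G)) (hC : (T : Subgroup G) ⊓ Subgroup.centralizer (Q : Set G) ≤ Q) (L : Subgroup G) (hQL : Q ≤ L) : Subgroup.centralizer (Cfsg.pCore p ↥L : Set ↥L) ≤ Cfsg.pCore p ↥L := by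
  have hself : Subgroup.centralizer (Q : Set G) ≤ Q := Cfsg.Agent.S2960.result hG T Q hQT hQn hC
  set P : Subgroup G := Cfsg.pCore p G with hPdef
  have hPn : P.Normal := Cfsg.pCore_normal p G
  have hPp : IsPGroup p P := CfsgLib.LocalP.isPGroup_pCore
  have hPT : P ≤ (T : Subgroup G) := hPp.le_sylow_of_normal T
  have hQp : IsPGroup p Q := T.isPGroup'.to_le hQT
  set K : Subgroup ↥L := Subgroup.centralizer (Cfsg.pCore p ↥L : Set ↥L) with hKdef
  have hKn : K.Normal := by rw [hKdef]; infer_instance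
  set Kg : Subgroup G := K.map L.subtype with hKg
  have hLK : L ≤ Subgroup.normalizer (Kg : Set G) := by
    intro l hl
    rw [Subgroup.mem_normalizer_iff]
    intro u
    constructor
    · rintro ⟨v, hv, rfl⟩
      exact ⟨⟨l, hl⟩ * v * ⟨l, hl⟩⁻¹, hKn.conj_mem v hv _, rfl⟩
    · rintro ⟨v, hv, hvu⟩
      refine ⟨⟨l, hl⟩⁻¹ * v * ⟨l, hl⟩, by simpa using hKn.conj_mem v hv ⟨l, hl⟩⁻¹, ?_⟩
      simp only [Subgroup.coe_subtype] at hvu
      simp [hvu, mul_assoc]
  have hKgL : Kg ≤ L := Subgroup.map_subtype_le K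
  have hKcomm : ∀ k ∈ Kg, ∀ u ∈ P, u ∈ L → k * u = u * k := by
    rintro _ ⟨k, hk, rfl⟩ u hu huL
    have hmem : (⟨u, huL⟩ : ↥L) ∈ Cfsg.pCore p ↥L :=
      CfsgLib.LocalP.subgroupOf_le_pCore hPn hPp L (by simpa [Subgroup.mem_subgroupOf] using hu)
    simpa using congrArg Subtype.val (Subgroup.mem_centralizer_iff.mp hk _ hmem).symm
  set K0 : Subgroup G := ⁅Kg, Q⁆ with hK0
  have hK0le : K0 ≤ Kg :=
    Subgroup.le_normalizer_iff_commutator_le_left.mp (hQL.trans hLK)
  set S : Set G := {z | z ∈ K0 ∧ (orderOf z).Coprime p} with hS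
  set D : Subgroup G := P ⊓ Subgroup.centralizer S with hD
  have hPL : ∀ u ∈ P, u ∈ L → u ∈ D := fun u hu huL => ⟨hu, Subgroup.mem_centralizer_iff.mpr
    fun z hz => hKcomm z (hK0le hz.1) u hu huL⟩
  have hDnorm : ∀ w ∈ Subgroup.normalizer (K0 : Set G), w ∈ Subgroup.normalizer (D : Set G) := by
    have key : ∀ w ∈ Subgroup.normalizer (K0 : Set G), ∀ u ∈ D, w * u * w⁻¹ ∈ D := by
      rintro w hw u ⟨hu1, hu2⟩
      refine ⟨hPn.conj_mem u hu1 w, Subgroup.mem_centralizer_iff.mpr fun z hz => ?_⟩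
      have hz' : w⁻¹ * z * w ∈ S := by
        refine ⟨by simpa using (Subgroup.mem_normalizer_iff.mp (inv_mem hw) z).mp hz.1, ?_⟩
        have : orderOf (w⁻¹ * z * w) = orderOf z := by
          simpa using MulEquiv.orderOf_eq (MulAut.conj w⁻¹) z
        rw [this]; exact hz.2
      have h := Subgroup.mem_centralizer_iff.mp hu2 _ hz'
      calc z * (w * u * w⁻¹) = w * ((w⁻¹ * z * w) * u) * w⁻¹ := by group
        _ = w * (u * (w⁻¹ * z * w)) * w⁻¹ := by rw [h]
        _ = w * u * w⁻¹ * z := by group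
    intro w hw
    rw [Subgroup.mem_normalizer_iff]
    exact fun u => ⟨key w hw u, fun hu => by simpa [mul_assoc] using key w⁻¹ (inv_mem hw) _ hu⟩
  -- elements of `P` are centralized by the p'-elements of `K0`
  have hDP : D = P := by
    by_contra hne
    obtain ⟨y, hy, hyN, hyD⟩ := CfsgLib.LocalP.exists_normalizes_not_mem hPp inf_le_left hne
    have hconjR : ∀ z ∈ Subgroup.normalizer (D : Set G), ∀ u ∈ P ⊓ Subgroup.normalizer (D : Set G),
        z * u * z⁻¹ ∈ P ⊓ Subgroup.normalizer (D : Set G) := fun z hz u hu =>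
      Subgroup.mem_inf.mpr ⟨hPn.conj_mem u hu.1 z, mul_mem (mul_mem hz hu.2) (inv_mem hz)⟩
    let A : Subgroup G :=
      { carrier := {z | z ∈ Subgroup.normalizer (D : Set G) ∧
          ∀ u ∈ P ⊓ Subgroup.normalizer (D : Set G), z * u * z⁻¹ * u⁻¹ ∈ D}
        one_mem' := ⟨one_mem _, fun u _ => by simp⟩
        mul_mem' := by
          rintro z w ⟨hz, hz'⟩ ⟨hw, hw'⟩
          refine ⟨mul_mem hz hw, fun u hu => ?_⟩
          have h1 := (Subgroup.mem_normalizer_iff.mp hz _).mp (hw' u hu)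
          have h2 := hz' u hu
          simpa [mul_assoc] using mul_mem h1 h2
        inv_mem' := by
          rintro z ⟨hz, hz'⟩
          refine ⟨inv_mem hz, fun u hu => ?_⟩
          have h := inv_mem (hz' _ (hconjR z⁻¹ (inv_mem hz) u hu))
          simpa [mul_assoc] using h }
    have hQA : ∀ q ∈ Q, q ∈ A := by
      intro q hq
      refine ⟨hDnorm q (Subgroup.normalizer_commutator_ge_right Kg Q hq), fun u hu => ?_⟩
      refine hPL _ (mul_mem (hPn.conj_mem u hu.1 q) (inv_mem hu.1)) (hQL ?_)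
      have h := (Subgroup.mem_normalizer_iff.mp (hQn (hPT hu.1)) q⁻¹).mp (inv_mem hq)
      simpa [mul_assoc] using mul_mem hq h
    have hK0A : K0 ≤ A := by
      refine Subgroup.commutator_le.mpr fun k hk q hq => ?_
      have hkN : k ∈ Subgroup.normalizer (D : Set G) :=
        hDnorm k (Subgroup.normalizer_commutator_ge_left Kg Q hk)
      have hkq : k * q * k⁻¹ ∈ A := by
        refine ⟨mul_mem (mul_mem hkN (hQA q hq).1) (inv_mem hkN), fun u hu => ?_⟩
        have h := (Subgroup.mem_normalizer_iff.mp hkN _).mp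
          ((hQA q hq).2 _ (hconjR k⁻¹ (inv_mem hkN) u hu))
        simpa [mul_assoc] using h
      simpa [commutatorElement_def] using mul_mem hkq (inv_mem (hQA q hq))
    refine hyD ⟨hy, Subgroup.mem_centralizer_iff.mpr fun z hz => ?_⟩
    have hd := (hK0A hz.1).2 y ⟨hy, hyN⟩
    exact CfsgLib.Coprime.commute_of_commute_commutator
      (Subgroup.mem_centralizer_iff.mp hd.2 z hz)
      (CfsgLib.LocalP.coprime_orderOf_of_mem hPp hd.1 hz.2)
  have hK0p : IsPGroup p K0 := by
    refine CfsgLib.LocalP.isPGroup_of_forall_coprime _ fun z hz hcop => ?_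
    refine CfsgLib.LocalP.eq_one_of_centralizes_pCore hG hcop fun u hu => ?_
    have : u ∈ D := hDP.symm ▸ hu
    exact Subgroup.mem_centralizer_iff.mp this.2 z ⟨hz, hcop⟩
  refine CfsgLib.LocalP.centralizer_pCore_le fun k hk hcop => ?_
  have hkK : (k : G) ∈ Kg := ⟨k, hk, rfl⟩
  have hcop' : (orderOf (k : G)).Coprime p := by rwa [Subgroup.orderOf_coe]
  -- `[k, q]` lies in `O_p(L)`
  have hcO : ∀ c ∈ K0, ∀ hcL : c ∈ L, (⟨c, hcL⟩ : ↥L) ∈ Cfsg.pCore p ↥L := by
    intro c hc hcL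
    obtain ⟨v, hv, hvc⟩ := hK0le hc
    have hvK : v ∈ K := hv
    have hn : ((K0.subgroupOf L).subgroupOf K).Normal := by
      constructor
      intro a ha b
      simp only [Subgroup.mem_subgroupOf] at ha ⊢
      exact (Subgroup.mem_normalizer_iff.mp (Subgroup.normalizer_commutator_ge_left
        Kg Q (show ((b : ↥L) : G) ∈ Kg from ⟨b, b.2, rfl⟩)) _).mp ha
    have hp' : IsPGroup p ((K0.subgroupOf L).subgroupOf K) :=
      (hK0p.comap_of_injective L.subtype L.subtype_injective).comap_of_injective K.subtype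
        K.subtype_injective
    have hvc' : (v : G) = c := hvc
    have hm : (⟨v, hvK⟩ : ↥K) ∈ Cfsg.pCore p ↥K :=
      CfsgLib.LocalP.le_pCore hn hp' (by simp [Subgroup.mem_subgroupOf, hvc', hc])
    have := CfsgLib.LocalP.map_pCore_le_of_normal (p := p) K (Subgroup.mem_map_of_mem K.subtype hm)
    have hveq : v = (⟨c, hcL⟩ : ↥L) := Subtype.ext hvc'
    simpa [hveq] using this
  apply Subtype.ext
  refine CfsgLib.LocalP.eq_one_of_centralizes_pCore hG hcop' ?_
  have hkQ : ∀ q ∈ Q, (k : G) * q = q * k := by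
    intro q hq
    have hc : (k : G) * q * (k : G)⁻¹ * q⁻¹ ∈ K0 := Subgroup.commutator_mem_commutator hkK hq
    refine CfsgLib.Coprime.commute_of_commute_commutator ?_
      (CfsgLib.LocalP.coprime_orderOf_of_mem hK0p hc hcop')
    have := Subgroup.mem_centralizer_iff.mp hk _ (hcO _ hc (hKgL (hK0le hc)))
    simpa using congrArg Subtype.val this.symm
  refine CfsgLib.LocalP.commute_of_centralizes_fixed hPp hQp ?_ hcop' ?_ hkQ
    fun u hu hfix => hKcomm _ hkK u hu (hQL (hself (Subgroup.mem_centralizer_iff.mpr hfix)))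
  · exact Subgroup.normalizer_eq_top P ▸ le_top
  · exact Subgroup.normalizer_eq_top P ▸ Subgroup.mem_top _

end Cfsg.Agent.S2961
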