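import Cfsg.Statements.S2963
import Cfsg.Agent.Eq.Def_LocalEven

set_option autoImplicit false
open Cfsg

namespace Cfsg.Agent.S2963


open MulAction Equiv
open scoped Pointwise

private theorem exists_two_maximal (n k : ℕ) (hk2 : 2 ≤ k) (hkn : k + 3 ≤ n) (hn : Odd n)
    (hodd : ¬ 2 ∣ n.choose k) :
    ∃ (S : Sylow 2 (Perm (Fin n))) (A B : Subgroup (Perm (Fin n))),
      A ≠ B ∧ IsCoatom A ∧ IsCoatom B ∧ (S : Subgroup (Perm (Fin n))) ≤ A ∧
      (S : Subgroup (Perm (Fin n))) ≤ B := by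
  classical
  haveI : Fact (Nat.Prime 2) := ⟨Nat.prime_two⟩
  set s : Set (Fin n) := {i : Fin n | (i : ℕ) < k} with hs
  have hscard : Nat.card {i : Fin n // i ∈ s} = k := by
    rw [Nat.card_congr (Equiv.mk (fun i : {i : Fin n // i ∈ s} => (⟨i.1.1, i.2⟩ : Fin k))
      (fun j => ⟨⟨j.1, by omega⟩, j.2⟩) (fun i => rfl) (fun j => rfl))]
    simp
  have hsnc : s.ncard = k := by rw [← Nat.card_coe_set_eq]; exact hscard
  have hsccard : Nat.card {i : Fin n // ¬ i ∈ s} = n - k := by
    have h1 := Nat.card_congr (Equiv.sumCompl fun i : Fin n => i ∈ s)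
    rw [Nat.card_sum, Nat.card_fin, hscard] at h1
    omega
  set M := stabilizer (Perm (Fin n)) s with hM
  have hle : (Perm.subtypeCongrHom fun i : Fin n => i ∈ s).range ≤ M := by
    rintro _ ⟨⟨a, b⟩, rfl⟩
    rw [hM, mem_stabilizer_iff]
    refine Set.eq_of_subset_of_ncard_le ?_ ?_ (Set.toFinite _)
    · rintro _ ⟨i, hi, rfl⟩
      simp only [Perm.subtypeCongrHom_apply, Perm.smul_def]
      rw [Perm.subtypeCongr.left_apply a b hi]
      exact (a ⟨i, hi⟩).2
    · rw [Set.ncard_smul_set]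
  have hcard : k.factorial * (n - k).factorial ∣ Nat.card M := by
    refine dvd_trans ?_ (Subgroup.card_dvd_of_le hle)
    rw [← Nat.card_congr (MonoidHom.ofInjective (Perm.subtypeCongrHom_injective _)).toEquiv,
      Nat.card_prod, Nat.card_perm, Nat.card_perm, hscard, hsccard]
  have hidx : ¬ 2 ∣ M.index := by
    intro h2
    apply hodd
    refine h2.trans ?_
    have h1 : M.index * (k.factorial * (n - k).factorial) ∣ M.index * Nat.card M :=
      Nat.mul_dvd_mul_left _ hcard
    rw [M.index_mul_card, Nat.card_perm, Nat.card_fin,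
      ← Nat.choose_mul_factorial_mul_factorial (show k ≤ n by omega), mul_assoc] at h1
    exact Nat.dvd_of_mul_dvd_mul_right (by positivity) h1
  obtain ⟨P⟩ : Nonempty (Sylow 2 M) := inferInstance
  have hPcard : Nat.card ((P : Subgroup M).map M.subtype)
      = 2 ^ (Nat.card (Perm (Fin n))).factorization 2 := by
    rw [Subgroup.card_subtype, Sylow.card_eq_multiplicity P, ← M.index_mul_card,
      Nat.factorization_mul (Subgroup.index_ne_zero_of_finite) Nat.card_pos.ne']
    simp [Nat.factorization_eq_zero_of_not_dvd hidx]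
  set S : Sylow 2 (Perm (Fin n)) := Sylow.ofCard _ hPcard with hS
  have hSle : (S : Subgroup (Perm (Fin n))) ≤ M := by
    rw [hS, Sylow.coe_ofCard]
    exact Subgroup.map_subtype_le _
  have hnd : ¬ 2 ∣ Nat.card (Fin n) := by
    rw [Nat.card_fin]; exact fun h => Nat.not_even_iff_odd.mpr hn (even_iff_two_dvd.mpr h)
  obtain ⟨a, ha⟩ := S.isPGroup'.nonempty_fixed_point_of_prime_not_dvd_card (Fin n) hnd
  refine ⟨S, M, stabilizer (Perm (Fin n)) ({a} : Set (Fin n)), ?_, ?_, ?_, hSle, ?_⟩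
  · intro heq
    obtain ⟨b, hb, hab⟩ : ∃ b : Fin n, (b ∈ s ↔ a ∈ s) ∧ b ≠ a := by
      by_cases h : a ∈ s
      · rcases eq_or_ne a ⟨0, by omega⟩ with h0 | h0
        · refine ⟨⟨1, by omega⟩, ?_, ?_⟩
          · simp only [h, iff_true]; show (1 : ℕ) < k; omega
          · subst h0; simp
        · refine ⟨⟨0, by omega⟩, ?_, h0.symm⟩
          simp only [h, iff_true]; show (0 : ℕ) < k; omega
      · rcases eq_or_ne a ⟨k, by omega⟩ with h0 | h0
        · refine ⟨⟨k + 1, by omega⟩, ?_, ?_⟩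
          · simp only [h, iff_false]; show ¬ (k + 1 : ℕ) < k; omega
          · subst h0; simp [Fin.ext_iff]
        · refine ⟨⟨k, by omega⟩, ?_, h0.symm⟩
          simp only [h, iff_false]; show ¬ (k : ℕ) < k; omega
    have hsw : swap a b ∈ M := by
      rw [hM, mem_stabilizer_iff]
      refine Set.eq_of_subset_of_ncard_le ?_ ?_ (Set.toFinite _)
      · rintro _ ⟨i, hi, rfl⟩
        show swap a b i ∈ s
        rcases eq_or_ne i a with rfl | hia
        · rw [swap_apply_left]; exact hb.mpr hi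
        · rcases eq_or_ne i b with rfl | hib
          · rw [swap_apply_right]; exact hb.mp hi
          · rwa [swap_apply_of_ne_of_ne hia hib]
      · rw [Set.ncard_smul_set]
    rw [heq, mem_stabilizer_iff, Set.smul_set_singleton, Set.singleton_eq_singleton_iff,
      Perm.smul_def, swap_apply_left] at hsw
    exact hab hsw
  · apply Perm.isCoatom_stabilizer
    · exact ⟨⟨0, by omega⟩, show (0 : ℕ) < k by omega⟩
    · exact ⟨⟨k, by omega⟩, show ¬ (k : ℕ) < k by omega⟩
    · rw [Nat.card_fin, hsnc]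
      obtain ⟨c, rfl⟩ := hn; omega
  · apply Perm.isCoatom_stabilizer (Set.singleton_nonempty a)
    · obtain ⟨b, hb⟩ : ∃ b : Fin n, b ≠ a := by
        haveI : Nontrivial (Fin n) := Fin.nontrivial_iff_two_le.mpr (by omega)
        exact exists_ne a
      exact ⟨b, hb⟩
    · rw [Nat.card_fin, Set.ncard_singleton]; omega
  · intro g hg
    rw [mem_stabilizer_iff, Set.smul_set_singleton]
    exact congrArg _ (ha ⟨g, hg⟩)

private theorem not_two_dvd_choose (t n : ℕ) (h1 : 2 ^ t ≤ n) (h2 : n < 2 ^ (t + 1)) :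
    ¬ 2 ∣ n.choose (2 ^ t) := by
  haveI : Fact (Nat.Prime 2) := ⟨Nat.prime_two⟩
  intro hd
  have hne : n.choose (2 ^ t) ≠ 0 := (Nat.choose_pos h1).ne'
  have h3 := one_le_padicValNat_of_dvd hne hd
  rw [padicValNat_choose (b := t + 2) h1
    (by have := Nat.log_lt_of_lt_pow (show n ≠ 0 by have := Nat.two_pow_pos t; omega) h2; omega)] at h3
  rw [Finset.filter_false_of_mem, Finset.card_empty] at h3
  · omega
  intro i hi
  rw [not_le]
  rw [Finset.mem_Ico] at hi
  rcases le_or_gt i t with h | h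
  · rw [Nat.mod_eq_zero_of_dvd (pow_dvd_pow 2 h)] at *
    simpa using Nat.mod_lt _ (pow_pos two_pos i)
  · have : 2 ^ (t + 1) ≤ 2 ^ i := Nat.pow_le_pow_right two_pos h
    have := Nat.mod_le (2 ^ t) (2 ^ i)
    have := Nat.mod_le (n - 2 ^ t) (2 ^ i)
    omega


/-- Let n be odd. If the symmetric group of degree n is a minimal parabolic group for the prime 2, that is, a Sylow 2-subgroup is not normal and lies in exactly one maximal subgroup, then n = 2^m + 1 for some natural number m. -/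
theorem result (n : ℕ) (hn : Odd n) (h : Cfsg.IsPMinimal 2 (Equiv.Perm (Fin n))) : ∃ m : ℕ, n = 2 ^ m + 1 := by

  by_contra hne
  rcases Nat.lt_or_ge n 3 with h3 | h3
  · obtain ⟨c, hc⟩ := hn
    obtain rfl : n = 1 := by omega
    obtain ⟨S⟩ : Nonempty (Sylow 2 (Equiv.Perm (Fin 1))) := inferInstance
    exact (h S).1 ⟨fun x _ g => by rw [Subsingleton.elim (g * x * g⁻¹) 1]; exact one_mem _⟩
  · set t := Nat.log 2 n with ht
    have h1 : 2 ^ t ≤ n := Nat.pow_log_le_self 2 (by omega)
    have h2 : n < 2 ^ (t + 1) := Nat.lt_pow_succ_log_self one_lt_two n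
    have ht1 : 1 ≤ t := Nat.log_pos one_lt_two (by omega)
    have heven : 2 ∣ 2 ^ t := dvd_pow_self 2 (by omega)
    have hne1 : n ≠ 2 ^ t + 1 := fun h => hne ⟨t, h⟩
    have h4 : 2 ^ t + 3 ≤ n := by
      obtain ⟨c, hc⟩ := hn
      omega
    obtain ⟨S, A, B, hAB, hA, hB, hSA, hSB⟩ := exists_two_maximal n (2 ^ t)
      (Nat.le_of_dvd (by positivity) heven) h4 hn (not_two_dvd_choose t n h1 h2)
    obtain ⟨M, -, huniq⟩ := (h S).2
    exact hAB ((huniq A ⟨hA, hSA⟩).trans (huniq B ⟨hB, hSB⟩).symm)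

end Cfsg.Agent.S2963
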