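import Cfsg.Statements.S2984
import Mathlib
import Cfsg.Agent.BaumannBlock.Structure
import Cfsg.Agent.Eq.Def_BaumannBlocks
import Cfsg.Agent.Eq.Def_LocalStructure

set_option autoImplicit false
open Cfsg
open scoped commutatorElement

namespace Cfsg.Agent.S2984

/-- Let G be a finite group of characteristic p (C_G(O_p(G)) ≤ O_p(G)), T a Sylow p-subgroup and E a B(T)-block of G, with W_E = [Ω₁(Z(O_p(E))), E]. Then E = O^p(E·O_p(G)), W_E ≤ Ω₁(Z(O_p(G))), and [W_E, J(T)] ≠ 1, where J(T) is generated by the elementary abelian p-subgroups of T of largest order. -/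
theorem result {G : Type*} [Group G] [Finite G] {p : ℕ} [Fact p.Prime] (hG : Subgroup.centralizer (Cfsg.pCore p G : Set G) ≤ Cfsg.pCore p G) (T : Sylow p G) (E : Subgroup G) (hE : Cfsg.IsBaumannBlock p (T : Subgroup G) E) : Cfsg.pResidualOf p (E ⊔ Cfsg.pCore p G) = E ∧ ⁅Cfsg.omegaOneCenter p (Cfsg.pCoreOf p E), E⁆ ≤ Cfsg.omegaOneCenter p (Cfsg.pCore p G) ∧ ⁅⁅Cfsg.omegaOneCenter p (Cfsg.pCoreOf p E), E⁆, Cfsg.thompsonSubgroupOf p (T : Subgroup G)⁆ ≠ ⊥ := by
  obtain ⟨heq, hUW, hUU, hne, -, hON⟩ := CfsgLib.BaumannBlock.block_commutator_eq hG T hE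
  obtain ⟨hres, hcomm, -, -, -⟩ := hE
  set V := Cfsg.omegaOneCenter p (Cfsg.pCore p G) with hV
  have hOp : IsPGroup p (Cfsg.pCore p G) := CfsgLib.Constrained.isPGroup_pCore
  refine ⟨le_antisymm ?_ ?_, ?_, ?_⟩
  · rw [CfsgLib.BaumannBlock.mem_pResidualOf_iff_closure, Subgroup.closure_le]
    rintro x ⟨hx, hcop⟩
    exact CfsgLib.BaumannBlock.mem_of_coprime_of_mem_sup hOp hON hx hcop
  · conv_lhs => rw [← hres]
    rw [CfsgLib.BaumannBlock.mem_pResidualOf_iff_closure, CfsgLib.BaumannBlock.mem_pResidualOf_iff_closure]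
    exact Subgroup.closure_mono fun x hx => ⟨Subgroup.mem_sup_left hx.1, hx.2⟩
  · rw [heq, Subgroup.commutator_le]
    intro v hv e he
    have hEV : e * v⁻¹ * e⁻¹ ∈ V := by
      haveI hOn : (Cfsg.pCore p G).Normal := CfsgLib.Constrained.instNormalPCore p
      have hOe : (Cfsg.pCore p G).map (MulAut.conj e).toMonoidHom = Cfsg.pCore p G :=
        Subgroup.mem_normalizer_iff_map_conj_eq.1 (by
          rw [Subgroup.normalizer_eq_top_iff.2 hOn]; exact Subgroup.mem_top e)
      have h1 : V.map (MulAut.conj e).toMonoidHom = V := by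
        rw [hV, Cfsg.omegaOneCenter, ← CfsgLib.BaumannBlock.map_omegaOne,
          Subgroup.map_inf _ _ _ (MulAut.conj e).injective, ← CfsgLib.BaumannBlock.map_centralizer, hOe]
      exact h1.le ⟨v⁻¹, inv_mem hv, rfl⟩
    rw [commutatorElement_def, show v * e * v⁻¹ * e⁻¹ = v * (e * v⁻¹ * e⁻¹) by group]
    exact mul_mem hv hEV
  · rw [heq]
    intro h0
    set U := ⁅V, E⁆ with hU
    set B := Cfsg.baumannSubgroupOf p (T : Subgroup G) with hB
    have hUO : ∀ u ∈ U, u ∈ Cfsg.pCore p G ∧ u ^ p = 1 := fun u hu =>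
      ⟨(CfsgLib.BaumannBlock.omegaOneCenter_le _) (by
        have h1 : U ≤ V := by
          rw [hU, Subgroup.commutator_le]
          intro v hv e he
          have hOe : (Cfsg.pCore p G).map (MulAut.conj e).toMonoidHom = Cfsg.pCore p G :=
            Subgroup.mem_normalizer_iff_map_conj_eq.1 (by
              rw [Subgroup.normalizer_eq_top_iff.2 (CfsgLib.Constrained.instNormalPCore p)]
              exact Subgroup.mem_top e)
          have h2 : V.map (MulAut.conj e).toMonoidHom = V := by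
            rw [hV, Cfsg.omegaOneCenter, ← CfsgLib.BaumannBlock.map_omegaOne,
              Subgroup.map_inf _ _ _ (MulAut.conj e).injective, ← CfsgLib.BaumannBlock.map_centralizer, hOe]
          rw [commutatorElement_def, show v * e * v⁻¹ * e⁻¹ = v * (e * v⁻¹ * e⁻¹) by group]
          exact mul_mem hv (h2.le ⟨v⁻¹, inv_mem hv, rfl⟩)
        exact h1 hu), CfsgLib.BaumannBlock.omegaOneCenter_pow _ (hUW hu)⟩
    have hOT : Cfsg.pCore p G ≤ (T : Subgroup G) := by
      obtain ⟨T', hT'⟩ := hOp.exists_le_sylow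
      obtain ⟨g, hg⟩ := MulAction.exists_smul_eq G T' T
      intro o ho
      rw [← hg]
      exact ⟨g⁻¹ * o * g, hT' (by
        simpa using (CfsgLib.Constrained.instNormalPCore p : (Cfsg.pCore p G).Normal).conj_mem o ho g⁻¹), by
        show g * (g⁻¹ * o * g) * g⁻¹ = o; group⟩
    -- `B` centralizes the module
    have hBU : ∀ b ∈ B, ∀ u ∈ U, u * b = b * u := by
      intro b hb u hu
      have hJ : U ≤ Subgroup.centralizer (Cfsg.thompsonSubgroupOf p (T : Subgroup G) : Set G) :=
        Subgroup.commutator_eq_bot_iff_le_centralizer.1 h0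
      have huJ : u ∈ Cfsg.thompsonSubgroupOf p (T : Subgroup G) := by
        obtain ⟨A, hA⟩ := CfsgLib.LocalP.exists_maxElemIn (p := p) (T : Subgroup G)
        have hAJ : A ≤ Cfsg.thompsonSubgroupOf p (T : Subgroup G) := by
          rw [CfsgLib.LocalP.thompsonSubgroupOf_eq_sSup]; exact le_sSup hA
        exact hAJ (CfsgLib.LocalP.mem_of_centralizes hA (hOT (hUO u hu).1) (hUO u hu).2
          fun a ha => Subgroup.mem_centralizer_iff.1 (hJ hu) a (hAJ ha))
      exact Subgroup.mem_centralizer_iff.1 hb.2 u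
        (Subgroup.subset_closure ⟨⟨huJ, hJ hu⟩, (hUO u hu).2⟩)
    refine hne (hUU ▸ Subgroup.commutator_eq_bot_iff_le_centralizer.2 (Subgroup.le_centralizer_iff.1 ?_))
    conv_lhs => rw [← hcomm]
    rw [Subgroup.commutator_le]
    intro e he b hb
    have hb' : Commute b⁻¹ b := (Commute.refl b).inv_left
    refine Subgroup.mem_centralizer_iff.2 fun u hu => ?_
    have hEU : ∀ g ∈ E, ∀ w ∈ U, g * w * g⁻¹ ∈ U := fun g hg w hw => by
      have h1 : ⁅w⁻¹, g⁆ ∈ U := by
        rw [← hUU]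
        exact Subgroup.commutator_mem_commutator (inv_mem hw) hg
      rw [show g * w * g⁻¹ = w * ⁅w⁻¹, g⁆ by simp only [commutatorElement_def]; group]
      exact mul_mem hw h1
    have h1 : Commute u b := hBU b hb u hu
    have h2 : Commute (e⁻¹ * u * e) b := hBU b hb _ (by simpa using hEU e⁻¹ (inv_mem he) u hu)
    have h3 : Commute u (e * b * e⁻¹) := by
      have := (MulAut.conj e).toMonoidHom.toMulHom.map_mul (e⁻¹ * u * e) b
      calc u * (e * b * e⁻¹) = e * ((e⁻¹ * u * e) * b) * e⁻¹ := by group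
        _ = e * (b * (e⁻¹ * u * e)) * e⁻¹ := by rw [h2.eq]
        _ = e * b * e⁻¹ * u := by group
    exact (h3.mul_right h1.inv_right).eq

end Cfsg.Agent.S2984
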