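import Cfsg.Statements.S2998

set_option autoImplicit false
open Cfsg

namespace Cfsg.Agent.S2998

theorem conj_into_sylow {G : Type*} [Group G] [Finite G] {p : ℕ} [Fact p.Prime] (H : Subgroup G)
    (S : Sylow p ↥H) (T : Subgroup G) (hT : IsPGroup p T) (hTH : T ≤ H) :
    ∃ r ∈ H, ∀ t ∈ T, r * t * r⁻¹ ∈ ((S : Subgroup ↥H).map H.subtype) := by
  obtain ⟨Q, hQ⟩ := (hT.of_equiv (Subgroup.subgroupOfEquivOfLe hTH).symm).exists_le_sylow
  obtain ⟨r, hr⟩ := MulAction.exists_smul_eq (↥H) Q S
  refine ⟨r, r.2, fun t ht => ?_⟩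
  refine ⟨r * ⟨t, hTH ht⟩ * r⁻¹, ?_, by simp⟩
  rw [← hr]
  show r * ⟨t, hTH ht⟩ * r⁻¹ ∈ ((r • Q : Sylow p ↥H) : Subgroup ↥H)
  rw [Sylow.coe_subgroup_smul]
  exact Subgroup.smul_mem_pointwise_smul _ _ _ (hQ (Subgroup.mem_subgroupOf.mpr ht))


/-- Let G be a finite group, p a prime, P a Sylow p-subgroup of G and x ∈ P an element such that N_G(R) ≤ C_G(x) for every nontrivial subgroup R of P. Then P ≤ C_G(x); every G-conjugate of x lying in P equals x (so g ∈ C_G(x) whenever g x g⁻¹ ∈ P); and for every normal subgroup N of G, the image of x in G ⧸ N has the same property with respect to the image of P: the normalizer of every nontrivial subgroup of the image of P centralizes the image of x. -/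
theorem result {G : Type*} [Group G] [Finite G] {p : ℕ} [Fact p.Prime] (P : Sylow p G) (x : G) (hxP : x ∈ (P : Subgroup G)) (hlc : ∀ R : Subgroup G, R ≤ (P : Subgroup G) → R ≠ ⊥ → Subgroup.normalizer (R : Set G) ≤ Subgroup.centralizer ({x} : Set G)) : (P : Subgroup G) ≤ Subgroup.centralizer ({x} : Set G) ∧ (∀ g : G, g * x * g⁻¹ ∈ (P : Subgroup G) → g * x * g⁻¹ = x) ∧ ∀ (N : Subgroup G) [N.Normal], ∀ R : Subgroup (G ⧸ N), R ≤ (P : Subgroup G).map (QuotientGroup.mk' N) → R ≠ ⊥ → Subgroup.normalizer (R : Set (G ⧸ N)) ≤ Subgroup.centralizer ({(QuotientGroup.mk x : G ⧸ N)} : Set (G ⧸ N)) := by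
  classical
  have hPc : (P : Subgroup G) ≤ Subgroup.centralizer ({x} : Set G) := by
    by_cases hP : (P : Subgroup G) = ⊥
    · rw [hP]; exact bot_le
    · exact le_trans Subgroup.le_normalizer (hlc P le_rfl hP)
  refine ⟨hPc, ?_, ?_⟩
  · intro g hy
    by_cases hx : x = 1
    · simp [hx]
    set y := g * x * g⁻¹ with hyd
    have hR : Subgroup.zpowers y ≠ ⊥ := by
      rw [Ne, Subgroup.zpowers_eq_bot, hyd, conj_eq_one_iff]; exact hx
    have hN := hlc (Subgroup.zpowers y) ((Subgroup.zpowers_le).mpr hy) hR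
    set P' : Sylow p G := g • P with hP'
    have h1 : (P' : Subgroup G) ≤ Subgroup.centralizer ({x} : Set G) := by
      refine le_trans ?_ hN
      intro a ha
      rw [hP', Sylow.coe_subgroup_smul] at ha
      obtain ⟨b, hb, rfl⟩ := ha
      have hbx : b * x = x * b := Subgroup.mem_centralizer_singleton_iff.mp (hPc hb)
      apply Subgroup.centralizer_le_normalizer _
      rw [Subgroup.zpowers_eq_closure, Subgroup.centralizer_closure, Subgroup.mem_centralizer_singleton_iff]
      exact (by
        show MulAut.conj g b * y = y * MulAut.conj g b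
        rw [MulAut.conj_apply, hyd]
        calc g * b * g⁻¹ * (g * x * g⁻¹) = g * (b * x) * g⁻¹ := by group
          _ = _ := by rw [hbx]; group)
    obtain ⟨c, hc⟩ := MulAction.exists_smul_eq (↥(Subgroup.centralizer ({x} : Set G)))
      (P'.subtype h1) (P.subtype hPc)
    have h2 : (c : G) • P' = P := by
      refine Sylow.subtype_injective (N := Subgroup.centralizer ({x} : Set G))
        (hP := Sylow.smul_le h1 c) (hQ := hPc) ?_
      exact (Sylow.smul_subtype h1 c).symm.trans hc
    rw [hP', smul_smul, Sylow.smul_eq_iff_mem_normalizer] at h2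
    have h3 : (c : G) * g ∈ Subgroup.centralizer ({x} : Set G) := by
      refine hlc P le_rfl (fun h => hR ?_) h2
      rw [Subgroup.zpowers_eq_bot]
      rw [h] at hy
      exact Subgroup.mem_bot.mp hy
    have h4 : g ∈ Subgroup.centralizer ({x} : Set G) := by
      have := (Subgroup.centralizer ({x} : Set G)).mul_mem (Subgroup.inv_mem _ c.2) h3
      rwa [inv_mul_cancel_left] at this
    rw [hyd, Subgroup.mem_centralizer_singleton_iff.mp h4, mul_inv_cancel_right]
  · intro N _ R hR hR1
    intro mb hmb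
    obtain ⟨m, rfl⟩ := QuotientGroup.mk'_surjective N mb
    set π := QuotientGroup.mk' N with hπ
    set Rp := R.comap π with hRp
    set U := (P : Subgroup G) ⊔ N with hU
    have hRU : Rp ≤ U := by
      intro r hr
      obtain ⟨q, hq, hqr⟩ := hR hr
      have h3 : q⁻¹ * r ∈ N := QuotientGroup.eq.mp hqr
      have h4 := U.mul_mem (Subgroup.mem_sup_left hq) (Subgroup.mem_sup_right h3)
      rwa [mul_inv_cancel_left] at h4
    obtain ⟨S⟩ := (inferInstance : Nonempty (Sylow p ↥Rp))
    set S' := (S : Subgroup ↥Rp).map Rp.subtype with hS'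
    have hS'R : S' ≤ Rp := Subgroup.map_subtype_le _
    obtain ⟨u, hu, hu'⟩ := conj_into_sylow U (P.subtype le_sup_left) S' (S.isPGroup'.map _)
      (hS'R.trans hRU)
    have hPU : ((P.subtype (le_sup_left : (P : Subgroup G) ≤ U) : Sylow p ↥U) : Subgroup ↥U).map U.subtype
        = (P : Subgroup G) := by
      rw [Sylow.coe_subtype]
      exact Subgroup.map_subgroupOf_eq_of_le le_sup_left
    rw [hPU] at hu'
    rw [hU, ← SetLike.mem_coe, Subgroup.mul_normal] at hu
    obtain ⟨q, hq, n, hn, rfl⟩ := hu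
    have hnR : n ∈ Rp := by
      rw [hRp, Subgroup.mem_comap, hπ, QuotientGroup.mk'_apply, (QuotientGroup.eq_one_iff n).mpr hn]
      exact R.one_mem
    set S2 := S'.map (MulAut.conj n).toMonoidHom with hS2
    have hS2P : S2 ≤ (P : Subgroup G) := by
      rintro _ ⟨s, hs, rfl⟩
      show n * s * n⁻¹ ∈ (P : Subgroup G)
      have h5 := (P : Subgroup G).mul_mem ((P : Subgroup G).mul_mem ((P : Subgroup G).inv_mem hq)
        (hu' s hs)) hq
      convert h5 using 1
      group
    have hS2R : S2 ≤ Rp := by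
      rintro _ ⟨s, hs, rfl⟩
      exact Rp.mul_mem (Rp.mul_mem hnR (hS'R hs)) (Rp.inv_mem hnR)
    have hRp' : IsPGroup p R := (P.isPGroup'.map π).to_le hR
    have hS2ne : S2 ≠ ⊥ := by
      rw [hS2, hS', Ne, Subgroup.map_eq_bot_iff_of_injective _ (MulAut.conj n).injective,
        Subgroup.map_eq_bot_iff_of_injective _ Rp.subtype_injective]
      apply S.ne_bot_of_dvd_card
      have h6 : Nontrivial R := (Subgroup.nontrivial_iff_ne_bot R).mpr hR1
      obtain ⟨k, hk⟩ := hRp'.exists_card_eq
      have h7 : Nat.card R ∣ Nat.card Rp := by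
        refine Subgroup.card_dvd_of_surjective (π.subgroupComap R) ?_
        exact π.subgroupComap_surjective_of_surjective R (QuotientGroup.mk'_surjective N)
      refine dvd_trans ?_ h7
      rw [hk]
      exact dvd_pow_self p (by rintro rfl; rw [pow_zero] at hk; exact absurd hk (Finite.one_lt_card).ne')
    have hmS : S2.map (MulAut.conj m).toMonoidHom ≤ Rp := by
      rintro _ ⟨s, hs, rfl⟩
      show π (m * s * m⁻¹) ∈ R
      rw [map_mul, map_mul, map_inv]
      exact (Subgroup.mem_normalizer_iff.mp hmb _).mp (hS2R hs)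
    obtain ⟨r, hr, hr'⟩ := conj_into_sylow Rp S _ ((P.isPGroup'.to_le hS2P).map _) hmS
    have hN : n * r * m ∈ Subgroup.centralizer ({x} : Set G) := by
      refine hlc S2 hS2P hS2ne ?_
      rw [Subgroup.mem_normalizer_iff_map_conj_eq]
      refine Subgroup.eq_of_le_of_card_ge ?_ ?_
      · rintro _ ⟨s, hs, rfl⟩
        refine ⟨r * (m * s * m⁻¹) * r⁻¹, hr' _ ⟨s, hs, rfl⟩, ?_⟩
        show n * (r * (m * s * m⁻¹) * r⁻¹) * n⁻¹ = (n * r * m) * s * (n * r * m)⁻¹
        group
      · exact (Subgroup.card_map_of_injective (f := (MulAut.conj (n * r * m)).toMonoidHom)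
          (MulAut.conj (n * r * m)).injective).ge
    obtain ⟨q', hq', hqr⟩ := hR (Subgroup.mem_comap.mp hr)
    have h8 : π m = (π q')⁻¹ * π (n * r * m) := by
      have hn1 : π n = 1 := (QuotientGroup.eq_one_iff n).mpr hn
      rw [map_mul, map_mul, hn1, one_mul, hqr, inv_mul_cancel_left]
    have hc1 : Commute (π q') (π x) :=
      Commute.map (Subgroup.mem_centralizer_singleton_iff.mp (hPc hq') : Commute q' x) π
    have hc2 : Commute (π (n * r * m)) (π x) :=
      Commute.map (Subgroup.mem_centralizer_singleton_iff.mp hN : Commute _ x) π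
    rw [Subgroup.mem_centralizer_singleton_iff, h8]
    exact (hc1.inv_left.mul_left hc2).eq

end Cfsg.Agent.S2998
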