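import Cfsg.Statements.S2999
import Cfsg.Agent.MinParFF.Setup

set_option autoImplicit false
open Cfsg

namespace Cfsg.Agent.S2999

/-- Let p be a prime and let P and V be subgroups of a finite group with V elementary abelian, P normalizing V and acting faithfully on it (P ∩ C(V) = 1). Suppose P is p-minimal (a Sylow p-subgroup T of P is not normal and lies in a unique maximal subgroup M of P) and A ≤ T is an elementary abelian subgroup such that: |V/C_V(A)| ≤ |A| while |A₀|·|C_V(A₀)| < |A|·|C_V(A)| for every nontrivial proper subgroup A₀ of A; [C_V(T), P] ≠ 1; and P = ⟨A, xAx⁻¹⟩ for every x ∈ P outside M. Then, with q = |A|, there is a field F with q elements such that P ≅ SL₂(F), C_V(A) = [V, A]·C_V(P), and P acts on V/C_V(P) as SL₂(F) on its natural two-dimensional module. -/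
theorem result {G : Type*} [Group G] [Finite G] {p : ℕ} [Fact p.Prime] (V P : Subgroup G) (hV : Cfsg.IsElementaryAbelian p V) (hPV : P ≤ Subgroup.normalizer (V : Set G)) (hfaith : P ⊓ Subgroup.centralizer (V : Set G) = ⊥) (hmin : Cfsg.IsPMinimal p ↥P) (T : Sylow p ↥P) (M : Subgroup ↥P) (hM : IsCoatom M) (hTM : (T : Subgroup ↥P) ≤ M) (A : Subgroup G) (hAT : A ≤ ((T : Subgroup ↥P).map P.subtype)) (hAel : Cfsg.IsElementaryAbelian p A) (hi : Nat.card ↥V ≤ Nat.card ↥A * Nat.card ↥(V ⊓ Subgroup.centralizer ((A : Subgroup G) : Set G)) ∧ ∀ A₀ : Subgroup G, A₀ ≤ A → A₀ ≠ ⊥ → A₀ ≠ A → Nat.card ↥A₀ * Nat.card ↥(V ⊓ Subgroup.centralizer ((A₀ : Subgroup G) : Set G)) < Nat.card ↥A * Nat.card ↥(V ⊓ Subgroup.centralizer ((A : Subgroup G) : Set G))) (hii : ⁅(V ⊓ Subgroup.centralizer ((((T : Subgroup ↥P).map P.subtype) : Subgroup G) : Set G)), P⁆ ≠ ⊥) (hiii : ∀ x : ↥P, x ∉ M → A ⊔ A.map (MulAut.conj (x : G)).toMonoidHom = P) : ∃ (F : Type) (_ : Field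 F) (_ : Fintype F), Fintype.card F = Nat.card ↥A ∧ Nonempty (↥P ≃* Matrix.SpecialLinearGroup (Fin 2) F) ∧ (V ⊓ Subgroup.centralizer ((A : Subgroup G) : Set G)) = ⁅V, A⁆ ⊔ (V ⊓ Subgroup.centralizer ((P : Subgroup G) : Set G)) ∧ Cfsg.ActsAsSL2OnSection F ⊤ P V (V ⊓ Subgroup.centralizer ((P : Subgroup G) : Set G)) := by
  exact CfsgLib.MinParFF.natural_of_pMinimal V P hV hPV hfaith hmin T M hM hTM A hAT hAel hi.1 hi.2
    hii hiii

end Cfsg.Agent.S2999
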