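import Cfsg.Statements.S3000
import Cfsg.Agent.MinParFF.MinimalParabolic

set_option autoImplicit false
open Cfsg CfsgLib.MinParFF

namespace Cfsg.Agent.S3000

/-- Let p be a prime and let P and V be subgroups of a finite group with V elementary abelian, P normalizing V and acting faithfully on it (P ∩ C(V) = 1). Suppose P is p-minimal (a Sylow p-subgroup T of P is not normal and lies in a unique maximal subgroup M of P), O_p(P) = 1, C_P(C_V(T)) ≤ M, and P has a best offender on V: a subgroup A not centralizing V, with A/C_A(V) elementary abelian, such that |B|·|C_V(B)| ≤ |A|·|C_V(A)| for every subgroup B of A. Then there are subgroups E₁, …, E_r of P (r ≥ 1), pairwise commuting and forming with T a product P = (E₁ × ⋯ × E_r)T (internal direct product of the E_i), any two of which are conjugate by an element of T, such that V = C_V(E₁⋯E_r)·∏[V, E_i] with [V, E_i, E_j] = 1 for i ≠ j, and for each i there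 is n ≥ 1 with either E_i ≅ SL₂(pⁿ) acting on [V, E_i]/C_{[V,E_i]}(E_i) as on its natural two-dimensional module, or p = 2 and E_i isomorphic to the symmetric group of degree 2ⁿ + 1 acting on [V, E_i]/C_{[V,E_i]}(E_i) as on its even-weight permutation module. -/
theorem result {G : Type*} [Group G] [Finite G] {p : ℕ} [Fact p.Prime] (V P : Subgroup G) (hV : Cfsg.IsElementaryAbelian p V) (hPV : P ≤ Subgroup.normalizer (V : Set G)) (hfaith : P ⊓ Subgroup.centralizer (V : Set G) = ⊥) (hmin : Cfsg.IsPMinimal p ↥P) (T : Sylow p ↥P) (M : Subgroup ↥P) (hM : IsCoatom M) (hTM : (T : Subgroup ↥P) ≤ M) (hOp : Cfsg.pCore p ↥P = ⊥) (hoff : ∃ A : Subgroup G, A ≤ P ∧ ¬ A ≤ Subgroup.centralizer (V : Set G) ∧ Cfsg.IsBestOffenderOn p V A) (hCT : P ⊓ Subgroup.centralizer ((V ⊓ Subgroup.centralizer ((((T : Subgroup ↥P).map P.subtype) : Subgroup G) : Set G)) : Set G) ≤ M.map P.subtype) : ∃ (r : ℕ) (E : Fin r → Subgroup G),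 1 ≤ r ∧ (∀ i, E i ≤ P) ∧ (∀ i j, i ≠ j → ⁅E i, E j⁆ = ⊥) ∧ (∀ i, E i ⊓ (⨆ j ∈ {j | j ≠ i}, E j) = ⊥) ∧ (⨆ i, E i) ⊔ ((T : Subgroup ↥P).map P.subtype) = P ∧ (∀ i j, ∃ t ∈ ((T : Subgroup ↥P).map P.subtype), (E i).map (MulAut.conj t).toMonoidHom = E j) ∧ (V ⊓ Subgroup.centralizer (((⨆ i, E i) : Subgroup G) : Set G)) ⊔ (⨆ i, ⁅V, E i⁆) = V ∧ (∀ i j, i ≠ j → ⁅⁅V, E i⁆, E j⁆ = ⊥) ∧ ∀ i, ∃ n : ℕ, 1 ≤ n ∧ ((∃ (F : Type) (_ : Field F) (_ : Fintype F), Fintype.card F = p ^ n ∧ Nonempty (↥(E i) ≃* Matrix.SpecialLinearGroup (Fin 2) F) ∧ Cfsg.ActsAsSL2OnSection F ⊤ (E i) ⁅V, E i⁆ (⁅V, E i⁆ ⊓ Subgroup.centralizer ((E i : Subgroup G) : Set G))) ∨ (p = 2 ∧ Nonempty (↥(E i) ≃* Equiv.Perm (Fin (2 ^ n + 1))) ∧ Cfsg.ActsAsOddPermModuleOnSection (2 ^ n + 1) ⊤ (E i) ⁅V, E i⁆ (⁅V, E i⁆ ⊓ Subgroup.centralizer ((E i : Subgroup G) : Set G)))) := by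
  obtain ⟨hc, hmax⟩ := ctx_of_pMinimal V P hV hPV hfaith hmin T M hM hTM hOp hCT
  obtain ⟨A, hA, hAT⟩ := exists_member hc hoff
  set T₀ := (T : Subgroup ↥P).map P.subtype
  haveI : Nonempty (Idx p P V T₀) := ⟨⟨A, hA, hAT⟩⟩
  have hq : ∀ i : Idx p P V T₀, Nat.card i.1 = Nat.card A := fun i => by
    obtain ⟨t, -, he⟩ := hc.member_transitive hA hAT i.2.1 i.2.2
    rw [← he, card_conjSub]
  obtain ⟨n, hn⟩ := IsPGroup.iff_card.1 (isPGroup_of_el hA.2.1)
  have hA1 := (Subgroup.one_lt_card_iff_ne_bot A).2 hA.2.2.1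
  by_cases h2 : Nat.card A = 2
  · have hp2 : p = 2 := by
      have hn0 : n ≠ 0 := fun h0 => by rw [hn, h0, pow_zero] at hA1; omega
      have hd : p ∣ 2 := by rw [← h2, hn]; exact dvd_pow_self p hn0
      exact (Nat.prime_dvd_prime_iff_eq (Fact.out) Nat.prime_two).1 hd
    subst hp2
    obtain ⟨κ, r, σ, -, hr, hP, h1, h3, h4, h5, h6, h7, hmod⟩ :=
      blocks_conclusion hc hmax inferInstance (fun i => (hq i).trans h2)
    refine ⟨r, fun i => (σ i).1, hr, hP, h1, h3, h4, h5, h6, h7, fun i => ?_⟩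
    obtain ⟨m, hm, hiso, hact⟩ := hmod i
    exact ⟨m, hm, Or.inr ⟨rfl, hiso, hact⟩⟩
  · have hgt : ∀ i : Idx p P V T₀, 2 < Nat.card i.1 := fun i => by rw [hq i]; omega
    obtain ⟨r, σ, hr, h1, h3, h4, h5, h6, h7⟩ :=
      product_conclusion hc hmax (fun i : Idx p P V T₀ => LT p P V T₀ i.1)
        (fun i => (hc.member_setup i.2.1 i.2.2).2.2.le)
        (fun i => (hc.member_setup i.2.1 i.2.2).2.2.nle)
        (fun i => (hc.member_setup i.2.1 i.2.2).2.2.comm_sup)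
        (fun i j hij => hc.large_fix i.2.1 i.2.2 j.2.1 j.2.2 (fun e => hij (Subtype.ext e)) (hgt i))
        (fun i j => by
          obtain ⟨t, ht, he⟩ := hc.member_transitive i.2.1 i.2.2 j.2.1 j.2.2
          exact ⟨t, ht, by rw [hc.LT_conj i.2.1 i.2.2 ht, he]⟩)
    refine ⟨r, fun i => LT p P V T₀ (σ i).1, hr, fun i => (hc.member_setup (σ i).2.1 (σ i).2.2).2.2.le,
      h1, h3, h4, h5, h6, h7, fun i => ?_⟩
    obtain ⟨m, hm, -, hF⟩ := (hc.member_setup (σ i).2.1 (σ i).2.2).2.2.model_comm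
    exact ⟨m, hm, Or.inl hF⟩

end Cfsg.Agent.S3000
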