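import Cfsg.Statements.S3003
import Cfsg.Agent.Eq.Def_LocalStructure
import Cfsg.Agent.Coprime44.InvariantSylow

set_option autoImplicit false
open Cfsg

namespace Cfsg.Agent.S3003


/-- Let G be a finite group, p a prime and Q a large p-subgroup of G: C_G(Q) ≤ Q and N_G(U) ≤ N_G(Q) for every nontrivial subgroup U of C_G(Q). Let Q ≤ G₁ ≤ G, let R be a subgroup of order prime to p normalized by G₁, and let U ≤ G₁ be a p-subgroup. If U contains a nontrivial element which is G₁-conjugate to an element of Z(Q), then C_R(U) = 1. In particular, if U is elementary abelian of order at least p² and every maximal subgroup of U contains a nontrivial element G₁-conjugate into Z(Q), then R = 1. -/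
theorem result {G : Type*} [Group G] [Finite G] {p : ℕ} [Fact p.Prime] (Q : Subgroup G) (hQp : IsPGroup p ↥Q) (hlarge : Cfsg.IsLarge Q) (G₁ : Subgroup G) (hQG : Q ≤ G₁) (R : Subgroup G) (hR : (Nat.card ↥R).Coprime p) (hGR : G₁ ≤ Subgroup.normalizer (R : Set G)) (U : Subgroup G) (hUG : U ≤ G₁) (hUp : IsPGroup p ↥U) : ((∃ x ∈ U, x ≠ 1 ∧ ∃ g ∈ G₁, g * x * g⁻¹ ∈ Q ⊓ Subgroup.centralizer (Q : Set G)) → R ⊓ Subgroup.centralizer (U : Set G) = ⊥) ∧ (Cfsg.IsElementaryAbelian p U → p ^ 2 ≤ Nat.card ↥U → (∀ U₀ : Subgroup G, U₀ ≤ U → IsCoatom (U₀.subgroupOf U) → ∃ x ∈ U₀, x ≠ 1 ∧ ∃ g ∈ G₁, g * x * g⁻¹ ∈ Q ⊓ Subgroup.centralizer (Q : Set G)) → R = ⊥) := by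
  have hpR : ¬ p ∣ Nat.card ↥R := (((Fact.out : p.Prime).coprime_iff_not_dvd).mp hR.symm)
  have first : ∀ V : Subgroup G, (∃ x ∈ V, x ≠ 1 ∧ ∃ g ∈ G₁, g * x * g⁻¹ ∈ Q ⊓ Subgroup.centralizer (Q : Set G)) →
      R ⊓ Subgroup.centralizer (V : Set G) = ⊥ := by
    rintro V ⟨x, hxV, hx1, g, hg, hgx⟩
    rw [eq_bot_iff]
    intro r ⟨hrR, hrV⟩
    rw [Subgroup.mem_bot]
    set y := g * x * g⁻¹ with hy
    set s := g * r * g⁻¹ with hs
    have hsR : s ∈ R := (Subgroup.mem_normalizer_iff.mp (hGR hg) r).mp hrR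
    have hsy : Commute s y := by
      show s * y = y * s
      have h1 : x * r = r * x := hrV x hxV
      calc s * y = g * (r * x) * g⁻¹ := by rw [hs, hy]; group
        _ = g * (x * r) * g⁻¹ := by rw [h1]
        _ = _ := by rw [hs, hy]; group
    have hne : Subgroup.zpowers y ≠ ⊥ := by
      rw [Ne, Subgroup.zpowers_eq_bot, hy, conj_eq_one_iff]; exact hx1
    have hsN : s ∈ Subgroup.normalizer (Q : Set G) := by
      refine hlarge.2 _ (Subgroup.zpowers_le.mpr hgx.2) hne ?_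
      apply Subgroup.centralizer_le_normalizer _
      rw [Subgroup.zpowers_eq_closure, Subgroup.centralizer_closure, Subgroup.mem_centralizer_singleton_iff]
      exact hsy
    have hsC : s ∈ Subgroup.centralizer (Q : Set G) := by
      intro q hq
      have h1 : s * q * s⁻¹ * q⁻¹ ∈ Q :=
        mul_mem ((Subgroup.mem_normalizer_iff.mp hsN q).mp hq) (inv_mem hq)
      have h2 : s * q * s⁻¹ * q⁻¹ ∈ R := by
        have h3 : q * s⁻¹ * q⁻¹ ∈ R :=
          (Subgroup.mem_normalizer_iff.mp (hGR (hQG hq)) s⁻¹).mp (inv_mem hsR)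
        have h4 := mul_mem hsR h3
        simpa only [mul_assoc] using h4
      have h5 : s * q * s⁻¹ * q⁻¹ = 1 := by
        obtain ⟨k, hk⟩ := hQp ⟨_, h1⟩
        have hk' : (s * q * s⁻¹ * q⁻¹) ^ p ^ k = 1 := congrArg Subtype.val hk
        exact orderOf_eq_one_iff.mp (Nat.eq_one_of_dvd_coprimes (hR.pow_right k)
          (R.orderOf_dvd_natCard h2) (orderOf_dvd_of_pow_eq_one hk'))
      exact (mul_inv_eq_iff_eq_mul.mp (mul_inv_eq_one.mp h5)).symm
    have hsQ : s ∈ Q := hlarge.1 hsC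
    obtain ⟨k, hk⟩ := hQp ⟨_, hsQ⟩
    have hk' : s ^ p ^ k = 1 := congrArg Subtype.val hk
    have hs1 : s = 1 := orderOf_eq_one_iff.mp (Nat.eq_one_of_dvd_coprimes (hR.pow_right k)
      (R.orderOf_dvd_natCard hsR) (orderOf_dvd_of_pow_eq_one hk'))
    rwa [hs, conj_eq_one_iff] at hs1
  refine ⟨first U, fun hU hU2 hall => ?_⟩
  by_contra hR1
  obtain ⟨U0, hU0, hco, hne⟩ :=
    CfsgLib.Coprime44.exists_coatom_fixes hU hU2 hR1 hpR (hUG.trans hGR)
  exact hne (first U0 (hall U0 hU0 hco))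

end Cfsg.Agent.S3003
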