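import Cfsg.Statements.S3008
import Cfsg.Agent.CentrallyLarge.Normalized

set_option autoImplicit false
open Cfsg

namespace Cfsg.Agent.S3008

open CfsgLib.CentrallyLarge


/-- Let P be a finite p-group, with J(P) generated by its abelian subgroups of largest order and J̃(P) = C_P(Z(J(P))); call R ≤ P centrally large if |R|·|Z(R)| is as large as possible, and let P_MCL be generated by the minimal centrally large subgroups. Then: for every centrally large Q, Q·J(P) ⊇ J̃(P); some minimal centrally large subgroup of P is normalized by both J(P) and P_MCL; if P = J(P) and d(P)² = |P|·|Z(P)|, where d(P) is the largest order of an abelian subgroup, then every minimal centrally large subgroup of P is abelian; and if every minimal centrally large subgroup is abelian then J̃(P) = J(P). -/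
theorem result {p : ℕ} [Fact p.Prime] (P : Type*) [Group P] [Finite P] (hP : IsPGroup p P) : (∀ Q : Subgroup P, Cfsg.IsCentrallyLarge Q → Subgroup.centralizer ((Cfsg.thompsonSubgroupA P ⊓ Subgroup.centralizer (Cfsg.thompsonSubgroupA P : Set P) : Subgroup P) : Set P) ≤ Q ⊔ Cfsg.thompsonSubgroupA P) ∧ (∃ Q : Subgroup P, Cfsg.IsMinimalCentrallyLarge Q ∧ Cfsg.thompsonSubgroupA P ≤ Subgroup.normalizer (Q : Set P) ∧ Cfsg.minimalCentrallyLargeJoin P ≤ Subgroup.normalizer (Q : Set P)) ∧ (Cfsg.thompsonSubgroupA P = ⊤ → (∀ A ∈ Cfsg.maxAbelianSubgroups P, Nat.card ↥A ^ 2 = Nat.card P * Nat.card ↥(Subgroup.center P)) → ∀ Q : Subgroup P, Cfsg.IsMinimalCentrallyLarge Q → IsMulCommutative ↥Q) ∧ ((∀ Q : Subgroup P, Cfsg.IsMinimalCentrallyLarge Q → IsMulCommutative ↥Q) → Subgroup.centralizer ((Cfsg.thompsonSubgroupA P ⊓ Subgroup.centralizer (Cfsg.thompsonSubgroupA P : Set P) : Subgroup P) : Set P) = Cfsg.thompsonSubgroupA P) := by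
  haveI : Group.IsNilpotent P := hP.isNilpotent
  refine ⟨fun Q hQ => cen_centerThompson_le (isCentrallyLarge_sup_thompson hQ) le_sup_right, ?_, ?_, ?_⟩
  · obtain ⟨Q, hQ, hJ⟩ := exists_minimal_normalized (G := P)
    exact ⟨Q, hQ, hJ, minimalJoin_le_normalizer hQ hJ⟩
  · intro hJtop hAA Q hQ
    obtain ⟨Q0, hQ0⟩ := exists_isCentrallyLarge (G := P)
    have htop : Cfsg.IsCentrallyLarge (⊤ : Subgroup P) := by
      have h := isCentrallyLarge_sup_thompson hQ0
      rwa [hJtop, sup_top_eq] at h
    obtain ⟨A, hA⟩ := exists_maxAbelian (G := P)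
    have hAcl : Cfsg.IsCentrallyLarge A := by
      refine isCentrallyLarge_iff.mpr ⟨?_, (cen_eq_self hA).le⟩
      show Nat.card ↥A * Nat.card ↥(cen A) = Cfsg.maxCentralizerProduct P
      rw [cen_eq_self hA, ← pow_two, hAA A hA]
      have h : Nat.card ↥(⊤ : Subgroup P) * Nat.card ↥(cen (⊤ : Subgroup P))
          = Cfsg.maxCentralizerProduct P := (isCentrallyLarge_iff.mp htop).1
      rwa [Subgroup.card_top, show cen (⊤ : Subgroup P) = Subgroup.center P by
        rw [cen, Subgroup.coe_top, Subgroup.centralizer_univ]] at h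
    have e := inf_sup_cen_eq hQ hAcl
    have hQc := (isCentrallyLarge_iff.mp hQ.1).2
    rw [← e]
    exact comm_sup (inf_le_right.trans ((le_cen_of_comm hA.1).trans
      (Subgroup.centralizer_le (SetLike.coe_subset_coe.mpr inf_le_right))))
      (Subgroup.centralizer_le (SetLike.coe_subset_coe.mpr hQc))
      (inf_le_left.trans (Subgroup.le_centralizer_iff.mpr le_rfl))
  · intro hab
    obtain ⟨Q0, hQ0⟩ := exists_isCentrallyLarge (G := P)
    obtain ⟨Q, -, hQ⟩ := exists_minimal_le hQ0
    have hQQ : cen Q = Q :=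
      le_antisymm (isCentrallyLarge_iff.mp hQ.1).2 (le_cen_of_comm (hab Q hQ))
    have hf : Nat.card ↥Q * Nat.card ↥Q = Cfsg.maxCentralizerProduct P := by
      have h : Nat.card ↥Q * Nat.card ↥(cen Q) = Cfsg.maxCentralizerProduct P :=
        (isCentrallyLarge_iff.mp hQ.1).1
      rwa [hQQ] at h
    have hmax : ∀ B : Subgroup P, IsMulCommutative ↥B → Nat.card ↥B ≤ Nat.card ↥Q := by
      intro B hB
      apply Nat.mul_self_le_mul_self_iff.mp
      rw [hf]
      exact (Nat.mul_le_mul_left _ (Subgroup.card_le_of_le (le_cen_of_comm hB))).trans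
        (le_maxCentralizerProduct B)
    obtain ⟨A0, hA0⟩ := exists_maxAbelian (G := P)
    have hJ : Cfsg.IsCentrallyLarge (Cfsg.thompsonSubgroupA P) := by
      refine isCentrallyLarge_sSup ⟨A0, hA0⟩ fun A hA => ?_
      refine isCentrallyLarge_iff.mpr ⟨isCentralizerLarge_of_le ?_, (cen_eq_self hA).le⟩
      rw [cen_eq_self hA, ← hf]
      exact Nat.mul_le_mul (hA.2 Q (hab Q hQ)) (hA.2 Q (hab Q hQ))
    show cen (Cfsg.thompsonSubgroupA P ⊓ cen (Cfsg.thompsonSubgroupA P)) = _
    rw [inf_eq_right.mpr cen_thompsonSubgroupA_le, cen_cen_eq (isCentrallyLarge_iff.mp hJ).1]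

end Cfsg.Agent.S3008
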