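import Cfsg.Statements.S3009
import Cfsg.Agent.Eq.Def_BaumannBlocks
import Cfsg.Agent.FrakL.NaturalModule

set_option autoImplicit false
open Cfsg

namespace Cfsg.Agent.S3009

open CfsgLib.FrakL
open scoped commutatorElement

/-- Let p be a prime and let G and V be subgroups of a finite group with V elementary abelian and normalized by G, and G isomorphic to SL₂(F) for a finite field F with pⁿ elements. Suppose G acts irreducibly and nontrivially on V by conjugation (no G-invariant subgroups of V other than 1 and V, and [V, G] ≠ 1), and let S be a Sylow p-subgroup of G and V₀ = C_V(S). If [V, S, S] = 1 or |V| ≤ |V₀|², then G acts on V as SL₂(F) on its natural two-dimensional module; in particular |V| = |F|². -/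
theorem result {X : Type*} [Group X] [Finite X] {p : ℕ} [Fact p.Prime] (G V : Subgroup X) (hV : Cfsg.IsElementaryAbelian p V) (hGV : G ≤ Subgroup.normalizer (V : Set X)) (F : Type) [Field F] [Fintype F] (n : ℕ) (hF : Fintype.card F = p ^ n) (hG : Nonempty (↥G ≃* Matrix.SpecialLinearGroup (Fin 2) F)) (hirr : ∀ U : Subgroup X, U ≤ V → G ≤ Subgroup.normalizer (U : Set X) → U = ⊥ ∨ U = V) (hnt : ⁅V, G⁆ ≠ ⊥) (S : Sylow p ↥G) (hyp : ⁅⁅V, (S : Subgroup ↥G).map G.subtype⁆, (S : Subgroup ↥G).map G.subtype⁆ = ⊥ ∨ Nat.card ↥V ≤ Nat.card ↥(V ⊓ Subgroup.centralizer (((S : Subgroup ↥G).map G.subtype : Subgroup X) : Set X)) ^ 2) : Cfsg.ActsAsSL2OnSection F ⊤ G V ⊥ := by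
  classical
  obtain ⟨e₀⟩ := hG
  have hn : n ≠ 0 := fun h => by
    have := Fintype.one_lt_card (α := F)
    simp [hF, h] at this
  haveI : CharP F p := by
    obtain ⟨m, hpr, hm⟩ := FiniteField.card F (ringChar F)
    haveI := Fact.mk hpr
    have h1 : p ^ n = ringChar F ^ (m : ℕ) := by rw [← hm, hF]
    exact ringChar.of_eq ((Nat.prime_dvd_prime_iff_eq Fact.out hpr).1
      ((Fact.out : p.Prime).dvd_of_dvd_pow (h1 ▸ dvd_pow_self p hn))).symm
  obtain ⟨k, hk⟩ := exists_conj_upperU ((S : Subgroup ↥G).map e₀.toMonoidHom) (S.2.map _)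
  let e := e₀.trans (MulAut.conj k⁻¹)
  let Up : Subgroup (Matrix.SpecialLinearGroup (Fin 2) F) :=
    { carrier := Set.range upperU
      one_mem' := ⟨0, upperU_zero⟩
      mul_mem' := by
        rintro _ _ ⟨a, rfl⟩ ⟨b, rfl⟩
        exact ⟨a + b, upperU_add a b⟩
      inv_mem' := by
        rintro _ ⟨a, rfl⟩
        exact ⟨-a, eq_inv_of_mul_eq_one_left (by rw [← upperU_add, neg_add_cancel, upperU_zero])⟩ }
  have hUpp : IsPGroup p Up := by
    rintro ⟨_, a, rfl⟩
    refine ⟨1, Subtype.ext ?_⟩
    simp only [pow_one, SubgroupClass.coe_pow, OneMemClass.coe_one]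
    have : ∀ i : ℕ, upperU a ^ i = upperU ((i : F) * a) := by
      intro i
      induction i with
      | zero => simp [upperU_zero]
      | succ i ih => rw [pow_succ, ih, ← upperU_add, Nat.cast_succ, add_mul, one_mul]
    rw [this, CharP.cast_eq_zero, zero_mul, upperU_zero]
  have hle : ((S : Subgroup ↥G).map e.toMonoidHom) ≤ Up := by
    rintro _ ⟨s, hs, rfl⟩
    obtain ⟨t, ht⟩ := hk _ ⟨s, hs, rfl⟩
    exact ⟨t, by rw [← ht]; simp [e]⟩
  have hSeq : Up.comap e.toMonoidHom = S :=
    S.3 (hUpp.comap_of_injective _ e.injective) (Subgroup.map_le_iff_le_comap.1 hle)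
  have hmemS : ∀ t, e.symm (upperU t) ∈ (S : Subgroup ↥G) := fun t => by
    rw [← hSeq]; exact ⟨t, (e.apply_symm_apply _).symm⟩
  have hSu : ∀ s ∈ (S : Subgroup ↥G), ∃ t, e s = upperU t := fun s hs => by
    obtain ⟨t, ht⟩ := hle ⟨s, hs, rfl⟩
    exact ⟨t, ht.symm⟩
  -- the module
  letI : CommGroup V :=
    { (inferInstance : Group V) with
      mul_comm := fun a b => hV.1.is_comm.comm a b }
  have hconj : ∀ (g : G) (v : V), (g : X) * v * (g : X)⁻¹ ∈ V := fun g v =>
    (Subgroup.mem_normalizer_iff.1 (hGV g.2) v).1 v.2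
  let act : G →* AddMonoid.End (Additive V) :=
    { toFun := fun g => AddMonoidHom.mk'
        (fun m => Additive.ofMul (⟨_, hconj g (Additive.toMul m)⟩ : V)) (fun m m' => by
          apply Additive.toMul.injective
          refine Subtype.ext ?_
          simp only [toMul_add, toMul_ofMul, Subgroup.coe_mul]
          group)
      map_one' := by
        refine AddMonoidHom.ext fun m => Additive.toMul.injective (Subtype.ext ?_)
        show _ * _ * _ = ((Additive.toMul m : V) : X)
        simp
      map_mul' := fun g g' => by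
        refine AddMonoidHom.ext fun m => Additive.toMul.injective (Subtype.ext ?_)
        show _ * _ * _ = _ * (_ * _ * _) * _
        simp only [Subgroup.coe_mul]
        group }
  let ρ : Matrix.SpecialLinearGroup (Fin 2) F →* AddMonoid.End (Additive V) :=
    act.comp e.symm.toMonoidHom
  have hρ : ∀ (g : G) (v : V), ρ (e g) (Additive.ofMul v) = Additive.ofMul ⟨_, hconj g v⟩ := by
    intro g v
    show act (e.symm (e g)) (Additive.ofMul v) = _
    rw [e.symm_apply_apply]
    rfl
  have hirr' : ∀ W : AddSubgroup (Additive V), (∀ g, ∀ v ∈ W, ρ g v ∈ W) → W = ⊥ ∨ W = ⊤ := by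
    intro W hW
    let U := (AddSubgroup.toSubgroup' W).map V.subtype
    have hUn : G ≤ Subgroup.normalizer (U : Set X) := by
      have key : ∀ (g : G), ∀ x ∈ U, (g : X) * x * (g : X)⁻¹ ∈ U := by
        rintro g _ ⟨v, hv, rfl⟩
        have h1 : ρ (e g) (Additive.ofMul v) ∈ W := hW (e g) _ hv
        rw [hρ] at h1
        exact ⟨⟨_, hconj g v⟩, h1, rfl⟩
      intro g hg
      refine Subgroup.mem_normalizer_iff.2 fun x => ⟨key ⟨g, hg⟩ x, fun hx => ?_⟩
      simpa [mul_assoc] using key ⟨g⁻¹, inv_mem hg⟩ _ hx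
    rcases hirr U (Subgroup.map_subtype_le _) hUn with h | h
    · left
      rw [eq_bot_iff]
      intro m hm
      have h1 : ((Additive.toMul m : V) : X) ∈ U := ⟨_, hm, rfl⟩
      rw [h, Subgroup.mem_bot] at h1
      rw [AddSubgroup.mem_bot]
      exact Additive.toMul.injective (Subtype.ext h1)
    · right
      rw [eq_top_iff]
      intro m _
      have h1 : ((Additive.toMul m : V) : X) ∈ U := by rw [h]; exact (Additive.toMul m).2
      obtain ⟨v, hv, hve⟩ := h1
      have : v = Additive.toMul m := Subtype.ext hve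
      rw [this] at hv
      exact hv
  have hnt' : ∃ g v, ρ g v ≠ v := by
    by_contra hc
    push Not at hc
    apply hnt
    rw [eq_bot_iff, Subgroup.commutator_le]
    intro v hv g hg
    have h1 := hc (e ⟨g, hg⟩) (Additive.ofMul ⟨v, hv⟩)
    rw [hρ] at h1
    have h2 : g * v * g⁻¹ = v := congrArg Subtype.val (Additive.ofMul.injective h1)
    rw [Subgroup.mem_bot, commutatorElement_eq_one_iff_mul_comm]
    exact (mul_inv_eq_iff_eq_mul.1 h2).symm
  have hfixiff : ∀ v : V, Additive.ofMul v ∈ upperFixed ρ ↔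
      (v : X) ∈ Subgroup.centralizer (((S : Subgroup ↥G).map G.subtype : Subgroup X) : Set X) := by
    intro v
    rw [mem_upperFixed, Subgroup.mem_centralizer_iff]
    constructor
    · rintro h _ ⟨s, hs, rfl⟩
      obtain ⟨t, ht⟩ := hSu s hs
      have h1 := h t
      rw [← ht, hρ] at h1
      exact mul_inv_eq_iff_eq_mul.1 (congrArg Subtype.val (Additive.ofMul.injective h1))
    · intro h t
      rw [← e.apply_symm_apply (upperU t), hρ]
      refine congrArg Additive.ofMul (Subtype.ext ?_)
      exact mul_inv_eq_iff_eq_mul.2 (h _ ⟨_, hmemS t, rfl⟩)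
  have hVp : IsPGroup p V := fun v => ⟨1, Subtype.ext (by simpa using hV.2 _ v.2)⟩
  have hVne : V ≠ ⊥ := fun h => hnt (by rw [h, Subgroup.commutator_bot_left])
  have hFp : IsPGroup p (Multiplicative F) := IsPGroup.of_card (n := n) (by
    rw [Nat.card_eq_fintype_card, Fintype.card_multiplicative, hF])
  have hne : upperFixed ρ ≠ ⊥ := by
    letI : MulAction (Multiplicative F) (Additive V) :=
      { smul := fun t m => ρ (upperU (Multiplicative.toAdd t)) m
        one_smul := fun m => by
          show ρ (upperU (0 : F)) m = m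
          rw [upperU_zero, rho_one]
        mul_smul := fun s t m => by
          show ρ (upperU (Multiplicative.toAdd s + Multiplicative.toAdd t)) m = _
          rw [upperU_add, rho_mul]
          rfl }
    have hdvd : p ∣ Nat.card (Additive V) := by
      haveI := (Subgroup.nontrivial_iff_ne_bot V).2 hVne
      obtain ⟨i, hi, hc⟩ := (IsPGroup.nontrivial_iff_card hVp).1 inferInstance
      rw [Nat.card_congr Additive.toMul, hc]
      exact dvd_pow_self p hi.ne'
    obtain ⟨m, hm, hm0⟩ := hFp.exists_fixed_point_of_prime_dvd_card_of_fixed_point _ hdvd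
      (a := (0 : Additive V)) (fun t => map_zero _)
    intro hbot
    have h1 : m ∈ upperFixed ρ := fun t => hm (Multiplicative.ofAdd t)
    rw [hbot, AddSubgroup.mem_bot] at h1
    exact hm0 h1.symm
  have hquad : Quadratic ρ (upperFixed ρ) := by
    rcases hyp with hyp | hyp
    · refine quadratic_of_quad hirr' hnt' (fun t m => ?_) hne
      obtain ⟨v, rfl⟩ := Additive.ofMul.surjective m
      set s := e.symm (upperU t) with hs
      rw [← e.apply_symm_apply (upperU t), hρ, ← ofMul_div, hfixiff, Subgroup.mem_centralizer_iff]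
      rintro _ hr
      have h1 : ⁅(v : X), (s : X)⁆ ∈ ⁅V, (S : Subgroup ↥G).map G.subtype⁆ :=
        Subgroup.commutator_mem_commutator v.2 ⟨s, hmemS t, rfl⟩
      have h2 : ∀ w ∈ ⁅V, (S : Subgroup ↥G).map G.subtype⁆, ∀ r ∈ (S : Subgroup ↥G).map G.subtype,
          r * w = w * r := fun w hw r hr => by
        have := Subgroup.commutator_mem_commutator hw hr
        rw [hyp, Subgroup.mem_bot, commutatorElement_eq_one_iff_mul_comm] at this
        exact this.symm
      have h3 := h2 _ (inv_mem h1) _ hr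
      have e1 : ((⟨_, hconj s v⟩ / v : V) : X) = ⁅(v : X), (s : X)⁆⁻¹ := by
        rw [Subgroup.coe_div, div_eq_mul_inv, commutatorElement_def]
        group
      rw [e1]
      exact h3
    · refine quadratic_of_card hirr' hnt' (fun m => hVp (Additive.toMul m)) hFp ?_ hne
      rw [Nat.card_congr (Additive.toMul (α := V))]
      refine hyp.trans (Nat.pow_le_pow_left (le_of_eq (Nat.card_congr ?_)) 2)
      exact
        { toFun := fun x => ⟨Additive.ofMul ⟨x.1, x.2.1⟩, (hfixiff _).2 x.2.2⟩
          invFun := fun m => ⟨((Additive.toMul m.1 : V) : X), (Additive.toMul m.1).2,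
            (hfixiff (Additive.toMul m.1)).1 m.2⟩
          left_inv := fun x => rfl
          right_inv := fun m => rfl }
  obtain ⟨Ψ, hΨ⟩ := exists_natural_equiv hirr' hquad hne
  refine ⟨hGV, bot_le, e.toMonoidHom,
    MonoidHom.mk' (fun v => Multiplicative.ofAdd (Ψ.symm (Additive.ofMul v)))
      (fun a b => by rw [ofMul_mul, map_add, ofAdd_add]),
    MonoidHom.range_eq_top.2 e.surjective,
    fun x => ⟨Additive.toMul (Ψ (Multiplicative.toAdd x)), by simp⟩, fun v => ?_, fun g v => ?_⟩
  · rw [Subgroup.mem_bot, MonoidHom.mk'_apply, ofAdd_eq_one, AddEquiv.map_eq_zero_iff,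
      ofMul_eq_zero, ← OneMemClass.coe_eq_one]
  · refine ⟨⟨_, hconj g v⟩, rfl, ?_⟩
    simp only [MonoidHom.mk'_apply, toAdd_ofAdd, MulEquiv.coe_toMonoidHom]
    apply Ψ.injective
    rw [Ψ.apply_symm_apply, ← hΨ, Ψ.apply_symm_apply, hρ]

end Cfsg.Agent.S3009
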