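import Cfsg.Statements.S3011
import Cfsg.Agent.BaerSuzuki.Basic
import Cfsg.Agent.Eq.Def_SubgroupEmbedding
-- import your own Cfsg.Agent.* helpers here

set_option autoImplicit false
open Cfsg

namespace Cfsg.Agent.S3011

variable {G : Type*} [Group G]

theorem eq_one_of_inverted {h : G} (hodd : Odd (orderOf h)) (hh : h⁻¹ = h) : h = 1 := by
  obtain ⟨m, hm⟩ := hodd
  have h2 : h ^ 2 = 1 := by rw [pow_two]; nth_rewrite 1 [← hh]; exact inv_mul_cancel h
  have := pow_orderOf_eq_one h
  rw [hm, pow_succ, pow_mul, h2, one_pow, one_mul] at this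
  exact this

theorem commute_of_sq {h k : G} (hodd : Odd (orderOf h)) (hc : Commute k (h * h)) :
    Commute k h := by
  obtain ⟨m, hm⟩ := hodd
  have h1 : (h * h) ^ (m + 1) = h := by
    rw [← pow_two, ← pow_mul, show 2 * (m + 1) = orderOf h + 1 by omega, pow_succ, pow_orderOf_eq_one,
      one_mul]
  exact h1 ▸ hc.pow_right (m + 1)

theorem conj_eq_sq_mul {a h : G} (hinv : a * h * a⁻¹ = h⁻¹) : h * a * h⁻¹ = h * h * a := by
  have h1 : a * h⁻¹ * a⁻¹ = h := by rw [← conj_inv, hinv, inv_inv]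
  calc h * a * h⁻¹ = h * (a * h⁻¹ * a⁻¹) * a := by group
    _ = _ := by rw [h1]

theorem conj_of_commute {v h : G} (hc : Commute v h) : v * h * v⁻¹ = h := by
  rw [hc.eq, mul_inv_cancel_right]

/-- Two elements inverted by the same member and centralized by the two others. -/
theorem pair_false {V : Subgroup G} (hS : Cfsg.IsSidkiPair V) {a b c h k : G} (hcV : c ∈ V)
    (hbV : b ∈ V) (haV : a ∈ V) (hmem : ∀ w ∈ V, w ≠ 1 → w = a ∨ w = b ∨ w = c)
    (ho : Odd (orderOf h)) (ko : Odd (orderOf k)) (h1 : h ≠ 1) (k1 : k ≠ 1)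
    (hai : a * h * a⁻¹ = h⁻¹) (kai : a * k * a⁻¹ = k⁻¹) (hb : Commute b h) (kc : Commute c k)
    (hci : c * h * c⁻¹ = h⁻¹) (kbi : b * k * b⁻¹ = k⁻¹) : False := by
  have hncomm : ¬ Commute h k := by
    intro hk
    have hodd : Odd (orderOf (h * k)) := Odd.of_dvd_nat (ho.mul ko) hk.orderOf_mul_dvd_mul_orderOf
    have hinv : a * (h * k) * a⁻¹ = (h * k)⁻¹ := by
      rw [← conj_mul, hai, kai, mul_inv_rev, hk.inv_inv.eq]
    obtain ⟨w, hw, hw1, hwc⟩ := hS (h * k) a haV hodd hinv
    have hwc' : Commute w (h * k) := hwc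
    rcases hmem w hw hw1 with rfl | rfl | rfl
    · have h3 := eq_one_of_inverted hodd (by rw [← hinv, conj_of_commute hwc'])
      have h4 : k = h⁻¹ := eq_inv_of_mul_eq_one_right h3
      have h5 : Commute b k := h4 ▸ hb.inv_right
      exact k1 (eq_one_of_inverted ko (by rw [← kbi, conj_of_commute h5]))
    · have h5 : Commute w k := by
        have := hb.inv_right.mul_right hwc'
        rwa [inv_mul_cancel_left] at this
      exact k1 (eq_one_of_inverted ko (by rw [← kbi, conj_of_commute h5]))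
    · have h5 : Commute w h := by
        have := hwc'.mul_right kc.inv_right
        rwa [mul_inv_cancel_right] at this
      exact h1 (eq_one_of_inverted ho (by rw [← hci, conj_of_commute h5]))
  -- the conjugate of `k` under `h` is inverted by `b`
  set u := h⁻¹ * k * h with hu
  have huo : Odd (orderOf u) := by
    rw [hu, show h⁻¹ * k * h = h⁻¹ * k * h⁻¹⁻¹ by group]
    have := orderOf_injective (MulAut.conj h⁻¹).toMonoidHom (MulAut.conj h⁻¹).injective k
    rw [show (MulAut.conj h⁻¹).toMonoidHom k = h⁻¹ * k * h⁻¹⁻¹ from rfl] at this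
    rwa [this]
  have hui : b * u * b⁻¹ = u⁻¹ := by
    calc b * u * b⁻¹ = (b * h⁻¹ * b⁻¹) * (b * k * b⁻¹) * (b * h * b⁻¹) := by rw [hu]; group
      _ = h⁻¹ * k⁻¹ * h := by rw [conj_of_commute hb.inv_right, kbi, conj_of_commute hb]
      _ = u⁻¹ := by rw [hu]; group
  obtain ⟨w, hw, hw1, hwc⟩ := hS u b hbV huo hui
  have hwc' : Commute w u := hwc
  have hk' : Commute (h * w * h⁻¹) k := by
    have h3 := (Commute.conj_iff h).mpr hwc'
    rwa [show h * u * h⁻¹ = k by rw [hu]; group] at h3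
  rcases hmem w hw hw1 with rfl | rfl | rfl
  · rw [conj_eq_sq_mul hai] at hk'
    have h5 : h * h * k⁻¹ * (h * h)⁻¹ = k := by
      calc h * h * k⁻¹ * (h * h)⁻¹ = h * h * (w * k * w⁻¹) * (h * h)⁻¹ := by rw [kai]
        _ = h * h * w * k * (h * h * w)⁻¹ := by group
        _ = k := conj_of_commute hk'
    have h6 : Commute (h * h) (h * h) := Commute.refl _
    have h8 : h * h * k * (h * h)⁻¹ = k⁻¹ := by
      have := congrArg (·⁻¹) h5
      simpa [mul_assoc] using this
    have h9 : Commute ((h * h) * (h * h)) k := by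
      refine mul_inv_eq_iff_eq_mul.mp ?_
      calc h * h * (h * h) * k * (h * h * (h * h))⁻¹
          = h * h * (h * h * k * (h * h)⁻¹) * (h * h)⁻¹ := by group
        _ = k := by rw [h8, h5]
    have hsq : Odd (orderOf (h * h)) := by
      rw [← pow_two]
      exact ho.of_dvd_nat (orderOf_pow_dvd 2)
    exact hncomm ((commute_of_sq ho (commute_of_sq hsq h9.symm)).symm)
  · exact k1 (by
      have h3 := eq_one_of_inverted huo (by rw [← hui, conj_of_commute hwc'])
      rw [hu] at h3
      calc k = h * (h⁻¹ * k * h) * h⁻¹ := by group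
        _ = 1 := by rw [h3]; group)
  · rw [conj_eq_sq_mul hci] at hk'
    have h3 : Commute (h * h) k := by
      have := hk'.mul_left kc.inv_left
      rwa [mul_inv_cancel_right] at this
    exact hncomm ((commute_of_sq ho h3.symm).symm)

/-- Let G be a finite group and V a nontrivial elementary abelian 2-subgroup of G of order at most 4 such that, whenever an element of V inverts an element h of G of odd order, some nontrivial element of V commutes with h. Then V meets O₂(G) nontrivially. (The case of order at most 4 has a short argument from the Baer–Suzuki theorem.) -/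
theorem result {G : Type*} [Group G] [Finite G] (V : Subgroup G) (hV : Cfsg.IsElementaryAbelian 2 V) (hV1 : V ≠ ⊥) (hS : Cfsg.IsSidkiPair V) (h4 : Nat.card V ≤ 4) : V ⊓ Cfsg.pCore 2 G ≠ ⊥ := by
  classical
  intro hbot
  have hout : ∀ v ∈ V, v ≠ 1 → ∃ h : G, h ≠ 1 ∧ Odd (orderOf h) ∧ v * h * v⁻¹ = h⁻¹ := by
    intro v hv hv1
    refine CfsgLib.BaerSuzuki.involution_inverts_odd (orderOf_eq_prime (hV.2 v hv) hv1) fun hm => ?_
    have : v ∈ V ⊓ Cfsg.pCore 2 G := ⟨hv, hm⟩
    rw [hbot, Subgroup.mem_bot] at this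
    exact hv1 this
  have hcomm : ∀ x ∈ V, ∀ y ∈ V, Commute x y := fun x hx y hy =>
    congrArg Subtype.val (hV.1.is_comm.comm (⟨x, hx⟩ : V) ⟨y, hy⟩)
  obtain ⟨a, haV, ha1⟩ := V.ne_bot_iff_exists_ne_one.mp hV1 |>.elim fun a ha =>
    (⟨(a : G), a.2, fun h => ha (Subtype.ext h)⟩ : ∃ x ∈ V, x ≠ 1)
  obtain ⟨h, h1, ho, hai⟩ := hout a haV ha1
  obtain ⟨b, hbV, hb1, hbh⟩ := hS h a haV ho hai
  have hb : Commute b h := hbh
  have hba : b ≠ a := fun e => h1 (eq_one_of_inverted ho (by rw [← hai, ← e, conj_of_commute hb]))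
  have ha2 : a * a = 1 := by rw [← pow_two]; exact hV.2 a haV
  have hb2 : b * b = 1 := by rw [← pow_two]; exact hV.2 b hbV
  have hcV : a * b ∈ V := mul_mem haV hbV
  have hc1 : a * b ≠ 1 := fun e => hba (by
    calc b = a * (a * b) := by rw [← mul_assoc, ha2, one_mul]
      _ = a := by rw [e, mul_one])
  have hmem : ∀ w ∈ V, w ≠ 1 → w = a ∨ w = b ∨ w = a * b := by
    intro w hw hw1
    have hsub : ({1, a, b, a * b} : Set G) ⊆ (V : Set G) := by
      rintro x (rfl | rfl | rfl | rfl)
      exacts [one_mem V, haV, hbV, hcV]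
    have hn : ({1, a, b, a * b} : Set G).ncard = 4 := by
      have e1 : a * b ≠ a := fun e => hb1 (mul_eq_left.mp e)
      have e2 : a * b ≠ b := fun e => ha1 (mul_eq_right.mp e)
      rw [Set.ncard_insert_of_notMem (by simp [Ne.symm ha1, Ne.symm hb1, Ne.symm hc1]),
        Set.ncard_insert_of_notMem (by simp [Ne.symm hba, Ne.symm e1]),
        Set.ncard_pair (Ne.symm e2)]
    have he := Set.eq_of_subset_of_ncard_le hsub
      (by rw [hn, ← Nat.card_coe_set_eq]; exact h4)
    have hw' : w ∈ ({1, a, b, a * b} : Set G) := he ▸ hw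
    simpa [hw1] using hw'
  have hci : a * b * h * (a * b)⁻¹ = h⁻¹ := by
    calc a * b * h * (a * b)⁻¹ = a * (b * h * b⁻¹) * a⁻¹ := by group
      _ = h⁻¹ := by rw [conj_of_commute hb, hai]
  obtain ⟨k, k1, ko, kbi⟩ := hout b hbV hb1
  obtain ⟨w, hwV, hw1, hwk⟩ := hS k b hbV ko kbi
  have hwk' : Commute w k := hwk
  rcases hmem w hwV hw1 with rfl | rfl | rfl
  · have kci : w * b * k * (w * b)⁻¹ = k⁻¹ := by
      calc w * b * k * (w * b)⁻¹ = w * (b * k * b⁻¹) * w⁻¹ := by group
        _ = k⁻¹ := by rw [kbi, conj_of_commute hwk'.inv_right]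
    exact pair_false hS haV hbV hcV (fun x hx hx1 => by
        rcases hmem x hx hx1 with e | e | e <;> simp [e])
      ho ko h1 k1 hci kci hb hwk' hai kbi
  · exact k1 (eq_one_of_inverted ko (by rw [← kbi, conj_of_commute hwk']))
  · have kai : a * k * a⁻¹ = k⁻¹ := by
      have e : a = a * b * b := by rw [mul_assoc, hb2, mul_one]
      calc a * k * a⁻¹ = a * b * (b * k * b⁻¹) * (a * b)⁻¹ := by
            conv_lhs => rw [e]
            group
        _ = k⁻¹ := by rw [kbi, conj_of_commute hwk'.inv_right]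
    exact pair_false hS hcV hbV haV hmem ho ko h1 k1 hai kai hb hwk' hci kbi

end Cfsg.Agent.S3011
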