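import Cfsg.Statements.S3012
import Mathlib.FieldTheory.Finite.Basic

set_option autoImplicit false
open Cfsg

namespace Cfsg.Agent.S3012


/-- Let G be a finite group, V a nontrivial elementary abelian 2-subgroup of G satisfying the Sidki pair condition (every odd-order element inverted by an element of V commutes with a nontrivial element of V), and K a normal subgroup of G with V ∩ K = 1. Then the image of V in G/K satisfies the Sidki pair condition in G/K. -/
theorem result {G : Type*} [Group G] [Finite G] (V K : Subgroup G) [K.Normal] (hV : Cfsg.IsElementaryAbelian 2 V) (hV1 : V ≠ ⊥) (hS : Cfsg.IsSidkiPair V) (hVK : V ⊓ K = ⊥) : Cfsg.IsSidkiPair (V.map (QuotientGroup.mk' K)) := by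
  rintro hbar vbar ⟨v, hv, rfl⟩ hodd hinv
  have hn : 0 < orderOf hbar := orderOf_pos hbar
  obtain ⟨j, hj⟩ := hodd
  obtain ⟨g, hg⟩ := QuotientGroup.mk'_surjective K (hbar ^ (j + 1))
  have hsq : hbar ^ (j + 1) * hbar ^ (j + 1) = hbar := by
    rw [← pow_add, show (j + 1) + (j + 1) = orderOf hbar + 1 by omega, pow_succ, pow_orderOf_eq_one,
      one_mul]
  set d := g * v * g⁻¹ * v⁻¹ with hd
  have hv2 : v * v = 1 := by rw [← pow_two]; exact hV.2 v hv
  have hvv : v⁻¹ = v := inv_eq_of_mul_eq_one_left hv2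
  have hdv : v * d * v⁻¹ = d⁻¹ := by
    rw [hd, hvv]
    simp only [mul_inv_rev, hvv, inv_inv, mul_assoc, hv2, mul_one]
  have hdi : QuotientGroup.mk' K d = hbar := by
    rw [hd, map_mul, map_mul, map_mul, map_inv, map_inv, hg]
    have e : (QuotientGroup.mk' K v) * (hbar ^ (j + 1))⁻¹ * (QuotientGroup.mk' K v)⁻¹
        = hbar ^ (j + 1) := by
      rw [← inv_pow, ← conj_pow, ← conj_inv, hinv, inv_inv]
    rw [show ∀ a b : G ⧸ K, a * b * a⁻¹ * b⁻¹ = a * (b * a⁻¹ * b⁻¹) from fun a b => by group, e, hsq]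
  obtain ⟨a, m, hm, ham⟩ := Nat.exists_eq_two_pow_mul_odd (orderOf_pos d).ne'
  set e := 2 ^ (a * (orderOf hbar).totient) with he
  have he1 : hbar ^ e = hbar := by
    conv_rhs => rw [← pow_one hbar]
    rw [pow_eq_pow_iff_modEq, he, pow_mul]
    exact Nat.ModEq.pow_totient (Nat.Coprime.pow_left a (Nat.coprime_two_left.mpr ⟨j, hj⟩))
  have hodd' : Odd (orderOf (d ^ e)) := by
    apply Odd.of_dvd_nat hm
    rw [orderOf_dvd_iff_pow_eq_one, ← pow_mul, ← orderOf_dvd_iff_pow_eq_one, ham]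
    exact Nat.mul_dvd_mul_right (pow_dvd_pow 2 (Nat.le_mul_of_pos_right a (Nat.totient_pos.mpr hn))) m
  have hinv' : v * d ^ e * v⁻¹ = (d ^ e)⁻¹ := by
    rw [← conj_pow, hdv, inv_pow]
  obtain ⟨w, hw, hw1, hwc⟩ := hS (d ^ e) v hv hodd' hinv'
  refine ⟨QuotientGroup.mk' K w, ⟨w, hw, rfl⟩, ?_, ?_⟩
  · intro h
    apply hw1
    rw [← Subgroup.mem_bot, ← hVK]
    exact ⟨hw, (QuotientGroup.eq_one_iff w).mp h⟩
  · have := congrArg (QuotientGroup.mk' K) hwc
    rwa [map_mul, map_mul, map_pow, hdi, he1] at this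

end Cfsg.Agent.S3012
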