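import Cfsg.Statements.S3013

set_option autoImplicit false
open Cfsg

namespace Cfsg.Agent.S3013


/-- Let G be a finite group and V a nontrivial elementary abelian 2-subgroup of G satisfying the Sidki pair condition. Let v ∈ V and let x be an element of odd order inverted by v, and put C = C_G(v) ∩ C_G(x), the centralizer of the dihedral subgroup generated by v and x. Then C ∩ V is nontrivial and satisfies the Sidki pair condition inside C: every odd-order element of C inverted by an element of C ∩ V commutes with a nontrivial element of C ∩ V. -/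
theorem result {G : Type*} [Group G] [Finite G] (V : Subgroup G) (hV : Cfsg.IsElementaryAbelian 2 V) (hV1 : V ≠ ⊥) (hS : Cfsg.IsSidkiPair V) (v x : G) (hv : v ∈ V) (hx : Odd (orderOf x)) (hinv : v * x * v⁻¹ = x⁻¹) (C : Subgroup G) (hC : C = Subgroup.centralizer ({v} : Set G) ⊓ Subgroup.centralizer ({x} : Set G)) : C ⊓ V ≠ ⊥ ∧ Cfsg.IsSidkiPair ((C ⊓ V).subgroupOf C) := by
  subst hC
  have hcomm : ∀ a ∈ V, ∀ b ∈ V, a * b = b * a := fun a ha b hb => by
    have := hV.1
    exact congrArg Subtype.val (mul_comm' (⟨a, ha⟩ : V) ⟨b, hb⟩)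
  obtain ⟨w, hw, hw1, hwx⟩ := hS x v hv hx hinv
  refine ⟨?_, ?_⟩
  · intro h
    apply hw1
    rw [← Subgroup.mem_bot, ← h]
    exact ⟨⟨Subgroup.mem_centralizer_singleton_iff.mpr (hcomm _ hw _ hv),
      Subgroup.mem_centralizer_singleton_iff.mpr hwx⟩, hw⟩
  rintro ⟨h, hhC⟩ ⟨u, huC⟩ hu hodd hui
  rw [Subgroup.mem_subgroupOf] at hu
  obtain ⟨-, huV⟩ := hu
  have hodd' : Odd (orderOf h) := by rwa [← Subgroup.orderOf_coe] at hodd
  have hui' : u * h * u⁻¹ = h⁻¹ := congrArg Subtype.val hui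
  have hhv : Commute h v := Subgroup.mem_centralizer_singleton_iff.mp hhC.1
  have hhx : Commute h x := Subgroup.mem_centralizer_singleton_iff.mp hhC.2
  have hux : Commute u x := Subgroup.mem_centralizer_singleton_iff.mp huC.2
  have huv : u * v = v * u := hcomm _ huV _ hv
  have hvh : v * h * v⁻¹ = h := by
    rw [← hhv.eq]; group
  have huxi : u * x⁻¹ * u⁻¹ = x⁻¹ := by
    rw [hux.inv_right.eq]; group
  have hoddm : Odd (orderOf (h * x)) :=
    Odd.of_dvd_nat (hodd'.mul hx) hhx.orderOf_mul_dvd_mul_orderOf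
  have hinv2 : (u * v) * (h * x) * (u * v)⁻¹ = (h * x)⁻¹ := by
    calc (u * v) * (h * x) * (u * v)⁻¹
        = (u * (v * h * v⁻¹) * u⁻¹) * (u * (v * x * v⁻¹) * u⁻¹) := by group
      _ = h⁻¹ * x⁻¹ := by rw [hvh, hui', hinv, huxi]
      _ = (h * x)⁻¹ := by rw [mul_inv_rev, hhx.inv_inv.eq]
  obtain ⟨z, hz, hz1, hzc⟩ := hS (h * x) (u * v) (V.mul_mem huV hv) hoddm hinv2
  have hz1' : Commute z (h * x) := hzc
  have hzu : Commute z u := hcomm _ hz _ huV
  have hz2 : Commute z (h⁻¹ * x) := by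
    have h3 : Commute z (u * (h * x) * u⁻¹) := (hzu.mul_right hz1').mul_right hzu.inv_right
    have h4 : u * (h * x) * u⁻¹ = h⁻¹ * x := by
      calc u * (h * x) * u⁻¹ = (u * h * u⁻¹) * (u * x * u⁻¹) := by group
        _ = h⁻¹ * x := by rw [hui', hux.eq]; group
    rwa [h4] at h3
  have hzxx : Commute z (x ^ 2) := by
    have h5 : (h * x) * (h⁻¹ * x) = x ^ 2 := by
      rw [hhx.eq, pow_two]; group
    exact h5 ▸ hz1'.mul_right hz2
  have hzx : Commute z x := by
    obtain ⟨m, hm⟩ := hx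
    have h6 : (x ^ 2) ^ (m + 1) = x := by
      rw [← pow_mul, show 2 * (m + 1) = orderOf x + 1 by omega, pow_succ, pow_orderOf_eq_one, one_mul]
    exact h6 ▸ hzxx.pow_right (m + 1)
  have hzh : Commute z h := by
    have h7 := hz1'.mul_right hzx.inv_right
    rwa [mul_inv_cancel_right] at h7
  refine ⟨⟨z, Subgroup.mem_centralizer_singleton_iff.mpr (hcomm _ hz _ hv),
    Subgroup.mem_centralizer_singleton_iff.mpr hzx⟩, ?_, ?_, ?_⟩
  · rw [Subgroup.mem_subgroupOf]
    exact ⟨⟨Subgroup.mem_centralizer_singleton_iff.mpr (hcomm _ hz _ hv),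
    Subgroup.mem_centralizer_singleton_iff.mpr hzx⟩, hz⟩
  · exact fun h => hz1 (congrArg Subtype.val h)
  · exact Subtype.ext hzh

end Cfsg.Agent.S3013
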