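import Cfsg.Statements.S3014
import Cfsg.Agent.Transfer.NormalMaximalNoFusion

set_option autoImplicit false
open Cfsg

namespace Cfsg.Agent.S3014


/-- Let G be a finite group and H ≤ M ≤ G subgroups such that for every g ∈ G the subgroup generated by H and g H g⁻¹ meets M exactly in H. If H is a maximal subgroup of M and M is a maximal subgroup of G, then the normal closure of H in G meets M exactly in H. -/
theorem result {G : Type*} [Group G] [Finite G] (H M : Subgroup G) (hHM : H ≤ M) (hcl : ∀ g : G, (H ⊔ H.map (MulAut.conj g).toMonoidHom) ⊓ M = H) (hmaxH : IsCoatom (H.subgroupOf M)) (hmaxM : IsCoatom M) : Subgroup.normalClosure (H : Set G) ⊓ M = H := by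
  set N := Subgroup.normalClosure (H : Set G) with hN
  have hHN : H ≤ N := Subgroup.le_normalClosure
  have hnorm : M ≤ Subgroup.normalizer (H : Set G) := by
    intro g hg
    have h1 : H ⊔ H.map (MulAut.conj g).toMonoidHom ≤ M := by
      refine sup_le hHM ?_
      rintro _ ⟨h, hh, rfl⟩
      exact M.mul_mem (M.mul_mem hg (hHM hh)) (M.inv_mem hg)
    have h2 : H.map (MulAut.conj g).toMonoidHom ≤ H := by
      have h3 := hcl g
      rw [inf_eq_left.mpr h1] at h3
      exact le_sup_right.trans h3.le
    rw [Subgroup.mem_normalizer_iff_map_conj_eq]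
    exact Subgroup.eq_of_le_of_card_ge h2
      (Subgroup.card_map_of_injective (f := (MulAut.conj g).toMonoidHom) (MulAut.conj g).injective).ge
  haveI : (H.subgroupOf M).Normal := Subgroup.normal_subgroupOf_of_le_normalizer hnorm
  by_contra hne
  have hMN : M ≤ N := by
    have h1 : H.subgroupOf M ≤ (N ⊓ M).subgroupOf M := fun a ha => ⟨hHN ha, a.2⟩
    rcases h1.lt_or_eq with h2 | h2
    · exact (Subgroup.subgroupOf_eq_top.mp (hmaxH.2 _ h2)).trans inf_le_left
    · apply absurd _ hne
      refine le_antisymm ?_ (le_inf hHN hHM)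
      intro a ha
      have h3 : (⟨a, ha.2⟩ : ↥M) ∈ H.subgroupOf M := h2.symm ▸ Subgroup.mem_subgroupOf.mpr ha
      exact h3
  refine CfsgLib.Transfer.not_le_normalClosure_of_no_fusion H M hHM hmaxH ?_ ?_ hMN
  · intro t z hzM hzH hzt
    by_contra htM
    set X := H ⊔ H.map (MulAut.conj t).toMonoidHom with hX
    have hHX : H ≤ X := le_sup_left
    have hzX : z ∈ Subgroup.normalizer (X : Set G) := by
      rw [Subgroup.mem_normalizer_iff_map_conj_eq, hX, Subgroup.map_sup]
      congr 1
      · exact Subgroup.mem_normalizer_iff_map_conj_eq.mp (hnorm hzM)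
      · have h4 := Subgroup.mem_normalizer_iff_map_conj_eq.mp (hnorm hzt)
        conv_rhs => rw [← h4]
        rw [Subgroup.map_map, Subgroup.map_map]
        congr 1
        ext a
        show z * (t * a * t⁻¹) * z⁻¹ = t * ((t⁻¹ * z * t) * a * (t⁻¹ * z * t)⁻¹) * t⁻¹
        group
    have hMX : M ≤ Subgroup.normalizer (X : Set G) := by
      have h1 : H.subgroupOf M < (M ⊓ Subgroup.normalizer (X : Set G)).subgroupOf M := by
        refine SetLike.lt_iff_le_and_exists.mpr
          ⟨fun a ha => ⟨a.2, Subgroup.le_normalizer (hHX ha)⟩, ⟨z, hzM⟩, Subgroup.mem_subgroupOf.mpr ⟨hzM, hzX⟩, hzH⟩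
      exact (Subgroup.subgroupOf_eq_top.mp (hmaxH.2 _ h1)).trans inf_le_right
    by_cases hXM : X ≤ M
    · have hXH : X = H := (inf_eq_left.mpr hXM).symm.trans (hcl t)
      have htH : t ∈ Subgroup.normalizer (H : Set G) := by
        rw [Subgroup.mem_normalizer_iff_map_conj_eq]
        exact Subgroup.eq_of_le_of_card_ge (le_sup_right.trans hXH.le)
          (Subgroup.card_map_of_injective (f := (MulAut.conj t).toMonoidHom) (MulAut.conj t).injective).ge
      rcases hnorm.lt_or_eq with h | h
      · have hHnormal : H.Normal := Subgroup.normalizer_eq_top_iff.mp (hmaxM.2 _ h)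
        refine hmaxH.1 (Subgroup.subgroupOf_eq_top.mpr (hMN.trans ?_))
        exact Subgroup.normalClosure_le_normal le_rfl
      · exact htM (h ▸ htH)
    · have hlt : M < M ⊔ X := lt_of_le_of_ne le_sup_left fun h => hXM (le_sup_right.trans h.ge)
      have htop : Subgroup.normalizer (X : Set G) = ⊤ :=
        top_le_iff.mp ((hmaxM.2 _ hlt).ge.trans (sup_le hMX Subgroup.le_normalizer))
      have hXn : X.Normal := Subgroup.normalizer_eq_top_iff.mp htop
      have hMX' : M ≤ X := hMN.trans (Subgroup.normalClosure_le_normal hHX)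
      exact hmaxH.1 (Subgroup.subgroupOf_eq_top.mpr ((le_inf hMX' le_rfl).trans (hcl t).le))
  · intro t z hzH hzt
    refine (hcl t⁻¹).le ⟨Subgroup.mem_sup_right ⟨z, hzH, ?_⟩, hzt⟩
    show t⁻¹ * z * t⁻¹⁻¹ = t⁻¹ * z * t
    rw [inv_inv]

end Cfsg.Agent.S3014
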