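import Cfsg.Statements.S3015
import Cfsg.Agent.Transfer.NormalMaximalNoFusion
import Mathlib.GroupTheory.Nilpotent
import Mathlib.GroupTheory.Transfer
import Mathlib.GroupTheory.Subgroup.Simple

set_option autoImplicit false
open Cfsg

namespace Cfsg.Agent.S3015


/-- Let G be a finite non-abelian simple group, M a maximal subgroup of G and H a normal subgroup of M of prime index in M. Then G is generated by H together with one of its conjugates. -/
theorem result {G : Type*} [Group G] [Finite G] [IsSimpleGroup G] (hG : ¬ IsMulCommutative G) (M H : Subgroup G) (hmaxM : IsCoatom M) (hHM : H ≤ M) (hHn : (H.subgroupOf M).Normal) (hidx : (H.relIndex M).Prime) : ∃ g : G, H ⊔ H.map (MulAut.conj g).toMonoidHom = ⊤ := by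
  classical
  have hnorm : M ≤ Subgroup.normalizer (H : Set G) :=
    (Subgroup.normal_subgroupOf_iff_le_normalizer hHM).mp hHn
  set r := H.relIndex M with hr
  haveI : Fact r.Prime := ⟨hidx⟩
  have hsub_ne : H.subgroupOf M ≠ ⊤ := fun h => hidx.one_lt.ne' (by
    rw [hr, Subgroup.relIndex, h, Subgroup.index_top])
  have hmax : IsCoatom (H.subgroupOf M) := by
    refine ⟨hsub_ne, fun Y hY => ?_⟩
    have h1 := Subgroup.index_dvd_of_le hY.le
    have hidx' : (H.subgroupOf M).index.Prime := hidx
    rcases (Nat.dvd_prime hidx').mp h1 with h2 | h2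
    · exact Subgroup.index_eq_one.mp h2
    · exfalso
      refine hY.ne (Subgroup.eq_of_le_of_card_ge hY.le ?_)
      have h3 := (H.subgroupOf M).card_mul_index
      rw [← Y.card_mul_index, h2] at h3
      exact (Nat.eq_of_mul_eq_mul_right hidx'.pos h3).ge
  have hMbot : M ≠ ⊥ := by
    intro h
    apply hsub_ne
    rw [Subgroup.subgroupOf_eq_top, h]
    exact bot_le
  have hMnn : ∀ X : Subgroup G, M ≤ Subgroup.normalizer (X : Set G) → X ≠ ⊥ → X ≠ ⊤ →
      Subgroup.normalizer (X : Set G) = M := by
    intro X hX h1 h2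
    rcases hX.lt_or_eq with h | h
    · exfalso
      have hXn : X.Normal := Subgroup.normalizer_eq_top_iff.mp (hmaxM.2 _ h)
      exact (IsSimpleGroup.eq_bot_or_eq_top_of_normal X hXn).elim h1 h2
    · exact h.symm
  have hNM : Subgroup.normalizer (M : Set G) = M :=
    hMnn M Subgroup.le_normalizer hMbot hmaxM.1
  by_contra hno
  by_cases hH : H = ⊥
  · -- `M` has prime order and is a self-normalizing Sylow subgroup
    subst hH
    have hcard : Nat.card ↥M = r := by rw [hr, Subgroup.relIndex_bot_left]
    have hMp : IsPGroup r ↥M := IsPGroup.of_card (n := 1) (by rw [hcard, pow_one])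
    haveI : IsCyclic ↥M := isCyclic_of_prime_card hcard
    obtain ⟨S, hS⟩ := hMp.exists_le_sylow
    haveI : Group.IsNilpotent ↥(S : Subgroup G) := S.isPGroup'.isNilpotent
    have hSM : (S : Subgroup G) = M := by
      refine le_antisymm (Subgroup.subgroupOf_eq_top.mp
        (normalizerCondition_iff_only_full_group_self_normalizing.mp
          Group.normalizerCondition_of_isNilpotent _ ?_)) hS
      rw [← Subgroup.subgroupOf_normalizer_eq hS, hNM]
    have hb : Subgroup.normalizer ((S : Subgroup G) : Set G) ≤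
        Subgroup.centralizer ((S : Subgroup G) : Set G) := by
      rw [hSM, hNM]
      intro a ha b hb
      letI := IsCyclic.commGroup (α := ↥M)
      exact congrArg Subtype.val (mul_comm (⟨b, hb⟩ : ↥M) ⟨a, ha⟩)
    have hc := MonoidHom.ker_transferSylow_isComplement' S hb
    rcases IsSimpleGroup.eq_bot_or_eq_top_of_normal _ (inferInstance : (MonoidHom.transferSylow S hb).ker.Normal) with h | h
    · have h2 := hc.sup_eq_top
      rw [h, bot_sup_eq, hSM] at h2
      exact hmaxM.1 h2
    · have h2 := hc.disjoint.eq_bot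
      rw [h, top_inf_eq, hSM] at h2
      exact hMbot h2
  have hHtop : H ≠ ⊤ := fun h => hmaxM.1 (top_le_iff.mp (h ▸ hHM))
  have hNH : Subgroup.normalizer (H : Set G) = M := hMnn H hnorm hH hHtop
  have hconjH : ∀ t : G, H.map (MulAut.conj t).toMonoidHom ≤ M → t ∈ M := by
    intro t ht
    set H' := H.map (MulAut.conj t).toMonoidHom with hH'
    have hcard : Nat.card ↥H' = Nat.card ↥H :=
      Subgroup.card_map_of_injective (f := (MulAut.conj t).toMonoidHom) (MulAut.conj t).injective
    have hmul : ∀ X : Subgroup G, X ≤ M → Nat.card ↥X * X.relIndex M = Nat.card ↥M := fun X hX => by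
      rw [← Subgroup.relIndex_bot_left, Subgroup.relIndex_mul_relIndex _ _ _ bot_le hX,
        Subgroup.relIndex_bot_left]
    have hidx' : H'.relIndex M = r := by
      have h1 := hmul H' ht
      rw [hcard, ← hmul H hHM, ← hr] at h1
      exact Nat.eq_of_mul_eq_mul_left Nat.card_pos h1
    -- elements of order prime to `r`
    set P : G → Prop := fun x => (orderOf x).Coprime r with hP
    have hinH : ∀ x ∈ M, P x → x ∈ H := by
      intro x hx hxP
      haveI := hHn
      have h1 : orderOf ((QuotientGroup.mk (⟨x, hx⟩ : ↥M)) : ↥M ⧸ H.subgroupOf M) ∣ orderOf x := by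
        have h := orderOf_map_dvd (QuotientGroup.mk' (H.subgroupOf M)) (⟨x, hx⟩ : ↥M)
        rwa [Subgroup.orderOf_mk] at h
      have h2 : orderOf ((QuotientGroup.mk (⟨x, hx⟩ : ↥M)) : ↥M ⧸ H.subgroupOf M) ∣ r :=
        orderOf_dvd_natCard _
      have h3 := (QuotientGroup.eq_one_iff _).mp
        (orderOf_eq_one_iff.mp (Nat.eq_one_of_dvd_coprimes hxP h1 h2))
      exact Subgroup.mem_subgroupOf.mp h3
    set A := {x : G | x ∈ H ∧ P x} with hA
    have himg : (MulAut.conj t) '' A = A := by
      refine Set.eq_of_subset_of_ncard_le ?_ ?_ (Set.toFinite _)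
      · rintro _ ⟨a, ⟨ha1, ha2⟩, rfl⟩
        have ha3 : P (MulAut.conj t a) := by
          show (orderOf _).Coprime r
          rwa [MulEquiv.orderOf_eq]
        exact ⟨hinH _ (ht ⟨a, ha1, rfl⟩) ha3, ha3⟩
      · rw [Set.ncard_image_of_injective _ (MulAut.conj t).injective]
    set D := Subgroup.closure A with hD
    have hDn : ∀ g : G, (MulAut.conj g) '' A = A → g ∈ Subgroup.normalizer (D : Set G) := by
      intro g hg
      rw [Subgroup.mem_normalizer_iff_map_conj_eq, hD, MonoidHom.map_closure]
      exact congrArg Subgroup.closure hg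
    have hMD : M ≤ Subgroup.normalizer (D : Set G) := by
      intro g hg
      apply hDn
      refine Set.eq_of_subset_of_ncard_le ?_ ?_ (Set.toFinite _)
      · rintro _ ⟨a, ⟨ha1, ha2⟩, rfl⟩
        refine ⟨(Subgroup.mem_normalizer_iff.mp (hnorm hg) a).mp ha1, ?_⟩
        show (orderOf _).Coprime r
        rwa [MulEquiv.orderOf_eq]
      · rw [Set.ncard_image_of_injective _ (MulAut.conj g).injective]
    by_cases hDbot : D = ⊥
    · -- `M` is an `r`-group, so `H'` is normal in `M`
      have hMr : IsPGroup r ↥M := by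
        intro x
        obtain ⟨k, m, hm, hkm⟩ := Nat.exists_eq_pow_mul_and_not_dvd (orderOf_pos (x : G)).ne' r
          hidx.ne_one
        refine ⟨k, Subtype.ext ?_⟩
        show (x : G) ^ r ^ k = 1
        have hP' : P ((x : G) ^ r ^ k) := by
          show (orderOf _).Coprime r
          refine Nat.Coprime.coprime_dvd_left ?_ (hidx.coprime_iff_not_dvd.mpr hm).symm
          rw [orderOf_dvd_iff_pow_eq_one, ← pow_mul, ← hkm, pow_orderOf_eq_one]
        have h4 : (x : G) ^ r ^ k ∈ D :=
          Subgroup.subset_closure ⟨hinH _ (pow_mem x.2 _) hP', hP'⟩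
        rwa [hDbot, Subgroup.mem_bot] at h4
      haveI : Group.IsNilpotent ↥M := hMr.isNilpotent
      have hco : IsCoatom (H'.subgroupOf M) := by
        have hp' : (H'.subgroupOf M).index.Prime := by
          show (H'.relIndex M).Prime
          rw [hidx']; exact hidx
        refine ⟨fun h => hp'.ne_one (by rw [h, Subgroup.index_top]), fun Y hY => ?_⟩
        rcases (Nat.dvd_prime hp').mp (Subgroup.index_dvd_of_le hY.le) with h2 | h2
        · exact Subgroup.index_eq_one.mp h2
        · exfalso
          refine hY.ne (Subgroup.eq_of_le_of_card_ge hY.le ?_)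
          have h3 := (H'.subgroupOf M).card_mul_index
          rw [← Y.card_mul_index, h2] at h3
          exact (Nat.eq_of_mul_eq_mul_right hp'.pos h3).ge
      have hn' : (H'.subgroupOf M).Normal :=
        Subgroup.NormalizerCondition.normal_of_coatom _ Group.normalizerCondition_of_isNilpotent hco
      have hMH' : M ≤ Subgroup.normalizer (H' : Set G) :=
        (Subgroup.normal_subgroupOf_iff_le_normalizer ht).mp hn'
      -- so conjugation by `t` carries `M` into `M`
      rw [← hNM, Subgroup.mem_normalizer_iff_map_conj_eq]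
      refine (Subgroup.eq_of_le_of_card_ge ?_ ?_).symm
      · intro m hm
        refine ⟨t⁻¹ * m * t, ?_, by simp [mul_assoc]⟩
        show t⁻¹ * m * t ∈ M
        rw [← hNH, Subgroup.mem_normalizer_iff_map_conj_eq]
        refine Subgroup.eq_of_le_of_card_ge ?_ (Subgroup.card_map_of_injective
          (f := (MulAut.conj (t⁻¹ * m * t)).toMonoidHom) (MulAut.conj _).injective).ge
        rintro _ ⟨a, ha, rfl⟩
        obtain ⟨b, hb, hbe⟩ := (Subgroup.mem_normalizer_iff.mp (hMH' hm) _).mp ⟨a, ha, rfl⟩
        have hb' : t * b * t⁻¹ = m * (t * a * t⁻¹) * m⁻¹ := hbe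
        show t⁻¹ * m * t * a * (t⁻¹ * m * t)⁻¹ ∈ H
        rw [show t⁻¹ * m * t * a * (t⁻¹ * m * t)⁻¹ = t⁻¹ * (m * (t * a * t⁻¹) * m⁻¹) * t by group,
          ← hb', show t⁻¹ * (t * b * t⁻¹) * t = b by group]
        exact hb
      · exact (Subgroup.card_map_of_injective (f := (MulAut.conj t).toMonoidHom) (MulAut.conj t).injective).le
    · have hDle : D ≤ H := (Subgroup.closure_le _).mpr fun a ha => ha.1
      have hDtop : D ≠ ⊤ := fun h => hHtop (top_le_iff.mp (h ▸ hDle))
      rw [← hMnn D hMD hDbot hDtop]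
      exact hDn t himg
  have h1 : ∀ t z : G, z ∈ M → z ∉ H → t⁻¹ * z * t ∈ M → t ∈ M := by
    intro t z hzM hzH hzt
    set X := H ⊔ H.map (MulAut.conj t).toMonoidHom with hX
    have hHX : H ≤ X := le_sup_left
    by_cases hXM : X ≤ M
    · exact hconjH t (le_sup_right.trans hXM)
    exfalso
    have hzX : z ∈ Subgroup.normalizer (X : Set G) := by
      rw [Subgroup.mem_normalizer_iff_map_conj_eq, hX, Subgroup.map_sup]
      congr 1
      · exact Subgroup.mem_normalizer_iff_map_conj_eq.mp (hnorm hzM)
      · have h4 := Subgroup.mem_normalizer_iff_map_conj_eq.mp (hnorm hzt)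
        conv_rhs => rw [← h4]
        rw [Subgroup.map_map, Subgroup.map_map]
        congr 1
        ext a
        show z * (t * a * t⁻¹) * z⁻¹ = t * ((t⁻¹ * z * t) * a * (t⁻¹ * z * t)⁻¹) * t⁻¹
        group
    have hMX : M ≤ Subgroup.normalizer (X : Set G) := by
      have h1 : H.subgroupOf M < (M ⊓ Subgroup.normalizer (X : Set G)).subgroupOf M := by
        refine SetLike.lt_iff_le_and_exists.mpr
          ⟨fun a ha => ⟨a.2, Subgroup.le_normalizer (hHX ha)⟩, ⟨z, hzM⟩,
            Subgroup.mem_subgroupOf.mpr ⟨hzM, hzX⟩, fun h => hzH (Subgroup.mem_subgroupOf.mp h)⟩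
      exact (Subgroup.subgroupOf_eq_top.mp (hmax.2 _ h1)).trans inf_le_right
    have hX0 : X ≠ ⊥ := ne_bot_of_le_ne_bot hH hHX
    have hX1 : X ≠ ⊤ := fun h => hno ⟨t, h⟩
    exact hXM (Subgroup.le_normalizer.trans (hMnn X hMX hX0 hX1).le)
  have h2 : ∀ t z : G, z ∈ H → t⁻¹ * z * t ∈ M → t⁻¹ * z * t ∈ H := by
    intro t z hz hzt
    by_contra hy
    have h3 : t⁻¹ ∈ M := by
      refine h1 t⁻¹ _ hzt hy ?_
      rw [inv_inv, show t * (t⁻¹ * z * t) * t⁻¹ = z by group]
      exact hHM hz
    apply hy
    have h4 := (Subgroup.mem_normalizer_iff.mp (hnorm h3) z).mp hz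
    rwa [inv_inv] at h4
  haveI := hHn
  apply CfsgLib.Transfer.not_le_normalClosure_of_no_fusion H M hHM hmax h1 h2
  rcases IsSimpleGroup.eq_bot_or_eq_top_of_normal (Subgroup.normalClosure (H : Set G)) inferInstance with h | h
  · exact absurd (le_bot_iff.mp (Subgroup.le_normalClosure.trans h.le)) hH
  · rw [h]; exact le_top

end Cfsg.Agent.S3015
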