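import Cfsg.Statements.S3023
import Cfsg.Agent.Eq.Def_LocalStructure
import Cfsg.Agent.LocalP.Basic
import Cfsg.Agent.PGroup.Normal
import Cfsg.Agent.S0542

set_option autoImplicit false
open Cfsg

namespace Cfsg.Agent.S3023

open CfsgLib.LocalP

variable {G : Type*} [Group G]

/-- A nontrivial subgroup of a `p`-group normalized by it meets its centre. -/
theorem exists_central [Finite G] {p : ℕ} [Fact p.Prime] {R T : Subgroup G} (hT : IsPGroup p T)
    (hRT : R ≤ T) (hR : R ≠ ⊥) (hn : T ≤ Subgroup.normalizer (R : Set G)) :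
    R ⊓ Subgroup.centralizer (T : Set G) ≠ ⊥ := by
  haveI : (R.subgroupOf T).Normal := (Subgroup.normal_subgroupOf_iff_le_normalizer hRT).mpr hn
  have h1 := CfsgLib.PGroup.inf_center_ne_bot hT (R.subgroupOf T)
    (fun h => hR (by rw [← Subgroup.map_subgroupOf_eq_of_le hRT, h, Subgroup.map_bot]))
  obtain ⟨x, hx, hx1⟩ := Subgroup.bot_or_exists_ne_one (R.subgroupOf T ⊓ Subgroup.center T) |>.resolve_left h1
  intro h
  have : (x : G) ∈ R ⊓ Subgroup.centralizer (T : Set G) :=
    ⟨hx.1, fun t ht => congrArg Subtype.val (Subgroup.mem_center_iff.mp hx.2 ⟨t, ht⟩)⟩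
  rw [h, Subgroup.mem_bot] at this
  exact hx1 (Subtype.ext this)

/-- Let p be a prime, G a finite group of parabolic characteristic p (every p-local subgroup containing a Sylow p-subgroup of G has characteristic p), S a Sylow p-subgroup of G and G₁ a subnormal subgroup of G. If the centre of S ∩ G₁ is nontrivial and contained in the centre of S, then G₁ has parabolic characteristic p. -/
theorem result {G : Type*} [Group G] [Finite G] {p : ℕ} [Fact p.Prime] (hG : Cfsg.IsOfParabolicCharacteristic p G) (S : Sylow p G) (G₁ : Subgroup G) (hsn : G₁.IsSubnormal) (hne : ((S : Subgroup G) ⊓ G₁) ⊓ Subgroup.centralizer (((S : Subgroup G) ⊓ G₁ : Subgroup G) : Set G) ≠ ⊥) (hle : ((S : Subgroup G) ⊓ G₁) ⊓ Subgroup.centralizer (((S : Subgroup G) ⊓ G₁ : Subgroup G) : Set G) ≤ (S : Subgroup G) ⊓ Subgroup.centralizer ((S : Subgroup G) : Set G)) : Cfsg.IsOfParabolicCharacteristic p ↥G₁ := by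
  intro R hR hR1 hpar
  obtain ⟨T, hT⟩ := S0542.result p G₁ hsn S
  obtain ⟨T1, hT1⟩ := hpar
  obtain ⟨x, hx⟩ := MulAction.exists_smul_eq ↥G₁ T1 T
  set f := MulAut.conj x with hf
  -- replace `R` by a conjugate normalized by `S ⊓ G₁`
  set R' := R.map f.toMonoidHom with hR'
  have hmapN : (Subgroup.normalizer (R : Set ↥G₁)).map f.toMonoidHom = Subgroup.normalizer (R' : Set ↥G₁) := by
    rw [hR', Subgroup.coe_map]
    exact Subgroup.map_equiv_normalizer_eq R f
  have hTN : (T : Subgroup ↥G₁) ≤ Subgroup.normalizer (R' : Set ↥G₁) := by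
    rw [← hmapN, ← hx]
    rintro _ ⟨y, hy, rfl⟩
    exact ⟨y, hT1 hy, rfl⟩
  suffices hgoal : Subgroup.centralizer (pCore p ↥(Subgroup.normalizer (R' : Set ↥G₁)) : Set ↥(Subgroup.normalizer (R' : Set ↥G₁))) ≤
      pCore p ↥(Subgroup.normalizer (R' : Set ↥G₁)) by
    exact charP_of_mulEquiv ((f.subgroupMap (Subgroup.normalizer (R : Set ↥G₁))).trans (MulEquiv.subgroupCongr hmapN)).symm hgoal
  have hR'p : IsPGroup p R' := hR.map f.toMonoidHom
  have hR'1 : R' ≠ ⊥ := fun h => hR1 ((Subgroup.map_eq_bot_iff_of_injective R f.injective).mp h)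
  set M := Subgroup.normalizer (R' : Set ↥G₁) with hM
  have hR'T : R' ≤ (T : Subgroup ↥G₁) := by
    have := T.is_maximal' (T.isPGroup'.to_sup_of_normal_right' hR'p hTN) le_sup_left
    exact this ▸ le_sup_right
  obtain ⟨r, hr, hr1⟩ := ((R' ⊓ Subgroup.centralizer ((T : Subgroup ↥G₁) : Set ↥G₁)).bot_or_exists_ne_one).resolve_left
    (exists_central T.isPGroup' hR'T hR'1 hTN)
  set R0 := Subgroup.zpowers (r : G) with hR0
  have hrS : (r : G) ∈ (S : Subgroup G) ⊓ Subgroup.centralizer ((S : Subgroup G) : Set G) := by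
    have hrT : (r : G) ∈ (S : Subgroup G) ⊓ G₁ := by
      have h1 := hR'T hr.1
      rw [hT] at h1
      exact ⟨h1, r.2⟩
    refine hle ⟨hrT, fun y hy => ?_⟩
    have hyT : (⟨y, hy.2⟩ : ↥G₁) ∈ (T : Subgroup ↥G₁) := by rw [hT]; exact hy.1
    exact congrArg Subtype.val (hr.2 _ hyT)
  have hR01 : R0 ≠ ⊥ := by
    rw [hR0, Subgroup.zpowers_ne_bot]
    exact fun h => hr1 (Subtype.ext h)
  have hR0p : IsPGroup p R0 := S.isPGroup'.to_le (Subgroup.zpowers_le.mpr hrS.1)
  set L := Subgroup.normalizer (R0 : Set G) with hL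
  have hcommL : ∀ g : G, g * r = r * g → g ∈ L := by
    intro g hg
    rw [hL, Subgroup.mem_normalizer_iff]
    intro y
    have key : ∀ y ∈ R0, g * y = y * g := by
      rintro _ ⟨k, rfl⟩
      exact ((show Commute g (r : G) from hg).zpow_right k).eq
    constructor
    · intro hy; rwa [key y hy, mul_inv_cancel_right]
    · intro hy
      have h2 := key _ hy
      rw [mul_assoc g y, ← mul_assoc] at h2
      have : g * y * g⁻¹ = y := by
        have h3 : g * (g * (y * g⁻¹)) = g * y := by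
          rw [← mul_assoc, h2]; group
        simpa [mul_assoc] using mul_left_cancel h3
      rwa [this] at hy
  have hSL : (S : Subgroup G) ≤ L := fun s hs => hcommL s (hrS.2 s hs)
  have hcharL := hG R0 hR0p hR01 ⟨S, hSL⟩
  have hC1 := charP_of_isSubnormal hcharL (G₁.subgroupOf L) (hsn.comap L.subtype)
  let eC : ↥(G₁.subgroupOf L) ≃* ↥(L.subgroupOf G₁) :=
    { toFun := fun y => ⟨⟨y.1.1, y.2⟩, y.1.2⟩
      invFun := fun y => ⟨⟨y.1.1, y.2⟩, y.1.2⟩
      left_inv := fun _ => rfl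
      right_inv := fun _ => rfl
      map_mul' := fun _ _ => rfl }
  set C := L.subgroupOf G₁ with hCdef
  have hC : Subgroup.centralizer (pCore p ↥C : Set ↥C) ≤ pCore p ↥C := charP_of_mulEquiv eC hC1
  have hTC : (T : Subgroup ↥G₁) ≤ C := fun t ht => hSL (by rw [hT] at ht; exact ht)
  -- `D`, the centralizer of `O_p(M)` in `M`
  set D0 := Subgroup.centralizer (pCore p ↥M : Set ↥M) with hD0
  set D := D0.map M.subtype with hD
  have hDM : D ≤ M := Subgroup.map_subtype_le D0
  haveI hD0n : D0.Normal := inferInstance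
  have hR'O : R'.subgroupOf M ≤ pCore p ↥M :=
    le_pCore Subgroup.normal_in_normalizer (hR'p.comap_of_injective _ M.subtype_injective)
  have hDC : D ≤ C := by
    rintro _ ⟨d, hd, rfl⟩
    apply hcommL
    have := hd ⟨r, Subgroup.le_normalizer hr.1⟩ (hR'O hr.1)
    exact (congrArg (fun z : ↥M => ((z : ↥G₁) : G)) this).symm
  have hnorm : pCore p ↥C ≤ Subgroup.normalizer ((D.subgroupOf C : Subgroup ↥C) : Set ↥C) := by
    intro c hc
    have hcT : (c : ↥G₁) ∈ (T : Subgroup ↥G₁) := by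
      let TC : Sylow p ↥C := T.subtype hTC
      exact isPGroup_pCore.le_sylow_of_normal TC hc
    have hcM : (c : ↥G₁) ∈ M := hTN hcT
    have hcl : ∀ m : ↥M, ∀ y ∈ D, (m : ↥G₁) * y * (m : ↥G₁)⁻¹ ∈ D := by
      rintro m _ ⟨d, hd, rfl⟩
      exact ⟨m * d * m⁻¹, hD0n.conj_mem d hd m, rfl⟩
    rw [Subgroup.mem_normalizer_iff]
    intro y
    refine ⟨fun hy => hcl ⟨_, hcM⟩ _ hy, fun hy => ?_⟩
    have := hcl (⟨_, hcM⟩⁻¹) _ hy
    simpa [Subgroup.mem_subgroupOf, mul_assoc] using this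
  have hDchar0 := charP_of_normalized hC (D.subgroupOf C) hnorm
  have hDchar : Subgroup.centralizer (pCore p ↥D0 : Set ↥D0) ≤ pCore p ↥D0 :=
    charP_of_mulEquiv ((Subgroup.subgroupOfEquivOfLe hDC).trans
      (D0.equivMapOfInjective M.subtype M.subtype_injective).symm) hDchar0
  refine le_pCore hD0n (isPGroup_of_forall_coprime D0 fun d hd hcop => ?_)
  have h1 : (⟨d, hd⟩ : ↥D0) = 1 := by
    refine eq_one_of_centralizes_pCore hDchar ?_ fun q hq => ?_
    · rw [← Subgroup.orderOf_coe]; exact hcop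
    · have hq' : (q : ↥M) ∈ pCore p ↥M := map_pCore_le_of_normal D0 ⟨q, hq, rfl⟩
      exact Subtype.ext (hd _ hq').symm
  exact congrArg Subtype.val h1

end Cfsg.Agent.S3023
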