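import Cfsg.Statements.S3025
import Cfsg.Agent.TwoGroup.UniqueInvolution
import Cfsg.Agent.PGroup.UniqueOrderP

set_option autoImplicit false
open Cfsg

namespace Cfsg.Agent.S3025

/-- Let F be a finite group and H a nontrivial subgroup of F that is contained in every nontrivial subgroup of F which H normalizes. Then F has a nontrivial normal subgroup N contained in every nontrivial normal subgroup of F (a unique minimal normal subgroup), N is simple, and one of the following holds: C_F(N) = 1; or H = N has prime order p, C_F(N) is cyclic of order a power of p, and F/C_F(N) is cyclic of order dividing p − 1; or H = N has order 2, N is central in F, and F is a generalized quaternion group. -/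
theorem result {F : Type*} [Group F] [Finite F] (H : Subgroup F) (hH : H ≠ ⊥)
    (hmin : ∀ R : Subgroup F, R ≠ ⊥ → H ≤ Subgroup.normalizer (R : Set F) → H ≤ R) :
    ∃ N : Subgroup F, N.Normal ∧ N ≠ ⊥ ∧ (∀ M : Subgroup F, M.Normal → M ≠ ⊥ → N ≤ M) ∧ IsSimpleGroup ↥N ∧
      (Subgroup.centralizer (N : Set F) = ⊥ ∨
       (H = N ∧ (Nat.card N).Prime ∧ IsCyclic ↥(Subgroup.centralizer (N : Set F)) ∧
          (∃ k : ℕ, 1 ≤ k ∧ Nat.card ↥(Subgroup.centralizer (N : Set F)) = Nat.card N ^ k) ∧
          (∃ g : F, Subgroup.centralizer (N : Set F) ⊔ Subgroup.zpowers g = ⊤) ∧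
          (Subgroup.centralizer (N : Set F)).index ∣ Nat.card N - 1) ∨
       (H = N ∧ Nat.card N = 2 ∧ Subgroup.centralizer (N : Set F) = ⊤ ∧
          ∃ k : ℕ, 1 ≤ k ∧ Nonempty (F ≃* QuaternionGroup (2 ^ k)))) := by
  classical
  set N := Subgroup.normalClosure (H : Set F) with hNdef
  have hHN : H ≤ N := Subgroup.le_normalClosure
  have hNne : N ≠ ⊥ := fun h => hH (eq_bot_iff.2 (hHN.trans h.le))
  have hleast : ∀ M : Subgroup F, M.Normal → M ≠ ⊥ → N ≤ M := by
    intro M hM hM1
    exact Subgroup.normalClosure_le_normal (hmin M hM1 (by rw [Subgroup.normalizer_eq_top (H := M)]; exact le_top))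
  haveI hNn : Nontrivial N := (Subgroup.nontrivial_iff_ne_bot N).2 hNne
  have hsimple : IsSimpleGroup N := by
    refine ⟨fun K hK => or_iff_not_imp_left.2 fun hK1 => ?_⟩
    set K' := K.map N.subtype with hK'
    have hK'1 : K' ≠ ⊥ := fun h => hK1 ((Subgroup.map_eq_bot_iff_of_injective _ N.subtype_injective).1 h)
    have hK'n : ∀ n ∈ N, ∀ k ∈ K', n * k * n⁻¹ ∈ K' := by
      rintro n hn _ ⟨k, hk, rfl⟩
      exact ⟨⟨n, hn⟩ * k * ⟨n, hn⟩⁻¹, hK.conj_mem k hk _, rfl⟩
    have hconj : ∀ g : F, ∀ h ∈ H, g * h * g⁻¹ ∈ K' := by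
      intro g
      -- pull back along conjugation
      set R := K'.comap (MulAut.conj g).toMonoidHom with hR
      have hR1 : R ≠ ⊥ := by
        intro hbot
        apply hK'1
        have := Subgroup.map_comap_eq_self_of_surjective (f := (MulAut.conj g).toMonoidHom)
          (MulAut.conj g).surjective K'
        rw [← hR, hbot, Subgroup.map_bot] at this
        exact this.symm
      have hnorm : H ≤ Subgroup.normalizer (R : Set F) := by
        have key : ∀ h ∈ H, ∀ r ∈ R, h * r * h⁻¹ ∈ R := by
          intro h hh r hr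
          have hgh : g * h * g⁻¹ ∈ N :=
            (inferInstance : N.Normal).conj_mem h (hHN hh) g
          have := hK'n _ hgh _ hr
          rw [hR, Subgroup.mem_comap] at hr ⊢
          simpa [mul_assoc] using this
        intro h hh
        rw [Subgroup.mem_normalizer_iff]
        refine fun r => ⟨key h hh r, fun hr => ?_⟩
        simpa [mul_assoc] using key h⁻¹ (H.inv_mem hh) _ hr
      intro h hh
      exact hmin R hR1 hnorm hh
    have hNK : N ≤ K' := by
      refine (Subgroup.closure_le K').2 ?_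
      intro x hx
      obtain ⟨h, hh, g, rfl⟩ := by
        simpa [Group.mem_conjugatesOfSet_iff, isConj_iff] using hx
      exact hconj g h hh
    rw [eq_top_iff]
    intro x _
    obtain ⟨k, hk, he⟩ := hNK x.2
    rwa [← Subtype.ext he]
  refine ⟨N, inferInstance, hNne, hleast, hsimple, ?_⟩
  set C := Subgroup.centralizer (N : Set F) with hC
  by_cases hC1 : C = ⊥
  · exact Or.inl hC1
  haveI hCn : C.Normal := inferInstance
  have hNC : N ≤ C := hleast C hCn hC1
  have hcomm : IsMulCommutative N := ⟨⟨fun a b => Subtype.ext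
    (Subgroup.mem_centralizer_iff.1 (hNC b.2) a a.2)⟩⟩
  have hp : (Nat.card N).Prime := by
    letI : CommGroup N := { (inferInstance : Group N) with mul_comm := fun a b => hcomm.is_comm.comm a b }
    exact IsSimpleGroup.prime_card
  set p := Nat.card N with hpdef
  haveI : Fact p.Prime := ⟨hp⟩
  have hHeq : H = N := by
    refine le_antisymm hHN ?_
    rcases Subgroup.eq_bot_or_eq_top_of_prime_card (H.subgroupOf N) with h | h
    · exact absurd (le_bot_iff.1 ((Subgroup.subgroupOf_eq_bot.1 h) le_rfl hHN)) hH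
    · exact Subgroup.subgroupOf_eq_top.1 h
  have hsub : ∀ R : Subgroup F, R ≠ ⊥ → R ≤ C → N ≤ R := by
    intro R hR1 hRC
    rw [← hHeq]
    refine hmin R hR1 ?_
    intro h hh
    have hhN : h ∈ N := hHN hh
    rw [Subgroup.mem_normalizer_iff]
    intro r
    constructor
    · intro hr
      rwa [Subgroup.mem_centralizer_iff.1 (hRC hr) h hhN, mul_inv_cancel_right]
    · intro hr
      have e := Subgroup.mem_centralizer_iff.1 (hRC hr) h hhN
      have e2 : h * r = r * h := mul_left_cancel (a := h) (by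
        calc h * (h * r) = h * (h * r * h⁻¹) * h := by group
          _ = (h * r * h⁻¹) * h * h := by rw [e]
          _ = h * (r * h) := by group)
      rwa [e2, mul_inv_cancel_right] at hr
  have hpC : IsPGroup p C := by
    intro x
    refine ⟨(orderOf x).factorization p, ?_⟩
    rw [← orderOf_dvd_iff_pow_eq_one]
    by_contra hnd
    obtain ⟨r, hr, hrd, hrp⟩ : ∃ r, r.Prime ∧ r ∣ orderOf x ∧ r ≠ p := by
      by_contra! h
      exact hnd (dvd_of_eq (Nat.eq_prime_pow_of_unique_prime_dvd (orderOf_pos x).ne'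
        (fun {d} hd hdx => h d hd hdx) ▸ by rw [Nat.Prime.factorization_pow hp, Finsupp.single_eq_same]))
    have hy : orderOf ((x : F) ^ (orderOf x / r)) = r := by
      rw [← SubgroupClass.coe_pow, Subgroup.orderOf_coe, orderOf_pow_orderOf_div (orderOf_pos x).ne' hrd]
    have hle := hsub (Subgroup.zpowers ((x : F) ^ (orderOf x / r)))
      (fun h => by rw [Subgroup.zpowers_eq_bot] at h; rw [h, orderOf_one] at hy; exact hr.ne_one hy.symm)
      (Subgroup.zpowers_le.2 (pow_mem x.2 _))
    have := Subgroup.card_dvd_of_le hle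
    rw [Nat.card_zpowers, hy, ← hpdef] at this
    exact hrp ((Nat.prime_dvd_prime_iff_eq hp hr).1 this).symm
  have huniq : ∀ x y : C, orderOf x = p → orderOf y = p → y ∈ Subgroup.zpowers x := by
    intro x y hx hy
    have key : ∀ z : C, orderOf z = p → Subgroup.zpowers (z : F) = N := by
      intro z hz
      refine (Subgroup.eq_of_le_of_card_ge (hsub _ ?_ (Subgroup.zpowers_le.2 z.2)) ?_).symm
      · intro h
        rw [Subgroup.zpowers_eq_bot] at h
        rw [← Subgroup.orderOf_coe, h, orderOf_one] at hz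
        exact hp.ne_one hz.symm
      · rw [Nat.card_zpowers, Subgroup.orderOf_coe, hz]
    have : (y : F) ∈ Subgroup.zpowers (x : F) := by
      rw [key x hx, ← key y hy]; exact Subgroup.mem_zpowers _
    obtain ⟨k, hk⟩ := Subgroup.mem_zpowers_iff.1 this
    exact Subgroup.mem_zpowers_iff.2 ⟨k, Subtype.ext (by simpa using hk)⟩
  -- the action on N
  have hfact : C.index ∣ p - 1 ∧ ∃ g : F, C ⊔ Subgroup.zpowers g = ⊤ := by
    set φ := MulAut.conjNormal (H := N) with hφ
    have hker : φ.ker = C := by
      ext g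
      rw [MonoidHom.mem_ker, Subgroup.mem_centralizer_iff]
      constructor
      · intro h n hn
        have := congrArg (fun σ : MulAut N => ((σ ⟨n, hn⟩ : N) : F)) h
        simp [φ, MulAut.conjNormal_apply] at this
        exact (mul_inv_eq_iff_eq_mul.1 this).symm
      · intro h
        ext n
        rw [MulAut.conjNormal_apply, MulAut.one_apply, ← h n n.2, mul_inv_cancel_right]
    haveI : IsCyclic N := isCyclic_of_prime_card hpdef.symm
    haveI hcz : IsCyclic (ZMod (Nat.card N))ˣ := by
      show IsCyclic (ZMod p)ˣ; infer_instance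
    let e : MulAut N ≃* (ZMod (Nat.card N))ˣ := IsCyclic.mulAutMulEquiv N
    haveI : IsCyclic φ.range := by
      haveI : IsCyclic (MulAut N) := isCyclic_of_surjective e.symm e.symm.surjective
      infer_instance
    refine ⟨?_, ?_⟩
    · rw [← hker, Subgroup.index_ker]
      refine (Subgroup.card_subgroup_dvd_card φ.range).trans ?_
      rw [Nat.card_congr e.toEquiv]
      show Nat.card (ZMod p)ˣ ∣ p - 1
      rw [Nat.card_eq_fintype_card, ZMod.card_units]
    · obtain ⟨⟨_, g, rfl⟩, hg⟩ := IsCyclic.exists_generator (α := φ.range)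
      refine ⟨g, eq_top_iff.2 fun x _ => ?_⟩
      obtain ⟨k, hk⟩ := Subgroup.mem_zpowers_iff.1 (hg ⟨φ x, x, rfl⟩)
      have hk' : φ x = φ (g ^ k) := by
        rw [map_zpow]; exact (congrArg Subtype.val hk).symm
      have : x * (g ^ k)⁻¹ ∈ C := by
        rw [← hker, MonoidHom.mem_ker, map_mul, map_inv, hk', mul_inv_cancel]
      have h2 := Subgroup.mul_mem _ (Subgroup.mem_sup_left (T := Subgroup.zpowers g) this)
        (Subgroup.mem_sup_right (S := C) (zpow_mem (Subgroup.mem_zpowers g) k))
      simpa using h2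
  haveI : Nontrivial C := (Subgroup.nontrivial_iff_ne_bot C).2 hC1
  obtain ⟨k, hk⟩ := (IsPGroup.iff_card (p := p)).1 hpC
  have hk1 : 1 ≤ k := by
    rcases Nat.eq_zero_or_pos k with rfl | hk0
    · exact absurd (Subgroup.card_eq_one.1 (by simpa using hk)) hC1
    · exact hk0
  by_cases hcyc : IsCyclic C
  · exact Or.inr (Or.inl ⟨hHeq, hp, hcyc, ⟨k, hk1, hk⟩, hfact.2, hfact.1⟩)
  have hp2 : p = 2 := by
    by_contra hp2
    exact hcyc (CfsgLib.PGroup.isCyclic_of_unique_subgroup hp2 hpC huniq)
  have htop : C = ⊤ := Subgroup.index_eq_one.1 (Nat.dvd_one.1 (by simpa [hp2] using hfact.1))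
  refine Or.inr (Or.inr ⟨hHeq, hp2, htop, ?_⟩)
  have h2C : IsPGroup 2 C := hp2 ▸ hpC
  rcases CfsgLib.TwoGroup.cyclic_or_quaternion h2C (fun x y hx hy => by
      have := huniq x y (hx.trans hp2.symm) (hy.trans hp2.symm)
      obtain ⟨j, -, hj⟩ := (mem_zpowers_iff_mem_range_orderOf.1 this) |> Finset.mem_image.1
      rcases Nat.even_or_odd j with ⟨i, hi⟩ | ⟨i, hi⟩
      · exfalso
        rw [← hj, hi, ← two_mul, pow_mul, ← hx, pow_orderOf_eq_one, one_pow, orderOf_one, hx] at hy
        exact absurd hy (by norm_num)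
      · rw [← hj, hi, pow_succ, pow_mul, ← hx, pow_orderOf_eq_one, one_pow, one_mul]) with h | ⟨i, hi, ⟨e⟩⟩
  · exact absurd h hcyc
  · exact ⟨i, hi, ⟨(Subgroup.topEquiv.symm.trans (MulEquiv.subgroupCongr htop.symm)).trans e⟩⟩

end Cfsg.Agent.S3025
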