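import Cfsg.Statements.S3027
import Mathlib

set_option autoImplicit false
open Cfsg

namespace Cfsg.Agent.S3027

variable {G : Type*} [Group G]

theorem commutator_supplement (D : Subgroup G) [D.Normal]
    (hperf : ⁅(⊤ : Subgroup G), (⊤ : Subgroup G)⁆ ⊔ D = ⊤) {X Y : Subgroup G}
    (hX : X ⊔ D = ⊤) (hY : Y ⊔ D = ⊤) : ⁅X, Y⁆ ⊔ D = ⊤ := by
  have hmap : ∀ Z : Subgroup G, Z ⊔ D = ⊤ → Z.map (QuotientGroup.mk' D) = ⊤ := by
    intro Z hZ
    have h := congrArg (Subgroup.map (QuotientGroup.mk' D)) hZ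
    rwa [Subgroup.map_sup, QuotientGroup.map_mk'_self, sup_bot_eq,
      Subgroup.map_top_of_surjective _ (QuotientGroup.mk'_surjective D)] at h
  have h1 : ⁅X, Y⁆.map (QuotientGroup.mk' D) = ⊤ := by
    have hp : Subgroup.map (QuotientGroup.mk' D) ⁅(⊤ : Subgroup G), (⊤ : Subgroup G)⁆ = ⊤ := hmap _ hperf
    rw [Subgroup.map_commutator, Subgroup.map_top_of_surjective _ (QuotientGroup.mk'_surjective D)] at hp
    rw [Subgroup.map_commutator, hmap X hX, hmap Y hY, hp]
  have := congrArg (Subgroup.comap (QuotientGroup.mk' D)) h1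
  rwa [Subgroup.comap_map_eq, QuotientGroup.ker_mk', Subgroup.comap_top] at this

theorem commutator_le_inf {X Y : Subgroup G} (h1 : X ≤ Subgroup.normalizer (Y : Set G))
    (h2 : Y ≤ Subgroup.normalizer (X : Set G)) : ⁅X, Y⁆ ≤ X ⊓ Y := by
  rw [Subgroup.commutator_le]
  intro x hx y hy
  constructor
  · rw [commutatorElement_def, mul_assoc x y, mul_assoc]
    exact X.mul_mem hx ((Subgroup.mem_normalizer_iff.mp (h2 hy) _).mp (X.inv_mem hx))
  · rw [commutatorElement_def]
    exact Y.mul_mem ((Subgroup.mem_normalizer_iff.mp (h1 hx) _).mp hy) (Y.inv_mem hy)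

/-- Let G be a finite group and D a normal subgroup of G such that G/D is perfect (that is, G = G′D). Then among the subnormal subgroups B of G with BD = G there is a least one, and it is normal in G. -/
theorem result {G : Type*} [Group G] [Finite G] (D : Subgroup G) [D.Normal] (hperf : ⁅(⊤ : Subgroup G), (⊤ : Subgroup G)⁆ ⊔ D = ⊤) :
    ∃ B : Subgroup G, B.Normal ∧ B ⊔ D = ⊤ ∧ ∀ B' : Subgroup G, B'.IsSubnormal → B' ⊔ D = ⊤ → B ≤ B' := by
  let 𝒮 : Set (Subgroup G) := {B | B.Normal ∧ B ⊔ D = ⊤}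
  obtain ⟨B, ⟨hBn, hBD⟩, hBmin⟩ :=
    𝒮.toFinite.exists_minimal ⟨⊤, inferInstance, top_sup_eq _⟩
  have hleast : ∀ N : Subgroup G, N.Normal → N ⊔ D = ⊤ → B ≤ N := by
    intro N hN hND
    have h1 : ⁅B, N⁆ ∈ 𝒮 := ⟨inferInstance, commutator_supplement D hperf hBD hND⟩
    exact (hBmin h1 (Subgroup.commutator_le_left B N)).trans (Subgroup.commutator_le_right B N)
  refine ⟨B, hBn, hBD, fun B' hB' => ?_⟩
  induction hB' with
  | top => exact fun _ => le_top
  | step K K' hle _ hKn ih =>
    intro hKD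
    have hBK' : B ≤ K' := ih (eq_top_iff.mpr (hKD ▸ sup_le_sup_right hle D))
    have hBNK : B ≤ Subgroup.normalizer (K : Set G) :=
      hBK'.trans ((Subgroup.normal_subgroupOf_iff_le_normalizer hle).mp hKn)
    have hKNB : K ≤ Subgroup.normalizer (B : Set G) := by rw [Subgroup.normalizer_eq_top]; exact le_top
    let 𝒴 : Set (Subgroup G) := {Y | Y ≤ B ∧ B ≤ Subgroup.normalizer (Y : Set G) ∧ Y ⊔ D = ⊤}
    have hK1 : B ⊓ K ∈ 𝒴 := by
      refine ⟨inf_le_left, ?_, eq_top_iff.mpr ((commutator_supplement D hperf hBD hKD).symm.le.trans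
        (sup_le_sup_right (commutator_le_inf hBNK hKNB) D))⟩
      intro b hb
      rw [Subgroup.mem_normalizer_iff]
      intro x
      exact and_congr (Subgroup.mem_normalizer_iff.mp (Subgroup.le_normalizer hb) x)
        (Subgroup.mem_normalizer_iff.mp (hBNK hb) x)
    obtain ⟨Y, hYle, ⟨hYB, hYN, hYD⟩, hYmin⟩ := 𝒴.toFinite.exists_le_minimal hK1
    have hY : ∀ Z ∈ 𝒴, Y ≤ Z := by
      rintro Z ⟨hZB, hZN, hZD⟩
      have hc := commutator_le_inf (hYB.trans hZN) (hZB.trans hYN)
      have hmem : Y ⊓ Z ∈ 𝒴 := by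
        refine ⟨inf_le_left.trans hYB, ?_, eq_top_iff.mpr ((commutator_supplement D hperf hYD hZD).symm.le.trans
          (sup_le_sup_right hc D))⟩
        intro b hb
        rw [Subgroup.mem_normalizer_iff]
        intro x
        exact and_congr (Subgroup.mem_normalizer_iff.mp (hYN hb) x) (Subgroup.mem_normalizer_iff.mp (hZN hb) x)
      exact (hYmin hmem inf_le_left).trans inf_le_right
    have hYn : Y.Normal := by
      constructor
      intro y hy g
      set f := (MulAut.conj g⁻¹).toMonoidHom with hf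
      have hmem : Y.map f ∈ 𝒴 := by
        refine ⟨?_, ?_, ?_⟩
        · rintro _ ⟨z, hz, rfl⟩
          exact hBn.conj_mem z (hYB hz) g⁻¹
        · intro b hb
          have h1 : g * b * g⁻¹ ∈ Subgroup.normalizer (Y : Set G) := hYN (hBn.conj_mem b hb g)
          have h2 : f (g * b * g⁻¹) ∈ Subgroup.normalizer ((Y.map f : Subgroup G) : Set G) :=
            Subgroup.le_normalizer_map (H := Y) f ⟨_, h1, rfl⟩
          have e : f (g * b * g⁻¹) = b := by simp [hf, mul_assoc]
          rwa [e] at h2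
        · have hD : D.map f = D := by
            refine le_antisymm ?_ fun d hd => ⟨g * d * g⁻¹, (inferInstance : D.Normal).conj_mem d hd g, by simp [hf, mul_assoc]⟩
            rintro _ ⟨d, hd, rfl⟩
            exact (inferInstance : D.Normal).conj_mem d hd g⁻¹
          rw [← hD, ← Subgroup.map_sup, hYD, Subgroup.map_top_of_surjective f (MulAut.conj g⁻¹).surjective]
      obtain ⟨z, hz, hze⟩ := hY _ hmem hy
      have : z = g * y * g⁻¹ := by
        rw [← hze]; simp [hf, mul_assoc]
      exact this ▸ hz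
    exact (hleast Y hYn hYD).trans (hYle.trans inf_le_right)

end Cfsg.Agent.S3027
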