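import Cfsg.Statements.S3032
import Cfsg.Agent.S3031
import Cfsg.Agent.SolvableStructure.SupersolvablyEmbedded

set_option autoImplicit false
open Cfsg

namespace Cfsg.Agent.S3032

/-- The hypothesis, for a subgroup `K`. -/
def SylowHyp {G : Type*} [Group G] (K : Subgroup G) : Prop :=
  ∀ (p : ℕ), p.Prime → ∀ P : Subgroup G, P ≤ K → IsPGroup p P → ¬ p ∣ P.relIndex K → ¬ IsCyclic ↥P →
    ∃ D : Subgroup G, D ≤ P ∧ 1 < Nat.card D ∧ Nat.card D < Nat.card P ∧
      ∀ F : Subgroup G, F ≤ P → (Nat.card F = Nat.card D ∨ (Nat.card D = 2 ∧ Nat.card F = 4)) →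
        ∀ g : G, F.map (MulAut.conj g).toMonoidHom ⊓ Subgroup.normalizer (F : Set G) ≤ F

theorem smallest_hasNormalPComplement {G : Type*} [Group G] [Finite G] {K : Subgroup G}
    (h : SylowHyp K) {p : ℕ} [Fact p.Prime] (hdvd : p ∣ Nat.card K)
    (hmin : ∀ q : ℕ, q.Prime → q ∣ Nat.card K → p ≤ q) (P : Sylow p K) :
    Cfsg.HasNormalPComplement p K := by
  refine Cfsg.Agent.S3031.result hdvd hmin P ?_
  by_cases hcyc : IsCyclic ↥(P : Subgroup K)
  · exact Or.inl hcyc
  right
  set P₀ : Subgroup G := (P : Subgroup K).map K.subtype with hP₀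
  obtain ⟨D, hDP, hD1, hDlt, hD⟩ := h p Fact.out P₀ (Subgroup.map_subtype_le _) (P.2.map _)
    (by
      rw [Subgroup.relIndex, hP₀, Subgroup.subgroupOf,
        Subgroup.comap_map_eq_self_of_injective K.subtype_injective]
      exact P.not_dvd_index)
    (fun hc => hcyc (((P : Subgroup K).equivMapOfInjective K.subtype K.subtype_injective).isCyclic.2 hc))
  have hcardD : Nat.card (D.subgroupOf K) = Nat.card D :=
    Nat.card_congr (Subgroup.subgroupOfEquivOfLe (hDP.trans (Subgroup.map_subtype_le _))).toEquiv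
  refine ⟨D.subgroupOf K, ?_, hcardD.symm ▸ hD1, ?_, ?_⟩
  · intro x hx
    obtain ⟨y, hy, hyx⟩ := hDP (Subgroup.mem_subgroupOf.1 hx)
    rwa [← Subtype.ext hyx]
  · rw [hcardD]
    rwa [hP₀, Subgroup.card_map_of_injective Subtype.val_injective] at hDlt
  · intro E hEP hc g x hx
    rw [hcardD, ← Subgroup.card_map_of_injective (f := K.subtype) (K := E) Subtype.val_injective] at hc
    obtain ⟨e, he, hex⟩ := hx.1
    have h1 : (x : G) ∈ (E.map K.subtype).map (MulAut.conj (g : G)).toMonoidHom ⊓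
        Subgroup.normalizer ((E.map K.subtype : Subgroup G) : Set G) :=
      ⟨⟨e, Subgroup.mem_map_of_mem _ he, congrArg Subtype.val hex⟩,
        Subgroup.le_normalizer_map K.subtype ⟨x, hx.2, rfl⟩⟩
    obtain ⟨y, hy, hyx⟩ := hD _ (Subgroup.map_mono hEP) hc g h1
    rwa [← Subtype.ext hyx]

theorem isSupersolvable_of_sylowHyp {G : Type*} [Group G] [Finite G] :
    ∀ (m : ℕ) (K : Subgroup G) [K.Normal], Nat.card K = m → Cfsg.IsSupersolvable (G ⧸ K) → SylowHyp K →
      Cfsg.IsSupersolvable G := by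
  intro m
  induction m using Nat.strong_induction_on with
  | h m ih =>
  intro K _ hm hGK hK
  by_cases hK1 : Nat.card K = 1
  · haveI : IsCyclic K := by
      haveI := (Nat.card_eq_one_iff_unique.1 hK1).1
      exact isCyclic_of_subsingleton
    exact CfsgLib.Supersolvable.isSupersolvable_of_cyclic_normal K hGK
  set p := (Nat.card K).minFac with hp
  haveI hpF : Fact p.Prime := ⟨Nat.minFac_prime hK1⟩
  have hpd : p ∣ Nat.card K := Nat.minFac_dvd _
  obtain ⟨P⟩ : Nonempty (Sylow p K) := inferInstance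
  have hnc := smallest_hasNormalPComplement hK hpd
    (fun q hq hqd => Nat.minFac_le_of_dvd hq.two_le hqd) P
  set L := Cfsg.pResidual p K with hL
  have hLc : (Nat.card L).Coprime p :=
    CfsgLib.Transfer.hasNormalPComplement_iff_coprime_pResidual.mp hnc
  set K' : Subgroup G := L.map K.subtype with hK'
  have hK'card : Nat.card K' = Nat.card L := Subgroup.card_map_of_injective Subtype.val_injective
  haveI hK'n : K'.Normal := by
    refine ⟨fun x hx g => ?_⟩
    obtain ⟨y, hy, rfl⟩ := hx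
    have hle : L ≤ (K'.comap (MulAut.conj g).toMonoidHom).comap K.subtype := by
      refine (Subgroup.closure_le _).2 fun z hz => ?_
      refine ⟨⟨g * z * g⁻¹, Subgroup.Normal.conj_mem inferInstance _ z.2 g⟩, ?_, rfl⟩
      refine Subgroup.subset_closure ?_
      have : orderOf (⟨g * z * g⁻¹, Subgroup.Normal.conj_mem inferInstance _ z.2 g⟩ : K) = orderOf z := by
        rw [Subgroup.orderOf_mk, ← Subgroup.orderOf_coe z]
        exact MulEquiv.orderOf_eq (MulAut.conj g) (z : G)
      simp only [Set.mem_setOf_eq, this] at hz ⊢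
      exact hz
    exact hle hy
  set P₀ : Subgroup G := (P : Subgroup K).map K.subtype with hP₀
  have hP₀p : IsPGroup p P₀ := P.2.map _
  have hK'K : K' ≤ K := Subgroup.map_subtype_le _
  have hP₀K : P₀ ≤ K := Subgroup.map_subtype_le _
  have hsup : K' ⊔ P₀ = K := by
    rw [hK', hP₀, ← Subgroup.map_sup, sup_comm, CfsgLib.Transfer.sylow_sup_pResidual P,
      ← MonoidHom.range_eq_map, Subgroup.range_subtype]
  have hinf : K' ⊓ P₀ = ⊥ := by
    refine (Subgroup.eq_bot_iff_forall _).2 fun x hx => ?_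
    refine CfsgLib.Transfer.eq_one_of_mem_pGroup_of_coprime hP₀p hx.2 ?_
    rw [← Subgroup.orderOf_mk x hx.1]
    exact (hK'card ▸ hLc).coprime_dvd_left (orderOf_dvd_natCard _)
  have hlt : Nat.card K' < m := by
    subst hm
    refine (Nat.le_of_dvd Nat.card_pos (Subgroup.card_dvd_of_le hK'K)).lt_of_ne fun he => ?_
    rw [hK'card] at he
    exact CfsgLib.Transfer.not_dvd_of_coprime hLc (he ▸ hpd)
  -- the hypothesis passes to `K'`
  have hyp' : SylowHyp K' := by
    intro r hr R hR hRr hrel hRc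
    refine hK r hr R (hR.trans hK'K) hRr (fun hd => ?_) hRc
    rw [← Subgroup.relIndex_mul_relIndex R K' K hR hK'K] at hd
    rcases hr.dvd_mul.1 hd with h1 | h1
    · exact hrel h1
    · have h2 : r ∣ Nat.card P₀ := by
        rw [← hsup, Subgroup.relIndex_sup_left] at h1
        exact h1.trans (Subgroup.relIndex_dvd_card _ _)
      obtain ⟨k, hk⟩ := hP₀p.exists_card_eq
      have hrp : r = p := (Nat.prime_dvd_prime_iff_eq hr hpF.out).1 (hr.dvd_of_dvd_pow (hk ▸ h2))
      subst hrp
      have hRnt : Nontrivial R := by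
        by_contra hn
        rw [not_nontrivial_iff_subsingleton] at hn
        exact hRc isCyclic_of_subsingleton
      obtain ⟨k, hk0, hk⟩ := (hRr.nontrivial_iff_card (p := p)).1 hRnt
      refine CfsgLib.Transfer.not_dvd_of_coprime (hK'card ▸ hLc) ?_
      exact (hk ▸ dvd_pow_self p hk0.ne').trans (Subgroup.card_dvd_of_le hR)
  -- the quotient by `K'`
  refine ih _ hlt K' rfl ?_ hyp'
  set π := QuotientGroup.mk' K' with hπ
  have hsurj : Function.Surjective π := QuotientGroup.mk'_surjective K'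
  set Q := K.map π with hQ
  haveI : Q.Normal := Subgroup.Normal.map inferInstance π hsurj
  have hQP : Q = P₀.map π := by
    rw [hQ, ← hsup, Subgroup.map_sup, hπ, QuotientGroup.map_mk'_self, bot_sup_eq]
  have hinj : ∀ H : Subgroup G, H ≤ P₀ → Nat.card (H.map π) = Nat.card H := by
    intro H hH
    refine (Nat.card_congr (Equiv.ofBijective (fun x : H => (⟨π x, Subgroup.mem_map_of_mem π x.2⟩ : H.map π))
      ⟨?_, ?_⟩)).symm
    · intro x y hxy
      have h1 : π x = π y := congrArg Subtype.val hxy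
      rw [hπ, QuotientGroup.mk'_apply, QuotientGroup.mk'_apply, QuotientGroup.eq] at h1
      have h2 : (x : G)⁻¹ * y ∈ K' ⊓ P₀ :=
        Subgroup.mem_inf.2 ⟨h1, mul_mem (inv_mem (hH x.2)) (hH y.2)⟩
      rw [hinf, Subgroup.mem_bot, inv_mul_eq_one] at h2
      exact Subtype.ext h2
    · rintro ⟨_, x, hx, rfl⟩
      exact ⟨⟨x, hx⟩, rfl⟩
  have hquot : Cfsg.IsSupersolvable ((G ⧸ K') ⧸ Q) :=
    CfsgLib.Supersolvable.isSupersolvable_of_equiv hGK
      (QuotientGroup.quotientQuotientEquivQuotient K' K hK'K).symm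
  by_cases hcyc : IsCyclic P₀
  · haveI : IsCyclic Q := by
      rw [hQP]
      exact isCyclic_of_surjective (π.subgroupMap P₀) (π.subgroupMap_surjective P₀)
    exact CfsgLib.Supersolvable.isSupersolvable_of_cyclic_normal Q hquot
  obtain ⟨D, hDP, hD1, hDlt, hD⟩ := hK p hpF.out P₀ hP₀K hP₀p
    (by
      rw [Subgroup.relIndex, hP₀, Subgroup.subgroupOf,
        Subgroup.comap_map_eq_self_of_injective K.subtype_injective]
      exact P.not_dvd_index) hcyc
  obtain ⟨b, hb⟩ := (hP₀p.to_le hDP).exists_card_eq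
  have hb1 : 1 ≤ b := by
    by_contra h0
    rw [hb, show b = 0 by omega, pow_zero] at hD1
    omega
  have hreach : CfsgLib.Supersolvable.CycReach Q := by
    refine CfsgLib.Supersolvable.cycReach_of_normal_subgroups_of_order Q (hQP ▸ hP₀p.map π) hb1
      (by rw [hQP, hinj P₀ le_rfl, ← hb]; exact hDlt) fun F hFQ hFc => ?_
    set F₁ := F.comap π ⊓ P₀ with hF₁
    have hF : F₁.map π = F := by
      refine le_antisymm ?_ fun y hy => ?_
      · rintro _ ⟨x, hx, rfl⟩
        exact hx.1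
      · obtain ⟨x, hx, rfl⟩ := hQP ▸ hFQ hy
        exact ⟨x, ⟨hy, hx⟩, rfl⟩
    rw [← hF, hinj F₁ inf_le_right, ← hb] at hFc
    obtain ⟨hPN, hsc⟩ := CfsgLib.LocalP.stronglyClosed_of_normalizer hP₀p inf_le_right (hD F₁ inf_le_right hFc)
    refine ⟨fun y hy g => ?_⟩
    obtain ⟨g, rfl⟩ := hsurj g
    rw [← hF] at hy
    obtain ⟨x, hx, rfl⟩ := hy
    rw [← map_inv, ← map_mul, ← map_mul]
    have hfrat := Sylow.normalizer_sup_eq_top P
    obtain ⟨v, hv, k, hk, hvk⟩ :=
      Subgroup.mem_sup_of_normal_right.1 (hfrat.symm ▸ Subgroup.mem_top g)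
    obtain ⟨c, hc, u, hu, hcu⟩ := Subgroup.mem_sup_of_normal_left.1 (hsup.symm ▸ hk)
    have h1 : u * x * u⁻¹ ∈ F₁ := (Subgroup.mem_normalizer_iff.1 (hPN hu) x).1 hx
    have h2 : v * (u * x * u⁻¹) * v⁻¹ ∈ F₁ :=
      hsc _ h1 v ((Subgroup.mem_normalizer_iff.1 hv _).1 h1.2)
    have hc1 : π c = 1 := by rw [hπ, QuotientGroup.mk'_apply, QuotientGroup.eq_one_iff]; exact hc
    have h3 : π (g * x * g⁻¹) = π (v * (u * x * u⁻¹) * v⁻¹) := by
      rw [← hvk, ← hcu]
      simp only [map_mul, map_inv, hc1, one_mul, mul_one, inv_one, mul_assoc, mul_inv_rev]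
    rw [h3, ← hF]
    exact Subgroup.mem_map_of_mem π h2
  rw [CfsgLib.Supersolvable.isSupersolvable_iff] at hquot ⊢
  simpa using hquot.comap_surjective (QuotientGroup.mk'_surjective Q)
    (by rw [QuotientGroup.ker_mk']; exact hreach)

/-- Let G be a finite group and E a normal subgroup with G/E supersolvable. Suppose that for every prime p and every non-cyclic Sylow p-subgroup P of E there is a subgroup D of P with 1 < |D| < |P| such that every subgroup F of P of order |D|, and also every subgroup F of P of order 4 when |D| = 2, satisfies g F g⁻¹ ∩ N_G(F) ≤ F for all g ∈ G. Then G is supersolvable. -/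
theorem result {G : Type*} [Group G] [Finite G] (E : Subgroup G) [E.Normal] (hGE : Cfsg.IsSupersolvable (G ⧸ E))
    (h : ∀ (p : ℕ), p.Prime → ∀ P : Subgroup G, P ≤ E → IsPGroup p P → ¬ p ∣ P.relIndex E → ¬ IsCyclic ↥P →
      ∃ D : Subgroup G, D ≤ P ∧ 1 < Nat.card D ∧ Nat.card D < Nat.card P ∧
        ∀ F : Subgroup G, F ≤ P → (Nat.card F = Nat.card D ∨ (Nat.card D = 2 ∧ Nat.card F = 4)) →
          ∀ g : G, F.map (MulAut.conj g).toMonoidHom ⊓ Subgroup.normalizer (F : Set G) ≤ F) :
    Cfsg.IsSupersolvable G :=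
  isSupersolvable_of_sylowHyp _ E rfl hGE h

end Cfsg.Agent.S3032
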