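import Cfsg.Statements.S3043
import Cfsg.Agent.TICount.ConclusionA
import Cfsg.Agent.TICount.CaseBTwo
import Cfsg.Agent.TICount.CaseBOne

set_option autoImplicit false
open Cfsg

namespace Cfsg.Agent.S3043


/-- Let M be a nontrivial subgroup of a finite group G meeting each of its other conjugates trivially, with N_G(M) = M · C_{N_G(M)}(z) for some involution z ∈ N_G(M), and with C_G(x) of odd order for every nontrivial x ∈ M. Then one of the following holds: M is normal in G; the number of involutions of G is at most |G : M|; G is isomorphic to PGL₂(F) or to PSL₂(F) for a finite field F with |F| = |M|, M is an elementary abelian p-group for the characteristic p of F, and |F| ≡ 1 (mod 4) in the PSL₂ case; G is isomorphic to PSL₂(F) with |F| = 2^e, e > 1, and M is cyclic of order 2^e + 1; or for some d ≥ 1, G has an elementary abelian normal subgroup of order 2^{2d} complemented by N_G(M), and N_G(M) is dihedral of order 2(2^d + 1). -/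
theorem result {G : Type*} [Group G] [Finite G] (M : Subgroup G) (hM1 : M ≠ ⊥)
    (hTI : ∀ g : G, M ⊓ M.map (MulAut.conj g).toMonoidHom ≠ ⊥ → M.map (MulAut.conj g).toMonoidHom = M)
    (z : G) (hz : orderOf z = 2) (hzN : z ∈ Subgroup.normalizer (M : Set G))
    (hfac : M ⊔ (Subgroup.normalizer (M : Set G) ⊓ Subgroup.centralizer ({z} : Set G)) = Subgroup.normalizer (M : Set G))
    (hodd : ∀ x ∈ M, x ≠ 1 → Odd (Nat.card ↥(Subgroup.centralizer ({x} : Set G)))) :
    M.Normal ∨
    Nat.card {g : G // orderOf g = 2} ≤ M.index ∨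
    (∃ (F : Type) (_ : Field F) (_ : Fintype F) (p : ℕ) (_ : Fact p.Prime) (_ : CharP F p), Fintype.card F = Nat.card M ∧ Cfsg.IsElementaryAbelian p M ∧
        (Nonempty (G ≃* (GL (Fin 2) F ⧸ Subgroup.center (GL (Fin 2) F))) ∨
         (Fintype.card F % 4 = 1 ∧ Nonempty (G ≃* Matrix.ProjectiveSpecialLinearGroup (Fin 2) F)))) ∨
    (∃ (F : Type) (_ : Field F) (_ : Fintype F) (e : ℕ), 1 < e ∧ Fintype.card F = 2 ^ e ∧ IsCyclic ↥M ∧ Nat.card M = 2 ^ e + 1 ∧
        Nonempty (G ≃* Matrix.ProjectiveSpecialLinearGroup (Fin 2) F)) ∨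
    (∃ (d : ℕ) (E : Subgroup G), 1 ≤ d ∧ E.Normal ∧ Cfsg.IsElementaryAbelian 2 E ∧ Nat.card E = 2 ^ (2 * d) ∧
        E ⊓ Subgroup.normalizer (M : Set G) = ⊥ ∧ E ⊔ Subgroup.normalizer (M : Set G) = ⊤ ∧
        Nonempty (↥(Subgroup.normalizer (M : Set G)) ≃* DihedralGroup (2 ^ d + 1))) := by
  classical
  have h : CfsgLib.TICount.Hyp M z :=
    { ne_bot := hM1
      ti := CfsgLib.TICount.mk_of_ti hTI
      z1 := fun e => by rw [e, orderOf_one] at hz; omega
      z2 := by rw [← pow_two, ← hz]; exact pow_orderOf_eq_one z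
      zN := hzN
      fac := hfac
      odd := hodd }
  by_cases hout : ∃ g : G, g ∉ Subgroup.normalizer (M : Set G)
  swap
  · push Not at hout
    exact Or.inl ⟨fun n hn g => CfsgLib.TICount.conj_memM (hout g) hn⟩
  right
  by_cases hI : Nat.card {g : G // orderOf g = 2} ≤ M.index
  · exact Or.inl hI
  push Not at hI
  right
  have hD : CfsgLib.TICount.Data M z :=
    { toHyp := h
      full := fun g hg => h.full_of_card hI hg
      exists_out := hout }
  by_cases hA : ∀ c ∈ Subgroup.centralizer (Singleton.singleton z : Set G),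
      ∀ d ∈ Subgroup.centralizer (Singleton.singleton z : Set G),
        c ∉ Subgroup.normalizer (M : Set G) → d ∉ Subgroup.normalizer (M : Set G) →
          c * d ∈ Subgroup.normalizer (M : Set G)
  · obtain ⟨F, iF, iT, p, hp, hc, hcard, hel, hiso⟩ := hD.eq_pgl_or_psl hM1 hA
    exact Or.inl ⟨F, iF, iT, p, hp, hc, hcard, hel, hiso⟩
  push Not at hA
  obtain ⟨c, hc, d, hd, hcN, hdN, hcd⟩ := hA
  have hB : CfsgLib.TICount.DataB M z :=
    { toData := hD, big := ⟨c, hc, d, hd, hcN, hdN, hcd⟩ }
  obtain ⟨a, ha, hC, ⟨hm, hs⟩ | ⟨hm, hs⟩⟩ := hB.parameters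
  · right; right
    have h1 : CfsgLib.TICount.DataB1 M z (2 ^ a) :=
      { toDataB := hB
        cardM := hm
        cardC := by rw [hC, pow_succ, mul_comm]
        cardS := hs
        twoP := le_self_pow₀ (by norm_num) (by omega) }
    obtain ⟨E, hEn, hEc, hsq, hcard, hEN, hsup⟩ := h1.exists_kernel
    obtain ⟨-, hiso⟩ := h1.exists_iso hsq hcard
    exact ⟨a, E, by omega, hEn, ⟨hEc, fun e he => by rw [pow_two]; exact hsq e he⟩,
      by rw [hcard, two_mul, pow_add], hEN, hsup, hiso⟩
  · right; left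
    exact hB.eq_psl ha hC hm hs

end Cfsg.Agent.S3043
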