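import Cfsg.Statements.S3044
import Cfsg.Agent.Cores.Isolated

set_option autoImplicit false
open Cfsg
open CfsgLib.Cores

namespace Cfsg.Agent.S3044

/-- Let G be a finite group, p a prime, S a Sylow p-subgroup of G and P a p-minimal subgroup of G containing S (S is not normal in P and lies in exactly one maximal subgroup of P). Let L be the subgroup generated by N_G(S) and all p-minimal subgroups of G containing S other than P, and suppose P is isolated: O_p(L) is not contained in O_p(P). Put Y for the normal closure of O^p(P) in G. Then G = YL; P is again isolated in the subgroup YS (the subgroup L₀ generated by N_{YS}(S) and the p-minimal subgroups of YS containing S other than P has O_p(L₀) not contained in O_p(P)); and either Y = O^p(P), or p divides |Y/O_p(Y)|, Y/O_p(Y) is generated by its components (a central product of quasisimple groups), and S permutes these components transitively by conjugation. -/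
theorem result {G : Type*} [Group G] [Finite G] {p : ℕ} [Fact p.Prime] (S : Sylow p G) (P : Subgroup G) (hSP : (S : Subgroup G) ≤ P) (hPmin : Cfsg.IsPMinimal p ↥P)
    (L Y : Subgroup G)
    (hL : L = Subgroup.normalizer ((S : Subgroup G) : Set G) ⊔ ⨆ P' : {P' : Subgroup G // (S : Subgroup G) ≤ P' ∧ Cfsg.IsPMinimal p ↥P' ∧ P' ≠ P}, (P' : Subgroup G))
    (hiso : ¬ (Cfsg.pCore p ↥L).map L.subtype ≤ (Cfsg.pCore p ↥P).map P.subtype)
    (hY : Y = Subgroup.normalClosure (((Cfsg.pResidual p ↥P).map P.subtype : Subgroup G) : Set G)) :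
    Y ⊔ L = ⊤ ∧
    ¬ (Cfsg.pCore p ↥((Subgroup.normalizer ((S : Subgroup G) : Set G) ⊓ (Y ⊔ (S : Subgroup G))) ⊔
          ⨆ P' : {P' : Subgroup G // (S : Subgroup G) ≤ P' ∧ P' ≤ Y ⊔ (S : Subgroup G) ∧ Cfsg.IsPMinimal p ↥P' ∧ P' ≠ P}, (P' : Subgroup G))).map
        (Subgroup.subtype _) ≤ (Cfsg.pCore p ↥P).map P.subtype ∧
    ((Cfsg.pResidual p ↥P).map P.subtype = Y ∨
     ∃ _ : (Cfsg.pCore p ↥Y).Normal,
       p ∣ Nat.card (↥Y ⧸ Cfsg.pCore p ↥Y) ∧ Cfsg.layer (↥Y ⧸ Cfsg.pCore p ↥Y) = ⊤ ∧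
       ∀ K₁ K₂ : Subgroup (↥Y ⧸ Cfsg.pCore p ↥Y), Cfsg.IsComponent K₁ → Cfsg.IsComponent K₂ →
         ∃ s ∈ (S : Subgroup G), ((K₂.comap (QuotientGroup.mk' (Cfsg.pCore p ↥Y))).map Y.subtype) = (((K₁.comap (QuotientGroup.mk' (Cfsg.pCore p ↥Y))).map Y.subtype)).map (MulAut.conj s).toMonoidHom) := by
  have H := isolatedPair_of_eq hSP hPmin hL hiso
  refine ⟨H.sup_L_eq_top (H.res_le_Y hY), ?_, ?_⟩
  · intro h
    refine H.isolated (le_trans ?_ h)
    set L₀ := (Subgroup.normalizer ((S : Subgroup G) : Set G) ⊓ (Y ⊔ (S : Subgroup G))) ⊔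
      ⨆ P' : {P' : Subgroup G // (S : Subgroup G) ≤ P' ∧ P' ≤ Y ⊔ (S : Subgroup G) ∧
        Cfsg.IsPMinimal p ↥P' ∧ P' ≠ P}, (P' : Subgroup G) with hL₀
    have hle : L₀ ≤ L := sup_le (inf_le_left.trans H.normalizer_le)
      (iSup_le fun P' => H.other_le _ P'.2.1 P'.2.2.2.1 P'.2.2.2.2)
    have hR : coreIn p L ≤ L₀ := H.R_le_sylow.trans
      ((le_inf Subgroup.le_normalizer le_sup_right).trans le_sup_left)
    haveI : ((coreIn p L).subgroupOf L₀).Normal :=
      (Subgroup.normal_subgroupOf_iff_le_normalizer hR).mpr (hle.trans (le_normalizer_coreIn L))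
    intro r hr
    exact ⟨⟨r, hR hr⟩, CfsgLib.Constrained.le_pCore (N := (coreIn p L).subgroupOf L₀) inferInstance
      H.isPGroup_R.comap_subtype hr, rfl⟩
  by_cases hdvd : p ∣ Nat.card ↥(Y.map (QuotientGroup.mk' (Cfsg.pCore p G)))
  swap
  · exact Or.inl (H.eq_res_of_not_dvd hY hdvd).1
  have hperf : ⁅Y.map (QuotientGroup.mk' (Cfsg.pCore p G)), Y.map (QuotientGroup.mk' (Cfsg.pCore p G))⁆ =
      Y.map (QuotientGroup.mk' (Cfsg.pCore p G)) := by
    by_contra h
    exact H.not_dvd_of_not_perfect hY h hdvd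
  have hYn := H.Y_normal hY
  haveI hn : (Cfsg.pCore p ↥Y).Normal := CfsgLib.Constrained.instNormalPCore p
  obtain ⟨φ, hφ, hr, hφy⟩ := exists_quotient_core_hom (p := p) Y hYn
  have hVn := H.Ybar_normal hY
  refine Or.inr ⟨hn, ?_, ?_, ?_⟩
  · rwa [Nat.card_congr (MonoidHom.ofInjective hφ).toEquiv, hr]
  · apply Subgroup.map_injective hφ
    rw [← MonoidHom.range_eq_map, hr]
    refine le_antisymm (hr ▸ Subgroup.map_le_range φ _) ?_
    have hl := map_layer_of_isSubnormal hVn.isSubnormal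
    rw [H.layerIn_eq hY hperf] at hl
    conv_lhs => rw [← hl]
    let e := (MonoidHom.ofInjective hφ).trans (MulEquiv.subgroupCongr hr)
    rw [← map_layer_equiv e, Subgroup.map_map]
    exact le_of_eq (congrArg (fun ψ => (Cfsg.layer _).map ψ) (MonoidHom.ext fun q => rfl))
  intro K₁ K₂ h₁ h₂
  have hsn : φ.range.IsSubnormal := hr ▸ hVn.isSubnormal
  obtain ⟨s, hs, he⟩ := H.component_transitive hY hperf (isComponent_map_of_injective φ hφ hsn h₁)
    ((Subgroup.map_le_range φ _).trans hr.le) (isComponent_map_of_injective φ hφ hsn h₂)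
    ((Subgroup.map_le_range φ _).trans hr.le)
  refine ⟨s, hs, ?_⟩
  have key : ∀ K : Subgroup (↥Y ⧸ Cfsg.pCore p ↥Y), (K.comap (QuotientGroup.mk' (Cfsg.pCore p ↥Y))).map Y.subtype =
      Y ⊓ (K.map φ).comap (QuotientGroup.mk' (Cfsg.pCore p G)) := by
    intro K
    ext g
    constructor
    · rintro ⟨y, hy, rfl⟩
      exact ⟨y.2, _, hy, hφy y⟩
    · rintro ⟨hg, q, hq, hqe⟩
      have : q = QuotientGroup.mk' _ ⟨g, hg⟩ := hφ (hqe.trans (hφy ⟨g, hg⟩).symm)
      refine ⟨⟨g, hg⟩, ?_, rfl⟩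
      subst this
      exact hq
  rw [key, key, he]
  ext g
  simp only [Subgroup.mem_inf, Subgroup.mem_comap, CfsgLib.Coprime.mem_map_conj_iff, map_mul, map_inv]
  refine and_congr_left fun _ => ⟨fun hg => ?_, fun hg => ?_⟩
  · simpa using hYn.conj_mem g hg s⁻¹
  · simpa [mul_assoc] using hYn.conj_mem _ hg s

end Cfsg.Agent.S3044
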