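import Cfsg.Statements.S3047
import Cfsg.Agent.Eq.Def_Transfer
import Cfsg.Agent.Eq.Def_Solvable
import Cfsg.Agent.RankOneSylow.Unitary

set_option autoImplicit false
open Cfsg

namespace Cfsg.Agent.S3047

open CfsgLib.RankOneSylow

theorem charP_of_card {F : Type*} [Field F] [Fintype F] {p n : ℕ} [Fact p.Prime]
    (h : Fintype.card F = p ^ n) : CharP F p := by
  haveI : CharP F (ringChar F) := ringChar.charP F
  obtain ⟨⟨m, hm0⟩, hr, hcard⟩ := FiniteField.card F (ringChar F)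
  rw [h] at hcard
  have : ringChar F = p := by
    have hd : ringChar F ∣ p ^ n := hcard ▸ dvd_pow_self _ hm0.ne'
    exact (Nat.prime_dvd_prime_iff_eq hr Fact.out).mp (hr.dvd_of_dvd_pow hd)
  exact this ▸ ringChar.charP F

theorem pResidual_normal' (p : ℕ) (G : Type*) [Group G] : (Cfsg.pResidual p G).Normal := by
  rw [← Subgroup.normalizer_eq_top_iff, eq_top_iff]
  intro g _
  have key : ∀ g : G, ∀ x ∈ Cfsg.pResidual p G, g * x * g⁻¹ ∈ Cfsg.pResidual p G := by
    intro g x hx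
    have : (Cfsg.pResidual p G).map (MulAut.conj g).toMonoidHom ≤ Cfsg.pResidual p G := by
      rw [Cfsg.pResidual, MonoidHom.map_closure]
      apply Subgroup.closure_mono
      rintro _ ⟨y, hy, rfl⟩
      simp only [Set.mem_ofPred_eq] at hy ⊢
      rwa [MulEquiv.coe_toMonoidHom, MulEquiv.orderOf_eq]
    exact this ⟨x, hx, rfl⟩
  rw [Subgroup.mem_normalizer_iff]
  intro x
  refine ⟨key g x, fun h => ?_⟩
  simpa [mul_assoc] using key g⁻¹ _ h

theorem isPGroup_quotient_pResidual {p : ℕ} [Fact p.Prime] (G : Type*) [Group G] [Finite G]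
    [(Cfsg.pResidual p G).Normal] : IsPGroup p (G ⧸ Cfsg.pResidual p G) := by
  intro x
  obtain ⟨g, rfl⟩ := QuotientGroup.mk_surjective x
  obtain ⟨i, m, hm, he⟩ := Nat.exists_eq_pow_mul_and_not_dvd (orderOf_pos g).ne' p (Fact.out : p.Prime).ne_one
  refine ⟨i, ?_⟩
  rw [← QuotientGroup.mk_pow, QuotientGroup.eq_one_iff]
  refine Subgroup.subset_closure ?_
  have hne : p ^ i ≠ 0 := pow_ne_zero _ (Fact.out : p.Prime).ne_zero
  show (orderOf (g ^ p ^ i)).Coprime p
  rw [orderOf_pow_of_dvd hne (he ▸ dvd_mul_right _ _), he, Nat.mul_div_cancel_left _ (Nat.pos_of_ne_zero hne)]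
  exact ((Fact.out : p.Prime).coprime_iff_not_dvd.mpr hm).symm

/-- Let p ≥ 5 be a prime, G a finite group all of whose composition factors are known simple groups, S a Sylow p-subgroup and P a p-minimal subgroup of G containing S such that O^p(P/O_p(P)) is isomorphic to SL₂(pᵃ), PSL₂(pᵃ), SU₃(pᵃ) or PSU₃(pᵃ) for some a ≥ 1. Let L be the subgroup generated by N_G(S) and the p-minimal subgroups of G containing S other than P. Then either O^p(P) is normal in G, or every p-element of the centre of L lies in O_p(P). -/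
theorem result {G : Type*} [Group G] [Finite G] {p : ℕ} [Fact p.Prime] (hp : 5 ≤ p) (hK : Cfsg.IsCompositionKGroup G)
    (S : Sylow p G) (P : Subgroup G) (hSP : (S : Subgroup G) ≤ P) (hPmin : Cfsg.IsPMinimal p ↥P) [hn : (Cfsg.pCore p ↥P).Normal]
    (hrk1 : ∃ (F : Type) (_ : Field F) (_ : Fintype F) (a : ℕ), 1 ≤ a ∧
      ((Fintype.card F = p ^ a ∧ (Nonempty (↥(Cfsg.pResidual p (↥P ⧸ Cfsg.pCore p ↥P)) ≃* Matrix.SpecialLinearGroup (Fin 2) F) ∨
                                  Nonempty (↥(Cfsg.pResidual p (↥P ⧸ Cfsg.pCore p ↥P)) ≃* Matrix.ProjectiveSpecialLinearGroup (Fin 2) F))) ∨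
       (Fintype.card F = p ^ (2 * a) ∧ (Nonempty (↥(Cfsg.pResidual p (↥P ⧸ Cfsg.pCore p ↥P)) ≃* ↥(Cfsg.SU 3 F (p ^ a))) ∨
                                        Nonempty (↥(Cfsg.pResidual p (↥P ⧸ Cfsg.pCore p ↥P)) ≃* Cfsg.PSU 3 F (p ^ a))))))
    (L : Subgroup G)
    (hL : L = Subgroup.normalizer ((S : Subgroup G) : Set G) ⊔ ⨆ P' : {P' : Subgroup G // (S : Subgroup G) ≤ P' ∧ Cfsg.IsPMinimal p ↥P' ∧ P' ≠ P}, (P' : Subgroup G)) :
    ((Cfsg.pResidual p ↥P).map P.subtype).Normal ∨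
    ∀ z ∈ L ⊓ Subgroup.centralizer (L : Set G), (∃ k : ℕ, orderOf z = p ^ k) → z ∈ (Cfsg.pCore p ↥P).map P.subtype := by
  right
  rintro z ⟨-, hzL⟩ ⟨k, hk⟩
  set O := Cfsg.pCore p ↥P with hO
  set N := Cfsg.pResidual p (↥P ⧸ O) with hNdef
  haveI hNn : N.Normal := pResidual_normal' p _
  have hN : IsRankOne p N := by
    obtain ⟨F, _, _, a, ha, ⟨hF, he⟩ | ⟨hF, he⟩⟩ := hrk1
    · haveI := charP_of_card hF
      rcases he with ⟨⟨e⟩⟩ | ⟨⟨e⟩⟩
      · exact (isRankOne_SL2 F hp ha hF).of_mulEquiv e.symm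
      · exact ((isRankOne_SL2 F hp ha hF).quotient_center hp).of_mulEquiv e.symm
    · haveI := charP_of_card hF
      rcases he with ⟨⟨e⟩⟩ | ⟨⟨e⟩⟩
      · exact (isRankOne_SU3 F hp ha hF).of_mulEquiv e.symm
      · exact ((isRankOne_SU3 F hp ha hF).quotient_center hp).of_mulEquiv e.symm
  have hLN : Subgroup.normalizer ((S : Subgroup G) : Set G) ≤ L := hL ▸ le_sup_left
  have hzC : ∀ n ∈ Subgroup.normalizer ((S : Subgroup G) : Set G), z * n = n * z :=
    fun n hn => (hzL n (hLN hn)).symm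
  -- `z` lies in `S`
  have hzS : z ∈ (S : Subgroup G) := by
    have hzp : IsPGroup p (Subgroup.zpowers z) := IsPGroup.of_card (n := k) (by rw [Nat.card_zpowers, hk])
    have hzN : Subgroup.zpowers z ≤ Subgroup.normalizer ((S : Subgroup G) : Set G) := by
      rw [Subgroup.zpowers_le, Subgroup.mem_normalizer_iff'']
      intro x
      constructor
      · intro hx
        rwa [mul_assoc, ← hzC x (Subgroup.le_normalizer hx), inv_mul_cancel_left]
      · intro hx
        have h1 := hzC _ (Subgroup.le_normalizer hx)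
        rw [← mul_assoc, ← mul_assoc, mul_inv_cancel, one_mul] at h1
        have h2 : z⁻¹ * x * z = x := (mul_right_cancel h1).symm
        rwa [h2] at hx
    have hsup : IsPGroup p ↥(Subgroup.zpowers z ⊔ (S : Subgroup G)) := hzp.to_sup_of_normal_right' S.isPGroup' hzN
    have := S.is_maximal' hsup le_sup_right
    exact this ▸ Subgroup.mem_sup_left (Subgroup.mem_zpowers z)
  -- the image in `P / O_p(P)`
  let T : Sylow p ↥P := S.subtype hSP
  have hOT : O ≤ (T : Subgroup ↥P) := CfsgLib.Constrained.isPGroup_pCore.le_sylow_of_normal T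
  have hsurj := QuotientGroup.mk'_surjective O
  have hzP : z ∈ P := hSP hzS
  suffices h1 : (QuotientGroup.mk (⟨z, hzP⟩ : ↥P) : ↥P ⧸ O) = 1 by
    exact ⟨⟨z, hzP⟩, (QuotientGroup.eq_one_iff _).mp h1, rfl⟩
  refine central_normalizing_eq_one hp (T.mapSurjective hsurj) ?_ ?_ N (isPGroup_quotient_pResidual _) hN
    CfsgLib.Constrained.pCore_quotient_pCore
  · show _ ∈ (T : Subgroup ↥P).map (QuotientGroup.mk' O)
    exact ⟨⟨z, hzP⟩, hzS, rfl⟩
  · intro n hn
    obtain ⟨n, rfl⟩ := hsurj n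
    have hpre : ∀ x : ↥P, x ∈ (T : Subgroup ↥P) ↔ QuotientGroup.mk' O x ∈ ((T.mapSurjective hsurj : Sylow p (↥P ⧸ O)) : Subgroup _) := by
      intro x
      constructor
      · exact fun hx => ⟨x, hx, rfl⟩
      · rintro ⟨y, hy, hyx⟩
        have : y⁻¹ * x ∈ O := QuotientGroup.eq.mp hyx
        simpa using (T : Subgroup ↥P).mul_mem hy (hOT this)
    have hnS : (n : G) ∈ Subgroup.normalizer ((S : Subgroup G) : Set G) := by
      rw [Subgroup.mem_normalizer_iff]
      intro x
      have key : ∀ x : ↥P, x ∈ (T : Subgroup ↥P) ↔ n * x * n⁻¹ ∈ (T : Subgroup ↥P) := by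
        intro x
        rw [hpre, hpre, map_mul, map_mul, map_inv]
        exact Subgroup.mem_normalizer_iff.mp hn _
      constructor
      · intro hx; exact (key ⟨x, hSP hx⟩).mp hx
      · intro hx
        have hxP : x ∈ P := by
          have := P.mul_mem (P.mul_mem (P.inv_mem n.2) (hSP hx)) n.2
          simpa [mul_assoc] using this
        exact (key ⟨x, hxP⟩).mpr hx
    show (QuotientGroup.mk' O) ⟨z, hzP⟩ * (QuotientGroup.mk' O) n = (QuotientGroup.mk' O) n * (QuotientGroup.mk' O) ⟨z, hzP⟩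
    rw [← map_mul, ← map_mul]
    exact congrArg _ (Subtype.ext (hzC _ hnS))

end Cfsg.Agent.S3047
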