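import Cfsg.Statements.S3048
import Cfsg.Agent.S3012
import Cfsg.Agent.Cores.Components
import Cfsg.Agent.FStar.SelfCentralizing
import Cfsg.Agent.Subnormal.Basic
import Cfsg.Agent.LocalCharP.Residual
import Cfsg.Agent.Signalizer.Hyperplane
import Cfsg.Agent.Coprime.Basic
import Cfsg.Agent.LocalP.ThompsonJ
import Cfsg.Agent.Constrained.Basic
import Cfsg.Agent.Eq.Def_SubgroupEmbedding

set_option autoImplicit false
universe u
open Cfsg

namespace Cfsg.Agent.S3048


open scoped commutatorElement Pointwise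

/-- A relative form of the pair condition. -/
def SidkiIn {G : Type*} [Group G] (W H : Subgroup G) : Prop :=
  ∀ h ∈ H, ∀ v ∈ W, Odd (orderOf h) → v * h * v⁻¹ = h⁻¹ → ∃ w ∈ W, w ≠ 1 ∧ w * h = h * w

theorem eq_one_of_odd {G : Type*} [Group G] {h : G} (hodd : Odd (orderOf h)) (hh : h * h = 1) : h = 1 := by
  obtain ⟨m, hm⟩ := hodd
  have h2 := orderOf_dvd_of_pow_eq_one (show h ^ 2 = 1 by rw [pow_two, hh])
  rcases (Nat.dvd_prime Nat.prime_two).mp h2 with h1 | h1
  · exact orderOf_eq_one_iff.mp h1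
  · omega

/-- Data of a minimal counterexample. -/
structure Min {G : Type u} [Group G] [Finite G] (V : Subgroup G) : Prop where
  elem : Cfsg.IsElementaryAbelian 2 V
  ne : V ≠ ⊥
  sidki : Cfsg.IsSidkiPair V
  meet : V ⊓ Cfsg.pCore 2 G = ⊥
  minG : ∀ (H : Type u) [Group H] [Finite H] (W : Subgroup H), Nat.card H < Nat.card G →
    Cfsg.IsElementaryAbelian 2 W → W ≠ ⊥ → Cfsg.IsSidkiPair W → W ⊓ Cfsg.pCore 2 H ≠ ⊥
  minV : ∀ W : Subgroup G, Nat.card W < Nat.card V → Cfsg.IsElementaryAbelian 2 W → W ≠ ⊥ →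
    Cfsg.IsSidkiPair W → W ⊓ Cfsg.pCore 2 G ≠ ⊥

variable {G : Type u} [Group G] [Finite G] {V : Subgroup G}

theorem Min.pCore_eq_bot (M : Min V) : Cfsg.pCore 2 G = ⊥ := by
  by_contra hne
  haveI := Fact.mk Nat.prime_two
  haveI : (Cfsg.pCore 2 G).Normal := Cfsg.pCore_normal 2 G
  have hcard : Nat.card (G ⧸ Cfsg.pCore 2 G) < Nat.card G := by
    rw [Subgroup.card_eq_card_quotient_mul_card_subgroup (Cfsg.pCore 2 G)]
    exact lt_mul_of_one_lt_right Nat.card_pos ((Cfsg.pCore 2 G).one_lt_card_iff_ne_bot.mpr hne)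
  refine M.minG (G ⧸ Cfsg.pCore 2 G) (V.map (QuotientGroup.mk' _)) hcard
    (CfsgLib.LocalP.isElementaryAbelian_map _ M.elem) ?_
    (Cfsg.Agent.S3012.result V _ M.elem M.ne M.sidki M.meet) ?_
  · intro h
    rw [Subgroup.map_eq_bot_iff, QuotientGroup.ker_mk'] at h
    exact M.ne (le_bot_iff.mp (M.meet ▸ le_inf le_rfl h))
  · rw [CfsgLib.Constrained.pCore_quotient_pCore, inf_bot_eq]

/-- Minimality, for subgroups. -/
theorem Min.exists_mem_core (M : Min V) {W H : Subgroup G} (hel : Cfsg.IsElementaryAbelian 2 W)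
    (hW : W ≠ ⊥) (hWH : W ≤ H) (hS : SidkiIn W H) (hlt : H ≠ ⊤ ∨ Nat.card W < Nat.card V) :
    ∃ z ∈ W, z ≠ 1 ∧ z ∈ (Cfsg.pCore 2 ↥H).map H.subtype := by
  by_cases hH : H = ⊤
  · subst hH
    refine absurd ?_ (M.minV W (hlt.resolve_left fun h => h rfl) hel hW
      fun h v hv hodd hinv => hS h (Subgroup.mem_top h) v hv hodd hinv)
    rw [M.pCore_eq_bot, inf_bot_eq]
  · have hcard : Nat.card ↥H < Nat.card G :=
      lt_of_le_of_ne (Subgroup.card_le_card_group H) fun h => hH (Subgroup.eq_top_of_card_eq H h)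
    have hel' : Cfsg.IsElementaryAbelian 2 (W.subgroupOf H) := by
      obtain ⟨h1, h2⟩ := CfsgLib.LocalP.isElementaryAbelian_iff.mp hel
      exact CfsgLib.LocalP.isElementaryAbelian_iff.mpr
        ⟨fun x hx y hy => Subtype.ext (h1 _ hx _ hy), fun x hx => Subtype.ext (by simpa using h2 _ hx)⟩
    have hne : W.subgroupOf H ≠ ⊥ := fun h => hW (by
      rw [← Subgroup.map_subgroupOf_eq_of_le hWH, h, Subgroup.map_bot])
    have hS' : Cfsg.IsSidkiPair (W.subgroupOf H) := fun h v hv hodd hinv => by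
      obtain ⟨w, hw, hw1, hwc⟩ := hS h h.2 v hv (by rwa [Subgroup.orderOf_coe])
        (congrArg Subtype.val hinv)
      exact ⟨⟨w, hWH hw⟩, hw, fun e => hw1 (congrArg Subtype.val e), Subtype.ext hwc⟩
    obtain ⟨z, hz, hz1⟩ := (Subgroup.bot_or_exists_ne_one _).resolve_left
      (M.minG ↥H (W.subgroupOf H) hcard hel' hne hS')
    exact ⟨z, hz.1, fun e => hz1 (Subtype.ext e), ⟨z, hz.2, rfl⟩⟩

/-- The 2-core of a subgroup containing a subnormal subgroup as a normal one centralizes it. -/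
theorem Min.core_centralizes (M : Min V) {L H : Subgroup G} (hL : L.IsSubnormal) (hLH : L ≤ H)
    (hn : H ≤ Subgroup.normalizer (L : Set G)) {z x : G}
    (hz : z ∈ (Cfsg.pCore 2 ↥H).map H.subtype) (hx : x ∈ L) : z * x = x * z := by
  haveI := Fact.mk Nat.prime_two
  set Q := (Cfsg.pCore 2 ↥H).map H.subtype
  have hQ : ∀ h ∈ H, ∀ q ∈ Q, h * q * h⁻¹ ∈ Q := by
    rintro h hh _ ⟨y, hy, rfl⟩
    exact ⟨⟨h, hh⟩ * y * ⟨h, hh⟩⁻¹, (Cfsg.pCore_normal 2 ↥H).conj_mem y hy _, rfl⟩
  have hQp : IsPGroup 2 ↥(L ⊓ Q) :=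
    (CfsgLib.Constrained.isPGroup_pCore.map H.subtype).to_le inf_le_right
  have hsn : (L ⊓ Q).IsSubnormal := by
    refine Subgroup.IsSubnormal.step _ L inf_le_left hL ⟨fun y hy g => ?_⟩
    exact Subgroup.mem_inf.mpr ⟨(g * y * g⁻¹ : ↥L).2,
      hQ _ (hLH g.2) _ (Subgroup.mem_inf.mp hy).2⟩
  have hbot : L ⊓ Q = ⊥ :=
    le_bot_iff.mp ((CfsgLib.LocalCharP.le_pCore_of_isSubnormal hsn hQp).trans M.pCore_eq_bot.le)
  have hzH : z ∈ H := by
    obtain ⟨y, -, rfl⟩ := hz
    exact y.2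
  have h1 : z * x * z⁻¹ * x⁻¹ ∈ L ⊓ Q := by
    refine Subgroup.mem_inf.mpr ⟨mul_mem ((Subgroup.mem_normalizer_iff.mp (hn hzH) x).mp hx)
      (inv_mem hx), ?_⟩
    rw [show z * x * z⁻¹ * x⁻¹ = z * (x * z⁻¹ * x⁻¹) by group]
    exact mul_mem hz (hQ x (hLH hx) _ (inv_mem hz))
  rw [hbot, Subgroup.mem_bot, mul_inv_eq_one, mul_inv_eq_iff_eq_mul] at h1
  exact h1

theorem Min.exists_odd (M : Min V) {L : Subgroup G} (hL : L.IsSubnormal) (hne : L ≠ ⊥) :
    ∃ x ∈ L, x ≠ 1 ∧ Odd (orderOf x) := by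
  haveI := Fact.mk Nat.prime_two
  by_contra! hno
  refine hne (le_bot_iff.mp ((CfsgLib.LocalCharP.le_pCore_of_isSubnormal hL (p := 2) ?_).trans
    M.pCore_eq_bot.le))
  intro y
  obtain ⟨a, b, hb, hab⟩ := Nat.exists_eq_two_pow_mul_odd (orderOf_pos (y : G)).ne'
  refine ⟨a, Subtype.ext ?_⟩
  rw [SubmonoidClass.coe_pow, OneMemClass.coe_one]
  by_contra h1
  refine hno _ (pow_mem y.2 _) h1 (hb.of_dvd_nat ?_)
  refine orderOf_dvd_of_pow_eq_one ?_
  rw [← pow_mul, ← hab, pow_orderOf_eq_one]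

/-- An element of odd order of `L ⊔ W`, `W` a 2-group normalizing `L`, lies in `L`. -/
theorem mem_of_odd {L W : Subgroup G} (hW : ∀ w ∈ W, w * w = 1) (hWc : ∀ w ∈ W, ∀ w' ∈ W, w * w' = w' * w)
    (hn : W ≤ Subgroup.normalizer (L : Set G)) {y : G} (hy : y ∈ L ⊔ W) (hodd : Odd (orderOf y)) :
    y ∈ L := by
  have h1 : y ∈ (L : Set G) * (W : Set G) := by
    rw [← Subgroup.coe_mul_of_right_le_normalizer_left L W hn]; exact hy
  obtain ⟨l, hl, w, hw, rfl⟩ := h1
  simp only [SetLike.mem_coe] at hl hw hodd ⊢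
  have hsq : (l * w) * (l * w) ∈ L := by
    rw [show l * w * (l * w) = l * (w * l * w⁻¹) * (w * w) by group, hW w hw, mul_one]
    exact mul_mem hl ((Subgroup.mem_normalizer_iff.mp (hn hw) l).mp hl)
  obtain ⟨m, hm⟩ := hodd
  have : l * w = ((l * w) * (l * w)) ^ (m + 1) := by
    rw [← pow_two, ← pow_mul, show 2 * (m + 1) = orderOf (l * w) + 1 by omega, pow_succ,
      pow_orderOf_eq_one, one_mul]
  rw [this]
  exact pow_mem hsq _

/-- An element of `V` centralizing a minimal normal subgroup is trivial. -/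
theorem Min.inf_centralizer (M : Min V) {K : Subgroup G} [hK : K.Normal]
    (hC : Subgroup.centralizer (K : Set G) ≠ ⊤) : V ⊓ Subgroup.centralizer (K : Set G) = ⊥ := by
  haveI := Fact.mk Nat.prime_two
  obtain ⟨hVc, hV2⟩ := CfsgLib.LocalP.isElementaryAbelian_iff.mp M.elem
  set C := Subgroup.centralizer (K : Set G) with hCdef
  haveI : C.Normal := Subgroup.normal_centralizer
  by_contra hU
  set U := V ⊓ C with hUdef
  have hS : SidkiIn U C := by
    intro h hh u hu hodd hinv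
    by_contra! hno
    set W₀ := V ⊓ Subgroup.centralizer ({h} : Set G)
    have hW₀ : ∀ z ∈ W₀, z * h = h * z := fun z hz =>
      Subgroup.mem_centralizer_singleton_iff.mp (Subgroup.mem_inf.mp hz).2
    have huV := (Subgroup.mem_inf.mp hu).1
    have hdisj : ∀ z ∈ W₀, z ∈ C → z = 1 := fun z hz hzC => by
      by_contra h1
      exact hno z (Subgroup.mem_inf.mpr ⟨(Subgroup.mem_inf.mp hz).1, hzC⟩) h1 (hW₀ z hz)
    have hW₀ne : W₀ ≠ ⊥ := by
      obtain ⟨w, hw, hw1, hwc⟩ := M.sidki h u huV hodd hinv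
      exact fun e => hw1 (Subgroup.mem_bot.mp (e ▸ Subgroup.mem_inf.mpr
        ⟨hw, Subgroup.mem_centralizer_singleton_iff.mpr hwc⟩))
    have hlt : Nat.card W₀ < Nat.card V := by
      refine lt_of_le_of_ne (Subgroup.card_le_of_le inf_le_left) fun e => ?_
      obtain ⟨u', hu', hu1'⟩ := (Subgroup.bot_or_exists_ne_one U).resolve_left hU
      have he : W₀ = V := Subgroup.eq_of_le_of_card_ge inf_le_left e.ge
      exact hu1' (hdisj u' (he.symm ▸ (Subgroup.mem_inf.mp hu').1) (Subgroup.mem_inf.mp hu').2)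
    have hW₀n : W₀ ≤ Subgroup.normalizer (K : Set G) := Subgroup.le_normalizer_of_normal
    have hH' : SidkiIn W₀ (K ⊔ W₀) := by
      intro x hx w hw hxodd hxinv
      have hxK : x ∈ K := mem_of_odd (fun z hz => by rw [← pow_two]; exact hV2 z (Subgroup.mem_inf.mp hz).1)
        (fun z hz z' hz' => hVc z (Subgroup.mem_inf.mp hz).1 z' (Subgroup.mem_inf.mp hz').1) hW₀n hx hxodd
      have hwV := (Subgroup.mem_inf.mp hw).1
      have hxh : Commute h x := (Subgroup.mem_centralizer_iff.mp hh x hxK).symm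
      have hxu : u * x * u⁻¹ = x := mul_inv_eq_iff_eq_mul.mpr
        (Subgroup.mem_centralizer_iff.mp (Subgroup.mem_inf.mp hu).2 x hxK).symm
      have hhw : w * h * w⁻¹ = h := mul_inv_eq_iff_eq_mul.mpr (hW₀ w hw)
      have hinv2 : (u * w) * (h * x) * (u * w)⁻¹ = (h * x)⁻¹ := by
        calc (u * w) * (h * x) * (u * w)⁻¹
            = (u * (w * h * w⁻¹) * u⁻¹) * (u * (w * x * w⁻¹) * u⁻¹) := by group
          _ = h⁻¹ * x⁻¹ := by rw [hhw, hinv, hxinv, ← conj_inv, hxu]
          _ = _ := by rw [mul_inv_rev, hxh.inv_inv.eq]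
      obtain ⟨z, hz, hz1, hzc⟩ := M.sidki (h * x) (u * w) (mul_mem huV hwV)
        ((hodd.mul hxodd).of_dvd_nat hxh.orderOf_mul_dvd_mul_orderOf) hinv2
      set d := h⁻¹ * (z * h * z⁻¹) with hd
      have hdeq : d = x * (z * x⁻¹ * z⁻¹) := by
        calc d = h⁻¹ * (z * (h * x) * z⁻¹) * (z * x⁻¹ * z⁻¹) := by rw [hd]; group
          _ = x * (z * x⁻¹ * z⁻¹) := by rw [mul_inv_eq_iff_eq_mul.mpr hzc]; group
      have hzw : Commute w z := hVc w hwV z hz
      have hfix : w * d * w⁻¹ = d := by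
        have c1 : Commute w h := hW₀ w hw
        exact mul_inv_eq_iff_eq_mul.mpr (c1.inv_right.mul_right ((hzw.mul_right c1).mul_right hzw.inv_right)).eq
      have hwinv : w * d * w⁻¹ = d⁻¹ := by
        have hxi : w * (z * x⁻¹ * z⁻¹) * w⁻¹ = z * x * z⁻¹ := by
          calc w * (z * x⁻¹ * z⁻¹) * w⁻¹ = (w * z) * x⁻¹ * (w * z)⁻¹ := by group
            _ = (z * w) * x⁻¹ * (z * w)⁻¹ := by rw [hzw.eq]
            _ = z * (w * x * w⁻¹)⁻¹ * z⁻¹ := by group
            _ = _ := by rw [hxinv, inv_inv]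
        have hzK : z * x * z⁻¹ ∈ K := hK.conj_mem x hxK z
        have hcC : h⁻¹ * (z * h * z⁻¹) ∈ C := mul_mem (inv_mem hh) (Subgroup.Normal.conj_mem ‹C.Normal› h hh z)
        have hdx : Commute d x := (Subgroup.mem_centralizer_iff.mp hcC x hxK).symm
        calc w * d * w⁻¹ = (w * x * w⁻¹) * (w * (z * x⁻¹ * z⁻¹) * w⁻¹) := by rw [hdeq]; group
          _ = x⁻¹ * (z * x * z⁻¹) := by rw [hxinv, hxi]
          _ = x⁻¹ * (d⁻¹ * x) := by rw [hdeq]; group
          _ = d⁻¹ := by rw [hdx.inv_left.eq]; group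
      have hcC : h⁻¹ * (z * h * z⁻¹) ∈ C :=
        mul_mem (inv_mem hh) (Subgroup.Normal.conj_mem ‹C.Normal› h hh z)
      have hd1 : d = 1 := by
        refine eq_one_of_odd ?_ (by
          nth_rewrite 2 [← hfix]
          rw [hwinv, mul_inv_cancel])
        rw [hdeq]
        have hxK' : z * x⁻¹ * z⁻¹ ∈ K := hK.conj_mem _ (inv_mem hxK) z
        have hcomm : Commute x (z * x⁻¹ * z⁻¹) := by
          have h1 : Commute x d := Subgroup.mem_centralizer_iff.mp hcC x hxK
          have h2 : z * x⁻¹ * z⁻¹ = x⁻¹ * d := by rw [hdeq]; group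
          rw [h2]
          exact ((Commute.refl x).inv_right).mul_right h1
        refine (hxodd.mul ?_).of_dvd_nat hcomm.orderOf_mul_dvd_mul_orderOf
        rw [show z * x⁻¹ * z⁻¹ = MulAut.conj z x⁻¹ by rfl, MulEquiv.orderOf_eq, orderOf_inv]
        exact hxodd
      have hzh : z * h = h * z := by
        rw [hd, inv_mul_eq_one] at hd1
        exact mul_inv_eq_iff_eq_mul.mp hd1.symm
      refine ⟨z, Subgroup.mem_inf.mpr ⟨hz, Subgroup.mem_centralizer_singleton_iff.mpr hzh⟩, hz1, ?_⟩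
      rw [hd1, eq_comm, mul_eq_one_iff_eq_inv, ← conj_inv, inv_inv] at hdeq
      exact (eq_mul_inv_iff_mul_eq.mp hdeq).symm
    obtain ⟨z, hz, hz1, hzQ⟩ := M.exists_mem_core (CfsgLib.LocalP.isElementaryAbelian_mono M.elem inf_le_left)
      hW₀ne le_sup_right hH' (Or.inr hlt)
    refine hz1 (hdisj z hz (Subgroup.mem_centralizer_iff.mpr fun x hx => ?_))
    exact (M.core_centralizes hK.isSubnormal le_sup_left Subgroup.le_normalizer_of_normal hzQ hx).symm
  obtain ⟨z, hz, hz1, hzQ⟩ := M.exists_mem_core (CfsgLib.LocalP.isElementaryAbelian_mono M.elem inf_le_left)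
    hU inf_le_right hS (Or.inl hC)
  have hle : (Cfsg.pCore 2 ↥C).map C.subtype ≤ Cfsg.pCore 2 G :=
    CfsgLib.LocalCharP.map_pCore_le_pCore_of_isSubnormal (‹C.Normal›).isSubnormal
  rw [M.pCore_eq_bot] at hle
  exact hz1 (Subgroup.mem_bot.mp (hle hzQ))

theorem Min.noncentral (M : Min V) {K : Subgroup G} [hK : K.Normal] (hne : K ≠ ⊥) :
    Subgroup.centralizer (K : Set G) ≠ ⊤ := by
  haveI := Fact.mk Nat.prime_two
  intro htop
  have hKc : K ≤ Subgroup.center G := fun k hk => Subgroup.mem_center_iff.mpr fun g =>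
    (Subgroup.mem_centralizer_iff.mp (htop.symm ▸ Subgroup.mem_top g : g ∈ Subgroup.centralizer (K : Set G)) k hk).symm
  have hVK : V ⊓ K = ⊥ := by
    refine le_bot_iff.mp ((CfsgLib.LocalCharP.le_pCore_of_isSubnormal (p := 2) ?_ ?_).trans M.pCore_eq_bot.le)
    · exact (show (V ⊓ K).Normal from ⟨fun x hx g => by
        rw [Subgroup.mem_center_iff.mp (hKc (Subgroup.mem_inf.mp hx).2) g, mul_inv_cancel_right]
        exact hx⟩).isSubnormal
    · exact (CfsgLib.LocalP.isPGroup_of_isElementaryAbelian M.elem).to_le inf_le_left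
  have hcard : Nat.card (G ⧸ K) < Nat.card G := by
    rw [Subgroup.card_eq_card_quotient_mul_card_subgroup K]
    exact lt_mul_of_one_lt_right Nat.card_pos (K.one_lt_card_iff_ne_bot.mpr hne)
  obtain ⟨z, hz, hz1⟩ := (Subgroup.bot_or_exists_ne_one _).resolve_left
    (M.minG (G ⧸ K) (V.map (QuotientGroup.mk' K)) hcard (CfsgLib.LocalP.isElementaryAbelian_map _ M.elem)
      (fun h => by
        rw [Subgroup.map_eq_bot_iff, QuotientGroup.ker_mk'] at h
        exact M.ne (le_bot_iff.mp (hVK ▸ le_inf le_rfl h)))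
      (Cfsg.Agent.S3012.result V K M.elem M.ne M.sidki hVK))
  obtain ⟨⟨v, hv, rfl⟩, hzQ⟩ := Subgroup.mem_inf.mp hz
  set P := (Cfsg.pCore 2 (G ⧸ K)).comap (QuotientGroup.mk' K)
  haveI : (Cfsg.pCore 2 (G ⧸ K)).Normal := Cfsg.pCore_normal 2 _
  haveI : Group.IsNilpotent ↥(Cfsg.pCore 2 (G ⧸ K)) :=
    (CfsgLib.Constrained.isPGroup_pCore (G := G ⧸ K) (p := 2)).isNilpotent
  haveI : Group.IsNilpotent ↥P := Subgroup.isNilpotent_of_ker_le_center
    ((QuotientGroup.mk' K).subgroupComap (Cfsg.pCore 2 (G ⧸ K)))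
    (fun x hx => Subgroup.mem_center_iff.mpr fun y => Subtype.ext (Subgroup.mem_center_iff.mp
      (hKc ((QuotientGroup.eq_one_iff (x : G)).mp (congrArg Subtype.val (MonoidHom.mem_ker.mp hx)))) y))
  have hPn : P.IsSubnormal := (inferInstance : P.Normal).isSubnormal
  have hsn : (Subgroup.zpowers v).IsSubnormal :=
    Subgroup.IsSubnormal.trans (K := P) (Subgroup.zpowers_le.mpr hzQ)
      (CfsgLib.Subnormal.isSubnormal_of_isNilpotent _) hPn
  have hvp : IsPGroup 2 ↥(Subgroup.zpowers v) :=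
    (CfsgLib.LocalP.isPGroup_of_isElementaryAbelian M.elem).to_le (Subgroup.zpowers_le.mpr hv)
  have hv1 : v = 1 := by
    have h := CfsgLib.LocalCharP.le_pCore_of_isSubnormal hsn hvp (Subgroup.mem_zpowers v)
    rwa [M.pCore_eq_bot, Subgroup.mem_bot] at h
  exact hz1 (by rw [hv1, map_one])

/-- `G = V K` for every minimal normal subgroup `K`. -/
theorem Min.sup_eq_top (M : Min V) {K : Subgroup G} [hK : K.Normal] (hne : K ≠ ⊥) : V ⊔ K = ⊤ := by
  by_contra h
  obtain ⟨z, hz, hz1, hzQ⟩ := M.exists_mem_core M.elem M.ne le_sup_left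
    (fun h _ v hv hodd hinv => M.sidki h v hv hodd hinv) (Or.inl h)
  refine hz1 (Subgroup.mem_bot.mp (M.inf_centralizer (M.noncentral hne) ▸ Subgroup.mem_inf.mpr
    ⟨hz, Subgroup.mem_centralizer_iff.mpr fun x hx => ?_⟩))
  exact (M.core_centralizes hK.isSubnormal le_sup_right Subgroup.le_normalizer_of_normal hzQ hx).symm

theorem Min.not_comm (M : Min V) {K : Subgroup G} [hK : K.Normal] (hne : K ≠ ⊥)
    (hmin : ∀ N : Subgroup G, N.Normal → N ≤ K → N = ⊥ ∨ N = K) : ¬ IsMulCommutative ↥K := by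
  intro hab
  obtain ⟨hVc, hV2⟩ := CfsgLib.LocalP.isElementaryAbelian_iff.mp M.elem
  have hKc : ∀ x ∈ K, ∀ y ∈ K, x * y = y * x := fun x hx y hy =>
    congrArg Subtype.val (hab.is_comm.comm ⟨x, hx⟩ ⟨y, hy⟩)
  have hinvert : ∀ v ∈ V, v ≠ 1 → ∀ x ∈ K, v * x * v⁻¹ = x⁻¹ := by
    intro v hv hv1 x hx
    set F := K ⊓ Subgroup.centralizer ({v} : Set G)
    have hFn : F.Normal := by
      rw [← Subgroup.normalizer_eq_top_iff, eq_top_iff, ← M.sup_eq_top hne]
      refine sup_le (fun w hw => ?_) (fun w hw => ?_) <;> rw [Subgroup.mem_normalizer_iff]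
      · have key : ∀ w ∈ V, ∀ y ∈ F, w * y * w⁻¹ ∈ F := fun w hw y hy => by
          refine Subgroup.mem_inf.mpr ⟨hK.conj_mem y (Subgroup.mem_inf.mp hy).1 w,
            Subgroup.mem_centralizer_singleton_iff.mpr ?_⟩
          have h1 : Commute w v := hVc w hw v hv
          have h2 : Commute y v := Subgroup.mem_centralizer_singleton_iff.mp (Subgroup.mem_inf.mp hy).2
          exact ((h1.mul_left h2).mul_left h1.inv_left).eq
        exact fun y => ⟨key w hw y, fun h => by simpa [mul_assoc] using key w⁻¹ (inv_mem hw) _ h⟩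
      · have key : ∀ w ∈ K, ∀ y ∈ F, w * y * w⁻¹ ∈ F := fun w hw y hy => by
          rwa [hKc w hw y (Subgroup.mem_inf.mp hy).1, mul_inv_cancel_right]
        exact fun y => ⟨key w hw y, fun h => by simpa [mul_assoc] using key w⁻¹ (inv_mem hw) _ h⟩
    rcases hmin F hFn inf_le_left with hF | hF
    · have hvx : v * x * v⁻¹ ∈ K := hK.conj_mem x hx v
      have h1 : x * (v * x * v⁻¹) = 1 := by
        refine Subgroup.mem_bot.mp (hF ▸ Subgroup.mem_inf.mpr
          ⟨mul_mem hx hvx, Subgroup.mem_centralizer_singleton_iff.mpr ?_⟩)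
        have hvv : v * v = 1 := by rw [← pow_two]; exact hV2 v hv
        calc x * (v * x * v⁻¹) * v = (v * x * v⁻¹) * x * v := by rw [hKc x hx _ hvx]
          _ = v * x * (v⁻¹ * x * v) := by group
          _ = v * (x * (v * x * v⁻¹)) := by
            rw [show v⁻¹ = v from inv_eq_of_mul_eq_one_left hvv]; group
      exact eq_inv_of_mul_eq_one_right h1
    · exact absurd (Subgroup.mem_bot.mp (M.inf_centralizer (M.noncentral hne) ▸ Subgroup.mem_inf.mpr
        ⟨hv, Subgroup.mem_centralizer_iff.mpr fun y hy =>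
          Subgroup.mem_centralizer_singleton_iff.mp (hF.symm ▸ hy : y ∈ F).2⟩)) hv1
  obtain ⟨v, hv, hv1⟩ := (Subgroup.bot_or_exists_ne_one V).resolve_left M.ne
  obtain ⟨x, hx, hx1, hxodd⟩ := M.exists_odd hK.isSubnormal hne
  obtain ⟨w, hw, hw1, hwc⟩ := M.sidki x v hv hxodd (hinvert v hv hv1 x hx)
  have h := hinvert w hw hw1 x hx
  rw [hwc, mul_inv_cancel_right] at h
  exact hx1 (eq_one_of_odd hxodd (by nth_rewrite 2 [h]; exact mul_inv_cancel x))

/-- The minimal normal subgroup has no proper normal subgroup. -/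
theorem Min.simple (M : Min V) {K : Subgroup G} [hK : K.Normal] (hne : K ≠ ⊥)
    (hmin : ∀ N : Subgroup G, N.Normal → N ≤ K → N = ⊥ ∨ N = K) (L : Subgroup G) (hLK : L ≤ K)
    (hKL : K ≤ Subgroup.normalizer (L : Set G)) (hLne : L ≠ ⊥)
    (hLmin : ∀ N : Subgroup G, N ≤ L → K ≤ Subgroup.normalizer (N : Set G) → N = ⊥ ∨ N = L) : L = K := by
  obtain ⟨hVc, hV2⟩ := CfsgLib.LocalP.isElementaryAbelian_iff.mp M.elem
  have htop := M.sup_eq_top hne
  have hLsn : L.IsSubnormal := Subgroup.IsSubnormal.step L K hLK hK.isSubnormal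
    ((Subgroup.normal_subgroupOf_iff_le_normalizer hLK).mpr hKL)
  by_cases hall : V ≤ Subgroup.normalizer (L : Set G)
  · refine (hmin L ?_ hLK).resolve_left hLne
    rw [← Subgroup.normalizer_eq_top_iff, eq_top_iff, ← htop]
    exact sup_le hall hKL
  exfalso
  set S := V ⊓ Subgroup.normalizer (L : Set G)
  have hmeet : ∀ v ∈ V, v ∉ Subgroup.normalizer (L : Set G) → ∀ x ∈ L, v * x * v⁻¹ ∈ L → x = 1 := by
    intro v hv hvn x hx hvx
    set L' := L.map (MulAut.conj v).toMonoidHom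
    have hN : K ≤ Subgroup.normalizer ((L ⊓ L' : Subgroup G) : Set G) := by
      refine CfsgLib.Coprime.le_normalizer_inf' hKL (CfsgLib.Hyperplane.le_normalizer_of_conj_mem fun k hk y hy => ?_)
      obtain ⟨l, hl, rfl⟩ := hy
      refine ⟨(v⁻¹ * k * v) * l * (v⁻¹ * k * v)⁻¹,
        (Subgroup.mem_normalizer_iff.mp (hKL (by simpa using hK.conj_mem k hk v⁻¹)) l).mp hl, ?_⟩
      show v * _ * v⁻¹ = k * (v * l * v⁻¹) * k⁻¹
      group
    rcases hLmin _ inf_le_left hN with h | h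
    · exact conj_eq_one_iff.mp (Subgroup.mem_bot.mp (h ▸ Subgroup.mem_inf.mpr
        ⟨hvx, Subgroup.mem_map_of_mem (MulAut.conj v).toMonoidHom hx⟩))
    · refine absurd (Subgroup.mem_normalizer_iff_map_conj_eq.mpr ?_) hvn
      exact (Subgroup.eq_of_le_of_card_ge (h.ge.trans inf_le_right)
        (Subgroup.card_map_of_injective (MulAut.conj v).injective).le).symm
  rcases eq_or_ne S ⊥ with hS | hS
  · obtain ⟨v, hv, hvn⟩ := SetLike.not_le_iff_exists.mp hall
    obtain ⟨x, hx, hx1, hxodd⟩ := M.exists_odd hLsn hLne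
    set y := v * x⁻¹ * v⁻¹ with hy
    have hvv : v * v = 1 := by rw [← pow_two]; exact hV2 v hv
    have hvi : v⁻¹ = v := inv_eq_of_mul_eq_one_left hvv
    have hyK : y ∈ K := hK.conj_mem _ (inv_mem (hLK hx)) v
    have hyn : x * y * x⁻¹ * y⁻¹ = 1 := by
      have h1 : x * (y * x⁻¹ * y⁻¹) ∈ L :=
        mul_mem hx ((Subgroup.mem_normalizer_iff.mp (hKL hyK) _).mp (inv_mem hx))
      rw [show x * (y * x⁻¹ * y⁻¹) = x * y * x⁻¹ * y⁻¹ by group] at h1
      refine hmeet v hv hvn _ h1 ?_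
      rw [show v * (x * y * x⁻¹ * y⁻¹) * v⁻¹ =
        (v * x * v⁻¹) * (v * y * v⁻¹) * (v * x * v⁻¹)⁻¹ * (v * y * v⁻¹)⁻¹ by group,
        show v * y * v⁻¹ = x⁻¹ by
          calc v * y * v⁻¹ = (v * v) * x⁻¹ * (v * v)⁻¹ := by rw [hy]; group
            _ = x⁻¹ := by rw [hvv]; group]
      rw [inv_inv]
      exact mul_mem ((Subgroup.mem_normalizer_iff.mp (hKL (hK.conj_mem x (hLK hx) v)) _).mp (inv_mem hx)) hx
    have hxy : Commute x y := mul_inv_eq_iff_eq_mul.mp (mul_inv_eq_one.mp hyn)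
    have hinv : v * (x * y) * v⁻¹ = (x * y)⁻¹ := by
      calc v * (x * y) * v⁻¹ = (v * x * v⁻¹) * ((v * v) * x⁻¹ * (v * v)⁻¹) := by rw [hy]; group
        _ = (v * x * v⁻¹) * x⁻¹ := by rw [hvv]; group
        _ = _ := by rw [hy]; group
    have hyodd : Odd (orderOf y) := by
      rw [hy, show v * x⁻¹ * v⁻¹ = MulAut.conj v x⁻¹ by rfl, MulEquiv.orderOf_eq, orderOf_inv]
      exact hxodd
    obtain ⟨w, hw, hw1, hwc⟩ := M.sidki (x * y) v hv
      ((hxodd.mul hyodd).of_dvd_nat hxy.orderOf_mul_dvd_mul_orderOf) hinv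
    have hSbot : ∀ g ∈ V, g ∈ Subgroup.normalizer (L : Set G) → g = 1 := fun g hg hgn =>
      Subgroup.mem_bot.mp (hS ▸ Subgroup.mem_inf.mpr ⟨hg, hgn⟩)
    have hwn : w ∉ Subgroup.normalizer (L : Set G) := fun h => hw1 (hSbot w hw h)
    have hwv : w = v := by
      by_contra hwv
      have hwvn : v⁻¹ * w ∉ Subgroup.normalizer (L : Set G) := fun h =>
        hwv (inv_mul_eq_one.mp (hSbot _ (mul_mem (inv_mem hv) hw) h)).symm
      have hfix : w * (x * y) * w⁻¹ = x * y := mul_inv_eq_iff_eq_mul.mpr hwc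
      set l := w * x * w⁻¹ with hl
      have hlK : l ∈ K := hK.conj_mem x (hLK hx) w
      have hcomm : ∀ g ∈ V, g ∉ Subgroup.normalizer (L : Set G) → ∀ a ∈ L, ∀ b ∈ L,
          a * (g * b * g⁻¹) = g * b * g⁻¹ * a := by
        intro g hg hgn a ha b hb
        have hgg : g * g = 1 := by rw [← pow_two]; exact hV2 g hg
        have hbK : g * b * g⁻¹ ∈ K := hK.conj_mem b (hLK hb) g
        have h1 : a * ((g * b * g⁻¹) * a⁻¹ * (g * b * g⁻¹)⁻¹) ∈ L :=
          mul_mem ha ((Subgroup.mem_normalizer_iff.mp (hKL hbK) _).mp (inv_mem ha))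
        have h2 := hmeet g hg hgn _ h1 (by
          rw [show g * (a * ((g * b * g⁻¹) * a⁻¹ * (g * b * g⁻¹)⁻¹)) * g⁻¹ =
            ((g * a * g⁻¹) * ((g * g) * b * (g * g)⁻¹) * (g * a * g⁻¹)⁻¹) *
              ((g * g) * b * (g * g)⁻¹)⁻¹ by group, hgg, one_mul, inv_one, mul_one]
          exact mul_mem ((Subgroup.mem_normalizer_iff.mp (hKL (hK.conj_mem a (hLK ha) g)) _).mp hb) (inv_mem hb))
        rw [← mul_assoc, ← mul_assoc, mul_inv_eq_one, mul_inv_eq_iff_eq_mul] at h2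
        exact h2
      have hxc : ∀ b ∈ L, x * b = b * x := by
        intro b hb
        have hcl : Commute b l := hcomm w hw hwn b hb x hx
        have hcy : Commute b y := by
          rw [hy]; exact hcomm v hv hvn b hb x⁻¹ (inv_mem hx)
        have hvw : v⁻¹ * w ∈ V := mul_mem (inv_mem hv) hw
        have hcm : Commute b (w * y * w⁻¹) := by
          rw [hy, show w * (v * x⁻¹ * v⁻¹) * w⁻¹ = (v⁻¹ * w) * x⁻¹ * (v⁻¹ * w)⁻¹ by
            rw [show v⁻¹ * w = w * v by rw [hvi, hVc v hv w hw]]; group]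
          exact hcomm _ hvw hwvn b hb x⁻¹ (inv_mem hx)
        have hprod : Commute b (x * y) := by
          rw [← hfix, ← conj_mul]; exact hcl.mul_right hcm
        have hfin := hprod.mul_right hcy.inv_right
        rw [mul_inv_cancel_right] at hfin
        exact hfin.eq.symm
      set Z := L ⊓ Subgroup.centralizer (L : Set G)
      have hxZ : x ∈ Z :=
        Subgroup.mem_inf.mpr ⟨hx, Subgroup.mem_centralizer_iff.mpr fun b hb => (hxc b hb).symm⟩
      have hZn : K ≤ Subgroup.normalizer (Z : Set G) :=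
        CfsgLib.Coprime.le_normalizer_inf' hKL (CfsgLib.Coprime.le_normalizer_centralizer hKL)
      rcases hLmin Z inf_le_left hZn with hZ | hZ
      · exact hx1 (Subgroup.mem_bot.mp (hZ ▸ hxZ))
      · -- then `L` is abelian, and so is the normal subgroup generated by its conjugates
        refine M.not_comm hne hmin ⟨⟨fun p q => Subtype.ext ?_⟩⟩
        set N := Subgroup.closure {z : G | ∃ g ∈ V, ∃ b ∈ L, z = g * b * g⁻¹}
        have hab : ∀ a ∈ L, ∀ b ∈ L, a * b = b * a := fun a ha b hb =>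
          (Subgroup.mem_centralizer_iff.mp (Subgroup.mem_inf.mp (hZ.symm ▸ ha : a ∈ Z)).2 b hb).symm
        have hNn : N.Normal := by
          rw [← Subgroup.normalizer_eq_top_iff, eq_top_iff, ← htop]
          have key : ∀ g, g ∈ V ∨ g ∈ K → N ≤ N.comap (MulAut.conj g).toMonoidHom := by
            intro g hg
            refine (Subgroup.closure_le _).mpr ?_
            rintro _ ⟨g', hg', b, hb, rfl⟩
            rcases hg with hg | hg
            · exact Subgroup.subset_closure ⟨g * g', mul_mem hg hg', b, hb, by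
                show g * (g' * b * g'⁻¹) * g⁻¹ = _; group⟩
            · exact Subgroup.subset_closure ⟨g', hg', (g'⁻¹ * g * g') * b * (g'⁻¹ * g * g')⁻¹,
                (Subgroup.mem_normalizer_iff.mp (hKL (by simpa using hK.conj_mem g hg g'⁻¹)) b).mp hb, by
                show g * (g' * b * g'⁻¹) * g⁻¹ = _; group⟩
          refine sup_le (fun g hg => ?_) (fun g hg => ?_) <;> rw [Subgroup.mem_normalizer_iff]
          · exact fun y => ⟨fun h => key g (Or.inl hg) h, fun h => by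
              simpa [mul_assoc] using (key g⁻¹ (Or.inl (inv_mem hg)) h : g⁻¹ * (g * y * g⁻¹) * g⁻¹⁻¹ ∈ N)⟩
          · exact fun y => ⟨fun h => key g (Or.inr hg) h, fun h => by
              simpa [mul_assoc] using (key g⁻¹ (Or.inr (inv_mem hg)) h : g⁻¹ * (g * y * g⁻¹) * g⁻¹⁻¹ ∈ N)⟩
        have hNK : N ≤ K := (Subgroup.closure_le _).mpr fun z ⟨g, _, b, hb, e⟩ =>
          e ▸ hK.conj_mem b (hLK hb) g
        have hNK' : N = K := (hmin N hNn hNK).resolve_left fun h => hx1 (Subgroup.mem_bot.mp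
          (h ▸ Subgroup.subset_closure ⟨1, one_mem _, x, hx, by group⟩))
        have hgc : ∀ z ∈ {z : G | ∃ g ∈ V, ∃ b ∈ L, z = g * b * g⁻¹},
            ∀ z' ∈ {z : G | ∃ g ∈ V, ∃ b ∈ L, z = g * b * g⁻¹}, z * z' = z' * z := by
          rintro _ ⟨g, hg, a, ha, rfl⟩ _ ⟨g', hg', b, hb, rfl⟩
          have hk : a * ((g⁻¹ * g') * b * (g⁻¹ * g')⁻¹) = (g⁻¹ * g') * b * (g⁻¹ * g')⁻¹ * a := by
            by_cases hn : g⁻¹ * g' ∈ Subgroup.normalizer (L : Set G)
            · exact hab a ha _ ((Subgroup.mem_normalizer_iff.mp hn b).mp hb)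
            · exact hcomm _ (mul_mem (inv_mem hg) hg') hn a ha b hb
          calc g * a * g⁻¹ * (g' * b * g'⁻¹) = g * (a * ((g⁻¹ * g') * b * (g⁻¹ * g')⁻¹)) * g⁻¹ := by group
            _ = g * ((g⁻¹ * g') * b * (g⁻¹ * g')⁻¹ * a) * g⁻¹ := by rw [hk]
            _ = _ := by group
        haveI := Subgroup.isMulCommutative_closure hgc
        simpa using congrArg (fun z : ↥N => (z : G))
          (mul_comm' (⟨(p : G), hNK'.symm ▸ p.2⟩ : ↥N) ⟨(q : G), hNK'.symm ▸ q.2⟩)
    subst hwv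
    have h2 : x * y = (x * y)⁻¹ := by rw [← hinv, mul_inv_eq_iff_eq_mul.mpr hwc]
    have h3 := eq_one_of_odd ((hxodd.mul hyodd).of_dvd_nat hxy.orderOf_mul_dvd_mul_orderOf)
      (by nth_rewrite 2 [h2]; exact mul_inv_cancel _)
    refine hx1 (hmeet w hw hvn x hx ?_)
    rw [show w * x * w⁻¹ = y⁻¹ by rw [hy]; group, ← eq_inv_of_mul_eq_one_left h3]
    exact hx
  · have hSid : SidkiIn S (L ⊔ S) := by
      intro h hh s hs hodd hinv
      have hhL : h ∈ L := mem_of_odd (fun z hz => by rw [← pow_two]; exact hV2 z (Subgroup.mem_inf.mp hz).1)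
        (fun z hz z' hz' => hVc z (Subgroup.mem_inf.mp hz).1 z' (Subgroup.mem_inf.mp hz').1)
        inf_le_right hh hodd
      obtain ⟨w, hw, hw1, hwc⟩ := M.sidki h s (Subgroup.mem_inf.mp hs).1 hodd hinv
      by_cases h1 : h = 1
      · obtain ⟨z, hz, hz1⟩ := (Subgroup.bot_or_exists_ne_one S).resolve_left hS
        exact ⟨z, hz, hz1, by rw [h1, mul_one, one_mul]⟩
      refine ⟨w, Subgroup.mem_inf.mpr ⟨hw, ?_⟩, hw1, hwc⟩
      by_contra hwn
      exact h1 (hmeet w hw hwn h hhL (by rwa [mul_inv_eq_iff_eq_mul.mpr hwc]))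
    have hne' : L ⊔ S ≠ ⊤ := fun h => hall (le_trans le_top (h ▸ sup_le Subgroup.le_normalizer inf_le_right))
    obtain ⟨z, hz, hz1, hzQ⟩ := M.exists_mem_core (CfsgLib.LocalP.isElementaryAbelian_mono M.elem inf_le_left)
      hS le_sup_right hSid (Or.inl hne')
    have hzV := (Subgroup.mem_inf.mp hz).1
    have hzL : ∀ x ∈ L, z * x = x * z := fun x hx =>
      M.core_centralizes hLsn le_sup_left (sup_le Subgroup.le_normalizer inf_le_right) hzQ hx
    set N := K ⊓ Subgroup.centralizer ({z} : Set G)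
    -- the normal core of `N` in `G` contains `L`
    have hLN : L ≤ N.normalCore := by
      intro x hx g
      obtain ⟨w, hw, k, hk, rfl⟩ : ∃ w ∈ V, ∃ k ∈ K, g = w * k := by
        obtain ⟨w, hw, k, hk, e⟩ := Subgroup.mem_sup_of_normal_right.mp
          (htop.symm ▸ Subgroup.mem_top g : g ∈ V ⊔ K)
        exact ⟨w, hw, k, hk, e.symm⟩
      have hkx : k * x * k⁻¹ ∈ L := (Subgroup.mem_normalizer_iff.mp (hKL hk) x).mp hx
      rw [show w * k * x * (w * k)⁻¹ = w * (k * x * k⁻¹) * w⁻¹ by group]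
      refine Subgroup.mem_inf.mpr ⟨hK.conj_mem _ (hLK hkx) w, Subgroup.mem_centralizer_singleton_iff.mpr ?_⟩
      have c1 : Commute w z := hVc w hw z hzV
      have c2 : Commute (k * x * k⁻¹) z := (hzL _ hkx).symm
      exact ((c1.mul_left c2).mul_left c1.inv_left).eq
    have hNeq : N.normalCore = K := (hmin _ inferInstance (N.normalCore_le.trans inf_le_left)).resolve_left
      fun h => hLne (le_bot_iff.mp (h ▸ hLN))
    refine hz1 (Subgroup.mem_bot.mp (M.inf_centralizer (M.noncentral hne) ▸ Subgroup.mem_inf.mpr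
      ⟨hzV, Subgroup.mem_centralizer_iff.mpr fun x hx => ?_⟩))
    exact Subgroup.mem_centralizer_singleton_iff.mp
      (Subgroup.mem_inf.mp (N.normalCore_le (hNeq.symm ▸ hx : x ∈ N.normalCore))).2


/-- Minimal counterexample reduction for the Sidki pair problem. Let G be a finite group and V a nontrivial elementary abelian 2-subgroup satisfying the Sidki pair condition with V ∩ O₂(G) = 1. Suppose that for every finite group H of smaller order, every nontrivial elementary abelian 2-subgroup W of H satisfying the Sidki pair condition meets O₂(H) nontrivially, and that the same holds in G for every such subgroup W of order smaller than that of V. Then the generalized Fitting subgroup F*(G) is a non-abelian simple group and G = V F*(G). -/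
theorem result {G : Type u} [Group G] [Finite G] (V : Subgroup G) (hV : Cfsg.IsElementaryAbelian 2 V) (hV1 : V ≠ ⊥) (hS : Cfsg.IsSidkiPair V) (hVO : V ⊓ Cfsg.pCore 2 G = ⊥) (hminG : ∀ (H : Type u) [Group H] [Finite H] (W : Subgroup H), Nat.card H < Nat.card G → Cfsg.IsElementaryAbelian 2 W → W ≠ ⊥ → Cfsg.IsSidkiPair W → W ⊓ Cfsg.pCore 2 H ≠ ⊥) (hminV : ∀ W : Subgroup G, Nat.card W < Nat.card V → Cfsg.IsElementaryAbelian 2 W → W ≠ ⊥ → Cfsg.IsSidkiPair W → W ⊓ Cfsg.pCore 2 G ≠ ⊥) : IsSimpleGroup ↥(Cfsg.generalizedFittingSubgroup G) ∧ ¬ IsMulCommutative ↥(Cfsg.generalizedFittingSubgroup G) ∧ V ⊔ Cfsg.generalizedFittingSubgroup G = ⊤ := by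
  have M : Min V := ⟨hV, hV1, hS, hVO, hminG, hminV⟩
  haveI := Fact.mk Nat.prime_two
  haveI : Nontrivial G := by
    obtain ⟨v, -, hv1⟩ := (Subgroup.bot_or_exists_ne_one V).resolve_left hV1
    exact nontrivial_of_ne v 1 hv1
  obtain ⟨K, hK, -, hne, hmin⟩ := CfsgLib.Subnormal.exists_minimalNormal_le (N := (⊤ : Subgroup G))
    inferInstance top_ne_bot
  haveI := hK
  have hnc := M.not_comm hne hmin
  have hsimple : IsSimpleGroup ↥K := by
    haveI : Nontrivial ↥K := (Subgroup.nontrivial_iff_ne_bot K).mpr hne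
    obtain ⟨L₀, hL₀n, -, hL₀ne, hL₀min⟩ := CfsgLib.Subnormal.exists_minimalNormal_le
      (G := ↥K) (N := ⊤) inferInstance top_ne_bot
    have hnorm : ∀ N : Subgroup ↥K, N.Normal → K ≤ Subgroup.normalizer ((N.map K.subtype : Subgroup G) : Set G) :=
      fun N hN => CfsgLib.Hyperplane.le_normalizer_of_conj_mem fun k hk y hy => by
        obtain ⟨z, hz, rfl⟩ := hy
        exact ⟨⟨k, hk⟩ * z * ⟨k, hk⟩⁻¹, hN.conj_mem z hz _, rfl⟩
    have h := M.simple hne hmin (L₀.map K.subtype) (Subgroup.map_subtype_le _) (hnorm L₀ hL₀n)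
      (fun h => hL₀ne ((Subgroup.map_eq_bot_iff_of_injective _ K.subtype_injective).mp h)) fun N hN hKN => by
        have hNK : N ≤ K := hN.trans (Subgroup.map_subtype_le _)
        rcases hL₀min (N.subgroupOf K) ((Subgroup.normal_subgroupOf_iff_le_normalizer hNK).mpr hKN)
          (fun y hy => by
            obtain ⟨z, hz, e⟩ := hN hy
            rwa [← K.subtype_injective e]) with h | h
        · exact Or.inl (by rw [← Subgroup.map_subgroupOf_eq_of_le hNK, h, Subgroup.map_bot])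
        · exact Or.inr (by rw [← Subgroup.map_subgroupOf_eq_of_le hNK, h])
    have hL₀top : L₀ = ⊤ := Subgroup.map_injective K.subtype_injective
      (h.trans (by rw [← MonoidHom.range_eq_map, Subgroup.range_subtype]))
    exact ⟨fun N hN => (hL₀min N hN (hL₀top ▸ le_top)).imp id fun h => h.trans hL₀top⟩
  have hcK : Subgroup.centralizer (K : Set G) = ⊥ := by
    refine le_bot_iff.mp ((CfsgLib.LocalCharP.le_pCore_of_isSubnormal (p := 2)
      (Subgroup.normal_centralizer).isSubnormal ?_).trans M.pCore_eq_bot.le)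
    intro c
    refine ⟨1, Subtype.ext ?_⟩
    rw [pow_one, SubmonoidClass.coe_pow, OneMemClass.coe_one]
    obtain ⟨v, hv, k, hk, hvk⟩ := Subgroup.mem_sup_of_normal_right.mp
      ((M.sup_eq_top hne).symm ▸ Subgroup.mem_top (c : G) : (c : G) ∈ V ⊔ K)
    have hsq : (c : G) ^ 2 ∈ K := by
      rw [← hvk, pow_two, show v * k * (v * k) = (v * k * v⁻¹) * (v * v) * k by group,
        ← pow_two, (CfsgLib.LocalP.isElementaryAbelian_iff.mp hV).2 v hv, mul_one]
      exact mul_mem (hK.conj_mem k hk v) hk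
    have hz : (⟨_, hsq⟩ : ↥K) ∈ Subgroup.center ↥K := Subgroup.mem_center_iff.mpr fun y =>
      Subtype.ext (Subgroup.mem_centralizer_iff.mp (pow_mem c.2 2) y y.2)
    rcases hsimple.eq_bot_or_eq_top_of_normal (Subgroup.center ↥K) inferInstance with h | h
    · rw [h, Subgroup.mem_bot] at hz
      exact congrArg Subtype.val hz
    · exact absurd ⟨⟨fun a b => Subgroup.mem_center_iff.mp (h ▸ Subgroup.mem_top b) a⟩⟩ hnc
  have hF : Cfsg.generalizedFittingSubgroup G = K := by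
    have hKq : Cfsg.IsQuasisimple ↥K := by
      haveI := hsimple
      have hcen : Subgroup.center ↥K = ⊥ := (hsimple.eq_bot_or_eq_top_of_normal _ inferInstance).resolve_right
        fun h => hnc ⟨⟨fun a b => Subgroup.mem_center_iff.mp (h ▸ Subgroup.mem_top b) a⟩⟩
      refine ⟨⟨?_⟩, ?_⟩
      · refine (hsimple.eq_bot_or_eq_top_of_normal _ inferInstance).resolve_left fun h => hnc ⟨⟨fun a b => ?_⟩⟩
        exact commutatorElement_eq_one_iff_mul_comm.mp (Subgroup.mem_bot.mp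
          (h ▸ Subgroup.commutator_mem_commutator (Subgroup.mem_top a) (Subgroup.mem_top b)))
      · exact (MulEquiv.isSimpleGroup_congr
          ((QuotientGroup.quotientMulEquivOfEq hcen).trans QuotientGroup.quotientBot)).mpr hsimple
    have hcomp : Cfsg.IsComponent K := ⟨hK.isSubnormal, hKq⟩
    refine le_antisymm (sup_le (sSup_le fun L hL => ?_) ?_) (le_sup_of_le_left (le_sSup hcomp))
    · by_cases h : L = K
      · exact h.le
      · exact (Subgroup.commutator_eq_bot_iff_le_centralizer.mp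
          (CfsgLib.Cores.commutator_eq_bot_of_ne hL hcomp h)).trans (hcK.le.trans bot_le)
    · refine le_of_le_of_eq ?_ (rfl : K = K)
      haveI := CfsgLib.Fitting.fittingSubgroup_isNilpotent G
      have h := CfsgLib.FStar.component_commute_nilpotent hcomp (CfsgLib.Fitting.fittingSubgroup_normal G)
      rw [Subgroup.commutator_comm] at h
      exact (Subgroup.commutator_eq_bot_iff_le_centralizer.mp h).trans (hcK.le.trans bot_le)
  rw [hF]
  exact ⟨hsimple, hnc, M.sup_eq_top hne⟩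

end Cfsg.Agent.S3048
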