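import Cfsg.Statements.S3049
import Cfsg.Agent.LocalP.Isolated
import Cfsg.Agent.Transfer.SmallElements
import Cfsg.Agent.Coprime.FixOrderP
import Cfsg.Agent.CharP.SylowInNormal
import Cfsg.Agent.Cores.PCores
import Cfsg.Agent.Cores.Layer
import Cfsg.Agent.FStar.SelfCentralizing
import Cfsg.Agent.LocalCharP.NoComponent
import Cfsg.Agent.Eq.Def_IsolatedElements
import Cfsg.Agent.Eq.Def_CaseTheorems

/-!
An isolated element of order p in a group of p-rank at most two with trivial p'-core:
the generalised Fitting subgroup is a nonabelian simple group.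
-/

set_option autoImplicit false
open Cfsg

namespace Cfsg.Agent.S3049

open scoped commutatorElement Pointwise

variable {G : Type*} [Group G] [Finite G] {p : ℕ} [Fact p.Prime]

/-- In p-rank two, an element of order p commuting with two independent ones lies in their span. -/
theorem span_two (hrank : Cfsg.PRankLE p 2 G) {x z k : G} (hx : orderOf x = p)
    (hz : orderOf z = p) (hk : k ^ p = 1) (hxz : Commute x z) (hxk : Commute x k)
    (hzk : Commute z k) (hxzne : x ∉ Subgroup.zpowers z) :
    k ∈ (Subgroup.zpowers x : Subgroup G) ⊔ Subgroup.zpowers z := by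
  have hcomm : ∀ a ∈ ({x, z, k} : Set G), ∀ b ∈ ({x, z, k} : Set G), a * b = b * a := by
    rintro a (rfl | rfl | rfl) b (rfl | rfl | rfl) <;>
      first
        | rfl
        | exact hxz.eq
        | exact hxz.eq.symm
        | exact hxk.eq
        | exact hxk.eq.symm
        | exact hzk.eq
        | exact hzk.eq.symm
  set A : Subgroup G := Subgroup.closure {x, z, k} with hA
  haveI hAc : IsMulCommutative ↥A := Subgroup.isMulCommutative_closure hcomm
  have hcm : ∀ a ∈ A, ∀ b ∈ A, Commute a b := fun a ha b hb => by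
    have := hAc.is_comm.comm (⟨a, ha⟩ : ↥A) ⟨b, hb⟩
    exact congrArg Subtype.val this
  have hexp : ∀ a ∈ A, a ^ p = 1 := by
    intro a ha
    induction ha using Subgroup.closure_induction with
    | mem y hy =>
      rcases hy with rfl | rfl | rfl
      · rw [← hx]; exact pow_orderOf_eq_one _
      · rw [← hz]; exact pow_orderOf_eq_one _
      · exact hk
    | one => exact one_pow p
    | mul a b ha hb iha ihb => rw [(hcm a ha b hb).mul_pow, iha, ihb, one_mul]
    | inv a _ iha => rw [inv_pow, iha, inv_one]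
  have hcard := hrank A hAc hexp
  set B : Subgroup G := Subgroup.zpowers x ⊔ Subgroup.zpowers z with hB
  have hBA : B ≤ A := sup_le (Subgroup.zpowers_le.mpr (Subgroup.subset_closure (by simp)))
    (Subgroup.zpowers_le.mpr (Subgroup.subset_closure (by simp)))
  have hBp : IsPGroup p ↥B := fun b => ⟨1, by
    apply Subtype.ext
    simpa using hexp b (hBA b.2)⟩
  obtain ⟨n, hn⟩ := hBp.exists_card_eq
  have hlt : p < Nat.card ↥B := by
    have h1 : Nat.card ↥(Subgroup.zpowers z) = p := by rw [Nat.card_zpowers, hz]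
    refine lt_of_le_of_ne (h1 ▸ Subgroup.card_le_of_le (le_sup_right : Subgroup.zpowers z ≤ B))
      fun he => hxzne ?_
    have := Subgroup.eq_of_le_of_card_ge (le_sup_right : Subgroup.zpowers z ≤ B)
      (le_of_eq (by rw [h1, ← he]))
    rw [this]
    exact Subgroup.mem_sup_left (Subgroup.mem_zpowers x)
  have hp1 := (Fact.out : p.Prime).one_lt
  have hn2 : 2 ≤ n := by
    by_contra hcon
    have : p ^ n ≤ p ^ 1 := Nat.pow_le_pow_right (by omega) (by omega)
    rw [pow_one, ← hn] at this
    omega
  have hle : Nat.card ↥A ≤ Nat.card ↥B := hcard.trans (hn ▸ Nat.pow_le_pow_right (by omega) hn2)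
  rw [Subgroup.eq_of_le_of_card_ge hBA hle]
  exact Subgroup.subset_closure (by simp)

/-- The key step: no component is centralised by an element of order p independent of `x`. -/
theorem key_component (hp : p ≠ 2) (hcore : Cfsg.pPrimeCore p G = ⊥) (hrank : Cfsg.PRankLE p 2 G)
    {x : G} (hx : orderOf x = p) (hiso : Cfsg.IsIsolated x) (P : Sylow p G)
    (hxP : x ∈ (P : Subgroup G)) {K : Subgroup G} (hK : Cfsg.IsComponent K) {z : G}
    (hzP : z ∈ (P : Subgroup G)) (hz : orderOf z = p) (hzK : ∀ k ∈ K, Commute z k)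
    (hxz : x ∉ Subgroup.zpowers z) : False := by
  have hxcomm : ∀ u ∈ (P : Subgroup G), Commute x u :=
    fun u hu => CfsgLib.LocalP.isolated_commute_of_mem hiso P.isPGroup' hxP u hu
  -- the Sylow subgroup of K
  have hmax := CfsgLib.CharP.inf_subnormal_maximal P hK.1
  have hS : IsPGroup p ↥(((P : Subgroup G) ⊓ K).subgroupOf K) :=
    (P.isPGroup'.to_le inf_le_left).of_equiv (Subgroup.subgroupOfEquivOfLe inf_le_right).symm
  obtain ⟨S, hSle⟩ := hS.exists_le_sylow
  have hSeq : (S : Subgroup ↥K).map K.subtype = (P : Subgroup G) ⊓ K := by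
    refine hmax _ (Subgroup.map_subtype_le _) (S.isPGroup'.map _) ?_
    intro u hu
    exact ⟨⟨u, hu.2⟩, hSle (show (⟨u, hu.2⟩ : ↥K) ∈ ((P : Subgroup G) ⊓ K).subgroupOf K from hu),
      rfl⟩
  have hSP : ∀ u : ↥K, u ∈ (S : Subgroup ↥K) → (u : G) ∈ (P : Subgroup G) := fun u hu =>
    (hSeq ▸ Subgroup.mem_map_of_mem K.subtype hu : (u : G) ∈ (P : Subgroup G) ⊓ K).1
  have hnpc : Cfsg.HasNormalPComplement p ↥K := by
    refine CfsgLib.Transfer.hasNormalPComplement_of_forall_le_sylow S fun Q hQS g hg hgc => ?_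
    refine Subgroup.mem_centralizer_iff.mpr fun v hv =>
      (CfsgLib.Coprime.fixes_of_fixes_order_p hp g hgc Q (S.isPGroup'.to_le hQS) hg ?_ v hv).symm
    intro v hv hvp
    have hvG : (v : G) ^ p = 1 := by simpa using congrArg Subtype.val hvp
    have hvP : (v : G) ∈ (P : Subgroup G) := hSP v (hQS hv)
    have hmem := span_two hrank hx hz hvG (hxcomm z hzP) (hxcomm _ hvP) (hzK _ v.2) hxz
    have hnorm : Subgroup.zpowers x ≤ Subgroup.normalizer (Subgroup.zpowers z : Set G) := by
      refine (Subgroup.zpowers_le.mpr ?_).trans (Subgroup.centralizer_le_normalizer _)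
      rw [Subgroup.mem_centralizer_iff]
      intro w hw
      obtain ⟨i, rfl⟩ := Subgroup.mem_zpowers_iff.mp hw
      exact ((hxcomm z hzP).zpow_right i).eq.symm
    rw [← SetLike.mem_coe, Subgroup.coe_mul_of_left_le_normalizer_right _ _ hnorm,
      Set.mem_mul] at hmem
    obtain ⟨x', hx', z', hz', hxz'⟩ := hmem
    have hgz : Commute (g : G) z' := by
      obtain ⟨i, rfl⟩ := Subgroup.mem_zpowers_iff.mp hz'
      exact ((hzK _ g.2).zpow_left i).symm
    suffices hgx : Commute (g : G) x' by
      apply Subtype.ext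
      simpa [← hxz'] using (hgx.mul_right hgz).eq
    by_cases hx'1 : x' = 1
    · rw [hx'1]; exact Commute.one_right _
    obtain ⟨a, ha⟩ := Subgroup.mem_zpowers_iff.mp hx'
    -- the conjugate of x' lies in P
    have hconjv : (g : G) * v * (g : G)⁻¹ ∈ (P : Subgroup G) := by
      have := hSP _ (hQS ((Subgroup.mem_normalizer_iff.mp hg v).mp hv))
      simpa using this
    have hz'P : z' ∈ (P : Subgroup G) := Subgroup.zpowers_le.mpr hzP hz'
    have hconj : (g : G) * x' * (g : G)⁻¹ ∈ (P : Subgroup G) := by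
      have e : (g : G) * x' * (g : G)⁻¹ = ((g : G) * v * (g : G)⁻¹) * z'⁻¹ := by
        rw [← hxz']
        calc (g : G) * x' * (g : G)⁻¹ = (g : G) * x' * (z' * (g : G)⁻¹) * z'⁻¹ := by
              rw [← (hgz.inv_left).eq]; group
          _ = _ := by group
      rw [e]
      exact mul_mem hconjv (inv_mem hz'P)
    -- x is a power of x'
    have hprim : Nat.card ↥(Subgroup.zpowers x) = p := by rw [Nat.card_zpowers, hx]
    have hgen : x ∈ Subgroup.zpowers x' := by
      have hle : Subgroup.zpowers x' ≤ Subgroup.zpowers x := Subgroup.zpowers_le.mpr hx'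
      have hdvd := Subgroup.card_dvd_of_le hle
      rw [hprim, Nat.dvd_prime Fact.out] at hdvd
      rcases hdvd with h | h
      · exfalso
        rw [Nat.card_zpowers, orderOf_eq_one_iff] at h
        exact hx'1 h
      · have := Subgroup.eq_of_le_of_card_ge hle (by rw [h, hprim])
        rw [this]
        exact Subgroup.mem_zpowers x
    obtain ⟨i, hi⟩ := Subgroup.mem_zpowers_iff.mp hgen
    have hgx : (g : G) * x * (g : G)⁻¹ ∈ (P : Subgroup G) := by
      rw [← hi, ← conj_zpow]
      exact zpow_mem hconj i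
    have hfix := CfsgLib.LocalP.isolated_eq_of_mem hiso P.isPGroup' hxP hgx
    have hc : Commute (g : G) x := by
      calc (g : G) * x = (g : G) * x * (g : G)⁻¹ * g := by group
        _ = x * g := by rw [hfix]
    rw [← ha]
    exact hc.zpow_right a
  -- a quasisimple group of order divisible by p has no normal p-complement
  have hdvd : p ∣ Nat.card ↥K := CfsgLib.Cores.dvd_card_of_isComponent hcore hK
  obtain ⟨T, N, hN, hNT⟩ := hnpc
  rcases CfsgLib.Cores.normal_eq_top_or_le_center hK.2 N hN with h | h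
  · have hTbot : (T : Subgroup ↥K) = ⊥ := by
      have hd := hNT.disjoint
      rw [h] at hd
      exact top_disjoint.mp hd
    obtain ⟨u, hu⟩ := exists_prime_orderOf_dvd_card' p hdvd
    have hup : IsPGroup p ↥(Subgroup.zpowers u) :=
      IsPGroup.of_card (n := 1) (by rw [Nat.card_zpowers, hu, pow_one])
    obtain ⟨T', hT'⟩ := hup.exists_le_sylow
    obtain ⟨c, hc⟩ := MulAction.exists_smul_eq ↥K T T'
    have : u ∈ ((c • T : Sylow p ↥K) : Subgroup ↥K) := hc ▸ hT' (Subgroup.mem_zpowers u)
    rw [Sylow.coe_subgroup_smul, hTbot, Subgroup.smul_bot, Subgroup.mem_bot] at this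
    rw [this, orderOf_one] at hu
    exact (Fact.out : p.Prime).one_lt.ne hu
  · haveI := hK.2.1
    set f := (QuotientGroup.mk' (Subgroup.center ↥K)).comp (T : Subgroup ↥K).subtype with hf
    have hsurj : Function.Surjective f := by
      intro q
      obtain ⟨k, rfl⟩ := QuotientGroup.mk_surjective q
      have hk : k ∈ N ⊔ (T : Subgroup ↥K) := hNT.sup_eq_top ▸ Subgroup.mem_top k
      obtain ⟨n, hn, t, ht, rfl⟩ := Subgroup.mem_sup_of_normal_left.mp hk
      refine ⟨⟨t, ht⟩, ?_⟩
      simp [hf, (QuotientGroup.eq_one_iff n).mpr (h hn)]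
    have hqp : IsPGroup p (↥K ⧸ Subgroup.center ↥K) := T.isPGroup'.of_surjective f hsurj
    haveI := hqp.isNilpotent
    haveI := hK.2.2
    exact Group.IsPerfect.not_isNilpotent (↥K ⧸ Subgroup.center ↥K) inferInstance

/-- Let G be a finite group and p an odd prime with O_{p'}(G) = 1. Suppose that G has p-rank at most 2 (no elementary abelian subgroup of order p³) and that some element x of order p is isolated in G (no G-conjugate of x other than x commutes with x) and not central. Then the generalized Fitting subgroup F*(G) is a non-abelian simple group. Since O_{p'}(G) = 1, such an x is not central modulo O_{p'}(G): the hypotheses describe a counterexample to the Z*_p statement in p-rank at most 2. -/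
theorem result {G : Type*} [Group G] [Finite G] {p : ℕ} [Fact p.Prime] (hp : p ≠ 2) (hcore : Cfsg.pPrimeCore p G = ⊥)
    (hrank : Cfsg.PRankLE p 2 G) (x : G) (hx : orderOf x = p) (hiso : Cfsg.IsIsolated x) (hnc : x ∉ Subgroup.center G) :
    IsSimpleGroup ↥(Cfsg.generalizedFittingSubgroup G) ∧ ¬ IsMulCommutative ↥(Cfsg.generalizedFittingSubgroup G) := by
  haveI := Cfsg.pCore_normal p G
  have hxp : IsPGroup p ↥(Subgroup.zpowers x) :=
    IsPGroup.of_card (n := 1) (by rw [Nat.card_zpowers, hx, pow_one])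
  obtain ⟨P, hP⟩ := hxp.exists_le_sylow
  have hxP : x ∈ (P : Subgroup G) := hP (Subgroup.mem_zpowers x)
  have hQ : IsPGroup p ↥(Cfsg.pCore p G) := CfsgLib.CharP.isPGroup_pCore
  have hQP : Cfsg.pCore p G ≤ (P : Subgroup G) := hQ.le_sylow_of_normal P
  have hxQ : x ∉ Cfsg.pCore p G := by
    intro hmem
    refine hnc (Subgroup.mem_center_iff.mpr fun g => ?_)
    have hfix := CfsgLib.LocalP.isolated_eq_of_mem hiso P.isPGroup' hxP
      (hQP ((inferInstance : (Cfsg.pCore p G).Normal).conj_mem x hmem g))
    calc g * x = g * x * g⁻¹ * g := by group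
      _ = x * g := by rw [hfix]
  obtain ⟨K, hK⟩ : ∃ K : Subgroup G, Cfsg.IsComponent K := by
    by_contra hno
    refine hxQ (CfsgLib.NoComponent.centralizer_pCore_le (fun K hK => hno ⟨K, hK⟩) hcore ?_)
    exact Subgroup.mem_centralizer_iff.mpr fun u hu =>
      (CfsgLib.LocalP.isolated_commute_of_mem hiso P.isPGroup' hxP u (hQP hu)).symm
  have hQbot : Cfsg.pCore p G = ⊥ := by
    by_contra hne
    haveI : Nontrivial ↥(Cfsg.pCore p G) := (Subgroup.nontrivial_iff_ne_bot _).mpr hne
    obtain ⟨n, hn0, hn⟩ := hQ.nontrivial_iff_card.mp inferInstance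
    obtain ⟨z, hz⟩ := exists_prime_orderOf_dvd_card' (G := ↥(Cfsg.pCore p G)) p
      (hn ▸ dvd_pow_self p (by omega))
    refine key_component hp hcore hrank hx hiso P hxP hK (hQP z.2)
      (by rw [Subgroup.orderOf_coe, hz]) (fun k hk => ?_)
      (fun hmem => hxQ (Subgroup.zpowers_le.mpr z.2 hmem))
    exact (CfsgLib.Cores.commute_of_commutator_eq_bot
      (CfsgLib.Cores.commutator_component_pCore hK) hk z.2).symm
  have hfit : Cfsg.fittingSubgroup G = ⊥ := by
    haveI := CfsgLib.Fitting.fittingSubgroup_isNilpotent G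
    haveI := CfsgLib.Fitting.fittingSubgroup_normal G
    rw [eq_bot_iff, ← hQbot]
    exact CfsgLib.CharP.le_pCore inferInstance
      (CfsgLib.SolvableCore.isPGroup_of_nilpotent_normal hcore _)
  have hcenter : ∀ L : Subgroup G, Cfsg.IsComponent L → Subgroup.center ↥L = ⊥ := by
    intro L hL
    have hsn : ((Subgroup.center ↥L).map L.subtype).IsSubnormal := by
      refine Subgroup.IsSubnormal.trans (Subgroup.map_subtype_le _) ?_ hL.1
      rw [Subgroup.subgroupOf, Subgroup.comap_map_eq_self_of_injective L.subtype_injective]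
      exact Subgroup.Normal.isSubnormal inferInstance
    haveI : Group.IsNilpotent ↥(Subgroup.center ↥L) :=
      Subgroup.isNilpotent_of_lowerCentralSeries_eq_bot (n := 1) (by
        rw [Subgroup.lowerCentralSeries_succ, Subgroup.lowerCentralSeries_zero,
          Subgroup.commutator_eq_bot_iff_le_centralizer]
        exact fun a ha b _ => (Subgroup.mem_center_iff.mp ha b))
    haveI : Group.IsNilpotent ↥((Subgroup.center ↥L).map L.subtype) :=
      Group.nilpotent_of_mulEquiv
        ((Subgroup.center ↥L).equivMapOfInjective _ L.subtype_injective)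
    have hle := CfsgLib.FStar.le_fittingSubgroup_of_isSubnormal hsn
    rw [hfit] at hle
    rw [eq_bot_iff]
    intro c hc
    have := hle (Subgroup.mem_map_of_mem L.subtype hc)
    exact Subgroup.mem_bot.mpr (Subtype.ext (Subgroup.mem_bot.mp this))
  have hinf : ∀ L : Subgroup G, Cfsg.IsComponent L →
      ∃ k ∈ (P : Subgroup G) ⊓ L, orderOf k = p := by
    intro L hL
    have hmax := CfsgLib.CharP.inf_subnormal_maximal P hL.1
    obtain ⟨u, hu⟩ := exists_prime_orderOf_dvd_card' (G := ↥L) p
      (CfsgLib.Cores.dvd_card_of_isComponent hcore hL)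
    have hne : (P : Subgroup G) ⊓ L ≠ ⊥ := by
      intro hbot
      have hu1 : (u : G) ∈ (P : Subgroup G) ⊓ L := by
        rw [← hmax (Subgroup.zpowers (u : G)) (Subgroup.zpowers_le.mpr u.2)
          (IsPGroup.of_card (n := 1) (by rw [Nat.card_zpowers, Subgroup.orderOf_coe, hu, pow_one]))
          (hbot ▸ bot_le)]
        exact Subgroup.mem_zpowers _
      rw [hbot, Subgroup.mem_bot] at hu1
      rw [← Subgroup.orderOf_coe, hu1, orderOf_one] at hu
      exact (Fact.out : p.Prime).one_lt.ne hu
    haveI : Nontrivial ↥((P : Subgroup G) ⊓ L) := (Subgroup.nontrivial_iff_ne_bot _).mpr hne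
    have hpg : IsPGroup p ↥((P : Subgroup G) ⊓ L) := P.isPGroup'.to_le inf_le_left
    obtain ⟨n, hn0, hn⟩ := hpg.nontrivial_iff_card.mp inferInstance
    obtain ⟨k, hk⟩ := exists_prime_orderOf_dvd_card' (G := ↥((P : Subgroup G) ⊓ L)) p
      (hn ▸ dvd_pow_self p (by omega))
    exact ⟨k, k.2, by rw [Subgroup.orderOf_coe, hk]⟩
  have huniq : ∀ L : Subgroup G, Cfsg.IsComponent L → L = K := by
    intro L hL
    by_contra hne
    have hcomm := CfsgLib.Cores.commutator_eq_bot_of_ne hL hK hne
    have hcm : ∀ a ∈ L, ∀ b ∈ K, Commute a b := fun a ha b hb =>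
      CfsgLib.Cores.commute_of_commutator_eq_bot hcomm ha hb
    obtain ⟨k1, hk1, ho1⟩ := hinf L hL
    obtain ⟨k2, hk2, ho2⟩ := hinf K hK
    by_cases h2 : x ∈ Subgroup.zpowers k2
    · refine key_component hp hcore hrank hx hiso P hxP hK hk1.1 ho1
        (fun k hk => hcm k1 hk1.2 k hk) fun h1 => ?_
      have hx1 : x ∈ L := Subgroup.zpowers_le.mpr hk1.2 h1
      have hx2 : x ∈ K := Subgroup.zpowers_le.mpr hk2.2 h2
      have hmem : (⟨x, hx2⟩ : ↥K) ∈ Subgroup.center ↥K :=
        Subgroup.mem_center_iff.mpr fun b => Subtype.ext (hcm x hx1 b b.2).eq.symm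
      rw [hcenter K hK, Subgroup.mem_bot] at hmem
      have hxone : x = 1 := congrArg Subtype.val hmem
      rw [hxone, orderOf_one] at hx
      exact (Fact.out : p.Prime).one_lt.ne hx
    · exact key_component hp hcore hrank hx hiso P hxP hL hk2.1 ho2
        (fun k hk => (hcm k hk k2 hk2.2).symm) h2
  have hF : Cfsg.generalizedFittingSubgroup G = K := by
    unfold Cfsg.generalizedFittingSubgroup
    rw [hfit, sup_bot_eq]
    exact le_antisymm (CfsgLib.Cores.layer_le fun L hL => (huniq L hL).le)
      (CfsgLib.Cores.le_layer hK)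
  rw [hF]
  refine ⟨?_, fun hc => CfsgLib.Cores.center_ne_top_of_isQuasisimple hK.2 ?_⟩
  · haveI := hK.2.2
    haveI : Nontrivial ↥K := CfsgLib.Cores.nontrivial_of_isQuasisimple hK.2
    exact IsSimpleGroup.isSimpleGroup_of_surjective
      ((QuotientGroup.quotientMulEquivOfEq (hcenter K hK)).trans QuotientGroup.quotientBot).toMonoidHom
      (MulEquiv.surjective _)
  · rw [eq_top_iff]
    exact fun a _ => Subgroup.mem_center_iff.mpr fun b => hc.is_comm.comm b a

end Cfsg.Agent.S3049
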