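import Cfsg.Statements.S3050
import Cfsg.Agent.SL2OrderThree.Main
import Mathlib.Algebra.CharP.CharAndCard

set_option autoImplicit false
open Cfsg

namespace Cfsg.Agent.S3050

/-- Let G be a finite group with a normal 2-subgroup Q such that G/Q is isomorphic to SL(2, 2ⁿ) with n ≥ 2, and suppose some element of G of order 3 fixes no nonidentity element of Q under conjugation. Then Q is elementary abelian and is the direct product of normal subgroups of G on each of which G acts as SL(2, 2ⁿ) acts on its natural two-dimensional module (a Galois twist of the natural action allowed). -/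
theorem result {G : Type*} [Group G] [Finite G]
    (Q : Subgroup G) [Q.Normal] (hQ : IsPGroup 2 ↥Q) (n : ℕ) (hn : 2 ≤ n)
    (K : Type*) [Field K] [Fintype K] (hK : Fintype.card K = 2 ^ n)
    (e : G ⧸ Q ≃* Matrix.SpecialLinearGroup (Fin 2) K)
    (x : G) (hx : orderOf x = 3) (hfpf : ∀ q ∈ Q, x * q * x⁻¹ = q → q = 1) :
    Cfsg.IsElementaryAbelian 2 Q ∧
      ∃ (k : ℕ) (V : Fin k → Subgroup G), (∀ i, V i ≤ Q ∧ (V i).Normal ∧
        Cfsg.ActsAsSL2OnSection K ⊤ ⊤ (V i) ⊥) ∧ iSupIndep V ∧ ⨆ i, V i = Q := by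
  classical
  haveI : CharP K 2 := by
    haveI : Fact (Nat.Prime 2) := ⟨Nat.prime_two⟩
    exact charP_of_card_eq_prime_pow (by rw [Fintype.card_eq_nat_card] at hK ⊢; exact hK)
  haveI : IsDomain K := inferInstance
  have hq : ∃ t : K, t ≠ 0 ∧ t ≠ 1 := by
    have h4 : 2 < (Finset.univ : Finset K).card := by
      rw [Finset.card_univ, hK]
      exact lt_of_lt_of_le (by norm_num) (Nat.pow_le_pow_right (by norm_num) hn)
    by_contra hc
    push_neg at hc
    have : (Finset.univ : Finset K) ⊆ {0, 1} := fun t _ => by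
      simp only [Finset.mem_insert, Finset.mem_singleton]
      exact or_iff_not_imp_left.mpr (hc t)
    have h2 := (Finset.card_le_card this).trans Finset.card_le_two
    omega
  set π : G →* Matrix.SpecialLinearGroup (Fin 2) K :=
    e.toMonoidHom.comp (QuotientGroup.mk' Q) with hπdef
  have hπ : Function.Surjective π := e.surjective.comp (QuotientGroup.mk'_surjective Q)
  have hπk : ∀ g, π g = 1 ↔ g ∈ Q := fun g => by
    show e (g : G ⧸ Q) = 1 ↔ _
    rw [EmbeddingLike.map_eq_one_iff, QuotientGroup.eq_one_iff]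
  have hxQ : π x ≠ 1 := fun h => by
    have h1 := hfpf x ((hπk x).mp h) (mul_inv_cancel_right x x)
    rw [h1, orderOf_one] at hx
    omega
  have hx3 : π x ^ 3 = 1 := by rw [← map_pow, ← hx, pow_orderOf_eq_one, map_one]
  have htr := CfsgLib.SL2Three.trace_eq_one_of_pow_three hx3 hxQ
  let φ : G →* MulAut Q := MulAut.conjNormal
  have hφ : ∀ g (q : Q), ((φ g q : Q) : G) = g * q * g⁻¹ := fun g q => MulAut.conjNormal_apply g q
  have hker : ∀ g, π g = 1 → ∃ y₀, ∀ y, φ g y = y₀ * y * y₀⁻¹ := fun g hg =>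
    ⟨⟨g, (hπk g).mp hg⟩, fun y => Subtype.ext (hφ g y)⟩
  have hfix : ∀ y, φ x y = y → y = 1 := fun y hy =>
    Subtype.ext (hfpf y y.2 ((hφ x y).symm.trans (congrArg Subtype.val hy)))
  have hsq : ∀ y : Q, y * y = 1 :=
    CfsgLib.SL2Three.mul_self_eq_one_aux π hq hπ htr _ le_rfl hQ φ hker hfix
  have hcomm : ∀ a b : Q, a * b = b * a := fun a b => by
    have e' : ∀ c : Q, c⁻¹ = c := fun c => inv_eq_of_mul_eq_one_right (hsq c)
    rw [← e' (a * b), mul_inv_rev, e', e']
  letI : CommGroup Q := { (inferInstance : Group Q) with mul_comm := hcomm }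
  obtain ⟨k, Φ, hΦ⟩ := CfsgLib.SL2Three.exists_coords π hπ htr φ hsq
    (fun g hg y => by
      obtain ⟨y₀, hy₀⟩ := hker g hg
      rw [hy₀, hcomm y₀, mul_inv_cancel_right]) hfix
  let W : Fin k → Subgroup Q := fun i =>
    { carrier := {q | ∀ j, j ≠ i → Φ (Additive.ofMul q) j = 0}
      one_mem' := fun j _ => congrFun (map_zero Φ) j
      mul_mem' := fun {a b} ha hb j hj => by
        show Φ (Additive.ofMul a + Additive.ofMul b) j = 0
        rw [map_add, Pi.add_apply, ha j hj, hb j hj, add_zero]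
      inv_mem' := fun {a} ha j hj => by
        show Φ (-Additive.ofMul a) j = 0
        rw [map_neg, Pi.neg_apply, ha j hj, neg_zero] }
  have hW : ∀ i (q : Q), q ∈ W i ↔ ∀ j, j ≠ i → Φ (Additive.ofMul q) j = 0 := fun i q => Iff.rfl
  let V : Fin k → Subgroup G := fun i => (W i).map Q.subtype
  have hVle : ∀ i, V i ≤ Q := fun i => Subgroup.map_subtype_le _
  have hVmem : ∀ i (g : G) (h : g ∈ V i), (⟨g, hVle i h⟩ : Q) ∈ W i := by
    intro i g h
    obtain ⟨w, hw, hwg⟩ := Subgroup.mem_map.mp h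
    rwa [show (⟨g, hVle i h⟩ : Q) = w from Subtype.ext hwg.symm]
  have hVn : ∀ i, ∀ g : G, ∀ v ∈ V i, g * v * g⁻¹ ∈ V i := by
    intro i g v hv
    refine Subgroup.mem_map.mpr ⟨φ g ⟨v, hVle i hv⟩, ?_, hφ g _⟩
    rw [hW]
    intro j hj
    rw [hΦ, (hW i _).mp (hVmem i v hv) j hj, Matrix.mulVec_zero]
  refine ⟨⟨⟨⟨hcomm⟩⟩, fun a ha => ?_⟩, k, V, fun i => ⟨hVle i, ⟨fun v hv g => hVn i g v hv⟩, ?_⟩,
    ?_, ?_⟩
  · rw [pow_two]; exact congrArg Subtype.val (hsq ⟨a, ha⟩)
  · -- the natural module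
    refine ⟨fun g _ => Subgroup.mem_normalizer_iff.mpr fun h => ⟨hVn i g h, fun h' => ?_⟩,
      bot_le, ?_⟩
    · have := hVn i g⁻¹ _ h'
      rwa [show g⁻¹ * (g * h * g⁻¹) * g⁻¹⁻¹ = h by group] at this
    let ψ : V i →* Multiplicative (Fin 2 → K) :=
      { toFun := fun u => Multiplicative.ofAdd (Φ (Additive.ofMul ⟨(u : G), hVle i u.2⟩) i)
        map_one' := by
          rw [← ofAdd_zero]
          exact congrArg Multiplicative.ofAdd (congrFun (map_zero Φ) i)
        map_mul' := fun a b => by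
          rw [← ofAdd_add, ← Pi.add_apply, ← map_add]
          rfl }
    have hψ : ∀ u : V i, Multiplicative.toAdd (ψ u) =
        Φ (Additive.ofMul ⟨(u : G), hVle i u.2⟩) i := fun u => rfl
    refine ⟨π.comp (⊤ : Subgroup G).subtype, ψ, ?_, ?_, ?_, ?_⟩
    · refine eq_top_iff.mpr fun q _ => ?_
      obtain ⟨g, hg⟩ := hπ q
      exact ⟨⟨g, trivial⟩, hg⟩
    · intro v
      have hw : (Φ.symm (Pi.single i v.toAdd)).toMul ∈ W i := by
        rw [hW]
        intro j hj
        rw [ofMul_toMul, Φ.apply_symm_apply, Pi.single_eq_of_ne hj]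
      refine ⟨⟨_, Subgroup.mem_map_of_mem _ hw⟩, Multiplicative.toAdd.injective ?_⟩
      rw [hψ]
      show Φ (Φ.symm (Pi.single i v.toAdd)) i = _
      rw [Φ.apply_symm_apply, Pi.single_eq_same]
    · intro u
      rw [Subgroup.mem_bot]
      constructor
      · intro hu
        have h0 : Φ (Additive.ofMul (⟨(u : G), hVle i u.2⟩ : Q)) = 0 := by
          funext j
          by_cases hj : j = i
          · subst hj
            rw [← hψ, hu]; rfl
          · exact (hW i _).mp (hVmem i u u.2) j hj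
        rw [EmbeddingLike.map_eq_zero_iff] at h0
        exact congrArg Subtype.val (show (⟨(u : G), hVle i u.2⟩ : Q) = 1 from h0)
      · intro hu
        rw [show u = 1 from Subtype.ext hu, map_one]
    · intro g u
      refine ⟨⟨_, hVn i g u u.2⟩, rfl, ?_⟩
      rw [hψ, hψ]
      have := hΦ g ⟨(u : G), hVle i u.2⟩ i
      exact (congrArg (fun q : Q => Φ (Additive.ofMul q) i)
        (Subtype.ext (hφ g ⟨(u : G), hVle i u.2⟩).symm)).trans this
  · -- independence
    rw [iSupIndep_def]
    intro i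
    let U : Subgroup Q :=
      { carrier := {q | Φ (Additive.ofMul q) i = 0}
        one_mem' := congrFun (map_zero Φ) i
        mul_mem' := fun {a b} ha hb => by
          show Φ (Additive.ofMul a + Additive.ofMul b) i = 0
          rw [map_add, Pi.add_apply, ha, hb, add_zero]
        inv_mem' := fun {a} ha => by
          show Φ (-Additive.ofMul a) i = 0
          rw [map_neg, Pi.neg_apply, ha, neg_zero] }
    have hle : ⨆ (j) (_ : j ≠ i), V j ≤ U.map Q.subtype :=
      iSup₂_le fun j hj => Subgroup.map_mono fun q hq' => hq' i (Ne.symm hj)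
    rw [disjoint_iff, eq_bot_iff]
    rintro g ⟨h1, h2⟩
    obtain ⟨w, hw, hwg⟩ := Subgroup.mem_map.mp (hle h2)
    have h0 : Φ (Additive.ofMul w) = 0 := by
      funext j
      by_cases hj : j = i
      · subst hj; exact hw
      · have := (hW i _).mp (hVmem i g h1) j hj
        rwa [show (⟨g, hVle i h1⟩ : Q) = w from Subtype.ext hwg.symm] at this
    rw [EmbeddingLike.map_eq_zero_iff] at h0
    rw [Subgroup.mem_bot, ← hwg]
    exact congrArg Subtype.val (show w = 1 from h0)
  · refine le_antisymm (iSup_le hVle) fun g hg => ?_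
    have key : ∀ u : Fin k → Fin 2 → K, ((Φ.symm u).toMul : G) ∈ ⨆ i, V i := by
      intro u
      rw [← Finset.univ_sum_single u]
      refine Finset.sum_induction _ (fun u => ((Φ.symm u).toMul : G) ∈ ⨆ i, V i) ?_ ?_ ?_
      · intro a b ha hb
        rw [map_add]
        exact mul_mem ha hb
      · rw [map_zero]
        exact one_mem _
      · intro i _
        refine le_iSup V i (Subgroup.mem_map_of_mem _ ?_)
        rw [hW]
        intro j hj
        rw [ofMul_toMul, Φ.apply_symm_apply, Pi.single_eq_of_ne hj]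
    have := key (Φ (Additive.ofMul ⟨g, hg⟩))
    rwa [Φ.symm_apply_apply] at this

end Cfsg.Agent.S3050
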