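import Cfsg.Agent.ExtraspecialOdd.RadicalCount

set_option autoImplicit false
open Cfsg

namespace Cfsg.Agent.S3054

open CfsgLib.ExtraspecialOdd.Radical CfsgLib.ExtraspecialOdd
open scoped commutatorElement

/-- An induced automorphism lies in the image of the normalizer. -/
theorem mem_range_of_induced {G : Type*} [Group G] [Finite G] (B : Subgroup G) (φ : MulAut B) {g : G}
    (hg : ∀ a : B, (φ a : G) = g * (a : G) * g⁻¹) : φ ∈ B.normalizerMonoidHom.range := by
  refine ⟨⟨g, Subgroup.mem_normalizer_fintype fun n hn => ?_⟩, MulEquiv.ext fun x => Subtype.ext (hg x).symm⟩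
  show g * n * g⁻¹ ∈ B
  exact hg ⟨n, hn⟩ ▸ (φ ⟨n, hn⟩).2

theorem le_thirteen {G : Type*} [Group G] [Finite G] {p : ℕ} [Fact p.Prime] (P : Sylow p G)
    (hE : Cfsg.IsExtraspecial p ↥(P : Subgroup G))
    (hcard : Nat.card (P : Subgroup G) = p ^ 3) (hexp : Monoid.exponent ↥(P : Subgroup G) = p)
    (A : Fin 3 → Subgroup G) (hA : Function.Injective A) (hAP : ∀ i, A i ≤ (P : Subgroup G))
    (hAcard : ∀ i, Nat.card ↥(A i) = p ^ 2)
    (hSL : ∀ i, ∀ φ : MulAut ↥(A i), orderOf φ = p → ∃ g : G, ∀ a : ↥(A i), (φ a : G) = g * (a : G) * g⁻¹) :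
    p ≤ 13 := by
  classical
  have hp : p.Prime := Fact.out
  obtain ⟨C⟩ := nonempty_coord hE hcard fun x => by
    have h := Monoid.pow_exponent_eq_one x
    rwa [hexp] at h
  have hplane : ∀ i, ∃ a : (P : Subgroup G), C.cor a ≠ 0 ∧ A i = planeOf a := by
    intro i
    obtain ⟨a, haA, ha⟩ : ∃ a : (P : Subgroup G), (a : G) ∈ A i ∧ C.cor a ≠ 0 := by
      by_contra hcon
      push Not at hcon
      have hle : A i ≤ (Subgroup.zpowers C.z).map (P : Subgroup G).subtype := fun x hx =>
        ⟨⟨x, hAP i hx⟩, (C.cor_eq_zero _).1 (hcon ⟨x, hAP i hx⟩ hx), rfl⟩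
      have h1 := Subgroup.card_le_of_le hle
      rw [hAcard i, Subgroup.card_map_of_injective Subtype.val_injective, Nat.card_zpowers, C.ord] at h1
      nlinarith [hp.two_le]
    refine ⟨a, ha, Subgroup.eq_of_le_of_card_ge (fun x hx => ?_) ?_⟩
    · haveI := IsPGroup.isMulCommutative_of_card_eq_prime_sq (hAcard i)
      refine (mem_planeOf (x := ⟨x, hAP i hx⟩)).2 (Subtype.ext ?_)
      exact congrArg (fun w : A i => (w : G)) (mul_comm' (⟨x, hx⟩ : A i) ⟨a, haA⟩)
    · rw [(exists_plane_coord hE hcard C ha).2.1, hAcard i]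
  choose a ha hAa using hplane
  have htor : ∀ i, HasTorus C (a i) := by
    intro i
    refine hasTorus_of_hasSL P rfl C (ha i) (hasSL_of_transvections hE hcard C (ha i) fun c _ => ?_)
    have hsl : ∀ φ : MulAut ↥(planeOf (a i)), orderOf φ = p →
        ∃ g : G, ∀ x : ↥(planeOf (a i)), (φ x : G) = g * (x : G) * g⁻¹ := hAa i ▸ hSL i
    have hmem : ∀ s, orderOf s = p → CfsgLib.Fus.EssentialRankTwo.slAction c s ∈
        (planeOf (a i)).normalizerMonoidHom.range := fun s hs => by
      obtain ⟨g, hg⟩ := hsl (CfsgLib.Fus.EssentialRankTwo.slAction c s)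
        ((orderOf_injective _ (CfsgLib.Fus.EssentialRankTwo.slAction_injective c) s).trans hs)
      exact mem_range_of_induced _ _ hg
    refine ⟨hmem _ (orderOf_eq_prime ?_ ?_), 1, one_ne_zero, hmem _ (orderOf_eq_prime ?_ ?_)⟩
    · rw [CfsgLib.SL2.u, ← map_pow, ← ofAdd_nsmul, nsmul_eq_mul, mul_one, ZMod.natCast_self, ofAdd_zero,
        map_one]
    · intro h
      have := congrArg (fun s : Matrix.SpecialLinearGroup (Fin 2) (ZMod p) => s 0 1) h
      simp at this
    · rw [CfsgLib.SL2.l, ← map_pow, ← ofAdd_nsmul, nsmul_eq_mul, mul_one, ZMod.natCast_self, ofAdd_zero,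
        map_one]
    · intro h
      have := congrArg (fun s : Matrix.SpecialLinearGroup (Fin 2) (ZMod p) => s 1 0) h
      simp at this
  have hpar : ∀ i j, C.cor (a i) 0 * C.cor (a j) 1 - C.cor (a i) 1 * C.cor (a j) 0 = 0 → i = j := by
    intro i j h
    refine hA (Subgroup.eq_of_le_of_card_ge (fun x hx => ?_) (le_of_eq ((hAcard j).trans (hAcard i).symm)))
    haveI := IsPGroup.isMulCommutative_of_card_eq_prime_sq (hAcard i)
    have hj : ((a j : (P : Subgroup G)) : G) ∈ A i := by
      rw [hAa i]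
      exact mem_planeOf.2 (C.commute_iff.2 h).symm
    rw [hAa j]
    refine (mem_planeOf (x := ⟨x, hAP i hx⟩)).2 (Subtype.ext ?_)
    exact congrArg (fun w : A i => (w : G)) (mul_comm' (⟨x, hx⟩ : A i) ⟨_, hj⟩)
  have hinj : Function.Injective fun i => C.cor (a i) := fun i j h => hpar i j (by
    have h' : C.cor (a i) = C.cor (a j) := h
    rw [h', mul_comm, sub_self])
  have hfew := few_torus P rfl C (Finset.univ.image fun i => C.cor (a i))
    (fun v hv => by obtain ⟨i, -, rfl⟩ := Finset.mem_image.1 hv; exact ha i)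
    (fun v hv w hw h => by
      obtain ⟨i, -, rfl⟩ := Finset.mem_image.1 hv
      obtain ⟨j, -, rfl⟩ := Finset.mem_image.1 hw
      rw [hpar i j h])
    (fun v hv => by obtain ⟨i, -, rfl⟩ := Finset.mem_image.1 hv; exact ⟨a i, rfl, htor i⟩)
  rw [Finset.card_image_of_injective _ hinj, Finset.card_univ, Fintype.card_fin] at hfew
  by_contra h
  have := hfew.2 (by omega) (by omega)
  omega

/-- Let p be an odd prime and G a finite group with a Sylow p-subgroup P that is extraspecial of order p³ and exponent p. Suppose P contains three distinct subgroups A of order p² (each is elementary abelian of rank 2) such that every automorphism of A of order p is induced by conjugation by an element of G; equivalently the automorphism group induced on A by its normalizer contains the special linear group of A. Then p ≤ 13. -/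
theorem result {G : Type*} [Group G] [Finite G]
    {p : ℕ} [Fact p.Prime] (hp : p ≠ 2) (P : Sylow p G) (hE : Cfsg.IsExtraspecial p ↥P)
    (hcard : Nat.card P = p ^ 3) (hexp : Monoid.exponent ↥P = p)
    (A : Fin 3 → Subgroup G) (hA : Function.Injective A) (hAP : ∀ i, A i ≤ (P : Subgroup G))
    (hAcard : ∀ i, Nat.card ↥(A i) = p ^ 2)
    (hSL : ∀ i, ∀ φ : MulAut ↥(A i), orderOf φ = p → ∃ g : G, ∀ a : ↥(A i), (φ a : G) = g * (a : G) * g⁻¹) :
    p ≤ 13 := by
  exact le_thirteen P hE hcard hexp A hA hAP hAcard hSL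

end Cfsg.Agent.S3054
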