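import Cfsg.Agent.ExtraspecialOdd.RadicalCount

set_option autoImplicit false
open Cfsg

namespace Cfsg.Agent.S3055

open CfsgLib.ExtraspecialOdd.Radical CfsgLib.ExtraspecialOdd
open scoped commutatorElement

theorem le_seven {G : Type*} [Group G] [Finite G] {p : ℕ} [Fact p.Prime] (P : Sylow p G)
    (hE : Cfsg.IsExtraspecial p ↥(P : Subgroup G))
    (hcard : Nat.card (P : Subgroup G) = p ^ 3) (hexp : Monoid.exponent ↥(P : Subgroup G) = p)
    (hconj : ∀ x y : ↥(P : Subgroup G), x ≠ 1 → y ≠ 1 → ∃ g : G, g * (x : G) * g⁻¹ = (y : G)) :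
    p ≤ 7 := by
  classical
  have hp : p.Prime := Fact.out
  obtain ⟨C⟩ := nonempty_coord hE hcard fun x => by
    have h := Monoid.pow_exponent_eq_one x
    rwa [hexp] at h
  have hz1 : C.z ≠ 1 := fun h => hp.ne_one (by rw [← C.ord, h, orderOf_one])
  have hzc : ∀ y : (P : Subgroup G), (y : G) * C.z = C.z * y := fun y =>
    congrArg Subtype.val (Subgroup.mem_center_iff.1 C.z_mem_center y)
  have htor : ∀ v : Fin 2 → ZMod p, v ≠ 0 → ∃ a, C.cor a = v ∧ HasTorus C a := by
    intro v hv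
    set a := C.sect v with hadef
    have ha : C.cor a ≠ 0 := by rw [hadef, C.cor_sect]; exact hv
    obtain ⟨hcomm, hA, -⟩ := exists_plane_coord hE hcard C ha
    set A := planeOf a with hAdef
    have hAP : A ≤ (P : Subgroup G) := Subgroup.map_subtype_le _
    have haA : (a : G) ∈ A := mem_planeOf.2 rfl
    have hzA : (C.z : G) ∈ A := mem_planeOf.2 (Subgroup.mem_center_iff.1 C.z_mem_center a).symm
    refine ⟨a, C.cor_sect v, hasTorus_of_hasSL P rfl C ha (hasSL_of_transvections hE hcard C ha fun c hc => ?_)⟩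
    have hext : ∀ (n : Subgroup.normalizer (A : Set G)) (s : Matrix.SpecialLinearGroup (Fin 2) (ZMod p)),
        (∀ v : Fin 2 → ZMod p, (n : G) * ((C.z : G) ^ (v 0).val * (a : G) ^ (v 1).val) * (n : G)⁻¹ =
          (C.z : G) ^ ((s.1.mulVec v) 0).val * (a : G) ^ ((s.1.mulVec v) 1).val) →
        CfsgLib.Fus.EssentialRankTwo.slAction c s ∈ A.normalizerMonoidHom.range := by
      intro n s h
      refine ⟨n, MulEquiv.ext fun x => ?_⟩
      obtain ⟨w, rfl⟩ := c.surjective x
      obtain ⟨w, rfl⟩ : ∃ u, Multiplicative.ofAdd u = w := ⟨w.toAdd, rfl⟩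
      rw [CfsgLib.Fus.EssentialRankTwo.slAction_apply]
      refine Subtype.ext ?_
      show (n : G) * (c (Multiplicative.ofAdd w) : A) * (n : G)⁻¹ = _
      rw [hc, hc, h]
    constructor
    · -- a transvection fixing the centre
      obtain ⟨s, hs⟩ := CfsgLib.PGroup.extraspecial_exists_comm_eq hE (C.not_mem_center ha) C.z_mem_center
      have hsa : (s : G) * a * (s : G)⁻¹ = C.z * a := by
        have h : (s : G) * a * (s : G)⁻¹ * (a : G)⁻¹ = C.z := congrArg Subtype.val hs
        exact mul_inv_eq_iff_eq_mul.1 h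
      have hsz : (s : G) * C.z * (s : G)⁻¹ = C.z := by rw [hzc]; group
      have hcz : Commute (C.z : G) (a : G) := (hzc a).symm
      refine hext ⟨s, Subgroup.mem_normalizer_fintype fun n hn => ?_⟩ _ fun v => ?_
      · obtain ⟨w, rfl⟩ : ∃ w, ((c (Multiplicative.ofAdd w) : A) : G) = n :=
          ⟨(c.symm ⟨n, hn⟩).toAdd, by simp⟩
        show (s : G) * (c (Multiplicative.ofAdd w) : A) * (s : G)⁻¹ ∈ A
        rw [hc, show (s : G) * ((C.z : G) ^ (w 0).val * (a : G) ^ (w 1).val) * (s : G)⁻¹ =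
          ((s : G) * C.z * (s : G)⁻¹) ^ (w 0).val * ((s : G) * a * (s : G)⁻¹) ^ (w 1).val by
            rw [conj_pow, conj_pow]; group, hsz, hsa]
        exact mul_mem (pow_mem hzA _) (pow_mem (mul_mem hzA haA) _)
      · show (s : G) * _ * (s : G)⁻¹ = _
        rw [show (s : G) * ((C.z : G) ^ (v 0).val * (a : G) ^ (v 1).val) * (s : G)⁻¹ =
          ((s : G) * C.z * (s : G)⁻¹) ^ (v 0).val * ((s : G) * a * (s : G)⁻¹) ^ (v 1).val by
            rw [conj_pow, conj_pow]; group, hsz, hsa, hcz.mul_pow, ← mul_assoc, ← pow_add]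
        have hzp : (C.z : G) ^ p = 1 := congrArg Subtype.val (C.exp C.z)
        rw [show ((CfsgLib.SL2.u (1 : ZMod p)).1.mulVec v) = ![v 0 + v 1, v 1] by
          rw [CfsgLib.SL2.coe_u]
          ext i
          fin_cases i <;> simp [Matrix.mulVec, dotProduct, Fin.sum_univ_two]]
        rw [Matrix.cons_val_zero, Matrix.cons_val_one, Matrix.cons_val_zero, ZMod.val_add,
          ← pow_eq_pow_mod _ hzp]
    -- a transvection fixing `a`
    have ha1 : a ≠ 1 := fun h => ha (by rw [h, C.cor_one])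
    obtain ⟨g₀, hg₀⟩ := hconj C.z a hz1 ha1
    set D := Subgroup.centralizer ({(a : G)} : Set G)
    set R := g₀ • P
    have hmemR : ∀ y, y ∈ (R : Subgroup G) ↔ g₀⁻¹ * y * g₀ ∈ (P : Subgroup G) := fun y => by
      rw [show (R : Subgroup G) = (P : Subgroup G).map (MulAut.conj g₀).toMonoidHom from rfl,
        Subgroup.mem_map_equiv, MulAut.conj_symm_apply]
    have hRD : (R : Subgroup G) ≤ D := fun y hy => by
      have h := hzc ⟨_, (hmemR y).1 hy⟩
      rw [Subgroup.mem_centralizer_singleton_iff, ← hg₀]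
      calc y * (g₀ * C.z * g₀⁻¹) = g₀ * ((g₀⁻¹ * y * g₀) * C.z) * g₀⁻¹ := by group
        _ = _ := by rw [h]; group
    have hAD : A ≤ D := fun e he => Subgroup.mem_centralizer_singleton_iff.2
      (congrArg Subtype.val (hcomm ⟨e, he⟩ ⟨a, haA⟩))
    obtain ⟨Q, hQ⟩ := ((P.isPGroup'.to_le hAP).of_injective (Subgroup.subgroupOfEquivOfLe hAD).toMonoidHom
      (MulEquiv.injective _) : IsPGroup p (A.subgroupOf D)).exists_le_sylow
    obtain ⟨k, hk⟩ := MulAction.exists_smul_eq D (R.subtype hRD) Q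
    set g := (k : G) * g₀ with hgdef
    have hga : g * C.z * g⁻¹ = a := by
      have hk' := Subgroup.mem_centralizer_singleton_iff.1 k.2
      calc g * C.z * g⁻¹ = (k : G) * (g₀ * C.z * g₀⁻¹) * (k : G)⁻¹ := by rw [hgdef]; group
        _ = _ := by rw [hg₀, hk']; group
    have hgA : ∀ e ∈ A, g⁻¹ * e * g ∈ (P : Subgroup G) := by
      intro e he
      have h1 : (⟨e, hAD he⟩ : D) ∈ ((k • R.subtype hRD : Sylow p D) : Subgroup D) := hk.symm ▸ hQ he
      rw [show ((k • R.subtype hRD : Sylow p D) : Subgroup D) =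
          ((R.subtype hRD : Sylow p D) : Subgroup D).map (MulAut.conj k).toMonoidHom from rfl,
        Subgroup.mem_map_equiv, MulAut.conj_symm_apply] at h1
      have h2 : ((k⁻¹ * ⟨e, hAD he⟩ * k : D) : G) ∈ (R : Subgroup G) := h1
      rw [hmemR] at h2
      simpa [hgdef, mul_assoc] using h2
    set e : (P : Subgroup G) := ⟨g⁻¹ * C.z * g, hgA _ hzA⟩ with hedef
    have he : C.cor e ≠ 0 := by
      intro h0
      obtain ⟨i, hi⟩ := (C.cor_eq_zero e).1 h0
      have hi' : (C.z : G) ^ i = g⁻¹ * C.z * g := by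
        rw [← Subgroup.coe_zpow]; exact congrArg Subtype.val hi
      have hzai : (a : G) ^ i = C.z := by
        rw [← hga, conj_zpow, hi']
        group
      have hza : C.z = a ^ i := Subtype.ext (by rw [Subgroup.coe_zpow]; exact hzai.symm)
      have hci : C.z ∈ Subgroup.zpowers a := ⟨i, hza.symm⟩
      have hoa : Nat.card (Subgroup.zpowers a) = p := by
        rw [Nat.card_zpowers]
        exact orderOf_eq_prime (C.exp a) ha1
      obtain ⟨m, hm⟩ := mem_zpowers_of_prime_card hoa (g := (⟨C.z, hci⟩ : Subgroup.zpowers a))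
        (g' := ⟨a, Subgroup.mem_zpowers a⟩) (fun h' => hz1 (congrArg Subtype.val h'))
      exact ha ((C.cor_eq_zero a).2 ⟨m, congrArg Subtype.val hm⟩)
    obtain ⟨y, hy⟩ := CfsgLib.PGroup.extraspecial_exists_comm_eq hE (C.not_mem_center he) C.z_mem_center
    set r := g * y * g⁻¹ with hrdef
    have hye : (y : G) * (g⁻¹ * C.z * g) * (y : G)⁻¹ = C.z * (g⁻¹ * C.z * g) := by
      have h : (y : G) * (g⁻¹ * C.z * g) * (y : G)⁻¹ * (g⁻¹ * C.z * g)⁻¹ = C.z := congrArg Subtype.val hy
      exact mul_inv_eq_iff_eq_mul.1 h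
    have hra : r * a * r⁻¹ = a := by
      rw [← hga, hrdef]
      calc _ = g * ((y : G) * C.z * (y : G)⁻¹) * g⁻¹ := by group
        _ = _ := by rw [hzc]; group
    have hrz : r * C.z * r⁻¹ = C.z * a := by
      rw [hrdef]
      calc g * (y : G) * g⁻¹ * C.z * (g * (y : G) * g⁻¹)⁻¹
          = g * ((y : G) * (g⁻¹ * C.z * g) * (y : G)⁻¹) * g⁻¹ := by group
        _ = (g * C.z * g⁻¹) * C.z := by rw [hye]; group
        _ = _ := by rw [hga, (hzc a)]
    refine ⟨1, one_ne_zero, hext ⟨r, Subgroup.mem_normalizer_fintype fun n hn => ?_⟩ _ fun v => ?_⟩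
    · obtain ⟨w, rfl⟩ : ∃ w, ((c (Multiplicative.ofAdd w) : A) : G) = n :=
        ⟨(c.symm ⟨n, hn⟩).toAdd, by simp⟩
      show r * (c (Multiplicative.ofAdd w) : A) * r⁻¹ ∈ A
      rw [hc, show r * ((C.z : G) ^ (w 0).val * (a : G) ^ (w 1).val) * r⁻¹ =
        (r * C.z * r⁻¹) ^ (w 0).val * (r * a * r⁻¹) ^ (w 1).val by
          rw [conj_pow, conj_pow]; group, hrz, hra]
      exact mul_mem (pow_mem (mul_mem hzA haA) _) (pow_mem haA _)
    · show r * _ * r⁻¹ = _
      have hcz : Commute (C.z : G) (a : G) := (hzc a).symm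
      rw [show r * ((C.z : G) ^ (v 0).val * (a : G) ^ (v 1).val) * r⁻¹ =
        (r * C.z * r⁻¹) ^ (v 0).val * (r * a * r⁻¹) ^ (v 1).val by
          rw [conj_pow, conj_pow]; group, hrz, hra, hcz.mul_pow, mul_assoc, ← pow_add]
      have hap : (a : G) ^ p = 1 := congrArg Subtype.val (C.exp a)
      rw [show ((CfsgLib.SL2.l (1 : ZMod p)).1.mulVec v) = ![v 0, v 0 + v 1] by
        rw [CfsgLib.SL2.coe_l]
        ext i
        fin_cases i <;> simp [Matrix.mulVec, dotProduct, Fin.sum_univ_two]]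
      rw [Matrix.cons_val_zero, Matrix.cons_val_one, Matrix.cons_val_zero, ZMod.val_add,
        ← pow_eq_pow_mod _ hap]
  set s : Finset (Fin 2 → ZMod p) := insert ![1, 0] (Finset.univ.image fun t : ZMod p => ![t, 1]) with hsdef
  have hs0 : ∀ v ∈ s, v ≠ 0 := by
    intro v hv h
    rcases Finset.mem_insert.1 hv with rfl | hv
    · simpa using congrFun h 0
    · obtain ⟨t, -, rfl⟩ := Finset.mem_image.1 hv
      simpa using congrFun h 1
  have hscard : s.card = p + 1 := by
    rw [hsdef, Finset.card_insert_of_notMem, Finset.card_image_of_injective, Finset.card_univ, ZMod.card]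
    · intro t u h
      simpa using congrFun h 0
    · intro hmem
      obtain ⟨t, -, h⟩ := Finset.mem_image.1 hmem
      simpa using congrFun h 1
  have hfew := few_torus P rfl C s hs0
    (fun v hv w hw h => by
      rcases Finset.mem_insert.1 hv with rfl | hv' <;> rcases Finset.mem_insert.1 hw with rfl | hw'
      · rfl
      · obtain ⟨t, -, rfl⟩ := Finset.mem_image.1 hw'
        simp at h
      · obtain ⟨t, -, rfl⟩ := Finset.mem_image.1 hv'
        simp at h
      · obtain ⟨t, -, rfl⟩ := Finset.mem_image.1 hv'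
        obtain ⟨u, -, rfl⟩ := Finset.mem_image.1 hw'
        simp [sub_eq_zero] at h
        rw [h])
    (fun v hv => htor v (hs0 v hv))
  rw [hscard] at hfew
  by_contra h
  have hp11 : 11 ≤ p := by
    by_contra h'
    have key : ∀ q < 11, Nat.Prime q → q ≤ 7 := by decide
    exact h (key p (by omega) hp)
  rcases eq_or_ne p 13 with h13 | h13
  · have := hfew.1 (by omega)
    omega
  · have := hfew.2 hp11 h13
    omega

/-- Let p be an odd prime and G a finite group with a Sylow p-subgroup P that is extraspecial of order p³ and exponent p. If all nonidentity elements of P are conjugate in G, then p ≤ 7. -/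
theorem result {G : Type*} [Group G] [Finite G]
    {p : ℕ} [Fact p.Prime] (hp : p ≠ 2) (P : Sylow p G) (hE : Cfsg.IsExtraspecial p ↥P)
    (hcard : Nat.card P = p ^ 3) (hexp : Monoid.exponent ↥P = p)
    (hconj : ∀ x y : ↥P, x ≠ 1 → y ≠ 1 → ∃ g : G, g * (x : G) * g⁻¹ = (y : G)) :
    p ≤ 7 := by
  exact le_seven P hE hcard hexp hconj

end Cfsg.Agent.S3055
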