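import Cfsg.Statements.S3056
import Cfsg.Agent.Eq.Def_SylowChains
import Cfsg.Agent.LocalP.StrongEmb

set_option autoImplicit false
open Cfsg
open scoped Pointwise

namespace Cfsg.Agent.S3056

open CfsgLib.LocalP

variable {G : Type*} [Group G] {p : ℕ}

/-- Adjacency in the Sylow graph. -/
def Adj (S T : Sylow p G) : Prop := S ≠ T ∧ (S : Subgroup G) ⊓ (T : Subgroup G) ≠ ⊥

theorem adj_symm : ∀ {S T : Sylow p G}, Adj S T → Adj T S :=
  fun {S T} h => ⟨h.1.symm, by rw [inf_comm]; exact h.2⟩

theorem reach_symm {S T : Sylow p G} (h : Relation.ReflTransGen Adj S T) : Relation.ReflTransGen Adj T S := by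
  induction h with
  | refl => rfl
  | tail _ h ih => exact Relation.ReflTransGen.head (adj_symm h) ih

theorem adj_smul (g : G) {S T : Sylow p G} (h : Adj S T) : Adj (g • S) (g • T) := by
  refine ⟨fun e => h.1 (MulAction.injective g e), fun e => h.2 ?_⟩
  rw [eq_bot_iff]
  intro x hx
  have h1 : g * x * g⁻¹ ∈ ((g • S : Sylow p G) : Subgroup G) ⊓ ((g • T : Sylow p G) : Subgroup G) :=
    ⟨⟨x, hx.1, rfl⟩, ⟨x, hx.2, rfl⟩⟩
  rw [e, Subgroup.mem_bot] at h1
  rw [Subgroup.mem_bot]
  calc x = g⁻¹ * (g * x * g⁻¹) * g := by group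
    _ = 1 := by rw [h1]; group

theorem reach_smul (g : G) {S T : Sylow p G} (h : Relation.ReflTransGen Adj S T) :
    Relation.ReflTransGen Adj (g • S) (g • T) :=
  h.lift (g • ·) (fun _ _ => adj_smul g)

theorem chain_of_reach {S T : Sylow p G} (h : Relation.ReflTransGen Adj S T) :
    ∃ (n : ℕ) (c : Fin (n + 1) → Sylow p G), c 0 = S ∧ c (Fin.last n) = T ∧
      ∀ i : Fin n, Adj (c i.castSucc) (c i.succ) := by
  induction h with
  | refl => exact ⟨0, fun _ => S, rfl, rfl, fun i => i.elim0⟩
  | @tail B C _ hBC ih =>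
    obtain ⟨n, c, h0, hl, hc⟩ := ih
    refine ⟨n + 1, Fin.snoc c C, ?_, Fin.snoc_last _ _, fun i => ?_⟩
    · rw [← Fin.castSucc_zero, Fin.snoc_castSucc, h0]
    · induction i using Fin.lastCases with
      | last => rw [Fin.snoc_castSucc, Fin.succ_last, Fin.snoc_last, hl]; exact hBC
      | cast j => rw [Fin.snoc_castSucc, Fin.succ_castSucc, Fin.snoc_castSucc]; exact hc j

theorem connected_of_reach (h : ∀ S T : Sylow p G, Relation.ReflTransGen Adj S T) :
    Cfsg.IsSylowChainConnected p G := by
  intro S T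
  by_cases hST : (S : Subgroup G) ⊓ (T : Subgroup G) = ⊥
  · obtain ⟨n, c, h0, hl, hc⟩ := chain_of_reach (h S T)
    exact ⟨n, c, h0, hl, fun i => hST ▸ bot_le, fun i => hc i⟩
  · by_cases he : S = T
    · exact ⟨0, fun _ => S, rfl, he, fun _ => inf_le_left, fun i => i.elim0⟩
    · refine ⟨1, ![S, T], rfl, rfl, fun i => ?_, fun i => ?_⟩
      · fin_cases i
        · exact inf_le_left
        · exact inf_le_right
      · fin_cases i
        exact ⟨he, hST⟩

theorem of_chainConnected (h : Cfsg.IsSylowChainConnected p G) (S T : Sylow p G) :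
    Relation.ReflTransGen Adj S T := by
  obtain ⟨n, c, h0, hl, -, hc⟩ := h S T
  have : ∀ i : Fin (n + 1), Relation.ReflTransGen Adj S (c i) := by
    intro i
    induction i using Fin.induction with
    | zero => rw [h0]
    | succ i ih => exact ih.tail (hc i)
  exact hl ▸ this (Fin.last n)

/-- The subgroup fixing the component of `S₀`. -/
def componentStab (S₀ : Sylow p G) : Subgroup G where
  carrier := {g | Relation.ReflTransGen Adj S₀ (g • S₀)}
  one_mem' := by simp only [Set.mem_ofPred_eq, one_smul]; rfl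
  mul_mem' {g g'} hg hg' := by
    simp only [Set.mem_ofPred_eq] at hg hg' ⊢
    rw [mul_smul]
    exact hg.trans (reach_smul g hg')
  inv_mem' {g} hg := by
    simp only [Set.mem_ofPred_eq] at hg ⊢
    have := reach_symm (reach_smul g⁻¹ hg)
    rwa [inv_smul_smul] at this

theorem le_componentStab [Finite G] [Fact p.Prime] (S₀ : Sylow p G) :
    (S₀ : Subgroup G) ≤ componentStab S₀ := fun g hg => by
  show Relation.ReflTransGen Adj S₀ (g • S₀)
  rw [Sylow.smul_eq_iff_mem_normalizer.mpr (Subgroup.le_normalizer hg)]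

/-- Let G be a finite group and p a prime. Join two Sylow p-subgroups when they are distinct and meet nontrivially. This graph on the Sylow p-subgroups is disconnected (the Sylow p-subgroups are not chain-connected through nontrivial intersections) if and only if G has a strongly p-embedded subgroup in the classical sense: a proper subgroup H of order divisible by p such that H ∩ gHg⁻¹ has order prime to p for every g outside H. -/
theorem result {G : Type*} [Group G] [Finite G]
    (p : ℕ) [Fact p.Prime] :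
    ¬ Cfsg.IsSylowChainConnected p G ↔
      ∃ H : Subgroup G, H ≠ ⊤ ∧ p ∣ Nat.card H ∧
        ∀ g : G, g ∉ H → ¬ p ∣ Nat.card ↥(H ⊓ H.map (MulAut.conj g).toMonoidHom) := by
  constructor
  · intro hnc
    obtain ⟨S₀⟩ : Nonempty (Sylow p G) := inferInstance
    have hne : (S₀ : Subgroup G) ≠ ⊥ := by
      intro h0
      apply hnc
      refine connected_of_reach fun S T => ?_
      have : ∀ S : Sylow p G, S = S₀ := fun S => by
        obtain ⟨g, rfl⟩ := MulAction.exists_smul_eq G S₀ S
        apply Sylow.ext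
        rw [Sylow.coe_subgroup_smul, h0, Subgroup.smul_bot]
      rw [this S, this T]
    set H := componentStab S₀ with hH
    refine ⟨H, ?_, ?_, ?_⟩
    · intro ht
      apply hnc
      refine connected_of_reach fun S T => ?_
      have key : ∀ S : Sylow p G, Relation.ReflTransGen Adj S₀ S := by
        intro S
        obtain ⟨g, rfl⟩ := MulAction.exists_smul_eq G S₀ S
        exact (ht ▸ Subgroup.mem_top g : g ∈ H)
      exact (reach_symm (key S)).trans (key T)
    · exact dvd_card_of_le S₀.isPGroup' hne (le_componentStab S₀)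
    · intro g hg hd
      apply hg
      obtain ⟨x, hx⟩ := exists_prime_orderOf_dvd_card' p hd
      have hx1 : (x : G) ≠ 1 := by
        intro h
        rw [← Subgroup.orderOf_coe, h, orderOf_one] at hx
        exact (Fact.out : p.Prime).one_lt.ne hx
      have hloc : ∀ y : G, y ∈ H → orderOf y = p → ∃ h ∈ H, y ∈ ((h • S₀ : Sylow p G) : Subgroup G) := by
        intro y hy hyp
        have hyP : IsPGroup p (Subgroup.zpowers (⟨y, hy⟩ : H)) :=
          IsPGroup.of_card (n := 1) (by rw [Nat.card_zpowers, ← Subgroup.orderOf_coe, pow_one, hyp])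
        obtain ⟨P, hP⟩ := hyP.exists_le_sylow
        obtain ⟨h, hh⟩ := MulAction.exists_smul_eq H (S₀.subtype (le_componentStab S₀)) P
        refine ⟨h, h.2, ?_⟩
        have : (⟨y, hy⟩ : H) ∈ ((h • S₀.subtype (le_componentStab S₀) : Sylow p H) : Subgroup H) := by
          rw [hh]; exact hP (Subgroup.mem_zpowers _)
        obtain ⟨s, hs, hse⟩ := this
        exact ⟨s, hs, congrArg Subtype.val hse⟩
      obtain ⟨h, hh, hxh⟩ := hloc x x.2.1 (by rw [Subgroup.orderOf_coe, hx])
      obtain ⟨y, hy, hyx⟩ := x.2.2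
      obtain ⟨h', hh', hyh⟩ := hloc y hy (by
        rw [← hx, ← Subgroup.orderOf_coe, ← hyx]
        exact ((MulAut.conj g).orderOf_eq y).symm)
      have hxgh : (x : G) ∈ (((g * h') • S₀ : Sylow p G) : Subgroup G) := by
        rw [mul_smul]
        exact ⟨y, hyh, hyx⟩
      have hr : Relation.ReflTransGen Adj (h • S₀) ((g * h') • S₀) := by
        by_cases he : h • S₀ = (g * h') • S₀
        · rw [he]
        · refine Relation.ReflTransGen.single ⟨he, fun e => hx1 ?_⟩
          have : (x : G) ∈ ((h • S₀ : Sylow p G) : Subgroup G) ⊓ (((g * h') • S₀ : Sylow p G) : Subgroup G) := ⟨hxh, hxgh⟩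
          rwa [e, Subgroup.mem_bot] at this
      have hgh : g * h' ∈ H := Relation.ReflTransGen.trans hh hr
      simpa using H.mul_mem hgh (H.inv_mem hh')
  · rintro ⟨H, hH, hpH, hse⟩ hc
    obtain ⟨S, hS⟩ := exists_sylow_le hpH hse
    have hSne : (S : Subgroup G) ≠ ⊥ :=
      S.ne_bot_of_dvd_card (hpH.trans (Subgroup.card_subgroup_dvd_card H))
    have hall : ∀ T : Sylow p G, (T : Subgroup G) ≤ H := by
      intro T
      induction of_chainConnected hc S T with
      | refl => exact hS
      | tail _ hadj ih =>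
        refine sylow_le_of_inf_ne_bot hse _ fun e => hadj.2 ?_
        rw [eq_bot_iff, ← e]
        exact le_inf inf_le_right (inf_le_left.trans ih)
    obtain ⟨g, -, hg⟩ := SetLike.exists_of_lt (lt_top_iff_ne_top.mpr hH)
    refine hse g hg (dvd_card_of_le (g • S).isPGroup' ?_ (le_inf (hall _) ?_))
    · intro e
      apply hSne
      have : ((g • S : Sylow p G) : Subgroup G) = MulAut.conj g • (S : Subgroup G) := rfl
      rw [e] at this
      rw [← inv_smul_smul (MulAut.conj g) (S : Subgroup G), ← this, Subgroup.smul_bot]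
    · rintro _ ⟨s, hs, rfl⟩
      exact ⟨s, hS hs, rfl⟩

end Cfsg.Agent.S3056
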