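import Cfsg.Statements.S3058
import Cfsg.Agent.S3056
import Cfsg.Agent.Coprime.Generation
import Cfsg.Agent.CharP.SylowInNormal

set_option autoImplicit false
open Cfsg

namespace Cfsg.Agent.S3058

open CfsgLib.LocalP

theorem exists_order_p_inf {G : Type*} [Group G] [Finite G] {p : ℕ} [Fact p.Prime]
    (S : Sylow p G) (N : Subgroup G) [N.Normal] (hN : p ∣ Nat.card N) :
    ∃ x ∈ (S : Subgroup G) ⊓ N, orderOf x = p := by
  obtain ⟨x, hx⟩ := exists_prime_orderOf_dvd_card' p hN
  have hxp : IsPGroup p (Subgroup.zpowers (x : G)) :=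
    IsPGroup.of_card (n := 1) (by rw [Nat.card_zpowers, Subgroup.orderOf_coe, hx, pow_one])
  obtain ⟨T, hT⟩ := hxp.exists_le_sylow
  obtain ⟨g, hg⟩ := MulAction.exists_smul_eq G T S
  refine ⟨g * x * g⁻¹, ⟨?_, (inferInstance : N.Normal).conj_mem x x.2 g⟩, ?_⟩
  · rw [← hg]
    exact ⟨x, hT (Subgroup.mem_zpowers _), rfl⟩
  · rw [← MulAut.conj_apply, MulEquiv.orderOf_eq, Subgroup.orderOf_coe, hx]

theorem eq_powers {E : Type*} [Group E] [Finite E] [IsCyclic E] {p : ℕ} [Fact p.Prime] (A : Subgroup E)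
    (hA : Nat.card A = p) : (A : Set E) = {z | z ^ p = 1} := by
  classical
  have := Fintype.ofFinite E
  refine Set.eq_of_subset_of_ncard_le (fun z hz => ?_) ?_
  · exact congrArg Subtype.val (hA ▸ pow_card_eq_one' (x := (⟨z, hz⟩ : A)))
  · rw [← Nat.card_coe_set_eq (A : Set E)]
    rw [show Nat.card ↥(A : Set E) = p from hA,
      show {z : E | z ^ p = 1} = ((Finset.univ.filter fun z : E => z ^ p = 1 : Finset E) : Set E) by ext; simp,
      Set.ncard_coe_finset]
    exact IsCyclic.card_pow_eq_one_le (Fact.out : p.Prime).pos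

/-- Let p be a prime and G a finite group whose Sylow p-subgroups are not chain-connected through nontrivial intersections (so G has a strongly p-embedded subgroup). If N and M are normal subgroups of G whose orders are both divisible by p, then the order of N ∩ M is divisible by p. Consequently, among the normal subgroups of G whose order is divisible by p there is a smallest one (the intersection of all of them). -/
theorem result {G : Type*} [Group G] [Finite G]
    (p : ℕ) [Fact p.Prime] (hG : ¬ Cfsg.IsSylowChainConnected p G)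
    (N M : Subgroup G) [N.Normal] [M.Normal] (hN : p ∣ Nat.card N) (hM : p ∣ Nat.card M) :
    p ∣ Nat.card ↥(N ⊓ M) := by
  have hp : p.Prime := Fact.out
  by_contra hX
  obtain ⟨H, hH, hpH, hse⟩ := (S3056.result p).mp hG
  obtain ⟨S, hS⟩ := exists_sylow_le hpH hse
  obtain ⟨x, hxSN, hx⟩ := exists_order_p_inf S N hN
  obtain ⟨y, hySM, hy⟩ := exists_order_p_inf S M hM
  have hne : ∀ z : G, orderOf z = p → z ≠ 1 := fun z hz h => by
    rw [h, orderOf_one] at hz; exact hp.one_lt.ne hz
  have hpz : ∀ {z : G}, z ∈ (S : Subgroup G) → z ∈ N ⊓ M → z = 1 := by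
    intro z hzS hzX
    obtain ⟨k, hk⟩ := S.isPGroup' ⟨z, hzS⟩
    have h1 : orderOf z ∣ p ^ k := orderOf_dvd_of_pow_eq_one (congrArg Subtype.val hk)
    have h2 : orderOf z ∣ Nat.card ↥(N ⊓ M) := (N ⊓ M).orderOf_dvd_natCard hzX
    rw [← orderOf_eq_one_iff]
    exact Nat.eq_one_of_dvd_coprimes ((hp.coprime_iff_not_dvd.mpr hX).pow_left k) h1 h2
  have hcomm : x * y = y * x := by
    have h1 : x * y * x⁻¹ * y⁻¹ = 1 := by
      refine hpz ((S : Subgroup G).mul_mem ((S : Subgroup G).mul_mem ((S : Subgroup G).mul_mem hxSN.1 hySM.1)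
        ((S : Subgroup G).inv_mem hxSN.1)) ((S : Subgroup G).inv_mem hySM.1)) ⟨?_, ?_⟩
      · rw [mul_assoc x y, mul_assoc]
        exact N.mul_mem hxSN.2 ((inferInstance : N.Normal).conj_mem _ (N.inv_mem hxSN.2) y)
      · exact M.mul_mem ((inferInstance : M.Normal).conj_mem _ hySM.2 x) (M.inv_mem hySM.2)
    exact mul_inv_eq_iff_eq_mul.mp (mul_inv_eq_one.mp h1)
  have hcH : ∀ a : G, a ≠ 1 → a ∈ (S : Subgroup G) → Subgroup.centralizer ({a} : Set G) ≤ H := by
    intro a ha haS
    refine le_trans ?_ (normalizer_le hse (R := Subgroup.zpowers a) (S.isPGroup'.to_le (Subgroup.zpowers_le.mpr haS))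
      (Subgroup.zpowers_ne_bot.mpr ha) ((Subgroup.zpowers_le.mpr haS).trans hS))
    intro c hc
    have hc' : Commute c a := Subgroup.mem_centralizer_singleton_iff.mp hc
    rw [Subgroup.mem_normalizer_iff]
    intro z
    constructor
    · rintro ⟨k, rfl⟩
      exact ⟨k, by show a ^ k = _; rw [(hc'.zpow_right k).eq, mul_inv_cancel_right]⟩
    · rintro ⟨k, hk⟩
      refine ⟨k, ?_⟩
      show a ^ k = z
      have e : c⁻¹ * (a ^ k) * c = a ^ k := by rw [mul_assoc, ← (hc'.zpow_right k).eq, inv_mul_cancel_left]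
      calc a ^ k = c⁻¹ * (a ^ k) * c := e.symm
        _ = z := by rw [show a ^ k = c * z * c⁻¹ from hk]; group
  set E := Subgroup.zpowers x ⊔ Subgroup.zpowers y with hE
  have hEcomm : IsMulCommutative E := by
    have hxy : Commute x y := hcomm
    have hle : E ≤ Subgroup.centralizer (E : Set G) := by
      rw [Subgroup.le_centralizer_iff]
      refine sup_le ?_ ?_ <;> rw [Subgroup.le_centralizer_iff] <;> refine sup_le ?_ ?_ <;>
        rw [Subgroup.zpowers_le] <;> rintro _ ⟨k, rfl⟩
      · exact ((Commute.refl x).zpow_left k).eq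
      · exact (hxy.zpow_left k).eq
      · exact (hxy.symm.zpow_left k).eq
      · exact ((Commute.refl y).zpow_left k).eq
    exact ⟨⟨fun u v => Subtype.ext (hle v.2 u u.2)⟩⟩
  have hES : E ≤ (S : Subgroup G) := sup_le (Subgroup.zpowers_le.mpr hxSN.1) (Subgroup.zpowers_le.mpr hySM.1)
  have hEnc : ¬ IsCyclic E := by
    intro hc
    have hxE : x ∈ E := Subgroup.mem_sup_left (Subgroup.mem_zpowers x)
    have hyE : y ∈ E := Subgroup.mem_sup_right (Subgroup.mem_zpowers y)
    -- in a cyclic group two elements of order `p` generate the same subgroup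
    have h1 : Nat.card (Subgroup.zpowers (⟨x, hxE⟩ : E)) = p := by rw [Nat.card_zpowers, ← Subgroup.orderOf_coe, hx]
    have h2 : Nat.card (Subgroup.zpowers (⟨y, hyE⟩ : E)) = p := by rw [Nat.card_zpowers, ← Subgroup.orderOf_coe, hy]
    have heq : Subgroup.zpowers (⟨x, hxE⟩ : E) = Subgroup.zpowers (⟨y, hyE⟩ : E) :=
      SetLike.coe_injective ((eq_powers _ h1).trans (eq_powers _ h2).symm)
    obtain ⟨k, hk⟩ := (heq ▸ Subgroup.mem_zpowers (⟨x, hxE⟩ : E) : _ ∈ Subgroup.zpowers (⟨y, hyE⟩ : E))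
    have hk' : y ^ k = x := congrArg Subtype.val hk
    exact hne x hx (hpz hxSN.1 ⟨hxSN.2, hk' ▸ M.zpow_mem hySM.2 k⟩)
  have hXH : N ⊓ M ≤ H := by
    refine CfsgLib.Coprime.le_of_centralizers hEcomm hEnc (by rw [Subgroup.normalizer_eq_top]; exact le_top) ?_
      (fun a ha ha1 => inf_le_right.trans (hcH a ha1 (hES ha)))
    obtain ⟨n, hn⟩ := IsPGroup.iff_card.mp (S.isPGroup'.to_le hES)
    rw [hn]
    exact (hp.coprime_iff_not_dvd.mpr hX).pow_left n
  have hNH : N ≤ H := by
    intro n hn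
    by_contra hnH
    refine hse n hnH (dvd_card_of_le (R := Subgroup.zpowers (n * y * n⁻¹)) ?_ ?_ (le_inf ?_ ?_))
    · exact IsPGroup.of_card (n := 1) (by rw [Nat.card_zpowers, ← MulAut.conj_apply, MulEquiv.orderOf_eq, hy, pow_one])
    · rw [Subgroup.zpowers_ne_bot]
      exact fun h => hne y hy (by simpa [mul_assoc] using congrArg (MulAut.conj n).symm h)
    · rw [Subgroup.zpowers_le]
      have hc : n * y * n⁻¹ * y⁻¹ ∈ N ⊓ M := by
        refine ⟨?_, M.mul_mem ((inferInstance : M.Normal).conj_mem _ hySM.2 n) (M.inv_mem hySM.2)⟩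
        rw [mul_assoc n y, mul_assoc]
        exact N.mul_mem hn ((inferInstance : N.Normal).conj_mem _ (N.inv_mem hn) y)
      have := H.mul_mem (hXH hc) (hS hySM.1)
      rwa [inv_mul_cancel_right] at this
    · rw [Subgroup.zpowers_le]
      exact ⟨y, hS hySM.1, rfl⟩
  obtain ⟨Q, hQ⟩ := CfsgLib.CharP.exists_sylow_eq_inf_normal S N
  have htop := Sylow.normalizer_sup_eq_top Q
  rw [hQ] at htop
  apply hH
  rw [eq_top_iff, ← htop]
  refine sup_le (normalizer_le hse (S.isPGroup'.to_le inf_le_left) ?_ (inf_le_right.trans hNH)) hNH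
  intro e
  rw [e, Subgroup.mem_bot] at hxSN
  exact hne x hx hxSN

end Cfsg.Agent.S3058
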