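import Cfsg.Statements.S3059
import Cfsg.Agent.LocalP.StrongEmb

set_option autoImplicit false
open Cfsg

namespace Cfsg.Agent.S3059

open CfsgLib.LocalP

/-- Let p be a prime and H a strongly p-embedded subgroup of the finite group G in the classical sense: H is proper, p divides the order of H, and H ∩ gHg⁻¹ has order prime to p for every g outside H. Then for every normal subgroup N of G of order divisible by p, G = H · O^p(N), where O^p(N) is the subgroup generated by the elements of N of order prime to p. -/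
theorem result {G : Type*} [Group G] [Finite G]
    (p : ℕ) [Fact p.Prime] (H : Subgroup G) (hH : H ≠ ⊤) (hpH : p ∣ Nat.card H)
    (hse : ∀ g : G, g ∉ H → ¬ p ∣ Nat.card ↥(H ⊓ H.map (MulAut.conj g).toMonoidHom))
    (N : Subgroup G) [N.Normal] (hN : p ∣ Nat.card N) :
    H ⊔ Subgroup.closure {g : G | g ∈ N ∧ (orderOf g).Coprime p} = ⊤ := by
  set O := Subgroup.closure {g : G | g ∈ N ∧ (orderOf g).Coprime p} with hO
  obtain ⟨P, hP⟩ := exists_sylow_le hpH hse
  obtain ⟨Q⟩ : Nonempty (Sylow p N) := inferInstance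
  obtain ⟨P2, hP2⟩ := (Q.isPGroup'.map N.subtype).exists_le_sylow
  obtain ⟨g, hg⟩ := MulAction.exists_smul_eq G P2 P
  -- a Sylow subgroup of `N` inside `H`
  set R : Subgroup G := ((Q : Subgroup N).map N.subtype).map (MulAut.conj g).toMonoidHom with hR
  have hRN : R ≤ N := by
    rintro _ ⟨x, ⟨y, _, rfl⟩, rfl⟩
    exact (inferInstance : N.Normal).conj_mem _ y.2 g
  have hRH : R ≤ H := by
    refine le_trans ?_ hP
    rw [← hg]
    rintro _ ⟨x, hx, rfl⟩
    exact ⟨x, hP2 hx, rfl⟩
  have hRcard : Nat.card R = Nat.card Q := by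
    rw [hR, Subgroup.card_map_of_injective (f := (MulAut.conj g).toMonoidHom) (MulAut.conj g).injective,
      Subgroup.card_map_of_injective N.subtype_injective]
  let Q' : Sylow p N := Sylow.ofCard (R.subgroupOf N) (by
    rw [Nat.card_congr (Subgroup.subgroupOfEquivOfLe hRN).toEquiv, hRcard, Q.card_eq_multiplicity])
  have hQ'map : (Q' : Subgroup N).map N.subtype = R := Subgroup.map_subgroupOf_eq_of_le hRN
  have hR1 : R ≠ ⊥ := by
    intro e
    rw [e, Subgroup.card_bot, Q.card_eq_multiplicity] at hRcard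
    have h0 : 0 < (Nat.card N).factorization p :=
      (Fact.out : p.Prime).factorization_pos_of_dvd Nat.card_pos.ne' hN
    exact absurd hRcard.symm (Nat.one_lt_pow h0.ne' (Fact.out : p.Prime).one_lt).ne'
  have hnorm : Subgroup.normalizer (R : Set G) ≤ H :=
    normalizer_le hse (P.isPGroup'.to_le (by
      rw [← hg]
      rintro _ ⟨x, hx, rfl⟩
      exact ⟨x, hP2 hx, rfl⟩)) hR1 hRH
  have hNle : N ≤ H ⊔ O := by
    intro x hx
    set M := (H ⊔ O).subgroupOf N with hM
    suffices hMt : M = ⊤ by exact Subgroup.subgroupOf_eq_top.mp hMt hx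
    by_contra hne
    obtain ⟨r, hr, hrd⟩ := Nat.exists_prime_and_dvd (mt Subgroup.index_eq_one.mp hne)
    haveI := Fact.mk hr
    by_cases hrp : r = p
    · subst hrp
      refine Q'.not_dvd_index (dvd_trans hrd (Subgroup.index_dvd_of_le fun y hy => ?_))
      have hy' : (y : G) ∈ R := hQ'map ▸ Subgroup.mem_map_of_mem N.subtype hy
      exact Subgroup.mem_sup_left (hRH hy')
    · obtain ⟨T⟩ : Nonempty (Sylow r N) := inferInstance
      refine T.not_dvd_index (dvd_trans hrd (Subgroup.index_dvd_of_le fun y hy => ?_))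
      refine Subgroup.mem_sup_right (Subgroup.subset_closure ⟨y.2, ?_⟩)
      obtain ⟨k, hk⟩ := T.isPGroup' ⟨y, hy⟩
      have hk' : (y : G) ^ r ^ k = 1 := congrArg (fun z : T => ((z : N) : G)) hk
      exact Nat.Coprime.coprime_dvd_left (orderOf_dvd_of_pow_eq_one hk')
        (Nat.Coprime.pow_left k ((Nat.coprime_primes hr (Fact.out : p.Prime)).mpr hrp))
  rw [eq_top_iff, ← Sylow.normalizer_sup_eq_top Q', hQ'map]
  exact sup_le (hnorm.trans le_sup_left) hNle

end Cfsg.Agent.S3059
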