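import Cfsg.Statements.S3061
import Cfsg.Agent.Eq.Def_DStar
import Mathlib

set_option autoImplicit false
open Cfsg

namespace Cfsg.Agent.S3061

open scoped commutatorElement

variable {S : Type*} [Group S]

theorem class_two_of_generators (T : Set S)
    (h : ∀ s ∈ T, ∀ t ∈ T, ⁅s, t⁆ ∈ Subgroup.centralizer (T : Set S)) :
    ⁅⁅Subgroup.closure T, Subgroup.closure T⁆, Subgroup.closure T⁆ = ⊥ := by
  set K := Subgroup.closure T
  set C := Subgroup.centralizer (K : Set S)
  have hC : Subgroup.centralizer T ≤ C := by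
    intro c hc k hk
    refine Subgroup.closure_induction (p := fun x _ => x * c = c * x) ?_ ?_ ?_ ?_ hk
    · exact fun x hx => hc x hx
    · simp
    · intro x y _ _ hx hy
      rw [mul_assoc, hy, ← mul_assoc, hx, mul_assoc]
    · intro x _ hx
      exact (Commute.inv_left hx : Commute x⁻¹ c)
  have step : ∀ a : S, (∀ t ∈ T, ⁅a, t⁆ ∈ C) → ∀ k ∈ K, ⁅a, k⁆ ∈ C := by
    intro a ha k hk
    refine Subgroup.closure_induction (p := fun x _ => ⁅a, x⁆ ∈ C) ha ?_ ?_ ?_ hk
    · simp only [commutatorElement_one_right]; exact C.one_mem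
    · intro x y hxK _ hx hy
      have e : ⁅a, x * y⁆ = ⁅a, x⁆ * (x * ⁅a, y⁆ * x⁻¹) := by simp only [commutatorElement_def]; group
      rw [e, hy x hxK, mul_inv_cancel_right]
      exact C.mul_mem hx hy
    · intro x hxK hx
      have e : ⁅a, x⁻¹⁆ = x⁻¹ * ⁅a, x⁆⁻¹ * x := by simp only [commutatorElement_def]; group
      rw [e, (C.inv_mem hx) x⁻¹ (K.inv_mem hxK), inv_mul_cancel_right]
      exact C.inv_mem hx
  rw [Subgroup.commutator_eq_bot_iff_le_centralizer]
  refine Subgroup.commutator_le.mpr fun g hg k hk => step g (fun t ht => ?_) k hk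
  have h1 : ⁅t, g⁆ ∈ C := step t (fun t' ht' => hC (h t ht t' ht')) g hg
  rw [← commutatorElement_inv]
  exact C.inv_mem h1

theorem class_two_mono {A B : Subgroup S} (h : A ≤ B)
    (hB : ⁅⁅B, B⁆, B⁆ = ⊥) : ⁅⁅A, A⁆, A⁆ = ⊥ :=
  eq_bot_mono (Subgroup.commutator_mono (Subgroup.commutator_mono h h) h) hB

/-- Members normalizing each other commute. -/
theorem commute_of_normalize {A B : Subgroup S} (hA : A ∈ dStarFamily S) (hB : B ∈ dStarFamily S)
    (hAB : A ≤ Subgroup.normalizer (B : Set S)) (hBA : B ≤ Subgroup.normalizer (A : Set S)) :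
    ∀ a ∈ A, ∀ b ∈ B, a * b = b * a := by
  intro a ha b hb
  refine hA.2 b ?_ a ha
  have hcl : A ⊔ Subgroup.zpowers b = Subgroup.closure ((A : Set S) ∪ {b}) := by
    rw [Subgroup.closure_union, Subgroup.closure_eq, Subgroup.zpowers_eq_closure]
  rw [hcl]
  apply class_two_of_generators
  have hAc : ∀ x ∈ A, ∀ y ∈ A, x * y = y * x := fun x hx y hy => hA.1.is_comm.comm ⟨x, hx⟩ ⟨y, hy⟩ |> congrArg Subtype.val
  have hBc : ∀ x ∈ B, ∀ y ∈ B, x * y = y * x := fun x hx y hy => hB.1.is_comm.comm ⟨x, hx⟩ ⟨y, hy⟩ |> congrArg Subtype.val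
  have key : ∀ x ∈ A, ⁅x, b⁆ ∈ Subgroup.centralizer ((A : Set S) ∪ {b}) := by
    intro x hx
    have h1 : ⁅x, b⁆ ∈ A := by
      rw [commutatorElement_def, mul_assoc x b, mul_assoc]
      exact A.mul_mem hx ((Subgroup.mem_normalizer_iff.mp (hBA hb) _).mp (A.inv_mem hx))
    have h2 : ⁅x, b⁆ ∈ B := by
      rw [commutatorElement_def]
      exact B.mul_mem ((Subgroup.mem_normalizer_iff.mp (hAB hx) _).mp hb) (B.inv_mem hb)
    rintro y (hy | hy)
    · exact hAc y hy _ h1
    · rw [Set.mem_singleton_iff] at hy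
      subst hy
      exact hBc y hb _ h2
  rintro s (hs | hs) t (ht | ht)
  · have : ⁅s, t⁆ = 1 := commutatorElement_eq_one_iff_mul_comm.mpr (hAc s hs t ht)
    rw [this]; exact one_mem _
  · rw [Set.mem_singleton_iff] at ht; subst ht; exact key s hs
  · rw [Set.mem_singleton_iff] at hs; subst hs
    rw [← commutatorElement_inv]
    exact inv_mem (key t ht)
  · rw [Set.mem_singleton_iff] at hs ht; subst hs; subst ht
    rw [commutatorElement_self]; exact one_mem _

theorem sup_mem {A B : Subgroup S} (hA : A ∈ dStarFamily S) (hB : B ∈ dStarFamily S)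
    (h : ∀ a ∈ A, ∀ b ∈ B, a * b = b * a) : A ⊔ B ∈ dStarFamily S := by
  have hA' : A ≤ Subgroup.centralizer (A : Set S) := fun a ha x hx => congrArg Subtype.val (hA.1.is_comm.comm ⟨x, hx⟩ ⟨a, ha⟩)
  have hB' : B ≤ Subgroup.centralizer (B : Set S) := fun a ha x hx => congrArg Subtype.val (hB.1.is_comm.comm ⟨x, hx⟩ ⟨a, ha⟩)
  have hle : A ⊔ B ≤ Subgroup.centralizer ((A ⊔ B : Subgroup S) : Set S) := by
    have hAB : A ≤ Subgroup.centralizer (B : Set S) := fun a ha b hb => (h a ha b hb).symm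
    have hBA : B ≤ Subgroup.centralizer (A : Set S) := fun b hb a ha => h a ha b hb
    rw [Subgroup.le_centralizer_iff]
    refine sup_le ?_ ?_ <;> rw [Subgroup.le_centralizer_iff]
    · exact sup_le hA' hBA
    · exact sup_le hAB hB'
  refine ⟨⟨⟨fun x y => Subtype.ext (hle y.2 x x.2)⟩⟩, fun x hx a ha => ?_⟩
  have hA2 := hA.2 x (class_two_mono (sup_le_sup_right le_sup_left _) hx)
  have hB2 := hB.2 x (class_two_mono (sup_le_sup_right le_sup_right _) hx)
  have : A ⊔ B ≤ Subgroup.centralizer ({x} : Set S) :=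
    sup_le (fun a ha => Subgroup.mem_centralizer_singleton_iff.mpr (hA2 a ha))
      (fun a ha => Subgroup.mem_centralizer_singleton_iff.mpr (hB2 a ha))
  exact Subgroup.mem_centralizer_singleton_iff.mp (this ha)

theorem map_mem (φ : S ≃* S) {A : Subgroup S} (hA : A ∈ dStarFamily S) :
    A.map φ.toMonoidHom ∈ dStarFamily S := by
  refine ⟨⟨⟨?_⟩⟩, ?_⟩
  · rintro ⟨_, a, ha, rfl⟩ ⟨_, b, hb, rfl⟩
    apply Subtype.ext
    show φ.toMonoidHom a * φ.toMonoidHom b = φ.toMonoidHom b * φ.toMonoidHom a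
    have hab : a * b = b * a := congrArg Subtype.val (hA.1.is_comm.comm ⟨a, ha⟩ ⟨b, hb⟩)
    rw [← map_mul, ← map_mul, hab]
  · intro x hx
    have hy := hA.2 (φ.symm x) (by
      apply Subgroup.map_injective φ.injective (f := φ.toMonoidHom)
      rw [Subgroup.map_bot, Subgroup.map_commutator, Subgroup.map_commutator, Subgroup.map_sup, MonoidHom.map_zpowers]
      simpa using hx)
    rintro _ ⟨a, ha, rfl⟩
    have := congrArg φ.toMonoidHom (hy a ha)
    simpa [map_mul] using this

/-- Let S be a finite p-group. Then D*(S) itself belongs to the family that generates it: D*(S) is abelian, and every x ∈ S with ⟨D*(S), x⟩ of class at most two centralizes D*(S). Hence D*(S) is the unique maximal member of that family. -/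
theorem result {S : Type*} [Group S] [Finite S] {p : ℕ} [Fact p.Prime] (hS : IsPGroup p S) :
    Cfsg.dStar S ∈ Cfsg.dStarFamily S := by
  have hnil : Group.IsNilpotent S := hS.isNilpotent
  have hne : (dStarFamily S).Nonempty := by
    refine ⟨⊥, ⟨⟨fun a b => ?_⟩⟩, ?_⟩
    · exact Subsingleton.elim _ _
    · intro x _ a ha
      rw [Subgroup.mem_bot] at ha
      simp [ha]
  have hnormal : ∀ A : Subgroup S, Maximal (· ∈ dStarFamily S) A → A.Normal := by
    intro A hA
    rw [← Subgroup.normalizer_eq_top_iff]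
    by_contra hN
    obtain ⟨s, hs, hsN⟩ := SetLike.exists_of_lt
      (Group.normalizerCondition_of_isNilpotent (G := S) _ (lt_top_iff_ne_top.mpr hN))
    set f := (MulAut.conj s).toMonoidHom with hf
    set A' := A.map f
    have hA' : A' ∈ dStarFamily S := map_mem (MulAut.conj s) hA.1
    have hA'N : A' ≤ Subgroup.normalizer (A : Set S) := by
      rintro _ ⟨a, ha, rfl⟩
      exact (Subgroup.mem_normalizer_iff.mp hs a).mp (Subgroup.le_normalizer ha)
    have hAN' : A ≤ Subgroup.normalizer (A' : Set S) := by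
      intro a ha
      have h1 : s⁻¹ * a * s ∈ Subgroup.normalizer (A : Set S) :=
        (Subgroup.mem_normalizer_iff''.mp hs a).mp (Subgroup.le_normalizer ha)
      have h2 := Subgroup.le_normalizer_map (H := A) f ⟨_, h1, rfl⟩
      have e : f (s⁻¹ * a * s) = a := by simp [hf, mul_assoc]
      have h3 : f (s⁻¹ * a * s) ∈ Subgroup.normalizer (A' : Set S) := h2
      rwa [e] at h3
    have hsup := sup_mem hA.1 hA' (commute_of_normalize hA.1 hA' hAN' hA'N)
    have hle : A' ≤ A := le_sup_right.trans (hA.2 hsup le_sup_left)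
    apply hsN
    have heq : A' = A := Subgroup.eq_of_le_of_card_ge hle
      (le_of_eq (Subgroup.card_map_of_injective (f := f) (MulAut.conj s).injective).symm)
    rw [Subgroup.mem_normalizer_iff]
    intro a
    refine ⟨fun ha => hle ⟨a, ha, rfl⟩, fun ha => ?_⟩
    rw [← heq] at ha
    obtain ⟨b, hb, hbe⟩ := ha
    have : b = a := (MulAut.conj s).injective hbe
    exact this ▸ hb
  obtain ⟨A, hA⟩ := (dStarFamily S).toFinite.exists_maximal hne
  suffices h : dStar S = A by rw [h]; exact hA.1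
  refine le_antisymm (sSup_le fun B hB => ?_) (le_sSup hA.1)
  obtain ⟨B', hBB', hB'⟩ := (dStarFamily S).toFinite.exists_le_maximal hB
  have hn1 := hnormal A hA
  have hn2 := hnormal B' hB'
  have hsup := sup_mem hA.1 hB'.1 (commute_of_normalize hA.1 hB'.1
    (Subgroup.normalizer_eq_top (H := B') ▸ le_top) (Subgroup.normalizer_eq_top (H := A) ▸ le_top))
  exact hBB'.trans (le_sup_right.trans (hA.2 hsup le_sup_left))

end Cfsg.Agent.S3061
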