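import Cfsg.Statements.S3060
import Cfsg.Agent.Eq.Def_DStar
import Cfsg.Agent.Eq.Def_PLocal
import Cfsg.Agent.LocalP.Basic
import Cfsg.Agent.Transfer.PElementClassSize
import Cfsg.Agent.S3061

set_option autoImplicit false
open Cfsg

namespace Cfsg.Agent.S3060

open scoped commutatorElement

variable {G : Type*} [Group G] [Finite G] {p : ℕ} [Fact p.Prime]

/-- The members of the family defining `D*(Q)`, seen in `G`. -/
structure InFam (A Q : Subgroup G) : Prop where
  le : A ≤ Q
  comm : ∀ a ∈ A, ∀ b ∈ A, a * b = b * a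
  cond : ∀ x ∈ Q, ⁅⁅A ⊔ Subgroup.zpowers x, A ⊔ Subgroup.zpowers x⁆, A ⊔ Subgroup.zpowers x⁆ = ⊥ →
    ∀ a ∈ A, a * x = x * a

theorem inFam_map {Q : Subgroup G} {A : Subgroup ↥Q} (hA : A ∈ dStarFamily ↥Q) :
    InFam (A.map Q.subtype) Q := by
  refine ⟨Subgroup.map_subtype_le A, ?_, ?_⟩
  · rintro _ ⟨a, ha, rfl⟩ _ ⟨b, hb, rfl⟩
    exact congrArg Q.subtype (Subtype.ext_iff.1 (hA.1.is_comm.comm ⟨a, ha⟩ ⟨b, hb⟩))
  · intro x hx h
    have h' : ⁅⁅A ⊔ Subgroup.zpowers ⟨x, hx⟩, A ⊔ Subgroup.zpowers ⟨x, hx⟩⁆,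
        A ⊔ Subgroup.zpowers ⟨x, hx⟩⁆ = ⊥ := by
      apply Subgroup.map_injective Q.subtype_injective
      rw [Subgroup.map_bot, Subgroup.map_commutator, Subgroup.map_commutator, Subgroup.map_sup,
        MonoidHom.map_zpowers]
      exact h
    rintro _ ⟨a, ha, rfl⟩
    exact congrArg Q.subtype (hA.2 ⟨x, hx⟩ h' a ha)

theorem InFam.le_dStarOf {A Q : Subgroup G} (h : InFam A Q) : A ≤ dStarOf Q := by
  have hmap : (A.subgroupOf Q).map Q.subtype = A := Subgroup.map_subgroupOf_eq_of_le h.le
  have hmem : A.subgroupOf Q ∈ dStarFamily ↥Q := by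
    refine ⟨⟨⟨fun a b => Subtype.ext (Subtype.ext (h.comm _ a.2 _ b.2))⟩⟩, fun x hx a ha => ?_⟩
    refine Subtype.ext (h.cond x x.2 ?_ a ha)
    have h1 := congrArg (Subgroup.map Q.subtype) hx
    rw [Subgroup.map_bot, Subgroup.map_commutator, Subgroup.map_commutator, Subgroup.map_sup,
      MonoidHom.map_zpowers, hmap] at h1
    exact h1
  exact hmap.ge.trans (Subgroup.map_mono (le_sSup hmem))

theorem inFam_dStarOf {Q : Subgroup G} (hQ : IsPGroup p Q) : InFam (dStarOf Q) Q :=
  inFam_map (Cfsg.Agent.S3061.result hQ)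

theorem InFam.mono {A Q Q' : Subgroup G} (h : InFam A Q) (hQ : Q' ≤ Q) (hA : A ≤ Q') : InFam A Q' :=
  ⟨hA, h.comm, fun x hx => h.cond x (hQ hx)⟩

theorem conj_dStarOf_le {Q : Subgroup G} (hQ : IsPGroup p Q) {g : G}
    (hg : g ∈ Subgroup.normalizer (Q : Set G)) :
    (dStarOf Q).map (MulAut.conj g).toMonoidHom ≤ dStarOf Q := by
  have h := inFam_dStarOf hQ
  set f := (MulAut.conj g).toMonoidHom with hf
  refine InFam.le_dStarOf ⟨?_, ?_, ?_⟩
  · rintro _ ⟨a, ha, rfl⟩
    exact (Subgroup.mem_normalizer_iff.1 hg a).1 (h.le ha)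
  · rintro _ ⟨a, ha, rfl⟩ _ ⟨b, hb, rfl⟩
    rw [← map_mul, ← map_mul, h.comm a ha b hb]
  · intro x hx hcl
    set y := g⁻¹ * x * g with hy
    have hyQ : y ∈ Q := (Subgroup.mem_normalizer_iff''.1 hg x).1 hx
    have hfy : f y = x := by simp [hf, hy, mul_assoc]
    have h1 := h.cond y hyQ (by
      apply Subgroup.map_injective (f := f) (MulAut.conj g).injective
      rw [Subgroup.map_bot, Subgroup.map_commutator, Subgroup.map_commutator, Subgroup.map_sup,
        MonoidHom.map_zpowers, hfy]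
      exact hcl)
    rintro _ ⟨a, ha, rfl⟩
    rw [← hfy, ← map_mul, ← map_mul, h1 a ha]

theorem normalizer_le_normalizer_dStarOf {Q : Subgroup G} (hQ : IsPGroup p Q) :
    Subgroup.normalizer (Q : Set G) ≤ Subgroup.normalizer (dStarOf Q : Set G) := by
  intro g hg
  rw [Subgroup.mem_normalizer_iff]
  intro a
  refine ⟨fun ha => conj_dStarOf_le hQ hg ⟨a, ha, rfl⟩, fun ha => ?_⟩
  have h := conj_dStarOf_le hQ (inv_mem hg) ⟨g * a * g⁻¹, ha, rfl⟩
  simpa [mul_assoc] using h

section stable

variable (hc : Subgroup.centralizer (Cfsg.pCore p G : Set G) ≤ Cfsg.pCore p G)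
  (hst : ∀ (P : Subgroup G) [P.Normal], IsPGroup p P → Cfsg.IsPStableOn p P)

include hc hst

theorem dStarOf_le_pCore {Q : Subgroup G} (hQ : IsPGroup p Q) (hTQ : pCore p G ≤ Q) :
    dStarOf Q ≤ pCore p G := by
  intro a ha
  haveI : (pCore p G).Normal := pCore_normal p G
  have hT : IsPGroup p (pCore p G) := CfsgLib.LocalP.isPGroup_pCore
  have h := inFam_dStarOf hQ
  have hTD : ⁅pCore p G, dStarOf Q⁆ ≤ dStarOf Q :=
    Subgroup.le_normalizer_iff_commutator_le_right.1
      (hTQ.trans (Subgroup.le_normalizer.trans (normalizer_le_normalizer_dStarOf hQ)))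
  have hDD : ⁅dStarOf Q, dStarOf Q⁆ = ⊥ :=
    Subgroup.commutator_eq_bot_iff_le_centralizer.2 fun x hx =>
      Subgroup.mem_centralizer_iff.2 fun y hy => h.comm y hy x hx
  have hz : Subgroup.zpowers a ≤ dStarOf Q := Subgroup.zpowers_le.2 ha
  have hq := hst (pCore p G) hT a (eq_bot_iff.2 ((Subgroup.commutator_mono
    ((Subgroup.commutator_mono le_rfl hz).trans hTD) hz).trans hDD.le))
  have hker : IsPGroup p (QuotientGroup.mk' (Subgroup.centralizer (pCore p G : Set G))).ker := by
    rw [QuotientGroup.ker_mk']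
    exact hT.to_le hc
  exact CfsgLib.LocalP.le_pCore ((pCore_normal p _).comap _)
    (CfsgLib.LocalP.isPGroup_pCore.comap_of_ker_isPGroup _ hker)
    (show a ∈ (pCore p _).comap (QuotientGroup.mk' _) from hq)

end stable

/-- The preimage of `O_p(G / C(N))`. -/
def stableKernel (p : ℕ) (N : Subgroup G) [N.Normal] : Subgroup G :=
  (pCore p (G ⧸ Subgroup.centralizer (N : Set G))).comap (QuotientGroup.mk' _)

theorem stableKernel_normal (N : Subgroup G) [N.Normal] : (stableKernel p N).Normal :=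
  (pCore_normal p _).comap _

theorem le_stableKernel {U : Subgroup G} [hU : U.Normal] (hUp : IsPGroup p U) (N : Subgroup G) [N.Normal] :
    U ≤ stableKernel p N :=
  Subgroup.map_le_iff_le_comap.1 (CfsgLib.LocalP.le_pCore (hU.map _ (QuotientGroup.mk'_surjective _))
    (hUp.map _))

/-- The D*-Theorem. For a finite p-group S let D*(S) be the subgroup generated by the abelian subgroups A of S such that every x ∈ S with ⟨A, x⟩ of nilpotency class at most two centralizes A. Let p be an odd prime and H a finite p-stable group with Sylow p-subgroup S. Here H is p-stable in the following sense: the largest normal p-subgroup O_p(H) contains its centralizer in H, and for every normal p-subgroup P of H, every element acting quadratically on P has image in O_p(H/C_H(P)). Then D*(S) is a normal subgroup of H. -/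
theorem result {G : Type*} [Group G] [Finite G] {p : ℕ} [Fact p.Prime] (hp : p ≠ 2)
    (hc : Subgroup.centralizer (Cfsg.pCore p G : Set G) ≤ Cfsg.pCore p G)
    (hst : ∀ (P : Subgroup G) [P.Normal], IsPGroup p P → Cfsg.IsPStableOn p P) (S : Sylow p G) :
    (Cfsg.dStarOf (S : Subgroup G)).Normal := by
  have hp' : p.Prime := Fact.out
  clear hp
  set T := pCore p G with hTdef
  haveI : T.Normal := pCore_normal p G
  have hT : IsPGroup p T := CfsgLib.LocalP.isPGroup_pCore
  have hTS : T ≤ (S : Subgroup G) := hT.le_sylow_of_normal S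
  -- candidates
  let good : Subgroup G → Prop := fun N => ∃ _ : N.Normal, N ≤ T ∧ (∀ a ∈ N, ∀ b ∈ N, a * b = b * a) ∧
    ∀ Q : Subgroup G, T ≤ Q → Q ≤ (S : Subgroup G) → (S : Subgroup G) ⊓ stableKernel p N ≤ Q →
      dStarOf Q ≤ N
  have hE : good (dStarOf T) := by
    refine ⟨Subgroup.normalizer_eq_top_iff.1 (top_le_iff.1
        ((Subgroup.normalizer_eq_top (H := T)).ge.trans (normalizer_le_normalizer_dStarOf hT))),
      (inFam_dStarOf hT).le, (inFam_dStarOf hT).comm, fun Q hTQ hQS _ => ?_⟩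
    have hQ : IsPGroup p Q := S.2.to_le hQS
    exact ((inFam_dStarOf hQ).mono hTQ (dStarOf_le_pCore hc hst hQ hTQ)).le_dStarOf
  obtain ⟨N, hN⟩ := (Set.toFinite {N | good N}).exists_minimal ⟨_, hE⟩
  obtain ⟨hNn, hNT, hNab, hNQ⟩ := hN.1
  set L := stableKernel p N with hL
  haveI : L.Normal := stableKernel_normal N
  set P := (S : Subgroup G) ⊓ L with hP
  have hPp : IsPGroup p P := S.2.to_le inf_le_left
  have hTP : T ≤ P := le_inf hTS (le_stableKernel hT N)
  set D := dStarOf P with hD
  have hDT : D ≤ T := dStarOf_le_pCore hc hst hPp hTP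
  have hDN : D ≤ N := hNQ P hTP inf_le_left le_rfl
  set C := Subgroup.centralizer (N : Set G) with hC
  have hCL : C ≤ L := fun c hcC => by
    show QuotientGroup.mk' C c ∈ pCore p _
    rw [show QuotientGroup.mk' C c = 1 from (QuotientGroup.eq_one_iff c).2 hcC]
    exact one_mem _
  -- `P` is a Sylow subgroup of `L`
  obtain ⟨R, hR⟩ := (S.2.comap_subtype (K := L)).exists_le_sylow
  have hRP : (R : Subgroup L).map L.subtype = P :=
    (CfsgLib.PElementClassSize.inf_sylow_eq L S (R.2.map _) (fun a ha => ⟨⟨a, ha.2⟩, hR ha.1, rfl⟩)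
      (Subgroup.map_subtype_le _)).symm
  have hfr : Subgroup.normalizer (P : Set G) ⊔ L = ⊤ := hRP ▸ Sylow.normalizer_sup_eq_top R
  -- `L = C P`
  have hLCP : L ≤ C ⊔ P := by
    set π := (QuotientGroup.mk' C).comp L.subtype with hπ
    have hrange : π.range = pCore p (G ⧸ C) := by
      rw [hπ, MonoidHom.range_comp, Subgroup.range_subtype, hL, stableKernel,
        Subgroup.map_comap_eq_self_of_surjective (QuotientGroup.mk'_surjective _)]
    have hrp : IsPGroup p (⊤ : Subgroup π.range) :=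
      (hrange ▸ CfsgLib.LocalP.isPGroup_pCore : IsPGroup p π.range).to_subgroup ⊤
    have htop : ((R.mapSurjective π.rangeRestrict_surjective : Sylow p π.range) : Subgroup π.range) = ⊤ :=
      ((R.mapSurjective π.rangeRestrict_surjective).3 hrp le_top).symm
    intro l hl
    obtain ⟨r, hr, hrl⟩ := (Sylow.coe_mapSurjective π.rangeRestrict_surjective R ▸ htop).ge
      (Subgroup.mem_top (π.rangeRestrict ⟨l, hl⟩))
    have hrl' : QuotientGroup.mk' C (r : G) = QuotientGroup.mk' C l := congrArg Subtype.val hrl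
    have h1 : l * (r : G)⁻¹ ∈ C := by
      rw [← QuotientGroup.eq_one_iff, ← QuotientGroup.mk'_apply, map_mul, map_inv, ← hrl', mul_inv_cancel]
    rw [← inv_mul_cancel_right l (r : G)]
    exact Subgroup.mul_mem_sup h1 (hRP ▸ ⟨r, hr, rfl⟩)
  -- `D` is normal
  haveI hDn : D.Normal := by
    rw [← Subgroup.normalizer_eq_top_iff, eq_top_iff, ← hfr]
    refine sup_le (normalizer_le_normalizer_dStarOf hPp) (hLCP.trans (sup_le ?_ ?_))
    · exact fun c hcC => (Subgroup.centralizer_le_normalizer _)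
        (Subgroup.centralizer_le (SetLike.coe_subset_coe.2 hDN) hcC)
    · exact Subgroup.le_normalizer.trans (normalizer_le_normalizer_dStarOf hPp)
  have hgood : good D := by
    refine ⟨hDn, hDT, (inFam_dStarOf hPp).comm, fun Q hTQ hQS hLQ => ?_⟩
    have hQ : IsPGroup p Q := S.2.to_le hQS
    have hPQ : P ≤ Q := by
      refine le_trans (le_inf inf_le_left ?_) hLQ
      refine inf_le_right.trans (hLCP.trans (sup_le ?_ ?_))
      · intro c hcC
        show QuotientGroup.mk' _ c ∈ pCore p _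
        rw [show QuotientGroup.mk' _ c = 1 from (QuotientGroup.eq_one_iff c).2
          (Subgroup.centralizer_le (SetLike.coe_subset_coe.2 hDN) hcC)]
        exact one_mem _
      · intro x hx
        have hLD : P.map (QuotientGroup.mk' (Subgroup.centralizer (D : Set G))) ≤ pCore p _ := by
          have hLn : ((C ⊔ P).map (QuotientGroup.mk' (Subgroup.centralizer (D : Set G)))).Normal := by
            rw [le_antisymm (sup_le hCL inf_le_right) hLCP]
            exact (inferInstance : L.Normal).map _ (QuotientGroup.mk'_surjective _)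
          have hCbot : C.map (QuotientGroup.mk' (Subgroup.centralizer (D : Set G))) = ⊥ := by
            rw [Subgroup.map_eq_bot_iff, QuotientGroup.ker_mk']
            exact Subgroup.centralizer_le (SetLike.coe_subset_coe.2 hDN)
          rw [Subgroup.map_sup, hCbot, bot_sup_eq] at hLn
          exact CfsgLib.LocalP.le_pCore hLn (hPp.map _)
        exact hLD ⟨x, hx, rfl⟩
    exact ((inFam_dStarOf hQ).mono hPQ ((dStarOf_le_pCore hc hst hQ hTQ).trans hTP)).le_dStarOf
  have hND : D = N := le_antisymm hDN (hN.2 hgood hDN)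
  -- `N = D*(S)`
  suffices h : dStarOf (S : Subgroup G) = N by rw [h]; exact hNn
  refine le_antisymm (hNQ _ hTS le_rfl inf_le_left) (InFam.le_dStarOf ⟨hNT.trans hTS, hNab, ?_⟩)
  intro x hx hcl a ha
  have hq := hst N (hT.to_le hNT) x (eq_bot_iff.2 ((Subgroup.commutator_mono
    (Subgroup.commutator_mono le_sup_left le_sup_right) le_sup_right).trans hcl.le))
  have hxP : x ∈ P := ⟨hx, hq⟩
  exact (inFam_dStarOf hPp).cond x hxP (by rw [← hD, hND]; exact hcl) a (by rw [← hD, hND]; exact ha)

end Cfsg.Agent.S3060
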