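import Cfsg.Statements.S3064
import Cfsg.Agent.Chars.Apps.FrobeniusKernel
import Mathlib.GroupTheory.SchurZassenhaus
-- import your own Cfsg.Agent.* helpers here

set_option autoImplicit false
open Cfsg

namespace Cfsg.Agent.S3064

universe u

/-- Induction: an isolated `p`-element centralizing all its invariant `p'`-subgroups is central. -/
theorem key {p : ℕ} [Fact p.Prime] : ∀ (n : ℕ) (G : Type u) [Group G] [Finite G], Nat.card G = n →
    ∀ x : G, IsPGroup p (Subgroup.zpowers x) →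
    (∀ Q : Subgroup G, IsPGroup p Q → x ∈ Q → ∀ g : G, g * x * g⁻¹ ∈ Q → g * x * g⁻¹ = x) →
    (∀ H : Subgroup G, (Nat.card H).Coprime p → (∀ h ∈ H, x * h * x⁻¹ ∈ H) →
      ∀ h ∈ H, x * h = h * x) →
    x ∈ Subgroup.center G := by
  intro n
  induction n using Nat.strong_induction_on with
  | _ n ih =>
  intro G _ _ hcard x hxp hiso hb
  subst hcard
  classical
  set C : Subgroup G := Subgroup.centralizer ({x} : Set G) with hCdef
  have hxC : x ∈ C := Subgroup.mem_centralizer_singleton_iff.mpr rfl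
  -- proper subgroups containing `x` centralize it
  have hmax : ∀ H : Subgroup G, H ≠ ⊤ → x ∈ H → H ≤ C := by
    intro H hH hxH
    have hlt : Nat.card H < Nat.card G := by
      refine lt_of_le_of_ne (Nat.le_of_dvd Nat.card_pos H.card_subgroup_dvd_card) fun e => hH ?_
      exact Subgroup.eq_top_of_card_eq H e
    obtain ⟨k, hk⟩ := IsPGroup.iff_card.mp hxp
    rw [Nat.card_zpowers] at hk
    have h := ih _ hlt H rfl ⟨x, hxH⟩
      (IsPGroup.iff_card.mpr ⟨k, by rw [Nat.card_zpowers, Subgroup.orderOf_mk, hk]⟩)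
      (fun Q hQ hxQ g hg => Subtype.ext (hiso (Q.map H.subtype) (hQ.map _) ⟨_, hxQ, rfl⟩ (g : G)
        ⟨_, hg, rfl⟩))
      (fun L hL hinv l hl => Subtype.ext (hb (L.map H.subtype)
        (by rwa [Subgroup.card_map_of_injective H.subtype_injective])
        (by rintro _ ⟨y, hy, rfl⟩; exact ⟨_, hinv y hy, rfl⟩) (l : G) ⟨l, hl, rfl⟩))
    intro y hy
    exact Subgroup.mem_centralizer_singleton_iff.mpr
      (congrArg Subtype.val (Subgroup.mem_center_iff.mp h ⟨y, hy⟩))
  -- a commuting conjugate equals `x`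
  have hcomm : ∀ g : G, Commute x (g * x * g⁻¹) → g ∈ C := by
    intro g hg
    have hA : IsPGroup p (Subgroup.zpowers x ⊔ Subgroup.zpowers (g * x * g⁻¹) : Subgroup G) := by
      refine IsPGroup.to_sup_of_normal_right' hxp ?_ ?_
      · have : Subgroup.zpowers (g * x * g⁻¹) = (Subgroup.zpowers x).map (MulAut.conj g).toMonoidHom := by
          rw [MonoidHom.map_zpowers]; rfl
        rw [this]
        exact hxp.map _
      · rw [Subgroup.zpowers_le, Subgroup.mem_normalizer_iff]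
        intro h
        constructor
        · rintro ⟨m, rfl⟩
          exact ⟨m, (eq_mul_inv_iff_mul_eq.mpr (hg.zpow_right m).eq.symm)⟩
        · rintro ⟨m, hm⟩
          refine ⟨m, ?_⟩
          simp only at hm ⊢
          calc (g * x * g⁻¹) ^ m = x⁻¹ * (x * (g * x * g⁻¹) ^ m) := by group
            _ = x⁻¹ * ((g * x * g⁻¹) ^ m * x) := by rw [(hg.zpow_right m).eq]
            _ = h := by rw [hm]; group
    have := hiso _ hA (Subgroup.mem_sup_left (Subgroup.mem_zpowers x)) g
      (Subgroup.mem_sup_right (Subgroup.mem_zpowers _))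
    exact Subgroup.mem_centralizer_singleton_iff.mpr (mul_inv_eq_iff_eq_mul.mp this)
  by_contra hcen
  set Z := Subgroup.center G with hZ
  have hZC : Z ≤ C := fun z hz => Subgroup.mem_centralizer_singleton_iff.mpr
    ((Subgroup.mem_center_iff.mp hz x).symm)
  -- `C / Z` meets its conjugates trivially
  let π := QuotientGroup.mk' Z
  have hTI : ∀ g h : G ⧸ Z, h ∈ C.map π → h ≠ 1 → g * h * g⁻¹ ∈ C.map π → g ∈ C.map π := by
    rintro g h ⟨c, hc, rfl⟩ hne hgc
    obtain ⟨g, rfl⟩ := QuotientGroup.mk'_surjective Z g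
    have hc' : g * c * g⁻¹ ∈ C := by
      obtain ⟨d, hd, hde⟩ := hgc
      have h1 : d⁻¹ * (g * c * g⁻¹) ∈ Z := QuotientGroup.eq.mp (by simpa [π] using hde)
      have h2 := C.mul_mem hd (hZC h1)
      simpa using h2
    refine ⟨g, ?_, rfl⟩
    have hcz : c ∉ Z := fun h => hne ((QuotientGroup.eq_one_iff c).mpr h)
    have hle : Subgroup.centralizer ({c} : Set G) ≤ C := hmax _
      (fun e => hcz (Subgroup.mem_center_iff.mpr fun y =>
        (Subgroup.mem_centralizer_singleton_iff.mp (e ▸ Subgroup.mem_top y))))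
      (Subgroup.mem_centralizer_singleton_iff.mpr (Subgroup.mem_centralizer_singleton_iff.mp hc).symm)
    have hmem : g⁻¹ * x * g⁻¹⁻¹ ∈ Subgroup.centralizer ({c} : Set G) := by
      rw [Subgroup.mem_centralizer_singleton_iff]
      have h1 := Subgroup.mem_centralizer_singleton_iff.mp hc'
      calc g⁻¹ * x * g⁻¹⁻¹ * c = g⁻¹ * (x * (g * c * g⁻¹)) * g := by group
        _ = g⁻¹ * ((g * c * g⁻¹) * x) * g := by rw [← h1]
        _ = c * (g⁻¹ * x * g⁻¹⁻¹) := by group
    exact C.inv_mem_iff.mp (hcomm g⁻¹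
      (Subgroup.mem_centralizer_singleton_iff.mp (hle hmem)).symm)
  obtain ⟨K, hK, -, hKcard, -, hcompl⟩ :=
    CfsgLib.Chars.Apps.exists_normal_complement_of_malnormal (C.map π) hTI
  have hKp : ¬ p ∣ Nat.card K := by
    rw [hKcard, Subgroup.index_map_eq C (f := π) (QuotientGroup.mk'_surjective Z)
      (by rw [QuotientGroup.ker_mk']; exact hZC)]
    obtain ⟨Q, hQ⟩ := hxp.exists_le_sylow
    have hxQ : x ∈ (Q : Subgroup G) := hQ (Subgroup.mem_zpowers x)
    have hQC : (Q : Subgroup G) ≤ C := fun q hq => Subgroup.mem_centralizer_singleton_iff.mpr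
      (mul_inv_eq_iff_eq_mul.mp (hiso Q Q.isPGroup' hxQ q
        ((Q : Subgroup G).mul_mem ((Q : Subgroup G).mul_mem hq hxQ) (Q.inv_mem hq))))
    exact fun h => Q.not_dvd_index (h.trans (Subgroup.index_dvd_of_le hQC))
  set L := K.comap π with hL
  obtain ⟨P⟩ : Nonempty (Sylow p L) := inferInstance
  have hPZ : ∀ y : L, y ∈ (P : Subgroup L) → (y : G) ∈ Z := by
    intro y hy
    let φ : (P : Subgroup L) →* K :=
      { toFun := fun q => ⟨π ((q : L) : G), (q : L).2⟩
        map_one' := Subtype.ext (map_one π)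
        map_mul' := fun a b => Subtype.ext (map_mul π _ _) }
    obtain ⟨k, hk⟩ := P.isPGroup' ⟨y, hy⟩
    have h2 : φ ⟨y, hy⟩ = 1 := orderOf_eq_one_iff.mp (Nat.dvd_one.mp
      (((Nat.Prime.coprime_iff_not_dvd (Fact.out : p.Prime)).mpr hKp).pow_left k ▸ Nat.dvd_gcd
        (orderOf_dvd_of_pow_eq_one (by rw [← map_pow, hk, map_one]))
        (orderOf_dvd_natCard (φ ⟨y, hy⟩))))
    exact (QuotientGroup.eq_one_iff _).mp (congrArg Subtype.val h2)
  have hPc : ∀ (q : L), q ∈ (P : Subgroup L) → ∀ l : L, l * q = q * l := fun q hq l =>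
    Subtype.ext (Subgroup.mem_center_iff.mp (hPZ q hq) (l : G))
  haveI : (P : Subgroup L).Normal := ⟨fun q hq l => by rwa [hPc q hq l, mul_inv_cancel_right]⟩
  obtain ⟨H, hH⟩ := Subgroup.exists_right_complement'_of_coprime (N := (P : Subgroup L))
    (P.card_coprime_index)
  have hHcop : (Nat.card H).Coprime p := by
    rw [← hH.symm.index_eq_card]
    exact ((Nat.Prime.coprime_iff_not_dvd Fact.out).mpr P.not_dvd_index).symm
  have hdec : ∀ l : L, ∃ q ∈ (P : Subgroup L), ∃ h ∈ H, l = q * h := fun l => by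
    obtain ⟨⟨⟨q, hq⟩, ⟨h, hh⟩⟩, e⟩ := hH.2 l
    exact ⟨q, hq, h, hh, e.symm⟩
  have hord : ∀ l : L, l ^ Nat.card H = 1 → l ∈ H := by
    intro l hl
    obtain ⟨q, hq, h, hh, rfl⟩ := hdec l
    have e : q ^ Nat.card H = 1 := by
      rw [(show Commute q h from (hPc q hq h).symm).mul_pow,
        show h ^ Nat.card H = 1 from congrArg Subtype.val (pow_card_eq_one' (x := (⟨h, hh⟩ : H))),
        mul_one] at hl
      exact hl
    obtain ⟨k, hk⟩ := P.isPGroup' ⟨q, hq⟩
    have hk' : q ^ p ^ k = 1 := congrArg Subtype.val hk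
    have : q = 1 := orderOf_eq_one_iff.mp (Nat.dvd_one.mp
      ((hHcop.pow_right k) ▸ Nat.dvd_gcd (orderOf_dvd_of_pow_eq_one e) (orderOf_dvd_of_pow_eq_one hk')))
    rw [this, one_mul]; exact hh
  haveI : L.Normal := hK.comap π
  have hxH : ∀ h ∈ H.map L.subtype, x * h = h * x := by
    refine hb _ (by rwa [Subgroup.card_map_of_injective L.subtype_injective]) ?_
    rintro _ ⟨h, hh, rfl⟩
    refine ⟨⟨x * h * x⁻¹, Subgroup.Normal.conj_mem ‹_› _ h.2 x⟩, hord _ (Subtype.ext ?_), rfl⟩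
    have e : h ^ Nat.card H = 1 := congrArg Subtype.val (pow_card_eq_one' (x := (⟨h, hh⟩ : H)))
    rw [SubmonoidClass.coe_pow, conj_pow, ← SubmonoidClass.coe_pow, e]
    simp
  have hxL : L ≤ C := by
    intro l hl
    obtain ⟨q, hq, h, hh, e⟩ := hdec ⟨l, hl⟩
    have e' : l = (q : G) * h := congrArg Subtype.val e
    rw [e']
    refine C.mul_mem (hZC (hPZ q hq)) ?_
    exact Subgroup.mem_centralizer_singleton_iff.mpr (hxH _ ⟨h, hh, rfl⟩).symm
  refine hcen (Subgroup.mem_center_iff.mpr fun g => ?_)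
  obtain ⟨⟨⟨k, hk⟩, ⟨_, c, hc, rfl⟩⟩, e⟩ := hcompl.2 (π g)
  obtain ⟨k, rfl⟩ := QuotientGroup.mk'_surjective Z k
  have e1 : (k * c)⁻¹ * g ∈ Z := QuotientGroup.eq.mp (by simpa [π] using e)
  have e2 : g ∈ C := by
    have := C.mul_mem (C.mul_mem (hxL hk) hc) (hZC e1)
    simpa [mul_assoc] using this
  exact Subgroup.mem_centralizer_singleton_iff.mp e2

/-- Let S be a Sylow p-subgroup of the finite group G and x an element of S such that (i) x is the only G-conjugate of x lying in S, and (ii) x centralizes every subgroup of order prime to p that it normalizes. Then x lies in the centre of G. -/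
theorem result {G : Type*} [Group G] [Finite G] {p : ℕ} [Fact p.Prime]
    (S : Sylow p G) (x : G) (hx : x ∈ S)
    (hU : ∀ g : G, g⁻¹ * x * g ∈ S → g⁻¹ * x * g = x)
    (hb : ∀ H : Subgroup G, (Nat.card H).Coprime p → (∀ h ∈ H, x * h * x⁻¹ ∈ H) → ∀ h ∈ H, x * h = h * x) :
    x ∈ Subgroup.center G := by
  obtain ⟨k, hk⟩ := S.isPGroup' ⟨x, hx⟩
  have hxp : IsPGroup p (Subgroup.zpowers x) :=
    S.isPGroup'.to_le (Subgroup.zpowers_le.mpr hx)
  refine key _ G rfl x hxp (fun Q hQ hxQ g hg => ?_) hb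
  obtain ⟨T, hT⟩ := hQ.exists_le_sylow
  obtain ⟨a, ha⟩ := MulAction.exists_smul_eq G T S
  have hmem : ∀ y ∈ Q, a * y * a⁻¹ ∈ S := by
    intro y hy
    rw [← ha]
    exact ⟨y, hT hy, by simp⟩
  have h1 := hU a⁻¹ (by simpa using hmem x hxQ)
  have h2 := hU (a * g)⁻¹ (by simpa [mul_assoc] using hmem _ hg)
  have h3 : a * (g * x * g⁻¹) * a⁻¹ = a * x * a⁻¹ := by
    have e1 : a * x * a⁻¹ = x := by simpa using h1
    rw [e1]
    simpa [mul_assoc] using h2
  exact mul_left_cancel (mul_right_cancel h3)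

end Cfsg.Agent.S3064
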