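import Cfsg.Statements.S3067
import Cfsg.Agent.CoprimeInvolCentralizer.Main

set_option autoImplicit false
open Cfsg

namespace Cfsg.Agent.S3067

/-- Let G be a finite non-abelian simple group, τ an involution of G, and α a nontrivial automorphism of G whose order is coprime to the order of G. Then α moves some element of the centralizer of τ: α does not fix C_G(τ) elementwise. -/
theorem result {G : Type*} [Group G] [Finite G] [IsSimpleGroup G]
    (hG : ¬ IsMulCommutative G) (τ : G) (hτ : orderOf τ = 2) (α : MulAut G) (hα : α ≠ 1)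
    (hcop : (orderOf α).Coprime (Nat.card G)) :
    ∃ c ∈ Subgroup.centralizer ({τ} : Set G), α c ≠ c := by
  by_contra hno
  push Not at hno
  have hC : Subgroup.centralizer ({τ} : Set G) ≤ CfsgLib.CoprimeInvolCentralizer.fixSub α :=
    fun c hc => hno c hc
  have htop : CfsgLib.CoprimeInvolCentralizer.fixSub α ≠ ⊤ := fun h => hα (by
    ext g
    exact (h ▸ Subgroup.mem_top g : g ∈ CfsgLib.CoprimeInvolCentralizer.fixSub α))
  have hcore : (CfsgLib.CoprimeInvolCentralizer.fixSub α).normalCore = ⊥ :=
    (IsSimpleGroup.eq_bot_or_eq_top_of_normal _ (Subgroup.normalCore_normal _)).resolve_right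
      fun h => htop (top_le_iff.mp (h ▸ Subgroup.normalCore_le _))
  have hiso : Cfsg.IsIsolated τ := fun g hcomm =>
    CfsgLib.CoprimeInvolCentralizer.conj_eq_of_mem hC hcop hτ hcore htop
      (isConj_iff.mpr ⟨g, rfl⟩)
      (hC (Subgroup.mem_centralizer_singleton_iff.mpr hcomm.symm.eq))
  have hz := CfsgLib.ZStar.inZStar_of_isolated hτ hiso
  rcases IsSimpleGroup.eq_bot_or_eq_top_of_normal (Cfsg.pPrimeCore 2 G) inferInstance with h | h
  · have hcen : τ ∈ Subgroup.center G := Subgroup.mem_center_iff.mpr fun g => by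
      have h1 := hz g
      rw [h, Subgroup.mem_bot] at h1
      exact mul_inv_eq_iff_eq_mul.mp (mul_inv_eq_one.mp h1)
    rcases IsSimpleGroup.eq_bot_or_eq_top_of_normal (Subgroup.center G) inferInstance with h2 | h2
    · rw [h2, Subgroup.mem_bot] at hcen
      rw [hcen, orderOf_one] at hτ
      omega
    · exact hG ⟨⟨fun x y => (Subgroup.mem_center_iff.mp (h2 ▸ Subgroup.mem_top y) x)⟩⟩
  · have h2 := CfsgLib.Constrained.pPrimeCore_not_dvd (p := 2) (G := G)
    rw [h, Subgroup.card_top] at h2
    exact h2 (hτ ▸ orderOf_dvd_natCard τ)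

end Cfsg.Agent.S3067
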