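import Cfsg.Statements.S3069
import Cfsg.Agent.S1991

set_option autoImplicit false
open Cfsg

namespace Cfsg.Agent.S3069

/-- Let p ≥ 7 be a prime and S a nontrivial Sylow p-subgroup of the finite group G. If N_G(S)/C_G(S) is a p-group (every element of N_G(S) of order prime to p centralizes S), then O^p(G) < G, i.e. G has a nontrivial p-factor group. -/
theorem result {G : Type*} [Group G] [Finite G] {p : ℕ} [Fact p.Prime]
    (hp : 7 ≤ p) (S : Sylow p G) (hS : (S : Subgroup G) ≠ ⊥)
    (hN : ∀ g ∈ Subgroup.normalizer ((S : Subgroup G) : Set G), (orderOf g).Coprime p →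
      g ∈ Subgroup.centralizer ((S : Subgroup G) : Set G)) :
    Cfsg.pResidual p G ≠ ⊤ := by
  obtain ⟨N, hN', hidx⟩ := Cfsg.Agent.S1991.result (show 5 ≤ p by omega) S hS hN
  haveI := hN'
  intro htop
  have hle : Cfsg.pResidual p G ≤ N := by
    refine (Subgroup.closure_le _).2 fun g hg => ?_
    have h1 : orderOf (QuotientGroup.mk' N g) ∣ N.index := orderOf_dvd_natCard _
    rw [hidx] at h1
    have h2 : orderOf (QuotientGroup.mk' N g) = 1 :=
      Nat.eq_one_of_dvd_coprimes hg (orderOf_map_dvd _ g) h1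
    exact (QuotientGroup.eq_one_iff g).1 (orderOf_eq_one_iff.1 h2)
  rw [htop, top_le_iff] at hle
  rw [hle, Subgroup.index_top] at hidx
  exact (Fact.out : p.Prime).ne_one hidx.symm

end Cfsg.Agent.S3069
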