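import Cfsg.Statements.S3072
import Cfsg.Agent.Alperin48.Strong

set_option autoImplicit false
open Cfsg

namespace Cfsg.Agent.S3072

theorem aux_step {G : Type*} [Group G] [Finite G] {p : ℕ} [Fact p.Prime] (P : Sylow p G) {H : Subgroup G}
    {x : G} (h : CfsgLib.Alperin48.IsStrongStep p (P : Subgroup G) H x) :
    ∃ X : Subgroup G,
        H ≤ (P : Subgroup G) ∧
        ¬ p ∣ ((P : Subgroup G) ⊓ Subgroup.normalizer (H : Set G)).relIndex (Subgroup.normalizer (H : Set G)) ∧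
        (P : Subgroup G) ⊓ Subgroup.centralizer (H : Set G) ≤ H ∧
        (Cfsg.pPrimePCore p ↥(Subgroup.normalizer (H : Set G))).map (Subgroup.normalizer (H : Set G)).subtype =
          H ⊔ Subgroup.centralizer (H : Set G) ∧
        ¬ Cfsg.IsSylowChainConnected p
            (↥(Subgroup.normalizer (H : Set G)) ⧸ H.subgroupOf (Subgroup.normalizer (H : Set G))) ∧
        (H ≤ X ∧ X ≤ Subgroup.normalizer (H : Set G) ∧
          (X.subgroupOf (Subgroup.normalizer (H : Set G))).Normal ∧ p ∣ H.relIndex X ∧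
          ∀ Y : Subgroup G, H ≤ Y → Y ≤ Subgroup.normalizer (H : Set G) →
            (Y.subgroupOf (Subgroup.normalizer (H : Set G))).Normal → p ∣ H.relIndex Y → X ≤ Y) ∧
        x ∈ (Cfsg.pResidual p ↥X).map X.subtype := by
  obtain ⟨hlt, hfull, hrad, hnot, hx⟩ := h
  obtain ⟨X, hHX, hXN, hNX, hXp, hleast⟩ := CfsgLib.Alperin48.exists_least P hlt hfull hnot
  have hcen := CfsgLib.Alperin.centric_of_radical P hrad
  obtain ⟨K, hKC, hKn, hKc, -, hiff, hsup⟩ :=
    CfsgLib.Alperin.exists_centralizer_complement P hlt.le hfull hcen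
  have hK := CfsgLib.Alperin.pPrimeCore_normalizer P hlt.le hKC hKn hKc hiff
  have hM := CfsgLib.Alperin.pPrimePCore_normalizer P hlt.le hfull hrad hK hKC hsup
  refine ⟨X, hlt.le, hfull, hcen, ?_, CfsgLib.Alperin48.not_chainConnected P hlt hfull hnot,
    ⟨hHX, hXN, (Subgroup.normal_subgroupOf_iff_le_normalizer hXN).2 hNX, hXp,
      fun Y h1 h2 h3 h4 => hleast Y h1 h2 ((Subgroup.normal_subgroupOf_iff_le_normalizer h2).1 h3) h4⟩, ?_⟩
  · rw [hM]
    refine le_antisymm (sup_le (hKC.trans le_sup_right) le_sup_left) (sup_le le_sup_right ?_)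
    rw [hsup]
    exact sup_le (inf_le_left.trans le_sup_right) le_sup_left
  · rw [CfsgLib.Alperin48.map_pResidual]
    exact hx X hHX hXN hNX hXp

/-- A strong form of the Alperin–Goldschmidt fusion Theorem. Let P be a Sylow p-subgroup of the finite group G, A a subset of P containing a nonidentity element, and g an element with g⁻¹Ag ⊆ P. Then g = c·x₁⋯xₙ·y with c ∈ C_G(A), y ∈ N_G(P) and, for each i, an element xᵢ and a subgroup Hᵢ ≤ P such that: N_P(Hᵢ) is a Sylow p-subgroup of N_G(Hᵢ); C_P(Hᵢ) ≤ Hᵢ; O_{p',p}(N_G(Hᵢ)) = Hᵢ·C_G(Hᵢ); the Sylow p-subgroups of N_G(Hᵢ)/Hᵢ are not chain-connected through nontrivial intersections (the quotient has a strongly p-embedded subgroup); xᵢ lies in O^p(Xᵢ), where Xᵢ/Hᵢ is the smallest normal subgroup of N_G(Hᵢ)/Hᵢ of order divisible by p; and (x₁⋯xᵢ₋₁)⁻¹A(x₁⋯xᵢ₋₁) ⊆ Hᵢ. -/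
theorem result {G : Type*} [Group G] [Finite G] {p : ℕ} [Fact p.Prime]
    (P : Sylow p G) (A : Set G) (hA : A ⊆ (P : Set G)) (hA1 : ∃ a ∈ A, a ≠ 1)
    (g : G) (hAg : (fun a => g⁻¹ * a * g) '' A ⊆ (P : Set G)) :
    ∃ (n : ℕ) (H X : Fin n → Subgroup G) (x : Fin n → G) (c y : G),
      c ∈ Subgroup.centralizer A ∧ y ∈ Subgroup.normalizer ((P : Subgroup G) : Set G) ∧
      g = c * (List.ofFn x).prod * y ∧
      ∀ i : Fin n,
        H i ≤ (P : Subgroup G) ∧
        ¬ p ∣ ((P : Subgroup G) ⊓ Subgroup.normalizer (H i : Set G)).relIndex (Subgroup.normalizer (H i : Set G)) ∧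
        (P : Subgroup G) ⊓ Subgroup.centralizer (H i : Set G) ≤ H i ∧
        (Cfsg.pPrimePCore p ↥(Subgroup.normalizer (H i : Set G))).map (Subgroup.normalizer (H i : Set G)).subtype =
          H i ⊔ Subgroup.centralizer (H i : Set G) ∧
        ¬ Cfsg.IsSylowChainConnected p
            (↥(Subgroup.normalizer (H i : Set G)) ⧸ (H i).subgroupOf (Subgroup.normalizer (H i : Set G))) ∧
        (H i ≤ X i ∧ X i ≤ Subgroup.normalizer (H i : Set G) ∧
          ((X i).subgroupOf (Subgroup.normalizer (H i : Set G))).Normal ∧ p ∣ (H i).relIndex (X i) ∧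
          ∀ Y : Subgroup G, H i ≤ Y → Y ≤ Subgroup.normalizer (H i : Set G) →
            (Y.subgroupOf (Subgroup.normalizer (H i : Set G))).Normal → p ∣ (H i).relIndex Y → X i ≤ Y) ∧
        x i ∈ (Cfsg.pResidual p ↥(X i)).map (X i).subtype ∧
        (fun a => (((List.ofFn x).take i.val).prod)⁻¹ * a * ((List.ofFn x).take i.val).prod) '' A ⊆ (H i : Set G) := by
  have key := CfsgLib.Alperin48.strongGood P (Subgroup.closure A) g⁻¹ ((Subgroup.closure_le _).2 hA)
    (by
      rw [MonoidHom.map_closure, Subgroup.closure_le]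
      rintro _ ⟨a, ha, rfl⟩
      simpa using hAg ⟨a, ha, rfl⟩) A Subgroup.subset_closure
  obtain ⟨c, hc, g', y, hy, hch, hgc⟩ := key
  rw [inv_inv] at hgc
  obtain ⟨n, H, x, hprod, hgood, hfirst, hstep⟩ := hch.exists_fin
  choose X hX using fun i => aux_step P (hgood i)
  refine ⟨n, H, X, x, c, y, hc, hy, by rw [hgc, hprod], fun i => ?_⟩
  obtain ⟨h1, h2, h3, h4, h5, h6, h7⟩ := hX i
  refine ⟨h1, h2, h3, h4, h5, h6, h7, ?_⟩
  rcases i with ⟨_ | j, hi⟩
  · simp only [List.take_zero, List.prod_nil]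
    rw [CfsgLib.Alperin.image_conj_one]
    exact hfirst hi
  · exact hstep ⟨j, Nat.lt_of_succ_lt hi⟩ hi

end Cfsg.Agent.S3072
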