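import Cfsg.Statements.S3073
import Cfsg.Agent.S1988
import Cfsg.Agent.ConjFunctor.KInfFunctor

set_option autoImplicit false
universe u
open Cfsg

namespace Cfsg.Agent.S3073

/-- For an odd prime p, every finite p-group S has a characteristic subgroup K with C_S(K) ≤ K such that, whenever S is (isomorphic to) a Sylow p-subgroup of a finite group G, G has a normal p-complement if and only if N_G(K)/C_G(K) is a p-group, i.e. every element of N_G(K) of order prime to p centralizes K (K transported into G along the isomorphism). -/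
theorem result (p : ℕ) [Fact p.Prime] (hp : p ≠ 2)
    (S : Type u) [Group S] [Finite S] (hS : IsPGroup p S) :
    ∃ K : Subgroup S, K.Characteristic ∧ Subgroup.centralizer (K : Set S) ≤ K ∧
      ∀ (G : Type u) [Group G] [Finite G] (P : Sylow p G) (e : ↥(P : Subgroup G) ≃* S),
        Cfsg.HasNormalPComplement p G ↔
          ∀ g ∈ Subgroup.normalizer (((K.comap (e : ↥(P : Subgroup G) →* S)).map (P : Subgroup G).subtype : Subgroup G) : Set G),
            (orderOf g).Coprime p →
              g ∈ Subgroup.centralizer (((K.comap (e : ↥(P : Subgroup G) →* S)).map (P : Subgroup G).subtype : Subgroup G) : Set G) := by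
  refine ⟨Cfsg.kInfLower S, ?_, CfsgLib.ConjFunctor.centralizer_kInfLower_le hS.isNilpotent,
    fun G _ _ P e => ?_⟩
  · refine Subgroup.characteristic_iff_map_eq.2 fun φ => ?_
    exact (CfsgLib.ConjFunctor.kInf_map_equiv φ).1
  have he : (Cfsg.kInfLower S).comap (e : ↥(P : Subgroup G) →* S) = Cfsg.kInfLower ↥(P : Subgroup G) := by
    have h1 := (CfsgLib.ConjFunctor.kInf_map_equiv e).1
    refine Eq.trans (congrArg (Subgroup.comap (e : ↥(P : Subgroup G) →* S)) h1.symm) ?_
    exact Subgroup.comap_map_eq_self_of_injective e.injective _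
  rw [he]
  refine ⟨fun hnpc g hg hgp => Subgroup.mem_centralizer_iff.2 fun k hk => ?_, fun h =>
    Cfsg.Agent.S1988.result hp P (Or.inr h)⟩
  have hM := CfsgLib.Transfer.hasNormalPComplement_iff_coprime_pResidual.mp hnpc
  have hgM : g ∈ Cfsg.pResidual p G := Subgroup.subset_closure hgp
  have hconj : k * g * k⁻¹ ∈ Cfsg.pResidual p G := by
    refine Subgroup.subset_closure ?_
    show (orderOf (k * g * k⁻¹)).Coprime p
    rw [← MulAut.conj_apply, MulEquiv.orderOf_eq]
    exact hgp
  have h1 : k * g * k⁻¹ * g⁻¹ ∈ Cfsg.pResidual p G := Subgroup.mul_mem _ hconj (Subgroup.inv_mem _ hgM)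
  have hkP : k ∈ (P : Subgroup G) := Subgroup.map_subtype_le _ hk
  have h2 : k * g * k⁻¹ * g⁻¹ ∈ (P : Subgroup G) := by
    have h3 := Subgroup.map_subtype_le _ ((Subgroup.mem_normalizer_iff.1 hg _).1 (Subgroup.inv_mem _ hk))
    simpa [mul_assoc] using Subgroup.mul_mem _ hkP h3
  obtain ⟨j, hj⟩ := P.2 ⟨_, h2⟩
  have h3 : orderOf (k * g * k⁻¹ * g⁻¹) = 1 := by
    refine Nat.eq_one_of_dvd_coprimes (Nat.Coprime.pow_right j hM)
      (Subgroup.orderOf_dvd_natCard _ h1) (orderOf_dvd_of_pow_eq_one ?_)
    exact congrArg Subtype.val hj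
  have h4 := orderOf_eq_one_iff.1 h3
  calc k * g = (k * g * k⁻¹ * g⁻¹) * (g * k) := by group
    _ = g * k := by rw [h4, one_mul]

end Cfsg.Agent.S3073
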