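import Cfsg.Statements.S3074
import Cfsg.Agent.QdSection.KInfFusion
import Cfsg.Agent.ExtraspecialOdd.Heisenberg
import Cfsg.Agent.LargeExtraspecial.Simple

set_option autoImplicit false
open Cfsg CfsgLib.QdSection CfsgLib.QdRankTwo CfsgLib.ExtraspecialOdd

namespace Cfsg.Agent.S3074

/-- Let p be an odd prime. A Sylow p-subgroup of Qd(p), the split extension of an elementary abelian group of order p² by SL₂(p) acting naturally, is extraspecial of order p³ and exponent p. -/
theorem result (p : ℕ) [Fact p.Prime] (hp : p ≠ 2) (P : Sylow p ↥(Cfsg.qd p)) :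
    Cfsg.IsExtraspecial p ↥P ∧ Nat.card P = p ^ 3 ∧ Monoid.exponent ↥P = p := by
  let φ : Heis p 1 →* ↥(Cfsg.qd p) := MonoidHom.mk'
    (fun x => qM 1 (x.row 0) 0 1 x.mid (x.col 0) (by ring)) fun x y => by
      rw [qM_mul]
      apply qM_congr <;> simp [dotProduct] <;> ring
  have hinj : Function.Injective φ := fun x y h => by
    obtain ⟨-, h1, -, -, h2, h3⟩ := qM_inj (p := p) (h := by ring) (h' := by ring)
      (show qM 1 (x.row 0) 0 1 x.mid (x.col 0) _ = qM 1 (y.row 0) 0 1 y.mid (y.col 0) _ from h)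
    ext i
    · rw [Subsingleton.elim i 0]; exact h1
    · rw [Subsingleton.elim i 0]; exact h3
    · exact h2
  have hrange : φ.range = qdUpper p := by
    ext g
    constructor
    · rintro ⟨x, rfl⟩; exact ⟨_, _, _, rfl⟩
    · rintro ⟨t, u, v, rfl⟩; exact ⟨⟨fun _ => t, fun _ => v, u⟩, rfl⟩
  obtain ⟨Q, hQ⟩ := (isPGroup_qdUpper (p := p)).exists_le_sylow
  have hQe : (Q : Subgroup ↥(Cfsg.qd p)) = qdUpper p := eq_qdUpper_of_le Q.2 hQ
  obtain ⟨e⟩ : Nonempty (Heis p 1 ≃* ↥P) :=
    ⟨((MonoidHom.ofInjective hinj).trans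
      (MulEquiv.subgroupCongr (hrange.trans hQe.symm))).trans (Q.equiv P)⟩
  refine ⟨CfsgLib.LargeExtraspecial.isExtraspecial_of_mulEquiv e (Heis.isExtraspecial hp le_rfl), ?_, ?_⟩
  · exact (Nat.card_congr e.toEquiv).symm.trans Heis.card
  · rw [← Monoid.exponent_eq_of_mulEquiv e]
    refine ((Fact.out : p.Prime).eq_one_or_self_of_dvd _
      (Monoid.exponent_dvd_of_forall_pow_eq_one fun x => Heis.pow_prime hp x)).resolve_left ?_
    intro h
    have := Monoid.exp_eq_one_iff.1 h
    have hc := Heis.card (p := p) (n := 1)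
    rw [Nat.card_unique] at hc
    exact absurd hc.symm (Nat.one_lt_pow (by omega) (Fact.out : p.Prime).one_lt).ne'

end Cfsg.Agent.S3074
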