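import Cfsg.Statements.S3075
import Mathlib

set_option autoImplicit false
open Cfsg

namespace Cfsg.Agent.S3075

variable {N : Type*} [Group N] [Finite N]

theorem conj_comm_of_prime_card (K : Subgroup N) [K.Normal] {p : ℕ} [Fact p.Prime]
    (hK : Nat.card K = p) (n m b : N) (hb : b ∈ K) : n * (m * b * m⁻¹) * n⁻¹ = m * (n * b * n⁻¹) * m⁻¹ := by
  by_cases hb1 : b = 1
  · simp [hb1]
  have key : ∀ c ∈ K, c ∈ Subgroup.zpowers b := by
    intro c hc
    have : (⟨c, hc⟩ : K) ∈ Subgroup.zpowers (⟨b, hb⟩ : K) :=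
      mem_zpowers_of_prime_card hK (fun h => hb1 (congrArg Subtype.val h))
    obtain ⟨k, hk⟩ := Subgroup.mem_zpowers_iff.mp this
    exact ⟨k, by simpa using congrArg Subtype.val hk⟩
  obtain ⟨k, hk⟩ := key _ ((inferInstance : K.Normal).conj_mem b hb n)
  obtain ⟨l, hl⟩ := key _ ((inferInstance : K.Normal).conj_mem b hb m)
  change b ^ k = n * b * n⁻¹ at hk
  change b ^ l = m * b * m⁻¹ at hl
  rw [← hl, ← hk, ← conj_zpow, ← conj_zpow, ← hk, ← hl, ← zpow_mul, ← zpow_mul, mul_comm]

/-- Let p be an odd prime and N a finite group with a normal elementary abelian subgroup A of order p² that is its own centralizer in N, such that N/A is isomorphic to SL₂(p) (over any field F with p elements). Then N splits over A: some subgroup U of N satisfies A ∩ U = 1 and AU = N. -/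
theorem result {N : Type*} [Group N] [Finite N] {p : ℕ} [Fact p.Prime] (hp : p ≠ 2)
    (A : Subgroup N) [A.Normal] (hAcomm : IsMulCommutative A) (hAcard : Nat.card A = p ^ 2) (hAexp : Monoid.exponent ↥A = p)
    (hAself : Subgroup.centralizer (A : Set N) = A)
    {F : Type*} [Field F] [Fintype F] (hF : Fintype.card F = p) (e : N ⧸ A ≃* Matrix.SpecialLinearGroup (Fin 2) F) :
    ∃ U : Subgroup N, A ⊓ U = ⊥ ∧ A ⊔ U = ⊤ := by
  have hpodd : Odd p := (Fact.out : p.Prime).odd_of_ne_two hp
  haveI : CharP F p := by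
    haveI : CharP F (ringChar F) := ringChar.charP F
    obtain ⟨⟨n, hn0⟩, hr, hcard⟩ := FiniteField.card F (ringChar F)
    have : ringChar F = p := by
      rw [hF] at hcard
      exact ((Nat.prime_dvd_prime_iff_eq hr Fact.out).mp (hcard ▸ dvd_pow_self _ hn0.ne'))
    exact this ▸ ringChar.charP F
  have h2F : (2 : F) ≠ 0 := by
    intro h
    have h2 : ((2 : ℕ) : F) = 0 := by exact_mod_cast h
    rw [CharP.cast_eq_zero_iff F p] at h2
    exact hp ((Nat.prime_dvd_prime_iff_eq Fact.out Nat.prime_two).mp h2)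
  let z : N ⧸ A := e.symm (-1)
  have hzc : ∀ y, z * y = y * z := by
    intro y
    apply e.injective
    simp only [z, map_mul, MulEquiv.apply_symm_apply]
    rw [Matrix.SpecialLinearGroup.ext_iff]
    intro i j
    simp
  have hz1 : z ≠ 1 := by
    intro h
    have h' := congrArg e h
    simp only [z, MulEquiv.apply_symm_apply, map_one] at h'
    have h'' := congrArg (fun M : Matrix.SpecialLinearGroup (Fin 2) F => (M : Matrix (Fin 2) (Fin 2) F) 0 0) h'
    simp at h''
    exact h2F (by linear_combination -h'')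
  have hz2 : z * z = 1 := by
    apply e.injective
    simp [z]
  obtain ⟨t0, ht0⟩ := QuotientGroup.mk_surjective z
  have hkodd : Odd (p ^ 2) := hpodd.pow
  obtain ⟨j, hj⟩ := hkodd
  set t := t0 ^ (p ^ 2) with ht
  have htz : (t : N ⧸ A) = z := by
    rw [ht, QuotientGroup.mk_pow, ht0, hj, pow_succ, pow_mul, pow_two, hz2, one_pow, one_mul]
  have htt : t * t = 1 := by
    have h0 : t0 * t0 ∈ A := by rw [← QuotientGroup.eq_one_iff, QuotientGroup.mk_mul, ht0, hz2]
    rw [ht, ← (Commute.refl t0).mul_pow]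
    have := congrArg Subtype.val (pow_card_eq_one' (x := (⟨_, h0⟩ : A)))
    rw [hAcard] at this
    simpa using this
  have htinv : t⁻¹ = t := inv_eq_of_mul_eq_one_left htt
  have htA : t ∉ A := fun h => hz1 (htz ▸ (QuotientGroup.eq_one_iff t).mpr h)
  have hmul : ∀ a ∈ A, ∀ b ∈ A, a * b = b * a := fun a ha b hb => setLike_mul_comm ha hb
  have hpow : ∀ a ∈ A, a ^ (p ^ 2) = 1 := fun a ha => by
    have := congrArg Subtype.val (pow_card_eq_one' (x := (⟨a, ha⟩ : A)))
    rw [hAcard] at this
    simpa using this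
  -- elements with inverting action have square roots of the same kind
  have hsqrt : ∀ a ∈ A, (a ^ (j + 1)) ^ 2 = a := fun a ha => by
    rw [← pow_mul, show (j + 1) * 2 = p ^ 2 + 1 by omega, pow_succ, hpow a ha, one_mul]
  set U := Subgroup.centralizer ({t} : Set N) with hU
  have hAU : A ⊔ U = ⊤ := by
    rw [eq_top_iff]
    intro n _
    set b := t * (n * t * n⁻¹) with hb
    have hbA : b ∈ A := by
      rw [← QuotientGroup.eq_one_iff, hb]
      simp only [QuotientGroup.mk_mul, QuotientGroup.mk_inv, htz]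
      rw [← hzc (n : N ⧸ A), mul_assoc z, mul_inv_cancel, mul_one, hz2]
    have hbinv : t * b * t = b⁻¹ := by
      simp only [hb, mul_inv_rev, inv_inv, htinv]
      rw [← mul_assoc t t, htt, one_mul]
      group
    set c := b ^ (j + 1) with hc
    have hcA : c ∈ A := pow_mem hbA _
    have hcinv : t * c * t = c⁻¹ := by
      rw [hc, ← inv_pow, ← hbinv]
      conv_rhs => rw [show t * b * t = t * b * t⁻¹ by rw [htinv]]
      rw [conj_pow, htinv]
    have hct : c⁻¹ * t * c = n * t * n⁻¹ := by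
      calc c⁻¹ * t * c = (t * c * t) * t * c := by rw [hcinv]
        _ = t * c * (t * t) * c := by group
        _ = t * c ^ 2 := by rw [htt, mul_one, pow_two, mul_assoc]
        _ = t * b := by rw [hc, hsqrt b hbA]
        _ = n * t * n⁻¹ := by rw [hb, ← mul_assoc t t, htt, one_mul]
    have hcn : c * n ∈ U := by
      rw [hU, Subgroup.mem_centralizer_singleton_iff]
      calc c * n * t = c * (n * t * n⁻¹) * n := by group
        _ = c * (c⁻¹ * t * c) * n := by rw [hct]
        _ = t * (c * n) := by group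
    have : n = c⁻¹ * (c * n) := by group
    rw [this]
    exact Subgroup.mul_mem_sup (A.inv_mem hcA) hcn
  refine ⟨U, ?_, hAU⟩
  by_contra hB
  set B := A ⊓ U with hBdef
  have hnormal : ∀ K : Subgroup N, K ≤ A → (∀ u ∈ U, ∀ k ∈ K, u * k * u⁻¹ ∈ K) → K.Normal := by
    intro K hKA hKU
    rw [← Subgroup.normalizer_eq_top_iff, eq_top_iff, ← hAU, sup_le_iff]
    refine ⟨fun a ha => Subgroup.mem_normalizer_iff.mpr fun k => ?_, fun u hu => Subgroup.mem_normalizer_iff.mpr fun k => ?_⟩
    · constructor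
      · intro hk
        rwa [hmul a ha k (hKA hk), mul_inv_cancel_right]
      · intro hk
        have hkA : k ∈ A := by
          have := A.mul_mem (A.mul_mem (A.inv_mem ha) (hKA hk)) ha
          simpa [mul_assoc] using this
        rwa [hmul a ha k hkA, mul_inv_cancel_right] at hk
    · refine ⟨hKU u hu k, fun hk => ?_⟩
      have := hKU u⁻¹ (U.inv_mem hu) _ hk
      simpa [mul_assoc] using this
  have hUt : ∀ u ∈ U, u * t = t * u := fun u hu => Subgroup.mem_centralizer_singleton_iff.mp hu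
  haveI hBn : B.Normal := hnormal B inf_le_left (fun u hu k hk =>
    ⟨(inferInstance : A.Normal).conj_mem k hk.1 u, U.mul_mem (U.mul_mem hu hk.2) (U.inv_mem hu)⟩)
  let D : Subgroup N :=
    { carrier := {a | a ∈ A ∧ t * a * t = a⁻¹}
      one_mem' := ⟨A.one_mem, by simp [htt]⟩
      mul_mem' := fun {a b} ha hb => ⟨A.mul_mem ha.1 hb.1, by
        calc t * (a * b) * t = (t * a * t) * (t * b * t) := by
              rw [show t * a * t * (t * b * t) = t * a * (t * t) * b * t by group, htt]; group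
          _ = b⁻¹ * a⁻¹ := by rw [ha.2, hb.2, hmul _ (A.inv_mem ha.1) _ (A.inv_mem hb.1)]
          _ = (a * b)⁻¹ := (mul_inv_rev a b).symm⟩
      inv_mem' := fun {a} ha => ⟨A.inv_mem ha.1, by
        calc t * a⁻¹ * t = (t * a * t)⁻¹ := by simp only [mul_inv_rev, htinv, mul_assoc]
          _ = (a⁻¹)⁻¹ := by rw [ha.2]⟩ }
  haveI hDn : D.Normal := hnormal D (fun a ha => ha.1) (fun u hu a ha =>
    ⟨(inferInstance : A.Normal).conj_mem a ha.1 u, by
      have h1 : t * u = u * t := (hUt u hu).symm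
      have h2 : u⁻¹ * t = t * u⁻¹ := hUt u⁻¹ (U.inv_mem hu)
      calc t * (u * a * u⁻¹) * t = (t * u) * a * (u⁻¹ * t) := by group
        _ = u * (t * a * t) * u⁻¹ := by rw [h1, h2]; group
        _ = (u * a * u⁻¹)⁻¹ := by rw [ha.2]; group⟩)
  have hBA : B ≠ A := by
    intro h
    apply htA
    rw [← hAself]
    intro a ha
    exact hUt a (h ▸ ha : a ∈ B).2
  have hBD : B ⊓ D = ⊥ := by
    rw [eq_bot_iff]
    rintro a ⟨⟨ha, hau⟩, _, hainv⟩
    rw [Subgroup.mem_bot]
    have h1 : a⁻¹ = a := by rw [← hainv, ← hUt a hau, mul_assoc, htt, mul_one]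
    have h2 : a ^ 2 = 1 := by rw [pow_two]; nth_rewrite 1 [← h1]; exact inv_mul_cancel a
    rw [← hsqrt a ha, ← pow_mul, mul_comm, pow_mul, h2, one_pow]
  have hsup : A ≤ B ⊔ D := by
    intro a ha
    set a' := a ^ (j + 1) with ha'
    have ha'A : a' ∈ A := pow_mem ha _
    set w := t * a' * t with hw
    have hwA : w ∈ A := by
      have := (inferInstance : A.Normal).conj_mem a' ha'A t
      rwa [htinv] at this
    have hwt : t * w * t = a' := by
      rw [hw, ← mul_assoc, ← mul_assoc, htt, one_mul, mul_assoc, htt, mul_one]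
    have hfix : t * (a' * w) * t = a' * w := by
      calc t * (a' * w) * t = (t * a' * t) * (t * w * t) := by
            rw [show t * a' * t * (t * w * t) = t * a' * (t * t) * w * t by group, htt]; group
        _ = w * a' := by rw [hwt]
        _ = a' * w := hmul _ hwA _ ha'A
    have h1 : a' * w ∈ B := by
      refine ⟨A.mul_mem ha'A hwA, Subgroup.mem_centralizer_singleton_iff.mpr ?_⟩
      conv_lhs => rw [← hfix]
      rw [mul_assoc, htt, mul_one]
    have h2 : a' * w⁻¹ ∈ D := by
      refine ⟨A.mul_mem ha'A (A.inv_mem hwA), ?_⟩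
      calc t * (a' * w⁻¹) * t = (t * a' * t) * (t * w * t)⁻¹ := by
            simp only [mul_inv_rev, htinv]
            rw [show t * a' * t * (t * (w⁻¹ * t)) = t * a' * (t * t) * w⁻¹ * t by group, htt]; group
        _ = w * a'⁻¹ := by rw [hwt]
        _ = (a' * w⁻¹)⁻¹ := by group
    have : (a' * w⁻¹) * (a' * w) = a := by
      calc (a' * w⁻¹) * (a' * w) = (w⁻¹ * a') * (a' * w) := by rw [hmul _ ha'A _ (A.inv_mem hwA)]
        _ = w⁻¹ * (a' ^ 2) * w := by rw [pow_two]; group
        _ = a := by rw [ha', hsqrt a ha, hmul _ (A.inv_mem hwA) _ ha, inv_mul_cancel_right]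
    rw [← this]
    exact mul_mem (Subgroup.mem_sup_right h2) (Subgroup.mem_sup_left h1)
  have hD1 : D ≠ ⊥ := fun h => hBA (le_antisymm inf_le_left (by simpa [h] using hsup))
  have hDA : D ≠ A := by
    intro h
    apply hB
    rw [← hBD, h, hBdef, inf_eq_left.mpr inf_le_left]
  have hcard : ∀ K : Subgroup N, K ≤ A → K ≠ ⊥ → K ≠ A → Nat.card K = p := by
    intro K hKA h1 h2
    obtain ⟨i, hi, hci⟩ := (Nat.dvd_prime_pow Fact.out).mp (hAcard ▸ Subgroup.card_dvd_of_le hKA)
    interval_cases i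
    · exact absurd (Subgroup.card_eq_one.mp (by simpa using hci)) h1
    · simpa using hci
    · exact absurd (Subgroup.eq_of_le_of_card_ge hKA (by rw [hAcard, hci])) h2
  have hBcard := hcard B inf_le_left hB hBA
  have hDcard := hcard D (fun a ha => ha.1) hD1 hDA
  have hcomm : ∀ n m : N, (n : N ⧸ A) * m = m * n := by
    intro n m
    rw [← QuotientGroup.mk_mul, ← QuotientGroup.mk_mul, QuotientGroup.eq, ← hAself]
    have hker : A ≤ Subgroup.centralizer (({(n * m)⁻¹ * (m * n)} : Set N)) := by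
      refine hsup.trans (sup_le ?_ ?_) <;> intro b hb
      all_goals rw [Subgroup.mem_centralizer_singleton_iff]
      · have := conj_comm_of_prime_card B hBcard m n b hb
        calc b * ((n * m)⁻¹ * (m * n))
            = (n * m)⁻¹ * (n * (m * b * m⁻¹) * n⁻¹) * (m * n) := by group
          _ = (n * m)⁻¹ * (m * (n * b * n⁻¹) * m⁻¹) * (m * n) := by rw [← this]
          _ = ((n * m)⁻¹ * (m * n)) * b := by group
      · have := conj_comm_of_prime_card D hDcard m n b hb
        calc b * ((n * m)⁻¹ * (m * n))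
            = (n * m)⁻¹ * (n * (m * b * m⁻¹) * n⁻¹) * (m * n) := by group
          _ = (n * m)⁻¹ * (m * (n * b * n⁻¹) * m⁻¹) * (m * n) := by rw [← this]
          _ = ((n * m)⁻¹ * (m * n)) * b := by group
    intro a ha
    exact Subgroup.mem_centralizer_singleton_iff.mp (hker ha)
  let u₁ : Matrix.SpecialLinearGroup (Fin 2) F := ⟨!![1, 1; 0, 1], by simp [Matrix.det_fin_two]⟩
  let u₂ : Matrix.SpecialLinearGroup (Fin 2) F := ⟨!![1, 0; 1, 1], by simp [Matrix.det_fin_two]⟩
  obtain ⟨n, hn⟩ := QuotientGroup.mk_surjective (e.symm u₁)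
  obtain ⟨m, hm⟩ := QuotientGroup.mk_surjective (e.symm u₂)
  have h := congrArg e (hcomm n m)
  simp only [map_mul, hn, hm, MulEquiv.apply_symm_apply] at h
  have h0 : ((u₁ * u₂ : Matrix.SpecialLinearGroup (Fin 2) F) : Matrix (Fin 2) (Fin 2) F) = (u₂ * u₁ : Matrix.SpecialLinearGroup (Fin 2) F) := congrArg Subtype.val h
  rw [Matrix.SpecialLinearGroup.coe_mul, Matrix.SpecialLinearGroup.coe_mul, show (u₁ : Matrix (Fin 2) (Fin 2) F) = !![1, 1; 0, 1] from rfl, show (u₂ : Matrix (Fin 2) (Fin 2) F) = !![1, 0; 1, 1] from rfl, Matrix.mul_fin_two, Matrix.mul_fin_two] at h0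
  have h' := congrFun (congrFun h0 0) 0
  simp at h'

end Cfsg.Agent.S3075
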