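import Cfsg.Statements.S3076
-- import your own Cfsg.Agent.* helpers here
import Mathlib
import Cfsg.Agent.Constrained.Basic

set_option autoImplicit false
open Cfsg

namespace Cfsg.Agent.S3076

open CfsgLib.Constrained

theorem core {M : Type*} [Group M] [Finite M] {p : ℕ} [Fact p.Prime] (H PM : Subgroup M)
    [H.Normal] (hHPM : H ≤ PM) (hPM : IsPGroup p PM) (hidx : ¬ p ∣ PM.index)
    (C : Subgroup M) [C.Normal] (hC : C = Subgroup.centralizer (H : Set M)) :
    (H ≤ (Cfsg.pCore p (M ⧸ C)).comap (QuotientGroup.mk' C) ∧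
      ¬ p ∣ H.relIndex ((Cfsg.pCore p (M ⧸ C)).comap (QuotientGroup.mk' C))) ↔
    (PM ⊓ C ≤ H ∧ Cfsg.pPrimePCore p M = H ⊔ C) := by
  classical
  set N := (Cfsg.pCore p (M ⧸ C)).comap (QuotientGroup.mk' C) with hN
  have hH : IsPGroup p H := hPM.to_le hHPM
  have hCN : C ≤ N := le_of_eq_of_le (QuotientGroup.ker_mk' C).symm (Subgroup.ker_le_comap _ _)
  have hHN : H ≤ N := Subgroup.map_le_iff_le_comap.1
    (le_pCore (Subgroup.Normal.map inferInstance _ (QuotientGroup.mk'_surjective _)) (hH.map _))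
  -- `P ∩ C` has index prime to `p` in `C`
  have hPC : ¬ p ∣ (PM ⊓ C).relIndex C := by
    rw [Subgroup.inf_relIndex_right]
    intro h
    refine hidx (h.trans ?_)
    rw [← Subgroup.relIndex_top_right]
    have h2 : PM.relIndex C = PM.relIndex (PM ⊔ C) := by
      have hcard : ∀ K J : Subgroup M,
          Nat.card ↥(K ⊓ J) * K.relIndex J = Nat.card J := fun K J => by
        rw [← Subgroup.inf_relIndex_right K J, ← Subgroup.relIndex_bot_left, ← Subgroup.relIndex_bot_left,
          Subgroup.relIndex_mul_relIndex ⊥ (K ⊓ J) J bot_le inf_le_right]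
      have e1 := hcard PM (PM ⊔ C)
      have e2 := hcard C (PM ⊔ C)
      have e3 := hcard C PM
      have e4 := hcard PM C
      rw [inf_eq_left.2 le_sup_left] at e1
      rw [inf_eq_left.2 le_sup_right, Subgroup.relIndex_sup_right] at e2
      rw [inf_comm] at e3
      have h0 : 0 < Nat.card ↥(PM ⊓ C) := Nat.card_pos
      have h0' : 0 < C.relIndex PM := Nat.pos_of_ne_zero Subgroup.index_ne_zero_of_finite
      refine Nat.eq_of_mul_eq_mul_left (Nat.mul_pos h0 h0') ?_
      rw [mul_right_comm, e4, e2, ← e1, e3]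
    rw [h2, ← Subgroup.relIndex_mul_relIndex PM (PM ⊔ C) ⊤ le_sup_left le_top]
    exact Dvd.intro _ rfl
  -- the structure of `C`
  have hCdec : PM ⊓ C ≤ H → C ≤ H ⊔ Cfsg.pPrimeCore p M := by
    intro hle
    set Z := (H ⊓ C).subgroupOf C with hZ
    have hZc : Z ≤ Subgroup.center ↥C := by
      intro z hz
      rw [Subgroup.mem_center_iff]
      intro c
      have hc : (c : M) ∈ Subgroup.centralizer (H : Set M) := hC ▸ c.2
      exact Subtype.ext (Subgroup.mem_centralizer_iff.1 hc z hz.1).symm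
    haveI : Z.Normal := ⟨fun z hz g => by
      rw [(Subgroup.mem_center_iff.1 (hZc hz) g), mul_inv_cancel_right]; exact hz⟩
    have hZp : IsPGroup p Z := (hH.to_le inf_le_left).comap_subtype
    have hZidx : ¬ p ∣ Z.index := fun h => hPC (h.trans
      (Subgroup.relIndex_dvd_of_le_left C (le_inf hle inf_le_right)))
    obtain ⟨n, hn⟩ := IsPGroup.iff_card.1 hZp
    obtain ⟨K, hK⟩ := Subgroup.exists_right_complement'_of_coprime (N := Z) (by
      rw [hn]; exact Nat.Coprime.pow_left _ ((Fact.out : p.Prime).coprime_iff_not_dvd.2 hZidx))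
    have hKn : K.Normal := by
      refine ⟨fun k hk g => ?_⟩
      obtain ⟨⟨z, k'⟩, hg⟩ := hK.2 g
      simp only at hg
      rw [← hg, show (z : ↥C) * k' * k * ((z : ↥C) * k')⁻¹ =
        (z : ↥C) * ((k' : ↥C) * k * (k' : ↥C)⁻¹) * (z : ↥C)⁻¹ by group,
        ← (Subgroup.mem_center_iff.1 (hZc z.2) _), mul_inv_cancel_right]
      exact K.mul_mem (K.mul_mem k'.2 hk) (K.inv_mem k'.2)
    have hKcop : (Nat.card K).Coprime p := by
      rw [← hK.symm.index_eq_card]
      exact ((Fact.out : p.Prime).coprime_iff_not_dvd.2 hZidx).symm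
    -- `K` consists of the `p'`-elements of `C`
    have hchar : ∀ x : ↥C, (orderOf x).Coprime p → x ∈ K := by
      intro x hx
      haveI := hKn
      rw [← QuotientGroup.eq_one_iff, ← orderOf_eq_one_iff]
      have h1 : orderOf (x : ↥C ⧸ K) ∣ orderOf x := orderOf_map_dvd (QuotientGroup.mk' K) x
      have h2 : orderOf (x : ↥C ⧸ K) ∣ p ^ n := by
        rw [← hn, ← hK.index_eq_card, Subgroup.index_eq_card]
        exact orderOf_dvd_natCard _
      exact Nat.eq_one_of_dvd_coprimes (hx.pow_right n) h1 h2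
    have hK0n : (K.map C.subtype).Normal := by
      refine ⟨fun x hx g => ?_⟩
      obtain ⟨k, hk, rfl⟩ := hx
      refine ⟨⟨g * k * g⁻¹, Subgroup.Normal.conj_mem inferInstance _ k.2 g⟩, hchar _ ?_, rfl⟩
      rw [← Subgroup.orderOf_coe]
      show (orderOf (MulAut.conj g (k : M))).Coprime p
      rw [MulEquiv.orderOf_eq, Subgroup.orderOf_coe]
      exact hKcop.coprime_dvd_left (K.orderOf_dvd_natCard hk)
    have hK0 : K.map C.subtype ≤ Cfsg.pPrimeCore p M := le_sSup ⟨hK0n, by
      rwa [Subgroup.card_map_of_injective C.subtype_injective]⟩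
    intro c hc
    obtain ⟨⟨z, k⟩, hzk⟩ := hK.2 ⟨c, hc⟩
    have hzk' : ((z : ↥C) : M) * ((k : ↥C) : M) = c := congrArg Subtype.val hzk
    rw [← hzk']
    exact Subgroup.mul_mem_sup z.2.1 (hK0 ⟨k, k.2, rfl⟩)
  have hKC : Cfsg.pPrimeCore p M ≤ C := by
    rw [hC]
    intro k hk
    rw [Subgroup.mem_centralizer_iff]
    intro x hx
    exact (commute_pCore_pPrimeCore (le_pCore inferInstance hH hx) hk).eq
  have hsub : PM ⊓ C ≤ H → H ⊔ C ≤ Cfsg.pPrimePCore p M := fun hle =>
    sup_le (le_pPrimePCore inferInstance (hH.map _)) ((hCdec hle).trans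
      (sup_le (le_pPrimePCore inferInstance (hH.map _)) pPrimeCore_le_pPrimePCore))
  constructor
  · rintro ⟨-, hrel⟩
    have hle : PM ⊓ C ≤ H := by
      have h1 : H ⊔ (PM ⊓ C) ≤ PM := sup_le hHPM inf_le_left
      have h2 : H.relIndex (H ⊔ (PM ⊓ C)) ∣ H.relIndex N := by
        rw [← Subgroup.relIndex_mul_relIndex H (H ⊔ (PM ⊓ C)) N le_sup_left
          (sup_le hHN (inf_le_right.trans hCN))]
        exact Dvd.intro _ rfl
      obtain ⟨k, hk⟩ := IsPGroup.iff_card.1 (hPM.to_le h1)
      obtain ⟨i, -, hi⟩ := (Nat.dvd_prime_pow Fact.out).1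
        (hk ▸ Subgroup.relIndex_dvd_card H (H ⊔ (PM ⊓ C)))
      rcases i with _ | i
      · rw [pow_zero, Subgroup.relIndex_eq_one] at hi
        exact le_sup_right.trans hi
      · exact absurd ((dvd_pow_self p i.succ_ne_zero).trans (hi ▸ h2)) hrel
    refine ⟨hle, le_antisymm ?_ (hsub hle)⟩
    -- `N = H C`
    have hNHC : N ≤ H ⊔ C := by
      rw [← Subgroup.relIndex_eq_one]
      have h1 : (H ⊔ C).relIndex N ∣ H.relIndex N := Subgroup.relIndex_dvd_of_le_left _ le_sup_left
      obtain ⟨k, hk⟩ := IsPGroup.iff_card.1 (isPGroup_pCore (p := p) (G := M ⧸ C))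
      have h2 : (H ⊔ C).relIndex N ∣ p ^ k := by
        refine (Subgroup.relIndex_dvd_of_le_left _ (le_sup_right : C ≤ H ⊔ C)).trans ?_
        rw [← hk, relIndex_eq_card_map,
          Subgroup.map_comap_eq_self_of_surjective (QuotientGroup.mk'_surjective _)]
      obtain ⟨i, -, hi⟩ := (Nat.dvd_prime_pow Fact.out).1 h2
      rcases i with _ | i
      · simpa using hi
      · exact absurd ((hi ▸ dvd_pow_self p i.succ_ne_zero).trans h1) hrel
    obtain ⟨Q⟩ : Nonempty (Sylow p ↥(Cfsg.pPrimePCore p M)) := inferInstance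
    have h3 : (Cfsg.pPrimePCore p M).map (QuotientGroup.mk' C) ≤ Cfsg.pCore p (M ⧸ C) := by
      refine le_pCore (Subgroup.Normal.map inferInstance _ (QuotientGroup.mk'_surjective _)) ?_
      rw [← pPrimeCore_sup_sylow_eq Q, Subgroup.map_sup,
        (Subgroup.map_eq_bot_iff _).2 (hKC.trans (QuotientGroup.ker_mk' C).ge), bot_sup_eq]
      exact (Q.2.map _).map _
    exact (Subgroup.map_le_iff_le_comap.1 h3).trans hNHC
  · rintro ⟨hle, heq⟩
    refine ⟨hHN, ?_⟩
    have hNle : N ≤ H ⊔ C := by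
      rw [← heq]
      refine le_pPrimePCore inferInstance ?_
      -- the image of `N` modulo `O_{p'}` is a `p`-group
      set π := QuotientGroup.mk' (Cfsg.pPrimeCore p M) with hπ
      intro y
      obtain ⟨_, x, hx, rfl⟩ := y
      obtain ⟨i, hi⟩ := (isPGroup_pCore (p := p) (G := M ⧸ C)) ⟨_, hx⟩
      have hxi : x ^ p ^ i ∈ C := by
        rw [← QuotientGroup.eq_one_iff]
        exact congrArg Subtype.val hi
      have himg : π (x ^ p ^ i) ∈ H.map π := by
        have h := Subgroup.mem_map_of_mem π (hCdec hle hxi)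
        rwa [Subgroup.map_sup, (Subgroup.map_eq_bot_iff _).2 (QuotientGroup.ker_mk' _).ge,
          sup_bot_eq] at h
      obtain ⟨h0, hh0, hh0e⟩ := himg
      obtain ⟨j, hj⟩ := hH ⟨h0, hh0⟩
      refine ⟨i + j, Subtype.ext ?_⟩
      show π x ^ p ^ (i + j) = 1
      rw [pow_add, pow_mul, ← map_pow, ← hh0e, ← map_pow,
        show h0 ^ p ^ j = 1 from congrArg Subtype.val hj, map_one]
    intro hp
    have h1 : N = H ⊔ C := le_antisymm hNle (sup_le hHN hCN)
    rw [h1, Subgroup.relIndex_sup_left] at hp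
    refine hPC (hp.trans ?_)
    rw [← Subgroup.inf_relIndex_right H C]
    exact Subgroup.relIndex_dvd_of_le_left C (le_inf hle inf_le_right)

/-- Let P be a Sylow p-subgroup of the finite group G and H ≤ P a subgroup with N_P(H) a Sylow p-subgroup of N_G(H). Let N be the preimage in N_G(H) of O_p(N_G(H)/C_G(H)). Then H is a Sylow p-subgroup of N if and only if C_P(H) ≤ H and O_{p',p}(N_G(H)) = H·C_G(H). -/
theorem result {G : Type*} [Group G] [Finite G] {p : ℕ} [Fact p.Prime]
    (P : Sylow p G) (H : Subgroup G) (hHP : H ≤ (P : Subgroup G))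
    (hSyl : ¬ p ∣ ((P : Subgroup G) ⊓ Subgroup.normalizer (H : Set G)).relIndex (Subgroup.normalizer (H : Set G)))
    [hC : ((Subgroup.centralizer (H : Set G)).subgroupOf (Subgroup.normalizer (H : Set G))).Normal] :
    (H ≤ ((Cfsg.pCore p (↥(Subgroup.normalizer (H : Set G)) ⧸
              (Subgroup.centralizer (H : Set G)).subgroupOf (Subgroup.normalizer (H : Set G)))).comap
            (QuotientGroup.mk' _)).map (Subgroup.normalizer (H : Set G)).subtype ∧
      ¬ p ∣ H.relIndex (((Cfsg.pCore p (↥(Subgroup.normalizer (H : Set G)) ⧸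
              (Subgroup.centralizer (H : Set G)).subgroupOf (Subgroup.normalizer (H : Set G)))).comap
            (QuotientGroup.mk' _)).map (Subgroup.normalizer (H : Set G)).subtype)) ↔
    ((P : Subgroup G) ⊓ Subgroup.centralizer (H : Set G) ≤ H ∧
      (Cfsg.pPrimePCore p ↥(Subgroup.normalizer (H : Set G))).map (Subgroup.normalizer (H : Set G)).subtype =
        H ⊔ Subgroup.centralizer (H : Set G)) := by
  classical
  set M := Subgroup.normalizer (H : Set G) with hM
  have hHM : H ≤ M := Subgroup.le_normalizer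
  haveI : (H.subgroupOf M).Normal :=
    (Subgroup.normal_subgroupOf_iff_le_normalizer hHM).2 le_rfl
  have hc : (Subgroup.centralizer (H : Set G)).subgroupOf M =
      Subgroup.centralizer ((H.subgroupOf M : Subgroup M) : Set M) := by
    ext x
    rw [Subgroup.mem_subgroupOf, Subgroup.mem_centralizer_iff, Subgroup.mem_centralizer_iff]
    constructor
    · intro h y hy
      exact Subtype.ext (h y hy)
    · intro h y hy
      exact congrArg Subtype.val (h ⟨y, hHM hy⟩ hy)
  have hCM : Subgroup.centralizer (H : Set G) ≤ M := Subgroup.centralizer_le_normalizer _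
  have hN : ∀ A : Subgroup M, (H ≤ A.map M.subtype ↔ H.subgroupOf M ≤ A) := by
    intro A
    constructor
    · intro h x hx
      obtain ⟨y, hy, he⟩ := h hx
      rwa [← M.subtype_injective he]
    · intro h x hx
      exact ⟨⟨x, hHM hx⟩, h hx, rfl⟩
  have hrel : ∀ A : Subgroup M, H.relIndex (A.map M.subtype) = (H.subgroupOf M).relIndex A := by
    intro A
    conv_lhs => rw [← inf_eq_left.2 hHM, ← Subgroup.subgroupOf_map_subtype]
    exact Subgroup.relIndex_map_map_of_injective _ _ M.subtype_injective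
  have hsyl : ¬ p ∣ (((P : Subgroup G) ⊓ M).subgroupOf M).index := hSyl
  have key := core (H.subgroupOf M) (((P : Subgroup G) ⊓ M).subgroupOf M)
    (fun x hx => ⟨hHP hx, x.2⟩) ((P.2.to_le inf_le_left).comap_subtype) hsyl
    ((Subgroup.centralizer (H : Set G)).subgroupOf M) hc
  rw [hN, hrel, key]
  refine and_congr ⟨fun h x hx => ?_, fun h x hx => ?_⟩ ?_
  · exact h (x := ⟨x, hCM hx.2⟩) ⟨⟨hx.1, hCM hx.2⟩, hx.2⟩
  · exact h ⟨hx.1.1, hx.2⟩
  · constructor
    · intro h
      rw [h, Subgroup.map_sup, Subgroup.subgroupOf_map_subtype, Subgroup.subgroupOf_map_subtype,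
        inf_eq_left.2 hHM, inf_eq_left.2 hCM]
    · intro h
      apply Subgroup.map_injective M.subtype_injective
      rw [h, Subgroup.map_sup, Subgroup.subgroupOf_map_subtype, Subgroup.subgroupOf_map_subtype,
        inf_eq_left.2 hHM, inf_eq_left.2 hCM]

end Cfsg.Agent.S3076
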