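import Cfsg.Statements.S3087

set_option autoImplicit false
open Cfsg

namespace Cfsg.Agent.S3087

/-- Let p be a prime, G a finite group acting linearly on a finite vector space V over the field with p elements, W a G-invariant subspace, and A a subgroup of G with |A|·|C_V(A)| ≥ |B|·|C_V(B)| for every subgroup B of A. Then |A|·|C_W(A)| ≥ |B|·|C_W(B)| for every subgroup B of A that contains C_A(W); that is, the image of A in the group induced on W satisfies the same maximality condition. -/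
theorem result {G V : Type*} [Group G] [Finite G] [AddCommGroup V] [Finite V] (p : ℕ) [Fact p.Prime] [Module (ZMod p) V]
    (ρ : Representation (ZMod p) G V) (W : Submodule (ZMod p) V) (hW : ∀ g : G, ∀ w ∈ W, ρ g w ∈ W)
    (A : Subgroup G)
    (hP : ∀ B : Subgroup G, B ≤ A →
      Nat.card ↥B * Nat.card {v : V // ∀ b ∈ B, ρ b v = v} ≤ Nat.card ↥A * Nat.card {v : V // ∀ a ∈ A, ρ a v = v})
    (B : Subgroup G) (hBA : B ≤ A) (hCB : ∀ a ∈ A, (∀ w ∈ W, ρ a w = w) → a ∈ B) :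
    Nat.card ↥B * Nat.card {w : W // ∀ b ∈ B, ρ b w = w} ≤ Nat.card ↥A * Nat.card {w : W // ∀ a ∈ A, ρ a w = w} := by
  classical
  let fixV : Subgroup G → AddSubgroup V := fun C =>
    { carrier := {v | ∀ c ∈ C, ρ c v = v}
      zero_mem' := fun c _ => map_zero _
      add_mem' := fun {v w} hv hw c hc => by rw [map_add, hv c hc, hw c hc]
      neg_mem' := fun {v} hv c hc => by rw [map_neg, hv c hc] }
  let fixW : Subgroup G → AddSubgroup V := fun C => fixV C ⊓ W.toAddSubgroup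
  have eW : ∀ C : Subgroup G,
      Nat.card {w : W // ∀ c ∈ C, ρ c w = w} = Nat.card ↥(fixW C) := fun C =>
    Nat.card_congr
      { toFun := fun w => ⟨(w.1 : V), w.2, w.1.2⟩
        invFun := fun v => ⟨⟨v.1, v.2.2⟩, v.2.1⟩
        left_inv := fun _ => rfl
        right_inv := fun _ => rfl }
  let φ : ↥(fixW B) × ↥(fixV A) →+ V := AddMonoidHom.coprod (fixW B).subtype (fixV A).subtype
  have hrange : φ.range ≤ fixV B := by
    rintro _ ⟨⟨⟨w, hw⟩, ⟨v, hv⟩⟩, rfl⟩
    exact add_mem hw.1 (fun b hb => hv b (hBA hb))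
  have hker : Nat.card ↥φ.ker ≤ Nat.card ↥(fixW A) := by
    have mem : ∀ z : ↥φ.ker, ((z.1.1 : V)) ∈ fixW A := by
      rintro ⟨⟨⟨w, hw⟩, ⟨v, hv⟩⟩, hz⟩
      refine ⟨?_, hw.2⟩
      have h0 : w + v = 0 := hz
      show w ∈ fixV A
      rw [eq_neg_of_add_eq_zero_left h0]
      exact neg_mem hv
    refine Nat.card_le_card_of_injective (fun z => (⟨_, mem z⟩ : ↥(fixW A))) ?_
    rintro ⟨⟨⟨w, hw⟩, ⟨v, hv⟩⟩, hz⟩ ⟨⟨⟨w', hw'⟩, ⟨v', hv'⟩⟩, hz'⟩ h
    have h1 : w = w' := congrArg Subtype.val h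
    have h0 : w + v = 0 := hz
    have h0' : w' + v' = 0 := hz'
    subst h1
    have h2 : v = v' := add_left_cancel (h0.trans h0'.symm)
    subst h2
    rfl
  have key : Nat.card ↥(fixW B) * Nat.card ↥(fixV A) ≤ Nat.card ↥(fixV B) * Nat.card ↥(fixW A) := by
    have h1 : Nat.card (↥(fixW B) × ↥(fixV A)) = Nat.card ↥φ.range * Nat.card ↥φ.ker := by
      rw [← AddSubgroup.index_ker φ, AddSubgroup.index_mul_card]
    rw [← Nat.card_prod, h1]
    exact Nat.mul_le_mul (AddSubgroup.card_le_of_le hrange) hker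
  rw [eW, eW]
  have hA := hP B hBA
  refine Nat.le_of_mul_le_mul_right (c := Nat.card ↥(fixV A)) ?_ Nat.card_pos
  calc Nat.card ↥B * Nat.card ↥(fixW B) * Nat.card ↥(fixV A)
      = Nat.card ↥B * (Nat.card ↥(fixW B) * Nat.card ↥(fixV A)) := by ring
    _ ≤ Nat.card ↥B * (Nat.card ↥(fixV B) * Nat.card ↥(fixW A)) := Nat.mul_le_mul_left _ key
    _ = Nat.card ↥B * Nat.card ↥(fixV B) * Nat.card ↥(fixW A) := by ring
    _ ≤ Nat.card ↥A * Nat.card ↥(fixV A) * Nat.card ↥(fixW A) := Nat.mul_le_mul_right _ hA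
    _ = Nat.card ↥A * Nat.card ↥(fixW A) * Nat.card ↥(fixV A) := by ring

end Cfsg.Agent.S3087
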