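import Cfsg.Statements.S3144
import Cfsg.Agent.StdO8.Base
import Cfsg.Agent.S2098

set_option autoImplicit false
open Cfsg

namespace Cfsg.Agent.S3144

/-- Let G be a finite group with no nontrivial normal subgroup of odd order and L a standard subgroup of G which is a double cover of the simple orthogonal group PΩ⁺ of dimension 8 over the field with 2 elements (the centre of L has order 2 and L modulo its centre is isomorphic to that group), and suppose the centralizer of L in G has cyclic Sylow 2-subgroups. Then L is normal in G. -/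
theorem result {G : Type*} [Group G] [Finite G] (hO : Cfsg.oddCore G = ⊥) (L : Subgroup G) (hL : Cfsg.IsStandardSubgroup L)
    {F : Type*} [Field F] [Fintype F] (hF : Fintype.card F = 2)
    (hZ : Nat.card ↥(Subgroup.center ↥L) = 2) (hLX : Nonempty ((↥L ⧸ Subgroup.center ↥L) ≃* Cfsg.POmega F (Cfsg.quadFormPlus 4 F)))
    (hR : ∀ R : Sylow 2 ↥(Subgroup.centralizer (L : Set G)), IsCyclic ↥(R : Subgroup ↥(Subgroup.centralizer (L : Set G)))) :
    L.Normal := by
  obtain ⟨⟨hq, -⟩, htight, -, hnorm⟩ := hL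
  obtain ⟨eX⟩ := hLX
  have σF : ZMod 2 ≃+* F := ZMod.ringEquivOfPrime F Nat.prime_two hF
  let e : Omega (ZMod 2) (quadFormPlus 4 (ZMod 2)) ≃* Omega F (quadFormPlus 4 F) :=
    ((Cfsg.Agent.S2098.isoMap σF 4).subgroupMap _).trans
      (MulEquiv.subgroupCongr (Cfsg.Agent.S2098.map_omega σF 4))
  have hz : Subgroup.center (Omega F (quadFormPlus 4 F)) = ⊥ := by
    rw [← Subgroup.card_eq_one, ← Nat.card_congr (Subgroup.centerCongr e).toEquiv]
    exact CfsgLib.O8Mult.card_center_G8
  let eP : Omega (ZMod 2) (quadFormPlus 4 (ZMod 2)) ≃* Cfsg.POmega F (Cfsg.quadFormPlus 4 F) :=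
    e.trans (QuotientGroup.quotientBot.symm.trans (QuotientGroup.quotientMulEquivOfEq hz.symm))
  let τ : ↥L →* CfsgLib.O8Mult.G8 := (eX.trans eP.symm).toMonoidHom.comp (QuotientGroup.mk' (Subgroup.center ↥L))
  have hker : τ.ker = Subgroup.center ↥L := by
    ext x
    simp only [τ, MonoidHom.mem_ker, MonoidHom.comp_apply, MulEquiv.coe_toMonoidHom, MulEquiv.map_eq_one_iff]
    exact QuotientGroup.eq_one_iff x
  have hτ : Cfsg.IsStemExtension τ := by
    haveI := hq
    refine ⟨(eX.trans eP.symm).surjective.comp (QuotientGroup.mk'_surjective _), hker.le, ?_⟩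
    rw [Group.IsPerfect.commutator_eq_top]
    exact le_top
  obtain ⟨e'⟩ := CfsgLib.StdO8.iso_of_double_cover hτ (by rw [hker]; exact hZ)
  let ι : CfsgLib.O8Mult.Wp →* G := L.subtype.comp e'.symm.toMonoidHom
  have hset : CfsgLib.StdO8.Setup L ι :=
    { inj := L.subtype_injective.comp e'.symm.injective
      range := by
        refine le_antisymm ?_ fun x hx => ⟨e' ⟨x, hx⟩, by simp [ι]⟩
        rintro _ ⟨x, rfl⟩
        exact (e'.symm x).2
      tight := htight
      norm := hnorm
      cyc := hR }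
  have hz := CfsgLib.ZStar.inZStar_of_isolated hset.orderOf_z hset.isolated
  have hcore : Cfsg.pPrimeCore 2 G = ⊥ := hO
  constructor
  intro x hx g
  have hg : g * CfsgLib.StdO8.zG ι = CfsgLib.StdO8.zG ι * g := by
    have h1 := hz g
    rw [hcore, Subgroup.mem_bot, mul_inv_eq_one, mul_inv_eq_iff_eq_mul] at h1
    exact h1
  exact (Subgroup.mem_normalizer_iff.1 (hset.cent_le hg) x).1 hx

end Cfsg.Agent.S3144
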