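import Cfsg.Statements.S3149
import Cfsg.Agent.StdRu.Cover
import Cfsg.Agent.ZStar.Theorem

set_option autoImplicit false
open Cfsg

namespace Cfsg.Agent.S3149

/-- Let G be a finite group with no nontrivial normal subgroup of odd order and A a standard subgroup of G which is a double cover of the Rudvalis group (the centre of A has order 2 and A modulo its centre is isomorphic to the Rudvalis group). If the centralizer of A in G has cyclic Sylow 2-subgroups, then A is normal in G. -/
theorem result {G : Type*} [Group G] [Finite G] (hO : Cfsg.oddCore G = ⊥) (A : Subgroup G) (hA : Cfsg.IsStandardSubgroup A)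
    (hZ : Nat.card ↥(Subgroup.center ↥A) = 2) (hAX : Cfsg.Spor.IsoRu (↥A ⧸ Subgroup.center ↥A))
    (hR : ∀ R : Sylow 2 ↥(Subgroup.centralizer (A : Set G)), IsCyclic ↥(R : Subgroup ↥(Subgroup.centralizer (A : Set G)))) : A.Normal := by
  classical
  obtain ⟨eRu⟩ := hAX
  obtain ⟨⟨hperf, -⟩, htight, -, hnorm⟩ := hA
  haveI := hperf
  have hAperf : commutator A = ⊤ := hperf.commutator_eq_top
  obtain ⟨B, iB, iBfin, ⟨eB⟩⟩ := Finite.exists_type_univ_nonempty_mulEquiv.{_, 0} A
  letI := iB
  haveI : Finite B := Finite.of_equiv _ eB.toEquiv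
  have hmapZ : (Subgroup.center A).map eB.toMonoidHom = Subgroup.center B := by
    refine le_antisymm ?_ fun y hy => ⟨eB.symm y, ?_, eB.apply_symm_apply y⟩
    · rintro _ ⟨x, hx, rfl⟩
      refine Subgroup.mem_center_iff.2 fun y => ?_
      obtain ⟨y, rfl⟩ := eB.surjective y
      show eB y * eB x = eB x * eB y
      rw [← map_mul, ← map_mul, Subgroup.mem_center_iff.1 hx y]
    · refine Subgroup.mem_center_iff.2 fun x => eB.injective ?_
      rw [map_mul, map_mul, eB.apply_symm_apply]
      exact Subgroup.mem_center_iff.1 hy (eB x)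
  have hBperf : commutator B = ⊤ := by
    rw [← Subgroup.map_top_of_surjective eB.toMonoidHom eB.surjective, ← hAperf, commutator_def,
      commutator_def, Subgroup.map_commutator, Subgroup.map_top_of_surjective _ eB.surjective]
  have hBZ : Nat.card (Subgroup.center B) = 2 := by
    rw [← hmapZ, ← hZ]
    exact Nat.card_congr ((Subgroup.center A).equivMapOfInjective _ eB.injective).toEquiv.symm
  obtain ⟨f⟩ := CfsgLib.StdRu.nonempty_equiv hBperf hBZ
    ((QuotientGroup.congr (Subgroup.center A) (Subgroup.center B) eB hmapZ).symm.trans eRu)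
  let e := f.trans eB.symm
  have hset : CfsgLib.StdRu.Setup A (A.subtype.comp e.toMonoidHom) CfsgLib.StdRu.zG :=
    { facts := CfsgLib.StdRu.cover_facts
      inj := A.subtype_injective.comp e.injective
      range := by
        refine le_antisymm ?_ fun x hx => ⟨e.symm ⟨x, hx⟩, by simp⟩
        rintro _ ⟨x, rfl⟩
        exact (e x).2
      tight := htight
      norm := hnorm
      cyc := hR }
  have hiso : Cfsg.IsIsolated (A.subtype.comp e.toMonoidHom CfsgLib.StdRu.zG) := by
    intro g hg
    exact hset.eq_of_commute hg.eq.symm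
  have hz := CfsgLib.ZStar.inZStar_of_isolated hset.orderOf_z hiso
  have hcore : Cfsg.pPrimeCore 2 G = ⊥ := hO
  constructor
  intro x hx g
  have hg : g * A.subtype.comp e.toMonoidHom CfsgLib.StdRu.zG =
      A.subtype.comp e.toMonoidHom CfsgLib.StdRu.zG * g := by
    have h1 := hz g
    rw [hcore, Subgroup.mem_bot, mul_inv_eq_one, mul_inv_eq_iff_eq_mul] at h1
    exact h1
  exact (Subgroup.mem_normalizer_iff.1 (hset.cent_le hg) x).1 hx

end Cfsg.Agent.S3149
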