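import Cfsg.Statements.S3150
import Cfsg.Agent.StdCo0.Main

set_option autoImplicit false
open Cfsg

namespace Cfsg.Agent.S3150

/-- Let G be a finite group with no nontrivial normal subgroup of odd order and A a standard subgroup of G isomorphic to the automorphism group of the Leech lattice (the double cover of the first Conway group). If the centralizer of A in G has cyclic Sylow 2-subgroups, then A is normal in G. -/
theorem result {G : Type*} [Group G] [Finite G] (hO : Cfsg.oddCore G = ⊥) (A : Subgroup G) (hA : Cfsg.IsStandardSubgroup A)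
    (hAX : Nonempty (↥A ≃* ↥Cfsg.Co0)) (hR : ∀ R : Sylow 2 ↥(Subgroup.centralizer (A : Set G)), IsCyclic ↥(R : Subgroup ↥(Subgroup.centralizer (A : Set G)))) : A.Normal := by
  obtain ⟨e⟩ := hAX
  obtain ⟨⟨hq, -⟩, htight, -, hnorm⟩ := hA
  haveI := hq
  have hperf : commutator Cfsg.Co0 = ⊤ :=
    (Group.IsPerfect.ofSurjective (f := e.toMonoidHom) e.surjective).commutator_eq_top
  let ι : Cfsg.Co0 →* G := A.subtype.comp e.symm.toMonoidHom
  have hset : CfsgLib.StdCo0.Setup A ι :=
    { inj := A.subtype_injective.comp e.symm.injective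
      range := by
        refine le_antisymm ?_ fun x hx => ⟨e ⟨x, hx⟩, by simp [ι]⟩
        rintro _ ⟨x, rfl⟩
        exact (e.symm x).2
      tight := htight
      norm := hnorm
      cyc := hR
      perfect := hperf }
  have hz := CfsgLib.ZStar.inZStar_of_isolated hset.orderOf_z hset.isolated
  have hcore : Cfsg.pPrimeCore 2 G = ⊥ := hO
  constructor
  intro x hx g
  have hg : g * ι CfsgLib.Leech.negOne = ι CfsgLib.Leech.negOne * g := by
    have h1 := hz g
    rw [hcore, Subgroup.mem_bot, mul_inv_eq_one, mul_inv_eq_iff_eq_mul] at h1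
    exact h1
  exact (Subgroup.mem_normalizer_iff.1 (hset.cent_le hg) x).1 hx

end Cfsg.Agent.S3150
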