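import Cfsg.Statements.S3153
import Cfsg.Agent.PLength.One
import Mathlib.Tactic
import Mathlib.GroupTheory.Commutator.Basic

set_option autoImplicit false
open Cfsg
open scoped commutatorElement Pointwise

namespace Cfsg.Agent.S3153

theorem central_of_comm_mem_center {G : Type*} [Group G] (hG : Group.IsPerfect G) (z : G)
    (h : ∀ g : G, g * z * g⁻¹ * z⁻¹ ∈ Subgroup.center G) : z ∈ Subgroup.center G := by
  let f : G →* Subgroup.center G :=
    { toFun := fun g => ⟨g * z * g⁻¹ * z⁻¹, h g⟩
      map_one' := Subtype.ext (by simp)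
      map_mul' := fun a b => Subtype.ext (by
        have h1 := Subgroup.mem_center_iff.1 (h b) a
        have h2 := Subgroup.mem_center_iff.1 (h b) (a * z * a⁻¹ * z⁻¹)
        show (a * b) * z * (a * b)⁻¹ * z⁻¹ = (a * z * a⁻¹ * z⁻¹) * (b * z * b⁻¹ * z⁻¹)
        rw [h2]
        calc (a * b) * z * (a * b)⁻¹ * z⁻¹ = (a * (b * z * b⁻¹ * z⁻¹)) * (z * a⁻¹ * z⁻¹) := by group
          _ = ((b * z * b⁻¹ * z⁻¹) * a) * (z * a⁻¹ * z⁻¹) := by rw [h1]
          _ = _ := by group) }
  have hk : commutator G ≤ f.ker := by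
    rw [commutator_def, Subgroup.commutator_le]
    intro a _ b _
    rw [MonoidHom.mem_ker, map_commutatorElement, commutatorElement_eq_one_iff_mul_comm]
    exact Subtype.ext (Subgroup.mem_center_iff.1 (f b).2 (f a))
  rw [hG.commutator_eq_top] at hk
  refine Subgroup.mem_center_iff.2 fun g => ?_
  have h1 : g * z * g⁻¹ * z⁻¹ = 1 := congrArg Subtype.val (MonoidHom.mem_ker.1 (hk (Subgroup.mem_top g)))
  rw [mul_inv_eq_one, mul_inv_eq_iff_eq_mul] at h1
  exact h1

theorem normal_le_center_or_eq_top {G : Type*} [Group G] (hq : IsQuasisimple G) (K : Subgroup G) [K.Normal] :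
    K ≤ Subgroup.center G ∨ K = ⊤ := by
  obtain ⟨hp, hs⟩ := hq
  have hn : (K.map (QuotientGroup.mk' (Subgroup.center G))).Normal :=
    Subgroup.Normal.map inferInstance _ (QuotientGroup.mk'_surjective _)
  rcases hn.eq_bot_or_eq_top with h | h
  · left
    rwa [Subgroup.map_eq_bot_iff, QuotientGroup.ker_mk'] at h
  · right
    rw [eq_top_iff, ← hp.commutator_eq_top, commutator_def, Subgroup.commutator_le]
    intro a _ b _
    have key : ∀ x : G, ∃ k ∈ K, ∃ z ∈ Subgroup.center G, x = k * z := by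
      intro x
      have hx : QuotientGroup.mk' (Subgroup.center G) x ∈ K.map (QuotientGroup.mk' (Subgroup.center G)) := by
        rw [h]; trivial
      obtain ⟨k, hk, hkx⟩ := hx
      exact ⟨k, hk, k⁻¹ * x, QuotientGroup.eq.1 hkx, (mul_inv_cancel_left k x).symm⟩
    obtain ⟨k, hk, z, hz, rfl⟩ := key a
    obtain ⟨l, hl, w, hw, rfl⟩ := key b
    have hz' := Subgroup.mem_center_iff.1 hz
    have hw' := Subgroup.mem_center_iff.1 hw
    have : ⁅k * z, l * w⁆ = k * l * k⁻¹ * l⁻¹ := by
      rw [commutatorElement_def]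
      calc k * z * (l * w) * (k * z)⁻¹ * (l * w)⁻¹
          = k * (z * (l * w)) * z⁻¹ * k⁻¹ * (l * w)⁻¹ := by group
        _ = k * ((l * w) * z) * z⁻¹ * k⁻¹ * (l * w)⁻¹ := by rw [← hz' (l * w)]
        _ = k * l * (w * k⁻¹) * w⁻¹ * l⁻¹ := by group
        _ = k * l * (k⁻¹ * w) * w⁻¹ * l⁻¹ := by rw [← hw' k⁻¹]
        _ = _ := by group
    rw [this]
    exact K.mul_mem (K.mul_mem (K.mul_mem hk hl) (K.inv_mem hk)) (K.inv_mem hl)

theorem pow_half_sq {G : Type*} [Group G] {x : G} {m : ℕ} (hm : Odd m) (hx : x ^ m = 1) :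
    (x * x) ^ ((m + 1) / 2) = x := by
  obtain ⟨r, rfl⟩ := hm
  rw [← pow_two, ← pow_mul, show 2 * ((2 * r + 1 + 1) / 2) = 2 * r + 1 + 1 by omega, pow_succ, hx, one_mul]

theorem eq_of_sq_eq {G : Type*} [Group G] {O : Subgroup G} [Finite G] (hodd : Odd (Nat.card O))
    {i j : G} (hi : i ∈ O) (hj : j ∈ O) (h : i * i = j * j) : i = j := by
  have key : ∀ x ∈ O, x ^ Nat.card O = 1 := fun x hx => by
    exact congrArg Subtype.val (pow_card_eq_one' (x := (⟨x, hx⟩ : O)))
  rw [← pow_half_sq hodd (key i hi), ← pow_half_sq hodd (key j hj), h]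

/-- An odd normal subgroup splits into an inverted part and a centralised part for an involution. -/
theorem decomp {G : Type*} [Group G] [Finite G] {O : Subgroup G} [O.Normal] (hodd : Odd (Nat.card O))
    (v : G) (hv : v * v = 1) (x : G) (hx : x ∈ O) :
    ∃ i ∈ O, ∃ d ∈ O, v * i * v = i⁻¹ ∧ v * d = d * v ∧ x = i * d := by
  have hv' : v⁻¹ = v := inv_eq_of_mul_eq_one_right hv
  let a := x * (v * x⁻¹ * v)
  have ha : a ∈ O := O.mul_mem hx (by
    have := Subgroup.Normal.conj_mem ‹_› x⁻¹ (O.inv_mem hx) v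
    rwa [hv'] at this)
  have hva : v * a * v⁻¹ = a⁻¹ := by
    show v * (x * (v * x⁻¹ * v)) * v⁻¹ = (x * (v * x⁻¹ * v))⁻¹
    rw [mul_inv_rev, mul_inv_rev, mul_inv_rev, inv_inv, hv']
    calc v * (x * (v * x⁻¹ * v)) * v = v * x * v * x⁻¹ * (v * v) := by group
      _ = _ := by rw [hv]; group
  let k := (Nat.card O + 1) / 2
  let i := a ^ k
  have hii : i * i = a := by
    show a ^ k * a ^ k = a
    rw [← (Commute.refl a).mul_pow]
    exact pow_half_sq hodd (congrArg Subtype.val (pow_card_eq_one' (x := (⟨a, ha⟩ : O))))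
  have hi : v * i * v⁻¹ = i⁻¹ := by
    show v * a ^ k * v⁻¹ = (a ^ k)⁻¹
    rw [← conj_pow, hva, inv_pow]
  rw [hv'] at hi
  refine ⟨i, O.pow_mem ha k, i⁻¹ * x, O.mul_mem (O.inv_mem (O.pow_mem ha k)) hx, hi, ?_,
    (mul_inv_cancel_left i x).symm⟩
  have hvx : v * x * v = a⁻¹ * x := by
    show v * x * v = (x * (v * x⁻¹ * v))⁻¹ * x
    rw [mul_inv_rev, mul_inv_rev, mul_inv_rev, inv_inv, hv']
    group
  have hi2 : v * i⁻¹ * v = i := by
    have := congrArg (·⁻¹) hi
    simp only [mul_inv_rev, inv_inv, hv'] at this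
    simpa [mul_assoc] using this
  calc v * (i⁻¹ * x) = (v * i⁻¹ * v) * (v * x * v) * v := by
        rw [show (v * i⁻¹ * v) * (v * x * v) * v = v * i⁻¹ * (v * v) * x * (v * v) by group, hv]; group
    _ = i * a⁻¹ * x * v := by rw [hi2, hvx]; group
    _ = i⁻¹ * x * v := by rw [← hii]; group

/-- If involutions `u` and `t` commute and have the same fixed points on `O`, then `t * u` fixes `O`. -/
theorem mul_centralizes {G : Type*} [Group G] [Finite G] {O : Subgroup G} [O.Normal] (hodd : Odd (Nat.card O))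
    (t u : G) (htt : t * t = 1) (huu : u * u = 1) (htu : t * u = u * t)
    (h1 : ∀ d ∈ O, t * d = d * t → u * d = d * u) (h2 : ∀ d ∈ O, u * d = d * u → t * d = d * t) :
    ∀ x ∈ O, (t * u) * x = x * (t * u) := by
  have ht' : t⁻¹ = t := inv_eq_of_mul_eq_one_right htt
  have hu' : u⁻¹ = u := inv_eq_of_mul_eq_one_right huu
  have sqf : ∀ i c : G, u * i * u = i⁻¹ → u * c = c * u →
      (i * c) * (u * (i * c)⁻¹ * u) = i * i := by
    intro i c hi hc
    have h3 : u * i⁻¹ * u = i := by
      have := congrArg (·⁻¹) hi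
      simp only [mul_inv_rev, inv_inv, hu'] at this
      simpa [mul_assoc] using this
    have h4 : u * c⁻¹ = c⁻¹ * u := (Commute.inv_right (hc : Commute u c)).eq
    calc (i * c) * (u * (i * c)⁻¹ * u) = i * c * (u * c⁻¹) * i⁻¹ * u := by group
      _ = i * (u * i⁻¹ * u) := by rw [h4]; group
      _ = i * i := by rw [h3]
  intro x hx
  obtain ⟨y, hy, d, hd, hyt, hdt, rfl⟩ := decomp hodd t htt x hx
  obtain ⟨i, hi, c, hc, hiu, hcu, rfl⟩ := decomp hodd u huu y hy
  have hct : t * c = c * t := h2 c hc hcu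
  have hj : u * (t * i * t) * u = (t * i * t)⁻¹ := by
    calc u * (t * i * t) * u = (u * t) * i * (t * u) := by group
      _ = t * (u * i * u) * t := by rw [← htu]; nth_rewrite 2 [htu]; group
      _ = (t * i * t)⁻¹ := by rw [hiu, mul_inv_rev, mul_inv_rev, ht']; group
  have hc' : u * (c⁻¹ * i⁻¹ * c) * u = (c⁻¹ * i⁻¹ * c)⁻¹ := by
    have h4 : u * c⁻¹ = c⁻¹ * u := (Commute.inv_right (hcu : Commute u c)).eq
    calc u * (c⁻¹ * i⁻¹ * c) * u = (u * c⁻¹) * i⁻¹ * (c * u) := by group
      _ = c⁻¹ * (u⁻¹ * i * u⁻¹)⁻¹ * c := by rw [h4, ← hcu]; group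
      _ = _ := by rw [hu', hiu]; group
  have hmemc : c⁻¹ * i⁻¹ * c ∈ O := O.mul_mem (O.mul_mem (O.inv_mem hc) (O.inv_mem hi)) hc
  have hmemj : t * i * t ∈ O := by
    have := Subgroup.Normal.conj_mem ‹_› i hi t
    rwa [ht'] at this
  have e1 : (t * i * t) * c = (c⁻¹ * i⁻¹ * c) * c⁻¹ := by
    calc (t * i * t) * c = t * i * (t * c) := by group
      _ = t * (i * c) * t := by rw [hct]; group
      _ = (i * c)⁻¹ := hyt
      _ = _ := by group
  have e2 : t * i * t = c⁻¹ * i⁻¹ * c := by
    refine eq_of_sq_eq hodd hmemj hmemc ?_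
    have s1 := sqf (t * i * t) c hj hcu
    have s2 := sqf (c⁻¹ * i⁻¹ * c) c⁻¹ hc' (Commute.inv_right (hcu : Commute u c)).eq
    rw [← s1, ← s2, e1]
  have e3 : c = 1 := by
    rw [e2] at e1
    have hcc : c = c⁻¹ := mul_left_cancel e1
    refine eq_of_sq_eq hodd hc O.one_mem ?_
    rw [one_mul]
    nth_rewrite 2 [hcc]
    exact mul_inv_cancel c
  subst e3
  rw [mul_one] at hyt hy ⊢
  have hti : t * i⁻¹ = i * t := by
    rw [← hyt]; calc t * (t * i * t) = (t * t) * i * t := by group
      _ = i * t := by rw [htt, one_mul]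
  have hui : u * i = i⁻¹ * u := by
    rw [← hiu]; calc u * i = u * i * (u * u) := by rw [huu, mul_one]
      _ = _ := by group
  calc t * u * (i * d) = t * (u * i) * d := by group
    _ = (t * i⁻¹) * (u * d) := by rw [hui]; group
    _ = i * (t * d) * u := by rw [hti, h1 d hd hdt]; group
    _ = i * d * (t * u) := by rw [hdt]; group


/-- Let X be a finite group and P a standard subgroup of X whose centralizer has 2-rank at most 1 and whose centre has odd order. Let S be a Sylow 2-subgroup of N_X(P) and t an involution of S centralizing P. Suppose some element g of X normalizes S, does not lie in S, has its square in S, and conjugates t into P·C_X(P). Then P commutes elementwise with the largest normal odd-order subgroup O(X) of X; consequently every t-invariant 2-component of X containing P is quasisimple. -/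
theorem result {X : Type*} [Group X] [Finite X] (P : Subgroup X) (hP : Cfsg.IsStandardSubgroup P)
    (hr : Cfsg.PRankLE 2 1 ↥(Subgroup.centralizer (P : Set X))) (hZ : Odd (Nat.card ↥(Subgroup.center ↥P)))
    (S : Sylow 2 ↥(Subgroup.normalizer (P : Set X))) (t : X) (ht : orderOf t = 2) (htS : t ∈ (S : Subgroup ↥(Subgroup.normalizer (P : Set X))).map (Subgroup.normalizer (P : Set X)).subtype)
    (htP : t ∈ Subgroup.centralizer (P : Set X))
    (g : X) (hgN : ∀ s ∈ (S : Subgroup ↥(Subgroup.normalizer (P : Set X))).map (Subgroup.normalizer (P : Set X)).subtype, g * s * g⁻¹ ∈ (S : Subgroup ↥(Subgroup.normalizer (P : Set X))).map (Subgroup.normalizer (P : Set X)).subtype)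
    (hgS : g ∉ (S : Subgroup ↥(Subgroup.normalizer (P : Set X))).map (Subgroup.normalizer (P : Set X)).subtype) (hg2 : g ^ 2 ∈ (S : Subgroup ↥(Subgroup.normalizer (P : Set X))).map (Subgroup.normalizer (P : Set X)).subtype)
    (hgt : g * t * g⁻¹ ∈ P ⊔ Subgroup.centralizer (P : Set X)) :
    ⁅P, Cfsg.oddCore X⁆ = ⊥ ∧
      ∀ L : Subgroup X, Cfsg.IsPComponent 2 L → P ≤ L → (∀ l ∈ L, t * l * t⁻¹ ∈ L) → Cfsg.IsQuasisimple ↥L := by
  classical
  haveI : Fact (Nat.Prime 2) := ⟨Nat.prime_two⟩
  obtain ⟨hqs, ⟨_, htight⟩, _, hnorm⟩ := hP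
  set C := Subgroup.centralizer (P : Set X) with hCdef
  set S' := (S : Subgroup ↥(Subgroup.normalizer (P : Set X))).map (Subgroup.normalizer (P : Set X)).subtype with hS'
  have ord2 : ∀ {a : X}, a * a = 1 → a ≠ 1 → orderOf a = 2 := fun {a} h h' =>
    orderOf_eq_prime (by rw [pow_two, h]) h'
  have htt : t * t = 1 := by rw [← pow_two, ← ht]; exact pow_orderOf_eq_one t
  have ht1 : t ≠ 1 := fun h => by rw [h, orderOf_one] at ht; omega
  have htinv : t⁻¹ = t := inv_eq_of_mul_eq_one_right htt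
  -- commuting involutions in C coincide
  have uniq : ∀ a b : X, a ∈ C → b ∈ C → a * a = 1 → b * b = 1 → a * b = b * a → a ≠ 1 → b ≠ 1 → a = b := by
    intro a b ha hb haa hbb hab ha1 hb1
    by_contra hne
    let a' : ↥C := ⟨a, ha⟩
    let b' : ↥C := ⟨b, hb⟩
    let A : Subgroup ↥C := Subgroup.closure {a', b'}
    have hA : IsMulCommutative A := Subgroup.isMulCommutative_closure (by
      rintro x (rfl | rfl) y (rfl | rfl)
      · rfl
      · exact Subtype.ext hab
      · exact Subtype.ext hab.symm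
      · rfl)
    have hA2 : ∀ x ∈ A, x ^ 2 = 1 := by
      intro x hx
      induction hx using Subgroup.closure_induction with
      | mem x hx =>
        rcases hx with rfl | rfl
        · exact Subtype.ext (by simp [pow_two, a', haa])
        · exact Subtype.ext (by simp [pow_two, b', hbb])
      | one => exact one_pow 2
      | mul x y hx hy h1 h2 =>
        have hc : Commute x y := congrArg Subtype.val (hA.is_comm.comm (⟨x, hx⟩ : A) ⟨y, hy⟩)
        rw [hc.mul_pow, h1, h2, one_mul]
      | inv x hx h1 => rw [inv_pow, h1, inv_one]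
    have h3 := hr A hA hA2
    let f : Fin 3 → A := ![1, ⟨a', Subgroup.subset_closure (by simp)⟩, ⟨b', Subgroup.subset_closure (by simp)⟩]
    have hval : (fun i => ((f i : ↥C) : X)) = ![1, a, b] := by
      funext i; fin_cases i <;> rfl
    have hf : Function.Injective f := by
      intro i j h
      have h' : (![1, a, b] : Fin 3 → X) i = ![1, a, b] j := by
        rw [← hval]; exact congrArg (fun z : A => ((z : ↥C) : X)) h
      fin_cases i <;> fin_cases j <;> simp at h' ⊢
      · exact ha1 h'.symm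
      · exact hb1 h'.symm
      · exact ha1 h'
      · exact hne h'
      · exact hb1 h'
      · exact hne h'.symm
    have := Nat.card_le_card_of_injective f hf
    simp at this h3
    omega
  -- C(t) ≤ (Subgroup.normalizer (P : Set X))
  have htN : ∀ x : X, x * t = t * x → x ∈ (Subgroup.normalizer (P : Set X)) := by
    intro x hx
    by_contra h
    rw [hnorm] at h
    have ho := htight x h
    have hm : t ∈ C ⊓ C.map (MulAut.conj x).toMonoidHom := ⟨htP, t, htP, by simp [hx]⟩
    have hd : orderOf (⟨t, hm⟩ : ↥(C ⊓ C.map (MulAut.conj x).toMonoidHom)) ∣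
        Nat.card ↥(C ⊓ C.map (MulAut.conj x).toMonoidHom) := orderOf_dvd_natCard _
    rw [Subgroup.orderOf_mk, ht] at hd
    exact (Nat.not_even_iff_odd.2 ho) (even_iff_two_dvd.2 hd)
  have hS'le : S' ≤ (Subgroup.normalizer (P : Set X)) := Subgroup.map_subtype_le _
  have hCN : ∀ x ∈ (Subgroup.normalizer (P : Set X)), ∀ c ∈ C, x * c * x⁻¹ ∈ C := by
    intro x hx c hc
    rw [hnorm] at hx
    exact (Subgroup.mem_normalizer_iff.1 hx c).1 hc
  have hSp : IsPGroup 2 ↥S' := S.2.map _
  -- t is central in S'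
  have htc : ∀ s ∈ S', s * t = t * s := by
    let D : Subgroup ↥S' := C.subgroupOf S'
    haveI : D.Normal := ⟨fun d hd s => hCN s (hS'le s.2) d hd⟩
    haveI : Nontrivial ↥D := ⟨⟨⟨t, htS⟩, htP⟩, 1, fun h =>
      ht1 (congrArg (fun z : D => ((z : ↥S') : X)) h)⟩
    haveI := (hSp.to_subgroup D).center_nontrivial
    obtain ⟨z, hz⟩ := exists_ne (1 : Subgroup.center ↥D)
    obtain ⟨k, hk⟩ := (IsPGroup.iff_orderOf.1 ((hSp.to_subgroup D).to_subgroup _)) z
    cases k with
    | zero => exact absurd (orderOf_eq_one_iff.1 (by simpa using hk)) hz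
    | succ k =>
      have hw : orderOf (z ^ (2 ^ k)) = 2 := by
        rw [orderOf_pow' _ (by positivity), hk, pow_succ, Nat.gcd_mul_right_left, Nat.mul_div_cancel_left _ (by positivity)]
      let w : X := ((((z ^ (2 ^ k)) : Subgroup.center ↥D) : ↥D) : ↥S')
      have hwo : orderOf w = 2 := by
        show orderOf ((((z ^ (2 ^ k)) : Subgroup.center ↥D) : ↥D) : ↥S').val = 2
        rw [Subgroup.orderOf_coe, Subgroup.orderOf_coe, Subgroup.orderOf_coe, hw]
      have hww : w * w = 1 := by rw [← pow_two, ← hwo]; exact pow_orderOf_eq_one w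
      have hw1 : w ≠ 1 := fun h => by rw [h, orderOf_one] at hwo; omega
      have hwC : w ∈ C := Subgroup.mem_subgroupOf.1 ((z ^ (2 ^ k) : Subgroup.center ↥D) : ↥D).2
      have key : ∀ a : X, a ∈ S' → a ∈ C → a * a = 1 → a ≠ 1 → a = w := by
        intro a haS haC haa ha1
        refine uniq a w haC hwC haa hww ?_ ha1 hw1
        exact congrArg (fun q : D => ((q : ↥S') : X))
          (Subgroup.mem_center_iff.1 (z ^ (2 ^ k)).2 ⟨⟨a, haS⟩, haC⟩)
      intro s hs
      have e1 := key t htS htP htt ht1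
      have e2 := key (s * t * s⁻¹) (S'.mul_mem (S'.mul_mem hs htS) (S'.inv_mem hs))
        (hCN s (hS'le hs) t htP) (by
          calc s * t * s⁻¹ * (s * t * s⁻¹) = s * (t * t) * s⁻¹ := by group
            _ = 1 := by rw [htt]; group)
        (by simpa using ht1)
      rw [← e1, mul_inv_eq_iff_eq_mul] at e2
      exact e2
  -- g is outside (Subgroup.normalizer (P : Set X))
  have hgN' : g ∉ (Subgroup.normalizer (P : Set X)) := by
    intro hg
    let g' : ↥(Subgroup.normalizer (P : Set X)) := ⟨g, hg⟩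
    have hg'n : g' ∈ Subgroup.normalizer ((S : Subgroup ↥(Subgroup.normalizer (P : Set X))) : Set ↥(Subgroup.normalizer (P : Set X))) := by
      refine Subgroup.mem_normalizer_iff_map_conj_eq.2 (Subgroup.eq_of_le_of_card_ge ?_ ?_)
      · rintro _ ⟨s, hs, rfl⟩
        obtain ⟨r, hr', hre⟩ := hgN s ⟨s, hs, rfl⟩
        have : (MulAut.conj g') s = r := Subtype.ext hre.symm
        show (MulAut.conj g') s ∈ (S : Subgroup ↥(Subgroup.normalizer (P : Set X)))
        rw [this]; exact hr'
      · exact (Subgroup.card_map_of_injective (MulAut.conj g').injective).ge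
    have hne : orderOf g' ≠ 0 := (orderOf_pos g').ne'
    obtain ⟨a, m, hm, ham⟩ := Nat.exists_eq_pow_mul_and_not_dvd hne 2 (by norm_num)
    have hQ : IsPGroup 2 ↥(Subgroup.zpowers (g' ^ m)) := by
      refine IsPGroup.of_card (n := a) ?_
      rw [Nat.card_zpowers, orderOf_pow' _ (by omega), ham, Nat.gcd_mul_left_left, Nat.mul_div_cancel _ (by omega)]
    have h1 : g' ^ m ∈ (S : Subgroup ↥(Subgroup.normalizer (P : Set X))) := by
      have := (SetLike.ext_iff.1 (hQ.inf_normalizer_sylow S) (g' ^ m)).1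
        ⟨Subgroup.mem_zpowers _, Subgroup.pow_mem _ hg'n m⟩
      exact this.2
    have h2 : g' ^ 2 ∈ (S : Subgroup ↥(Subgroup.normalizer (P : Set X))) := by
      obtain ⟨r, hr', hre⟩ := hg2
      have : g' ^ 2 = r := Subtype.ext hre.symm
      rw [this]; exact hr'
    obtain ⟨r, hr2⟩ : Odd m := Nat.odd_iff.2 (by omega)
    apply hgS
    refine ⟨g', ?_, rfl⟩
    rw [hr2, pow_succ, pow_mul] at h1
    exact (Subgroup.mul_mem_cancel_left _ (Subgroup.pow_mem _ h2 r)).1 h1
  -- u = g t g⁻¹
  set u := g * t * g⁻¹ with hu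
  have huu : u * u = 1 := by
    calc u * u = g * (t * t) * g⁻¹ := by rw [hu]; group
      _ = 1 := by rw [htt]; group
  have huS : u ∈ S' := hgN t htS
  have htu : t * u = u * t := (htc u huS).symm
  have hut : u ≠ t := fun h => hgN' (htN g (by rw [← mul_inv_eq_iff_eq_mul, ← hu, h]))
  have hgu : g * u * g⁻¹ = t := by
    calc g * u * g⁻¹ = g ^ 2 * t * (g ^ 2)⁻¹ := by rw [hu, pow_two]; group
      _ = t := by rw [htc _ hg2, mul_inv_cancel_right]
  have hPC : ∀ p ∈ P, ∀ c ∈ C, p * c = c * p := fun p hp c hc => Subgroup.mem_centralizer_iff.1 hc p hp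
  -- decompose u
  obtain ⟨p', hp', hp'2, hdec⟩ : ∃ p' ∈ P, p' * p' = 1 ∧ (u = p' ∨ u = p' * t) := by
    have hCle : C ≤ Subgroup.normalizer (P : Set X) := fun c hc => Subgroup.mem_normalizer_iff.2 fun p => by
      constructor
      · intro hp; rw [← hPC p hp c hc, mul_inv_cancel_right]; exact hp
      · intro hp
        have h3 := hPC _ hp c hc
        have : c * p * c⁻¹ = p := by
          have h4 : c * p = c * (c * p * c⁻¹) := by rw [← h3]; group
          exact (mul_left_cancel h4).symm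
        rwa [this] at hp
    have hmem : u ∈ (P : Set X) * (C : Set X) := by
      rw [← Subgroup.coe_mul_of_right_le_normalizer_left P C hCle]; exact hgt
    obtain ⟨p, hp, c, hc, hpc⟩ := Set.mem_mul.1 hmem
    have hcomm : Commute p c := hPC p hp c hc
    let m := Nat.card ↥(Subgroup.center ↥P)
    have hcc : c * c = (p * p)⁻¹ := by
      refine eq_inv_of_mul_eq_one_right ?_
      calc p * p * (c * c) = p * (p * c) * c := by group
        _ = (p * c) * (p * c) := by nth_rewrite 1 [hcomm.eq]; group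
        _ = 1 := by rw [hpc, huu]
    have hccP : c * c ∈ P := by rw [hcc]; exact P.inv_mem (P.mul_mem hp hp)
    have hcm : (c * c) ^ m = 1 := by
      have hz : (⟨c * c, hccP⟩ : ↥P) ∈ Subgroup.center ↥P :=
        Subgroup.mem_center_iff.2 fun q => Subtype.ext (hPC q q.2 (c * c) (C.mul_mem hc hc))
      exact congrArg (fun q : Subgroup.center ↥P => ((q : ↥P) : X))
        (pow_card_eq_one' (x := (⟨⟨c * c, hccP⟩, hz⟩ : Subgroup.center ↥P)))
    have hum : u = p ^ m * c ^ m := by
      rw [← hcomm.mul_pow, hpc]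
      obtain ⟨r, hr'⟩ := hZ
      show u = u ^ m
      rw [show m = 2 * r + 1 from hr', pow_succ, pow_mul, pow_two, huu, one_pow, one_mul]
    have hc2 : c ^ m * c ^ m = 1 := by rw [← (Commute.refl c).mul_pow, hcm]
    have hp2 : p ^ m * p ^ m = 1 := by
      rw [← (Commute.refl p).mul_pow, ← inv_inv (p * p), ← hcc, inv_pow, hcm, inv_one]
    refine ⟨p ^ m, P.pow_mem hp m, hp2, ?_⟩
    by_cases h1 : c ^ m = 1
    · left; rw [hum, h1, mul_one]
    · right
      have htp : Commute t p := ((hPC p hp t htP).symm)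
      have htcm : Commute t (c ^ m) := by
        have h2 : c ^ m = (p ^ m)⁻¹ * u := by rw [hum, inv_mul_cancel_left]
        rw [h2]
        exact ((htp.pow_right m).inv_right).mul_right htu
      rw [hum, uniq (c ^ m) t (C.pow_mem hc m) htP hc2 htt htcm.symm.eq h1 ht1]
  have hp'C : p' ∉ C := by
    intro h
    have huC : u ∈ C := hdec.elim (fun e => by rw [e]; exact h) (fun e => by rw [e]; exact C.mul_mem h htP)
    have hu1 : u ≠ 1 := fun h' => ht1 (by rw [hu] at h'; simpa using h')
    exact hut (uniq u t huC htP huu htt htu.symm hu1 ht1)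
  have hp'1 : p' ≠ 1 := fun h => hp'C (h ▸ C.one_mem)
  have hp'Z : (⟨p', hp'⟩ : ↥P) ∉ Subgroup.center ↥P := fun h => hp'C
    (Subgroup.mem_centralizer_iff.2 fun q hq => congrArg Subtype.val (Subgroup.mem_center_iff.1 h ⟨q, hq⟩))
  -- the odd core
  set O := Cfsg.oddCore X with hOdef
  have hodd : Odd (Nat.card O) := by
    have := CfsgLib.PLength.pPrimeCore_card_coprime 2 X
    rwa [Nat.coprime_two_right] at this
  have hp'O : p' ∉ O := fun h => hp'1 (eq_of_sq_eq hodd h O.one_mem (by rw [hp'2, one_mul]))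
  have hD : ∀ d ∈ O, t * d = d * t → ∀ q ∈ P, q * d = d * q := by
    intro d hd hdt q hq
    have hdN : d ∈ (Subgroup.normalizer (P : Set X)) := htN d hdt.symm
    let K : Subgroup ↥P := O.subgroupOf P
    have hK : K ≤ Subgroup.center ↥P := (normal_le_center_or_eq_top hqs K).resolve_right fun h =>
      hp'O (show (⟨p', hp'⟩ : ↥P) ∈ K by rw [h]; trivial)
    have hmem : ∀ q : ↥P, (q : X) * d * (q : X)⁻¹ * d⁻¹ ∈ P ∧ (q : X) * d * (q : X)⁻¹ * d⁻¹ ∈ O := fun q =>
      ⟨by
        have : d * (q : X)⁻¹ * d⁻¹ ∈ P := (Subgroup.mem_normalizer_iff.1 hdN _).1 (P.inv_mem q.2)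
        simpa [mul_assoc] using P.mul_mem q.2 this,
       O.mul_mem (Subgroup.Normal.conj_mem inferInstance d hd q) (O.inv_mem hd)⟩
    let f : ↥P →* Subgroup.center ↥P :=
      { toFun := fun q => ⟨⟨_, (hmem q).1⟩, hK (hmem q).2⟩
        map_one' := Subtype.ext (Subtype.ext (by simp))
        map_mul' := fun a b => by
          have h1 := congrArg Subtype.val (Subgroup.mem_center_iff.1
            (hK (x := ⟨_, (hmem b).1⟩) (hmem b).2) a)
          have h2 := congrArg Subtype.val (Subgroup.mem_center_iff.1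
            (hK (x := ⟨_, (hmem b).1⟩) (hmem b).2) (⟨_, (hmem a).1⟩ : ↥P))
          simp only [Subgroup.coe_mul] at h1 h2
          refine Subtype.ext (Subtype.ext ?_)
          show ((a : X) * b) * d * ((a : X) * b)⁻¹ * d⁻¹ =
            ((a : X) * d * (a : X)⁻¹ * d⁻¹) * ((b : X) * d * (b : X)⁻¹ * d⁻¹)
          rw [h2]
          calc ((a : X) * b) * d * ((a : X) * b)⁻¹ * d⁻¹
              = ((a : X) * ((b : X) * d * (b : X)⁻¹ * d⁻¹)) * (d * (a : X)⁻¹ * d⁻¹) := by group
            _ = (((b : X) * d * (b : X)⁻¹ * d⁻¹) * a) * (d * (a : X)⁻¹ * d⁻¹) := by rw [h1]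
            _ = _ := by group }
    have hk : commutator ↥P ≤ f.ker := by
      rw [commutator_def, Subgroup.commutator_le]
      intro a _ b _
      rw [MonoidHom.mem_ker, map_commutatorElement, commutatorElement_eq_one_iff_mul_comm]
      exact Subtype.ext (Subgroup.mem_center_iff.1 (f b).2 (f a))
    rw [hqs.1.commutator_eq_top] at hk
    have h1 : q * d * q⁻¹ * d⁻¹ = 1 := congrArg (fun z : Subgroup.center ↥P => ((z : ↥P) : X))
      (MonoidHom.mem_ker.1 (hk (Subgroup.mem_top (⟨q, hq⟩ : ↥P))))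
    rw [mul_inv_eq_one, mul_inv_eq_iff_eq_mul] at h1
    exact h1
  have h1 : ∀ d ∈ O, t * d = d * t → u * d = d * u := by
    intro d hd hdt
    have := hD d hd hdt p' hp'
    rcases hdec with e | e <;> rw [e]
    · exact this
    · rw [mul_assoc, hdt, ← mul_assoc, this, mul_assoc]
  have h2 : ∀ d ∈ O, u * d = d * u → t * d = d * t := by
    intro d hd hdu
    have hd' : g⁻¹ * d * g ∈ O := by
      simpa using Subgroup.Normal.conj_mem (inferInstance : O.Normal) d hd g⁻¹
    have e1 : t * (g⁻¹ * d * g) = (g⁻¹ * d * g) * t := by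
      calc t * (g⁻¹ * d * g) = g⁻¹ * (u * d) * g := by rw [hu]; group
        _ = _ := by rw [hdu, hu]; group
    have e2 := h1 _ hd' e1
    calc t * d = g * (u * (g⁻¹ * d * g)) * g⁻¹ := by rw [← hgu]; group
      _ = d * t := by rw [e2, ← hgu]; group
  have hfix := mul_centralizes hodd t u htt huu htu h1 h2
  have hPO : P ≤ Subgroup.centralizer (O : Set X) := by
    let K : Subgroup ↥P := (Subgroup.centralizer (O : Set X)).subgroupOf P
    rcases normal_le_center_or_eq_top hqs K with h | h
    · exfalso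
      apply hp'Z
      refine central_of_comm_mem_center hqs.1 _ fun q => h ?_
      show (q : X) * p' * (q : X)⁻¹ * p'⁻¹ ∈ Subgroup.centralizer (O : Set X)
      have hw : t * u ∈ Subgroup.centralizer (O : Set X) :=
        Subgroup.mem_centralizer_iff.2 fun x hx => (hfix x hx).symm
      have htp' : t * p' = p' * t := (hPC p' hp' t htP).symm
      rcases hdec with e | e
      · rw [e] at hw
        have := Subgroup.mul_mem _ ((inferInstance : (Subgroup.centralizer (O : Set X)).Normal).conj_mem _ hw q)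
          (Subgroup.inv_mem _ hw)
        have hqt : (q : X) * t = t * q := hPC q q.2 t htP
        have e3 : (q : X) * (t * p') * (q : X)⁻¹ * (t * p')⁻¹ = (q : X) * p' * (q : X)⁻¹ * p'⁻¹ := by
          have cq : Commute t (q : X) := hqt.symm
          have cp : Commute t p' := htp'
          have c1 : Commute t ((q : X) * p' * (q : X)⁻¹ * p'⁻¹) :=
            Commute.mul_right (Commute.mul_right (Commute.mul_right cq cp) (Commute.inv_right cq)) (Commute.inv_right cp)
          calc (q : X) * (t * p') * (q : X)⁻¹ * (t * p')⁻¹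
              = ((q : X) * t) * p' * (q : X)⁻¹ * p'⁻¹ * t⁻¹ := by group
            _ = (t * ((q : X) * p' * (q : X)⁻¹ * p'⁻¹)) * t⁻¹ := by rw [hqt]; group
            _ = _ := by rw [c1.eq, mul_inv_cancel_right]
        rwa [e3] at this
      · have e4 : t * u = p' := by rw [e, ← mul_assoc, htp', mul_assoc, htt, mul_one]
        rw [e4] at hw
        exact Subgroup.mul_mem _ ((inferInstance : (Subgroup.centralizer (O : Set X)).Normal).conj_mem _ hw q)
          (Subgroup.inv_mem _ hw)
    · exact Subgroup.subgroupOf_eq_top.1 h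
  refine ⟨Subgroup.commutator_eq_bot_iff_le_centralizer.2 hPO, ?_⟩
  intro L hL hPL _
  obtain ⟨hsub, ⟨_, hKq⟩, hmin⟩ := hL
  set π := QuotientGroup.mk' (Cfsg.pPrimeCore 2 X) with hπ
  have hker : ∀ x : X, π x = 1 ↔ x ∈ O := fun x => QuotientGroup.eq_one_iff x
  let πL : ↥L →* ↥(L.map π) :=
    { toFun := fun l => ⟨π l, l, l.2, rfl⟩
      map_one' := Subtype.ext (map_one π)
      map_mul' := fun a b => Subtype.ext (map_mul π _ _) }
  have hsurj : Function.Surjective πL := by
    rintro ⟨_, l, hl, rfl⟩; exact ⟨⟨l, hl⟩, rfl⟩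
  -- L centralises O
  let M : Subgroup ↥L := (Subgroup.centralizer (O : Set X)).subgroupOf L
  have htop : ∀ (M : Subgroup ↥L) [M.Normal], M.map πL = ⊤ → M = ⊤ := by
    intro M _ hM
    have := hmin (M.map L.subtype) (Subgroup.IsSubnormal.trans' (Subgroup.Normal.isSubnormal inferInstance) hsub)
      (Subgroup.map_subtype_le M) (by
        apply le_antisymm (Subgroup.map_mono (Subgroup.map_subtype_le M))
        rintro _ ⟨l, hl, rfl⟩
        have : πL ⟨l, hl⟩ ∈ M.map πL := by rw [hM]; trivial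
        obtain ⟨k, hk, hkl⟩ := this
        exact ⟨k, ⟨k, hk, rfl⟩, congrArg Subtype.val hkl⟩)
    rw [eq_top_iff]
    intro l _
    have hl : (l : X) ∈ M.map L.subtype := by rw [this]; exact l.2
    obtain ⟨k, hk, hkl⟩ := hl
    rwa [Subtype.ext hkl] at hk
  have hMtop : M = ⊤ := by
    apply htop
    haveI : (M.map πL).Normal := Subgroup.Normal.map inferInstance _ hsurj
    refine (normal_le_center_or_eq_top hKq _).resolve_left fun h => ?_
    let ψ : ↥P →* ↥(L.map π) := πL.comp (Subgroup.inclusion hPL)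
    have hψ : ∀ q, ψ q ∈ Subgroup.center ↥(L.map π) := fun q =>
      h ⟨Subgroup.inclusion hPL q, hPO q.2, rfl⟩
    have hk : commutator ↥P ≤ ψ.ker := by
      rw [commutator_def, Subgroup.commutator_le]
      intro a _ b _
      rw [MonoidHom.mem_ker, map_commutatorElement, commutatorElement_eq_one_iff_mul_comm]
      exact Subgroup.mem_center_iff.1 (hψ b) (ψ a)
    rw [hqs.1.commutator_eq_top] at hk
    exact hp'O ((hker p').1 (congrArg Subtype.val (MonoidHom.mem_ker.1 (hk (Subgroup.mem_top (⟨p', hp'⟩ : ↥P))))))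
  have hLO : ∀ l ∈ L, ∀ x ∈ O, x * l = l * x := fun l hl x hx =>
    Subgroup.mem_centralizer_iff.1 (show (⟨l, hl⟩ : ↥L) ∈ M by rw [hMtop]; trivial) x hx
  have hperf : Group.IsPerfect ↥L := by
    refine Group.isPerfect_def.2 (htop _ ?_)
    rw [commutator_def, Subgroup.map_commutator, Subgroup.map_top_of_surjective _ hsurj, ← commutator_def]
    exact hKq.1.commutator_eq_top
  have hkerc : ∀ l : ↥L, πL l = 1 → l ∈ Subgroup.center ↥L := fun l hl =>
    Subgroup.mem_center_iff.2 fun m => Subtype.ext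
      (hLO m m.2 l ((hker _).1 (congrArg Subtype.val hl))).symm
  refine ⟨hperf, ?_⟩
  haveI := hKq.2
  let F := (QuotientGroup.mk' (Subgroup.center ↥(L.map π))).comp πL
  have hF : F.ker = Subgroup.center ↥L := by
    ext l
    rw [MonoidHom.mem_ker]
    show (QuotientGroup.mk (πL l) : ↥(L.map π) ⧸ Subgroup.center ↥(L.map π)) = 1 ↔ _
    rw [QuotientGroup.eq_one_iff]
    constructor
    · intro hl
      refine central_of_comm_mem_center hperf l fun m => hkerc _ ?_
      rw [map_mul, map_mul, map_mul, map_inv, map_inv, Subgroup.mem_center_iff.1 hl (πL m)]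
      group
    · intro hl
      refine Subgroup.mem_center_iff.2 fun k => ?_
      obtain ⟨m, rfl⟩ := hsurj k
      rw [← map_mul, ← map_mul, Subgroup.mem_center_iff.1 hl m]
  exact MulEquiv.isSimpleGroup ((QuotientGroup.quotientMulEquivOfEq hF.symm).trans
    (QuotientGroup.quotientKerEquivOfSurjective F ((QuotientGroup.mk'_surjective _).comp hsurj)))

end Cfsg.Agent.S3153
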