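import Cfsg.Statements.S3154
import Cfsg.Agent.Eq.Def_Transfer
import Cfsg.Agent.Eq.Def_CaseTheorems
import Cfsg.Agent.L34.Normalizer

set_option autoImplicit false
open Cfsg

namespace Cfsg.Agent.S3154

open CfsgLib.L34

/-- Let X be a finite quasisimple group whose centre is an elementary abelian 2-group and whose central quotient is isomorphic to the projective special linear group of dimension 3 over the field with 4 elements. Let T be a Sylow 2-subgroup of X and H ≠ K subgroups of T containing the centre Z(X) whose images in X/Z(X) are elementary abelian of order 16 (the two such subgroups of a Sylow 2-subgroup of the quotient). Then H and K are elementary abelian, H ∩ K is the centre of the subgroup they generate, and each of N_X(H), N_X(K) is a split extension of H, respectively K, by the projective special linear group of dimension 2 over the field with 4 elements (there is a complement isomorphic to that group). -/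
theorem result {X : Type*} [Group X] [Finite X] (hq : Cfsg.IsQuasisimple X) (hZ : Cfsg.IsElementaryAbelian 2 (Subgroup.center X))
    {F : Type*} [Field F] [Fintype F] (hF : Fintype.card F = 4) (hXL : Nonempty ((X ⧸ Subgroup.center X) ≃* Matrix.ProjectiveSpecialLinearGroup (Fin 3) F))
    (T : Sylow 2 X) (H K : Subgroup X) (hHK : H ≠ K) (hHT : H ≤ T) (hKT : K ≤ T) (hZH : Subgroup.center X ≤ H) (hZK : Subgroup.center X ≤ K)
    (hH : Cfsg.IsElementaryAbelian 2 (H.map (QuotientGroup.mk' (Subgroup.center X))) ∧ Nat.card ↥(H.map (QuotientGroup.mk' (Subgroup.center X))) = 16)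
    (hK : Cfsg.IsElementaryAbelian 2 (K.map (QuotientGroup.mk' (Subgroup.center X))) ∧ Nat.card ↥(K.map (QuotientGroup.mk' (Subgroup.center X))) = 16) :
    Cfsg.IsElementaryAbelian 2 H ∧ Cfsg.IsElementaryAbelian 2 K ∧
      H ⊓ K = (Subgroup.center ↥(H ⊔ K)).map (H ⊔ K).subtype ∧
      (∃ C : Subgroup X, C ≤ Subgroup.normalizer (H : Set X) ∧ C ⊓ H = ⊥ ∧ H ⊔ C = Subgroup.normalizer (H : Set X) ∧
        Nonempty (↥C ≃* Matrix.ProjectiveSpecialLinearGroup (Fin 2) F)) ∧
      (∃ C : Subgroup X, C ≤ Subgroup.normalizer (K : Set X) ∧ C ⊓ K = ⊥ ∧ K ⊔ C = Subgroup.normalizer (K : Set X) ∧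
        Nonempty (↥C ≃* Matrix.ProjectiveSpecialLinearGroup (Fin 2) F)) := by
  classical
  haveI : Fact (Nat.Prime 2) := ⟨Nat.prime_two⟩
  obtain ⟨e⟩ := hXL
  obtain ⟨D, d1, d2⟩ := exists_data hF
  let f₀ : X →* Matrix.ProjectiveSpecialLinearGroup (Fin 3) F :=
    e.toMonoidHom.comp (QuotientGroup.mk' (Subgroup.center X))
  have hf₀ : Function.Surjective f₀ := e.surjective.comp (QuotientGroup.mk'_surjective _)
  let S₀ : Sylow 2 (Matrix.ProjectiveSpecialLinearGroup (Fin 3) F) := T.mapSurjective hf₀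
  obtain ⟨g, hg⟩ := D.sylow S₀
  let f : X →* Matrix.ProjectiveSpecialLinearGroup (Fin 3) F := (MulAut.conj g).toMonoidHom.comp f₀
  have hf : Function.Surjective f := (MulAut.conj g).surjective.comp hf₀
  have hker : f.ker = Subgroup.center X := by
    ext x
    rw [MonoidHom.mem_ker]
    show MulAut.conj g (e (QuotientGroup.mk x)) = 1 ↔ _
    rw [EmbeddingLike.map_eq_one_iff, EmbeddingLike.map_eq_one_iff, QuotientGroup.eq_one_iff]
  have hZ2 : ∀ z ∈ Subgroup.center X, z * z = 1 := fun z hz => by rw [← pow_two]; exact hZ.2 z hz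
  have hTU : (T : Subgroup X).map f = D.U := by
    rw [← hg, Sylow.coe_mapSurjective, Subgroup.map_map]
  have himg : ∀ L : Subgroup X, L ≤ T → Subgroup.center X ≤ L →
      Cfsg.IsElementaryAbelian 2 (L.map (QuotientGroup.mk' (Subgroup.center X))) →
      Nat.card ↥(L.map (QuotientGroup.mk' (Subgroup.center X))) = 16 →
      (L.map f = D.A₁ ∨ L.map f = D.A₂) ∧ L = (L.map f).comap f := by
    intro L hLT hZL hLe hLc
    let ι : (X ⧸ Subgroup.center X) ≃* Matrix.ProjectiveSpecialLinearGroup (Fin 3) F := e.trans (MulAut.conj g)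
    have hLm : L.map f = (L.map (QuotientGroup.mk' (Subgroup.center X))).map ι.toMonoidHom := by
      rw [Subgroup.map_map]; rfl
    refine ⟨D.cases _ (hTU ▸ Subgroup.map_mono hLT) ?_ ?_, ?_⟩
    · intro a ha
      rw [hLm] at ha
      obtain ⟨b, hb, rfl⟩ := ha
      rw [← map_mul, ← pow_two, hLe.2 b hb, map_one]
    · rw [hLm, Subgroup.card_map_of_injective (f := ι.toMonoidHom) ι.injective, hLc]
    · rw [Subgroup.comap_map_eq, hker, sup_eq_left.2 hZL]
  obtain ⟨hHA, hHc⟩ := himg H hHT hZH hH.1 hH.2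
  obtain ⟨hKA, hKc⟩ := himg K hKT hZK hK.1 hK.2
  have mk_elem : ∀ (A B : Subgroup (Matrix.ProjectiveSpecialLinearGroup (Fin 3) F)), HasComplementData A B →
      (∀ h ∈ A.comap f, h * h = 1) := by
    intro A B hd
    obtain ⟨hA2, hAc, S, -, -, -, -, ⟨e₀, htr⟩, -⟩ := hd
    exact lift_elementary f hf hker hZ2 A (by rw [hAc]; norm_num) hA2 e₀ htr
  have e1 := mk_elem _ _ d1
  have e2 := mk_elem _ _ d2
  have elemAb : ∀ L : Subgroup X, (∀ h ∈ L, h * h = 1) → Cfsg.IsElementaryAbelian 2 L := by
    intro L hL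
    refine ⟨⟨⟨fun a b => Subtype.ext ?_⟩⟩, fun a ha => by rw [pow_two]; exact hL a ha⟩
    show (a : X) * b = b * a
    have h1 := eq_inv_of_mul_eq_one_left (hL _ (L.mul_mem a.2 b.2))
    rw [h1, mul_inv_rev, inv_eq_of_mul_eq_one_right (hL _ a.2), inv_eq_of_mul_eq_one_right (hL _ b.2)]
  -- the general argument for an ordered pair
  have main : ∀ L M : Subgroup X, L = D.A₁.comap f → M = D.A₂.comap f → L ≤ T → M ≤ T →
      L ⊓ M = (Subgroup.center ↥(L ⊔ M)).map (L ⊔ M).subtype := by
    intro L M hL hM hLT hMT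
    have hsup : L ⊔ M = T := by
      refine le_antisymm (sup_le hLT hMT) fun t ht => ?_
      obtain ⟨a, ha, b, hb, hab⟩ := D.sup_eq (f t) (hTU ▸ Subgroup.mem_map_of_mem f ht)
      obtain ⟨a, rfl⟩ := hf a
      have haL : a ∈ L := by rw [hL]; exact ha
      have hbM : a⁻¹ * t ∈ M := by
        rw [hM]
        show f (a⁻¹ * t) ∈ D.A₂
        rw [map_mul, map_inv, hab, inv_mul_cancel_left]
        exact hb
      rw [← mul_inv_cancel_left a t]
      exact Subgroup.mul_mem _ (Subgroup.mem_sup_left haL) (Subgroup.mem_sup_right hbM)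
    have cl := (elemAb L (by rw [hL]; exact e1)).1
    have cm := (elemAb M (by rw [hM]; exact e2)).1
    ext x
    constructor
    · rintro ⟨hxL, hxM⟩
      refine ⟨⟨x, Subgroup.mem_sup_left hxL⟩, Subgroup.mem_center_iff.2 fun y => Subtype.ext ?_, rfl⟩
      have hy : (y : X) ∈ Subgroup.centralizer ({x} : Set X) := by
        have hle : L ⊔ M ≤ Subgroup.centralizer ({x} : Set X) := by
          refine sup_le (fun a ha => Subgroup.mem_centralizer_iff.2 ?_) (fun a ha => Subgroup.mem_centralizer_iff.2 ?_)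
          · intro q hq
            rw [show q = x from hq]
            exact congrArg Subtype.val (cl.is_comm.comm (⟨x, hxL⟩ : L) ⟨a, ha⟩)
          · intro q hq
            rw [show q = x from hq]
            exact congrArg Subtype.val (cm.is_comm.comm (⟨x, hxM⟩ : M) ⟨a, ha⟩)
        exact hle y.2
      exact (Subgroup.mem_centralizer_iff.1 hy x rfl).symm
    · rintro ⟨x, hx, rfl⟩
      have hxT : (x : X) ∈ (T : Subgroup X) := hsup ▸ x.2
      obtain ⟨h1, h2⟩ := D.centre (f x) (hTU ▸ Subgroup.mem_map_of_mem f hxT) (by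
        intro q hq
        rw [← hTU] at hq
        obtain ⟨q, hq, rfl⟩ := hq
        have := congrArg Subtype.val (Subgroup.mem_center_iff.1 hx ⟨q, hsup ▸ hq⟩)
        rw [← map_mul, ← map_mul]
        exact congrArg f this)
      exact ⟨(SetLike.ext_iff.1 hL _).2 h1, (SetLike.ext_iff.1 hM _).2 h2⟩
  rcases hHA with hH1 | hH1 <;> rcases hKA with hK1 | hK1
  · exact absurd (hHc.trans (by rw [hH1, ← hK1, ← hKc])) hHK
  · rw [hH1] at hHc; rw [hK1] at hKc
    refine ⟨elemAb H (hHc ▸ e1), elemAb K (hKc ▸ e2), main H K hHc hKc hHT hKT, ?_, ?_⟩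
    · rw [hHc]; exact split_normalizer f hf hker _ _ d1 e2
    · rw [hKc]; exact split_normalizer f hf hker _ _ d2 e1
  · rw [hH1] at hHc; rw [hK1] at hKc
    refine ⟨elemAb H (hHc ▸ e2), elemAb K (hKc ▸ e1), ?_, ?_, ?_⟩
    · have := main K H hKc hHc hKT hHT
      rw [inf_comm, sup_comm]; exact this
    · rw [hHc]; exact split_normalizer f hf hker _ _ d2 e1
    · rw [hKc]; exact split_normalizer f hf hker _ _ d1 e2
  · exact absurd (hHc.trans (by rw [hH1, ← hK1, ← hKc])) hHK

end Cfsg.Agent.S3154
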