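import Cfsg.Statements.S3155
import Mathlib.LinearAlgebra.Determinant
import Mathlib.Algebra.Module.ZMod
import Mathlib.LinearAlgebra.FreeModule.Finite.Basic
import Mathlib.LinearAlgebra.FreeModule.StrongRankCondition

set_option autoImplicit false
open Cfsg

namespace Cfsg.Agent.S3155

/-- Let B be the direct product of three cyclic groups of order 4. Then the automorphism of B inverting every element is not the square of any automorphism of B. -/
theorem result {B : Type*} [CommGroup B] [Finite B] (hB : Nonempty (B ≃* Multiplicative (ZMod 4 × ZMod 4 × ZMod 4)))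
    (τ : B ≃* B) : τ.trans τ ≠ MulEquiv.inv B := by
  intro h
  obtain ⟨e⟩ := hB
  let σ : (ZMod 4 × ZMod 4 × ZMod 4) →+ (ZMod 4 × ZMod 4 × ZMod 4) :=
    { toFun := fun x => Multiplicative.toAdd (e (τ (e.symm (Multiplicative.ofAdd x))))
      map_zero' := by simp
      map_add' := fun x y => by simp }
  let f := σ.toZModLinearMap 4
  have hf : f * f = -(1 : Module.End (ZMod 4) (ZMod 4 × ZMod 4 × ZMod 4)) := by
    refine LinearMap.ext fun x => ?_
    have hb : τ (τ (e.symm (Multiplicative.ofAdd x))) = (e.symm (Multiplicative.ofAdd x))⁻¹ :=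
      congrArg (fun g : B ≃* B => g (e.symm (Multiplicative.ofAdd x))) h
    show Multiplicative.toAdd (e (τ (e.symm (e (τ (e.symm (Multiplicative.ofAdd x))))))) = -x
    simp [hb]
  have hd := congrArg LinearMap.det hf
  rw [map_mul, ← neg_one_smul (ZMod 4) (1 : Module.End (ZMod 4) (ZMod 4 × ZMod 4 × ZMod 4)),
    LinearMap.det_smul, map_one, mul_one] at hd
  haveI : Fact (1 < 4) := ⟨by norm_num⟩
  have hr : Module.finrank (ZMod 4) (ZMod 4 × ZMod 4 × ZMod 4) = 3 := by
    rw [Module.finrank_prod (R := ZMod 4), Module.finrank_prod (R := ZMod 4), Module.finrank_self]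
  rw [hr] at hd
  revert hd
  generalize LinearMap.det f = d
  revert d
  decide


end Cfsg.Agent.S3155
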