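import Cfsg.Statements.S3161
import Cfsg.Agent.Singer2.Form
import Cfsg.Agent.Singer2.Models
import Cfsg.Agent.Eq.Def_Transfer

set_option autoImplicit false
open Cfsg

namespace Cfsg.Agent.S3161

/-- Let Q be a non-abelian finite 2-group admitting commuting automorphisms α of order 2 and ρ of order 2^n − 1, where n ≥ 2, such that the fixed points of α form an elementary abelian subgroup of order 2^n on whose nonidentity elements the group generated by ρ acts transitively. Then Q is isomorphic to a Sylow 2-subgroup of the projective special unitary group of dimension 3 with parameter 2^n (realised over the field with 4^n elements) or of the projective special linear group of dimension 3 over the field with 2^n elements. -/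
theorem result {Q : Type*} [Group Q] [Finite Q] (hQ : IsPGroup 2 Q) (hna : ¬ IsMulCommutative Q) (n : ℕ) (hn : 2 ≤ n)
    (α ρ : MulAut Q) (hα : orderOf α = 2) (hρ : orderOf ρ = 2 ^ n - 1) (hc : Commute α ρ)
    (C : Subgroup Q) (hC : ∀ x : Q, x ∈ C ↔ α x = x) (hCE : Cfsg.IsElementaryAbelian 2 C ∧ Nat.card ↥C = 2 ^ n)
    (htr : ∀ x y : Q, x ∈ C → y ∈ C → x ≠ 1 → y ≠ 1 → ∃ k : ℕ, (ρ ^ k) x = y) :
    (∃ (F : Type) (_ : Field F) (_ : Fintype F), Fintype.card F = 4 ^ n ∧
        ∃ S : Sylow 2 (Cfsg.PSU 3 F (2 ^ n)), Nonempty (Q ≃* ↥(S : Subgroup (Cfsg.PSU 3 F (2 ^ n))))) ∨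
      (∃ (F : Type) (_ : Field F) (_ : Fintype F), Fintype.card F = 2 ^ n ∧
        ∃ S : Sylow 2 (Matrix.ProjectiveSpecialLinearGroup (Fin 3) F), Nonempty (Q ≃* ↥(S : Subgroup (Matrix.ProjectiveSpecialLinearGroup (Fin 3) F)))) := by
  classical
  have hpow : ∀ (k : ℕ) (x : Q), (ρ ^ k) x = (ρ^[k]) x := by
    intro k
    induction k with
    | zero => intro x; rfl
    | succ k ih => intro x; rw [pow_succ, Function.iterate_succ_apply, MulAut.mul_apply, ih]
  have hsys : CfsgLib.Singer2.Sys α ρ C n :=
    { two := hQ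
      two_le := hn
      invol := fun x => by
        have h := pow_orderOf_eq_one α
        rw [hα, pow_two] at h
        exact DFunLike.congr_fun h x
      comm := fun x => DFunLike.congr_fun hc.eq x
      fixed := hC
      elem := fun c hc' => by rw [← pow_two]; exact hCE.1.2 c hc'
      card := hCE.2
      trans := fun x hx y hy hx1 hy1 => by
        obtain ⟨k, hk⟩ := htr x y hx hy hx1 hy1
        exact ⟨k, (hpow k x).symm.trans hk⟩
      order := fun x => by
        rw [← hpow, ← hρ, pow_orderOf_eq_one]; rfl }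
  have hna' : ∃ a b : Q, a * b ≠ b * a := by
    by_contra hcon
    push Not at hcon
    exact hna ⟨⟨hcon⟩⟩
  obtain ⟨F, iF, iFin, hchar, t, hF, hform⟩ := hsys.exists_hasForm hna'
  by_cases ht : ∃ k : F, k * k + k = t
  · obtain ⟨k, rfl⟩ := ht
    obtain ⟨S, hS⟩ := CfsgLib.Singer2.exists_hasForm_linear (by omega) hF k
    exact Or.inr ⟨F, iF, iFin, hF, S, hform.nonempty_mulEquiv hS⟩
  · push Not at ht
    obtain ⟨K, iK, iKfin, hK, S, hS⟩ := CfsgLib.Singer2.exists_hasForm_unitary (by omega) hF t ht
    exact Or.inl ⟨K, iK, iKfin, hK, S, hform.nonempty_mulEquiv hS⟩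

end Cfsg.Agent.S3161
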