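import Cfsg.Statements.S3162
import Cfsg.Agent.UnitaryThree.Aut
import Mathlib.GroupTheory.Sylow

set_option autoImplicit false
open Cfsg

namespace Cfsg.Agent.S3162

/-- Let S be a Sylow 2-subgroup of the special unitary group of dimension 3 with parameter q = 2^n (n ≥ 2; realised over the field with q² elements). Then the largest normal 2-subgroup of the automorphism group of S is elementary abelian of order 2^(2n²), and the automorphism group has order 2^(2n²) · 2n(q² − 1). -/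
theorem result {S : Type*} [Group S] [Finite S] (n : ℕ) (hn : 2 ≤ n) {F : Type*} [Field F] [Fintype F] (hF : Fintype.card F = 4 ^ n)
    (P : Sylow 2 ↥(Cfsg.SU 3 F (2 ^ n))) (hS : Nonempty (S ≃* ↥(P : Subgroup ↥(Cfsg.SU 3 F (2 ^ n))))) :
    Cfsg.IsElementaryAbelian 2 (Cfsg.pCore 2 (MulAut S)) ∧ Nat.card ↥(Cfsg.pCore 2 (MulAut S)) = 2 ^ (2 * n ^ 2) ∧
      Nat.card (MulAut S) = 2 ^ (2 * n ^ 2) * (2 * n * ((2 ^ n) ^ 2 - 1)) := by
  haveI : Fact (Nat.Prime 2) := ⟨Nat.prime_two⟩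
  open CfsgLib.UnitaryThree in
  have d := Data.ofCard (F := F) (by omega : 1 ≤ n) hF
  open CfsgLib.UnitaryThree in
  obtain ⟨Q, hQ⟩ := exists_sylow_eq_uni n (by omega) d
  obtain ⟨e0⟩ := hS
  let e : MulAut ↥(CfsgLib.UnitaryThree.uni d) ≃* MulAut S :=
    MulAut.congr (e0.trans ((Sylow.equiv P Q).trans (MulEquiv.subgroupCongr hQ))).symm
  have hcore : Cfsg.pCore 2 (MulAut S) = (CfsgLib.UnitaryThree.shearGroup d).map e.toMonoidHom := by
    rw [← CfsgLib.UnitaryThree.pCore_eq, CfsgLib.Constrained.pCore_map]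
  obtain ⟨hab, hsq⟩ := CfsgLib.UnitaryThree.isElementaryAbelian_shearGroup (d := d)
  refine ⟨⟨?_, ?_⟩, ?_, ?_⟩
  · rw [hcore]
    refine IsMulCommutative.of_comm fun a b => ?_
    obtain ⟨a', ha', ha⟩ := a.2
    obtain ⟨b', hb', hb⟩ := b.2
    apply Subtype.ext
    rw [Subgroup.coe_mul, Subgroup.coe_mul, ← ha, ← hb, ← map_mul, ← map_mul]
    exact congrArg e (congrArg Subtype.val (@mul_comm' _ _ hab ⟨a', ha'⟩ ⟨b', hb'⟩))
  · rw [hcore]
    rintro _ ⟨a, ha, rfl⟩
    rw [← map_pow, hsq a ha, map_one]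
  · rw [hcore, Subgroup.card_map_of_injective e.injective, CfsgLib.UnitaryThree.card_shearGroup,
      CfsgLib.UnitaryThree.card_addHom_fixed d.two d]
  · rw [← Nat.card_congr e.toEquiv, CfsgLib.UnitaryThree.card_mulAut,
      CfsgLib.UnitaryThree.card_addHom_fixed d.two d, CfsgLib.UnitaryThree.card_ringAut d.two d]
    ring

end Cfsg.Agent.S3162
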