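import Cfsg.Statements.S3171
import Cfsg.Agent.Eq.Def_SporadicCombinatorics
import Cfsg.Agent.M24Orbits.SylowModCenter

set_option autoImplicit false
open Cfsg



namespace Cfsg.Agent.S3171

open CfsgLib.M24Orbits.SylowTwo

theorem exists_quot_equiv (P : Sylow 2 ↥Cfsg.M24) :
    Nonempty ((↥(P : Subgroup ↥Cfsg.M24) ⧸ Subgroup.center ↥(P : Subgroup ↥Cfsg.M24)) ≃*
      (↥sylK ⧸ Subgroup.center ↥sylK)) := by
  haveI : Fact (Nat.Prime 2) := ⟨Nat.prime_two⟩
  have hcard : Nat.card (sylK.subgroupOf Cfsg.M24) = 2 ^ (Nat.card Cfsg.M24).factorization 2 := by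
    rw [Nat.card_congr (Subgroup.subgroupOfEquivOfLe sylK_le).toEquiv, card_sylK,
      CfsgLib.Mathieu.card_M24, show (244823040 : ℕ) = 2 ^ 10 * 239085 by norm_num,
      Nat.factorization_mul (by norm_num) (by norm_num), Finsupp.add_apply,
      Nat.prime_two.factorization_pow, Finsupp.single_eq_same,
      Nat.factorization_eq_zero_of_not_dvd (by norm_num)]
  obtain ⟨g, hg⟩ := MulAction.exists_smul_eq Cfsg.M24 P (Sylow.ofCard _ hcard : Sylow 2 Cfsg.M24)
  have he : (P : Subgroup Cfsg.M24).map (MulAut.conj g).toMonoidHom = sylK.subgroupOf Cfsg.M24 :=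
    congrArg Sylow.toSubgroup hg
  let e : ↥(P : Subgroup Cfsg.M24) ≃* ↥sylK :=
    (((P : Subgroup Cfsg.M24).equivMapOfInjective _ (MulAut.conj g).injective).trans
      (MulEquiv.subgroupCongr he)).trans (Subgroup.subgroupOfEquivOfLe sylK_le)
  refine ⟨QuotientGroup.congr _ _ e ?_⟩
  ext y
  constructor
  · rintro ⟨x, hx, rfl⟩
    exact Subgroup.mem_center_iff.2 fun z => by
      obtain ⟨w, rfl⟩ := e.surjective z
      show e w * e x = e x * e w
      rw [← map_mul, ← map_mul, Subgroup.mem_center_iff.1 hx w]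
  · intro hy
    refine ⟨e.symm y, Subgroup.mem_center_iff.2 fun w => e.injective ?_, e.apply_symm_apply y⟩
    rw [map_mul, map_mul, e.apply_symm_apply]
    exact Subgroup.mem_center_iff.1 hy (e w)


/-- Let P be a Sylow 2-subgroup of the Mathieu group of degree 24 and S the quotient of P by its centre. Then the centre of every maximal subgroup of S has order at most 8; S has an elementary abelian subgroup of order 64; and S has only one abelian subgroup of order 64. -/
theorem result (P : Sylow 2 ↥Cfsg.M24) :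
    (∀ M : Subgroup (↥(P : Subgroup ↥Cfsg.M24) ⧸ Subgroup.center ↥(P : Subgroup ↥Cfsg.M24)), IsCoatom M →
        Nat.card ↥(Subgroup.center ↥M) ≤ 8) ∧
      (∃ A : Subgroup (↥(P : Subgroup ↥Cfsg.M24) ⧸ Subgroup.center ↥(P : Subgroup ↥Cfsg.M24)),
        Cfsg.IsElementaryAbelian 2 A ∧ Nat.card ↥A = 64) ∧
      ∀ A B : Subgroup (↥(P : Subgroup ↥Cfsg.M24) ⧸ Subgroup.center ↥(P : Subgroup ↥Cfsg.M24)),
        IsMulCommutative ↥A → Nat.card ↥A = 64 → IsMulCommutative ↥B → Nat.card ↥B = 64 → A = B := by
  obtain ⟨f⟩ := exists_quot_equiv P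
  have hcardmap : ∀ A : Subgroup _, Nat.card (A.map f.toMonoidHom) = Nat.card A := fun A =>
    Subgroup.card_map_of_injective f.injective
  have hmapinj := Subgroup.map_injective (f := f.toMonoidHom) f.injective
  refine ⟨fun M hM => ?_, ⟨abA.map f.symm.toMonoidHom, ?_, ?_⟩, fun A B hA hA64 hB hB64 => ?_⟩
  · have hc : IsCoatom (M.map f.toMonoidHom) := by
      refine ⟨fun h => hM.1 (hmapinj ?_), fun N hN => ?_⟩
      · rw [h, Subgroup.map_top_of_surjective _ f.surjective]
      · have hlt : M < N.comap f.toMonoidHom := by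
          refine lt_of_le_of_ne (Subgroup.map_le_iff_le_comap.1 hN.le) fun e => hN.ne ?_
          rw [e, Subgroup.map_comap_eq_self_of_surjective f.surjective]
        have := congrArg (Subgroup.map f.toMonoidHom) (hM.2 _ hlt)
        rwa [Subgroup.map_comap_eq_self_of_surjective f.surjective,
          Subgroup.map_top_of_surjective _ f.surjective] at this
    have e : ↥M ≃* ↥(M.map f.toMonoidHom) :=
      M.equivMapOfInjective _ f.injective
    rw [Nat.card_congr (Subgroup.centerCongr e).toEquiv]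
    exact center_le_eight _ hc
  · obtain ⟨h1, h2⟩ := abA_elementary
    refine ⟨inferInstance, ?_⟩
    rintro _ ⟨a, ha, rfl⟩
    rw [← map_pow, h2 a ha, map_one]
  · rw [Subgroup.card_map_of_injective f.symm.injective, card_abA]
  · exact hmapinj ((unique_abA _ inferInstance ((hcardmap A).trans hA64)).trans
      (unique_abA _ inferInstance ((hcardmap B).trans hB64)).symm)

end Cfsg.Agent.S3171
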