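import Cfsg.Statements.S3174
import Cfsg.Agent.RudvalisTwo.Center
-- import your own Cfsg.Agent.* helpers here

set_option autoImplicit false
open Cfsg

namespace Cfsg.Agent.S3174

/-- Let T be a finite 2-group of order at least 2^14 in which the fourth term of the upper central series has order 16. Let W be the centralizer in T of the third term Z₃(T), and suppose the Frattini subgroup of W has order at most 8 and lies in every subgroup of W of index at most 16. Then T has order exactly 2^14; the derived subgroup of W and the Frattini subgroup of W both equal Z₃(T), which is elementary abelian of order 8; the centre of W has order 8; W is normal in T with quotient dihedral of order 8; and W modulo its derived subgroup is elementary abelian of order 2^8. -/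
theorem result {T : Type*} [Group T] [Finite T]
    (hT : IsPGroup 2 T) (ha : 2 ^ 14 ≤ Nat.card T) (hb : Nat.card ↥(Subgroup.upperCentralSeries T 4) = 16)
    (W : Subgroup T) (hW : W = Subgroup.centralizer ((Subgroup.upperCentralSeries T 3 : Subgroup T) : Set T))
    (hc : Nat.card ↥(frattini ↥W) ≤ 8) (hd : ∀ U : Subgroup ↥W, U.index ≤ 16 → frattini ↥W ≤ U) :
    Nat.card T = 2 ^ 14 ∧
      (commutator ↥W).map W.subtype = Subgroup.upperCentralSeries T 3 ∧
      (frattini ↥W).map W.subtype = Subgroup.upperCentralSeries T 3 ∧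
      Nat.card ↥(Subgroup.center ↥W) = 8 ∧
      Nat.card ↥(Subgroup.upperCentralSeries T 3) = 8 ∧ (∀ z ∈ Subgroup.upperCentralSeries T 3, z ^ 2 = 1) ∧
      (∃ (_ : W.Normal), Nonempty (T ⧸ W ≃* DihedralGroup 4)) ∧
      Nat.card (↥W ⧸ commutator ↥W) = 2 ^ 8 ∧ (∀ x : ↥W ⧸ commutator ↥W, x ^ 2 = 1) := by
  have h : CfsgLib.RudvalisTwo.Hyp W := ⟨hT, ha, hb, hW, hc, hd⟩
  haveI := h.normal
  obtain ⟨F⟩ := h.exists_frame
  have hcW : Nat.card ↥(commutator ↥W) = 8 := by
    rw [← Subgroup.card_map_of_injective W.subtype_injective, h.commutator_eq,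
      h.card_zs (by norm_num)]
    norm_num
  have hZ : (Subgroup.center ↥W).map W.subtype = Subgroup.upperCentralSeries T 3 := by
    ext z
    constructor
    · rintro ⟨x, hx, rfl⟩
      exact h.center_le x.2 fun y hy =>
        (congrArg Subtype.val (Subgroup.mem_center_iff.1 hx ⟨y, hy⟩)).symm
    · intro hz
      refine ⟨⟨z, h.zs_le (by norm_num) hz⟩, Subgroup.mem_center_iff.2 fun y => Subtype.ext ?_, rfl⟩
      exact (h.commute y.2 hz).eq
  refine ⟨h.card_T, h.commutator_eq, h.frattini_eq, ?_, h.card_zs (by norm_num),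
    fun z hz => h.sq_eq_one hz, ⟨inferInstance, F.nonempty_mulEquiv⟩, ?_, ?_⟩
  · rw [← Subgroup.card_map_of_injective W.subtype_injective, hZ, h.card_zs (by norm_num)]
    norm_num
  · rw [← Subgroup.index_eq_card]
    have hh := Subgroup.card_mul_index (commutator ↥W)
    rw [hcW, h.card_W] at hh
    omega
  · intro x
    obtain ⟨a, rfl⟩ := QuotientGroup.mk_surjective x
    rw [← QuotientGroup.mk_pow, QuotientGroup.eq_one_iff]
    have h2 := h.sq_mem_three a.2
    rw [← h.commutator_eq] at h2
    obtain ⟨y, hy, hya⟩ := h2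
    rwa [show a ^ 2 = y from Subtype.ext hya.symm]

end Cfsg.Agent.S3174
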