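import Cfsg.Statements.S3175
import Cfsg.Agent.RudvalisTwo.Rigid
import Cfsg.Agent.S2007
-- import your own Cfsg.Agent.* helpers here

set_option autoImplicit false
open Cfsg

namespace Cfsg.Agent.S3175

/-- Let G be a finite group whose Sylow 2-subgroup T has order at least 2^14 and whose upper central series has fourth term of order 16; let W be the centralizer in T of the third term, and suppose the Frattini subgroup of W has order at most 8 and lies in every subgroup of W of index at most 16. Then the normalizer of T in G has a normal 2-complement, and W is weakly closed in T with respect to G. -/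
theorem result {G : Type*} [Group G] [Finite G]
    (T : Sylow 2 G) (ha : 2 ^ 14 ≤ Nat.card ↥(T : Subgroup G))
    (hb : Nat.card ↥(Subgroup.upperCentralSeries ↥(T : Subgroup G) 4) = 16)
    (W : Subgroup ↥(T : Subgroup G))
    (hW : W = Subgroup.centralizer ((Subgroup.upperCentralSeries ↥(T : Subgroup G) 3 : Subgroup ↥(T : Subgroup G)) : Set ↥(T : Subgroup G)))
    (hc : Nat.card ↥(frattini ↥W) ≤ 8)
    (hd : ∀ U : Subgroup ↥W, U.index ≤ 16 → frattini ↥W ≤ U) :
    Cfsg.HasNormalPComplement 2 ↥(Subgroup.normalizer ((T : Subgroup G) : Set G)) ∧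
      Cfsg.IsWeaklyClosed (W.map (T : Subgroup G).subtype) (T : Subgroup G) := by
  have h : CfsgLib.RudvalisTwo.Hyp W := ⟨T.isPGroup', ha, hb, hW, hc, hd⟩
  refine ⟨?_, Subgroup.map_subtype_le _, ?_⟩
  · refine Cfsg.Agent.S2007.result T (T : Subgroup G) le_rfl Subgroup.le_normalizer inf_le_left ?_
    intro g hg hcop
    have hσ : (MulAut.conjNormal (H := (T : Subgroup G).subgroupOf
        (Subgroup.normalizer ((T : Subgroup G) : Set G))) ⟨g, hg⟩) ^ orderOf g = 1 := by
      rw [← map_pow, ← map_one MulAut.conjNormal]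
      congr 1
      exact Subtype.ext (by simpa using pow_orderOf_eq_one g)
    let e : ↥((T : Subgroup G).subgroupOf (Subgroup.normalizer ((T : Subgroup G) : Set G))) ≃*
        ↥(T : Subgroup G) := Subgroup.subgroupOfEquivOfLe Subgroup.le_normalizer
    have hσ' : (MulAut.congr e (MulAut.conjNormal ⟨g, hg⟩)) ^ orderOf g = 1 := by
      rw [← map_pow, hσ, map_one]
    have hodd : Odd (orderOf g) := Nat.coprime_two_right.1 hcop
    have h1 := h.aut_eq_one hodd hσ'
    rw [← map_one (MulAut.congr e), (MulAut.congr e).injective.eq_iff] at h1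
    rw [Subgroup.mem_centralizer_iff]
    intro t ht
    have h2 := congrArg (fun σ => ((σ ⟨⟨t, Subgroup.le_normalizer ht⟩, ht⟩ :
      ↥((T : Subgroup G).subgroupOf (Subgroup.normalizer ((T : Subgroup G) : Set G)))) :
        ↥(Subgroup.normalizer ((T : Subgroup G) : Set G)))) h1
    have h3 := congrArg Subtype.val h2
    simp only [MulAut.conjNormal_apply, Subgroup.coe_mul, Subgroup.coe_inv, MulAut.one_apply] at h3
    exact (mul_inv_eq_iff_eq_mul.1 h3).symm
  · intro g hg
    let φ : ↥W →* ↥(T : Subgroup G) :=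
      { toFun := fun w => ⟨g * ((w : ↥(T : Subgroup G)) : G) * g⁻¹,
          hg ⟨_, ⟨_, w.2, rfl⟩, rfl⟩⟩
        map_one' := Subtype.ext (by simp)
        map_mul' := fun a b => Subtype.ext (by simp [mul_assoc]) }
    have hφ : Function.Injective φ := fun a b hab => by
      have h1 : g * ((a : ↥(T : Subgroup G)) : G) * g⁻¹ = g * ((b : ↥(T : Subgroup G)) : G) * g⁻¹ :=
        congrArg Subtype.val hab
      exact Subtype.ext (Subtype.ext (mul_left_cancel (mul_right_cancel h1)))
    have hr := h.range_eq φ hφ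
    ext y
    constructor
    · rintro ⟨_, ⟨w, hw, rfl⟩, rfl⟩
      refine ⟨φ ⟨w, hw⟩, ?_, rfl⟩
      exact hr.le ⟨_, rfl⟩
    · rintro ⟨w, hw, rfl⟩
      obtain ⟨v, hv⟩ : w ∈ φ.range := by rw [hr]; exact hw
      exact ⟨_, ⟨(v : ↥(T : Subgroup G)), v.2, rfl⟩, congrArg Subtype.val hv⟩

end Cfsg.Agent.S3175
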