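import Cfsg.Statements.S3178
import Cfsg.Agent.Eq.Def_Transfer
import Cfsg.Agent.Transfer.Frobenius
import Cfsg.Agent.Coprime.Stabilizer

set_option autoImplicit false
open Cfsg
open scoped commutatorElement

namespace Cfsg.Agent.S3178


theorem commute_of_fixed_commutator {G : Type*} [Group G] [Finite G] {a x : G} (ha : Odd (orderOf a))
    {j : ℕ} (hy : Commute a (a * x * a⁻¹ * x⁻¹)) (h2 : (a * x * a⁻¹ * x⁻¹) ^ 2 ^ j = 1) : Commute a x :=
  CfsgLib.Coprime.commute_of_commute_commutator hy.eq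
    (((Nat.coprime_two_right.2 ha).pow_right j).coprime_dvd_right (orderOf_dvd_of_pow_eq_one h2))

/-- An element of odd order normalizing a cyclic `2`-subgroup centralizes it. -/
theorem centralizes_cyclic {G : Type*} [Group G] [Finite G] {P : Subgroup G} (hP : IsPGroup 2 ↥P)
    [hc : IsCyclic ↥P] {g : G} (hg : Odd (orderOf g)) (hn : g ∈ Subgroup.normalizer (P : Set G)) :
    ∀ w ∈ P, Commute g w := by
  haveI : Fact (Nat.Prime 2) := ⟨Nat.prime_two⟩
  have h1 : orderOf (P.normalizerMonoidHom ⟨g, hn⟩) ∣ orderOf g :=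
    (orderOf_map_dvd _ _).trans (dvd_of_eq (Subgroup.orderOf_mk g hn))
  have h2 : orderOf (P.normalizerMonoidHom ⟨g, hn⟩) ∣ Nat.card (MulAut ↥P) := orderOf_dvd_natCard _
  obtain ⟨k, hk⟩ := hP.exists_card_eq
  have hone : P.normalizerMonoidHom ⟨g, hn⟩ = 1 := by
    rw [← orderOf_eq_one_iff]
    rw [IsCyclic.card_mulAut, hk] at h2
    rcases k.eq_zero_or_pos with rfl | hk0
    · simpa using h2
    · rw [Nat.totient_prime_pow Nat.prime_two hk0, show (2 : ℕ) - 1 = 1 from rfl, mul_one] at h2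
      exact Nat.eq_one_of_dvd_coprimes ((Nat.coprime_two_right.2 hg).pow_right (k - 1)) h1 h2
  intro w hw
  have h3 : P.normalizerMonoidHom ⟨g, hn⟩ ⟨w, hw⟩ = ⟨w, hw⟩ := by rw [hone]; rfl
  have h4 : g * w * g⁻¹ = w := congrArg Subtype.val h3
  exact mul_inv_eq_iff_eq_mul.1 h4

theorem exists_sylow_inf_normal {H : Type*} [Group H] [Finite H] (P : Sylow 2 H) (N : Subgroup H) [N.Normal] :
    ∃ T : Sylow 2 ↥N, (T : Subgroup ↥N) = (P : Subgroup H).subgroupOf N := by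
  haveI : Fact (Nat.Prime 2) := ⟨Nat.prime_two⟩
  obtain ⟨T, hT⟩ := (P.isPGroup'.comap_subtype (K := N)).exists_le_sylow
  refine ⟨T, le_antisymm ?_ hT⟩
  obtain ⟨R, hR⟩ := (T.isPGroup'.map N.subtype).exists_le_sylow
  obtain ⟨x, hx⟩ := MulAction.exists_smul_eq H R P
  let φ : ↥(T : Subgroup ↥N) → ↥((P : Subgroup H).subgroupOf N) := fun t =>
    ⟨⟨x * ((t : ↥N) : H) * x⁻¹, Subgroup.Normal.conj_mem inferInstance _ (t : ↥N).2 x⟩, by
      rw [Subgroup.mem_subgroupOf]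
      exact (SetLike.ext_iff.1 (congrArg Sylow.toSubgroup hx) _).1 ⟨_, hR ⟨_, t.2, rfl⟩, rfl⟩⟩
  have hφ : Function.Injective φ := fun t t' e => by
    have := congrArg (fun q : ↥((P : Subgroup H).subgroupOf N) => ((q : ↥N) : H)) e
    simp only [φ, mul_left_inj, mul_right_inj] at this
    exact Subtype.ext (Subtype.ext this)
  exact (Subgroup.eq_of_le_of_card_ge hT (Nat.card_le_card_of_injective φ hφ)).ge


/-- The data of the modular group. -/
structure Params {G : Type*} [Group G] (S : Sylow 2 G) (m : ℕ) (a b : G) : Prop where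
  card : Nat.card ↥(S : Subgroup G) = 2 ^ (m + 3 + 1)
  ha : a ∈ (S : Subgroup G)
  hb : b ∈ (S : Subgroup G)
  oa : orderOf a = 2 ^ (m + 3)
  ob : orderOf b = 2
  rel : b * a * b⁻¹ = a ^ (2 ^ (m + 2) + 1)

section Aux

variable {G : Type*} [Group G] [Finite G] {S : Sylow 2 G} {m : ℕ} {a b : G} (h : Params S m a b)
include h

theorem Params.z_sq : a ^ 2 ^ (m + 2) * a ^ 2 ^ (m + 2) = 1 := by
  rw [← pow_add, ← two_mul, ← pow_succ', ← h.oa, pow_orderOf_eq_one]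

theorem Params.z_ne : a ^ 2 ^ (m + 2) ≠ 1 := fun e => by
  have := orderOf_dvd_of_pow_eq_one e
  rw [h.oa, Nat.pow_dvd_pow_iff_le_right (by norm_num)] at this
  omega

theorem Params.b_inv : b⁻¹ = b :=
  inv_eq_of_mul_eq_one_left (by rw [← pow_two, ← h.ob, pow_orderOf_eq_one])

theorem Params.bb : b * b = 1 := by rw [← pow_two, ← h.ob, pow_orderOf_eq_one]

theorem Params.conj_pow' (i : ℤ) : b * a ^ i * b⁻¹ = a ^ i * (a ^ 2 ^ (m + 2)) ^ i := by
  rw [← conj_zpow, h.rel, pow_succ', ((Commute.refl a).pow_right _).mul_zpow]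

theorem Params.cover : ∀ s ∈ (S : Subgroup G), ∃ i : ℤ, s = a ^ i ∨ s = a ^ i * b := by
  have hidx : ((Subgroup.zpowers a).subgroupOf (S : Subgroup G)).index = 2 := by
    have := ((Subgroup.zpowers a).subgroupOf (S : Subgroup G)).card_mul_index
    rw [Nat.card_congr (Subgroup.subgroupOfEquivOfLe (Subgroup.zpowers_le.2 h.ha)).toEquiv,
      Nat.card_zpowers, h.oa, h.card, pow_succ 2 (m + 3)] at this
    exact Nat.eq_of_mul_eq_mul_left (by positivity) this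
  have hbn : b ∉ Subgroup.zpowers a := by
    rintro ⟨i, hi⟩
    apply h.z_ne
    have hc : b * a * b⁻¹ = a := by
      rw [show b = a ^ i from hi.symm, (Commute.zpow_self a i).eq, mul_inv_cancel_right]
    rw [h.rel, pow_succ, mul_eq_right] at hc
    exact hc
  intro s hs
  by_cases hsa : s ∈ Subgroup.zpowers a
  · obtain ⟨i, hi⟩ := hsa; exact ⟨i, Or.inl hi.symm⟩
  · have hmem : (⟨s, hs⟩ : ↥(S : Subgroup G)) * ⟨b, h.hb⟩ ∈ (Subgroup.zpowers a).subgroupOf (S : Subgroup G) := by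
      rw [Subgroup.mul_mem_iff_of_index_two hidx, Subgroup.mem_subgroupOf, Subgroup.mem_subgroupOf]
      exact iff_of_false hsa hbn
    obtain ⟨i, hi⟩ := Subgroup.mem_subgroupOf.1 hmem
    refine ⟨i, Or.inr ?_⟩
    show s = a ^ i * b
    rw [show a ^ i = s * b from hi, mul_assoc, h.bb, mul_one]

theorem Params.a2_central : ∀ s ∈ (S : Subgroup G), ∀ i : ℤ, Commute s (a ^ (2 * i)) := by
  intro s hs i
  have hb' : Commute b (a ^ (2 * i)) := by
    have := h.conj_pow' (2 * i)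
    rw [zpow_mul (a ^ 2 ^ (m + 2)), show (a ^ 2 ^ (m + 2)) ^ (2 : ℤ) = 1 by rw [zpow_two]; exact h.z_sq,
      one_zpow, mul_one, mul_inv_eq_iff_eq_mul] at this
    exact this
  obtain ⟨j, rfl | rfl⟩ := h.cover s hs
  · exact (Commute.refl a).zpow_zpow j (2 * i)
  · exact ((Commute.refl a).zpow_zpow j (2 * i)).mul_left hb'

theorem Params.z_eq : a ^ 2 ^ (m + 2) = a ^ (2 * (2 : ℤ) ^ (m + 1)) := by
  rw [← zpow_natCast, show ((2 ^ (m + 2) : ℕ) : ℤ) = 2 * 2 ^ (m + 1) by push_cast; ring]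

theorem Params.z_zpow (i : ℤ) : (a ^ 2 ^ (m + 2)) ^ i = 1 ∨ (a ^ 2 ^ (m + 2)) ^ i = a ^ 2 ^ (m + 2) := by
  rcases Int.even_or_odd' i with ⟨u, rfl | rfl⟩
  · left; rw [zpow_mul, zpow_two, h.z_sq, one_zpow]
  · right; rw [zpow_add, zpow_mul, zpow_two, h.z_sq, one_zpow, one_mul, zpow_one]

theorem Params.sq_mem : ∀ s ∈ (S : Subgroup G), ∃ i : ℤ, s * s = a ^ (2 * i) := by
  intro s hs
  obtain ⟨i, rfl | rfl⟩ := h.cover s hs
  · exact ⟨i, by rw [← zpow_add, two_mul]⟩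
  · refine ⟨i + 2 ^ (m + 1) * i, ?_⟩
    calc a ^ i * b * (a ^ i * b) = a ^ i * (b * a ^ i * b⁻¹) * (b * b) := by group
      _ = a ^ i * (a ^ i * (a ^ (2 * (2 : ℤ) ^ (m + 1))) ^ i) := by
          rw [h.conj_pow', h.bb, mul_one, h.z_eq]
      _ = a ^ (2 * (i + 2 ^ (m + 1) * i)) := by
          rw [← zpow_mul, ← zpow_add, ← zpow_add]; congr 1; ring

theorem Params.comm_or : ∀ s ∈ (S : Subgroup G), ∀ t ∈ (S : Subgroup G),
    s * t = t * s ∨ s * t = t * s * a ^ 2 ^ (m + 2) := by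
  have cz : ∀ t ∈ (S : Subgroup G), Commute t (a ^ 2 ^ (m + 2)) := fun t ht => h.z_eq ▸ h.a2_central t ht _
  have hba : ∀ i : ℤ, b * a ^ i = a ^ i * b * (a ^ 2 ^ (m + 2)) ^ i := fun i => by
    rw [mul_assoc, ((cz b h.hb).zpow_right i).eq, ← mul_assoc, ← h.conj_pow', inv_mul_cancel_right]
  have haa : ∀ i j : ℤ, a ^ i * a ^ j = a ^ j * a ^ i := fun i j => ((Commute.refl a).zpow_zpow i j).eq
  intro s hs t ht
  obtain ⟨i, rfl | rfl⟩ := h.cover s hs <;> obtain ⟨j, rfl | rfl⟩ := h.cover t ht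
  · exact Or.inl (haa i j)
  · have e : a ^ j * b * a ^ i = a ^ i * (a ^ j * b) * (a ^ 2 ^ (m + 2)) ^ i := by
      rw [mul_assoc (a ^ j), hba i, ← mul_assoc, ← mul_assoc, haa j i]; group
    rw [e]
    rcases h.z_zpow i with z | z <;> rw [z]
    · left; rw [mul_one]
    · right; rw [mul_assoc, h.z_sq, mul_one]
  · have e : a ^ i * b * a ^ j = a ^ j * (a ^ i * b) * (a ^ 2 ^ (m + 2)) ^ j := by
      rw [mul_assoc (a ^ i), hba j, ← mul_assoc, ← mul_assoc, haa i j]; group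
    rw [e]
    rcases h.z_zpow j with z | z <;> rw [z]
    · left; rw [mul_one]
    · exact Or.inr rfl
  · have e : ∀ i j : ℤ, a ^ i * b * (a ^ j * b) = a ^ (i + j) * (a ^ 2 ^ (m + 2)) ^ j := by
      intro i j
      rw [show a ^ i * b * (a ^ j * b) = a ^ i * (b * a ^ j * b⁻¹) * (b * b) by group, h.conj_pow',
        h.bb, mul_one, ← mul_assoc, ← zpow_add]
    rw [e i j, e j i, add_comm j i, mul_assoc (a ^ (i + j))]
    rcases h.z_zpow i with z | z <;> rcases h.z_zpow j with w | w <;> rw [z, w]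
    · left; rfl
    · right; rw [one_mul]
    · right; rw [h.z_sq]
    · left; rfl

theorem Params.fourth : ∀ s ∈ (S : Subgroup G), s * s * (s * s) = 1 → ∀ t ∈ (S : Subgroup G),
    t * t * (t * t) = 1 → Commute s t := by
  have key : ∀ s ∈ (S : Subgroup G), s * s * (s * s) = 1 → ∃ i : ℤ, s = a ^ (2 * i) ∨ s = a ^ (2 * i) * b := by
    intro s hs h4
    have even : ∀ i : ℤ, a ^ (4 * i) = 1 → ∃ u, i = 2 * u := by
      intro i hi
      rw [← orderOf_dvd_iff_zpow_eq_one, h.oa] at hi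
      obtain ⟨c, hc⟩ := hi
      refine ⟨2 ^ m * c, ?_⟩
      push_cast at hc
      have : (2 : ℤ) ^ (m + 3) = 8 * 2 ^ m := by ring
      rw [this] at hc
      exact mul_left_cancel₀ (show (4 : ℤ) ≠ 0 by norm_num) (by linear_combination hc)
    obtain ⟨i, rfl | rfl⟩ := h.cover s hs
    · obtain ⟨u, rfl⟩ := even i (by rw [← h4, ← zpow_add, ← zpow_add]; congr 1; ring)
      exact ⟨u, Or.inl rfl⟩
    · obtain ⟨u, rfl⟩ := even i (by
        rw [← h4, show a ^ i * b * (a ^ i * b) = a ^ i * (b * a ^ i * b⁻¹) * (b * b) by group,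
          h.conj_pow', h.bb, mul_one]
        rcases h.z_zpow i with z | z <;> rw [z]
        · rw [mul_one, ← zpow_add, ← zpow_add]; congr 1; ring
        · rw [show a ^ i * (a ^ i * a ^ 2 ^ (m + 2)) * (a ^ i * (a ^ i * a ^ 2 ^ (m + 2)))
              = a ^ i * a ^ i * (a ^ 2 ^ (m + 2) * (a ^ i * a ^ i)) * a ^ 2 ^ (m + 2) by group,
            (((Commute.refl a).zpow_right i).pow_left _ |>.mul_right
              (((Commute.refl a).zpow_right i).pow_left _)).eq, mul_assoc, mul_assoc (a ^ i * a ^ i),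
            h.z_sq, mul_one, ← zpow_add, ← zpow_add]
          congr 1; ring)
      exact ⟨u, Or.inr rfl⟩
  intro s hs hs4 t ht ht4
  obtain ⟨i, rfl | rfl⟩ := key s hs hs4
  · exact (h.a2_central t ht i).symm
  · obtain ⟨j, rfl | rfl⟩ := key t ht ht4
    · exact (h.a2_central _ hs j)
    · exact (h.a2_central _ ht i).symm.mul_left
        ((h.a2_central b h.hb j).mul_right (Commute.refl b))

theorem Params.pow_two_pow_mul (k : ℕ) : ∀ s ∈ (S : Subgroup G), ∀ t ∈ (S : Subgroup G),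
    (k = 1 → Commute s t) → 1 ≤ k → (s * t) ^ 2 ^ k = s ^ 2 ^ k * t ^ 2 ^ k := by
  intro s hs t ht hk hk1
  by_cases hk2 : k = 1
  · exact (hk hk2).mul_pow _
  obtain ⟨j, rfl⟩ : ∃ j, k = j + 2 := ⟨k - 2, by omega⟩
  obtain ⟨c, hc2, hsq⟩ : ∃ c : G, c * c = 1 ∧ ∃ w, Commute (s * s * (t * t)) w ∧ w = c ∧
      s * t * (s * t) = s * s * (t * t) * c := by
    rcases h.comm_or s hs t ht with e | e
    · refine ⟨1, one_mul 1, 1, Commute.one_right _, rfl, ?_⟩
      calc s * t * (s * t) = s * (t * s) * t := by group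
        _ = s * s * (t * t) * 1 := by rw [← e]; group
    · have cz : Commute t (a ^ 2 ^ (m + 2)) := h.z_eq ▸ h.a2_central t ht _
      have cs : Commute s (a ^ 2 ^ (m + 2)) := h.z_eq ▸ h.a2_central s hs _
      refine ⟨a ^ 2 ^ (m + 2), h.z_sq, _, (cs.mul_left cs).mul_left (cz.mul_left cz), rfl, ?_⟩
      have e' : t * s = s * t * a ^ 2 ^ (m + 2) := by rw [e, mul_assoc, h.z_sq, mul_one]
      calc s * t * (s * t) = s * (t * s) * t := by group
        _ = s * (s * t) * (a ^ 2 ^ (m + 2) * t) := by rw [e']; group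
        _ = s * s * (t * t) * a ^ 2 ^ (m + 2) := by rw [← cz.eq]; group
  obtain ⟨w, hw, rfl, hst⟩ := hsq
  obtain ⟨i, hi⟩ := h.sq_mem s hs
  have hc1 : Commute (s * s) (t * t) := by
    rw [hi]; exact ((h.a2_central t ht i).mul_left (h.a2_central t ht i)).symm
  have hpw : w ^ 2 ^ (j + 1) = 1 := by
    rw [pow_succ', pow_mul, pow_two, hc2, one_pow]
  calc (s * t) ^ 2 ^ (j + 2) = ((s * t) * (s * t)) ^ 2 ^ (j + 1) := by
        rw [← pow_two, ← pow_mul, ← pow_succ']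
    _ = (s * s) ^ 2 ^ (j + 1) * (t * t) ^ 2 ^ (j + 1) * w ^ 2 ^ (j + 1) := by
        rw [hst, hw.mul_pow, hc1.mul_pow]
    _ = s ^ 2 ^ (j + 2) * t ^ 2 ^ (j + 2) := by
        rw [hpw, mul_one, ← pow_two, ← pow_two, ← pow_mul, ← pow_mul, ← pow_succ']

/-- The main case: a subgroup of exponent at least four. -/
theorem Params.centralizes_of_sq {Q : Subgroup G} (hQS : Q ≤ (S : Subgroup G)) {q₀ : G} (hq₀ : q₀ ∈ Q)
    (hq₀2 : q₀ * q₀ ≠ 1) {g : G} (hg : Odd (orderOf g)) (hn : ∀ q ∈ Q, g * q * g⁻¹ ∈ Q) :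
    ∀ q ∈ Q, Commute g q := by
  classical
  obtain ⟨P, hP⟩ : ∃ P, P = Subgroup.closure {w : G | ∃ q ∈ Q, w = q * q} := ⟨_, rfl⟩
  have hPQ : P ≤ Q := hP ▸ (Subgroup.closure_le Q).2 (by rintro _ ⟨q, hq, rfl⟩; exact mul_mem hq hq)
  have hPa : P ≤ Subgroup.zpowers a := hP ▸ (Subgroup.closure_le _).2 (by
    rintro _ ⟨q, hq, rfl⟩
    obtain ⟨i, hi⟩ := h.sq_mem q (hQS hq)
    exact ⟨2 * i, hi.symm⟩)
  have hP2 : IsPGroup 2 ↥P := S.isPGroup'.to_le (hPQ.trans hQS)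
  haveI : IsCyclic ↥P := isCyclic_of_injective _ (Subgroup.inclusion_injective hPa)
  have hgP : g ∈ Subgroup.normalizer (P : Set G) := by
    have h1 : P.map (MulAut.conj g).toMonoidHom ≤ P := by
      conv_lhs => rw [hP, MonoidHom.map_closure]
      rw [Subgroup.closure_le]
      rintro _ ⟨_, ⟨q, hq, rfl⟩, rfl⟩
      rw [hP]
      exact Subgroup.subset_closure ⟨g * q * g⁻¹, hn q hq, by simp⟩
    exact Subgroup.mem_normalizer_fintype fun x hx => h1 ⟨x, hx, rfl⟩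
  have hgfix := centralizes_cyclic hP2 hg hgP
  -- the exponent
  have hex : ∃ e, ∀ q ∈ Q, q ^ 2 ^ e = 1 := ⟨m + 3 + 1, fun q hq => by
    have := congrArg Subtype.val (pow_card_eq_one' (x := (⟨q, hQS hq⟩ : ↥(S : Subgroup G))))
    rw [h.card] at this
    simpa using this⟩
  obtain ⟨k, hk⟩ : ∃ k, Nat.find hex = k + 2 := by
    refine ⟨Nat.find hex - 2, ?_⟩
    by_contra hcon
    have hle : Nat.find hex ≤ 1 := by omega
    apply hq₀2
    rw [← pow_two]
    have := Nat.find_spec hex q₀ hq₀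
    exact orderOf_dvd_iff_pow_eq_one.1 ((orderOf_dvd_of_pow_eq_one this).trans
      (Nat.pow_dvd_pow 2 hle))
  have hexp : ∀ q ∈ Q, q ^ 2 ^ (k + 2) = 1 := hk ▸ Nat.find_spec hex
  obtain ⟨q₁, hq₁, hq₁'⟩ : ∃ q ∈ Q, q ^ 2 ^ (k + 1) ≠ 1 := by
    have := Nat.find_min hex (show k + 1 < Nat.find hex by omega)
    push Not at this
    exact this
  have hhom : ∀ s ∈ Q, ∀ t ∈ Q, (s * t) ^ 2 ^ (k + 1) = s ^ 2 ^ (k + 1) * t ^ 2 ^ (k + 1) := by
    intro s hs t ht
    refine h.pow_two_pow_mul (k + 1) s (hQS hs) t (hQS ht) (fun hk1 => ?_) (by omega)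
    have e : ∀ q ∈ Q, q * q * (q * q) = 1 := fun q hq => by
      have := hexp q hq
      rw [show k = 0 by omega] at this
      rw [← pow_two, ← pow_two, ← pow_mul]; exact this
    exact h.fourth s (hQS hs) (e s hs) t (hQS ht) (e t ht)
  have hval : ∀ q ∈ Q, q ^ 2 ^ (k + 1) ≠ 1 → q ^ 2 ^ (k + 1) = a ^ 2 ^ (m + 2) := by
    intro q hq hq1
    obtain ⟨i, hi⟩ := h.sq_mem q (hQS hq)
    have e1 : q ^ 2 ^ (k + 1) = a ^ (2 * i * (2 ^ k : ℕ)) := by
      rw [pow_succ' 2 k, pow_mul, pow_two, hi, ← zpow_natCast, ← zpow_mul]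
    have e2 := hexp q hq
    rw [pow_succ 2 (k + 1), pow_mul, e1, ← zpow_natCast, ← zpow_mul, ← orderOf_dvd_iff_zpow_eq_one,
      h.oa] at e2
    obtain ⟨c, hc⟩ := e2
    push_cast at hc
    rw [e1, show (2 * i * ((2 ^ k : ℕ) : ℤ)) = ((2 ^ (m + 2) : ℕ) : ℤ) * c by
        have : (2 : ℤ) ^ (m + 3) = 2 * 2 ^ (m + 2) := by ring
        rw [this] at hc
        push_cast
        exact mul_left_cancel₀ (show (2 : ℤ) ≠ 0 by norm_num) (by linear_combination hc), zpow_mul, zpow_natCast] at hq1 ⊢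
    rcases h.z_zpow c with z | z
    · exact absurd z hq1
    · exact z
  obtain ⟨c, hc⟩ := (Subgroup.isCyclic_iff_exists_zpowers_eq_top (Q ⊓ Subgroup.zpowers a)).1
    (isCyclic_of_injective _ (Subgroup.inclusion_injective (inf_le_right : Q ⊓ Subgroup.zpowers a ≤ _)))
  have hcQ : c ∈ Q ⊓ Subgroup.zpowers a := hc ▸ Subgroup.mem_zpowers c
  have hccP : c * c ∈ P := hP ▸ Subgroup.subset_closure ⟨c, hcQ.1, rfl⟩
  let K : Subgroup G :=
    { carrier := {q | q ∈ Q ∧ q ^ 2 ^ (k + 1) = 1}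
      one_mem' := ⟨one_mem Q, one_pow _⟩
      mul_mem' := fun {s t} hs ht => ⟨mul_mem hs.1 ht.1, by rw [hhom s hs.1 t ht.1, hs.2, ht.2, one_mul]⟩
      inv_mem' := fun {s} hs => ⟨inv_mem hs.1, by rw [inv_pow, hs.2, inv_one]⟩ }
  have hKout : ∀ s ∈ Q, ∀ t ∈ Q, s ∉ K → t ∉ K → s * t ∈ K := by
    intro s hs t ht hsK htK
    refine ⟨mul_mem hs ht, ?_⟩
    rw [hhom s hs t ht, hval s hs (fun e => hsK ⟨hs, e⟩), hval t ht (fun e => htK ⟨ht, e⟩), h.z_sq]
  have hPK : P ≤ K := hP ▸ (Subgroup.closure_le K).2 (by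
    rintro _ ⟨q, hq, rfl⟩
    refine ⟨mul_mem hq hq, ?_⟩
    rw [← pow_two, ← pow_mul, ← pow_succ']
    exact hexp q hq)
  have hcpow : ∀ w ∈ Q, w ∈ Subgroup.zpowers a → w ∈ P ∨ w * c ∈ P := by
    intro w hw hwa
    have hwc : w ∈ Subgroup.zpowers c := hc ▸ ⟨hw, hwa⟩
    obtain ⟨i, rfl⟩ := hwc
    rcases Int.even_or_odd' i with ⟨u, rfl | rfl⟩
    · left
      show c ^ (2 * u) ∈ P
      rw [zpow_mul, zpow_two]; exact zpow_mem hccP u
    · right
      show c ^ (2 * u + 1) * c ∈ P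
      rw [zpow_add, zpow_mul, zpow_two, zpow_one, mul_assoc]
      exact mul_mem (zpow_mem hccP u) hccP
  have haux : ∀ s ∈ (S : Subgroup G), ∀ t ∈ (S : Subgroup G), s ∉ Subgroup.zpowers a → t ∉ Subgroup.zpowers a →
      s * t ∈ Subgroup.zpowers a := by
    intro s hs t ht hsa hta
    obtain ⟨i, rfl | rfl⟩ := h.cover s hs
    · exact absurd ⟨i, rfl⟩ hsa
    obtain ⟨j, rfl | rfl⟩ := h.cover t ht
    · exact absurd ⟨j, rfl⟩ hta
    rw [show a ^ i * b * (a ^ j * b) = a ^ i * (b * a ^ j * b⁻¹) * (b * b) by group, h.conj_pow', h.bb,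
      mul_one]
    exact mul_mem ⟨i, rfl⟩ (mul_mem ⟨j, rfl⟩ (zpow_mem (pow_mem (Subgroup.mem_zpowers a) _) _))
  have hKP : ∀ s ∈ K, ∀ t ∈ K, s ∉ P → t ∉ P → s * t ∈ P := by
    intro s hs t ht hsP htP
    -- if `c` lies in `K`, then `K` lies in `⟨a⟩`
    have hKa : c ∈ K → ∀ w ∈ K, w ∈ Subgroup.zpowers a := by
      intro hcK w hw
      by_contra hwa
      have hq₁a : q₁ ∉ Subgroup.zpowers a := fun hq => by
        rcases hcpow q₁ hq₁ hq with e | e
        · exact hq₁' (hPK e).2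
        · exact hq₁' ((K.mul_mem_cancel_right hcK).1 (hPK e)).2
      have := haux w (hQS hw.1) q₁ (hQS hq₁) hwa hq₁a
      rcases hcpow _ (mul_mem hw.1 hq₁) this with e | e
      · exact hq₁' ((K.mul_mem_cancel_left hw).1 (hPK e)).2
      · exact hq₁' ((K.mul_mem_cancel_left hw).1 ((K.mul_mem_cancel_right hcK).1 (hPK e))).2
    by_cases hcK : c ∈ K
    · have hs' := (hcpow s hs.1 (hKa hcK s hs)).resolve_left hsP
      have ht' := (hcpow t ht.1 (hKa hcK t ht)).resolve_left htP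
      have e : s * t = s * c * (c * c)⁻¹ * (t * c) := by
        have hct : Commute c t := by
          obtain ⟨i, hi⟩ := hKa hcK t ht
          obtain ⟨i', hi'⟩ := hcQ.2
          rw [show t = a ^ i from hi.symm, show c = a ^ i' from hi'.symm]
          exact (Commute.refl a).zpow_zpow _ _
        rw [mul_inv_rev, ← hct.eq]; group
      rw [e]
      exact mul_mem (mul_mem hs' (inv_mem hccP)) ht'
    · have hnot : ∀ w ∈ K, w ∈ Subgroup.zpowers a → w ∈ P := fun w hw hwa =>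
        (hcpow w hw.1 hwa).resolve_right fun e => hcK ((K.mul_mem_cancel_left hw).1 (hPK e))
      exact hnot _ (mul_mem hs ht)
        (haux s (hQS hs.1) t (hQS ht.1) (fun e => hsP (hnot s hs e)) (fun e => htP (hnot t ht e)))
  have hgK : ∀ w ∈ K, g * w * g⁻¹ ∈ K := fun w hw =>
    ⟨hn w hw.1, by rw [conj_pow, hw.2, mul_one, mul_inv_cancel]⟩
  have hgKc : ∀ w ∈ K, Commute g w := by
    intro w hw
    by_cases hwP : w ∈ P
    · exact hgfix w hwP
    have h1 : g * w * g⁻¹ ∉ P := fun e => hwP ((Subgroup.mem_normalizer_iff.1 hgP w).2 e)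
    have hsqP : w * w ∈ P := hP ▸ Subgroup.subset_closure ⟨w, hw.1, rfl⟩
    have hu : g * w * g⁻¹ * w⁻¹ ∈ P := by
      rw [show g * w * g⁻¹ * w⁻¹ = g * w * g⁻¹ * w * (w * w)⁻¹ by group]
      exact mul_mem (hKP _ (hgK w hw) w hw h1 hwP) (inv_mem hsqP)
    exact commute_of_fixed_commutator hg (hgfix _ hu) (hexp _ (hPQ hu))
  intro q hq
  by_cases hqK : q ∈ K
  · exact hgKc q hqK
  have h1 : g * q * g⁻¹ ∉ K := fun e => hqK ⟨hq, by
    have := e.2
    rw [conj_pow] at this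
    exact (MulAut.conj g).injective (this.trans (map_one (MulAut.conj g)).symm)⟩
  have hu : g * q * g⁻¹ * q⁻¹ ∈ K :=
    hKout _ (hn q hq) _ (inv_mem hq) h1 (fun e => hqK (by simpa using K.inv_mem e))
  exact commute_of_fixed_commutator hg (hgKc _ hu) (hexp _ hu.1)

/-- Elements of odd order normalizing a subgroup of the modular Sylow subgroup centralize it. -/
theorem Params.centralizes {Q : Subgroup G} (hQS : Q ≤ (S : Subgroup G)) {g : G} (hg : Odd (orderOf g))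
    (hn : ∀ q ∈ Q, g * q * g⁻¹ ∈ Q) : ∀ q ∈ Q, Commute g q := by
  classical
  haveI : Fact (Nat.Prime 2) := ⟨Nat.prime_two⟩
  by_cases hex : ∃ q₀ ∈ Q, q₀ * q₀ ≠ 1
  · obtain ⟨q₀, hq₀, hne⟩ := hex
    exact h.centralizes_of_sq hQS hq₀ hne hg hn
  push Not at hex
  obtain ⟨z, hz⟩ : ∃ z, z = a ^ 2 ^ (m + 2) := ⟨_, rfl⟩
  have hbz : Commute b z := hz ▸ h.z_eq ▸ h.a2_central b h.hb _
  -- every involution lies in `⟨z, b⟩`
  have hinv : ∀ w ∈ (S : Subgroup G), w * w = 1 → w = 1 ∨ w = z ∨ w = b ∨ w = z * b := by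
    intro w hw hww
    have ev : ∀ i : ℤ, a ^ (2 * i) = 1 → a ^ i = 1 ∨ a ^ i = z := by
      intro i hi
      rw [← orderOf_dvd_iff_zpow_eq_one, h.oa] at hi
      obtain ⟨c, hc⟩ := hi
      push_cast at hc
      rw [show i = ((2 ^ (m + 2) : ℕ) : ℤ) * c by
        have : (2 : ℤ) ^ (m + 3) = 2 * 2 ^ (m + 2) := by ring
        rw [this] at hc; push_cast; exact mul_left_cancel₀ (show (2 : ℤ) ≠ 0 by norm_num) (by linear_combination hc), zpow_mul, zpow_natCast, hz]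
      exact h.z_zpow c
    obtain ⟨i, rfl | rfl⟩ := h.cover w hw
    · rcases ev i (by rw [two_mul, zpow_add]; exact hww) with e | e
      · exact Or.inl e
      · exact Or.inr (Or.inl e)
    · rw [show a ^ i * b * (a ^ i * b) = a ^ i * (b * a ^ i * b⁻¹) * (b * b) by group, h.conj_pow',
        h.bb, mul_one, ← mul_assoc, ← zpow_add, ← two_mul] at hww
      have hi4 : a ^ (2 * (2 * i)) = 1 := by
        have e := congrArg (fun x => x * x) hww
        simp only [mul_one] at e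
        rcases h.z_zpow i with e' | e' <;> rw [e'] at e
        · rw [mul_one, ← zpow_add, ← two_mul] at e; exact e
        · rw [mul_assoc, ← mul_assoc (a ^ 2 ^ (m + 2)), (((Commute.refl a).zpow_right (2 * i)).pow_left _).eq,
            mul_assoc (a ^ (2 * i)) (a ^ 2 ^ (m + 2)), h.z_sq, mul_one, ← zpow_add, ← two_mul] at e
          exact e
      have hz' : (a ^ 2 ^ (m + 2)) ^ i = 1 := by
        have : ∃ u, i = 2 * u := by
          rw [← orderOf_dvd_iff_zpow_eq_one, h.oa] at hi4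
          obtain ⟨c, hc⟩ := hi4
          push_cast at hc
          have e1 : (2 : ℤ) ^ (m + 3) = 8 * 2 ^ m := by ring
          rw [e1] at hc
          exact ⟨2 ^ m * c, by exact mul_left_cancel₀ (show (4 : ℤ) ≠ 0 by norm_num) (by linear_combination hc)⟩
        obtain ⟨u, rfl⟩ := this
        rw [zpow_mul, zpow_two, h.z_sq, one_zpow]
      rw [hz', mul_one] at hww
      rcases ev i hww with e | e
      · exact Or.inr (Or.inr (Or.inl (by rw [e, one_mul])))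
      · exact Or.inr (Or.inr (Or.inr (by rw [e])))
  intro q hq
  by_cases hq1 : q = 1
  · exact hq1 ▸ Commute.one_right g
  by_cases hfix : g * q * g⁻¹ = q
  · exact mul_inv_eq_iff_eq_mul.1 hfix
  -- `Q = ⟨z, b⟩`
  obtain ⟨V, hV⟩ : ∃ V, V = Subgroup.closure ({z, b} : Set G) := ⟨_, rfl⟩
  have hzS : z ∈ (S : Subgroup G) := hz ▸ pow_mem h.ha _
  have hVQ : V ≤ Q := by
    have h3 : ∀ w ∈ Q, w = 1 ∨ w = z ∨ w = b ∨ w = z * b := fun w hw => hinv w (hQS hw) (hex w hw)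
    have hq' := hn q hq
    have hq'1 : g * q * g⁻¹ ≠ 1 := fun e => hq1 (conj_eq_one_iff.1 e)
    have hzz : z * z = 1 := hz ▸ h.z_sq
    have e1 : z * b * z = b := by rw [mul_assoc, hbz.eq, ← mul_assoc, hzz, one_mul]
    have e2 : z * (z * b) = b := by rw [← mul_assoc, hzz, one_mul]
    have e3 : z * b * b = z := by rw [mul_assoc, h.bb, mul_one]
    have e4 : b * (z * b) = z := by rw [← mul_assoc, hbz.eq, mul_assoc, h.bb, mul_one]
    have both : z ∈ Q ∧ b ∈ Q := by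
      rcases h3 q hq with a1 | a1 | a1 | a1 <;> rcases h3 _ hq' with a2 | a2 | a2 | a2 <;>
        first
          | exact absurd a1 hq1
          | exact absurd a2 hq'1
          | exact absurd (a2.trans a1.symm) hfix
          | exact ⟨a1 ▸ hq, a2 ▸ hq'⟩
          | exact ⟨a2 ▸ hq', a1 ▸ hq⟩
          | exact ⟨a1 ▸ hq, e2 ▸ mul_mem (a1 ▸ hq) (a2 ▸ hq')⟩
          | exact ⟨a2 ▸ hq', e2 ▸ mul_mem (a2 ▸ hq') (a1 ▸ hq)⟩
          | exact ⟨e4 ▸ mul_mem (a1 ▸ hq) (a2 ▸ hq'), a1 ▸ hq⟩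
          | exact ⟨e4 ▸ mul_mem (a2 ▸ hq') (a1 ▸ hq), a2 ▸ hq'⟩
    rw [hV, Subgroup.closure_le]
    rintro w (rfl | rfl)
    · exact both.1
    · exact both.2
  have hQV : Q ≤ V := fun w hw => by
    have hzV : z ∈ V := hV ▸ Subgroup.subset_closure (Or.inl rfl)
    have hbV : b ∈ V := hV ▸ Subgroup.subset_closure (Or.inr rfl)
    rcases hinv w (hQS hw) (hex w hw) with e | e | e | e <;> rw [e]
    exacts [one_mem _, hzV, hbV, mul_mem hzV hbV]
  have hVeq : V = Q := le_antisymm hVQ hQV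
  have hbQ : b ∈ Q := hVQ (hV ▸ Subgroup.subset_closure (Or.inr rfl))
  have hzQ : z ∈ Q := hVQ (hV ▸ Subgroup.subset_closure (Or.inl rfl))
  obtain ⟨C, hC⟩ : ∃ C, C = Subgroup.centralizer (Q : Set G) := ⟨_, rfl⟩
  obtain ⟨N, hN⟩ : ∃ N, N = Subgroup.normalizer (Q : Set G) := ⟨_, rfl⟩
  have hSN : (S : Subgroup G) ≤ N := by
    intro s hs
    rw [hN]
    refine Subgroup.mem_normalizer_fintype fun w hw => ?_
    have hsw : s * w * s⁻¹ ∈ (S : Subgroup G) := mul_mem (mul_mem hs (hQS hw)) (inv_mem hs)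
    rcases hinv _ hsw (by rw [conj_mul, hex w hw, mul_one, mul_inv_cancel]) with e | e | e | e <;> rw [e]
    exacts [one_mem _, hzQ, hbQ, mul_mem hzQ hbQ]
  have hgN : g ∈ N := hN ▸ Subgroup.mem_normalizer_fintype hn
  -- Frattini argument
  haveI hCn : (C.subgroupOf N).Normal := by
    subst hC hN
    rw [← Subgroup.normalizerMonoidHom_ker]; exact MonoidHom.normal_ker _
  obtain ⟨T, hT⟩ : ∃ T : Subgroup G, T = (S : Subgroup G) ⊓ C := ⟨_, rfl⟩
  let SN : Sylow 2 ↥N := S.subtype hSN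
  let Cn : Subgroup ↥N := C.subgroupOf N
  obtain ⟨T₁, hT₁⟩ : ∃ T₁ : Sylow 2 ↥Cn, (T₁ : Subgroup ↥Cn) = (SN : Subgroup ↥N).subgroupOf Cn :=
    exists_sylow_inf_normal SN Cn
  have hfr := Sylow.normalizer_sup_eq_top T₁
  have hgt : (⟨g, hgN⟩ : ↥N) ∈ Subgroup.normalizer (((T₁ : Subgroup ↥Cn).map Cn.subtype : Subgroup ↥N) : Set ↥N) ⊔ Cn := by
    rw [hfr]; trivial
  rw [← SetLike.mem_coe, Subgroup.mul_normal] at hgt
  obtain ⟨u, hu, c, hcC, huc⟩ := hgt
  have hucG : (u : G) * (c : G) = g := congrArg Subtype.val huc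
  have hTmem : ∀ w : ↥N, w ∈ (T₁ : Subgroup ↥Cn).map Cn.subtype ↔ (w : G) ∈ T := by
    intro w
    rw [hT, Subgroup.mem_inf]
    constructor
    · rintro ⟨v, hv, rfl⟩
      rw [hT₁] at hv
      exact ⟨hv, v.2⟩
    · rintro ⟨h1, h2⟩
      exact ⟨⟨w, h2⟩, by rw [hT₁]; exact h1, rfl⟩
  have huT : ∀ w ∈ T, (u : G) * w * (u : G)⁻¹ ∈ T := by
    intro w hw
    have hwN : w ∈ N := hSN (hT ▸ hw : w ∈ (S : Subgroup G) ⊓ C).1
    exact (hTmem _).1 ((Subgroup.mem_normalizer_iff.1 hu ⟨w, hwN⟩).1 ((hTmem ⟨w, hwN⟩).2 hw))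
  -- pass to an odd-order power of `u`
  obtain ⟨s, o, hso, he⟩ := Nat.exists_eq_pow_mul_and_not_dvd (orderOf_pos (u : G)).ne' 2 (by norm_num)
  obtain ⟨u', hu'⟩ : ∃ u', u' = (u : G) ^ 2 ^ s := ⟨_, rfl⟩
  have hu'odd : Odd (orderOf u') := by
    rw [hu', orderOf_pow, he, Nat.gcd_mul_right_left, Nat.mul_div_cancel_left _ (by positivity)]
    exact Nat.odd_iff.2 (by omega)
  have hu'T : ∀ w ∈ T, u' * w * u'⁻¹ ∈ T := by
    have : ∀ j : ℕ, ∀ w ∈ T, (u : G) ^ j * w * ((u : G) ^ j)⁻¹ ∈ T := by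
      intro j
      induction j with
      | zero => simp
      | succ j ih =>
        intro w hw
        rw [pow_succ']
        have := huT _ (ih w hw)
        simpa [mul_assoc] using this
    exact hu' ▸ this _
  have ha2C : a ^ (2 : ℤ) ∈ T := by
    rw [hT, hC]
    refine ⟨zpow_mem h.ha 2, fun w hw => ?_⟩
    exact (by simpa using h.a2_central w (hQS hw) 1 : Commute w (a ^ (2 : ℤ))).eq
  have hQT : Q ≤ T := fun w hw => by
    refine hT ▸ ⟨hQS hw, hC ▸ fun v hv => ?_⟩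
    exact (h.fourth v (hQS hv) (by rw [hex v hv, one_mul]) w (hQS hw) (by rw [hex w hw, one_mul])).eq
  have hcent := h.centralizes_of_sq (Q := T) (hT ▸ inf_le_left) ha2C (fun e => by
      rw [← zpow_add, ← orderOf_dvd_iff_zpow_eq_one, h.oa] at e
      have : (2 : ℤ) ^ (m + 3) ∣ 4 := by push_cast at e; exact e
      have h8 : (8 : ℤ) ∣ 4 := (dvd_trans ⟨2 ^ m, by ring⟩ this)
      norm_num at h8) hu'odd hu'T
  -- `g ^ 2 ^ s` agrees with `u'` on `Q`
  have hcu : ∀ w ∈ Q, (g ^ 2 ^ s) * w * (g ^ 2 ^ s)⁻¹ = u' * w * u'⁻¹ := by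
    have step : ∀ j : ℕ, ∀ w ∈ Q, g ^ j * w * (g ^ j)⁻¹ = (u : G) ^ j * w * ((u : G) ^ j)⁻¹ := by
      intro j
      induction j with
      | zero => simp
      | succ j ih =>
        intro w hw
        have hmem : g ^ j * w * (g ^ j)⁻¹ ∈ Q :=
          (Subgroup.mem_normalizer_iff.1 (pow_mem (Subgroup.mem_normalizer_fintype hn :
            g ∈ Subgroup.normalizer (Q : Set G)) j) w).1 hw
        calc g ^ (j + 1) * w * (g ^ (j + 1))⁻¹ = g * (g ^ j * w * (g ^ j)⁻¹) * g⁻¹ := by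
              rw [pow_succ' g j]; simp [mul_assoc]
          _ = (u : G) * ((c : G) * (g ^ j * w * (g ^ j)⁻¹) * (c : G)⁻¹) * (u : G)⁻¹ := by rw [← hucG]; group
          _ = (u : G) * (g ^ j * w * (g ^ j)⁻¹) * (u : G)⁻¹ := by
              have hcc : (c : G) ∈ Subgroup.centralizer (Q : Set G) := hC ▸ hcC
              rw [← hcc _ hmem, mul_inv_cancel_right]
          _ = (u : G) ^ (j + 1) * w * ((u : G) ^ (j + 1))⁻¹ := by
              rw [ih w hw, pow_succ' (u : G) j]; simp [mul_assoc]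
    exact hu' ▸ step _
  have hg2 : Commute (g ^ 2 ^ s) q := by
    refine mul_inv_eq_iff_eq_mul.1 ?_
    rw [hcu q hq, (hcent q (hQT hq)).eq, mul_inv_cancel_right]
  obtain ⟨e, hee⟩ := exists_pow_eq_self_of_coprime (x := g) ((Nat.coprime_two_left.2 hg).pow_left s)
  have := hg2.pow_left e
  rwa [hee] at this

end Aux

/-- Groups with a modular Sylow 2-subgroup have a normal 2-complement. Let S, of order 2^(n+1) with n ≥ 3, be a Sylow 2-subgroup of a finite group G, and suppose S contains an element a of order 2^n and an involution b with b a b⁻¹ = a^(2^(n-1) + 1); so S is the non-abelian 2-group with a cyclic subgroup of index 2 that is neither dihedral, semidihedral nor generalized quaternion. Then G has a normal 2-complement. -/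
theorem result {G : Type*} [Group G] [Finite G]
    (S : Sylow 2 G) (n : ℕ) (hn : 3 ≤ n) (hS : Nat.card ↥(S : Subgroup G) = 2 ^ (n + 1))
    (a b : G) (ha : a ∈ (S : Subgroup G)) (hb : b ∈ (S : Subgroup G))
    (hao : orderOf a = 2 ^ n) (hbo : orderOf b = 2) (hrel : b * a * b⁻¹ = a ^ (2 ^ (n - 1) + 1)) :
    Cfsg.HasNormalPComplement 2 G := by
  haveI : Fact (Nat.Prime 2) := ⟨Nat.prime_two⟩
  obtain ⟨m, rfl⟩ : ∃ m, n = m + 3 := ⟨n - 3, by omega⟩
  have hP : Params S m a b := ⟨hS, ha, hb, hao, hbo, by simpa [show m + 3 - 1 = m + 2 by omega] using hrel⟩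
  refine CfsgLib.Transfer.hasNormalPComplement_of_pLocal_centralizes fun Q hQ g hg hgc => ?_
  obtain ⟨R, hR⟩ := hQ.exists_le_sylow
  obtain ⟨x, hx⟩ := MulAction.exists_smul_eq G R S
  obtain ⟨Q₀, hQ₀⟩ : ∃ Q₀, Q₀ = Q.map (MulAut.conj x).toMonoidHom := ⟨_, rfl⟩
  have hQS : Q₀ ≤ (S : Subgroup G) := by
    rw [hQ₀, ← hx]
    rintro _ ⟨q, hq, rfl⟩
    exact ⟨q, hR hq, rfl⟩
  have hg₀ : ∀ q ∈ Q₀, (x * g * x⁻¹) * q * (x * g * x⁻¹)⁻¹ ∈ Q₀ := by
    rw [hQ₀]
    rintro _ ⟨q, hq, rfl⟩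
    exact ⟨g * q * g⁻¹, (Subgroup.mem_normalizer_iff.1 hg q).1 hq, by simp [mul_assoc]⟩
  have ho : Odd (orderOf (x * g * x⁻¹)) := by
    rw [show x * g * x⁻¹ = MulAut.conj x g from rfl, MulEquiv.orderOf_eq]
    exact Nat.coprime_two_right.1 hgc
  intro q hq
  have := hP.centralizes hQS ho hg₀ (MulAut.conj x q) (hQ₀ ▸ ⟨q, hq, rfl⟩)
  apply (MulAut.conj x).injective
  rw [map_mul, map_mul]
  exact this.symm

end Cfsg.Agent.S3178
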