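import Cfsg.Statements.S3179
import Mathlib
import Cfsg.Agent.SL2.Sylow
import Cfsg.Agent.Classical.Linear.Card
import Cfsg.Agent.Classical.Unitary.Center
import Cfsg.Agent.S1163

set_option autoImplicit false
open Cfsg

namespace Cfsg.Agent.S3179

open Matrix in
theorem three_part_exponent (g : GL (Fin 5) (ZMod 2)) (hg : g ^ 9 = 1) : g ^ 3 = 1 := by
  haveI : Fact (Nat.Prime 3) := ⟨Nat.prime_three⟩
  let A : GL (Fin 5) (ZMod 2) :=
    ⟨!![0, 1, 0, 0, 0; 1, 1, 0, 0, 0; 0, 0, 1, 0, 0; 0, 0, 0, 1, 0; 0, 0, 0, 0, 1],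
     !![1, 1, 0, 0, 0; 1, 0, 0, 0, 0; 0, 0, 1, 0, 0; 0, 0, 0, 1, 0; 0, 0, 0, 0, 1],
     by decide +kernel, by decide +kernel⟩
  let B : GL (Fin 5) (ZMod 2) :=
    ⟨!![1, 0, 0, 0, 0; 0, 1, 0, 0, 0; 0, 0, 0, 1, 0; 0, 0, 1, 1, 0; 0, 0, 0, 0, 1],
     !![1, 0, 0, 0, 0; 0, 1, 0, 0, 0; 0, 0, 1, 1, 0; 0, 0, 1, 0, 0; 0, 0, 0, 0, 1],
     by decide +kernel, by decide +kernel⟩
  have hA : A ^ 3 = 1 := Units.ext (by simp only [Units.val_pow_eq_pow_val]; decide +kernel)
  have hB : B ^ 3 = 1 := Units.ext (by simp only [Units.val_pow_eq_pow_val]; decide +kernel)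
  have hAB : Commute A B := Units.ext (by simp only [Units.val_mul]; decide +kernel)
  let f : Multiplicative (ZMod 3) × Multiplicative (ZMod 3) → GL (Fin 5) (ZMod 2) := fun x =>
    A ^ x.1.toAdd.val * B ^ x.2.toAdd.val
  have hpow : ∀ (C : GL (Fin 5) (ZMod 2)), C ^ 3 = 1 → ∀ a b : ZMod 3,
      C ^ (a + b).val = C ^ a.val * C ^ b.val := by
    intro C hC a b
    rw [ZMod.val_add, ← pow_add, ← pow_eq_pow_mod _ hC]
  let φ : Multiplicative (ZMod 3) × Multiplicative (ZMod 3) →* GL (Fin 5) (ZMod 2) :=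
    MonoidHom.mk' f fun x y => by
      show A ^ (x.1.toAdd + y.1.toAdd).val * B ^ (x.2.toAdd + y.2.toAdd).val = _
      rw [hpow A hA, hpow B hB]
      exact Commute.mul_mul_mul_comm (hAB.pow_pow _ _) _ _
  have hinj : Function.Injective φ := by
    have hdec : Function.Injective (fun x : ZMod 3 × ZMod 3 =>
        ((A : Matrix (Fin 5) (Fin 5) (ZMod 2)) ^ x.1.val * (B : Matrix (Fin 5) (Fin 5) (ZMod 2)) ^ x.2.val)) := by
      decide +kernel
    intro x y h
    have h' := hdec (a₁ := (x.1.toAdd, x.2.toAdd)) (a₂ := (y.1.toAdd, y.2.toAdd))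
      (by simpa [φ, f] using congrArg Units.val h)
    exact Prod.ext (congrArg Prod.fst h') (congrArg Prod.snd h')
  have hcard : Nat.card φ.range = 3 ^ (Nat.card (GL (Fin 5) (ZMod 2))).factorization 3 := by
    rw [← Nat.card_congr (MonoidHom.ofInjective hinj).toEquiv, Matrix.card_GL_field,
      Nat.factorization_def _ Nat.prime_three]
    simp [Fin.prod_univ_five, ZMod.card]
    rw [show (9999360 : ℕ) = 3 ^ 2 * 1111040 from rfl, padicValNat.mul (by norm_num) (by norm_num),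
      padicValNat.prime_pow, padicValNat.eq_zero_of_not_dvd (by norm_num)]
    norm_num
  have hp : IsPGroup 3 (Subgroup.zpowers g) := by
    rintro ⟨x, k, rfl⟩
    refine ⟨2, Subtype.ext ?_⟩
    show (g ^ k) ^ (3 ^ 2) = 1
    rw [← zpow_natCast, ← _root_.zpow_mul, mul_comm, _root_.zpow_mul, zpow_natCast,
      show (3 : ℕ) ^ 2 = 9 from rfl, hg, _root_.one_zpow]
  obtain ⟨P, hP⟩ := hp.exists_le_sylow
  obtain ⟨c, hc⟩ := MulAction.exists_smul_eq (GL (Fin 5) (ZMod 2)) (Sylow.ofCard φ.range hcard) P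
  have hgP : g ∈ (P : Subgroup (GL (Fin 5) (ZMod 2))) := hP (Subgroup.mem_zpowers g)
  rw [← hc, Sylow.coe_subgroup_smul, Subgroup.mem_pointwise_smul_iff_inv_smul_mem] at hgP
  obtain ⟨x, hx⟩ := (show (MulAut.conj c)⁻¹ • g ∈ φ.range from hgP)
  have h3 : x ^ 3 = 1 := by
    have hy : ∀ y : Multiplicative (ZMod 3), y ^ 3 = 1 := fun y => by
      have := pow_card_eq_one' (x := y)
      rwa [Nat.card_congr Multiplicative.toAdd, Nat.card_zmod] at this
    exact Prod.ext (hy x.1) (hy x.2)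
  have h' : (MulAut.conj c)⁻¹ • (g ^ 3) = 1 := by
    rw [MulAut.smul_def, map_pow, ← MulAut.smul_def, ← hx, ← map_pow, h3, map_one]
  rwa [MulAut.smul_def, map_eq_one_iff _ (MulEquiv.injective _)] at h'


/-- Let X be a section of the general linear group GL(5, 2), that is, a quotient of a subgroup of it. If X is isomorphic to PSL(2, 2^n) for some n ≥ 2, to a Suzuki group over the field with 2^(2m+1) elements for some m ≥ 1, or to PSU(3, 2^n) for some n ≥ 2, then X is isomorphic to PSL(2, 4). -/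
theorem result {H : Subgroup (GL (Fin 5) (ZMod 2))}
    {K : Subgroup ↥H} [K.Normal]
    (hX : (∃ (n : ℕ) (F : Type) (_ : Field F) (_ : Fintype F), 2 ≤ n ∧ Fintype.card F = 2 ^ n ∧
        Nonempty (↥H ⧸ K ≃* Matrix.ProjectiveSpecialLinearGroup (Fin 2) F)) ∨
      (∃ (m : ℕ) (F : Type) (_ : Field F) (_ : Fintype F), 1 ≤ m ∧ Fintype.card F = 2 ^ (2 * m + 1) ∧
        Nonempty (↥H ⧸ K ≃* ↥(Cfsg.Lie.Sz F (2 ^ (m + 1))))) ∨
      (∃ (n : ℕ) (F : Type) (_ : Field F) (_ : Fintype F), 2 ≤ n ∧ Fintype.card F = 4 ^ n ∧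
        Nonempty (↥H ⧸ K ≃* Cfsg.PSU 3 F (2 ^ n)))) :
    ∃ (F : Type) (_ : Field F) (_ : Fintype F), Fintype.card F = 4 ∧
      Nonempty (↥H ⧸ K ≃* Matrix.ProjectiveSpecialLinearGroup (Fin 2) F) := by
  classical
  have hdvd : Nat.card (↥H ⧸ K) ∣ 9999360 := by
    refine (Subgroup.card_quotient_dvd_card K).trans (H.card_subgroup_dvd_card.trans (dvd_of_eq ?_))
    rw [Matrix.card_GL_field]
    simp [Fin.prod_univ_five, ZMod.card]
  rcases hX with ⟨n, F, iF, iT, hn, hF, ⟨e⟩⟩ | ⟨m, F, iF, iT, hm, hF, ⟨e⟩⟩ | ⟨n, F, iF, iT, hn, hF, ⟨e⟩⟩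
  · rw [Nat.card_congr e.toEquiv] at hdvd
    have hev : Even (Fintype.card F) := by
      rw [hF]; exact (Nat.even_pow.2 ⟨even_two, by omega⟩)
    have hc := CfsgLib.Classical.Linear.card_psl_two (F := F)
    have hg : Nat.gcd 2 (Fintype.card F - 1) = 1 := by
      refine (Nat.prime_two.coprime_iff_not_dvd).2 fun h => ?_
      obtain ⟨k, hk⟩ := hev
      have : 1 < Fintype.card F := Fintype.one_lt_card
      omega
    rw [hg, one_mul] at hc
    rw [hc, hF] at hdvd
    have hn10 : n ≤ 10 := by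
      have h2 : 2 ^ n ∣ 2 ^ 10 * 9765 := by
        rw [show (2 : ℕ) ^ 10 * 9765 = 9999360 from rfl]
        exact (dvd_mul_right _ _).trans hdvd
      have h3 : 2 ^ n ∣ 2 ^ 10 :=
        (Nat.Coprime.pow_left n (by norm_num : Nat.Coprime 2 9765)).dvd_of_dvd_mul_right h2
      exact (Nat.pow_dvd_pow_iff_le_right (by norm_num)).1 h3
    have hcases : n = 2 ∨ n = 3 := by
      interval_cases n <;> first | (norm_num at hdvd; done) | norm_num
    rcases hcases with rfl | rfl
    · exact ⟨F, iF, iT, hF, ⟨e⟩⟩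
    · exfalso
      haveI : Fact (Nat.Prime 3) := ⟨Nat.prime_three⟩
      haveI : Fact (Nat.Prime 2) := ⟨Nat.prime_two⟩
      haveI : CharP F 2 := by
        obtain ⟨p, hp⟩ := CharP.exists F
        have hpp : p.Prime := CharP.char_is_prime F p
        obtain ⟨k, -, hk⟩ := FiniteField.card F p
        rw [hF] at hk
        have := (Nat.prime_dvd_prime_iff_eq hpp Nat.prime_two).1
          (hpp.dvd_of_dvd_pow (hk ▸ dvd_pow_self p k.pos.ne'))
        exact this ▸ hp
      obtain ⟨R⟩ := (inferInstance : Nonempty (Sylow 3 (Matrix.SpecialLinearGroup (Fin 2) F)))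
      have hcyc := CfsgLib.SL2.isCyclic_sylow_odd (p := 2) (by norm_num) (by norm_num) R
      have hR : Nat.card (R : Subgroup (Matrix.SpecialLinearGroup (Fin 2) F)) = 9 := by
        rw [R.card_eq_multiplicity, CfsgLib.Classical.Linear.card_sl_two, hF,
          Nat.factorization_def _ Nat.prime_three]
        norm_num
        rw [show (504 : ℕ) = 3 ^ 2 * 56 from rfl, padicValNat.mul (by norm_num) (by norm_num),
          padicValNat.prime_pow, padicValNat.eq_zero_of_not_dvd (by norm_num)]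
        norm_num
      obtain ⟨z, hz⟩ := hcyc.exists_ofOrder_eq_natCard
      rw [hR, ← Subgroup.orderOf_coe] at hz
      let π : Matrix.SpecialLinearGroup (Fin 2) F →* ↥H ⧸ K :=
        e.symm.toMonoidHom.comp (QuotientGroup.mk' (Subgroup.center _))
      obtain ⟨h, hh⟩ := QuotientGroup.mk'_surjective K (π z)
      have hzc : Nat.card (Subgroup.center (Matrix.SpecialLinearGroup (Fin 2) F)) = 1 := by
        rw [CfsgLib.Classical.Linear.center_sl_card, Fintype.card_fin, hg]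
      have hπ : Function.Injective π := e.symm.injective.comp (by
        rw [← MonoidHom.ker_eq_bot_iff, QuotientGroup.ker_mk']
        exact Subgroup.eq_bot_of_card_eq _ hzc)
      have ho : orderOf (π z) = 9 := (orderOf_injective π hπ _).trans hz
      obtain ⟨c, hc⟩ : 9 ∣ orderOf h := by
        rw [← ho, ← hh]; exact orderOf_map_dvd _ _
      have h9 : ((h : GL (Fin 5) (ZMod 2)) ^ c) ^ 9 = 1 := by
        rw [← pow_mul, mul_comm, ← hc, ← Subgroup.coe_pow, pow_orderOf_eq_one, Subgroup.coe_one]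
      have h3 := three_part_exponent _ h9
      rw [← pow_mul, ← Subgroup.coe_pow, OneMemClass.coe_eq_one] at h3
      have hd := orderOf_dvd_of_pow_eq_one h3
      rw [hc, mul_comm c 3] at hd
      have hc0 : 0 < c := Nat.pos_of_ne_zero fun h0 => by
        rw [h0, mul_zero] at hc
        exact (orderOf_pos h).ne' hc
      have := Nat.dvd_of_mul_dvd_mul_right hc0 hd
      norm_num at this
  · exfalso
    rw [Nat.card_congr e.toEquiv, (Cfsg.Agent.S1163.result hm hF).1] at hdvd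
    have hm2 : m ≤ 2 := by
      have h2 : 2 ^ (2 * (2 * m + 1)) ∣ 2 ^ 10 * 9765 := by
        rw [show (2 : ℕ) ^ 10 * 9765 = 9999360 from rfl, mul_comm 2, pow_mul]
        exact ((dvd_mul_right _ _).trans (dvd_mul_right _ _)).trans hdvd
      have h3 := (Nat.pow_dvd_pow_iff_le_right (by norm_num)).1
        ((Nat.Coprime.pow_left _ (by norm_num : Nat.Coprime 2 9765)).dvd_of_dvd_mul_right h2)
      omega
    interval_cases m <;> norm_num at hdvd
  · exfalso
    rw [Nat.card_congr e.toEquiv] at hdvd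
    have hF' : Fintype.card F = (2 ^ n) ^ 2 := by rw [hF, ← pow_mul, mul_comm, pow_mul]; norm_num
    have hc := CfsgLib.Unitary.card_PSU (n := 3) hF' (by norm_num)
    simp only [Finset.prod_range_succ, Finset.prod_range_zero] at hc
    norm_num [-Nat.card_eq_fintype_card] at hc
    have hd : Nat.gcd 3 (2 ^ n + 1) * ((2 ^ n + 1) * Nat.card (Cfsg.PSU 3 F (2 ^ n))) ∣
        3 * ((2 ^ n + 1) * 9999360) :=
      Nat.mul_dvd_mul (Nat.gcd_dvd_left _ _) (Nat.mul_dvd_mul_left _ hdvd)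
    rw [hc] at hd
    have hn10 : n ≤ 10 := by
      have hq : 2 ^ n ∣ 2 ^ 10 * (3 * (9765 * (2 ^ n + 1))) := by
        rw [show 2 ^ 10 * (3 * (9765 * (2 ^ n + 1))) = 3 * ((2 ^ n + 1) * 9999360) by ring]
        exact (dvd_pow_self (2 ^ n) (by norm_num : (3 : ℕ) ≠ 0)).trans ((dvd_mul_right _ _).trans hd)
      have hco : Nat.Coprime (2 ^ n) (3 * (9765 * (2 ^ n + 1))) := by
        refine Nat.Coprime.pow_left n ((Nat.prime_two.coprime_iff_not_dvd).2 ?_)
        have : 2 ^ n % 2 = 0 := by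
          obtain ⟨k, rfl⟩ : ∃ k, n = k + 1 := ⟨n - 1, by omega⟩
          simp [pow_succ]
        omega
      exact (Nat.pow_dvd_pow_iff_le_right (by norm_num)).1 (hco.dvd_of_dvd_mul_right hq)
    interval_cases n <;> norm_num at hd

end Cfsg.Agent.S3179
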