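import Cfsg.Statements.S3180
-- import your own Cfsg.Agent.* helpers here

set_option autoImplicit false
open Cfsg

namespace Cfsg.Agent.S3180

/-- Let P be a Sylow p-subgroup of a finite group J and P₁ a subgroup of P that is weakly closed in P with respect to J. If J acts on a set and two points, each fixed by every element of P₁, lie in one J-orbit, then they lie in one orbit of the normalizer of P₁ in J. -/
theorem result {J : Type*} [Group J] [Finite J]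
    {p : ℕ} [Fact p.Prime] (P : Sylow p J) (P₁ : Subgroup J) (hW : Cfsg.IsWeaklyClosed P₁ (P : Subgroup J))
    {Ω : Type*} [MulAction J Ω] (x y : Ω) (hx : ∀ g ∈ P₁, g • x = x) (hy : ∀ g ∈ P₁, g • y = y)
    (hc : ∃ g : J, g • x = y) :
    ∃ g ∈ Subgroup.normalizer (P₁ : Set J), g • x = y := by
  obtain ⟨g, hg⟩ := hc
  set H := MulAction.stabilizer J y with hH
  have key : ∀ a : J, (∀ w ∈ P₁, a * w * a⁻¹ ∈ (P : Subgroup J)) →
      a ∈ Subgroup.normalizer (P₁ : Set J) := by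
    intro a ha
    have hle : P₁.map (MulAut.conj a).toMonoidHom ≤ (P : Subgroup J) := by
      rintro _ ⟨w, hw, rfl⟩
      exact ha w hw
    exact Subgroup.mem_normalizer_iff_map_conj_eq.2 (hW.2 a hle)
  have hP1p : IsPGroup p ↥P₁ := P.isPGroup'.to_le hW.1
  let P₂ := P₁.map (MulAut.conj g).toMonoidHom
  have h1H : P₁ ≤ H := fun w hw => hy w hw
  have h2H : P₂ ≤ H := by
    rintro _ ⟨w, hw, rfl⟩
    show (g * w * g⁻¹) • y = y
    simp [mul_smul, ← hg, hx w hw]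
  have h2p : IsPGroup p ↥P₂ := hP1p.map _
  obtain ⟨Q, hQ⟩ := (hP1p.comap_subtype (K := H)).exists_le_sylow
  obtain ⟨R, hR⟩ := (h2p.comap_subtype (K := H)).exists_le_sylow
  obtain ⟨h, hh⟩ := MulAction.exists_smul_eq (↥H) R Q
  obtain ⟨T, hT⟩ := (Q.isPGroup'.map H.subtype).exists_le_sylow
  obtain ⟨c, hc⟩ := MulAction.exists_smul_eq J P T
  have hTc : ∀ t ∈ (T : Subgroup J), c⁻¹ * t * c ∈ (P : Subgroup J) := by
    intro t ht
    rw [← hc] at ht
    obtain ⟨w, hw, rfl⟩ := ht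
    have hw0 : w ∈ (P : Subgroup J) := hw
    show c⁻¹ * (c * w * c⁻¹) * c ∈ (P : Subgroup J)
    rw [show c⁻¹ * (c * w * c⁻¹) * c = w by group]
    exact hw0
  have hb1 : c⁻¹ ∈ Subgroup.normalizer (P₁ : Set J) := key _ fun w hw => by
    simpa using hTc w (hT ⟨⟨w, h1H hw⟩, hQ (show ((⟨w, h1H hw⟩ : ↥H) : J) ∈ P₁ from hw), rfl⟩)
  have hb2 : c⁻¹ * ((h : J) * g) ∈ Subgroup.normalizer (P₁ : Set J) := key _ fun w hw => by
    have hw2 : g * w * g⁻¹ ∈ P₂ := ⟨w, hw, rfl⟩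
    have hq : h * ⟨g * w * g⁻¹, h2H hw2⟩ * h⁻¹ ∈ (Q : Subgroup ↥H) := by
      rw [← hh]
      exact ⟨⟨g * w * g⁻¹, h2H hw2⟩, hR (show ((⟨g * w * g⁻¹, h2H hw2⟩ : ↥H) : J) ∈ P₂ from hw2), rfl⟩
    have := hTc _ (hT ⟨_, hq, rfl⟩)
    simpa [mul_assoc] using this
  refine ⟨(h : J) * g, ?_, by rw [mul_smul, hg]; exact h.2⟩
  simpa using mul_mem (inv_mem hb1) hb2

end Cfsg.Agent.S3180
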