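import Cfsg.Statements.S3183
-- import your own Cfsg.Agent.* helpers here

set_option autoImplicit false
open Cfsg

namespace Cfsg.Agent.S3183

/-- Let G be a finite group in which the intersection of any two distinct Sylow 2-subgroups is contained in the centre of some Sylow 2-subgroup, and let S be a Sylow 2-subgroup. Then for every x in S the centralizer of x in S is a Sylow 2-subgroup of the centralizer of x in G (no 2-subgroup centralizing x is larger), and for every other Sylow 2-subgroup T the intersection S ∩ T lies in both the centre of S and the centre of T. -/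
theorem result {G : Type*} [Group G] [Finite G]
    (hCI : ∀ S T : Sylow 2 G, S ≠ T → ∃ U : Sylow 2 G,
      (S : Subgroup G) ⊓ (T : Subgroup G) ≤ (Subgroup.center ↥(U : Subgroup G)).map (U : Subgroup G).subtype)
    (S : Sylow 2 G) :
    (∀ x ∈ (S : Subgroup G), ∀ P : Subgroup G, IsPGroup 2 ↥P → P ≤ Subgroup.centralizer ({x} : Set G) →
        Nat.card ↥P ≤ Nat.card ↥((S : Subgroup G) ⊓ Subgroup.centralizer ({x} : Set G))) ∧
    (∀ T : Sylow 2 G, T ≠ S →
        (S : Subgroup G) ⊓ (T : Subgroup G) ≤
          (Subgroup.center ↥(S : Subgroup G)).map (S : Subgroup G).subtype ⊓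
            (Subgroup.center ↥(T : Subgroup G)).map (T : Subgroup G).subtype) := by
  have main : ∀ n : ℕ, ∀ S T : Sylow 2 G, S ≠ T →
      Nat.card G - Nat.card ↥((S : Subgroup G) ⊓ (T : Subgroup G)) ≤ n →
      ∀ x ∈ (S : Subgroup G) ⊓ (T : Subgroup G), ∀ s ∈ (S : Subgroup G), s * x = x * s := by
    intro n
    induction n using Nat.strong_induction_on with
    | _ n ih =>
      intro S T hST hn x hx
      set D := (S : Subgroup G) ⊓ (T : Subgroup G) with hD
      have step : ∀ V : Sylow 2 G, S ≠ V → D < (S : Subgroup G) ⊓ (V : Subgroup G) →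
          ∀ s ∈ (S : Subgroup G), s * x = x * s := by
        intro V hSV hlt
        have hne : D.index ≠ 0 := Subgroup.index_ne_zero_of_finite
        have hcard : Nat.card ↥D < Nat.card ↥((S : Subgroup G) ⊓ (V : Subgroup G)) :=
          lt_of_le_of_ne (Subgroup.card_le_of_le hlt.le) fun h =>
            hlt.ne (Subgroup.eq_of_le_of_card_ge hlt.le h.ge)
        have hle := Subgroup.card_le_card_group ((S : Subgroup G) ⊓ (V : Subgroup G))
        exact ih _ (by omega) S V hSV le_rfl x (hlt.le hx)
      obtain ⟨U, hU⟩ := hCI S T hST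
      have hUc : ∀ y ∈ D, y ∈ (U : Subgroup G) ∧ ∀ u ∈ (U : Subgroup G), u * y = y * u := by
        intro y hy
        obtain ⟨z, hz, rfl⟩ := hU hy
        exact ⟨z.2, fun u hu => congrArg Subtype.val (Subgroup.mem_center_iff.1 hz ⟨u, hu⟩)⟩
      by_cases hUS : U = S
      · subst hUS; exact (hUc x hx).2
      have hDS : D ≤ (S : Subgroup G) ⊓ (U : Subgroup G) :=
        le_inf inf_le_left fun y hy => (hUc y hy).1
      rcases hDS.eq_or_lt with heq | hlt
      swap
      · exact step U (Ne.symm hUS) hlt
      set N := Subgroup.normalizer (D : Set G) with hN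
      have hUN : (U : Subgroup G) ≤ N := by
        intro u hu
        rw [hN, Subgroup.mem_normalizer_iff]
        intro y
        have hfix : ∀ z ∈ D, u * z * u⁻¹ = z := fun z hz => by
          rw [(hUc z hz).2 u hu, mul_inv_cancel_right]
        refine ⟨fun hy => by rw [hfix y hy]; exact hy, fun hy => ?_⟩
        have := (hUc _ hy).2 u hu
        have h2 : u * y * u⁻¹ = y := by
          have h3 : u * (u * y * u⁻¹) = u * y := by rw [this]; group
          exact mul_left_cancel h3
        rw [h2] at hy; exact hy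
      have hDlt : D < (S : Subgroup G) := by
        refine lt_of_le_of_ne inf_le_left fun h => ?_
        exact hST (Sylow.ext (S.is_maximal' T.isPGroup' (inf_eq_left.1 h)).symm)
      have : Group.IsNilpotent ↥(S : Subgroup G) := S.isPGroup'.isNilpotent
      have hnc := (Group.normalizerCondition_of_isNilpotent (G := ↥(S : Subgroup G))) (D.subgroupOf S)
        (lt_top_iff_ne_top.2 fun h => hDlt.not_ge (Subgroup.subgroupOf_eq_top.1 h))
      obtain ⟨s₀, hs₀, hs₀D⟩ := SetLike.exists_of_lt hnc
      have hs₀N : (s₀ : G) ∈ N := by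
        rw [hN, Subgroup.mem_normalizer_iff]
        intro y
        rw [Subgroup.mem_normalizer_iff] at hs₀
        by_cases hy : y ∈ (S : Subgroup G)
        · exact hs₀ ⟨y, hy⟩
        · refine ⟨fun h => absurd (hDlt.le h) hy, fun h => absurd ?_ hy⟩
          have h2 := mul_mem (mul_mem (inv_mem s₀.2) (hDlt.le h)) s₀.2
          simpa [mul_assoc] using h2
      have hK : IsPGroup 2 ↥(((S : Subgroup G) ⊓ N).subgroupOf N) :=
        (S.isPGroup'.to_le inf_le_left).comap_subtype
      obtain ⟨Q, hQ⟩ := hK.exists_le_sylow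
      obtain ⟨m, hm⟩ := MulAction.exists_smul_eq (↥N) (U.subtype hUN) Q
      let V : Sylow 2 G := (m : G) • U
      have hKV : (S : Subgroup G) ⊓ N ≤ (V : Subgroup G) := by
        intro y hy
        have hy' : (⟨y, hy.2⟩ : ↥N) ∈ ((m • U.subtype hUN : Sylow 2 ↥N) : Subgroup ↥N) := by
          rw [hm]
          exact hQ (show y ∈ (S : Subgroup G) ⊓ N from hy)
        obtain ⟨z, hz, hzy⟩ := hy'
        exact ⟨(z : G), hz, congrArg Subtype.val hzy⟩
      by_cases hVS : V = S
      · intro s hs
        rw [← hVS] at hs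
        obtain ⟨u, hu, rfl⟩ := hs
        have hxm : (m : G)⁻¹ * x * (m : G) ∈ D := (Subgroup.mem_normalizer_iff''.1 m.2 x).1 hx
        have := (hUc _ hxm).2 u hu
        show (m : G) * u * (m : G)⁻¹ * x = x * ((m : G) * u * (m : G)⁻¹)
        calc (m : G) * u * (m : G)⁻¹ * x = (m : G) * (u * ((m : G)⁻¹ * x * m)) * (m : G)⁻¹ := by group
          _ = (m : G) * (((m : G)⁻¹ * x * m) * u) * (m : G)⁻¹ := by rw [this]
          _ = x * ((m : G) * u * (m : G)⁻¹) := by group
      · refine step V (Ne.symm hVS) ?_
        have hle : (S : Subgroup G) ⊓ N ≤ (S : Subgroup G) ⊓ (V : Subgroup G) := le_inf inf_le_left hKV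
        refine lt_of_lt_of_le (lt_of_le_of_ne (le_inf inf_le_left Subgroup.le_normalizer) fun h => ?_) hle
        have : (s₀ : G) ∈ (S : Subgroup G) ⊓ N := ⟨s₀.2, hs₀N⟩
        rw [← h] at this
        exact hs₀D (show (s₀ : G) ∈ D from this)
  refine ⟨fun x hx P hP hPx => ?_, fun T hTS => le_inf ?_ ?_⟩
  · have hzp : IsPGroup 2 ↥(Subgroup.zpowers x) := S.isPGroup'.to_le (Subgroup.zpowers_le.2 hx)
    have hnorm : P ≤ Subgroup.normalizer (Subgroup.zpowers x : Set G) := by
      refine hPx.trans ?_
      rw [← Subgroup.centralizer_closure, ← Subgroup.zpowers_eq_closure]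
      exact Subgroup.centralizer_le_normalizer _
    obtain ⟨T, hT⟩ := (hP.to_sup_of_normal_right' hzp hnorm).exists_le_sylow
    by_cases hTS : T = S
    · subst hTS
      exact Subgroup.card_le_of_le (le_inf (le_sup_left.trans hT) hPx)
    · have hxT : x ∈ (T : Subgroup G) := hT (Subgroup.mem_sup_right (Subgroup.mem_zpowers x))
      have hc : (S : Subgroup G) ⊓ Subgroup.centralizer ({x} : Set G) = (S : Subgroup G) :=
        inf_eq_left.2 fun s hs => Subgroup.mem_centralizer_singleton_iff.2
          (main _ S T (Ne.symm hTS) le_rfl x ⟨hx, hxT⟩ s hs)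
      rw [hc]
      calc Nat.card ↥P ≤ Nat.card ↥(T : Subgroup G) := Subgroup.card_le_of_le (le_sup_left.trans hT)
        _ = Nat.card ↥(S : Subgroup G) := by rw [T.card_eq_multiplicity, S.card_eq_multiplicity]
  · intro x hx
    exact ⟨⟨x, hx.1⟩, Subgroup.mem_center_iff.2 fun s =>
      Subtype.ext (main _ S T (Ne.symm hTS) le_rfl x hx s s.2), rfl⟩
  · intro x hx
    exact ⟨⟨x, hx.2⟩, Subgroup.mem_center_iff.2 fun s =>
      Subtype.ext (main _ T S hTS le_rfl x hx.symm s s.2), rfl⟩

end Cfsg.Agent.S3183
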