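import Cfsg.Statements.S3190
-- import your own Cfsg.Agent.* helpers here

set_option autoImplicit false
open Cfsg

namespace Cfsg.Agent.S3190

/-- Let p be an odd prime and, inside a finite group, let P be a p-subgroup normalized by a Klein four-group T. Let R be a subgroup of P, normal in P and normalized by T, such that P is the product of R with the centralizer of T in P. If T centralizes the centre of P, then T centralizes the centre of R. -/
theorem result {X : Type*} [Group X] [Finite X]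
    {p : ℕ} (hp : p.Prime) (hodd : Odd p) (P T R : Subgroup X) (hP : IsPGroup p ↥P) (hT : IsKleinFour ↥T)
    (hTP : T ≤ Subgroup.normalizer (P : Set X)) (hRP : R ≤ P) (hRn : (R.subgroupOf P).Normal)
    (hTR : T ≤ Subgroup.normalizer (R : Set X)) (hfac : R ⊔ (P ⊓ Subgroup.centralizer (T : Set X)) = P)
    (hZ : T ≤ Subgroup.centralizer (((Subgroup.center ↥P).map P.subtype : Subgroup X) : Set X)) :
    T ≤ Subgroup.centralizer (((Subgroup.center ↥R).map R.subtype : Subgroup X) : Set X) := by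
  haveI : Fact p.Prime := ⟨hp⟩
  have memZ : ∀ (K : Subgroup X) (v : X), v ∈ (Subgroup.center ↥K).map K.subtype ↔
      v ∈ K ∧ ∀ r ∈ K, r * v = v * r := by
    intro K v
    constructor
    · rintro ⟨z, hz, rfl⟩
      exact ⟨z.2, fun r hr => congrArg Subtype.val (Subgroup.mem_center_iff.1 hz ⟨r, hr⟩)⟩
    · rintro ⟨h1, h2⟩
      exact ⟨⟨v, h1⟩, Subgroup.mem_center_iff.2 fun r => Subtype.ext (h2 r r.2), rfl⟩
  set V := (Subgroup.center ↥R).map R.subtype with hVdef
  have hPN : P ≤ Subgroup.normalizer (R : Set X) := (Subgroup.normal_subgroupOf_iff_le_normalizer hRP).1 hRn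
  have hVconj : ∀ c ∈ Subgroup.normalizer (R : Set X), ∀ v ∈ V, c * v * c⁻¹ ∈ V := by
    intro c hc v hv
    obtain ⟨hv1, hv2⟩ := (memZ R v).1 hv
    refine (memZ R _).2 ⟨(Subgroup.mem_normalizer_iff.1 hc v).1 hv1, fun r hr => ?_⟩
    have := hv2 _ ((Subgroup.mem_normalizer_iff''.1 hc r).1 hr)
    calc r * (c * v * c⁻¹) = c * ((c⁻¹ * r * c) * v) * c⁻¹ := by group
      _ = c * (v * (c⁻¹ * r * c)) * c⁻¹ := by rw [this]
      _ = c * v * c⁻¹ * r := by group
  have hVcomm : ∀ a ∈ V, ∀ b ∈ V, a * b = b * a := fun a ha b hb =>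
    ((memZ R b).1 hb).2 a ((memZ R a).1 ha).1
  intro t ht v hv
  have htt : t * t = 1 := congrArg Subtype.val (IsKleinFour.mul_self (⟨t, ht⟩ : ↥T))
  let I : Subgroup X :=
    { carrier := {w | w ∈ V ∧ t * w * t⁻¹ = w⁻¹}
      one_mem' := ⟨one_mem V, by simp⟩
      mul_mem' := by
        rintro a b ⟨ha, ha'⟩ ⟨hb, hb'⟩
        refine ⟨mul_mem ha hb, ?_⟩
        calc t * (a * b) * t⁻¹ = (t * a * t⁻¹) * (t * b * t⁻¹) := by group
          _ = (b * a)⁻¹ := by rw [ha', hb', mul_inv_rev]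
          _ = (a * b)⁻¹ := by rw [hVcomm a ha b hb]
      inv_mem' := by
        rintro a ⟨ha, ha'⟩
        refine ⟨inv_mem ha, ?_⟩
        rw [show t * a⁻¹ * t⁻¹ = (t * a * t⁻¹)⁻¹ by group, ha'] }
  have hI : I = ⊥ := by
    have hIP : I ≤ P := fun w hw => hRP ((memZ R w).1 hw.1).1
    have hgen : P ≤ Subgroup.normalizer (I : Set X) := by
      rw [← hfac, sup_le_iff]
      have conv : ∀ c : X, c ∈ Subgroup.normalizer (R : Set X) →
          (∀ w ∈ I, t * (c * w * c⁻¹) * t⁻¹ = c * (t * w * t⁻¹) * c⁻¹) →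
          ∀ w ∈ I, c * w * c⁻¹ ∈ I := fun c hc h w hw =>
        ⟨hVconj c hc w hw.1, by rw [h w hw, hw.2]; group⟩
      constructor <;> intro c hc <;> rw [Subgroup.mem_normalizer_iff] <;> intro w
      · have fix1 : ∀ u ∈ I, c * u * c⁻¹ = u := fun u hu => by
          rw [((memZ R u).1 hu.1).2 c hc, mul_inv_cancel_right]
        refine ⟨fun hw => by rw [fix1 w hw]; exact hw, fun hw => ?_⟩
        have := ((memZ R _).1 hw.1).2 c hc
        have h2 : c * w * c⁻¹ = w := by
          have h3 : c * (c * w * c⁻¹) = c * w := by rw [this]; group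
          exact mul_left_cancel h3
        rw [h2] at hw; exact hw
      · have hall : ∀ d ∈ P ⊓ Subgroup.centralizer (T : Set X), ∀ u ∈ I, d * u * d⁻¹ ∈ I := by
          intro d hd
          refine conv d (hPN hd.1) fun u hu => ?_
          have e : t * d = d * t := hd.2 t ht
          have e' : d⁻¹ * t⁻¹ = t⁻¹ * d⁻¹ := by rw [← mul_inv_rev, e, mul_inv_rev]
          calc t * (d * u * d⁻¹) * t⁻¹ = (t * d) * u * (d⁻¹ * t⁻¹) := by group
            _ = (d * t) * u * (t⁻¹ * d⁻¹) := by rw [e, e']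
            _ = d * (t * u * t⁻¹) * d⁻¹ := by group
        refine ⟨hall c hc w, fun hw => ?_⟩
        have h2 := hall c⁻¹ (inv_mem hc) _ hw
        simpa [mul_assoc] using h2
    haveI : (I.subgroupOf P).Normal := (Subgroup.normal_subgroupOf_iff_le_normalizer hIP).2 hgen
    by_contra hne
    obtain ⟨k, hk⟩ := (hP.to_le hIP).exists_card_eq
    have hdvd : p ∣ Nat.card ↥(I.subgroupOf P) := by
      rw [Nat.card_congr (Subgroup.subgroupOfEquivOfLe hIP).toEquiv, hk]
      refine dvd_pow_self p fun h0 => hne ?_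
      rw [h0, pow_zero] at hk
      exact Subgroup.card_eq_one.1 hk
    have hfix1 : (1 : ↥(I.subgroupOf P)) ∈ MulAction.fixedPoints (ConjAct ↥P) ↥(I.subgroupOf P) :=
      fun g => smul_one g
    obtain ⟨z, hz, hz1⟩ := (hP.of_equiv ConjAct.toConjAct).exists_fixed_point_of_prime_dvd_card_of_fixed_point
      (↥(I.subgroupOf P)) hdvd hfix1
    apply hz1
    have hzc : ((z : ↥P) : X) ∈ (Subgroup.center ↥P).map P.subtype := by
      refine ⟨(z : ↥P), Subgroup.mem_center_iff.2 fun g => ?_, rfl⟩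
      have := congrArg Subtype.val (hz (ConjAct.toConjAct g))
      simp only [ConjAct.Subgroup.val_conj_smul, ConjAct.smul_def, ConjAct.ofConjAct_toConjAct] at this
      exact mul_inv_eq_iff_eq_mul.1 this
    have hzt : ((z : ↥P) : X) * t = t * ((z : ↥P) : X) := hZ ht _ hzc
    have hzi : t * ((z : ↥P) : X) * t⁻¹ = ((z : ↥P) : X)⁻¹ := (z.2 : ((z : ↥P) : X) ∈ I).2
    rw [← hzt, mul_inv_cancel_right] at hzi
    have hz2 : ((z : ↥P) : X) ^ 2 = 1 := by
      rw [pow_two]; exact eq_inv_iff_mul_eq_one.1 hzi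
    obtain ⟨j, hj⟩ := IsPGroup.iff_orderOf.1 hP (z : ↥P)
    have h2 : orderOf (z : ↥P) ∣ 2 := orderOf_dvd_of_pow_eq_one (Subtype.ext (by simpa using hz2))
    have hcop : Nat.Coprime (orderOf (z : ↥P)) 2 := by
      rw [hj]; exact (Nat.coprime_two_right.2 hodd).pow_left j
    have : orderOf (z : ↥P) = 1 := Nat.eq_one_of_dvd_coprimes hcop dvd_rfl h2
    exact Subtype.ext (orderOf_eq_one_iff.1 this).symm
  have hw : v⁻¹ * (t * v * t⁻¹) ∈ I := by
    refine ⟨mul_mem (inv_mem hv) (hVconj t (hTR ht) v hv), ?_⟩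
    have ti : t⁻¹ = t := inv_eq_of_mul_eq_one_left htt
    rw [mul_inv_rev, inv_inv, ti]
    have hc := hVcomm _ (inv_mem (hVconj t (hTR ht) v hv)) v hv
    rw [ti] at hc
    rw [hc]
    calc t * (v⁻¹ * (t * v * t)) * t = t * v⁻¹ * t * v * (t * t) := by group
      _ = v * (t * v * t)⁻¹ := by
        rw [htt, mul_one, ← hc]
        rw [mul_inv_rev, mul_inv_rev, ti]
        simp [mul_assoc]
  rw [hI, Subgroup.mem_bot, inv_mul_eq_one] at hw
  exact eq_mul_inv_iff_mul_eq.1 hw

end Cfsg.Agent.S3190
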