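import Cfsg.Statements.S3191
import Cfsg.Agent.AltCentralizer.Small

set_option autoImplicit false
open Cfsg

namespace Cfsg.Agent.S3191

/-- Let n ≥ 1 and r = 2 or 3, and let H be the centralizer in the alternating group of degree 4n + r of an involution moving exactly 4n points (a product of 2n disjoint transpositions). Let G be a finite group that has no normal subgroup of index 2 and that contains an involution t which is central in some Sylow 2-subgroup of G and whose centralizer is isomorphic to H. Then G has exactly n conjugacy classes of involutions. -/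
theorem result (n r : ℕ) (hn : 1 ≤ n) (hr : r = 2 ∨ r = 3)
    (α : ↥(alternatingGroup (Fin (4 * n + r)))) (hα : orderOf α = 2)
    (hα4 : (α : Equiv.Perm (Fin (4 * n + r))).support.card = 4 * n)
    {G : Type*} [Group G] [Finite G] (h2 : ∀ H : Subgroup G, H.Normal → H.index ≠ 2)
    (t : G) (ht : orderOf t = 2) (S : Sylow 2 G) (htS : t ∈ (S : Subgroup G))
    (htZ : ∀ s ∈ (S : Subgroup G), s * t = t * s)
    (hiso : Nonempty (↥(Subgroup.centralizer ({t} : Set G)) ≃*
      ↥(Subgroup.centralizer ({α} : Set ↥(alternatingGroup (Fin (4 * n + r))))))) :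
    Nat.card {c : ConjClasses G // ∃ x ∈ c.carrier, orderOf x = 2} = n := by
  classical
  haveI : Fact (Nat.Prime 2) := ⟨Nat.prime_two⟩
  obtain ⟨k, rfl⟩ : ∃ k, r = k + 2 := ⟨r - 2, by omega⟩
  have hk : k = 0 ∨ k = 1 := by omega
  have hτ : (Equiv.swap (0 : Fin (k + 2)) 1) * Equiv.swap 0 1 = 1 := Equiv.swap_mul_self 0 1
  have hτs : Equiv.Perm.sign (Equiv.swap (0 : Fin (k + 2)) 1) = -1 :=
    Equiv.Perm.sign_swap (by simp)
  have hκ : ∀ ρ : Equiv.Perm (Fin (k + 2)), Equiv.Perm.sign ρ = 1 →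
      Commute ρ (Equiv.swap 0 1) → ρ = 1 := by
    have h0 : ∀ ρ : Equiv.Perm (Fin 2), Equiv.Perm.sign ρ = 1 →
        ρ * Equiv.swap 0 1 = Equiv.swap 0 1 * ρ → ρ = 1 := by decide
    have h1 : ∀ ρ : Equiv.Perm (Fin 3), Equiv.Perm.sign ρ = 1 →
        ρ * Equiv.swap 0 1 = Equiv.swap 0 1 * ρ → ρ = 1 := by decide
    rcases hk with rfl | rfl
    · exact fun ρ hs hc => h0 ρ hs hc.eq
    · exact fun ρ hs hc => h1 ρ hs hc.eq
  have hodd : Odd (Nat.card (Equiv.Perm.sign : Equiv.Perm (Fin (k + 2)) →* ℤˣ).ker) := by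
    have h := (Equiv.Perm.sign : Equiv.Perm (Fin (k + 2)) →* ℤˣ).ker.card_mul_index
    rw [Subgroup.index_ker, MonoidHom.range_eq_top.2 (Equiv.Perm.sign_surjective _), Subgroup.card_top,
      Nat.card_eq_fintype_card (α := ℤˣ), Fintype.card_units_int, Nat.card_perm,
      Nat.card_fin] at h
    rcases hk with rfl | rfl
    · rw [show Nat.card (Equiv.Perm.sign : Equiv.Perm (Fin (0 + 2)) →* ℤˣ).ker = 1 by
        rw [show Nat.factorial (0 + 2) = 2 from rfl] at h; omega]
      exact odd_one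
    · rw [show Nat.card (Equiv.Perm.sign : Equiv.Perm (Fin (1 + 2)) →* ℤˣ).ker = 3 by
        rw [show Nat.factorial (1 + 2) = 6 from rfl] at h; omega]
      decide
  have hα2 : (α : Equiv.Perm (Fin (4 * n + (k + 2)))) * α = 1 := by
    have h := pow_orderOf_eq_one α
    rw [hα, pow_two] at h
    exact congrArg Subtype.val h
  obtain ⟨e, he⟩ := CfsgLib.AltCentralizer.exists_coord (m := 2 * n) (k := k + 2)
    (α : Equiv.Perm (Fin (4 * n + (k + 2)))) hα2 (by rw [hα4]; ring) (by rw [Fintype.card_fin]; ring)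
    (Equiv.swap 0 1) (even_two_mul n)
  obtain ⟨Ψ₀⟩ := CfsgLib.AltCentralizer.exists_cen_equiv α e he
  obtain ⟨iso⟩ := hiso
  have hindex : ¬ 2 ∣ (Subgroup.centralizer ({t} : Set G)).index := fun h =>
    S.not_dvd_index (h.trans (Subgroup.index_dvd_of_le fun s hs =>
      Subgroup.mem_centralizer_singleton_iff.2 (htZ s hs)))
  obtain ⟨D⟩ := CfsgLib.AltCentralizer.exists_setup_of_model hτ hτs hκ hodd
    (ι := Fin (2 * n)) (by rw [Fintype.card_fin]; exact even_two_mul n)
    ⟨⟨0, by omega⟩⟩ ht h2 hindex (Ψ₀.trans iso.symm)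
  by_cases h1 : n = 1
  · subst h1
    exact D.count_two (Fintype.card_fin _) ht
  have h4 : 4 ≤ Fintype.card (Fin (2 * n)) := by rw [Fintype.card_fin]; omega
  obtain ⟨D', hD'⟩ := D.exists_std h4
  exact hD'.count h4 (Fintype.card_fin _) (hD'.involution_vec h4)

end Cfsg.Agent.S3191
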