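import Cfsg.Statements.S3195
import Cfsg.Agent.Eq.Def_CaseTheorems
import Cfsg.Agent.Involution.BaerSuzuki
import Cfsg.Agent.Involution.Dihedral

set_option autoImplicit false
open Cfsg

namespace Cfsg.Agent.S3195


theorem four_cases {G : Type*} [Group G] {A : Subgroup G} (hA : IsKleinFour ↥A) {a y x : G}
    (ha : a ∈ A) (hy : y ∈ A) (ha1 : a ≠ 1) (hy1 : y ≠ 1) (hya : y ≠ a) (hx : x ∈ A) :
    x = 1 ∨ x = a ∨ x = y ∨ x = a * y := by
  by_cases h1 : x = 1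
  · exact Or.inl h1
  by_cases h2 : x = a
  · exact Or.inr (Or.inl h2)
  by_cases h3 : x = y
  · exact Or.inr (Or.inr (Or.inl h3))
  have := @IsKleinFour.eq_mul_of_ne_all ↥A _ hA ⟨a, ha⟩ ⟨y, hy⟩ ⟨x, hx⟩
    (fun e => ha1 (congrArg Subtype.val e)) (fun e => hy1 (congrArg Subtype.val e))
    (fun e => hya (congrArg Subtype.val e).symm) (fun e => h1 (congrArg Subtype.val e))
    (fun e => h2 (congrArg Subtype.val e)) (fun e => h3 (congrArg Subtype.val e))
  exact Or.inr (Or.inr (Or.inr (congrArg Subtype.val this)))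

theorem exists_inverted {G : Type*} [Group G] [Finite G] {A : Subgroup G} (hA : IsKleinFour ↥A) {a : G}
    (ha : a ∈ A) (ha1 : a ≠ 1)
    (hno : ∀ N : Subgroup G, N.Normal → IsPGroup 2 ↥N → a ∉ N) :
    ∃ k : G, k ≠ 1 ∧ Odd (orderOf k) ∧ a * k * a⁻¹ = k⁻¹ := by
  by_contra hcon
  push Not at hcon
  have hao : orderOf a = 2 := orderOf_eq_prime (by
    rw [pow_two]; exact congrArg Subtype.val (IsKleinFour.mul_self (⟨a, ha⟩ : ↥A))) ha1
  have : Fact (Nat.Prime 2) := ⟨Nat.prime_two⟩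
  suffices hpair : ∀ g : G, IsPGroup 2 ↥(Subgroup.closure ({a, g * a * g⁻¹} : Set G)) by
    obtain ⟨N, hN, hN2, haN⟩ := CfsgLib.Involution.baerSuzuki_mem (p := 2) a hpair
    exact hno N hN hN2 haN
  intro g
  set u := g * a * g⁻¹ with hu
  intro d
  have huo : orderOf u = 2 := by
    have := (MulAut.conj g).orderOf_eq a
    simpa [hao, hu] using this
  obtain ⟨s, m, hm, he⟩ := Nat.exists_eq_pow_mul_and_not_dvd (orderOf_pos (a * u)).ne' 2 (by norm_num)
  have hk : (a * u) ^ (2 ^ s) = 1 := by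
    by_contra hne
    apply hcon _ hne ?_ ?_
    · rw [orderOf_pow, he, Nat.gcd_mul_right_left, Nat.mul_div_cancel_left _ (by positivity)]
      exact Nat.odd_iff.2 (by omega)
    · have hc := CfsgLib.Involution.zpow_mul_comm hao huo
      rw [← conj_pow, ← inv_pow]
      congr 1
      have ia : a⁻¹ = a := inv_eq_of_mul_eq_one_left (by rw [← pow_two, ← hao, pow_orderOf_eq_one])
      have iu : u⁻¹ = u := inv_eq_of_mul_eq_one_left (by rw [← pow_two, ← huo, pow_orderOf_eq_one])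
      rw [mul_inv_rev, iu, ia, ← mul_assoc, ← pow_two, ← hao, pow_orderOf_eq_one, one_mul]
  obtain ⟨n, hn | hn⟩ := CfsgLib.Involution.mem_closure_pair hao huo d.2
  · refine ⟨s, Subtype.ext ?_⟩
    show (d : G) ^ 2 ^ s = 1
    rw [hn, ← zpow_natCast, ← zpow_mul, mul_comm, zpow_mul, zpow_natCast, hk, one_zpow]
  · refine ⟨1, Subtype.ext ?_⟩
    show (d : G) ^ 2 ^ 1 = 1
    rw [hn, pow_one, pow_two]
    rw [mul_assoc, ← mul_assoc ((a * u) ^ n), CfsgLib.Involution.zpow_mul_comm hao huo, mul_assoc, ← zpow_add,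
      neg_add_cancel, zpow_zero, mul_one]
    exact CfsgLib.Involution.mul_self_of_orderOf_two hao

theorem partner {G : Type*} [Group G] [Finite G] {A : Subgroup G} (hA : IsKleinFour ↥A)
    (h : ∀ a ∈ A, a ≠ 1 → ∀ g : G, A ⊓ Subgroup.centralizer ({g * a * g⁻¹} : Set G) ≠ ⊥)
    {a k : G} (ha : a ∈ A) (ha1 : a ≠ 1) (hk1 : k ≠ 1) (hko : Odd (orderOf k))
    (hak : a * k * a⁻¹ = k⁻¹) : ∃ y ∈ A, y ≠ 1 ∧ y ≠ a ∧ Commute y k := by
  obtain ⟨j, hj⟩ := hko
  have haa : a * a = 1 := congrArg Subtype.val (IsKleinFour.mul_self (⟨a, ha⟩ : ↥A))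
  have ia : a⁻¹ = a := inv_eq_of_mul_eq_one_left haa
  obtain ⟨y, hy, hy1⟩ := (Subgroup.bot_or_exists_ne_one _).resolve_left (h a ha ha1 (k ^ (j + 1))⁻¹)
  obtain ⟨hyA, hyc⟩ := Subgroup.mem_inf.1 hy
  have hconj : (k ^ (j + 1))⁻¹ * a * k ^ (j + 1) = a * k := by
    rw [← inv_pow, ← hak, conj_pow, ia]
    calc a * k ^ (j + 1) * a * a * k ^ (j + 1) = a * k ^ (j + 1) * (a * a) * k ^ (j + 1) := by group
      _ = a * k := by
          rw [haa, mul_one, mul_assoc, ← pow_add, show j + 1 + (j + 1) = orderOf k + 1 by omega,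
            pow_succ, pow_orderOf_eq_one, one_mul]
  rw [Subgroup.mem_centralizer_singleton_iff, inv_inv, hconj] at hyc
  have hya' : y * a = a * y := by
    have := congrArg Subtype.val (IsKleinFour.mul_self ((⟨y, hyA⟩ : ↥A) * ⟨a, ha⟩))
    have h2 : (y * a)⁻¹ = y * a := inv_eq_of_mul_eq_one_left this
    have iy : y⁻¹ = y := inv_eq_of_mul_eq_one_left
      (congrArg Subtype.val (IsKleinFour.mul_self (⟨y, hyA⟩ : ↥A)))
    rw [mul_inv_rev, ia, iy] at h2
    exact h2.symm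
  have hyk : Commute y k := by
    apply mul_left_cancel (a := a)
    rw [← mul_assoc, ← hya', mul_assoc, ← mul_assoc a k y, ← hyc]
  refine ⟨y, hyA, hy1, ?_, hyk⟩
  rintro rfl
  apply hk1
  rw [hyk.eq, mul_inv_cancel_right] at hak
  have hkk : k * k = 1 := eq_inv_iff_mul_eq_one.1 hak
  have := pow_orderOf_eq_one k
  rwa [hj, pow_succ, pow_mul, pow_two, hkk, one_pow, one_mul] at this

/-- Let A be a Klein four-subgroup of a finite group G. If every G-conjugate of every involution of A commutes with some involution of A (its centralizer meets A nontrivially), then A meets the largest normal 2-subgroup O₂(G) nontrivially. -/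
theorem result {G : Type*} [Group G] [Finite G]
    (A : Subgroup G) (hA : IsKleinFour ↥A)
    (h : ∀ a ∈ A, a ≠ 1 → ∀ g : G, A ⊓ Subgroup.centralizer ({g * a * g⁻¹} : Set G) ≠ ⊥) :
    A ⊓ Cfsg.pCore 2 G ≠ ⊥ := by
  obtain ⟨a, ha, ha1⟩ : ∃ a ∈ A, a ≠ 1 := by
    refine A.bot_or_exists_ne_one.resolve_left fun hb => ?_
    have := hA.card_four
    rw [hb, Subgroup.card_bot] at this
    omega
  intro hcon
  have hnot : ∀ a ∈ A, a ≠ 1 → ∃ k : G, k ≠ 1 ∧ Odd (orderOf k) ∧ a * k * a⁻¹ = k⁻¹ := by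
    intro a ha ha1
    exact exists_inverted hA ha ha1 fun N hN hN2 hmem => by
      have : a ∈ A ⊓ Cfsg.pCore 2 G := ⟨ha, le_sSup (show N ∈ {N : Subgroup G | N.Normal ∧ IsPGroup 2 N} from ⟨hN, hN2⟩) hmem⟩
      rw [hcon] at this
      exact ha1 this
  obtain ⟨k, hk1, hko, hak⟩ := hnot a ha ha1
  obtain ⟨y, hy, hy1, hya, hyk⟩ := partner hA h ha ha1 hk1 hko hak
  obtain ⟨l, hl1, hlo, hyl⟩ := hnot y hy hy1
  have sqA : ∀ x ∈ A, x * x = 1 := fun x hx => congrArg Subtype.val (IsKleinFour.mul_self (⟨x, hx⟩ : ↥A))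
  have invA : ∀ x ∈ A, x⁻¹ = x := fun x hx => inv_eq_of_mul_eq_one_left (sqA x hx)
  have comA : ∀ x ∈ A, ∀ z ∈ A, x * z = z * x := fun x hx z hz => by
    have := sqA _ (mul_mem hx hz)
    have h2 := inv_eq_of_mul_eq_one_left this
    rw [mul_inv_rev, invA x hx, invA z hz] at h2
    exact h2.symm
  have four : ∀ x ∈ A, x = 1 ∨ x = a ∨ x = y ∨ x = a * y := fun x hx => four_cases hA ha hy ha1 hy1 hya hx
  -- a member of the line through `y` centralising `l`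
  have pick : ∀ c : G, Commute c y → ∃ z ∈ A, z ≠ 1 ∧ z ≠ y ∧ Commute (c * z * c⁻¹) l := by
    intro c hc
    have hc' : c⁻¹ * y * c = y := by rw [mul_assoc, ← hc.eq, inv_mul_cancel_left]
    have hyl' : y * (c⁻¹ * l * c) * y⁻¹ = (c⁻¹ * l * c)⁻¹ := by
      calc y * (c⁻¹ * l * c) * y⁻¹ = (c⁻¹ * y * c) * (c⁻¹ * l * c) * (c⁻¹ * y * c)⁻¹ := by rw [hc']
        _ = c⁻¹ * (y * l * y⁻¹) * c := by group
        _ = (c⁻¹ * l * c)⁻¹ := by rw [hyl]; group
    have ho : orderOf (c⁻¹ * l * c) = orderOf l := by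
      have := (MulAut.conj c⁻¹).orderOf_eq l
      simpa using this
    have hl' : c⁻¹ * l * c ≠ 1 := fun e => hl1 (by
      rw [← orderOf_eq_one_iff, ← ho, orderOf_eq_one_iff]; exact e)
    obtain ⟨z, hz, hz1, hzy, hzl⟩ := partner hA h hy hy1 hl' (ho ▸ hlo) hyl'
    refine ⟨z, hz, hz1, hzy, ?_⟩
    have := hzl.map (MulAut.conj c)
    simpa [mul_assoc] using this
  obtain ⟨j, hj⟩ := hko
  have hsqrt : k ^ (j + 1) * k ^ (j + 1) = k := by
    rw [← pow_add, show j + 1 + (j + 1) = orderOf k + 1 by omega, pow_succ, pow_orderOf_eq_one, one_mul]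
  have conjinv : ∀ (r q : G), r * q * r⁻¹ = q⁻¹ → r * r = 1 → q⁻¹ * r * q = r * (q * q) := by
    intro r q hq hr
    rw [← hq, inv_eq_of_mul_eq_one_left hr]
    calc r * q * r * r * q = r * q * (r * r) * q := by group
      _ = r * (q * q) := by rw [hr]; group
  obtain ⟨z₀, hz₀, hz₀1, hz₀y, hz₀l⟩ := pick 1 (Commute.one_left y)
  rw [one_mul, inv_one, mul_one] at hz₀l
  obtain ⟨z₁, hz₁, hz₁1, hz₁y, hz₁l⟩ := pick (k ^ (j + 1))⁻¹ (((hyk.pow_right (j + 1)).inv_right).symm)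
  rw [inv_inv] at hz₁l
  have inv_k : ∀ z ∈ A, z ≠ 1 → z ≠ y → z * k * z⁻¹ = k⁻¹ := by
    intro z hz hz1 hzy
    rcases four z hz with rfl | rfl | rfl | rfl
    · exact absurd rfl hz1
    · exact hak
    · exact absurd rfl hzy
    · calc a * y * k * (a * y)⁻¹ = a * (y * k * y⁻¹) * a⁻¹ := by group
        _ = k⁻¹ := by rw [show y * k * y⁻¹ = k by rw [hyk.eq, mul_inv_cancel_right], hak]
  have pinv : ∀ z, z * k * z⁻¹ = k⁻¹ → ∀ n : ℕ, z * k ^ n * z⁻¹ = (k ^ n)⁻¹ := by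
    intro z hz n
    rw [← conj_pow, hz, inv_pow]
  rw [conjinv z₁ (k ^ (j + 1)) (pinv z₁ (inv_k z₁ hz₁ hz₁1 hz₁y) (j + 1)) (sqA z₁ hz₁), hsqrt] at hz₁l
  have hoddpow : ∀ q : G, Odd (orderOf q) → q * q = 1 → q = 1 := by
    intro q ⟨i, hi⟩ hq
    have := pow_orderOf_eq_one q
    rwa [hi, pow_succ, pow_mul, pow_two, hq, one_pow, one_mul] at this
  have hyl_ne : ¬ Commute y l := by
    intro hc
    refine hl1 (hoddpow l hlo ?_)
    rw [hc.eq, mul_inv_cancel_right] at hyl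
    exact eq_inv_iff_mul_eq_one.1 hyl
  have hkl : Commute k l := by
    have hprod : Commute (z₀ * (z₁ * k)) l := hz₀l.mul_left hz₁l
    rcases four (z₀ * z₁) (mul_mem hz₀ hz₁) with e | e | e | e
    · rwa [← mul_assoc, e, one_mul] at hprod
    · exfalso
      rcases four z₀ hz₀ with rfl | rfl | rfl | rfl
      · exact hz₀1 rfl
      · exact hz₁1 (mul_eq_left.1 e)
      · exact hz₀y rfl
      · rw [mul_assoc, mul_eq_left] at e
        apply hz₁y
        rw [← invA z₁ hz₁]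
        exact (eq_inv_of_mul_eq_one_left e).symm
    · exfalso
      apply hyl_ne
      rw [← mul_assoc, e] at hprod
      have h2 := hprod.pow_left (orderOf k)
      rwa [hyk.mul_pow, pow_orderOf_eq_one, mul_one, hj, pow_succ, pow_mul, pow_two, sqA y hy, one_pow,
        one_mul] at h2
    · exfalso
      rcases four z₁ hz₁ with rfl | rfl | rfl | rfl
      · exact hz₁1 rfl
      · rw [comA z₁ hz₁ y hy] at e
        exact hz₀y (mul_right_cancel e)
      · exact hz₁y rfl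
      · exact hz₀1 (mul_eq_right.1 e)
  obtain ⟨i, hi⟩ := hlo
  have hzk := inv_k z₀ hz₀ hz₀1 hz₀y
  obtain ⟨r, hr⟩ : ∃ r, r = z₀ * y := ⟨_, rfl⟩
  have hrA : r ∈ A := hr ▸ mul_mem hz₀ hy
  have hr1 : r ≠ 1 := by
    intro e; apply hz₀y; rw [← invA y hy]
    exact eq_inv_of_mul_eq_one_left (hr ▸ e)
  have hrk : r * k * r⁻¹ = k⁻¹ := by
    rw [hr]
    calc z₀ * y * k * (z₀ * y)⁻¹ = z₀ * (y * k * y⁻¹) * z₀⁻¹ := by group
      _ = k⁻¹ := by rw [show y * k * y⁻¹ = k by rw [hyk.eq, mul_inv_cancel_right], hzk]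
  have hrl : r * l * r⁻¹ = l⁻¹ := by
    rw [hr]
    calc z₀ * y * l * (z₀ * y)⁻¹ = z₀ * (y * l * y⁻¹) * z₀⁻¹ := by group
      _ = l⁻¹ := by rw [hyl, show z₀ * l⁻¹ * z₀⁻¹ = l⁻¹ by rw [hz₀l.inv_right.eq, mul_inv_cancel_right]]
  obtain ⟨q, hq⟩ : ∃ q, q = k ^ (j + 1) * l ^ (i + 1) := ⟨_, rfl⟩
  have hqq : q * q = k * l := by
    rw [hq]
    have hls : l ^ (i + 1) * l ^ (i + 1) = l := by
      rw [← pow_add, show i + 1 + (i + 1) = orderOf l + 1 by omega, pow_succ, pow_orderOf_eq_one, one_mul]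
    calc k ^ (j + 1) * l ^ (i + 1) * (k ^ (j + 1) * l ^ (i + 1))
        = k ^ (j + 1) * (l ^ (i + 1) * k ^ (j + 1)) * l ^ (i + 1) := by group
      _ = (k ^ (j + 1) * k ^ (j + 1)) * (l ^ (i + 1) * l ^ (i + 1)) := by
          rw [← (hkl.pow_pow (j + 1) (i + 1)).eq]; group
      _ = k * l := by rw [hsqrt, hls]
  have hrq : r * q * r⁻¹ = q⁻¹ := by
    rw [hq, ← conj_mul, ← conj_pow, hrk, ← conj_pow, hrl, inv_pow, inv_pow,
      ← (hkl.pow_pow (j + 1) (i + 1)).inv_inv.eq |>.symm, mul_inv_rev]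
  obtain ⟨x, hx, hx1⟩ := (Subgroup.bot_or_exists_ne_one _).resolve_left (h r hrA hr1 q⁻¹)
  obtain ⟨hxA, hxc⟩ := Subgroup.mem_inf.1 hx
  rw [Subgroup.mem_centralizer_singleton_iff, inv_inv, conjinv r q hrq (sqA r hrA), hqq] at hxc
  have hxkl : x * (k * l) * x⁻¹ = k * l := by
    have : x * (r * (k * l)) * x⁻¹ = r * (k * l) := by rw [hxc, mul_inv_cancel_right]
    calc x * (k * l) * x⁻¹ = (x * r⁻¹ * x⁻¹) * (x * (r * (k * l)) * x⁻¹) := by group
      _ = r⁻¹ * (r * (k * l)) := by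
          rw [this, invA r hrA, comA x hxA r hrA, mul_inv_cancel_right]
      _ = k * l := inv_mul_cancel_left _ _
  rw [← conj_mul] at hxkl
  have hdisj : ∀ z, z = y ∨ z = z₀ → x = z → False := by
    rintro z (rfl | rfl) rfl
    · rw [hyk.eq, mul_inv_cancel_right, hyl, mul_left_cancel_iff] at hxkl
      exact hl1 (hoddpow l ⟨i, hi⟩ (inv_eq_iff_mul_eq_one.1 hxkl))
    · rw [hzk, hz₀l.eq, mul_inv_cancel_right, mul_right_cancel_iff] at hxkl
      exact hk1 (hoddpow k ⟨j, hj⟩ (inv_eq_iff_mul_eq_one.1 hxkl))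
  rcases four_cases hA hz₀ hy hz₀1 hy1 (Ne.symm hz₀y) hxA with e | e | e | e
  · exact hx1 e
  · exact hdisj z₀ (Or.inr rfl) e
  · exact hdisj y (Or.inl rfl) e
  · rw [e, ← hr, hrk, hrl] at hxkl
    have hsq : (k * l) * (k * l) = 1 := by
      have h2 : (k * l)⁻¹ = k * l := by rw [mul_inv_rev, ← hkl.inv_inv.eq]; exact hxkl
      exact inv_eq_iff_mul_eq_one.1 h2
    have hklo : Odd (orderOf (k * l)) := by
      refine Odd.of_dvd_nat ?_ hkl.orderOf_mul_dvd_mul_orderOf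
      exact Odd.mul ⟨j, hj⟩ ⟨i, hi⟩
    have hkl1 := hoddpow _ hklo hsq
    apply hyl_ne
    rw [eq_inv_of_mul_eq_one_right hkl1]
    exact hyk.inv_right

end Cfsg.Agent.S3195
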