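import Cfsg.Statements.S3196
-- import your own Cfsg.Agent.* helpers here

set_option autoImplicit false
open Cfsg

namespace Cfsg.Agent.S3196

/-- Let p be a prime and K a set of subgroups of order p of a finite group G, closed under conjugation, such that at least two distinct members of K commute elementwise, and whenever two distinct members X, Y of K commute: every subgroup of order p of the group XY they generate belongs to K, and every member W of K has centralizer meeting XY nontrivially. Then some member V of K commutes elementwise with every member of K and lies in O_p(G); in particular G is not simple. -/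
theorem result {G : Type*} [Group G] [Finite G]
    {p : ℕ} (hp : p.Prime) (K : Set (Subgroup G)) (hK : ∀ X ∈ K, Nat.card ↥X = p)
    (hKc : ∀ X ∈ K, ∀ g : G, X.map (MulAut.conj g).toMonoidHom ∈ K)
    (hex : ∃ X ∈ K, ∃ Y ∈ K, X ≠ Y ∧ ∀ x ∈ X, ∀ y ∈ Y, x * y = y * x)
    (ha : ∀ X ∈ K, ∀ Y ∈ K, X ≠ Y → (∀ x ∈ X, ∀ y ∈ Y, x * y = y * x) →
      ∀ Z : Subgroup G, Z ≤ X ⊔ Y → Nat.card ↥Z = p → Z ∈ K)
    (hb : ∀ X ∈ K, ∀ Y ∈ K, X ≠ Y → (∀ x ∈ X, ∀ y ∈ Y, x * y = y * x) →
      ∀ W ∈ K, (X ⊔ Y) ⊓ Subgroup.centralizer (W : Set G) ≠ ⊥) :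
    (∃ V ∈ K, (∀ W ∈ K, ∀ v ∈ V, ∀ w ∈ W, v * w = w * v) ∧ V ≤ Cfsg.pCore p G) ∧ ¬ IsSimpleGroup G := by
  haveI : Fact p.Prime := ⟨hp⟩
  have hord : ∀ X ∈ K, ∀ x ∈ X, x ≠ 1 → Subgroup.zpowers x = X := by
    intro X hX x hx hx1
    refine Subgroup.eq_of_le_of_card_ge (Subgroup.zpowers_le.2 hx) ?_
    rw [hK X hX, Nat.card_zpowers]
    have h1 : orderOf x ∣ p := hK X hX ▸ Subgroup.orderOf_dvd_natCard X hx
    rcases hp.eq_one_or_self_of_dvd _ h1 with h | h
    · exact absurd (orderOf_eq_one_iff.1 h) hx1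
    · exact h.ge
  have hgen : ∀ X ∈ K, ∃ x ∈ X, x ≠ 1 ∧ orderOf x = p := by
    intro X hX
    have : X ≠ ⊥ := by
      intro h; have := hK X hX; rw [h, Subgroup.card_bot] at this; exact hp.one_lt.ne this
    obtain ⟨x, hx, hx1⟩ := X.bot_or_exists_ne_one.resolve_left this
    refine ⟨x, hx, hx1, ?_⟩
    rw [← Nat.card_zpowers, hord X hX x hx hx1, hK X hX]
  have hle : ∀ X ∈ K, ∀ Y : Subgroup G, ∀ x ∈ X, x ≠ 1 → x ∈ Y → X ≤ Y := fun X hX Y x hx hx1 hY =>
    hord X hX x hx hx1 ▸ Subgroup.zpowers_le.2 hY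
  let R : Subgroup G → Subgroup G → Prop := fun X Y => ∀ x ∈ X, ∀ y ∈ Y, x * y = y * x
  have Rsymm : ∀ X Y, R X Y → R Y X := fun X Y h y hy x hx => (h x hx y hy).symm
  have Rrefl : ∀ X ∈ K, R X X := fun X hX x hx y hy => by
    obtain ⟨g, hg, hg1, -⟩ := hgen X hX
    rw [← hord X hX g hg hg1] at hx hy
    obtain ⟨i, rfl⟩ := hx; obtain ⟨j, rfl⟩ := hy
    exact (Commute.zpow_zpow_self g i j).eq
  have Rsup : ∀ X Y W Z : Subgroup G, R X W → R Y W → Z ≤ X ⊔ Y → R Z W := by
    intro X Y W Z h1 h2 hZ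
    have : X ⊔ Y ≤ Subgroup.centralizer (W : Set G) :=
      sup_le (fun x hx w hw => (h1 x hx w hw).symm) (fun y hy w hw => (h2 y hy w hw).symm)
    exact fun z hz w hw => (this (hZ hz) w hw).symm
  have Relt : ∀ X ∈ K, ∀ W ∈ K, ∀ x ∈ X, x ≠ 1 → ∀ w ∈ W, w ≠ 1 → x * w = w * x → R X W := by
    intro X hX W hW x hx hx1 w hw hw1 h a ha b hb
    rw [← hord X hX x hx hx1] at ha
    rw [← hord W hW w hw hw1] at hb
    obtain ⟨i, rfl⟩ := ha; obtain ⟨j, rfl⟩ := hb
    exact (show Commute x w from h).zpow_zpow i j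
  have line : ∀ X ∈ K, ∀ Y ∈ K, X ≠ Y → R X Y → ∀ W ∈ K,
      ∃ Z ∈ K, Z ≤ X ⊔ Y ∧ R Z W := by
    intro X hX Y hY hne hR W hW
    obtain ⟨z, hz, hz1⟩ := (Subgroup.bot_or_exists_ne_one _).resolve_left (hb X hX Y hY hne hR W hW)
    obtain ⟨hzL, hzW⟩ := Subgroup.mem_inf.1 hz
    have hzp : z ^ p = 1 := by
      have hN : X ≤ Subgroup.normalizer (Y : Set G) := fun x hx =>
        Subgroup.centralizer_le_normalizer _ fun y hy => (hR x hx y hy).symm
      have hzL' : z ∈ ((X ⊔ Y : Subgroup G) : Set G) := hzL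
      rw [Subgroup.coe_mul_of_left_le_normalizer_right X Y hN] at hzL'
      obtain ⟨a, ha', b, hb', rfl⟩ := hzL'
      have e1 : a ^ p = 1 := by
        have := congrArg Subtype.val (pow_card_eq_one' (x := (⟨a, ha'⟩ : ↥X)))
        rw [hK X hX] at this; simpa using this
      have e2 : b ^ p = 1 := by
        have := congrArg Subtype.val (pow_card_eq_one' (x := (⟨b, hb'⟩ : ↥Y)))
        rw [hK Y hY] at this; simpa using this
      show (a * b) ^ p = 1
      rw [(show Commute a b from hR a ha' b hb').mul_pow, e1, e2, one_mul]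
    have hZc : Nat.card ↥(Subgroup.zpowers z) = p := by
      rw [Nat.card_zpowers]; exact orderOf_eq_prime hzp hz1
    have hZK := ha X hX Y hY hne hR _ (Subgroup.zpowers_le.2 hzL) hZc
    refine ⟨_, hZK, Subgroup.zpowers_le.2 hzL, ?_⟩
    obtain ⟨w, hw, hw1, -⟩ := hgen W hW
    exact Relt _ hZK W hW z (Subgroup.mem_zpowers z) hz1 w hw hw1 (hzW w hw).symm
  have exch : ∀ X ∈ K, ∀ W ∈ K, ∀ S ∈ K, R X W → S ≤ X ⊔ W → S ≠ X → W ≤ X ⊔ S := by
    intro X hX W hW S hS hR hle' hne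
    obtain ⟨s, hs, hs1, -⟩ := hgen S hS
    have hN : X ≤ Subgroup.normalizer (W : Set G) := fun x hx =>
      Subgroup.centralizer_le_normalizer _ fun y hy => (hR x hx y hy).symm
    have hs' : s ∈ ((X ⊔ W : Subgroup G) : Set G) := hle' hs
    rw [Subgroup.coe_mul_of_left_le_normalizer_right X W hN] at hs'
    obtain ⟨a, ha', b, hb', hab⟩ := hs'
    have hb1 : b ≠ 1 := by
      rintro rfl
      apply hne
      have hsX : s ∈ X := by
        rw [← hab]
        simpa using ha'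
      rw [← hord S hS s hs hs1, hord X hX s hsX hs1]
    refine hle W hW _ b hb' hb1 ?_
    have : b = a⁻¹ * s := by rw [← hab]; exact (inv_mul_cancel_left a b).symm
    rw [this]
    exact mul_mem (inv_mem (Subgroup.mem_sup_left ha')) (Subgroup.mem_sup_right hs)
  have nested : ∀ u ∈ K, ∀ r ∈ K, (∀ M ∈ K, R M u → R M r) →
      ∀ x ∈ K, R x r → ¬ R x u → ∀ W ∈ K, R r W := by
    intro u hu r hr hsub x hx hxr hxu W hW
    by_contra hrW
    have hrx : r ≠ x := by
      rintro rfl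
      obtain ⟨Z, hZ, hZle, hZu⟩ : ∃ Z ∈ K, Z = u ∧ R Z u := ⟨u, hu, rfl, Rrefl u hu⟩
      subst hZle
      exact hxu (Rsymm _ _ (hsub Z hZ hZu))
    obtain ⟨S, hS, hSle, hSW⟩ := line r hr x hx hrx (Rsymm _ _ hxr) W hW
    have hSr : R S r := Rsup r x r S (Rrefl r hr) hxr hSle
    have hSne : S ≠ r := by rintro rfl; exact hrW hSW
    have hSu : ¬ R S u := fun h => by
      refine hxu (Rsup r S u x ?_ h (exch r hr x hx S hS (Rsymm _ _ hxr) hSle hSne))
      exact Rsymm _ _ (hsub u hu (Rrefl u hu))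
    have hSneW : S ≠ W := by rintro rfl; exact hrW (Rsymm _ _ hSr)
    obtain ⟨T, hT, hTle, hTu⟩ := line S hS W hW hSneW hSW u hu
    have hTne : T ≠ S := by rintro rfl; exact hSu hTu
    exact hrW (Rsymm _ _ (Rsup S T r W hSr (hsub T hT hTu) (exch S hS W hW T hT hSW hTle hTne)))
  obtain ⟨V, hV, hVu⟩ : ∃ V ∈ K, ∀ W ∈ K, R V W := by
    by_contra hno
    have notnested : ∀ u ∈ K, ∀ r ∈ K, (∀ M ∈ K, R M u → R M r) →
        ∀ M ∈ K, R M r → R M u := fun u hu r hr hsub M hM hMr => by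
      by_contra hMu
      exact hno ⟨r, hr, nested u hu r hr hsub M hM hMr hMu⟩
    obtain ⟨X, hX, Y₀, hY₀, hne, hR⟩ := hex
    obtain ⟨U, hU, hXU⟩ : ∃ U ∈ K, ¬ R X U := by
      by_contra h; push Not at h; exact hno ⟨X, hX, h⟩
    obtain ⟨Y, hY, hYle, hYU⟩ := line X hX Y₀ hY₀ hne hR U hU
    have hXY : R X Y := Rsymm _ _ (Rsup X Y₀ X Y (Rrefl X hX) (Rsymm _ _ hR) hYle)
    have hYX : Y ≠ X := by rintro rfl; exact hXU hYU
    obtain ⟨x, hx, hx1, hxp⟩ := hgen X hX
    obtain ⟨y, hy, hy1, hyp⟩ := hgen Y hY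
    obtain ⟨u, hu, hu1, hup⟩ := hgen U hU
    obtain ⟨z, hzdef⟩ : ∃ z, z = x⁻¹ * y := ⟨_, rfl⟩
    have hz1 : z ≠ 1 := by
      intro h
      rw [hzdef, inv_mul_eq_one] at h
      subst h
      exact hYX (by rw [← hord Y hY x hy hy1, hord X hX x hx hx1])
    have hzL : z ∈ X ⊔ Y := hzdef ▸
      mul_mem (inv_mem (Subgroup.mem_sup_left hx)) (Subgroup.mem_sup_right hy)
    have hzp : Nat.card ↥(Subgroup.zpowers z) = p := by
      rw [Nat.card_zpowers]
      refine orderOf_eq_prime ?_ hz1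
      rw [hzdef, (show Commute x⁻¹ y from (show Commute x y from hXY x hx y hy).inv_left).mul_pow,
        inv_pow, ← hxp, pow_orderOf_eq_one, hxp, ← hyp, pow_orderOf_eq_one, inv_one, one_mul]
    obtain ⟨Z, hZdef⟩ : ∃ Z, Z = Subgroup.zpowers z := ⟨_, rfl⟩
    have hzZ : z ∈ Z := hZdef ▸ Subgroup.mem_zpowers z
    have hZ : Z ∈ K := hZdef ▸ ha X hX Y hY hYX.symm hXY _ (Subgroup.zpowers_le.2 hzL) hzp
    have hyxz : y = x * z := by rw [hzdef]; group
    have hxzc : x * z = z * x :=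
      Rsup X Y X Z (Rrefl X hX) (Rsymm _ _ hXY) (hZdef ▸ Subgroup.zpowers_le.2 hzL) z hzZ x hx |>.symm
    have hswap : z * u * z⁻¹ = x⁻¹ * u * x := by
      have h1 : x * z * u = u * (x * z) := hyxz ▸ hYU y hy u hu
      calc z * u * z⁻¹ = x⁻¹ * (x * z * u) * z⁻¹ := by group
        _ = x⁻¹ * (u * (x * z)) * z⁻¹ := by rw [h1]
        _ = x⁻¹ * u * x := by group
    obtain ⟨U', hU'def⟩ : ∃ U', U' = U.map (MulAut.conj x⁻¹).toMonoidHom := ⟨_, rfl⟩
    have hU' : U' ∈ K := hU'def ▸ hKc U hU x⁻¹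
    obtain ⟨u', hu'def⟩ : ∃ u', u' = x⁻¹ * u * x := ⟨_, rfl⟩
    have hu' : u' ∈ U' := hU'def ▸ ⟨u, hu, by simp [hu'def, MulAut.conj_apply]⟩
    have hu'1 : u' ≠ 1 := by
      rw [hu'def]; intro h; apply hu1
      calc u = x * (x⁻¹ * u * x) * x⁻¹ := by group
        _ = 1 := by rw [h]; group
    have hUU' : U' ≠ U := by
      intro h
      have hmem : x⁻¹ * u * x ∈ Subgroup.zpowers u := by
        rw [hord U hU u hu hu1, ← hu'def, ← h]; exact hu'
      obtain ⟨k, hk⟩ := hmem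
      simp only at hk
      have hit : ∀ n : ℕ, x⁻¹ ^ n * u * (x⁻¹ ^ n)⁻¹ = u ^ (k ^ n) := by
        intro n
        induction n with
        | zero => simp
        | succ n ihn =>
          calc x⁻¹ ^ (n + 1) * u * (x⁻¹ ^ (n + 1))⁻¹
              = x⁻¹ * (x⁻¹ ^ n * u * (x⁻¹ ^ n)⁻¹) * (x⁻¹)⁻¹ := by
                rw [pow_succ' x⁻¹ n]; simp only [mul_inv_rev, mul_assoc]
            _ = x⁻¹ * u ^ (k ^ n) * (x⁻¹)⁻¹ := by rw [ihn]
            _ = (x⁻¹ * u * (x⁻¹)⁻¹) ^ (k ^ n) := conj_zpow.symm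
            _ = u ^ (k ^ (n + 1)) := by
                rw [inv_inv, ← hk, ← zpow_mul]; congr 1; ring
      have h1 := hit p
      rw [show x⁻¹ ^ p = 1 by rw [inv_pow, ← hxp, pow_orderOf_eq_one, inv_one]] at h1
      simp only [one_mul, inv_one, mul_one] at h1
      have h2 : ((1 : ℤ) : ZMod p) = ((k ^ p : ℤ) : ZMod p) := by
        rw [ZMod.intCast_eq_intCast_iff]
        have h5 := zpow_eq_zpow_iff_modEq.1 (show u ^ (1 : ℤ) = u ^ (k ^ p) by rw [zpow_one]; exact h1)
        rwa [hup] at h5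
      push_cast at h2
      rw [ZMod.pow_card] at h2
      have h3 : u ^ k = u ^ (1 : ℤ) := by
        rw [zpow_eq_zpow_iff_modEq, hup, ← ZMod.intCast_eq_intCast_iff]
        push_cast; exact h2.symm
      rw [zpow_one] at h3
      apply hXU
      refine Relt X hX U hU x hx hx1 u hu hu1 ?_
      have h4 : x⁻¹ * u * x = u := by rw [← hk, h3]
      calc x * u = x * (x⁻¹ * u * x) := by rw [h4]
        _ = u * x := by group
    have common : ∀ M ∈ K, R M U → (R M X ∨ R M Z) → R M U' := by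
      intro M hM hMU hor
      obtain ⟨m, hm, hm1, -⟩ := hgen M hM
      refine Relt M hM U' hU' m hm hm1 u' hu' hu'1 ?_
      have c1 : Commute m u := hMU m hm u hu
      rcases hor with h | h
      · rw [hu'def]
        have c2 : Commute m x := h m hm x hx
        exact ((c2.inv_right.mul_right c1).mul_right c2).eq
      · rw [hu'def, ← hswap]
        have c2 : Commute m z := h m hm z hzZ
        exact ((c2.mul_right c1).mul_right c2.inv_right).eq
    by_cases hUU'R : R U U'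
    · have sub : ∀ M ∈ K, R M U → R M U' := by
        intro M hM hMU
        by_cases hMe : M = U
        · subst hMe; exact hUU'R
        obtain ⟨S, hS, hSle, hSX⟩ := line U hU M hM (Ne.symm hMe) (Rsymm _ _ hMU) X hX
        have hSU : R S U := Rsup U M U S (Rrefl U hU) hMU hSle
        have hSne : S ≠ U := by rintro rfl; exact hXU (Rsymm _ _ hSX)
        exact Rsup U S U' M hUU'R (common S hS hSU (Or.inl hSX))
          (exch U hU M hM S hS (Rsymm _ _ hMU) hSle hSne)
      obtain ⟨S, hS, hSle, hSX⟩ := line U hU U' hU' hUU'.symm hUU'R X hX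
      have hsubS : ∀ M ∈ K, R M U → R M S := fun M hM hMU =>
        Rsymm _ _ (Rsup U U' M S (Rsymm _ _ hMU) (Rsymm _ _ (sub M hM hMU)) hSle)
      exact hXU (notnested U hU S hS hsubS X hX (Rsymm _ _ hSX))
    · have sub : ∀ M ∈ K, R M U → R M Y := by
        intro M hM hMU
        by_cases hMe : M = U
        · subst hMe; exact Rsymm _ _ hYU
        obtain ⟨S, hS, hSle, hSX⟩ := line U hU M hM (Ne.symm hMe) (Rsymm _ _ hMU) X hX
        obtain ⟨S', hS', hS'le, hSZ⟩ := line U hU M hM (Ne.symm hMe) (Rsymm _ _ hMU) Z hZ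
        have hSU : R S U := Rsup U M U S (Rrefl U hU) hMU hSle
        have hS'U : R S' U := Rsup U M U S' (Rrefl U hU) hMU hS'le
        have hSne : S ≠ U := by rintro rfl; exact hXU (Rsymm _ _ hSX)
        have hMle := exch U hU M hM S hS (Rsymm _ _ hMU) hSle hSne
        by_cases hSS : S = S'
        · subst hSS
          refine Rsup U S Y M (Rsymm _ _ hYU) ?_ hMle
          obtain ⟨s, hs, hs1, -⟩ := hgen S hS
          refine Relt S hS Y hY s hs hs1 y hy hy1 ?_
          rw [hyxz]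
          exact ((show Commute s x from hSX s hs x hx).mul_right
            (show Commute s z from hSZ s hs z hzZ)).eq
        · exfalso
          apply hUU'R
          have hUle : U ≤ S ⊔ S' := by
            by_cases hS'ne : S' = U
            · rw [hS'ne]; exact le_sup_right
            · obtain ⟨a, ha'⟩ : ∃ T, T = U := ⟨U, rfl⟩
              have h1 : S' ≤ S ⊔ U := by
                refine hS'le.trans (sup_le le_sup_right (hMle.trans ?_))
                rw [sup_comm]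
              exact exch S hS U hU S' hS' hSU h1 (Ne.symm hSS)
          exact Rsup S S' U' U (common S hS hSU (Or.inl hSX))
            (common S' hS' hS'U (Or.inr hSZ)) hUle
      exact hXU (notnested U hU Y hY sub X hX hXY)
  set N : Subgroup G := Subgroup.normalClosure (V : Set G) with hN
  have hmem : ∀ a ∈ Group.conjugatesOfSet (V : Set G), ∃ W ∈ K, a ∈ W ∧ (∀ W' ∈ K, R W W') := by
    intro a ha'
    obtain ⟨v, hv, hconj⟩ := Group.mem_conjugatesOfSet_iff.1 ha'
    obtain ⟨g, rfl⟩ := isConj_iff.1 hconj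
    refine ⟨V.map (MulAut.conj g).toMonoidHom, hKc V hV g, ⟨v, hv, rfl⟩, ?_⟩
    rintro W' hW' _ ⟨c, hc, rfl⟩ w hw
    have := hVu _ (hKc W' hW' g⁻¹) c hc (g⁻¹ * w * g) ⟨w, hw, by simp⟩
    show g * c * g⁻¹ * w = w * (g * c * g⁻¹)
    calc g * c * g⁻¹ * w = g * (c * (g⁻¹ * w * g)) * g⁻¹ := by group
      _ = g * ((g⁻¹ * w * g) * c) * g⁻¹ := by rw [this]
      _ = w * (g * c * g⁻¹) := by group
  have hcomm : ∀ a ∈ N, ∀ b ∈ N, a * b = b * a := by
    have h1 : N ≤ Subgroup.centralizer (Group.conjugatesOfSet (V : Set G)) := by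
      refine (Subgroup.closure_le _).2 fun a ha' b hb' => ?_
      obtain ⟨W, hW, haW, hWu⟩ := hmem a ha'
      obtain ⟨W', hW', hbW, -⟩ := hmem b hb'
      exact (hWu W' hW' a haW b hbW).symm
    intro a ha' b hb'
    have h2 : N ≤ Subgroup.centralizer ({b} : Set G) := by
      refine (Subgroup.closure_le _).2 fun c hc => ?_
      exact Subgroup.mem_centralizer_singleton_iff.2 (h1 hb' c hc)
    exact Subgroup.mem_centralizer_singleton_iff.1 (h2 ha')
  have hexp : ∀ a ∈ N, a ^ p = 1 := by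
    intro a ha'
    induction ha' using Subgroup.closure_induction with
    | mem a h =>
      obtain ⟨W, hW, haW, -⟩ := hmem a h
      have := congrArg Subtype.val (pow_card_eq_one' (x := (⟨a, haW⟩ : ↥W)))
      rw [hK W hW] at this; simpa using this
    | one => exact one_pow p
    | mul a b ha2 hb2 iha ihb =>
      rw [(show Commute a b from hcomm a ha2 b hb2).mul_pow, iha, ihb, one_mul]
    | inv a _ iha => rw [inv_pow, iha, inv_one]
  have hNp : IsPGroup p ↥N := fun a => ⟨1, Subtype.ext (by simpa using hexp a a.2)⟩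
  have hNn : N.Normal := Subgroup.normalClosure_normal
  have hVN : V ≤ N := Subgroup.le_normalClosure
  refine ⟨⟨V, hV, hVu, hVN.trans (le_sSup ⟨hNn, hNp⟩)⟩, fun hs => ?_⟩
  obtain ⟨v, hv, hv1, -⟩ := hgen V hV
  have htop : N = ⊤ := (hNn.eq_bot_or_eq_top).resolve_left fun h => by
    rw [h] at hVN
    exact hv1 (hVN hv)
  obtain ⟨X, hX, Y, hY, hne, -⟩ := hex
  have all : ∀ X ∈ K, X = ⊤ := by
    intro X hX
    have hn : X.Normal := ⟨fun a ha' g => by
      rw [hcomm g (htop ▸ trivial) a (htop ▸ trivial), mul_inv_cancel_right]; exact ha'⟩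
    obtain ⟨x, hx, hx1, -⟩ := hgen X hX
    exact hn.eq_bot_or_eq_top.resolve_left fun h => hx1 (by rw [h] at hx; exact hx)
  exact hne ((all X hX).trans (all Y hY).symm)

end Cfsg.Agent.S3196
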