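import Cfsg.Statements.S3200
import Cfsg.Agent.Eq.Def_CaseTheorems
import Cfsg.Agent.Solvable.Hall
import Cfsg.Agent.Chars.Apps.Burnside
import Mathlib

set_option autoImplicit false
open Cfsg

namespace Cfsg.Agent.S3200


universe v

theorem map_abelian_two_complement {H : Type*} [Group H] [Finite H] (N : Subgroup H) [N.Normal] (C : Subgroup H)
    (hC : IsMulCommutative ↥C) (hCo : Odd (Nat.card ↥C)) {k : ℕ} (hCi : C.index = 2 ^ k) :
    IsMulCommutative ↥(C.map (QuotientGroup.mk' N)) ∧ Odd (Nat.card ↥(C.map (QuotientGroup.mk' N))) ∧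
      (C.map (QuotientGroup.mk' N)).index ∣ 2 ^ k := by
  refine ⟨⟨⟨?_⟩⟩, hCo.of_dvd_nat (C.card_map_dvd _), hCi ▸ Subgroup.index_map_dvd C (QuotientGroup.mk'_surjective N)⟩
  rintro ⟨_, x, hx, rfl⟩ ⟨_, y, hy, rfl⟩
  refine Subtype.ext ?_
  show QuotientGroup.mk' N x * QuotientGroup.mk' N y = _ * _
  rw [← map_mul, ← map_mul]
  exact congrArg (fun q : ↥C => QuotientGroup.mk' N (q : H)) (hC.is_comm.comm ⟨x, hx⟩ ⟨y, hy⟩)

theorem exists_sylow_complement {L : Type*} [Group L] [Finite L] (D : Subgroup L) (hD : IsMulCommutative ↥D)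
    (hDo : ¬ 2 ∣ Nat.card ↥D) (hDi : ∀ p : ℕ, p.Prime → p ∣ D.index → p = 2) :
    ∃ (P : Sylow 2 L) (E : Subgroup L), IsMulCommutative ↥E ∧ Subgroup.IsComplement' (P : Subgroup L) E := by
  haveI : Fact (Nat.Prime 2) := ⟨Nat.prime_two⟩
  let P : Sylow 2 L := default
  refine ⟨P, D, hD, ?_⟩
  have hDi0 : D.index ≠ 0 := Subgroup.index_ne_zero_of_finite
  have hi := Nat.eq_prime_pow_of_unique_prime_dvd hDi0 (fun {d} hd hdd => hDi d hd hdd)
  have hP : Nat.card ↥(P : Subgroup L) = D.index := by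
    rw [P.card_eq_multiplicity, ← D.card_mul_index, Nat.factorization_mul Nat.card_pos.ne' hDi0,
      Finsupp.add_apply, Nat.factorization_eq_zero_of_not_dvd hDo, zero_add]
    conv_lhs => rw [hi, Nat.Prime.factorization_pow Nat.prime_two, Finsupp.single_eq_same]
    exact hi.symm
  refine Subgroup.isComplement'_of_coprime (by rw [hP, mul_comm, D.card_mul_index]) ?_
  rw [hP, hi]
  exact (Nat.prime_two.coprime_iff_not_dvd.2 hDo).pow_left _

theorem isSolvable_of_abelian_two_complement : ∀ n : ℕ, ∀ (H : Type v) [Group H] [Finite H], Nat.card H = n →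
    ∀ C : Subgroup H, IsMulCommutative ↥C → Odd (Nat.card ↥C) → ∀ k : ℕ, C.index = 2 ^ k →
    Group.IsSolvable H := by
  intro n
  induction n using Nat.strong_induction_on with
  | _ n ih =>
    intro H _ _ hn C hC hCo k hk
    haveI : Fact (Nat.Prime 2) := ⟨Nat.prime_two⟩
    by_cases hCb : C = ⊥
    · subst hCb
      rw [Subgroup.index_bot] at hk
      have hp : IsPGroup 2 H := IsPGroup.of_card hk
      haveI := hp.isNilpotent
      infer_instance
    obtain ⟨c, hcC, hc1⟩ := C.bot_or_exists_ne_one.resolve_left hCb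
    have hsub : C ≤ Subgroup.centralizer ({c} : Set H) := fun x hx =>
      Subgroup.mem_centralizer_singleton_iff.2 (congrArg Subtype.val (hC.is_comm.comm ⟨x, hx⟩ ⟨c, hcC⟩))
    obtain ⟨j, -, hj⟩ := (Nat.dvd_prime_pow Nat.prime_two).1 (hk ▸ Subgroup.index_dvd_of_le hsub)
    obtain ⟨N, hN, hNtop, hcN⟩ :=
      CfsgLib.Chars.Apps.exists_normal_ne_top_of_centralizer_index_prime_pow Nat.prime_two c hc1 hj
    have reduce : ∀ M : Subgroup H, M.Normal → M ≠ ⊥ → M ≠ ⊤ → Group.IsSolvable H := by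
      intro M hM hMb hMt
      haveI := hM
      obtain ⟨h1, h2, h3⟩ := map_abelian_two_complement M C hC hCo hk
      obtain ⟨i, -, hi⟩ := (Nat.dvd_prime_pow Nat.prime_two).1 h3
      have hltQ : Nat.card (H ⧸ M) < n := by
        rw [← hn, Subgroup.card_eq_card_quotient_mul_card_subgroup M]
        exact lt_mul_of_one_lt_right Nat.card_pos (M.one_lt_card_iff_ne_bot.2 hMb)
      haveI : Group.IsSolvable (H ⧸ M) := ih _ hltQ (H ⧸ M) rfl _ h1 h2 i hi
      have hltM : Nat.card ↥M < n := by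
        rw [← hn]
        refine lt_of_le_of_ne M.card_le_card_group fun h => hMt ?_
        exact Subgroup.eq_top_of_card_eq M h
      have hCM : Nat.card ↥C = Nat.card ↥(C.map (QuotientGroup.mk' M)) * Nat.card ↥(C.subgroupOf M) := by
        have h4 := ((QuotientGroup.mk' M).comp C.subtype).ker.index_mul_card
        rw [Subgroup.index_ker] at h4
        have e1 : ((QuotientGroup.mk' M).comp C.subtype).range = C.map (QuotientGroup.mk' M) := by
          rw [MonoidHom.range_eq_map, ← Subgroup.map_map, ← MonoidHom.range_eq_map, C.range_subtype]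
        have e2 : Nat.card ↥((QuotientGroup.mk' M).comp C.subtype).ker = Nat.card ↥(C.subgroupOf M) := by
          refine Nat.card_congr
            { toFun := fun x => ⟨⟨((x : ↥C) : H), (QuotientGroup.eq_one_iff _).1 x.2⟩, (x : ↥C).2⟩
              invFun := fun x => ⟨⟨((x : ↥M) : H), x.2⟩, (QuotientGroup.eq_one_iff _).2 (x : ↥M).2⟩
              left_inv := fun x => rfl
              right_inv := fun x => rfl }
        rw [e1, e2] at h4
        exact h4.symm
      have hdvd : (C.subgroupOf M).index ∣ 2 ^ k := by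
        refine ⟨2 ^ i, Nat.eq_of_mul_eq_mul_left (Nat.card_pos (α := ↥C)) ?_⟩
        calc Nat.card ↥C * 2 ^ k = Nat.card H := by rw [← hk, C.card_mul_index]
          _ = Nat.card (H ⧸ M) * Nat.card ↥M := Subgroup.card_eq_card_quotient_mul_card_subgroup M
          _ = (Nat.card ↥(C.map (QuotientGroup.mk' M)) * 2 ^ i) *
              (Nat.card ↥(C.subgroupOf M) * (C.subgroupOf M).index) := by
                rw [← hi, Subgroup.card_mul_index, Subgroup.card_mul_index]
          _ = Nat.card ↥C * ((C.subgroupOf M).index * 2 ^ i) := by rw [hCM]; ring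
      obtain ⟨l, -, hl⟩ := (Nat.dvd_prime_pow Nat.prime_two).1 hdvd
      haveI : Group.IsSolvable ↥M := ih _ hltM ↥M rfl _
        ⟨⟨fun x y => Subtype.ext (Subtype.ext (by
          simpa using congrArg Subtype.val (hC.is_comm.comm ⟨_, x.2⟩ ⟨_, y.2⟩)))⟩⟩
        (hCo.of_dvd_nat ⟨Nat.card ↥(C.map (QuotientGroup.mk' M)), hCM.trans (mul_comm _ _)⟩) l hl
      exact Group.isSolvable_of_ker_le_range M.subtype (QuotientGroup.mk' M)
        (by rw [QuotientGroup.ker_mk', M.range_subtype])
    by_cases hNb : N = ⊥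
    · have hcen : ∀ x : H, x * c = c * x := fun x => by
        have h := hcN x
        rw [hNb, Subgroup.mem_bot] at h
        calc x * c = x * c * (c⁻¹ * x⁻¹ * c * x) := by rw [h, mul_one]
          _ = c * x := by group
      have hZn : (Subgroup.zpowers c).Normal := by
        refine ⟨fun w hw x => ?_⟩
        obtain ⟨i, rfl⟩ := hw
        rw [((show Commute x c from hcen x).zpow_right i).eq, mul_inv_cancel_right]
        exact ⟨i, rfl⟩
      by_cases hZt : Subgroup.zpowers c = ⊤
      · refine Group.isSolvable_of_comm fun x y => ?_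
        obtain ⟨i, rfl⟩ := (hZt ▸ Subgroup.mem_top x : x ∈ Subgroup.zpowers c)
        exact ((show Commute y c from hcen y).zpow_right i).eq.symm
      exact reduce _ hZn (fun h => hc1 (by rw [← Subgroup.mem_bot, ← h]; exact Subgroup.mem_zpowers c)) hZt
    exact reduce N hN hNb hNtop

/-- Let H be a finite group in which a Sylow 2-subgroup has an abelian complement (an abelian subgroup meeting it trivially whose product with it is all of H). Then H is solvable, and every subgroup and every quotient group of H again has a Sylow 2-subgroup with an abelian complement. -/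
theorem result {H : Type*} [Group H] [Finite H]
    (S : Sylow 2 H) (C : Subgroup H) (hC : IsMulCommutative ↥C) (hSC : Subgroup.IsComplement' (S : Subgroup H) C) :
    Group.IsSolvable H ∧
    (∀ L : Subgroup H, ∃ (P : Sylow 2 ↥L) (D : Subgroup ↥L), IsMulCommutative ↥D ∧ Subgroup.IsComplement' (P : Subgroup ↥L) D) ∧
    (∀ (N : Subgroup H) [N.Normal], ∃ (P : Sylow 2 (H ⧸ N)) (D : Subgroup (H ⧸ N)),
      IsMulCommutative ↥D ∧ Subgroup.IsComplement' (P : Subgroup (H ⧸ N)) D) := by
  haveI : Fact (Nat.Prime 2) := ⟨Nat.prime_two⟩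
  have hcard : Nat.card ↥(C : Subgroup H) = (S : Subgroup H).index := hSC.symm.index_eq_card.symm
  have hCo : Odd (Nat.card ↥C) := by
    rw [hcard, ← Nat.not_even_iff_odd, even_iff_two_dvd]; exact S.not_dvd_index
  obtain ⟨k, hk⟩ := S.isPGroup'.exists_card_eq
  have hCi : C.index = 2 ^ k := hSC.index_eq_card.trans hk
  have hsolv : Group.IsSolvable H := isSolvable_of_abelian_two_complement _ H rfl C hC hCo k hCi
  refine ⟨hsolv, fun L => ?_, fun N _ => ?_⟩
  · obtain ⟨D, hD, hD'⟩ := CfsgLib.Solvable.exists_piHall (G := ↥L) {p : ℕ | p ≠ 2}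
    have hC1 : ∀ p : ℕ, p.Prime → p ∣ Nat.card ↥C → p ∈ {p : ℕ | p ≠ 2} := fun p _ hpd h2 => by
      subst h2; exact (Nat.not_even_iff_odd.2 hCo) (even_iff_two_dvd.2 hpd)
    have hC2 : ∀ p : ℕ, p.Prime → p ∈ {p : ℕ | p ≠ 2} → ¬ p ∣ C.index := fun p hp hne hd => by
      rw [hCi] at hd
      exact hne ((Nat.prime_dvd_prime_iff_eq hp Nat.prime_two).1 (hp.dvd_of_dvd_pow hd))
    obtain ⟨g, hg⟩ := CfsgLib.Solvable.exists_le_conj_piHall {p : ℕ | p ≠ 2} C (D.map L.subtype) hC1 hC2
      (fun p hp hpd => hD p hp (by rwa [Subgroup.card_subtype] at hpd))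
    refine exists_sylow_complement D ?_ (fun h2 => hD 2 Nat.prime_two h2 rfl) ?_
    · refine ⟨⟨fun x y => Subtype.ext (Subtype.ext ?_)⟩⟩
      have hx := (CfsgLib.Solvable.mem_conj_smul_iff _ _ _).1 (hg ⟨x, x.2, rfl⟩)
      have hy := (CfsgLib.Solvable.mem_conj_smul_iff _ _ _).1 (hg ⟨y, y.2, rfl⟩)
      have hxy := congrArg (fun q : ↥C => g * (q : H) * g⁻¹) (hC.is_comm.comm ⟨_, hx⟩ ⟨_, hy⟩)
      simpa [mul_assoc] using hxy
    · exact fun p hp hpd => by_contra fun hne => hD' p hp hne hpd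
  · obtain ⟨h1, h2, h3⟩ := map_abelian_two_complement N C hC hCo hCi
    refine exists_sylow_complement _ h1 (fun h => (Nat.not_even_iff_odd.2 h2) (even_iff_two_dvd.2 h)) ?_
    intro p hp hpd
    exact (Nat.prime_dvd_prime_iff_eq hp Nat.prime_two).1 (hp.dvd_of_dvd_pow (hpd.trans h3))

end Cfsg.Agent.S3200
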