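import Cfsg.Statements.S3201
import Cfsg.Agent.Eq.Def_Transfer
import Cfsg.Agent.Eq.Def_TwoFusion
import Cfsg.Agent.CentralQuotient.Quaternion
import Cfsg.Agent.PGroup.Frattini

set_option autoImplicit false
open Cfsg
open scoped commutatorElement

namespace Cfsg.Agent.S3201

/-- Let S be a finite 2-group whose centre Z(S) has n ≥ 2 distinct maximal subgroups C₁, …, Cₙ with trivial intersection such that each quotient S/Cᵢ is a non-abelian group with exactly one involution (a generalized quaternion group). Then S is the internal direct product of an elementary abelian subgroup and a non-abelian subgroup with exactly one involution. -/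
theorem result {S : Type*} [Group S] [Finite S]
    (hS : IsPGroup 2 S) (n : ℕ) (hn : 2 ≤ n) (C : Fin n → Subgroup ↥(Subgroup.center S))
    (hCmax : ∀ i, IsCoatom (C i)) (hCinj : Function.Injective C) (hCint : ⨅ i, C i = ⊥)
    (hCq : ∀ i, ∃ (_ : ((C i).map (Subgroup.center S).subtype).Normal),
      ¬ IsMulCommutative (S ⧸ (C i).map (Subgroup.center S).subtype) ∧
      ∃! x : S ⧸ (C i).map (Subgroup.center S).subtype, orderOf x = 2) :
    ∃ E Q : Subgroup S, Cfsg.IsInternalDirectProduct E Q ⊤ ∧ Cfsg.IsElementaryAbelian 2 E ∧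
      ¬ IsMulCommutative ↥Q ∧ ∃! x : ↥Q, orderOf x = 2 := by
  haveI : Fact (Nat.Prime 2) := ⟨Nat.prime_two⟩
  obtain ⟨C', hC'⟩ : ∃ C' : Fin n → Subgroup S, C' = fun i => (C i).map (Subgroup.center S).subtype := ⟨_, rfl⟩
  have hCc : ∀ i, C' i ≤ Subgroup.center S := fun i => hC' ▸ Subgroup.map_subtype_le _
  have hidx : ∀ i, (C i).index = 2 := fun i => CfsgLib.PGroup.index_of_coatom (hS.to_subgroup _) (hCmax i)
  have hmemC : ∀ i, ∀ z : ↥(Subgroup.center S), (z : S) ∈ C' i ↔ z ∈ C i := by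
    intro i z
    subst hC'
    exact ⟨fun ⟨w, hw, h⟩ => Subtype.ext h ▸ hw, fun h => ⟨z, h, rfl⟩⟩
  have hall : ∀ z ∈ Subgroup.center S, (∀ i, z ∈ C' i) → z = 1 := by
    intro z hz h
    have : (⟨z, hz⟩ : ↥(Subgroup.center S)) ∈ ⨅ i, C i :=
      Subgroup.mem_iInf.2 fun i => (hmemC i ⟨z, hz⟩).1 (h i)
    rw [hCint, Subgroup.mem_bot] at this
    exact congrArg Subtype.val this
  have hprod : ∀ i, ∀ z w, z ∈ Subgroup.center S → w ∈ Subgroup.center S → z ∉ C' i → w ∉ C' i →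
      z * w ∈ C' i := by
    intro i z w hz hw hzC hwC
    refine (hmemC i ⟨z * w, mul_mem hz hw⟩).2 ?_
    rw [show (⟨z * w, mul_mem hz hw⟩ : ↥(Subgroup.center S)) = ⟨z, hz⟩ * ⟨w, hw⟩ from rfl,
      Subgroup.mul_mem_iff_of_index_two (hidx i)]
    exact iff_of_false (fun h => hzC ((hmemC i _).2 h)) (fun h => hwC ((hmemC i _).2 h))
  have hZ2 : ∀ z ∈ Subgroup.center S, z * z = 1 := fun z hz =>
    hall _ (mul_mem hz hz) fun i => by
      by_cases h : z ∈ C' i
      · exact mul_mem h h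
      · exact hprod i z z hz hz h h
  have hout : ∀ i, ∃ w ∈ Subgroup.center S, w ∉ C' i := fun i => by
    by_contra h
    push Not at h
    exact (hCmax i).1 (eq_top_iff.2 fun z _ => (hmemC i z).1 (h z z.2))
  -- elements whose square lies in a `C i` are central
  have hsq : ∀ i, ∀ g : S, g * g ∈ C' i → g ∈ Subgroup.center S := by
    intro i g hg
    obtain ⟨hn', -, hu⟩ := hCq i
    obtain ⟨w, hw, hwC⟩ := hout i
    have hone : ∀ q : S, QuotientGroup.mk' ((C i).map (Subgroup.center S).subtype) q = 1 ↔ q ∈ C' i := by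
      intro q; subst hC'; exact QuotientGroup.eq_one_iff q
    by_cases hgC : g ∈ C' i
    · exact hCc i hgC
    have ho : ∀ q : S, q * q ∈ C' i → q ∉ C' i →
        orderOf (QuotientGroup.mk' ((C i).map (Subgroup.center S).subtype) q) = 2 := fun q hq hq' => by
      refine orderOf_eq_prime ?_ fun h => hq' ((hone q).1 h)
      rw [pow_two, ← map_mul]; exact (hone _).2 hq
    have hgw := hu.unique (ho g hg hgC) (ho w (by rw [hZ2 w hw]; exact one_mem _) hwC)
    have hmem : g * w⁻¹ ∈ C' i := by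
      rw [← hone, map_mul, map_inv, hgw, mul_inv_cancel]
    simpa using mul_mem (hCc i hmem) hw
  -- all these squares coincide
  have hsame : ∀ g h : S, g ∉ Subgroup.center S → h ∉ Subgroup.center S → g * g ∈ Subgroup.center S →
      h * h ∈ Subgroup.center S → g * g = h * h := by
    intro g h hg hh hg2 hh2
    have e := hall _ (mul_mem hg2 hh2) fun i =>
      hprod i _ _ hg2 hh2 (fun h' => hg (hsq i g h')) (fun h' => hh (hsq i h h'))
    rw [eq_inv_of_mul_eq_one_left e]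
    exact inv_eq_of_mul_eq_one_left (hZ2 _ hh2)
  have i₀ : Fin n := ⟨0, by omega⟩
  obtain ⟨hn', hna, hu⟩ := hCq i₀
  obtain ⟨k, hk2, ⟨F⟩⟩ := CfsgLib.CentralQuotient.exists_frame_of_quotient hS _ hna hu
  obtain ⟨π, hπ⟩ : ∃ π, π = QuotientGroup.mk' ((C i₀).map (Subgroup.center S).subtype) := ⟨_, rfl⟩
  have hker : ∀ q : S, π q = 1 ↔ q ∈ C' i₀ := by
    intro q; subst hC'; rw [hπ]; exact QuotientGroup.eq_one_iff q
  obtain ⟨x, hx⟩ := QuotientGroup.mk'_surjective ((C i₀).map (Subgroup.center S).subtype) (F.e 1)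
  obtain ⟨y, hy⟩ := QuotientGroup.mk'_surjective ((C i₀).map (Subgroup.center S).subtype) F.y
  have hcov := CfsgLib.CentralQuotient.frame_cover F hx hy
  rw [← hπ] at hx hy
  have hhalf : orderOf (F.e (CfsgLib.TwoGroup.half k)) = 2 := by
    refine orderOf_eq_prime ?_ fun h => CfsgLib.TwoGroup.half_ne_zero (by omega) (F.e_eq_one.1 h)
    rw [pow_two, ← F.map_add, CfsgLib.TwoGroup.half_add_half (by omega), F.map_zero]
  obtain ⟨w, hw, hwC⟩ := hout i₀
  have hwimg : π w = F.e (CfsgLib.TwoGroup.half k) := by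
    subst hπ
    refine hu.unique (orderOf_eq_prime ?_ fun h => hwC ((hker w).1 h)) hhalf
    rw [← map_pow, pow_two, hZ2 w hw, map_one]
  have hcen : ∀ g : S, g ∈ Subgroup.center S ↔ π g = 1 ∨ π g = F.e (CfsgLib.TwoGroup.half k) := by
    intro g
    constructor
    · intro hg
      by_cases h : g ∈ C' i₀
      · exact Or.inl ((hker g).2 h)
      · right
        rw [← hwimg, ← mul_inv_eq_one, ← map_inv, ← map_mul, inv_eq_of_mul_eq_one_left (hZ2 w hw)]
        exact (hker _).2 (hprod i₀ g w hg hw h hwC)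
    · rintro (h | h)
      · exact hCc i₀ ((hker g).1 h)
      · have : g * w⁻¹ ∈ C' i₀ := by rw [← hker, map_mul, map_inv, h, hwimg, mul_inv_cancel]
        simpa using mul_mem (hCc i₀ this) hw
  have hxpow : ∀ i : ℕ, π (x ^ i) = F.e (i : ZMod (2 ^ k)) := fun i => by
    rw [map_pow, hx, ← F.map_nsmul, mul_one]
  have hnotcen : ∀ i : ℤ, x ^ i * y ∉ Subgroup.center S := by
    intro i h
    have h' : π (x ^ i * y) = F.e (i : ZMod (2 ^ k)) * F.y := by
      rw [map_mul, map_zpow, hx, hy, ← F.map_zsmul, mul_one]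
    rcases (hcen _).1 h with e | e <;> rw [h'] at e
    · exact F.e_ne_ey 0 (i : ZMod (2 ^ (k))) (F.map_zero.trans e.symm)
    · exact F.e_ne_ey _ _ e.symm
  have hsqy : ∀ i : ℤ, (x ^ i * y) * (x ^ i * y) ∈ Subgroup.center S := by
    intro i
    refine (hcen _).2 (Or.inr ?_)
    rw [map_mul, map_mul, map_zpow, hx, hy, ← F.map_zsmul, mul_one, F.ey_mul_ey, neg_one_mul,
      add_neg_cancel, zero_add]
  obtain ⟨m, rfl⟩ : ∃ m, k = m + 2 := ⟨k - 2, by omega⟩
  have hv : x ^ 2 ^ m ∉ Subgroup.center S := by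
    intro h
    have h1 : ((2 ^ m : ℕ) : ZMod (2 ^ (m + 2))) + ((2 ^ m : ℕ) : ZMod (2 ^ (m + 2))) =
        CfsgLib.TwoGroup.half (m + 2) := by
      rw [CfsgLib.TwoGroup.half, show m + 2 - 1 = m + 1 by omega]; push_cast; ring
    rcases (hcen _).1 h with e | e <;> rw [hxpow] at e
    · rw [F.e_eq_one] at e
      rw [e, add_zero] at h1
      exact CfsgLib.TwoGroup.half_ne_zero (by omega) h1.symm
    · rw [F.e_inj] at e
      rw [e, CfsgLib.TwoGroup.half_add_half (by omega)] at h1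
      exact CfsgLib.TwoGroup.half_ne_zero (by omega) h1.symm
  have hv2 : x ^ 2 ^ m * x ^ 2 ^ m ∈ Subgroup.center S := by
    rw [← pow_add]
    refine (hcen _).2 (Or.inr ?_)
    rw [hxpow]
    congr 1
    rw [CfsgLib.TwoGroup.half, show m + 2 - 1 = m + 1 by omega]; push_cast; ring
  obtain ⟨z, hz⟩ : ∃ z, z = x ^ 2 ^ m * x ^ 2 ^ m := ⟨_, rfl⟩
  have hzc : z ∈ Subgroup.center S := hz ▸ hv2
  have hzsq : ∀ i : ℤ, (x ^ i * y) * (x ^ i * y) = z := fun i =>
    hz ▸ hsame _ _ (hnotcen i) hv (hsqy i) hv2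
  have hz1 : z ∉ C' i₀ := fun h => hv (hsq i₀ _ (hz ▸ h))
  have hzX : z ∈ Subgroup.zpowers x := hz ▸ mul_mem (pow_mem (Subgroup.mem_zpowers x) _) (pow_mem (Subgroup.mem_zpowers x) _)
  have hyy : y * y = z := by
    have := hzsq 0
    rwa [zpow_zero, one_mul] at this
  have hyx : ∀ i : ℤ, y * x ^ i * y⁻¹ = (x ^ i)⁻¹ := fun i => by
    have h := hzsq i
    rw [← hyy] at h
    have h2 : x ^ i * (y * x ^ i) * y = y * y := by rw [← h]; group
    have h3 : x ^ i * (y * x ^ i) = y := mul_right_cancel h2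
    calc y * x ^ i * y⁻¹ = (x ^ i)⁻¹ * (x ^ i * (y * x ^ i)) * y⁻¹ := by group
      _ = (x ^ i)⁻¹ := by rw [h3, mul_inv_cancel_right]
  let Q : Subgroup S :=
    { carrier := {g | g ∈ Subgroup.zpowers x ∨ g * y⁻¹ ∈ Subgroup.zpowers x}
      one_mem' := Or.inl (one_mem _)
      mul_mem' := by
        rintro a b (⟨i, rfl⟩ | ⟨i, hi⟩) (⟨j, rfl⟩ | ⟨j, hj⟩)
        · exact Or.inl (mul_mem ⟨i, rfl⟩ ⟨j, rfl⟩)
        · right
          rw [mul_assoc, ← (hj : x ^ j = b * y⁻¹)]
          exact mul_mem ⟨i, rfl⟩ ⟨j, rfl⟩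
        · right
          have ha : a = x ^ i * y := eq_mul_inv_iff_mul_eq.1 hi |>.symm
          subst ha
          rw [show x ^ i * y * x ^ j * y⁻¹ = x ^ i * (y * x ^ j * y⁻¹) by group, hyx]
          exact mul_mem ⟨i, rfl⟩ (inv_mem ⟨j, rfl⟩)
        · left
          have ha : a = x ^ i * y := eq_mul_inv_iff_mul_eq.1 hi |>.symm
          have hb : b = x ^ j * y := eq_mul_inv_iff_mul_eq.1 hj |>.symm
          subst ha hb
          rw [show x ^ i * y * (x ^ j * y) = x ^ i * (y * x ^ j * y⁻¹) * (y * y) by group, hyx, hyy]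
          exact mul_mem (mul_mem ⟨i, rfl⟩ (inv_mem ⟨j, rfl⟩)) hzX
      inv_mem' := by
        rintro a (⟨i, rfl⟩ | ⟨i, hi⟩)
        · exact Or.inl (inv_mem ⟨i, rfl⟩)
        · right
          have ha : a = x ^ i * y := eq_mul_inv_iff_mul_eq.1 hi |>.symm
          subst ha
          have e : (x ^ i * y)⁻¹ * y⁻¹ = (y * (x ^ i) * y)⁻¹ := by group
          rw [e, show y * x ^ i * y = y * x ^ i * y⁻¹ * (y * y) by group, hyx, hyy]
          exact inv_mem (mul_mem (inv_mem ⟨i, rfl⟩) hzX) }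
  have hQc : ∀ g ∈ Q, g ∈ Subgroup.center S → g = 1 ∨ g = z := by
    rintro g (⟨i, rfl⟩ | ⟨i, hi⟩) hg
    · simp only at hg ⊢
      have h' : π (x ^ i) = F.e (i : ZMod (2 ^ (m + 2))) := by rw [map_zpow, hx, ← F.map_zsmul, mul_one]
      have hdvd : ∃ t : ℤ, i = 2 * (2 ^ m : ℕ) * t := by
        have h0 : (i : ZMod (2 ^ (m + 2))) + (i : ZMod (2 ^ (m + 2))) = 0 := by
          rcases (hcen _).1 hg with e | e <;> rw [h'] at e
          · rw [F.e_eq_one] at e; rw [e, add_zero]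
          · rw [F.e_inj] at e; rw [e, CfsgLib.TwoGroup.half_add_half (by omega)]
        rw [← Int.cast_add, ZMod.intCast_zmod_eq_zero_iff_dvd] at h0
        obtain ⟨t, ht⟩ := h0
        refine ⟨t, ?_⟩
        push_cast at ht ⊢
        have e1 : (2 : ℤ) ^ (m + 2) = 4 * 2 ^ m := by ring
        rw [e1] at ht
        exact mul_left_cancel₀ (show (2 : ℤ) ≠ 0 by norm_num) (by linear_combination ht)
      obtain ⟨t, rfl⟩ := hdvd
      have hxz : x ^ (2 * (2 ^ m : ℕ) : ℤ) = z := by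
        rw [hz, two_mul, zpow_add, zpow_natCast]
      rw [zpow_mul, hxz]
      rcases Int.even_or_odd' t with ⟨u, rfl | rfl⟩
      · left
        rw [zpow_mul, show z ^ (2 : ℤ) = 1 by rw [zpow_two]; exact hZ2 z hzc, one_zpow]
      · right
        rw [zpow_add, zpow_mul, show z ^ (2 : ℤ) = 1 by rw [zpow_two]; exact hZ2 z hzc, one_zpow, one_mul, zpow_one]
    · exact absurd ((eq_mul_inv_iff_mul_eq.1 hi) ▸ hg) (hnotcen i)
  have hzQ : z ∈ Q := Or.inl hzX
  have hxQ : x ∈ Q := Or.inl (Subgroup.mem_zpowers x)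
  have hyQ : y ∈ Q := Or.inr (by rw [mul_inv_cancel]; exact one_mem _)
  have hEC : ∀ e ∈ C' i₀, e ∈ Subgroup.center S := fun e he => hCc i₀ he
  have hint : C' i₀ ⊓ Q = ⊥ := by
    rw [eq_bot_iff]
    intro g hg
    rcases hQc g hg.2 (hEC g hg.1) with rfl | rfl
    · exact one_mem _
    · exact absurd hg.1 hz1
  have hsup : C' i₀ ⊔ Q = ⊤ := by
    rw [eq_top_iff]
    intro g _
    obtain ⟨i, d, hd, rfl | rfl⟩ := hcov g
    · exact mul_mem (Subgroup.mem_sup_right (zpow_mem hxQ i)) (Subgroup.mem_sup_left (by subst hC'; exact hd))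
    · exact mul_mem (mul_mem (Subgroup.mem_sup_right (zpow_mem hxQ i))
        (Subgroup.mem_sup_left (by subst hC'; exact hd))) (Subgroup.mem_sup_right hyQ)
  refine ⟨C' i₀, Q, ⟨le_top, le_top, fun e he q _ => ?_, hint, hsup⟩, ⟨⟨⟨fun a b => Subtype.ext ?_⟩⟩, ?_⟩, ?_, ?_⟩
  · exact (Subgroup.mem_center_iff.1 (hEC e he) q).symm
  · exact (Subgroup.mem_center_iff.1 (hEC a a.2) b).symm
  · intro e he; rw [pow_two]; exact hZ2 e (hEC e he)
  · intro hQ
    apply hv
    rw [Subgroup.mem_center_iff]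
    intro g
    have hle : C' i₀ ⊔ Q ≤ Subgroup.centralizer ({x ^ 2 ^ m} : Set S) := by
      refine sup_le (fun e he => ?_) (fun q hq => ?_) <;> rw [Subgroup.mem_centralizer_singleton_iff]
      · exact (Subgroup.mem_center_iff.1 (hEC e he) _).symm
      · exact congrArg Subtype.val (hQ.is_comm.comm ⟨q, hq⟩ ⟨_, pow_mem hxQ _⟩)
    rw [hsup] at hle
    exact Subgroup.mem_centralizer_singleton_iff.1 (hle (Subgroup.mem_top g))
  · have hzo : orderOf z = 2 := orderOf_eq_prime (by rw [pow_two]; exact hZ2 z hzc) fun h => hz1 (h ▸ one_mem _)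
    refine ⟨⟨z, hzQ⟩, (Subgroup.orderOf_mk z hzQ).trans hzo, fun g hg0 => Subtype.ext ?_⟩
    have hg : orderOf (g : S) = 2 := (Subgroup.orderOf_coe g).trans hg0
    have hgg : (g : S) * g = 1 := by
      have := pow_orderOf_eq_one (g : S)
      rwa [hg, pow_two] at this
    rcases hQc g g.2 (hsq i₀ g (hgg ▸ one_mem _)) with e | e
    · rw [e, orderOf_one] at hg; omega
    · exact e

end Cfsg.Agent.S3201
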