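import Cfsg.Statements.S3202
import Cfsg.Agent.Eq.Def_CaseTheorems
import Cfsg.Agent.CentralQuotient.Quaternion

set_option autoImplicit false
open Cfsg
open scoped commutatorElement

namespace Cfsg.Agent.S3202

/-- Let S be a finite 2-group of 2-rank exactly 2 and D a maximal subgroup of the centre of S such that S/D is a non-abelian group with exactly one involution (a generalized quaternion group). Then S has a nontrivial cyclic characteristic subgroup. -/
theorem result {S : Type*} [Group S]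
    [Finite S] (hS : IsPGroup 2 S) (hr2 : Cfsg.PRankLE 2 2 S) (hr1 : ¬ Cfsg.PRankLE 2 1 S)
    (D : Subgroup ↥(Subgroup.center S)) (hD : IsCoatom D)
    (hq : ∃ (_ : (D.map (Subgroup.center S).subtype).Normal),
      ¬ IsMulCommutative (S ⧸ D.map (Subgroup.center S).subtype) ∧
      ∃! x : S ⧸ D.map (Subgroup.center S).subtype, orderOf x = 2) :
    ∃ C : Subgroup S, C ≠ ⊥ ∧ IsCyclic ↥C ∧ C.Characteristic := by
  obtain ⟨hn, hna, hu⟩ := hq
  obtain ⟨D', hD'⟩ : ∃ D', D' = D.map (Subgroup.center S).subtype := ⟨_, rfl⟩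
  have hDc : D' ≤ Subgroup.center S := hD' ▸ Subgroup.map_subtype_le D
  subst hD'
  obtain ⟨n, hn2, ⟨F⟩⟩ := CfsgLib.CentralQuotient.exists_frame_of_quotient hS _ hna hu
  obtain ⟨x, hx⟩ := QuotientGroup.mk'_surjective (D.map (Subgroup.center S).subtype) (F.e 1)
  obtain ⟨y, hy⟩ := QuotientGroup.mk'_surjective (D.map (Subgroup.center S).subtype) F.y
  have hc : Commute ⁅x, y⁆ x := by
    have h1 : QuotientGroup.mk' (D.map (Subgroup.center S).subtype) ⁅x, y⁆ = F.e ((1 - (-1)) * 1) := by
      rw [map_commutatorElement, hx, hy, F.y_eq, F.commutator_e_ey]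
    obtain ⟨k, hk⟩ := ZMod.intCast_surjective (((1 : ZMod (2 ^ n)) - (-1)) * 1)
    have h2 : ⁅x, y⁆ * (x ^ k)⁻¹ ∈ D.map (Subgroup.center S).subtype := by
      rw [← QuotientGroup.eq_one_iff]
      show QuotientGroup.mk' _ (⁅x, y⁆ * (x ^ k)⁻¹) = 1
      rw [map_mul, map_inv, map_zpow, h1, hx, ← F.map_zsmul, hk]
      simp only [mul_one]
      exact mul_inv_cancel _
    have h3 : Commute (⁅x, y⁆ * (x ^ k)⁻¹) x := (Subgroup.mem_center_iff.1 (hDc h2) x).symm
    have h4 := h3.mul_left (Commute.zpow_self x k)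
    rwa [inv_mul_cancel_right] at h4
  have hle := CfsgLib.CentralQuotient.commutator_le_zpowers hDc
    (CfsgLib.CentralQuotient.frame_cover F hx hy) hc
  refine ⟨commutator S, fun h => hna ?_, ?_, inferInstance⟩
  · refine ⟨⟨fun a b => ?_⟩⟩
    obtain ⟨a, rfl⟩ := QuotientGroup.mk'_surjective _ a
    obtain ⟨b, rfl⟩ := QuotientGroup.mk'_surjective _ b
    have hab : ⁅a, b⁆ ∈ commutator S := by
      rw [commutator_def]
      exact Subgroup.commutator_mem_commutator (Subgroup.mem_top a) (Subgroup.mem_top b)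
    rw [h, Subgroup.mem_bot, commutatorElement_eq_one_iff_mul_comm] at hab
    rw [← map_mul, ← map_mul, hab]
  · exact isCyclic_of_injective (Subgroup.inclusion hle) (Subgroup.inclusion_injective hle)

end Cfsg.Agent.S3202
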