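import Cfsg.Statements.S3206
import Cfsg.Agent.AbelianTwo.AutFix
import Cfsg.Agent.PSL2Two.Concrete
import Cfsg.Agent.Classical.Linear.Simple
import Cfsg.Agent.Classical.Linear.Card
import Cfsg.Agent.CharP.SylowInNormal
import Cfsg.Agent.SmallSimple.Basic

set_option autoImplicit false
open Cfsg

namespace Cfsg.Agent.S3206

open Subgroup
open scoped commutatorElement

/-- `PSL₂(q)`, `q` odd, `q > 3`, with an abelian Sylow 2-subgroup: that subgroup is a four-group. -/
theorem psl_sylow {F : Type*} [Field F] [Fintype F] (hFo : Odd (Fintype.card F))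
    (hF3 : 3 < Fintype.card F) (V : Sylow 2 (Matrix.ProjectiveSpecialLinearGroup (Fin 2) F))
    [IsMulCommutative (V : Subgroup (Matrix.ProjectiveSpecialLinearGroup (Fin 2) F))] :
    Nat.card (V : Subgroup (Matrix.ProjectiveSpecialLinearGroup (Fin 2) F)) = 4 := by
  classical
  haveI : IsSimpleGroup (Matrix.ProjectiveSpecialLinearGroup (Fin 2) F) :=
    CfsgLib.Classical.Linear.isSimpleGroup_psl_fin le_rfl fun _ => by
      rw [Nat.card_eq_fintype_card]; omega
  obtain ⟨m, hm⟩ := hFo
  have hgcd : Nat.gcd 2 (Fintype.card F - 1) = 2 := Nat.gcd_eq_left ⟨m, by omega⟩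
  have hcard := CfsgLib.Classical.Linear.card_psl_two (F := F)
  rw [hgcd] at hcard
  have hsq : Fintype.card F ^ 2 - 1 = 4 * (m * (m + 1)) := by
    have : Fintype.card F ^ 2 = 4 * (m * (m + 1)) + 1 := by rw [hm]; ring
    omega
  obtain ⟨j, hj⟩ : Even (m * (m + 1)) := Nat.even_mul_succ_self m
  have hPSL : Nat.card (Matrix.ProjectiveSpecialLinearGroup (Fin 2) F) = Fintype.card F * (4 * j) := by
    rw [hsq, hj] at hcard
    have e : Fintype.card F * (4 * (j + j)) = 2 * (Fintype.card F * (4 * j)) := by ring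
    omega
  have hnc : ¬ IsMulCommutative (Matrix.ProjectiveSpecialLinearGroup (Fin 2) F) :=
    CfsgLib.SmallSimple.not_comm_of_card_not_prime fun hp => by
      have h2 : 2 ∣ Nat.card (Matrix.ProjectiveSpecialLinearGroup (Fin 2) F) :=
        ⟨Fintype.card F * (2 * j), by rw [hPSL]; ring⟩
      have hj0 : j ≠ 0 := by
        rintro rfl
        rw [hPSL] at hp
        simpa using hp.ne_zero
      have h4 : 4 ≤ Nat.card (Matrix.ProjectiveSpecialLinearGroup (Fin 2) F) := by
        rw [hPSL]; nlinarith [Nat.pos_of_ne_zero hj0]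
      rcases hp.eq_one_or_self_of_dvd 2 h2 with h | h <;> omega
  have hVne : Nontrivial (V : Subgroup (Matrix.ProjectiveSpecialLinearGroup (Fin 2) F)) := by
    rw [← Finite.one_lt_card_iff_nontrivial]
    have h := V.pow_dvd_card_of_pow_dvd_card (n := 1) ⟨Fintype.card F * (2 * j), by rw [hPSL]; ring⟩
    have := Nat.le_of_dvd Nat.card_pos h
    omega
  have hjodd : Odd j := by
    rw [← Nat.not_even_iff_odd]
    rintro ⟨i, hi⟩
    have h16 : 16 ∣ Fintype.card F ^ 2 - 1 := ⟨i, by rw [hsq, hj, hi]; ring⟩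
    have hN := (CfsgLib.PSL2Two.psl2_sylow_facts (by omega) h16 V).2.2
    obtain ⟨x, hx1⟩ := exists_ne (1 : (V : Subgroup (Matrix.ProjectiveSpecialLinearGroup (Fin 2) F)))
    refine hx1 (Subtype.ext (CfsgLib.PSLSmall.eq_one_of_central_normalizer hnc V x.2 fun n hn => ?_))
    exact congrArg Subtype.val (IsMulCommutative.is_comm.comm
      (⟨n, hN hn⟩ : (V : Subgroup (Matrix.ProjectiveSpecialLinearGroup (Fin 2) F))) x)
  obtain ⟨n, hn⟩ := IsPGroup.iff_card.mp V.2
  have h4 : (4 : ℕ) ∣ Nat.card (V : Subgroup (Matrix.ProjectiveSpecialLinearGroup (Fin 2) F)) :=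
    V.pow_dvd_card_of_pow_dvd_card (n := 2) ⟨Fintype.card F * j, by rw [hPSL]; ring⟩
  have h8 : ¬ 8 ∣ Nat.card (V : Subgroup (Matrix.ProjectiveSpecialLinearGroup (Fin 2) F)) := fun h => by
    obtain ⟨c, hc⟩ := h.trans (card_subgroup_dvd_card _)
    rw [hPSL] at hc
    obtain ⟨i, rfl⟩ := hjodd
    have e : Fintype.card F * (4 * (2 * i + 1)) = 4 * (Fintype.card F * (2 * i + 1)) := by ring
    have : Odd (Fintype.card F * (2 * i + 1)) := Odd.mul ⟨m, hm⟩ ⟨i, rfl⟩
    rw [Nat.odd_iff] at this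
    omega
  rcases le_or_gt 3 n with h | h
  · exact absurd (hn ▸ (pow_dvd_pow 2 h : 2 ^ 3 ∣ 2 ^ n)) h8
  · rw [hn] at h4 ⊢
    interval_cases n <;> omega

/-- An abelian Sylow 2-subgroup of order four of a simple group has exponent two. -/
theorem sq_of_four {H : Type*} [Group H] [Finite H] [IsSimpleGroup H] (hc : ¬ IsMulCommutative H)
    (V : Sylow 2 H) [IsMulCommutative (V : Subgroup H)] (hV : Nat.card (V : Subgroup H) = 4)
    {v : H} (hv : v ∈ (V : Subgroup H)) : v * v = 1 := by
  by_contra hne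
  have hgen : ∀ w : (V : Subgroup H), w ∈ zpowers (⟨v, hv⟩ : (V : Subgroup H)) := by
    have hd : orderOf (⟨v, hv⟩ : (V : Subgroup H)) ∣ 2 ^ 2 := (_root_.orderOf_dvd_natCard _).trans (by rw [hV]; norm_num)
    obtain ⟨i, hi, hoi⟩ := (Nat.dvd_prime_pow Nat.prime_two).1 hd
    have hi2 : i = 2 := by
      by_contra hi'
      have : orderOf (⟨v, hv⟩ : (V : Subgroup H)) ∣ 2 := hoi ▸ (by
        have : i ≤ 1 := by omega
        simpa using pow_dvd_pow 2 this)
      exact hne (by simpa [pow_two] using congrArg Subtype.val (orderOf_dvd_iff_pow_eq_one.mp this))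
    have htop : zpowers (⟨v, hv⟩ : (V : Subgroup H)) = ⊤ := eq_top_of_card_eq _ (by
      rw [Nat.card_zpowers, hoi, hi2, hV]; norm_num)
    exact fun w => htop ▸ mem_top w
  let x : (V : Subgroup H) := ⟨v, hv⟩
  refine hne ?_
  suffices h : v = 1 by rw [h, one_mul]
  refine CfsgLib.PSLSmall.eq_one_of_central_normalizer hc V hv fun n hn => ?_
  -- conjugation by `n` has odd order modulo the centraliser and permutes the two generators
  have hmem : ∀ m ∈ normalizer ((V : Subgroup H) : Set H), m * v * m⁻¹ = v ∨ m * v * m⁻¹ = v⁻¹ := by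
    intro m hm
    obtain ⟨i, hi⟩ := mem_zpowers_iff.mp (hgen ⟨m * v * m⁻¹, (mem_normalizer_iff.mp hm v).mp hv⟩)
    have hi' : v ^ i = m * v * m⁻¹ := congrArg Subtype.val hi
    have h4 : v ^ 4 = 1 := by
      have := congrArg Subtype.val (pow_card_eq_one' (x := x))
      rwa [hV] at this
    rw [← Int.emod_add_mul_ediv i 4, zpow_add, zpow_mul, show v ^ (4 : ℤ) = 1 from by exact_mod_cast h4,
      one_zpow, mul_one] at hi'
    have h0 := Int.emod_nonneg i (show (4 : ℤ) ≠ 0 by norm_num)
    have h1 := Int.emod_lt_of_pos i (show (0 : ℤ) < 4 by norm_num)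
    have hns : m * v * m⁻¹ * (m * v * m⁻¹) ≠ 1 := fun e => hne (by
      have := congrArg (fun z => m⁻¹ * z * m) e
      simpa [mul_assoc] using this)
    interval_cases hr : i % 4
    · exact absurd (by rw [← hi', zpow_zero, one_mul]) hns
    · exact Or.inl (by rw [← hi', zpow_one])
    · exfalso
      rw [← hi'] at hns
      refine hns ?_
      rw [← zpow_add]
      exact_mod_cast h4
    · refine Or.inr ?_
      rw [← hi']
      refine eq_inv_of_mul_eq_one_left ?_
      rw [← zpow_add_one]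
      exact_mod_cast h4
  rcases hmem n hn with h | h
  · exact mul_inv_eq_iff_eq_mul.mp h
  · exfalso
    -- the inverting element may be taken of 2-power order, hence inside `V`
    obtain ⟨a, b, hb, hab⟩ : ∃ a b : ℕ, Odd b ∧ orderOf n = 2 ^ a * b := by
      obtain ⟨a, b, hb, hab⟩ := Nat.exists_eq_pow_mul_and_not_dvd (orderOf_pos n).ne' 2 (by norm_num)
      exact ⟨a, b, Nat.odd_iff.mpr (by omega), hab⟩
    have hpow : ∀ i : ℕ, n ^ (2 * i + 1) * v * (n ^ (2 * i + 1))⁻¹ = v⁻¹ := by
      intro i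
      induction i with
      | zero => simpa using h
      | succ i ih =>
        rw [show 2 * (i + 1) + 1 = 2 + (2 * i + 1) by ring, pow_add,
          show n ^ 2 * n ^ (2 * i + 1) * v * (n ^ 2 * n ^ (2 * i + 1))⁻¹ =
            n ^ 2 * (n ^ (2 * i + 1) * v * (n ^ (2 * i + 1))⁻¹) * (n ^ 2)⁻¹ by group, ih, pow_two,
          show n * n * v⁻¹ * (n * n)⁻¹ = n * (n * v * n⁻¹)⁻¹ * n⁻¹ by group, h, inv_inv, h]
    obtain ⟨i, hi⟩ := hb
    have hP : IsPGroup 2 (zpowers (n ^ b)) := by
      obtain ⟨c, -, hc'⟩ := (Nat.dvd_prime_pow Nat.prime_two).1 (orderOf_dvd_of_pow_eq_one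
        (show (n ^ b) ^ 2 ^ a = 1 by rw [← pow_mul, mul_comm, ← hab, pow_orderOf_eq_one]))
      exact IsPGroup.of_card (n := c) (by rw [Nat.card_zpowers, hc'])
    have hb2 : n ^ b ∈ (V : Subgroup H) := (V.3 (IsPGroup.to_sup_of_normal_left' V.2 hP
      (zpowers_le.mpr (pow_mem hn b))) le_sup_left).le (mem_sup_right (mem_zpowers _))
    have := hpow i
    rw [← hi] at this
    rw [show n ^ b * v = v * n ^ b from congrArg Subtype.val
      (IsMulCommutative.is_comm.comm (⟨_, hb2⟩ : (V : Subgroup H)) x), mul_inv_cancel_right] at this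
    exact hne (by nth_rewrite 1 [this]; exact inv_mul_cancel v)

/-- A perfect central extension by a 2-group is trivial. -/
theorem schur {G : Type*} [Group G] [Finite G] [IsSimpleGroup G] (hG : ¬ IsMulCommutative G)
    (S : Sylow 2 G) [IsMulCommutative (S : Subgroup G)] (hS : Nat.card (S : Subgroup G) = 8)
    (hel : ∀ s ∈ (S : Subgroup G), s * s = 1)
    {L : Type*} [Group L] [Finite L] (f : L →* G) (hf : Function.Surjective f)
    (hperf : commutator L = ⊤) (hcen : f.ker ≤ center L) (h2 : IsPGroup 2 f.ker) : f.ker = ⊥ := by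
  classical
  let P : Subgroup L := (S : Subgroup G).comap f
  have hP2 : IsPGroup 2 P := S.2.comap_of_ker_isPGroup f h2
  have hker : f.ker ≤ P := fun z hz => by
    show f z ∈ (S : Subgroup G)
    rw [MonoidHom.mem_ker.mp hz]; exact one_mem _
  have hz : ∀ z ∈ f.ker, ∀ x : L, x * z = z * x := fun z hz x => mem_center_iff.mp (hcen hz) x
  have hSc : ∀ a ∈ (S : Subgroup G), ∀ b ∈ (S : Subgroup G), a * b = b * a := fun a ha b hb =>
    congrArg Subtype.val (IsMulCommutative.is_comm.comm (⟨a, ha⟩ : (S : Subgroup G)) ⟨b, hb⟩)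
  have hcomm_mem : ∀ x ∈ P, ∀ y ∈ P, ⁅x, y⁆ ∈ f.ker := fun x hx y hy => by
    rw [MonoidHom.mem_ker, map_commutatorElement, commutatorElement_eq_one_iff_mul_comm]
    exact hSc _ hx _ hy
  have hmul_left : ∀ a ∈ P, ∀ b ∈ P, ∀ c ∈ P, ⁅a * b, c⁆ = ⁅a, c⁆ * ⁅b, c⁆ := fun a ha b hb c hc => by
    rw [commutatorElement_def, commutatorElement_def a c,
      show a * b * c * (a * b)⁻¹ * c⁻¹ = a * ⁅b, c⁆ * (c * a⁻¹ * c⁻¹) by
        rw [commutatorElement_def]; group,
      hz _ (hcomm_mem b hb c hc) a, mul_assoc, ← hz _ (hcomm_mem b hb c hc)]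
    group
  have hmul_right : ∀ a ∈ P, ∀ b ∈ P, ∀ c ∈ P, ⁅a, b * c⁆ = ⁅a, b⁆ * ⁅a, c⁆ := fun a ha b hb c hc => by
    rw [show ⁅a, b * c⁆ = ⁅a, b⁆ * (b * ⁅a, c⁆ * b⁻¹) by simp [commutatorElement_def, mul_assoc],
      hz _ (hcomm_mem a ha c hc) b, mul_inv_cancel_right]
  have hsq : ∀ a ∈ P, ∀ b ∈ P, ⁅a, b⁆ * ⁅a, b⁆ = 1 := fun a ha b hb => by
    rw [← hmul_left a ha a ha b hb, commutatorElement_eq_one_iff_mul_comm]
    exact (hz (a * a) (MonoidHom.mem_ker.mpr (by rw [map_mul]; exact hel _ ha)) b).symm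
  have hPc : ∀ x ∈ P, ∀ y ∈ P, ⁅x, y⁆ = 1 := by
    intro x hx y hy
    by_contra hne
    obtain ⟨W, ⟨hWk, hWw⟩, hWmax⟩ := ((Set.toFinite {W : Subgroup L | W ≤ f.ker ∧ ⁅x, y⁆ ∉ W})).exists_maximal
      ⟨⊥, bot_le, fun h => hne (mem_bot.mp h)⟩
    haveI hWn : W.Normal := ⟨fun a ha g => by rw [hz a (hWk ha) g, mul_inv_cancel_right]; exact ha⟩
    have hdich : ∀ a ∈ P, ∀ b ∈ P, ⁅a, b⁆ ∈ W ∨ ⁅a, b⁆ * ⁅x, y⁆ ∈ W := by
      intro a ha b hb
      by_contra hcon
      push Not at hcon
      set v := ⁅a, b⁆ with hv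
      set w := ⁅x, y⁆ with hw
      have hle : W ⊔ zpowers v ≤ f.ker := sup_le hWk (zpowers_le.mpr (hcomm_mem a ha b hb))
      have hwmem : w ∈ W ⊔ zpowers v := by
        by_contra hnot
        exact hcon.1 (hWmax ⟨hle, hnot⟩ le_sup_left (mem_sup_right (mem_zpowers v)))
      obtain ⟨u, hu, z', hz', huz⟩ := mem_sup_of_normal_left.mp hwmem
      obtain ⟨i, rfl⟩ := mem_zpowers_iff.mp hz'
      rcases Int.even_or_odd' i with ⟨j, rfl | rfl⟩
      · rw [zpow_mul, zpow_two, hsq a ha b hb, one_zpow, mul_one] at huz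
        exact hWw (huz ▸ hu)
      · rw [zpow_add_one, zpow_mul, zpow_two, hsq a ha b hb, one_zpow, one_mul] at huz
        refine hcon.2 ?_
        have : v * w = u := by
          rw [← huz, ← mul_assoc, ← hz v (hcomm_mem a ha b hb) u, mul_assoc, hsq a ha b hb, mul_one]
        exact this ▸ hu
    let A : L → Subgroup P := fun c =>
      { carrier := {s | ∀ (hc : c ∈ P), ⁅(s : L), c⁆ ∈ W}
        one_mem' := fun _ => by simp
        mul_mem' := fun {a b} ha hb hc => by
          show ⁅(a : L) * b, c⁆ ∈ W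
          rw [hmul_left a a.2 b b.2 c hc]; exact mul_mem (ha hc) (hb hc)
        inv_mem' := fun {a} ha hc => by
          show ⁅((a : L))⁻¹, c⁆ ∈ W
          have h' := hmul_left (a : L)⁻¹ (inv_mem a.2) a a.2 c hc
          rw [inv_mul_cancel, commutatorElement_one_left] at h'
          rw [← eq_inv_of_mul_eq_one_left h'.symm |>.symm]
          · exact inv_mem (ha hc) }
    have hA : ∀ c ∈ P, ∀ s : P, s ∈ A c ↔ ⁅(s : L), c⁆ ∈ W := fun c hc s => ⟨fun h => h hc, fun h _ => h⟩
    have hyx : ⁅y, x⁆ ∉ W := fun h => hWw (by rw [← commutatorElement_inv y x]; exact inv_mem h)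
    have hxP : (⟨x, hx⟩ : P) ∉ A y := fun h => hWw ((hA y hy _).mp h)
    have hyP : (⟨y, hy⟩ : P) ∉ A x := fun h => hyx ((hA x hx _).mp h)
    have hxx : (⟨x, hx⟩ : P) ∈ A x := (hA x hx _).mpr (by simp)
    have hAy : ∀ s : P, s ∈ A y ∨ s * ⟨x, hx⟩ ∈ A y := fun s => by
      rcases hdich s s.2 y hy with h | h
      · exact Or.inl ((hA y hy s).mpr h)
      · refine Or.inr ((hA y hy _).mpr ?_)
        show ⁅(s : L) * x, y⁆ ∈ W
        rw [hmul_left s s.2 x hx y hy]; exact h
    have hAx : ∀ s : P, s ∈ A x ∨ s * ⟨y, hy⟩ ∈ A x := fun s => by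
      rcases hdich s s.2 x hx with h | h
      · exact Or.inl ((hA x hx s).mpr h)
      · refine Or.inr ((hA x hx _).mpr ?_)
        show ⁅(s : L) * y, x⁆ ∈ W
        rw [hmul_left s s.2 y hy x hx, ← commutatorElement_inv x y, inv_eq_of_mul_eq_one_right (hsq x hx y hy)]
        exact h
    have hidx2 : ∀ (H : Subgroup P) (c : P), c ∉ H → (∀ s, s ∈ H ∨ s * c ∈ H) → H.index = 2 := by
      intro H c hc h
      rw [index_eq_two_iff]
      refine ⟨c, fun b => ?_⟩
      rw [xor_def]
      rcases h b with hb | hb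
      · exact Or.inr ⟨hb, fun h' => hc (by simpa using mul_mem (inv_mem hb) h')⟩
      · exact Or.inl ⟨hb, fun h' => hc (by simpa using mul_mem (inv_mem h') hb)⟩
    let K : Subgroup P := A x ⊓ A y
    have hKi : K.index = 4 := by
      have h1 := hidx2 (A x) _ hyP hAx
      have h2' : K.relIndex (A x) = 2 := by
        rw [relIndex, index_eq_two_iff]
        refine ⟨⟨⟨x, hx⟩, hxx⟩, fun b => ?_⟩
        rw [xor_def]
        simp only [mem_subgroupOf, Subgroup.coe_mul]
        rcases hAy b.1 with hb | hb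
        · exact Or.inr ⟨⟨b.2, hb⟩, fun h' => hxP (by simpa using (A y).mul_mem ((A y).inv_mem hb) h'.2)⟩
        · exact Or.inl ⟨⟨mul_mem b.2 hxx, hb⟩, fun h' => hxP (by simpa using (A y).mul_mem ((A y).inv_mem h'.2) hb)⟩
      rw [← relIndex_mul_index (inf_le_left : K ≤ A x), h1, h2']
    let π : P →* (S : Subgroup G) := (f.comp P.subtype).codRestrict (S : Subgroup G) (fun s => s.2)
    have hπ : Function.Surjective π := fun s => by
      obtain ⟨a, ha⟩ := hf s
      exact ⟨⟨a, show f a ∈ (S : Subgroup G) from ha ▸ s.2⟩, Subtype.ext ha⟩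
    have hkerK : π.ker ≤ K := fun s hs => by
      have hsk : (s : L) ∈ f.ker := congrArg Subtype.val (MonoidHom.mem_ker.mp hs)
      have : ∀ c : L, ⁅(s : L), c⁆ = 1 := fun c =>
        commutatorElement_eq_one_iff_mul_comm.mpr (hz _ hsk c).symm
      exact ⟨fun _ => by rw [this]; exact one_mem W, fun _ => by rw [this]; exact one_mem W⟩
    have hcomap : (K.map π).comap π = K := comap_map_eq_self hkerK
    have hbar : Nat.card (K.map π) = 2 := by
      have h1 : (K.map π).index = 4 := by rw [← index_comap_of_surjective _ hπ, hcomap, hKi]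
      have h3 := card_mul_index (K.map π)
      rw [h1, hS] at h3
      omega
    haveI : IsCyclic (K.map π) := isCyclic_of_prime_card hbar
    obtain ⟨r, hr1, hr⟩ : ∃ r : (S : Subgroup G), r ≠ 1 ∧ ∀ s ∈ K.map π, s = 1 ∨ s = r := by
      obtain ⟨r, hr1, hr⟩ := (Nat.card_eq_two_iff' (1 : K.map π)).mp hbar
      refine ⟨r, fun h => hr1 (Subtype.ext h), fun s hs => ?_⟩
      by_cases h : (⟨s, hs⟩ : K.map π) = 1
      · exact Or.inl (congrArg Subtype.val h)
      · exact Or.inr (congrArg Subtype.val (hr _ h))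
    have hrK : r ∈ K.map π := by
      by_contra h
      have hbot : K.map π = ⊥ := le_bot_iff.mp fun s hs => mem_bot.mpr
        ((hr s hs).resolve_right fun e => h (e ▸ hs))
      rw [hbot, card_bot] at hbar
      omega
    have hKK : ∀ k ∈ K, ∀ k' ∈ K, ⁅(k : L), (k' : L)⁆ = 1 := by
      obtain ⟨r₀, hr₀, hr₀r⟩ := hrK
      have hform : ∀ k ∈ K, ∃ z ∈ f.ker, (k : L) = z ∨ (k : L) = z * r₀ := by
        intro k hk
        rcases hr (π k) ⟨k, hk, rfl⟩ with h | h
        · exact ⟨k, congrArg Subtype.val h, Or.inl rfl⟩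
        · refine ⟨(k : L) * (r₀ : L)⁻¹, ?_, Or.inr (by group)⟩
          rw [MonoidHom.mem_ker, map_mul, map_inv, mul_inv_eq_one]
          exact congrArg Subtype.val (h.trans hr₀r.symm)
      intro k hk k' hk'
      rw [commutatorElement_eq_one_iff_mul_comm]
      obtain ⟨z, hzk, hk1⟩ := hform k hk
      obtain ⟨z', hzk', hk2⟩ := hform k' hk'
      have c1 : ∀ c : L, Commute z c := fun c => (hz z hzk c).symm
      have c2 : ∀ c : L, Commute z' c := fun c => (hz z' hzk' c).symm
      rcases hk1 with e | e <;> rcases hk2 with e' | e' <;> rw [e, e']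
      · exact c1 _
      · exact c1 _
      · exact ((c2 _).symm : Commute _ z')
      · exact Commute.mul_left (c1 _) (Commute.mul_right ((c2 _).symm) (Commute.refl _))
    have hKmem : ∀ k : P, k ∈ K ↔ ∀ b ∈ P, ⁅(k : L), b⁆ ∈ W := by
      intro k
      refine ⟨fun hk b hb => ?_, fun h => ⟨fun _ => h x hx, fun _ => h y hy⟩⟩
      have hkx : ⁅(k : L), x⁆ ∈ W := (hA x hx k).mp hk.1
      have hky : ⁅(k : L), y⁆ ∈ W := (hA y hy k).mp hk.2
      -- write `b = k'` times a product of `x` and `y`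
      have key : ∀ b : P, b ∈ K → ⁅(k : L), (b : L)⁆ ∈ W := fun b hbK => by
        rw [hKK k hk b hbK]; exact one_mem W
      have step : ∀ b : P, b ∈ A x → ⁅(k : L), (b : L)⁆ ∈ W := fun b hbA => by
        rcases hAy b with h | h
        · exact key b ⟨hbA, h⟩
        · have h' := key (b * ⟨x, hx⟩) ⟨mul_mem hbA hxx, h⟩
          rw [Subgroup.coe_mul, hmul_right k k.2 b b.2 x hx] at h'
          exact (mul_mem_cancel_right hkx).mp h'
      rcases hAx ⟨b, hb⟩ with h | h
      · exact step _ h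
      · have h' := step _ h
        rw [Subgroup.coe_mul, hmul_right k k.2 b hb y hy] at h'
        exact (mul_mem_cancel_right hky).mp h'
    refine hr1 (Subtype.ext ?_)
    refine CfsgLib.PSLSmall.eq_one_of_central_normalizer hG S r.2 fun n hn => ?_
    obtain ⟨g, hg⟩ := hf n
    obtain ⟨r₀, hr₀, hr₀r⟩ := id hrK
    have hgP : ∀ a, a ∈ P ↔ g * a * g⁻¹ ∈ P := fun a => by
      show f a ∈ (S : Subgroup G) ↔ f (g * a * g⁻¹) ∈ (S : Subgroup G)
      rw [map_mul, map_mul, map_inv, hg]
      exact mem_normalizer_iff.mp hn _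
    let r' : P := ⟨g * r₀ * g⁻¹, (hgP r₀).mp r₀.2⟩
    have hr'K : r' ∈ K := by
      rw [hKmem]
      intro b hb
      have hb' : g⁻¹ * b * g ∈ P := (hgP _).mpr (by simpa [mul_assoc] using hb)
      have h' := hWn.conj_mem _ ((hKmem r₀).mp hr₀ _ hb') g
      convert h' using 1
      show ⁅g * (r₀ : L) * g⁻¹, b⁆ = g * ⁅(r₀ : L), g⁻¹ * b * g⁆ * g⁻¹
      simp [commutatorElement_def, mul_assoc]
    have hval : ((π r' : (S : Subgroup G)) : G) = n * r * n⁻¹ := by
      show f (g * r₀ * g⁻¹) = _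
      rw [map_mul, map_mul, map_inv, hg]
      exact congrArg (fun s : (S : Subgroup G) => n * (s : G) * n⁻¹) hr₀r
    rcases hr (π r') ⟨r', hr'K, rfl⟩ with h | h
    · rw [h] at hval
      exact absurd (Subtype.ext (conj_eq_one_iff.mp hval.symm)) hr1
    · rw [h] at hval
      exact mul_inv_eq_iff_eq_mul.mp hval.symm
  -- transfer
  haveI : IsMulCommutative P := ⟨⟨fun a b => Subtype.ext
    (commutatorElement_eq_one_iff_mul_comm.mp (hPc a a.2 b b.2))⟩⟩
  refine le_bot_iff.mp fun z hzk => ?_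
  rw [mem_bot]
  open scoped IsMulCommutative in
  let V : L →* P := MonoidHom.transfer (MonoidHom.id P)
  open scoped IsMulCommutative in
  have hV : V z = ⟨z ^ P.index, pow_mem (hker hzk) _⟩ := MonoidHom.transfer_eq_pow (MonoidHom.id P) z
    fun k g₀ _ => by rw [mul_assoc, ← hz _ (pow_mem hzk k) g₀, inv_mul_cancel_left]
  have hVker : V.ker = ⊤ := by
    rw [eq_top_iff, ← hperf, _root_.commutator_def, commutator_le]
    intro a _ b _
    rw [MonoidHom.mem_ker, map_commutatorElement, commutatorElement_eq_one_iff_mul_comm]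
    exact IsMulCommutative.is_comm.comm _ _
  have hVz : V z = 1 := MonoidHom.mem_ker.mp (hVker ▸ mem_top z)
  have hpow : z ^ P.index = 1 := congrArg Subtype.val (hV.symm.trans hVz)
  obtain ⟨j, hj⟩ := hP2 ⟨z, hker hzk⟩
  have hzj : z ^ 2 ^ j = 1 := congrArg Subtype.val hj
  have hco : Nat.gcd P.index (2 ^ j) = 1 := by
    rw [show P.index = (S : Subgroup G).index from index_comap_of_surjective _ hf]
    exact ((Nat.prime_two.coprime_iff_not_dvd).mpr S.not_dvd_index).symm.pow_right j
  have := pow_gcd_eq_one.mpr ⟨hpow, hzj⟩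
  rwa [hco, pow_one] at this



/-- Let G be a non-abelian finite simple group with abelian Sylow 2-subgroups, and let t be an involution of G whose centralizer is a maximal subgroup of G and is the direct product of the subgroup generated by t with a subgroup E having a normal subgroup isomorphic to PSL(2, q), q odd and greater than 3, with trivial centralizer in E. Then every finite perfect group having a central 2-subgroup with quotient isomorphic to G has that central subgroup trivial (G has no nontrivial perfect central extension by a 2-group), and every automorphism of G of 2-power order that fixes every element of some Sylow 2-subgroup of G is inner. -/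
theorem result {G : Type*} [Group G] [Finite G] [IsSimpleGroup G]
    (hG : ¬ IsMulCommutative G) (hab : ∀ S : Sylow 2 G, IsMulCommutative ↥(S : Subgroup G))
    (t : G) (ht : orderOf t = 2) (hmax : IsCoatom (Subgroup.centralizer ({t} : Set G)))
    (E : Subgroup G) (hE : Cfsg.IsInternalDirectProduct (Subgroup.zpowers t) E (Subgroup.centralizer ({t} : Set G)))
    {F : Type*} [Field F] [Fintype F] (hFo : Odd (Fintype.card F)) (hF3 : 3 < Fintype.card F)
    (N : Subgroup ↥E) [N.Normal] (hN : Nonempty (↥N ≃* Matrix.ProjectiveSpecialLinearGroup (Fin 2) F))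
    (hNc : Subgroup.centralizer (N : Set ↥E) = ⊥) :
    (∀ (L : Type) (_ : Group L) (_ : Finite L) (Z : Subgroup L) (_ : Z.Normal), commutator L = ⊤ → Z ≤ Subgroup.center L →
        IsPGroup 2 ↥Z → Nonempty (L ⧸ Z ≃* G) → Z = ⊥) ∧
    (∀ (φ : G ≃* G) (k : ℕ), φ ^ (2 ^ k) = 1 → (∃ S : Sylow 2 G, ∀ s ∈ (S : Subgroup G), φ s = s) →
        ∃ g : G, ∀ x : G, φ x = g * x * g⁻¹) := by
  classical
  obtain ⟨e⟩ := hN
  have h2 : 2 ∣ Nat.card G := ht ▸ orderOf_dvd_natCard t
  constructor
  · intro L _ _ Z _ hperf hcen hZ2 hiso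
    obtain ⟨i⟩ := hiso
    obtain ⟨S, hS⟩ := (IsPGroup.of_card (n := 1) (show Nat.card (Subgroup.zpowers t) = 2 ^ 1 by
      rw [Nat.card_zpowers, ht, pow_one])).exists_le_sylow
    have htS : t ∈ (S : Subgroup G) := hS (Subgroup.mem_zpowers t)
    haveI := hab S
    have hSc : ∀ a ∈ (S : Subgroup G), ∀ b ∈ (S : Subgroup G), a * b = b * a := fun a ha b hb =>
      congrArg Subtype.val (IsMulCommutative.is_comm.comm (⟨a, ha⟩ : (S : Subgroup G)) ⟨b, hb⟩)
    obtain ⟨-, hEC, hcomm, hdisj, hsup⟩ := hE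
    have htE : ∀ c ∈ E, Commute t c := fun c hc => hcomm t (Subgroup.mem_zpowers t) c hc
    have htt : t * t = 1 := by rw [← pow_two, ← ht, pow_orderOf_eq_one]
    have htnE : t ∉ E := fun h => by
      have : t ∈ Subgroup.zpowers t ⊓ E := ⟨Subgroup.mem_zpowers t, h⟩
      rw [hdisj, Subgroup.mem_bot] at this
      rw [this, orderOf_one] at ht
      exact absurd ht (by norm_num)
    -- every element of `S` is `e` or `t e`
    have hdec : ∀ s ∈ (S : Subgroup G), s ∈ E ∨ t * s ∈ E := by
      intro s hs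
      have hsC : s ∈ Subgroup.zpowers t ⊔ E := by
        rw [hsup, Subgroup.mem_centralizer_singleton_iff]
        exact hSc s hs t htS
      have hn : E ≤ Subgroup.normalizer (Subgroup.zpowers t : Set G) := by
        refine le_trans ?_ (Subgroup.centralizer_le_normalizer _)
        intro c hc
        rw [Subgroup.mem_centralizer_iff]
        intro z hz
        exact hcomm z hz c hc
      have hsC' : s ∈ ((Subgroup.zpowers t ⊔ E : Subgroup G) : Set G) := hsC
      rw [Subgroup.coe_mul_of_right_le_normalizer_left (Subgroup.zpowers t) E hn] at hsC'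
      obtain ⟨z, hz, c, hc, rfl⟩ := hsC'
      obtain ⟨j, rfl⟩ := Subgroup.mem_zpowers_iff.mp hz
      rcases Int.even_or_odd' j with ⟨l, rfl | rfl⟩
      · left
        show t ^ (2 * l) * c ∈ E
        rw [zpow_mul, zpow_two, htt, one_zpow, one_mul]
        exact hc
      · right
        show t * (t ^ (2 * l + 1) * c) ∈ E
        rw [zpow_add_one, zpow_mul, zpow_two, htt, one_zpow, one_mul, ← mul_assoc, htt, one_mul]
        exact hc
    -- a Sylow subgroup of `E`
    let SE : Subgroup E := (S : Subgroup G).subgroupOf E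
    have hSE2 : IsPGroup 2 SE :=
      S.2.comap_of_injective E.subtype (Subgroup.subtype_injective E)
    let TE : Sylow 2 E := ⟨SE, hSE2, fun {Q} hQ hle => le_antisymm (by
      intro q hq
      have hn : Subgroup.zpowers t ≤ Subgroup.normalizer ((Q.map E.subtype : Subgroup G) : Set G) := by
        refine le_trans ?_ (Subgroup.centralizer_le_normalizer _)
        rw [Subgroup.zpowers_le, Subgroup.mem_centralizer_iff]
        rintro _ ⟨w, -, rfl⟩
        exact (htE _ w.2).symm
      have hbig : IsPGroup 2 ((Q.map E.subtype) ⊔ Subgroup.zpowers t : Subgroup G) :=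
        IsPGroup.to_sup_of_normal_left' (hQ.map _) (IsPGroup.of_card (n := 1) (by
          rw [Nat.card_zpowers, ht, pow_one])) hn
      have hSle : (S : Subgroup G) ≤ Q.map E.subtype ⊔ Subgroup.zpowers t := by
        intro s hs
        rcases hdec s hs with h | h
        · exact Subgroup.mem_sup_left ⟨⟨s, h⟩, hle hs, rfl⟩
        · have hts : t * s ∈ (S : Subgroup G) := mul_mem htS hs
          rw [show s = t * (t * s) by rw [← mul_assoc, htt, one_mul]]
          exact mul_mem (Subgroup.mem_sup_right (Subgroup.mem_zpowers t))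
            (Subgroup.mem_sup_left ⟨⟨t * s, h⟩, hle hts, rfl⟩)
      exact (S.3 hbig hSle).le (Subgroup.mem_sup_left ⟨q, hq, rfl⟩)) hle⟩
    obtain ⟨V, hV⟩ := CfsgLib.CharP.exists_sylow_eq_inf_normal TE N
    have hVmem : ∀ v : N, v ∈ (V : Subgroup N) ↔ ((v : E) : G) ∈ (S : Subgroup G) := fun v => by
      constructor
      · intro hv
        exact (hV.le ⟨v, hv, rfl⟩).1
      · intro hv
        obtain ⟨w, hw, hwv⟩ := hV.ge ⟨(show (v : E) ∈ (TE : Subgroup E) from hv), v.2⟩
        rwa [Subtype.ext hwv] at hw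
    haveI hVc : IsMulCommutative (V : Subgroup N) := ⟨⟨fun a b => Subtype.ext (Subtype.ext (Subtype.ext
      (hSc _ ((hVmem a).mp a.2) _ ((hVmem b).mp b.2))))⟩⟩
    haveI : IsSimpleGroup (Matrix.ProjectiveSpecialLinearGroup (Fin 2) F) :=
      CfsgLib.Classical.Linear.isSimpleGroup_psl_fin le_rfl fun _ => by
        rw [Nat.card_eq_fintype_card]; omega
    haveI : Nontrivial N := e.toEquiv.nontrivial
    haveI : IsSimpleGroup N := IsSimpleGroup.isSimpleGroup_of_surjective e.symm.toMonoidHom e.symm.surjective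
    let V' : Sylow 2 (Matrix.ProjectiveSpecialLinearGroup (Fin 2) F) :=
      V.mapSurjective (f := e.toMonoidHom) e.surjective
    haveI : IsMulCommutative (V' : Subgroup (Matrix.ProjectiveSpecialLinearGroup (Fin 2) F)) := ⟨⟨fun a b => by
      obtain ⟨a, ha⟩ := a
      obtain ⟨b, hb⟩ := b
      have ha2 : a ∈ (V : Subgroup N).map e.toMonoidHom := ha
      have hb2 : b ∈ (V : Subgroup N).map e.toMonoidHom := hb
      obtain ⟨a', ha', rfl⟩ := ha2
      obtain ⟨b', hb', rfl⟩ := hb2
      refine Subtype.ext ?_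
      show e a' * e b' = e b' * e a'
      rw [← map_mul, ← map_mul]
      exact congrArg e (congrArg Subtype.val
        (hVc.is_comm.comm (⟨a', ha'⟩ : (V : Subgroup N)) ⟨b', hb'⟩))⟩⟩
    have hV4 : Nat.card (V : Subgroup N) = 4 := by
      rw [← psl_sylow hFo hF3 V']
      exact (Subgroup.card_map_of_injective (f := e.toMonoidHom) e.injective).symm
    have hNc' : ¬ IsMulCommutative N := fun h => by
      obtain ⟨q, hq⟩ := exists_ne (1 : N)
      have hqc : (q : E) ∈ Subgroup.centralizer (N : Set E) := by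
        rw [Subgroup.mem_centralizer_iff]
        intro w hw
        exact congrArg Subtype.val (h.is_comm.comm (⟨w, hw⟩ : N) q)
      rw [hNc, Subgroup.mem_bot] at hqc
      exact hq (Subtype.ext hqc)
    have hN2 : 2 ∣ Nat.card N := by
      have := Subgroup.card_subgroup_dvd_card (V : Subgroup N)
      rw [hV4] at this
      exact (by norm_num : 2 ∣ 4).trans this
    -- the Sylow subgroup of `E` lies in `N`
    have hSEN : ∀ c : E, (c : G) ∈ (S : Subgroup G) → c ∈ N := by
      intro c hc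
      let φ : MulAut N := MulAut.conjNormal c
      obtain ⟨j, hj⟩ := S.isPGroup' ⟨c, hc⟩
      have hj' : c ^ 2 ^ j = 1 := Subtype.ext (by simpa using congrArg Subtype.val hj)
      have hfix : ∀ v ∈ (V : Subgroup N), φ v = v := fun v hv => by
        refine Subtype.ext (Subtype.ext ?_)
        show (c : G) * ((v : E) : G) * (c : G)⁻¹ = ((v : E) : G)
        rw [hSc _ hc _ ((hVmem v).mp hv), mul_inv_cancel_right]
      obtain ⟨n, hn⟩ := CfsgLib.AbelianTwo.exists_conj_of_fix hNc' hN2 V j φ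
        (by rw [← map_pow, hj', map_one]) hfix
      have hcn : (n : E)⁻¹ * c ∈ Subgroup.centralizer (N : Set E) := by
        rw [Subgroup.mem_centralizer_iff]
        intro w hw
        have h' : (n : E) * w * (n : E)⁻¹ = c * w * c⁻¹ :=
          show (((MulAut.conj n) (⟨w, hw⟩ : N) : N) : E) = ((φ (⟨w, hw⟩ : N) : N) : E) from
            congrArg Subtype.val (DFunLike.congr_fun hn _)
        calc w * ((n : E)⁻¹ * c) = (n : E)⁻¹ * ((n : E) * w * (n : E)⁻¹) * c := by group
          _ = (n : E)⁻¹ * (c * w * c⁻¹) * c := by rw [h']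
          _ = (n : E)⁻¹ * c * w := by group
      rw [hNc, Subgroup.mem_bot, inv_mul_eq_one] at hcn
      exact hcn ▸ n.2
    have hel : ∀ s ∈ (S : Subgroup G), s * s = 1 := by
      intro s hs
      have key : ∀ c ∈ E, c ∈ (S : Subgroup G) → c * c = 1 := fun c hc hcS => by
        have hcN := hSEN ⟨c, hc⟩ hcS
        have := sq_of_four hNc' V hV4 ((hVmem ⟨⟨c, hc⟩, hcN⟩).mpr hcS)
        exact congrArg (fun w : N => ((w : E) : G)) this
      rcases hdec s hs with h | h
      · exact key s h hs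
      · have h' := key _ h (mul_mem htS hs)
        rwa [mul_assoc, ← mul_assoc s t, hSc s hs t htS, mul_assoc t s s, ← mul_assoc t t, htt, one_mul] at h'
    have hS8 : Nat.card (S : Subgroup G) = 8 := by
      let H : Subgroup (S : Subgroup G) := E.subgroupOf (S : Subgroup G)
      have hidx : H.index = 2 := by
        rw [Subgroup.index_eq_two_iff']
        refine ⟨⟨t, htS⟩, fun s => ?_⟩
        rw [xor_def]
        simp only [H, Subgroup.mem_subgroupOf, Subgroup.coe_mul]
        rcases hdec s.1 s.2 with h | h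
        · exact Or.inr ⟨h, fun h' => htnE (by simpa using mul_mem h' (inv_mem h))⟩
        · exact Or.inl ⟨h, fun h' => htnE (by simpa using mul_mem h (inv_mem h'))⟩
      have hH : Nat.card H = 4 := by
        rw [← hV4]
        refine Nat.card_congr ⟨fun s => ⟨⟨⟨(s : (S : Subgroup G)), s.2⟩, hSEN _ (s : (S : Subgroup G)).2⟩,
          (hVmem _).mpr (s : (S : Subgroup G)).2⟩, fun v => ⟨⟨((v : N) : E), (hVmem v).mp v.2⟩,
          ((v : N) : E).2⟩, fun s => rfl, fun v => rfl⟩
      rw [← Subgroup.card_mul_index H, hH, hidx]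
    have hker : (i.toMonoidHom.comp (QuotientGroup.mk' Z)).ker = Z := by
      ext z
      rw [MonoidHom.mem_ker, MonoidHom.comp_apply, MulEquiv.coe_toMonoidHom, EmbeddingLike.map_eq_one_iff,
        QuotientGroup.mk'_apply, QuotientGroup.eq_one_iff]
    rw [← hker]
    exact schur hG S hS8 hel _ (i.surjective.comp (QuotientGroup.mk'_surjective Z)) hperf
      (by rw [hker]; exact hcen) (by rw [hker]; exact hZ2)
  · rintro φ k hk ⟨S, hS⟩
    haveI := hab S
    obtain ⟨g, hg⟩ := CfsgLib.AbelianTwo.exists_conj_of_fix hG h2 S k φ hk hS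
    exact ⟨g, fun x => by rw [← hg]; rfl⟩

end Cfsg.Agent.S3206
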