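import Cfsg.Statements.S3208
import Mathlib.GroupTheory.Nilpotent
import Mathlib.GroupTheory.Sylow
-- import your own Cfsg.Agent.* helpers here

set_option autoImplicit false
open Cfsg

namespace Cfsg.Agent.S3208

/-- Let j be an involution of a finite group G, H a subgroup of G, and T a Sylow 2-subgroup of H ∩ C_G(j) containing j such that ⟨j⟩ is a characteristic subgroup of T. Then T is a Sylow 2-subgroup of H. -/
theorem result {G : Type*} [Group G] [Finite G]
    (j : G) (hj : orderOf j = 2) (H T : Subgroup G) (hT : T ≤ H ⊓ Subgroup.centralizer ({j} : Set G)) (h2 : IsPGroup 2 ↥T)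
    (hSyl : ¬ 2 ∣ T.relIndex (H ⊓ Subgroup.centralizer ({j} : Set G))) (hjT : j ∈ T)
    (hchar : ((Subgroup.zpowers j).subgroupOf T).Characteristic) :
    ¬ 2 ∣ T.relIndex H := by
  haveI : Fact (Nat.Prime 2) := ⟨Nat.prime_two⟩
  intro hdvd
  have hTH : T ≤ H := hT.trans inf_le_left
  let T' : Subgroup H := T.subgroupOf H
  have hT' : IsPGroup 2 T' := h2.of_equiv (Subgroup.subgroupOfEquivOfLe hTH).symm
  obtain ⟨P, hP⟩ := hT'.exists_le_sylow
  have hPne : T' ≠ (P : Subgroup H) := by
    intro h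
    exact P.not_dvd_index (h ▸ hdvd)
  have hlt : T'.subgroupOf (P : Subgroup H) < ⊤ := by
    rw [lt_top_iff_ne_top]
    intro h
    exact hPne (le_antisymm hP (Subgroup.subgroupOf_eq_top.1 h))
  haveI : Group.IsNilpotent (P : Subgroup H) := P.isPGroup'.isNilpotent
  have hnorm := normalizerCondition_of_isNilpotent _ hlt
  obtain ⟨p, hpN, hpT⟩ := SetLike.exists_of_lt hnorm
  let g : G := ((p : H) : G)
  have hgH : g ∈ H := (p : H).2
  have hgT : g ∉ T := fun h => hpT h
  have hconj : ∀ a ∈ T, g * a * g⁻¹ ∈ T := fun a ha => by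
    exact (Subgroup.mem_normalizer_iff.1 hpN ⟨⟨a, hTH ha⟩, hP (show (⟨a, hTH ha⟩ : H) ∈ T' from ha)⟩).1 ha
  have hconj' : ∀ a ∈ T, g⁻¹ * a * g ∈ T := fun a ha => by
    have := (Subgroup.mem_normalizer_iff.1 (inv_mem hpN) ⟨⟨a, hTH ha⟩, hP (show (⟨a, hTH ha⟩ : H) ∈ T' from ha)⟩).1 ha
    rw [inv_inv] at this
    exact this
  let e : ↥T ≃* ↥T :=
    { toFun := fun a => ⟨g * (a : G) * g⁻¹, hconj a a.2⟩
      invFun := fun a => ⟨g⁻¹ * (a : G) * g, hconj' a a.2⟩
      left_inv := fun a => Subtype.ext (by simp [mul_assoc])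
      right_inv := fun a => Subtype.ext (by simp [mul_assoc])
      map_mul' := fun a b => Subtype.ext (by simp [mul_assoc]) }
  have hfix := hchar.fixed e
  have hgj : g * j * g⁻¹ ∈ Subgroup.zpowers j := by
    have h1 : (⟨j, hjT⟩ : T) ∈ (Subgroup.zpowers j).subgroupOf T := Subgroup.mem_zpowers j
    rw [← hfix] at h1
    exact h1
  have hgj' : g * j * g⁻¹ = j := by
    classical
    rw [mem_zpowers_iff_mem_range_orderOf, hj] at hgj
    simp only [Finset.range_add_one, Finset.range_zero, insert_empty_eq, Finset.image_insert,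
      Finset.image_singleton, pow_one, pow_zero, Finset.mem_insert, Finset.mem_singleton] at hgj
    rcases hgj with h | h
    · exact h
    · exfalso
      have hjne : j = 1 := by simpa using h
      rw [hjne, orderOf_one] at hj
      omega
  have hgC : g ∈ H ⊓ Subgroup.centralizer ({j} : Set G) :=
    ⟨hgH, Subgroup.mem_centralizer_singleton_iff.2 (by
      calc g * j = (g * j * g⁻¹) * g := by group
        _ = j * g := by rw [hgj'])⟩
  let C := H ⊓ Subgroup.centralizer ({j} : Set G)
  let K : Subgroup G := T ⊔ Subgroup.zpowers g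
  have hKC : K ≤ C := sup_le hT (Subgroup.zpowers_le.2 hgC)
  have hK2 : IsPGroup 2 K := by
    have hle : K ≤ (P : Subgroup H).map H.subtype := by
      refine sup_le (fun a ha => ⟨⟨a, hTH ha⟩, hP ha, rfl⟩) ?_
      rw [Subgroup.zpowers_le]
      exact ⟨(p : H), p.2, rfl⟩
    exact (P.isPGroup'.map H.subtype).to_le hle
  have hTK : T ≤ K := le_sup_left
  obtain ⟨k, hk⟩ := hK2.exists_card_eq
  have hmul := Subgroup.relIndex_mul_relIndex _ _ _ hTK hKC
  have hne1 : T.relIndex K ≠ 1 := by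
    intro h1
    exact hgT ((Subgroup.relIndex_eq_one.1 h1) (Subgroup.mem_sup_right (Subgroup.mem_zpowers g)))
  have hd : T.relIndex K ∣ 2 ^ k := hk ▸ Subgroup.relIndex_dvd_card T K
  obtain ⟨i, hi, hik⟩ := (Nat.dvd_prime_pow Nat.prime_two).1 hd
  have h2d : 2 ∣ T.relIndex K := by
    rw [hik]
    exact dvd_pow_self 2 (by rintro rfl; exact hne1 (by simpa using hik))
  exact hSyl (hmul ▸ h2d.mul_right _)

end Cfsg.Agent.S3208
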