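import Cfsg.Statements.S3209
import Cfsg.Agent.CommutingSLTwo.Pair
-- import your own Cfsg.Agent.* helpers here

set_option autoImplicit false
open Cfsg

namespace Cfsg.Agent.S3209

/-- Let L₁ ≅ SL₂(q₁) and L₂ ≅ SL₂(q₂), q₁ and q₂ odd, be elementwise-commuting subgroups of a finite group meeting in ⟨j⟩ for an involution j. Then L₁L₂ has exactly two conjugacy classes of involutions: the central involution j, and one further class (there is an involution x ≠ j in L₁L₂, and every involution of L₁L₂ other than j is conjugate to x by an element of L₁L₂). -/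
theorem result {G : Type*} [Group G] [Finite G]
    {F₁ : Type*} [Field F₁] [Fintype F₁] {F₂ : Type*} [Field F₂] [Fintype F₂]
    (hF₁ : Odd (Fintype.card F₁)) (hF₂ : Odd (Fintype.card F₂)) (L₁ L₂ : Subgroup G)
    (e₁ : ↥L₁ ≃* Matrix.SpecialLinearGroup (Fin 2) F₁) (e₂ : ↥L₂ ≃* Matrix.SpecialLinearGroup (Fin 2) F₂)
    (hc : ∀ x ∈ L₁, ∀ y ∈ L₂, x * y = y * x) (j : G) (hj : orderOf j = 2) (hm : L₁ ⊓ L₂ = Subgroup.zpowers j) :
    ∃ x ∈ L₁ ⊔ L₂, orderOf x = 2 ∧ x ≠ j ∧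
      ∀ y ∈ L₁ ⊔ L₂, orderOf y = 2 → y = j ∨ ∃ g ∈ L₁ ⊔ L₂, g * x * g⁻¹ = y := by
  have hjm : j ∈ L₁ ⊓ L₂ := hm ▸ Subgroup.mem_zpowers j
  have hjj : j * j = 1 := by
    have := pow_orderOf_eq_one j
    rw [hj, pow_two] at this
    exact this
  obtain ⟨r, hr, hrr, hru⟩ := CfsgLib.CommutingSLTwo.exists_sqrt_j hF₁ e₁ hj hjm.1
  obtain ⟨s, hs, hss, hsu⟩ := CfsgLib.CommutingSLTwo.exists_sqrt_j hF₂ e₂ hj hjm.2
  have hsq : ∀ {a b : G}, a ∈ L₁ → b ∈ L₂ → a * b * (a * b) = (a * a) * (b * b) := by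
    intro a b ha hb
    calc a * b * (a * b) = a * (b * a) * b := by group
      _ = a * (a * b) * b := by rw [hc a ha b hb]
      _ = _ := by group
  refine ⟨r * s, mul_mem (Subgroup.mem_sup_left hr) (Subgroup.mem_sup_right hs), ?_, ?_, ?_⟩
  · apply orderOf_eq_prime
    · rw [pow_two, hsq hr hs, hrr, hss, hjj]
    · intro h
      have hrs : r = s⁻¹ := eq_inv_of_mul_eq_one_left h
      have hmem : r ∈ L₁ ⊓ L₂ := Subgroup.mem_inf.2 ⟨hr, hrs ▸ L₂.inv_mem hs⟩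
      rw [hm] at hmem
      rcases CfsgLib.CommutingSLTwo.eq_one_or_eq_of_mem_zpowers hj hmem with h1 | h1
      · rw [h1, mul_one] at hrr
        rw [← hrr, orderOf_one] at hj
        omega
      · rw [h1, hjj] at hrr
        rw [← hrr, orderOf_one] at hj
        omega
  · intro h
    have hmem : r ∈ L₁ ⊓ L₂ := ⟨hr, by
      have hrs : r = j * s⁻¹ := eq_mul_inv_of_mul_eq h
      exact hrs ▸ L₂.mul_mem hjm.2 (L₂.inv_mem hs)⟩
    rw [hm] at hmem
    rcases CfsgLib.CommutingSLTwo.eq_one_or_eq_of_mem_zpowers hj hmem with h1 | h1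
    · rw [h1, mul_one] at hrr
      rw [← hrr, orderOf_one] at hj
      omega
    · rw [h1, hjj] at hrr
      rw [← hrr, orderOf_one] at hj
      omega
  · intro y hy hy2
    obtain ⟨a, ha, b, hb, rfl⟩ := CfsgLib.CommutingSLTwo.mem_sup_exists hc hy
    have hyy : (a * a) * (b * b) = 1 := by
      rw [← hsq ha hb, ← pow_two]
      exact hy2 ▸ pow_orderOf_eq_one _
    have haa : a * a = (b * b)⁻¹ := eq_inv_of_mul_eq_one_left hyy
    have hmem : a * a ∈ L₁ ⊓ L₂ :=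
      Subgroup.mem_inf.2 ⟨L₁.mul_mem ha ha, haa ▸ L₂.inv_mem (L₂.mul_mem hb hb)⟩
    rw [hm] at hmem
    rcases CfsgLib.CommutingSLTwo.eq_one_or_eq_of_mem_zpowers hj hmem with h1 | h1
    · left
      rw [h1, one_mul] at hyy
      have h2₁ := CfsgLib.CommutingSLTwo.two_ne_zero_of_odd hF₁
      have h2₂ := CfsgLib.CommutingSLTwo.two_ne_zero_of_odd hF₂
      rcases CfsgLib.CommutingSLTwo.sq_one_mem h2₁ e₁ hj hjm.1 ha h1 with rfl | rfl <;>
        rcases CfsgLib.CommutingSLTwo.sq_one_mem h2₂ e₂ hj hjm.2 hb hyy with rfl | rfl <;>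
        first
          | rfl
          | (exfalso; rw [one_mul, orderOf_one] at hy2; omega)
          | exact one_mul _
          | exact mul_one _
          | (exfalso; rw [hjj, orderOf_one] at hy2; omega)
    · right
      rw [h1] at hyy
      have hbb : b * b = j := by
        have h' : b * b = j⁻¹ := eq_inv_of_mul_eq_one_right hyy
        rw [h', inv_eq_of_mul_eq_one_right hjj]
      obtain ⟨g₁, hg₁, rfl⟩ := hru a ha h1
      obtain ⟨g₂, hg₂, rfl⟩ := hsu b hb hbb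
      refine ⟨g₁ * g₂, mul_mem (Subgroup.mem_sup_left hg₁) (Subgroup.mem_sup_right hg₂), ?_⟩
      have c1 := hc r hr g₂ hg₂
      have c2 := hc g₁⁻¹ (inv_mem hg₁) (g₂ * s * g₂⁻¹) (mul_mem (mul_mem hg₂ hs) (inv_mem hg₂))
      calc g₁ * g₂ * (r * s) * (g₁ * g₂)⁻¹ = g₁ * (g₂ * r) * s * g₂⁻¹ * g₁⁻¹ := by group
        _ = g₁ * (r * g₂) * s * g₂⁻¹ * g₁⁻¹ := by rw [c1]
        _ = g₁ * r * ((g₂ * s * g₂⁻¹) * g₁⁻¹) := by group
        _ = g₁ * r * (g₁⁻¹ * (g₂ * s * g₂⁻¹)) := by rw [c2]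
        _ = _ := by group

end Cfsg.Agent.S3209
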