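import Cfsg.Statements.S3210
import Cfsg.Agent.CommutingSLTwo.Pair
-- import your own Cfsg.Agent.* helpers here

set_option autoImplicit false
set_option maxHeartbeats 400000
open Cfsg

namespace Cfsg.Agent.S3210

/-- No image of a factor lies in `⟨j⟩`. -/
theorem image_not_le {G : Type*} [Group G] {F : Type*} [Field F] [Fintype F]
    (hF : Odd (Fintype.card F)) (L : Subgroup G) (e : ↥L ≃* Matrix.SpecialLinearGroup (Fin 2) F)
    (n : G) {j : G} (hj : orderOf j = 2) (hjL : j ∈ L) :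
    ¬ L.map (MulAut.conj n).toMonoidHom ≤ Subgroup.zpowers j := by
  intro h
  obtain ⟨r, hr, hrr, -⟩ := CfsgLib.CommutingSLTwo.exists_sqrt_j hF e hj hjL
  have hjj : j * j = 1 := by
    have := pow_orderOf_eq_one j
    rw [hj, pow_two] at this
    exact this
  have h1 := CfsgLib.CommutingSLTwo.eq_one_or_eq_of_mem_zpowers hj
    (h (Subgroup.mem_map_of_mem _ hr))
  have hj1 : (MulAut.conj n).toMonoidHom j = 1 := by
    rw [← hrr, map_mul]
    rcases h1 with h1 | h1 <;> rw [h1]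
    · exact one_mul 1
    · exact hjj
  have : j = 1 := (MulAut.conj n).injective (by rw [map_one]; exact hj1)
  rw [this, orderOf_one] at hj
  omega

/-- Let G be a finite group with subgroups L₁ ≅ SL₂(q₁) and L₂ ≅ SL₂(q₂), q₁ and q₂ odd prime powers, which commute elementwise and meet in ⟨j⟩ for an involution j, and suppose L₁L₂ has index 2 in C_G(j). Then every element n of C_G(j) outside L₁L₂ either normalizes both L₁ and L₂, or conjugates L₁ onto L₂; in the second case q₁ = q₂ and there is an element n′ of C_G(j) outside L₁L₂ conjugating L₁ onto L₂ with n′² ∈ ⟨j⟩. -/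
theorem result {G : Type*} [Group G] [Finite G]
    {F₁ : Type*} [Field F₁] [Fintype F₁] {F₂ : Type*} [Field F₂] [Fintype F₂]
    (hF₁ : Odd (Fintype.card F₁)) (hF₂ : Odd (Fintype.card F₂)) (L₁ L₂ : Subgroup G)
    (e₁ : ↥L₁ ≃* Matrix.SpecialLinearGroup (Fin 2) F₁) (e₂ : ↥L₂ ≃* Matrix.SpecialLinearGroup (Fin 2) F₂)
    (hc : ∀ x ∈ L₁, ∀ y ∈ L₂, x * y = y * x) (j : G) (hj : orderOf j = 2) (hm : L₁ ⊓ L₂ = Subgroup.zpowers j)
    (hle : L₁ ⊔ L₂ ≤ Subgroup.centralizer ({j} : Set G)) (hi : (L₁ ⊔ L₂).relIndex (Subgroup.centralizer ({j} : Set G)) = 2) (n : G) (hn : n ∈ Subgroup.centralizer ({j} : Set G)) (hn' : n ∉ L₁ ⊔ L₂) :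
    (L₁.map (MulAut.conj n).toMonoidHom = L₁ ∧ L₂.map (MulAut.conj n).toMonoidHom = L₂) ∨
      (L₁.map (MulAut.conj n).toMonoidHom = L₂ ∧ Fintype.card F₁ = Fintype.card F₂ ∧
        ∃ n' ∈ Subgroup.centralizer ({j} : Set G), n' ∉ L₁ ⊔ L₂ ∧ L₁.map (MulAut.conj n').toMonoidHom = L₂ ∧ n' ^ 2 ∈ Subgroup.zpowers j) := by
  haveI hN : ((L₁ ⊔ L₂).subgroupOf (Subgroup.centralizer ({j} : Set G))).Normal :=
    Subgroup.normal_of_index_eq_two hi
  have hjm : j ∈ L₁ ⊓ L₂ := hm ▸ Subgroup.mem_zpowers j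
  have h2₁ := CfsgLib.CommutingSLTwo.two_ne_zero_of_odd hF₁
  have h2₂ := CfsgLib.CommutingSLTwo.two_ne_zero_of_odd hF₂
  have hYn : ∀ g ∈ Subgroup.centralizer ({j} : Set G), ∀ y ∈ L₁ ⊔ L₂, g * y * g⁻¹ ∈ L₁ ⊔ L₂ :=
    fun g hg y hy => hN.conj_mem ⟨y, hle hy⟩ hy ⟨g, hg⟩
  let c := (MulAut.conj n).toMonoidHom
  have hYmap : (L₁ ⊔ L₂).map c = L₁ ⊔ L₂ := by
    apply le_antisymm
    · rintro _ ⟨y, hy, rfl⟩
      exact hYn n hn y hy
    · intro y hy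
      refine ⟨n⁻¹ * y * n, by simpa using hYn n⁻¹ (inv_mem hn) y hy, ?_⟩
      simp [c, mul_assoc]
  set M := L₁.map c with hM
  set N := L₂.map c with hN'
  have hMN : M ⊔ N = L₁ ⊔ L₂ := by rw [hM, hN', ← Subgroup.map_sup, hYmap]
  have hcMN : ∀ x ∈ M, ∀ y ∈ N, x * y = y * x := by
    rintro _ ⟨x, hx, rfl⟩ _ ⟨y, hy, rfl⟩
    rw [← map_mul, ← map_mul, hc x hx y hy]
  have hc' : ∀ x ∈ L₂, ∀ y ∈ L₁, x * y = y * x := fun x hx y hy => (hc y hy x hx).symm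
  have self_norm : ∀ l ∈ L₁ ⊔ L₂, (∀ k ∈ L₁, l * k * l⁻¹ ∈ L₁) ∧ (∀ k ∈ L₂, l * k * l⁻¹ ∈ L₂) := by
    intro l hl
    obtain ⟨a, ha, b, hb, rfl⟩ := CfsgLib.CommutingSLTwo.mem_sup_exists hc hl
    refine ⟨fun k hk => ?_, fun k hk => ?_⟩
    · have h := hc k hk b hb
      have : a * b * k * (a * b)⁻¹ = a * k * a⁻¹ := by
        calc a * b * k * (a * b)⁻¹ = a * (b * k) * b⁻¹ * a⁻¹ := by group
          _ = a * (k * b) * b⁻¹ * a⁻¹ := by rw [h]
          _ = _ := by group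
      rw [this]; exact mul_mem (mul_mem ha hk) (inv_mem ha)
    · have h := hc a ha (b * k * b⁻¹) (mul_mem (mul_mem hb hk) (inv_mem hb))
      have : a * b * k * (a * b)⁻¹ = b * k * b⁻¹ := by
        calc a * b * k * (a * b)⁻¹ = (a * (b * k * b⁻¹)) * a⁻¹ := by group
          _ = ((b * k * b⁻¹) * a) * a⁻¹ := by rw [h]
          _ = _ := by group
      rw [this]; exact mul_mem (mul_mem hb hk) (inv_mem hb)
  have hnormY : ∀ l ∈ L₁ ⊔ L₂, (∀ k ∈ M, l * k * l⁻¹ ∈ M) ∧ (∀ k ∈ N, l * k * l⁻¹ ∈ N) := by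
    intro l hl
    rw [← hYmap] at hl
    obtain ⟨l, hl, rfl⟩ := hl
    refine ⟨?_, ?_⟩ <;> rintro _ ⟨k, hk, rfl⟩ <;> refine ⟨l * k * l⁻¹, ?_, by simp⟩
    · exact (self_norm l hl).1 k hk
    · exact (self_norm l hl).2 k hk
  have hm' : L₂ ⊓ L₁ = Subgroup.zpowers j := by rw [inf_comm, hm]
  have hMN' : M ⊔ N = L₂ ⊔ L₁ := by rw [hMN, sup_comm]
  have d1 := CfsgLib.CommutingSLTwo.le_or_le h2₁ e₁ hc hj hm M N hMN hcMN
    (fun l hl => (hnormY l (Subgroup.mem_sup_left hl)).1)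
    (fun l hl => (hnormY l (Subgroup.mem_sup_left hl)).2)
  have d2 := CfsgLib.CommutingSLTwo.le_or_le h2₂ e₂ hc' hj hm' M N hMN' hcMN
    (fun l hl => (hnormY l (Subgroup.mem_sup_right hl)).1)
    (fun l hl => (hnormY l (Subgroup.mem_sup_right hl)).2)
  have hbig₁ := image_not_le hF₁ L₁ e₁ n hj hjm.1
  have hbig₂ := image_not_le hF₂ L₂ e₂ n hj hjm.2
  have hcases : (M ≤ L₁ ∧ N ≤ L₂) ∨ (M ≤ L₂ ∧ N ≤ L₁) := by
    rcases d1 with h1 | h1 <;> rcases d2 with h2 | h2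
    · exact absurd ((le_inf h2 h1).trans hm.le) hbig₁
    · exact Or.inr ⟨h1, h2⟩
    · exact Or.inl ⟨h2, h1⟩
    · exact absurd ((le_inf h2 h1).trans hm.le) hbig₂
  have heqs : ∀ {A B A' B' : Subgroup G}, A ≤ A' → B ≤ B' → A ⊔ B = A' ⊔ B' →
      (∀ x ∈ A, ∀ y ∈ B, x * y = y * x) → A' ⊓ B' = Subgroup.zpowers j → j ∈ A → A = A' := by
    intro A B A' B' hA hB hs hcAB hm'' hjA
    refine le_antisymm hA fun x hx => ?_
    obtain ⟨u, hu, v, hv, rfl⟩ :=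
      CfsgLib.CommutingSLTwo.mem_sup_exists hcAB (show x ∈ A ⊔ B by rw [hs]; exact Subgroup.mem_sup_left hx)
    have hvA : v ∈ A' := (A'.mul_mem_cancel_left (hA hu)).1 hx
    have hv' : v ∈ Subgroup.zpowers j := by
      rw [← hm'']; exact Subgroup.mem_inf.2 ⟨hvA, hB hv⟩
    exact mul_mem hu (Subgroup.zpowers_le.2 hjA hv')
  have hcj : c j = j := by
    have h := Subgroup.mem_centralizer_singleton_iff.1 hn
    show n * j * n⁻¹ = j
    rw [h, mul_inv_cancel_right]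
  have hjM : j ∈ M := ⟨j, hjm.1, hcj⟩
  have hjN : j ∈ N := ⟨j, hjm.2, hcj⟩
  have hcNM : ∀ x ∈ N, ∀ y ∈ M, x * y = y * x := fun x hx y hy => (hcMN y hy x hx).symm
  rcases hcases with ⟨h1, h2⟩ | ⟨h1, h2⟩
  · exact Or.inl ⟨heqs h1 h2 hMN hcMN hm hjM,
      heqs h2 h1 (by rw [sup_comm, hMN']) hcNM hm' hjN⟩
  · right
    have hML : M = L₂ := heqs h1 h2 hMN' hcMN hm' hjM
    have hNL : N = L₁ := heqs h2 h1 (by rw [sup_comm, hMN]) hcNM hm hjN
    have hcard : Fintype.card F₁ = Fintype.card F₂ := by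
      apply CfsgLib.CommutingSLTwo.card_field_eq
      rw [← Nat.card_congr e₁.toEquiv, ← Nat.card_congr e₂.toEquiv, ← hML]
      exact Nat.card_congr (L₁.equivMapOfInjective c (MulAut.conj n).injective).toEquiv
    refine ⟨hML, hcard, ?_⟩
    have hn2 : n * n ∈ L₁ ⊔ L₂ :=
      (Subgroup.mul_mem_iff_of_index_two hi (a := (⟨n, hn⟩ : Subgroup.centralizer ({j} : Set G)))
        (b := ⟨n, hn⟩)).2 Iff.rfl
    obtain ⟨a, ha, b, hb, hab⟩ := CfsgLib.CommutingSLTwo.mem_sup_exists hc hn2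
    have haC : a ∈ Subgroup.centralizer ({j} : Set G) := hle (Subgroup.mem_sup_left ha)
    refine ⟨a⁻¹ * n, mul_mem (inv_mem haC) hn, ?_, ?_, ?_⟩
    · intro h
      exact hn' (((L₁ ⊔ L₂).mul_mem_cancel_left (inv_mem (Subgroup.mem_sup_left ha))).1 h)
    · ext y
      constructor
      · rintro ⟨x, hx, rfl⟩
        have h3 : n * x * n⁻¹ ∈ L₂ := hML ▸ ⟨x, hx, rfl⟩
        have := (self_norm a⁻¹ (Subgroup.mem_sup_left (inv_mem ha))).2 _ h3
        show a⁻¹ * n * x * (a⁻¹ * n)⁻¹ ∈ L₂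
        convert this using 1
        group
      · intro hy
        have := (self_norm a (Subgroup.mem_sup_left ha)).2 y hy
        rw [← hML] at this
        obtain ⟨x, hx, hxe⟩ := this
        refine ⟨x, hx, ?_⟩
        have hxe' : n * x * n⁻¹ = a * y * a⁻¹ := hxe
        show a⁻¹ * n * x * (a⁻¹ * n)⁻¹ = y
        calc a⁻¹ * n * x * (a⁻¹ * n)⁻¹ = a⁻¹ * (n * x * n⁻¹) * a := by group
          _ = y := by rw [hxe']; group
    · -- `n` commutes with `n² = ab` and exchanges the factors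
      have hna : n * a * n⁻¹ ∈ L₂ := hML ▸ ⟨a, ha, rfl⟩
      have hnb : n * b * n⁻¹ ∈ L₁ := hNL ▸ ⟨b, hb, rfl⟩
      have hk : b * (n * a * n⁻¹)⁻¹ = a⁻¹ * (n * b * n⁻¹) := by
        have e1 : n * a * n⁻¹ * (n * b * n⁻¹) = a * b := by
          calc n * a * n⁻¹ * (n * b * n⁻¹) = n * (a * b) * n⁻¹ := by group
            _ = _ := by rw [hab]; group
        have c1 := hc _ hnb _ hna
        rw [← c1] at e1
        calc b * (n * a * n⁻¹)⁻¹ = a⁻¹ * (a * b) * (n * a * n⁻¹)⁻¹ := by group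
          _ = a⁻¹ * (n * b * n⁻¹ * (n * a * n⁻¹)) * (n * a * n⁻¹)⁻¹ := by rw [e1]
          _ = _ := by group
      have hz : b * (n * a * n⁻¹)⁻¹ ∈ L₁ ⊓ L₂ :=
        Subgroup.mem_inf.2 ⟨hk ▸ L₁.mul_mem (L₁.inv_mem ha) hnb, L₂.mul_mem hb (L₂.inv_mem hna)⟩
      rw [hm] at hz
      have hzero : (a⁻¹ * n) ^ 2 = a⁻¹ * (n * a * n⁻¹)⁻¹ * (n * n) := by
        rw [pow_two]; group
      rw [hzero, ← hab]
      have c2 := hc a ha (n * a * n⁻¹)⁻¹ (inv_mem hna)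
      have c3 := hc a ha b hb
      have : a⁻¹ * (n * a * n⁻¹)⁻¹ * (a * b) = (n * a * n⁻¹)⁻¹ * b := by
        calc a⁻¹ * (n * a * n⁻¹)⁻¹ * (a * b) = a⁻¹ * ((n * a * n⁻¹)⁻¹ * a) * b := by group
          _ = a⁻¹ * (a * (n * a * n⁻¹)⁻¹) * b := by rw [c2]
          _ = _ := by group
      rw [this]
      have hz' : (n * a * n⁻¹)⁻¹ * b =
          (n * a * n⁻¹)⁻¹ * (b * (n * a * n⁻¹)⁻¹) * (n * a * n⁻¹) := by group
      rw [hz']
      have hcent : ∀ w ∈ L₂, w⁻¹ * (b * (n * a * n⁻¹)⁻¹) * w = b * (n * a * n⁻¹)⁻¹ := by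
        intro w hw
        have : (b * (n * a * n⁻¹)⁻¹) ∈ L₁ := (hm ▸ hz : _ ∈ L₁ ⊓ L₂).1
        have hcw := hc _ this w hw
        calc w⁻¹ * (b * (n * a * n⁻¹)⁻¹) * w = w⁻¹ * ((b * (n * a * n⁻¹)⁻¹) * w) := by group
          _ = w⁻¹ * (w * (b * (n * a * n⁻¹)⁻¹)) := by rw [hcw]
          _ = _ := by group
      rw [hcent _ hna]
      exact hz

end Cfsg.Agent.S3210
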