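import Cfsg.Statements.S3213
import Mathlib.LinearAlgebra.Matrix.SpecialLinearGroup
import Mathlib.LinearAlgebra.SymplecticGroup
import Mathlib.GroupTheory.Perm.Cycle.Type
import Mathlib.FieldTheory.Finite.Basic
import Mathlib.Tactic
-- import your own Cfsg.Agent.* helpers here

set_option autoImplicit false
set_option maxHeartbeats 800000
open Cfsg

namespace Cfsg.Agent.S3213

open Matrix

/-- Product of `2 × 2` matrices written as entry tuples. -/
abbrev Quad := ZMod 5 × ZMod 5 × ZMod 5 × ZMod 5

def qmul (p q : Quad) : Quad :=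
  (p.1 * q.1 + p.2.1 * q.2.2.1, p.1 * q.2.1 + p.2.1 * q.2.2.2,
   p.2.2.1 * q.1 + p.2.2.2 * q.2.2.1, p.2.2.1 * q.2.1 + p.2.2.2 * q.2.2.2)

def qone : Quad := (1, 0, 0, 1)

def qinv (p : Quad) : Quad := (p.2.2.2, -p.2.1, -p.2.2.1, p.1)

def qcand : List Quad :=
  [(1, 1, 0, 1), (1, 2, 0, 1), (1, 0, 1, 1), (1, 0, 2, 1), (2, 0, 0, 3), (0, 4, 1, 0)]

/-- `(x * g x g⁻¹) ^ 2`. -/
def qword (x g : Quad) : Quad :=
  qmul (qmul x (qmul (qmul g x) (qinv g))) (qmul x (qmul (qmul g x) (qinv g)))

theorem finite_check : ∀ a b c d : ZMod 5, a * d - b * c = 1 → (a, b, c, d) ≠ qone →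
    qmul (qmul (a, b, c, d) (a, b, c, d)) (a, b, c, d) = qone →
    ∃ g ∈ qcand, g.1 * g.2.2.2 - g.2.1 * g.2.2.1 = 1 ∧ qword (a, b, c, d) g ≠ qone ∧
      qmul (qmul (qword (a, b, c, d) g) (qword (a, b, c, d) g))
        (qmul (qmul (qword (a, b, c, d) g) (qword (a, b, c, d) g)) (qword (a, b, c, d) g)) = qone := by
  decide

/-- The tuple of an element of `SL(2,5)`. -/
def toQuad (g : Matrix.SpecialLinearGroup (Fin 2) (ZMod 5)) : Quad :=
  (g.1 0 0, g.1 0 1, g.1 1 0, g.1 1 1)

theorem toQuad_injective : Function.Injective toQuad := by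
  intro g h e
  simp only [toQuad, Prod.mk.injEq] at e
  obtain ⟨e1, e2, e3, e4⟩ := e
  apply Subtype.ext
  ext i k
  fin_cases i <;> fin_cases k <;> assumption

theorem toQuad_mul (g h : Matrix.SpecialLinearGroup (Fin 2) (ZMod 5)) :
    toQuad (g * h) = qmul (toQuad g) (toQuad h) := by
  simp [toQuad, qmul, Matrix.mul_apply, Fin.sum_univ_two]

theorem toQuad_one : toQuad 1 = qone := by simp [toQuad, qone]

theorem toQuad_inv (g : Matrix.SpecialLinearGroup (Fin 2) (ZMod 5)) :
    toQuad g⁻¹ = qinv (toQuad g) := by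
  simp [toQuad, qinv, Matrix.adjugate_fin_two]

/-- Two conjugates of an element of order three whose product has order five or ten. -/
theorem exists_pair {K : Type*} [Field K] [Fintype K] (hK : Fintype.card K = 5)
    (x : Matrix.SpecialLinearGroup (Fin 2) K) (hx : orderOf x = 3) :
    ∃ g : Matrix.SpecialLinearGroup (Fin 2) K,
      (x * (g * x * g⁻¹)) ^ 2 ≠ 1 ∧ ((x * (g * x * g⁻¹)) ^ 2) ^ 5 = 1 := by
  haveI : Fact (Nat.Prime 5) := ⟨by norm_num⟩
  let e : ZMod 5 ≃+* K := ZMod.ringEquivOfPrime K (by norm_num) hK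
  let f := Matrix.SpecialLinearGroup.map (n := Fin 2) e.toRingHom
  let f' := Matrix.SpecialLinearGroup.map (n := Fin 2) e.symm.toRingHom
  have hff' : ∀ y, f (f' y) = y := fun y => Subtype.ext (by ext i k; simp [f, f'])
  have hf1 : ∀ y, f y = 1 → y = 1 := by
    intro y h
    apply Subtype.ext
    ext i k
    have h' := congrArg (fun M : Matrix.SpecialLinearGroup (Fin 2) K => M.1 i k) h
    simp [f] at h'
    apply e.injective
    rw [h']
    rcases eq_or_ne i k with rfl | hik
    · simp
    · simp [Matrix.one_apply_ne hik]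
  set X := f' x with hX
  have hX1 : X ≠ 1 := by
    intro h
    have : x = 1 := by rw [← hff' x, ← hX, h, map_one]
    rw [this, orderOf_one] at hx
    omega
  have hX3 : X * X * X = 1 := by
    rw [hX, ← map_mul, ← map_mul, show x * x * x = x ^ 3 by rw [pow_succ, pow_two], ← hx,
      pow_orderOf_eq_one, map_one]
  obtain ⟨g, -, hg, h1, h5⟩ := finite_check (X.1 0 0) (X.1 0 1) (X.1 1 0) (X.1 1 1)
    (by rw [← Matrix.det_fin_two]; exact X.2)
    (fun h => hX1 (toQuad_injective (h.trans toQuad_one.symm)))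
    (by
      have := congrArg toQuad hX3
      rw [toQuad_mul, toQuad_mul, toQuad_one] at this
      exact this)
  let g' : Matrix.SpecialLinearGroup (Fin 2) (ZMod 5) :=
    ⟨!![g.1, g.2.1; g.2.2.1, g.2.2.2], by rw [Matrix.det_fin_two_of]; exact hg⟩
  have hg' : toQuad g' = g := rfl
  set W := X * (g' * X * g'⁻¹) * (X * (g' * X * g'⁻¹)) with hW
  have hWq : toQuad W = qword (X.1 0 0, X.1 0 1, X.1 1 0, X.1 1 1) g := by
    rw [hW]
    simp only [toQuad_mul, toQuad_inv, hg']
    rfl
  refine ⟨f g', ?_⟩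
  have hfw : (x * (f g' * x * (f g')⁻¹)) ^ 2 = f W := by
    rw [hW, pow_two]; simp only [map_mul, map_inv, hff', hX]
  rw [hfw]
  clear_value W
  refine ⟨fun h => h1 (by rw [← hWq, hf1 W h, toQuad_one]), ?_⟩
  have hW5 : W ^ 5 = 1 := by
    apply toQuad_injective
    rw [show W ^ 5 = W * W * (W * W * W) by simp only [pow_succ, pow_zero, one_mul, mul_assoc],
      toQuad_mul, toQuad_mul, toQuad_mul, toQuad_mul, toQuad_one, hWq]
    exact h5
  rw [← map_pow, hW5, map_one]

/-- In characteristic three an element of order dividing five fixing a nonzero vector of a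
four-dimensional space is the identity. -/
theorem eq_one_of_fixed {F : Type*} [Field F] [Fintype F] (hF : Fintype.card F = 3)
    (f : (Fin 2 ⊕ Fin 2 → F) ≃ₗ[F] (Fin 2 ⊕ Fin 2 → F)) (hf : ∀ v, f (f (f (f (f v)))) = v)
    (v₀ : Fin 2 ⊕ Fin 2 → F) (hv₀ : v₀ ≠ 0) (hfix : f v₀ = v₀) : ∀ v, f v = v := by
  classical
  haveI : Fact (Nat.Prime 5) := ⟨by norm_num⟩
  let σ : Equiv.Perm (Fin 2 ⊕ Fin 2 → F) := f.toEquiv
  have hσ : σ ^ 5 ^ 1 = 1 := by
    rw [pow_one]
    ext1 v
    simp only [pow_succ, pow_zero, one_mul, Equiv.Perm.mul_apply, Equiv.Perm.one_apply]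
    exact hf v
  have hmod := Equiv.Perm.card_compl_support_modEq hσ
  let U : Submodule F (Fin 2 ⊕ Fin 2 → F) := LinearMap.ker (f.toLinearMap - LinearMap.id)
  have hU : ∀ v, v ∈ U ↔ f v = v := fun v => by simp [U, sub_eq_zero]
  have hcard : σ.supportᶜ.card = Fintype.card U := by
    rw [← Fintype.card_coe]
    refine Fintype.card_congr (Equiv.subtypeEquivRight fun v => ?_)
    simp [σ, hU]
  rw [hcard, Module.card_eq_pow_finrank (K := F) (V := U), hF, Fintype.card_fun, hF] at hmod
  simp only [Fintype.card_sum, Fintype.card_fin] at hmod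
  have hpos : 0 < Module.finrank F U := by
    rw [Module.finrank_pos_iff]
    exact ⟨⟨v₀, (hU _).2 hfix⟩, 0, fun h => hv₀ (congrArg Subtype.val h)⟩
  have hle : Module.finrank F U ≤ 4 := by
    refine (Submodule.finrank_le U).trans ?_
    simp
  have h4 : Module.finrank F U = 4 := by
    generalize hk : Module.finrank F U = k at hmod hpos hle ⊢
    interval_cases k <;> simp_all [Nat.ModEq]
  have htop : U = ⊤ := Submodule.eq_top_of_finrank_eq (by simp [h4])
  intro v
  rw [← hU, htop]
  trivial

theorem finrank_ker_comp_le {F V : Type*} [Field F] [AddCommGroup V] [Module F V]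
    [FiniteDimensional F V] (f g : V →ₗ[F] V) :
    Module.finrank F (LinearMap.ker (f.comp g)) ≤
      Module.finrank F (LinearMap.ker f) + Module.finrank F (LinearMap.ker g) := by
  let r : LinearMap.ker (f.comp g) →ₗ[F] LinearMap.ker f :=
    g.restrict (fun v hv => by simpa using hv)
  have h1 := r.finrank_range_add_finrank_ker
  have h2 : Module.finrank F (LinearMap.range r) ≤ Module.finrank F (LinearMap.ker f) :=
    Submodule.finrank_le _
  have h3 : Module.finrank F (LinearMap.ker r) ≤ Module.finrank F (LinearMap.ker g) := by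
    let i : LinearMap.ker r →ₗ[F] LinearMap.ker g :=
      { toFun := fun v => ⟨v.1.1, by
          exact LinearMap.mem_ker.2 (congrArg Subtype.val (LinearMap.mem_ker.1 v.2))⟩
        map_add' := fun _ _ => rfl
        map_smul' := fun _ _ => rfl }
    refine LinearMap.finrank_le_finrank_of_injective (f := i) fun v w h => ?_
    exact Subtype.ext (Subtype.ext (congrArg (fun q : LinearMap.ker g => (q : V)) h))
  omega

/-- Let F be the field with 3 elements and K the field with 5 elements. For every injective homomorphism φ from SL₂(K) into the symplectic group Sp₄(F) (4 × 4 matrices g with g J gᵀ = J for the standard alternating matrix J) and every element x of order 3 of SL₂(K), the vectors of F⁴ fixed by φ(x) form a 2-dimensional subspace that is totally isotropic for the alternating form defined by J. -/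
theorem result {F : Type*} [Field F] [Fintype F] (hF : Fintype.card F = 3)
    {K : Type*} [Field K] [Fintype K] (hK : Fintype.card K = 5)
    (φ : Matrix.SpecialLinearGroup (Fin 2) K →* ↥(Matrix.symplecticGroup (Fin 2) F)) (hφ : Function.Injective φ)
    (x : Matrix.SpecialLinearGroup (Fin 2) K) (hx : orderOf x = 3) :
    Module.finrank F ↥(LinearMap.ker (Matrix.toLin' ((φ x : Matrix (Fin 2 ⊕ Fin 2) (Fin 2 ⊕ Fin 2) F)) - LinearMap.id)) = 2 ∧
      ∀ v w : Fin 2 ⊕ Fin 2 → F, (φ x : Matrix (Fin 2 ⊕ Fin 2) (Fin 2 ⊕ Fin 2) F).mulVec v = v →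
        (φ x : Matrix (Fin 2 ⊕ Fin 2) (Fin 2 ⊕ Fin 2) F).mulVec w = w →
          dotProduct v ((Matrix.J (Fin 2) F).mulVec w) = 0 := by
  haveI : Fact (Nat.Prime 3) := ⟨by norm_num⟩
  haveI : CharP F 3 := charP_of_card_eq_prime hF
  let X : Matrix (Fin 2 ⊕ Fin 2) (Fin 2 ⊕ Fin 2) F := φ x
  let J := Matrix.J (Fin 2) F
  let f := Matrix.toLin' X
  let N : (Fin 2 ⊕ Fin 2 → F) →ₗ[F] (Fin 2 ⊕ Fin 2 → F) := f - LinearMap.id
  have hNapp : ∀ v, N v = X.mulVec v - v := fun v => by simp [N, f]
  have hker : ∀ v, v ∈ LinearMap.ker N ↔ X.mulVec v = v := fun v => by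
    simp [LinearMap.mem_ker, hNapp, sub_eq_zero]
  have hB : ∀ u v, dotProduct (X.mulVec u) (J.mulVec (X.mulVec v)) = dotProduct u (J.mulVec v) := by
    intro u v
    have hX : Xᵀ * J * X = J := SymplecticGroup.mem_iff'.1 (φ x).2
    rw [Matrix.mulVec_mulVec, Matrix.dotProduct_mulVec, Matrix.vecMul_mulVec, ← mul_assoc, hX,
      ← Matrix.dotProduct_mulVec]
  have hskew : ∀ u v, dotProduct u (J.mulVec v) = - dotProduct v (J.mulVec u) := by
    intro u v
    rw [Matrix.dotProduct_mulVec, ← Matrix.mulVec_transpose, Matrix.J_transpose, dotProduct_comm,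
      Matrix.neg_mulVec, dotProduct_neg]
  have hX3 : X * X * X = 1 := by
    have : φ x * φ x * φ x = 1 := by
      rw [← map_mul, ← map_mul, show x * x * x = x ^ 3 by rw [pow_succ, pow_two], ← hx,
        pow_orderOf_eq_one, map_one]
    exact congrArg Subtype.val this
  have hN3 : ∀ v, N (N (N v)) = 0 := by
    intro v
    simp only [hNapp, Matrix.mulVec_sub, Matrix.mulVec_mulVec]
    rw [show X * (X * X) = 1 by rw [← mul_assoc, hX3], Matrix.one_mulVec]
    have h3 : (3 : F) = 0 := by
      have := CharP.cast_eq_zero F 3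
      simpa using this
    funext i
    simp only [Pi.sub_apply, Pi.zero_apply]
    linear_combination (X.mulVec v i - (X * X).mulVec v i) * h3
  obtain ⟨g, hw1, hw5⟩ := exists_pair hK x hx
  let P : Matrix (Fin 2 ⊕ Fin 2) (Fin 2 ⊕ Fin 2) F := φ g
  let Q : Matrix (Fin 2 ⊕ Fin 2) (Fin 2 ⊕ Fin 2) F := φ g⁻¹
  have hPQ : P * Q = 1 := by
    have : φ g * φ g⁻¹ = 1 := by rw [← map_mul, mul_inv_cancel, map_one]
    exact congrArg Subtype.val this
  have hQP : Q * P = 1 := by
    have : φ g⁻¹ * φ g = 1 := by rw [← map_mul, inv_mul_cancel, map_one]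
    exact congrArg Subtype.val this
  have hdisj : ∀ v, X.mulVec v = v → (P * X * Q).mulVec v = v → v = 0 := by
    intro v hv hv'
    by_contra hv0
    apply hw1
    apply hφ
    set W : Matrix (Fin 2 ⊕ Fin 2) (Fin 2 ⊕ Fin 2) F := (φ ((x * (g * x * g⁻¹)) ^ 2)).1 with hW
    have hWfix : W.mulVec v = v := by
      have : W = X * (P * X * Q) * (X * (P * X * Q)) := by
        simp only [hW, pow_two, map_mul, Submonoid.coe_mul, X, P, Q]
      rw [this, ← Matrix.mulVec_mulVec, ← Matrix.mulVec_mulVec v X (P * X * Q), hv', hv,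
        ← Matrix.mulVec_mulVec v X (P * X * Q), hv', hv]
    have hW5 : W * W * W * W * W = 1 := by
      have h0 : φ ((x * (g * x * g⁻¹)) ^ 2) ^ 5 = 1 := by rw [← map_pow, hw5, map_one]
      have h := congrArg Subtype.val h0
      rw [SubmonoidClass.coe_pow, OneMemClass.coe_one, ← hW] at h
      clear_value W
      simp only [pow_succ, pow_zero, one_mul] at h
      exact h
    let T : (Fin 2 ⊕ Fin 2 → F) ≃ₗ[F] (Fin 2 ⊕ Fin 2 → F) :=
      LinearEquiv.ofLinear (Matrix.toLin' W) (Matrix.toLin' (W * W * W * W))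
        (by rw [← Matrix.toLin'_mul, show W * (W * W * W * W) = 1 by rw [← hW5]; simp only [mul_assoc],
          Matrix.toLin'_one])
        (by rw [← Matrix.toLin'_mul, hW5, Matrix.toLin'_one])
    have hT : ∀ u, T u = W.mulVec u := fun u => by simp [T]
    have hall := eq_one_of_fixed hF T (fun u => by
      simp only [hT, Matrix.mulVec_mulVec]
      rw [show W * (W * (W * (W * W))) = 1 by rw [← hW5]; simp only [mul_assoc], Matrix.one_mulVec])
      v hv0 (by rw [hT, hWfix])
    rw [map_one]
    apply Subtype.ext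
    show W = 1
    apply Matrix.toLin'.injective
    rw [Matrix.toLin'_one]
    exact LinearMap.ext fun u => by rw [Matrix.toLin'_apply, ← hT]; exact hall u
  have hle2 : Module.finrank F (LinearMap.ker N) ≤ 2 := by
    let U := LinearMap.ker N
    have hPinj : Function.Injective (Matrix.toLin' P) := fun u v h => by
      have := congrArg Q.mulVec h
      simpa [Matrix.mulVec_mulVec, hQP] using this
    have hrank : Module.finrank F (U.map (Matrix.toLin' P)) = Module.finrank F U :=
      (Submodule.equivMapOfInjective _ hPinj U).finrank_eq.symm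
    have hinf : U ⊓ U.map (Matrix.toLin' P) = ⊥ := by
      rw [eq_bot_iff]
      intro v hv
      obtain ⟨hv1, u, hu, hu'⟩ := hv
      refine hdisj v ((hker v).1 hv1) ?_
      rw [← hu', Matrix.toLin'_apply, Matrix.mulVec_mulVec,
        show P * X * Q * P = P * X by rw [mul_assoc, hQP, mul_one], ← Matrix.mulVec_mulVec,
        (hker u).1 hu]
    have h := Submodule.finrank_sup_add_finrank_inf_eq U (U.map (Matrix.toLin' P))
    rw [hinf, finrank_bot, hrank] at h
    have htot : Module.finrank F ↥(U ⊔ U.map (Matrix.toLin' P)) ≤ 4 := by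
      refine (Submodule.finrank_le _).trans ?_
      simp
    show Module.finrank F U ≤ 2
    omega
  have hge2 : 2 ≤ Module.finrank F (LinearMap.ker N) := by
    have h1 := finrank_ker_comp_le N (N.comp N)
    have h2 := finrank_ker_comp_le N N
    have h3 : LinearMap.ker (N.comp (N.comp N)) = ⊤ := by
      rw [eq_top_iff]
      intro v _
      exact hN3 v
    rw [h3, finrank_top] at h1
    simp at h1
    omega
  have hrk : Module.finrank F (LinearMap.ker N) = 2 := le_antisymm hle2 hge2
  refine ⟨hrk, ?_⟩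
  intro v w hv hw
  by_contra hvw
  have hvw' : dotProduct v (J.mulVec w) ≠ 0 := hvw
  have himker : ∀ u, N (N u) = 0 → N u = 0 := by
    intro u hu
    have h0 : ∀ k, X.mulVec k = k → dotProduct (N u) (J.mulVec k) = 0 := by
      intro k hk
      rw [hNapp, sub_dotProduct, sub_eq_zero]
      calc dotProduct (X.mulVec u) (J.mulVec k)
          = dotProduct (X.mulVec u) (J.mulVec (X.mulVec k)) := by rw [hk]
        _ = _ := hB u k
    -- `v, w` span the fixed space
    let pair : (F × F) →ₗ[F] LinearMap.ker N :=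
      (LinearMap.fst F F F).smulRight ⟨v, (hker v).2 hv⟩ +
        (LinearMap.snd F F F).smulRight ⟨w, (hker w).2 hw⟩
    have hpair : ∀ p : F × F, ((pair p : _) : Fin 2 ⊕ Fin 2 → F) = p.1 • v + p.2 • w :=
      fun p => by simp [pair]
    have hdiag : ∀ k : Fin 2 ⊕ Fin 2 → F, dotProduct k (J.mulVec k) = 0 := by
      intro k
      have h := hskew k k
      have h2 : (2 : F) * dotProduct k (J.mulVec k) = 0 := by linear_combination h
      refine (mul_eq_zero.1 h2).resolve_left ?_
      intro h2'
      have := (CharP.cast_eq_zero_iff F 3 2).1 (by simpa using h2')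
      omega
    have hinj : Function.Injective pair := by
      rw [← LinearMap.ker_eq_bot, LinearMap.ker_eq_bot']
      intro p hp
      have hp' := congrArg Subtype.val hp
      rw [hpair] at hp'
      have h1 := congrArg (fun k => dotProduct k (J.mulVec w)) hp'
      simp [add_dotProduct, smul_dotProduct, hdiag] at h1
      have h2 := congrArg (fun k => dotProduct v (J.mulVec k)) hp'
      simp [Matrix.mulVec_add, Matrix.mulVec_smul, dotProduct_add, dotProduct_smul, hdiag] at h2
      exact Prod.ext (h1.resolve_right hvw') (h2.resolve_right hvw')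
    have hsurj : Function.Surjective pair :=
      (LinearMap.injective_iff_surjective_of_finrank_eq_finrank (by simp [hrk])).1 hinj
    obtain ⟨⟨c, d⟩, hp⟩ := hsurj ⟨N u, LinearMap.mem_ker.2 hu⟩
    have hp' := congrArg Subtype.val hp
    rw [hpair] at hp'
    change c • v + d • w = N u at hp'
    have e1 := h0 w hw
    have e2 := h0 v hv
    rw [← hp'] at e1 e2
    simp [add_dotProduct, smul_dotProduct, hdiag] at e1 e2
    have hwv : dotProduct w (J.mulVec v) ≠ 0 := by
      rw [hskew]; exact neg_ne_zero.2 hvw'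
    rw [← hp', e1.resolve_right hvw', e2.resolve_right hwv]
    simp
  have hN2 : ∀ u, N (N u) = 0 := fun u => himker (N u) (hN3 u)
  have hN1 : ∀ u, N u = 0 := fun u => himker u (hN2 u)
  have htop : LinearMap.ker N = ⊤ := by
    rw [eq_top_iff]; intro u _; exact hN1 u
  rw [htop, finrank_top] at hrk
  simp at hrk

end Cfsg.Agent.S3213
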