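import Cfsg.Statements.S3215
import Cfsg.Agent.Eq.Def_Transfer
import Cfsg.Agent.Eq.Def_CaseTheorems
import Cfsg.Agent.Constrained.HallHigman
import Cfsg.Agent.Constrained.Fitting
import Cfsg.Agent.Coprime.Basic
import Cfsg.Agent.Frobenius.FPF
import Cfsg.Agent.Frobenius.CyclicSylow
import Mathlib.GroupTheory.SpecificGroups.ZGroup
import Mathlib.RingTheory.ZMod.UnitsCyclic
-- import your own Cfsg.Agent.* helpers here

set_option autoImplicit false
open Cfsg
open scoped commutatorElement

namespace Cfsg.Agent.S3215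

/-- A normal subgroup of odd order lies in every odd subgroup of 2-power index. -/
theorem le_hall {G : Type*} [Group G] [Finite G] (N X : Subgroup G) [N.Normal]
    (hN : Odd (Nat.card N)) (hX : Odd (Nat.card X)) {k : ℕ} (hk : X.index = 2 ^ k) : N ≤ X := by
  haveI : Fact (Nat.Prime 2) := ⟨Nat.prime_two⟩
  have hodd : ¬ 2 ∣ Nat.card ↥(N ⊔ X) := CfsgLib.Constrained.not_dvd_card_sup
    (Nat.two_dvd_ne_zero.2 (Nat.odd_iff.1 hN)) (Nat.two_dvd_ne_zero.2 (Nat.odd_iff.1 hX))
  have h1 : X.relIndex (N ⊔ X) ∣ 2 ^ k := hk ▸ by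
    rw [← Subgroup.relIndex_mul_index (le_sup_right : X ≤ N ⊔ X)]
    exact dvd_mul_right _ _
  have h2 : X.relIndex (N ⊔ X) ∣ Nat.card ↥(N ⊔ X) := Subgroup.relIndex_dvd_card X _
  have h3 : X.relIndex (N ⊔ X) = 1 := Nat.eq_one_of_dvd_coprimes
    (Nat.Coprime.pow_left k ((Nat.Prime.coprime_iff_not_dvd Nat.prime_two).2 hodd)) h1 h2
  exact le_sup_left.trans (Subgroup.relIndex_eq_one.1 h3)

/-- An odd order element commuting with an involution `t` centralizes `O₂(H) ∩ C(t)`. -/
theorem commute_of_involution {H : Type*} [Group H] [Finite H]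
    (hI : ∀ t : H, orderOf t = 2 → Cfsg.HasNormalPComplement 2 ↥(Subgroup.centralizer ({t} : Set H)))
    {t x : H} (ht : orderOf t = 2) (hxt : x * t = t * x) (hx : Odd (orderOf x)) {u : H}
    (hu : u ∈ Cfsg.pCore 2 H) (hut : u * t = t * u) : x * u = u * x := by
  haveI : Fact (Nat.Prime 2) := ⟨Nat.prime_two⟩
  set C := Subgroup.centralizer ({t} : Set H) with hC
  obtain ⟨P, K, hKn, hKP⟩ := hI t ht
  haveI := hKn
  let x' : C := ⟨x, Subgroup.mem_centralizer_singleton_iff.2 hxt⟩
  let u' : C := ⟨u, Subgroup.mem_centralizer_singleton_iff.2 hut⟩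
  have hxK : x' ∈ K := by
    rw [← QuotientGroup.eq_one_iff]
    have h1 : orderOf (x' : C ⧸ K) ∣ orderOf x := by
      have h := orderOf_map_dvd (QuotientGroup.mk' K) x'
      rwa [← Subgroup.orderOf_coe x'] at h
    have h2 : orderOf (x' : C ⧸ K) ∣ Nat.card (C ⧸ K) := orderOf_dvd_natCard _
    rw [← Subgroup.index_eq_card, hKP.symm.index_eq_card] at h2
    obtain ⟨i, hi⟩ := P.isPGroup'.exists_card_eq
    rw [hi] at h2
    exact orderOf_eq_one_iff.1 (Nat.eq_one_of_dvd_coprimes
      (Nat.Coprime.pow_left i (Nat.coprime_two_left.2 hx)) h2 h1)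
  have hKodd : ¬ 2 ∣ Nat.card K := by
    rw [← hKP.index_eq_card]
    exact P.not_dvd_index
  set R := (Cfsg.pCore 2 H).subgroupOf C with hR
  have hRp : IsPGroup 2 R :=
    CfsgLib.Constrained.isPGroup_pCore.comap_of_injective C.subtype C.subtype_injective
  have hd := CfsgLib.Constrained.disjoint_of_isPGroup_of_not_dvd hRp hKodd
  have h := Subgroup.commute_of_normal_of_disjoint K R inferInstance inferInstance
    (disjoint_iff.2 (by rw [inf_comm]; exact hd)) x' u' hxK hu
  exact congrArg Subtype.val h.eq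

/-- Odd order elements outside `O₂` act fixed-point-freely on it. -/
theorem fpf {H : Type*} [Group H] [Finite H] (hsol : Group.IsSolvable H)
    (hO : Cfsg.oddCore H = ⊥)
    (hI : ∀ t : H, orderOf t = 2 → Cfsg.HasNormalPComplement 2 ↥(Subgroup.centralizer ({t} : Set H)))
    {x : H} (hx : Odd (orderOf x)) {y : H} (hy : y ∈ Cfsg.pCore 2 H) (hy1 : y ≠ 1)
    (hxy : x * y = y * x) : x = 1 := by
  haveI : Fact (Nat.Prime 2) := ⟨Nat.prime_two⟩
  haveI := hsol
  set Y := Cfsg.pCore 2 H with hY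
  have hYp : IsPGroup 2 Y := CfsgLib.Constrained.isPGroup_pCore
  obtain ⟨i, hi⟩ := (IsPGroup.iff_orderOf.1 hYp) ⟨y, hy⟩
  rw [Subgroup.orderOf_mk] at hi
  have hi0 : i ≠ 0 := by
    rintro rfl
    rw [pow_zero] at hi
    exact hy1 (orderOf_eq_one_iff.1 hi)
  obtain ⟨t, ht⟩ : ∃ t : H, t = y ^ 2 ^ (i - 1) := ⟨_, rfl⟩
  have hto : orderOf t = 2 := by
    rw [ht, orderOf_pow_of_dvd (by positivity) (hi ▸ pow_dvd_pow 2 (Nat.sub_le i 1)), hi,
      Nat.pow_div (Nat.sub_le i 1) (by norm_num)]
    rw [show i - (i - 1) = 1 by omega, pow_one]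
  have hxt : x * t = t * x := ht ▸ ((show Commute x y from hxy).pow_right _).eq
  have htY : t ∈ Y := ht ▸ pow_mem hy _
  haveI : Nontrivial Y := ⟨⟨y, hy⟩, 1, fun h => hy1 (congrArg Subtype.val h)⟩
  haveI := hYp.center_nontrivial
  obtain ⟨c, hc⟩ := exists_prime_orderOf_dvd_card' (G := Subgroup.center Y) 2 (by
    obtain ⟨k, hk⟩ := (hYp.to_subgroup (Subgroup.center Y)).exists_card_eq
    rw [hk]
    refine dvd_pow_self 2 ?_
    rintro rfl
    rw [pow_zero] at hk
    have := Finite.one_lt_card (α := Subgroup.center Y)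
    omega)
  set z : H := ((c : Y) : H) with hz
  have hzo : orderOf z = 2 := by rw [hz, Subgroup.orderOf_coe, Subgroup.orderOf_coe, hc]
  have hzY : ∀ u ∈ Y, u * z = z * u := fun u hu =>
    congrArg Subtype.val (Subgroup.mem_center_iff.1 c.2 ⟨u, hu⟩)
  have hxz : x * z = z * x :=
    commute_of_involution hI hto hxt hx (c : Y).2 (hzY t htY).symm
  have hcent : x ∈ Subgroup.centralizer (Y : Set H) := fun u hu =>
    (commute_of_involution hI hzo hxz hx hu (hzY u hu)).symm
  have hxY : x ∈ Y := CfsgLib.Constrained.centralizer_pCore_le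
    CfsgLib.Constrained.isPSolvable_of_isSolvable hO hcent
  obtain ⟨j, hj⟩ := (IsPGroup.iff_orderOf.1 hYp) ⟨x, hxY⟩
  rw [Subgroup.orderOf_mk] at hj
  rw [← orderOf_eq_one_iff]
  rw [hj] at hx ⊢
  rcases j.eq_zero_or_pos with rfl | hj0
  · rfl
  · exact absurd hx (Nat.not_odd_iff_even.2 ((Nat.even_pow' hj0.ne').2 even_two))

/-- Let H be a finite solvable group with no nontrivial normal subgroup of odd order in which the centralizer of every involution has a normal 2-complement. Let X be a Hall 2'-subgroup of H (odd order, index a power of 2) and Y = O₂(H). Then no non-identity element of X commutes with a non-identity element of Y (so for X ≠ 1 the group XY is a Frobenius group with kernel Y), every Sylow subgroup of X is cyclic, XY is normal in H, and H/XY is a cyclic 2-group. -/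
theorem result {H : Type*} [Group H] [Finite H] (hsol : Group.IsSolvable H)
    (hO : Cfsg.oddCore H = ⊥)
    (hI : ∀ t : H, orderOf t = 2 → Cfsg.HasNormalPComplement 2 ↥(Subgroup.centralizer ({t} : Set H)))
    (X : Subgroup H) (hXodd : Odd (Nat.card X)) (hXidx : ∃ k : ℕ, X.index = 2 ^ k) :
    (∀ x ∈ X, x ≠ 1 → ∀ y ∈ Cfsg.pCore 2 H, y ≠ 1 → x * y ≠ y * x) ∧
      (∀ (p : ℕ) [Fact p.Prime] (P : Sylow p ↥X), IsCyclic ↥(P : Subgroup ↥X)) ∧
      (X ⊔ Cfsg.pCore 2 H).Normal ∧
      ∀ hN : (X ⊔ Cfsg.pCore 2 H).Normal, IsCyclic (H ⧸ (X ⊔ Cfsg.pCore 2 H)) ∧ IsPGroup 2 (H ⧸ (X ⊔ Cfsg.pCore 2 H)) := by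
  haveI : Fact (Nat.Prime 2) := ⟨Nat.prime_two⟩
  haveI := hsol
  obtain ⟨k, hk⟩ := hXidx
  set Y := Cfsg.pCore 2 H with hY
  have hYp : IsPGroup 2 Y := CfsgLib.Constrained.isPGroup_pCore
  have hoddX : ∀ x ∈ X, Odd (orderOf x) := fun x hx =>
    hXodd.of_dvd_nat (Subgroup.orderOf_dvd_natCard X hx)
  have hfpf : ∀ x ∈ X, x ≠ 1 → ∀ y ∈ Y, y ≠ 1 → x * y ≠ y * x :=
    fun x hx hx1 y hy hy1 h => hx1 (fpf hsol hO hI (hoddX x hx) hy hy1 h)
  have hcY : Subgroup.centralizer (Y : Set H) ≤ Y :=
    CfsgLib.Constrained.centralizer_pCore_le CfsgLib.Constrained.isPSolvable_of_isSolvable hO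
  have hcyc : ∀ (p : ℕ) [Fact p.Prime] (P : Sylow p ↥X), IsCyclic ↥(P : Subgroup ↥X) := by
    intro p hp P
    by_cases hYbot : Y = ⊥
    · have hXbot : ∀ x ∈ X, x = 1 := fun x hx => by
        have : x ∈ Y := hcY (fun y hy => by
          rw [hYbot] at hy
          rw [(Subgroup.mem_bot.1 hy)]; simp)
        rw [hYbot] at this
        exact Subgroup.mem_bot.1 this
      haveI : Subsingleton X := ⟨fun a b => Subtype.ext ((hXbot a a.2).trans (hXbot b b.2).symm)⟩
      infer_instance
    by_cases hp2 : p = 2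
    · subst hp2
      haveI : Subsingleton ↥(P : Subgroup ↥X) := by
        rw [← Finite.card_le_one_iff_subsingleton]
        obtain ⟨i, hi⟩ := P.isPGroup'.exists_card_eq
        rcases i.eq_zero_or_pos with rfl | hi0
        · rw [hi, pow_zero]
        · exfalso
          have h2 : 2 ∣ Nat.card X :=
            (hi ▸ dvd_pow_self 2 hi0.ne' : 2 ∣ Nat.card ↥(P : Subgroup ↥X)).trans
              (Subgroup.card_subgroup_dvd_card _)
          exact Nat.not_even_iff_odd.2 hXodd (even_iff_two_dvd.2 h2)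
      infer_instance
    haveI : Nontrivial Y := (Subgroup.nontrivial_iff_ne_bot Y).2 hYbot
    let φ : ↥(P : Subgroup ↥X) →* MulAut Y :=
      (MulAut.conjNormal (H := Y)).comp (X.subtype.comp (P : Subgroup ↥X).subtype)
    refine CfsgLib.Frobenius.isCyclic_of_odd_pGroup hp2 P.isPGroup'
      (CfsgLib.Frobenius.FPF.isCyclic_of_comm (φ := φ) ?_)
    intro a ha n hn
    by_contra hn1
    refine hfpf ((a : X) : H) (a : X).2 ?_ n n.2 (fun h => hn1 (Subtype.ext h)) ?_
    · intro h
      exact ha (Subtype.ext (Subtype.ext h))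
    · have h := congrArg Subtype.val hn
      simp only [φ, MonoidHom.comp_apply, MulAut.conjNormal_apply, Subgroup.coe_subtype] at h
      exact mul_inv_eq_iff_eq_mul.1 h
  -- pass to the quotient by `Y`
  set q := QuotientGroup.mk' Y with hq
  have hqs : Function.Surjective q := QuotientGroup.mk'_surjective Y
  set X' := X.map q with hX'
  have hX'odd : Odd (Nat.card X') := hXodd.of_dvd_nat (Subgroup.card_map_dvd X q)
  obtain ⟨k', hk'⟩ : ∃ k', X'.index = 2 ^ k' := by
    obtain ⟨i, -, hi⟩ := (Nat.dvd_prime_pow Nat.prime_two).1 (hk ▸ Subgroup.index_map_dvd X hqs)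
    exact ⟨i, hi⟩
  set F := Cfsg.fittingSubgroup (H ⧸ Y) with hF
  haveI hFnil : Group.IsNilpotent F := CfsgLib.Constrained.isNilpotent_fitting
  haveI hFn : F.Normal := Subgroup.sSup_normal _ fun _ h => h.1
  have hFodd : Odd (Nat.card F) := by
    rw [← Nat.not_even_iff_odd, even_iff_two_dvd]
    intro h2
    obtain ⟨Q⟩ : Nonempty (Sylow 2 F) := inferInstance
    have hle := CfsgLib.Constrained.map_sylow_le_pCore hFn hFnil Q
    rw [CfsgLib.Constrained.pCore_quotient_pCore, le_bot_iff, Subgroup.map_eq_bot_iff,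
      Subgroup.ker_subtype, le_bot_iff] at hle
    have := Q.not_dvd_index
    rw [hle, Subgroup.index_bot] at this
    exact this h2
  have hFX : F ≤ X' := le_hall F X' hFodd hX'odd hk'
  have hcF : Subgroup.centralizer (F : Set (H ⧸ Y)) ≤ F :=
    CfsgLib.Constrained.centralizer_fitting_le
  haveI hZX : IsZGroup X := ⟨fun p hp P => by haveI := Fact.mk hp; exact hcyc p P⟩
  haveI hZX' : IsZGroup X' := IsZGroup.of_surjective (q.subgroupMap_surjective X)
  haveI hZF : IsZGroup F := IsZGroup.of_injective (f := Subgroup.inclusion hFX)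
    (Subgroup.inclusion_injective hFX)
  haveI hFcyc : IsCyclic F := inferInstance
  have hcomm : ∀ a b : MulAut F, a * b = b * a := fun a b =>
    (IsCyclic.mulAutMulEquiv F).injective (by rw [map_mul, map_mul, mul_comm])
  have hder : ∀ a b : H ⧸ Y, a * b * a⁻¹ * b⁻¹ ∈ X' := by
    intro a b
    refine hFX (hcF ?_)
    intro f hf
    have h : MulAut.conjNormal (a * b * a⁻¹ * b⁻¹) = (1 : MulAut F) := by
      simp only [map_mul, map_inv]
      rw [hcomm (MulAut.conjNormal a) (MulAut.conjNormal b)]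
      group
    have h' := congrArg (fun σ : MulAut F => ((σ ⟨f, hf⟩ : F) : H ⧸ Y)) h
    simp only [MulAut.conjNormal_apply, MulAut.one_apply] at h'
    exact (mul_inv_eq_iff_eq_mul.1 h').symm
  have hX'n : X'.Normal := ⟨fun x hx g => by
    have := X'.mul_mem (hder g x) hx
    simpa using this⟩
  have hXY : X ⊔ Y = X'.comap q := by
    rw [hX', Subgroup.comap_map_eq, hq, QuotientGroup.ker_mk']
  haveI hN0 : (X ⊔ Y).Normal := hXY ▸ hX'n.comap q
  refine ⟨hfpf, hcyc, hN0, fun hN => ⟨?_, ?_⟩⟩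
  swap
  · obtain ⟨i, -, hi⟩ := (Nat.dvd_prime_pow Nat.prime_two).1
      (hk ▸ Subgroup.index_dvd_of_le (le_sup_left : X ≤ X ⊔ Y))
    exact IsPGroup.of_card (n := i) (by rw [← Subgroup.index_eq_card]; exact hi)
  by_cases hFbot : F = ⊥
  · have htop : ∀ a : H ⧸ Y, a = 1 := fun a => by
      have : a ∈ F := hcF (fun f hf => by
        rw [hFbot] at hf
        rw [Subgroup.mem_bot.1 hf]; simp)
      rw [hFbot] at this
      exact Subgroup.mem_bot.1 this
    haveI : Subsingleton (H ⧸ (X ⊔ Y)) := by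
      refine ⟨fun a b => ?_⟩
      obtain ⟨a, rfl⟩ := QuotientGroup.mk_surjective a
      obtain ⟨b, rfl⟩ := QuotientGroup.mk_surjective b
      rw [QuotientGroup.eq]
      exact Subgroup.mem_sup_right ((QuotientGroup.eq_one_iff _).1 (htop _))
    infer_instance
  -- a normal subgroup of prime order inside `F`
  haveI : Nontrivial F := (Subgroup.nontrivial_iff_ne_bot F).2 hFbot
  obtain ⟨r, hr, hrd⟩ := Nat.exists_prime_and_dvd (Finite.one_lt_card (α := F)).ne'
  haveI := Fact.mk hr
  obtain ⟨f₀, hf₀⟩ := exists_prime_orderOf_dvd_card' (G := F) r hrd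
  let Z : Subgroup F := Subgroup.zpowers f₀
  haveI hZc : Z.Characteristic := by
    rw [Subgroup.characteristic_iff_map_le]
    intro σ
    rintro _ ⟨z, hz, rfl⟩
    obtain ⟨g, hg⟩ := IsCyclic.exists_generator (α := F)
    obtain ⟨m, hm⟩ := Subgroup.mem_zpowers_iff.1 (hg (σ g))
    obtain ⟨l, hl⟩ := Subgroup.mem_zpowers_iff.1 (hg z)
    have : σ.toMonoidHom z = z ^ m := by
      show σ z = z ^ m
      rw [← hl, map_zpow, ← hm, ← zpow_mul, ← zpow_mul, mul_comm]
    rw [this]
    exact Z.zpow_mem hz m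
  set Z' : Subgroup (H ⧸ Y) := Z.map F.subtype with hZ'
  haveI hZ'n : Z'.Normal := inferInstance
  have hZ'gen : Z' = Subgroup.zpowers (f₀ : H ⧸ Y) := MonoidHom.map_zpowers _ _
  haveI hZ'cyc : IsCyclic Z' := by
    rw [hZ'gen]; infer_instance
  have hZ'card : Nat.card Z' = r := by
    rw [hZ'gen, Nat.card_zpowers, Subgroup.orderOf_coe, hf₀]
  let ψ : H →* MulAut Z' := (MulAut.conjNormal (H := Z')).comp q
  -- the kernel of the action is inside `X ⊔ Y`
  have hker : ψ.ker ≤ X ⊔ Y := by
    have hkY : Y ≤ ψ.ker := fun y hy => by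
      rw [MonoidHom.mem_ker]
      show MulAut.conjNormal (q y) = 1
      rw [show q y = 1 from (QuotientGroup.eq_one_iff y).2 hy, map_one]
    set K := (MulAut.conjNormal (H := Z')).ker with hK
    suffices hKX : K ≤ X' by
      intro h hh
      rw [hXY]
      exact hKX hh
    refine le_hall K X' ?_ hX'odd hk'
    rw [← Nat.not_even_iff_odd, even_iff_two_dvd]
    intro h2
    obtain ⟨t₀, ht₀⟩ := exists_prime_orderOf_dvd_card' (G := K) 2 h2
    obtain ⟨x, hxX, hxf⟩ := Subgroup.mem_map.1 (hFX f₀.2)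
    have hx1 : x ≠ 1 := fun h => by
      rw [h, map_one] at hxf
      have : f₀ = 1 := Subtype.ext hxf.symm
      rw [this, orderOf_one] at hf₀
      exact hr.one_lt.ne hf₀
    obtain ⟨g, hg⟩ := hqs (t₀ : H ⧸ Y)
    have hcomm_gf : q g * q x = q x * q g := by
      rw [hg, hxf]
      have h := congrArg (fun σ : MulAut Z' => ((σ ⟨f₀, ⟨f₀, Subgroup.mem_zpowers f₀, rfl⟩⟩ : Z') : H ⧸ Y))
        (MonoidHom.mem_ker.1 t₀.2)
      simp only [MulAut.conjNormal_apply, MulAut.one_apply] at h
      exact mul_inv_eq_iff_eq_mul.1 h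
    have hcop : (Nat.card (Subgroup.zpowers x)).Coprime (Nat.card Y) := by
      obtain ⟨i, hi⟩ := hYp.exists_card_eq
      rw [Nat.card_zpowers, hi]
      exact (Nat.coprime_two_right.2 (hoddX x hxX)).pow_right i
    obtain ⟨n, hn, hnc⟩ := CfsgLib.Coprime.exists_mul_mem_centralizer
      (A := Subgroup.zpowers x) (N := Y)
      (by intro a _; rw [Subgroup.normalizer_eq_top]; trivial) hcop
      (Or.inl (CfsgLib.Coprime.isSolvable_zpowers x)) (g := g) (fun a ha => by
        obtain ⟨m, rfl⟩ := Subgroup.mem_zpowers_iff.1 ha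
        apply (QuotientGroup.eq_one_iff _).1
        show q ⁅g, x ^ m⁆ = 1
        rw [map_commutatorElement, commutatorElement_eq_one_iff_commute, map_zpow]
        exact (show Commute (q g) (q x) from hcomm_gf).zpow_right m)
    set s := n * g with hs
    have hsx : s * x = x * s := (hnc x (Subgroup.mem_zpowers x)).symm
    have hqsv : q s = t₀ := by
      rw [hs, map_mul, show q n = 1 from (QuotientGroup.eq_one_iff n).2 hn, one_mul, hg]
    have hs2 : s * s ∈ Y := by
      apply (QuotientGroup.eq_one_iff _).1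
      show q (s * s) = 1
      rw [map_mul, hqsv, ← Subgroup.coe_mul]
      have : t₀ * t₀ = 1 := by
        have h := pow_orderOf_eq_one t₀
        rw [ht₀, pow_two] at h
        exact h
      rw [this]; rfl
    have hss : s * s = 1 := by
      by_contra hne
      exact hfpf x hxX hx1 _ hs2 hne (by rw [← mul_assoc, ← hsx, mul_assoc, ← hsx, ← mul_assoc])
    have hso : orderOf s = 2 := orderOf_eq_prime (by rw [pow_two]; exact hss) (fun h => by
      rw [h, map_one] at hqsv
      have h1 : t₀ = 1 := Subtype.ext hqsv.symm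
      rw [h1, orderOf_one] at ht₀
      omega)
    -- a fixed point of `s` in `Y`
    have hYbot : Y ≠ ⊥ := by
      intro hYb
      have hxY : x ∈ Y := hcY (fun y hy => by
        rw [hYb] at hy
        rw [Subgroup.mem_bot.1 hy]; simp)
      rw [hYb] at hxY
      exact hx1 (Subgroup.mem_bot.1 hxY)
    haveI : Nontrivial Y := (Subgroup.nontrivial_iff_ne_bot Y).2 hYbot
    haveI := hYp.center_nontrivial
    obtain ⟨c, hc⟩ := exists_ne (1 : Subgroup.center Y)
    set z : H := ((c : Y) : H) with hz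
    have hz1 : z ≠ 1 := fun h => hc (Subtype.ext (Subtype.ext h))
    have hsi : s⁻¹ = s := inv_eq_of_mul_eq_one_right hss
    obtain ⟨u, hu, hu1, hus⟩ : ∃ u ∈ Y, u ≠ 1 ∧ u * s = s * u := by
      have hsz : s * z * s⁻¹ ∈ Y := Subgroup.Normal.conj_mem inferInstance z (c : Y).2 s
      have hcm : z * (s * z * s⁻¹) = s * z * s⁻¹ * z :=
        (congrArg Subtype.val (Subgroup.mem_center_iff.1 c.2 ⟨_, hsz⟩)).symm
      by_cases h0 : z * (s * z * s⁻¹) = 1
      · -- `s` inverts `z`: use the involution in `⟨z⟩`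
        obtain ⟨i, hi⟩ := (IsPGroup.iff_orderOf.1 hYp) (c : Y)
        rw [← Subgroup.orderOf_coe, ← hz] at hi
        have hi0 : i ≠ 0 := by
          rintro rfl
          exact hz1 (orderOf_eq_one_iff.1 hi)
        set w := z ^ 2 ^ (i - 1) with hw
        refine ⟨w, pow_mem (c : Y).2 _, ?_, ?_⟩
        · intro h1
          have h2 := orderOf_dvd_of_pow_eq_one h1
          rw [hi] at h2
          have := (Nat.pow_dvd_pow_iff_le_right (by norm_num : 1 < 2)).1 h2
          omega
        · have hinv : s * w * s⁻¹ = w⁻¹ := by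
            rw [hw, ← conj_pow, eq_inv_of_mul_eq_one_right h0, inv_pow]
          have hw2 : w⁻¹ = w := by
            apply inv_eq_of_mul_eq_one_right
            rw [hw, ← pow_add, ← two_mul, ← pow_succ', show i - 1 + 1 = i by omega, ← hi,
              pow_orderOf_eq_one]
          rw [hw2] at hinv
          exact (mul_inv_eq_iff_eq_mul.1 hinv).symm
      · refine ⟨_, mul_mem (c : Y).2 hsz, h0, ?_⟩
        rw [hsi] at hcm ⊢
        calc z * (s * z * s) * s = z * (s * z) * (s * s) := by group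
          _ = z * (s * z) * 1 := by rw [hss]
          _ = s * s * (z * (s * z)) := by rw [hss]; group
          _ = s * (s * z * s * z) := by group
          _ = s * (z * (s * z * s)) := by rw [hcm]
    have := commute_of_involution hI hso hsx.symm (hoddX x hxX) hu hus
    exact hfpf x hxX hx1 u hu hu1 this
  have hcycA : IsCyclic (MulAut Z') := by
    haveI : IsCyclic (ZMod (Nat.card Z'))ˣ := by
      rw [hZ'card]; exact ZMod.isCyclic_units_prime hr
    exact isCyclic_of_surjective _ (IsCyclic.mulAutMulEquiv Z').symm.surjective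
  haveI : IsCyclic ψ.range := inferInstance
  let g : H ⧸ ψ.ker →* H ⧸ (X ⊔ Y) := QuotientGroup.map _ _ (MonoidHom.id H) hker
  have hgs : Function.Surjective g := fun a => by
    obtain ⟨a, rfl⟩ := QuotientGroup.mk_surjective a
    exact ⟨QuotientGroup.mk a, rfl⟩
  haveI : IsCyclic (H ⧸ ψ.ker) :=
    isCyclic_of_surjective _ (QuotientGroup.quotientKerEquivRange ψ).symm.surjective
  exact isCyclic_of_surjective _ hgs

end Cfsg.Agent.S3215
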