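import Cfsg.Statements.S3244
import Cfsg.Agent.Eq.Def_Local
import Cfsg.Agent.EarlyCharTwo.Cores
import Cfsg.Agent.ZStar.Theorem
import Cfsg.Agent.PConstrainedLocals.Basic
-- import your own Cfsg.Agent.* helpers here

set_option autoImplicit false
open Cfsg

namespace Cfsg.Agent.S3244

theorem sq_eq_one {G : Type*} [Group G] {t : G} (ht : orderOf t = 2) : t * t = 1 := by
  have h := pow_orderOf_eq_one t
  rw [ht, pow_two] at h
  exact h

theorem centralizer_eq_normalizer {G : Type*} [Group G] {t : G} (ht : orderOf t = 2) :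
    Subgroup.centralizer ({t} : Set G) = Subgroup.normalizer (Subgroup.zpowers t : Set G) := by
  have htt := sq_eq_one ht
  have hmem : ∀ y ∈ Subgroup.zpowers t, y = 1 ∨ y = t := by
    intro y hy
    obtain ⟨k, rfl⟩ := Subgroup.mem_zpowers_iff.1 hy
    rw [← Int.mul_ediv_add_emod k 2, zpow_add, zpow_mul, zpow_two, htt, one_zpow, one_mul]
    rcases Int.emod_two_eq_zero_or_one k with h | h <;> rw [h]
    · exact Or.inl (zpow_zero t)
    · exact Or.inr (zpow_one t)
  ext g
  constructor
  · intro hg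
    have hgt := Subgroup.mem_centralizer_singleton_iff.1 hg
    rw [Subgroup.mem_normalizer_iff]
    intro y
    constructor
    · intro hy
      rcases hmem y hy with rfl | rfl
      · simp
      · rw [hgt, mul_inv_cancel_right]; exact hy
    · intro hy
      rcases hmem _ hy with h | h
      · rw [conj_eq_one_iff.1 h]; exact one_mem _
      · have : y = t := by
          calc y = g⁻¹ * (g * y * g⁻¹) * g := by group
            _ = g⁻¹ * (t * g) := by rw [h]; group
            _ = t := by rw [← hgt]; group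
        rw [this]; exact Subgroup.mem_zpowers t
  · intro hg
    apply Subgroup.mem_centralizer_singleton_iff.2
    rcases hmem _ ((Subgroup.mem_normalizer_iff.1 hg t).1 (Subgroup.mem_zpowers t)) with h | h
    · rw [conj_eq_one_iff.1 h] at ht
      rw [orderOf_one] at ht; omega
    · exact mul_inv_eq_iff_eq_mul.1 h

theorem isTwoLocal_centralizer {G : Type*} [Group G] {t : G} (ht : orderOf t = 2) :
    Cfsg.IsTwoLocal (Subgroup.centralizer ({t} : Set G)) :=
  ⟨Subgroup.zpowers t, IsPGroup.of_card (n := 1) (by rw [Nat.card_zpowers, ht, pow_one]), by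
    rw [Ne, Subgroup.zpowers_eq_bot]; intro h; rw [h, orderOf_one] at ht; omega,
    centralizer_eq_normalizer ht⟩

/-- A maximal 2-local with cyclic `Z(O₂)` is the centralizer of an involution `u` which is the only
involution centralizing some full Sylow 2-subgroup inside it. -/
theorem maximal_spec {G : Type*} [Group G] [Finite G]
    (hchar : ∀ t : G, orderOf t = 2 →
      Subgroup.centralizer (Cfsg.pCore 2 ↥(Subgroup.centralizer ({t} : Set G)) :
        Set ↥(Subgroup.centralizer ({t} : Set G))) ≤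
        Cfsg.pCore 2 ↥(Subgroup.centralizer ({t} : Set G)))
    {M : Subgroup G} (hM : Cfsg.IsMaximalTwoLocal M)
    (hZ : IsCyclic ↥(Subgroup.center ↥(Cfsg.pCore 2 ↥M))) :
    ∃ u : G, orderOf u = 2 ∧ M = Subgroup.centralizer ({u} : Set G) ∧
      ∀ P : Subgroup G, IsPGroup 2 P → P ≤ M → ∃ Q : Sylow 2 G, P ≤ (Q : Subgroup G) ∧
        (Q : Subgroup G) ≤ M ∧ u ∈ (Q : Subgroup G) ∧
        ∀ v : G, v ∈ (Q : Subgroup G) → v * v = 1 →
          (∀ s ∈ (Q : Subgroup G), s * v = v * s) → v = 1 ∨ v = u := by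
  haveI : Fact (Nat.Prime 2) := ⟨Nat.prime_two⟩
  obtain ⟨⟨T, hT2, hT1, hTM⟩, hmax⟩ := hM
  set R := Cfsg.pCore 2 ↥M with hR
  have hR2 : IsPGroup 2 R := CfsgLib.Constrained.isPGroup_pCore
  have hTR : T.subgroupOf M ≤ R := CfsgLib.Constrained.le_pCore
    (by subst hTM; exact Subgroup.normal_in_normalizer)
    (hT2.comap_of_injective M.subtype M.subtype_injective)
  have hTM' : T ≤ M := hTM ▸ Subgroup.le_normalizer
  haveI hRnt : Nontrivial R := by
    rw [Subgroup.nontrivial_iff_ne_bot]
    intro h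
    apply hT1
    rw [h, le_bot_iff, Subgroup.subgroupOf_eq_bot, disjoint_iff, inf_eq_left.2 hTM'] at hTR
    exact hTR
  haveI := hR2.center_nontrivial
  obtain ⟨c, hc⟩ := exists_prime_orderOf_dvd_card' (G := Subgroup.center R) 2 (by
    obtain ⟨k, hk⟩ := (hR2.to_subgroup (Subgroup.center R)).exists_card_eq
    rw [hk]
    refine dvd_pow_self 2 ?_
    rintro rfl
    rw [pow_zero] at hk
    have := Finite.one_lt_card (α := Subgroup.center R)
    omega)
  set u : G := (((c : R) : M) : G) with hu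
  have huo : orderOf u = 2 := by
    rw [hu, Subgroup.orderOf_coe, Subgroup.orderOf_coe, Subgroup.orderOf_coe, hc]
  have hu1 : u ≠ 1 := fun h => by rw [h, orderOf_one] at huo; omega
  have huR : ((c : R) : M) ∈ R := (c : R).2
  have hucomm : ∀ r ∈ R, r * ((c : R) : M) = ((c : R) : M) * r := fun r hr =>
    congrArg Subtype.val (Subgroup.mem_center_iff.1 c.2 ⟨r, hr⟩)
  -- uniqueness inside the core
  have huniq : ∀ v : M, v ∈ R → v * v = 1 → (∀ r ∈ R, r * v = v * r) →
      (v : G) = 1 ∨ (v : G) = u := by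
    intro v hv hvv hvc
    classical
    haveI := hZ
    let : Fintype (Subgroup.center R) := Fintype.ofFinite _
    let v' : Subgroup.center R :=
      ⟨⟨v, hv⟩, Subgroup.mem_center_iff.2 fun r => Subtype.ext (hvc r r.2)⟩
    have hle := IsCyclic.card_pow_eq_one_le (α := Subgroup.center R) (show 0 < 2 by norm_num)
    by_contra hne
    push Not at hne
    have hne1 : v' ≠ 1 := fun h => hne.1
      (congrArg (fun q : Subgroup.center R => (((q : R) : M) : G)) h)
    have hne2 : v' ≠ c := fun h => hne.2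
      (congrArg (fun q : Subgroup.center R => (((q : R) : M) : G)) h)
    have hsub : ({1, c, v'} : Finset (Subgroup.center R)) ⊆
        Finset.univ.filter fun a => a ^ 2 = 1 := by
      intro a ha
      rw [Finset.mem_filter]
      refine ⟨Finset.mem_univ _, ?_⟩
      simp only [Finset.mem_insert, Finset.mem_singleton] at ha
      rcases ha with rfl | rfl | rfl
      · exact one_pow 2
      · rw [← hc, pow_orderOf_eq_one]
      · rw [pow_two]; exact Subtype.ext (Subtype.ext hvv)
    have hc1 : c ≠ 1 := fun h => by rw [h, orderOf_one] at hc; omega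
    have h3 : ({1, c, v'} : Finset (Subgroup.center R)).card = 3 := by
      simp [Ne.symm hc1, Ne.symm hne1, Ne.symm hne2]
    have := Finset.card_le_card hsub
    omega
  have hMu : M ≤ Subgroup.centralizer ({u} : Set G) := by
    intro g hg
    apply Subgroup.mem_centralizer_singleton_iff.2
    set g' : M := ⟨g, hg⟩
    have hm : g' * ((c : R) : M) * g'⁻¹ ∈ R := Subgroup.Normal.conj_mem inferInstance _ huR g'
    have hcc : ((c : R) : M) * ((c : R) : M) = 1 := Subtype.ext (sq_eq_one huo)
    rcases huniq _ hm (by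
        calc g' * ((c : R) : M) * g'⁻¹ * (g' * ((c : R) : M) * g'⁻¹)
            = g' * (((c : R) : M) * ((c : R) : M)) * g'⁻¹ := by group
          _ = 1 := by rw [hcc]; group)
      (fun r hr => by
        have := hucomm _ (Subgroup.Normal.conj_mem inferInstance r hr g'⁻¹)
        calc r * (g' * ((c : R) : M) * g'⁻¹)
            = g' * ((g'⁻¹ * r * g'⁻¹⁻¹) * ((c : R) : M)) * g'⁻¹ := by group
          _ = g' * (((c : R) : M) * (g'⁻¹ * r * g'⁻¹⁻¹)) * g'⁻¹ := by rw [this]
          _ = _ := by group) with h | h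
    · exact absurd (conj_eq_one_iff.1 h) hu1
    · exact mul_inv_eq_iff_eq_mul.1 h
  have hMeq : M = Subgroup.centralizer ({u} : Set G) :=
    (hmax _ (isTwoLocal_centralizer huo) hMu).symm
  refine ⟨u, huo, hMeq, fun P hP hPM => ?_⟩
  obtain ⟨W, hW⟩ := (hP.comap_of_injective M.subtype M.subtype_injective).exists_le_sylow
  set W' := (W : Subgroup M).map M.subtype with hW'
  have hW'2 : IsPGroup 2 W' := W.isPGroup'.map M.subtype
  obtain ⟨Q, hQ⟩ := hW'2.exists_le_sylow
  have hRW : R ≤ (W : Subgroup M) := sSup_le fun N hN => by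
    haveI := hN.1
    exact hN.2.le_sylow_of_normal W
  have huW : u ∈ W' := ⟨_, hRW huR, rfl⟩
  -- involutions centralizing `W'` inside `M`
  have hkey : ∀ v : G, v ∈ M → v * v = 1 → (∀ s ∈ W', s * v = v * s) → v = 1 ∨ v = u := by
    intro v hv hvv hvc
    have hcR : ∀ r ∈ R, r * (⟨v, hv⟩ : M) = ⟨v, hv⟩ * r := fun r hr =>
      Subtype.ext (hvc r ⟨r, hRW hr, rfl⟩)
    have hvR : (⟨v, hv⟩ : M) ∈ R := by
      have h1 : Subgroup.centralizer (Cfsg.pCore 2 ↥M : Set ↥M) ≤ Cfsg.pCore 2 ↥M := by
        rw [hMeq]; exact hchar u huo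
      exact h1 hcR
    exact huniq ⟨v, hv⟩ hvR (Subtype.ext hvv) hcR
  have hQM : (Q : Subgroup G) ≤ W' := by
    by_contra hne
    have hlt : W'.subgroupOf (Q : Subgroup G) < ⊤ :=
      lt_top_iff_ne_top.2 fun h => hne (Subgroup.subgroupOf_eq_top.1 h)
    haveI : Group.IsNilpotent (Q : Subgroup G) := Q.isPGroup'.isNilpotent
    obtain ⟨x, hxN, hxW⟩ := SetLike.exists_of_lt (Group.normalizerCondition_of_isNilpotent _ hlt)
    have hxW' : ∀ a ∈ W', (x : G) * a * (x : G)⁻¹ ∈ W' := fun a ha =>
      (Subgroup.mem_normalizer_iff.1 hxN ⟨a, hQ ha⟩).1 ha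
    have hxi : ∀ a ∈ W', (x : G)⁻¹ * a * (x : G) ∈ W' := fun a ha => by
      have := (Subgroup.mem_normalizer_iff.1 (inv_mem hxN) ⟨a, hQ ha⟩).1 ha
      rw [inv_inv] at this
      exact this
    have hux := hxW' u huW
    have hxM : (x : G) ∈ M := by
      rw [hMeq]
      apply Subgroup.mem_centralizer_singleton_iff.2
      rcases hkey _ (Subgroup.map_subtype_le _ hux) (by
          calc (x : G) * u * (x : G)⁻¹ * ((x : G) * u * (x : G)⁻¹)
              = (x : G) * (u * u) * (x : G)⁻¹ := by group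
            _ = 1 := by rw [sq_eq_one huo]; group)
        (fun s hs => by
          have h1 : (x : G)⁻¹ * s * x ∈ M := Subgroup.map_subtype_le _ (hxi s hs)
          rw [hMeq] at h1
          have h2 := Subgroup.mem_centralizer_singleton_iff.1 h1
          calc s * ((x : G) * u * (x : G)⁻¹) = (x : G) * (((x : G)⁻¹ * s * x) * u) * (x : G)⁻¹ := by group
            _ = (x : G) * (u * ((x : G)⁻¹ * s * x)) * (x : G)⁻¹ := by rw [h2]
            _ = _ := by group) with h | h
      · exact absurd (conj_eq_one_iff.1 h) hu1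
      · exact mul_inv_eq_iff_eq_mul.1 h
    have hQW : (Q : Subgroup G).subgroupOf M = (W : Subgroup M) := W.is_maximal'
      (Q.isPGroup'.comap_of_injective M.subtype M.subtype_injective)
      (fun a ha => hQ ⟨a, ha, rfl⟩)
    apply hxW
    have : (⟨x, hxM⟩ : M) ∈ (W : Subgroup M) := hQW ▸ x.2
    exact ⟨_, this, rfl⟩
  refine ⟨Q, fun a ha => hQ ⟨⟨a, hPM ha⟩, hW ha, rfl⟩, hQM.trans (Subgroup.map_subtype_le _),
    hQ huW, fun v hv hvv hvc =>
      hkey v ((hQM.trans (Subgroup.map_subtype_le _)) hv) hvv fun s hs => hvc s (hQ hs)⟩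

/-- Say that a finite group G is of characteristic 2 type in the early sense when a Sylow 2-subgroup S of G has a self-centralizing normal subgroup of rank at least 3, S normalizes no nontrivial subgroup of odd order, and every 2-local subgroup of G is 2-constrained. If G is a non-abelian simple group of characteristic 2 type in this sense, then for some maximal 2-local subgroup M of G the centre of O₂(M) is not cyclic. -/
theorem result {G : Type*} [Group G] [Finite G] [IsSimpleGroup G]
    (hG : ¬ IsMulCommutative G) (S : Sylow 2 G) (A : Subgroup G) (hA : Cfsg.IsSCN (S : Subgroup G) A) (hA3 : ¬ Cfsg.PRankLE 2 2 ↥A)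
    (hinv : ∀ X : Subgroup G, Odd (Nat.card ↥X) → (S : Subgroup G) ≤ Subgroup.normalizer (X : Set G) → X = ⊥)
    (hcon : ∀ T : Subgroup G, IsPGroup 2 ↥T → T ≠ ⊥ → Cfsg.IsPConstrained 2 ↥(Subgroup.normalizer (T : Set G))) :
    ∃ M : Subgroup G, Cfsg.IsMaximalTwoLocal M ∧ ¬ IsCyclic ↥(Subgroup.center ↥(Cfsg.pCore 2 ↥M)) := by
  haveI : Fact (Nat.Prime 2) := ⟨Nat.prime_two⟩
  have hcon' : ∀ t : G, orderOf t = 2 →
      Cfsg.IsPConstrained 2 ↥(Subgroup.centralizer ({t} : Set G)) := fun t ht =>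
    CfsgLib.PConstrainedLocals.isPConstrained_of_mulEquiv
      (MulEquiv.subgroupCongr (centralizer_eq_normalizer ht).symm)
      (hcon (Subgroup.zpowers t) (IsPGroup.of_card (n := 1) (by rw [Nat.card_zpowers, ht, pow_one]))
        (by rw [Ne, Subgroup.zpowers_eq_bot]; intro h; rw [h, orderOf_one] at ht; omega))
  have hchar : ∀ t : G, orderOf t = 2 →
      Subgroup.centralizer (Cfsg.pCore 2 ↥(Subgroup.centralizer ({t} : Set G)) :
        Set ↥(Subgroup.centralizer ({t} : Set G))) ≤
        Cfsg.pCore 2 ↥(Subgroup.centralizer ({t} : Set G)) := fun t ht =>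
    (CfsgLib.Constrained.isPConstrained_iff_of_pPrimeCore_eq_bot
      (CfsgLib.EarlyCharTwo.centralizerPPrimeCore_one_of_bot t
        (CfsgLib.EarlyCharTwo.centralizerPPrimeCore_eq_bot S A hA hA3 hinv hcon' t ht))).1
      (hcon' t ht)
  by_contra hno
  push Not at hno
  haveI hSnt : Nontrivial ↥(S : Subgroup G) := by
    rw [Subgroup.nontrivial_iff_ne_bot]
    intro hS
    have hA1 : A = ⊥ := le_bot_iff.1 (hS ▸ hA.1)
    apply hA3
    intro B _ _
    calc Nat.card B ≤ Nat.card A := Subgroup.card_le_card_group B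
      _ = 1 := by rw [hA1, Subgroup.card_bot]
      _ ≤ 2 ^ 2 := by norm_num
  haveI := S.isPGroup'.center_nontrivial
  obtain ⟨c, hc⟩ := exists_prime_orderOf_dvd_card' (G := Subgroup.center ↥(S : Subgroup G)) 2 (by
    obtain ⟨k, hk⟩ := (S.isPGroup'.to_subgroup (Subgroup.center ↥(S : Subgroup G))).exists_card_eq
    rw [hk]
    refine dvd_pow_self 2 ?_
    rintro rfl
    rw [pow_zero] at hk
    have := Finite.one_lt_card (α := Subgroup.center ↥(S : Subgroup G))
    omega)
  set z : G := ((c : ↥(S : Subgroup G)) : G) with hz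
  have hzo : orderOf z = 2 := by rw [hz, Subgroup.orderOf_coe, Subgroup.orderOf_coe, hc]
  have hzS : z ∈ (S : Subgroup G) := (c : ↥(S : Subgroup G)).2
  have hzc : ∀ s ∈ (S : Subgroup G), s * z = z * s := fun s hs =>
    congrArg Subtype.val (Subgroup.mem_center_iff.1 c.2 ⟨s, hs⟩)
  have hz1 : z ≠ 1 := fun h => by rw [h, orderOf_one] at hzo; omega
  -- `z` is the only involution centralizing `S`
  have hzu : ∀ v ∈ (S : Subgroup G), v * v = 1 → v ≠ 1 →
      (∀ s ∈ (S : Subgroup G), s * v = v * s) → v = z := by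
    intro v hv hvv hv1 hvc
    obtain ⟨M, hle, hM⟩ := Finite.exists_le_maximal (p := Cfsg.IsTwoLocal)
      (isTwoLocal_centralizer hzo)
    have hMm : Cfsg.IsMaximalTwoLocal M := ⟨hM.prop, fun N hN h => le_antisymm (hM.2 hN h) h⟩
    obtain ⟨u, -, -, hu⟩ := maximal_spec hchar hMm (hno M hMm)
    obtain ⟨Q, hSQ, -, -, hQ⟩ := hu (S : Subgroup G) S.isPGroup'
      (fun s hs => hle (Subgroup.mem_centralizer_singleton_iff.2 (hzc s hs)))
    have hQS : (Q : Subgroup G) = S := S.is_maximal' Q.isPGroup' hSQ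
    rw [hQS] at hQ
    rcases hQ v hv hvv hvc with h | h
    · exact absurd h hv1
    · rcases hQ z hzS (sq_eq_one hzo) hzc with h' | h'
      · exact absurd h' hz1
      · rw [h, h']
  -- fusion is trivial
  have key : ∀ (d : ℕ) (T : Subgroup G), Nat.card G - Nat.card T = d → z ∈ T →
      T ≤ (S : Subgroup G) → ∀ g : G, (∀ a ∈ T, g * a * g⁻¹ ∈ (S : Subgroup G)) →
      g * z * g⁻¹ = z := by
    intro d
    induction d using Nat.strong_induction_on with
    | _ d ih => ?_
    intro T hd hzT hTS g hg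
    by_cases hTeq : T = (S : Subgroup G)
    · subst hTeq
      refine hzu _ (hg z hzT) (by
          calc g * z * g⁻¹ * (g * z * g⁻¹) = g * (z * z) * g⁻¹ := by group
            _ = 1 := by rw [sq_eq_one hzo]; group)
        (fun h => hz1 (conj_eq_one_iff.1 h)) (fun s hs => ?_)
      let f : ↥(S : Subgroup G) → ↥(S : Subgroup G) := fun a => ⟨g * a * g⁻¹, hg a a.2⟩
      have hf : Function.Injective f := fun a b h => Subtype.ext (by
        have h' : g * (a : G) * g⁻¹ = g * (b : G) * g⁻¹ := congrArg Subtype.val h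
        exact mul_left_cancel (mul_right_cancel h'))
      obtain ⟨a, ha⟩ := (Finite.injective_iff_surjective.1 hf) ⟨s, hs⟩
      have ha' : g * (a : G) * g⁻¹ = s := congrArg Subtype.val ha
      have h := hzc a a.2
      calc s * (g * z * g⁻¹) = g * ((a : G) * z) * g⁻¹ := by rw [← ha']; group
        _ = g * (z * a) * g⁻¹ := by rw [h]
        _ = g * z * g⁻¹ * s := by rw [← ha']; group
    have hT2 : IsPGroup 2 T := S.isPGroup'.to_le hTS
    have hT1 : T ≠ ⊥ := fun h => hz1 (Subgroup.mem_bot.1 (h ▸ hzT))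
    -- a subgroup of `S` properly bigger
    have grow : ∀ U : Subgroup G, U ≤ (S : Subgroup G) → U ≠ (S : Subgroup G) →
        Nat.card U < Nat.card ↥((S : Subgroup G) ⊓ Subgroup.normalizer (U : Set G)) := by
      intro U hUS hUne
      have hlt : U.subgroupOf (S : Subgroup G) < ⊤ := lt_top_iff_ne_top.2 fun h =>
        hUne (le_antisymm hUS (Subgroup.subgroupOf_eq_top.1 h))
      haveI : Group.IsNilpotent (S : Subgroup G) := S.isPGroup'.isNilpotent
      obtain ⟨x, hxN, hxU⟩ := SetLike.exists_of_lt (Group.normalizerCondition_of_isNilpotent _ hlt)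
      rw [← Subgroup.subgroupOf_normalizer_eq hUS] at hxN
      have hlt' : U < (S : Subgroup G) ⊓ Subgroup.normalizer (U : Set G) :=
        lt_of_le_of_ne (le_inf hUS Subgroup.le_normalizer) fun h =>
          hxU (show (x : G) ∈ U by rw [h]; exact ⟨x.2, hxN⟩)
      by_contra hle
      push Not at hle
      exact hlt'.ne (Subgroup.eq_of_le_of_card_ge hlt'.le hle)
    have rec' : ∀ (U : Subgroup G), z ∈ U → U ≤ (S : Subgroup G) → Nat.card T < Nat.card U →
        ∀ e : G, (∀ a ∈ U, e * a * e⁻¹ ∈ (S : Subgroup G)) → e * z * e⁻¹ = z := by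
      intro U hzU hUS hlt e he
      refine ih _ ?_ U rfl hzU hUS e he
      have := Subgroup.card_le_card_group U
      omega
    set NT := Subgroup.normalizer (T : Set G) with hNT
    -- step A
    have hNz : NT ≤ Subgroup.centralizer ({z} : Set G) := by
      obtain ⟨M, hle, hM⟩ := Finite.exists_le_maximal (p := Cfsg.IsTwoLocal)
        (show Cfsg.IsTwoLocal NT from ⟨T, hT2, hT1, rfl⟩)
      have hMm : Cfsg.IsMaximalTwoLocal M := ⟨hM.prop, fun N hN h => le_antisymm (hM.2 hN h) h⟩
      obtain ⟨u, huo, hMu, hu⟩ := maximal_spec hchar hMm (hno M hMm)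
      obtain ⟨Q, hPQ, hQM, huQ, -⟩ := hu ((S : Subgroup G) ⊓ NT) (S.isPGroup'.to_le inf_le_left)
        (inf_le_right.trans hle)
      obtain ⟨h, hh⟩ := MulAction.exists_smul_eq G Q S
      have hQS : ∀ a ∈ (Q : Subgroup G), h * a * h⁻¹ ∈ (S : Subgroup G) := fun a ha => by
        rw [← hh]; exact ⟨a, ha, rfl⟩
      have hzP : z ∈ (S : Subgroup G) ⊓ NT := ⟨hzS, Subgroup.le_normalizer hzT⟩
      have h1 := rec' _ hzP inf_le_left (grow T hTS hTeq) h (fun a ha => hQS a (hPQ ha))
      have h2 : h * u * h⁻¹ = z := by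
        refine hzu _ (hQS u huQ) (by
            calc h * u * h⁻¹ * (h * u * h⁻¹) = h * (u * u) * h⁻¹ := by group
              _ = 1 := by rw [sq_eq_one huo]; group)
          (fun h0 => by rw [conj_eq_one_iff.1 h0, orderOf_one] at huo; omega) (fun s hs => ?_)
        rw [← hh] at hs
        obtain ⟨q, hq, rfl⟩ := hs
        have hqu := hQM hq
        rw [hMu] at hqu
        have := Subgroup.mem_centralizer_singleton_iff.1 hqu
        show h * q * h⁻¹ * (h * u * h⁻¹) = h * u * h⁻¹ * (h * q * h⁻¹)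
        calc h * q * h⁻¹ * (h * u * h⁻¹) = h * (q * u) * h⁻¹ := by group
          _ = h * (u * q) * h⁻¹ := by rw [this]
          _ = _ := by group
      have huz : u = z := by
        have := h2.trans h1.symm
        exact mul_left_cancel (mul_right_cancel this)
      rw [hMu, huz] at hle
      exact hle
    -- step B
    set T' := T.map (MulAut.conj g).toMonoidHom with hT'
    have hT'S : T' ≤ (S : Subgroup G) := by rintro _ ⟨a, ha, rfl⟩; exact hg a ha
    have hT'card : Nat.card T' = Nat.card T :=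
      (Nat.card_congr (T.equivMapOfInjective _ (MulAut.conj g).injective).toEquiv).symm
    set P' := (S : Subgroup G) ⊓ Subgroup.normalizer (T' : Set G) with hP'
    have hP'lt : Nat.card T < Nat.card P' := by
      rw [← hT'card]
      refine grow T' hT'S fun h => ?_
      rw [h] at hT'card
      exact hTeq (Subgroup.eq_of_le_of_card_ge hTS hT'card.le)
    have hzP' : z ∈ P' := by
      refine ⟨hzS, Subgroup.centralizer_le_normalizer _ ?_⟩
      intro a ha
      exact hzc a (hT'S ha)
    set K := P'.map (MulAut.conj g⁻¹).toMonoidHom with hK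
    have hK2 : IsPGroup 2 K := (S.isPGroup'.to_le inf_le_left).map _
    have hKN : K ≤ NT := by
      rintro _ ⟨p, hp, rfl⟩
      rw [hNT, Subgroup.mem_normalizer_iff]
      intro a
      have hn := Subgroup.mem_normalizer_iff.1 hp.2 (g * a * g⁻¹)
      have hmem : ∀ b, g * b * g⁻¹ ∈ T' ↔ b ∈ T := fun b =>
        ⟨fun ⟨b', hb', e⟩ => by
          have : b' = b := (MulAut.conj g).injective e
          exact this ▸ hb', fun hb => ⟨b, hb, rfl⟩⟩
      show a ∈ T ↔ (g⁻¹ * p * g⁻¹⁻¹) * a * (g⁻¹ * p * g⁻¹⁻¹)⁻¹ ∈ T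
      rw [← hmem a, hn, ← hmem]
      constructor <;> intro hh <;> convert hh using 1 <;> group
    -- both into a Sylow subgroup of `NT`, then into `S` inside the centralizer of `z`
    obtain ⟨R, hR⟩ := (hK2.comap_of_injective NT.subtype NT.subtype_injective).exists_le_sylow
    set R' := (R : Subgroup NT).map NT.subtype with hR'
    set Cz := Subgroup.centralizer ({z} : Set G) with hCz
    have hR'C : R' ≤ Cz := (Subgroup.map_subtype_le _).trans hNz
    have hSC : (S : Subgroup G) ≤ Cz := fun s hs =>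
      Subgroup.mem_centralizer_singleton_iff.2 (hzc s hs)
    let S' : Sylow 2 Cz := S.subtype hSC
    obtain ⟨Q, hQ⟩ := (((R.isPGroup'.map NT.subtype).comap_of_injective Cz.subtype
      Cz.subtype_injective) : IsPGroup 2 (R'.subgroupOf Cz)).exists_le_sylow
    obtain ⟨d, hd'⟩ := MulAction.exists_smul_eq Cz Q S'
    have hKS : ∀ p ∈ P', ((d : G) * g⁻¹) * p * ((d : G) * g⁻¹)⁻¹ ∈ (S : Subgroup G) := by
      intro p hp
      have hk : g⁻¹ * p * g⁻¹⁻¹ ∈ K := ⟨p, hp, rfl⟩
      have hkR : g⁻¹ * p * g⁻¹⁻¹ ∈ R' := ⟨⟨_, hKN hk⟩, hR hk, rfl⟩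
      have hkQ : (⟨_, hR'C hkR⟩ : Cz) ∈ (Q : Subgroup Cz) := hQ hkR
      have hmem : d * ⟨_, hR'C hkR⟩ * d⁻¹ ∈ ((d • Q : Sylow 2 Cz) : Subgroup Cz) :=
        ⟨_, hkQ, rfl⟩
      rw [hd'] at hmem
      have h : (d : G) * (g⁻¹ * p * g⁻¹⁻¹) * (d : G)⁻¹ ∈ (S : Subgroup G) := hmem
      convert h using 1
      group
    have he := rec' P' hzP' inf_le_left hP'lt ((d : G) * g⁻¹) hKS
    have hdz : (d : G) * z = z * (d : G) := Subgroup.mem_centralizer_singleton_iff.1 d.2
    have h1 : g⁻¹ * z * g = z := by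
      calc g⁻¹ * z * g = (d : G)⁻¹ * (((d : G) * g⁻¹) * z * ((d : G) * g⁻¹)⁻¹) * (d : G) := by group
        _ = (d : G)⁻¹ * (z * d) := by rw [he]; group
        _ = z := by rw [← hdz]; group
    calc g * z * g⁻¹ = g * (g⁻¹ * z * g) * g⁻¹ := by rw [h1]
      _ = z := by group
  have hiso : ∀ g : G, g * z * g⁻¹ ∈ (S : Subgroup G) → g * z * g⁻¹ = z := fun g hg =>
    key _ (Subgroup.zpowers z) rfl (Subgroup.mem_zpowers z) (Subgroup.zpowers_le.2 hzS) g
      (fun a ha => by
        obtain ⟨k, rfl⟩ := Subgroup.mem_zpowers_iff.1 ha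
        rw [← conj_zpow]
        exact zpow_mem hg k)
  have hstar := CfsgLib.ZStar.inZStar_of_no_fusion hzo S hiso
  have hO : Cfsg.pPrimeCore 2 G = ⊥ := by
    refine hinv _ ?_ ?_
    · rw [← Nat.not_even_iff_odd, even_iff_two_dvd]
      exact CfsgLib.Constrained.pPrimeCore_not_dvd
    · intro s _
      rw [Subgroup.normalizer_eq_top]
      trivial
  have hzcen : z ∈ Subgroup.center G := Subgroup.mem_center_iff.2 fun g => by
    have := hstar g
    rw [hO, Subgroup.mem_bot, mul_inv_eq_one] at this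
    exact mul_inv_eq_iff_eq_mul.1 this
  rcases (inferInstance : (Subgroup.center G).Normal).eq_bot_or_eq_top with h | h
  · exact hz1 (Subgroup.mem_bot.1 (h ▸ hzcen))
  · exact hG ⟨⟨fun a b => (Subgroup.mem_center_iff.1 (h ▸ Subgroup.mem_top b : b ∈ _) a)⟩⟩

end Cfsg.Agent.S3244
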