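import Cfsg.Statements.S3246
import Cfsg.Agent.Eq.Def_Local
import Cfsg.Agent.Eq.Def_OddOrderLocal
import Cfsg.Agent.PConstrainedLocals.Basic
import Cfsg.Agent.Coprime.Generation
import Cfsg.Agent.PGroup.Normal
-- import your own Cfsg.Agent.* helpers here

set_option autoImplicit false
open Cfsg

namespace Cfsg.Agent.S3246

open CfsgLib.Constrained in
/-- Involution centralizers have characteristic two. -/
theorem centralizer_charTwo {G : Type*} [Group G] [Finite G]
    (h : (∀ M : Subgroup G, Cfsg.IsMaximalTwoLocal M → Cfsg.IsPConstrained 2 ↥M ∧ Cfsg.oddCore ↥M = ⊥) ∨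
      (∀ t : G, orderOf t = 2 → Cfsg.IsPConstrained 2 ↥(Subgroup.centralizer ({t} : Set G)) ∧
        Cfsg.oddCore ↥(Subgroup.centralizer ({t} : Set G)) = ⊥))
    (t : G) (ht : orderOf t = 2) :
    Cfsg.IsPConstrained 2 ↥(Subgroup.centralizer ({t} : Set G)) ∧
      Cfsg.oddCore ↥(Subgroup.centralizer ({t} : Set G)) = ⊥ := by
  haveI : Fact (Nat.Prime 2) := ⟨Nat.prime_two⟩
  rcases h with h | h
  swap
  · exact h t ht
  set P := Subgroup.zpowers t with hP
  have hPC : Subgroup.centralizer (P : Set G) = Subgroup.centralizer ({t} : Set G) := by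
    rw [hP, Subgroup.zpowers_eq_closure, Subgroup.centralizer_closure]
  have hP2 : IsPGroup 2 P := IsPGroup.of_card (n := 1) (by rw [hP, Nat.card_zpowers, ht, pow_one])
  have hloc : Cfsg.IsTwoLocal (Subgroup.normalizer (P : Set G)) := ⟨P, hP2, by
    rw [hP, Ne, Subgroup.zpowers_eq_bot]; intro h1; rw [h1, orderOf_one] at ht; omega, rfl⟩
  obtain ⟨M, hle, hM⟩ := Finite.exists_le_maximal (p := Cfsg.IsTwoLocal) hloc
  have hCN : Subgroup.centralizer (P : Set G) ≤ Subgroup.normalizer (P : Set G) := by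
    intro g hg
    rw [Subgroup.mem_normalizer_iff]
    intro y
    constructor
    · intro hy
      rw [← hg y hy, mul_inv_cancel_right]
      exact hy
    · intro hy
      have h1 := hg _ hy
      have h2 : g * y * g⁻¹ = y := by
        calc g * y * g⁻¹ = g⁻¹ * (g * (g * y * g⁻¹)) := by group
          _ = g⁻¹ * ((g * y * g⁻¹) * g) := by rw [h1]
          _ = y := by group
      exact h2 ▸ hy
  have hCM : Subgroup.centralizer (P : Set G) ≤ M := hCN.trans hle
  have hPM : P ≤ M := Subgroup.le_normalizer.trans hle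
  obtain ⟨hc, hO⟩ := h M ⟨hM.prop, fun N hN hMN => le_antisymm (hM.2 hN hMN) hMN⟩
  rw [← hPC]
  refine ⟨CfsgLib.PConstrainedLocals.isPConstrained_centralizer_of_le hc hP2 hPM hCM, ?_⟩
  have hPp : IsPGroup 2 ↥(P.subgroupOf M) :=
    hP2.of_equiv (Subgroup.subgroupOfEquivOfLe hPM).symm
  have h0 := pPrimeCore_centralizer_eq (isPConstrained_iff.1 hc) hPp
  rw [show pPrimeCore 2 ↥M = ⊥ from hO, bot_inf_eq, Subgroup.map_eq_bot_iff, Subgroup.ker_subtype,
    le_bot_iff] at h0
  change pPrimeCore 2 ↥(Subgroup.centralizer (P : Set G)) = ⊥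
  rw [← pPrimeCore_map (CfsgLib.PConstrainedLocals.centralizerEquiv hPM hCM) 2, h0,
    Subgroup.map_bot]

open CfsgLib.Constrained in
/-- An odd-order subgroup of a characteristic two group normalized by a subgroup meeting
`O_2` in index at most two is trivial. -/
theorem eq_bot_of_almost_normalized {C : Type*} [Group C] [Finite C]
    (hC : Subgroup.centralizer (Cfsg.pCore 2 C : Set C) ≤ Cfsg.pCore 2 C) {Y U : Subgroup C}
    (hY : Odd (Nat.card Y)) (hUY : U ≤ Subgroup.normalizer (Y : Set C))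
    (hidx : U.relIndex (Cfsg.pCore 2 C) ≤ 2) : Y = ⊥ := by
  haveI : Fact (Nat.Prime 2) := ⟨Nat.prime_two⟩
  set R := Cfsg.pCore 2 C with hR
  have hR2 : IsPGroup 2 R := isPGroup_pCore
  have hYR : R ⊓ Y = ⊥ := disjoint_of_isPGroup_of_not_dvd hR2 (by
    obtain ⟨k, hk⟩ := hY
    omega)
  rw [eq_bot_iff]
  intro y hy
  rw [Subgroup.mem_bot]
  have hfix : ∀ r ∈ R, r ∈ U → y * r = r * y := by
    intro r hr hrU
    have h1 : y * r * y⁻¹ * r⁻¹ ∈ R ⊓ Y := by
      refine Subgroup.mem_inf.2 ⟨R.mul_mem (Subgroup.Normal.conj_mem inferInstance r hr y)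
        (R.inv_mem hr), ?_⟩
      rw [show y * r * y⁻¹ * r⁻¹ = y * (r * y⁻¹ * r⁻¹) by group]
      exact Y.mul_mem hy ((Subgroup.mem_normalizer_iff.1 (hUY hrU) y⁻¹).1 (Y.inv_mem hy))
    rw [hYR, Subgroup.mem_bot] at h1
    calc y * r = (y * r * y⁻¹ * r⁻¹) * (r * y) := by group
      _ = r * y := by rw [h1, one_mul]
  set V := U.subgroupOf R with hV
  have hVle : V.index ≤ 2 := hidx
  have hV0 : V.index ≠ 0 := Subgroup.index_ne_zero_of_finite
  let c : R → R := fun r => ⟨y * (r : C) * y⁻¹,
    Subgroup.Normal.conj_mem inferInstance (r : C) r.2 y⟩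
  have hcent : y ∈ Subgroup.centralizer (R : Set C) := by
    intro r hr
    by_cases hrU : r ∈ U
    · exact (hfix r hr hrU).symm
    have hrV : (⟨r, hr⟩ : R) ∉ V := hrU
    have hcV : c ⟨r, hr⟩ ∉ V := by
      intro h
      have hm : y * r * y⁻¹ ∈ R := Subgroup.Normal.conj_mem inferInstance r hr y
      have h1 := hfix _ hm h
      have h2 : y * r * y⁻¹ = r := by
        calc y * r * y⁻¹ = y⁻¹ * (y * (y * r * y⁻¹)) := by group
          _ = y⁻¹ * ((y * r * y⁻¹) * y) := by rw [h1]
          _ = r := by group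
      exact hrU (h2 ▸ h)
    have h2 : V.index = 2 := by
      have h1 : V.index ≠ 1 := fun h => hrV (by rw [Subgroup.index_eq_one.1 h]; trivial)
      omega
    have hd : c ⟨r, hr⟩ * (⟨r, hr⟩ : R)⁻¹ ∈ V := (Subgroup.mul_mem_iff_of_index_two h2).2
      ⟨fun h => absurd h hcV, fun h => absurd (V.inv_mem_iff.1 h) hrV⟩
    set d : C := y * r * y⁻¹ * r⁻¹ with hddef
    have hdU : d ∈ U := hd
    have hdR : d ∈ R := (c ⟨r, hr⟩ * (⟨r, hr⟩ : R)⁻¹).2
    have hd1 := hfix d hdR hdU
    have hk : ∀ k : ℕ, y ^ k * r * (y ^ k)⁻¹ = d ^ k * r := by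
      intro k
      induction k with
      | zero => simp
      | succ k ih =>
        rw [pow_succ' y]
        calc y * y ^ k * r * (y * y ^ k)⁻¹ = y * (y ^ k * r * (y ^ k)⁻¹) * y⁻¹ := by group
          _ = (y * d ^ k) * r * y⁻¹ := by rw [ih]; group
          _ = (d ^ k * y) * r * y⁻¹ := by rw [((show Commute y d from hd1).pow_right k).eq]
          _ = d ^ k * (d * r) := by rw [hddef]; group
          _ = _ := by rw [← mul_assoc, ← pow_succ]
    have hn := hk (orderOf y)
    rw [pow_orderOf_eq_one, one_mul, inv_one, mul_one] at hn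
    have hdn : d ^ orderOf y = 1 := mul_eq_right.1 hn.symm
    obtain ⟨i, hi⟩ := (IsPGroup.iff_orderOf.1 hR2) ⟨d, hdR⟩
    rw [Subgroup.orderOf_mk] at hi
    have hdd : d = 1 := by
      rw [← orderOf_eq_one_iff]
      have h1 : orderOf d ∣ Nat.card Y :=
        (orderOf_dvd_of_pow_eq_one hdn).trans (Subgroup.orderOf_dvd_natCard Y hy)
      have h3 : (orderOf d).Coprime (Nat.card Y) := by
        rw [hi]; exact Nat.Coprime.pow_left i (Nat.coprime_two_left.2 hY)
      exact Nat.eq_one_of_dvd_coprimes h3 dvd_rfl h1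
    calc r * y = d * (r * y) := by rw [hdd, one_mul]
      _ = y * r := by rw [hddef]; group
  have hyR : y ∈ R ⊓ Y := Subgroup.mem_inf.2 ⟨hC hcent, hy⟩
  rwa [hYR, Subgroup.mem_bot] at hyR

/-- Let G be a finite group whose Sylow 2-subgroup S has a self-centralizing normal subgroup of rank at least 3. Suppose that either every maximal 2-local subgroup of G is 2-constrained with no nontrivial normal subgroup of odd order, or the centralizer of every involution of G is 2-constrained with no nontrivial normal subgroup of odd order. Then S normalizes no nontrivial subgroup of G of odd order and every 2-local subgroup of G is 2-constrained. -/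
theorem result {G : Type*} [Group G] [Finite G]
    (S : Sylow 2 G) (A : Subgroup G) (hA : Cfsg.IsSCN (S : Subgroup G) A) (hA3 : ¬ Cfsg.PRankLE 2 2 ↥A)
    (h : (∀ M : Subgroup G, Cfsg.IsMaximalTwoLocal M → Cfsg.IsPConstrained 2 ↥M ∧ Cfsg.oddCore ↥M = ⊥) ∨
      (∀ t : G, orderOf t = 2 → Cfsg.IsPConstrained 2 ↥(Subgroup.centralizer ({t} : Set G)) ∧
        Cfsg.oddCore ↥(Subgroup.centralizer ({t} : Set G)) = ⊥)) :
    (∀ X : Subgroup G, Odd (Nat.card ↥X) → (S : Subgroup G) ≤ Subgroup.normalizer (X : Set G) → X = ⊥) ∧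
      (∀ T : Subgroup G, IsPGroup 2 ↥T → T ≠ ⊥ → Cfsg.IsPConstrained 2 ↥(Subgroup.normalizer (T : Set G))) := by
  haveI : Fact (Nat.Prime 2) := ⟨Nat.prime_two⟩
  have hct := centralizer_charTwo h
  refine ⟨?_, fun T hT hT1 =>
    CfsgLib.PConstrainedLocals.isPConstrained_normalizer_of_centralizers (fun t ht => (hct t ht).1)
      hT hT1⟩
  intro X hX hSX
  obtain ⟨hAS, hSA, hAA⟩ := hA
  -- the elements of order two of `A`
  have hAc : ∀ a ∈ A, ∀ b ∈ A, a * b = b * a := fun a ha b hb =>
    (hAA.symm.le hb).2 a ha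
  let E : Subgroup ↥(S : Subgroup G) :=
    { carrier := {s | (s : G) ∈ A ∧ (s : G) ^ 2 = 1}
      one_mem' := ⟨one_mem A, one_pow 2⟩
      mul_mem' := fun {a b} ha hb => ⟨mul_mem ha.1 hb.1, by
        rw [Subgroup.coe_mul, (show Commute (a : G) b from hAc _ ha.1 _ hb.1).mul_pow, ha.2, hb.2,
          mul_one]⟩
      inv_mem' := fun {a} ha => ⟨inv_mem ha.1, by rw [Subgroup.coe_inv, inv_pow, ha.2, inv_one]⟩ }
  haveI hEn : E.Normal := ⟨fun e he g => ⟨(Subgroup.mem_normalizer_iff.1 (hSA g.2) _).1 he.1, by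
    have he2 : (e : G) ^ 2 = 1 := he.2
    push_cast
    rw [conj_pow, he2, mul_one, mul_inv_cancel]⟩⟩
  have hE4 : 2 ^ 2 ∣ Nat.card E := by
    unfold Cfsg.PRankLE at hA3
    push Not at hA3
    obtain ⟨B, -, hB2, hBcard⟩ := hA3
    have hle : Nat.card B ≤ Nat.card E := by
      refine Nat.card_le_card_of_injective (fun b : B =>
        (⟨⟨((b : A) : G), hAS (b : A).2⟩, (b : A).2, congrArg Subtype.val (hB2 b b.2)⟩ : E))
        fun b b' hbb => ?_
      exact Subtype.ext (Subtype.ext (congrArg (fun q : E => ((q : ↥(S : Subgroup G)) : G)) hbb))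
    obtain ⟨k, hk⟩ := (S.isPGroup'.to_subgroup E).exists_card_eq
    rw [hk] at hle ⊢
    apply pow_dvd_pow
    by_contra hk2
    have := Nat.pow_le_pow_right (show 0 < 2 by norm_num) (show k ≤ 1 by omega)
    omega
  obtain ⟨W, hWn, hWE, hWcard⟩ := CfsgLib.PGroup.exists_normal_card_pow S.isPGroup' E hE4
  haveI := hWn
  have hW2 : ∀ w ∈ W, w * w = 1 := fun w hw => by
    have := (hWE hw).2
    rw [pow_two] at this
    exact Subtype.ext this
  have hWne : W ≠ ⊥ := fun h0 => by rw [h0, Subgroup.card_bot] at hWcard; norm_num at hWcard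
  obtain ⟨z, hz, hz1⟩ := (Subgroup.bot_or_exists_ne_one _).resolve_left
    (CfsgLib.PGroup.inf_center_ne_bot S.isPGroup' W hWne)
  -- centralizers in `S` of elements of `W` have index at most two
  have hidx : ∀ w ∈ W, w ≠ 1 → (Subgroup.centralizer ({w} : Set ↥(S : Subgroup G))).index ≤ 2 := by
    intro w hw hw1
    set S0 := Subgroup.centralizer ({w} : Set ↥(S : Subgroup G)) with hS0
    classical
    by_cases htop : ∀ s, s ∈ S0
    · rw [Subgroup.index_eq_one.2 ((Subgroup.eq_top_iff' S0).2 htop)]; norm_num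
    push Not at htop
    obtain ⟨s₀, hs₀⟩ := htop
    have hwz : w ≠ z := by
      rintro rfl
      exact hs₀ (Subgroup.mem_centralizer_singleton_iff.2 (Subgroup.mem_center_iff.1 hz.2 s₀))
    have key : ∀ s, s ∉ S0 → s * w * s⁻¹ = w * z := by
      intro s hs
      have hm : s * w * s⁻¹ ∈ W := hWn.conj_mem w hw s
      have e1 : s * w * s⁻¹ ≠ 1 := fun h => hw1 (conj_eq_one_iff.1 h)
      have e2 : s * w * s⁻¹ ≠ z := fun h => hwz (by
        have hc := Subgroup.mem_center_iff.1 hz.2 s⁻¹
        calc w = s⁻¹ * (s * w * s⁻¹) * s := by group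
          _ = z := by rw [h, hc]; group)
      have e3 : s * w * s⁻¹ ≠ w := fun h =>
        hs (Subgroup.mem_centralizer_singleton_iff.2 (mul_inv_eq_iff_eq_mul.1 h))
      let : Fintype W := Fintype.ofFinite W
      have hzW : z ∈ W := hz.1
      have hzz := hW2 z hzW
      have h4 : ({⟨1, one_mem W⟩, ⟨w, hw⟩, ⟨z, hzW⟩, ⟨w * z, mul_mem hw hzW⟩} : Finset W) = Finset.univ := by
        apply Finset.eq_univ_of_card
        have a1 : (1 : ↥(S : Subgroup G)) ≠ w := Ne.symm hw1
        have a2 : (1 : ↥(S : Subgroup G)) ≠ z := Ne.symm hz1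
        have a3 : (1 : ↥(S : Subgroup G)) ≠ w * z := fun h => hwz (by
          rw [eq_inv_of_mul_eq_one_left h.symm, inv_eq_of_mul_eq_one_right hzz])
        have a4 : w ≠ w * z := fun h => hz1 (mul_eq_left.1 h.symm)
        have a5 : z ≠ w * z := fun h => hw1 (mul_eq_right.1 h.symm)
        rw [← Nat.card_eq_fintype_card, hWcard]
        rw [Finset.card_insert_of_notMem (by simp [a1, a2, a3]),
          Finset.card_insert_of_notMem (by simp [hwz, a4]),
          Finset.card_insert_of_notMem (by simp [a5]), Finset.card_singleton]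
        norm_num
      have := Finset.mem_univ (⟨_, hm⟩ : W)
      rw [← h4] at this
      simp only [Finset.mem_insert, Finset.mem_singleton, Subtype.mk.injEq] at this
      rcases this with h | h | h | h
      · exact absurd h e1
      · exact absurd h e3
      · exact absurd h e2
      · exact h
    let : Fintype (↥(S : Subgroup G) ⧸ S0) := Fintype.ofFinite _
    rw [Subgroup.index_eq_card, Nat.card_eq_fintype_card, ← Finset.card_univ]
    refine le_trans (Finset.card_le_card (t := {QuotientGroup.mk 1, QuotientGroup.mk s₀})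
      fun q _ => ?_) (Finset.card_le_two)
    obtain ⟨s, rfl⟩ := QuotientGroup.mk_surjective q
    rw [Finset.mem_insert, Finset.mem_singleton]
    by_cases hs : s ∈ S0
    · exact Or.inl (QuotientGroup.eq.2 (by simpa using hs))
    · refine Or.inr (QuotientGroup.eq.2 ?_)
      apply Subgroup.mem_centralizer_singleton_iff.2
      have := (key s hs).trans (key s₀ hs₀).symm
      calc s⁻¹ * s₀ * w = s⁻¹ * (s₀ * w * s₀⁻¹) * s₀ := by group
        _ = w * (s⁻¹ * s₀) := by rw [← this]; group
  -- `X` is generated by centralizers of elements of `W`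
  let W' : Subgroup G := W.map (S : Subgroup G).subtype
  have hW'c : Nat.card W' = 4 := by
    rw [Nat.card_congr (W.equivMapOfInjective _ Subtype.val_injective).symm.toEquiv, hWcard]
    norm_num
  have hW'comm : IsMulCommutative W' := by
    constructor; constructor
    rintro ⟨_, a, ha, rfl⟩ ⟨_, b, hb, rfl⟩
    exact Subtype.ext (hAc _ (hWE ha).1 _ (hWE hb).1)
  have hnc : ¬ IsCyclic W' := by
    intro hcyc
    obtain ⟨g, hg⟩ := IsCyclic.exists_ofOrder_eq_natCard (α := W')
    obtain ⟨_, a, ha, rfl⟩ := g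
    have hle : orderOf (⟨(a : G), a, ha, rfl⟩ : W') ≤ 2 :=
      Nat.le_of_dvd (by norm_num) (orderOf_dvd_of_pow_eq_one
        (Subtype.ext (by have := (hWE ha).2; exact this)))
    simp only [Subgroup.coe_subtype] at hg
    omega
  have hW'S : W' ≤ (S : Subgroup G) := Subgroup.map_subtype_le W
  rw [eq_bot_iff]
  refine CfsgLib.Coprime.le_of_centralizers hW'comm hnc (hW'S.trans hSX) ?_ ?_
  · rw [hW'c, show 4 = 2 ^ 2 by norm_num]
    exact Nat.Coprime.pow_left 2 (Nat.coprime_two_left.2 hX)
  rintro _ ⟨w, hw, rfl⟩ hw1'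
  have hw1 : w ≠ 1 := fun h => hw1' (by rw [h, map_one])
  simp only [Subgroup.coe_subtype]
  have hwo : orderOf (w : G) = 2 := orderOf_eq_prime (by have := (hWE hw).2; exact this)
    (fun h => hw1 (Subtype.ext h))
  obtain ⟨hcc, hOc⟩ := hct _ hwo
  set C := Subgroup.centralizer ({(w : G)} : Set G) with hCdef
  have hC := (CfsgLib.Constrained.isPConstrained_iff_of_pPrimeCore_eq_bot hOc).1 hcc
  -- the part of `S` inside `C`
  set U := (S : Subgroup G).subgroupOf C with hU
  set Y := X.subgroupOf C with hYdef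
  have hYodd : Odd (Nat.card Y) := by
    refine hX.of_dvd_nat ?_
    rw [hYdef, Nat.card_congr (Subgroup.equivMapOfInjective _ C.subtype Subtype.val_injective).toEquiv,
      Subgroup.subgroupOf_map_subtype]
    exact Subgroup.card_dvd_of_le inf_le_left
  have hUY : U ≤ Subgroup.normalizer (Y : Set C) := by
    intro s hs
    rw [Subgroup.mem_normalizer_iff]
    intro y
    exact Subgroup.mem_normalizer_iff.1 (hSX hs) (y : G)
  have hUidx : U.relIndex (Cfsg.pCore 2 ↥C) ≤ 2 := by
    have hU2 : IsPGroup 2 U := S.isPGroup'.comap_of_injective C.subtype C.subtype_injective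
    obtain ⟨P, hP⟩ := hU2.exists_le_sylow
    have hRP : Cfsg.pCore 2 ↥C ≤ (P : Subgroup C) := sSup_le fun N hN => by
      haveI := hN.1
      exact hN.2.le_sylow_of_normal P
    refine le_trans (Subgroup.relIndex_le_of_le_right hRP
      (Subgroup.index_ne_zero_of_finite)) ?_
    have hPS : Nat.card (P : Subgroup C) ∣ Nat.card (S : Subgroup G) := by
      obtain ⟨Q, hQ⟩ := (P.isPGroup'.map C.subtype).exists_le_sylow
      rw [Nat.card_congr ((P : Subgroup C).equivMapOfInjective C.subtype Subtype.val_injective).toEquiv,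
        ← Q.card_eq_multiplicity.trans S.card_eq_multiplicity.symm]
      exact Subgroup.card_dvd_of_le hQ
    have hUcard : Nat.card U = Nat.card (Subgroup.centralizer ({w} : Set ↥(S : Subgroup G))) := by
      refine Nat.card_congr ⟨fun u => ⟨⟨((u : C) : G), u.2⟩, ?_⟩,
        fun s => ⟨⟨((s : ↥(S : Subgroup G)) : G), ?_⟩, (s : ↥(S : Subgroup G)).2⟩,
        fun u => rfl, fun s => rfl⟩
      · exact Subgroup.mem_centralizer_singleton_iff.2
          (Subtype.ext (Subgroup.mem_centralizer_singleton_iff.1 (u : C).2))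
      · exact Subgroup.mem_centralizer_singleton_iff.2
          (congrArg Subtype.val (Subgroup.mem_centralizer_singleton_iff.1 s.2))
    have h1 : U.relIndex (P : Subgroup C) * Nat.card U = Nat.card (P : Subgroup C) := by
      have h := (U.subgroupOf (P : Subgroup C)).index_mul_card
      rwa [Nat.card_congr (Subgroup.subgroupOfEquivOfLe hP).toEquiv] at h
    have h2 : (Subgroup.centralizer ({w} : Set ↥(S : Subgroup G))).index * Nat.card U =
        Nat.card ↥(S : Subgroup G) := by
      rw [hUcard]; exact Subgroup.index_mul_card _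
    have h3 := Nat.le_of_dvd Nat.card_pos hPS
    rw [← h1, ← h2] at h3
    exact (Nat.le_of_mul_le_mul_right h3 Nat.card_pos).trans (hidx w hw hw1)
  have hY0 := eq_bot_of_almost_normalized hC hYodd hUY hUidx
  intro x hx
  have : (⟨x, hx.2⟩ : C) ∈ Y := hx.1
  rw [hY0, Subgroup.mem_bot] at this
  exact congrArg Subtype.val this

end Cfsg.Agent.S3246
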