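import Cfsg.Statements.S3247
import Cfsg.Agent.Eq.Def_Local
import Cfsg.Agent.PConstrainedLocals.Basic
-- import your own Cfsg.Agent.* helpers here

set_option autoImplicit false
open Cfsg

namespace Cfsg.Agent.S3247

/-- Let G be a finite group and p a prime; here a p-local subgroup means the normalizer of a nontrivial p-subgroup, other than G itself. If every p-local subgroup of G that is maximal among p-local subgroups is p-constrained, or if the centralizer of every element of order p of G is p-constrained, then every p-local subgroup of G is p-constrained. -/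
theorem result {G : Type*} [Group G] [Finite G] (p : ℕ) [hp : Fact p.Prime]
    (h : (∀ M : Subgroup G, (∃ T : Subgroup G, IsPGroup p ↥T ∧ T ≠ ⊥ ∧ M = Subgroup.normalizer (T : Set G)) → M ≠ ⊤ →
        (∀ M' : Subgroup G, (∃ T' : Subgroup G, IsPGroup p ↥T' ∧ T' ≠ ⊥ ∧ M' = Subgroup.normalizer (T' : Set G)) → M' ≠ ⊤ → M ≤ M' → M = M') →
        Cfsg.IsPConstrained p ↥M) ∨
      (∀ x : G, orderOf x = p → Cfsg.IsPConstrained p ↥(Subgroup.centralizer ({x} : Set G))))
    (T : Subgroup G) (hT : IsPGroup p ↥T) (hT1 : T ≠ ⊥) (hTG : Subgroup.normalizer (T : Set G) ≠ ⊤) :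
    Cfsg.IsPConstrained p ↥(Subgroup.normalizer (T : Set G)) := by
  rcases h with h | h
  · let P : Subgroup G → Prop := fun M =>
      (∃ T' : Subgroup G, IsPGroup p ↥T' ∧ T' ≠ ⊥ ∧ M = Subgroup.normalizer (T' : Set G)) ∧ M ≠ ⊤
    obtain ⟨M, hle, hM⟩ := Finite.exists_le_maximal (p := P) (a := Subgroup.normalizer (T : Set G))
      ⟨⟨T, hT, hT1, rfl⟩, hTG⟩
    exact CfsgLib.PConstrainedLocals.isPConstrained_normalizer_of_le
      (h M hM.prop.1 hM.prop.2 fun M' h1 h2 hle' => le_antisymm hle' (hM.2 ⟨h1, h2⟩ hle')) hT hle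
  · exact CfsgLib.PConstrainedLocals.isPConstrained_normalizer_of_centralizers h hT hT1

end Cfsg.Agent.S3247
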