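import Cfsg.Statements.S3261
import Cfsg.Agent.CentralizerD8.AltSix
import Cfsg.Agent.CentralizerD8.Simple
import Cfsg.Agent.S0495
import Cfsg.Agent.S0497

set_option autoImplicit false
open Cfsg

namespace Cfsg.Agent.S3261

theorem result {G : Type*} [Group G] [Finite G]
    (hG : ∀ H : Subgroup G, H.index ≠ 2)
    (αt : ↥(alternatingGroup (Fin 6))) (hαt : orderOf αt = 2) (hsupp : (αt : Equiv.Perm (Fin 6)).support.card = 4)
    (α : G) (hα : orderOf α = 2) (S : Sylow 2 G) (hαS : α ∈ (S : Subgroup G)) (hαc : ∀ s ∈ (S : Subgroup G), s * α = α * s)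
    (e : ↥(Subgroup.centralizer ({α} : Set G)) ≃* ↥(Subgroup.centralizer ({αt} : Set ↥(alternatingGroup (Fin 6))))) :
    Nonempty (G ≃* ↥(alternatingGroup (Fin 6))) ∨
      (∃ (F : Type) (_ : Field F) (_ : Fintype F), Fintype.card F = 7 ∧ Nonempty (G ≃* Matrix.ProjectiveSpecialLinearGroup (Fin 2) F)) := by
  obtain ⟨a₀, b₀, hD₀⟩ := CfsgLib.CentralizerD8.alt_six_data αt hαt hsupp
  obtain ⟨a, b, hD⟩ := hD₀.transport hα e
  haveI : IsSimpleGroup G := hD.isSimpleGroup_of_no_index_two hG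
  rcases hD.card_eq_of_no_index_two hG with h | h
  · haveI : Fact (Nat.Prime 7) := ⟨by norm_num⟩
    exact .inr ⟨ZMod 7, inferInstance, inferInstance, ZMod.card 7,
      Cfsg.Agent.S0495.result h (ZMod.card 7)⟩
  · exact .inl (Cfsg.Agent.S0497.result h)

end Cfsg.Agent.S3261
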