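import Cfsg.Statements.S3265
import Mathlib

set_option autoImplicit false
open Cfsg

namespace Cfsg.Agent.S3265

open Equiv

variable {α : Type*} [Fintype α] [DecidableEq α]

/-- Some odd power fixes the point. -/
def OddPt (p : Perm α) (v : α) : Prop := ∃ N : ℕ, Odd N ∧ (p ^ N) v = v

theorem OddPt.iterate {p : Perm α} {v : α} (h : OddPt p v) (i : ℕ) : OddPt p ((p ^ i) v) := by
  obtain ⟨N, hN, hv⟩ := h
  exact ⟨N, hN, by rw [← Perm.mul_apply, ← pow_add, add_comm, pow_add, Perm.mul_apply, hv]⟩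

theorem oddPt_of_fix {p : Perm α} {v : α} (h : p v = v) : OddPt p v := ⟨1, odd_one, by rw [pow_one, h]⟩

theorem oddPt_three {p : Perm α} {a b c : α} (h1 : p a = b) (h2 : p b = c) (h3 : p c = a) :
    OddPt p a ∧ OddPt p b ∧ OddPt p c := by
  refine ⟨⟨3, by decide, ?_⟩, ⟨3, by decide, ?_⟩, ⟨3, by decide, ?_⟩⟩ <;> simp [pow_succ, h1, h2, h3]

theorem odd_orderOf {p : Perm α} (h : ∀ v, OddPt p v) : Odd (orderOf p) := by
  choose N hN hv using h
  refine Odd.of_dvd_nat (n := ∏ v, N v) ?_ (orderOf_dvd_of_pow_eq_one ?_)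
  · rw [Nat.odd_iff, Finset.prod_nat_mod, Finset.prod_eq_one (fun v _ => Nat.odd_iff.1 (hN v)), Nat.one_mod]
  · ext v
    obtain ⟨k, hk⟩ := Finset.dvd_prod_of_mem N (Finset.mem_univ v)
    rw [hk, pow_mul, Perm.one_apply]
    exact Perm.pow_apply_eq_self_of_apply_eq_self (hv v) k

theorem congr_set {p q : Perm α} {S : Finset α} (hp : ∀ u ∈ S, p u ∈ S) (hq : ∀ u ∈ S, q u = p u)
    {u : α} (hu : u ∈ S) (h : OddPt p u) : OddPt q u := by
  obtain ⟨N, hN, hv⟩ := h
  suffices ∀ n, (q ^ n) u = (p ^ n) u ∧ (p ^ n) u ∈ S from ⟨N, hN, by rw [(this N).1, hv]⟩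
  intro n
  induction n with
  | zero => simp [hu]
  | succ n ih => rw [pow_succ', pow_succ', Perm.mul_apply, Perm.mul_apply, ih.1]; exact ⟨hq _ ih.2, hp _ ih.2⟩

/-- If every step of `p` is an odd number of steps of `q`, odd cycles stay odd. -/
theorem splice {p q : Perm α} {S : Finset α} (hp : ∀ u ∈ S, p u ∈ S)
    (hq : ∀ u ∈ S, ∃ n, Odd n ∧ (q ^ n) u = p u) {u : α} (hu : u ∈ S) (h : OddPt p u) : OddPt q u := by
  obtain ⟨N, hN, hv⟩ := h
  suffices ∀ n, ∃ m, m % 2 = n % 2 ∧ (q ^ m) u = (p ^ n) u ∧ (p ^ n) u ∈ S by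
    obtain ⟨m, hm, he, -⟩ := this N
    exact ⟨m, Nat.odd_iff.2 (hm.trans (Nat.odd_iff.1 hN)), he.trans hv⟩
  intro n
  induction n with
  | zero => exact ⟨0, rfl, by simp, by simpa using hu⟩
  | succ n ih =>
    obtain ⟨m, hm, he, hS⟩ := ih
    obtain ⟨k, hk, hke⟩ := hq _ hS
    refine ⟨k + m, ?_, ?_, ?_⟩
    · have := Nat.odd_iff.1 hk; omega
    · rw [pow_add, Perm.mul_apply, he, hke, pow_succ', Perm.mul_apply]
    · rw [pow_succ', Perm.mul_apply]; exact hp _ hS

theorem walk {p q : Perm α} {u : α} : ∀ {n : ℕ}, (∀ i < n, q ((p ^ i) u) = p ((p ^ i) u)) → (q ^ n) u = (p ^ n) u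
  | 0, _ => by simp
  | n + 1, h => by
    rw [pow_succ', Perm.mul_apply, walk fun i hi => h i (Nat.lt_succ_of_lt hi), h n (Nat.lt_succ_self n),
      pow_succ', Perm.mul_apply]

/-- `L` is the least period of `v`. -/
def Per (p : Perm α) (v : α) (L : ℕ) : Prop :=
  0 < L ∧ ∀ k : ℤ, (p ^ k) v = v ↔ (L : ℤ) ∣ k

theorem exists_per (p : Perm α) (v : α) : ∃ L, Per p v L := by
  have hex : ∃ L, 0 < L ∧ (p ^ L) v = v := ⟨orderOf p, orderOf_pos p, by simp [pow_orderOf_eq_one]⟩
  refine ⟨Nat.find hex, (Nat.find_spec hex).1, fun k => ?_⟩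
  obtain ⟨h0, hL⟩ := Nat.find_spec hex
  have hmul : ∀ j : ℤ, (p ^ ((Nat.find hex : ℤ) * j)) v = v := fun j => by
    rw [zpow_mul, zpow_natCast]
    exact Perm.zpow_apply_eq_self_of_apply_eq_self hL j
  refine ⟨fun hk => ?_, fun ⟨j, hj⟩ => hj ▸ hmul j⟩
  have h1 := Int.emod_nonneg k (show (Nat.find hex : ℤ) ≠ 0 by omega)
  have h2 := Int.emod_lt_of_pos k (show (0 : ℤ) < Nat.find hex by omega)
  obtain ⟨r, hr⟩ : ∃ r : ℕ, k % (Nat.find hex : ℤ) = r := ⟨_, (Int.toNat_of_nonneg h1).symm⟩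
  have hrv : (p ^ r) v = v := by
    have := hk
    rw [← Int.emod_add_mul_ediv k (Nat.find hex : ℤ), zpow_add, Perm.mul_apply, hmul, hr, zpow_natCast] at this
    exact this
  rcases Nat.eq_zero_or_pos r with e | e
  · exact Int.dvd_of_emod_eq_zero (by rw [hr, e]; rfl)
  · exact absurd ⟨e, hrv⟩ (Nat.find_min hex (by omega))

theorem Per.apply_eq {p : Perm α} {v : α} {L : ℕ} (h : Per p v L) {i j : ℤ} :
    (p ^ i) v = (p ^ j) v ↔ (L : ℤ) ∣ i - j := by
  rw [← h.2, sub_eq_neg_add, zpow_add, Perm.mul_apply]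
  constructor
  · intro e; rw [e, ← Perm.mul_apply, ← zpow_add, neg_add_cancel, zpow_zero, Perm.one_apply]
  · intro e
    have := congrArg (p ^ j) e
    rwa [← Perm.mul_apply, ← zpow_add, add_neg_cancel, zpow_zero, Perm.one_apply] at this

theorem Per.eq_of_lt {p : Perm α} {v : α} {L : ℕ} (h : Per p v L) {i j : ℕ} (hi : i < L) (hj : j < L)
    (e : (p ^ i) v = (p ^ j) v) : i = j := by
  rw [← zpow_natCast, ← zpow_natCast p j, h.apply_eq] at e
  have := Int.eq_zero_of_dvd_of_natAbs_lt_natAbs e (by omega)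
  omega

theorem Per.exists_lt {p : Perm α} {v u : α} {L : ℕ} (h : Per p v L) (hu : p.SameCycle v u) :
    ∃ i < L, (p ^ i) v = u := by
  obtain ⟨k, rfl⟩ := hu
  have h1 := Int.emod_nonneg k (show (L : ℤ) ≠ 0 by have := h.1; omega)
  have h2 := Int.emod_lt_of_pos k (show (0 : ℤ) < L by have := h.1; omega)
  refine ⟨(k % L).toNat, by omega, ?_⟩
  rw [← zpow_natCast, Int.toNat_of_nonneg h1, h.apply_eq]
  exact ⟨-(k / L), by rw [mul_neg, eq_neg_iff_add_eq_zero]; have := Int.emod_add_mul_ediv k L; omega⟩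

theorem Per.pow_self {p : Perm α} {v : α} {L : ℕ} (h : Per p v L) : (p ^ L) v = v := by
  rw [← zpow_natCast, h.2]

theorem per_same {p : Perm α} {v u : α} {L : ℕ} (h : Per p v L) (hu : p.SameCycle v u) : Per p u L := by
  obtain ⟨s, rfl⟩ := hu
  refine ⟨h.1, fun k => ?_⟩
  rw [← Perm.mul_apply, ← zpow_add, h.apply_eq, add_sub_cancel_right]

section pair

variable {x y : Perm α}

theorem flip (hy : ∀ u, y (y u) = u) (hx : ∀ u, x (x u) = u) (k : ℤ) (u : α) :
    x (((x * y) ^ k) u) = ((x * y) ^ (-k)) (x u) := by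
  have hinv : (x * y)⁻¹ = y * x := by
    rw [inv_eq_iff_mul_eq_one]; ext v; simp [hx, hy]
  have hc : x * (x * y) * x⁻¹ = (x * y)⁻¹ := by
    have : x⁻¹ = x := inv_eq_iff_mul_eq_one.2 (Perm.ext fun v => by simp [hx])
    rw [hinv, this]; ext v; simp [hx]
  have h1 : x * (x * y) ^ k * x⁻¹ = (x * y) ^ (-k) := by rw [← conj_zpow, hc, inv_zpow']
  have h2 := congrArg (fun p : Perm α => p (x u)) h1
  simpa [Perm.mul_apply] using h2

/-- A solution on an invariant set. -/
def Good (x y : Perm α) (S : Finset α) : Prop :=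
  ∃ σ : Perm α, (∀ u, u ∉ S → σ u = u) ∧
    (∀ u ∈ S, OddPt (x * (σ * x * σ⁻¹)) u ∧ OddPt (σ * x * σ⁻¹ * y) u) ∧
    (S.Nonempty → ∃ f ∈ S, (σ * x * σ⁻¹) f = x f)

/-- Four points carrying two commuting double transpositions. -/
def Quad (x y : Perm α) (Q : Finset α) : Prop :=
  ∃ a b c d, a ≠ b ∧ a ≠ c ∧ a ≠ d ∧ b ≠ c ∧ b ≠ d ∧ c ≠ d ∧ Q = {a, b, c, d} ∧
    x a = b ∧ x c = d ∧ y b = c ∧ y d = a

theorem conj_apply' (σ x : Perm α) (u : α) : (σ * x * σ⁻¹) (σ u) = σ (x u) := by simp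

theorem mapsTo_of_fix {σ : Perm α} {S : Finset α} (h : ∀ u, u ∉ S → σ u = u) {u : α} (hu : u ∈ S) :
    σ u ∈ S ∧ σ⁻¹ u ∈ S := by
  constructor
  · by_contra hh; exact hh (by rw [σ.injective (h _ hh)]; exact hu)
  · by_contra hh
    have := h _ hh
    rw [show σ (σ⁻¹ u) = u by simp] at this
    exact hh (this ▸ hu)

theorem conj_outside {σ : Perm α} {S : Finset α} (h : ∀ u, u ∉ S → σ u = u) (hx : ∀ u, x (x u) = u)
    (hS : ∀ u ∈ S, x u ∈ S) {u : α} (hu : u ∉ S) : (σ * x * σ⁻¹) u = x u := by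
  have hxu : x u ∉ S := fun hh => hu (by simpa [hx] using hS _ hh)
  conv_lhs => rw [← h u hu]
  rw [conj_apply', h _ hxu]

theorem good_union (hx : ∀ u, x (x u) = u) (hy : ∀ u, y (y u) = u) {S T : Finset α} (hST : Disjoint S T)
    (hS : ∀ u ∈ S, x u ∈ S ∧ y u ∈ S) (hT : ∀ u ∈ T, x u ∈ T ∧ y u ∈ T) (h1 : Good x y S) (h2 : Good x y T) :
    Good x y (S ∪ T) := by
  obtain ⟨σ, hσ, hσo, hσf⟩ := h1
  obtain ⟨ρ, hρ, hρo, hρf⟩ := h2
  set z₁ := σ * x * σ⁻¹ with hz₁
  set z₂ := ρ * x * ρ⁻¹ with hz₂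
  have onS : ∀ u ∈ S, ((σ * ρ) * x * (σ * ρ)⁻¹) u = z₁ u ∧ z₁ u ∈ S := by
    intro u hu
    have hv := (mapsTo_of_fix hσ hu).2
    have hxv := (hS _ hv).1
    have e1 : (σ * ρ) (σ⁻¹ u) = u := by
      rw [Perm.mul_apply, hρ _ (Finset.disjoint_left.1 hST hv)]; simp
    constructor
    · conv_lhs => rw [← e1]
      rw [conj_apply', Perm.mul_apply, hρ _ (Finset.disjoint_left.1 hST hxv)]
      simp [hz₁]
    · simp only [hz₁, Perm.mul_apply]; exact (mapsTo_of_fix hσ hxv).1
  have onT : ∀ u ∈ T, ((σ * ρ) * x * (σ * ρ)⁻¹) u = z₂ u ∧ z₂ u ∈ T := by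
    intro u hu
    have hv := (mapsTo_of_fix hρ hu).2
    have hxv := (hT _ hv).1
    have e1 : (σ * ρ) (ρ⁻¹ u) = u := by
      rw [Perm.mul_apply, show ρ (ρ⁻¹ u) = u by simp, hσ _ (Finset.disjoint_right.1 hST hu)]
    constructor
    · conv_lhs => rw [← e1]
      rw [conj_apply', Perm.mul_apply, hσ _ (Finset.disjoint_right.1 hST (mapsTo_of_fix hρ hxv).1)]
      simp [hz₂]
    · simp only [hz₂, Perm.mul_apply]; exact (mapsTo_of_fix hρ hxv).1
  refine ⟨σ * ρ, fun u hu => ?_, fun u hu => ?_, ?_⟩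
  · rw [Finset.mem_union, not_or] at hu
    rw [Perm.mul_apply, hρ _ hu.2, hσ _ hu.1]
  · rcases Finset.mem_union.1 hu with hu | hu
    · refine ⟨congr_set (S := S) (fun v hv => ?_) (fun v hv => ?_) hu (hσo u hu).1,
        congr_set (S := S) (fun v hv => ?_) (fun v hv => ?_) hu (hσo u hu).2⟩
      · exact (hS _ (onS v hv).2).1
      · rw [Perm.mul_apply, (onS v hv).1]; rfl
      · exact (onS _ (hS v hv).2).2
      · rw [Perm.mul_apply, (onS _ (hS v hv).2).1]; rfl
    · refine ⟨congr_set (S := T) (fun v hv => ?_) (fun v hv => ?_) hu (hρo u hu).1,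
        congr_set (S := T) (fun v hv => ?_) (fun v hv => ?_) hu (hρo u hu).2⟩
      · exact (hT _ (onT v hv).2).1
      · rw [Perm.mul_apply, (onT v hv).1]; rfl
      · exact (onT _ (hT v hv).2).2
      · rw [Perm.mul_apply, (onT _ (hT v hv).2).1]; rfl
  · intro hne
    rcases S.eq_empty_or_nonempty with rfl | hs
    · rw [Finset.empty_union] at hne
      obtain ⟨f, hf, he⟩ := hρf hne
      exact ⟨f, by simp [hf], (onT f hf).1.trans he⟩
    · obtain ⟨f, hf, he⟩ := hσf hs
      exact ⟨f, Finset.mem_union_left _ hf, (onS f hf).1.trans he⟩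

theorem quad_facts (hx : ∀ u, x (x u) = u) (hy : ∀ u, y (y u) = u) {Q : Finset α} (hQ : Quad x y Q) :
    ∀ u ∈ Q, x u ∈ Q ∧ y u ∈ Q := by
  obtain ⟨a, b, c, d, -, -, -, -, -, -, rfl, xa, xc, yb, yd⟩ := hQ
  have xb : x b = a := by rw [← xa, hx]
  have xd : x d = c := by rw [← xc, hx]
  have yc : y c = b := by rw [← yb, hy]
  have ya : y a = d := by rw [← yd, hy]
  intro u hu
  simp only [Finset.mem_insert, Finset.mem_singleton] at hu
  rcases hu with rfl | rfl | rfl | rfl <;> simp [xa, xb, xc, xd, ya, yb, yc, yd]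

/-- Two quads together. -/
theorem good_quads (hx : ∀ u, x (x u) = u) (hy : ∀ u, y (y u) = u) {Q R : Finset α} (hQ : Quad x y Q)
    (hR : Quad x y R) (hd : Disjoint Q R) : Good x y (Q ∪ R) := by
  obtain ⟨a, b, c, d, ab, ac, ad, bc, bd, cd, rfl, xa, xc, yb, yd⟩ := hQ
  obtain ⟨e, f, g, h, ef, eg, eh, fg, fh, gh, rfl, xe, xg, yf, yh⟩ := hR
  simp only [Finset.disjoint_left, Finset.mem_insert, Finset.mem_singleton] at hd
  obtain ⟨⟨ae, af, ag, ah⟩, ⟨be, bf, bg, bh⟩, ⟨ce, cf, cg, ch⟩, ⟨de, df, dg, dh⟩⟩ :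
      (a ≠ e ∧ a ≠ f ∧ a ≠ g ∧ a ≠ h) ∧ (b ≠ e ∧ b ≠ f ∧ b ≠ g ∧ b ≠ h) ∧ (c ≠ e ∧ c ≠ f ∧ c ≠ g ∧ c ≠ h) ∧
        (d ≠ e ∧ d ≠ f ∧ d ≠ g ∧ d ≠ h) := by
    have h1 := hd (Or.inl rfl : a = a ∨ a = b ∨ a = c ∨ a = d)
    have h2 := hd (Or.inr (Or.inl rfl) : b = a ∨ b = b ∨ b = c ∨ b = d)
    have h3 := hd (Or.inr (Or.inr (Or.inl rfl)) : c = a ∨ c = b ∨ c = c ∨ c = d)
    have h4 := hd (Or.inr (Or.inr (Or.inr rfl)) : d = a ∨ d = b ∨ d = c ∨ d = d)
    simp only [not_or] at h1 h2 h3 h4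
    exact ⟨h1, h2, h3, h4⟩
  have xb : x b = a := by rw [← xa, hx]
  have xd : x d = c := by rw [← xc, hx]
  have yc : y c = b := by rw [← yb, hy]
  have ya : y a = d := by rw [← yd, hy]
  have xf : x f = e := by rw [← xe, hx]
  have xh : x h = g := by rw [← xg, hx]
  have yg : y g = f := by rw [← yf, hy]
  have ye : y e = h := by rw [← yh, hy]
  set σ := swap d e * swap e g with hσ
  have sd : σ d = e := by simp [hσ, swap_apply_of_ne_of_ne de dg]
  have se : σ e = g := by simp [hσ, swap_apply_of_ne_of_ne dg.symm eg.symm]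
  have sg : σ g = d := by simp [hσ]
  have so : ∀ u, u ≠ d → u ≠ e → u ≠ g → σ u = u := fun u h1 h2 h3 => by
    simp [hσ, swap_apply_of_ne_of_ne h1 h2, swap_apply_of_ne_of_ne h2 h3]
  set z := σ * x * σ⁻¹ with hz
  have za : z a = b := by rw [← so a ad ae ag, hz, conj_apply', xa, so b bd be bg]
  have zb : z b = a := by rw [← so b bd be bg, hz, conj_apply', xb, so a ad ae ag]
  have zc : z c = e := by rw [← so c cd ce cg, hz, conj_apply', xc, sd]
  have ze : z e = c := by rw [← sd, hz, conj_apply', xd, so c cd ce cg]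
  have zg : z g = f := by rw [← se, hz, conj_apply', xe, so f df.symm ef.symm fg]
  have zd : z d = h := by rw [← sg, hz, conj_apply', xg, so h dh.symm eh.symm gh.symm]
  have zh : z h = d := by rw [← so h dh.symm eh.symm gh.symm, hz, conj_apply', xh, sg]
  have zf : z f = g := by rw [← so f df.symm ef.symm fg, hz, conj_apply', xf, se]
  obtain ⟨q1, q2, q3⟩ := oddPt_three (p := z * y) (a := a) (b := h) (c := c) (by simp [ya, zd]) (by simp [yh, ze]) (by simp [yc, zb])
  obtain ⟨q4, q5, q6⟩ := oddPt_three (p := z * y) (a := b) (b := e) (c := d) (by simp [yb, zc]) (by simp [ye, zh]) (by simp [yd, za])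
  obtain ⟨p1, p2, p3⟩ := oddPt_three (p := x * z) (a := c) (b := f) (c := h) (by simp [zc, xe]) (by simp [zf, xg]) (by simp [zh, xd])
  obtain ⟨p4, p5, p6⟩ := oddPt_three (p := x * z) (a := d) (b := g) (c := e) (by simp [zd, xh]) (by simp [zg, xf]) (by simp [ze, xc])
  refine ⟨σ, fun u hu => ?_, fun u hu => ?_, fun _ => ⟨a, by simp, za.trans xa.symm⟩⟩
  · simp only [Finset.mem_union, Finset.mem_insert, Finset.mem_singleton, not_or] at hu
    exact so u hu.1.2.2.2 hu.2.1 hu.2.2.2.1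
  · simp only [Finset.mem_union, Finset.mem_insert, Finset.mem_singleton] at hu
    rcases hu with (rfl | rfl | rfl | rfl) | (rfl | rfl | rfl | rfl)
    · exact ⟨oddPt_of_fix (show x (z u) = u by rw [za, xb]), q1⟩
    · exact ⟨oddPt_of_fix (show x (z u) = u by rw [zb, xa]), q4⟩
    · exact ⟨p1, q3⟩
    · exact ⟨p4, q6⟩
    · exact ⟨p6, q5⟩
    · exact ⟨p2, oddPt_of_fix (show z (y u) = u by rw [yf, zg])⟩
    · exact ⟨p5, oddPt_of_fix (show z (y u) = u by rw [yg, zf])⟩
    · exact ⟨p3, q2⟩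

/-- A quad joins any nonempty solved set. -/
theorem good_merge (hx : ∀ u, x (x u) = u) (hy : ∀ u, y (y u) = u) {Q R : Finset α} (hQ : Quad x y Q)
    (hd : Disjoint Q R) (hRi : ∀ u ∈ R, x u ∈ R ∧ y u ∈ R) (hR : Good x y R) (hne : R.Nonempty) :
    ∃ σ : Perm α, ∀ u ∈ Q ∪ R, OddPt (x * (σ * x * σ⁻¹)) u ∧ OddPt (σ * x * σ⁻¹ * y) u := by
  obtain ⟨σ, hσ, hσo, hσf⟩ := hR
  obtain ⟨e, heR, hze⟩ := hσf hne
  obtain ⟨a, b, c, d, ab, ac, ad, bc, bd, cd, rfl, xa, xc, yb, yd⟩ := hQ
  set z₀ := σ * x * σ⁻¹ with hz₀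
  have hd' : a ∉ R ∧ b ∉ R ∧ c ∉ R ∧ d ∉ R := by
    simp only [Finset.disjoint_left, Finset.mem_insert, Finset.mem_singleton] at hd
    exact ⟨hd (Or.inl rfl), hd (Or.inr (Or.inl rfl)), hd (Or.inr (Or.inr (Or.inl rfl))),
      hd (Or.inr (Or.inr (Or.inr rfl)))⟩
  obtain ⟨aR, bR, cR, dR⟩ := hd'
  have xb : x b = a := by rw [← xa, hx]
  have xd : x d = c := by rw [← xc, hx]
  have yc : y c = b := by rw [← yb, hy]
  have ya : y a = d := by rw [← yd, hy]
  have hRx : ∀ u ∈ R, x u ∈ R := fun u hu => (hRi u hu).1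
  have hz₀2 : ∀ u, z₀ (z₀ u) = u := fun u => by simp [hz₀, hx]
  have hz₀R : ∀ u ∈ R, z₀ u ∈ R := fun u hu => by
    simp only [hz₀, Perm.mul_apply]
    exact (mapsTo_of_fix hσ (hRx _ (mapsTo_of_fix hσ hu).2)).1
  have z₀out : ∀ u, u ∉ R → z₀ u = x u := fun u hu => conj_outside hσ hx hRx hu
  have hq₀ : ∀ u ∈ R, (z₀ * y) u ∈ R := fun u hu => hz₀R _ (hRi u hu).2
  have hconj : ∀ τ : Perm α, (τ * σ) * x * (τ * σ)⁻¹ = τ * z₀ * τ⁻¹ := fun τ => by rw [hz₀]; group
  by_cases hfe : x e = e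
  · -- a common fixed point of `x` and `z₀`
    have z₀e : z₀ e = e := hze.trans hfe
    have de : d ≠ e := fun h => dR (h ▸ heR)
    set τ := swap d e with hτ
    have tfix : ∀ u, u ≠ d → u ≠ e → τ u = u := fun u h1 h2 => swap_apply_of_ne_of_ne h1 h2
    set z := τ * z₀ * τ⁻¹ with hz
    have ae : a ≠ e := fun h => aR (h ▸ heR)
    have be : b ≠ e := fun h => bR (h ▸ heR)
    have ce : c ≠ e := fun h => cR (h ▸ heR)
    have za : z a = b := by rw [← tfix a ad ae, hz, conj_apply', z₀out a aR, xa, tfix b bd be]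
    have zb : z b = a := by rw [← tfix b bd be, hz, conj_apply', z₀out b bR, xb, tfix a ad ae]
    have zc : z c = e := by rw [← tfix c cd ce, hz, conj_apply', z₀out c cR, xc, hτ, swap_apply_left]
    have ze : z e = c := by
      conv_lhs => rw [show e = τ d by rw [hτ, swap_apply_left]]
      rw [hz, conj_apply', z₀out d dR, xd, tfix c cd ce]
    have zd : z d = d := by
      conv_lhs => rw [show d = τ e by rw [hτ, swap_apply_right]]
      rw [hz, conj_apply', z₀e, hτ, swap_apply_right]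
    have zR : ∀ u ∈ R, u ≠ e → z u = z₀ u := fun u hu hue => by
      have h1 : u ≠ d := fun h => dR (h ▸ hu)
      have h2 : z₀ u ≠ d := fun h => dR (h ▸ hz₀R u hu)
      have h3 : z₀ u ≠ e := fun h => hue (z₀.injective (h.trans z₀e.symm))
      conv_lhs => rw [← tfix u h1 hue]
      rw [hz, conj_apply', tfix _ h2 h3]
    have hzy : ∀ u ∈ R, OddPt (z * y) u := fun u hu => by
      refine splice (S := R) hq₀ (fun v hv => ?_) hu (hσo u hu).2
      by_cases hv1 : y v = e
      · refine ⟨5, by decide, ?_⟩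
        simp [pow_succ, hv1, ze, yc, zb, ya, zd, yd, za, yb, zc, z₀e]
      · exact ⟨1, odd_one, by simp [zR _ (hRi v hv).2 hv1]⟩
    have hu₀ := hzy (y e) (hRi e heR).2
    obtain ⟨p1, p2, p3⟩ := oddPt_three (p := x * z) (a := c) (b := e) (c := d)
      (by simp [zc, hfe]) (by simp [ze, xc]) (by simp [zd, xd])
    refine ⟨τ * σ, fun u hu => ?_⟩
    rw [hconj]
    rcases Finset.mem_union.1 hu with hu | hu
    · simp only [Finset.mem_insert, Finset.mem_singleton] at hu
      rcases hu with rfl | rfl | rfl | rfl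
      · refine ⟨oddPt_of_fix (show x (z u) = u by rw [za, xb]), ?_⟩
        simpa [pow_succ, hy, ze, yc, zb] using hu₀.iterate 2
      · refine ⟨oddPt_of_fix (show x (z u) = u by rw [zb, xa]), ?_⟩
        simpa [pow_succ, hy, ze, yc, zb, ya, zd, yd, za] using hu₀.iterate 4
      · refine ⟨p1, ?_⟩
        simpa [pow_succ, hy, ze] using hu₀.iterate 1
      · refine ⟨p3, ?_⟩
        simpa [pow_succ, hy, ze, yc, zb, ya, zd] using hu₀.iterate 3
    · refine ⟨?_, hzy u hu⟩
      by_cases hue : u = e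
      · exact hue ▸ p2
      refine congr_set (S := R.erase e) (p := x * z₀) (fun v hv => ?_) (fun v hv => ?_)
        (Finset.mem_erase.2 ⟨hue, hu⟩) (hσo u hu).1
      · obtain ⟨h1, h2⟩ := Finset.mem_erase.1 hv
        refine Finset.mem_erase.2 ⟨fun h => h1 ?_, hRx _ (hz₀R v h2)⟩
        have h' : x (z₀ v) = x e := by rw [hfe]; exact h
        exact z₀.injective ((x.injective h').trans z₀e.symm)
      · obtain ⟨h1, h2⟩ := Finset.mem_erase.1 hv
        show x (z v) = x (z₀ v)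
        rw [zR v h2 h1]
  · -- a pair of both `x` and `z₀`
    set e' := x e with he'
    have he'R : e' ∈ R := hRx e heR
    have z₀e : z₀ e = e' := hze
    have z₀e' : z₀ e' = e := by rw [← z₀e, hz₀2]
    have xe' : x e' = e := by rw [he', hx]
    have ee : e ≠ e' := Ne.symm hfe
    have ne : ∀ {u v : α}, u ∉ R → v ∈ R → u ≠ v := fun h1 h2 h => h1 (h ▸ h2)
    set τ := swap b c * swap d e with hτ
    have tb : τ b = c := by simp [hτ, swap_apply_of_ne_of_ne bd (ne bR heR)]
    have tc : τ c = b := by simp [hτ, swap_apply_of_ne_of_ne cd (ne cR heR)]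
    have td : τ d = e := by simp [hτ, swap_apply_of_ne_of_ne (ne bR heR).symm (ne cR heR).symm]
    have te : τ e = d := by simp [hτ, swap_apply_of_ne_of_ne bd.symm cd.symm]
    have tfix : ∀ u, u ≠ b → u ≠ c → u ≠ d → u ≠ e → τ u = u := fun u h1 h2 h3 h4 => by
      simp [hτ, swap_apply_of_ne_of_ne h1 h2, swap_apply_of_ne_of_ne h3 h4]
    have ta : τ a = a := tfix a ab ac ad (ne aR heR)
    have te' : τ e' = e' := tfix e' (ne bR he'R).symm (ne cR he'R).symm (ne dR he'R).symm ee.symm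
    set z := τ * z₀ * τ⁻¹ with hz
    have za : z a = c := by rw [← ta, hz, conj_apply', z₀out a aR, xa, tb]
    have zc : z c = a := by rw [← tb, hz, conj_apply', z₀out b bR, xb, ta]
    have zb : z b = e := by rw [← tc, hz, conj_apply', z₀out c cR, xc, td]
    have ze : z e = b := by rw [← td, hz, conj_apply', z₀out d dR, xd, tc]
    have zd : z d = e' := by rw [← te, hz, conj_apply', z₀e, te']
    have ze' : z e' = d := by rw [← te', hz, conj_apply', z₀e', te]
    have zR : ∀ u ∈ R, u ≠ e → u ≠ e' → z u = z₀ u := fun u hu h1 h2 => by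
      have h3 : z₀ u ≠ e := fun h => h2 (by rw [← hz₀2 u, h, z₀e])
      conv_lhs => rw [← tfix u (ne bR hu).symm (ne cR hu).symm (ne dR hu).symm h1]
      rw [hz, conj_apply', tfix _ (ne bR (hz₀R u hu)).symm (ne cR (hz₀R u hu)).symm (ne dR (hz₀R u hu)).symm h3]
    have hzy : ∀ u ∈ R, OddPt (z * y) u := fun u hu => by
      refine splice (S := R) hq₀ (fun v hv => ?_) hu (hσo u hu).2
      by_cases hv1 : y v = e
      · refine ⟨3, by decide, ?_⟩
        simp [pow_succ, hv1, ze, yb, zc, ya, zd, z₀e]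
      by_cases hv2 : y v = e'
      · refine ⟨3, by decide, ?_⟩
        simp [pow_succ, hv2, ze', yd, za, yc, zb, z₀e']
      exact ⟨1, odd_one, by simp [zR _ (hRi v hv).2 hv1 hv2]⟩
    have hu₀ := hzy (y e) (hRi e heR).2
    have hu₁ := hzy (y e') (hRi e' he'R).2
    obtain ⟨p1, p2, p3⟩ := oddPt_three (p := x * z) (a := a) (b := d) (c := e)
      (by simp [za, xc]) (by simp [zd, xe']) (by simp [ze, xb])
    obtain ⟨p4, p5, p6⟩ := oddPt_three (p := x * z) (a := b) (b := e') (c := c)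
      (by simp [zb, he']) (by simp [ze', xd]) (by simp [zc, xa])
    refine ⟨τ * σ, fun u hu => ?_⟩
    · rw [hconj]
      rcases Finset.mem_union.1 hu with hu | hu
      · simp only [Finset.mem_insert, Finset.mem_singleton] at hu
        rcases hu with rfl | rfl | rfl | rfl
        · exact ⟨p1, by simpa [pow_succ, hy, ze, yb, zc] using hu₀.iterate 2⟩
        · exact ⟨p4, by simpa [pow_succ, hy, ze] using hu₀.iterate 1⟩
        · exact ⟨p6, by simpa [pow_succ, hy, ze', yd, za] using hu₁.iterate 2⟩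
        · exact ⟨p2, by simpa [pow_succ, hy, ze'] using hu₁.iterate 1⟩
      · refine ⟨?_, hzy u hu⟩
        by_cases h1 : u = e
        · exact h1 ▸ p3
        by_cases h2 : u = e'
        · exact h2 ▸ p5
        refine congr_set (S := (R.erase e).erase e') (p := x * z₀) (fun v hv => ?_) (fun v hv => ?_) ?_ (hσo u hu).1
        · simp only [Finset.mem_erase] at hv ⊢
          refine ⟨fun h => hv.1 ?_, fun h => hv.2.1 ?_, hRx _ (hz₀R v hv.2.2)⟩
          · have h' : x (z₀ v) = x e := by rw [← he']; exact h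
            exact z₀.injective ((x.injective h').trans z₀e'.symm)
          · have h' : x (z₀ v) = x e' := by rw [xe']; exact h
            exact z₀.injective ((x.injective h').trans z₀e.symm)
        · simp only [Finset.mem_erase] at hv
          show x (z v) = x (z₀ v)
          rw [zR v hv.2.2 hv.2.1 hv.1]
        · simp [Finset.mem_erase, h1, h2, hu]

theorem pow_step (p : Perm α) (i : ℕ) (v : α) : p ((p ^ i) v) = (p ^ (i + 1)) v := by rw [pow_succ', Perm.mul_apply]

theorem sc_pow (p : Perm α) (i : ℕ) (v : α) : p.SameCycle v ((p ^ i) v) := ⟨i, by rw [zpow_natCast]⟩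

theorem Per.pred {p : Perm α} {v : α} {L : ℕ} (h : Per p v L) {i : ℕ} (hi : i < L) :
    p ((p ^ i) v) = (p ^ ((i + 1) % L)) v := by
  rw [pow_step]
  rcases Nat.lt_or_eq_of_le (show i + 1 ≤ L by omega) with hlt | heq
  · rw [Nat.mod_eq_of_lt hlt]
  · rw [heq, Nat.mod_self, h.pow_self, pow_zero, Perm.one_apply]

theorem y_eq (hx : ∀ u, x (x u) = u) (u : α) : y u = x ((x * y) u) := by simp [hx]

theorem orbit_mapsTo (hx : ∀ u, x (x u) = u) (hy : ∀ u, y (y u) = u) {v : α} (S : Finset α)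
    (hS : ∀ u, u ∈ S ↔ (x * y).SameCycle v u ∨ (x * y).SameCycle (x v) u) :
    ∀ u ∈ S, x u ∈ S ∧ y u ∈ S := by
  have hfl : ∀ {a b : α}, (x * y).SameCycle a b → (x * y).SameCycle (x a) (x b) := fun {a b} ⟨k, hk⟩ =>
    ⟨-k, by rw [← hk, flip hy hx]⟩
  have hxS : ∀ u ∈ S, x u ∈ S := by
    intro u hu
    rw [hS] at hu ⊢
    rcases hu with h | h
    · exact Or.inr (hfl h)
    · exact Or.inl (by simpa [hx] using hfl h)
  refine fun u hu => ⟨hxS u hu, ?_⟩
  rw [y_eq (x := x) hx u]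
  refine hxS _ ?_
  rw [hS] at hu ⊢
  exact hu.imp (fun h => Perm.sameCycle_apply_right.2 h) (fun h => Perm.sameCycle_apply_right.2 h)

/-- The hexagon surgery on a long cycle. -/
theorem good_long (hx : ∀ u, x (x u) = u) (hy : ∀ u, y (y u) = u) {v : α} {L : ℕ} (hL : Per (x * y) v L)
    (heven : Even L) (h4 : 4 ≤ L) (hns : ¬ (x * y).SameCycle v (x v)) (S : Finset α)
    (hS : ∀ u, u ∈ S ↔ (x * y).SameCycle v u ∨ (x * y).SameCycle (x v) u) : Good x y S := by
  set r := x * y with hr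
  set w := x v with hw
  have xw : x w = v := by rw [hw, hx]
  have hrinv : ∀ u, r⁻¹ u = y (x u) := fun u => r.injective (by simp [hr, hx, hy])
  have hLw : Per r w L := by
    refine ⟨hL.1, fun k => ?_⟩
    rw [hw, ← show x ((r ^ (-k)) v) = (r ^ k) (x v) by rw [hr, flip hy hx, neg_neg], x.injective.eq_iff, hL.2, dvd_neg]
  have hAB : ∀ i j : ℕ, (r ^ i) v ≠ (r ^ j) w := fun i j h =>
    hns ((sc_pow r i v).trans (by rw [h]; exact (sc_pow r j w).symm))
  have hA : ∀ {i j : ℕ}, i < L → j < L → i ≠ j → (r ^ i) v ≠ (r ^ j) v := fun hi hj h e => h (hL.eq_of_lt hi hj e)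
  have hB : ∀ {i j : ℕ}, i < L → j < L → i ≠ j → (r ^ i) w ≠ (r ^ j) w := fun hi hj h e => h (hLw.eq_of_lt hi hj e)
  -- reflection
  have hxB : ∀ i ≤ L, x ((r ^ i) w) = (r ^ (L - i)) v := by
    intro i hi
    rw [← zpow_natCast, hr, flip hy hx, ← hr, xw, ← zpow_natCast, hL.apply_eq]
    exact ⟨-1, by omega⟩
  have hxA : ∀ i ≤ L, x ((r ^ i) v) = (r ^ (L - i)) w := by
    intro i hi
    rw [← zpow_natCast, hr, flip hy hx, ← hr, ← hw, ← zpow_natCast, hLw.apply_eq]
    exact ⟨-1, by omega⟩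
  have hyA : ∀ i < L, y ((r ^ i) v) = (r ^ (L - i - 1)) w := fun i hi => by
    rw [y_eq (x := x) hx, ← hr, pow_step, hxA _ (by omega)]; rfl
  have hyB : ∀ i < L, y ((r ^ i) w) = (r ^ (L - i - 1)) v := fun i hi => by
    rw [y_eq (x := x) hx, ← hr, pow_step, hxB _ (by omega)]; rfl
  set a4 := (r ^ (L - 1)) v with ha4
  set a6 := (r ^ (L - 2)) v with ha6
  set a5 := (r ^ 1) w with ha5
  set a7 := (r ^ 2) w with ha7
  have n34 : w ≠ a4 := fun h => hAB (L - 1) 0 (by simpa using h.symm)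
  have n36 : w ≠ a6 := fun h => hAB (L - 2) 0 (by simpa using h.symm)
  have n46 : a4 ≠ a6 := hA (by omega) (by omega) (by omega)
  set σ := swap w a4 * swap a4 a6 with hσ
  have s3 : σ w = a4 := by simp [hσ, swap_apply_of_ne_of_ne n34 n36]
  have s4 : σ a4 = a6 := by simp [hσ, swap_apply_of_ne_of_ne n36.symm n46.symm]
  have s6 : σ a6 = w := by simp [hσ]
  have so : ∀ u, u ≠ w → u ≠ a4 → u ≠ a6 → σ u = u := fun u h1 h2 h3 => by
    simp [hσ, swap_apply_of_ne_of_ne h2 h3, swap_apply_of_ne_of_ne h1 h2]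
  have x4 : x a4 = a5 := by rw [ha4, hxA _ (by omega), ha5]; congr 2; omega
  have x6 : x a6 = a7 := by rw [ha6, hxA _ (by omega), ha7]; congr 2; omega
  have x5 : x a5 = a4 := by rw [← x4, hx]
  have x7 : x a7 = a6 := by rw [← x6, hx]
  have e2 : v = (r ^ 0) v := by simp
  have e3 : w = (r ^ 0) w := by simp
  have n2 : v ≠ w ∧ v ≠ a4 ∧ v ≠ a6 :=
    ⟨fun h => hAB 0 0 (by simpa using h), by rw [ha4]; nth_rewrite 1 [e2]; exact hA (by omega) (by omega) (by omega),
      by rw [ha6]; nth_rewrite 1 [e2]; exact hA (by omega) (by omega) (by omega)⟩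
  have n5 : a5 ≠ w ∧ a5 ≠ a4 ∧ a5 ≠ a6 :=
    ⟨by rw [ha5]; nth_rewrite 2 [e3]; exact hB (by omega) (by omega) (by omega), fun h => hAB (L - 1) 1 h.symm,
      fun h => hAB (L - 2) 1 h.symm⟩
  have n7 : a7 ≠ w ∧ a7 ≠ a4 ∧ a7 ≠ a6 :=
    ⟨by rw [ha7]; nth_rewrite 2 [e3]; exact hB (by omega) (by omega) (by omega), fun h => hAB (L - 1) 2 h.symm,
      fun h => hAB (L - 2) 2 h.symm⟩
  set z := σ * x * σ⁻¹ with hz
  have z2 : z v = a4 := by rw [← so v n2.1 n2.2.1 n2.2.2, hz, conj_apply', ← hw, s3]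
  have z4 : z a4 = v := by rw [← s3, hz, conj_apply', xw, so v n2.1 n2.2.1 n2.2.2]
  have z5 : z a5 = a6 := by rw [← so a5 n5.1 n5.2.1 n5.2.2, hz, conj_apply', x5, s4]
  have z6 : z a6 = a5 := by rw [← s4, hz, conj_apply', x4, so a5 n5.1 n5.2.1 n5.2.2]
  have z7 : z a7 = w := by rw [← so a7 n7.1 n7.2.1 n7.2.2, hz, conj_apply', x7, s6]
  have z3 : z w = a7 := by rw [← s6, hz, conj_apply', x6, so a7 n7.1 n7.2.1 n7.2.2]
  have zo : ∀ u, u ≠ v → u ≠ w → u ≠ a4 → u ≠ a5 → u ≠ a6 → u ≠ a7 → z u = x u := by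
    intro u h2 h3 h4 h5 h6 h7
    conv_lhs => rw [← so u h3 h4 h6]
    rw [hz, conj_apply', so]
    · exact fun h => h2 (x.injective (h.trans hw))
    · exact fun h => h5 (x.injective (h.trans x5.symm))
    · exact fun h => h7 (x.injective (h.trans x7.symm))
  set q := z * y with hq
  have qA : ∀ i < L - 3, q ((r ^ i) v) = r ((r ^ i) v) := by
    intro i hi
    show z (y ((r ^ i) v)) = x (y ((r ^ i) v))
    rw [hyA i (by omega)]
    have hh : (L - i - 1) ≠ 0 ∧ (L - i - 1) ≠ 1 ∧ (L - i - 1) ≠ 2 := by omega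
    exact zo _ (fun h => hAB 0 (L - i - 1) (by simpa using h.symm)) (fun h => hB (show L - i - 1 < L by omega) hL.1 hh.1 (by simpa using h))
      (fun h => hAB _ _ h.symm) (hB (by omega) (by omega) hh.2.1) (fun h => hAB _ _ h.symm) (hB (by omega) (by omega) hh.2.2)
  have qB : ∀ i, 2 ≤ i → i < L - 1 → q ((r ^ i) w) = r ((r ^ i) w) := by
    intro i hi2 hi
    show z (y ((r ^ i) w)) = x (y ((r ^ i) w))
    rw [hyB i (by omega)]
    have hh : (L - i - 1) ≠ 0 ∧ (L - i - 1) ≠ L - 1 ∧ (L - i - 1) ≠ L - 2 := by omega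
    exact zo _ (fun h => hA (show L - i - 1 < L by omega) hL.1 hh.1 (by simpa using h)) (fun h => hAB (L - i - 1) 0 (by simpa using h))
      (hA (by omega) (by omega) hh.2.1) (hAB _ _) (hA (by omega) (by omega) hh.2.2) (hAB _ _)
  have hy3 : y w = a4 := by rw [e3, hyB 0 hL.1, ha4]; congr 2
  have hy4 : y a4 = w := by rw [← hy3, hy]
  have hy5 : y a5 = a6 := by rw [ha5, hyB 1 (by omega), ha6]; congr 2
  have hy6 : y a6 = a5 := by rw [← hy5, hy]
  have hy7 : y a7 = (r ^ (L - 3)) v := by rw [ha7, hyB 2 (by omega)]; congr 2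
  have hy2 : y v = (r ^ (L - 1)) w := by rw [e2, hyA 0 hL.1]; congr 2
  -- the first new cycle
  have wA : ∀ i ≤ L - 3, (q ^ i) v = (r ^ i) v := fun i hi => walk fun j hj => qA j (by omega)
  have c1 : OddPt q v := by
    refine ⟨1 + (1 + (L - 3)), ?_, ?_⟩
    · obtain ⟨k, hk⟩ := heven; exact ⟨k - 1, by omega⟩
    rw [pow_add, Perm.mul_apply, pow_add, Perm.mul_apply, wA _ le_rfl, pow_one]
    show z (y (z (y ((r ^ (L - 3)) v)))) = v
    rw [← hy7, hy, z7, hy3, z4]
  -- the second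
  have wB : ∀ i ≤ L - 3, (q ^ i) a7 = (r ^ (i + 2)) w := by
    intro i hi
    rw [walk (q := q) (p := r) (u := a7) fun j hj => ?_, ha7, ← Perm.mul_apply, ← pow_add]
    rw [ha7, ← Perm.mul_apply (r ^ j) (r ^ 2), ← pow_add]
    exact qB _ (by omega) (by omega)
  have c2 : OddPt q a7 := by
    refine ⟨1 + (1 + (L - 3)), ?_, ?_⟩
    · obtain ⟨k, hk⟩ := heven; exact ⟨k - 1, by omega⟩
    rw [pow_add, Perm.mul_apply, pow_add, Perm.mul_apply, wB _ le_rfl, show L - 3 + 2 = L - 1 by omega, pow_one]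
    show z (y (z (y ((r ^ (L - 1)) w)))) = a7
    rw [← hy2, hy, z2, hy4, z3]
  refine ⟨σ, fun u hu => so u ?_ ?_ ?_, fun u hu => ⟨?_, ?_⟩, fun _ => ⟨(r ^ (L - 1)) w, ?_, ?_⟩⟩
  · exact fun h => hu (h ▸ (hS w).2 (Or.inr (Perm.SameCycle.refl _ _)))
  · exact fun h => hu (h ▸ (hS a4).2 (Or.inl ⟨(L - 1 : ℕ), by rw [zpow_natCast]⟩))
  · exact fun h => hu (h ▸ (hS a6).2 (Or.inl ⟨(L - 2 : ℕ), by rw [zpow_natCast]⟩))
  · rw [← hz]
    obtain ⟨t1, t2, t3⟩ := oddPt_three (p := x * z) (a := v) (b := a5) (c := a7)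
      (by simp [z2, x4]) (by simp [z5, x6]) (by simp [z7, xw])
    obtain ⟨t4, t5, t6⟩ := oddPt_three (p := x * z) (a := w) (b := a6) (c := a4)
      (by simp [z3, x7]) (by simp [z6, x5]) (by simp [z4, ← hw])
    by_cases h1 : u = v
    · exact h1 ▸ t1
    by_cases h2 : u = w
    · exact h2 ▸ t4
    by_cases h3 : u = a4
    · exact h3 ▸ t6
    by_cases h4 : u = a5
    · exact h4 ▸ t2
    by_cases h5 : u = a6
    · exact h5 ▸ t5
    by_cases h6 : u = a7
    · exact h6 ▸ t3
    exact oddPt_of_fix (show x (z u) = u by rw [zo u h1 h2 h3 h4 h5 h6, hx])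
  · rw [← hz, ← hq]
    rcases (hS u).1 hu with h | h
    · obtain ⟨i, hi, rfl⟩ := hL.exists_lt h
      by_cases h1 : i ≤ L - 3
      · rw [← wA i h1]; exact c1.iterate i
      by_cases h2 : i = L - 2
      · subst h2
        exact oddPt_of_fix (show z (y a6) = a6 by rw [hy6, z5])
      · obtain rfl : i = L - 1 := by omega
        have h5 := c2.iterate (1 + (L - 3))
        rw [pow_add, Perm.mul_apply, wB _ le_rfl, show L - 3 + 2 = L - 1 by omega, pow_one] at h5
        have : q ((r ^ (L - 1)) w) = a4 := by show z (y _) = a4; rw [← hy2, hy, z2]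
        rwa [this] at h5
    · obtain ⟨i, hi, rfl⟩ := hLw.exists_lt h
      by_cases h1 : 2 ≤ i
      · have h5 := c2.iterate (i - 2)
        rwa [wB _ (by omega), show i - 2 + 2 = i by omega] at h5
      by_cases h2 : i = 1
      · subst h2
        exact oddPt_of_fix (show z (y a5) = a5 by rw [hy5, z6])
      · obtain rfl : i = 0 := by omega
        have h5 := c1.iterate (1 + (L - 3))
        rw [pow_add, Perm.mul_apply, wA _ le_rfl, pow_one] at h5
        have : q ((r ^ (L - 3)) v) = w := by show z (y _) = w; rw [← hy7, hy, z7]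
        rw [this] at h5
        simpa using h5
  · exact (hS _).2 (Or.inr ⟨(L - 1 : ℕ), by rw [zpow_natCast]⟩)
  · rw [← hz]
    exact zo _ (fun h => hAB 0 (L - 1) (by simpa using h.symm)) (fun h => hB (show L - 1 < L by omega) hL.1 (by omega) (by simpa using h))
      (fun h => hAB _ _ h.symm) (hB (by omega) (by omega) (by omega)) (fun h => hAB _ _ h.symm) (hB (by omega) (by omega) (by omega))

/-- The surgery on two even paths. -/
theorem good_pair (hx : ∀ u, x (x u) = u) (hy : ∀ u, y (y u) = u) {v w : α} {L M : ℕ} (hL : Per (x * y) v L)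
    (hM : Per (x * y) w M) (hLe : Even L) (hMe : Even M) (hv : y v = v) (hw : x w = w) (S : Finset α)
    (hS : ∀ u, u ∈ S ↔ (x * y).SameCycle v u ∨ (x * y).SameCycle w u) : Good x y S := by
  set r := x * y with hr
  have h2L : 2 ≤ L := by obtain ⟨k, hk⟩ := hLe; have := hL.1; omega
  have h2M : 2 ≤ M := by obtain ⟨k, hk⟩ := hMe; have := hM.1; omega
  set v1 := x v with hv1
  have xv1 : x v1 = v := by rw [hv1, hx]
  have hrv : (r ^ 1) v = v1 := by rw [pow_one, hr, Perm.mul_apply, hv]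
  have hns : ¬ r.SameCycle v w := by
    rintro ⟨k, hk⟩
    have h1 := hw
    rw [← hk, hr, flip hy hx, ← hr, ← hv1, ← hrv, ← zpow_natCast, ← Perm.mul_apply, ← zpow_add, hL.apply_eq] at h1
    obtain ⟨j, hj⟩ := h1
    obtain ⟨l, hl⟩ := hLe
    have : (2 : ℤ) ∣ (L : ℤ) * j := ⟨l * j, by rw [hl]; push_cast; ring⟩
    omega
  have hAB : ∀ i j : ℕ, (r ^ i) v ≠ (r ^ j) w := fun i j h =>
    hns ((sc_pow r i v).trans (by rw [h]; exact (sc_pow r j w).symm))
  have hA : ∀ {i j : ℕ}, i < L → j < L → i ≠ j → (r ^ i) v ≠ (r ^ j) v := fun hi hj h e => h (hL.eq_of_lt hi hj e)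
  have hB : ∀ {i j : ℕ}, i < M → j < M → i ≠ j → (r ^ i) w ≠ (r ^ j) w := fun hi hj h e => h (hM.eq_of_lt hi hj e)
  have nv : v ≠ v1 := by rw [← hrv]; nth_rewrite 1 [show v = (r ^ 0) v by simp]; exact hA hL.1 (by omega) (by omega)
  have nvw : v ≠ w := fun h => hns (h ▸ Perm.SameCycle.refl _ _)
  have nv1w : v1 ≠ w := fun h => hAB 1 0 (by rw [hrv, h]; simp)
  set σ := swap v1 w with hσ
  have sv : σ v = v := swap_apply_of_ne_of_ne nv nvw
  have s1 : σ v1 = w := swap_apply_left _ _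
  have sw : σ w = v1 := swap_apply_right _ _
  set z := σ * x * σ⁻¹ with hz
  have zv : z v = w := by rw [← sv, hz, conj_apply', ← hv1, s1]
  have zw : z w = v := by rw [← s1, hz, conj_apply', xv1, sv]
  have z1 : z v1 = v1 := by rw [← sw, hz, conj_apply', hw, sw]
  have zo : ∀ u, u ≠ v → u ≠ v1 → u ≠ w → z u = x u := by
    intro u h1 h2 h3
    conv_lhs => rw [← swap_apply_of_ne_of_ne h2 h3, ← hσ]
    rw [hz, conj_apply', hσ, swap_apply_of_ne_of_ne]
    · exact fun h => h1 (x.injective (h.trans hv1))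
    · exact fun h => h3 (x.injective (h.trans hw.symm))
  set q := z * y with hq
  have hyv1 : y v1 = (r ^ (L - 1)) v := by
    refine r.injective ?_
    rw [hL.pred (by omega), show (L - 1 + 1) % L = 0 by rw [show L - 1 + 1 = L by omega, Nat.mod_self], pow_zero, Perm.one_apply]
    simp [hr, hy, xv1]
  have hyw : y w = (r ^ (M - 1)) w := by
    refine r.injective ?_
    rw [hM.pred (by omega), show (M - 1 + 1) % M = 0 by rw [show M - 1 + 1 = M by omega, Nat.mod_self], pow_zero, Perm.one_apply]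
    simp [hr, hy, hw]
  -- where `q` agrees with `r`
  have qagree : ∀ u, u ≠ v → u ≠ (r ^ (L - 1)) v → u ≠ (r ^ (M - 1)) w → q u = r u := by
    intro u h1 h2 h3
    show z (y u) = x (y u)
    refine zo _ (fun h => h1 ?_) (fun h => h2 ?_) (fun h => h3 ?_)
    · rw [← hy u, h, hv]
    · rw [← hy u, h, hyv1]
    · rw [← hy u, h, hyw]
  have wA : ∀ i ≤ L - 2, (q ^ i) v1 = (r ^ (i + 1)) v := by
    intro i hi
    rw [walk (q := q) (p := r) (u := v1) fun j hj => ?_, ← hrv, ← Perm.mul_apply, ← pow_add]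
    rw [← hrv, ← Perm.mul_apply (r ^ j) (r ^ 1), ← pow_add]
    refine qagree _ ?_ (hA (by omega) (by omega) (by omega)) (hAB _ _)
    nth_rewrite 2 [show v = (r ^ 0) v by simp]
    exact hA (by omega) hL.1 (by omega)
  have cA : OddPt q v1 := by
    refine ⟨1 + (L - 2), ?_, ?_⟩
    · obtain ⟨k, hk⟩ := hLe; exact ⟨k - 1, by omega⟩
    rw [pow_add, Perm.mul_apply, wA _ le_rfl, show L - 2 + 1 = L - 1 by omega, pow_one, ← hyv1]
    show z (y (y v1)) = v1
    rw [hy, z1]
  have wB : ∀ i ≤ M - 1, (q ^ i) w = (r ^ i) w := by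
    intro i hi
    refine walk fun j hj => qagree _ ?_ (fun h => hAB _ _ h.symm) (hB (by omega) (by omega) (by omega))
    exact fun h => hAB 0 j (by simpa using h.symm)
  have qy : q ((r ^ (M - 1)) w) = v := by show z (y _) = v; rw [← hyw, hy, zw]
  have cB : OddPt q w := by
    refine ⟨1 + (1 + (M - 1)), ?_, ?_⟩
    · obtain ⟨k, hk⟩ := hMe; exact ⟨k, by omega⟩
    rw [pow_add, Perm.mul_apply, pow_add, Perm.mul_apply, wB _ le_rfl, pow_one, qy]
    show z (y v) = w
    rw [hv, zv]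
  obtain ⟨t1, t2, t3⟩ := oddPt_three (p := x * z) (a := v) (b := w) (c := v1)
    (by simp [zv, hw]) (by simp [zw, ← hv1]) (by simp [z1, xv1])
  refine ⟨σ, fun u hu => swap_apply_of_ne_of_ne ?_ ?_, fun u hu => ⟨?_, ?_⟩, fun _ => ⟨(r ^ (M - 1)) w, ?_, ?_⟩⟩
  · exact fun h => hu (h ▸ (hS v1).2 (Or.inl ⟨(1 : ℕ), by rw [zpow_natCast, hrv]⟩))
  · exact fun h => hu (h ▸ (hS w).2 (Or.inr (Perm.SameCycle.refl _ _)))
  · rw [← hz]
    by_cases h1 : u = v
    · exact h1 ▸ t1
    by_cases h2 : u = w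
    · exact h2 ▸ t2
    by_cases h3 : u = v1
    · exact h3 ▸ t3
    exact oddPt_of_fix (show x (z u) = u by rw [zo u h1 h3 h2, hx])
  · rw [← hz, ← hq]
    rcases (hS u).1 hu with h | h
    · obtain ⟨i, hi, rfl⟩ := hL.exists_lt h
      rcases Nat.eq_zero_or_pos i with rfl | hi0
      · have h5 := cB.iterate (1 + (M - 1))
        rw [pow_add, Perm.mul_apply, wB _ le_rfl, pow_one, qy] at h5
        simpa using h5
      · have h5 := cA.iterate (i - 1)
        rwa [wA _ (by omega), show i - 1 + 1 = i by omega] at h5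
    · obtain ⟨i, hi, rfl⟩ := hM.exists_lt h
      rw [← wB i (by omega)]; exact cB.iterate i
  · exact (hS _).2 (Or.inr ⟨(M - 1 : ℕ), by rw [zpow_natCast]⟩)
  · rw [← hz]
    refine zo _ (fun h => hAB 0 (M - 1) (by simpa using h.symm)) (fun h => hAB 1 (M - 1) (by rw [hrv, h])) ?_
    nth_rewrite 2 [show w = (r ^ 0) w by simp]
    exact hB (by omega) hM.1 (by omega)

/-- Points of odd period fixed by `x` and by `y` pair up. -/
theorem odd_fixed (hx : ∀ u, x (x u) = u) (hy : ∀ u, y (y u) = u) {u : α} {L : ℕ} (hL : Per (x * y) u L)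
    (hodd : Odd L) :
    (x u = u → y (((x * y) ^ (L / 2)) u) = ((x * y) ^ (L / 2)) u) ∧
      (y u = u → x (((x * y) ^ (L / 2 + 1)) u) = ((x * y) ^ (L / 2 + 1)) u) := by
  obtain ⟨t, rfl⟩ := hodd
  constructor
  · intro hu
    rw [y_eq (x := x) hx, pow_step, ← zpow_natCast, flip hy hx, hu, ← zpow_natCast, hL.apply_eq]
    exact ⟨-1, by omega⟩
  · intro hu
    have h1 : x u = ((x * y) ^ ((1 : ℕ) : ℤ)) u := by simp [hu]
    rw [← zpow_natCast, flip hy hx, h1, ← Perm.mul_apply, ← zpow_add, hL.apply_eq]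
    exact ⟨-1, by omega⟩

/-- The points fixed by `p` of even period. -/
noncomputable def evenFix (r p : Perm α) (S : Finset α) : Finset α :=
  letI := Classical.decPred fun u => ∃ L, Per r u L ∧ Even L
  S.filter fun u => p u = u ∧ ∃ L, Per r u L ∧ Even L

noncomputable def oddFix (r p : Perm α) (S : Finset α) : Finset α :=
  letI := Classical.decPred fun u => ∃ L, Per r u L ∧ Odd L
  S.filter fun u => p u = u ∧ ∃ L, Per r u L ∧ Odd L

theorem Per.unique {p : Perm α} {v : α} {L M : ℕ} (h : Per p v L) (h' : Per p v M) : L = M := by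
  have h1 := (h.2 M).1 ((h'.2 M).2 dvd_rfl)
  have h2 := (h'.2 L).1 ((h.2 L).2 dvd_rfl)
  exact Nat.dvd_antisymm (Int.natCast_dvd_natCast.1 h1) (Int.natCast_dvd_natCast.1 h2)

theorem fix_card_split (r p : Perm α) (S : Finset α) :
    (S.filter fun u => p u = u).card = (evenFix r p S).card + (oddFix r p S).card := by
  classical
  rw [← Finset.card_union_of_disjoint]
  · congr 1
    ext u
    simp only [evenFix, oddFix, Finset.mem_filter, Finset.mem_union]
    constructor
    · rintro ⟨h1, h2⟩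
      obtain ⟨L, hL⟩ := exists_per r u
      rcases Nat.even_or_odd L with h | h
      · exact Or.inl ⟨h1, h2, L, hL, h⟩
      · exact Or.inr ⟨h1, h2, L, hL, h⟩
    · rintro (⟨h1, h2, -⟩ | ⟨h1, h2, -⟩) <;> exact ⟨h1, h2⟩
  · rw [Finset.disjoint_left]
    intro u h1 h2
    simp only [evenFix, oddFix, Finset.mem_filter] at h1 h2
    obtain ⟨-, -, L, hL, he⟩ := h1
    obtain ⟨-, -, M, hM, ho⟩ := h2
    rw [hL.unique hM] at he
    exact (Nat.not_even_iff_odd.2 ho) he

theorem oddFix_card (hx : ∀ u, x (x u) = u) (hy : ∀ u, y (y u) = u) {S : Finset α}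
    (hS : ∀ u ∈ S, x u ∈ S ∧ y u ∈ S) : (oddFix (x * y) x S).card = (oddFix (x * y) y S).card := by
  classical
  have hr : ∀ (k : ℕ) (u : α), u ∈ S → ((x * y) ^ k) u ∈ S := by
    intro k
    induction k with
    | zero => simp
    | succ k ih =>
      intro u hu
      rw [pow_succ', Perm.mul_apply, Perm.mul_apply]
      exact (hS _ (hS _ (ih u hu)).2).1
  choose per hper using exists_per (x * y)
  have hsame : ∀ (u : α) (k : ℕ), per (((x * y) ^ k) u) = per u := fun u k =>
    (hper _).unique (per_same (hper u) ⟨k, by rw [zpow_natCast]⟩)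
  refine Finset.card_bij' (fun u _ => ((x * y) ^ (per u / 2)) u) (fun u _ => ((x * y) ^ (per u / 2 + 1)) u) ?_ ?_ ?_ ?_
  · intro u hu
    simp only [oddFix, Finset.mem_filter] at hu ⊢
    obtain ⟨hu1, hu2, L, hL, ho⟩ := hu
    obtain rfl := hL.unique (hper u)
    exact ⟨hr _ _ hu1, (odd_fixed hx hy hL ho).1 hu2, _, per_same hL ⟨((per u / 2 : ℕ) : ℤ), by rw [zpow_natCast]⟩, ho⟩
  · intro u hu
    simp only [oddFix, Finset.mem_filter] at hu ⊢
    obtain ⟨hu1, hu2, L, hL, ho⟩ := hu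
    obtain rfl := hL.unique (hper u)
    exact ⟨hr _ _ hu1, (odd_fixed hx hy hL ho).2 hu2, _, per_same hL ⟨((per u / 2 + 1 : ℕ) : ℤ), by rw [zpow_natCast]⟩, ho⟩
  · intro u hu
    simp only [oddFix, Finset.mem_filter] at hu
    obtain ⟨-, -, L, hL, t, rfl⟩ := hu
    show ((x * y) ^ (per _ / 2 + 1)) _ = u
    rw [hsame, ← hL.unique (hper u), ← Perm.mul_apply, ← pow_add, show (2 * t + 1) / 2 + 1 + (2 * t + 1) / 2 = 2 * t + 1 by omega]
    exact hL.pow_self
  · intro u hu
    simp only [oddFix, Finset.mem_filter] at hu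
    obtain ⟨-, -, L, hL, t, rfl⟩ := hu
    show ((x * y) ^ (per _ / 2)) _ = u
    rw [hsame, ← hL.unique (hper u), ← Perm.mul_apply, ← pow_add, show (2 * t + 1) / 2 + ((2 * t + 1) / 2 + 1) = 2 * t + 1 by omega]
    exact hL.pow_self

/-- On the two cycles of an even path pair the fixed points balance. -/
theorem evenFix_pair (hx : ∀ u, x (x u) = u) (hy : ∀ u, y (y u) = u) {v w : α} {L M : ℕ} (hL : Per (x * y) v L)
    (hM : Per (x * y) w M) (hLe : Even L) (hMe : Even M) (hv : y v = v) (hw : x w = w) (S : Finset α)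
    (hS : ∀ u, u ∈ S ↔ (x * y).SameCycle v u ∨ (x * y).SameCycle w u) :
    (S.filter fun u => x u = u).card = (S.filter fun u => y u = u).card := by
  obtain ⟨a, rfl⟩ := hLe
  obtain ⟨b, rfl⟩ := hMe
  set r := x * y with hr
  have hxv : x v = (r ^ ((1 : ℕ) : ℤ)) v := by simp [hr, hv]
  -- fixed points on each cycle
  have xA : ∀ i : ℕ, x ((r ^ i) v) ≠ (r ^ i) v := by
    intro i h
    rw [← zpow_natCast, hr, flip hy hx, ← hr, hxv, ← Perm.mul_apply, ← zpow_add, hL.apply_eq] at h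
    obtain ⟨j, hj⟩ := h
    have : (2 : ℤ) ∣ ((a + a : ℕ) : ℤ) * j := ⟨a * j, by push_cast; ring⟩
    omega
  have yA : ∀ i : ℕ, i < a + a → (y ((r ^ i) v) = (r ^ i) v ↔ i = 0 ∨ i = a) := by
    intro i hi
    rw [y_eq (x := x) hx, ← hr, pow_step, ← zpow_natCast, hr, flip hy hx, ← hr, hxv, ← Perm.mul_apply, ← zpow_add,
      ← zpow_natCast r i, hL.apply_eq]
    constructor
    · rintro ⟨j, hj⟩
      push_cast at hj
      rcases lt_trichotomy j (-1) with h | h | h
      · nlinarith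
      · subst h; omega
      · rcases (show j = 0 ∨ 1 ≤ j by omega) with h' | h'
        · subst h'; omega
        · nlinarith
    · rintro (rfl | h)
      · exact ⟨0, by omega⟩
      · exact ⟨-1, by omega⟩
  have yB : ∀ i : ℕ, y ((r ^ i) w) ≠ (r ^ i) w := by
    intro i h
    rw [y_eq (x := x) hx, ← hr, pow_step, ← zpow_natCast, hr, flip hy hx, ← hr, hw, ← zpow_natCast r i, hM.apply_eq] at h
    obtain ⟨j, hj⟩ := h
    have : (2 : ℤ) ∣ ((b + b : ℕ) : ℤ) * j := ⟨b * j, by push_cast; ring⟩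
    omega
  have xB : ∀ i : ℕ, i < b + b → (x ((r ^ i) w) = (r ^ i) w ↔ i = 0 ∨ i = b) := by
    intro i hi
    rw [← zpow_natCast, hr, flip hy hx, ← hr, hw, hM.apply_eq]
    constructor
    · rintro ⟨j, hj⟩
      push_cast at hj
      rcases lt_trichotomy j (-1) with h | h | h
      · nlinarith
      · subst h; omega
      · rcases (show j = 0 ∨ 1 ≤ j by omega) with h' | h'
        · subst h'; omega
        · nlinarith
    · rintro (rfl | h)
      · exact ⟨0, by omega⟩
      · exact ⟨-1, by omega⟩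
  have ha := hL.1
  have hb := hM.1
  have e1 : (S.filter fun u => x u = u) = {w, (r ^ b) w} := by
    ext u
    simp only [Finset.mem_filter, Finset.mem_insert, Finset.mem_singleton, hS]
    constructor
    · rintro ⟨h | h, hu⟩
      · obtain ⟨i, hi, rfl⟩ := hL.exists_lt h
        exact absurd hu (xA i)
      · obtain ⟨i, hi, rfl⟩ := hM.exists_lt h
        rcases (xB i hi).1 hu with rfl | rfl
        · exact Or.inl (by simp)
        · exact Or.inr rfl
    · rintro (rfl | rfl)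
      · exact ⟨Or.inr (Perm.SameCycle.refl _ _), hw⟩
      · exact ⟨Or.inr ⟨(b : ℤ), by rw [zpow_natCast]⟩, (xB b (by omega)).2 (Or.inr rfl)⟩
  have e2 : (S.filter fun u => y u = u) = {v, (r ^ a) v} := by
    ext u
    simp only [Finset.mem_filter, Finset.mem_insert, Finset.mem_singleton, hS]
    constructor
    · rintro ⟨h | h, hu⟩
      · obtain ⟨i, hi, rfl⟩ := hL.exists_lt h
        rcases (yA i hi).1 hu with rfl | rfl
        · exact Or.inl (by simp)
        · exact Or.inr rfl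
      · obtain ⟨i, hi, rfl⟩ := hM.exists_lt h
        exact absurd hu (yB i)
    · rintro (rfl | rfl)
      · exact ⟨Or.inl (Perm.SameCycle.refl _ _), hv⟩
      · exact ⟨Or.inl ⟨(a : ℤ), by rw [zpow_natCast]⟩, (yA a (by omega)).2 (Or.inr rfl)⟩
  rw [e1, e2, Finset.card_pair, Finset.card_pair]
  · intro h
    have := hL.eq_of_lt hL.1 (show a < a + a by omega) (by simpa using h)
    omega
  · intro h
    have := hM.eq_of_lt hM.1 (show b < b + b by omega) (by simpa using h)
    omega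

/-- The decomposition into pieces. -/
theorem decompose (hx : ∀ u, x (x u) = u) (hy : ∀ u, y (y u) = u) : ∀ (m : ℕ) (S : Finset α), S.card = m →
    (∀ u ∈ S, x u ∈ S ∧ y u ∈ S) → (S.filter fun u => x u = u).card = (S.filter fun u => y u = u).card →
    Good x y S ∨ ∃ Q R, Quad x y Q ∧ Disjoint Q R ∧ S = Q ∪ R ∧ (∀ u ∈ R, x u ∈ R ∧ y u ∈ R) ∧ Good x y R := by
  classical
  intro m
  induction m using Nat.strong_induction_on with
  | _ m ih =>
  intro S hm hS hbal
  rcases S.eq_empty_or_nonempty with rfl | hne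
  · exact Or.inl ⟨1, fun _ _ => rfl, by simp, by simp⟩
  -- remove a balanced piece
  have step : ∀ K : Finset α, K ⊆ S → K.Nonempty → (∀ u ∈ K, x u ∈ K ∧ y u ∈ K) →
      (K.filter fun u => x u = u).card = (K.filter fun u => y u = u).card → (Good x y K ∨ Quad x y K) →
      Good x y S ∨ ∃ Q R, Quad x y Q ∧ Disjoint Q R ∧ S = Q ∪ R ∧ (∀ u ∈ R, x u ∈ R ∧ y u ∈ R) ∧ Good x y R := by
    intro K hKS hKne hK hKbal hgood
    have hR : ∀ u ∈ S \ K, x u ∈ S \ K ∧ y u ∈ S \ K := by
      intro u hu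
      obtain ⟨h1, h2⟩ := Finset.mem_sdiff.1 hu
      exact ⟨Finset.mem_sdiff.2 ⟨(hS u h1).1, fun h => h2 (by simpa [hx] using (hK _ h).1)⟩,
        Finset.mem_sdiff.2 ⟨(hS u h1).2, fun h => h2 (by simpa [hy] using (hK _ h).2)⟩⟩
    have hcount : ∀ p : Perm α, (S.filter fun u => p u = u).card =
        (K.filter fun u => p u = u).card + ((S \ K).filter fun u => p u = u).card := by
      intro p
      rw [← Finset.card_union_of_disjoint (Finset.disjoint_filter_filter Finset.disjoint_sdiff), ← Finset.filter_union,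
        Finset.union_sdiff_of_subset hKS]
    have hlt : (S \ K).card < m := by
      rw [← hm]; exact Finset.card_lt_card (Finset.sdiff_ssubset hKS hKne)
    have hdis : Disjoint K (S \ K) := Finset.disjoint_sdiff
    have hun : K ∪ (S \ K) = S := Finset.union_sdiff_of_subset hKS
    rcases ih _ hlt (S \ K) rfl hR (by have := hcount x; have := hcount y; omega) with hG | ⟨Q, R, hQ, hQR, he, hRi, hRG⟩
    · rcases hgood with hK' | hK'
      · exact Or.inl (hun ▸ good_union hx hy hdis hK hR hK' hG)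
      · exact Or.inr ⟨K, S \ K, hK', hdis, hun.symm, hR, hG⟩
    · have hKQ : Disjoint K Q := hdis.mono_right (by rw [he]; exact Finset.subset_union_left)
      have hKR : Disjoint K R := hdis.mono_right (by rw [he]; exact Finset.subset_union_right)
      rcases hgood with hK' | hK'
      · refine Or.inr ⟨Q, K ∪ R, hQ, Finset.disjoint_union_right.2 ⟨hKQ.symm, hQR⟩, ?_, ?_, good_union hx hy hKR hK hRi hK' hRG⟩
        · rw [← hun, he, Finset.union_left_comm]
        · intro u hu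
          rcases Finset.mem_union.1 hu with h | h
          · exact ⟨Finset.mem_union_left _ (hK u h).1, Finset.mem_union_left _ (hK u h).2⟩
          · exact ⟨Finset.mem_union_right _ (hRi u h).1, Finset.mem_union_right _ (hRi u h).2⟩
      · refine Or.inl ?_
        rw [← hun, he, ← Finset.union_assoc]
        refine good_union hx hy (Finset.disjoint_union_left.2 ⟨hKR, hQR⟩) (fun u hu => ?_) hRi (good_quads hx hy hK' hQ hKQ) hRG
        rcases Finset.mem_union.1 hu with h | h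
        · exact ⟨Finset.mem_union_left _ (quad_facts hx hy hK' u h).1, Finset.mem_union_left _ (quad_facts hx hy hK' u h).2⟩
        · exact ⟨Finset.mem_union_right _ (quad_facts hx hy hQ u h).1, Finset.mem_union_right _ (quad_facts hx hy hQ u h).2⟩
  have hrS : ∀ u ∈ S, ∀ v, (x * y).SameCycle u v → v ∈ S := by
    intro u hu v hv
    obtain ⟨i, rfl⟩ := hv.exists_nat_pow_eq
    clear hv
    induction i with
    | zero => simpa using hu
    | succ i ihi =>
      rw [pow_succ', Perm.mul_apply, Perm.mul_apply]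
      exact (hS _ (hS _ ihi).2).1
  have hsplit := fix_card_split (x * y) x S
  have hsplit' := fix_card_split (x * y) y S
  have hodd := oddFix_card hx hy hS
  by_cases hev : (evenFix (x * y) y S).Nonempty
  · obtain ⟨v, hv⟩ := hev
    have hev' : (evenFix (x * y) x S).Nonempty := Finset.card_pos.1 (by
      have := Finset.card_pos.2 ⟨v, hv⟩; omega)
    obtain ⟨w, hw⟩ := hev'
    simp only [evenFix, Finset.mem_filter] at hv hw
    obtain ⟨hvS, hyv, L, hL, hLe⟩ := hv
    obtain ⟨hwS, hxw, M, hM, hMe⟩ := hw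
    set K : Finset α := Finset.univ.filter fun u => (x * y).SameCycle v u ∨ (x * y).SameCycle w u with hK
    have hKm : ∀ u, u ∈ K ↔ (x * y).SameCycle v u ∨ (x * y).SameCycle w u := by simp [hK]
    have hKS : K ⊆ S := fun u hu => ((hKm u).1 hu).elim (hrS v hvS u) (hrS w hwS u)
    refine step K hKS ⟨v, (hKm v).2 (Or.inl (Perm.SameCycle.refl _ _))⟩ (fun u hu => ?_)
      (evenFix_pair hx hy hL hM hLe hMe hyv hxw K hKm) (Or.inl (good_pair hx hy hL hM hLe hMe hyv hxw K hKm))
    have hxK : ∀ u ∈ K, x u ∈ K := by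
      intro u hu
      rw [hKm] at hu ⊢
      rcases hu with ⟨k, rfl⟩ | ⟨k, rfl⟩
      · refine Or.inl ⟨-k + 1, ?_⟩
        rw [flip hy hx, zpow_add, zpow_one, Perm.mul_apply]
        congr 1
        simp [hyv]
      · exact Or.inr ⟨-k, by rw [flip hy hx, hxw]⟩
    refine ⟨hxK u hu, ?_⟩
    rw [y_eq (x := x) hx u]
    refine hxK _ ?_
    rw [hKm] at hu ⊢
    exact hu.imp (fun h => Perm.sameCycle_apply_right.2 h) (fun h => Perm.sameCycle_apply_right.2 h)
  have hnoy : ∀ u ∈ S, y u = u → ∀ L, Per (x * y) u L → Odd L := fun u hu hyu L hL =>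
    Nat.not_even_iff_odd.1 fun he => hev ⟨u, by simp only [evenFix, Finset.mem_filter]; exact ⟨hu, hyu, L, hL, he⟩⟩
  have hnox : ∀ u ∈ S, x u = u → ∀ L, Per (x * y) u L → Odd L := fun u hu hxu L hL =>
    Nat.not_even_iff_odd.1 fun he => hev (Finset.card_pos.1 (by
      have : 0 < (evenFix (x * y) x S).card :=
        Finset.card_pos.2 ⟨u, by simp only [evenFix, Finset.mem_filter]; exact ⟨hu, hxu, L, hL, he⟩⟩
      omega))
  obtain ⟨v, hvS⟩ := hne
  obtain ⟨L, hL⟩ := exists_per (x * y) v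
  set K : Finset α := Finset.univ.filter fun u => (x * y).SameCycle v u ∨ (x * y).SameCycle (x v) u with hK
  have hKm : ∀ u, u ∈ K ↔ (x * y).SameCycle v u ∨ (x * y).SameCycle (x v) u := by simp [hK]
  have hKS : K ⊆ S := fun u hu => ((hKm u).1 hu).elim (hrS v hvS u) (hrS _ (hS v hvS).1 u)
  have hKi := orbit_mapsTo hx hy K hKm
  have hKbal : (K.filter fun u => x u = u).card = (K.filter fun u => y u = u).card := by
    rw [fix_card_split (x * y) x K, fix_card_split (x * y) y K, oddFix_card hx hy hKi]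
    have h0 : ∀ p : Perm α, (∀ u ∈ S, p u = u → ∀ L, Per (x * y) u L → Odd L) → evenFix (x * y) p K = ∅ := by
      intro p hp
      refine Finset.eq_empty_of_forall_notMem fun u hu => ?_
      simp only [evenFix, Finset.mem_filter] at hu
      obtain ⟨h1, h2, M, hM, he⟩ := hu
      exact Nat.not_even_iff_odd.2 (hp u (hKS h1) h2 M hM) he
    rw [h0 x hnox, h0 y hnoy]
  have hKne : K.Nonempty := ⟨v, (hKm v).2 (Or.inl (Perm.SameCycle.refl _ _))⟩
  rcases Nat.even_or_odd L with hLe | hLo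
  swap
  · -- all periods in the piece are odd
    refine step K hKS hKne hKi hKbal (Or.inl ⟨1, fun _ _ => rfl, fun u hu => ?_, fun h => ?_⟩)
    · refine ⟨oddPt_of_fix (by simp [hx]), L, hLo, ?_⟩
      simp only [one_mul, inv_one, mul_one]
      have hLu : Per (x * y) (x v) L := ⟨hL.1, fun k => by
        rw [← show x (((x * y) ^ (-k)) v) = ((x * y) ^ k) (x v) by rw [flip hy hx, neg_neg], x.injective.eq_iff, hL.2, dvd_neg]⟩
      exact ((hKm u).1 hu).elim (fun h => (per_same hL h).pow_self) (fun h => (per_same hLu h).pow_self)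
    · obtain ⟨f, hf⟩ := h
      exact ⟨f, hf, by simp⟩
  have hns : ¬ (x * y).SameCycle v (x v) := by
    rintro ⟨k, hk⟩
    rcases Int.even_or_odd k with ⟨s, rfl⟩ | ⟨s, rfl⟩
    · have hu : x (((x * y) ^ s) v) = ((x * y) ^ s) v := by
        rw [flip hy hx, ← hk, ← Perm.mul_apply, ← zpow_add]; congr 2; ring
      exact Nat.not_even_iff_odd.2 (hnox _ (hrS v hvS _ ⟨s, rfl⟩) hu L (per_same hL ⟨s, rfl⟩)) hLe
    · have hu : y (((x * y) ^ s) v) = ((x * y) ^ s) v := by
        rw [y_eq (x := x) hx, ← Perm.mul_apply (x * y), ← zpow_one_add, flip hy hx, ← hk, ← Perm.mul_apply, ← zpow_add]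
        congr 2; ring
      exact Nat.not_even_iff_odd.2 (hnoy _ (hrS v hvS _ ⟨s, rfl⟩) hu L (per_same hL ⟨s, rfl⟩)) hLe
  by_cases h4 : 4 ≤ L
  · exact step K hKS hKne hKi hKbal (Or.inl (good_long hx hy hL hLe h4 hns K hKm))
  obtain rfl : L = 2 := by obtain ⟨k, hk⟩ := hLe; have := hL.1; omega
  refine step K hKS hKne hKi hKbal (Or.inr ?_)
  set r := x * y with hr
  set b := x v with hb
  have hLb : Per r b 2 := ⟨two_pos, fun k => by
    rw [hb, hr, ← show x (((x * y) ^ (-k)) v) = ((x * y) ^ k) (x v) by rw [flip hy hx, neg_neg], x.injective.eq_iff, hL.2, dvd_neg]⟩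
  have hne0 : r v ≠ v := fun h => by
    have := (hL.2 1).1 (by simpa using h); omega
  have hneb : r b ≠ b := fun h => by
    have := (hLb.2 1).1 (by simpa using h); omega
  have h2 : r (r v) = v := by simpa [pow_succ] using hL.pow_self
  have h2b : r (r b) = b := by simpa [pow_succ] using hLb.pow_self
  have sc : ∀ u, r.SameCycle u (r u) := fun u => Perm.sameCycle_apply_right.2 (Perm.SameCycle.refl _ _)
  have hybv : y b = r v := r.injective (by rw [h2]; simp [hr, hy, hb, hx])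
  have hxrv : x (r v) = r b := by
    rw [← hybv]
    show x (y b) = r b
    simp [hr]
  refine ⟨v, b, r v, r b, fun h => hns (h ▸ Perm.SameCycle.refl _ _), hne0.symm,
    fun h => hns (by exact (show r.SameCycle v (r b) from h ▸ Perm.SameCycle.refl _ _).trans (sc b).symm),
    fun h => hns (by rw [h]; exact sc v), hneb.symm, fun h => hns (by
      exact ((sc v).trans (h ▸ Perm.SameCycle.refl _ _ : r.SameCycle (r v) (r b))).trans (sc b).symm), ?_, hb.symm, hxrv, hybv, ?_⟩
  · ext u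
    rw [hKm]
    simp only [Finset.mem_insert, Finset.mem_singleton]
    constructor
    · rintro (h | h)
      · obtain ⟨i, hi, rfl⟩ := hL.exists_lt h
        interval_cases i <;> simp
      · obtain ⟨i, hi, rfl⟩ := hLb.exists_lt h
        interval_cases i <;> simp
    · rintro (rfl | rfl | rfl | rfl)
      · exact Or.inl (Perm.SameCycle.refl _ _)
      · exact Or.inr (Perm.SameCycle.refl _ _)
      · exact Or.inl (sc _)
      · exact Or.inr (sc _)
  · refine r.injective ?_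
    rw [← hxrv]
    show x (y (y (x (r v)))) = r v
    rw [hy, hx]

/-- Two conjugate involutions have a common neighbour in the odd product graph. -/
theorem exists_common (hx : ∀ u, x (x u) = u) (hy : ∀ u, y (y u) = u) (hcard : 5 ≤ Fintype.card α)
    (hbal : (Finset.univ.filter fun u => x u = u).card = (Finset.univ.filter fun u => y u = u).card) :
    ∃ z : Perm α, IsConj x z ∧ Odd (orderOf (x * z)) ∧ Odd (orderOf (z * y)) := by
  obtain ⟨σ, hσ⟩ : ∃ σ : Perm α, ∀ u, OddPt (x * (σ * x * σ⁻¹)) u ∧ OddPt (σ * x * σ⁻¹ * y) u := by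
    rcases decompose hx hy _ Finset.univ rfl (by simp) hbal with ⟨σ, -, h, -⟩ | ⟨Q, R, hQ, hd, he, hRi, hR⟩
    · exact ⟨σ, fun u => h u (Finset.mem_univ u)⟩
    · have hne : R.Nonempty := by
        rw [Finset.nonempty_iff_ne_empty]
        rintro rfl
        obtain ⟨a, b, c, d, -, -, -, -, -, -, rfl, -⟩ := hQ
        have := congrArg Finset.card he
        rw [Finset.union_empty, Finset.card_univ] at this
        have h4 : ({a, b, c, d} : Finset α).card ≤ 4 := Finset.card_le_four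
        omega
      obtain ⟨σ, h⟩ := good_merge hx hy hQ hd hRi hR hne
      exact ⟨σ, fun u => h u (he ▸ Finset.mem_univ u)⟩
  exact ⟨σ * x * σ⁻¹, isConj_iff.2 ⟨σ, rfl⟩, odd_orderOf fun u => (hσ u).1, odd_orderOf fun u => (hσ u).2⟩

end pair

/-- Let n ≥ 5 and let X be a conjugacy class of involutions of the symmetric group of degree n. The graph on X joining two distinct involutions whose product has odd order is connected and has diameter exactly 2. -/
theorem result (n : ℕ) (hn : 5 ≤ n) (t : Equiv.Perm (Fin n)) (ht : orderOf t = 2) :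
    (SimpleGraph.fromRel fun x y : {x : Equiv.Perm (Fin n) // IsConj t x} =>
        Odd (orderOf (x.1 * y.1))).Connected ∧
      (SimpleGraph.fromRel fun x y : {x : Equiv.Perm (Fin n) // IsConj t x} =>
        Odd (orderOf (x.1 * y.1))).diam = 2 := by
  classical
  set X := {x : Equiv.Perm (Fin n) // IsConj t x}
  have hinv : ∀ x : X, ∀ u, x.1 (x.1 u) = u := by
    rintro ⟨x, hx⟩ u
    obtain ⟨g, rfl⟩ := isConj_iff.1 hx
    have : t * t = 1 := by rw [← sq, ← ht, pow_orderOf_eq_one]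
    have h1 : ∀ v, t (t v) = v := fun v => by rw [← Equiv.Perm.mul_apply, this]; rfl
    simp [h1]
  have hfix : ∀ x : X, (Finset.univ.filter fun u => x.1 u = u).card = (Finset.univ.filter fun u => t u = u).card := by
    rintro ⟨x, hx⟩
    obtain ⟨g, rfl⟩ := isConj_iff.1 hx
    refine Finset.card_bij' (fun u _ => g⁻¹ u) (fun u _ => g u) ?_ ?_ (fun u _ => by simp) (fun u _ => by simp)
    · intro u hu
      simp only [Finset.mem_filter, Finset.mem_univ, true_and] at hu ⊢
      have := congrArg (g⁻¹ : Equiv.Perm (Fin n)) hu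
      simpa using this
    · intro u hu
      simp only [Finset.mem_filter, Finset.mem_univ, true_and] at hu ⊢
      simp [hu]
  set Γ := SimpleGraph.fromRel fun x y : X => Odd (orderOf (x.1 * y.1))
  have hadj : ∀ x y : X, x ≠ y → Odd (orderOf (x.1 * y.1)) → Γ.Adj x y := fun x y h1 h2 => ⟨h1, Or.inl h2⟩
  have hdist : ∀ x y : X, x ≠ y → ¬ Γ.Adj x y → ∃ z, Γ.Adj x z ∧ Γ.Adj z y := by
    intro x y hxy hn'
    obtain ⟨z, hz, h1, h2⟩ := exists_common (hinv x) (hinv y) (by simpa using hn) ((hfix x).trans (hfix y).symm)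
    refine ⟨⟨z, x.2.trans hz⟩, hadj _ _ (fun e => ?_) h1, hadj _ _ (fun e => ?_) h2⟩
    · have e' : x.1 = z := congrArg Subtype.val e
      exact hn' (hadj x y hxy (e' ▸ h2))
    · have e' : z = y.1 := congrArg Subtype.val e
      exact hn' (hadj x y hxy (e' ▸ h1))
  have hed : ∀ x y : X, Γ.edist x y ≤ 2 := by
    intro x y
    by_cases hxy : x = y
    · subst hxy; simp
    by_cases ha : Γ.Adj x y
    · exact le_trans (SimpleGraph.edist_le ha.toWalk) (by simp)
    · obtain ⟨z, h1, h2⟩ := hdist x y hxy ha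
      exact le_trans (SimpleGraph.edist_le (SimpleGraph.Walk.cons h1 h2.toWalk)) (by simp [one_add_one_eq_two])
  haveI : Nonempty X := ⟨⟨t, IsConj.refl t⟩⟩
  have hcon : Γ.Connected := SimpleGraph.Connected.mk fun x y => by
    rw [← SimpleGraph.edist_ne_top_iff_reachable]
    exact ne_top_of_le_ne_top (by simp) (hed x y)
  refine ⟨hcon, ?_⟩
  -- two commuting conjugates
  obtain ⟨s, hs, hst, hcomm⟩ : ∃ s, IsConj t s ∧ t ≠ s ∧ (t * s) * (t * s) = 1 := by
    have htt : ∀ u, t (t u) = u := hinv ⟨t, IsConj.refl t⟩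
    obtain ⟨a, ha⟩ : ∃ a, t a ≠ a := by
      by_contra h
      push Not at h
      rw [show t = 1 from Equiv.ext h, orderOf_one] at ht
      omega
    by_cases h2 : ∃ c, t c ≠ c ∧ c ≠ a ∧ c ≠ t a
    · obtain ⟨c, hc, hca, hcb⟩ := h2
      set b := t a with hb
      set d := t c with hd
      have tb : t b = a := by rw [hb, htt]
      have td : t d = c := by rw [hd, htt]
      have hda : d ≠ a := fun h => hcb (by rw [hb, ← h, td])
      have hdb : d ≠ b := fun h => hca (t.injective (by rw [← hd, ← hb, h]))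
      refine ⟨Equiv.swap b c * t * (Equiv.swap b c)⁻¹, isConj_iff.2 ⟨_, rfl⟩, fun h => ?_, Equiv.ext fun u => ?_⟩
      · have := congrArg (fun p : Equiv.Perm (Fin n) => p a) h
        simp [Equiv.swap_apply_of_ne_of_ne (Ne.symm ha) hca.symm, ← hb] at this
        exact hcb this.symm
      · simp only [Equiv.Perm.mul_apply, Equiv.Perm.one_apply, Equiv.swap_inv, Equiv.swap_apply_def]
        grind
    · push Not at h2
      obtain ⟨c, hc⟩ : ∃ c, c ∉ ({a, t a} : Finset (Fin n)) := by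
        obtain ⟨c, -, hc⟩ := Finset.exists_mem_notMem_of_card_lt_card
          (show ({a, t a} : Finset (Fin n)).card < (Finset.univ : Finset (Fin n)).card by
            rw [Finset.card_univ, Fintype.card_fin]; exact lt_of_le_of_lt Finset.card_le_two (by omega))
        exact ⟨c, hc⟩
      obtain ⟨d, hd⟩ : ∃ d, d ∉ ({a, t a, c} : Finset (Fin n)) := by
        obtain ⟨d, -, hd⟩ := Finset.exists_mem_notMem_of_card_lt_card
          (show ({a, t a, c} : Finset (Fin n)).card < (Finset.univ : Finset (Fin n)).card by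
            rw [Finset.card_univ, Fintype.card_fin]; exact lt_of_le_of_lt Finset.card_le_three (by omega))
        exact ⟨d, hd⟩
      simp only [Finset.mem_insert, Finset.mem_singleton, not_or] at hc hd
      have hteq : t = Equiv.swap a (t a) := Equiv.ext fun u => by
        by_cases h1 : u = a
        · subst h1; simp
        by_cases h3 : u = t a
        · subst h3; simp [htt]
        rw [Equiv.swap_apply_of_ne_of_ne h1 h3]
        by_contra hu
        exact h3 (h2 u hu h1)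
      refine ⟨(Equiv.swap a c * Equiv.swap (t a) d) * t * (Equiv.swap a c * Equiv.swap (t a) d)⁻¹,
        isConj_iff.2 ⟨_, rfl⟩, fun h => ?_, Equiv.ext fun u => ?_⟩
      · have := congrArg (fun p : Equiv.Perm (Fin n) => p a) h
        obtain ⟨b, hb⟩ : ∃ b, t a = b := ⟨_, rfl⟩
        rw [hb] at hteq hc hd ha this
        rw [hteq] at this
        simp only [mul_inv_rev, Equiv.swap_inv, Equiv.Perm.mul_apply, Equiv.swap_apply_def] at this
        grind
      · obtain ⟨b, hb⟩ : ∃ b, t a = b := ⟨_, rfl⟩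
        rw [hb] at hteq hc hd ha ⊢
        have hs2 : Equiv.swap a c * Equiv.swap b d * t * (Equiv.swap a c * Equiv.swap b d)⁻¹ = Equiv.swap c d := by
          rw [hteq, ← Equiv.swap_apply_apply]
          congr 1 <;> simp only [Equiv.Perm.mul_apply, Equiv.swap_apply_def] <;> grind
        rw [hs2, hteq]
        simp only [Equiv.Perm.mul_apply, Equiv.Perm.one_apply, Equiv.swap_apply_def]
        grind
  set x₀ : X := ⟨t, IsConj.refl t⟩
  set y₀ : X := ⟨s, hs⟩
  have hne : x₀ ≠ y₀ := fun e => hst (congrArg Subtype.val e)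
  have hord : orderOf (t * s) = 2 := by
    refine orderOf_eq_prime (by rw [sq, hcomm]) fun e => hst ?_
    have h1 : t * t = 1 := by rw [← sq, ← ht, pow_orderOf_eq_one]
    exact (mul_left_cancel (e.trans h1.symm)).symm
  have hnadj : ¬ Γ.Adj x₀ y₀ := by
    rintro ⟨-, h | h⟩
    · rw [hord] at h; exact absurd h (by decide)
    · have hinv' : s * t = (t * s)⁻¹ := by
        rw [mul_inv_rev, inv_eq_iff_mul_eq_one.2 (Equiv.ext fun u => by simpa using hinv y₀ u : s * s = 1),
          inv_eq_iff_mul_eq_one.2 (Equiv.ext fun u => by simpa using hinv x₀ u : t * t = 1)]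
      rw [hinv', orderOf_inv, hord] at h
      exact absurd h (by decide)
  have hd2 : 2 ≤ Γ.edist x₀ y₀ := by
    rcases lt_or_ge (Γ.edist x₀ y₀) 2 with h | h
    · exfalso
      have h1 : Γ.edist x₀ y₀ ≠ 1 := fun e => hnadj (SimpleGraph.edist_eq_one_iff_adj.1 e)
      have h0 : Γ.edist x₀ y₀ ≠ 0 := fun e => hne (SimpleGraph.edist_eq_zero_iff.1 e)
      have h1' := ENat.le_coe_iff.1 (show Γ.edist x₀ y₀ ≤ ((1 : ℕ) : ℕ∞) from Order.le_of_lt_add_one (by simpa [one_add_one_eq_two] using h))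
      obtain ⟨k, hk, hk1⟩ := h1'
      rw [hk] at h0 h1
      interval_cases k
      · exact h0 rfl
      · exact h1 rfl
    · exact h
  have : Γ.ediam = 2 := le_antisymm (SimpleGraph.ediam_le_of_edist_le hed) (le_trans hd2 SimpleGraph.edist_le_ediam)
  simp [SimpleGraph.diam, this]

end Cfsg.Agent.S3265
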