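import Cfsg.Statements.S3266
import Cfsg.Agent.SL2.OddProductGraph

set_option autoImplicit false
open Cfsg

namespace Cfsg.Agent.S3266

/-- Let F be a finite field with at least 4 elements and let X be a conjugacy class of involutions of PSL(2, F). The graph on X joining two distinct involutions whose product has odd order is connected and has diameter exactly 2. -/
theorem result {F : Type*} [Field F] [Fintype F] (hF : 4 ≤ Fintype.card F)
    (t : Matrix.ProjectiveSpecialLinearGroup (Fin 2) F) (ht : orderOf t = 2) :
    (SimpleGraph.fromRel fun x y : {x : Matrix.ProjectiveSpecialLinearGroup (Fin 2) F // IsConj t x} =>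
        Odd (orderOf (x.1 * y.1))).Connected ∧
      (SimpleGraph.fromRel fun x y : {x : Matrix.ProjectiveSpecialLinearGroup (Fin 2) F // IsConj t x} =>
        Odd (orderOf (x.1 * y.1))).diam = 2 := by
  exact CfsgLib.SL2.odd_product_graph_diam hF t ht

end Cfsg.Agent.S3266
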