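import Cfsg.Statements.S3269
import Cfsg.Agent.ZStar.Corollaries

set_option autoImplicit false
open Cfsg
open scoped IsMulCommutative

namespace Cfsg.Agent.S3269

theorem quaternion_center_sq {n : ℕ} (hn : 2 ≤ n) (c : QuaternionGroup n)
    (hc : ∀ d, c * d = d * c) : c * c = 1 := by
  cases c with
  | a i =>
    have h := hc (QuaternionGroup.xa 0)
    rw [QuaternionGroup.a_mul_xa, QuaternionGroup.xa_mul_a, QuaternionGroup.xa.injEq] at h
    rw [QuaternionGroup.a_mul_a, show i + i = 0 by linear_combination -h]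
    rfl
  | xa i =>
    exfalso
    have h := hc (QuaternionGroup.a 1)
    rw [QuaternionGroup.xa_mul_a, QuaternionGroup.a_mul_xa, QuaternionGroup.xa.injEq] at h
    have h2 : ((2 : ℕ) : ZMod (2 * n)) = 0 := by
      push_cast
      linear_combination h
    rw [ZMod.natCast_eq_zero_iff] at h2
    have := Nat.le_of_dvd (by norm_num) h2
    omega

universe u

/-- In `Q × R` with `Q` quaternion and the involutions of `R` central, some involution is fixed by all
automorphisms. -/
theorem exists_aut_fixed_involution {A : Type u} [Group A] [Finite A] (Q R : Subgroup A)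
    (hcomm : ∀ a ∈ Q, ∀ b ∈ R, a * b = b * a) (hinf : Q ⊓ R = ⊥) (hsup : Q ⊔ R = ⊤)
    (n : ℕ) (hn : 1 ≤ n) (eQ : ↥Q ≃* QuaternionGroup (2 ^ n))
    (hR : ∀ r ∈ R, orderOf r = 2 → ∀ s ∈ R, r * s = s * r) :
    (∀ x : A, x * x = 1 → x ∈ Subgroup.center A) ∧ ∃ w : A, orderOf w = 2 ∧ ∀ φ : MulAut A, φ w = w := by
  classical
  have hn2 : 2 ≤ 2 ^ n := le_trans (by norm_num) (Nat.pow_le_pow_right (by norm_num) hn)
  let f : Q × R →* A :=
    { toFun := fun x => (x.1 : A) * x.2
      map_one' := by simp
      map_mul' := fun x y => by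
        simp only [Prod.fst_mul, Prod.snd_mul, Subgroup.coe_mul]
        have := hcomm y.1 y.1.2 x.2 x.2.2
        calc (x.1 : A) * y.1 * (x.2 * y.2) = x.1 * ((y.1 : A) * x.2) * y.2 := by group
          _ = x.1 * ((x.2 : A) * y.1) * y.2 := by rw [this]
          _ = _ := by group }
  have hfi : Function.Injective f := by
    rw [injective_iff_map_eq_one]
    intro x hx
    change (x.1 : A) * x.2 = 1 at hx
    have h1 : (x.1 : A) ∈ Q ⊓ R := Subgroup.mem_inf.2 ⟨x.1.2, by
      rw [mul_eq_one_iff_eq_inv] at hx; rw [hx]; exact inv_mem x.2.2⟩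
    rw [hinf, Subgroup.mem_bot] at h1
    rw [h1, one_mul] at hx
    exact Prod.ext (Subtype.ext h1) (Subtype.ext hx)
  have hfs : Function.Surjective f := by
    rw [← MonoidHom.range_eq_top, ← top_le_iff, ← hsup]
    exact sup_le (fun x hx => ⟨(⟨x, hx⟩, 1), by simp [f]⟩) (fun x hx => ⟨(1, ⟨x, hx⟩), by simp [f]⟩)
  let e : Q × R ≃* A := MulEquiv.ofBijective f ⟨hfi, hfs⟩
  let α : A →* Q := (MonoidHom.fst Q R).comp e.symm.toMonoidHom
  let β : A →* R := (MonoidHom.snd Q R).comp e.symm.toMonoidHom
  have hdec : ∀ x : A, (α x : A) * β x = x := fun x => e.apply_symm_apply x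
  have hαQ : ∀ q : Q, α q = q ∧ β q = 1 := fun q => by
    have h : e.symm (q : A) = (q, 1) := by
      rw [MulEquiv.symm_apply_eq]; exact (mul_one _).symm
    exact ⟨congrArg Prod.fst h, congrArg Prod.snd h⟩
  have hQone : CfsgLib.TwoGroup.AtMostOneInvolution Q := by
    obtain ⟨k, rfl⟩ : ∃ k, n = k + 1 := ⟨n - 1, by omega⟩
    exact CfsgLib.ZStar.atMostOneInvolution_of_mulEquiv eQ
      (CfsgLib.ZStar.atMostOneInvolution_quaternionGroup k)
  -- the involution of `Q`
  set q₀ : Q := eQ.symm (QuaternionGroup.a ((2 ^ n : ℕ) : ZMod (2 * 2 ^ n))) with hq₀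
  have hq₀sq : q₀ * q₀ = 1 := by
    rw [hq₀, ← map_mul, QuaternionGroup.a_mul_a, ← Nat.cast_add, ← two_mul, ZMod.natCast_self]
    exact map_one _
  have hq₀ne : q₀ ≠ 1 := by
    intro h
    rw [hq₀, MulEquiv.map_eq_one_iff] at h
    rw [show (1 : QuaternionGroup (2 ^ n)) = QuaternionGroup.a 0 from rfl, QuaternionGroup.a.injEq,
      ZMod.natCast_eq_zero_iff] at h
    have := Nat.le_of_dvd (by omega) h
    omega
  have hq₀ord : orderOf q₀ = 2 := orderOf_eq_prime (by rw [pow_two]; exact hq₀sq) hq₀ne
  have hQinv : ∀ q : Q, q * q = 1 → q = 1 ∨ q = q₀ := fun q hq => by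
    by_cases h : q = 1
    · exact Or.inl h
    · exact Or.inr (hQone q q₀ (orderOf_eq_prime (by rw [pow_two]; exact hq) h) hq₀ord)
  have hQcenter : ∀ q : Q, (∀ d : Q, q * d = d * q) → q = 1 ∨ q = q₀ := fun q hq => by
    refine hQinv q (eQ.injective ?_)
    rw [map_mul, map_one]
    refine quaternion_center_sq hn2 _ fun d => ?_
    obtain ⟨d, rfl⟩ := eQ.surjective d
    rw [← map_mul, ← map_mul, hq d]
  have hq₀c : ∀ d : Q, q₀ * d = d * q₀ := fun d => by
    have hd : (d * q₀ * d⁻¹) * (d * q₀ * d⁻¹) = 1 := by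
      calc _ = d * (q₀ * q₀) * d⁻¹ := by group
        _ = 1 := by rw [hq₀sq]; group
    rcases hQinv _ hd with h | h
    · exact absurd (conj_eq_one_iff.1 h) hq₀ne
    · calc q₀ * d = (d * q₀ * d⁻¹) * d := by rw [h]
        _ = d * q₀ := by group
  -- all involutions are central
  have hcent : ∀ x : A, x * x = 1 → x ∈ Subgroup.center A := by
    intro x hx
    have h1 : α x * α x = 1 := by rw [← map_mul, hx, map_one]
    have h2 : β x * β x = 1 := by rw [← map_mul, hx, map_one]
    rw [Subgroup.mem_center_iff]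
    intro y
    apply e.symm.injective
    rw [map_mul, map_mul]
    refine Prod.ext ?_ ?_
    · change α y * α x = α x * α y
      rcases hQinv _ h1 with h | h <;> rw [h]
      · simp
      · exact (hq₀c _).symm
    · change β y * β x = β x * β y
      by_cases h : β x = 1
      · rw [h]; simp
      · have ho : orderOf (β x : A) = 2 := by
          rw [Subgroup.orderOf_coe]; exact orderOf_eq_prime (by rw [pow_two]; exact h2) h
        exact Subtype.ext (hR _ (β x).2 ho _ (β y).2).symm
  -- images of `q₀` under automorphisms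
  have hkey : ∀ φ : MulAut A, φ q₀ = (q₀ : A) ∨ α (φ q₀) = 1 := by
    intro φ
    set u := φ (q₀ : A) with hu
    have hu2 : α u * α u = 1 := by
      rw [← map_mul, hu, ← map_mul, ← Subgroup.coe_mul, hq₀sq, Subgroup.coe_one, map_one, map_one]
    refine (hQinv _ hu2).symm.imp (fun hα => ?_) id
    suffices hβ : β u = 1 by rw [← hdec u, hα, hβ]; simp
    by_contra hβ
    -- both projections restricted to `φ Q` are injective
    let a₂ : Q →* Q := α.comp (φ.toMonoidHom.comp Q.subtype)
    let b₂ : Q →* R := β.comp (φ.toMonoidHom.comp Q.subtype)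
    have hinj : ∀ {M : Type u} [Group M] (h : Q →* M), h q₀ ≠ 1 → Function.Injective h := by
      intro M _ h hne
      rw [injective_iff_map_eq_one]
      intro q hq
      by_contra hq1
      have hk : IsPGroup 2 Q := IsPGroup.of_card (n := n + 2) (by
        rw [Nat.card_congr eQ.toEquiv, Nat.card_eq_fintype_card, QuaternionGroup.card, pow_add]; ring)
      obtain ⟨k, hk⟩ := IsPGroup.iff_orderOf.1 hk q
      obtain ⟨j, rfl⟩ : ∃ j, k = j + 1 := ⟨k - 1, by
        rcases Nat.eq_zero_or_pos k with rfl | h'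
        · rw [pow_zero, orderOf_eq_one_iff] at hk; exact absurd hk hq1
        · omega⟩
      have h1 : q ^ 2 ^ j ≠ 1 := by
        intro h'
        have := orderOf_dvd_of_pow_eq_one h'
        rw [hk] at this
        have := (Nat.pow_dvd_pow_iff_le_right (by norm_num)).1 this
        omega
      have h2 : q ^ 2 ^ j * q ^ 2 ^ j = 1 := by
        rw [← pow_add, ← two_mul, ← pow_succ', ← hk, pow_orderOf_eq_one]
      have h3 := (hQinv _ h2).resolve_left h1
      exact hne (by rw [← h3, map_pow, hq, one_pow])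
    have ha : Function.Injective a₂ := hinj a₂ (by
      change α u ≠ 1
      rw [hα]; exact hq₀ne)
    have hb : Function.Injective b₂ := hinj b₂ hβ
    have has : Function.Surjective a₂ := (Finite.injective_iff_surjective).1 ha
    -- `B` and its centralizer in `R`
    set B : Subgroup R := b₂.range with hB
    set C : Subgroup R := Subgroup.centralizer (B : Set R) with hC
    let g : R →* A := φ.toMonoidHom.comp R.subtype
    have hgQ : ∀ (r : R) (q : Q), g r * φ (q : A) = φ (q : A) * g r := fun r q => by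
      change φ r * φ q = φ q * φ r
      rw [← map_mul, ← map_mul, hcomm q q.2 r r.2]
    have hα2 : ∀ r : R, α (g r) = 1 ∨ α (g r) = q₀ := fun r => hQcenter _ fun d => by
      obtain ⟨q, rfl⟩ := has d
      change α (g r) * α (φ q) = α (φ q) * α (g r)
      rw [← map_mul, hgQ r q, map_mul]
    have hβ2 : ∀ r : R, β (g r) ∈ C := fun r => by
      rw [hC, Subgroup.mem_centralizer_iff]
      rintro _ ⟨q, rfl⟩
      change β (φ q) * β (g r) = β (g r) * β (φ q)
      rw [← map_mul, ← hgQ r q, map_mul]
    have hcardR : Nat.card R ≤ 2 * Nat.card C := by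
      let i : R → Bool × C := fun r => (decide (α (g r) = 1), ⟨β (g r), hβ2 r⟩)
      have hi : Function.Injective i := by
        intro r s hrs
        simp only [i, Prod.mk.injEq, decide_eq_decide, Subtype.mk.injEq] at hrs
        have hα' : α (g r) = α (g s) := by
          rcases hα2 r with h | h <;> rcases hα2 s with h' | h'
          · rw [h, h']
          · exact absurd (hrs.1.1 h) (by rw [h']; exact hq₀ne)
          · exact absurd (hrs.1.2 h') (by rw [h]; exact hq₀ne)
          · rw [h, h']
        have h : g r = g s := by rw [← hdec (g r), ← hdec (g s), hα', hrs.2]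
        exact Subtype.ext (φ.injective h)
      refine (Nat.card_le_card_of_injective i hi).trans (le_of_eq ?_)
      rw [Nat.card_prod, Nat.card_eq_fintype_card (α := Bool), Fintype.card_bool]
    have hBC : Nat.card ↥(B ⊓ C) ≤ 2 := by
      let j : ↥(B ⊓ C) → Bool := fun x => decide (x = 1)
      refine (Nat.card_le_card_of_injective j ?_).trans (le_of_eq (by simp [Nat.card_eq_fintype_card]))
      have hone : ∀ x : ↥(B ⊓ C), x ≠ 1 → (x : R) = b₂ q₀ := by
        rintro ⟨_, ⟨q, rfl⟩, hxC⟩ hx
        have hq : ∀ d : Q, q * d = d * q := fun d => hb (by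
          rw [map_mul, map_mul]
          exact (Subgroup.mem_centralizer_iff.1 hxC (b₂ d) ⟨d, rfl⟩).symm)
        rcases hQcenter q hq with h | h
        · exact absurd (Subtype.ext ((congrArg b₂ h).trans (map_one b₂))) hx
        · exact congrArg b₂ h
      intro x y hxy
      simp only [j, decide_eq_decide] at hxy
      by_cases hx : x = 1
      · rw [hx, hxy.1 hx]
      · exact Subtype.ext ((hone x hx).trans (hone y (fun h => hx (hxy.2 h))).symm)
    have hprod : Nat.card B * Nat.card C ≤ Nat.card R * Nat.card ↥(B ⊓ C) := by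
      have h1 := Subgroup.relIndex_mul_relIndex ⊥ (B ⊓ C) B bot_le inf_le_left
      rw [Subgroup.relIndex_bot_left, Subgroup.relIndex_bot_left, Subgroup.inf_relIndex_left] at h1
      have h2 : C.relIndex B ≤ C.index := by
        rw [← Subgroup.relIndex_top_right]
        exact Subgroup.relIndex_le_of_le_right le_top (by rw [Subgroup.relIndex_top_right]; exact Subgroup.index_ne_zero_of_finite)
      calc Nat.card B * Nat.card C = Nat.card ↥(B ⊓ C) * C.relIndex B * Nat.card C := by rw [h1]
        _ ≤ Nat.card ↥(B ⊓ C) * C.index * Nat.card C :=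
            Nat.mul_le_mul_right _ (Nat.mul_le_mul_left _ h2)
        _ = _ := by rw [← C.card_mul_index]; ring
    have hBcard : Nat.card B = 4 * 2 ^ n := by
      rw [hB, ← Nat.card_congr (MonoidHom.ofInjective hb).toEquiv, Nat.card_congr eQ.toEquiv,
        Nat.card_eq_fintype_card, QuaternionGroup.card]
    rw [hBcard] at hprod
    have hCpos : 0 < Nat.card C := Nat.card_pos
    have := Nat.mul_le_mul hcardR hBC
    nlinarith [hprod, this, hn2, hCpos]
  refine ⟨hcent, ?_⟩
  -- the product of all images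
  have hq₀A : ∀ φ : MulAut A, φ (q₀ : A) ∈ Subgroup.center A := fun φ => hcent _ (by
    rw [← map_mul, ← Subgroup.coe_mul, hq₀sq, Subgroup.coe_one, map_one])
  haveI : Finite (MulAut A) := Finite.of_injective (fun φ => (φ : A → A)) DFunLike.coe_injective
  letI := Fintype.ofFinite (MulAut A)
  set X : Finset (Subgroup.center A) := Finset.univ.image fun φ : MulAut A => ⟨φ q₀, hq₀A φ⟩ with hX
  set w : Subgroup.center A := ∏ x ∈ X, x with hw
  have hw2 : w * w = 1 := by
    rw [hw, ← Finset.prod_mul_distrib]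
    refine Finset.prod_eq_one fun x hx => ?_
    obtain ⟨φ, -, rfl⟩ := Finset.mem_image.1 hx
    exact Subtype.ext (by
      change φ q₀ * φ q₀ = 1
      rw [← map_mul, ← Subgroup.coe_mul, hq₀sq, Subgroup.coe_one, map_one])
  let γ : Subgroup.center A →* Subgroup.center Q :=
    (α.comp (Subgroup.center A).subtype).codRestrict _ fun x => Subgroup.mem_center_iff.2 fun q => by
      have hx := Subgroup.mem_center_iff.1 x.2 (q : A)
      have h1 := congrArg α hx
      rw [map_mul, map_mul, (hαQ q).1] at h1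
      exact h1
  have hz₀ : (⟨q₀, hq₀A 1⟩ : Subgroup.center A) ∈ X := Finset.mem_image.2 ⟨1, Finset.mem_univ _, rfl⟩
  have hwne : (w : A) ≠ 1 := by
    intro h
    have h0 : γ w = 1 := by rw [show w = 1 from Subtype.ext h, map_one]
    rw [hw, map_prod, Finset.prod_eq_single_of_mem _ hz₀ (fun x hx hne => ?_)] at h0
    · exact hq₀ne ((hαQ q₀).1.symm.trans (congrArg Subtype.val h0))
    · obtain ⟨φ, -, rfl⟩ := Finset.mem_image.1 hx
      rcases hkey φ with h | h
      · exact absurd (Subtype.ext h) hne
      · exact Subtype.ext h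
  refine ⟨w, orderOf_eq_prime (by rw [pow_two, ← Subgroup.coe_mul, hw2]; rfl) hwne, fun ψ => ?_⟩
  let ψZ : Subgroup.center A →* Subgroup.center A :=
    (ψ.toMonoidHom.comp (Subgroup.center A).subtype).codRestrict _ fun x => Subgroup.mem_center_iff.2 fun y => by
      obtain ⟨y, rfl⟩ := ψ.surjective y
      exact ((map_mul ψ _ _).symm.trans ((congrArg ψ (Subgroup.mem_center_iff.1 x.2 y)).trans (map_mul ψ _ _)))
  have hψi : Function.Injective ψZ := fun x y h => Subtype.ext (ψ.injective (congrArg Subtype.val h))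
  have himg : X.image ψZ = X := by
    refine Finset.eq_of_subset_of_card_le ?_ (le_of_eq (Finset.card_image_of_injective _ hψi).symm)
    intro x hx
    obtain ⟨y, hy, rfl⟩ := Finset.mem_image.1 hx
    obtain ⟨φ, -, rfl⟩ := Finset.mem_image.1 hy
    exact Finset.mem_image.2 ⟨ψ * φ, Finset.mem_univ _, rfl⟩
  change (ψZ w : A) = w
  congr 1
  calc ψZ w = ∏ x ∈ X, ψZ x := by rw [hw, map_prod]
    _ = ∏ x ∈ X.image ψZ, x := by rw [Finset.prod_image hψi.injOn]
    _ = w := by rw [himg]

/-- Let G be a finite group whose Sylow 2-subgroup S is an internal direct product Q × R with Q generalized quaternion (of order at least 8) and R a subgroup all of whose involutions are central in R. Then G is not simple. In particular no finite simple group has a Sylow 2-subgroup that is a direct product of one or more generalized quaternion groups. -/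
theorem result {G : Type*} [Group G] [Finite G]
    (S : Sylow 2 G) (Q R : Subgroup G) (hQR : Cfsg.IsInternalDirectProduct Q R (S : Subgroup G))
    (n : ℕ) (hn : 1 ≤ n) (eQ : ↥Q ≃* QuaternionGroup (2 ^ n))
    (hR : ∀ r ∈ R, orderOf r = 2 → ∀ s ∈ R, r * s = s * r) :
    ¬ IsSimpleGroup G := by
  intro hsimp
  obtain ⟨hQS, hRS, hcomm, hinf, hsup⟩ := hQR
  obtain ⟨hcent, w, hw2, hwfix⟩ := exists_aut_fixed_involution (Q.subgroupOf (S : Subgroup G))
    (R.subgroupOf (S : Subgroup G)) (fun a ha b hb => Subtype.ext (hcomm a ha b hb))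
    (by
      rw [Subgroup.eq_bot_iff_forall]
      intro x hx
      exact Subtype.ext (Subgroup.mem_bot.1 (hinf ▸ Subgroup.mem_inf.2 ⟨hx.1, hx.2⟩)))
    (by rw [← Subgroup.subgroupOf_sup hQS hRS, hsup, Subgroup.subgroupOf_self]) n hn
    ((Subgroup.subgroupOfEquivOfLe hQS).trans eQ)
    (fun r hr ho s hs => Subtype.ext (hR r hr ((Subgroup.orderOf_coe r).trans ho) s hs))
  have hwo : orderOf (w : G) = 2 := (Subgroup.orderOf_coe w).trans hw2
  have hmem : ∀ x : (S : Subgroup G), orderOf x = 2 →
      (x : G) ∈ Subgroup.centralizer ((S : Subgroup G) : Set G) := fun x hx => by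
    have hxx : x * x = 1 := by
      have h := pow_orderOf_eq_one x
      rwa [hx, pow_two] at h
    rw [Subgroup.mem_centralizer_iff]
    exact fun s hs => congrArg Subtype.val (Subgroup.mem_center_iff.1 (hcent x hxx) ⟨s, hs⟩)
  have hiso : ∀ g : G, g * (w : G) * g⁻¹ ∈ (S : Subgroup G) → g * (w : G) * g⁻¹ = w := by
    intro g hg
    have ho : orderOf (⟨_, hg⟩ : (S : Subgroup G)) = 2 := by
      rw [Subgroup.orderOf_mk]
      exact (MulEquiv.orderOf_eq (MulAut.conj g) (w : G)).trans hwo
    obtain ⟨m, hm, hme⟩ := S.conj_eq_normalizer_conj_of_mem_centralizer (w : G) g⁻¹ (hmem w hw2)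
      (by rw [inv_inv]; exact hmem _ ho)
    rw [inv_inv] at hme
    have hfix := congrArg Subtype.val (hwfix (Subgroup.normalizerMonoidHom (S : Subgroup G) ⟨m⁻¹, inv_mem hm⟩))
    rw [hme]
    change m⁻¹ * (w : G) * (m⁻¹)⁻¹ = (w : G) at hfix
    simpa using hfix
  have hZ := CfsgLib.ZStar.inZStar_of_no_fusion hwo S hiso
  have hO : Cfsg.pPrimeCore 2 G = ⊥ := by
    rcases hsimp.eq_bot_or_eq_top_of_normal (Cfsg.pPrimeCore 2 G) inferInstance with h | h
    · exact h
    · exfalso
      apply CfsgLib.Constrained.pPrimeCore_not_dvd (p := 2) (G := G)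
      rw [h, Subgroup.card_top, ← hwo]
      exact orderOf_dvd_natCard _
  have hc := CfsgLib.ZStar.mem_center_of_inZStar hO hZ
  rcases hsimp.eq_bot_or_eq_top_of_normal (Subgroup.center G) inferInstance with h | h
  · rw [h] at hc
    rw [Subgroup.mem_bot.1 hc, orderOf_one] at hwo
    omega
  · obtain ⟨k, rfl⟩ : ∃ k, n = k + 1 := ⟨n - 1, by omega⟩
    obtain ⟨a, b, hab⟩ := CfsgLib.ZStar.exists_not_commute_quaternionGroup k
    refine hab (eQ.symm.injective ?_)
    rw [map_mul, map_mul]
    have h1 : (eQ.symm a : G) ∈ Subgroup.center G := h ▸ Subgroup.mem_top _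
    exact Subtype.ext ((Subgroup.mem_center_iff.1 h1 _).symm)

end Cfsg.Agent.S3269
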