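import Cfsg.Statements.S3276
import Cfsg.Agent.Eq.Def_Transfer
-- import your own Cfsg.Agent.* helpers here

set_option autoImplicit false
open Cfsg

namespace Cfsg.Agent.S3276

/-- Two non-conjugate involutions commute with a common involution. -/
theorem exists_common_involution {G : Type*} [Group G] [Finite G] (x w : G)
    (hx : x * x = 1) (hw : w * w = 1) (hne : ¬ IsConj x w) :
    ∃ u : G, orderOf u = 2 ∧ Commute u x ∧ Commute u w := by
  have hxi : x⁻¹ = x := inv_eq_of_mul_eq_one_right hx
  have hwi : w⁻¹ = w := inv_eq_of_mul_eq_one_right hw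
  have hxd : x * (x * w) * x⁻¹ = (x * w)⁻¹ := by
    rw [mul_inv_rev, hxi, hwi, ← mul_assoc x x w, hx, one_mul]
  rcases Nat.even_or_odd (orderOf (x * w)) with ⟨m, hm⟩ | ⟨k, hk⟩
  · have hpos := orderOf_pos (x * w)
    have hu : orderOf ((x * w) ^ m) = 2 := by
      rw [orderOf_pow' _ (by omega), hm, Nat.gcd_eq_right (dvd_add dvd_rfl dvd_rfl)]
      rw [← two_mul, Nat.mul_div_cancel _ (by omega)]
    have hui : ((x * w) ^ m)⁻¹ = (x * w) ^ m := by
      apply inv_eq_of_mul_eq_one_right
      rw [← pow_add, ← hm, pow_orderOf_eq_one]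
    have hux : Commute ((x * w) ^ m) x := by
      have h : x * (x * w) ^ m * x⁻¹ = (x * w) ^ m := by
        rw [← conj_pow, hxd, inv_pow, hui]
      exact Commute.symm (mul_inv_eq_iff_eq_mul.mp h)
    refine ⟨(x * w) ^ m, hu, hux, ?_⟩
    have : w = x * (x * w) := by rw [← mul_assoc, hx, one_mul]
    have h2 := hux.mul_right (Commute.pow_self (x * w) m)
    rwa [← this] at h2
  · exfalso
    apply hne
    refine isConj_iff.mpr ⟨(x * w) ^ k, ?_⟩
    have hh : ((x * w) ^ k)⁻¹ = x * (x * w) ^ k * x⁻¹ := by
      rw [← conj_pow, hxd, inv_pow]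
    have h3 : (x * w) ^ (k + k) = (x * w)⁻¹ := by
      apply eq_inv_of_mul_eq_one_left
      rw [← pow_succ, show k + k + 1 = orderOf (x * w) by omega, pow_orderOf_eq_one]
    calc (x * w) ^ k * x * ((x * w) ^ k)⁻¹
        = (x * w) ^ k * (x * x) * (x * w) ^ k * x⁻¹ := by rw [hh]; simp [mul_assoc]
      _ = (x * w) ^ (k + k) * x⁻¹ := by rw [hx, mul_one, pow_add]
      _ = w := by rw [h3, mul_inv_rev, hxi, hwi, mul_assoc, hx, mul_one]

/-- Let x and y be commuting, non-conjugate involutions of a finite group G, and suppose that for every involution u commuting with x, each conjugate of y that commutes with u also commutes with y. Then the normal closure of y is a proper, normal, elementary abelian 2-subgroup of G; and if y is the only involution of that normal closure commuting with x, it has order at most 4. -/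
theorem result {G : Type*} [Group G] [Finite G] (x y : G) (hx : orderOf x = 2) (hy : orderOf y = 2)
    (hxy : Commute x y) (hnc : ¬ IsConj x y)
    (hstar : ∀ u : G, orderOf u = 2 → Commute u x → ∀ g : G, Commute (g * y * g⁻¹) u → Commute (g * y * g⁻¹) y) :
    Subgroup.normalClosure ({y} : Set G) ≠ ⊤ ∧ Cfsg.IsElementaryAbelian 2 (Subgroup.normalClosure ({y} : Set G)) ∧
      ((∀ u ∈ Subgroup.normalClosure ({y} : Set G), orderOf u = 2 → Commute u x → u = y) →
        Nat.card ↥(Subgroup.normalClosure ({y} : Set G)) ≤ 4) := by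
  classical
  have hx2 : x * x = 1 := by rw [← sq, ← hx]; exact pow_orderOf_eq_one x
  have hy2 : y * y = 1 := by rw [← sq, ← hy]; exact pow_orderOf_eq_one y
  -- every conjugate of y commutes with y
  have hcy : ∀ g : G, Commute (g * y * g⁻¹) y := by
    intro g
    have hw2 : (g * y * g⁻¹) * (g * y * g⁻¹) = 1 := by
      rw [show g * y * g⁻¹ * (g * y * g⁻¹) = g * (y * y) * g⁻¹ by group, hy2]; group
    have hne : ¬ IsConj x (g * y * g⁻¹) := fun h =>
      hnc (h.trans (isConj_iff.mpr ⟨g⁻¹, by group⟩))
    obtain ⟨u, hu, hux, huw⟩ := exists_common_involution x _ hx2 hw2 hne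
    exact hstar u hu hux g huw.symm
  have hcomm : ∀ a ∈ Group.conjugatesOfSet ({y} : Set G),
      ∀ b ∈ Group.conjugatesOfSet ({y} : Set G), a * b = b * a := by
    intro a ha b hb
    simp only [Group.mem_conjugatesOfSet_iff, Set.mem_singleton_iff, exists_eq_left,
      isConj_iff] at ha hb
    obtain ⟨g, rfl⟩ := ha
    obtain ⟨k, rfl⟩ := hb
    have h := ((hcy (k⁻¹ * g)).map (MulAut.conj k).toMonoidHom).eq
    simp only [MulEquiv.coe_toMonoidHom, MulAut.conj_apply] at h
    rw [show k * (k⁻¹ * g * y * (k⁻¹ * g)⁻¹) * k⁻¹ = g * y * g⁻¹ by group] at h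
    exact h
  have hN : IsMulCommutative (Subgroup.normalClosure ({y} : Set G)) :=
    Subgroup.isMulCommutative_closure hcomm
  have hNc : ∀ a ∈ Subgroup.normalClosure ({y} : Set G),
      ∀ b ∈ Subgroup.normalClosure ({y} : Set G), a * b = b * a := fun a ha b hb =>
    congrArg Subtype.val (hN.is_comm.comm ⟨a, ha⟩ ⟨b, hb⟩)
  have hsq : ∀ a ∈ Subgroup.normalClosure ({y} : Set G), a * a = 1 := by
    intro a ha
    induction ha using Subgroup.closure_induction with
    | mem a ha =>
      simp only [Group.mem_conjugatesOfSet_iff, Set.mem_singleton_iff, exists_eq_left,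
        isConj_iff] at ha
      obtain ⟨g, rfl⟩ := ha
      rw [show g * y * g⁻¹ * (g * y * g⁻¹) = g * (y * y) * g⁻¹ by group, hy2]; group
    | one => simp
    | mul a b ha hb iha ihb =>
      have hab : b * a = a * b := (hNc a ha b hb).symm
      calc a * b * (a * b) = a * (b * a) * b := by group
        _ = a * (a * b) * b := by rw [hab]
        _ = (a * a) * (b * b) := by group
        _ = 1 := by rw [iha, ihb, one_mul]
    | inv a _ iha => rw [← mul_inv_rev, iha, inv_one]
  have hyN : y ∈ Subgroup.normalClosure ({y} : Set G) := Subgroup.subset_normalClosure rfl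
  refine ⟨?_, ⟨hN, fun a ha => by rw [sq]; exact hsq a ha⟩, ?_⟩
  · intro htop
    have hyc : ∀ g : G, g * y * g⁻¹ = y := fun g => by
      rw [hNc g (htop ▸ Subgroup.mem_top g) y hyN]; group
    have hle : Subgroup.normalClosure ({y} : Set G) ≤ Subgroup.zpowers y := by
      rw [Subgroup.normalClosure, Subgroup.closure_le]
      intro a ha
      simp only [Group.mem_conjugatesOfSet_iff, Set.mem_singleton_iff, exists_eq_left,
        isConj_iff] at ha
      obtain ⟨g, rfl⟩ := ha
      rw [hyc]; exact Subgroup.mem_zpowers y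
    rw [htop] at hle
    obtain ⟨k, hk⟩ := Subgroup.mem_zpowers_iff.mp (hle (Subgroup.mem_top x))
    rcases Int.even_or_odd k with ⟨j, hj⟩ | ⟨j, hj⟩
    · rw [hj, ← two_mul, zpow_mul, zpow_two, hy2, one_zpow] at hk
      rw [← hk, orderOf_one] at hx; omega
    · rw [hj, zpow_add, zpow_mul, zpow_two, hy2, one_zpow, one_mul, zpow_one] at hk
      exact hnc (hk ▸ IsConj.refl y)
  · intro honly
    set N := Subgroup.normalClosure ({y} : Set G) with hNdef
    have hnor : N.Normal := Subgroup.normalClosure_normal
    let f : ↥N →* G :=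
      { toFun := fun n => (n : G) * (x * n * x⁻¹)
        map_one' := by simp
        map_mul' := fun a b => by
          have h := hNc _ (hnor.conj_mem _ a.2 x) _ b.2
          calc ((a * b : ↥N) : G) * (x * ((a * b : ↥N) : G) * x⁻¹)
              = (a : G) * ((b : G) * (x * a * x⁻¹)) * (x * b * x⁻¹) := by
                simp [Subgroup.coe_mul]; group
            _ = (a : G) * ((x * a * x⁻¹) * b) * (x * b * x⁻¹) := by rw [h]
            _ = (a : G) * (x * a * x⁻¹) * ((b : G) * (x * b * x⁻¹)) := by group }
    have hfix : ∀ a ∈ N, Commute a x → a ∈ ({1, y} : Finset G) := by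
      intro a ha hc
      by_cases h1 : a = 1
      · simp [h1]
      · simp [honly a ha (orderOf_eq_prime (by rw [sq]; exact hsq a ha) h1) hc]
    have hker : ∀ n : ↥N, f n = 1 → (n : G) ∈ ({1, y} : Finset G) := by
      intro n hn
      refine hfix _ n.2 ?_
      have hni : (n : G)⁻¹ = n := inv_eq_of_mul_eq_one_right (hsq _ n.2)
      have : x * n * x⁻¹ = (n : G) := by
        rw [eq_inv_of_mul_eq_one_right hn, hni]
      exact Commute.symm (mul_inv_eq_iff_eq_mul.mp this)
    have hran : ∀ n : ↥N, f n ∈ ({1, y} : Finset G) := by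
      intro n
      have hm : f n ∈ N := N.mul_mem n.2 (hnor.conj_mem _ n.2 x)
      refine hfix _ hm ?_
      have hxi : x⁻¹ = x := inv_eq_of_mul_eq_one_right hx2
      have h := hNc _ n.2 _ (hnor.conj_mem _ n.2 x)
      change (n : G) * (x * n * x⁻¹) * x = x * ((n : G) * (x * n * x⁻¹))
      calc (n : G) * (x * n * x⁻¹) * x = (x * n * x⁻¹) * n * x := by rw [h]
        _ = x * ((n : G) * (x * n * x⁻¹)) := by simp [hxi, mul_assoc]
    have h2 : ∀ a : G, ({1, a} : Finset G).card ≤ 2 := fun a => Finset.card_le_two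
    have hk : Nat.card ↥f.ker ≤ 2 := by
      have := Nat.card_le_card_of_injective
        (fun n : ↥f.ker => (⟨((n : ↥N) : G), hker n.1 n.2⟩ : ({1, y} : Finset G)))
        (fun a b h => by
          ext; simpa using h)
      rw [Nat.card_eq_finsetCard] at this
      exact this.trans (h2 y)
    have hr : Nat.card ↥f.range ≤ 2 := by
      have := Nat.card_le_card_of_injective
        (fun n : ↥f.range => (⟨(n : G), by obtain ⟨a, ha⟩ := n.2; exact ha ▸ hran a⟩ : ({1, y} : Finset G)))
        (fun a b h => by
          ext; simpa using h)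
      rw [Nat.card_eq_finsetCard] at this
      exact this.trans (h2 y)
    rw [← Subgroup.index_mul_card f.ker, Subgroup.index_ker]
    exact Nat.mul_le_mul hr hk

end Cfsg.Agent.S3276
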