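import Cfsg.Statements.S3278
import Cfsg.Agent.CentralizerFour.Characters
import Cfsg.Agent.Involutions.SelfCentralizingFour
import Cfsg.Agent.Involutions.AltFive

set_option autoImplicit false
open Cfsg

namespace Cfsg.Agent.S3278

open CfsgLib.StronglyEmbedded (mul_self_eq_one inv_eq_self ne_one_of_orderOf_two orderOf_two_iff
  orderOf_conj commute_iff_conj_eq)

theorem result {G : Type*} [Group G] [Finite G] [IsSimpleGroup G] (x : G) (hx : orderOf x = 2)
    (S₀ : Subgroup G) (hle : S₀ ≤ Subgroup.centralizer ({x} : Set G)) (hK : IsKleinFour ↥S₀)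
    (hodd : ¬ 2 ∣ S₀.relIndex (Subgroup.centralizer ({x} : Set G))) (hn : (S₀.subgroupOf (Subgroup.centralizer ({x} : Set G))).Normal) :
    Nonempty (G ≃* ↥(alternatingGroup (Fin 5))) := by
  classical
  haveI : Fact (Nat.Prime 2) := ⟨Nat.prime_two⟩
  haveI := Fintype.ofFinite G
  set C := Subgroup.centralizer ({x} : Set G) with hC
  set V := S₀
  have hxx := mul_self_eq_one hx
  have hx1 := ne_one_of_orderOf_two hx
  have hV4 : Nat.card V = 4 := hK.card_four
  have hVsq : ∀ v ∈ V, v * v = 1 := fun v hv => by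
    haveI := hK
    have h := Monoid.pow_exponent_eq_one (⟨v, hv⟩ : V)
    rw [IsKleinFour.exponent_two, sq] at h
    exact congrArg Subtype.val h
  have hVinv : ∀ v ∈ V, v⁻¹ = v := fun v hv => inv_eq_of_mul_eq_one_right (hVsq v hv)
  have hVab : ∀ v ∈ V, ∀ u ∈ V, v * u = u * v := fun v hv u hu => by
    rw [← hVinv _ (V.mul_mem hv hu), mul_inv_rev, hVinv v hv, hVinv u hu]
  -- the group is not abelian
  have hnab : ¬ ∀ a b : G, a * b = b * a := by
    intro hab
    have hnorm : ∀ H : Subgroup G, H.Normal := fun H => ⟨fun n hn g => by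
      rw [hab g n, mul_assoc, mul_inv_cancel, mul_one]; exact hn⟩
    rcases (hnorm (Subgroup.zpowers x)).eq_bot_or_eq_top with h | h
    · exact hx1 (Subgroup.zpowers_eq_bot.mp h)
    · have h2 := Subgroup.card_le_card_group V
      rw [hV4, ← Subgroup.card_top, ← h, Nat.card_zpowers, hx] at h2
      omega
  have hsimple : ∀ H : Subgroup G, H.Normal → H = ⊥ ∨ H = ⊤ := fun H hH => hH.eq_bot_or_eq_top
  -- 2-subgroups of the centralizer lie in `V`
  have hn' : ∀ c ∈ C, ∀ v ∈ V, c * v * c⁻¹ ∈ V := fun c hc v hv =>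
    hn.conj_mem ⟨v, hle hv⟩ hv ⟨c, hc⟩
  have hCN : C ≤ Subgroup.normalizer (V : Set G) := fun c hc => by
    refine Subgroup.mem_normalizer_iff.mpr fun v => ⟨hn' c hc v, fun h => ?_⟩
    have := hn' c⁻¹ (C.inv_mem hc) _ h
    rwa [show c⁻¹ * (c * v * c⁻¹) * c⁻¹⁻¹ = v by group] at this
  have hVp : IsPGroup 2 V := IsPGroup.of_card (n := 2) (by rw [hV4]; rfl)
  have hCcard : Nat.card C = 4 * V.relIndex C := by
    rw [← hV4, ← Subgroup.relIndex_bot_left, ← Subgroup.relIndex_bot_left]
    exact (Subgroup.relIndex_mul_relIndex _ _ _ bot_le hle).symm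
  have hQV : ∀ Q : Subgroup G, Q ≤ C → IsPGroup 2 Q → Q ≤ V := by
    intro Q hQ hQp
    have hp : IsPGroup 2 (Q ⊔ V : Subgroup G) :=
      IsPGroup.to_sup_of_normal_right' hQp hVp (hQ.trans hCN)
    obtain ⟨k, hk⟩ := IsPGroup.iff_card.mp hp
    have hd := Subgroup.card_dvd_of_le (sup_le hQ hle : Q ⊔ V ≤ C)
    rw [hk, hCcard] at hd
    have hk2 : k ≤ 2 := by
      by_contra hh
      have h8 : 2 ^ 3 ∣ 4 * V.relIndex C := (pow_dvd_pow 2 (by omega)).trans hd
      exact hodd (Nat.dvd_of_mul_dvd_mul_left (show 0 < 4 by norm_num) (by simpa using h8))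
    have : Q ⊔ V = V := (Subgroup.eq_of_le_of_card_ge le_sup_right (by
      rw [hk, hV4]; exact Nat.pow_le_pow_right (by norm_num) hk2)).symm
    exact sup_eq_right.mp this
  have hxC : x ∈ C := Subgroup.mem_centralizer_singleton_iff.mpr rfl
  have hinvV : ∀ g ∈ C, g * g = 1 → g ∈ V := by
    intro g hg hg2
    refine hQV (Subgroup.zpowers g) (Subgroup.zpowers_le.mpr hg) ?_ (Subgroup.mem_zpowers g)
    intro a
    obtain ⟨i, hi⟩ := Subgroup.mem_zpowers_iff.mp a.2
    refine ⟨1, Subtype.ext ?_⟩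
    rw [SubmonoidClass.coe_pow, ← hi, pow_one, ← zpow_natCast, ← zpow_mul, mul_comm, zpow_mul,
      zpow_natCast, sq, hg2, one_zpow]
    rfl
  have hxV : x ∈ V := hinvV x hxC hxx
  -- the order is not divisible by eight
  have h8 : ¬ 8 ∣ Nat.card G := by
    intro h
    obtain ⟨K, hKn, hKi, -⟩ := CfsgLib.SelfCentralizingFour.exists_normal_index_two hx V hle hV4
      (fun Q hQ hQp => hV4 ▸ Nat.card_le_card_of_injective _
        (Subgroup.inclusion_injective (hQV Q hQ hQp))) h
    rcases hsimple K hKn with rfl | rfl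
    · rw [Subgroup.index_bot] at hKi; omega
    · rw [Subgroup.index_top] at hKi; omega
  have hVidx : ¬ 2 ∣ V.index := fun h => h8 (by
    rw [← V.card_mul_index, hV4]; exact mul_dvd_mul_left 4 h)
  let P : Sylow 2 G := hVp.toSylow hVidx
  -- `C` centralizes `V`
  have hCV : ∀ c ∈ C, ∀ v ∈ V, c * v = v * c := by
    intro c hc v hv
    have hcx : c * x = x * c := Subgroup.mem_centralizer_singleton_iff.mp hc
    have key : ∀ v ∈ V, c * v * c⁻¹ = v ∨ c * v * c⁻¹ = x * v := by
      intro v hv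
      by_contra hcon
      push Not at hcon
      have hv1 : v ≠ 1 := by rintro rfl; simp at hcon
      have hvx : v ≠ x := by
        rintro rfl; exact hcon.1 (by rw [hcx]; group)
      have hxv : x * v ∈ V := V.mul_mem hxV hv
      have h1 : c * v * c⁻¹ ≠ 1 := fun h => hv1 (conj_eq_one_iff.mp h)
      have h2 : c * v * c⁻¹ ≠ x := fun h => hvx (by
        calc v = c⁻¹ * (c * v * c⁻¹) * c := by group
          _ = c⁻¹ * (x * c) := by rw [h]; group
          _ = x := by rw [← hcx]; group)
      have h3 : x * v ≠ 1 := fun h => hvx (by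
        rw [← hVinv x hxV]; exact (inv_eq_of_mul_eq_one_right h).symm)
      haveI := hK
      haveI := Fintype.ofFinite V
      have hs : ({⟨1, V.one_mem⟩, ⟨x, hxV⟩, ⟨v, hv⟩, ⟨x * v, hxv⟩, ⟨_, hn' c hc v hv⟩} :
          Finset V).card = 5 := by
        have hxv' : x * v ≠ x := fun h => hv1 (by simpa using h)
        have hxv'' : x * v ≠ v := fun h => hx1 (by simpa using h)
        simp [hx1.symm, hv1.symm, h3.symm, h1.symm, hvx.symm, hxv'.symm, h2.symm, hxv''.symm,
          Ne.symm hcon.1, Ne.symm hcon.2]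
      have := Finset.card_le_univ ({⟨1, V.one_mem⟩, ⟨x, hxV⟩, ⟨v, hv⟩, ⟨x * v, hxv⟩,
        ⟨_, hn' c hc v hv⟩} : Finset V)
      rw [hs, ← Nat.card_eq_fintype_card, hV4] at this
      omega
    rcases key v hv with h | h
    · exact mul_inv_eq_iff_eq_mul.mp h
    · have h2 : c * c * v * (c * c)⁻¹ = v := by
        calc c * c * v * (c * c)⁻¹ = c * (c * v * c⁻¹) * c⁻¹ := by group
          _ = c * x * (v * c⁻¹) := by rw [h]; group
          _ = x * (c * v * c⁻¹) := by rw [hcx]; group
          _ = v := by rw [h, ← mul_assoc, hxx, one_mul]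
      have h2' : Commute (c * c) v := commute_iff_conj_eq.mpr h2
      haveI := hn
      have hpow : c ^ V.relIndex C ∈ V := by
        have := Subgroup.pow_index_mem (V.subgroupOf C) (⟨c, hc⟩ : C)
        exact this
      obtain ⟨k, hk⟩ := Nat.not_even_iff_odd.mp fun he => hodd (even_iff_two_dvd.mp he)
      have h3 : Commute (c ^ V.relIndex C) v := hVab _ hpow v hv
      have h4 : c = c ^ V.relIndex C * ((c * c) ^ k)⁻¹ := by
        rw [hk, ← sq, ← pow_mul, pow_succ']; group
      rw [h4]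
      exact (h3.mul_left ((h2'.pow_left k).inv_left)).eq
  have hcen : ∀ g : G, (∀ v ∈ V, g * v = v * g) → g ∈ C := fun g h =>
    Subgroup.mem_centralizer_singleton_iff.mpr (h x hxV)
  -- Burnside
  have hburn : ∃ g ∈ Subgroup.normalizer (V : Set G), g ∉ C := by
    by_contra hcon
    push Not at hcon
    have hP : Subgroup.normalizer ((P : Subgroup G) : Set G) ≤
        Subgroup.centralizer ((P : Subgroup G) : Set G) := fun g hg =>
      Subgroup.mem_centralizer_iff.mpr fun v hv => (hCV g (hcon g hg) v hv).symm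
    have hc := MonoidHom.ker_transferSylow_isComplement' P hP
    have h4 := hc.card_mul_card
    rcases hsimple _ (MonoidHom.normal_ker (MonoidHom.transferSylow P hP)) with h | h <;> rw [h] at h4
    · rw [Subgroup.card_bot, one_mul] at h4
      have h4' : Nat.card G = 4 := h4.symm.trans hV4
      exact hnab fun a b => hVab a ((Subgroup.eq_top_of_card_eq V (hV4.trans h4'.symm)).symm ▸ Subgroup.mem_top a)
        b ((Subgroup.eq_top_of_card_eq V (hV4.trans h4'.symm)).symm ▸ Subgroup.mem_top b)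
    · rw [Subgroup.card_top] at h4
      have h4' : Nat.card G * 4 = Nat.card G := by rw [← hV4]; exact h4
      have : 0 < Nat.card G := Nat.card_pos
      omega
  obtain ⟨g, hgN, hgC⟩ := hburn
  have hNconj : ∀ {a : G}, a ∈ Subgroup.normalizer (V : Set G) → ∀ v ∈ V, a * v * a⁻¹ ∈ V :=
    fun ha v hv => (Subgroup.mem_normalizer_iff.mp ha v).mp hv
  have hmovex : ∀ a : G, a ∉ C → a * x * a⁻¹ ≠ x := fun a ha h =>
    ha (Subgroup.mem_centralizer_singleton_iff.mpr (mul_inv_eq_iff_eq_mul.mp h))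
  have hg2 : g * g ∉ C := by
    intro h
    haveI : (V.subgroupOf (Subgroup.normalizer (V : Set G))).Normal := Subgroup.normal_in_normalizer
    have hpow : g ^ V.relIndex (Subgroup.normalizer (V : Set G)) ∈ V := by
      have := Subgroup.pow_index_mem (V.subgroupOf (Subgroup.normalizer (V : Set G)))
        (⟨g, hgN⟩ : Subgroup.normalizer (V : Set G))
      exact this
    obtain ⟨k, hk⟩ := Nat.not_even_iff_odd.mp fun he => hVidx ((even_iff_two_dvd.mp he).trans
      (Subgroup.relIndex_dvd_index_of_le (Subgroup.le_normalizer)))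
    apply hgC
    rw [show g = g ^ V.relIndex (Subgroup.normalizer (V : Set G)) * ((g * g) ^ k)⁻¹ by
      rw [hk, ← sq, ← pow_mul, pow_succ']; group]
    exact C.mul_mem (hle hpow) (C.inv_mem (C.pow_mem h k))
  obtain ⟨y, hy⟩ : ∃ y : G, y = g * x * g⁻¹ := ⟨_, rfl⟩
  obtain ⟨z, hz⟩ : ∃ z : G, z = g * y * g⁻¹ := ⟨_, rfl⟩
  have hyV : y ∈ V := hy ▸ hNconj hgN x hxV
  have hzV : z ∈ V := hz ▸ hNconj hgN y hyV
  have hyx : y ≠ x := hy ▸ hmovex g hgC
  have hzx : z ≠ x := by
    rw [hz, hy, show g * (g * x * g⁻¹) * g⁻¹ = g * g * x * (g * g)⁻¹ by group]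
    exact hmovex _ hg2
  have hzy : z ≠ y := by
    rw [hz]; nth_rewrite 2 [hy]
    exact fun h => hyx (mul_left_cancel (mul_right_cancel h))
  have hy1 : y ≠ 1 := hy ▸ fun h => hx1 (conj_eq_one_iff.mp h)
  have hz1 : z ≠ 1 := hz ▸ fun h => hy1 (conj_eq_one_iff.mp h)
  have hmem : ∀ v ∈ V, v = 1 ∨ v = x ∨ v = y ∨ v = z := by
    intro v hv
    by_contra hcon
    push Not at hcon
    haveI := Fintype.ofFinite V
    have := Finset.card_le_univ ({⟨1, V.one_mem⟩, ⟨x, hxV⟩, ⟨y, hyV⟩, ⟨z, hzV⟩, ⟨v, hv⟩} : Finset V)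
    rw [← Nat.card_eq_fintype_card, hV4,
      show ({⟨1, V.one_mem⟩, ⟨x, hxV⟩, ⟨y, hyV⟩, ⟨z, hzV⟩, ⟨v, hv⟩} : Finset V).card = 5 by
        simp [hx1.symm, hy1.symm, hz1.symm, hyx.symm, hzx.symm, hzy.symm, Ne.symm hcon.1,
          Ne.symm hcon.2.1, Ne.symm hcon.2.2.1, Ne.symm hcon.2.2.2]] at this
    omega
  have hconjC : ∀ a ∈ Subgroup.normalizer (V : Set G),
      Subgroup.centralizer ({a * x * a⁻¹} : Set G) = C := by
    intro a ha
    ext c
    rw [Subgroup.mem_centralizer_singleton_iff]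
    constructor
    · intro hc
      have hc' : a⁻¹ * c * a ∈ C := by
        rw [hC, Subgroup.mem_centralizer_singleton_iff]
        calc a⁻¹ * c * a * x = a⁻¹ * (c * (a * x * a⁻¹)) * a := by group
          _ = a⁻¹ * (a * x * a⁻¹ * c) * a := by rw [hc]
          _ = x * (a⁻¹ * c * a) := by group
      refine hcen c fun v hv => ?_
      have hu := hNconj (Subgroup.inv_mem _ ha) v hv
      rw [inv_inv] at hu
      have := hCV _ hc' _ hu
      calc c * v = a * ((a⁻¹ * c * a) * (a⁻¹ * v * a)) * a⁻¹ := by group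
        _ = a * ((a⁻¹ * v * a) * (a⁻¹ * c * a)) * a⁻¹ := by rw [this]
        _ = v * c := by group
    · intro hc
      exact hCV c hc _ (hNconj ha x hxV)
  have hconjV : ∀ v ∈ V, v ≠ 1 →
      ∃ a ∈ Subgroup.normalizer (V : Set G), a * x * a⁻¹ = v := by
    intro v hv hv1
    rcases hmem v hv with h | h | h | h
    · exact absurd h hv1
    · exact ⟨1, Subgroup.one_mem _, by rw [h]; group⟩
    · exact ⟨g, hgN, by rw [h, hy]⟩
    · exact ⟨g * g, Subgroup.mul_mem _ hgN hgN, by rw [h, hz, hy]; group⟩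
  -- the complement
  haveI := hn
  obtain ⟨W', hW'⟩ := Subgroup.exists_right_complement'_of_coprime (N := V.subgroupOf C) (by
    rw [Nat.card_congr (Subgroup.subgroupOfEquivOfLe hle).toEquiv, hV4]
    exact Nat.Coprime.pow_left 2 ((Nat.prime_two.coprime_iff_not_dvd).mpr hodd))
  set W := W'.map C.subtype with hW
  have hWC : W ≤ C := Subgroup.map_subtype_le _
  have hcardW : Nat.card C = 4 * Nat.card W := by
    rw [← hW'.card_mul, hW, Subgroup.card_map_of_injective (f := C.subtype) Subtype.val_injective,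
      Nat.card_congr (Subgroup.subgroupOfEquivOfLe hle).toEquiv, hV4]
  have hWodd : Odd (Nat.card W) := by
    rw [← Nat.not_even_iff_odd]
    intro he
    have h1 := hCcard
    rw [hcardW] at h1
    exact hodd (by rw [← Nat.eq_of_mul_eq_mul_left (by norm_num) h1]; exact even_iff_two_dvd.mp he)
  have hS : CfsgLib.CentralizerFour.Setup x V W :=
    { ne_one := hx1
      sq := hxx
      card_V := hV4
      sq_V := hVsq
      mem_V := hxV
      odd_W := hWodd
      comm := fun v hv w hw => (hCV w (hWC hw) v hv).symm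
      decomp := fun a ha => by
        obtain ⟨⟨u, w⟩, huw⟩ := hW'.2 ⟨a, Subgroup.mem_centralizer_singleton_iff.mpr ha⟩
        exact ⟨(u : C), u.2, (w : C), Subgroup.mem_map_of_mem C.subtype w.2,
          (congrArg Subtype.val huw).symm⟩
      card_C := hcardW
      conj_V := fun v hv hv1 => by
        obtain ⟨a, -, ha⟩ := hconjV v hv hv1
        exact isConj_iff.mpr ⟨a, ha⟩
      cent_V := fun v hv hv1 => by
        obtain ⟨a, haN, ha⟩ := hconjV v hv hv1
        rw [← ha, hconjC a haN] }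
  have hlin : ∀ χ : IrrCharacter G, (χ : G → ℂ) 1 = 1 → χ = CfsgLib.Chars.oneChar G := by
    intro χ h1
    obtain ⟨l, rfl⟩ := CfsgLib.Chars.exists_linChar_eq χ h1
    rw [CfsgLib.Chars.linChar_eq_oneChar_iff]
    rcases hsimple l.ker (MonoidHom.normal_ker l) with h | h
    · exact absurd (fun a b => (MonoidHom.ker_eq_bot_iff l).mp h
        (by rw [map_mul, map_mul, mul_comm])) hnab
    · exact MonoidHom.ker_eq_top_iff.mp h
  have hb := hS.bound hlin
  have hG60 : Nat.card G ≤ 60 * Nat.card W := by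
    rw [le_div_iff₀ (by exact_mod_cast Nat.card_pos)] at hb
    have : (Nat.card G : ℚ) ≤ 60 * Nat.card W := by linarith
    exact_mod_cast this
  -- the normalizer
  set N := Subgroup.normalizer (V : Set G) with hN
  have hNcard : Nat.card N = 3 * Nat.card C := by
    rw [Nat.card_eq_fintype_card, Fintype.card_subtype]
    have hmap : Set.MapsTo (fun a => a * x * a⁻¹)
        ((Finset.univ.filter fun a : G => a ∈ N : Finset G) : Set G) (({x, y, z} : Finset G) : Set G) := by
      intro a ha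
      have haN := (Finset.mem_filter.mp (Finset.mem_coe.mp ha)).2
      rcases hmem _ (hNconj haN x hxV) with h | h | h | h
      · exact absurd (conj_eq_one_iff.mp h) hx1
      all_goals simp [h]
    rw [Finset.card_eq_sum_card_fiberwise hmap,
      Finset.sum_congr rfl (g := fun _ => Nat.card C) ?_, Finset.sum_const, smul_eq_mul,
      show ({x, y, z} : Finset G).card = 3 by simp [hyx.symm, hzx.symm, hzy.symm]]
    intro v hv
    have hvV : v ∈ V ∧ v ≠ 1 := by
      simp only [Finset.mem_insert, Finset.mem_singleton] at hv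
      rcases hv with rfl | rfl | rfl
      exacts [⟨hxV, hx1⟩, ⟨hyV, hy1⟩, ⟨hzV, hz1⟩]
    rw [← CfsgLib.CentralizerFour.card_conjugators_eq (hS.conj_V v hvV.1 hvV.2),
      Nat.card_eq_fintype_card, Fintype.card_subtype, Finset.filter_filter]
    congr 1
    ext a
    simp only [Finset.mem_filter, Finset.mem_univ, true_and]
    refine ⟨fun h => h.2, fun h => ⟨?_, h⟩⟩
    obtain ⟨b, hbN, hb'⟩ := hconjV v hvV.1 hvV.2
    have : b⁻¹ * a ∈ C := by
      rw [hC, Subgroup.mem_centralizer_singleton_iff]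
      calc b⁻¹ * a * x = b⁻¹ * (a * x * a⁻¹) * a := by group
        _ = b⁻¹ * (b * x * b⁻¹) * a := by rw [h, hb']
        _ = x * (b⁻¹ * a) := by group
    have := N.mul_mem hbN (hCN this)
    rwa [mul_inv_cancel_left] at this
  have hm := N.card_mul_index
  rw [hNcard, hcardW] at hm
  have hWpos : 0 < Nat.card W := Nat.card_pos
  have hm5 : N.index ≤ 5 := by nlinarith
  have hmodd : ¬ 2 ∣ N.index := fun h => h8 (by
    obtain ⟨k, hk⟩ := h
    exact ⟨3 * Nat.card W * k, by rw [← hm, hk]; ring⟩)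
  have hNtop : N ≠ ⊤ := by
    intro h
    rcases hsimple V (Subgroup.normalizer_eq_top_iff.mp h) with h' | h'
    · exact hx1 (Subgroup.mem_bot.mp (h' ▸ hxV))
    · exact hnab fun a b => hVab a (h' ▸ Subgroup.mem_top a) b (h' ▸ Subgroup.mem_top b)
  have hcore : N.normalCore = ⊥ := by
    rcases hsimple N.normalCore inferInstance with h | h
    · exact h
    · exact absurd (eq_top_iff.mpr (h ▸ N.normalCore_le)) hNtop
  have hdvd : Nat.card G ∣ N.index.factorial := by
    have hinj : Function.Injective (MulAction.toPermHom G (G ⧸ N)) := by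
      rw [← MonoidHom.ker_eq_bot_iff, ← Subgroup.normalCore_eq_ker]; exact hcore
    have := Subgroup.card_dvd_of_injective _ hinj
    rwa [Nat.card_perm] at this
  have hidx : N.index = 5 := by
    have h1 : N.index ≠ 1 := fun h => hNtop (Subgroup.index_eq_one.mp h)
    have h0 : N.index ≠ 0 := Subgroup.index_ne_zero_of_finite
    by_contra h5
    have h3 : N.index = 3 := by omega
    have hle' := Nat.le_of_dvd (Nat.factorial_pos _) hdvd
    rw [h3, show Nat.factorial 3 = 6 by rfl, ← hm, h3] at hle'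
    omega
  rw [hidx] at hm hdvd
  have hW1 : Nat.card W = 1 := by
    have hle' := Nat.le_of_dvd (Nat.factorial_pos _) hdvd
    rw [show Nat.factorial 5 = 120 by rfl, ← hm] at hle'
    obtain ⟨k, hk⟩ := hWodd
    omega
  exact CfsgLib.AltFive.nonempty_mulEquiv (H := N) (by rw [← hm, hW1]) hidx hcore

end Cfsg.Agent.S3278
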