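import Cfsg.Statements.S3305
-- import your own Cfsg.Agent.* helpers here

set_option autoImplicit false
open Cfsg

namespace Cfsg.Agent.S3305

/-- If any two distinct Sylow 2-subgroups of the finite group G intersect in a cyclic group, then the same holds in every quotient group G/H, H a normal subgroup of G. -/
theorem result {G : Type*} [Group G] [Finite G]
    (hC : ∀ S T : Sylow 2 G, S ≠ T → IsCyclic ↥((S : Subgroup G) ⊓ (T : Subgroup G))) (H : Subgroup G) [H.Normal] :
    ∀ S T : Sylow 2 (G ⧸ H), S ≠ T → IsCyclic ↥((S : Subgroup (G ⧸ H)) ⊓ (T : Subgroup (G ⧸ H))) := by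
  intro S' T' hne
  set π := QuotientGroup.mk' H with hπ
  have hsurj : Function.Surjective π := QuotientGroup.mk'_surjective H
  -- a Sylow 2-subgroup of the preimage of the intersection
  obtain ⟨D0⟩ : Nonempty (Sylow 2 ↥(((S' : Subgroup (G ⧸ H)) ⊓ T').comap π)) := inferInstance
  set D := ((S' : Subgroup (G ⧸ H)) ⊓ T').comap π with hD
  set E := (D0 : Subgroup D).map D.subtype with hE
  have hEp : IsPGroup 2 E := D0.2.map _
  have hER : ∀ R : Subgroup (G ⧸ H), D ≤ R.comap π → IsPGroup 2 R →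
      ∃ R0 : Sylow 2 G, E ≤ R0 ∧ ((R0 : Subgroup G) ⊓ R.comap π).map π = R := by
    intro R hDR hR
    have hEK : E ≤ R.comap π := (Subgroup.map_subtype_le _).trans hDR
    obtain ⟨P, hP⟩ := (hEp.comap_subtype (K := R.comap π)).exists_le_sylow
    obtain ⟨R0, hR0⟩ := (P.2.map (R.comap π).subtype).exists_le_sylow
    refine ⟨R0, ?_, ?_⟩
    · intro e he
      exact hR0 ⟨⟨e, hEK he⟩, hP he, rfl⟩
    · apply le_antisymm (Subgroup.map_le_iff_le_comap.mpr inf_le_right)
      -- the image of a Sylow subgroup of the preimage is all of the 2-group R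
      let f := π.subgroupComap R
      have hf : Function.Surjective f := by
        rintro ⟨r, hr⟩
        obtain ⟨g, rfl⟩ := hsurj r
        exact ⟨⟨g, hr⟩, rfl⟩
      have htop : ((P.mapSurjective hf : Sylow 2 R) : Subgroup R) = ⊤ :=
        ((P.mapSurjective hf).3 (Q := ⊤) (hR.to_subgroup _) le_top).symm
      intro r hr
      have hmem : (⟨r, hr⟩ : R) ∈ ((P.mapSurjective hf : Sylow 2 R) : Subgroup R) := by
        rw [htop]; trivial
      rw [Sylow.coe_mapSurjective] at hmem
      obtain ⟨g, hg, hgr⟩ := hmem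
      exact ⟨g, ⟨hR0 ⟨g, hg, rfl⟩, g.2⟩, congrArg Subtype.val hgr⟩
  obtain ⟨S0, hES, hS⟩ := hER S' (Subgroup.comap_mono inf_le_left) S'.2
  obtain ⟨T0, hET, hT⟩ := hER T' (Subgroup.comap_mono inf_le_right) T'.2
  have hST : S0 ≠ T0 := by
    rintro rfl
    apply hne
    apply Sylow.ext
    have hle : ∀ R : Sylow 2 (G ⧸ H), (R : Subgroup (G ⧸ H)) ≤ (S0 : Subgroup G).map π →
        (R : Subgroup (G ⧸ H)) = (S0 : Subgroup G).map π := fun R h =>
      (R.3 (S0.2.map π) h).symm
    rw [hle S' (by rw [← hS]; exact Subgroup.map_mono inf_le_left),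
      hle T' (by rw [← hT]; exact Subgroup.map_mono inf_le_left)]
  have hEc : IsCyclic E :=
    @isCyclic_of_injective _ _ _ _ (hC S0 T0 hST) (Subgroup.inclusion (le_inf hES hET))
      (Subgroup.inclusion_injective _)
  -- E maps onto the intersection
  let f := π.subgroupComap ((S' : Subgroup (G ⧸ H)) ⊓ T')
  have hf : Function.Surjective f := by
    rintro ⟨r, hr⟩
    obtain ⟨g, rfl⟩ := hsurj r
    exact ⟨⟨g, hr⟩, rfl⟩
  have htop : ((D0.mapSurjective hf : Sylow 2 _) : Subgroup ↥((S' : Subgroup (G ⧸ H)) ⊓ T')) = ⊤ :=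
    ((D0.mapSurjective hf).3 (Q := ⊤) ((S'.2.to_le inf_le_left).to_subgroup _) le_top).symm
  have hsur : Function.Surjective (f.comp (D0 : Subgroup D).subtype) := by
    intro r
    have hmem : r ∈ ((D0.mapSurjective hf : Sylow 2 _) : Subgroup _) := by
      rw [htop]; trivial
    rw [Sylow.coe_mapSurjective] at hmem
    obtain ⟨g, hg, hgr⟩ := hmem
    exact ⟨⟨g, hg⟩, hgr⟩
  haveI := hEc
  haveI : IsCyclic (D0 : Subgroup D) :=
    isCyclic_of_injective ((D0 : Subgroup D).equivMapOfInjective D.subtype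
      Subtype.val_injective).toMonoidHom (MulEquiv.injective _)
  exact isCyclic_of_surjective _ hsur

end Cfsg.Agent.S3305
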