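import Cfsg.Statements.S3303
import Cfsg.Agent.Involutions.SolvableCore
import Cfsg.Agent.S3305
import Mathlib.GroupTheory.SpecificGroups.Cyclic
-- import your own Cfsg.Agent.* helpers here

set_option autoImplicit false
open Cfsg

namespace Cfsg.Agent.S3303

/-- The case of trivial odd core. -/
theorem core_case {Q : Type*} [Group Q] [Finite Q] [Group.IsSolvable Q]
    (hcore : pPrimeCore 2 Q = ⊥)
    (hC : ∀ S T : Sylow 2 Q, S ≠ T → IsCyclic ↥((S : Subgroup Q) ⊓ (T : Subgroup Q))) :
    ∃ P : Sylow 2 Q, (P : Subgroup Q).Normal := by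
  obtain ⟨S⟩ : Nonempty (Sylow 2 Q) := inferInstance
  have hnor := CfsgLib.SolvableCore.pCore_normal' 2 Q
  refine ⟨S, ?_⟩
  by_contra hS
  have hne : ∃ T : Sylow 2 Q, S ≠ T := by
    by_contra hcon
    push Not at hcon
    haveI : Subsingleton (Sylow 2 Q) := ⟨fun a b => (hcon a).symm.trans (hcon b)⟩
    exact hS (Sylow.normal_of_subsingleton S)
  obtain ⟨T, hST⟩ := hne
  have hR := CfsgLib.PLength.pCore_isPGroup 2 Q
  haveI := hC S T hST
  haveI : IsCyclic ↥(pCore 2 Q) :=
    isCyclic_of_injective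
      (Subgroup.inclusion (le_inf (hR.le_sylow_of_normal S) (hR.le_sylow_of_normal T)))
      (Subgroup.inclusion_injective _)
  have hker : (MulAut.conjNormal (H := pCore 2 Q)).ker ≤ pCore 2 Q := by
    intro g hg
    apply CfsgLib.SolvableCore.centralizer_pCore_le hcore
    rw [Subgroup.mem_centralizer_iff]
    intro r hr
    have h := congrArg (fun f : MulAut ↥(pCore 2 Q) => ((f ⟨r, hr⟩ : ↥(pCore 2 Q)) : Q))
      (MonoidHom.mem_ker.mp hg)
    simp only [MulAut.conjNormal_apply, MulAut.one_apply] at h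
    exact (mul_inv_eq_iff_eq_mul.mp h).symm
  obtain ⟨k, hk⟩ := IsPGroup.iff_card.mp hR
  have hAut : IsPGroup 2 (MulAut ↥(pCore 2 Q)) := by
    rcases Nat.eq_zero_or_pos k with h0 | h0
    · refine IsPGroup.of_card (n := 0) ?_
      rw [IsCyclic.card_mulAut, hk, h0]; rfl
    · refine IsPGroup.of_card (n := k - 1) ?_
      rw [IsCyclic.card_mulAut, hk, Nat.totient_prime_pow Nat.prime_two h0]
      norm_num
  have hQ : IsPGroup 2 Q := by
    intro g
    obtain ⟨m, hm⟩ := hAut (MulAut.conjNormal (H := pCore 2 Q) g)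
    have hmem : g ^ 2 ^ m ∈ pCore 2 Q := hker (by rw [MonoidHom.mem_ker, map_pow, hm])
    obtain ⟨n, hn⟩ := hR ⟨_, hmem⟩
    refine ⟨m + n, ?_⟩
    rw [pow_add, pow_mul]
    simpa using congrArg Subtype.val hn
  exact hST (Sylow.ext ((S.3 (hQ.to_subgroup ⊤) le_top).symm.trans (T.3 (hQ.to_subgroup ⊤) le_top)))

/-- Let G be a finite solvable group in which the intersection of any two distinct Sylow 2-subgroups is cyclic. Then G/O(G) has a normal Sylow 2-subgroup, where O(G) is the largest normal subgroup of odd order. -/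
theorem result {G : Type*} [Group G] [Finite G] (hs : Group.IsSolvable G)
    (hC : ∀ S T : Sylow 2 G, S ≠ T → IsCyclic ↥((S : Subgroup G) ⊓ (T : Subgroup G))) :
    ∃ P : Sylow 2 (G ⧸ Cfsg.oddCore G), (P : Subgroup (G ⧸ Cfsg.oddCore G)).Normal := by
  haveI := hs
  haveI : (pPrimeCore 2 G).Normal := Subgroup.sSup_normal _ (fun _ h => h.1)
  haveI : Group.IsSolvable (G ⧸ pPrimeCore 2 G) :=
    Group.isSolvable_of_surjective (QuotientGroup.mk'_surjective (pPrimeCore 2 G))
  exact core_case CfsgLib.SolvableCore.pPrimeCore_quotient_eq_bot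
    (Cfsg.Agent.S3305.result hC (pPrimeCore 2 G))

end Cfsg.Agent.S3303
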