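import Cfsg.Statements.S3309
import Cfsg.Agent.TwoTimesDihedralEight.Fusion

set_option autoImplicit false
open Cfsg

namespace Cfsg.Agent.S3309

/-- A finite group whose Sylow 2-subgroups are isomorphic to the direct product of a group of order 2 and the dihedral group of order 8 is not a non-abelian simple group. -/
theorem result {G : Type*} [Group G] [Finite G] (S : Sylow 2 G) (hS : Nonempty (↥(S : Subgroup G) ≃* Multiplicative (ZMod 2) × DihedralGroup 4))
    [IsSimpleGroup G] (hG : ¬ IsMulCommutative G) : False := by
  obtain ⟨e⟩ := hS
  obtain ⟨M, hM, hM2⟩ := CfsgLib.TwoTimesDihedralEight.exists_index_two S e.symm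
  rcases hM.eq_bot_or_eq_top with rfl | rfl
  · rw [Subgroup.index_bot] at hM2
    have hcyc : IsCyclic G := isCyclic_of_prime_card hM2
    exact hG hcyc.commGroup.to_isCommutative
  · simp at hM2

end Cfsg.Agent.S3309
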