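import Cfsg.Statements.S3315
import Cfsg.Agent.UnitaryThree.Aut
import Mathlib.GroupTheory.Sylow

set_option autoImplicit false
open Cfsg

namespace Cfsg.Agent.S3315

/-- Let S be a Sylow 2-subgroup of SU₃(2ⁿ), n ≥ 2 (realised over the field with 4ⁿ elements). If a finite 2-group R contains a subgroup S' of index 2 isomorphic to S, then the centre of S' is contained in the centre of R. -/
theorem result {R : Type*} [Group R] [Finite R]
    (hR : IsPGroup 2 R) (n : ℕ) (hn : 2 ≤ n) {F : Type*} [Field F] [Fintype F] (hF : Fintype.card F = 4 ^ n)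
    (P : Sylow 2 ↥(Cfsg.SU 3 F (2 ^ n))) (S' : Subgroup R) (hS : Nonempty (↥S' ≃* ↥(P : Subgroup ↥(Cfsg.SU 3 F (2 ^ n)))))
    (hidx : S'.index = 2) :
    (Subgroup.center ↥S').map S'.subtype ≤ Subgroup.center R := by
  haveI : Fact (Nat.Prime 2) := ⟨Nat.prime_two⟩
  open CfsgLib.UnitaryThree in
  have d := Data.ofCard (F := F) (by omega : 1 ≤ n) hF
  open CfsgLib.UnitaryThree in
  obtain ⟨Q, hQ⟩ := exists_sylow_eq_uni n (by omega) d
  obtain ⟨e0⟩ := hS
  let e : ↥S' ≃* ↥(CfsgLib.UnitaryThree.uni d) :=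
    e0.trans ((Sylow.equiv P Q).trans (MulEquiv.subgroupCongr hQ))
  haveI hn' : S'.Normal := Subgroup.normal_of_index_eq_two hidx
  rintro _ ⟨c, hc, rfl⟩
  rw [Subgroup.mem_center_iff]
  intro r
  have hr2 : r * r ∈ S' := Subgroup.mul_self_mem_of_index_two hidx r
  let σ : MulAut ↥(CfsgLib.UnitaryThree.uni d) := (MulAut.congr e) (MulAut.conjNormal r)
  have hσ : σ * σ = MulAut.conj (e ⟨r * r, hr2⟩) := by
    rw [← map_mul, ← map_mul]
    refine MulEquiv.ext fun g => ?_
    obtain ⟨g, rfl⟩ := e.surjective g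
    simp only [MulAut.congr, MulEquiv.coe_mk, Equiv.coe_fn_mk, MulEquiv.trans_apply,
      MulEquiv.symm_apply_apply, MulAut.conj_apply]
    rw [← map_inv, ← map_mul, ← map_mul]
    exact congrArg e (Subtype.ext (by simp [MulAut.conjNormal_apply, mul_assoc]))
  have hA : CfsgLib.UnitaryThree.coA (e c) = 0 :=
    (CfsgLib.UnitaryThree.mem_center_iff _).mp (Subgroup.mem_center_iff.mpr fun g => by
      obtain ⟨g, rfl⟩ := e.surjective g
      rw [← map_mul, ← map_mul, Subgroup.mem_center_iff.mp hc g])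
  have h := CfsgLib.UnitaryThree.apply_center_of_sq_inner σ _ hσ hA
  simp only [σ, MulAut.congr, MulEquiv.coe_mk, Equiv.coe_fn_mk, MulEquiv.trans_apply,
    MulEquiv.symm_apply_apply, EmbeddingLike.apply_eq_iff_eq] at h
  have h' := congrArg Subtype.val h
  rw [MulAut.conjNormal_apply] at h'
  exact mul_inv_eq_iff_eq_mul.mp h' 

end Cfsg.Agent.S3315
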