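import Cfsg.Statements.S3341
import Cfsg.Agent.TIThree.FreeAutomizer
import Cfsg.Agent.S0497

set_option autoImplicit false
open Cfsg

namespace Cfsg.Agent.S3341

/-- Let G be a finite simple group whose Sylow 3-subgroup S is elementary abelian of order 9, such that G has more than one conjugacy class of elements of order 3 and C_G(s) = S for every non-identity s in S. Then G is isomorphic to the alternating group of degree 6. -/
theorem result {G : Type*} [Group G] [Finite G] [IsSimpleGroup G]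
    (P : Sylow 3 G) (S : Subgroup G) (hSP : S = P) (hcomm : IsMulCommutative S) (hexp : ∀ a ∈ S, a ^ 3 = 1)
    (hcard : Nat.card S = 9)
    (hclasses : ∃ a b : G, orderOf a = 3 ∧ orderOf b = 3 ∧ ∀ g : G, g * a * g⁻¹ ≠ b)
    (hcent : ∀ s ∈ S, s ≠ 1 → Subgroup.centralizer ({s} : Set G) = S) :
    Nonempty (G ≃* alternatingGroup (Fin 6)) := by
  subst hSP
  haveI : Fact (Nat.Prime 3) := ⟨Nat.prime_three⟩
  have hcomm' : ∀ a ∈ (P : Subgroup G), ∀ b ∈ (P : Subgroup G), a * b = b * a := fun a ha b hb =>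
    congrArg Subtype.val (hcomm.is_comm.comm (⟨a, ha⟩ : (P : Subgroup G)) ⟨b, hb⟩)
  obtain ⟨a, b, ha, hb, hab⟩ := hclasses
  have hinto : ∀ x : G, orderOf x = 3 → ∃ g : G, g * x * g⁻¹ ∈ (P : Subgroup G) := by
    intro x hx
    have hp : IsPGroup 3 (Subgroup.zpowers x) :=
      IsPGroup.of_card (n := 1) (by rw [Nat.card_zpowers, hx, pow_one])
    obtain ⟨R, hR⟩ := hp.exists_le_sylow
    obtain ⟨g, hg⟩ := MulAction.exists_smul_eq G R P
    refine ⟨g, ?_⟩
    rw [← hg]
    exact Subgroup.smul_mem_pointwise_smul _ (MulAut.conj g) _ (hR (Subgroup.mem_zpowers x))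
  obtain ⟨g, hga⟩ := hinto a ha
  obtain ⟨h, hhb⟩ := hinto b hb
  have ha1 : g * a * g⁻¹ ≠ 1 := fun e => by
    rw [conj_eq_one_iff] at e
    rw [e, orderOf_one] at ha
    norm_num at ha
  have hb1 : h * b * h⁻¹ ≠ 1 := fun e => by
    rw [conj_eq_one_iff] at e
    rw [e, orderOf_one] at hb
    norm_num at hb
  rcases CfsgLib.TIThree.normalizer_eq_top_or P hcard hexp hcomm' hcent _ _ hga hhb ha1 hb1
    (fun k hk => hab (h⁻¹ * k * g) (by
      calc h⁻¹ * k * g * a * (h⁻¹ * k * g)⁻¹ = h⁻¹ * (k * (g * a * g⁻¹) * k⁻¹) * h := by group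
      _ = b := by rw [hk]; group)) with hN | ⟨hG, -⟩
  · exfalso
    haveI hn : (P : Subgroup G).Normal := Subgroup.normalizer_eq_top_iff.mp hN
    rcases hn.eq_bot_or_eq_top with e | e
    · rw [e, Subgroup.card_bot] at hcard
      norm_num at hcard
    · have hG9 : Nat.card G = 9 := by rw [← hcard, e, Subgroup.card_top]
      letI : CommGroup G := { (inferInstance : Group G) with
        mul_comm := fun x y => hcomm' x (by rw [e]; trivial) y (by rw [e]; trivial) }
      have := IsSimpleGroup.prime_card (α := G)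
      rw [hG9] at this
      norm_num at this
  · exact Cfsg.Agent.S0497.result hG

end Cfsg.Agent.S3341
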