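import Cfsg.Statements.S3349
import Mathlib.GroupTheory.SpecificGroups.Cyclic

set_option autoImplicit false
open Cfsg commutatorElement

namespace Cfsg.Agent.S3349

theorem mem_of_forall_commute {Q : Type*} [Group Q]
    (A : Subgroup Q) (hA : IsMulCommutative A)
    (hmax : ∀ B : Subgroup Q, A ≤ B → IsMulCommutative B → B = A)
    (x : Q) (hx : ∀ a ∈ A, a * x = x * a) : x ∈ A := by
  have hc : ∀ a ∈ insert x (A : Set Q), ∀ b ∈ insert x (A : Set Q), a * b = b * a := by
    intro a ha b hb
    rcases ha with rfl | ha <;> rcases hb with rfl | hb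
    · rfl
    · exact (hx b hb).symm
    · exact hx a ha
    · have h := @mul_comm' _ _ hA ⟨a, ha⟩ ⟨b, hb⟩
      exact congrArg Subtype.val h
  have hB := hmax (Subgroup.closure (insert x (A : Set Q)))
    (fun a ha => Subgroup.subset_closure (Set.mem_insert_of_mem _ ha))
    (Subgroup.isMulCommutative_closure hc)
  rw [← hB]
  exact Subgroup.subset_closure (Set.mem_insert _ _)

/-- Let Q be a finite extraspecial p-group and α an automorphism of Q fixing every element of some maximal abelian subgroup of Q. Then the order of α is a power of p. -/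
theorem result {Q : Type*} [Group Q] [Finite Q]
    (p : ℕ) [Fact p.Prime] (hQ : Cfsg.IsExtraspecial p Q) (α : MulAut Q)
    (A : Subgroup Q) (hA : IsMulCommutative A) (hmax : ∀ B : Subgroup Q, A ≤ B → IsMulCommutative B → B = A)
    (hfix : ∀ a ∈ A, α a = a) :
    ∃ k : ℕ, orderOf α = p ^ k := by
  obtain ⟨⟨hp, -, hcomm⟩, -⟩ := hQ
  have hZ : Subgroup.center Q ≤ A := fun x hx =>
    mem_of_forall_commute A hA hmax x fun a _ => Subgroup.mem_center_iff.mp hx a
  have hN : ∀ a ∈ A, ∀ x : Q, x * a * x⁻¹ ∈ A := by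
    intro a ha x
    have h : ⁅x, a⁆ ∈ A := hZ (hcomm ▸ Subgroup.commutator_mem_commutator (Subgroup.mem_top x)
      (Subgroup.mem_top a))
    have := A.mul_mem h ha
    rwa [commutatorElement_def, inv_mul_cancel_right] at this
  have hd : ∀ x : Q, x⁻¹ * α x ∈ A := by
    intro x
    apply mem_of_forall_commute A hA hmax
    intro a ha
    have h1 : α (x * a * x⁻¹) = x * a * x⁻¹ := hfix _ (hN a ha x)
    rw [map_mul, map_mul, map_inv, hfix a ha] at h1
    calc a * (x⁻¹ * α x) = x⁻¹ * (x * a * x⁻¹) * α x := by group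
      _ = x⁻¹ * (α x * a * (α x)⁻¹) * α x := by rw [h1]
      _ = x⁻¹ * α x * a := by group
  have hpow : ∀ (n : ℕ) (x : Q), (α ^ n) x = x * (x⁻¹ * α x) ^ n := by
    intro n
    induction n with
    | zero => intro x; simp
    | succ n ih =>
      intro x
      rw [pow_succ', MulAut.mul_apply, ih x, map_mul, map_pow, hfix _ (hd x),
        pow_succ' _ n, ← mul_assoc, mul_inv_cancel_left]
  obtain ⟨m, hm⟩ := (IsPGroup.iff_card (p := p) (G := Q)).mp hp
  have hone : α ^ (p ^ m) = 1 := by
    ext x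
    rw [hpow, ← hm, pow_card_eq_one', mul_one, MulAut.one_apply]
  obtain ⟨k, -, hk⟩ := (Nat.dvd_prime_pow (Fact.out : p.Prime)).mp (orderOf_dvd_of_pow_eq_one hone)
  exact ⟨k, hk⟩

end Cfsg.Agent.S3349
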