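import Cfsg.Statements.S3365
import Cfsg.Agent.FixityFour.SmallTwo
import Cfsg.Agent.FixityFour.Four
import Cfsg.Agent.FixityFour.Odd

set_option autoImplicit false
open Cfsg

namespace Cfsg.Agent.S3365

/-- Finite simple groups acting with fixity 4. Let G be a finite non-abelian simple group acting faithfully and transitively on a finite set so that every non-identity element fixes at most 4 points and some non-identity element fixes exactly 4 (fixity 4). Let P be a Sylow 3-subgroup, S a Sylow 2-subgroup, f the largest number of fixed points of an involution of G, and a a point. Then one of the following holds: (1) f ≥ 1 and G has a strongly embedded subgroup; (2) 1 ≤ f ≤ 3 and S is dihedral or semidihedral; (3) f = 4 and G has sectional 2-rank at most 4; (4) the point stabilizer G_a has odd order divisible by 3 and either G has a strongly 3-embedded subgroup (a proper subgroup H of order divisible by 3 such that H ∩ gHg⁻¹ has order prime to 3 for every element g outside H), or |P| = 3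 and a Sylow 2-subgroup of N_G(P) has order at most 4, or P is elementary abelian of order 9, or P is extraspecial of order 27 and exponent 3, or P is isomorphic to a Sylow 3-subgroup of Sym(9) (the wreath product C₃ ≀ C₃); (5) G_a has order prime to 6. -/
theorem result {G Ω : Type*} [Group G] [Finite G] [IsSimpleGroup G] (hna : ¬ IsMulCommutative G)
    [MulAction G Ω] [FaithfulSMul G Ω] [Finite Ω] (htrans : MulAction.IsPretransitive G Ω)
    (hfix : ∀ g : G, g ≠ 1 → Nat.card (MulAction.fixedBy Ω g) ≤ 4)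
    (hfix4 : ∃ g : G, g ≠ 1 ∧ Nat.card (MulAction.fixedBy Ω g) = 4)
    (P : Sylow 3 G) (S : Sylow 2 G) (f : ℕ)
    (hf : ∀ g : G, orderOf g = 2 → Nat.card (MulAction.fixedBy Ω g) ≤ f)
    (hf' : ∃ g : G, orderOf g = 2 ∧ Nat.card (MulAction.fixedBy Ω g) = f) (a : Ω) :
    (1 ≤ f ∧ ∃ H : Subgroup G, Cfsg.IsStronglyEmbedded H) ∨
    (1 ≤ f ∧ f ≤ 3 ∧ ((∃ n : ℕ, Nonempty ((S : Subgroup G) ≃* DihedralGroup n)) ∨ Cfsg.IsQuasiDihedral (S : Subgroup G))) ∨
    (f = 4 ∧ Cfsg.SectionalPRankLE 2 4 G) ∨
    (Odd (Nat.card (MulAction.stabilizer G a)) ∧ 3 ∣ Nat.card (MulAction.stabilizer G a) ∧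
      ((∃ H : Subgroup G, H ≠ ⊤ ∧ 3 ∣ Nat.card H ∧ ∀ g : G, g ∉ H → ¬ 3 ∣ Nat.card ↥(H ⊓ H.map (MulAut.conj g).toMonoidHom)) ∨
       (Nat.card P = 3 ∧ ∀ T : Sylow 2 (Subgroup.normalizer ((P : Subgroup G) : Set G)), Nat.card T ≤ 4) ∨
       (Nat.card P = 9 ∧ ∀ x ∈ (P : Subgroup G), x ^ 3 = 1) ∨
       (Nat.card P = 27 ∧ Cfsg.IsExtraspecial 3 (P : Subgroup G) ∧ ∀ x ∈ (P : Subgroup G), x ^ 3 = 1) ∨
       (∃ T : Sylow 3 (Equiv.Perm (Fin 9)), Nonempty ((P : Subgroup G) ≃* (T : Subgroup (Equiv.Perm (Fin 9))))))) ∨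
    (Nat.card (MulAction.stabilizer G a)).Coprime 6 := by
  haveI := htrans
  have h4 : CfsgLib.FixityFour.Fix4 G Ω := fun g hg => by
    rw [← Nat.card_coe_set_eq]
    exact hfix g hg
  have hn := CfsgLib.FixityFour.four_lt_card (G := G) (Ω := Ω) hna
  have hle : ∀ g : G, orderOf g = 2 → (MulAction.fixedBy Ω g).ncard ≤ f := fun g hg => by
    rw [← Nat.card_coe_set_eq]
    exact hf g hg
  obtain ⟨u, hu, huf⟩ := hf'
  rw [Nat.card_coe_set_eq] at huf
  by_cases heven : 2 ∣ Nat.card (MulAction.stabilizer G a)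
  · haveI : Fact (Nat.Prime 2) := ⟨Nat.prime_two⟩
    obtain ⟨t, ht⟩ := exists_prime_orderOf_dvd_card' 2 heven
    have hf1 : 1 ≤ f := by
      refine le_trans ?_ (hle t ((Subgroup.orderOf_coe t).trans ht))
      exact Nat.one_le_iff_ne_zero.2 fun h0 => by
        rw [Set.ncard_eq_zero (Set.toFinite _)] at h0
        have : (a : Ω) ∈ MulAction.fixedBy Ω (t : G) := t.2
        rw [h0] at this
        exact this
    have hf4 : f ≤ 4 := huf ▸ h4 u (fun h => by rw [h, orderOf_one] at hu; omega)
    rcases Nat.lt_or_ge f 4 with hlt | hge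
    · rcases CfsgLib.FixityFour.case_small hna hf1 (by omega) (by omega) hle ⟨u, hu, huf⟩ S with
        h | h
      · exact Or.inl ⟨hf1, h⟩
      · exact Or.inr (Or.inl ⟨hf1, by omega, h⟩)
    · have hf4' : f = 4 := le_antisymm hf4 hge
      subst hf4'
      have hinv : ∀ g : G, orderOf g = 2 → ∀ x : Ω, g • x = x →
          (MulAction.fixedBy Ω g).ncard = 4 := by
        intro g hg x hx
        have h1 := CfsgLib.FixityFour.involution_moved_dvd Ω hna
          (show g ^ 2 = 1 by rw [← hg, pow_orderOf_eq_one])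
        have h2 := CfsgLib.FixityFour.involution_moved_dvd Ω hna
          (show u ^ 2 = 1 by rw [← hu, pow_orderOf_eq_one])
        rw [huf] at h2
        have h3 := hle g hg
        have h5 : 1 ≤ (MulAction.fixedBy Ω g).ncard := by
          rw [Nat.one_le_iff_ne_zero, Ne, Set.ncard_eq_zero (Set.toFinite _)]
          intro h0
          have : x ∈ MulAction.fixedBy Ω g := hx
          rw [h0] at this
          exact this
        omega
      rcases CfsgLib.FixityFour.case_four ⟨hna, h4, hinv⟩ a heven with h | h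
      · exact Or.inl ⟨hf1, h⟩
      · exact Or.inr (Or.inr (Or.inl ⟨rfl, h⟩))
  · right; right; right
    have hodd : Odd (Nat.card (MulAction.stabilizer G a)) :=
      Nat.not_even_iff_odd.1 fun h => heven (even_iff_two_dvd.1 h)
    by_cases h3 : 3 ∣ Nat.card (MulAction.stabilizer G a)
    · left
      refine ⟨hodd, h3, ?_⟩
      rcases CfsgLib.FixityFour.case_odd hna h4 hn a hodd h3 with h | ⟨P', T, ⟨e⟩⟩
      · exact Or.inl h
      · haveI : Fact (Nat.Prime 3) := ⟨Nat.prime_three⟩
        exact Or.inr (Or.inr (Or.inr (Or.inr ⟨T, ⟨(Sylow.equiv P P').trans e⟩⟩)))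
    · right
      rw [Nat.coprime_comm, show (6 : ℕ) = 2 * 3 from rfl, Nat.coprime_mul_iff_left]
      exact ⟨(Nat.Prime.coprime_iff_not_dvd Nat.prime_two).2 heven,
        (Nat.Prime.coprime_iff_not_dvd Nat.prime_three).2 h3⟩

end Cfsg.Agent.S3365
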