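import Cfsg.Statements.S3366
import Cfsg.Agent.Eq.Def_Solvable
import Cfsg.Agent.Eq.Def_Transfer
import Cfsg.Agent.Eq.Def_Classical
import Cfsg.Agent.ShapeThreeSL.Model
-- import your own Cfsg.Agent.* helpers here

set_option autoImplicit false
open Cfsg

namespace Cfsg.Agent.S3366

open scoped Matrix

/-- Let X be a finite group with O₃(X) extraspecial of order 27 and exponent 3, X/O₃(X) isomorphic to SL(2,3), O₂(X) = 1, and a Sylow 3-subgroup of X containing an elementary abelian subgroup of order 27. Then X is isomorphic to the centralizer in PSp(4,3) of a 3-central element of order 3 (an element of order 3 in the centre of a Sylow 3-subgroup). -/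
theorem result {X : Type*} [Group X] [Finite X]
    (hR : Cfsg.IsExtraspecial 3 (Cfsg.pCore 3 X)) (hRcard : Nat.card (Cfsg.pCore 3 X) = 27)
    (hRexp : ∀ r ∈ Cfsg.pCore 3 X, r ^ 3 = 1)
    (e : X ⧸ Cfsg.pCore 3 X ≃* Matrix.SpecialLinearGroup (Fin 2) (ZMod 3))
    (hO2 : Cfsg.pCore 2 X = ⊥)
    (hE : ∃ E : Subgroup X, IsMulCommutative E ∧ (∀ a ∈ E, a ^ 3 = 1) ∧ Nat.card E = 27)
    (F : Type*) [Field F] [Fintype F] (hF : Fintype.card F = 3) :
    ∃ (c : Cfsg.PSp 2 F) (S : Sylow 3 (Cfsg.PSp 2 F)), orderOf c = 3 ∧ c ∈ (S : Subgroup (Cfsg.PSp 2 F)) ∧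
      c ∈ Subgroup.centralizer ((S : Subgroup (Cfsg.PSp 2 F)) : Set (Cfsg.PSp 2 F)) ∧
      Nonempty (X ≃* Subgroup.centralizer ({c} : Set (Cfsg.PSp 2 F))) := by
  classical
  obtain ⟨⟨-, -, hder⟩, hcard⟩ := hR
  have : Fact (Nat.Prime 3) := ⟨Nat.prime_three⟩
  obtain ⟨c0, hc0, hc1⟩ : ∃ c : Cfsg.pCore 3 X, c ∈ Subgroup.center (Cfsg.pCore 3 X) ∧ c ≠ 1 := by
    by_contra h
    push_neg at h
    rw [(Subgroup.eq_bot_iff_forall _).mpr h, Subgroup.card_bot] at hcard
    omega
  have hc0' : Subgroup.zpowers c0 = Subgroup.center (Cfsg.pCore 3 X) := by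
    refine Subgroup.eq_of_le_of_card_ge (Subgroup.zpowers_le.mpr hc0) ?_
    rw [hcard, Nat.card_zpowers]
    exact (orderOf_eq_prime (Subtype.ext (hRexp _ c0.2)) hc1).ge
  have hzp : ∀ r : Cfsg.pCore 3 X,
      (r : X) ∈ Subgroup.zpowers (c0 : X) ↔ r ∈ Subgroup.center (Cfsg.pCore 3 X) := fun r => by
    rw [← hc0', Subgroup.mem_zpowers_iff, Subgroup.mem_zpowers_iff]
    constructor
    · rintro ⟨k, hk⟩
      exact ⟨k, Subtype.ext hk⟩
    · rintro ⟨k, rfl⟩
      exact ⟨k, rfl⟩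
  obtain ⟨E, hEc, hEp, hEcard⟩ := hE
  let d : CfsgLib.ShapeThreeSL.Setup X :=
    { R := Cfsg.pCore 3 X
      normal := Cfsg.pCore_normal 3 X
      card_R := hRcard
      pow_three := hRexp
      c := c0
      c_mem := c0.2
      c_ne := fun h => hc1 (Subtype.ext h)
      center_eq := fun r hr => by
        rw [hzp ⟨r, hr⟩, Subgroup.mem_center_iff]
        exact ⟨fun h s => Subtype.ext (h s s.2).symm,
          fun h s hs => (congrArg Subtype.val (h ⟨s, hs⟩)).symm⟩
      comm_mem := fun r hr s hs => by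
        refine (hzp ⟨_, mul_mem (mul_mem (mul_mem hr hs) (inv_mem hr)) (inv_mem hs)⟩).mpr ?_
        rw [← hder]
        exact Subgroup.commutator_mem_commutator (Subgroup.mem_top (⟨r, hr⟩ : Cfsg.pCore 3 X))
          (Subgroup.mem_top (⟨s, hs⟩ : Cfsg.pCore 3 X))
      π := e.toMonoidHom.comp (QuotientGroup.mk' (Cfsg.pCore 3 X))
      π_surj := e.surjective.comp (QuotientGroup.mk'_surjective _)
      π_ker := fun x => by
        simp only [MonoidHom.coe_comp, MulEquiv.coe_toMonoidHom, Function.comp_apply,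
          EmbeddingLike.map_eq_one_iff, QuotientGroup.mk'_apply]
        exact QuotientGroup.eq_one_iff x
      O2 := fun N hN hp => le_bot_iff.mp ((CfsgLib.CharP.le_pCore hN hp).trans hO2.le)
      E := E
      E_comm := fun a ha b hb => congrArg Subtype.val (hEc.is_comm.comm ⟨a, ha⟩ ⟨b, hb⟩)
      E_pow := hEp
      card_E := hEcard }
  let e3 : ZMod 3 ≃+* F := ZMod.ringEquivOfPrime F Nat.prime_three hF
  have h3 : (3 : F) = 0 := by
    have h := congrArg e3 (show (3 : ZMod 3) = 0 from rfl)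
    rwa [map_zero, map_ofNat] at h
  have h2 : (2 : F) ≠ 0 := fun h => one_ne_zero (α := F) (by linear_combination h3 - h)
  let T := CfsgLib.ShapeThreeSL.transv F
  let V := CfsgLib.Classical.Symp.vecStab (CfsgLib.Classical.Symp.stdE (F := F) (0 : Fin 2))
  let pr := CfsgLib.ShapeThreeSL.proj F
  have hinj : Function.Injective (pr.comp V.subtype) := by
    rw [injective_iff_map_eq_one]
    exact fun g hg => CfsgLib.ShapeThreeSL.proj_injOn h3 hg
  have hrange : (pr.comp V.subtype).range = V.map pr := by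
    rw [MonoidHom.range_eq_map, ← Subgroup.map_map, ← MonoidHom.range_eq_map, Subgroup.range_subtype]
  have hTV : T ∈ V := by
    rw [CfsgLib.Classical.Symp.mem_vecStab]
    change ((T : Matrix.symplecticGroup (Fin 2) F) : Matrix (Fin 2 ⊕ Fin 2) (Fin 2 ⊕ Fin 2) F) *ᵥ _ = _
    rw [show T = CfsgLib.Classical.Symp.spT _ _ from rfl]
    rw [CfsgLib.Classical.Symp.spT_mulVec, CfsgLib.Classical.Symp.form_self]
    simp
  have hT3 : IsPGroup 3 (Subgroup.zpowers (⟨T, hTV⟩ : V)) := by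
    intro g
    refine ⟨1, ?_⟩
    obtain ⟨k, hk⟩ := Subgroup.mem_zpowers_iff.mp g.2
    refine Subtype.ext ?_
    rw [SubmonoidClass.coe_pow, ← hk, pow_one, ← zpow_natCast, ← zpow_mul, mul_comm, zpow_mul,
      zpow_natCast, show (⟨T, hTV⟩ : V) ^ 3 = 1 from
        Subtype.ext (CfsgLib.ShapeThreeSL.transv_pow_three h3), one_zpow, Subgroup.coe_one]
  obtain ⟨P, hP⟩ := hT3.exists_le_sylow
  have hPcard : Nat.card P = 81 := by
    rw [P.card_eq_multiplicity, CfsgLib.ShapeThreeSL.card_vecStab_three hF]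
    have : (648 : ℕ).factorization 3 = 4 := by
      rw [show (648 : ℕ) = 3 ^ 4 * 8 by norm_num, Nat.factorization_mul (by norm_num) (by norm_num),
        Nat.Prime.factorization_pow Nat.prime_three]
      simp [Nat.factorization_eq_zero_of_not_dvd (show ¬ (3 ∣ 8) by norm_num)]
    rw [this]
    norm_num
  let S0 : Subgroup (Cfsg.PSp 2 F) := (P : Subgroup V).map (pr.comp V.subtype)
  have hS0 : Nat.card S0 = 81 := by
    rw [Subgroup.card_map_of_injective hinj, hPcard]
  have hG : Nat.card (Cfsg.PSp 2 F) = 3 ^ 4 * 320 := by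
    have h1 : Nat.card (Matrix.symplecticGroup (Fin 2) F) = Nat.card (Cfsg.PSp 2 F) *
        Nat.card (Subgroup.center (Matrix.symplecticGroup (Fin 2) F)) :=
      Subgroup.card_eq_card_quotient_mul_card_subgroup _
    generalize Nat.card (Cfsg.PSp 2 F) = n at h1 ⊢
    rw [CfsgLib.Classical.Symp.card_center_of_two_ne_zero (by norm_num) h2,
      CfsgLib.Classical.Symp.card_symplecticGroup, hF] at h1
    norm_num [Finset.prod_range_succ] at h1
    omega
  have hS0' : Nat.card S0 = 3 ^ (Nat.card (Cfsg.PSp 2 F)).factorization 3 := by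
    rw [hS0, hG, Nat.factorization_mul (by norm_num) (by norm_num),
      Nat.Prime.factorization_pow Nat.prime_three]
    simp [Nat.factorization_eq_zero_of_not_dvd (show ¬ (3 ∣ 320) by norm_num)]
  refine ⟨pr T, Sylow.ofCard S0 hS0', ?_, ?_, ?_, ?_⟩
  · refine orderOf_eq_prime (by rw [← map_pow, CfsgLib.ShapeThreeSL.transv_pow_three h3, map_one]) ?_
    intro h
    exact CfsgLib.ShapeThreeSL.transv_ne_one (congrArg Subtype.val
      (CfsgLib.ShapeThreeSL.proj_injOn (g := (⟨T, hTV⟩ : V)) h3 h))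
  · rw [Sylow.coe_ofCard]
    exact ⟨⟨T, hTV⟩, hP (Subgroup.mem_zpowers _), rfl⟩
  · rw [Sylow.coe_ofCard, Subgroup.mem_centralizer_iff]
    rintro _ ⟨g, -, rfl⟩
    change pr g * pr T = pr T * pr g
    rw [← map_mul, ← map_mul, CfsgLib.ShapeThreeSL.transv_comm g.2]
  · obtain ⟨φ⟩ := d.nonempty_mulEquiv (CfsgLib.ShapeThreeSL.card_vecStab_three hF)
      (CfsgLib.ShapeThreeSL.modU e3.toRingHom) (CfsgLib.ShapeThreeSL.modL e3.toRingHom)
      (CfsgLib.ShapeThreeSL.modU_mul _) (CfsgLib.ShapeThreeSL.modL_modU _)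
      (fun p A q B h => CfsgLib.ShapeThreeSL.model_inj p A q B h)
    exact ⟨φ.trans ((MonoidHom.ofInjective hinj).trans (MulEquiv.subgroupCongr
      (hrange.trans (CfsgLib.ShapeThreeSL.centralizer_proj_transv h3).symm)))⟩

end Cfsg.Agent.S3366
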