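import Cfsg.Statements.S3376
import Mathlib
import Cfsg.Agent.PGroup.Normal
-- import your own Cfsg.Agent.* helpers here

set_option autoImplicit false
open Cfsg

namespace Cfsg.Agent.S3376


theorem exists_hom_value {H : Type*} [CommGroup H] {p : ℕ} [Fact p.Prime] (hp : ∀ a : H, a ^ p = 1)
    {v : H} (hv : v ≠ 1) : ∃ lam : Additive H →+ ZMod p, lam (Additive.ofMul v) = 1 := by
  letI : Module (ZMod p) (Additive H) := AddCommGroup.zmodModule (fun a =>
    show Additive.ofMul (a.toMul ^ p) = Additive.ofMul 1 from congrArg Additive.ofMul (hp _))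
  obtain ⟨g, hg⟩ := LinearMap.exists_leftInverse_of_injective
    (LinearMap.toSpanSingleton (ZMod p) (Additive H) (Additive.ofMul v))
    (LinearMap.ker_eq_bot'.2 fun c hc => by
      by_contra hc0
      refine hv (Additive.ofMul.injective (?_ : Additive.ofMul v = 0))
      have h1 : c • Additive.ofMul v = 0 := hc
      rw [← one_smul (ZMod p) (Additive.ofMul v), ← inv_mul_cancel₀ hc0, mul_smul, h1, smul_zero])
  exact ⟨g.toAddMonoidHom, by simpa using LinearMap.congr_fun hg 1⟩

/-- Let G be a group of order 162 = 3⁴·2 with Sylow 3-subgroup S and Sylow 2-subgroup T, having an elementary abelian normal subgroup J of order 27, such that Z = Z(S) has order 3, Z centralizes T, and C_S(T) ≠ S. Then G is isomorphic to the centralizer in Sym(9) of a product of three disjoint 3-cycles. -/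
theorem result {G : Type*} [Group G] [Finite G] (hG : Nat.card G = 162)
    (S : Sylow 3 G) (T : Sylow 2 G) (J : Subgroup G) [hJn : J.Normal] (hJcomm : IsMulCommutative J)
    (hJexp : ∀ a ∈ J, a ^ 3 = 1) (hJcard : Nat.card J = 27)
    (Z : Subgroup G) (hZ : Z = (S : Subgroup G) ⊓ Subgroup.centralizer ((S : Subgroup G) : Set G)) (hZcard : Nat.card Z = 3)
    (hZT : Z ≤ Subgroup.centralizer ((T : Subgroup G) : Set G))
    (hST : (S : Subgroup G) ⊓ Subgroup.centralizer ((T : Subgroup G) : Set G) ≠ S) :
    Nonempty (G ≃* Subgroup.centralizer ({Equiv.swap (0 : Fin 9) 1 * Equiv.swap 1 2 * Equiv.swap 3 4 * Equiv.swap 4 5 * Equiv.swap 6 7 * Equiv.swap 7 8} : Set (Equiv.Perm (Fin 9)))) := by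
  classical
  have h20 : Multiplicative.ofAdd (2 : ZMod 3) ≠ 1 := fun h =>
    absurd (Multiplicative.ofAdd.injective (show Multiplicative.ofAdd (2 : ZMod 3) = Multiplicative.ofAdd 0 from h)) (by decide)
  haveI : Fact (Nat.Prime 3) := ⟨Nat.prime_three⟩
  haveI : Fact (Nat.Prime 2) := ⟨Nat.prime_two⟩
  letI : CommGroup J := { (inferInstance : Group J) with
    mul_comm := fun a b => hJcomm.is_comm.comm a b }
  have hTc : Nat.card T = 2 := by
    obtain ⟨n, hn⟩ := IsPGroup.iff_card.1 T.isPGroup'
    have h1 := Subgroup.card_mul_index (T : Subgroup G)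
    have h2 := T.not_dvd_index
    rw [hn, hG] at h1
    rw [hn]
    have h3 : n ≤ 7 := by
      by_contra hc
      have h4 : 2 ^ 8 ≤ 2 ^ n := Nat.pow_le_pow_right two_pos (by omega)
      have h5 := Nat.le_of_dvd (by norm_num) (Dvd.intro _ h1)
      omega
    interval_cases n <;> omega
  have hSc : Nat.card S = 81 := by
    obtain ⟨n, hn⟩ := IsPGroup.iff_card.1 S.isPGroup'
    have h1 := Subgroup.card_mul_index (S : Subgroup G)
    have h2 := S.not_dvd_index
    rw [hn, hG] at h1
    rw [hn]
    have h3 : n ≤ 4 := by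
      by_contra hc
      have h4 : 3 ^ 5 ≤ 3 ^ n := Nat.pow_le_pow_right (by norm_num) (by omega)
      have h5 := Nat.le_of_dvd (by norm_num) (Dvd.intro _ h1)
      omega
    interval_cases n <;> omega
  have hSn : (S : Subgroup G).Normal := Subgroup.normal_of_index_eq_two (by
    have h1 := Subgroup.card_mul_index (S : Subgroup G)
    rw [hSc, hG] at h1
    omega)
  have hST' : (S : Subgroup G) ⊔ (T : Subgroup G) = ⊤ := by
    refine Subgroup.eq_top_of_le_card _ ?_
    have h1 : Nat.card S ∣ Nat.card ((S : Subgroup G) ⊔ (T : Subgroup G) : Subgroup G) :=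
      Subgroup.card_dvd_of_le le_sup_left
    have h2 : Nat.card T ∣ Nat.card ((S : Subgroup G) ⊔ (T : Subgroup G) : Subgroup G) :=
      Subgroup.card_dvd_of_le le_sup_right
    have h3 := Nat.le_of_dvd Nat.card_pos (Nat.Coprime.mul_dvd_of_dvd_of_dvd
      (by rw [hSc, hTc]; norm_num) h1 h2)
    rw [hSc, hTc] at h3
    omega
  have hJS : J ≤ S := by
    obtain ⟨S', hS'⟩ := IsPGroup.exists_le_sylow (IsPGroup.of_card (n := 3) hJcard : IsPGroup 3 J)
    obtain ⟨g, hg⟩ := MulAction.exists_smul_eq G S' S
    rw [← hg]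
    intro x hx
    rw [Sylow.coe_subgroup_smul, Subgroup.mem_pointwise_smul_iff_inv_smul_mem]
    refine hS' ?_
    have := hJn.conj_mem x hx g⁻¹
    simpa using this
  -- normal subgroups of `S` meet `Z`
  have hmeet : ∀ N : Subgroup G, N.Normal → N ≤ S → N ≠ ⊥ → Z ≤ N := by
    intro N hN hNS hNb
    have hne : N.subgroupOf (S : Subgroup G) ≠ ⊥ := fun h =>
      hNb (by rw [Subgroup.subgroupOf_eq_bot] at h; exact (disjoint_self.1 (h.mono_right hNS)))
    obtain ⟨q, hq, hq1⟩ := (Subgroup.bot_or_exists_ne_one _).resolve_left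
      (CfsgLib.PGroup.inf_center_ne_bot S.isPGroup' _ hne)
    obtain ⟨hqN, hqc⟩ := Subgroup.mem_inf.1 hq
    have hqZ : (q : G) ∈ Z := by
      rw [hZ]
      exact Subgroup.mem_inf.2 ⟨q.2, Subgroup.mem_centralizer_iff.2 fun s hs =>
        congrArg Subtype.val (Subgroup.mem_center_iff.1 hqc ⟨s, hs⟩)⟩
    have hgen : Subgroup.zpowers (q : G) = Z := by
      refine Subgroup.eq_of_le_of_card_ge (Subgroup.zpowers_le.2 hqZ) ?_
      rw [hZcard, Nat.card_zpowers]
      have h1 := Subgroup.orderOf_dvd_natCard _ hqZ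
      rw [hZcard] at h1
      have h2 : orderOf (q : G) ≠ 1 := fun h => hq1 (Subtype.ext (orderOf_eq_one_iff.1 h))
      rcases (Nat.dvd_prime Nat.prime_three).1 h1 with h | h
      · exact absurd h h2
      · omega
    rw [← hgen]
    exact Subgroup.zpowers_le.2 hqN
  have hZJ : Z ≤ J := hmeet J hJn hJS fun h => by rw [h, Subgroup.card_bot] at hJcard; omega
  obtain ⟨z, hz, hz1⟩ : ∃ z ∈ Z, z ≠ 1 := (Subgroup.bot_or_exists_ne_one Z).resolve_left fun h => by
    rw [h, Subgroup.card_bot] at hZcard; omega
  have hzc : ∀ g : G, g * z = z * g := by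
    intro g
    have hle : (S : Subgroup G) ⊔ (T : Subgroup G) ≤ Subgroup.centralizer {z} := by
      refine sup_le (fun s hs => ?_) (fun s hs => ?_)
      · rw [Subgroup.mem_centralizer_singleton_iff]
        rw [hZ] at hz
        exact Subgroup.mem_centralizer_iff.1 (Subgroup.mem_inf.1 hz).2 s hs
      · rw [Subgroup.mem_centralizer_singleton_iff]
        exact Subgroup.mem_centralizer_iff.1 (hZT hz) s hs
    exact Subgroup.mem_centralizer_singleton_iff.1 (hle (hST'.ge (Subgroup.mem_top g)))
  -- the involution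
  obtain ⟨t, htT, ht1⟩ := (Subgroup.bot_or_exists_ne_one (T : Subgroup G)).resolve_left fun h => by
    rw [h, Subgroup.card_bot] at hTc; omega
  have ht2 : t * t = 1 := by
    have h0 := Subgroup.orderOf_dvd_natCard _ htT
    rw [hTc] at h0
    have h1 := orderOf_dvd_iff_pow_eq_one.1 h0
    rwa [pow_two] at h1
  have hTgen : (T : Subgroup G) = Subgroup.zpowers t := by
    refine (Subgroup.eq_of_le_of_card_ge (Subgroup.zpowers_le.2 htT) ?_).symm
    rw [hTc, Nat.card_zpowers, orderOf_eq_prime (by rw [pow_two]; exact ht2) ht1]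
  -- a `t`-invariant complement of `Z` in `J`
  let τ : J →* J :=
    { toFun := fun a => ⟨t * a * t⁻¹, hJn.conj_mem a a.2 t⟩
      map_one' := Subtype.ext (by simp)
      map_mul' := fun a b => Subtype.ext (by simp [mul_assoc]) }
  obtain ⟨lam, hlam⟩ := exists_hom_value (p := 3) (H := J)
    (fun a => Subtype.ext (by simpa using hJexp _ a.2)) (v := ⟨z, hZJ hz⟩)
    (fun h => hz1 (congrArg Subtype.val h))
  let f : J →* Multiplicative (ZMod 3) :=
    MonoidHom.mk' (fun a => Multiplicative.ofAdd
      (lam (Additive.ofMul a) + lam (Additive.ofMul (τ a)))) (fun a b => by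
      rw [← ofAdd_add]
      congr 1
      rw [map_mul τ, ofMul_mul, ofMul_mul, map_add, map_add]
      abel)
  have hττ : ∀ a, τ (τ a) = a := fun a => Subtype.ext (by
    show t * (t * a * t⁻¹) * t⁻¹ = a
    rw [show t * (t * (a : G) * t⁻¹) * t⁻¹ = (t * t) * a * (t * t)⁻¹ by group, ht2]
    group)
  have hfτ : ∀ a, f (τ a) = f a := fun a => by
    show Multiplicative.ofAdd (_ + lam (Additive.ofMul (τ (τ a)))) = _
    rw [hττ, add_comm]
    rfl
  have hfz : f ⟨z, hZJ hz⟩ = Multiplicative.ofAdd (2 : ZMod 3) := by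
    show Multiplicative.ofAdd _ = _
    have : τ ⟨z, hZJ hz⟩ = ⟨z, hZJ hz⟩ := Subtype.ext (by
      show t * z * t⁻¹ = z
      rw [hzc t, mul_inv_cancel_right])
    rw [this, hlam]
    rfl
  let Y : Subgroup G := f.ker.map J.subtype
  have hYJ : Y ≤ J := Subgroup.map_subtype_le _
  have hzY : z ∉ Y := by
    rintro ⟨b, hb, hbz⟩
    rw [show b = ⟨z, hZJ hz⟩ from Subtype.ext hbz, SetLike.mem_coe, MonoidHom.mem_ker, hfz] at hb
    exact h20 hb
  have hYc : Nat.card Y = 9 := by
    rw [Subgroup.card_map_of_injective J.subtype_injective]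
    have hsurj : f.range = ⊤ := by
      have h1 : Nat.card f.range ∣ 3 := by
        have := Subgroup.card_subgroup_dvd_card f.range
        rwa [Nat.card_congr Multiplicative.toAdd, Nat.card_zmod] at this
      refine Subgroup.eq_top_of_le_card _ ?_
      rw [Nat.card_congr Multiplicative.toAdd, Nat.card_zmod]
      rcases (Nat.dvd_prime Nat.prime_three).1 h1 with h | h
      · exfalso
        have h2 : f ⟨z, hZJ hz⟩ = 1 := Subgroup.mem_bot.1
          ((Subgroup.eq_bot_of_card_eq f.range h) ▸ ⟨_, rfl⟩)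
        rw [hfz] at h2
        exact h20 h2
      · omega
    have h3 := Subgroup.card_mul_index f.ker
    rw [Subgroup.index_ker, hsurj, Subgroup.card_top, Nat.card_congr Multiplicative.toAdd,
      Nat.card_zmod, hJcard] at h3
    omega
  have hYt : ∀ a ∈ Y, t * a * t⁻¹ ∈ Y := by
    rintro _ ⟨b, hb, rfl⟩
    exact ⟨τ b, by rw [SetLike.mem_coe, MonoidHom.mem_ker, hfτ]; exact hb, rfl⟩
  -- the subgroup of index nine
  have htinv : t⁻¹ = t := inv_eq_of_mul_eq_one_left ht2
  let U : Subgroup G :=
    { carrier := {g | g ∈ Y ∨ g * t ∈ Y}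
      one_mem' := Or.inl (one_mem _)
      mul_mem' := by
        rintro a b (ha | ha) (hb | hb)
        · exact Or.inl (mul_mem ha hb)
        · exact Or.inr (by rw [mul_assoc]; exact mul_mem ha hb)
        · refine Or.inr ?_
          have : a * b * t = a * t * (t * b * t⁻¹) := by
            rw [htinv]
            calc a * b * t = a * (t * t) * b * t := by rw [ht2, mul_one]
              _ = _ := by group
          rw [this]
          exact mul_mem ha (hYt b hb)
        · refine Or.inl ?_
          have : a * b = a * t * (t * (b * t) * t⁻¹) := by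
            rw [htinv]
            calc a * b = a * (t * t) * b * (t * t) := by rw [ht2, mul_one, mul_one]
              _ = _ := by group
          rw [this]
          exact mul_mem ha (hYt _ hb)
      inv_mem' := by
        rintro a (ha | ha)
        · exact Or.inl (inv_mem ha)
        · refine Or.inr ?_
          have h2 := hYt _ (inv_mem ha)
          rw [mul_inv_rev, htinv] at h2
          have : a⁻¹ * t = t * (t * a⁻¹) * t := by
            calc a⁻¹ * t = (t * t) * a⁻¹ * t := by rw [ht2, one_mul]
              _ = _ := by group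
          rw [this]
          exact h2 }
  have htJ : ∀ {a}, a ∈ Y → a * t ∉ J := fun {a} ha h => by
    have h1 : t ∈ J := by simpa using mul_mem (inv_mem (hYJ ha)) h
    have h2 := orderOf_dvd_of_pow_eq_one (hJexp t h1)
    rw [orderOf_eq_prime (by rw [pow_two]; exact ht2) ht1] at h2
    omega
  have hUi : U.index = 9 := by
    have h2 : Nat.card U = Nat.card Y * 2 := by
      rw [show (2 : ℕ) = Nat.card Bool by simp, ← Nat.card_prod]
      let g : Y × Bool → U := fun ab => if ab.2 then ⟨ab.1 * t, Or.inr (by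
        rw [mul_assoc, ht2, mul_one]; exact ab.1.2)⟩ else ⟨ab.1, Or.inl ab.1.2⟩
      refine (Nat.card_eq_of_bijective g ⟨?_, ?_⟩).symm
      · rintro ⟨a, (_ | _)⟩ ⟨b, (_ | _)⟩ h <;> simp [g] at h
        · exact congrArg (·, false) h
        · exact absurd (h ▸ hYJ a.2) (htJ b.2)
        · exact absurd (h.symm ▸ hYJ b.2) (htJ a.2)
        · exact congrArg (·, true) h
      · rintro ⟨x, hx | hx⟩
        · exact ⟨(⟨x, hx⟩, false), rfl⟩
        · exact ⟨(⟨_, hx⟩, true), Subtype.ext (by simp [g, mul_assoc, ht2])⟩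
    have h1 := Subgroup.card_mul_index U
    rw [h2, hYc, hG] at h1
    omega
  have hcore : U.normalCore = ⊥ := by
    by_contra hne
    have hNn : U.normalCore.Normal := inferInstance
    have hNJ : U.normalCore ⊓ J = ⊥ := by
      by_contra h
      have h1 := hmeet _ inferInstance (le_trans inf_le_right hJS) h hz
      rcases Subgroup.normalCore_le U h1.1 with h2 | h2
      · exact hzY h2
      · refine htJ h2 ?_
        rw [mul_assoc, ht2, mul_one]
        exact h1.2
    obtain ⟨n, hn, hn1⟩ := (Subgroup.bot_or_exists_ne_one _).resolve_left hne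
    have hnt : n * t ∈ Y := by
      rcases Subgroup.normalCore_le U hn with h | h
      · exfalso
        have : n ∈ U.normalCore ⊓ J := Subgroup.mem_inf.2 ⟨hn, hYJ h⟩
        rw [hNJ, Subgroup.mem_bot] at this
        exact hn1 this
      · exact h
    -- `t` would centralize `S`
    have huniq : ∀ m ∈ U.normalCore, m = 1 ∨ m = n := by
      intro m hm
      rcases Subgroup.normalCore_le U hm with h | h
      · left
        have : m ∈ U.normalCore ⊓ J := Subgroup.mem_inf.2 ⟨hm, hYJ h⟩
        rwa [hNJ, Subgroup.mem_bot] at this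
      · right
        have : m * n⁻¹ ∈ U.normalCore ⊓ J := Subgroup.mem_inf.2 ⟨mul_mem hm (inv_mem hn), by
          rw [show m * n⁻¹ = m * t * (n * t)⁻¹ by group]
          exact hYJ (mul_mem h (inv_mem hnt))⟩
        rw [hNJ, Subgroup.mem_bot, mul_inv_eq_one] at this
        exact this
    have hncen : ∀ g : G, g * n = n * g := fun g => by
      rcases huniq _ (hNn.conj_mem n hn g) with h | h
      · exfalso
        rw [mul_inv_eq_one, mul_eq_left] at h
        exact hn1 h
      · exact mul_inv_eq_iff_eq_mul.1 h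
    have hn2 : n * n = 1 := by
      rcases huniq _ (mul_mem hn hn) with h | h
      · exact h
      · exact absurd (mul_eq_left.1 h) hn1
    have htn : t = n := by
      have hc : t * (n * t) = (n * t) * t := by
        rw [← mul_assoc, hncen t]
      have h1 : (n * t) ^ 2 = 1 := by
        rw [(show Commute n t from (hncen t).symm).mul_pow, pow_two, pow_two, hn2, ht2, one_mul]
      have h2 := orderOf_dvd_of_pow_eq_one h1
      have h3 := orderOf_dvd_of_pow_eq_one (hJexp _ (hYJ hnt))
      have h4 := Nat.dvd_gcd h2 h3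
      norm_num at h4
      have h5 := mul_eq_one_iff_eq_inv.1 h4
      rw [htinv] at h5
      exact h5.symm
    apply hST
    refine inf_eq_left.2 fun s _ => ?_
    rw [hTgen, Subgroup.mem_centralizer_iff]
    intro x hx
    obtain ⟨k, rfl⟩ := Subgroup.mem_zpowers_iff.1 hx
    exact ((show Commute t s from htn ▸ (hncen s).symm).zpow_left k).eq
  -- the embedding
  obtain ⟨e⟩ : Nonempty ((G ⧸ U) ≃ Fin 9) :=
    ⟨Finite.equivFinOfCardEq (by rw [← Subgroup.index_eq_card, hUi])⟩
  let ψ : G →* Equiv.Perm (Fin 9) := e.permCongrHom.toMonoidHom.comp (MulAction.toPermHom G (G ⧸ U))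
  have hψ : Function.Injective ψ := by
    have h1 : Function.Injective (MulAction.toPermHom G (G ⧸ U)) := by
      rw [← MonoidHom.ker_eq_bot_iff, ← Subgroup.normalCore_eq_ker]
      exact hcore
    exact e.permCongrHom.injective.comp h1
  generalize hc : (Equiv.swap (0 : Fin 9) 1 * Equiv.swap 1 2 * Equiv.swap 3 4 * Equiv.swap 4 5 *
    Equiv.swap 6 7 * Equiv.swap 7 8) = c
  have hcf : ∀ x, c x ≠ x := by rw [← hc]; decide
  have hco : orderOf c = 3 := by
    rw [← hc]
    refine orderOf_eq_prime ?_ ?_
    · apply Equiv.ext; decide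
    · intro h; have := congrArg (· (0 : Fin 9)) h; revert this; decide
  have hzf : ∀ x, ψ z x ≠ x := by
    intro x hx
    obtain ⟨g, hg⟩ := QuotientGroup.mk_surjective (e.symm x)
    have h2 : e (z • e.symm x) = x := hx
    rw [Equiv.apply_eq_iff_eq_symm_apply, ← hg, MulAction.Quotient.smul_mk, smul_eq_mul,
      QuotientGroup.eq, ← hzc g] at h2
    have h3 : z ∈ U.normalCore := fun b => by
      have h4 : z ∈ U := by
        have := inv_mem h2
        rwa [show ((g * z)⁻¹ * g)⁻¹ = g⁻¹ * (g * z) by group, inv_mul_cancel_left] at this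
      rw [hzc b, mul_inv_cancel_right]
      exact h4
    rw [hcore, Subgroup.mem_bot] at h3
    exact hz1 h3
  have hzo : orderOf (ψ z) = 3 := by
    rw [orderOf_injective ψ hψ]
    exact orderOf_eq_prime (hJexp z (hZJ hz)) hz1
  have htype : ∀ σ : Equiv.Perm (Fin 9), orderOf σ = 3 → (∀ x, σ x ≠ x) →
      σ.cycleType = Multiset.replicate 3 3 := by
    intro σ ho hf
    obtain ⟨n, hn⟩ := Equiv.Perm.cycleType_prime_order (σ := σ) (by rw [ho]; exact Nat.prime_three)
    rw [ho] at hn
    have hsum := Equiv.Perm.sum_cycleType σ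
    rw [hn, Multiset.sum_replicate, smul_eq_mul, Finset.eq_univ_of_forall (fun x =>
      Equiv.Perm.mem_support.2 (hf x)), Finset.card_univ, Fintype.card_fin] at hsum
    rw [hn, show n + 1 = 3 by omega]
  obtain ⟨π, hπ⟩ := isConj_iff.1 (Equiv.Perm.isConj_iff_cycleType_eq.2
    ((htype _ hzo hzf).trans (htype _ hco hcf).symm))
  let φ : G →* Subgroup.centralizer ({c} : Set (Equiv.Perm (Fin 9))) :=
    ((MulAut.conj π).toMonoidHom.comp ψ).codRestrict _ fun g => by
      rw [Subgroup.mem_centralizer_singleton_iff]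
      have h6 : MulAut.conj π (ψ g) * MulAut.conj π (ψ z) = MulAut.conj π (ψ z) * MulAut.conj π (ψ g) := by
        rw [← map_mul, ← map_mul, ← map_mul, ← map_mul, hzc g]
      rw [show MulAut.conj π (ψ z) = c from hπ] at h6
      exact h6
  have hφ : Function.Injective φ := fun a b hab =>
    hψ ((MulAut.conj π).injective (congrArg Subtype.val hab))
  have hcC : Nat.card (Subgroup.centralizer ({c} : Set (Equiv.Perm (Fin 9)))) = 162 := by
    rw [Equiv.Perm.nat_card_centralizer, htype c hco hcf]
    simp [Nat.factorial]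
  exact ⟨MulEquiv.ofBijective φ ((Nat.bijective_iff_injective_and_card φ).2 ⟨hφ, by rw [hG, hcC]⟩)⟩

end Cfsg.Agent.S3376
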