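import Cfsg.Statements.S3377
import Cfsg.Agent.Frobenius.Zassenhaus.Identify

set_option autoImplicit false
open Cfsg

namespace Cfsg.Agent.S3377

open CfsgLib.Frobenius.Zass

/-- The alternating group of degree 5 has the presentation ⟨x, y | x³ = 1, y⁵ = 1, (xy)² = 1⟩: the group so presented is isomorphic to Alt(5). -/
theorem result :
    Nonempty (PresentedGroup ({FreeGroup.of (0 : Fin 2) ^ 3, FreeGroup.of (1 : Fin 2) ^ 5,
        (FreeGroup.of (0 : Fin 2) * FreeGroup.of 1) ^ 2} : Set (FreeGroup (Fin 2))) ≃* alternatingGroup (Fin 5)) := by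
  set R := ({FreeGroup.of (0 : Fin 2) ^ 3, FreeGroup.of (1 : Fin 2) ^ 5,
    (FreeGroup.of (0 : Fin 2) * FreeGroup.of 1) ^ 2} : Set (FreeGroup (Fin 2)))
  set x : PresentedGroup R := PresentedGroup.of 0
  set y : PresentedGroup R := PresentedGroup.of 1
  have hx : x ^ 3 = 1 := (map_pow (PresentedGroup.mk R) _ _).symm.trans
    (PresentedGroup.one_of_mem (x := FreeGroup.of (0 : Fin 2) ^ 3) (by simp [R]))
  have hy : y ^ 5 = 1 := (map_pow (PresentedGroup.mk R) _ _).symm.trans
    (PresentedGroup.one_of_mem (x := FreeGroup.of (1 : Fin 2) ^ 5) (by simp [R]))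
  have hxy : (x * y) ^ 2 = 1 := by
    have := PresentedGroup.one_of_mem (rels := R)
      (x := (FreeGroup.of (0 : Fin 2) * FreeGroup.of 1) ^ 2) (by simp [R])
    rwa [map_pow, map_mul] at this
  let π : PresentedGroup sl25Rels →* PresentedGroup R :=
    PresentedGroup.toGroup (f := ![x, y, 1]) (by
      intro r hr
      simp only [sl25Rels, Set.mem_insert_iff, Set.mem_singleton_iff] at hr
      rcases hr with rfl | rfl | rfl | rfl | rfl | rfl <;> simp [hx, hy, hxy])
  have hπ : Function.Surjective π := by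
    rw [← MonoidHom.range_eq_top, eq_top_iff, ← PresentedGroup.closure_range_of, Subgroup.closure_le]
    rintro _ ⟨i, rfl⟩
    fin_cases i
    · exact ⟨PresentedGroup.of 0, PresentedGroup.toGroup.of _⟩
    · exact ⟨PresentedGroup.of 1, PresentedGroup.toGroup.of _⟩
  obtain ⟨hfin, hle⟩ := presented_card_le
  have hfin' : Finite (PresentedGroup R) := Finite.of_surjective π hπ
  have hz : (PresentedGroup.of 2 : PresentedGroup sl25Rels) ≠ 1 := by
    let a : SL25 := Cfsg.Agent.S3374.slW * Cfsg.Agent.S3374.slU (-1)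
    let b : SL25 := Cfsg.Agent.S3374.slU 1
    let φ : PresentedGroup sl25Rels →* SL25 :=
      PresentedGroup.toGroup (f := ![a, b, (a * b) ^ 2]) (by
        intro r hr
        simp only [sl25Rels, Set.mem_insert_iff, Set.mem_singleton_iff] at hr
        rcases hr with rfl | rfl | rfl | rfl | rfl | rfl <;>
          simp only [map_mul, map_pow, map_inv, FreeGroup.lift_apply_of, a, b] <;> decide +kernel)
    intro h
    have h1 := congrArg φ h
    rw [map_one, show φ (PresentedGroup.of 2) = (a * b) ^ 2 from PresentedGroup.toGroup.of _] at h1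
    exact absurd h1 (by decide +kernel)
  have h60 : Nat.card (PresentedGroup R) ≤ 60 := by
    have hk : (PresentedGroup.of 2 : PresentedGroup sl25Rels) ∈ π.ker := PresentedGroup.toGroup.of _
    have h1 : 1 < Nat.card π.ker :=
      Finite.one_lt_card_iff_nontrivial.2 ⟨⟨⟨_, hk⟩, 1, fun e => hz (congrArg Subtype.val e)⟩⟩
    have h2 := π.ker.card_mul_index
    rw [Subgroup.index_ker, MonoidHom.range_eq_top.2 hπ, Subgroup.card_top] at h2
    nlinarith
  obtain ⟨s, t, hs, hs1, ht, ht1, hst, hst1⟩ := exists_alt_five_gens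
  let ψ : PresentedGroup R →* alternatingGroup (Fin 5) :=
    PresentedGroup.toGroup (f := ![s, t]) (by
      intro r hr
      simp only [R, Set.mem_insert_iff, Set.mem_singleton_iff] at hr
      rcases hr with rfl | rfl | rfl <;> simp [hs, ht, hst])
  have hA : Nat.card (alternatingGroup (Fin 5)) = 60 := by
    rw [nat_card_alternatingGroup, Nat.card_fin]; decide
  have hψ : Function.Surjective ψ := by
    rw [← MonoidHom.range_eq_top]
    have hs' : s ∈ ψ.range := ⟨PresentedGroup.of 0, PresentedGroup.toGroup.of _⟩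
    have ht' : t ∈ ψ.range := ⟨PresentedGroup.of 1, PresentedGroup.toGroup.of _⟩
    have := Fact.mk Nat.prime_three
    have := Fact.mk Nat.prime_five
    have hd : 30 ∣ Nat.card ψ.range := by
      have h3 := orderOf_eq_prime hs hs1 ▸ Subgroup.orderOf_dvd_natCard _ hs'
      have h5 := orderOf_eq_prime ht ht1 ▸ Subgroup.orderOf_dvd_natCard _ ht'
      have h2 := orderOf_eq_prime hst hst1 ▸ Subgroup.orderOf_dvd_natCard _ (mul_mem hs' ht')
      omega
    have h1 := ψ.range.card_mul_index
    rw [hA] at h1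
    obtain ⟨c, hc⟩ := hd
    have h2 : c * ψ.range.index = 2 := by rw [hc] at h1; linarith
    rcases (Nat.dvd_prime Nat.prime_two).1 (Dvd.intro_left _ h2) with e | e
    · exact Subgroup.index_eq_one.1 e
    · haveI := Subgroup.normal_of_index_eq_two e
      haveI : IsSimpleGroup (alternatingGroup (Fin 5)) :=
        alternatingGroup.isSimpleGroup (by rw [Nat.card_fin])
      refine ((Subgroup.Normal.eq_bot_or_eq_top inferInstance).resolve_left ?_)
      intro hb
      rw [hb, Subgroup.mem_bot] at hs'
      exact hs1 hs'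
  have h3 := Nat.card_le_card_of_surjective ψ hψ
  exact ⟨MulEquiv.ofBijective ψ
    ((Nat.bijective_iff_surjective_and_card ψ).2 ⟨hψ, by omega⟩)⟩

end Cfsg.Agent.S3377
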