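import Cfsg.Statements.S3378
import Cfsg.Agent.Frobenius.Zassenhaus.Identify

set_option autoImplicit false
open Cfsg

namespace Cfsg.Agent.S3378

open CfsgLib.Frobenius.Zass

theorem q8_involution : ∀ a b : QuaternionGroup 2, a * a = 1 → b * b = 1 → a ≠ 1 → b ≠ 1 → a = b := by
  decide +kernel

/-- A proper subgroup is solvable. -/
theorem proper_isSolvable {G : Type*} [Group G] [Finite G] (hG : Nat.card G = 120)
    (hQ : ∀ P : Sylow 2 G, Nonempty ((P : Subgroup G) ≃* QuaternionGroup 2))
    (H : Subgroup G) (hH : H ≠ ⊤) : Group.IsSolvable H := by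
  classical
  have hdvd : Nat.card H ∣ 120 := hG ▸ Subgroup.card_subgroup_dvd_card H
  have hlt : Nat.card H ≠ 120 := fun e => hH (Subgroup.eq_top_of_card_eq H (e.trans hG.symm))
  have key : Nat.card H = 30 ∨ Nat.card H = 60 ∨
      ∃ p q a b, p.Prime ∧ q.Prime ∧ Nat.card H = p ^ a * q ^ b := by
    have hcases : ∀ n ∈ Nat.divisors 120, n = 30 ∨ n = 60 ∨ n = 120 ∨ n = 3 ^ 1 * 5 ^ 1 ∨
        ∃ a ∈ Finset.range 4, ∃ b ∈ Finset.range 2, n = 2 ^ a * 3 ^ b ∨ n = 2 ^ a * 5 ^ b := by
      decide
    rcases hcases _ (Nat.mem_divisors.2 ⟨hdvd, by norm_num⟩) with e | e | e | e | ⟨a, -, b, -, e | e⟩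
    · exact Or.inl e
    · exact Or.inr (Or.inl e)
    · exact (hlt e).elim
    · exact Or.inr (Or.inr ⟨3, 5, 1, 1, Nat.prime_three, Nat.prime_five, e⟩)
    · exact Or.inr (Or.inr ⟨2, 3, a, b, Nat.prime_two, Nat.prime_three, e⟩)
    · exact Or.inr (Or.inr ⟨2, 5, a, b, Nat.prime_two, Nat.prime_five, e⟩)
  rcases key with e | e | ⟨p, q, a, b, hp, hq, e⟩
  rotate_left 2
  · exact CfsgLib.Chars.Apps.isSolvable_of_card_eq_pow_mul_pow H hp hq e
  all_goals
    let P : Sylow 2 H := default
    obtain ⟨k, hk1, hk2, hkc⟩ : ∃ k, 1 ≤ k ∧ k ≤ 2 ∧ Nat.card H = 2 ^ k * 15 := by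
      first
        | (refine ⟨1, le_refl _, by norm_num, ?_⟩; rw [e]; norm_num; done)
        | (refine ⟨2, by norm_num, le_refl _, ?_⟩; rw [e]; norm_num; done)
    have hPc : Nat.card (P : Subgroup H) = 2 ^ k := by
      rw [P.card_eq_multiplicity, hkc,
        Nat.factorization_mul (by positivity) (by norm_num), Finsupp.add_apply,
        Nat.Prime.factorization_pow Nat.prime_two, Finsupp.single_eq_same,
        Nat.factorization_eq_zero_of_not_dvd (show ¬ 2 ∣ 15 by norm_num), add_zero]
    obtain ⟨S, hS⟩ := (P.2.map H.subtype).exists_le_sylow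
    obtain ⟨eS⟩ := hQ S
    have huniq : ∀ a b : (P : Subgroup H), a * a = 1 → b * b = 1 → a ≠ 1 → b ≠ 1 → a = b := by
      intro a b ha hb ha1 hb1
      let j : (P : Subgroup H) →* QuaternionGroup 2 := eS.toMonoidHom.comp
        ((Subgroup.inclusion hS).comp (H.subtype.subgroupMap (P : Subgroup H)))
      have hj : Function.Injective j := eS.injective.comp ((Subgroup.inclusion_injective hS).comp
        (fun x y hxy => Subtype.ext (H.subtype_injective
          (show H.subtype (x : H) = H.subtype (y : H) by have h := congrArg Subtype.val hxy; exact h))))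
      exact hj (q8_involution _ _ (by rw [← map_mul, ha, map_one]) (by rw [← map_mul, hb, map_one])
        (fun e1 => ha1 (hj (e1.trans (map_one j).symm))) (fun e1 => hb1 (hj (e1.trans (map_one j).symm))))
    have hcyc : IsCyclic (P : Subgroup H) := by
      have : k = 1 ∨ k = 2 := by omega
      rcases this with rfl | rfl
      · exact isCyclic_of_prime_card (p := 2) (by rw [hPc]; norm_num)
      · by_contra hn
        have hsq : ∀ a : (P : Subgroup H), a * a = 1 := by
          intro a
          obtain ⟨i, hi, hi'⟩ := (Nat.dvd_prime_pow Nat.prime_two).1 (hPc ▸ orderOf_dvd_natCard a)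
          have : i ≤ 1 := by
            by_contra hh
            exact hn (isCyclic_of_orderOf_eq_card a (by rw [hi', hPc, show i = 2 by omega]))
          rw [← pow_two, ← orderOf_dvd_iff_pow_eq_one, hi']
          exact (pow_dvd_pow 2 this).trans (by norm_num)
        haveI := Fintype.ofFinite (P : Subgroup H)
        obtain ⟨a, b, ha, hb, hab⟩ : ∃ a b : (P : Subgroup H), a ≠ 1 ∧ b ≠ 1 ∧ a ≠ b := by
          have h4 : 1 < ((Finset.univ : Finset (P : Subgroup H)).erase 1).card := by
            rw [Finset.card_erase_of_mem (Finset.mem_univ _), Finset.card_univ,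
              ← Nat.card_eq_fintype_card, hPc]
            norm_num
          obtain ⟨a, ha, b, hb, hab⟩ := Finset.one_lt_card.1 h4
          exact ⟨a, b, (Finset.mem_erase.1 ha).1, (Finset.mem_erase.1 hb).1, hab⟩
        exact hab (huniq a b (hsq a) (hsq b) ha hb)
    have hmin : (Nat.card H).minFac = 2 := (Nat.minFac_eq_two_iff _).2 (by rw [e]; norm_num)
    have hnc := IsCyclic.normalizer_le_centralizer hmin hcyc
    have hker := MonoidHom.ker_transferSylow_isComplement' P hnc
    set f := MonoidHom.transferSylow P hnc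
    have h15 : Nat.card f.ker = 3 ^ 1 * 5 ^ 1 := by
      have h3 := hker.card_mul
      rw [hPc, hkc, mul_comm (2 ^ k) 15] at h3
      exact Nat.eq_of_mul_eq_mul_right (by positivity) h3
    haveI := CfsgLib.Chars.Apps.isSolvable_of_card_eq_pow_mul_pow f.ker Nat.prime_three Nat.prime_five h15
    exact Group.isSolvable_of_ker_le_range f.ker.subtype f (by rw [Subgroup.range_subtype])

/-- Every non-solvable group of order 120 whose Sylow 2-subgroups are quaternion of order 8 is isomorphic to SL(2,5), and SL(2,5) has the presentation ⟨x, y, z | x³ = y⁵ = z² = 1, z⁻¹xz = x, z⁻¹yz = y, (xy)² = z⟩. -/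
theorem result :
    (∀ (G : Type*) [Group G] [Finite G], Nat.card G = 120 → ¬ Group.IsSolvable G →
      (∀ P : Sylow 2 G, Nonempty ((P : Subgroup G) ≃* QuaternionGroup 2)) →
      Nonempty (G ≃* Matrix.SpecialLinearGroup (Fin 2) (ZMod 5))) ∧
    Nonempty (PresentedGroup ({FreeGroup.of (0 : Fin 3) ^ 3, FreeGroup.of (1 : Fin 3) ^ 5, FreeGroup.of (2 : Fin 3) ^ 2,
        (FreeGroup.of (2 : Fin 3))⁻¹ * FreeGroup.of 0 * FreeGroup.of 2 * (FreeGroup.of (0 : Fin 3))⁻¹,
        (FreeGroup.of (2 : Fin 3))⁻¹ * FreeGroup.of 1 * FreeGroup.of 2 * (FreeGroup.of (1 : Fin 3))⁻¹,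
        (FreeGroup.of (0 : Fin 3) * FreeGroup.of 1) ^ 2 * (FreeGroup.of (2 : Fin 3))⁻¹} : Set (FreeGroup (Fin 3)))
      ≃* Matrix.SpecialLinearGroup (Fin 2) (ZMod 5)) := by
  refine ⟨fun G _ _ hG hns hQ => sl25_of_perfect hG ?_ hQ, presented_equiv_sl25⟩
  by_contra hne
  apply hns
  haveI := proper_isSolvable hG hQ (commutator G) hne
  exact Group.isSolvable_of_ker_le_range (commutator G).subtype (Abelianization.of (G := G))
    (by rw [Subgroup.range_subtype, Abelianization.ker_of])

end Cfsg.Agent.S3378
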