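import Cfsg.Statements.S3389

import Cfsg.Agent.Frobenius52.Count
set_option autoImplicit false
open Cfsg

namespace Cfsg.Agent.S3389

open CfsgLib.Frobenius.Count MulAction

variable {G : Type*} [Group G] [Finite G] {Ω : Type*} [Fintype Ω] [MulAction G Ω]
  [FaithfulSMul G Ω]

lemma center_dvd (htr : IsPretransitive G Ω) (g : G) :
    Nat.card (Subgroup.center G) ∣ Nat.card (fixedBy Ω g) := by
  classical
  let _ : MulAction (Subgroup.center G) (fixedBy Ω g) :=
    { smul := fun z x => ⟨(z : G) • (x : Ω), by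
        show g • (z : G) • (x : Ω) = (z : G) • (x : Ω)
        rw [smul_smul, Subgroup.mem_center_iff.1 z.2 g, ← smul_smul, x.2]⟩
      one_smul := fun x => Subtype.ext (one_smul G (x : Ω))
      mul_smul := fun a b x => Subtype.ext (mul_smul (a : G) (b : G) (x : Ω)) }
  have hfree : ∀ x : fixedBy Ω g, stabilizer (Subgroup.center G) x = ⊥ := by
    intro x
    rw [Subgroup.eq_bot_iff_forall]
    intro z hz
    have hz' : (z : G) • (x : Ω) = x := congrArg Subtype.val hz
    apply Subtype.ext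
    apply FaithfulSMul.eq_of_smul_eq_smul (α := Ω)
    intro y
    obtain ⟨a, rfl⟩ := htr.exists_smul_eq (x : Ω) y
    rw [Subgroup.coe_one, one_smul, smul_smul, ← Subgroup.mem_center_iff.1 z.2 a, ← smul_smul, hz']
  rw [Nat.card_congr (MulAction.selfEquivOrbitsQuotientProd' (Quotient.out_eq' ) hfree)]
  rw [Nat.card_prod]
  exact dvd_mul_left _ _

lemma even_card (htr : IsPretransitive G Ω)
    (hfix : ∀ g : G, g ≠ 1 → Nat.card (fixedBy Ω g) ≤ 2)
    (hex : ∃ g : G, g ≠ 1 ∧ Nat.card (fixedBy Ω g) = 2) : 2 ∣ Nat.card G := by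
  classical
  by_contra hodd
  obtain ⟨g₀, hg₀, hc⟩ := hex
  rw [Nat.card_coe_set_eq, Set.ncard_eq_two] at hc
  obtain ⟨α, β, hne, hset⟩ := hc
  set H : Subgroup G := stabilizer G α ⊓ stabilizer G β with hH
  set A : Subgroup G := stabilizer G α with hA
  have hfixH : ∀ h : G, h ∈ H → h ≠ 1 → fixedBy Ω h = {α, β} := by
    intro h hh h1
    symm
    refine Set.eq_of_subset_of_ncard_le ?_ ?_
    · rintro x (rfl | rfl)
      · exact hh.1
      · exact hh.2
    · rw [Set.ncard_pair hne, ← Nat.card_coe_set_eq]; exact hfix h h1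
  have hnoinv : ∀ x : G, x ^ 2 ∈ H → x ∈ H := by
    intro x hx
    have ho : (orderOf x).Coprime 2 := by
      refine Nat.Coprime.symm ((Nat.prime_two.coprime_iff_not_dvd).2 fun h => hodd ?_)
      exact h.trans (orderOf_dvd_natCard x)
    obtain ⟨m, hm⟩ := exists_pow_eq_self_of_coprime ho.symm
    rw [← hm]; exact H.pow_mem hx m
  -- conjugation that preserves the pair stays in H
  have hpair : ∀ x : G, (x • α = α ∨ x • α = β) → (x • β = α ∨ x • β = β) → x ∈ H := by
    intro x ha hb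
    rcases ha with ha | ha <;> rcases hb with hb | hb
    · exact absurd ((smul_left_cancel_iff x).1 (ha.trans hb.symm)) hne
    · exact ⟨ha, hb⟩
    · refine hnoinv x ⟨?_, ?_⟩ <;> simp [MulAction.mem_stabilizer_iff, pow_two, mul_smul, ha, hb]
    · exact absurd ((smul_left_cancel_iff x).1 (ha.trans hb.symm)) hne
  have hfixconj : ∀ (x h : G), h ∈ H → h ≠ 1 → ∀ ω : Ω, (x * h * x⁻¹) • ω = ω →
      ω = x • α ∨ ω = x • β := by
    intro x h hh h1 ω hω
    have : x⁻¹ • ω ∈ fixedBy Ω h := by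
      have := congrArg (fun y => x⁻¹ • y) hω
      simpa [mul_smul] using this
    rw [hfixH h hh h1] at this
    rcases this with e | e
    · exact Or.inl (inv_smul_eq_iff.1 e)
    · exact Or.inr (inv_smul_eq_iff.1 e)
  have hTI : ∀ x h : G, h ∈ H → h ≠ 1 → x * h * x⁻¹ ∈ H → x ∈ H := by
    intro x h hh h1 hc
    have ha := hfixconj x h hh h1 α hc.1
    have hb := hfixconj x h hh h1 β hc.2
    refine H.inv_mem_iff.1 (hpair x⁻¹ ?_ ?_)
    · rcases ha with e | e
      · exact Or.inl (inv_smul_eq_iff.2 e)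
      · exact Or.inr (inv_smul_eq_iff.2 e)
    · rcases hb with e | e
      · exact Or.inl (inv_smul_eq_iff.2 e)
      · exact Or.inr (inv_smul_eq_iff.2 e)
  have hg₀H : g₀ ∈ H := by
    constructor <;> show _ ∈ fixedBy Ω g₀ <;> simp [hset]
  obtain ⟨x₀, hx₀⟩ := htr.exists_smul_eq β α
  set H' : Subgroup G := H.map (MulAut.conj x₀).toMonoidHom with hH'
  have hH'mem : ∀ y : G, y ∈ H' ↔ ∃ h ∈ H, x₀ * h * x₀⁻¹ = y := fun y => Iff.rfl
  have hH'A : H' ≤ A := by
    intro y hy
    obtain ⟨h, hh, rfl⟩ := (hH'mem y).1 hy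
    show (x₀ * h * x₀⁻¹) • α = α
    rw [mul_smul, mul_smul, inv_smul_eq_iff.2 hx₀.symm, hh.2, hx₀]
  set S := H.subgroupOf A with hS
  set S' := H'.subgroupOf A with hS'
  have hTIS : ∀ g h : A, h ∈ S → h ≠ 1 → g * h * g⁻¹ ∈ S → g ∈ S := fun g h hh h1 hc =>
    hTI g h hh (fun e => h1 (Subtype.ext e)) hc
  have hTIS' : ∀ g h : A, h ∈ S' → h ≠ 1 → g * h * g⁻¹ ∈ S' → g ∈ S' := by
    intro g h hh h1 hc
    obtain ⟨k, hk, ek⟩ := (hH'mem _).1 (Subgroup.mem_subgroupOf.1 hh)
    obtain ⟨l, hl, el⟩ := (hH'mem _).1 (Subgroup.mem_subgroupOf.1 hc)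
    simp only [Subgroup.coe_mul, Subgroup.coe_inv] at el
    refine (hH'mem _).2 ⟨x₀⁻¹ * g * x₀, hTI _ k hk (fun e => h1 (Subtype.ext ?_)) ?_, by show _ = (g : G); group⟩
    · rw [← ek, e]; simp
    · have : x₀⁻¹ * (g : G) * x₀ * k * (x₀⁻¹ * (g : G) * x₀)⁻¹ = l := by
        calc _ = x₀⁻¹ * ((g : G) * (x₀ * k * x₀⁻¹) * (g : G)⁻¹) * x₀ := by group
          _ = _ := by rw [ek, ← el]; group
      rw [this]; exact hl
  have hdisj : Disjoint (conjHash S) (conjHash S') := by
    rw [Set.disjoint_left]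
    rintro y ⟨a, h, hh, h1, ey⟩ ⟨b, h', hh', h1', ey'⟩
    obtain ⟨k, hk, ek⟩ := (hH'mem _).1 (Subgroup.mem_subgroupOf.1 hh')
    have e : (a : G) * h * (a : G)⁻¹ = ((b : G) * x₀) * k * ((b : G) * x₀)⁻¹ := by
      have h2 := congrArg Subtype.val (ey.symm.trans ey')
      simp only [Subgroup.coe_mul, Subgroup.coe_inv] at h2
      rw [h2, ← ek]; group
    have hk1 : k ≠ 1 := fun e => h1' (Subtype.ext (by rw [← ek, e]; simp))
    have hz : (a : G)⁻¹ * ((b : G) * x₀) ∈ H := by
      refine hTI _ k hk hk1 ?_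
      have : (a : G)⁻¹ * ((b : G) * x₀) * k * ((a : G)⁻¹ * ((b : G) * x₀))⁻¹ = h := by
        calc _ = (a : G)⁻¹ * (((b : G) * x₀) * k * ((b : G) * x₀)⁻¹) * a := by group
          _ = _ := by rw [← e]; group
      rw [this]; exact hh
    have h2 : ((a : G)⁻¹ * ((b : G) * x₀)) • β = β := hz.2
    rw [mul_smul, mul_smul, hx₀, show (b : G) • α = α from b.2,
      inv_smul_eq_iff.2 (show (a : G) • α = α from a.2).symm] at h2
    exact hne h2
  have hcardA : Nat.card S' = Nat.card S := by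
    rw [Nat.card_congr (Subgroup.subgroupOfEquivOfLe hH'A).toEquiv,
      Nat.card_congr (Subgroup.subgroupOfEquivOfLe (inf_le_left : H ≤ A)).toEquiv]
    exact (Nat.card_congr (H.equivMapOfInjective _ (MulAut.conj x₀).injective).toEquiv).symm
  have hidx : S'.index = S.index := by
    have h1 := S'.index_mul_card
    rw [← S.index_mul_card, hcardA] at h1
    exact Nat.eq_of_mul_eq_mul_right Nat.card_pos h1
  have h1 := ncard_conjHash_add_index S hTIS
  have h2 := ncard_conjHash_add_index S' hTIS'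
  have h3 : (conjHash S).ncard + (conjHash S').ncard ≤ (({1} : Set A)ᶜ).ncard := by
    rw [← Set.ncard_union_eq hdisj]
    refine Set.ncard_le_ncard ?_
    rintro y (⟨a, h, -, h1, rfl⟩ | ⟨a, h, -, h1, rfl⟩) <;>
      exact fun e => h1 (conj_eq_one_iff.1 e)
  rw [Set.ncard_compl, Set.ncard_singleton] at h3
  have hS3 : 3 ≤ Nat.card S := by
    have hd : Nat.card S ∣ Nat.card G :=
      (Subgroup.card_subgroup_dvd_card S).trans (Subgroup.card_subgroup_dvd_card A)
    have hgS : (⟨g₀, hg₀H.1⟩ : A) ∈ S := hg₀H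
    have : Nontrivial S := ⟨⟨⟨_, hgS⟩, 1, fun e => hg₀ (congrArg (fun z : S => ((z : A) : G)) e)⟩⟩
    have := Finite.one_lt_card (α := S)
    have h2' : Nat.card S ≠ 2 := fun e => hodd (e ▸ hd)
    omega
  have hA3 := S.index_mul_card
  have := Nat.card_pos (α := A)
  have := Nat.mul_le_mul_left S.index hS3
  omega


/-- Let G be a finite group acting faithfully and transitively on a finite set Ω with fixity k ≥ 1: every non-identity element fixes at most k points and some non-identity element fixes exactly k points. Then |Z(G)| divides k; if k = 2 then |G| is even; and for every prime p > k dividing |G| and every point α, either p does not divide |G_α| or G_α contains a Sylow p-subgroup of G. -/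
theorem result {G : Type*} [Group G] [Finite G] {Ω : Type*} [Fintype Ω] [MulAction G Ω] [FaithfulSMul G Ω]
    (htr : MulAction.IsPretransitive G Ω) (k : ℕ) (hk : 1 ≤ k)
    (hfix : ∀ g : G, g ≠ 1 → Nat.card (MulAction.fixedBy Ω g) ≤ k) (hex : ∃ g : G, g ≠ 1 ∧ Nat.card (MulAction.fixedBy Ω g) = k) :
    Nat.card (Subgroup.center G) ∣ k ∧ (k = 2 → 2 ∣ Nat.card G) ∧
      ∀ (p : ℕ), p.Prime → k < p → p ∣ Nat.card G → ∀ α : Ω,
        ¬ p ∣ Nat.card (MulAction.stabilizer G α) ∨ ¬ p ∣ (MulAction.stabilizer G α).index := by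
  refine ⟨?_, ?_, ?_⟩
  · obtain ⟨g, -, hg⟩ := hex
    exact hg ▸ center_dvd htr g
  · rintro rfl
    exact even_card htr hfix hex
  · intro p hp hkp _ α
    by_contra hcon
    push Not at hcon
    obtain ⟨h1, h2⟩ := hcon
    have := Fact.mk hp
    classical
    obtain ⟨P₀, g, hle, -, hne, hg, hgA, n, hn⟩ := exists_normalizer_not_mem h2
    obtain ⟨⟨t, ht⟩, ht1⟩ := Subgroup.ne_bot_iff_exists_ne_one.1 (hne h1)
    have hgp : IsPGroup p (Subgroup.zpowers g) := by
      rintro ⟨y, i, rfl⟩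
      refine ⟨n, Subtype.ext ?_⟩
      show (g ^ i) ^ p ^ n = 1
      rw [← zpow_natCast, ← zpow_mul, mul_comm, zpow_mul, zpow_natCast, hn, one_zpow]
    have hsub : orbit (Subgroup.zpowers g) α ⊆ fixedBy Ω t := by
      rintro _ ⟨⟨y, hy⟩, rfl⟩
      have hyN : y⁻¹ ∈ Subgroup.normalizer (P₀ : Set G) :=
        inv_mem (Subgroup.zpowers_le.2 hg hy)
      have hc : y⁻¹ * t * y ∈ stabilizer G α := by
        have := (Subgroup.mem_normalizer_iff.1 hyN t).1 ht
        rw [inv_inv] at this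
        exact hle this
      show t • y • α = y • α
      have : (y⁻¹ * t * y) • α = α := hc
      rwa [mul_smul, mul_smul, inv_smul_eq_iff] at this
    have hlt : Nat.card (orbit (Subgroup.zpowers g) α) < p := by
      have := Nat.card_mono (Set.toFinite _) hsub
      have := hfix t fun e => ht1 (Subtype.ext e)
      omega
    obtain ⟨m, hm⟩ := hgp.card_orbit α
    have hm0 : m = 0 := by
      rcases m with _ | m
      · rfl
      · rw [hm, pow_succ] at hlt
        have := Nat.one_le_pow m p hp.pos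
        nlinarith
    rw [hm0, pow_zero, Nat.card_eq_one_iff_unique] at hm
    have := hm.1
    apply hgA
    exact congrArg Subtype.val (Subsingleton.elim
      (⟨g • α, ⟨g, Subgroup.mem_zpowers g⟩, rfl⟩ : orbit (Subgroup.zpowers g) α)
      ⟨α, mem_orbit_self α⟩)

end Cfsg.Agent.S3389
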