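import Cfsg.Statements.S3391
import Cfsg.Agent.Suzuki.Fixity
import Cfsg.Agent.Suzuki.LieModel

set_option autoImplicit false
open Cfsg

namespace Cfsg.Agent.S3391

/-- Let q = 2^{2m+1} ≥ 8 and let G be isomorphic to the Suzuki group Sz(q). If G acts faithfully and transitively on a finite set Ω with fixity 2 (every non-identity element fixes at most two points, and some fixes exactly two), then either |Ω| = q² + 1 and the action is 2-transitive, or |Ω| = q²(q² + 1) and the point stabilizers have order q − 1. -/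
theorem result {G : Type*} [Group G] [Finite G] (F : Type) [Field F] [Fintype F] (m : ℕ) (hm : 1 ≤ m) (hF : Fintype.card F = 2 ^ (2 * m + 1))
    (e : G ≃* ↥(Cfsg.Lie.Sz F (2 ^ (m + 1)))) {Ω : Type*} [Fintype Ω] [MulAction G Ω] [FaithfulSMul G Ω] (htr : MulAction.IsPretransitive G Ω)
    (hfix : ∀ g : G, g ≠ 1 → Nat.card (MulAction.fixedBy Ω g) ≤ 2) (hex : ∃ g : G, g ≠ 1 ∧ Nat.card (MulAction.fixedBy Ω g) = 2) :
    (Fintype.card Ω = Fintype.card F ^ 2 + 1 ∧ MulAction.IsMultiplyPretransitive G Ω 2) ∨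
    (Fintype.card Ω = Fintype.card F ^ 2 * (Fintype.card F ^ 2 + 1) ∧ ∀ α : Ω, Nat.card (MulAction.stabilizer G α) = Fintype.card F - 1) := by
  haveI := CfsgLib.Suzuki.charP_two hF
  let e' : G ≃* ↥(CfsgLib.Suzuki.grp (CfsgLib.Suzuki.theta F m)) :=
    e.trans ((CfsgLib.Suzuki.lieSzEquiv hm hF).symm.trans
      (MulEquiv.subgroupCongr CfsgLib.Suzuki.sz_eq))
  have h := CfsgLib.Suzuki.fixity_two hm hF e' htr hfix hex
  rw [Nat.card_eq_fintype_card (α := Ω), Nat.card_eq_fintype_card (α := F)] at h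
  exact h

end Cfsg.Agent.S3391
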