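import Cfsg.Statements.S3410
import Cfsg.Agent.ONan48.Reduce
import Cfsg.Agent.ONan48.FStar
import Cfsg.Agent.S3706
import Cfsg.Agent.Classical.Linear.Simple

set_option autoImplicit false
open Cfsg

namespace Cfsg.Agent.S3410

/-- Let a finite group G act faithfully and 2-transitively on a finite set X, and let N be an abelian normal subgroup of the stabilizer of a point x which is not semiregular on the remaining points (some non-identity element of N fixes a second point). Then the generalized Fitting subgroup of G is isomorphic to PSL_n(F) for some n ≥ 3 and some finite field F. -/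
theorem result {G X : Type*} [Group G] [Finite G] [Fintype X]
    [MulAction G X] [FaithfulSMul G X] (h2 : MulAction.IsMultiplyPretransitive G X 2) (x : X)
    (N : Subgroup G) (hNle : N ≤ MulAction.stabilizer G x)
    (hNnormal : ∀ g ∈ MulAction.stabilizer G x, ∀ n ∈ N, g * n * g⁻¹ ∈ N) (hNab : IsMulCommutative N)
    (hnsr : ∃ n ∈ N, n ≠ 1 ∧ ∃ y : X, y ≠ x ∧ n • y = y) :
    ∃ (F : Type) (_ : Field F) (_ : Fintype F) (n : ℕ), 3 ≤ n ∧
      Nonempty (↥(Cfsg.generalizedFittingSubgroup G) ≃* Matrix.ProjectiveSpecialLinearGroup (Fin n) F) := by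
  classical
  obtain ⟨H, hidx, hnt, hfix, hunf⟩ := CfsgLib.ONan48.exists_subgroup h2 x N hNle hNnormal
    (fun a ha b hb => congrArg Subtype.val (hNab.is_comm.comm ⟨a, ha⟩ ⟨b, hb⟩)) hnsr
  obtain ⟨m, F, instF, instFt, hm, -, L, hLn, ⟨e⟩, hC⟩ :=
    Cfsg.Agent.S3706.result h2 H hidx hnt hfix hunf
  refine ⟨F, instF, instFt, m + 1, by omega, ?_⟩
  haveI : Nontrivial (Fin (m + 1)) := Fin.nontrivial_iff_two_le.2 (by omega)
  haveI : IsSimpleGroup (Matrix.ProjectiveSpecialLinearGroup (Fin (m + 1)) F) :=
    CfsgLib.Classical.Linear.isSimpleGroup_psl_of_three_le (by simpa using (by omega : 3 ≤ m + 1))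
  have hna : ¬ IsMulCommutative (Matrix.ProjectiveSpecialLinearGroup (Fin (m + 1)) F) :=
    CfsgLib.Classical.Linear.not_isMulCommutative_psl
      (CfsgLib.Classical.Linear.commutator_sl_fin_eq_top (m + 1) fun h => absurd h (by omega))
  haveI : Nontrivial L := e.toEquiv.nontrivial
  have hL : IsSimpleGroup L :=
    IsSimpleGroup.isSimpleGroup_of_surjective e.symm.toMonoidHom e.symm.surjective
  have hLna : ¬ IsMulCommutative L := fun h => hna ⟨⟨fun a b => e.symm.injective (by
    rw [map_mul, map_mul]; exact h.is_comm.comm _ _)⟩⟩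
  rw [CfsgLib.ONan48.fStar_eq L hL hLna hC]
  exact ⟨e⟩

end Cfsg.Agent.S3410
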