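import Cfsg.Statements.S3413
import Cfsg.Agent.Spec53.M11Graph

set_option autoImplicit false
open Cfsg

namespace Cfsg.Agent.S3413

/-- Let H be a finite group whose commuting graph (vertices the non-identity elements, two joined when they commute) is isomorphic to that of the Mathieu group M_11: there is a bijection between the non-identity elements of H and of M_11 under which two elements commute exactly when their images do. Then H ≅ M_11. -/
theorem result {H : Type*} [Group H] [Finite H]
    (f : {h : H // h ≠ 1} ≃ {g : ↥Cfsg.Spor.M11 // g ≠ 1})
    (hf : ∀ x y : {h : H // h ≠ 1}, (x : H) * y = y * x ↔ ((f x) : ↥Cfsg.Spor.M11) * (f y) = (f y) * (f x)) :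
    Nonempty (H ≃* ↥Cfsg.Spor.M11) := by
  exact CfsgLib.Spec53.m11_of_commutingGraph f hf

end Cfsg.Agent.S3413
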