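import Cfsg.Statements.S3421
import Cfsg.Agent.PSL2Spectrum.Zassenhaus
import Cfsg.Agent.Dickson.MaxPoly
import Cfsg.Agent.S2475
import Cfsg.Agent.S1230

set_option autoImplicit false
open Cfsg

namespace Cfsg.Agent.S3421

/-- Let F be a finite field with more than 3 elements. A finite group G is isomorphic to PSL(2, F) if and only if G has the same set of element orders and the same order as PSL(2, F). -/
theorem result {G : Type*} [Group G] [Finite G] {F : Type*} [Field F] [Fintype F] (hF : 3 < Fintype.card F) :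
    Nonempty (G ≃* Matrix.ProjectiveSpecialLinearGroup (Fin 2) F) ↔
      (Set.range (orderOf : G → ℕ) = Set.range (orderOf : Matrix.ProjectiveSpecialLinearGroup (Fin 2) F → ℕ) ∧
        Nat.card G = Nat.card (Matrix.ProjectiveSpecialLinearGroup (Fin 2) F)) := by
  classical
  constructor
  · rintro ⟨e⟩
    refine ⟨?_, Nat.card_congr e.toEquiv⟩
    rw [show (orderOf : G → ℕ) = orderOf ∘ e from funext fun g => (e.orderOf_eq g).symm,
      e.surjective.range_comp]
  rintro ⟨hspec, hcard⟩
  obtain ⟨p, hchar⟩ := CharP.exists F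
  haveI := hchar
  haveI : Fact p.Prime := ⟨CharP.char_is_prime F p⟩
  have hpp : p.Prime := Fact.out
  obtain ⟨m, -, hq⟩ := FiniteField.card F p
  have hdata : ∀ g : G, orderOf g ∈ {k : ℕ | k ∣ p ∨ k ∣ (Fintype.card F - 1) / Nat.gcd 2 (Fintype.card F - 1) ∨
      k ∣ (Fintype.card F + 1) / Nat.gcd 2 (Fintype.card F - 1)} := fun g => by
    rw [← Cfsg.Agent.S2475.result p (by omega), ← hspec]
    exact ⟨g, rfl⟩
  have hpq : p ∣ Fintype.card F := hq ▸ dvd_pow_self p m.pos.ne'
  have hC : ∀ g : G, p ∣ orderOf g → orderOf g = p := by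
    intro g hg
    have hq1 : ¬ p ∣ Fintype.card F - 1 := fun h => by
      have := Nat.dvd_sub hpq h
      rw [show Fintype.card F - (Fintype.card F - 1) = 1 by omega, Nat.dvd_one] at this
      exact hpp.one_lt.ne' this
    have hq2 : ¬ p ∣ Fintype.card F + 1 := fun h => by
      have := Nat.dvd_sub h hpq
      rw [Nat.add_sub_cancel_left, Nat.dvd_one] at this
      exact hpp.one_lt.ne' this
    rcases hdata g with h | h | h
    · exact Nat.dvd_antisymm h hg
    · exact absurd ((hg.trans h).trans (Nat.div_dvd_of_dvd (Nat.gcd_dvd_right _ _))) hq1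
    · refine absurd ((hg.trans h).trans (Nat.div_dvd_of_dvd ?_)) hq2
      have h2 : Nat.gcd 2 (Fintype.card F - 1) ∣ 2 := Nat.gcd_dvd_left _ _
      have h3 := dvd_add (Nat.gcd_dvd_right 2 (Fintype.card F - 1)) h2
      rwa [show Fintype.card F - 1 + 2 = Fintype.card F + 1 by omega] at h3
  rcases hpp.eq_two_or_odd' with hp2 | hpodd
  · -- even characteristic
    subst hp2
    have heven : Even (Fintype.card F) := even_iff_two_dvd.2 hpq
    rw [CfsgLib.Dickson.card_psl_two heven] at hcard
    obtain ⟨T⟩ := Sylow.nonempty (p := 2) (G := G)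
    have hTcard : Nat.card T = Fintype.card F := by
      have h4 : Fintype.card F ^ 2 - 1 ≠ 0 := by
        have : 4 ^ 2 ≤ Fintype.card F ^ 2 := Nat.pow_le_pow_left (by omega) 2
        omega
      have h1 : ¬ 2 ∣ Fintype.card F ^ 2 - 1 := by
        have h := (Nat.even_pow.2 ⟨heven, two_ne_zero⟩ : Even (Fintype.card F ^ 2))
        rw [Nat.even_iff] at h
        omega
      have h3 := congrArg (fun x => x.factorization 2) hcard
      simp only [Nat.factorization_mul (by omega : Fintype.card F ≠ 0) h4, Finsupp.coe_add, Pi.add_apply,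
        Nat.factorization_eq_zero_of_not_dvd h1, add_zero] at h3
      rw [T.card_eq_multiplicity, h3, hq, Nat.Prime.factorization_pow Nat.prime_two, Finsupp.single_eq_same]
    have hsq : ∀ u : T, (u : G) ^ 2 = 1 := fun u => by
      obtain ⟨k, hk⟩ := T.2 u
      exact CfsgLib.PSL2Spectrum.pow_p_of_pow_pow hC (congrArg Subtype.val hk :)
    have hnc : ¬ IsCyclic (T : Subgroup G) := fun hc => by
      obtain ⟨u, hu⟩ := IsCyclic.exists_generator (α := (T : Subgroup G))
      have h1 : orderOf u ∣ 2 := orderOf_dvd_of_pow_eq_one (Subtype.ext (hsq u))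
      rw [orderOf_eq_card_of_forall_mem_zpowers hu, hTcard] at h1
      have := Nat.le_of_dvd two_pos h1
      omega
    have hnn : ¬ (T : Subgroup G).Normal := fun hn => by
      haveI := hn
      have hcop : (Nat.card (T : Subgroup G)).Coprime (T : Subgroup G).index := by
        rw [hTcard, hq]
        exact ((Nat.Prime.coprime_iff_not_dvd Nat.prime_two).2 T.not_dvd_index).pow_left _
      obtain ⟨D, hD⟩ := Subgroup.exists_right_complement'_of_coprime hcop
      have hDc : (Nat.card D).Coprime 2 := by
        rw [← hD.symm.index_eq_card, Nat.coprime_comm]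
        exact (Nat.Prime.coprime_iff_not_dvd Nat.prime_two).2 T.not_dvd_index
      have h1 := CfsgLib.PSL2Spectrum.dvd_card_sub_one hC D T hDc T.2 fun g _ z hz => hn.conj_mem z hz g
      have h2 := hD.card_mul
      have h3 : Nat.card D ≤ Nat.card T - 1 := Nat.le_of_dvd (by omega) h1
      rw [hTcard, hcard] at h2
      have h5 : Nat.card D = Fintype.card F ^ 2 - 1 := Nat.eq_of_mul_eq_mul_left (by omega) h2
      have : Fintype.card F * 2 ≤ Fintype.card F ^ 2 := by rw [pow_two]; exact Nat.mul_le_mul_left _ (by omega)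
      omega
    have hinv : ∀ t : G, orderOf t = 2 → ∀ c ∈ Subgroup.centralizer ({t} : Set G), c ^ 2 = 1 := by
      intro t ht c hc
      by_cases h : 2 ∣ orderOf c
      · exact CfsgLib.PSL2Spectrum.pow_p_of_dvd hC h
      · rw [CfsgLib.PSL2Spectrum.no_commute hC (by rw [← ht, pow_orderOf_eq_one])
          (fun e => by rw [e, orderOf_one] at ht; omega) (Subgroup.mem_centralizer_singleton_iff.1 hc).symm h,
          one_pow]
    obtain ⟨K, _, _, hK, ⟨e⟩⟩ := Cfsg.Agent.S1230.result T hnc hnn fun t ht => ⟨⟨⟨fun a b => by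
      have ha := hinv t ht a a.2
      have hb := hinv t ht b b.2
      have hab := hinv t ht (a * b) (mul_mem a.2 b.2)
      refine Subtype.ext ?_
      show (a : G) * b = b * a
      rw [pow_two] at ha hb hab
      rw [← inv_eq_of_mul_eq_one_right hab, _root_.mul_inv_rev, inv_eq_of_mul_eq_one_right ha,
        inv_eq_of_mul_eq_one_right hb]⟩⟩, hinv t ht⟩
    obtain ⟨i⟩ := CfsgLib.Dickson.psl_congr (FiniteField.ringEquivOfCardEq (K := K) (K' := F) (by rw [hK, hTcard]))
    exact ⟨e.trans i⟩
  · -- odd characteristic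
    have hp2 : p ≠ 2 := fun h => by rw [h] at hpodd; exact absurd hpodd (by decide)
    have hodd : Odd (Fintype.card F) := hq ▸ hpodd.pow
    have hd : Nat.gcd 2 (Fintype.card F - 1) = 2 :=
      Nat.gcd_eq_left (by obtain ⟨k, hk⟩ := hodd; omega)
    have h2c := CfsgLib.Dickson.psl_card_mul_two (F := F) hodd
    rw [← hcard] at h2c
    obtain ⟨K, _, _, hK2, ⟨e⟩⟩ := CfsgLib.PSL2Spectrum.recognise hp2 hC hq
      (by obtain ⟨k, hk⟩ := hodd; omega) h2c (fun _ g hg => by
        rcases hdata g with h | h | h
        · rcases (Nat.dvd_prime hpp).1 h with h' | h'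
          · exact Or.inl (by rw [h']; exact one_dvd _)
          · exact absurd (h' ▸ dvd_rfl) hg
        · rw [hd] at h; exact Or.inl h
        · rw [hd] at h; exact Or.inr h)
    have hKodd : Odd (Fintype.card K) := by
      rw [Nat.odd_iff]
      exact FiniteField.odd_card_of_char_ne_two hK2
    have h3 := CfsgLib.Dickson.psl_card_mul_two (F := K) hKodd
    rw [← Nat.card_congr e.toEquiv, h2c] at h3
    have heq : Fintype.card F = Fintype.card K := by
      have hmono : StrictMonoOn (fun x : ℕ => x * (x ^ 2 - 1)) (Set.Ici 1) := fun a ha b _ hab =>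
        Nat.mul_lt_mul_of_lt_of_le hab (Nat.sub_le_sub_right (Nat.pow_le_pow_left hab.le 2) 1) (by
          have : 2 ^ 2 ≤ b ^ 2 := Nat.pow_le_pow_left (by simp at ha; omega) 2
          omega)
      exact hmono.injOn (Fintype.card_pos (α := F)) (Fintype.card_pos (α := K)) h3
    obtain ⟨i⟩ := CfsgLib.Dickson.psl_congr (FiniteField.ringEquivOfCardEq (K := K) (K' := F) heq.symm)
    exact ⟨e.trans i⟩

end Cfsg.Agent.S3421
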