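import Cfsg.Statements.S3433
import Cfsg.Agent.SpecFive.Main

set_option autoImplicit false
open Cfsg

namespace Cfsg.Agent.S3433

/-- A finite group whose set of element orders is exactly {1, 2, 3, 4, 5} is isomorphic to the alternating group of degree 6, or has a normal elementary abelian 2-subgroup with quotient isomorphic to the alternating group of degree 5. -/
theorem result {G : Type*} [Group G] [Finite G] (h : Set.range (orderOf : G → ℕ) = {k : ℕ | 1 ≤ k ∧ k ≤ 5}) :
    Nonempty (G ≃* ↥(alternatingGroup (Fin 6))) ∨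
      ∃ (N : Subgroup G) (_ : N.Normal), Cfsg.IsElementaryAbelian 2 N ∧ Nonempty (G ⧸ N ≃* ↥(alternatingGroup (Fin 5))) := by
  classical
  have hmem : ∀ g : G, orderOf g ≤ 5 := fun g => by
    have : orderOf g ∈ {k : ℕ | 1 ≤ k ∧ k ≤ 5} := h ▸ ⟨g, rfl⟩
    exact this.2
  have hO : CfsgLib.SpecFive.Ord5 G := CfsgLib.SpecFive.ord5_of_range hmem
  have dvd : ∀ k, 1 ≤ k → k ≤ 5 → k ∣ Nat.card G := fun k h1 h5 => by
    obtain ⟨g, hg⟩ : k ∈ Set.range (orderOf : G → ℕ) := by rw [h]; exact ⟨h1, h5⟩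
    exact hg ▸ orderOf_dvd_natCard g
  have hns := CfsgLib.SpecFive.not_solvable_of_orders hO (dvd 2 (by norm_num) (by norm_num))
    (dvd 3 (by norm_num) (by norm_num)) (dvd 5 (by norm_num) (by norm_num))
  rcases CfsgLib.SpecFive.structure_of_nonsolvable hO hns with he | ⟨N, hN, hE, he⟩
  · exact Or.inl he
  · refine Or.inr ⟨N, hN, ⟨⟨⟨fun a b => Subtype.ext (hE.1 a a.2 b b.2).eq⟩⟩, fun a ha => ?_⟩, he⟩
    rw [pow_two]; exact hE.2 a ha

end Cfsg.Agent.S3433
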