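import Cfsg.Statements.S3495
import Cfsg.Agent.Perm.ExtremelyPrimitiveBasic

set_option autoImplicit false
open Cfsg

namespace Cfsg.Agent.S3495


/-- Let a finite group G act faithfully and primitively on a finite set Ω with non-trivial point stabilizers, each acting primitively on every one of its orbits (an extremely primitive group), and suppose G has an elementary abelian normal p-subgroup N acting regularly on Ω (affine type). Then every non-trivial subgroup M of a point stabilizer G_α that is normal in G_α has the same orbits on Ω as G_α, and normalizes no subgroup of N other than 1 and N. -/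
theorem result {G : Type*} [Group G] [Finite G] {Ω : Type*} [Fintype Ω] [MulAction G Ω] [FaithfulSMul G Ω] (hprim : MulAction.IsPreprimitive G Ω) (hH : ∀ α : Ω, MulAction.stabilizer G α ≠ ⊥) (hep : ∀ (α : Ω) (ω : Ω), MulAction.IsPreprimitive (MulAction.stabilizer G α) (MulAction.orbit (MulAction.stabilizer G α) ω))
    (N : Subgroup G) [N.Normal] (hNc : IsMulCommutative N) (p : ℕ) (hp : p.Prime) (hNp : ∀ n ∈ N, n ^ p = 1)
    (hNtr : MulAction.IsPretransitive N Ω) (hNreg : ∀ ω : Ω, MulAction.stabilizer N ω = ⊥) (α : Ω) (M : Subgroup G) (hM : M ≠ ⊥) (hMle : M ≤ MulAction.stabilizer G α)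
    (hMn : MulAction.stabilizer G α ≤ Subgroup.normalizer (M : Set G)) :
    (∀ ω : Ω, MulAction.orbit M ω = MulAction.orbit (MulAction.stabilizer G α) ω) ∧
    (∀ L : Subgroup G, L ≤ N → M ≤ Subgroup.normalizer (L : Set G) → L = ⊥ ∨ L = N) := by
  haveI := hprim
  have horb := CfsgLib.Perm.orbit_eq_of_normalized hH hep α M hM hMle hMn
  refine ⟨horb, fun L hL hLn => ?_⟩
  have hstab : MulAction.stabilizer G α ≤ Subgroup.normalizer (L : Set G) := by
    have step : ∀ h ∈ MulAction.stabilizer G α, ∀ l ∈ L, h * l * h⁻¹ ∈ L := by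
      intro h hh l hl
      have hfix : h⁻¹ • α = α := inv_mem hh
      have h1 : (h * l * h⁻¹) • α ∈ MulAction.orbit M (l • α) := by
        rw [horb, mul_smul, mul_smul, hfix]
        exact ⟨⟨h, hh⟩, rfl⟩
      obtain ⟨m, hm⟩ := h1
      have hm' : (m : G) • l • α = (h * l * h⁻¹) • α := hm
      have hmα : (m : G)⁻¹ • α = α := inv_mem (hMle m.2)
      have hl' : (m : G) * l * (m : G)⁻¹ ∈ L := (Subgroup.mem_normalizer_iff.mp (hLn m.2) l).mp hl
      have : (m : G) * l * (m : G)⁻¹ = h * l * h⁻¹ := by
        have hN1 : h * l * h⁻¹ ∈ N := Subgroup.Normal.conj_mem inferInstance _ (hL hl) h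
        have hsame : ((m : G) * l * (m : G)⁻¹)⁻¹ * (h * l * h⁻¹) ∈ N := mul_mem (inv_mem (hL hl')) hN1
        have : (⟨_, hsame⟩ : N) ∈ MulAction.stabilizer N α := by
          rw [MulAction.mem_stabilizer_iff, Subgroup.mk_smul, mul_smul, inv_smul_eq_iff, mul_smul, mul_smul, mul_smul, mul_smul, hmα]
          rw [hm', mul_smul, mul_smul]
        rw [hNreg α, Subgroup.mem_bot] at this
        exact inv_mul_eq_one.mp (congrArg Subtype.val this)
      rwa [this] at hl'
    intro h hh
    rw [Subgroup.mem_normalizer_iff]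
    refine fun l => ⟨step h hh l, fun hl => ?_⟩
    have := step h⁻¹ (inv_mem hh) _ hl
    simpa [mul_assoc] using this
  haveI hLN : L.Normal := by
    refine Subgroup.normalizer_eq_top_iff.mp (eq_top_iff.mpr fun g _ => ?_)
    obtain ⟨n, hn⟩ := MulAction.exists_smul_eq N α (g • α)
    have hn' : (n : G) • α = g • α := hn
    have h1 : (n : G)⁻¹ * g ∈ MulAction.stabilizer G α := by
      rw [MulAction.mem_stabilizer_iff, mul_smul, ← hn', inv_smul_smul]
    have h2 : (n : G) ∈ Subgroup.normalizer (L : Set G) := by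
      rw [Subgroup.mem_normalizer_iff]
      intro l
      constructor
      · intro hl
        have := setLike_mul_comm (s := N) n.2 (hL hl)
        rwa [this, mul_inv_cancel_right]
      · intro hl
        have := setLike_mul_comm (s := N) (inv_mem n.2) (hL hl)
        have e : l = (n : G)⁻¹ * ((n : G) * l * (n : G)⁻¹) * n := by group
        rw [e, this, inv_mul_cancel_right]
        exact hl
    simpa using mul_mem h2 (hstab h1)
  rcases eq_or_ne L ⊥ with hb | hb
  · exact Or.inl hb
  right
  refine le_antisymm hL fun n hn => ?_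
  have hfp : MulAction.fixedPoints L Ω ≠ Set.univ := by
    obtain ⟨l, hl, hl1⟩ := (Subgroup.bot_or_exists_ne_one L).resolve_left hb
    intro hu
    refine hl1 (eq_of_smul_eq_smul (α := Ω) fun z => ?_)
    rw [one_smul]
    have hz : z ∈ MulAction.fixedPoints L Ω := by rw [hu]; trivial
    exact hz ⟨l, hl⟩
  haveI := MulAction.IsQuasiPreprimitive.isPretransitive_of_normal (G := G) hfp
  obtain ⟨l, hl⟩ := MulAction.exists_smul_eq L α (n • α)
  have : (⟨(l : G)⁻¹ * n, mul_mem (inv_mem (hL l.2)) hn⟩ : N) ∈ MulAction.stabilizer N α := by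
    rw [MulAction.mem_stabilizer_iff, Subgroup.mk_smul, mul_smul, inv_smul_eq_iff]
    exact hl.symm
  rw [hNreg α, Subgroup.mem_bot] at this
  exact (inv_mul_eq_one.mp (congrArg Subtype.val this)) ▸ l.2

end Cfsg.Agent.S3495
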