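import Cfsg.Statements.S3496
import Cfsg.Agent.Perm.ExtremelyPrimitiveAbelian
import Cfsg.Agent.S3495
import Cfsg.Agent.MinNormal.Primitive

set_option autoImplicit false
open Cfsg

namespace Cfsg.Agent.S3496

/-- An abelian group with two independent fixed-point-free elements of order `q` on a module with no `q`-torsion is impossible. -/
theorem eq_zero_of_two_fpf {V : Type*} [AddCommGroup V] {A : Type*} [CommGroup A] (q : ℕ) [Fact q.Prime]
    (hA : ∀ x : A, x ^ q = 1) (act : A → V →+ V) (hact1 : ∀ v, act 1 v = v)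
    (hactmul : ∀ a b v, act (a * b) v = act a (act b v))
    (hfpf : ∀ a, a ≠ 1 → ∀ v, act a v = v → v = 0)
    (a b : A) (hb : b ≠ 1) (hab : a ∉ Subgroup.zpowers b) (v : V) : q • v = 0 := by
  have hq : q.Prime := Fact.out
  haveI : NeZero q := ⟨hq.ne_zero⟩
  have N0 : ∀ c : A, c ≠ 1 → ∀ w, ∑ j : ZMod q, act (c ^ j.val) w = 0 := by
    intro c hc w
    refine hfpf c hc _ ?_
    rw [map_sum]
    refine Fintype.sum_equiv (Equiv.addRight (1 : ZMod q)) _ _ fun j => ?_
    rw [← hactmul, ← pow_succ']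
    congr 2
    rw [Equiv.coe_addRight, ZMod.val_add, ZMod.val_one, pow_eq_pow_mod (j.val + 1) (hA c)]
  have hline : ∀ i : ZMod q, a * b ^ i.val ≠ 1 := fun i h =>
    hab ((eq_inv_of_mul_eq_one_left h).symm ▸ inv_mem (Subgroup.npow_mem_zpowers b i.val))
  have h1 : ∑ i : ZMod q, ∑ j : ZMod q, act ((a * b ^ i.val) ^ j.val) v = 0 :=
    Finset.sum_eq_zero fun i _ => N0 _ (hline i) v
  rw [Finset.sum_comm, Finset.sum_eq_single (0 : ZMod q)] at h1
  · simpa [hact1, ZMod.val_zero] using h1
  · intro j _ hj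
    have e : ∀ i : ZMod q, act ((a * b ^ i.val) ^ j.val) v = act (a ^ j.val) (act (b ^ (i * j).val) v) := by
      intro i
      rw [← hactmul, mul_pow, ← pow_mul, ZMod.val_mul, ← pow_eq_pow_mod (i.val * j.val) (hA b)]
    simp only [e, ← map_sum]
    have : ∑ i : ZMod q, act (b ^ (i * j).val) v = ∑ i : ZMod q, act (b ^ i.val) v :=
      Fintype.sum_equiv (Equiv.mulRight₀ j hj) _ _ fun i => rfl
    rw [this, N0 b hb, map_zero]
  · intro h; exact absurd (Finset.mem_univ _) h

/-- A prime-order element acting irreducibly on `F_p^d` and its normaliser. -/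
theorem irreducible_prime_element {H : Type*} [Group H] (p q d : ℕ) [Fact p.Prime] [Fact q.Prime] {V : Type*}
    [AddCommGroup V] [Module (ZMod p) V] [Finite V] [Nontrivial V] (hV : Nat.card V = p ^ d) (C : H → V →+ V)
    (hC1 : ∀ v, C 1 v = v) (hCmul : ∀ x y v, C (x * y) v = C x (C y v))
    (a : H) (ha : a ^ q = 1) (hirr : ∀ W : AddSubgroup V, (∀ w ∈ W, C a w ∈ W) → W = ⊥ ∨ W = ⊤)
    (K : Subgroup H) (hnorm : ∀ k ∈ K, k * a * k⁻¹ ∈ Submonoid.powers a)
    (hfaith : ∀ k ∈ K, (∀ v, C (k * a * k⁻¹) v = C a v) → k = 1) :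
    (∀ i : ℕ, 0 < i → i < d → ¬ q ∣ p ^ i - 1) ∧ Nat.card K ∣ d ∧ IsCyclic K := by
  classical
  have hp : p.Prime := Fact.out
  let ρ : H →* Module.End (ZMod p) V :=
    { toFun := fun x => (C x).toZModLinearMap p
      map_one' := LinearMap.ext fun v => hC1 v
      map_mul' := fun x y => LinearMap.ext fun v => hCmul x y v }
  have hρ : ∀ x v, ρ x v = C x v := fun x v => rfl
  let S : Subalgebra (ZMod p) (Module.End (ZMod p) V) := Algebra.adjoin (ZMod p) {ρ a}
  have hu : ρ a ∈ S := Algebra.self_mem_adjoin_singleton (ZMod p) _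
  letI : CommRing S :=
    { (inferInstance : Ring S) with
      mul_comm := (inferInstance : IsMulCommutative S).is_comm.comm }
  have hcomm : ∀ s ∈ S, ∀ v, s (ρ a v) = ρ a (s v) := by
    intro s hs v
    have := congrArg Subtype.val (mul_comm (⟨s, hs⟩ : S) ⟨ρ a, hu⟩)
    exact LinearMap.congr_fun this v
  have hinj : ∀ s : S, s ≠ 0 → ∀ v, (s : Module.End (ZMod p) V) v = 0 → v = 0 := by
    intro s hs v hv
    rcases hirr (LinearMap.ker (s : Module.End (ZMod p) V)).toAddSubgroup (fun w hw => by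
      rw [Submodule.mem_toAddSubgroup, LinearMap.mem_ker] at hw ⊢
      rw [← hρ, hcomm _ s.2, hw, map_zero]) with h | h
    · have : v ∈ (LinearMap.ker (s : Module.End (ZMod p) V)).toAddSubgroup := hv
      rw [h] at this
      exact this
    · refine absurd (Subtype.ext (LinearMap.ext fun w => ?_)) hs
      have hw : w ∈ (LinearMap.ker (s : Module.End (ZMod p) V)).toAddSubgroup := h.symm ▸ AddSubgroup.mem_top w
      exact hw
  haveI : Nontrivial S := by
    refine ⟨⟨1, 0, fun h => ?_⟩⟩
    obtain ⟨v, hv⟩ := exists_ne (0 : V)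
    exact hv (by simpa using LinearMap.congr_fun (congrArg Subtype.val h) v)
  haveI : NoZeroDivisors S := ⟨fun {s t} hst => by
    by_contra hc
    push_neg at hc
    obtain ⟨v, hv⟩ := exists_ne (0 : V)
    have : (s : Module.End (ZMod p) V) ((t : Module.End (ZMod p) V) v) = 0 := LinearMap.congr_fun (congrArg Subtype.val hst) v
    exact hv (hinj t hc.2 v (hinj s hc.1 _ this))⟩
  haveI : IsDomain S := NoZeroDivisors.to_isDomain S
  haveI : Finite S := Finite.of_injective (fun s : S => ((s : Module.End (ZMod p) V) : V → V))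
    (fun s t h => Subtype.ext (LinearMap.ext (congrFun h)))
  letI : Field S := (Finite.isField_of_domain S).toField
  obtain ⟨x, hx⟩ := exists_ne (0 : V)
  have hev : Function.Bijective (fun s : S => (s : Module.End (ZMod p) V) x) := by
    refine ⟨fun s t h => by_contra fun hne => hx (hinj (s - t) (sub_ne_zero.mpr hne) x (by simpa [sub_eq_zero] using h)), ?_⟩
    let W : AddSubgroup V := (((LinearMap.applyₗ (R := ZMod p) x).comp S.toSubmodule.subtype).range).toAddSubgroup
    rcases hirr W (by rintro _ ⟨s, rfl⟩; exact ⟨⟨ρ a * (s : Module.End (ZMod p) V), S.mul_mem hu s.2⟩, rfl⟩) with h | h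
    · exfalso
      have hxW : x ∈ W := ⟨⟨1, one_mem S⟩, rfl⟩
      rw [h] at hxW
      exact hx hxW
    · intro v
      obtain ⟨⟨s, hs⟩, hsv⟩ := (h.symm ▸ AddSubgroup.mem_top v : v ∈ W)
      exact ⟨⟨s, hs⟩, hsv⟩
  have hcardS : Nat.card S = p ^ d := (Nat.card_eq_of_bijective _ hev).trans hV
  haveI : CharP S p := charP_of_injective_algebraMap (algebraMap (ZMod p) S).injective p
  haveI : Fintype S := Fintype.ofFinite S
  refine ⟨fun i hi hid hdvd => ?_, ?_⟩
  · obtain ⟨c, hc⟩ := hdvd
    have hfix : ∀ s : S, s ^ p ^ i = s := by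
      rintro ⟨s, hs⟩
      apply Subtype.ext
      show s ^ p ^ i = s
      have hprop : ∀ s' : S, ((s' ^ p ^ i : S) = s') ↔ (s' : Module.End (ZMod p) V) ^ p ^ i = s' := fun s' => Subtype.ext_iff
      induction hs using Algebra.adjoin_induction with
      | mem y hy =>
        obtain rfl := Set.mem_singleton_iff.mp hy
        have : p ^ i = q * c + 1 := by have := Nat.one_le_pow i p hp.pos; omega
        rw [this, pow_succ, ← map_pow, ← map_mul, pow_mul, ha, one_pow, one_mul]
      | algebraMap r =>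
        rw [← map_pow, ZMod.pow_card_pow]
      | add y z hy hz hy' hz' =>
        have := (hprop (⟨y, hy⟩ + ⟨z, hz⟩)).mp (by
          rw [add_pow_char_pow, (hprop ⟨y, hy⟩).mpr hy', (hprop ⟨z, hz⟩).mpr hz'])
        exact this
      | mul y z hy hz hy' hz' =>
        have := (hprop (⟨y, hy⟩ * ⟨z, hz⟩)).mp (by
          rw [mul_pow, (hprop ⟨y, hy⟩).mpr hy', (hprop ⟨z, hz⟩).mpr hz'])
        exact this
    have hlt : 1 < p ^ i := Nat.one_lt_pow hi.ne' hp.one_lt
    have hne : (Polynomial.X ^ p ^ i - Polynomial.X : Polynomial S) ≠ 0 := FiniteField.X_pow_card_sub_X_ne_zero S hlt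
    have hroots : (Finset.univ : Finset S) ⊆ (Polynomial.X ^ p ^ i - Polynomial.X : Polynomial S).roots.toFinset := by
      intro s _
      rw [Multiset.mem_toFinset, Polynomial.mem_roots hne]
      simp [hfix s]
    have h1 := (Finset.card_le_card hroots).trans ((Multiset.toFinset_card_le _).trans (Polynomial.card_roots' _))
    rw [FiniteField.X_pow_card_sub_X_natDegree_eq S hlt, Finset.card_univ, ← Nat.card_eq_fintype_card, hcardS] at h1
    exact absurd h1 (not_le.mpr (Nat.pow_lt_pow_right hp.one_lt hid))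
  · have hmem : ∀ (k : K) (s : Module.End (ZMod p) V), s ∈ S → ρ (k : H) * s * ρ ((k : H)⁻¹) ∈ S := by
      intro k s hs
      have hki : ρ (k : H) * ρ ((k : H)⁻¹) = 1 := by rw [← map_mul, mul_inv_cancel, map_one]
      have hik : ρ ((k : H)⁻¹) * ρ (k : H) = 1 := by rw [← map_mul, inv_mul_cancel, map_one]
      induction hs using Algebra.adjoin_induction with
      | mem y hy =>
        obtain rfl := Set.mem_singleton_iff.mp hy
        obtain ⟨m, hm⟩ := hnorm k k.2
        rw [← map_mul, ← map_mul, ← hm, map_pow]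
        exact pow_mem hu m
      | algebraMap r =>
        rw [← Algebra.commutes r (ρ (k : H)), mul_assoc, hki, mul_one]
        exact S.algebraMap_mem r
      | add y z _ _ hy hz => rw [mul_add, add_mul]; exact add_mem hy hz
      | mul y z _ _ hy hz =>
        have e : ρ (k : H) * (y * z) * ρ ((k : H)⁻¹) = (ρ (k : H) * y * ρ ((k : H)⁻¹)) * (ρ (k : H) * z * ρ ((k : H)⁻¹)) := by
          calc _ = ρ (k : H) * y * 1 * z * ρ ((k : H)⁻¹) := by simp [mul_assoc]
            _ = _ := by rw [← hik]; simp [mul_assoc]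
        rw [e]; exact mul_mem hy hz
    let conjS : K → S →ₐ[ZMod p] S := fun k => AlgHom.ofLinearMap
      { toFun := fun s => ⟨ρ (k : H) * s * ρ ((k : H)⁻¹), hmem k s s.2⟩
        map_add' := fun s t => Subtype.ext (by simp [mul_add, add_mul])
        map_smul' := fun r s => Subtype.ext (by simp) }
      (Subtype.ext (by simp [← map_mul]))
      (fun s t => Subtype.ext (by
        show ρ (k : H) * ((s : Module.End (ZMod p) V) * t) * ρ ((k : H)⁻¹) = (ρ (k : H) * s * ρ ((k : H)⁻¹)) * (ρ (k : H) * t * ρ ((k : H)⁻¹))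
        calc _ = ρ (k : H) * (s : Module.End (ZMod p) V) * (ρ ((k : H)⁻¹) * ρ (k : H)) * t * ρ ((k : H)⁻¹) := by
              rw [← map_mul, inv_mul_cancel, map_one]; simp [mul_assoc]
          _ = _ := by simp [mul_assoc]))
    haveI : Module.Finite (ZMod p) S := Module.Finite.of_finite
    let Φ : K →* (S ≃ₐ[ZMod p] S) :=
      { toFun := fun k => AlgEquiv.ofBijective (conjS k) (Finite.injective_iff_bijective.mp (conjS k).toRingHom.injective)
        map_one' := AlgEquiv.ext fun s => Subtype.ext (by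
          show ρ ((1 : K) : H) * (s : Module.End (ZMod p) V) * ρ (((1 : K) : H)⁻¹) = s
          simp)
        map_mul' := fun k l => AlgEquiv.ext fun s => Subtype.ext (by
          show ρ ((k * l : K) : H) * (s : Module.End (ZMod p) V) * ρ (((k * l : K) : H)⁻¹) =
            ρ (k : H) * (ρ (l : H) * (s : Module.End (ZMod p) V) * ρ ((l : H)⁻¹)) * ρ ((k : H)⁻¹)
          simp [mul_assoc]) }
    have hΦ : Function.Injective Φ := by
      rw [← MonoidHom.ker_eq_bot_iff, Subgroup.eq_bot_iff_forall]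
      intro k hk
      refine Subtype.ext (hfaith k k.2 fun v => ?_)
      have := congrArg Subtype.val (AlgEquiv.congr_fun hk (⟨ρ a, hu⟩ : S))
      change ρ (k : H) * ρ a * ρ ((k : H)⁻¹) = ρ a at this
      rw [← map_mul, ← map_mul] at this
      exact LinearMap.congr_fun this v
    have hrank : Module.finrank (ZMod p) S = d := by
      have h1 : Nat.card S = Nat.card (ZMod p) ^ Module.finrank (ZMod p) S := Module.natCard_eq_pow_finrank
      rw [Nat.card_zmod, hcardS] at h1
      exact (Nat.pow_right_injective hp.two_le h1).symm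
    refine ⟨?_, isCyclic_of_injective Φ hΦ⟩
    rw [← hrank, ← IsGalois.card_aut_eq_finrank (ZMod p) S]
    exact Subgroup.card_dvd_of_injective Φ hΦ


/-- The soluble extremely primitive groups. Let a finite solvable group G act faithfully and primitively on a finite set Ω with p ^ d points (p prime), with non-trivial point stabilizers each acting primitively on every one of its orbits. Then there is a prime q such that every orbit of a point stabilizer G_α other than {α} has exactly q points, q divides p ^ d − 1 but no p ^ i − 1 with 0 < i < d, and G_α has a normal subgroup T of order q with G_α generated by T and one further element and the order of G_α dividing q·d (so G_α is cyclic of order q, or an extension of T by a cyclic group of order dividing d). -/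
theorem result {G : Type*} [Group G] [Finite G] {Ω : Type*} [Fintype Ω] [MulAction G Ω] [FaithfulSMul G Ω] [Group.IsSolvable G] (p d : ℕ) (hp : p.Prime) (hcard : Fintype.card Ω = p ^ d)
    (hprim : MulAction.IsPreprimitive G Ω) (hH : ∀ α : Ω, MulAction.stabilizer G α ≠ ⊥) (hep : ∀ (α : Ω) (ω : Ω), MulAction.IsPreprimitive (MulAction.stabilizer G α) (MulAction.orbit (MulAction.stabilizer G α) ω)) (α : Ω) :
    ∃ q : ℕ, q.Prime ∧ (∀ ω : Ω, ω ≠ α → Nat.card (MulAction.orbit (MulAction.stabilizer G α) ω) = q) ∧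
      q ∣ p ^ d - 1 ∧ (∀ i : ℕ, 0 < i → i < d → ¬ q ∣ p ^ i - 1) ∧
      ∃ T : Subgroup G, T ≤ MulAction.stabilizer G α ∧ MulAction.stabilizer G α ≤ Subgroup.normalizer (T : Set G) ∧ Nat.card T = q ∧
        (∃ h : G, MulAction.stabilizer G α = T ⊔ Subgroup.zpowers h) ∧ Nat.card (MulAction.stabilizer G α) ∣ q * d := by
  classical
  haveI := hprim
  haveI := Fact.mk hp
  haveI hΩ : Nonempty Ω := ⟨α⟩
  haveI : Nontrivial G := by
    by_contra hc
    rw [not_nontrivial_iff_subsingleton] at hc
    exact hH α (Subgroup.eq_bot_of_subsingleton _)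
  obtain ⟨N, hN⟩ := CfsgLib.MinNormal.exists_isMinNormal (G := G)
  haveI hNn := hN.normal
  haveI hNc : IsMulCommutative N := hN.isMulCommutative_of_isSolvable inferInstance
  haveI hNt := CfsgLib.MinNormal.isPretransitive_of_normal (X := Ω) hN.normal hN.ne_bot
  have hNreg := fun x : Ω => CfsgLib.MinNormal.stabilizer_eq_bot_of_commutative (N := N) hNc x
  have ebij : Function.Bijective (fun n : N => n • α) := by
    refine ⟨fun a b hab => ?_, fun w => MulAction.exists_smul_eq N α w⟩
    have : b⁻¹ * a ∈ MulAction.stabilizer N α := by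
      rw [MulAction.mem_stabilizer_iff, mul_smul, inv_smul_eq_iff]; exact hab
    rw [hNreg α, Subgroup.mem_bot] at this
    exact (inv_mul_eq_one.mp this).symm
  have hNcard : Nat.card N = p ^ d := (Nat.card_eq_of_bijective _ ebij).trans (by rw [Nat.card_eq_fintype_card, hcard])
  obtain ⟨r, hr, hNel⟩ := hN.exists_prime_pow_eq_one hNc
  have hrp : r = p := by
    obtain ⟨n, hn, hn1⟩ := (Subgroup.bot_or_exists_ne_one N).resolve_left hN.ne_bot
    have h1 : orderOf n = r := (hr.eq_one_or_self_of_dvd _ (orderOf_dvd_of_pow_eq_one (hNel n hn))).resolve_left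
      (fun h => hn1 (orderOf_eq_one_iff.mp h))
    have h2 : r ∣ p ^ d := h1 ▸ hNcard ▸ (Subgroup.orderOf_dvd_natCard N hn)
    exact (Nat.prime_dvd_prime_iff_eq hr hp).mp (hr.dvd_of_dvd_pow h2)
  subst hrp
  set H := MulAction.stabilizer G α with hHdef
  haveI : Nontrivial H := (Subgroup.nontrivial_iff_ne_bot _).mpr (hH α)
  obtain ⟨A', hA'⟩ := CfsgLib.MinNormal.exists_isMinNormal (G := H)
  obtain ⟨q, hq, hA'c, -, hA'el⟩ := hA'.exists_elementary_of_isSolvable inferInstance
  haveI := Fact.mk hq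
  set A := (A'.map H.subtype : Subgroup G) with hA
  have hAH : A ≤ H := Subgroup.map_subtype_le A'
  have hA1 : A ≠ ⊥ := fun h => hA'.ne_bot ((Subgroup.map_eq_bot_iff_of_injective _ H.subtype_injective).mp h)
  have hAc : ∀ a ∈ A, ∀ b ∈ A, a * b = b * a := by
    rintro _ ⟨a, ha, rfl⟩ _ ⟨b, hb, rfl⟩
    rw [← map_mul, ← map_mul, setLike_mul_comm (s := A') ha hb]
  have hAn : H ≤ Subgroup.normalizer (A : Set G) := by
    intro h hh
    rw [Subgroup.mem_normalizer_iff]
    intro m
    constructor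
    · rintro ⟨z, hz, rfl⟩
      exact ⟨_, hA'.normal.conj_mem z hz ⟨h, hh⟩, by simp⟩
    · rintro ⟨z, hz, hzm⟩
      refine ⟨_, hA'.normal.conj_mem z hz ⟨h, hh⟩⁻¹, ?_⟩
      simp only [Subgroup.coe_subtype, Subgroup.coe_mul, Subgroup.coe_inv] at hzm ⊢
      rw [hzm]; simp [mul_assoc]
  have hAel : ∀ a ∈ A, a ^ q = 1 := by
    rintro _ ⟨a, ha, rfl⟩
    rw [← map_pow, hA'el a ha, map_one]
  have hep' : CfsgLib.Perm.IsExtremelyPrimitive G Ω := hep
  have horb := CfsgLib.Perm.orbit_eq_of_normalized hH hep' α A hA1 hAH hAn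
  have hfree : ∀ m ∈ A, ∀ ω : Ω, ω ≠ α → m • ω = ω → m = 1 :=
    fun m hm ω hω he => CfsgLib.Perm.eq_one_of_fixes_point hH hep' hAH hAn hAc hm hω he
  have hsize : ∀ ω : Ω, ω ≠ α → Nat.card (MulAction.orbit H ω) = Nat.card A := by
    intro ω hω
    rw [← horb ω]
    have hs : MulAction.stabilizer A ω = ⊥ := (Subgroup.eq_bot_iff_forall _).mpr fun m hm =>
      Subtype.ext (hfree m m.2 ω hω hm)
    have := MulAction.index_stabilizer A ω
    rw [hs, Subgroup.index_bot] at this
    exact this.symm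
  have hdvd : Nat.card A ∣ r ^ d - 1 := hcard ▸ CfsgLib.Perm.card_dvd_sub_one hH hep' hAH hAn hAc
  have hd : d ≠ 0 := by
    rintro rfl
    rw [pow_zero] at hNcard
    exact hN.ne_bot (Subgroup.eq_bot_of_card_eq N hNcard)
  have hqp : ¬ q ∣ r := by
    intro h
    obtain ⟨a, ha, ha1⟩ := (Subgroup.bot_or_exists_ne_one A).resolve_left hA1
    have hqA : q ∣ Nat.card A := by
      have := Subgroup.orderOf_dvd_natCard A ha
      rwa [(hq.eq_one_or_self_of_dvd _ (orderOf_dvd_of_pow_eq_one (hAel a ha))).resolve_left (fun h => ha1 (orderOf_eq_one_iff.mp h))] at this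
    have h1 : q ∣ r ^ d := dvd_pow h hd
    have h2 : q ∣ 1 := (Nat.dvd_sub h1 (hqA.trans hdvd)).trans (by
      rw [Nat.sub_sub_self (Nat.one_le_pow d r hr.pos)])
    exact hq.not_dvd_one h2
  -- the module
  letI : CommGroup N :=
    { (inferInstance : Group N) with mul_comm := fun a b => Subtype.ext (setLike_mul_comm (s := N) a.2 b.2) }
  have hmod : ∀ v : Additive N, r • v = 0 := fun v => by
    refine Additive.toMul.injective ?_
    rw [toMul_nsmul, toMul_zero]
    exact Subtype.ext (by simpa using hNel _ (Additive.toMul v).2)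
  letI : Module (ZMod r) (Additive N) := AddCommGroup.zmodModule hmod
  haveI : Nontrivial N := (Subgroup.nontrivial_iff_ne_bot _).mpr hN.ne_bot
  let C : G → Additive N →+ Additive N := fun x =>
    AddMonoidHom.mk' (fun v => Additive.ofMul (⟨x * (Additive.toMul v : N) * x⁻¹, Subgroup.Normal.conj_mem inferInstance _ (Additive.toMul v).2 x⟩ : N))
      (fun u v => Additive.toMul.injective (Subtype.ext (by simp [mul_assoc])))
  have hC1 : ∀ v, C 1 v = v := fun v => Additive.toMul.injective (Subtype.ext (by simp [C]))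
  have hCmul : ∀ x y v, C (x * y) v = C x (C y v) := fun x y v => Additive.toMul.injective (Subtype.ext (by simp [C, mul_assoc]))
  have hval : ∀ x v, ((Additive.toMul (C x v) : N) : G) = x * ((Additive.toMul v : N) : G) * x⁻¹ := fun x v => rfl
  have hfixC : ∀ a ∈ A, a ≠ 1 → ∀ v, C a v = v → v = 0 := by
    intro a ha ha1 v hv
    by_contra hv0
    have hne : ((Additive.toMul v : N) : G) • α ≠ α := by
      intro he
      refine hv0 (Additive.toMul.injective (ebij.1 ?_))
      show ((Additive.toMul v : N) : G) • α = ((1 : N) : G) • α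
      rw [he, Subgroup.coe_one, one_smul]
    refine ha1 (hfree a ha _ hne ?_)
    have h1 := hval a v
    rw [hv] at h1
    have hα : a • α = α := hAH ha
    conv_rhs => rw [h1]
    rw [mul_smul, mul_smul, show a⁻¹ • α = α by rw [inv_smul_eq_iff, hα]]
  -- `A` is cyclic of order `q`
  obtain ⟨a, ha, ha1⟩ := (Subgroup.bot_or_exists_ne_one A).resolve_left hA1
  have hAz : A = Subgroup.zpowers a := by
    refine le_antisymm (fun b hb => ?_) (Subgroup.zpowers_le.mpr ha)
    by_contra hba
    letI : CommGroup A := { (inferInstance : Group A) with mul_comm := fun x y => Subtype.ext (hAc x x.2 y y.2) }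
    obtain ⟨v, hv⟩ := exists_ne (0 : Additive N)
    have hqv : q • v = 0 := eq_zero_of_two_fpf q (A := A) (fun x => Subtype.ext (by simpa using hAel x x.2))
      (fun x => C x) hC1 (fun x y w => hCmul x y w) (fun x hx w hw => hfixC x x.2 (fun e => hx (Subtype.ext e)) w hw)
      ⟨b, hb⟩ ⟨a, ha⟩ (fun e => ha1 (congrArg Subtype.val e)) (fun hmem => hba (by
        obtain ⟨k, hk⟩ := hmem
        exact ⟨k, by simpa using congrArg Subtype.val hk⟩)) v
    have h1 := addOrderOf_dvd_of_nsmul_eq_zero hqv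
    have h2 := addOrderOf_dvd_of_nsmul_eq_zero (hmod v)
    have h3 : addOrderOf v ∣ 1 := by
      have := Nat.dvd_gcd h1 h2
      rwa [(hq.coprime_iff_not_dvd.mpr hqp).gcd_eq_one] at this
    exact hv (AddMonoid.addOrderOf_eq_one_iff.mp (Nat.dvd_one.mp h3))
  have hao : orderOf a = q := (hq.eq_one_or_self_of_dvd _ (orderOf_dvd_of_pow_eq_one (hAel a ha))).resolve_left
    (fun h => ha1 (orderOf_eq_one_iff.mp h))
  have hAcard : Nat.card A = q := by rw [hAz, Nat.card_zpowers, hao]
  -- irreducibility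
  have hirr : ∀ W : AddSubgroup (Additive N), (∀ w ∈ W, C a w ∈ W) → W = ⊥ ∨ W = ⊤ := by
    intro W hW
    rcases eq_or_ne W ⊥ with hb | hb
    · exact Or.inl hb
    right
    obtain ⟨w, hw, hw0⟩ : ∃ w ∈ W, w ≠ 0 := by
      by_contra hc
      push_neg at hc
      exact hb ((AddSubgroup.eq_bot_iff_forall _).mpr hc)
    let L : Subgroup G := (AddSubgroup.toSubgroup' W).map N.subtype
    have hLn : A ≤ Subgroup.normalizer (L : Set G) := by
      have hstep : ∀ k : ℕ, ∀ v ∈ W, C (a ^ k) v ∈ W := by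
        intro k
        induction k with
        | zero => intro v hv; rwa [pow_zero, hC1]
        | succ m ih => intro v hv; rw [pow_succ', hCmul]; exact hW _ (ih v hv)
      intro b hb
      have hpow : ∀ b ∈ A, ∀ l ∈ L, b * l * b⁻¹ ∈ L := by
        rintro b hb _ ⟨l, hl, rfl⟩
        rw [hAz] at hb
        obtain ⟨k, hk⟩ := mem_powers_iff_mem_zpowers.mpr hb
        refine ⟨Additive.toMul (C (a ^ k) (Additive.ofMul l)), hstep k _ hl, ?_⟩
        simp only [Subgroup.coe_subtype, hval, hk, toMul_ofMul]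
      rw [Subgroup.mem_normalizer_iff]
      refine fun l => ⟨hpow b hb l, fun hl => ?_⟩
      have := hpow b⁻¹ (inv_mem hb) _ hl
      simpa [mul_assoc] using this
    have hLN : L = ⊥ ∨ L = N := (Cfsg.Agent.S3495.result hprim hH hep N hNc r hr hNel hNt hNreg α A hA1 hAH hAn).2 L
      (Subgroup.map_subtype_le _) hLn
    rcases hLN with h | h
    · exfalso
      have : ((Additive.toMul w : N) : G) ∈ L := ⟨Additive.toMul w, hw, rfl⟩
      rw [h, Subgroup.mem_bot] at this
      exact hw0 (Additive.toMul.injective (Subtype.ext this))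
    · refine eq_top_iff.mpr fun v _ => ?_
      obtain ⟨v', hv', he⟩ : ((Additive.toMul v : N) : G) ∈ L := h.symm ▸ (Additive.toMul v).2
      have : v' = Additive.toMul v := Subtype.ext he
      rw [this] at hv'
      exact hv'
  obtain ⟨ω, hω⟩ : ∃ ω : Ω, ω ≠ α := by
    by_contra hc
    push_neg at hc
    exact ha1 (eq_of_smul_eq_smul (α := Ω) fun z => by rw [hc (a • z), hc ((1 : G) • z)])
  let K : Subgroup G := H ⊓ MulAction.stabilizer G ω
  have key := irreducible_prime_element r q d (V := Additive N)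
    ((Nat.card_congr Additive.toMul).trans hNcard) C hC1 hCmul a (by rw [← hao, pow_orderOf_eq_one]) hirr K
    (fun k hk => by
      have : k * a * k⁻¹ ∈ Subgroup.zpowers a := hAz ▸ (Subgroup.mem_normalizer_iff.mp (hAn hk.1) a).mp ha
      exact mem_powers_iff_mem_zpowers.mpr this)
    (fun k hk hv => by
      have hc : k * a * k⁻¹ = a := by
        have hd' : (k * a * k⁻¹)⁻¹ * a ∈ A :=
          mul_mem (inv_mem ((Subgroup.mem_normalizer_iff.mp (hAn hk.1) a).mp ha)) ha
        by_contra hne
        obtain ⟨v, hv0⟩ := exists_ne (0 : Additive N)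
        refine hv0 (hfixC _ hd' (fun e => hne (inv_mul_eq_one.mp e)) v ?_)
        rw [hCmul, ← hv v, ← hCmul, inv_mul_cancel, hC1]
      have hkA : k ∈ A := by
        refine CfsgLib.Perm.mem_of_centralizes hH hep' hA1 hAH hAn hAc hk.1 fun m hm => ?_
        rw [hAz] at hm
        obtain ⟨j, rfl⟩ := hm
        exact (show Commute k a from mul_inv_eq_iff_eq_mul.mp hc).zpow_right j
      exact hfree k hkA ω hω hk.2)
  obtain ⟨hndvd, hKd, hKc⟩ := key
  haveI := hKc
  obtain ⟨⟨h, hh⟩, hgen⟩ := IsCyclic.exists_generator (α := K)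
  have hprod : ∀ x ∈ H, ∃ b ∈ A, ∃ k ∈ K, x = b * k := by
    intro x hx
    obtain ⟨⟨b, hb⟩, hb'⟩ : x • ω ∈ MulAction.orbit A ω := by rw [horb ω]; exact ⟨⟨x, hx⟩, rfl⟩
    refine ⟨b, hb, b⁻¹ * x, Subgroup.mem_inf.mpr ⟨mul_mem (inv_mem (hAH hb)) hx, ?_⟩, by group⟩
    show (b⁻¹ * x) • ω = ω
    rw [mul_smul, inv_smul_eq_iff]
    exact hb'.symm
  refine ⟨q, hq, fun ω' hω' => (hsize ω' hω').trans hAcard, hAcard ▸ hdvd, hndvd, A, hAH, hAn, hAcard, ⟨h, ?_⟩, ?_⟩
  · refine le_antisymm (fun x hx => ?_) (sup_le hAH (Subgroup.zpowers_le.mpr hh.1))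
    obtain ⟨b, hb, k, hk, rfl⟩ := hprod x hx
    refine mul_mem (Subgroup.mem_sup_left hb) (Subgroup.mem_sup_right ?_)
    obtain ⟨j, hj⟩ := hgen ⟨k, hk⟩
    exact ⟨j, by simpa using congrArg Subtype.val hj⟩
  · have h1 : Nat.card H = Nat.card A * Nat.card K := by
      rw [← Nat.card_prod]
      refine (Nat.card_eq_of_bijective (fun x : A × K => (⟨x.1 * x.2, mul_mem (hAH x.1.2) x.2.2.1⟩ : H)) ⟨?_, ?_⟩).symm
      · rintro ⟨⟨b, hb⟩, ⟨k, hk⟩⟩ ⟨⟨b', hb'⟩, ⟨k', hk'⟩⟩ he
        have he' : b * k = b' * k' := congrArg Subtype.val he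
        have h2 : b'⁻¹ * b = k' * k⁻¹ := by
          rw [inv_mul_eq_iff_eq_mul, ← mul_assoc, ← he', mul_inv_cancel_right]
        have h3 : b'⁻¹ * b = 1 := by
          refine hfree _ (mul_mem (inv_mem hb') hb) ω hω ?_
          rw [h2]
          exact (MulAction.stabilizer G ω).mul_mem hk'.2 ((MulAction.stabilizer G ω).inv_mem hk.2)
        have hbb : b' = b := inv_mul_eq_one.mp h3
        subst hbb
        have : k = k' := mul_left_cancel he'
        subst this
        rfl
      · rintro ⟨x, hx⟩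
        obtain ⟨b, hb, k, hk, rfl⟩ := hprod x hx
        exact ⟨(⟨b, hb⟩, ⟨k, hk⟩), rfl⟩
    rw [h1, hAcard]
    exact Nat.mul_dvd_mul_left q hKd

end Cfsg.Agent.S3496
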