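import Cfsg.Statements.S3497
import Cfsg.Agent.Perm.ExtremelyPrimitiveAbelian
import Cfsg.Agent.Eq.Def_Solvable

set_option autoImplicit false
open Cfsg

namespace Cfsg.Agent.S3497

/-- A linear representation over `ZMod p` as matrices. -/
theorem lin_rep {H : Type*} [Group H] (p e : ℕ) [Fact p.Prime] {V : Type*} [AddCommGroup V] [Module (ZMod p) V]
    [Finite V] (hV : Nat.card V = p ^ e) (C : H → V →+ V) (h1 : ∀ v, C 1 v = v)
    (hmul : ∀ x y v, C (x * y) v = C x (C y v)) :
    ∃ φ : H →* GL (Fin e) (ZMod p), ∀ x, x ∈ φ.ker ↔ ∀ v, C x v = v := by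
  haveI : Module.Finite (ZMod p) V := Module.Finite.of_finite
  have hdim : Module.finrank (ZMod p) V = e := by
    have h1 := Module.natCard_eq_pow_finrank (K := ZMod p) (V := V)
    rw [Nat.card_zmod, hV] at h1
    exact (Nat.pow_right_injective (Fact.out : p.Prime).two_le h1).symm
  let b := Module.finBasisOfFinrankEq (ZMod p) V hdim
  let ρ : H →* Module.End (ZMod p) V :=
    { toFun := fun x => (C x).toZModLinearMap p
      map_one' := LinearMap.ext fun v => h1 v
      map_mul' := fun x y => LinearMap.ext fun v => hmul x y v }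
  refine ⟨(((LinearMap.toMatrixAlgEquiv b).toRingEquiv.toMonoidHom).comp ρ).toHomUnits, fun x => ?_⟩
  rw [MonoidHom.mem_ker, Units.ext_iff]
  constructor
  · intro hx v
    have hρ : ρ x = 1 := (LinearMap.toMatrixAlgEquiv b).injective (hx.trans (map_one _).symm)
    exact LinearMap.congr_fun hρ v
  · intro hx
    have hρ : ρ x = 1 := LinearMap.ext hx
    exact (congrArg (LinearMap.toMatrixAlgEquiv b) hρ).trans (map_one _)

/-- Linear maps of an elementary abelian normal self-centralizing subgroup given by conjugation. -/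
theorem conj_rep {H : Type*} [Group H] [Finite H] (p e : ℕ) [Fact p.Prime] (F : Subgroup H) [F.Normal] [IsMulCommutative F]
    (hcard : Nat.card F = p ^ e) (hel : ∀ x ∈ F, x ^ p = 1)
    (hsc : ∀ h : H, (∀ z ∈ F, h * z = z * h) → h ∈ F) :
    ∃ φ : H →* GL (Fin e) (ZMod p), φ.ker = F := by
  letI : CommGroup F :=
    { (inferInstance : Group F) with mul_comm := fun a b => Subtype.ext (setLike_mul_comm (s := F) a.2 b.2) }
  have hmod : ∀ v : Additive F, p • v = 0 := fun v => by
    refine Additive.toMul.injective ?_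
    rw [toMul_nsmul, toMul_zero]
    exact Subtype.ext (by simpa using hel _ (Additive.toMul v).2)
  letI : Module (ZMod p) (Additive F) := AddCommGroup.zmodModule hmod
  let C : H → Additive F →+ Additive F := fun x =>
    AddMonoidHom.mk' (fun v => Additive.ofMul (⟨x * (Additive.toMul v : F) * x⁻¹, Subgroup.Normal.conj_mem inferInstance _ (Additive.toMul v).2 x⟩ : F))
      (fun u v => Additive.toMul.injective (Subtype.ext (by simp [mul_assoc])))
  obtain ⟨φ, hφ⟩ := lin_rep p e (V := Additive F) ((Nat.card_congr Additive.toMul).trans hcard) C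
    (fun v => Additive.toMul.injective (Subtype.ext (by simp [C])))
    (fun x y v => Additive.toMul.injective (Subtype.ext (by simp [C, mul_assoc])))
  refine ⟨φ, Subgroup.ext fun x => (hφ x).trans ⟨fun hx => ?_, fun hx v => ?_⟩⟩
  · refine hsc x fun z hz => ?_
    have := congrArg (fun u => ((Additive.toMul u : F) : H)) (hx (Additive.ofMul (⟨z, hz⟩ : F)))
    change x * z * x⁻¹ = z at this
    exact mul_inv_eq_iff_eq_mul.mp this
  · refine Additive.toMul.injective (Subtype.ext ?_)
    show x * ((Additive.toMul v : F) : H) * x⁻¹ = ((Additive.toMul v : F) : H)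
    rw [setLike_mul_comm (s := F) hx (Additive.toMul v).2, mul_inv_cancel_right]


/-- Restrictions on the point stabilizer of an extremely primitive group. Let a finite group G act faithfully and primitively on a finite set Ω with point stabilizers H = G_α whose order is neither 1 nor a prime, each acting primitively on every one of its orbits. Then H has trivial center, the Fitting subgroup F(H) is an elementary abelian p-group for some prime p, and if F(H) ≠ 1 has order p ^ e then p ^ e divides the number of points minus one and H / F(H) embeds in GL_e(p) (there is a homomorphism from H to GL_e(p) with kernel exactly F(H)). -/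
theorem result {G : Type*} [Group G] [Finite G] {Ω : Type*} [Fintype Ω] [MulAction G Ω] [FaithfulSMul G Ω] (hprim : MulAction.IsPreprimitive G Ω) (hep : ∀ (α : Ω) (ω : Ω), MulAction.IsPreprimitive (MulAction.stabilizer G α) (MulAction.orbit (MulAction.stabilizer G α) ω)) (α : Ω)
    (hH1 : MulAction.stabilizer G α ≠ ⊥) (hHp : ¬ (Nat.card (MulAction.stabilizer G α)).Prime) :
    Subgroup.center (MulAction.stabilizer G α) = ⊥ ∧
    IsMulCommutative (Cfsg.fittingSubgroup (MulAction.stabilizer G α)) ∧
    ∃ p e : ℕ, p.Prime ∧ Nat.card (Cfsg.fittingSubgroup (MulAction.stabilizer G α)) = p ^ e ∧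
      (∀ x ∈ Cfsg.fittingSubgroup (MulAction.stabilizer G α), x ^ p = 1) ∧
      (Cfsg.fittingSubgroup (MulAction.stabilizer G α) ≠ ⊥ →
        p ^ e ∣ Fintype.card Ω - 1 ∧
        ∃ φ : MulAction.stabilizer G α →* GL (Fin e) (ZMod p), φ.ker = Cfsg.fittingSubgroup (MulAction.stabilizer G α)) := by
  classical
  haveI := hprim
  have hH : ∀ β : Ω, MulAction.stabilizer G β ≠ ⊥ := by
    intro β hb
    obtain ⟨g, hg⟩ := MulAction.exists_smul_eq G α β
    apply hH1
    rw [← hg, MulAction.stabilizer_smul_eq_stabilizer_map_conj,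
      Subgroup.map_eq_bot_iff_of_injective _ (MulAut.conj g).injective] at hb
    exact hb
  set H := MulAction.stabilizer G α with hHdef
  -- a normal subgroup of `H` as a subgroup of `G`
  have hnorm : ∀ Z : Subgroup H, Z.Normal → H ≤ Subgroup.normalizer ((Z.map H.subtype : Subgroup G) : Set G) := by
    intro Z hZ h hh
    rw [Subgroup.mem_normalizer_iff]
    intro m
    constructor
    · rintro ⟨z, hz, rfl⟩
      exact ⟨_, hZ.conj_mem z hz ⟨h, hh⟩, by simp⟩
    · rintro ⟨z, hz, hzm⟩
      refine ⟨_, hZ.conj_mem z hz ⟨h, hh⟩⁻¹, ?_⟩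
      simp only [Subgroup.coe_subtype, Subgroup.coe_mul, Subgroup.coe_inv] at hzm ⊢
      rw [hzm]; simp [mul_assoc]
  have hab : ∀ Z : Subgroup H, IsMulCommutative Z → ∀ a ∈ (Z.map H.subtype : Subgroup G), ∀ b ∈ (Z.map H.subtype : Subgroup G), a * b = b * a := by
    rintro Z hZ _ ⟨a, ha, rfl⟩ _ ⟨b, hb, rfl⟩
    rw [← map_mul, ← map_mul, setLike_mul_comm (s := Z) ha hb]
  have hne : ∀ Z : Subgroup H, Z ≠ ⊥ → (Z.map H.subtype : Subgroup G) ≠ ⊥ := fun Z hZ h =>
    hZ ((Subgroup.map_eq_bot_iff_of_injective _ H.subtype_injective).mp h)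
  have hle : ∀ Z : Subgroup H, (Z.map H.subtype : Subgroup G) ≤ H := fun Z => Subgroup.map_subtype_le Z
  -- self-centralizing
  have hsc : ∀ Z : Subgroup H, Z.Normal → IsMulCommutative Z → Z ≠ ⊥ →
      ∀ h : H, (∀ z ∈ Z, h * z = z * h) → h ∈ Z := by
    intro Z hn hc hz h hcomm
    obtain ⟨z, hz, he⟩ := CfsgLib.Perm.mem_of_centralizes hH hep (hne Z hz) (hle Z) (hnorm Z hn) (hab Z hc) h.2
      (by rintro _ ⟨z, hz, rfl⟩; exact congrArg Subtype.val (hcomm z hz))
    exact (Subtype.ext he : z = h) ▸ hz
  have hcenter : Subgroup.center H = ⊥ := by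
    by_contra hz
    have htop : Subgroup.center H = ⊤ := eq_top_iff.mpr fun h _ =>
      hsc _ inferInstance inferInstance hz h fun z hz => Subgroup.mem_center_iff.mp hz h
    -- `H` is abelian: every non-trivial subgroup is regular on suborbits
    have hcomm : ∀ a b : H, a * b = b * a := fun a b => (Subgroup.mem_center_iff.mp (htop ▸ Subgroup.mem_top b) a)
    apply hHp
    have hnt : Nontrivial H := (Subgroup.nontrivial_iff_ne_bot _).mpr hH1
    haveI : IsSimpleGroup H := ⟨fun K hK => by
      rcases eq_or_ne K ⊥ with h | h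
      · exact Or.inl h
      · refine Or.inr (eq_top_iff.mpr fun x _ => hsc K hK ⟨⟨fun a b => Subtype.ext (hcomm a b)⟩⟩ h x fun z _ => hcomm x z)⟩
    letI : CommGroup H := { (inferInstance : Group H) with mul_comm := hcomm }
    exact IsSimpleGroup.prime_card
  refine ⟨hcenter, ?_⟩
  -- all normal nilpotent subgroups are contained in one abelian one
  have hnil : ∀ N : Subgroup H, N.Normal → Group.IsNilpotent N → N ≠ ⊥ → IsMulCommutative N := by
    intro N hN hnN hN1
    haveI := hN
    haveI : Nontrivial N := (Subgroup.nontrivial_iff_ne_bot _).mpr hN1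
    set Z := (Subgroup.center N).map N.subtype with hZ
    have hZ1 : Z ≠ ⊥ := by
      rw [hZ, Ne, Subgroup.map_eq_bot_iff_of_injective _ N.subtype_injective]
      haveI := hnN
      exact Group.IsNilpotent.center_ne_bot N
    have hZc : IsMulCommutative Z := ⟨⟨by
      rintro ⟨_, a, ha, rfl⟩ ⟨_, b, hb, rfl⟩
      exact Subtype.ext (by simpa using congrArg Subtype.val (Subgroup.mem_center_iff.mp hb a))⟩⟩
    refine ⟨⟨fun a b => Subtype.ext ?_⟩⟩
    obtain ⟨a', ha', he⟩ := hsc Z inferInstance hZc hZ1 a (by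
      rintro _ ⟨z, hz, rfl⟩
      exact congrArg Subtype.val (Subgroup.mem_center_iff.mp hz a))
    have := congrArg Subtype.val (Subgroup.mem_center_iff.mp ha' b)
    simp only [Subgroup.coe_subtype] at he
    simp only [Subgroup.coe_mul, he] at this
    exact this.symm
  have hF : Cfsg.fittingSubgroup H = ⊥ ∨ ((Cfsg.fittingSubgroup H).Normal ∧ IsMulCommutative (Cfsg.fittingSubgroup H) ∧ Cfsg.fittingSubgroup H ≠ ⊥) := by
    by_cases hex : ∃ N : Subgroup H, N.Normal ∧ Group.IsNilpotent N ∧ N ≠ ⊥
    · obtain ⟨N, hN, hnN, hN1⟩ := hex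
      have hFN : Cfsg.fittingSubgroup H = N := by
        unfold Cfsg.fittingSubgroup
        refine le_antisymm (sSup_le ?_) (le_sSup ⟨hN, hnN⟩)
        rintro K ⟨hK, hnK⟩
        rcases eq_or_ne K ⊥ with h | h
        · rw [h]; exact bot_le
        have hKc := hnil K hK hnK h
        have hNc := hnil N hN hnN hN1
        intro k hk
        refine hsc N hN hNc hN1 ⟨k, k.2⟩ fun n hn => ?_
        rcases eq_or_ne (N ⊓ K) ⊥ with hd | hd
        · exact (Subgroup.commute_of_normal_of_disjoint N K hN hK (disjoint_iff.mpr hd) n k hn hk).eq.symm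
        · haveI := hN; haveI := hK
          have hmem : n ∈ K := (hsc (N ⊓ K) inferInstance ⟨⟨fun a b => Subtype.ext (setLike_mul_comm (s := N) a.2.1 b.2.1)⟩⟩ hd n
            fun z hz => setLike_mul_comm (s := N) hn hz.1).2
          exact setLike_mul_comm (s := K) hk hmem
      exact Or.inr (hFN ▸ ⟨hN, hnil N hN hnN hN1, hN1⟩)
    · push_neg at hex
      left
      unfold Cfsg.fittingSubgroup
      exact eq_bot_iff.mpr (sSup_le fun K hK => (hex K hK.1 hK.2).le)
  rcases hF with hF | ⟨hFn, hFc, hF1⟩
  · rw [hF]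
    refine ⟨⟨⟨fun a b => Subsingleton.elim _ _⟩⟩, 2, 0, Nat.prime_two, by simp, fun x hx => by simp [Subgroup.mem_bot.mp hx], fun h => absurd rfl h⟩
  set F := Cfsg.fittingSubgroup H with hFdef
  set M := (F.map H.subtype : Subgroup G) with hM
  obtain ⟨p, e, hp, hcard, hel⟩ := CfsgLib.Perm.exists_prime_elementary hH hep (hne F hF1) (hle F) (hnorm F hFn) (hab F hFc)
  have hcardF : Nat.card F = p ^ e := by
    rw [← hcard]; exact (Subgroup.card_map_of_injective H.subtype_injective).symm
  have hFel : ∀ x ∈ F, x ^ p = 1 := fun x hx => Subtype.ext (by simpa using hel x ⟨x, hx, rfl⟩)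
  refine ⟨hFc, p, e, hp, hcardF, hFel, fun _ => ⟨?_, ?_⟩⟩
  · rw [← hcard]
    exact CfsgLib.Perm.card_dvd_sub_one hH hep (hle F) (hnorm F hFn) (hab F hFc)
  haveI := Fact.mk hp
  haveI := hFn
  letI : CommGroup F :=
    { (inferInstance : Group F) with mul_comm := fun a b => Subtype.ext (setLike_mul_comm (s := F) a.2 b.2) }
  exact conj_rep p e F hcardF hFel (fun h hh => hsc F hFn hFc hF1 h hh)

end Cfsg.Agent.S3497
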