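import Cfsg.Statements.S3498

set_option autoImplicit false
open Cfsg

namespace Cfsg.Agent.S3498


/-- A maximal subgroup of a finite almost simple group does not have prime order. Here G is almost simple in the sense that it has a non-abelian simple normal subgroup T with trivial centralizer. -/
theorem result {G : Type*} [Group G] [Finite G] (T : Subgroup G) [T.Normal] (hT : IsSimpleGroup T) (hTc : ¬ IsMulCommutative T)
    (hC : Subgroup.centralizer (T : Set G) = ⊥) (H : Subgroup G) (hmax : IsCoatom H) : ¬ (Nat.card H).Prime := by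
  classical
  intro hq
  set q := Nat.card H with hqdef
  haveI := Fact.mk hq
  haveI := hT
  have hTH : ¬ T ≤ H := by
    intro hle
    rcases (Nat.dvd_prime hq).mp (Subgroup.card_dvd_of_le hle) with h1 | h1
    · exact (not_subsingleton T) (Finite.card_le_one_iff_subsingleton.mp h1.le)
    · haveI : IsCyclic T := isCyclic_of_prime_card h1
      exact hTc IsCyclic.isMulCommutative
  have hsup : T ⊔ H = ⊤ := hmax.2 _ (lt_of_le_of_ne le_sup_right fun e => hTH (e ▸ le_sup_left))
  have hnn : ¬ H.Normal := by
    intro hn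
    rcases (Nat.dvd_prime hq).mp (Subgroup.card_dvd_of_le (inf_le_left : H ⊓ T ≤ H)) with h1 | h1
    · have hd : Disjoint H T := disjoint_iff.mpr (Subgroup.card_eq_one.mp h1)
      have : H ≤ Subgroup.centralizer (T : Set G) := fun h hh t ht =>
        (Subgroup.commute_of_normal_of_disjoint H T hn inferInstance hd h t hh ht).symm
      rw [hC, le_bot_iff] at this
      exact hq.ne_one (Subgroup.card_eq_one.mpr this)
    · have hle : H ≤ T := fun x hx => by
        have : H ⊓ T = H := Subgroup.eq_of_le_of_card_ge inf_le_left h1.ge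
        exact (this.symm ▸ hx : x ∈ H ⊓ T).2
      haveI : (H.subgroupOf T).Normal := Subgroup.Normal.subgroupOf hn T
      rcases (Subgroup.Normal.eq_bot_or_eq_top ‹(H.subgroupOf T).Normal›) with h2 | h2
      · rw [Subgroup.subgroupOf_eq_bot] at h2
        exact hq.ne_one (Subgroup.card_eq_one.mpr (disjoint_self.mp (h2.mono_right hle)))
      · exact hTH (Subgroup.subgroupOf_eq_top.mp h2)
  have hN : Subgroup.normalizer (H : Set G) = H :=
    ((lt_or_eq_of_le Subgroup.le_normalizer).resolve_left fun h => hnn (Subgroup.normalizer_eq_top_iff.mp (hmax.2 _ h))).symm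
  -- `H` is a Sylow subgroup
  obtain ⟨S, hS⟩ := IsPGroup.exists_le_sylow (IsPGroup.of_card (n := 1) (by rw [← hqdef, pow_one]) : IsPGroup q H)
  have hSH : (S : Subgroup G) = H := by
    refine le_antisymm ?_ hS
    by_contra hlt
    have hlt' : H.subgroupOf S < ⊤ := lt_top_iff_ne_top.mpr fun h => hlt (Subgroup.subgroupOf_eq_top.mp h)
    haveI := S.isPGroup'.isNilpotent
    have h1 := Group.normalizerCondition_of_isNilpotent (G := S) _ hlt'
    obtain ⟨x, hx, hx'⟩ := SetLike.exists_of_lt h1
    refine hx' (?_ : (x : G) ∈ H)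
    rw [← hN, Subgroup.mem_normalizer_iff]
    intro y
    rw [Subgroup.mem_normalizer_iff] at hx
    constructor
    · intro hy
      exact (hx ⟨y, hS hy⟩).mp hy
    · intro hy
      have hy' : y ∈ (S : Subgroup G) := by
        have := mul_mem (mul_mem (inv_mem x.2) (hS hy)) x.2
        simpa [mul_assoc, SetLike.mem_coe] using this
      exact (hx ⟨y, hy'⟩).mpr hy
  haveI : IsCyclic H := isCyclic_of_prime_card hqdef.symm
  have hH1 : H ≠ ⊥ := fun h => hq.ne_one (Subgroup.card_eq_one.mpr h)
  rcases eq_or_ne T ⊤ with rfl | hTtop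
  · -- `G` is simple: Burnside transfer
    haveI : Nontrivial G := (Subgroup.topEquiv (G := G)).toEquiv.symm.nontrivial
    haveI hGs : IsSimpleGroup G := IsSimpleGroup.isSimpleGroup_of_surjective (f := (Subgroup.topEquiv (G := G)).toMonoidHom) (Subgroup.topEquiv (G := G)).surjective
    have hP : Subgroup.normalizer ((S : Subgroup G) : Set G) ≤ Subgroup.centralizer ((S : Subgroup G) : Set G) := by
      rw [hSH, hN]
      intro x hx y hy
      haveI : IsMulCommutative H := IsCyclic.isMulCommutative
      exact setLike_mul_comm (s := H) hy hx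
    have hcompl : (MonoidHom.transferSylow S hP).ker.IsComplement' H := by
      conv_rhs => rw [← hSH]
      exact MonoidHom.ker_transferSylow_isComplement' S hP
    rcases (MonoidHom.transferSylow S hP).normal_ker.eq_bot_or_eq_top with h1 | h1
    · rw [h1, Subgroup.isComplement'_bot_left] at hcompl
      exact hmax.1 hcompl
    · rw [h1, Subgroup.isComplement'_top_left] at hcompl
      exact hH1 hcompl
  · have hHT : H ⊓ T = ⊥ := by
      rcases (Nat.dvd_prime hq).mp (Subgroup.card_dvd_of_le (inf_le_left : H ⊓ T ≤ H)) with h1 | h1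
      · exact Subgroup.card_eq_one.mp h1
      · have hle : H ≤ T := inf_eq_left.mp (Subgroup.eq_of_le_of_card_ge inf_le_left h1.ge)
        exact absurd (by rwa [sup_of_le_left hle] at hsup) hTtop
    obtain ⟨r, hr, hrT⟩ := Nat.exists_prime_and_dvd (n := Nat.card T) Finite.one_lt_card.ne'
    haveI := Fact.mk hr
    let P : Sylow r T := Classical.arbitrary _
    have hfr := Sylow.normalizer_sup_eq_top P
    set Nr := Subgroup.normalizer (((P : Subgroup T).map T.subtype : Subgroup G) : Set G) with hNr
    have hidx : T.index = q := by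
      have h1 : T.relIndex (H ⊔ T) = T.relIndex H := Subgroup.relIndex_sup_right H T
      rw [sup_comm, hsup, Subgroup.relIndex_top_right] at h1
      rw [h1, ← Subgroup.inf_relIndex_left, hHT, Subgroup.relIndex_bot_left]
    haveI : Fact (Nat.card (G ⧸ T)).Prime := ⟨by rwa [← Subgroup.index_eq_card, hidx]⟩
    obtain ⟨y, hy, hyT⟩ : ∃ y ∈ Nr, y ∉ T := by
      by_contra hc
      push_neg at hc
      exact hTtop (by rwa [sup_of_le_right (show Nr ≤ T from hc)] at hfr)
    have hqy : q ∣ orderOf y := by
      have h1 : orderOf (QuotientGroup.mk' T y) = q := by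
        rw [← hidx, Subgroup.index_eq_card]
        refine orderOf_eq_card_of_forall_mem_zpowers fun z => ?_
        exact mem_zpowers_of_prime_card rfl (fun h => hyT ((QuotientGroup.eq_one_iff y).mp h))
      rw [← h1]
      exact orderOf_map_dvd _ y
    set x := y ^ (orderOf y / q) with hx
    have hxq : orderOf x = q := by
      rw [hx, orderOf_pow_of_dvd (Nat.div_pos (Nat.le_of_dvd (orderOf_pos y) hqy) hq.pos).ne' (Nat.div_dvd_of_dvd hqy),
        Nat.div_div_self hqy (orderOf_pos y).ne']
    have hxN : x ∈ Nr := pow_mem hy _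
    obtain ⟨S', hS'⟩ := IsPGroup.exists_le_sylow (IsPGroup.of_card (n := 1) (by rw [Nat.card_zpowers, hxq, pow_one]) : IsPGroup q (Subgroup.zpowers x))
    obtain ⟨g, hg⟩ := MulAction.exists_smul_eq G S' S
    have hgH : ∀ z ∈ Subgroup.zpowers x, g * z * g⁻¹ ∈ H := by
      intro z hz
      rw [← hSH, ← hg]
      exact Subgroup.smul_mem_pointwise_smul z (MulAut.conj g) _ (hS' hz)
    set Q := ((P : Subgroup T).map T.subtype).map (MulAut.conj g).toMonoidHom with hQ
    have hQT : Q ≤ T := by
      rintro _ ⟨z, hz, rfl⟩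
      exact Subgroup.Normal.conj_mem inferInstance z (Subgroup.map_subtype_le _ hz) g
    have hQn : H ≤ Subgroup.normalizer (Q : Set G) := by
      have hle : Subgroup.zpowers (g * x * g⁻¹) ≤ H := Subgroup.zpowers_le.mpr (hgH x (Subgroup.mem_zpowers x))
      have hHeq : H = Subgroup.zpowers (g * x * g⁻¹) := by
        refine (Subgroup.eq_of_le_of_card_ge hle ?_).symm
        rw [Nat.card_zpowers, show g * x * g⁻¹ = (MulAut.conj g) x from rfl, MulEquiv.orderOf_eq, hxq]
      rw [hHeq, Subgroup.zpowers_le]
      have : (MulAut.conj g) x ∈ Nr.map (MulAut.conj g).toMonoidHom := ⟨x, hxN, rfl⟩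
      exact Subgroup.le_normalizer_map _ this
    have hQne : Q ≠ ⊥ := by
      rw [hQ, Ne, Subgroup.map_eq_bot_iff_of_injective _ (MulAut.conj g).injective,
        Subgroup.map_eq_bot_iff_of_injective _ T.subtype_injective]
      exact P.ne_bot_of_dvd_card hrT
    rcases hmax.le_iff.mp hQn with h1 | h1
    · haveI : (Q.subgroupOf T).Normal := Subgroup.Normal.subgroupOf (Subgroup.normalizer_eq_top_iff.mp h1) T
      rcases (Subgroup.Normal.eq_bot_or_eq_top ‹(Q.subgroupOf T).Normal›) with h2 | h2
      · rw [Subgroup.subgroupOf_eq_bot] at h2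
        exact hQne (disjoint_self.mp (h2.mono_right hQT))
      · have hQeq : Q = T := le_antisymm hQT (Subgroup.subgroupOf_eq_top.mp h2)
        have hTr : IsPGroup r T := hQeq ▸ ((P.isPGroup'.map T.subtype).map (MulAut.conj g).toMonoidHom)
        haveI := hTr.isNilpotent
        haveI := hTr.center_nontrivial
        rcases (inferInstance : (Subgroup.center T).Normal).eq_bot_or_eq_top with h3 | h3
        · exact (Subgroup.nontrivial_iff_ne_bot _).mp inferInstance h3
        · exact hTc ⟨⟨fun a b => (Subgroup.mem_center_iff.mp (h3 ▸ Subgroup.mem_top b) a)⟩⟩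
    · refine hQne (le_bot_iff.mp ?_)
      rw [← hHT]
      exact le_inf (h1 ▸ Subgroup.le_normalizer) hQT

end Cfsg.Agent.S3498
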