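import Cfsg.Statements.S3504

set_option autoImplicit false
open Cfsg

namespace Cfsg.Agent.S3504


/-- For n ≥ 5, the fixed-point-free permutations of prime order in the symmetric group of degree n form a single conjugacy class if and only if n is a prime power. -/
theorem result (n : ℕ) (hn : 5 ≤ n) :
    Nat.card {c : ConjClasses (Equiv.Perm (Fin n)) // ∃ g : Equiv.Perm (Fin n), ConjClasses.mk g = c ∧ (orderOf g).Prime ∧ ∀ i : Fin n, g i ≠ i} = 1 ↔ IsPrimePow n := by
  classical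
  have A : ∀ g : Equiv.Perm (Fin n), (orderOf g).Prime → (∀ i, g i ≠ i) →
      orderOf g ∣ n ∧ g.cycleType = Multiset.replicate (n / orderOf g) (orderOf g) := by
    intro g hg hfp
    obtain ⟨k, hk⟩ := Equiv.Perm.cycleType_prime_order hg
    have hs : g.support = Finset.univ := Finset.eq_univ_of_forall fun i => Equiv.Perm.mem_support.mpr (hfp i)
    have hsum := g.sum_cycleType
    rw [hs, hk, Multiset.sum_replicate, smul_eq_mul, Finset.card_fin] at hsum
    refine ⟨⟨k + 1, by rw [mul_comm]; exact hsum.symm⟩, ?_⟩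
    have : n / orderOf g = k + 1 := Nat.div_eq_of_eq_mul_left hg.pos hsum.symm
    rw [hk, this]
  have B : ∀ p : ℕ, p.Prime → p ∣ n → ∃ g : Equiv.Perm (Fin n), orderOf g = p ∧ ∀ i, g i ≠ i := by
    intro p hp hpn
    obtain ⟨g, hg⟩ := (Equiv.Perm.exists_with_cycleType_iff (Fin n) (m := Multiset.replicate (n / p) p)).mpr
      ⟨by simp [Multiset.sum_replicate, Nat.div_mul_cancel hpn], fun a ha => by
        rw [Multiset.eq_of_mem_replicate ha]; exact hp.two_le⟩
    refine ⟨g, ?_, fun i => ?_⟩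
    · have hne : n / p ≠ 0 := (Nat.div_pos (Nat.le_of_dvd (by omega) hpn) hp.pos).ne'
      rw [← g.lcm_cycleType, hg]
      obtain ⟨k, hk⟩ := Nat.exists_eq_succ_of_ne_zero hne
      rw [hk]
      clear hk hne hg
      induction k with
      | zero => simp [Multiset.replicate_succ, Nat.lcm]
      | succ m ih => rw [Multiset.replicate_succ, Multiset.lcm_cons, ih]; exact Nat.lcm_self p
    · have hs : g.support = Finset.univ := by
        apply Finset.eq_univ_of_card
        rw [← g.sum_cycleType, hg, Multiset.sum_replicate, smul_eq_mul, Nat.div_mul_cancel hpn, Fintype.card_fin]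
      exact Equiv.Perm.mem_support.mp (hs ▸ Finset.mem_univ i)
  rw [isPrimePow_iff_unique_prime_dvd, Nat.card_eq_one_iff_exists]
  constructor
  · intro hu
    obtain ⟨⟨c, g, _hc, hgp, hfp⟩, huniq⟩ := hu
    refine ⟨orderOf g, ⟨hgp, (A g hgp hfp).1⟩, fun r hr => ?_⟩
    obtain ⟨h, hh, hhfp⟩ := B r hr.1 hr.2
    have h1 := huniq ⟨ConjClasses.mk h, h, rfl, hh ▸ hr.1, hhfp⟩
    have h2 := huniq ⟨ConjClasses.mk g, g, rfl, hgp, hfp⟩
    have h3 : ConjClasses.mk h = ConjClasses.mk g := congrArg Subtype.val (h1.trans h2.symm)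
    rw [ConjClasses.mk_eq_mk_iff_isConj, Equiv.Perm.isConj_iff_cycleType_eq] at h3
    rw [← hh, ← h.lcm_cycleType, h3, g.lcm_cycleType]
  · intro hu
    obtain ⟨p, ⟨hp, hpn⟩, huniq⟩ := hu
    obtain ⟨g, hg, hfp⟩ := B p hp hpn
    refine ⟨⟨ConjClasses.mk g, g, rfl, hg ▸ hp, hfp⟩, ?_⟩
    rintro ⟨c, h, rfl, hhp, hhfp⟩
    refine Subtype.ext ?_
    show ConjClasses.mk h = ConjClasses.mk g
    rw [ConjClasses.mk_eq_mk_iff_isConj, Equiv.Perm.isConj_iff_cycleType_eq, (A h hhp hhfp).2,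
      (A g (hg ▸ hp) hfp).2, huniq (orderOf h) ⟨hhp, (A h hhp hhfp).1⟩, hg]

end Cfsg.Agent.S3504
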