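import Cfsg.Statements.S3508

set_option autoImplicit false
open Cfsg

namespace Cfsg.Agent.S3508

/-- An element of `p`-power order of a group with a faithful affine representation of dimension `m`. -/
theorem affine_order_bound {G : Type*} [Group G] (p m r : ℕ) [Fact p.Prime] (hr : 1 ≤ r) {V : Type*} [AddCommGroup V]
    [Module (ZMod p) V] [Finite V] (hV : Nat.card V = p ^ m) (C : G → V →+ V) (τ : G → V)
    (hC1 : ∀ v, C 1 v = v) (hτ1 : τ 1 = 0) (hCmul : ∀ x y v, C (x * y) v = C x (C y v))
    (hτmul : ∀ x y, τ (x * y) = C x (τ y) + τ x)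
    (hinj : ∀ x, (∀ v, C x v = v) → τ x = 0 → x = 1)
    (g : G) (hg : orderOf g = p ^ r) : p ^ (r - 1) ≤ m := by
  have hp : p.Prime := Fact.out
  let T : G →* Module.End (ZMod p) (V × ZMod p) :=
    { toFun := fun x => (((C x).toZModLinearMap p).coprod ((LinearMap.id : ZMod p →ₗ[ZMod p] ZMod p).smulRight (τ x))).prod (LinearMap.snd _ _ _)
      map_one' := by
        apply LinearMap.ext
        rintro ⟨v, t⟩
        refine Prod.ext ?_ rfl
        show C 1 v + t • τ 1 = v
        rw [hC1, hτ1, smul_zero, add_zero]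
      map_mul' := fun x y => by
        apply LinearMap.ext
        rintro ⟨v, t⟩
        refine Prod.ext ?_ rfl
        show C (x * y) v + t • τ (x * y) = C x (C y v + t • τ y) + t • τ x
        rw [map_add, ZMod.map_smul (C x), hτmul, smul_add, hCmul, add_assoc] }
  have hTinj : ∀ x : G, T x = 1 → x = 1 := by
    intro x hx
    refine hinj x (fun v => ?_) ?_
    · simpa [T] using congrArg Prod.fst (LinearMap.congr_fun hx (v, (0 : ZMod p)))
    · simpa [T] using congrArg Prod.fst (LinearMap.congr_fun hx ((0 : V), (1 : ZMod p)))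
  haveI : Module.Finite (ZMod p) V := Module.Finite.of_finite
  haveI : CharP (Module.End (ZMod p) (V × ZMod p)) p :=
    charP_of_injective_algebraMap (algebraMap (ZMod p) (Module.End (ZMod p) (V × ZMod p))).injective p
  have hdim : Module.finrank (ZMod p) (V × ZMod p) = m + 1 := by
    rw [Module.finrank_prod, Module.finrank_self]
    congr 1
    have h1 := Module.natCard_eq_pow_finrank (K := ZMod p) (V := V)
    rw [Nat.card_zmod, hV] at h1
    exact (Nat.pow_right_injective hp.two_le h1).symm
  set D := T g - 1 with hD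
  have hnil : IsNilpotent D := by
    refine ⟨p ^ r, ?_⟩
    rw [hD, sub_pow_char_pow_of_commute (p := p) (h := Commute.one_right (T g)), one_pow, ← map_pow, ← hg, pow_orderOf_eq_one, map_one, sub_self]
  have hpow : D ^ (m + 1) = 0 := by
    have := LinearMap.aeval_self_charpoly D
    rwa [IsNilpotent.charpoly_eq_X_pow_finrank hnil, map_pow, Polynomial.aeval_X, hdim] at this
  by_contra hlt
  push_neg at hlt
  have h1 : D ^ p ^ (r - 1) = 0 := pow_eq_zero_of_le hlt hpow
  rw [hD, sub_pow_char_pow_of_commute (p := p) (h := Commute.one_right (T g)), one_pow, sub_eq_zero, ← map_pow] at h1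
  have := orderOf_dvd_of_pow_eq_one (hTinj _ h1)
  rw [hg, Nat.pow_dvd_pow_iff_le_right hp.one_lt] at this
  omega


/-- Let a finite group G act faithfully on a set Ω with p ^ m points (p prime) and have an elementary abelian normal p-subgroup N acting regularly on Ω (so G is a group of affine transformations of an m-dimensional space over the field with p elements). If G contains an element of order p ^ r with r ≥ 1, then p ^ (r − 1) ≤ m. In particular an element of order p ^ m forces m ≤ 2, and m ≤ 1 when p is odd. -/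
theorem result {G : Type*} [Group G] [Finite G] {Ω : Type*} [Fintype Ω] [MulAction G Ω] [FaithfulSMul G Ω] (p m : ℕ) (hp : p.Prime) (hcard : Fintype.card Ω = p ^ m)
    (N : Subgroup G) [N.Normal] (hNc : IsMulCommutative N) (hNp : ∀ n ∈ N, n ^ p = 1)
    (hNtr : MulAction.IsPretransitive N Ω) (hNreg : ∀ ω : Ω, MulAction.stabilizer N ω = ⊥)
    (g : G) (r : ℕ) (hr : 1 ≤ r) (hg : orderOf g = p ^ r) :
    p ^ (r - 1) ≤ m ∧ (r = m → m ≤ 2 ∧ (2 < p → m ≤ 1)) := by
  classical
  haveI := Fact.mk hp
  haveI := hNtr
  letI : CommGroup N :=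
    { (inferInstance : Group N) with mul_comm := fun a b => Subtype.ext (setLike_mul_comm (s := N) a.2 b.2) }
  have hmod : ∀ v : Additive N, p • v = 0 := fun v => by
    refine Additive.toMul.injective ?_
    rw [toMul_nsmul, toMul_zero]
    exact Subtype.ext (by simpa using hNp _ (Additive.toMul v).2)
  letI : Module (ZMod p) (Additive N) := AddCommGroup.zmodModule hmod
  have hne : Nonempty Ω := by
    rw [← Fintype.card_pos_iff, hcard]
    exact pow_pos hp.pos m
  obtain ⟨α⟩ := hne
  have ebij : Function.Bijective (fun n : N => n • α) := by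
    refine ⟨fun a b hab => ?_, fun w => MulAction.exists_smul_eq N α w⟩
    have : b⁻¹ * a ∈ MulAction.stabilizer N α := by
      rw [MulAction.mem_stabilizer_iff, mul_smul, inv_smul_eq_iff]
      exact hab
    rw [hNreg α, Subgroup.mem_bot] at this
    exact (inv_mul_eq_one.mp this).symm
  let e : N ≃ Ω := Equiv.ofBijective _ ebij
  let τ : G → N := fun x => e.symm (x • α)
  have hτ : ∀ x : G, ((τ x : N) : G) • α = x • α := fun x => e.apply_symm_apply (x • α)
  let C : G → (N →* N) := fun x =>
    { toFun := fun n => ⟨x * n * x⁻¹, Subgroup.Normal.conj_mem inferInstance _ n.2 x⟩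
      map_one' := Subtype.ext (by simp)
      map_mul' := fun a b => Subtype.ext (by simp [mul_assoc]) }
  have hact : ∀ (x : G) (n : N), x • ((n : G) • α) = ((C x n * τ x : N) : G) • α := by
    intro x n
    rw [Subgroup.coe_mul, mul_smul _ ((τ x : N) : G), hτ, smul_smul, smul_smul]
    simp [C]
  have hτmul : ∀ x y : G, τ (x * y) = C x (τ y) * τ x := by
    intro x y
    apply ebij.1
    show ((τ (x * y) : N) : G) • α = ((C x (τ y) * τ x : N) : G) • α
    rw [← hact, hτ, hτ, smul_smul]
  have main : p ^ (r - 1) ≤ m := by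
    refine affine_order_bound p m r hr (V := Additive N) ?_ (fun x => (C x).toAdditive) (fun x => Additive.ofMul (τ x)) ?_ ?_ ?_ ?_ ?_ g hg
    · rw [← hcard, ← Nat.card_eq_fintype_card]
      exact Nat.card_congr (Additive.toMul.trans e)
    · intro v
      exact Additive.toMul.injective (Subtype.ext (by simp [C]))
    · exact congrArg Additive.ofMul (ebij.1 (show ((τ 1 : N) : G) • α = ((1 : N) : G) • α by rw [hτ, Subgroup.coe_one]))
    · intro x y v
      exact Additive.toMul.injective (Subtype.ext (by simp [C, mul_assoc]))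
    · intro x y
      exact congrArg Additive.ofMul (hτmul x y)
    · intro x hCx hτx
      refine eq_of_smul_eq_smul (α := Ω) fun w => ?_
      obtain ⟨n, rfl⟩ := ebij.2 w
      have h1 : τ x = 1 := congrArg Additive.toMul hτx
      have h2 : C x n = n := congrArg Additive.toMul (hCx (Additive.ofMul n))
      show x • ((n : G) • α) = (1 : G) • ((n : G) • α)
      rw [hact, h1, h2, mul_one, one_smul]
  refine ⟨main, ?_⟩
  rintro rfl
  have h2 : ∀ k : ℕ, k + 2 < 2 ^ (k + 2) ∧ (k + 2 < 3 ^ (k + 1)) := by
    intro k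
    induction k with
    | zero => norm_num
    | succ n ih => rw [pow_succ, pow_succ 3]; omega
  refine ⟨?_, fun hp2 => ?_⟩
  · by_contra hc
    obtain ⟨k, rfl⟩ : ∃ k, r = k + 3 := ⟨r - 3, by omega⟩
    have a1 : k + 3 < 2 ^ (k + 2) := by
      clear main hg hcard hr hc h2
      induction k with
      | zero => norm_num
      | succ n ih => rw [pow_succ]; omega
    have a2 : 2 ^ (k + 2) ≤ p ^ (k + 2) := Nat.pow_le_pow_left hp.two_le _
    have e1 : k + 3 - 1 = k + 2 := rfl
    rw [e1] at main
    omega
  · by_contra hc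
    obtain ⟨k, rfl⟩ : ∃ k, r = k + 2 := ⟨r - 2, by omega⟩
    have a1 := (h2 k).2
    have a2 : 3 ^ (k + 1) ≤ p ^ (k + 1) := Nat.pow_le_pow_left hp2 _
    have e1 : k + 2 - 1 = k + 1 := rfl
    rw [e1] at main
    omega

end Cfsg.Agent.S3508
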