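import Cfsg.Statements.S3511

set_option autoImplicit false
open Cfsg

namespace Cfsg.Agent.S3511


/-- Let a finite group G act faithfully on a set Ω. If every element of G of square-free order has a regular cycle (an orbit of the cyclic group it generates with trivial stabilizer), then every element of G has a regular cycle. -/
theorem result {G : Type*} [Group G] [Finite G] {Ω : Type*} [MulAction G Ω] [FaithfulSMul G Ω]
    (h : ∀ g : G, Squarefree (orderOf g) → ∃ ω : Ω, MulAction.stabilizer (Subgroup.zpowers g) ω = ⊥) (g : G) :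
    ∃ ω : Ω, MulAction.stabilizer (Subgroup.zpowers g) ω = ⊥ := by
  classical
  set n := orderOf g with hn
  have npos : 0 < n := orderOf_pos g
  set r := ∏ p ∈ n.primeFactors, p with hr
  have hrn : r ∣ n := Nat.prod_primeFactors_dvd n
  have rpos : 0 < r := Nat.pos_of_dvd_of_pos hrn npos
  set g' := g ^ (n / r) with hg'
  have hord : orderOf g' = r := by
    rw [hg', orderOf_pow_of_dvd (Nat.div_pos (Nat.le_of_dvd npos hrn) rpos).ne' (Nat.div_dvd_of_dvd hrn),
      Nat.div_div_self hrn npos.ne']
  have hsq : Squarefree r := by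
    rw [hr]
    refine Finset.squarefree_prod_of_pairwise_isCoprime ?_ ?_
    · intro a ha b hb hab
      simp only [Function.onFun]
      exact Nat.coprime_iff_isRelPrime.mp ((Nat.coprime_primes (Nat.prime_of_mem_primeFactors ha) (Nat.prime_of_mem_primeFactors hb)).mpr hab)
    · intro a ha; exact (Nat.prime_of_mem_primeFactors ha).squarefree
  obtain ⟨ω, hω⟩ := h g' (hord ▸ hsq)
  refine ⟨ω, (Subgroup.eq_bot_iff_forall _).mpr fun x hx => ?_⟩
  have hx' : (x : G) • ω = ω := hx
  by_contra hne
  have hxg : (x : G) ≠ 1 := fun e => hne (Subtype.ext e)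
  set p := (orderOf (x : G)).minFac with hp
  have pp : p.Prime := Nat.minFac_prime (fun e => hxg (orderOf_eq_one_iff.mp e))
  set y := (x : G) ^ (orderOf (x : G) / p) with hy
  have hyp : orderOf y = p := by
    have hd := Nat.minFac_dvd (orderOf (x : G))
    rw [hy, orderOf_pow_of_dvd (Nat.div_pos (Nat.le_of_dvd (orderOf_pos _) hd) pp.pos).ne' (Nat.div_dvd_of_dvd hd),
      Nat.div_div_self hd (orderOf_pos _).ne']
  have hyfix : y • ω = ω := MulAction.mem_stabilizer_iff.mp (pow_mem (show (x : G) ∈ MulAction.stabilizer G ω from hx') _)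
  have hpn : p ∣ n := (Nat.minFac_dvd _).trans (orderOf_dvd_of_mem_zpowers x.2)
  have hpr : p ∣ r := Finset.dvd_prod_of_mem _ (Nat.mem_primeFactors.mpr ⟨pp, hpn, npos.ne'⟩)
  have hymem : y ∈ Subgroup.zpowers g' := by
    have hyg : y ∈ Subgroup.zpowers g := pow_mem x.2 _
    obtain ⟨k, hk⟩ : ∃ k : ℕ, g ^ k = y := mem_powers_iff_mem_zpowers.mpr hyg
    have : n ∣ k * p := by
      rw [hn, orderOf_dvd_iff_pow_eq_one, pow_mul, hk, ← hyp, pow_orderOf_eq_one]
    have hdiv : n / r ∣ k := by
      obtain ⟨a, ha⟩ := hrn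
      obtain ⟨b, hb⟩ := hpr
      rw [ha, Nat.mul_div_cancel_left _ rpos]
      rw [ha, hb, mul_comm k p] at this
      have : p * (b * a) ∣ p * k := by rwa [← mul_assoc]
      exact (dvd_mul_left a b).trans (Nat.dvd_of_mul_dvd_mul_left pp.pos this)
    obtain ⟨c, hc⟩ := hdiv
    rw [← hk, hc, pow_mul, ← hg']
    exact pow_mem (Subgroup.mem_zpowers g') c
  have : (⟨y, hymem⟩ : Subgroup.zpowers g') ∈ MulAction.stabilizer (Subgroup.zpowers g') ω := hyfix
  rw [hω, Subgroup.mem_bot, Subtype.ext_iff] at this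
  simp only [Subgroup.coe_one] at this
  rw [this, orderOf_one] at hyp
  exact pp.ne_one hyp.symm

end Cfsg.Agent.S3511
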