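import Cfsg.Statements.S3514

set_option autoImplicit false
open Cfsg

namespace Cfsg.Agent.S3514

/-- The product formula for a normal subgroup. -/
theorem card_sup_mul_card_inf {J : Type*} [Group J] [Finite J] (A S : Subgroup J) [A.Normal] :
    Nat.card (S ⊔ A : Subgroup J) * Nat.card (A ⊓ S : Subgroup J) = Nat.card A * Nat.card S := by
  have h1 : A.relIndex (S ⊔ A) = A.relIndex S := Subgroup.relIndex_sup_right S A
  have h2 := (A.subgroupOf (S ⊔ A)).card_mul_index
  have h3 := ((A ⊓ S).subgroupOf S).card_mul_index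
  rw [Nat.card_congr (Subgroup.subgroupOfEquivOfLe (le_sup_right : A ≤ S ⊔ A)).toEquiv] at h2
  rw [Nat.card_congr (Subgroup.subgroupOfEquivOfLe (inf_le_right : A ⊓ S ≤ S)).toEquiv] at h3
  rw [← h2, ← h3]
  rw [show (A.subgroupOf (S ⊔ A)).index = ((A ⊓ S).subgroupOf S).index from h1.trans (Subgroup.inf_relIndex_right A S).symm]
  ring


/-- Let p be a prime, V a finite vector space over the field with p elements, and H a group of linear transformations of V all of whose orbits on V have size coprime to p. (i) Every normal subgroup K of H has all its orbits on V of size coprime to p. (ii) If N is a group of linear transformations of V of order coprime to p that is normalized by H, then the group generated by N and H has all its orbits on V of size coprime to p. -/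
theorem result (p : ℕ) [Fact p.Prime] {V : Type*} [AddCommGroup V] [Module (ZMod p) V] [Finite V]
    (H : Subgroup (V ≃ₗ[ZMod p] V)) (hH : ∀ v : V, ¬ p ∣ Nat.card {u : V | ∃ h ∈ H, h v = u}) :
    (∀ K : Subgroup (V ≃ₗ[ZMod p] V), K ≤ H → H ≤ Subgroup.normalizer (K : Set (V ≃ₗ[ZMod p] V)) →
        ∀ v : V, ¬ p ∣ Nat.card {u : V | ∃ k ∈ K, k v = u}) ∧
    (∀ N : Subgroup (V ≃ₗ[ZMod p] V), ¬ p ∣ Nat.card N → H ≤ Subgroup.normalizer (N : Set (V ≃ₗ[ZMod p] V)) →
        ∀ v : V, ¬ p ∣ Nat.card {u : V | ∃ x ∈ N ⊔ H, x v = u}) := by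
  classical
  haveI : Finite (V ≃ₗ[ZMod p] V) := Finite.of_injective (fun e => (e : V → V)) DFunLike.coe_injective
  have key : ∀ (A : Subgroup (V ≃ₗ[ZMod p] V)) (v : V),
      Nat.card {u : V | ∃ h ∈ A, h v = u} = (MulAction.stabilizer A v).index := by
    intro A v
    have : {u : V | ∃ h ∈ A, h v = u} = MulAction.orbit A v := by
      ext u; constructor
      · rintro ⟨h, hh, rfl⟩; exact ⟨⟨h, hh⟩, rfl⟩
      · rintro ⟨⟨h, hh⟩, rfl⟩; exact ⟨h, hh, rfl⟩
    rw [this, MulAction.index_stabilizer]; rfl
  refine ⟨fun K hK hn v => ?_, fun N hN hn v => ?_⟩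
  · have hH' := hH v
    rw [key] at hH'
    haveI : (K.subgroupOf H).Normal := (Subgroup.normal_subgroupOf_iff_le_normalizer hK).mpr hn
    set A := K.subgroupOf H with hA
    set S := MulAction.stabilizer H v with hS
    have hset : {u : V | ∃ k ∈ K, k v = u} = MulAction.orbit A v := by
      ext u; constructor
      · rintro ⟨k, hk, rfl⟩; exact ⟨⟨⟨k, hK hk⟩, hk⟩, rfl⟩
      · rintro ⟨⟨⟨k, hkH⟩, hk⟩, rfl⟩; exact ⟨k, hk, rfl⟩
    have hrel : Nat.card (MulAction.orbit A v) = (S.subgroupOf A).index := by
      rw [show S.subgroupOf A = MulAction.stabilizer A v from rfl, MulAction.index_stabilizer]; rfl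
    rw [hset, hrel]
    have h1 := card_sup_mul_card_inf A S
    have h2 := (S.subgroupOf A).card_mul_index
    have h3 : Nat.card (A ⊓ S : Subgroup H) = Nat.card (S.subgroupOf A) := by
      rw [← Nat.card_congr (Subgroup.subgroupOfEquivOfLe (inf_le_left : A ⊓ S ≤ A)).toEquiv, Subgroup.inf_subgroupOf_left]
    have h4 : Nat.card (S ⊔ A : Subgroup H) = (S.subgroupOf A).index * Nat.card S := by
      apply Nat.eq_of_mul_eq_mul_right (Nat.card_pos (α := (A ⊓ S : Subgroup H)))
      rw [h1, ← h2, ← h3]
      ring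
    have h5 : (S.subgroupOf A).index * Nat.card S ∣ S.index * Nat.card S := by
      rw [← h4, Subgroup.index_mul_card]
      exact Subgroup.card_subgroup_dvd_card _
    exact fun h => hH' (h.trans (Nat.dvd_of_mul_dvd_mul_right Nat.card_pos h5))
  · have hH' := hH v
    rw [key] at hH' ⊢
    set J := N ⊔ H with hJ
    have hNJ : N ≤ J := le_sup_left
    have hHJ : H ≤ J := le_sup_right
    haveI : (N.subgroupOf J).Normal :=
      (Subgroup.normal_subgroupOf_iff_le_normalizer hNJ).mpr (sup_le Subgroup.le_normalizer hn)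
    set Sv := MulAction.stabilizer J v with hSv
    set Hv := MulAction.stabilizer H v with hHv
    have hmap : Nat.card Hv ∣ Nat.card Sv := by
      rw [← Subgroup.card_map_of_injective (f := Subgroup.inclusion hHJ) (Subgroup.inclusion_injective hHJ)]
      refine Subgroup.card_dvd_of_le ?_
      rintro _ ⟨x, hx, rfl⟩
      exact hx
    have hJcard : Nat.card J ∣ Nat.card N * Nat.card H := by
      have h1 := card_sup_mul_card_inf (N.subgroupOf J) (H.subgroupOf J)
      rw [Nat.card_congr (Subgroup.subgroupOfEquivOfLe hNJ).toEquiv,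
        Nat.card_congr (Subgroup.subgroupOfEquivOfLe hHJ).toEquiv,
        ← Subgroup.subgroupOf_sup hHJ hNJ, sup_comm H N, ← hJ, Subgroup.subgroupOf_self,
        Subgroup.card_top] at h1
      exact ⟨_, h1.symm⟩
    intro hd
    refine hH' ?_
    have h1 : p * Nat.card Hv ∣ Nat.card N * (Hv.index * Nat.card Hv) := by
      rw [Subgroup.index_mul_card]
      refine dvd_trans ?_ hJcard
      rw [← Sv.index_mul_card]
      exact mul_dvd_mul hd hmap
    rw [← mul_assoc] at h1
    exact ((Fact.out : p.Prime).dvd_mul.mp (Nat.dvd_of_mul_dvd_mul_right Nat.card_pos h1)).resolve_left hN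

end Cfsg.Agent.S3514
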