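import Cfsg.Statements.S3515

set_option autoImplicit false
open Cfsg

namespace Cfsg.Agent.S3515

/-- A map of a vector space over `ZMod p`, `p` odd, that agrees on all triples with affine maps is affine. -/
theorem affine_of_triples (p : ℕ) [Fact p.Prime] (hp : p ≠ 2) {ι : Type*} [Fintype ι]
    (σ : (ι → ZMod p) → (ι → ZMod p)) (hσinj : Function.Injective σ)
    (h : ∀ t : Fin 3 → (ι → ZMod p), ∃ (A : (ι → ZMod p) ≃ₗ[ZMod p] (ι → ZMod p)) (b : ι → ZMod p), ∀ i, σ (t i) = A (t i) + b) :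
    ∃ (A : (ι → ZMod p) ≃ₗ[ZMod p] (ι → ZMod p)) (b : ι → ZMod p), ∀ x, σ x = A x + b := by
  have h2 : (2 : ZMod p) ≠ 0 := by
    intro h0
    have : ((2 : ℕ) : ZMod p) = 0 := by exact_mod_cast h0
    rw [ZMod.natCast_eq_zero_iff] at this
    exact hp ((Nat.prime_dvd_prime_iff_eq Fact.out Nat.prime_two).mp this)
  set f := fun x => σ x - σ 0 with hf
  have hadd : ∀ x y, f (x + y) = f x + f y := by
    intro x y
    obtain ⟨A, b, hA⟩ := h ![(2 : ZMod p) • x, (2 : ZMod p) • y, x + y]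
    have a0 : σ ((2 : ZMod p) • x) = A ((2 : ZMod p) • x) + b := hA 0
    have a1 : σ ((2 : ZMod p) • y) = A ((2 : ZMod p) • y) + b := hA 1
    have a2 : σ (x + y) = A (x + y) + b := hA 2
    have hd : ∀ z, f ((2 : ZMod p) • z) = (2 : ZMod p) • f z := by
      intro z
      obtain ⟨A, b, hA⟩ := h ![0, z, (2 : ZMod p) • z]
      have a0 : σ 0 = A 0 + b := hA 0
      have a1 : σ z = A z + b := hA 1
      have a2 : σ ((2 : ZMod p) • z) = A ((2 : ZMod p) • z) + b := hA 2
      simp [hf, a0, a1, a2, map_smul, smul_sub, smul_add]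
    have hx := hd x
    have hy := hd y
    simp only [hf, map_smul, map_add] at a0 a1 a2 hx hy ⊢
    refine smul_right_injective _ h2 ?_
    simp only [smul_add, smul_sub] at hx hy ⊢
    rw [a0] at hx
    rw [a1] at hy
    rw [← hx, ← hy, a2, smul_add, smul_add]
    rw [two_smul (ZMod p) b, two_smul (ZMod p) (σ 0)]
    abel
  let F : (ι → ZMod p) →ₗ[ZMod p] (ι → ZMod p) := (AddMonoidHom.mk' f hadd).toZModLinearMap p
  have hFinj : Function.Injective F := fun x y hxy => hσinj (sub_left_injective (show σ x - σ 0 = σ y - σ 0 from hxy))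
  refine ⟨LinearEquiv.ofBijective F ⟨hFinj, Finite.injective_iff_surjective.mp hFinj⟩, σ 0, fun x => ?_⟩
  show σ x = (σ x - σ 0) + σ 0
  rw [sub_add_cancel]

theorem cases4' : ∀ x : Fin 2 → ZMod 2, x = ![0, 0] ∨ x = ![1, 0] ∨ x = ![0, 1] ∨ x = ![1, 1] := by decide

theorem ne4 : (![1, 1] : Fin 2 → ZMod 2) ≠ ![0, 0] ∧ (![1, 1] : Fin 2 → ZMod 2) ≠ ![1, 0] ∧
    (![1, 1] : Fin 2 → ZMod 2) ≠ ![0, 1] := by decide


/-- Every primitive affine permutation group of degree p² is 3-closed. Let p be a prime and G a group of permutations of the plane V = F_p² consisting of affine maps x ↦ Ax + b, containing all translations, and acting primitively on V. Then any permutation σ of V that agrees on every triple of points with some element of G (σ preserves every G-orbit on ordered triples) already lies in G. -/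
theorem result (p : ℕ) [Fact p.Prime] (G : Subgroup (Equiv.Perm (Fin 2 → ZMod p)))
    (haff : (G : Set (Equiv.Perm (Fin 2 → ZMod p))) ⊆ {τ : Equiv.Perm (Fin 2 → ZMod p) | ∃ (A : (Fin 2 → ZMod p) ≃ₗ[ZMod p] (Fin 2 → ZMod p)) (b : Fin 2 → ZMod p), ∀ x, τ x = A x + b})
    (htrans : ∀ b : Fin 2 → ZMod p, ∃ g ∈ G, ∀ x, g x = x + b) (hprim : MulAction.IsPreprimitive G (Fin 2 → ZMod p))
    (σ : Equiv.Perm (Fin 2 → ZMod p)) (hσ : (∀ t : Fin 3 → (Fin 2 → ZMod p), ∃ g ∈ G, ∀ i, σ (t i) = g (t i))) : σ ∈ G := by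
  classical
  have hσ' : ∀ t : Fin 3 → (Fin 2 → ZMod p), ∃ (A : (Fin 2 → ZMod p) ≃ₗ[ZMod p] (Fin 2 → ZMod p)) (b : Fin 2 → ZMod p), ∀ i, σ (t i) = A (t i) + b := by
    intro t
    obtain ⟨g, hg, hgt⟩ := hσ t
    obtain ⟨A, b, hA⟩ := haff hg
    exact ⟨A, b, fun i => (hgt i).trans (hA _)⟩
  rcases eq_or_ne p 2 with rfl | hp
  · obtain ⟨g, hg, hgt⟩ := hσ ![![0, 0], ![1, 0], ![0, 1]]
    have : σ = g := by
      have cases4 := cases4'
      have h0 : ∀ i : Fin 3, g⁻¹ (σ ((![![0, 0], ![1, 0], ![0, 1]] : Fin 3 → Fin 2 → ZMod 2) i)) =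
          (![![0, 0], ![1, 0], ![0, 1]] : Fin 3 → Fin 2 → ZMod 2) i := fun i => by rw [hgt i]; simp
      refine (inv_mul_eq_one.mp (Equiv.ext fun x => ?_)).symm
      show g⁻¹ (σ x) = x
      rcases cases4 x with rfl | rfl | rfl | rfl
      · exact h0 0
      · exact h0 1
      · exact h0 2
      · have inj : ∀ x y, g⁻¹ (σ x) = g⁻¹ (σ y) → x = y := fun x y hxy => σ.injective (g⁻¹.injective hxy)
        rcases cases4 (g⁻¹ (σ ![1, 1])) with h | h | h | h
        · exact absurd (inj _ ![0, 0] (h.trans (h0 0).symm)) ne4.1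
        · exact absurd (inj _ ![1, 0] (h.trans (h0 1).symm)) ne4.2.1
        · exact absurd (inj _ ![0, 1] (h.trans (h0 2).symm)) ne4.2.2
        · exact h
    exact this ▸ hg
  · obtain ⟨A, b, hA⟩ := affine_of_triples p hp σ σ.injective hσ'
    obtain ⟨g, hg, hgt⟩ := hσ ![0, Pi.single 0 1, Pi.single 1 1]
    obtain ⟨A', b', hA'⟩ := haff hg
    have hb : b = b' := by
      have := hgt 0
      rw [hA, hA'] at this
      simpa using this
    have hAA : (A : (Fin 2 → ZMod p) →ₗ[ZMod p] Fin 2 → ZMod p) = A' := by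
      refine (Pi.basisFun (ZMod p) (Fin 2)).ext fun j => ?_
      rw [Pi.basisFun_apply]
      fin_cases j
      · have := hgt 1
        rw [hA, hA', hb] at this
        exact add_right_cancel this
      · have := hgt 2
        rw [hA, hA', hb] at this
        exact add_right_cancel this
    have : σ = g := Equiv.ext fun x => by
      rw [hA, hA', hb]
      exact congrArg (· + b') (LinearMap.congr_fun hAA x)
    exact this ▸ hg

end Cfsg.Agent.S3515
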