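import Cfsg.Statements.S3516
import Cfsg.Agent.S3515

set_option autoImplicit false
open Cfsg

namespace Cfsg.Agent.S3516


/-- Let p be an odd prime, d ≥ 3, and G a group of affine permutations x ↦ Ax + b of V = F_p^d containing all translations and all maps x ↦ Ax with A of determinant 1. Then the 3-closure of G is the full affine group: a permutation σ of V agrees on every triple of points with some element of G if and only if σ is an affine map. -/
theorem result (p : ℕ) [Fact p.Prime] (hp : p ≠ 2) (d : ℕ) (hd : 3 ≤ d) (G : Subgroup (Equiv.Perm (Fin d → ZMod p)))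
    (haff : (G : Set (Equiv.Perm (Fin d → ZMod p))) ⊆ {τ : Equiv.Perm (Fin d → ZMod p) | ∃ (A : (Fin d → ZMod p) ≃ₗ[ZMod p] (Fin d → ZMod p)) (b : Fin d → ZMod p), ∀ x, τ x = A x + b})
    (htrans : ∀ b : Fin d → ZMod p, ∃ g ∈ G, ∀ x, g x = x + b)
    (hsl : ∀ A : (Fin d → ZMod p) ≃ₗ[ZMod p] (Fin d → ZMod p), LinearMap.det (A : (Fin d → ZMod p) →ₗ[ZMod p] (Fin d → ZMod p)) = 1 → ∃ g ∈ G, ∀ x, g x = A x)
    (σ : Equiv.Perm (Fin d → ZMod p)) :
    (∀ t : Fin 3 → (Fin d → ZMod p), ∃ g ∈ G, ∀ i, σ (t i) = g (t i)) ↔ σ ∈ {τ : Equiv.Perm (Fin d → ZMod p) | ∃ (A : (Fin d → ZMod p) ≃ₗ[ZMod p] (Fin d → ZMod p)) (b : Fin d → ZMod p), ∀ x, τ x = A x + b} := by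
  classical
  constructor
  · intro hσ
    refine Cfsg.Agent.S3515.affine_of_triples p hp σ σ.injective fun t => ?_
    obtain ⟨g, hg, hgt⟩ := hσ t
    obtain ⟨A, b, hA⟩ := haff hg
    exact ⟨A, b, fun i => (hgt i).trans (hA _)⟩
  · rintro ⟨A, b, hA⟩ t
    set W := Submodule.span (ZMod p) (Set.range ![A (t 1 - t 0), A (t 2 - t 0)]) with hW
    have hWlt : W ≠ ⊤ := by
      intro h
      have h1 : Module.finrank (ZMod p) W ≤ 2 := by
        have := finrank_range_le_card (R := ZMod p) ![A (t 1 - t 0), A (t 2 - t 0)]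
        simpa [Set.finrank, hW] using this
      rw [h, finrank_top, Module.finrank_fin_fun] at h1
      omega
    obtain ⟨w, hw⟩ : ∃ w, w ∉ W := by
      by_contra hc
      push_neg at hc
      exact hWlt (eq_top_iff.mpr fun x _ => hc x)
    obtain ⟨f, hf1, hfW⟩ := Submodule.exists_dual_map_eq_bot_of_notMem hw inferInstance
    have hfW' : ∀ x ∈ W, f x = 0 := fun x hx => by
      have : f x ∈ W.map f := Submodule.mem_map_of_mem hx
      rwa [hfW, Submodule.mem_bot] at this
    set a : ZMod p := LinearMap.det (A : (Fin d → ZMod p) →ₗ[ZMod p] (Fin d → ZMod p)) with ha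
    have ha0 : a ≠ 0 := (LinearEquiv.isUnit_det' A).ne_zero
    set D := LinearMap.transvection f (((a⁻¹ - 1) / f w) • w) with hD
    have hdet : LinearMap.det D = a⁻¹ := by
      rw [hD, LinearMap.transvection.det, map_smul, smul_eq_mul, div_mul_cancel₀ _ hf1]
      ring
    let B := A.trans (LinearMap.equivOfDetNeZero D (by rw [hdet]; exact inv_ne_zero ha0))
    have hBdet : LinearMap.det (B : (Fin d → ZMod p) →ₗ[ZMod p] (Fin d → ZMod p)) = 1 := by
      have : (B : (Fin d → ZMod p) →ₗ[ZMod p] (Fin d → ZMod p)) = D.comp (A : (Fin d → ZMod p) →ₗ[ZMod p] (Fin d → ZMod p)) := rfl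
      rw [this, LinearMap.det_comp, hdet, ← ha, inv_mul_cancel₀ ha0]
    have hBA : ∀ i, B (t i - t 0) = A (t i - t 0) := by
      intro i
      have hm : A (t i - t 0) ∈ W := by
        match i with
        | 0 => simp
        | 1 => exact Submodule.subset_span ⟨0, rfl⟩
        | 2 => exact Submodule.subset_span ⟨1, rfl⟩
      show D (A (t i - t 0)) = A (t i - t 0)
      rw [hD, LinearMap.transvection.apply, hfW' _ hm, zero_smul, add_zero]
    obtain ⟨g, hg, hgB⟩ := hsl B hBdet
    obtain ⟨g', hg', hg'b⟩ := htrans (σ (t 0) - B (t 0))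
    refine ⟨g' * g, mul_mem hg' hg, fun i => ?_⟩
    rw [Equiv.Perm.mul_apply, hgB, hg'b]
    have := hBA i
    rw [map_sub, map_sub] at this
    rw [hA, hA, ← add_sub_assoc, sub_eq_iff_eq_add.mp this]
    abel

end Cfsg.Agent.S3516
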