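import Cfsg.Statements.S3517
import Cfsg.Agent.Perm.LinExtend

set_option autoImplicit false
open Cfsg

namespace Cfsg.Agent.S3517


/-- For d ≥ 3, the 3-closure of the affine group AGL_d(2) acting on F_2^d is the full symmetric group: every permutation of F_2^d agrees on every ordered triple of points with some affine map (AGL_d(2) is 3-transitive). -/
theorem result (d : ℕ) (hd : 3 ≤ d) (σ : Equiv.Perm (Fin d → ZMod 2)) (t : Fin 3 → (Fin d → ZMod 2)) :
    ∃ (A : (Fin d → ZMod 2) ≃ₗ[ZMod 2] (Fin d → ZMod 2)) (b : Fin d → ZMod 2), ∀ i, σ (t i) = A (t i) + b := by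
  classical
  obtain ⟨n, rfl⟩ : ∃ n, d = n + 3 := ⟨d - 3, by omega⟩
  have two : ∀ x : ZMod 2, x = 0 ∨ x = 1 := by decide
  have indep : ∀ u v : Fin (n + 3) → ZMod 2, u ≠ 0 → v ≠ 0 → u ≠ v → LinearIndependent (ZMod 2) ![u, v] := by
    intro u v hu hv huv
    refine linearIndependent_fin2.mpr ⟨by simpa using hv, fun a => ?_⟩
    rcases two a with rfl | rfl
    · simpa using hu.symm
    · simpa using huv.symm
  have ext1 : ∀ u : Fin (n + 3) → ZMod 2, ∃ v, v ≠ 0 ∧ u ≠ v := by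
    intro u
    by_cases h : u = Pi.single 0 1
    · refine ⟨Pi.single 1 1, by simp [Pi.single_eq_zero_iff], ?_⟩
      intro he
      have := congrFun (h.symm.trans he) 0
      simp at this
    · exact ⟨Pi.single 0 1, by simp [Pi.single_eq_zero_iff], h⟩
  have main : ∀ u v u' v' : Fin (n + 3) → ZMod 2, (u = 0 ↔ u' = 0) → (v = 0 ↔ v' = 0) → (u = v ↔ u' = v') →
      ∃ A : (Fin (n + 3) → ZMod 2) ≃ₗ[ZMod 2] (Fin (n + 3) → ZMod 2), A u = u' ∧ A v = v' := by
    intro u v u' v' hu hv huv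
    wlog h0 : u ≠ 0 generalizing u v u' v'
    · rw [not_not] at h0
      by_cases hv0 : v = 0
      · exact ⟨LinearEquiv.refl _ _, by simp [h0, hu.mp h0], by simp [hv0, hv.mp hv0]⟩
      · obtain ⟨A, h1, h2⟩ := this v u v' u' hv hu ⟨fun h => (huv.mp h.symm).symm, fun h => (huv.mpr h.symm).symm⟩ hv0
        exact ⟨A, h2, h1⟩
    have hu' : u' ≠ 0 := fun h => h0 (hu.mpr h)
    by_cases hb : v = 0 ∨ u = v
    · obtain ⟨x, hx0, hxu⟩ := ext1 u
      obtain ⟨y, hy0, hyu⟩ := ext1 u'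
      obtain ⟨A, hA⟩ := CfsgLib.Perm.exists_linearEquiv_map_indep (indep u x h0 hx0 hxu) (indep u' y hu' hy0 hyu)
      have hA0 : A u = u' := hA 0
      refine ⟨A, hA0, ?_⟩
      rcases hb with hb | hb
      · simp [hb, hv.mp hb]
      · rw [← hb, ← huv.mp hb, hA0]
    · push_neg at hb
      obtain ⟨A, hA⟩ := CfsgLib.Perm.exists_linearEquiv_map_indep (indep u v h0 hb.1 hb.2)
        (indep u' v' hu' (fun h => hb.1 (hv.mpr h)) (fun h => hb.2 (huv.mpr h)))
      exact ⟨A, hA 0, hA 1⟩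
  obtain ⟨A, h1, h2⟩ := main (t 1 - t 0) (t 2 - t 0) (σ (t 1) - σ (t 0)) (σ (t 2) - σ (t 0))
    (by simp [sub_eq_zero]) (by simp [sub_eq_zero]) (by simp)
  refine ⟨A, σ (t 0) - A (t 0), fun i => ?_⟩
  rw [map_sub] at h1 h2
  have h1' : σ (t 1) - σ (t 0) = A (t 1) - A (t 0) := h1.symm
  have h2' : σ (t 2) - σ (t 0) = A (t 2) - A (t 0) := h2.symm
  match i with
  | 0 => abel
  | 1 => rw [sub_eq_iff_eq_add.mp h1']; abel
  | 2 => rw [sub_eq_iff_eq_add.mp h2']; abel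

end Cfsg.Agent.S3517
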