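import Cfsg.Statements.S3518
import Cfsg.Agent.Eq.Def_Perm

set_option autoImplicit false
open Cfsg

namespace Cfsg.Agent.S3518

open Polynomial in
/-- A map of a prime field missing at least half of all slopes is affine (Rédei). -/
theorem affine_of_few_slopes (p : ℕ) [Fact p.Prime] (f : ZMod p → ZMod p) (C : Finset (ZMod p))
    (hC : ∀ c ∈ C, Function.Injective fun x => f x - c * x) (hcard : (p + 1) / 2 ≤ C.card) :
    ∃ a b : ZMod p, ∀ x, f x = a * x + b := by
  classical
  have hp : p.Prime := Fact.out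
  have hpow : ∀ j < p - 1, ∑ x : ZMod p, x ^ j = 0 := fun j hj =>
    FiniteField.sum_pow_lt_card_sub_one (ZMod p) j (by rwa [ZMod.card])
  have hsum : ∀ i j : ℕ, i ≤ j → j ≤ C.card → j < p - 1 → ∑ x : ZMod p, f x ^ i * x ^ (j - i) = 0 := by
    intro i j hij hjC hj
    let a : ℕ → ZMod p := fun i => (∑ x : ZMod p, f x ^ i * x ^ (j - i)) * (j.choose i : ZMod p) * (-1) ^ (j - i)
    let Q : (ZMod p)[X] := ∑ i ∈ Finset.range (j + 1), monomial (j - i) (a i)
    have heval : ∀ c, Q.eval c = ∑ x : ZMod p, (f x - c * x) ^ j := by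
      intro c
      simp only [Q, eval_finsetSum, eval_monomial]
      have e : ∀ x : ZMod p, (f x - c * x) ^ j =
          ∑ i ∈ Finset.range (j + 1), f x ^ i * x ^ (j - i) * (j.choose i : ZMod p) * (-1) ^ (j - i) * c ^ (j - i) := by
        intro x
        rw [sub_eq_add_neg, add_pow]
        refine Finset.sum_congr rfl fun i _ => ?_
        rw [show -(c * x) = -1 * c * x by ring, mul_pow, mul_pow]
        ring
      simp only [e]
      rw [Finset.sum_comm]
      refine Finset.sum_congr rfl fun i _ => ?_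
      simp only [a, Finset.sum_mul]
    have hroot : ∀ c ∈ C, Q.eval c = 0 := by
      intro c hc
      rw [heval]
      have hb := Finite.injective_iff_bijective.1 (hC c hc)
      rw [Function.Bijective.sum_comp hb (fun y => y ^ j)]
      exact hpow j hj
    have hcoeff : ∀ n, Q.coeff n = if n ≤ j then a (j - n) else 0 := by
      intro n
      simp only [Q, finsetSum_coeff, coeff_monomial]
      split_ifs with hn
      · rw [Finset.sum_eq_single (j - n)]
        · rw [if_pos (by omega)]
        · intro b hb hne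
          rw [if_neg]
          have := Finset.mem_range.1 hb
          omega
        · intro h; exact absurd (Finset.mem_range.2 (by omega)) h
      · refine Finset.sum_eq_zero fun b hb => ?_
        rw [if_neg]
        omega
    have hQ0 : Q = 0 := by
      refine eq_zero_of_degree_lt_of_eval_finset_eq_zero C ?_ hroot
      rw [degree_lt_iff_coeff_zero]
      intro n hn
      rw [hcoeff]
      split_ifs with h
      · have hnj : n = j := by omega
        subst hnj
        simp only [a, Nat.sub_self, pow_zero, one_mul, Nat.sub_zero, hpow n hj, zero_mul]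
      · rfl
    have h := hcoeff (j - i)
    rw [hQ0, coeff_zero, if_pos (Nat.sub_le j i), show j - (j - i) = i by omega] at h
    have hchoose : (j.choose i : ZMod p) ≠ 0 := by
      rw [Ne, ZMod.natCast_eq_zero_iff]
      intro hd
      have h1 : p ∣ j.factorial := by
        rw [← Nat.choose_mul_factorial_mul_factorial hij]
        exact (hd.mul_right _).mul_right _
      have := hp.dvd_factorial.1 h1
      omega
    have h2 := (mul_eq_zero.1 h.symm).resolve_right (pow_ne_zero _ (neg_ne_zero.2 one_ne_zero))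
    exact (mul_eq_zero.1 h2).resolve_right hchoose
  let P : (ZMod p)[X] := Lagrange.interpolate Finset.univ id f
  have hPe : ∀ x, P.eval x = f x := fun x =>
    Lagrange.eval_interpolate_at_node f (Set.injOn_id _) (Finset.mem_univ x)
  have hPd : P.natDegree < p := by
    rcases eq_or_ne P 0 with h | h
    · rw [h, natDegree_zero]; exact hp.pos
    · have := Lagrange.degree_interpolate_lt (s := Finset.univ) (v := id) f (Set.injOn_id _)
      rw [Finset.card_univ, ZMod.card] at this
      exact (natDegree_lt_iff_degree_lt h).2 this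
  have hle : P.natDegree ≤ 1 := by
    by_contra hlt
    push Not at hlt
    obtain ⟨e, he⟩ : ∃ e, e = P.natDegree := ⟨_, rfl⟩
    rw [← he] at hPd hlt
    set i := (p - 1) / e with hi
    set r := (p - 1) % e with hr
    have hdiv : e * i + r = p - 1 := Nat.div_add_mod (p - 1) e
    have hre : r < e := Nat.mod_lt _ (by omega)
    have hi1 : 1 ≤ i := (Nat.one_le_div_iff (by omega)).2 (by omega)
    have hb : i + r < p - 1 ∧ i + r ≤ (p + 1) / 2 := by
      have h2 : 2 * i ≤ e * i := Nat.mul_le_mul_right i hlt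
      rcases Nat.lt_or_ge i 2 with h | h
      · have : i = 1 := by omega
        rw [this, mul_one] at hdiv
        omega
      · have h3 : 2 * e + 2 * i ≤ e * i + 4 := by
          obtain ⟨e', rfl⟩ : ∃ e', e = e' + 2 := ⟨e - 2, by omega⟩
          obtain ⟨i', hi'⟩ : ∃ i', i = i' + 2 := ⟨i - 2, by omega⟩
          rw [hi']; ring_nf; omega
        omega
    have hz := hsum i (i + r) (Nat.le_add_right i r) (hb.2.trans hcard) hb.1
    rw [Nat.add_sub_cancel_left] at hz
    set R := P ^ i * X ^ r with hR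
    have hP0 : P ≠ 0 := fun h => by rw [h, natDegree_zero] at he; omega
    have hRd : R.natDegree = p - 1 := by
      rw [hR, natDegree_mul (pow_ne_zero _ hP0) (pow_ne_zero _ X_ne_zero), natDegree_pow, natDegree_X_pow, ← he, ← hdiv, mul_comm i e]
    have hev : ∑ x : ZMod p, f x ^ i * x ^ r = ∑ x : ZMod p, R.eval x := by
      refine Finset.sum_congr rfl fun x _ => ?_
      rw [hR, eval_mul, eval_pow, eval_pow, eval_X, hPe]
    rw [hev] at hz
    simp only [eval_eq_sum_range, hRd] at hz
    rw [Finset.sum_comm, Finset.sum_range_succ, Finset.sum_eq_zero (fun n hn => by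
      rw [← Finset.mul_sum, hpow n (Finset.mem_range.1 hn), mul_zero]), zero_add, ← Finset.mul_sum] at hz
    have hlast : ∑ x : ZMod p, x ^ (p - 1) = -1 := by
      have h1 : ∀ x : ZMod p, x ^ (p - 1) = if x = 0 then 0 else 1 := by
        intro x
        split_ifs with h
        · rw [h, zero_pow]
          have := hp.two_le; omega
        · exact ZMod.pow_card_sub_one_eq_one h
      simp only [h1]
      rw [Finset.sum_ite, Finset.sum_const_zero, zero_add, Finset.sum_const, nsmul_one, Finset.filter_ne',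
        Finset.card_erase_of_mem (Finset.mem_univ _), Finset.card_univ, ZMod.card, Nat.cast_sub hp.one_le]
      simp
    have hlead : R.coeff (p - 1) ≠ 0 := by
      rw [← hRd]
      exact leadingCoeff_ne_zero.2 (mul_ne_zero (pow_ne_zero _ hP0) (pow_ne_zero _ X_ne_zero))
    rw [hlast] at hz
    simp [hlead] at hz
  refine ⟨P.coeff 1, P.coeff 0, fun x => ?_⟩
  rw [← hPe x]
  conv_lhs => rw [eq_X_add_C_of_natDegree_le_one hle]
  simp


/-- Closures of subgroups of the one-dimensional affine group. Let p be a prime and G a group of permutations of F_p lying in the affine group AGL₁(p) = {x ↦ ax + b, a ≠ 0} and containing all translations. (1) If G is a proper subgroup of AGL₁(p), then G is 2-closed: a permutation of F_p agreeing on every ordered pair of points with some element of G lies in G. (2) Every permutation of F_p agrees on every ordered pair with some element of AGL₁(p) (the 2-closure of AGL₁(p) is the symmetric group). (3) AGL₁(p) is 3-closed: a permutation agreeing on every ordered triple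 with some affine map is affine. -/
theorem result (p : ℕ) [Fact p.Prime] (G : Subgroup (Equiv.Perm (ZMod p))) (hG : G ≤ Cfsg.affineGroup (ZMod p))
    (htrans : ∀ b : ZMod p, ∃ g ∈ G, ∀ x, g x = x + b) :
    (G ≠ Cfsg.affineGroup (ZMod p) → ∀ σ : Equiv.Perm (ZMod p), (∀ t : Fin 2 → ZMod p, ∃ g ∈ G, ∀ i, σ (t i) = g (t i)) → σ ∈ G) ∧
    (∀ σ : Equiv.Perm (ZMod p), (∀ t : Fin 2 → ZMod p, ∃ g ∈ Cfsg.affineGroup (ZMod p), ∀ i, σ (t i) = g (t i))) ∧
    (∀ σ : Equiv.Perm (ZMod p), (∀ t : Fin 3 → ZMod p, ∃ g ∈ Cfsg.affineGroup (ZMod p), ∀ i, σ (t i) = g (t i)) → σ ∈ Cfsg.affineGroup (ZMod p)) := by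
  classical
  have hp : p.Prime := Fact.out
  refine ⟨fun hne σ hσ => ?_, fun σ t => ?_, fun σ hσ => ?_⟩
  · -- the multipliers of `G`
    let S : Subgroup (ZMod p)ˣ :=
      { carrier := {a | ∃ g ∈ G, ∀ x, g x = (a : ZMod p) * x}
        one_mem' := ⟨1, one_mem G, fun x => by simp⟩
        mul_mem' := by
          rintro a b ⟨g, hg, hga⟩ ⟨h, hh, hhb⟩
          exact ⟨g * h, mul_mem hg hh, fun x => by rw [Equiv.Perm.mul_apply, hga, hhb, Units.val_mul, mul_assoc]⟩
        inv_mem' := by
          rintro a ⟨g, hg, hga⟩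
          refine ⟨g⁻¹, inv_mem hg, fun x => g.injective ?_⟩
          rw [← Equiv.Perm.mul_apply, mul_inv_cancel, Equiv.Perm.one_apply, hga, ← mul_assoc, Units.mul_inv, one_mul] }
    have hfull : ∀ a ∈ S, ∀ b : ZMod p, ∃ g ∈ G, ∀ x, g x = (a : ZMod p) * x + b := by
      rintro a ⟨g, hg, hga⟩ b
      obtain ⟨t, ht, htb⟩ := htrans b
      exact ⟨t * g, mul_mem ht hg, fun x => by rw [Equiv.Perm.mul_apply, htb, hga]⟩
    have hmult : ∀ g ∈ G, ∃ a ∈ S, ∃ b : ZMod p, ∀ x, g x = (a : ZMod p) * x + b := by
      intro g hg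
      obtain ⟨a, b, hab⟩ := hG hg
      obtain ⟨t, ht, htb⟩ := htrans (-b)
      exact ⟨a, ⟨t * g, mul_mem ht hg, fun x => by rw [Equiv.Perm.mul_apply, htb, hab, add_neg_cancel_right]⟩, b, hab⟩
    have hS : S ≠ ⊤ := by
      intro h
      apply hne (le_antisymm hG ?_)
      rintro τ ⟨a, b, hτ⟩
      obtain ⟨g, hg, hgab⟩ := hfull a (h ▸ Subgroup.mem_top a) b
      rwa [show τ = g from Equiv.ext fun x => (hτ x).trans (hgab x).symm]
    have hScard : 2 * Nat.card S ≤ p - 1 := by
      have h1 := S.card_mul_index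
      rw [Nat.card_eq_fintype_card (α := (ZMod p)ˣ), ZMod.card_units] at h1
      have h2 : 2 ≤ S.index := by
        have := S.index_ne_zero_of_finite
        have : S.index ≠ 1 := fun h => hS (Subgroup.index_eq_one.1 h)
        omega
      rw [← h1, mul_comm]
      exact Nat.mul_le_mul_left _ h2
    let T : Finset (ZMod p) := Finset.univ.filter fun c => ∃ a ∈ S, (a : ZMod p) = c
    have hT : T.card ≤ Nat.card S := by
      rw [← Nat.card_eq_finsetCard]
      refine Nat.card_le_card_of_surjective (fun a : S => (⟨((a : (ZMod p)ˣ) : ZMod p), Finset.mem_filter.2 ⟨Finset.mem_univ _, a, a.2, rfl⟩⟩ : T)) ?_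
      rintro ⟨c, hc⟩
      obtain ⟨a, ha, rfl⟩ := (Finset.mem_filter.1 hc).2
      exact ⟨⟨a, ha⟩, rfl⟩
    obtain ⟨a, b, hab⟩ := affine_of_few_slopes p σ Tᶜ (by
      intro c hc x y hxy
      by_contra hne
      obtain ⟨g, hg, hgt⟩ := hσ ![x, y]
      obtain ⟨a, ha, b, hab⟩ := hmult g hg
      have hx : σ x = (a : ZMod p) * x + b := (hgt 0).trans (hab x)
      have hy : σ y = (a : ZMod p) * y + b := (hgt 1).trans (hab y)
      have h0 : ((a : ZMod p) - c) * (x - y) = 0 := by
        simp only [hx, hy] at hxy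
        linear_combination hxy
      rcases mul_eq_zero.1 h0 with h | h
      · exact Finset.mem_compl.1 hc (Finset.mem_filter.2 ⟨Finset.mem_univ _, a, ha, sub_eq_zero.1 h⟩)
      · exact hne (sub_eq_zero.1 h)) (by
      rw [Finset.card_compl, ZMod.card]
      omega)
    obtain ⟨g, hg, hgt⟩ := hσ ![0, 1]
    obtain ⟨a', ha', b', hab'⟩ := hmult g hg
    have h0 : σ 0 = g 0 := hgt 0
    have h1 : σ 1 = g 1 := hgt 1
    rw [hab, hab', mul_zero, mul_zero, zero_add, zero_add] at h0
    rw [hab, hab', mul_one, mul_one, h0, add_left_inj] at h1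
    have : σ = g := Equiv.ext fun x => by rw [hab, hab', h0, h1]
    exact this ▸ hg
  · by_cases h : t 0 = t 1
    · refine ⟨Equiv.addRight (σ (t 0) - t 0), ⟨1, σ (t 0) - t 0, fun x => by simp⟩, fun i => ?_⟩
      fin_cases i <;> simp [h]
    · have hd : t 1 - t 0 ≠ 0 := sub_ne_zero.2 (Ne.symm h)
      have hd' : σ (t 1) - σ (t 0) ≠ 0 := sub_ne_zero.2 (σ.injective.ne (Ne.symm h))
      have ha : (σ (t 1) - σ (t 0)) / (t 1 - t 0) ≠ 0 := div_ne_zero hd' hd
      refine ⟨(Equiv.mulLeft₀ _ ha).trans (Equiv.addRight (σ (t 0) - (σ (t 1) - σ (t 0)) / (t 1 - t 0) * t 0)),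
        ⟨Units.mk0 _ ha, _, fun x => rfl⟩, fun i => ?_⟩
      fin_cases i
      · simp [sub_eq_add_neg]
      · show σ (t 1) = (σ (t 1) - σ (t 0)) / (t 1 - t 0) * t 1 + (σ (t 0) - (σ (t 1) - σ (t 0)) / (t 1 - t 0) * t 0)
        field_simp
        ring
  · obtain ⟨g, ⟨a, b, hg⟩, hgt⟩ := hσ ![0, 1, 1]
    refine ⟨a, b, fun x => ?_⟩
    obtain ⟨g', ⟨a', b', hg'⟩, hgt'⟩ := hσ ![0, 1, x]
    have e0 := hgt 0
    have e1 := hgt 1
    have f0 := hgt' 0
    have f1 := hgt' 1
    have f2 := hgt' 2
    simp only [hg, hg', Matrix.cons_val_zero, Matrix.cons_val_one, Matrix.cons_val, mul_zero, zero_add, mul_one] at e0 e1 f0 f1 f2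
    have hb : b' = b := f0.symm.trans e0
    have haa : (a' : ZMod p) = a := by
      rw [e1, hb] at f1
      exact (add_right_cancel f1).symm
    rw [f2, haa, hb]

end Cfsg.Agent.S3518
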