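import Cfsg.Statements.S3524

set_option autoImplicit false
open Cfsg

namespace Cfsg.Agent.S3524


/-- A permutation group with a base is closed at one level above the base size. Let G be a group of permutations of a set Ω and suppose some k points α₁, …, α_k are fixed simultaneously only by the identity of G (a base of size k). Then G is (k+1)-closed: a permutation of Ω that agrees on every (k+1)-tuple of points with some element of G belongs to G. -/
theorem result {Ω : Type*} (G : Subgroup (Equiv.Perm Ω)) (k : ℕ) (α : Fin k → Ω)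
    (hbase : ∀ g ∈ G, (∀ i, g (α i) = α i) → g = 1) (σ : Equiv.Perm Ω)
    (hσ : ∀ t : Fin (k + 1) → Ω, ∃ g ∈ G, ∀ i, σ (t i) = g (t i)) : σ ∈ G := by
  classical
  have key : ∀ x : Ω, ∃ g ∈ G, (∀ i, σ (α i) = g (α i)) ∧ σ x = g x := by
    intro x
    obtain ⟨g, hg, h⟩ := hσ (Fin.cons x α)
    exact ⟨g, hg, fun i => by simpa using h i.succ, by simpa using h 0⟩
  rcases isEmpty_or_nonempty Ω with hΩ | hΩ
  · rw [Subsingleton.elim σ 1]; exact one_mem G
  obtain ⟨x₀⟩ := hΩ
  obtain ⟨g₀, hg₀, h₀, -⟩ := key x₀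
  have : σ = g₀ := by
    ext x
    obtain ⟨g, hg, h1, h2⟩ := key x
    have : g₀⁻¹ * g = 1 := hbase _ (mul_mem (inv_mem hg₀) hg) fun i => by
      rw [Equiv.Perm.mul_apply, ← h1 i, h₀ i]; simp
    rw [h2, inv_mul_eq_one.mp this]
  exact this ▸ hg₀

end Cfsg.Agent.S3524
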