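import Cfsg.Statements.S3547
import Cfsg.Agent.Perm.DerangementSubgroup

set_option autoImplicit false
open Cfsg

namespace Cfsg.Agent.S3547

open MulAction CfsgLib.Perm

theorem card_fixedBy_prod {G Ω : Type*} [Group G] [MulAction G Ω] (g : G) :
    Nat.card (fixedBy (Ω × Ω) g) = Nat.card (fixedBy Ω g) * Nat.card (fixedBy Ω g) := by
  rw [← Nat.card_prod]
  exact Nat.card_congr
    { toFun := fun x => (⟨x.1.1, congrArg Prod.fst x.2⟩, ⟨x.1.2, congrArg Prod.snd x.2⟩)
      invFun := fun x => ⟨(x.1.1, x.2.1), Prod.ext x.1.2 x.2.2⟩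
      left_inv := fun x => rfl
      right_inv := fun x => rfl }



/-- Let G act faithfully and transitively on a finite set Ω, let D be the subgroup generated by the derangements, and let r_G and r_D be the numbers of orbits of G and of D on ordered pairs of points (the permutation ranks). Then r_D − 1 = (r_G − 1)·[G : D]. -/
theorem result {G Ω : Type*} [Group G] [Finite G] [MulAction G Ω] [FaithfulSMul G Ω] [Finite Ω]
    (htrans : MulAction.IsPretransitive G Ω) :
    Nat.card (MulAction.orbitRel.Quotient ↥(Subgroup.closure {g : G | ∀ ω : Ω, g • ω ≠ ω}) (Ω × Ω)) - 1 =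
      (Nat.card (MulAction.orbitRel.Quotient G (Ω × Ω)) - 1) * (Subgroup.closure {g : G | ∀ ω : Ω, g • ω ≠ ω}).index := by
  classical
  rcases isEmpty_or_nonempty Ω with he | hne
  · simp
  haveI := Fintype.ofFinite G
  have h := transitive_and_fix_eq_one _ (notMem_closure_derangements G Ω)
  generalize Subgroup.closure {g : G | ∀ ω : Ω, g • ω ≠ ω} = D at h ⊢
  have h1 := orbits_mul_card_eq (X := Ω × Ω) D
  rw [Finset.sum_congr rfl (g := fun _ => 1) (fun g hg => by
    rw [card_fixedBy_prod, h.2 g (Finset.mem_filter.1 hg).2])] at h1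
  rw [Finset.sum_const, smul_eq_mul, mul_one] at h1
  have h2 := card_filter_notMem D
  rw [← D.index_mul_card] at h1 h2
  have hDpos : 0 < Nat.card D := Nat.card_pos
  have hm : 0 < D.index := Nat.pos_of_ne_zero Subgroup.index_ne_zero_of_finite
  have h3 : (Nat.card (orbitRel.Quotient G (Ω × Ω)) * D.index + 1) * Nat.card D
      = (Nat.card (orbitRel.Quotient D (Ω × Ω)) + D.index) * Nat.card D := by
    rw [add_mul, add_mul, mul_assoc, h1, one_mul, ← h2]; ring
  have h4 := Nat.eq_of_mul_eq_mul_right hDpos h3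
  have hrG : 1 ≤ Nat.card (orbitRel.Quotient G (Ω × Ω)) :=
    haveI : Nonempty (orbitRel.Quotient G (Ω × Ω)) := (inferInstance : Nonempty (Ω × Ω)).map Quotient.mk''
    Nat.card_pos
  have hle : D.index ≤ Nat.card (orbitRel.Quotient G (Ω × Ω)) * D.index :=
    Nat.le_mul_of_pos_left _ hrG
  rw [Nat.sub_mul, one_mul]
  omega

end Cfsg.Agent.S3547
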