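import Cfsg.Statements.S3548
import Cfsg.Agent.Perm.DerangementSubgroup

set_option autoImplicit false
open Cfsg

namespace Cfsg.Agent.S3548

open MulAction CfsgLib.Perm


/-- Let G act faithfully and transitively on a finite set with n ≥ 2 points and let D be the subgroup generated by the derangements. Then the index of D in G divides n − 1, and if it equals n − 1 then n is a prime power. -/
theorem result {G Ω : Type*} [Group G] [Finite G] [MulAction G Ω] [FaithfulSMul G Ω] [Finite Ω]
    (htrans : MulAction.IsPretransitive G Ω) (hΩ : 2 ≤ Nat.card Ω) :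
    (Subgroup.closure {g : G | ∀ ω : Ω, g • ω ≠ ω}).index ∣ Nat.card Ω - 1 ∧
    ((Subgroup.closure {g : G | ∀ ω : Ω, g • ω ≠ ω}).index = Nat.card Ω - 1 → IsPrimePow (Nat.card Ω)) := by
  haveI : Nonempty Ω := (Nat.card_pos_iff.1 (by omega)).1
  have hD := notMem_closure_derangements G Ω
  have hnormal := closure_derangements_normal G Ω
  generalize Subgroup.closure {g : G | ∀ ω : Ω, g • ω ≠ ω} = D at hD hnormal ⊢
  refine ⟨index_dvd_card_sub_one D hD, fun heq => ?_⟩
  haveI := (transitive_and_fix_eq_one D hD).1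
  obtain ⟨a⟩ := ‹Nonempty Ω›
  -- every other point has stabiliser orbit of size `n - 1`
  have horb : ∀ b : Ω, b ≠ a → (orbit (stabilizer G a) b).ncard = D.index ∧
      orbit (stabilizer G a) b = {a}ᶜ := by
    intro b hb
    have hsub : orbit (stabilizer G a) b ⊆ ({a}ᶜ : Set Ω) := by
      rintro x ⟨g, rfl⟩ hx
      apply hb
      have : (g : G) • b = (g : G) • a := (Set.mem_singleton_iff.1 hx).trans g.2.symm
      exact smul_left_cancel _ this
    have hdvd := index_dvd_orbit D hD hb
    have hle := Set.ncard_le_ncard hsub (Set.toFinite _)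
    have hc : ({a}ᶜ : Set Ω).ncard = Nat.card Ω - 1 := by
      rw [Set.ncard_compl, Set.ncard_singleton]
    rw [Nat.card_coe_set_eq] at hdvd
    have hge := Nat.le_of_dvd ((Set.ncard_pos (Set.toFinite _)).2 ⟨b, mem_orbit_self b⟩) hdvd
    refine ⟨by omega, Set.eq_of_subset_of_ncard_le hsub (by omega) (Set.toFinite _)⟩
  -- `D` is semiregular
  have hreg : ∀ d ∈ D, d • a = a → d = 1 := by
    intro d hd hda
    apply FaithfulSMul.eq_of_smul_eq_smul (α := Ω)
    intro b
    rw [one_smul]
    by_cases hb : b = a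
    · rw [hb, hda]
    have hle : stabilizer (stabilizer G a) b ≤ D.subgroupOf (stabilizer G a) := fun g hg => by
      by_contra hgD
      exact hb (fixed_unique D hD hgD (mem_stabilizer_iff.1 hg) g.2)
    have hidx : (stabilizer (stabilizer G a) b).index = (D.subgroupOf (stabilizer G a)).index := by
      rw [index_stabilizer, (horb b hb).1]
      exact (relIndex_stabilizer_eq_index D a).symm
    have heq' : D.subgroupOf (stabilizer G a) ≤ stabilizer (stabilizer G a) b := by
      rcases hle.eq_or_lt with h | h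
      · exact h.ge
      · exact absurd hidx (Nat.ne_of_gt (Subgroup.index_strictAnti h))
    exact mem_stabilizer_iff.1 (heq' (x := ⟨d, hda⟩) hd)
  have hDcard : Nat.card D = Nat.card Ω := by
    refine Nat.card_congr (Equiv.ofBijective (fun d : D => d • a) ⟨fun d e h => ?_, fun x => exists_smul_eq D a x⟩)
    have h' : ((e : G)⁻¹ * d) • a = a := by
      rw [mul_smul, inv_smul_eq_iff]; exact h
    exact Subtype.ext (inv_mul_eq_one.1 (hreg _ (D.mul_mem (D.inv_mem e.2) d.2) h')).symm
  obtain ⟨p, hp, hpd⟩ := Nat.exists_prime_and_dvd (show Nat.card D ≠ 1 by omega)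
  haveI := Fact.mk hp
  obtain ⟨d, hd⟩ := exists_prime_orderOf_dvd_card' p hpd
  have hpg : IsPGroup p D := by
    intro e
    by_cases he : e = 1
    · exact ⟨0, by simp [he]⟩
    have hne : ∀ x : D, x ≠ 1 → (x : G) • a ≠ a := fun x hx h => hx (Subtype.ext (hreg _ x.2 h))
    have hd1 : d ≠ 1 := fun h => hp.ne_one (by rw [← hd, h, orderOf_one])
    have hmem : (e : G) • a ∈ orbit (stabilizer G a) ((d : G) • a) := by
      rw [(horb _ (hne d hd1)).2]; exact hne e he
    obtain ⟨⟨g, hg⟩, hge⟩ := hmem
    have hga : g⁻¹ • a = a := inv_smul_eq_iff.2 hg.symm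
    have h1 : (g * d * g⁻¹) • a = (e : G) • a := by
      rw [mul_smul, hga, mul_smul]; exact hge
    have h2 : g * d * g⁻¹ = e := (inv_mul_eq_one.1 (hreg _
      (D.mul_mem (D.inv_mem e.2) (hnormal.conj_mem _ d.2 g))
      (by rw [mul_smul, h1, inv_smul_smul]))).symm
    refine ⟨1, ?_⟩
    apply Subtype.ext
    rw [SubmonoidClass.coe_pow, ← h2, pow_one, conj_pow, ← SubmonoidClass.coe_pow, ← hd,
      pow_orderOf_eq_one]
    simp
  obtain ⟨k, hk⟩ := IsPGroup.iff_card.1 hpg
  refine ⟨p, k, hp.prime, ?_, by omega⟩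
  rcases Nat.eq_zero_or_pos k with h0 | h0
  · rw [h0, pow_zero] at hk; omega
  · exact h0

end Cfsg.Agent.S3548
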