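import Cfsg.Statements.S3549
import Cfsg.Agent.Perm.DerangementSubgroup

set_option autoImplicit false
open Cfsg

namespace Cfsg.Agent.S3549

open MulAction CfsgLib.Perm
open scoped Pointwise


/-- Let G act faithfully, transitively but imprimitively on a finite set with n points, and let D be the subgroup generated by the derangements. Then the index of D in G is at most √n − 1. -/
theorem result {G Ω : Type*} [Group G] [Finite G] [MulAction G Ω] [FaithfulSMul G Ω] [Finite Ω]
    (htrans : MulAction.IsPretransitive G Ω) (himp : ¬ MulAction.IsPreprimitive G Ω) :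
    ((Subgroup.closure {g : G | ∀ ω : Ω, g • ω ≠ ω}).index : ℝ) ≤ Real.sqrt (Nat.card Ω) - 1 := by
  rcases isEmpty_or_nonempty Ω with he | hne
  · exact absurd { toIsPretransitive := htrans, isTrivialBlock_of_isBlock := fun {B} _ => Or.inl Set.subsingleton_of_subsingleton } himp
  obtain ⟨B, hB, hBt⟩ : ∃ B : Set Ω, IsBlock G B ∧ ¬ IsTrivialBlock B := by
    by_contra hc
    push Not at hc
    exact himp { toIsPretransitive := htrans, isTrivialBlock_of_isBlock := fun {B} hB => hc B hB }
  have hBns : ¬ B.Subsingleton := fun h => hBt (Or.inl h)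
  have hBu : B ≠ Set.univ := fun h => hBt (Or.inr h)
  obtain ⟨b, hbB⟩ : B.Nonempty := Set.nonempty_iff_ne_empty.2 fun h => hBns (h ▸ Set.subsingleton_empty)
  have hD := notMem_closure_derangements G Ω
  generalize Subgroup.closure {g : G | ∀ ω : Ω, g • ω ≠ ω} = D at hD ⊢
  haveI : Nonempty (orbit G B) := ⟨⟨B, mem_orbit_self B⟩⟩
  haveI : Finite (orbit G B) := Finite.of_injective (fun C => C.1) Subtype.val_injective
  -- an element fixing a point fixes its block
  have hblock : ∀ g : G, ∀ ω : Ω, g • ω = ω → ∀ C : orbit G B, ω ∈ C.1 → g • C = C := by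
    intro g ω hω C hωC
    obtain ⟨k, hk⟩ := C.2
    apply Subtype.ext
    show g • C.1 = C.1
    have hCb : IsBlock G C.1 := by rw [← hk]; exact hB.translate k
    rcases hCb.smul_eq_or_disjoint g with h | h
    · exact h
    · exact absurd hωC (Set.disjoint_left.1 h (by rw [← hω]; exact Set.smul_mem_smul_set hωC))
  have hD' : ∀ g : G, g ∉ D → ∃ C : orbit G B, g • C = C := by
    intro g hg
    obtain ⟨ω, hω⟩ := hD g hg
    obtain ⟨k, rfl⟩ := exists_smul_eq G b ω
    exact ⟨⟨k • B, mem_orbit B k⟩, hblock g _ hω _ (Set.smul_mem_smul_set hbB)⟩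
  haveI hDtr := (transitive_and_fix_eq_one (X := orbit G B) D hD').1
  have hl := index_dvd_card_sub_one (X := orbit G B) D hD'
  -- the action of the block stabiliser on the block
  let H : Subgroup G := stabilizer G (⟨B, mem_orbit_self B⟩ : orbit G B)
  have hH : ∀ g : H, (g : G) • B = B := fun g => congrArg Subtype.val g.2
  let S : SubMulAction H Ω := ⟨B, fun g x hx => by
    have := Set.smul_mem_smul_set (a := (g : G)) hx
    rw [hH g] at this
    exact this⟩
  haveI : Nonempty S := ⟨⟨b, hbB⟩⟩
  haveI : IsPretransitive H S := by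
    refine ⟨fun x y => ?_⟩
    obtain ⟨g, hg⟩ := exists_smul_eq G x.1 y.1
    have hgB : g • B = B := by
      rcases hB.smul_eq_or_disjoint g with h | h
      · exact h
      · exact absurd y.2 (Set.disjoint_left.1 h (by rw [← hg]; exact Set.smul_mem_smul_set x.2))
    exact ⟨⟨g, Subtype.ext hgB⟩, Subtype.ext hg⟩
  have hk : D.index ∣ Nat.card S - 1 := by
    rw [← relIndex_stabilizer_eq_index D (⟨B, mem_orbit_self B⟩ : orbit G B)]
    apply index_dvd_card_sub_one
    intro g hg
    rw [Subgroup.mem_subgroupOf] at hg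
    obtain ⟨ω, hω⟩ := hD g hg
    obtain ⟨k, rfl⟩ := exists_smul_eq G b ω
    have h1 := hblock g _ hω ⟨k • B, mem_orbit B k⟩ (Set.smul_mem_smul_set hbB)
    have h2 := fixed_unique (X := orbit G B) D hD' hg h1 g.2
    have h3 : k • B = B := congrArg Subtype.val h2
    refine ⟨⟨k • b, show k • b ∈ B from ?_⟩, Subtype.ext hω⟩
    have := Set.smul_mem_smul_set (a := k) hbB
    rwa [h3] at this
  have hmul := hB.ncard_block_mul_ncard_orbit_eq ⟨b, hbB⟩
  have hS : Nat.card S = B.ncard := Nat.card_coe_set_eq B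
  have hO : Nat.card (orbit G B) = (orbit G B).ncard := Nat.card_coe_set_eq _
  rw [hS] at hk
  rw [hO] at hl
  have hk2 : 2 ≤ B.ncard := by
    by_contra hc
    exact hBns (Set.ncard_le_one_iff_subsingleton.1 (by omega))
  have hl2 : 2 ≤ (orbit G B).ncard := by
    by_contra hc
    have hpos : 0 < (orbit G B).ncard := (Set.ncard_pos (Set.toFinite _)).2 ⟨B, mem_orbit_self B⟩
    rw [show (orbit G B).ncard = 1 by omega, mul_one] at hmul
    exact hBu (Set.eq_of_subset_of_ncard_le (Set.subset_univ B) (by rw [Set.ncard_univ, hmul]) (Set.toFinite _))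
  have h1 := Nat.le_of_dvd (by omega) hk
  have h2 := Nat.le_of_dvd (by omega) hl
  have h3 : (D.index + 1) * (D.index + 1) ≤ Nat.card Ω :=
    hmul ▸ Nat.mul_le_mul (by omega) (by omega)
  have h4 : ((D.index : ℝ) + 1) ≤ Real.sqrt (Nat.card Ω) := by
    apply Real.le_sqrt_of_sq_le
    rw [sq]
    exact_mod_cast h3
  linarith

end Cfsg.Agent.S3549
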