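import Cfsg.Statements.S3559
import Cfsg.Agent.SRing54.Schur

set_option autoImplicit false
open Cfsg

namespace Cfsg.Agent.S3559


/-- Let G act faithfully and transitively on a finite set whose number of points n ≥ 2 is not a prime power, and suppose G has a cyclic subgroup acting regularly (transitively with trivial point stabilizers). Then G is imprimitive or doubly transitive. -/
theorem result {G Ω : Type*} [Group G] [Finite G] [MulAction G Ω] [FaithfulSMul G Ω] [Finite Ω]
    (htrans : MulAction.IsPretransitive G Ω) (hn : 2 ≤ Nat.card Ω) (hnp : ¬ IsPrimePow (Nat.card Ω))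
    (C : Subgroup G) (hcyc : IsCyclic ↥C) (hC : MulAction.IsPretransitive ↥C Ω ∧ ∀ a : Ω, MulAction.stabilizer ↥C a = ⊥) :
    ¬ MulAction.IsPreprimitive G Ω ∨ MulAction.IsMultiplyPretransitive G Ω 2 := by
  obtain ⟨c, hc⟩ := IsCyclic.exists_generator (α := ↥C)
  haveI : Nonempty Ω := (Nat.card_pos_iff.mp (by omega)).1
  obtain ⟨a⟩ := ‹Nonempty Ω›
  haveI : NeZero (Nat.card Ω) := ⟨by omega⟩
  haveI := hC.1
  have hcardC : Nat.card ↥C = Nat.card Ω := by
    rw [← MulAction.index_stabilizer_of_transitive (G := ↥C) a, hC.2 a, Subgroup.index_bot]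
  have hper : MulAction.period (c : G) a = Nat.card Ω := by
    have h1 : MulAction.period (c : G) a ∣ Nat.card Ω := by
      rw [← hcardC, ← orderOf_eq_card_of_forall_mem_zpowers hc, ← Subgroup.orderOf_coe]
      exact MulAction.period_dvd_orderOf _ _
    refine Nat.dvd_antisymm h1 ?_
    rw [← hcardC, ← orderOf_eq_card_of_forall_mem_zpowers hc, orderOf_dvd_iff_pow_eq_one,
      ← Subgroup.mem_bot, ← hC.2 a, MulAction.mem_stabilizer_iff]
    exact MulAction.pow_period_smul (c : G) a
  by_contra hcon
  rw [not_or, not_not] at hcon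
  exact hcon.2 (CfsgLib.SRing54.two_trans_of_primitive rfl hn
    (fun h => hnp h.prime.isPrimePow) (c : G) a hper hcon.1)

end Cfsg.Agent.S3559
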