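import Cfsg.Statements.S3560


set_option autoImplicit false
open Cfsg

namespace Cfsg.Agent.S3560

open MulAction
open scoped Pointwise

/-- The product action wreath product `S_m wr S_r`, transported along `c`. -/
def wreathGroup (ι : Type*) (m n : ℕ) (c : Fin n ≃ (ι → Fin m)) : Subgroup (Equiv.Perm (Fin n)) where
  carrier := {σ | ∃ (π : Equiv.Perm ι) (τ : ι → Equiv.Perm (Fin m)), ∀ x i, c (σ x) i = τ i (c x (π i))}
  one_mem' := ⟨1, fun _ => 1, fun _ _ => rfl⟩
  mul_mem' := by
    rintro σ σ' ⟨π, τ, h⟩ ⟨π', τ', h'⟩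
    refine ⟨π' * π, fun i => τ i * τ' (π i), fun x i => ?_⟩
    rw [Equiv.Perm.mul_apply, h, h']
    rfl
  inv_mem' := by
    rintro σ ⟨π, τ, h⟩
    refine ⟨π⁻¹, fun i => (τ (π⁻¹ i))⁻¹, fun x i => ?_⟩
    have := h (σ⁻¹ x) (π⁻¹ i)
    simp only [Equiv.Perm.inv_def, Equiv.apply_symm_apply] at this ⊢
    rw [this]
    simp


/-- Let K be a finite group isomorphic to a direct product of r ≥ 2 groups all of the same order m ≥ 3. Then K is not a B-group: there is a primitive but not doubly transitive permutation group (on some finite set) containing a regular subgroup isomorphic to K. -/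
theorem result {K : Type*} [Group K] [Finite K] {ι : Type*} [Fintype ι] (F : ι → Type*) [∀ i, Group (F i)]
    (hr : 2 ≤ Fintype.card ι) (m : ℕ) (hm : 3 ≤ m) (hcard : ∀ i, Nat.card (F i) = m) (e : K ≃* (∀ i, F i)) :
    ∃ (n : ℕ) (G R : Subgroup (Equiv.Perm (Fin n))), R ≤ G ∧ Nonempty (↥R ≃* K) ∧
      MulAction.IsPretransitive ↥R (Fin n) ∧ (∀ a : Fin n, MulAction.stabilizer ↥R a = ⊥) ∧
      MulAction.IsPreprimitive ↥G (Fin n) ∧ ¬ MulAction.IsMultiplyPretransitive ↥G (Fin n) 2 := by
  classical
  obtain ⟨c⟩ : Nonempty (Fin (m ^ Fintype.card ι) ≃ (ι → Fin m)) :=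
    ⟨(Fintype.equivFinOfCardEq (by simp : Fintype.card (ι → Fin m) = m ^ Fintype.card ι)).symm⟩
  have hfin : ∀ i, Finite (F i) := fun i => Nat.finite_of_card_ne_zero (by rw [hcard i]; omega)
  let f : ∀ i, F i ≃ Fin m := fun i =>
    haveI := hfin i
    (Finite.equivFin (F i)).trans (finCongr (hcard i))
  let d : Fin (m ^ Fintype.card ι) ≃ K := (c.trans (Equiv.piCongrRight fun i => (f i).symm)).trans e.symm.toEquiv
  let rho : K →* Equiv.Perm (Fin (m ^ Fintype.card ι)) :=
    (d.symm.permCongrHom.toMonoidHom).comp (MulAction.toPermHom K K)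
  have hrho : ∀ (k : K) x, rho k x = d.symm (k * d x) := fun k x => rfl
  let G := wreathGroup ι m (m ^ Fintype.card ι) c
  have hinj : Function.Injective rho := fun a b h => by
    have := congrArg d (congrFun (congrArg DFunLike.coe h) (d.symm 1))
    simpa [hrho] using this
  refine ⟨_, G, rho.range, ?_, ⟨(MonoidHom.ofInjective hinj).symm⟩, ?_, ?_, ?_, ?_⟩
  · rintro _ ⟨k, rfl⟩
    refine ⟨1, fun i => ((f i).symm.trans (Equiv.mulLeft (e k i))).trans (f i), fun x i => ?_⟩
    simp [hrho, d]
  · exact ⟨fun x y => ⟨⟨_, d y * (d x)⁻¹, rfl⟩, by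
      show rho (d y * (d x)⁻¹) x = y
      rw [hrho]
      simp⟩⟩
  · intro a
    rw [eq_bot_iff]
    rintro ⟨_, k, rfl⟩ hk
    have hk' : d.symm (k * d a) = a := hk
    rw [Equiv.symm_apply_eq, mul_eq_right] at hk'
    subst hk'
    exact Subgroup.mem_bot.2 (Subtype.ext (map_one rho))
  · -- primitivity
    haveI hne : Nonempty ι := Fintype.card_pos_iff.1 (by omega)
    let z : Fin m := ⟨0, by omega⟩
    let mk : Equiv.Perm ι → (ι → Equiv.Perm (Fin m)) → G := fun π τ =>
      ⟨(c.trans ((Equiv.arrowCongr π.symm (Equiv.refl (Fin m))).trans (Equiv.piCongrRight τ))).trans c.symm,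
        π, τ, fun x i => by simp⟩
    have hmk : ∀ π τ x i, c ((mk π τ) • x) i = τ i (c x (π i)) := fun π τ x i => by
      show c ((mk π τ : Equiv.Perm _) x) i = _
      simp [mk]
    have hext : ∀ x y : Fin (m ^ Fintype.card ι), (∀ i, c x i = c y i) → x = y :=
      fun x y h => c.injective (funext h)
    haveI : IsPretransitive G (Fin (m ^ Fintype.card ι)) := ⟨fun x y =>
      ⟨mk 1 fun i => Equiv.swap (c x i) (c y i), hext _ _ fun i => by rw [hmk]; simp⟩⟩
    let x₀ := c.symm fun _ => z
    have hx₀ : ∀ i, c x₀ i = z := fun i => by simp [x₀]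
    refine IsPreprimitive.of_isTrivialBlock_base x₀ fun {B} hx hB => ?_
    by_cases hsub : B.Subsingleton
    · exact Or.inl hsub
    refine Or.inr ?_
    have hkeep : ∀ (g : G), ∀ a ∈ B, g • a ∈ B → g • B = B := fun g a ha hga =>
      hB.smul_eq_of_nonempty ⟨g • a, Set.smul_mem_smul_set ha, hga⟩
    obtain ⟨y, hy, hyx⟩ : ∃ y ∈ B, y ≠ x₀ := by
      by_contra hc
      push Not at hc
      exact hsub fun a ha b hb => (hc a ha).trans (hc b hb).symm
    obtain ⟨i, hi⟩ : ∃ i, c y i ≠ z := by
      by_contra hc
      push Not at hc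
      exact hyx (hext _ _ fun i => by rw [hc, hx₀])
    -- a point differing from `y` in one coordinate only
    obtain ⟨w, hw0, hwy⟩ : ∃ w : Fin m, w ≠ z ∧ w ≠ c y i := by
      obtain ⟨w, hw⟩ := Finset.exists_mem_notMem_of_card_lt_card (s := ({z, c y i} : Finset (Fin m)))
        (t := Finset.univ) (lt_of_le_of_lt Finset.card_le_two (by simp; omega))
      simp only [Finset.mem_insert, Finset.mem_singleton, not_or] at hw
      exact ⟨w, hw.2.1, hw.2.2⟩
    let g₁ := mk 1 fun j => if j = i then Equiv.swap (c y i) w else 1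
    have hg₁ : g₁ • x₀ = x₀ := hext _ _ fun j => by
      rw [hmk, Equiv.Perm.one_apply, hx₀]
      split_ifs with h
      · exact Equiv.swap_apply_of_ne_of_ne (Ne.symm hi) hw0.symm
      · rfl
    have hy' : g₁ • y ∈ B := by
      rw [← hkeep g₁ x₀ hx (by rw [hg₁]; exact hx)]
      exact Set.smul_mem_smul_set hy
    have hy'' : ∀ j, c (g₁ • y) j = if j = i then w else c y j := fun j => by
      rw [hmk, Equiv.Perm.one_apply]
      split_ifs with h
      · subst h; exact Equiv.swap_apply_left _ _
      · rfl
    -- translate so that `y` goes to the base point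
    let g₂ := mk 1 fun j => Equiv.swap (c y j) z
    have hg₂ : g₂ • y = x₀ := hext _ _ fun j => by
      rw [hmk, hx₀, Equiv.Perm.one_apply, Equiv.swap_apply_left]
    have hB₂ : g₂ • B = B := hkeep g₂ y hy (by rw [hg₂]; exact hx)
    have hu : g₂ • g₁ • y ∈ B := hB₂ ▸ Set.smul_mem_smul_set hy'
    have hune : ∀ j, c (g₂ • g₁ • y) j = if j = i then Equiv.swap (c y i) z w else z := fun j => by
      rw [hmk, Equiv.Perm.one_apply, hy'']
      split_ifs with h
      · subst h; rfl
      · exact Equiv.swap_apply_left _ _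
    have hv0 : Equiv.swap (c y i) z w = w := Equiv.swap_apply_of_ne_of_ne hwy hw0
    -- every coordinate translation at the base point fixes the block
    have hstep : ∀ (j : ι) (v : Fin m), (mk 1 fun k => if k = j then Equiv.swap z v else 1) • B = B := by
      intro j v
      rcases eq_or_ne v z with rfl | hv
      · apply hkeep _ x₀ hx
        rw [show (mk 1 fun k => if k = j then Equiv.swap z z else 1) • x₀ = x₀ from hext _ _ fun k => by
          rw [hmk, Equiv.Perm.one_apply, hx₀]; split_ifs <;> simp]
        exact hx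
      refine hkeep _ x₀ hx ?_
      let g₃ := mk (Equiv.swap i j) fun k => if k = j then Equiv.swap w v else 1
      have hg₃ : g₃ • x₀ = x₀ := hext _ _ fun k => by
        rw [hmk, hx₀]
        split_ifs with h
        · rw [Equiv.swap_apply_of_ne_of_ne hw0.symm (Ne.symm hv), hx₀]
        · rw [Equiv.Perm.one_apply, hx₀]
      have he : (mk 1 fun k => if k = j then Equiv.swap z v else 1) • x₀ = g₃ • g₂ • g₁ • y := hext _ _ fun k => by
        rw [hmk, hmk, hx₀, hune, hv0]
        by_cases h : k = j
        · subst h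
          simp
        · rw [if_neg h, if_neg h, if_neg (fun e => h ((Equiv.swap i j).injective
            (e.trans (Equiv.swap_apply_right i j).symm)))]
      rw [he, ← hkeep g₃ x₀ hx (by rw [hg₃]; exact hx)]
      exact Set.smul_mem_smul_set hu
    have hall : ∀ (S : Finset ι) x, (∀ k ∉ S, c x k = z) → x ∈ B := by
      intro S
      induction S using Finset.induction with
      | empty => intro x h; rw [hext x x₀ fun k => by rw [h k (Finset.notMem_empty k), hx₀]]; exact hx
      | insert j S hjS ih =>
        intro x h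
        let g := mk 1 fun k => if k = j then Equiv.swap z (c x j) else 1
        have hxg : x = g • c.symm (Function.update (c x) j z) := hext _ _ fun k => by
          rw [hmk, Equiv.Perm.one_apply, Equiv.apply_symm_apply]
          by_cases hkj : k = j
          · subst hkj; simp
          · simp [hkj]
        rw [hxg, ← hstep j (c x j)]
        refine Set.smul_mem_smul_set (ih _ fun k hk => ?_)
        rw [Equiv.apply_symm_apply]
        by_cases hkj : k = j
        · subst hkj; simp
        · rw [Function.update_of_ne hkj]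
          exact h k (by simp [hkj, hk])
    exact Set.eq_univ_of_forall fun x => hall Finset.univ x fun k hk => absurd (Finset.mem_univ k) hk
  · -- not doubly transitive
    intro h2
    rw [is_two_pretransitive_iff] at h2
    haveI : Nontrivial ι := Fintype.one_lt_card_iff_nontrivial.1 (by omega)
    obtain ⟨i, j, hij⟩ := exists_pair_ne ι
    let z : Fin m := ⟨0, by omega⟩
    let o : Fin m := ⟨1, by omega⟩
    have hzo : o ≠ z := by simp [o, z]
    let x₀ := c.symm fun _ => z
    let u := c.symm (Function.update (fun _ => z) i o)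
    let v := c.symm (Function.update (Function.update (fun _ => z) i o) j o)
    have hu : x₀ ≠ u := fun h => by
      have := congrFun (congrArg c h) i
      simp [x₀, u] at this
      exact hzo this.symm
    have hv : x₀ ≠ v := fun h => by
      have := congrFun (congrArg c h) j
      simp [x₀, v] at this
      exact hzo this.symm
    obtain ⟨⟨σ, π, τ, hσ⟩, h1, h3⟩ := h2 hu hv
    have hsame : ∀ k, π k ≠ i → c v k = c x₀ k := fun k hk => by
      rw [← show σ x₀ = x₀ from h1, ← show σ u = v from h3, hσ, hσ]
      congr 1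
      simp [u, x₀, Function.update_of_ne hk]
    have hi' : π i = i := by
      by_contra hne
      have := hsame i hne
      simp [v, x₀, Function.update_of_ne hij] at this
      exact hzo this
    have hj' : π j ≠ i := fun e => hij (π.injective (hi'.trans e.symm))
    have := hsame j hj'
    simp [v, x₀] at this
    exact hzo this

end Cfsg.Agent.S3560
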