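import Cfsg.Statements.S3571
import Cfsg.Agent.AltDerange.Main
import Cfsg.Agent.S2119

set_option autoImplicit false
open Cfsg

namespace Cfsg.Agent.S3571

/-- Let G be an almost simple group whose socle is an alternating group of degree m ≥ 5 (G has a normal subgroup T isomorphic to that alternating group with trivial centralizer), acting faithfully and primitively on a finite set Ω with at least two points, and let r be the largest prime divisor of the number of points. Then G contains an element of order r fixing no point. -/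
theorem result {G Ω : Type*} [Group G] [Finite G] [MulAction G Ω] [FaithfulSMul G Ω] [Finite Ω]
    (T : Subgroup G) (hT : T.Normal) (hTc : Subgroup.centralizer (T : Set G) = ⊥) (m : ℕ) (hm : 5 ≤ m)
    (eT : ↥T ≃* ↥(alternatingGroup (Fin m))) (hprim : MulAction.IsPreprimitive G Ω) (hΩ : 2 ≤ Nat.card Ω)
    (r : ℕ) (hr : r.Prime) (hrd : r ∣ Nat.card Ω) (hmax : ∀ s : ℕ, s.Prime → s ∣ Nat.card Ω → s ≤ r) :
    ∃ g : G, orderOf g = r ∧ ∀ ω : Ω, g • ω ≠ ω := by
  classical
  haveI : Nontrivial (Fin m) := Fin.nontrivial_iff_two_le.mpr (by omega)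
  have hTne : T ≠ ⊥ := by
    intro h
    have h1 := Nat.card_congr eT.toEquiv
    rw [h, Subgroup.card_bot, nat_card_alternatingGroup, Nat.card_fin] at h1
    have := Nat.factorial_le hm
    norm_num [Nat.factorial] at this
    omega
    -- `T` is transitive
  haveI : Nontrivial Ω := Finite.one_lt_card_iff_nontrivial.mp hΩ
  haveI := hprim
  haveI := hT
  have hTtrans : MulAction.IsPretransitive T Ω := by
    refine MulAction.IsQuasiPreprimitive.isPretransitive_of_normal fun h => hTne ?_
    refine (Subgroup.eq_bot_iff_forall T).mpr fun t ht => eq_of_smul_eq_smul (α := Ω) fun a => ?_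
    have ha : a ∈ MulAction.fixedPoints T Ω := h ▸ Set.mem_univ a
    rw [one_smul]
    exact ha ⟨t, ht⟩
  obtain ⟨ω⟩ := (inferInstance : Nonempty Ω)
  let S : Subgroup (alternatingGroup (Fin m)) := (MulAction.stabilizer T ω).map eT.toMonoidHom
  have hidx : S.index = Nat.card Ω := by
    rw [← MulAction.index_stabilizer_of_transitive T ω]
    exact Subgroup.index_map_equiv _ eT
  suffices hsuff : ∃ x : alternatingGroup (Fin m), orderOf x = r ∧ ∀ c, c⁻¹ * x * c ∉ S by
    obtain ⟨x, hx, hnot⟩ := hsuff
    refine ⟨(eT.symm x : G), by rw [Subgroup.orderOf_coe, MulEquiv.orderOf_eq]; exact hx,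
      fun ω' hfix => ?_⟩
    obtain ⟨u, rfl⟩ := MulAction.exists_smul_eq T ω ω'
    refine hnot (eT u) ⟨u⁻¹ * eT.symm x * u, ?_, by simp⟩
    rw [SetLike.mem_coe, MulAction.mem_stabilizer_iff, mul_smul, mul_smul,
      inv_smul_eq_iff]
    exact hfix
  rw [← hidx] at hrd
  simp only [← hidx] at hmax
  by_cases h6 : m = 6
  · subst h6
    exact CfsgLib.AltDerange.six_spec S hr hrd hmax
  · -- realise `G` inside the symmetric group
    let e := MulEquiv.ofBijective _ (Cfsg.Agent.S2119.result m (by omega) h6)
    let ψ : G →* Equiv.Perm (Fin m) := e.symm.toMonoidHom.comp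
      ((MulAut.congr eT).toMonoidHom.comp (MulAut.conjNormal : G →* MulAut T))
    have hinj : Function.Injective ψ := by
      rw [injective_iff_map_eq_one]
      intro g hg
      have h1 : (MulAut.conjNormal g : MulAut T) = 1 := by
        have h : e.symm (MulAut.congr eT (MulAut.conjNormal g)) = e.symm (MulAut.congr eT 1) := by
          rw [map_one, map_one]; exact hg
        exact (MulAut.congr eT).injective (e.symm.injective h)
      rw [← Subgroup.mem_bot, ← hTc, Subgroup.mem_centralizer_iff]
      intro t ht
      have h2 := congrArg (fun φ : MulAut T => ((φ ⟨t, ht⟩ : T) : G)) h1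
      simp only [MulAut.conjNormal_apply, MulAut.one_apply] at h2
      conv_lhs => rw [← h2]
      group
    have hψT : ∀ t : T, ψ (t : G) = (eT t : Equiv.Perm (Fin m)) := by
      intro t
      simp only [ψ, MonoidHom.coe_comp, Function.comp_apply, MulEquiv.coe_toMonoidHom,
        MulEquiv.symm_apply_eq]
      refine MulEquiv.ext fun a => Subtype.ext ?_
      simp [e, MulAut.congr, MulAut.conjNormal_val]
    let H : Subgroup (Equiv.Perm (Fin m)) := (MulAction.stabilizer G ω).map ψ
    have hS : S = H.subgroupOf (alternatingGroup (Fin m)) := by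
      ext a
      rw [Subgroup.mem_subgroupOf]
      constructor
      · rintro ⟨t, ht, rfl⟩
        exact ⟨(t : G), ht, hψT t⟩
      · rintro ⟨g, hg, hga⟩
        have h2 : g = (eT.symm a : G) := hinj (by rw [hga, hψT]; simp)
        subst h2
        exact ⟨eT.symm a, MulAction.mem_stabilizer_iff.mpr (MulAction.mem_stabilizer_iff.mp hg :),
          by simp⟩
    have hco : IsCoatom (MulAction.stabilizer G ω) :=
      MulAction.IsPreprimitive.isCoatom_stabilizer_of_isPreprimitive (G := G) (X := Ω) ω
    obtain ⟨x, hx, hnot⟩ := CfsgLib.AltDerange.exists_derangement (α := Fin m) (by simpa using hm)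
      ψ.range H (Subgroup.map_le_range _ _)
      (fun a ha => ⟨(eT.symm ⟨a, ha⟩ : G), by rw [hψT]; simp⟩)
      (fun hle => by
        rw [hS, Subgroup.subgroupOf_eq_top.mpr hle, Subgroup.index_top] at hrd
        exact hr.one_lt.ne' (Nat.dvd_one.mp hrd))
      (fun K hHK hKG => by
        rcases hco.le_iff.mp (show MulAction.stabilizer G ω ≤ K.comap ψ from
          fun g hg => hHK ⟨g, hg, rfl⟩) with h | h
        · exact Or.inr (le_antisymm hKG (by
            rintro _ ⟨g, rfl⟩
            exact Subgroup.mem_comap.mp (h ▸ Subgroup.mem_top g)))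
        · refine Or.inl (le_antisymm ?_ hHK)
          intro k hk
          obtain ⟨g, rfl⟩ := hKG hk
          exact ⟨g, h ▸ hk, rfl⟩)
      hr (hS ▸ hrd) (hS ▸ hmax)
    exact ⟨x, hx, hS ▸ hnot⟩

end Cfsg.Agent.S3571
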