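import Cfsg.Statements.S3572
import Cfsg.Agent.DihedralB58.Main

set_option autoImplicit false
open Cfsg

namespace Cfsg.Agent.S3572

/-- A finite primitive permutation group containing a dihedral subgroup that acts regularly (transitively with trivial point stabilizers) is doubly transitive. -/
theorem result {G Ω : Type*} [Group G] [Finite G] [MulAction G Ω] [FaithfulSMul G Ω] [Finite Ω]
    (hprim : MulAction.IsPreprimitive G Ω) (D : Subgroup G) (m : ℕ) (hD : Nonempty (↥D ≃* DihedralGroup m))
    (hDreg : MulAction.IsPretransitive ↥D Ω ∧ ∀ a : Ω, MulAction.stabilizer ↥D a = ⊥) :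
    MulAction.IsMultiplyPretransitive G Ω 2 := by
  obtain ⟨φ⟩ := hD
  haveI := Fintype.ofFinite Ω
  obtain ⟨htr, hstab⟩ := hDreg
  rcases isEmpty_or_nonempty Ω with hΩ | hΩ
  · rw [MulAction.is_two_pretransitive_iff]
    intro a
    exact isEmptyElim a
  obtain ⟨a₀⟩ := hΩ
  haveI := htr
  rcases Nat.lt_or_ge m 2 with hm | hm
  · have hm1 : m = 1 := by
      rcases m with _ | m
      · have h0 := Nat.card_congr φ.toEquiv
        rw [DihedralGroup.nat_card] at h0
        have := Nat.card_pos (α := ↥D)
        omega
      · omega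
    subst hm1
    have hbij : Function.Bijective fun d : D => d • a₀ := by
      refine ⟨fun d d' h => ?_, fun ω => MulAction.exists_smul_eq D a₀ ω⟩
      have : d'⁻¹ * d ∈ MulAction.stabilizer D a₀ := by
        rw [MulAction.mem_stabilizer_iff, mul_smul, show d • a₀ = d' • a₀ from h, inv_smul_smul]
      rw [hstab, Subgroup.mem_bot] at this
      exact (inv_mul_eq_one.mp this).symm
    have hcard : Nat.card Ω = 2 := by
      rw [← Nat.card_congr (Equiv.ofBijective _ hbij), Nat.card_congr φ.toEquiv, DihedralGroup.nat_card]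
    rw [MulAction.is_two_pretransitive_iff]
    intro a b u v hab huv
    obtain ⟨d, hd⟩ := MulAction.exists_smul_eq D a u
    refine ⟨(d : G), hd, ?_⟩
    obtain ⟨x, y, hxy, hxy'⟩ := Nat.card_eq_two_iff.mp hcard
    have hu' : ∀ w : Ω, w = x ∨ w = y := fun w => by
      have : w ∈ ({x, y} : Set Ω) := hxy' ▸ Set.mem_univ w
      simpa using this
    have hne : (d : G) • b ≠ u := fun h => hab ((smul_left_cancel (d : G)) (hd.trans h.symm))
    rcases hu' ((d : G) • b) with h1 | h1 <;> rcases hu' u with h2 | h2 <;> rcases hu' v with h3 | h3 <;>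
      simp_all
  · haveI : NeZero m := ⟨by omega⟩
    let ρ : DihedralGroup m →* G := D.subtype.comp φ.symm.toMonoidHom
    have hbij : Function.Bijective fun d : DihedralGroup m => ρ d • a₀ := by
      refine ⟨fun d d' h => φ.symm.injective ?_, fun ω => ?_⟩
      · have : (φ.symm d')⁻¹ * φ.symm d ∈ MulAction.stabilizer D a₀ := by
          rw [MulAction.mem_stabilizer_iff, mul_smul,
            show φ.symm d • a₀ = φ.symm d' • a₀ from h, inv_smul_smul]
        rw [hstab, Subgroup.mem_bot] at this
        exact (inv_mul_eq_one.mp this).symm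
      · obtain ⟨d, hd⟩ := MulAction.exists_smul_eq D a₀ ω
        refine ⟨φ d, ?_⟩
        show ((φ.symm (φ d) : D) : G) • a₀ = ω
        rw [φ.symm_apply_apply]
        exact hd
    refine CfsgLib.DihedralB58.two_trans ρ (Equiv.ofBijective _ hbij) (fun d x => ?_) hprim hm
    show ρ (d * x) • a₀ = ρ d • ρ x • a₀
    rw [map_mul, mul_smul]

end Cfsg.Agent.S3572
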