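import Cfsg.Statements.S3573
import Cfsg.Agent.PrimeCycles55.Basic
import Mathlib.Data.Nat.Choose.Lucas

set_option autoImplicit false
open Cfsg

namespace Cfsg.Agent.S3573

open CfsgLib.PrimeCycles55

/-- All elements of order `r` fix a `k`-subset exactly when `k % r ≤ n % r`. -/
theorem fix_subset_iff (n k r : ℕ) [Fact r.Prime] (hkn : k ≤ n) (hrn : r ≤ n) :
    (∀ σ : Equiv.Perm (Fin n), orderOf σ = r → ∃ s : Finset (Fin n), s.card = k ∧ s.image σ = s) ↔
      k % r ≤ n % r := by
  classical
  have hr := (Fact.out : r.Prime)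
  constructor
  · intro h
    obtain ⟨σ, hσ, hm⟩ := exists_moved (r := r) (Fin n) (c := n / r)
      (by rw [Nat.card_fin]; exact Nat.div_mul_le_self n r)
    obtain ⟨s, hs, hsi⟩ := h σ (orderOf_eq_of_moved hσ
      (by rw [hm]; exact Nat.mul_pos (Nat.div_pos hrn hr.pos) hr.pos))
    have hinv : ∀ x, σ x ∈ s ↔ x ∈ s := fun x => by
      constructor
      · intro hx
        rw [← hsi, Finset.mem_image] at hx
        obtain ⟨y, hy, hxy⟩ := hx
        rwa [← σ.injective hxy]
      · intro hx
        rw [← hsi]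
        exact Finset.mem_image_of_mem σ hx
    set τ : Equiv.Perm {x // x ∈ s} := σ.subtypePerm hinv with hτ
    have hτr : τ ^ r = 1 := Equiv.ext fun x => Subtype.ext (by
      rw [hτ, Equiv.Perm.subtypePerm_pow]
      simp [hσ])
    have h1 := mod_le_of_modEq (card_fixed_modEq hτr)
    have h2 : Nat.card {x // τ x = x} ≤ Nat.card {x : Fin n // σ x = x} :=
      Nat.card_le_card_of_injective (fun x => ⟨x.1.1, congrArg Subtype.val x.2⟩)
        (fun a b hab => Subtype.ext (Subtype.ext (congrArg (fun z => z.1) hab :)))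
    have h3 := moved_add_fixed σ
    rw [hm, Nat.card_fin] at h3
    rw [Nat.card_eq_fintype_card (α := {x // x ∈ s}), Fintype.card_coe, hs] at h1
    have h4 := Nat.div_add_mod' n r
    omega
  · intro hle σ hσ
    have hσr := pow_eq_one_of_orderOf hσ
    obtain ⟨j, hj⟩ := dvd_moved hσr
    set i := j - (n / r - k / r) with hi
    have hjn : j * r ≤ n := by
      have := moved_le σ
      rw [hj, Nat.card_fin] at this
      linarith
    have hjd : j ≤ n / r := (Nat.le_div_iff_mul_le hr.pos).2 hjn
    have hkd : k / r ≤ n / r := Nat.div_le_div_right hkn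
    have hik : i ≤ k / r := by
      rw [hi]; clear_value i; revert hjd hkd; generalize n / r = A; generalize k / r = B; omega
    have h1 : i * r ≤ k := (Nat.le_div_iff_mul_le hr.pos).1 hik
    have h2 : (j - i) * r ≤ n - k := by
      have h4 := Nat.div_add_mod' n r
      have h5 := Nat.div_add_mod' k r
      have h6 : (j - i) * r ≤ (n / r - k / r) * r := Nat.mul_le_mul_right r (by omega)
      rw [Nat.sub_mul (n / r)] at h6
      have h7 : k / r * r ≤ n / r * r := Nat.mul_le_mul_right r hkd
      omega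
    obtain ⟨ρ₁, hρ₁, hm₁⟩ := exists_moved (r := r) (Fin k) (c := i) (by rwa [Nat.card_fin])
    obtain ⟨ρ₂, hρ₂, hm₂⟩ := exists_moved (r := r) (Fin (n - k)) (c := j - i) (by rwa [Nat.card_fin])
    set ρ : Equiv.Perm (Fin k ⊕ Fin (n - k)) := Equiv.Perm.sumCongrHom _ _ (ρ₁, ρ₂) with hρdef
    have hρr : ρ ^ r = 1 := by rw [hρdef, ← map_pow, Prod.pow_mk, hρ₁, hρ₂]; exact map_one _
    have hmρ : moved σ = moved ρ := by
      have e : moved ρ = moved ρ₁ + moved ρ₂ := by
        rw [moved, moved, moved, ← Nat.card_sum]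
        refine Nat.card_congr (Equiv.trans Equiv.subtypeSum (Equiv.sumCongr
          (Equiv.subtypeEquivRight fun x => ?_) (Equiv.subtypeEquivRight fun x => ?_))) <;>
          simp [hρdef, Equiv.Perm.sumCongrHom_apply]
      rw [e, hm₁, hm₂, hj, ← add_mul, Nat.add_sub_cancel' (Nat.sub_le j _), mul_comm]
    obtain ⟨e, he⟩ := exists_conj_equiv hσr hρr (by simp [Nat.add_sub_cancel' hkn]) hmρ
    refine ⟨(Finset.univ : Finset (Fin k)).image fun x => e.symm (Sum.inl x), ?_, ?_⟩
    · rw [Finset.card_image_of_injective _ fun a b hab => Sum.inl_injective (e.symm.injective hab),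
        Finset.card_univ, Fintype.card_fin]
    · rw [Finset.image_image]
      have h : ∀ x : Fin k, σ (e.symm (Sum.inl x)) = e.symm (Sum.inl (ρ₁ x)) := fun x => by
        apply e.injective
        rw [he, e.apply_symm_apply, e.apply_symm_apply]
        rfl
      simp only [Function.comp_def, h]
      ext y
      simp only [Finset.mem_image, Finset.mem_univ, true_and]
      exact ⟨fun ⟨x, hx⟩ => ⟨ρ₁ x, hx⟩, fun ⟨x, hx⟩ => ⟨ρ₁.symm x, by rw [Equiv.apply_symm_apply]; exact hx⟩⟩

/-- Let 1 ≤ k with 2k < n and consider the symmetric group of degree n acting on the k-subsets of an n-set. Let r be a prime dividing the number C(n,k) of k-subsets. If r is odd, then every permutation of order r fixes some k-subset if and only if r ≤ k and the remainder of k modulo r is at most the remainder of n modulo r. If r = 2, then every involution fixes some k-subset if and only if k is even or n is odd. -/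
theorem result (n k : ℕ) (hk : 1 ≤ k) (hkn : 2 * k < n) (r : ℕ) (hr : r.Prime) (hrd : r ∣ Nat.choose n k) :
    (r ≠ 2 → ((∀ σ : Equiv.Perm (Fin n), orderOf σ = r → ∃ s : Finset (Fin n), s.card = k ∧ s.image σ = s) ↔
      (r ≤ k ∧ k % r ≤ n % r))) ∧
    (r = 2 → ((∀ σ : Equiv.Perm (Fin n), orderOf σ = 2 → ∃ s : Finset (Fin n), s.card = k ∧ s.image σ = s) ↔
      (Even k ∨ Odd n))) := by
  haveI : Fact r.Prime := ⟨hr⟩
  have hrn : r ≤ n := by
    refine hr.dvd_factorial.1 (hrd.trans ?_)
    exact ⟨k.factorial * (n - k).factorial, by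
      rw [← Nat.mul_assoc, Nat.choose_mul_factorial_mul_factorial (by omega)]⟩
  have key := fix_subset_iff n k r (by omega) hrn
  refine ⟨fun _ => key.trans ⟨fun h => ⟨?_, h⟩, fun h => h.2⟩, fun h2 => ?_⟩
  · by_contra hlt
    rw [Nat.mod_eq_of_lt (not_le.1 hlt)] at h
    have h1 : Nat.choose n k ≡ Nat.choose (n % r) (k % r) * Nat.choose (n / r) (k / r) [MOD r] :=
      Choose.choose_modEq_choose_mod_mul_choose_div_nat
    rw [Nat.mod_eq_of_lt (not_le.1 hlt), Nat.div_eq_of_lt (not_le.1 hlt), Nat.choose_zero_right,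
      mul_one] at h1
    have h3 := (Nat.modEq_zero_iff_dvd).1 (h1.symm.trans (Nat.modEq_zero_iff_dvd.2 hrd))
    have h4 : r ∣ (n % r).factorial := h3.trans ⟨k.factorial * (n % r - k).factorial, by
      rw [← Nat.mul_assoc, Nat.choose_mul_factorial_mul_factorial h]⟩
    exact absurd (hr.dvd_factorial.1 h4) (not_le.2 (Nat.mod_lt n hr.pos))
  · subst h2
    rw [key, Nat.even_iff, Nat.odd_iff]
    omega

end Cfsg.Agent.S3573
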