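import Cfsg.Statements.S3575
import Cfsg.Agent.PrimeCycles55.Basic
import Mathlib.Combinatorics.Enumerative.Bell

set_option autoImplicit false
open Cfsg

namespace Cfsg.Agent.S3575

open CfsgLib.PrimeCycles55

/-- Some number `t` of moved orbits of blocks is possible with `j` cycles. -/
def Feas (a b r j : ℕ) : Prop := ∃ t, t * r ≤ b ∧ t * a ≤ j ∧ (b - t * r) * (a % r) + j * r ≤ a * b

theorem feas_all_iff (a b r : ℕ) (ha : 2 ≤ a) (hb : 2 ≤ b) (hr : r.Prime) (hrn : r ≤ a * b) :
    (∀ j, 1 ≤ j → j * r ≤ a * b → Feas a b r j) ↔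
      (r ≤ a ∧ (a % r = 0 ∨ (b % r = 0 ∧ a % r = 1) ∨
        (a % r ≠ 0 ∧ b % r ≠ 0 ∧ (b % r) * (a % r) < r ∧
          (b < r ∨ (b % r + r) * (a % r) ≤ (b % r) * a + r)))) := by
  have hb' := Nat.div_add_mod' b r
  set ℓ := a % r with hℓ
  set k := b % r with hk
  set K := b / r with hK
  have hℓa : ℓ ≤ a := Nat.mod_le _ _
  have hmod : a * b % r = k * ℓ % r := by
    rw [Nat.mul_mod, hℓ, hk, mul_comm]
  clear_value ℓ k K
  constructor
  · intro h
    have hra : r ≤ a := by
      by_contra hlt
      obtain ⟨t, ht1, ht2, ht3⟩ := h 1 le_rfl (by rwa [one_mul])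
      rw [Nat.mod_eq_of_lt (not_le.1 hlt), one_mul, Nat.sub_mul] at ht3
      have : t * r * a ≤ b * a := Nat.mul_le_mul_right a ht1
      have h5 : a * b = b * a := mul_comm a b
      have h6 : t = 0 := by
        by_contra h0
        have : 1 * a ≤ t * a := Nat.mul_le_mul_right a (Nat.one_le_iff_ne_zero.2 h0)
        omega
      subst h6
      simp only [zero_mul] at ht3
      have := hr.pos
      omega
    refine ⟨hra, ?_⟩
    by_cases hℓ0 : ℓ = 0
    · exact Or.inl hℓ0
    have hJ : 1 ≤ a * b / r := Nat.div_pos hrn hr.pos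
    obtain ⟨t, ht1, -, ht3⟩ := h _ hJ (Nat.div_mul_le_self _ _)
    rw [← hℓ] at ht3
    have htK : t ≤ K := hK ▸ (Nat.le_div_iff_mul_le hr.pos).2 ht1
    have h3 := Nat.div_add_mod' (a * b) r
    have hk1 : k ≤ b - t * r := by
      have : t * r ≤ K * r := Nat.mul_le_mul_right r htK
      omega
    have h4 : k * ℓ ≤ (b - t * r) * ℓ := Nat.mul_le_mul_right ℓ hk1
    have hkl : k * ℓ < r := by
      have := Nat.mod_lt (a * b) hr.pos
      omega
    have hsec : 1 ≤ K → (k + r) * ℓ ≤ k * a + r := by
      intro hK1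
      have hab : a * b = K * a * r + k * a := by rw [← hb']; ring
      have hKa : 2 ≤ K * a := le_trans ha (Nat.le_mul_of_pos_left a hK1)
      obtain ⟨t, ht1, ht2, ht3⟩ := h (K * a - 1) (by omega) (by
        have : (K * a - 1) * r ≤ K * a * r := Nat.mul_le_mul_right r (by omega)
        omega)
      rw [← hℓ] at ht3
      have htK : t < K := by
        by_contra hc
        have : K * a ≤ t * a := Nat.mul_le_mul_right a (not_lt.1 hc)
        omega
      have hk2 : k + r ≤ b - t * r := by
        have : (t + 1) * r ≤ K * r := Nat.mul_le_mul_right r htK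
        rw [add_mul, one_mul] at this
        omega
      have h5 : (k + r) * ℓ ≤ (b - t * r) * ℓ := Nat.mul_le_mul_right ℓ hk2
      rw [Nat.sub_mul (K * a), one_mul] at ht3
      have : r ≤ K * a * r := Nat.le_mul_of_pos_left r (by omega)
      omega
    by_cases hk0 : k = 0
    · refine Or.inr (Or.inl ⟨hk0, ?_⟩)
      have hK1 : 1 ≤ K := by
        rcases Nat.eq_zero_or_pos K with h0 | h0
        · rw [h0, zero_mul, hk0] at hb'; omega
        · exact h0
      have h6 := hsec hK1
      rw [hk0, zero_mul, zero_add] at h6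
      have h7 : ℓ ≤ 1 := Nat.le_of_mul_le_mul_left (by rwa [mul_one]) hr.pos
      omega
    · refine Or.inr (Or.inr ⟨hℓ0, hk0, hkl, ?_⟩)
      by_cases hbr : b < r
      · exact Or.inl hbr
      · exact Or.inr (hsec (hK ▸ Nat.div_pos (not_lt.1 hbr) hr.pos))
  · rintro ⟨hra, hcase⟩ j hj hjn
    by_cases hℓ0 : ℓ = 0
    · exact ⟨0, by simp, by simp, by rw [← hℓ, hℓ0, mul_zero, zero_add]; exact hjn⟩
    have hab : a * b = K * a * r + k * a := by rw [← hb']; ring
    have hkl : k * ℓ < r := by
      rcases hcase with h | ⟨h, -⟩ | ⟨-, -, h, -⟩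
      · exact absurd h hℓ0
      · rw [h, zero_mul]; exact hr.pos
      · exact h
    by_cases hjK : K * a ≤ j
    · refine ⟨K, by omega, hjK, ?_⟩
      rw [show b - K * r = k by omega]
      have hf : (a * b - j * r) % r = a * b % r := by
        obtain ⟨d, hd⟩ := Nat.le.dest hjn
        rw [← hd, Nat.add_sub_cancel_left, Nat.mul_add_mod_self_right]
      have := Nat.mod_le (a * b - j * r) r
      rw [hf, hmod, Nat.mod_eq_of_lt hkl] at this
      rw [← hℓ]
      omega
    · set t := j / a with ht
      have h1 : t * a ≤ j := ht ▸ Nat.div_mul_le_self j a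
      have h2 : j < (t + 1) * a := by
        have := Nat.div_add_mod' j a
        rw [← ht] at this
        have := Nat.mod_lt j (by omega : 0 < a)
        rw [add_mul, one_mul]
        omega
      have htK : t < K := ht ▸ (Nat.div_lt_iff_lt_mul (by omega)).2 (not_le.1 hjK)
      have hK1 : 1 ≤ K := Nat.lt_of_le_of_lt (Nat.zero_le t) htK
      have hsec : (k + r) * ℓ ≤ k * a + r := by
        rcases hcase with h | ⟨h, h'⟩ | ⟨-, -, -, h | h⟩
        · exact absurd h hℓ0
        · rw [h, h', zero_mul, zero_add, mul_one]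
        · rw [hK, Nat.div_eq_of_lt h] at hK1; omega
        · exact h
      obtain ⟨u, hu⟩ := Nat.le.dest htK
      rw [Nat.succ_eq_add_one] at hu
      refine ⟨t, ?_, h1, ?_⟩
      · exact le_trans (Nat.mul_le_mul_right r htK.le) (by omega)
      · have e1 : b - t * r = k + r + u * r := by
          have : b = t * r + (k + r + u * r) := by rw [← hb', ← hu]; ring
          omega
        rw [← hℓ]
        have h3 : j * r + r ≤ (t + 1) * a * r := by
          rw [← Nat.succ_mul]
          exact Nat.mul_le_mul_right r h2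
        have h4 : u * r * ℓ ≤ u * r * a := Nat.mul_le_mul_left _ hℓa
        have h5 : a * b = (t + 1) * a * r + u * r * a + k * a := by rw [hab, ← hu]; ring
        rw [e1, add_mul]
        omega

/-- Naturals bounded by `q` with a given sum. -/
theorem exists_bounded_sum {ι : Type*} (S : Finset ι) (q : ℕ) :
    ∀ D ≤ S.card * q, ∃ c : ι → ℕ, (∀ x, c x ≤ q) ∧ ∑ x ∈ S, c x = D := by
  classical
  induction S using Finset.induction_on with
  | empty => exact fun D hD => ⟨fun _ => 0, by simp, by simp at hD ⊢; omega⟩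
  | @insert x S hx ih =>
    intro D hD
    rw [Finset.card_insert_of_notMem hx, add_mul, one_mul] at hD
    obtain ⟨c, hc, hs⟩ := ih (D - min q D) (by omega)
    refine ⟨Function.update c x (min q D), fun y => ?_, ?_⟩
    · by_cases hy : y = x
      · subst hy; simp
      · simp [hy, hc]
    · rw [Finset.sum_insert hx, Function.update_self, Finset.sum_congr rfl
        (fun y hy => Function.update_of_ne (fun h : y = x => hx (h ▸ hy)) _ c), hs]
      omega

open scoped Classical in
/-- Necessity. -/
theorem feas_of_fix (a b r : ℕ) (ha : 2 ≤ a) [Fact r.Prime] {σ : Equiv.Perm (Fin (a * b))}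
    (hσ : σ ^ r = 1) (f : Fin (a * b) → Fin b)
    (hf : ∀ j : Fin b, Nat.card {x // f x = j} = a) (π : Equiv.Perm (Fin b))
    (hπ : ∀ x, f (σ x) = π (f x)) : ∀ j, moved σ = j * r → Feas a b r j := by
  intro j hj
  have hsurj : Function.Surjective f := fun y => by
    have h : 0 < Nat.card {x // f x = y} := by rw [hf y]; omega
    obtain ⟨⟨x, hx⟩⟩ := (Nat.card_pos_iff.1 h).1
    exact ⟨x, hx⟩
  have hpow : ∀ n : ℕ, ∀ x, f ((σ ^ n) x) = (π ^ n) (f x) := by
    intro n
    induction n with
    | zero => simp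
    | succ n ih => intro x; rw [pow_succ', pow_succ', Equiv.Perm.mul_apply, Equiv.Perm.mul_apply, hπ, ih]
  have hπr : π ^ r = 1 := Equiv.ext fun y => by
    obtain ⟨x, rfl⟩ := hsurj y
    rw [← hpow, hσ]
    rfl
  obtain ⟨t, ht⟩ := dvd_moved hπr
  have hb0 := moved_add_fixed π
  rw [Nat.card_fin, ht] at hb0
  have hσ0 := moved_add_fixed σ
  rw [Nat.card_fin, hj] at hσ0
  -- points in the moved blocks are moved
  have hmv : t * r * a ≤ j * r := by
    rw [← hj]
    have hle : Nat.card (Σ y : {y // π y ≠ y}, {x // f x = y.1}) ≤ moved σ :=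
      Nat.card_le_card_of_injective (fun z => ⟨z.2.1, fun h => z.1.2 (by
          rw [← z.2.2, ← hπ, h])⟩)
        (fun z w h => by
          obtain ⟨⟨y, hy⟩, x, hx⟩ := z
          obtain ⟨⟨y', hy'⟩, x', hx'⟩ := w
          obtain rfl : x = x' := congrArg Subtype.val h
          obtain rfl : y = y' := hx.symm.trans hx'
          rfl)
    rw [Nat.card_sigma] at hle
    simp only [hf, Finset.sum_const, Finset.card_univ, smul_eq_mul] at hle
    rw [← Nat.card_eq_fintype_card] at hle
    rwa [← moved, ht, mul_comm r t] at hle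
  -- fixed blocks contain fixed points
  have hfx : Nat.card {y // π y = y} * (a % r) ≤ Nat.card {x // σ x = x} := by
    have hinj : Nat.card (Σ y : {y // π y = y}, {x : {x // f x = y.1} // σ x.1 = x.1}) ≤
        Nat.card {x // σ x = x} :=
      Nat.card_le_card_of_injective (fun z => ⟨z.2.1.1, z.2.2⟩) (fun z w h => by
        obtain ⟨⟨y, hy⟩, ⟨x, hx⟩, hxs⟩ := z
        obtain ⟨⟨y', hy'⟩, ⟨x', hx'⟩, hxs'⟩ := w
        obtain rfl : x = x' := congrArg Subtype.val h
        obtain rfl : y = y' := hx.symm.trans hx'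
        rfl)
    refine le_trans ?_ hinj
    rw [Nat.card_sigma, Nat.card_eq_fintype_card, ← Finset.card_univ, ← smul_eq_mul, ← Finset.sum_const]
    refine Finset.sum_le_sum fun y _ => ?_
    have hinv : ∀ x, f (σ x) = y.1 ↔ f x = y.1 := fun x => by
      rw [hπ]
      constructor
      · intro h; exact π.injective (h.trans y.2.symm)
      · intro h; rw [h, y.2]
    set τ : Equiv.Perm {x // f x = y.1} := σ.subtypePerm hinv with hτdef
    have hτ : τ ^ r = 1 := Equiv.ext fun x => Subtype.ext (by
      rw [hτdef, Equiv.Perm.subtypePerm_pow]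
      simp [hσ])
    have h1 := mod_le_of_modEq (card_fixed_modEq hτ)
    rw [hf] at h1
    refine h1.trans_eq (Nat.card_congr (Equiv.subtypeEquivRight fun x => ?_))
    exact Subtype.ext_iff
  refine ⟨t, by rw [mul_comm]; omega, ?_, ?_⟩
  · exact Nat.le_of_mul_le_mul_right (by linarith) (Fact.out : r.Prime).pos
  · rw [show b - t * r = Nat.card {y // π y = y} by rw [mul_comm t r]; omega]
    omega

open scoped Classical in
/-- Sufficiency. -/
theorem fix_of_feas (a b r : ℕ) [Fact r.Prime] {σ : Equiv.Perm (Fin (a * b))}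
    (hσ : σ ^ r = 1) {j : ℕ} (hj : moved σ = j * r) (hfe : Feas a b r j) :
    ∃ f : Fin (a * b) → Fin b, (∀ i : Fin b, Nat.card {x : Fin (a * b) // f x = i} = a) ∧
      ∃ π : Equiv.Perm (Fin b), ∀ x, f (σ x) = π (f x) := by
  have hr := (Fact.out : r.Prime)
  obtain ⟨t, ht1, ht2, ht3⟩ := hfe
  obtain ⟨π, hπ, hπm⟩ := exists_moved (r := r) (Fin b) (c := t) (by rwa [Nat.card_fin])
  set S : Finset (Fin b) := Finset.univ.filter fun y => π y = y with hS
  have hScard : S.card = b - t * r := by
    have h := moved_add_fixed π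
    rw [Nat.card_fin, hπm, Nat.card_eq_fintype_card, Fintype.card_subtype] at h
    rw [hS]
    omega
  have hD : j - t * a ≤ S.card * (a / r) := by
    rw [hScard]
    refine Nat.le_of_mul_le_mul_right ?_ hr.pos
    have e : a * b = (b - t * r) * (a / r) * r + (b - t * r) * (a % r) + t * a * r := by
      have hd := Nat.div_add_mod' a r
      obtain ⟨d, hd'⟩ := Nat.le.dest ht1
      rw [← hd', Nat.add_sub_cancel_left]
      have key : ∀ q l, a = q * r + l → a * (t * r + d) = d * q * r + d * l + t * a * r := by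
        rintro q l rfl; ring
      exact key _ _ hd.symm
    rw [Nat.sub_mul]
    omega
  obtain ⟨c, hc, hsum⟩ := exists_bounded_sum S (a / r) _ hD
  have hτ : ∀ y, ∃ τ : Equiv.Perm (Fin a), τ ^ r = 1 ∧ moved τ = c y * r := fun y =>
    exists_moved (Fin a) (by
      rw [Nat.card_fin]
      exact (Nat.mul_le_mul_right r (hc y)).trans (Nat.div_mul_le_self a r))
  choose τ hτr hτm using hτ
  set τ' : Fin b → Equiv.Perm (Fin a) := fun y => if π y = y then τ y else 1 with hτ'
  obtain ⟨ρ, hρ⟩ : ∃ ρ : Equiv.Perm (Fin b × Fin a), ∀ y i, ρ (y, i) = (π y, τ' y i) :=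
    ⟨Equiv.prodShear π τ', fun y i => rfl⟩
  have hτπ : ∀ y, τ' (π y) = if π y = y then τ y else 1 := fun y => by
    by_cases h : π y = y
    · rw [h]; simp only [hτ', h, if_true]
    · have h' : π (π y) ≠ π y := fun e => h (π.injective e)
      simp only [hτ', h, h', if_false]
  have hfix : ∀ y, τ' (π y) = τ' y := fun y => by rw [hτπ]
  have hpow : ∀ n : ℕ, ∀ y i, (ρ ^ n) (y, i) = ((π ^ n) y, (τ' y ^ n) i) := by
    intro n
    induction n with
    | zero => simp
    | succ n ih =>
      intro y i
      have e : τ' ((π ^ n) y) = τ' y := by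
        clear ih
        induction n with
        | zero => simp
        | succ n ih => rw [pow_succ', Equiv.Perm.mul_apply, hfix, ih]
      rw [pow_succ', pow_succ', pow_succ', Equiv.Perm.mul_apply, Equiv.Perm.mul_apply,
        Equiv.Perm.mul_apply, ih, hρ, e]
  have hρr : ρ ^ r = 1 := Equiv.ext fun z => by
    obtain ⟨y, i⟩ := z
    rw [hpow, hπ]
    by_cases h : π y = y
    · simp [hτ', h, hτr]
    · simp [hτ', h]
  have hρm : moved ρ = j * r := by
    rw [moved, Nat.card_congr (Equiv.subtypeProdEquivSigmaSubtype fun y i => ρ (y, i) ≠ (y, i)),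
      Nat.card_sigma, ← Finset.sum_filter_add_sum_filter_not Finset.univ (fun y => π y = y)]
    rw [Finset.sum_congr rfl (g := fun y => c y * r) (fun y hy => by
        have hy' : π y = y := (Finset.mem_filter.1 hy).2
        rw [← hτm y, moved]
        exact Nat.card_congr (Equiv.subtypeEquivRight fun i => by simp [hρ, hτ', hy'])),
      ← Finset.sum_mul, hsum,
      Finset.sum_congr rfl (g := fun _ => a) (fun y hy => by
        have hy' : π y ≠ y := (Finset.mem_filter.1 hy).2
        rw [Nat.card_congr (Equiv.subtypeUnivEquiv fun i => by simp [hρ, hy']), Nat.card_fin]),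
      Finset.sum_const, smul_eq_mul]
    rw [show (Finset.univ.filter fun y => ¬ π y = y).card = t * r by
      rw [← hπm, moved, Nat.card_eq_fintype_card, Fintype.card_subtype]]
    rw [Nat.sub_mul]
    have : t * a * r ≤ j * r := Nat.mul_le_mul_right r ht2
    rw [mul_right_comm t r a]
    omega
  obtain ⟨e, he⟩ := exists_conj_equiv hσ hρr (by simp [mul_comm]) (hj.trans hρm.symm)
  refine ⟨fun x => (e x).1, fun i => ?_, π, fun x => ?_⟩
  · rw [Nat.card_congr ((e.subtypeEquiv (q := fun z : Fin b × Fin a => z.1 = i) fun x => Iff.rfl).trans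
      ({ toFun := fun z => z.1.2
         invFun := fun v => ⟨(i, v), rfl⟩
         left_inv := fun z => by
           obtain ⟨⟨y, v⟩, rfl⟩ := z
           rfl
         right_inv := fun v => rfl } : {z : Fin b × Fin a // z.1 = i} ≃ Fin a)), Nat.card_fin]
  · show (e (σ x)).1 = π (e x).1
    rw [he]
    obtain ⟨⟨y, i⟩, hyi⟩ : ∃ z, e x = z := ⟨_, rfl⟩
    rw [hyi, hρ]

/-- Let a, b ≥ 2 and consider the symmetric group of degree a·b acting on the partitions of an (a·b)-set into b parts of size a (encoded as maps onto a b-element set all of whose fibres have a elements; a permutation fixes such a partition when it permutes the fibres). Let r be a prime dividing the number (ab)!/((a!)^b·b!) of such partitions, and let ℓ and k be the remainders of a and b modulo r. Then every permutation of order r fixes some such partition if and only if r ≤ a and one of the following holds: ℓ = 0; or k = 0 and ℓ = 1; or ℓ and k are non-zero, k·ℓ < r, and either b < r or (k + r)·ℓ ≤ k·a + r. -/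
theorem result (a b : ℕ) (ha : 2 ≤ a) (hb : 2 ≤ b) (r : ℕ) (hr : r.Prime)
    (hrd : r ∣ (a * b).factorial / (a.factorial ^ b * b.factorial)) :
    (∀ σ : Equiv.Perm (Fin (a * b)), orderOf σ = r →
        ∃ f : Fin (a * b) → Fin b, (∀ j : Fin b, Nat.card {x : Fin (a * b) // f x = j} = a) ∧
          ∃ π : Equiv.Perm (Fin b), ∀ x : Fin (a * b), f (σ x) = π (f x)) ↔
      (r ≤ a ∧ (a % r = 0 ∨ (b % r = 0 ∧ a % r = 1) ∨
        (a % r ≠ 0 ∧ b % r ≠ 0 ∧ (b % r) * (a % r) < r ∧ (b < r ∨ (b % r + r) * (a % r) ≤ (b % r) * a + r)))) := by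
  haveI : Fact r.Prime := ⟨hr⟩
  have hrn : r ≤ a * b := by
    refine hr.dvd_factorial.1 (hrd.trans ?_)
    rw [mul_comm a b, ← Nat.uniformBell_eq_div b (by omega : a ≠ 0)]
    exact ⟨a.factorial ^ b * b.factorial, by
      rw [← Nat.mul_assoc, Nat.uniformBell_mul_eq b (by omega : a ≠ 0)]⟩
  rw [← feas_all_iff a b r ha hb hr hrn]
  constructor
  · intro h j hj hjn
    obtain ⟨σ, hσ, hm⟩ := exists_moved (r := r) (Fin (a * b)) (c := j) (by rwa [Nat.card_fin])
    obtain ⟨f, hf, π, hπ⟩ := h σ (orderOf_eq_of_moved hσ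
      (by rw [hm]; exact Nat.mul_pos hj hr.pos))
    exact feas_of_fix a b r ha hσ f hf π hπ j hm
  · intro h σ hσ
    have hσr := pow_eq_one_of_orderOf hσ
    obtain ⟨j, hj⟩ := dvd_moved hσr
    replace hj : moved σ = j * r := hj.trans (mul_comm _ _)
    have hpos := moved_pos hσ
    have hle := moved_le σ
    rw [hj] at hpos hle
    rw [Nat.card_fin] at hle
    exact fix_of_feas a b r hσr hj (h j (Nat.pos_of_mul_pos_right hpos) hle)

end Cfsg.Agent.S3575
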