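import Cfsg.Statements.S3580
import Cfsg.Agent.SylowCount.FixRatio

set_option autoImplicit false
open Cfsg

namespace Cfsg.Agent.S3580


open CfsgLib.SylowCount

/-- orbits of a `p`-group against its fixed points -/
theorem orbits_le {H Ω : Type*} [Group H] [MulAction H Ω] [Finite Ω] {p : ℕ} [hp : Fact p.Prime]
    (hH : IsPGroup p H) :
    p * Nat.card (MulAction.orbitRel.Quotient H Ω) ≤
      Nat.card Ω + (p - 1) * Nat.card (MulAction.fixedPoints H Ω) := by
  classical
  have := Fintype.ofFinite Ω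
  have : Finite (MulAction.orbitRel.Quotient H Ω) := Quotient.finite _
  have := Fintype.ofFinite (MulAction.orbitRel.Quotient H Ω)
  have hsum : Nat.card Ω = ∑ ω : MulAction.orbitRel.Quotient H Ω,
      Nat.card (MulAction.orbit H ω.out) := by
    rw [Nat.card_congr (MulAction.selfEquivSigmaOrbits H Ω), Nat.card_sigma]
  have hsing : ∀ ω : MulAction.orbitRel.Quotient H Ω,
      p ≤ Nat.card (MulAction.orbit H ω.out) +
        (if ω.out ∈ MulAction.fixedPoints H Ω then p - 1 else 0) := by
    intro ω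
    obtain ⟨k, hk⟩ := hH.card_orbit ω.out
    rcases Nat.eq_zero_or_pos k with rfl | hk0
    · rw [if_pos ?_, hk]
      · simp only [pow_zero]; omega
      · rw [MulAction.mem_fixedPoints]
        intro h
        rw [pow_zero, Nat.card_eq_one_iff_unique] at hk
        have := hk.1.elim ⟨h • ω.out, MulAction.mem_orbit _ h⟩ ⟨ω.out, MulAction.mem_orbit_self _⟩
        exact congrArg Subtype.val this
    · calc p = p ^ 1 := (pow_one p).symm
        _ ≤ p ^ k := Nat.pow_le_pow_right hp.out.pos hk0
        _ ≤ _ := by rw [hk]; exact Nat.le_add_right _ _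
  have h1 := Finset.sum_le_sum (s := (Finset.univ : Finset (MulAction.orbitRel.Quotient H Ω)))
    (fun ω _ => hsing ω)
  rw [Finset.sum_const, Finset.card_univ, smul_eq_mul, Finset.sum_add_distrib, ← hsum,
    Finset.sum_ite, Finset.sum_const, Finset.sum_const_zero, add_zero, smul_eq_mul,
    ← Nat.card_eq_fintype_card, mul_comm] at h1
  refine h1.trans (Nat.add_le_add_left ?_ _)
  rw [mul_comm]
  refine Nat.mul_le_mul_left _ ?_
  rw [← Fintype.card_subtype, ← Nat.card_eq_fintype_card]
  refine Nat.card_le_card_of_injective (fun ω => (⟨ω.1.out, ω.2⟩ : MulAction.fixedPoints H Ω)) ?_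
  intro a b h
  refine Subtype.ext ?_
  have h' : a.1.out = b.1.out := congrArg Subtype.val h
  exact Quotient.out_inj.mp h'

/-- Let G act faithfully and transitively on a finite set Ω, let p be an odd prime dividing the order of G and P a Sylow p-subgroup of G. Then the number of orbits of P on Ω is at most (p/(2p − 1))·(number of points). -/
theorem result {G Ω : Type*} [Group G] [Finite G] [MulAction G Ω] [FaithfulSMul G Ω] [Finite Ω]
    (htrans : MulAction.IsPretransitive G Ω) (p : ℕ) [Fact p.Prime] (hp2 : p ≠ 2) (hpG : p ∣ Nat.card G)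
    (P : Sylow p G) :
    (2 * p - 1) * Nat.card (MulAction.orbitRel.Quotient ↥(P : Subgroup G) Ω) ≤ p * Nat.card Ω := by
  classical
  have := Fintype.ofFinite Ω
  have hp : p.Prime := Fact.out
  let φ : G →* Equiv.Perm Ω := MulAction.toPermHom G Ω
  have hφ : Function.Injective φ := MulAction.toPerm_injective
  set s : Set G := {g : G | ∃ k : ℕ, orderOf g = p ^ k} with hs
  set N : Subgroup G := Subgroup.closure s with hN
  have hPN : (P : Subgroup G) ≤ N := fun g hg =>
    Subgroup.subset_closure (pElem_of_mem P.isPGroup' hg)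
  have hnormal : ∀ g : G, ∀ n ∈ N, g * n * g⁻¹ ∈ N := by
    intro g n hn
    have hle : N ≤ N.comap (MulAut.conj g).toMonoidHom := by
      refine (Subgroup.closure_le _).mpr fun z hz => ?_
      obtain ⟨k, hk⟩ := hz
      refine Subgroup.subset_closure ⟨k, ?_⟩
      rw [← hk]
      exact MulEquiv.orderOf_eq (MulAut.conj g) z
    exact hle hn
  set M₁ : Subgroup (Equiv.Perm Ω) := N.map φ with hM₁
  have hgen : Subgroup.closure {g : ↥M₁ | ∃ k : ℕ, orderOf g = p ^ k} = ⊤ := by
    have hM : M₁ = Subgroup.closure (φ '' s) := MonoidHom.map_closure φ s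
    refine le_antisymm le_top ?_
    rintro ⟨g, hg⟩ -
    rw [hM] at hg
    have : ∀ (g : Equiv.Perm Ω) (hg : g ∈ Subgroup.closure (φ '' s)),
        ∃ h : g ∈ M₁, (⟨g, h⟩ : ↥M₁) ∈ Subgroup.closure {g : ↥M₁ | ∃ k : ℕ, orderOf g = p ^ k} := by
      intro g hg
      induction hg using Subgroup.closure_induction with
      | mem x hx =>
        obtain ⟨z, ⟨k, hk⟩, rfl⟩ := hx
        refine ⟨Subgroup.mem_map_of_mem φ (Subgroup.subset_closure ⟨k, hk⟩),
          Subgroup.subset_closure ⟨k, ?_⟩⟩
        rw [← Subgroup.orderOf_coe]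
        exact (orderOf_injective φ hφ z).trans hk
      | one => exact ⟨one_mem _, one_mem _⟩
      | mul a b _ _ ha hb =>
        obtain ⟨ha, ha'⟩ := ha
        obtain ⟨hb, hb'⟩ := hb
        exact ⟨mul_mem ha hb, mul_mem ha' hb'⟩
      | inv a _ ha =>
        obtain ⟨ha, ha'⟩ := ha
        exact ⟨inv_mem ha, inv_mem ha'⟩
    exact (this g hg).2
  set P₁ : Subgroup ↥M₁ := ((P : Subgroup G).map φ).subgroupOf M₁ with hP₁
  have hP₁le : (P : Subgroup G).map φ ≤ M₁ := Subgroup.map_mono hPN
  have hcardP₁ : Nat.card P₁ = Nat.card (P : Subgroup G) := by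
    rw [Nat.card_congr (Subgroup.subgroupOfEquivOfLe hP₁le).toEquiv,
      Subgroup.card_map_of_injective hφ]
  have hfac : Nat.card P₁ = p ^ (Nat.card ↥M₁).factorization p := by
    rw [hcardP₁, P.card_eq_multiplicity]
    congr 1
    refine le_antisymm ?_ ?_
    · refine (hp.pow_dvd_iff_le_factorization Nat.card_pos.ne').mp ?_
      rw [← P.card_eq_multiplicity, ← hcardP₁]
      exact Subgroup.card_subgroup_dvd_card P₁
    · refine (hp.pow_dvd_iff_le_factorization Nat.card_pos.ne').mp ?_
      refine (Nat.ordProj_dvd _ _).trans ?_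
      rw [hM₁, Subgroup.card_map_of_injective hφ]
      exact Subgroup.card_subgroup_dvd_card N
  let S : Sylow p ↥M₁ := Sylow.ofCard P₁ hfac
  have hPne : (P : Subgroup G) ≠ ⊥ := by
    intro h
    have h1 := P.card_eq_multiplicity
    rw [h, Subgroup.card_bot] at h1
    have h2 : 0 < (Nat.card G).factorization p :=
      hp.factorization_pos_of_dvd Nat.card_pos.ne' hpG
    have h3 : 1 < p ^ (Nat.card G).factorization p := Nat.one_lt_pow h2.ne' hp.one_lt
    omega
  have hmoved : ∀ x : Ω, MulAction.stabilizer ↥M₁ x ≠ ⊤ := by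
    intro x htop
    apply hPne
    refine le_bot_iff.mp fun g hg => ?_
    rw [Subgroup.mem_bot]
    refine eq_of_smul_eq_smul fun y : Ω => ?_
    obtain ⟨a, rfl⟩ := htrans.exists_smul_eq x y
    have hfix : (⟨φ (a⁻¹ * g * a), Subgroup.mem_map_of_mem φ
        (by simpa using hnormal a⁻¹ g (hPN hg))⟩ : ↥M₁) • x = x :=
      MulAction.mem_stabilizer_iff.mp (htop ▸ Subgroup.mem_top _)
    change (a⁻¹ * g * a) • x = x at hfix
    rw [one_smul]
    calc g • a • x = a • (a⁻¹ * g * a) • x := by simp [mul_smul]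
      _ = a • x := by rw [hfix]
  have hfr := fix_ratio hgen hmoved S
  have hfixeq : (Finset.univ.filter
      (fun x : Ω => (S : Subgroup ↥M₁) ≤ MulAction.stabilizer ↥M₁ x)).card =
      Nat.card (MulAction.fixedPoints ↥(P : Subgroup G) Ω) := by
    rw [← Fintype.card_subtype, ← Nat.card_eq_fintype_card]
    refine Nat.card_congr (Equiv.subtypeEquivRight fun x => ?_)
    rw [MulAction.mem_fixedPoints]
    constructor
    · intro h g
      exact MulAction.mem_stabilizer_iff.mp (h (show (⟨φ g, hP₁le (Subgroup.mem_map_of_mem φ g.2)⟩ :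
        ↥M₁) ∈ (S : Subgroup ↥M₁) from Subgroup.mem_map_of_mem φ g.2))
    · intro h m hm
      obtain ⟨g, hg, hgm⟩ := (show (m : Equiv.Perm Ω) ∈ (P : Subgroup G).map φ from hm)
      rw [MulAction.mem_stabilizer_iff]
      show (m : Equiv.Perm Ω) x = x
      rw [← hgm]
      exact h ⟨g, hg⟩
  rw [hfixeq, ← Nat.card_eq_fintype_card] at hfr
  have horb := orbits_le (Ω := Ω) P.isPGroup'
  generalize Nat.card (MulAction.fixedPoints ↥(P : Subgroup G) Ω) = f at hfr horb
  generalize Nat.card (MulAction.orbitRel.Quotient ↥(P : Subgroup G) Ω) = o at horb ⊢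
  generalize Nat.card Ω = n at hfr horb ⊢
  refine Nat.le_of_mul_le_mul_left ?_ hp.pos
  obtain ⟨q, rfl⟩ : ∃ q, p = q + 1 := ⟨p - 1, by have := hp.pos; omega⟩
  simp only [Nat.add_sub_cancel, show 2 * (q + 1) - 1 = 2 * q + 1 by omega] at hfr horb ⊢
  nlinarith [Nat.mul_le_mul_left (2 * q + 1) horb, Nat.mul_le_mul_left q hfr]

end Cfsg.Agent.S3580
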