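import Cfsg.Statements.S3592
import Cfsg.Agent.M11Unique.Counts
import Cfsg.Agent.Mathieu.Small
import Cfsg.Agent.Mathieu.Simple

set_option autoImplicit false
open Cfsg

namespace Cfsg.Agent.S3592

/-- Let M be the Mathieu group M₁₁ (order 7920). If a finite group G has the same order as M and the same set of values of the function 'number of elements of order n' (taken over the element orders n that occur), then G is isomorphic to M. -/
theorem result {G : Type*} [Group G] [Finite G]
    (hcard : Nat.card G = Nat.card ↥Cfsg.Spor.M11)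
    (hnse : {c : ℕ | 0 < c ∧ ∃ n : ℕ, c = Nat.card {g : G // orderOf g = n}} =
      {c : ℕ | 0 < c ∧ ∃ n : ℕ, c = Nat.card {g : ↥Cfsg.Spor.M11 // orderOf g = n}}) :
    Nonempty (G ≃* ↥Cfsg.Spor.M11) := by
  haveI : IsSimpleGroup Cfsg.Spor.M11 := CfsgLib.Mathieu.isSimpleGroup_M11
  have hM := CfsgLib.Mathieu.card_M11
  haveI : IsSimpleGroup G := CfsgLib.M11Unique.isSimpleGroup_of_counts (hcard.trans hM) hM fun n hn => by
    have hmem : Nat.card {g : G // orderOf g = n} ∈
        {c : ℕ | 0 < c ∧ ∃ n : ℕ, c = Nat.card {g : G // orderOf g = n}} := ⟨hn, n, rfl⟩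
    rw [hnse] at hmem
    exact hmem.2
  exact CfsgLib.M11Unique.nonempty_mulEquiv_of_simple_7920 (hcard.trans hM) hM

end Cfsg.Agent.S3592
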