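import Cfsg.Statements.S3594
import Cfsg.Agent.M22Count.Kill
import Cfsg.Agent.M22Count.Counts
import Cfsg.Agent.M22Count.ModelSide
import Cfsg.Agent.M22Count.Graph
import Cfsg.Agent.M22Count.Final

set_option autoImplicit false
open Cfsg

namespace Cfsg.Agent.S3594

/-- Let M be the Mathieu group M₂₂ (order 443520). If a finite group G has the same order as M and the same set of values of the function 'number of elements of order n' (taken over the element orders n that occur), then G is isomorphic to M. -/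
theorem result {G : Type*} [Group G] [Finite G]
    (hcard : Nat.card G = Nat.card ↥Cfsg.Spor.M22)
    (hnse : {c : ℕ | 0 < c ∧ ∃ n : ℕ, c = Nat.card {g : G // orderOf g = n}} =
      {c : ℕ | 0 < c ∧ ∃ n : ℕ, c = Nat.card {g : ↥Cfsg.Spor.M22 // orderOf g = n}}) :
    Nonempty (G ≃* ↥Cfsg.Spor.M22) := by
  classical
  have hc : Nat.card G = 443520 := hcard.trans CfsgLib.Mathieu.card_M22
  have hM := CfsgLib.M22Count.countValues_M22
  have hG : CfsgLib.M22Count.CountHyp G := by
    refine ⟨hc, fun n hn => ?_, fun c hcv => ?_⟩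
    · obtain ⟨-, m, hm⟩ := (Set.ext_iff.1 hnse (CfsgLib.M22Count.cnt G n)).1
        ⟨Nat.pos_of_ne_zero hn, n, rfl⟩
      rw [hm]
      exact hM.1 m (fun e => hn (hm.trans e))
    · obtain ⟨m, hm⟩ := hM.2 c hcv
      have hpos : 0 < c := by
        revert hcv
        simp only [CfsgLib.M22Count.countValues, Finset.mem_insert, Finset.mem_singleton]
        omega
      obtain ⟨-, n, hn⟩ := (Set.ext_iff.1 hnse c).2 ⟨hpos, m, hm.symm⟩
      exact ⟨n, hn.symm⟩
  have hs := hG.setup
  obtain ⟨E, hE⟩ := hs.exists_hexad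
  obtain ⟨V, iV, iA, Γ, iD, iF, hsrg, hadj⟩ := hE.exists_graph hs
  exact CfsgLib.M22Count.iso_M22_of_srg hc Γ hsrg hadj

end Cfsg.Agent.S3594
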