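import Cfsg.Statements.S3595
import Cfsg.Agent.M23Count.Points
import Cfsg.Agent.M23Count.Final
import Cfsg.Agent.M23Count.ModelSide
import Cfsg.Agent.M23Count.Counts
import Cfsg.Agent.M23Count.CoreLocal
import Cfsg.Agent.M23Count.LocalBody
import Cfsg.Agent.M23Count.Orbits
import Cfsg.Agent.M23Count.Triples

set_option autoImplicit false
open Cfsg

namespace Cfsg.Agent.S3595

/-- Let M be the Mathieu group M₂₃ (order 10200960). If a finite group G has the same order as M and the same set of values of the function 'number of elements of order n' (taken over the element orders n that occur), then G is isomorphic to M. -/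
theorem result {G : Type*} [Group G] [Finite G]
    (hcard : Nat.card G = Nat.card ↥Cfsg.Spor.M23)
    (hnse : {c : ℕ | 0 < c ∧ ∃ n : ℕ, c = Nat.card {g : G // orderOf g = n}} =
      {c : ℕ | 0 < c ∧ ∃ n : ℕ, c = Nat.card {g : ↥Cfsg.Spor.M23 // orderOf g = n}}) :
    Nonempty (G ≃* ↥Cfsg.Spor.M23) := by
  obtain ⟨hmem, hsurj⟩ := CfsgLib.M23Count.countValues_M23
  have hC : CfsgLib.M23Count.CountHyp G := by
    refine ⟨hcard.trans CfsgLib.M23Count.card_M23, fun n hn => ?_, fun c hc => ?_⟩
    · have h : CfsgLib.M23Count.cnt G n ∈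
          {c : ℕ | 0 < c ∧ ∃ n : ℕ, c = Nat.card {g : G // orderOf g = n}} :=
        ⟨Nat.pos_of_ne_zero hn, n, rfl⟩
      rw [hnse] at h
      obtain ⟨h0, m, hm⟩ := h
      rw [hm]
      exact hmem m (show CfsgLib.M23Count.cnt ↥Cfsg.Spor.M23 m ≠ 0 from fun e => by
        unfold CfsgLib.M23Count.cnt at e; omega)
    · obtain ⟨m, hm⟩ := hsurj c hc
      have hc0 : 0 < c := by
        simp only [CfsgLib.M23Count.countValues, Finset.mem_insert, Finset.mem_singleton] at hc
        omega
      have h : c ∈ {c : ℕ | 0 < c ∧ ∃ n : ℕ, c = Nat.card {g : ↥Cfsg.Spor.M23 // orderOf g = n}} :=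
        ⟨hc0, m, hm.symm⟩
      rw [← hnse] at h
      obtain ⟨-, k, hk⟩ := h
      exact ⟨k, hk.symm⟩
  have hS := hC.setup
  obtain ⟨E, hE⟩ := hS.exists_heptad_of_core
    { exists_core := fun ht => hS.exists_core ht
      unique := fun _ h₁ h₂ => h₁.unique h₂
      conj := fun h₁ g => h₁.conj g }
  obtain ⟨V, _, hfaith, ⟨P⟩⟩ := CfsgLib.M23Count.exists_preGeom hS hE
  obtain ⟨Γ⟩ := P.exists_geom hS
  exact CfsgLib.M23Count.iso_M23_of_points hC.card Γ.card_V Γ.hasPoints

end Cfsg.Agent.S3595
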