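import Cfsg.Statements.S3598
import Cfsg.Agent.PSL2Spectrum.DegreeFacts
import Cfsg.Agent.Frobenius57.DegreeSixty
import Cfsg.Agent.Frobenius57.SimpleSixty

set_option autoImplicit false
open Cfsg

namespace Cfsg.Agent.S3598

/-- Let p be a prime and F a field with p² elements. If a finite group G has, for every d, the same number of irreducible complex characters of degree d as PSL(2,F) (the same first column of the character table, with multiplicities), then G is isomorphic to PSL(2,F). -/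
theorem result {F : Type*} [Field F] [Fintype F] (p : ℕ) (hp : p.Prime)
    (hF : Fintype.card F = p ^ 2) {G : Type*} [Group G] [Finite G]
    (h : ∀ d : ℕ, Nat.card {χ : Cfsg.IrrCharacter G // (χ : G → ℂ) 1 = (d : ℂ)} =
      Nat.card {χ : Cfsg.IrrCharacter (Matrix.ProjectiveSpecialLinearGroup (Fin 2) F) // (χ : Matrix.ProjectiveSpecialLinearGroup (Fin 2) F → ℂ) 1 = (d : ℂ)}) :
    Nonempty (G ≃* Matrix.ProjectiveSpecialLinearGroup (Fin 2) F) := by
  classical
  haveI : Fact p.Prime := ⟨hp⟩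
  have hp2' := hp.two_le
  have h4 : 4 ≤ Fintype.card F := hF ▸ (show 2 ^ 2 ≤ p ^ 2 from Nat.pow_le_pow_left hp2' 2)
  set L := Matrix.ProjectiveSpecialLinearGroup (Fin 2) F
  have key : ∀ d : ℕ, Nat.card {χ : IrrCharacter G // charDegree (χ : G → ℂ) = d} =
      Nat.card {χ : IrrCharacter L // charDegree (χ : L → ℂ) = d} := fun d => by
    rw [Nat.card_congr (Equiv.subtypeEquivRight fun χ : IrrCharacter G =>
        show charDegree (χ : G → ℂ) = d ↔ (χ : G → ℂ) 1 = (d : ℂ) by rw [← CfsgLib.Chars.coe_charDegree, Nat.cast_inj]),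
      h d]
    exact Nat.card_congr (Equiv.subtypeEquivRight fun χ : IrrCharacter L => by
      rw [← CfsgLib.Chars.coe_charDegree, Nat.cast_inj])
  obtain ⟨e, he⟩ : ∃ e : IrrCharacter G ≃ IrrCharacter L, ∀ χ, charDegree (e χ : L → ℂ) = charDegree (χ : G → ℂ) := by
    let f := fun χ : IrrCharacter G => charDegree (χ : G → ℂ)
    let f' := fun χ : IrrCharacter L => charDegree (χ : L → ℂ)
    let ef : ∀ d, { χ // f χ = d } ≃ { χ // f' χ = d } := fun d => (Finite.card_eq.1 (key d)).some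
    exact ⟨Equiv.ofFiberEquiv ef, fun χ => Equiv.ofFiberEquiv_map ef χ⟩
  have hcard : Nat.card G = Nat.card L := by
    rw [← CfsgLib.Chars.sum_charDegree_sq (G := G), ← CfsgLib.Chars.sum_charDegree_sq (G := L)]
    exact Fintype.sum_equiv e _ _ fun χ => by rw [he]
  have hlin1 : Nat.card {χ : IrrCharacter G // (χ : G → ℂ) 1 = 1} = 1 := by
    rw [← CfsgLib.PSL2Spectrum.psl_card_linear (F := F) h4]
    simpa using h 1
  by_cases hp2 : p = 2
  · subst hp2
    have heven : Even (Fintype.card F) := hF ▸ ⟨2, rfl⟩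
    have h60 : Nat.card L = 60 := by rw [CfsgLib.Dickson.card_psl_two heven, hF]; norm_num
    haveI : IsSimpleGroup L :=
      CfsgLib.Classical.Linear.isSimpleGroup_psl_fin le_rfl fun _ => by rwa [Nat.card_eq_fintype_card]
    haveI : IsSimpleGroup G := CfsgLib.DegreeSixty.isSimple_of_card_sixty (hcard.trans h60) (by
      rw [← Subgroup.index_eq_one, ← CfsgLib.Chars.card_linear_irr]; exact hlin1)
    obtain ⟨e₁⟩ := CfsgLib.SimpleSixty.nonempty_mulEquiv_alt_five (G := G) (hcard.trans h60)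
    obtain ⟨e₂⟩ := CfsgLib.SimpleSixty.nonempty_mulEquiv_alt_five (G := L) h60
    exact ⟨e₁.trans e₂.symm⟩
  · have hq4 : Fintype.card F % 4 = 1 := by
      obtain ⟨s, hs⟩ := hp.odd_of_ne_two hp2
      rw [hF, hs, show (2 * s + 1) ^ 2 = 4 * (s ^ 2 + s) + 1 by ring]
      omega
    refine CfsgLib.PSL2Spectrum.iso_psl_sq hF hp2 hcard (CfsgLib.PSL2Spectrum.no_mixed_of_degrees hp2 ?_ ?_ ?_)
    · rw [hcard, CfsgLib.Dickson.psl_card_mul_two (Nat.odd_iff.2 (by omega)), hF]
    · intro χ hχ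
      obtain ⟨hsub, -⟩ := Nat.card_eq_one_iff_unique.1 hlin1
      exact congrArg Subtype.val (hsub.elim (⟨χ, (CfsgLib.Chars.charDegree_eq_one_iff χ).1 hχ⟩ :
        {χ : IrrCharacter G // (χ : G → ℂ) 1 = 1}) ⟨CfsgLib.Chars.oneChar G, CfsgLib.Chars.oneChar_apply 1⟩)
    · intro χ
      rw [← he, ← hF]
      exact CfsgLib.PSL2Spectrum.psl_degrees hq4 (by omega) (e χ)

end Cfsg.Agent.S3598
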