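import Cfsg.Statements.S3599
import Mathlib
-- import your own Cfsg.Agent.* helpers here

set_option autoImplicit false
open Cfsg

namespace Cfsg.Agent.S3599

section frob

variable {K : Type} [Field K] (C : Subgroup Kˣ)

/-- Multiplication action. -/
def mulAct : C →* MulAut (Multiplicative K) where
  toFun c := AddEquiv.toMultiplicative
    { toFun := fun v => ((c : Kˣ) : K) * v
      invFun := fun v => (((c : Kˣ)⁻¹ : Kˣ) : K) * v
      left_inv := fun v => Units.inv_mul_cancel_left _ v
      right_inv := fun v => Units.mul_inv_cancel_left _ v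
      map_add' := fun v w => mul_add _ v w }
  map_one' := by
    ext v : 1
    apply Multiplicative.toAdd.injective
    exact one_mul _
  map_mul' c d := by
    ext v : 1
    apply Multiplicative.toAdd.injective
    exact mul_assoc _ _ _

lemma mulAct_apply (c : C) (v : Multiplicative K) :
    mulAct C c v = Multiplicative.ofAdd (((c : Kˣ) : K) * Multiplicative.toAdd v) := rfl

/-- The semidirect product. -/
abbrev Fr := Multiplicative K ⋊[mulAct C] C

/-- The kernel embedding. -/
def il (v : K) : Fr C := SemidirectProduct.inl (Multiplicative.ofAdd v)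

@[simp] lemma il_left (v : K) : (il C v).left = Multiplicative.ofAdd v := rfl

@[simp] lemma il_right (v : K) : (il C v).right = 1 := rfl

lemma il_add (v w : K) : il C (v + w) = il C v * il C w := by
  rw [il, il, il, ofAdd_add, map_mul]

lemma il_neg (v : K) : il C (-v) = (il C v)⁻¹ := by
  rw [il, il, ofAdd_neg, map_inv]

lemma il_inj {v w : K} : il C v = il C w ↔ v = w := by
  rw [il, il, SemidirectProduct.inl_inj]
  exact Equiv.apply_eq_iff_eq _

lemma il_eq_one (v : K) : il C v = 1 ↔ v = 0 := by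
  have h : il C 0 = 1 := by rw [il, ofAdd_zero, map_one]
  rw [← h, il_inj]

lemma il_conj (x : Fr C) (v : K) : x * il C v * x⁻¹ = il C (((x.right : Kˣ) : K) * v) := by
  apply SemidirectProduct.ext
  · simp only [SemidirectProduct.mul_left, SemidirectProduct.mul_right, SemidirectProduct.inv_left,
      il_left, il_right, mul_one, mulAct_apply]
    apply Multiplicative.toAdd.injective
    simp [← mul_assoc]
  · simp

lemma il_ker (x : Fr C) (hx : x.right = 1) : x = il C (Multiplicative.toAdd x.left) :=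
  SemidirectProduct.ext (by simp) (by simp [hx])

lemma exists_conj_inr (x : Fr C) (hx : ((x.right : Kˣ) : K) ≠ 1) :
    ∃ w, il C w * SemidirectProduct.inr x.right * (il C w)⁻¹ = x := by
  refine ⟨Multiplicative.toAdd x.left / (1 - ((x.right : Kˣ) : K)),
    SemidirectProduct.ext ?_ (by simp)⟩
  apply Multiplicative.toAdd.injective
  simp only [SemidirectProduct.mul_left, SemidirectProduct.mul_right, SemidirectProduct.inv_left,
    il_left, il_right, SemidirectProduct.left_inr, SemidirectProduct.right_inr, inv_one, map_one,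
    MulAut.one_apply, mul_one, one_mul, mulAct_apply, toAdd_mul, toAdd_inv, toAdd_ofAdd]
  have := sub_ne_zero.2 (Ne.symm hx)
  field_simp
  ring

end frob

open Polynomial in
/-- The group `F_P[ζ] ⋊ ⟨ζ⟩` with `ζ` a primitive `Q`-th root of unity. -/
theorem exists_frobenius (P Q : ℕ) (hP : P.Prime) (hQ : Q.Prime) (hPQ : P ≠ Q) :
    ∃ (F : Type) (_ : Group F) (_ : Finite F),
      (∀ x : F, orderOf x = 1 ∨ orderOf x = P ∨ orderOf x = Q) ∧
      (∃ x : F, orderOf x = P) ∧ (∃ x : F, orderOf x = Q) ∧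
      (∀ x y : F, x ^ P = 1 → y ^ P = 1 → x * y = y * x) ∧
      (∃ x y : F, x ^ Q = 1 ∧ y ^ Q = 1 ∧ x * y ≠ y * x) ∧
      (∀ H : Subgroup F, (∃ x ∈ H, orderOf x = P) → (∃ x ∈ H, orderOf x = Q) → H = ⊤) ∧
      (∀ n : F, n ≠ 1 → ∃ z : F, n * z * n⁻¹ * z⁻¹ ≠ 1) ∧
      (∀ N : Subgroup F, N.Normal → N ≠ ⊥ → ∀ x : F, x ^ P = 1 → x ∈ N) := by
  classical
  have : Fact P.Prime := ⟨hP⟩
  have : Fact Q.Prime := ⟨hQ⟩
  obtain ⟨g, hg, hgd⟩ := WfDvdMonoid.exists_irreducible_factor
    (a := cyclotomic Q (ZMod P))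
    (Polynomial.not_isUnit_of_degree_pos _ (degree_cyclotomic_pos Q _ hQ.pos))
    (cyclotomic_ne_zero Q _)
  have : Fact (Irreducible g) := ⟨hg⟩
  let K := AdjoinRoot g
  have : Module.Finite (ZMod P) K := (AdjoinRoot.powerBasis hg.ne_zero).finite
  have : Finite K := Module.finite_of_finite (ZMod P)
  have : CharP K P := charP_of_injective_algebraMap (algebraMap (ZMod P) K).injective P
  have hQK : NeZero (Q : K) := ⟨fun h => hPQ
    ((Nat.prime_dvd_prime_iff_eq hP hQ).1 ((CharP.cast_eq_zero_iff K P Q).1 h))⟩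
  set ζ : K := AdjoinRoot.root g
  have hroot : IsRoot (cyclotomic Q K) ζ := by
    rw [← map_cyclotomic Q (algebraMap (ZMod P) K), IsRoot.def, eval_map]
    obtain ⟨c, hc⟩ := hgd
    rw [hc, eval₂_mul, AdjoinRoot.algebraMap_eq, AdjoinRoot.eval₂_root, zero_mul]
  have hζ : IsPrimitiveRoot ζ Q := isRoot_cyclotomic_iff.1 hroot
  have hζ0 : ζ ≠ 0 := hζ.ne_zero hQ.ne_zero
  let u : Kˣ := Units.mk0 ζ hζ0
  have hu : orderOf u = Q := by
    rw [← orderOf_units, Units.val_mk0, ← hζ.eq_orderOf]
  let C : Subgroup Kˣ := Subgroup.zpowers u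
  have hC : ∀ c : C, c ≠ 1 → orderOf c = Q := by
    intro c hc
    have h1 : orderOf c ∣ Q := by
      have h := orderOf_dvd_natCard c
      rwa [Nat.card_zpowers, hu] at h
    exact ((Nat.dvd_prime hQ).1 h1).resolve_left (by rwa [orderOf_eq_one_iff])
  have hCval : ∀ c : C, c ≠ 1 → ((c : Kˣ) : K) ≠ 1 := fun c hc h =>
    hc (Subtype.ext (Units.ext h))
  let il : K → Fr C := il C
  have hil1 : ∀ v, il v = 1 ↔ v = 0 := il_eq_one C
  have hilpow : ∀ v, il v ^ P = 1 := by
    intro v
    show (SemidirectProduct.inl (Multiplicative.ofAdd v) : Fr C) ^ P = 1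
    rw [← map_pow, ← ofAdd_nsmul, nsmul_eq_mul, CharP.cast_eq_zero K P, zero_mul, ofAdd_zero, map_one]
  have : Finite (Fr C) := Finite.of_equiv _ SemidirectProduct.equivProd.symm
  have hconj : ∀ (x : Fr C) (v : K), x * il v * x⁻¹ = il (((x.right : Kˣ) : K) * v) := il_conj C
  have hrep : ∀ x : Fr C, x.right ≠ 1 → ∃ w, il w * SemidirectProduct.inr x.right * (il w)⁻¹ = x :=
    fun x hx => exists_conj_inr C x (hCval _ hx)
  have hker : ∀ x : Fr C, x.right = 1 → x = il (Multiplicative.toAdd x.left) := il_ker C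
  have hordQ : ∀ x : Fr C, x.right ≠ 1 → orderOf x = Q := by
    intro x hx
    obtain ⟨w, hw⟩ := hrep x hx
    rw [← hw, ← MulAut.conj_apply, MulEquiv.orderOf_eq,
      orderOf_injective _ SemidirectProduct.inr_injective, hC _ hx]
  have hordP : ∀ x : Fr C, x.right = 1 → x ≠ 1 → orderOf x = P := fun x hx hx1 =>
    orderOf_eq_prime (by rw [hker x hx]; exact hilpow _) hx1
  have hpowP : ∀ x : Fr C, x ^ P = 1 → x.right = 1 := by
    intro x hx
    by_contra h
    have := orderOf_dvd_of_pow_eq_one hx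
    rw [hordQ x h] at this
    exact hPQ ((Nat.prime_dvd_prime_iff_eq hQ hP).1 this).symm
  have hu1 : (⟨u, Subgroup.mem_zpowers u⟩ : C) ≠ 1 := fun h => by
    have h' := congrArg (fun c : C => orderOf (c : Kˣ)) h
    simp only [Subgroup.coe_one, orderOf_one] at h'
    exact hQ.ne_one (hu ▸ h')
  have hgen : ∀ (S : Subgroup (Fr C)) (v : K), v ≠ 0 → il v ∈ S →
      (∀ w, il w ∈ S → il (ζ * w) ∈ S) → ∀ w, il w ∈ S := by
    intro S v hv hvS hmul w
    have hsum : ∀ a b, il a ∈ S → il b ∈ S → il (a + b) ∈ S := fun a b ha hb => by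
      show S3599.il C (a + b) ∈ S
      rw [il_add]; exact mul_mem ha hb
    have key : ∀ k : K, ∀ w, il w ∈ S → il (k * w) ∈ S := by
      intro k
      induction k using AdjoinRoot.induction_on with
      | ih f =>
        induction f using Polynomial.induction_on' with
        | add a b ha hb =>
          intro w hw
          rw [map_add, add_mul]
          exact hsum _ _ (ha w hw) (hb w hw)
        | monomial n c =>
          intro w hw
          rw [← C_mul_X_pow_eq_monomial, map_mul, map_pow, AdjoinRoot.mk_X, AdjoinRoot.mk_C, mul_assoc]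
          have h1 : ∀ n : ℕ, il (ζ ^ n * w) ∈ S := by
            intro n
            induction n with
            | zero => simpa using hw
            | succ n ih => rw [pow_succ', mul_assoc]; exact hmul _ ih
          rw [← ZMod.natCast_zmod_val c, map_natCast]
          generalize c.val = m
          induction m with
          | zero =>
            rw [Nat.cast_zero, zero_mul, (hil1 0).2 rfl]; exact one_mem S
          | succ m ih => rw [Nat.cast_succ, add_mul, one_mul]; exact hsum _ _ ih (h1 n)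
    have := key (w / v) v hvS
    rwa [div_mul_cancel₀ _ hv] at this
  refine ⟨Fr C, inferInstance, inferInstance, ?_, ⟨il 1, ?_⟩, ⟨SemidirectProduct.inr ⟨u, Subgroup.mem_zpowers u⟩, ?_⟩, ?_, ?_, ?_, ?_, ?_⟩
  · intro x
    by_cases hx : x.right = 1
    · by_cases hx1 : x = 1
      · exact Or.inl (orderOf_eq_one_iff.2 hx1)
      · exact Or.inr (Or.inl (hordP x hx hx1))
    · exact Or.inr (Or.inr (hordQ x hx))
  · exact hordP _ (by simp [il]) (fun h => one_ne_zero ((hil1 1).1 h))
  · exact hordQ _ (by simpa using hu1)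
  · intro x y hx hy
    rw [hker x (hpowP x hx), hker y (hpowP y hy)]
    show il _ * il _ = il _ * il _
    simp only [il, ← il_add]
    rw [add_comm]
  · set x : Fr C := SemidirectProduct.inr ⟨u, Subgroup.mem_zpowers u⟩
    have hxQ : x ^ Q = 1 := by
      rw [← hordQ x (by simpa [x] using hu1)]; exact pow_orderOf_eq_one _
    refine ⟨x, il 1 * x * (il 1)⁻¹, hxQ, by rw [conj_pow, hxQ]; group, fun h => ?_⟩
    have h3 : il 1 * x * (il 1)⁻¹ = il (1 - ζ) * x := by
      have e : il 1 * x * (il 1)⁻¹ = il 1 * (x * il (-1) * x⁻¹) * x := by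
        have : (il 1)⁻¹ = il (-1) := (il_neg C 1).symm
        rw [this]; group
      rw [e, hconj]
      show S3599.il C 1 * S3599.il C _ * x = S3599.il C _ * x
      rw [← il_add]
      congr 2
      simp [x, u]
      ring
    rw [h3, ← mul_assoc, mul_left_inj] at h
    have h4 : il (ζ * (1 - ζ)) = il (1 - ζ) := by
      have := hconj x (1 - ζ)
      rw [h, mul_inv_cancel_right] at this
      simpa [x, u] using this.symm
    have h5 : ζ * (1 - ζ) = 1 - ζ := by
      exact (il_inj C).1 h4
    rcases mul_eq_zero.1 (show (ζ - 1) * (1 - ζ) = 0 by linear_combination h5) with h6 | h6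
    · exact hζ.ne_one hQ.one_lt (sub_eq_zero.1 h6)
    · exact hζ.ne_one hQ.one_lt (sub_eq_zero.1 h6).symm
  · intro H ⟨x, hx, hxo⟩ ⟨y, hy, hyo⟩
    have hxr : x.right = 1 := hpowP x (orderOf_dvd_iff_pow_eq_one.1 hxo.dvd)
    have hyr : y.right ≠ 1 := by
      intro h
      by_cases hy1 : y = 1
      · rw [hy1, orderOf_one] at hyo; exact hQ.ne_one hyo.symm
      · exact hPQ (by rw [← hordP y h hy1, hyo])
    have hzp : ∀ c : C, ∃ z : ℤ, y.right ^ z = c := fun c => by
      have : Fact (Nat.card C).Prime := ⟨by rw [Nat.card_zpowers, hu]; exact hQ⟩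
      exact Subgroup.mem_zpowers_iff.1 (mem_zpowers_of_prime_card (hp := this) rfl hyr)
    obtain ⟨z, hz⟩ := hzp ⟨u, Subgroup.mem_zpowers u⟩
    have hyz : (y ^ z).right = ⟨u, Subgroup.mem_zpowers u⟩ := by
      have := map_zpow (SemidirectProduct.rightHom : Fr C →* C) y z
      simpa [hz] using this
    have hall : ∀ w, il w ∈ H := by
      refine hgen H _ ?_ (hker x hxr ▸ hx) ?_
      · intro h
        rw [hker x hxr, (hil1 _).2 h, orderOf_one] at hxo
        exact hP.ne_one hxo.symm
      · intro w hw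
        have := hconj (y ^ z) w
        rw [hyz] at this
        rw [show il (ζ * w) = _ from this.symm]
        exact mul_mem (mul_mem (zpow_mem hy z) hw) (inv_mem (zpow_mem hy z))
    rw [eq_top_iff]
    rintro f -
    obtain ⟨z', hz'⟩ := hzp f.right
    have h1 : (f * (y ^ z')⁻¹).right = 1 := by
      have := map_zpow (SemidirectProduct.rightHom : Fr C →* C) y z'
      simp only [SemidirectProduct.rightHom_eq_right] at this
      simp [this, hz']
    have := mul_mem (hker _ h1 ▸ hall _ : f * (y ^ z')⁻¹ ∈ H) (zpow_mem hy z')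
    simpa using this
  · intro n hn
    by_cases hr : n.right = 1
    · refine ⟨SemidirectProduct.inr ⟨u, Subgroup.mem_zpowers u⟩, fun h => ?_⟩
      set x : Fr C := SemidirectProduct.inr ⟨u, Subgroup.mem_zpowers u⟩
      have h1 : x * n * x⁻¹ = n := by
        have h' : n * x = x * n := commutatorElement_eq_one_iff_mul_comm.1 h
        rw [← h', mul_inv_cancel_right]
      rw [hker n hr, hconj] at h1
      have h2 : ζ * Multiplicative.toAdd n.left = Multiplicative.toAdd n.left := by
        simpa [x, u] using (il_inj C).1 h1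
      have hv : Multiplicative.toAdd n.left ≠ 0 := fun e => hn (by rw [hker n hr, (hil1 _).2 e])
      exact hζ.ne_one hQ.one_lt ((mul_eq_right₀ hv).1 h2)
    · refine ⟨il 1, fun h => ?_⟩
      rw [hconj, mul_inv_eq_one] at h
      exact hCval _ hr (by simpa using (il_inj C).1 h)
  · intro N hN hN1 x hx
    obtain ⟨n, hn, hn1⟩ := N.bot_or_exists_ne_one.resolve_left hN1
    have hex : ∃ v, v ≠ 0 ∧ il v ∈ N := by
      by_cases hr : n.right = 1
      · exact ⟨_, fun h => hn1 (by rw [hker n hr, (hil1 _).2 h]), hker n hr ▸ hn⟩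
      · refine ⟨((n.right : Kˣ) : K) - 1, sub_ne_zero.2 (hCval _ hr), ?_⟩
        have h1 : n * il 1 * n⁻¹ * (il 1)⁻¹ ∈ N := by
          rw [show n * il 1 * n⁻¹ * (il 1)⁻¹ = n * (il 1 * n⁻¹ * (il 1)⁻¹) by group]
          exact mul_mem hn (hN.conj_mem _ (inv_mem hn) _)
        rw [hconj, mul_one] at h1
        convert h1 using 1
        show S3599.il C _ = S3599.il C _ * (S3599.il C _)⁻¹
        rw [← il_neg, ← il_add, sub_eq_add_neg]
    obtain ⟨v, hv, hvN⟩ := hex
    rw [hker x (hpowP x hx)]
    refine hgen N v hv hvN (fun w hw => ?_) _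
    have := hN.conj_mem _ hw (SemidirectProduct.inr ⟨u, Subgroup.mem_zpowers u⟩)
    rw [hconj] at this
    simpa [u] using this


/-- A finite group is critical with respect to a set Ω of natural numbers when its set of element orders is Ω while no proper section H/N (H a subgroup, N normal in H, (H, N) ≠ (whole group, 1)) has Ω as its set of element orders. Let s ≥ 1 and let p(j,0), p(j,1) (j < s) be 2s pairwise distinct primes, and let Ω be the set of all products c(0)·…·c(s−1) with each c(j) ∈ {1, p(j,0), p(j,1)}. Then there are 2^s pairwise non-isomorphic finite groups critical with respect to Ω. -/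
theorem result (s : ℕ) (hs : 1 ≤ s) (p : Fin s → Fin 2 → ℕ)
    (hp : ∀ j i, (p j i).Prime) (hinj : ∀ j i j' i', p j i = p j' i' → j = j' ∧ i = i') :
    ∃ (G : Fin (2 ^ s) → Type) (_ : ∀ a, Group (G a)) (_ : ∀ a, Fintype (G a)),
      (∀ a b, a ≠ b → ¬ Nonempty (G a ≃* G b)) ∧
      ∀ a, Set.range (orderOf : (G a) → ℕ) = {m : ℕ | ∃ c : Fin s → ℕ, (∀ j, c j = 1 ∨ c j = p j 0 ∨ c j = p j 1) ∧ m = ∏ j, c j} ∧
      ∀ (H : Subgroup (G a)) (N : Subgroup ↥H) [N.Normal], (H ≠ ⊤ ∨ N ≠ ⊥) → Set.range (orderOf : (↥H ⧸ N) → ℕ) ≠ {m : ℕ | ∃ c : Fin s → ℕ, (∀ j, c j = 1 ∨ c j = p j 0 ∨ c j = p j 1) ∧ m = ∏ j, c j} := by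
  classical
  let P : (Fin s → Fin 2) → Fin s → ℕ := fun e j => p j (e j)
  let Q : (Fin s → Fin 2) → Fin s → ℕ := fun e j => p j (1 - e j)
  have h12 : ∀ i : Fin 2, i ≠ 1 - i := by decide
  have hPQ : ∀ e j, P e j ≠ Q e j := fun e j h => h12 _ (hinj _ _ _ _ h).2
  choose F instG instF hord hexP hexQ hcomm hnc hgen hcen hnorm using
    fun (e : Fin s → Fin 2) (j : Fin s) => exists_frobenius (P e j) (Q e j) (hp _ _) (hp _ _) (hPQ e j)
  let E : Fin (2 ^ s) ≃ (Fin s → Fin 2) := finFunctionFinEquiv.symm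
  refine ⟨fun a => ∀ j, F (E a) j, fun a => inferInstance, fun a => Fintype.ofFinite _, ?_, ?_⟩
  · intro a b hab ⟨f⟩
    obtain ⟨j, hj⟩ : ∃ j, E a j ≠ E b j := by
      by_contra! h
      exact hab (E.injective (funext h))
    have hQb : Q (E b) j = P (E a) j := by
      have : ∀ i k : Fin 2, i ≠ k → 1 - k = i := by decide
      show p j (1 - E b j) = p j (E a j)
      rw [this _ _ hj]
    obtain ⟨x, y, hx, hy, hxy⟩ := hnc (E b) j
    rw [hQb] at hx hy
    have hpow : ∀ z : F (E b) j, z ^ P (E a) j = 1 →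
        ∀ k, (f.symm (Pi.mulSingle j z)) k ^ P (E a) j = 1 := by
      intro z hz k
      have := congrArg (fun w : F (E b) j => (f.symm (Pi.mulSingle j w)) k) hz
      simpa [Pi.mulSingle_pow] using this
    have hc : f.symm (Pi.mulSingle j x) * f.symm (Pi.mulSingle j y) =
        f.symm (Pi.mulSingle j y) * f.symm (Pi.mulSingle j x) := by
      funext k
      by_cases hk : k = j
      · subst hk
        exact hcomm _ _ _ _ (hpow x hx k) (hpow y hy k)
      · have h1 : ∀ z : F (E b) j, z ^ P (E a) j = 1 → (f.symm (Pi.mulSingle j z)) k = 1 := by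
          intro z hz
          have hd := orderOf_dvd_of_pow_eq_one (hpow z hz k)
          rcases hord (E a) k ((f.symm (Pi.mulSingle j z)) k) with h | h | h
          · exact orderOf_eq_one_iff.1 h
          · rw [h] at hd
            exact absurd (hinj _ _ _ _ ((Nat.prime_dvd_prime_iff_eq (hp _ _) (hp _ _)).1 hd)).1 hk
          · rw [h] at hd
            exact absurd (hinj _ _ _ _ ((Nat.prime_dvd_prime_iff_eq (hp _ _) (hp _ _)).1 hd)).1 hk
        simp [h1 x hx, h1 y hy]
    rw [← map_mul, ← map_mul, f.symm.injective.eq_iff] at hc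
    exact hxy (by simpa using congrFun hc j)
  intro a
  set e := E a with he
  have hcop : ∀ (x : ∀ j, F e j), Pairwise fun i k => Nat.Coprime (orderOf (x i)) (orderOf (x k)) := by
    intro x i k hik
    have hne : ∀ c d, p i c ≠ p k d := fun c d h => hik (hinj _ _ _ _ h).1
    rcases hord e i (x i) with h | h | h <;> rcases hord e k (x k) with h' | h' | h' <;> rw [h, h'] <;>
      first
        | exact Nat.coprime_one_left _
        | exact Nat.coprime_one_right _
        | exact (Nat.coprime_primes (hp _ _) (hp _ _)).2 (hne _ _)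
  have horder : ∀ x : ∀ j, F e j, orderOf x = ∏ j, orderOf (x j) := by
    intro x
    apply Nat.dvd_antisymm
    · refine orderOf_dvd_of_pow_eq_one (funext fun j => ?_)
      rw [Pi.pow_apply, Pi.one_apply, ← orderOf_dvd_iff_pow_eq_one]
      exact Finset.dvd_prod_of_mem _ (Finset.mem_univ j)
    · refine Finset.prod_dvd_of_isRelPrime (fun i _ k _ hik => ?_) fun j _ => orderOf_map_dvd (Pi.evalMonoidHom _ j) x
      exact Nat.coprime_iff_isRelPrime.1 (hcop x hik)
  have hcase : ∀ i k : Fin 2, k = i ∨ k = 1 - i := by decide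
  have hrange : Set.range (orderOf : (∀ j, F e j) → ℕ) =
      {m : ℕ | ∃ c : Fin s → ℕ, (∀ j, c j = 1 ∨ c j = p j 0 ∨ c j = p j 1) ∧ m = ∏ j, c j} := by
    ext m
    constructor
    · rintro ⟨x, rfl⟩
      refine ⟨fun j => orderOf (x j), fun j => ?_, horder x⟩
      have h2 : ∀ i : Fin 2, i = 0 ∨ i = 1 := by decide
      rcases hord e j (x j) with h | h | h
      · exact Or.inl h
      · rcases h2 (e j) with h' | h' <;> simp [P, h'] at h <;> simp [h]
      · rcases h2 (1 - e j) with h' | h' <;> simp [Q, h'] at h <;> simp [h]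
    · rintro ⟨c, hc, rfl⟩
      have : ∀ j, ∃ z : F e j, orderOf z = c j := by
        intro j
        have h3 : ∀ k, ∃ z : F e j, orderOf z = p j k := by
          intro k
          rcases hcase (e j) k with h | h <;> subst h
          · exact hexP e j
          · exact hexQ e j
        rcases hc j with h | h | h
        · exact ⟨1, by rw [orderOf_one, h]⟩
        · rw [h]; exact h3 0
        · rw [h]; exact h3 1
      choose z hz using this
      exact ⟨z, by rw [horder]; exact Finset.prod_congr rfl fun j _ => hz j⟩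
  refine ⟨hrange, fun H N _ hHN hspec => ?_⟩
  have hel : ∀ j k, ∃ x : ↥H, orderOf ((QuotientGroup.mk' N) x) = p j k ∧
      ∀ z : ℕ, orderOf ((QuotientGroup.mk' N) (x ^ z)) ∣ p j k := by
    intro j k
    have hm : p j k ∈ Set.range (orderOf : (↥H ⧸ N) → ℕ) := by
      rw [hspec]
      refine ⟨fun l => if l = j then p j k else 1, fun l => ?_, ?_⟩
      · by_cases hl : l = j
        · subst hl
          rcases (show ∀ i : Fin 2, i = 0 ∨ i = 1 by decide) k with h | h <;> simp [h]
        · simp [hl]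
      · rw [Fintype.prod_ite_eq']
    obtain ⟨y, hy⟩ := hm
    obtain ⟨x, rfl⟩ := QuotientGroup.mk'_surjective N y
    exact ⟨x, hy, fun z => by rw [map_pow]; exact (orderOf_pow_dvd z).trans hy.dvd⟩
  have hsingle : ∀ (x : ∀ j, F e j) j k, orderOf x = p j k → ∀ i, i ≠ j → x i = 1 := by
    intro x j k hx i hij
    have hd : orderOf (x i) ∣ p j k := hx ▸ orderOf_map_dvd (Pi.evalMonoidHom _ i) x
    rcases hord e i (x i) with h | h | h
    · exact orderOf_eq_one_iff.1 h
    · rw [h] at hd
      exact absurd (hinj _ _ _ _ ((Nat.prime_dvd_prime_iff_eq (hp _ _) (hp _ _)).1 hd)).1 hij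
    · rw [h] at hd
      exact absurd (hinj _ _ _ _ ((Nat.prime_dvd_prime_iff_eq (hp _ _) (hp _ _)).1 hd)).1 hij
  have hlift : ∀ j k, ∃ z : F e j, Pi.mulSingle j z ∈ H ∧ orderOf z = p j k := by
    intro j k
    obtain ⟨x, hx, -⟩ := hel j k
    obtain ⟨m, hm⟩ : ∃ m : ℕ, orderOf (x ^ m) = p j k := by
      have hd : p j k ∣ orderOf x := hx ▸ orderOf_map_dvd _ x
      refine ⟨orderOf x / p j k, ?_⟩
      rw [orderOf_pow_of_dvd (fun h => ?_) (Nat.div_dvd_of_dvd hd), Nat.div_div_self hd (orderOf_pos x).ne']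
      have := Nat.div_pos (Nat.le_of_dvd (orderOf_pos x) hd) (hp j k).pos
      omega
    have hm' : orderOf ((x ^ m : ↥H) : ∀ j, F e j) = p j k := (Subgroup.orderOf_coe _).trans hm
    refine ⟨((x ^ m : ↥H) : ∀ j, F e j) j, ?_, ?_⟩
    · have : Pi.mulSingle j (((x ^ m : ↥H) : ∀ j, F e j) j) = ((x ^ m : ↥H) : ∀ j, F e j) := by
        funext i
        by_cases hij : i = j
        · subst hij; simp
        · simp [hij, hsingle _ j k hm' i hij]
      rw [this]; exact (x ^ m).2
    · rw [← hm', horder, Finset.prod_eq_single j]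
      · intro i _ hij
        rw [hsingle _ j k hm' i hij, orderOf_one]
      · simp
  have hHtop : H = ⊤ := by
    rw [eq_top_iff]
    rintro x -
    refine Subgroup.pi_mem_of_mulSingle_mem x fun j => ?_
    have := hgen e j (H.comap (MonoidHom.mulSingle (fun j => F e j) j)) (hlift j (e j)) (hlift j (1 - e j))
    have hmem : x j ∈ H.comap (MonoidHom.mulSingle (fun j => F e j) j) := by
      rw [this]; exact Subgroup.mem_top _
    exact hmem
  obtain ⟨n, hn, hn1⟩ := N.bot_or_exists_ne_one.resolve_left (hHN.resolve_left (not_not.2 hHtop))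
  obtain ⟨j, hj⟩ : ∃ j, (n : ∀ j, F e j) j ≠ 1 := by
    by_contra! h
    exact hn1 (Subtype.ext (funext h))
  let ι : F e j →* ↥H :=
    (MonoidHom.mulSingle (fun j => F e j) j).codRestrict H fun z => hHtop ▸ Subgroup.mem_top _
  obtain ⟨w, hw⟩ := hcen e j _ hj
  have hNj : N.comap ι ≠ ⊥ := by
    intro h
    apply hw
    have hmem : n * ι w * n⁻¹ * (ι w)⁻¹ ∈ N := by
      rw [show n * ι w * n⁻¹ * (ι w)⁻¹ = n * (ι w * n⁻¹ * (ι w)⁻¹) by group]
      exact mul_mem hn (Subgroup.Normal.conj_mem ‹N.Normal› _ (inv_mem hn) _)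
    have heq : ι ((n : ∀ j, F e j) j * w * ((n : ∀ j, F e j) j)⁻¹ * w⁻¹) = n * ι w * n⁻¹ * (ι w)⁻¹ := by
      apply Subtype.ext
      funext i
      show Pi.mulSingle j _ i = (n : ∀ j, F e j) i * Pi.mulSingle j w i *
        ((n : ∀ j, F e j) i)⁻¹ * (Pi.mulSingle j w i)⁻¹
      by_cases hij : i = j
      · subst hij; simp
      · simp [hij]
    rw [← heq, ← Subgroup.mem_comap, h, Subgroup.mem_bot] at hmem
    exact hmem
  obtain ⟨x, hx, hxz⟩ := hel j (e j)
  have hkill : ∀ y : ↥H, y ^ P e j = 1 → y ∈ N := by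
    intro y hy
    have hy' : (y : ∀ j, F e j) ^ P e j = 1 := congrArg Subtype.val hy
    by_cases hy1 : y = 1
    · rw [hy1]; exact one_mem N
    have : Fact (P e j).Prime := ⟨hp _ _⟩
    have hyo : orderOf (y : ∀ j, F e j) = p j (e j) :=
      orderOf_eq_prime hy' fun h => hy1 (Subtype.ext h)
    have hyeq : ι ((y : ∀ j, F e j) j) = y := by
      apply Subtype.ext
      funext i
      show Pi.mulSingle j _ i = _
      by_cases hij : i = j
      · subst hij; simp
      · simp [hij, hsingle _ j _ hyo i hij]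
    rw [← hyeq]
    exact hnorm e j _ inferInstance hNj _ (congrFun hy' j)
  have hd : P e j ∣ orderOf x := by
    show p j (e j) ∣ _
    rw [← hx]; exact orderOf_map_dvd _ x
  obtain ⟨k, hk⟩ := hd
  have hxk : x ^ k ∈ N := hkill _ (by rw [← pow_mul, mul_comm, ← hk, pow_orderOf_eq_one])
  have : orderOf ((QuotientGroup.mk' N) x) ∣ k := by
    apply orderOf_dvd_of_pow_eq_one
    rw [← map_pow]
    exact (QuotientGroup.eq_one_iff _).2 hxk
  rw [hx] at this
  obtain ⟨l, hl⟩ := this
  have hcontra : (P e j) * (P e j) ∣ orderOf (x : ∀ j, F e j) := by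
    rw [Subgroup.orderOf_coe, hk, hl]
    exact ⟨l, by show _ = p j (e j) * p j (e j) * l; ring⟩
  rw [horder] at hcontra
  have hsq : Squarefree (∏ i, orderOf ((x : ∀ j, F e j) i)) := by
    refine Finset.squarefree_prod_of_pairwise_isCoprime ?_ ?_
    · intro i _ k _ hik
      exact Nat.coprime_iff_isRelPrime.1 (hcop _ hik)
    · intro i _
      rcases hord e i ((x : ∀ j, F e j) i) with h | h | h <;> rw [h]
      · exact squarefree_one
      · exact (hp _ _).squarefree
      · exact (hp _ _).squarefree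
  exact (hp j (e j)).one_lt.ne' (Nat.isUnit_iff.1 (hsq _ hcontra))

end Cfsg.Agent.S3599
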