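import Cfsg.Statements.S3619
-- import your own Cfsg.Agent.* helpers here

set_option autoImplicit false
open Cfsg
open scoped Pointwise

namespace Cfsg.Agent.S3619

/-- Let G act faithfully on a finite set in such a way that every non-trivial normal subgroup of G is transitive (G is quasiprimitive). Let Γ be a subset with more than one point and not the whole set, such that the pointwise stabilizer of the complement of Γ acts transitively on Γ (a Jordan set). If that pointwise stabilizer acts primitively on Γ, then G is k-fold transitive where k is one more than the number of points outside Γ (the Jordan set is a trivial one). -/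
theorem result {G Ω : Type*} [Group G] [Finite G] [MulAction G Ω] [FaithfulSMul G Ω] [Finite Ω]
    (hqp : ∀ N : Subgroup G, N.Normal → N ≠ ⊥ → MulAction.IsPretransitive ↥N Ω)
    (Γ : Set Ω) (hΓ1 : 1 < Γ.ncard) (hΓ2 : Γ.ncard < Nat.card Ω)
    (hJ : MulAction.IsPretransitive ↥(fixingSubgroup G Γᶜ) ↥(SubMulAction.ofFixingSubgroup G Γᶜ))
    (hJp : MulAction.IsPreprimitive ↥(fixingSubgroup G Γᶜ) ↥(SubMulAction.ofFixingSubgroup G Γᶜ)) :
    MulAction.IsMultiplyPretransitive G Ω (Nat.card Ω - Γ.ncard + 1) := by
  have hn : Γᶜ.ncard + Γ.ncard = Nat.card Ω := by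
    rw [add_comm]; exact Set.ncard_add_ncard_compl Γ
  obtain ⟨a, ha, b, hb, hab⟩ := (Set.one_lt_ncard).1 hΓ1
  -- the subgroup fixing the complement is non-trivial
  obtain ⟨⟨h₀, hh₀⟩, hh₀a⟩ := hJ.exists_smul_eq
    (⟨a, fun h => h ha⟩ : SubMulAction.ofFixingSubgroup G Γᶜ) ⟨b, fun h => h hb⟩
  have hh₀ab : h₀ • a = b := congrArg Subtype.val hh₀a
  have hh₀1 : h₀ ≠ 1 := by
    intro h; apply hab; rw [← hh₀ab, h, one_smul]
  have htrans : MulAction.IsPretransitive G Ω := by
    have hne : (⊤ : Subgroup G) ≠ ⊥ := fun h => hh₀1 (by
      have : h₀ ∈ (⊤ : Subgroup G) := Subgroup.mem_top _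
      rwa [h, Subgroup.mem_bot] at this)
    have := hqp ⊤ inferInstance hne
    exact ⟨fun x y => (this.exists_smul_eq x y).elim fun g hg => ⟨(g : G), hg⟩⟩
  have hprim : MulAction.IsPreprimitive G Ω := by
    refine { toIsPretransitive := htrans, isTrivialBlock_of_isBlock := fun {B} hB => ?_ }
    by_contra hnt
    rw [MulAction.IsTrivialBlock, not_or] at hnt
    obtain ⟨hsub, huniv⟩ := hnt
    rw [Set.not_subsingleton_iff] at hsub
    -- kernel of the action on the translates of `B`
    let K : Subgroup G :=
      { carrier := {n | ∀ g : G, n • g • B = g • B}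
        one_mem' := fun g => one_smul _ _
        mul_mem' := fun {x y} hx hy g => by rw [mul_smul, hy g, hx g]
        inv_mem' := fun {x} hx g => by
          conv_lhs => rw [← hx g]
          rw [inv_smul_smul] }
    have hKn : K.Normal := ⟨fun n hn g k => by
      have := hn (g⁻¹ * k)
      rw [mul_smul] at this
      rw [mul_smul, mul_smul, this, smul_inv_smul]⟩
    have hKbot : K = ⊥ := by
      by_contra hK
      have := hqp K hKn hK
      apply huniv
      rw [Set.eq_univ_iff_forall]
      intro x
      obtain ⟨y, hy⟩ := hsub.nonempty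
      obtain ⟨⟨n, hn⟩, hnx⟩ := this.exists_smul_eq y x
      have h1 := hn 1
      rw [one_smul] at h1
      rw [← h1]
      exact ⟨y, hy, hnx⟩
    have hle : fixingSubgroup G Γᶜ ≤ K := by
      intro h hh g
      have hblock : MulAction.IsBlock G (g • B) := hB.translate g
      by_cases hsΓ : g • B ⊆ Γ
      · -- then `g • B = Γ`
        have hblk : MulAction.IsBlock (fixingSubgroup G Γᶜ)
            ((fun x : SubMulAction.ofFixingSubgroup G Γᶜ => (x : Ω)) ⁻¹' (g • B)) :=
          (hblock.subgroup (H := fixingSubgroup G Γᶜ)).subtype_val_preimage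
        rcases hJp.isTrivialBlock_of_isBlock hblk with h1 | h1
        · exfalso
          obtain ⟨x, hx, y, hy, hxy⟩ := hsub
          have hx' : g • x ∈ g • B := Set.smul_mem_smul_set hx
          have hy' : g • y ∈ g • B := Set.smul_mem_smul_set hy
          have := h1 (x := ⟨g • x, fun h => h (hsΓ hx')⟩) hx' (y := ⟨g • y, fun h => h (hsΓ hy')⟩) hy'
          exact hxy (MulAction.injective g (congrArg Subtype.val this))
        · have hΓ : g • B = Γ := by
            refine subset_antisymm hsΓ fun x hx => ?_
            have : (⟨x, fun h => h hx⟩ : SubMulAction.ofFixingSubgroup G Γᶜ) ∈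
                ((fun x : SubMulAction.ofFixingSubgroup G Γᶜ => (x : Ω)) ⁻¹' (g • B)) := by
              rw [h1]; trivial
            exact this
          rw [hΓ]
          ext x
          rw [Set.mem_smul_set_iff_inv_smul_mem]
          have hinv := (mem_fixingSubgroup_iff G).1 ((fixingSubgroup G Γᶜ).inv_mem hh)
          have hfix := (mem_fixingSubgroup_iff G).1 hh
          constructor
          · intro hx; by_contra hxc
            exact hxc (by rwa [hinv x hxc] at hx)
          · intro hx; by_contra hxc
            exact hxc (by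
              have := hfix _ hxc
              rw [smul_inv_smul] at this
              rwa [← this])
      · obtain ⟨x, hx, hxc⟩ := Set.not_subset.1 hsΓ
        refine hblock.smul_eq_of_mem hx ?_
        rw [(mem_fixingSubgroup_iff G).1 hh x hxc]
        exact hx
    have := hle hh₀
    rw [hKbot, Subgroup.mem_bot] at this
    exact hh₀1 this
  have hpos : 0 < Γᶜ.ncard := by omega
  have := hprim.isMultiplyPreprimitive (s := Γᶜ) (n := Γᶜ.ncard - 1) (by omega) (by omega) hJp
  have h2 := this.isMultiplyPretransitive
  have heq : Γᶜ.ncard - 1 + 2 = Nat.card Ω - Γ.ncard + 1 := by omega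
  rw [← heq]
  exact h2


end Cfsg.Agent.S3619
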