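import Cfsg.Statements.S3620
import Cfsg.Agent.Marg54.Quasi

set_option autoImplicit false
open Cfsg

namespace Cfsg.Agent.S3620


/-- Let G act faithfully on a finite set in such a way that every non-trivial normal subgroup of G is transitive (G is quasiprimitive). Let Γ be a subset with more than one point and fewer than half of the points, such that the pointwise stabilizer of the complement of Γ acts transitively on Γ. Then G induces every even permutation of the set (G is the alternating or the symmetric group). -/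
theorem result {G Ω : Type*} [Group G] [Finite G] [MulAction G Ω] [FaithfulSMul G Ω] [Fintype Ω] [DecidableEq Ω]
    (hqp : ∀ N : Subgroup G, N.Normal → N ≠ ⊥ → MulAction.IsPretransitive ↥N Ω)
    (Γ : Set Ω) (hΓ1 : 1 < Γ.ncard) (hΓ2 : 2 * Γ.ncard < Fintype.card Ω)
    (hJ : MulAction.IsPretransitive ↥(fixingSubgroup G Γᶜ) ↥(SubMulAction.ofFixingSubgroup G Γᶜ)) :
    ∀ σ : Equiv.Perm Ω, Equiv.Perm.sign σ = 1 → ∃ x : G, (MulAction.toPerm x : Equiv.Perm Ω) = σ := by
  classical
  have hH : ∀ a ∈ Γ.toFinset, ∀ b ∈ Γ.toFinset, ∃ g : G, (∀ z ∉ Γ.toFinset, g • z = z) ∧ g • a = b := by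
    intro a ha b hb
    rw [Set.mem_toFinset] at ha hb
    obtain ⟨⟨g, hg⟩, hga⟩ := hJ.exists_smul_eq
      (⟨a, fun h => h ha⟩ : SubMulAction.ofFixingSubgroup G Γᶜ) ⟨b, fun h => h hb⟩
    exact ⟨g, fun z hz => (mem_fixingSubgroup_iff G).mp hg z fun h => hz (Set.mem_toFinset.mpr h),
      congrArg Subtype.val hga⟩
  rw [Set.ncard_eq_toFinset_card'] at hΓ1 hΓ2
  exact CfsgLib.Marg54.marggraf_primitive
    (CfsgLib.Marg54.isPreprimitive_of_quasiprimitive hqp Γ.toFinset hΓ1 hΓ2 hH) Γ.toFinset hΓ1 hΓ2 hH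

end Cfsg.Agent.S3620
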