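import Cfsg.Statements.S3622
-- import your own Cfsg.Agent.* helpers here

set_option autoImplicit false
open Cfsg

namespace Cfsg.Agent.S3622

/-- Let G be a group of permutations of a finite set, m ≥ 2, and α a point. Say a permutation σ is k-approximated by a set S of permutations if for every k points there is a member of S agreeing with σ at those points. Suppose every permutation that is (m-1)-approximated by the stabilizer of α in G lies in that stabilizer (the stabilizer is (m-1)-closed). Then every permutation that is m-approximated by G lies in G (G is m-closed). -/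
theorem result {Ω : Type*} [Finite Ω] (G : Subgroup (Equiv.Perm Ω)) (m : ℕ) (hm : 2 ≤ m) (α : Ω)
    (hclosed : ∀ σ : Equiv.Perm Ω,
      (∀ t : Fin (m - 1) → Ω, ∃ g ∈ MulAction.stabilizer ↥G α, ∀ i, (g : Equiv.Perm Ω) (t i) = σ (t i)) →
      σ ∈ G ∧ σ α = α) :
    ∀ σ : Equiv.Perm Ω, (∀ t : Fin m → Ω, ∃ g ∈ G, ∀ i, g (t i) = σ (t i)) → σ ∈ G := by
  intro σ hσ
  obtain ⟨g, hg, hgt⟩ := hσ (fun _ => α)
  have hgα : g α = σ α := hgt ⟨0, by omega⟩
  suffices g⁻¹ * σ ∈ G by simpa using G.mul_mem hg this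
  refine (hclosed (g⁻¹ * σ) ?_).1
  intro t
  let t' : Fin m → Ω := fun i => if h : (i : ℕ) < m - 1 then t ⟨i, h⟩ else α
  obtain ⟨k, hk, hkt⟩ := hσ t'
  have hkα : k α = σ α := by
    have := hkt ⟨m - 1, by omega⟩
    simpa [t'] using this
  refine ⟨⟨g⁻¹ * k, G.mul_mem (G.inv_mem hg) hk⟩, ?_, ?_⟩
  · show (g⁻¹ * k) α = α
    simp [Equiv.Perm.mul_apply, hkα, ← hgα]
  · intro i
    have := hkt ⟨i, by omega⟩
    simp [t'] at this
    simp [Equiv.Perm.mul_apply, this]


end Cfsg.Agent.S3622
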