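import Cfsg.Statements.S3627
import Cfsg.Agent.JankoOne.Centralizer

set_option autoImplicit false
open Cfsg

namespace Cfsg.Agent.S3627

open CfsgLib.JankoOne

/-- the five primes -/
def pr : Fin 5 → ℕ := ![3, 5, 7, 11, 19]

instance instNeZeroPr (i : Fin 5) : NeZero (pr i) := ⟨by fin_cases i <;> decide⟩

/-- zero-sum functions on each cycle, one copy for each index -/
def Vsub (n : ℕ) : AddSubgroup (Fin n → (i : Fin 5) → ZMod (pr i) → ZMod 2) where
  carrier := {v | ∀ a i, ∑ j, v a i j = 0}
  zero_mem' := by intro a i; simp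
  add_mem' := by
    intro v w hv hw a i
    simp [Finset.sum_add_distrib, hv a i, hw a i]
  neg_mem' := by
    intro v hv a i
    simp [hv a i]

theorem pr_dvd : ∀ i, pr i ∣ 21945 := by decide +kernel

/-- reduction to one cycle -/
def proj (i : Fin 5) : ZMod 21945 →+* ZMod (pr i) := ZMod.castHom (pr_dvd i) _

/-- shifting by an element of the cyclic group -/
def shift (n : ℕ) (c : ZMod 21945) : Vsub n ≃+ Vsub n where
  toFun v := ⟨fun a i j => v.1 a i (j + proj i c), fun a i => by
    rw [← v.2 a i]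
    exact Equiv.sum_comp (Equiv.addRight (proj i c)) (fun j => v.1 a i j)⟩
  invFun v := ⟨fun a i j => v.1 a i (j - proj i c), fun a i => by
    rw [← v.2 a i]
    exact Equiv.sum_comp (Equiv.subRight (proj i c)) (fun j => v.1 a i j)⟩
  left_inv v := Subtype.ext (funext fun a => funext fun i => funext fun j => by simp)
  right_inv v := Subtype.ext (funext fun a => funext fun i => funext fun j => by simp)
  map_add' v w := rfl

/-- the action as multiplicative automorphisms -/
def act (n : ℕ) : Multiplicative (ZMod 21945) →* MulAut (Multiplicative (Vsub n)) where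
  toFun c := (shift n c.toAdd).toMultiplicative
  map_one' := MulEquiv.ext fun v => Multiplicative.toAdd.injective <| Subtype.ext <|
    funext fun a => funext fun i => funext fun j => by
      show v.toAdd.1 a i (j + proj i 0) = v.toAdd.1 a i j
      rw [map_zero, add_zero]
  map_mul' c d := MulEquiv.ext fun v => Multiplicative.toAdd.injective <| Subtype.ext <|
    funext fun a => funext fun i => funext fun j => by
      show v.toAdd.1 a i (j + proj i (c.toAdd + d.toAdd))
        = v.toAdd.1 a i (j + proj i c.toAdd + proj i d.toAdd)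
      rw [map_add, add_assoc]

/-- the witness group -/
abbrev W (n : ℕ) : Type := Multiplicative (Vsub n) ⋊[act n] Multiplicative (ZMod 21945)

theorem zmod_two_smul_odd {p : ℕ} (hp : p % 2 = 1) (S : ZMod 2) : p • S = S := by
  rw [nsmul_eq_mul, ← ZMod.natCast_mod p 2, hp, Nat.cast_one, one_mul]

theorem pr_odd : ∀ i, pr i % 2 = 1 := by decide +kernel

theorem right_pow {n : ℕ} (x : W n) (k : ℕ) : (x ^ k).right = x.right ^ k :=
  map_pow SemidirectProduct.rightHom x k

theorem left_pow {n : ℕ} (x : W n) (k : ℕ) (a : Fin n) (i : Fin 5) (j : ZMod (pr i)) :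
    (x ^ k).left.toAdd.1 a i j
      = ∑ m ∈ Finset.range k, x.left.toAdd.1 a i (j + proj i ((m : ZMod 21945) * x.right.toAdd)) := by
  induction k with
  | zero => simp
  | succ k ih =>
    rw [pow_succ, Finset.sum_range_succ, SemidirectProduct.mul_left, ← ih, right_pow]
    show (x ^ k).left.toAdd.1 a i j + x.left.toAdd.1 a i (j + proj i ((x.right ^ k).toAdd)) = _
    rw [toAdd_pow, nsmul_eq_mul]

theorem sum_range_zmod {M : Type*} [AddCommMonoid M] (N : ℕ) [NeZero N] (f : ZMod N → M) :
    ∑ m ∈ Finset.range N, f (m : ZMod N) = ∑ x : ZMod N, f x :=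
  Finset.sum_bij' (fun m _ => (m : ZMod N)) (fun x _ => x.val)
    (fun _ _ => Finset.mem_univ _) (fun x _ => Finset.mem_range.2 x.val_lt)
    (fun m hm => ZMod.val_natCast_of_lt (Finset.mem_range.1 hm))
    (fun x _ => ZMod.natCast_zmod_val x) (fun _ _ => rfl)

theorem pow_top {n : ℕ} (x : W n) (h : orderOf x.right = 21945) : x ^ 21945 = 1 := by
  refine SemidirectProduct.ext (Multiplicative.toAdd.injective <| Subtype.ext <| funext fun a =>
    funext fun i => funext fun j => ?_) ?_
  swap
  · rw [right_pow]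
    exact (orderOf_dvd_iff_pow_eq_one.1 (dvd_of_eq h)).trans SemidirectProduct.one_right.symm
  rw [left_pow]
  set f : ZMod (pr i) → ZMod 2 := fun j => x.left.toAdd.1 a i j with hf
  set c := x.right.toAdd with hc
  have hinj : Function.Injective fun z : ZMod 21945 => z * c := fun z z' e => by
    have e' : z.val • c = z'.val • c := by
      simp only [nsmul_eq_mul, ZMod.natCast_zmod_val]
      exact e
    have e'' : x.right ^ z.val = x.right ^ z'.val := Multiplicative.toAdd.injective e'
    rw [pow_eq_pow_iff_modEq, h] at e''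
    have := (ZMod.natCast_eq_natCast_iff _ _ _).2 e''
    simpa only [ZMod.natCast_zmod_val] using this
  have hS : ∀ j, ∑ z : ZMod 21945, f (j + proj i (z * c)) = ∑ z : ZMod 21945, f (j + proj i z) :=
    fun j => (Finite.injective_iff_bijective.1 hinj).sum_comp (fun z => f (j + proj i z))
  rw [sum_range_zmod 21945 (fun z => f (j + proj i (z * c))), hS]
  set S : ZMod (pr i) → ZMod 2 := fun j => ∑ z : ZMod 21945, f (j + proj i z) with hSdef
  show S j = 0
  have hconst : ∀ j, S j = S 0 := by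
    intro j
    obtain ⟨y, rfl⟩ := ZMod.castHom_surjective (pr_dvd i) j
    show ∑ z : ZMod 21945, f (proj i y + proj i z) = ∑ z : ZMod 21945, f (0 + proj i z)
    simp only [← map_add, zero_add]
    exact Equiv.sum_comp (Equiv.addLeft y) (fun z => f (proj i z))
  have hsum : ∑ j, S j = 0 := by
    rw [Finset.sum_comm]
    refine Finset.sum_eq_zero fun z _ => ?_
    rw [show ∑ j, f (j + proj i z) = ∑ j, f j from Equiv.sum_comp (Equiv.addRight (proj i z)) f]
    exact x.left.toAdd.2 a i
  rw [Finset.sum_congr rfl (fun j _ => hconst j), Finset.sum_const, Finset.card_univ, ZMod.card,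
    zmod_two_smul_odd (pr_odd i)] at hsum
  rw [hconst j, hsum]

theorem right_pow_eq_one (c : Multiplicative (ZMod 21945)) : c ^ 21945 = 1 := by
  apply Multiplicative.toAdd.injective
  rw [toAdd_pow, nsmul_eq_mul, ZMod.natCast_self, zero_mul]
  rfl

theorem left_sq {n : ℕ} (u : Multiplicative (Vsub n)) : u ^ 2 = 1 :=
  Multiplicative.toAdd.injective <| Subtype.ext <| funext fun a => funext fun i => funext fun j => by
    show (2 • u.toAdd).1 a i j = 0
    simp only [two_nsmul, AddSubgroup.coe_add, Pi.add_apply]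
    exact CharTwo.add_self_eq_zero _

theorem order_W {n : ℕ} (x : W n) : orderOf x ∣ 43890 ∧ orderOf x ≠ 43890 := by
  have hd : orderOf x ∣ 2 * orderOf x.right := by
    refine orderOf_dvd_of_pow_eq_one ?_
    rw [mul_comm, pow_mul]
    have hr : (x ^ orderOf x.right).right = 1 := by rw [right_pow, pow_orderOf_eq_one]
    generalize x ^ orderOf x.right = y at hr
    have hy : y = SemidirectProduct.inl y.left := SemidirectProduct.ext rfl (by simpa using hr)
    rw [hy, ← map_pow, left_sq, map_one]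
  have hr : orderOf x.right ∣ 21945 := orderOf_dvd_of_pow_eq_one (right_pow_eq_one _)
  refine ⟨hd.trans (Nat.mul_dvd_mul_left 2 hr), fun e => ?_⟩
  rw [e] at hd
  have e2 : orderOf x.right = 21945 :=
    Nat.dvd_antisymm hr ((Nat.mul_dvd_mul_iff_left (a := 2) (by norm_num)).1 hd)
  have := orderOf_dvd_of_pow_eq_one (pow_top x e2)
  rw [e] at this
  exact absurd (Nat.le_of_dvd (by norm_num) this) (by norm_num)

theorem orderOf_gen {m : ℕ} (hm : m ∣ 21945) :
    orderOf (Multiplicative.ofAdd ((21945 / m : ℕ) : ZMod 21945)) = m := by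
  rw [orderOf_ofAdd_eq_addOrderOf, ZMod.addOrderOf_coe _ (by norm_num : (21945 : ℕ) ≠ 0),
    Nat.gcd_eq_right (Nat.div_dvd_of_dvd hm), Nat.div_div_self hm (by norm_num)]

/-- an element of the witness supported in one cycle -/
def bump (n : ℕ) (a : Fin n) (i : Fin 5) : Vsub n :=
  ⟨fun a' i' j => if a' = a ∧ i' = i ∧ (j = 0 ∨ j = 1) then 1 else 0, fun a' i' => by
    by_cases h : a' = a ∧ i' = i
    · obtain ⟨rfl, rfl⟩ := h
      simp only [true_and]
      fin_cases i' <;> decide +kernel
    · refine Finset.sum_eq_zero fun j _ => if_neg fun hh => h ⟨hh.1, hh.2.1⟩⟩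

theorem bump_ne (n : ℕ) (a : Fin n) (i : Fin 5) : bump n a i ≠ 0 := fun e => by
  have := congrFun (congrFun (congrFun (congrArg Subtype.val e) a) i) 0
  simp [bump] at this

theorem mem_orders {n d : ℕ} (a : Fin n) (hd : d ∣ 43890) (hne : d ≠ 43890) :
    ∃ x : W n, orderOf x = d := by
  by_cases h2 : 2 ∣ d
  · obtain ⟨m, rfl⟩ := h2
    have hm : m ∣ 21945 := (Nat.mul_dvd_mul_iff_left (a := 2) (by norm_num)).1 hd
    have hm' : m ≠ 21945 := fun e => hne (by rw [e])
    obtain ⟨i, hi⟩ : ∃ i, ¬ pr i ∣ m := by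
      by_contra hall
      simp only [not_exists, not_not] at hall
      have : Nat.lcm 3 (Nat.lcm 5 (Nat.lcm 7 (Nat.lcm 11 19))) ∣ m :=
        Nat.lcm_dvd (hall 0) (Nat.lcm_dvd (hall 1) (Nat.lcm_dvd (hall 2)
          (Nat.lcm_dvd (hall 3) (hall 4))))
      have e : Nat.lcm 3 (Nat.lcm 5 (Nat.lcm 7 (Nat.lcm 11 19))) = 21945 := by decide +kernel
      exact hm' (Nat.dvd_antisymm hm (e ▸ this))
    have hp : pr i ∣ 21945 / m := by
      have h : pr i ∣ m * (21945 / m) := by rw [Nat.mul_div_cancel' hm]; exact pr_dvd i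
      have hpr : (pr i).Prime := by fin_cases i <;> decide +kernel
      exact (hpr.dvd_mul.1 h).resolve_left hi
    set c := Multiplicative.ofAdd ((21945 / m : ℕ) : ZMod 21945) with hcdef
    have hfix : act n c (Multiplicative.ofAdd (bump n a i)) = Multiplicative.ofAdd (bump n a i) := by
      refine Multiplicative.toAdd.injective (Subtype.ext (funext fun a' => funext fun i' =>
        funext fun j => ?_))
      show (if a' = a ∧ i' = i ∧ (j + proj i' c.toAdd = 0 ∨ j + proj i' c.toAdd = 1)
        then (1 : ZMod 2) else 0) = if a' = a ∧ i' = i ∧ (j = 0 ∨ j = 1) then 1 else 0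
      by_cases h : i' = i
      · subst h
        have h0 : proj i' c.toAdd = 0 := by
          rw [hcdef, toAdd_ofAdd, map_natCast]
          exact (CharP.cast_eq_zero_iff (ZMod (pr i')) (pr i') _).2 hp
        rw [h0, add_zero]
      · simp [h]
    refine ⟨SemidirectProduct.inl (Multiplicative.ofAdd (bump n a i)) *
      SemidirectProduct.inr c, ?_⟩
    have hcomm : Commute (SemidirectProduct.inl (φ := act n) (Multiplicative.ofAdd (bump n a i)))
        (SemidirectProduct.inr c) := by
      refine SemidirectProduct.ext ?_ ?_ <;> simp [hfix]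
    have o1 : orderOf (SemidirectProduct.inl (φ := act n) (Multiplicative.ofAdd (bump n a i))) = 2 := by
      rw [orderOf_injective _ SemidirectProduct.inl_injective]
      exact orderOf_eq_prime (left_sq _) fun e => bump_ne n a i (Multiplicative.ofAdd.injective e)
    have o2 : orderOf (SemidirectProduct.inr (φ := act n) c) = m := by
      rw [orderOf_injective _ SemidirectProduct.inr_injective, orderOf_gen hm]
    rw [hcomm.orderOf_mul_eq_mul_orderOf_of_coprime, o1, o2]
    rw [o1, o2, Nat.Prime.coprime_iff_not_dvd Nat.prime_two]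
    intro h
    exact absurd (h.trans hm) (by norm_num)
  · refine ⟨SemidirectProduct.inr (Multiplicative.ofAdd ((21945 / d : ℕ) : ZMod 21945)), ?_⟩
    rw [orderOf_injective _ SemidirectProduct.inr_injective]
    refine orderOf_gen ?_
    have h : d ∣ 2 * 21945 := hd
    exact ((Nat.prime_two.coprime_iff_not_dvd.2 h2).symm).dvd_of_dvd_mul_left h

/-- the maximal element orders of the fourth power -/
theorem lcm_max : ∀ a ∈ maxOrders, ∀ b ∈ maxOrders, ∀ c ∈ maxOrders, ∀ d ∈ maxOrders,
    Nat.lcm a (Nat.lcm b (Nat.lcm c d)) ∣ 43890 ∧ Nat.lcm a (Nat.lcm b (Nat.lcm c d)) ≠ 43890 := by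
  decide +kernel

theorem order_J (x : ↥Spor.J1 × ↥Spor.J1 × ↥Spor.J1 × ↥Spor.J1) :
    orderOf x ∣ 43890 ∧ orderOf x ≠ 43890 := by
  obtain ⟨a, b, c, d⟩ := x
  obtain ⟨A, hA, da⟩ := orderOf_dvd_max a
  obtain ⟨B, hB, db⟩ := orderOf_dvd_max b
  obtain ⟨C, hC, dc⟩ := orderOf_dvd_max c
  obtain ⟨D, hD, dd⟩ := orderOf_dvd_max d
  obtain ⟨h1, h2⟩ := lcm_max A hA B hB C hC D hD
  have hx : orderOf (a, b, c, d) ∣ Nat.lcm A (Nat.lcm B (Nat.lcm C D)) := by
    simp only [Prod.orderOf]
    exact Nat.lcm_dvd (da.trans (Nat.dvd_lcm_left _ _)) ((Nat.lcm_dvd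
      (db.trans (Nat.dvd_lcm_left _ _)) ((Nat.lcm_dvd (dc.trans (Nat.dvd_lcm_left _ _))
        (dd.trans (Nat.dvd_lcm_right _ _))).trans (Nat.dvd_lcm_right _ _))).trans
          (Nat.dvd_lcm_right _ _))
  exact ⟨hx.trans h1, fun e => h2 (Nat.dvd_antisymm h1 (e ▸ hx))⟩

/-- four maximal orders covering a number -/
def cover : List (ℕ × ℕ × ℕ × ℕ) :=
  [(15, 7, 11, 19), (10, 7, 11, 19), (6, 7, 11, 19), (6, 10, 11, 19), (6, 10, 7, 19), (6, 10, 7, 11)]

theorem dvd_cover {d : ℕ} (hd : d ∣ 43890) (hne : d ≠ 43890) :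
    ∃ q ∈ cover, d ∣ Nat.lcm q.1 (Nat.lcm q.2.1 (Nat.lcm q.2.2.1 q.2.2.2)) := by
  have key : ∀ n ∈ divList, n ∣ 43890 → n ≠ 43890 →
      ∃ q ∈ cover, n ∣ Nat.lcm q.1 (Nat.lcm q.2.1 (Nat.lcm q.2.2.1 q.2.2.2)) := by
    decide +kernel
  exact key d (mem_divList (hd.trans (by decide +kernel))) hd hne

theorem cover_mem : ∀ q ∈ cover,
    q.1 ∈ maxOrders ∧ q.2.1 ∈ maxOrders ∧ q.2.2.1 ∈ maxOrders ∧ q.2.2.2 ∈ maxOrders := by
  decide +kernel

theorem mem_J {d : ℕ} (hd : d ∣ 43890) (hne : d ≠ 43890) :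
    ∃ x : ↥Spor.J1 × ↥Spor.J1 × ↥Spor.J1 × ↥Spor.J1, orderOf x = d := by
  obtain ⟨q, hq, hdq⟩ := dvd_cover hd hne
  obtain ⟨h1, h2, h3, h4⟩ := cover_mem q hq
  obtain ⟨a, ha⟩ := exists_orderOf_max _ h1
  obtain ⟨b, hb⟩ := exists_orderOf_max _ h2
  obtain ⟨c, hc⟩ := exists_orderOf_max _ h3
  obtain ⟨e, he⟩ := exists_orderOf_max _ h4
  have ho : orderOf (a, b, c, e) = Nat.lcm q.1 (Nat.lcm q.2.1 (Nat.lcm q.2.2.1 q.2.2.2)) := by
    simp only [Prod.orderOf, ha, hb, hc, he]
  rw [← ho] at hdq
  exact ⟨(a, b, c, e) ^ (orderOf (a, b, c, e) / d),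
    orderOf_pow_orderOf_div (orderOf_pos _).ne' hdq⟩

/-- Let J be the first Janko group. Then there are finite groups of arbitrarily large order with exactly the same set of element orders as J × J × J × J. -/
theorem result (N : ℕ) : ∃ (H : Type) (_ : Group H) (_ : Fintype H), N < Fintype.card H ∧
      Set.range (orderOf : H → ℕ) = Set.range (orderOf : ↥Cfsg.Spor.J1 × ↥Cfsg.Spor.J1 × ↥Cfsg.Spor.J1 × ↥Cfsg.Spor.J1 → ℕ) := by
  classical
  haveI : Fintype (W (N + 1)) := Fintype.ofEquiv _ SemidirectProduct.equivProd.symm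
  refine ⟨W (N + 1), inferInstance, inferInstance, ?_, ?_⟩
  · have hinj : Function.Injective fun a : Fin (N + 1) =>
        (SemidirectProduct.inl (φ := act (N + 1)) (Multiplicative.ofAdd (bump (N + 1) a 0))) := by
      intro a b e
      have h := congrArg (fun u : W (N + 1) => u.left.toAdd.1 a 0 0) e
      by_contra hne
      simp [bump, hne] at h
    calc N < Fintype.card (Fin (N + 1)) := by simp
      _ ≤ _ := Fintype.card_le_of_injective _ hinj
  · ext d
    constructor
    · rintro ⟨x, rfl⟩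
      exact mem_J (order_W x).1 (order_W x).2
    · rintro ⟨x, rfl⟩
      exact mem_orders 0 (order_J x).1 (order_J x).2

end Cfsg.Agent.S3627
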