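import Cfsg.Statements.S3633
import Cfsg.Agent.PrimeGraph.ThreePrimes

set_option autoImplicit false
open Cfsg

namespace Cfsg.Agent.S3633

/-- Let G be a finite group and ρ a set of at least three prime divisors of the order of G that are pairwise non-adjacent in the prime graph (no element of order rs for distinct r, s ∈ ρ). Then at most one prime of ρ divides the order of any given solvable normal subgroup of G; in particular G is not solvable. -/
theorem result {G : Type*} [Group G] [Finite G] (ρ : Finset ℕ) (hρ : 3 ≤ ρ.card) (hc : ((∀ r ∈ ρ, r.Prime ∧ r ∣ Nat.card G) ∧ (∀ r ∈ ρ, ∀ s ∈ ρ, r ≠ s → ¬ ∃ x : G, orderOf x = r * s)))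
    (K : Subgroup G) [K.Normal] (hK : Group.IsSolvable ↥K) :
    (∀ r ∈ ρ, ∀ s ∈ ρ, r ∣ Nat.card ↥K → s ∣ Nat.card ↥K → r = s) ∧ ¬ Group.IsSolvable G := by
  obtain ⟨hc1, hc2⟩ := hc
  have key : ∀ r ∈ ρ, ∀ s ∈ ρ, r ∣ Nat.card ↥K → s ∣ Nat.card ↥K → r = s := by
    intro r hr s hs hrK hsK
    by_contra hne
    obtain ⟨t, ht, htr, hts⟩ : ∃ t ∈ ρ, t ≠ r ∧ t ≠ s := by
      by_contra! h
      have hsub : ρ ⊆ {r, s} := fun x hx => by
        by_cases hxr : x = r
        · simp [hxr]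
        · simp [h x hx hxr]
      have := Finset.card_le_card hsub
      have := Finset.card_le_two (a := r) (b := s)
      omega
    have : Fact t.Prime := ⟨(hc1 t ht).1⟩
    obtain ⟨x, hx⟩ := exists_prime_orderOf_dvd_card' t (hc1 t ht).2
    have hL : Group.IsSolvable ↥(K ⊔ Subgroup.zpowers x) :=
      CfsgLib.PrimeGraph.isSolvable_sup_of_le_normalizer hK
        (Group.isSolvable_of_comm fun a b => mul_comm' a b)
        (by rw [Subgroup.normalizer_eq_top]; exact le_top)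
    have hK' : K ≤ K ⊔ Subgroup.zpowers x := le_sup_left
    have hdr := hrK.trans (Subgroup.card_dvd_of_le hK')
    have hds := hsK.trans (Subgroup.card_dvd_of_le hK')
    have hdt : t ∣ Nat.card ↥(K ⊔ Subgroup.zpowers x) := by
      rw [← hx]
      exact (Subgroup.orderOf_dvd_natCard _ (Subgroup.mem_sup_right (Subgroup.mem_zpowers x)))
    obtain ⟨z, hz⟩ := CfsgLib.PrimeGraph.exists_adjacent_of_isSolvable (hc1 r hr).1 (hc1 s hs).1
      (hc1 t ht).1 hne (Ne.symm htr) (Ne.symm hts) hdr hds hdt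
    rcases hz with hz | hz | hz
    · exact hc2 r hr s hs hne ⟨z, by rwa [Subgroup.orderOf_coe]⟩
    · exact hc2 r hr t ht (Ne.symm htr) ⟨z, by rwa [Subgroup.orderOf_coe]⟩
    · exact hc2 s hs t ht (Ne.symm hts) ⟨z, by rwa [Subgroup.orderOf_coe]⟩
  refine ⟨key, fun hG => ?_⟩
  obtain ⟨a, b, c, ha, hb, hc', hab, hac, hbc⟩ : ∃ a b c, a ∈ ρ ∧ b ∈ ρ ∧ c ∈ ρ ∧ a ≠ b ∧ a ≠ c ∧ b ≠ c := by
    obtain ⟨a, ha, b, hb, c, hc', h⟩ := Finset.two_lt_card.1 (show 2 < ρ.card by omega)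
    exact ⟨a, b, c, ha, hb, hc', h.1, h.2.1, h.2.2⟩
  obtain ⟨z, hz⟩ := CfsgLib.PrimeGraph.exists_adjacent_of_isSolvable (hc1 a ha).1 (hc1 b hb).1
    (hc1 c hc').1 hab hac hbc (hc1 a ha).2 (hc1 b hb).2 (hc1 c hc').2
  rcases hz with hz | hz | hz
  · exact hc2 a ha b hb hab ⟨z, hz⟩
  · exact hc2 a ha c hc' hac ⟨z, hz⟩
  · exact hc2 b hb c hc' hbc ⟨z, hz⟩


end Cfsg.Agent.S3633
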