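import Cfsg.Statements.S3639
import Cfsg.Agent.Eq.Def_Sz
import Mathlib

set_option autoImplicit false
open Cfsg

namespace Cfsg.Agent.S3639

open Matrix

section core

variable {F : Type*} [Field F]

/-- Column relations of a symplectic matrix. -/
def ColRel (A : Matrix (Fin 4) (Fin 4) F) : Prop :=
  ∀ i j, A 0 i * A 3 j + A 1 i * A 2 j + A 2 i * A 1 j + A 3 i * A 0 j =
    if i.rev = j then 1 else 0

/-- The anti-diagonal matrix. -/
def J4 : Matrix (Fin 4) (Fin 4) F := Matrix.of fun i j => if i.rev = j then 1 else 0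

/-- The adjoint for the form. -/
def adj4 (A : Matrix (Fin 4) (Fin 4) F) : Matrix (Fin 4) (Fin 4) F :=
  Matrix.of fun i j => A j.rev i.rev

lemma adj4_mul_self {A : Matrix (Fin 4) (Fin 4) F} (h : ColRel A) : adj4 A * A = 1 := by
  ext i j
  have := h i.rev j
  rw [Fin.rev_rev] at this
  simp [Matrix.mul_apply, Fin.sum_univ_four, adj4, Matrix.one_apply] at this ⊢
  rw [← this]
  simp [Fin.rev]
  try ring

lemma rowRel {A : Matrix (Fin 4) (Fin 4) F} (h : ColRel A) (i j : Fin 4) :
    A i 0 * A j 3 + A i 1 * A j 2 + A i 2 * A j 1 + A i 3 * A j 0 =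
      if i.rev = j then 1 else 0 := by
  have h1 : A * adj4 A = 1 := mul_eq_one_comm.1 (adj4_mul_self h)
  have := congrFun (congrFun h1 i) j.rev
  simp [Matrix.mul_apply, Fin.sum_univ_four, adj4, Matrix.one_apply] at this
  have e : (i = j.rev) ↔ (i.rev = j) := ⟨fun h => by simp [h], fun h => by simp [← h]⟩
  simp only [e] at this
  rw [← this]
  try simp [Fin.rev]

lemma colRel_of_mem {g : GL (Fin 4) F} (hg : g ∈ Lie.Sp4 F) :
    ColRel (g : Matrix (Fin 4) (Fin 4) F) := by
  intro i j
  have h := hg (Pi.single i 1) (Pi.single j 1)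
  simp only [Lie.altForm4, Units.coeHom_apply, Matrix.mulVec_single_one, Matrix.col_apply] at h
  rw [h]
  fin_cases i <;> fin_cases j <;> simp [Pi.single, Function.update, Fin.rev]

lemma two_eq_zero' [CharP F 2] : (2 : F) = 0 := CharTwo.two_eq_zero

lemma nums [CharP F 2] : (2 : F) = 0 ∧ (3 : F) = 1 ∧ (4 : F) = 0 ∧ (5 : F) = 1 ∧ (6 : F) = 0 ∧
    (8 : F) = 0 := by
  have h : (2 : F) = 0 := CharTwo.two_eq_zero
  refine ⟨h, ?_, ?_, ?_, ?_, ?_⟩
  · linear_combination h
  · linear_combination 2 * h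
  · linear_combination 2 * h
  · linear_combination 3 * h
  · linear_combination 4 * h

lemma star4_mul [CharP F 2] {A B : Matrix (Fin 4) (Fin 4) F} (hA : ColRel A) (hB : ColRel B) :
    Lie.star4 (A * B) = Lie.star4 A * Lie.star4 B := by
  have hr : ∀ p : Fin 4, A (Lie.pairOf p).1 0 * A (Lie.pairOf p).2 3 +
      A (Lie.pairOf p).1 1 * A (Lie.pairOf p).2 2 + A (Lie.pairOf p).1 2 * A (Lie.pairOf p).2 1 +
      A (Lie.pairOf p).1 3 * A (Lie.pairOf p).2 0 = 0 := by
    intro p; rw [rowRel hA]; fin_cases p <;> simp [Lie.pairOf, Fin.rev]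
  have hc : ∀ p : Fin 4, B 0 (Lie.pairOf p).1 * B 3 (Lie.pairOf p).2 +
      B 1 (Lie.pairOf p).1 * B 2 (Lie.pairOf p).2 + B 2 (Lie.pairOf p).1 * B 1 (Lie.pairOf p).2 +
      B 3 (Lie.pairOf p).1 * B 0 (Lie.pairOf p).2 = 0 := by
    intro p; rw [hB]; fin_cases p <;> simp [Lie.pairOf, Fin.rev]
  ext p r
  have h1 := hr p
  have h2 := hc r
  set k := (Lie.pairOf p).1 with hk
  set l := (Lie.pairOf p).2 with hl
  set i := (Lie.pairOf r).1 with hi
  set j := (Lie.pairOf r).2 with hj
  have e : Lie.star4 (A * B) p r = (A * B) k i * (A * B) l j - (A * B) l i * (A * B) k j := rfl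
  rw [e, Matrix.mul_apply (M := Lie.star4 A), Fin.sum_univ_four]
  simp only [Lie.star4, Matrix.of_apply]
  rw [← hk, ← hl, ← hi, ← hj, show Lie.pairOf 0 = (0, 1) from rfl,
    show Lie.pairOf 1 = (0, 2) from rfl, show Lie.pairOf 2 = (1, 3) from rfl,
    show Lie.pairOf 3 = (2, 3) from rfl]
  simp only [Matrix.mul_apply, Fin.sum_univ_four, CharTwo.sub_eq_add]
  linear_combination (norm := skip)
    (B 0 i * B 3 j + B 3 i * B 0 j) * h1 + (A k 1 * A l 2 + A k 2 * A l 1) * h2
  ring_nf
  simp [two_eq_zero' (F := F)]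

lemma star4_one : Lie.star4 (1 : Matrix (Fin 4) (Fin 4) F) = 1 := by
  ext p r
  fin_cases p <;> fin_cases r <;> simp [Lie.star4, Lie.pairOf, Matrix.one_apply]

/-- The defining property of the generators. -/
def Good (θ : F →+* F) (g : GL (Fin 4) F) : Prop :=
  g ∈ Lie.Sp4 F ∧ Lie.star4 (g : Matrix (Fin 4) (Fin 4) F) = (g : Matrix (Fin 4) (Fin 4) F).map θ

lemma good_of_mem [CharP F 2] (θ : F →+* F) (e : ℕ) (hθ : ∀ x, θ x = x ^ e) {g : GL (Fin 4) F}
    (hg : g ∈ Lie.Sz F e) : Good θ g := by
  have he : (θ : F → F) = fun x => x ^ e := funext hθ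
  induction hg using Subgroup.closure_induction with
  | mem x hx => exact ⟨hx.1, by rw [he]; exact hx.2⟩
  | one => exact ⟨one_mem _, by simp [star4_one, Matrix.map_one]⟩
  | mul x y _ _ hx hy =>
    refine ⟨mul_mem hx.1 hy.1, ?_⟩
    rw [Units.val_mul, star4_mul (colRel_of_mem hx.1) (colRel_of_mem hy.1), hx.2, hy.2,
      Matrix.map_mul]
  | inv x _ hx =>
    refine ⟨inv_mem hx.1, ?_⟩
    have h1 : Lie.star4 ((x⁻¹ : GL (Fin 4) F) : Matrix (Fin 4) (Fin 4) F) *
        (x : Matrix (Fin 4) (Fin 4) F).map θ = 1 := by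
      rw [← hx.2, ← star4_mul (colRel_of_mem (inv_mem hx.1)) (colRel_of_mem hx.1), Units.inv_mul,
        star4_one]
    have h2 : (x : Matrix (Fin 4) (Fin 4) F).map θ *
        ((x⁻¹ : GL (Fin 4) F) : Matrix (Fin 4) (Fin 4) F).map θ = 1 := by
      rw [← Matrix.map_mul, Units.mul_inv, Matrix.map_one _ (map_zero θ) (map_one θ)]
    calc Lie.star4 ((x⁻¹ : GL (Fin 4) F) : Matrix (Fin 4) (Fin 4) F)
        = Lie.star4 ((x⁻¹ : GL (Fin 4) F) : Matrix (Fin 4) (Fin 4) F) *
          ((x : Matrix (Fin 4) (Fin 4) F).map θ *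
            ((x⁻¹ : GL (Fin 4) F) : Matrix (Fin 4) (Fin 4) F).map θ) := by rw [h2, mul_one]
      _ = _ := by rw [← mul_assoc, h1, one_mul]

lemma quadratic [CharP F 2] {A : Matrix (Fin 4) (Fin 4) F} (hA : ColRel A) :
    (A + adj4 A) * (A + adj4 A) + (A 0 0 + A 1 1 + A 2 2 + A 3 3) • (A + adj4 A) +
      (Lie.star4 A 0 0 + Lie.star4 A 1 1 + Lie.star4 A 2 2 + Lie.star4 A 3 3) •
        (1 : Matrix (Fin 4) (Fin 4) F) = 0 := by
  have h1 := hA 0 3
  have h2 := rowRel hA 0 3
  simp [Fin.rev] at h1 h2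
  ext i j
  fin_cases i <;> fin_cases j <;>
    simp [Matrix.mul_apply, Fin.sum_univ_four, adj4, Lie.star4, Lie.pairOf, Fin.rev,
      Matrix.one_apply, CharTwo.sub_eq_add]
  all_goals first
    | (ring_nf; simp [nums (F := F)]; done)
    | (linear_combination (norm := skip) h1 + h2
       ring_nf; simp [nums (F := F)]; done)

lemma pow_four_eq_one_of_fix [CharP F 2] (θ : F →+* F) {g : GL (Fin 4) F} (hg : Good θ g)
    {v : Fin 4 → F} (hv : v ≠ 0) (hfix : (g : Matrix (Fin 4) (Fin 4) F) *ᵥ v = v) : g ^ 4 = 1 := by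
  set A := (g : Matrix (Fin 4) (Fin 4) F) with hAdef
  have hA : ColRel A := colRel_of_mem hg.1
  have hl : adj4 A * A = 1 := adj4_mul_self hA
  have hr : A * adj4 A = 1 := mul_eq_one_comm.1 hl
  have hB : (A + adj4 A) *ᵥ v = 0 := by
    rw [Matrix.add_mulVec, hfix]
    have : adj4 A *ᵥ v = v := by
      conv_lhs => rw [← hfix]
      rw [Matrix.mulVec_mulVec, hl, Matrix.one_mulVec]
    rw [this]
    ext i; simp [CharTwo.add_self_eq_zero]
  have hq := quadratic hA
  set t := A 0 0 + A 1 1 + A 2 2 + A 3 3 with ht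
  set u := Lie.star4 A 0 0 + Lie.star4 A 1 1 + Lie.star4 A 2 2 + Lie.star4 A 3 3 with hu
  have hu0 : u = 0 := by
    have := congrArg (fun M => M *ᵥ v) hq
    simp only [Matrix.add_mulVec, Matrix.smul_mulVec, ← Matrix.mulVec_mulVec, Matrix.one_mulVec,
      Matrix.zero_mulVec, hB, Matrix.mulVec_zero, smul_zero, zero_add] at this
    simpa [hv] using this
  have ht0 : t = 0 := by
    have h : θ t = u := by
      rw [hu, hAdef, hg.2]; simp [ht, hAdef]
    rw [hu0] at h
    exact (map_eq_zero θ).1 h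
  rw [hu0, ht0, zero_smul, zero_smul, add_zero, add_zero] at hq
  have h4 : A * A * (A * A) = 1 := by
    have e : (A + adj4 A) * (A + adj4 A) = A * A + adj4 A * adj4 A := by
      have : (A + adj4 A) * (A + adj4 A) = A * A + adj4 A * adj4 A + (A * adj4 A + adj4 A * A) := by
        noncomm_ring
      rw [this, hr, hl]
      have : (1 : Matrix (Fin 4) (Fin 4) F) + 1 = 0 := by
        ext i j; simp [CharTwo.add_self_eq_zero]
      rw [this, add_zero]
    rw [e] at hq
    have h2 : adj4 A * adj4 A = A * A := by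
      ext i j
      have := congrFun (congrFun hq i) j
      exact (CharTwo.add_eq_zero.1 this).symm
    calc A * A * (A * A) = A * A * (adj4 A * adj4 A) := by rw [h2]
      _ = A * (A * adj4 A) * adj4 A := by noncomm_ring
      _ = 1 := by rw [hr, mul_one, hr]
  ext1
  rw [Units.val_pow_eq_pow_val, Units.val_one, ← hAdef]
  calc A ^ 4 = A * A * (A * A) := by simp [pow_succ, mul_assoc]
    _ = 1 := h4

end core

section ext

variable {F : Type*} [Field F] (S : Subgroup (GL (Fin 4) F)) (ι : Type)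

/-- The action on a power of the natural module. -/
def act : ↥S →* MulAut (Multiplicative (ι → Fin 4 → F)) where
  toFun g := AddEquiv.toMultiplicative
    { toFun := fun v i => ((g : GL (Fin 4) F) : Matrix (Fin 4) (Fin 4) F) *ᵥ v i
      invFun := fun v i => (((g : GL (Fin 4) F)⁻¹ : GL (Fin 4) F) : Matrix (Fin 4) (Fin 4) F) *ᵥ v i
      left_inv := fun v => by funext i; simp [Matrix.mulVec_mulVec]
      right_inv := fun v => by funext i; simp [Matrix.mulVec_mulVec]
      map_add' := fun v w => by funext i; simp [Matrix.mulVec_add] }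
  map_one' := by
    ext v : 1
    apply Multiplicative.toAdd.injective
    funext i
    exact Matrix.one_mulVec _
  map_mul' g h := by
    ext v : 1
    apply Multiplicative.toAdd.injective
    funext i
    exact (Matrix.mulVec_mulVec (Multiplicative.toAdd v i)
      ((g : GL (Fin 4) F) : Matrix (Fin 4) (Fin 4) F) ((h : GL (Fin 4) F) : Matrix (Fin 4) (Fin 4) F)).symm

end ext

set_option maxHeartbeats 1000000 in
/-- Let S be the Suzuki group over the field with q = 2^(2m+1) ≥ 8 elements. Then there are finite groups of arbitrarily large order with the same prime graph as S. -/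
theorem result {F : Type*} [Field F] [Fintype F] {m : ℕ} (hm : 1 ≤ m) (hF : Fintype.card F = 2 ^ (2 * m + 1)) (N : ℕ) :
    ∃ (H : Type) (_ : Group H) (_ : Fintype H), N < Fintype.card H ∧ ((∀ r : ℕ, r.Prime → (r ∣ Nat.card ↥(Cfsg.Lie.Sz F (2 ^ (m + 1))) ↔ r ∣ Nat.card H)) ∧
      (∀ r s : ℕ, r.Prime → s.Prime → r ≠ s → ((∃ x : ↥(Cfsg.Lie.Sz F (2 ^ (m + 1))), orderOf x = r * s) ↔ (∃ y : H, orderOf y = r * s)))) := by
  classical
  have hchar : CharP F 2 := charP_of_card_eq_prime_pow (R := F) hF
  let θ : F →+* F := iterateFrobenius F 2 (m + 1)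
  have hθ : ∀ x, θ x = x ^ (2 ^ (m + 1)) := fun x => iterateFrobenius_def 2 (m + 1) x
  set S := Cfsg.Lie.Sz F (2 ^ (m + 1)) with hS
  let V := Multiplicative (Fin (N + 1) → Fin 4 → F)
  let P := V ⋊[act S (Fin (N + 1))] ↥S
  let eP : P ≃ V × ↥S := SemidirectProduct.equivProd
  have : Finite P := Finite.of_equiv _ eP.symm
  have hcardP : Nat.card P = Nat.card V * Nat.card ↥S := by
    rw [Nat.card_congr eP, Nat.card_prod]
  have hcardV : Nat.card V = 2 ^ ((2 * m + 1) * 4 * (N + 1)) := by
    show Nat.card (Fin (N + 1) → Fin 4 → F) = _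
    simp [Nat.card_eq_fintype_card, hF, ← pow_mul]
  -- the group of order two
  have h2S : 2 ∣ Nat.card ↥S := by
    let w : GL (Fin 4) F := ⟨J4, J4, by
      ext i j; fin_cases i <;> fin_cases j <;>
        simp [J4, Matrix.mul_apply, Fin.sum_univ_four, Matrix.one_apply, Fin.rev], by
      ext i j; fin_cases i <;> fin_cases j <;>
        simp [J4, Matrix.mul_apply, Fin.sum_univ_four, Matrix.one_apply, Fin.rev]⟩
    have hwS : w ∈ S := by
      apply Subgroup.subset_closure
      refine ⟨?_, ?_⟩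
      · intro u v
        simp [w, Cfsg.Lie.altForm4, J4, Matrix.mulVec, dotProduct, Fin.sum_univ_four, Fin.rev]
        ring
      · ext i j
        fin_cases i <;> fin_cases j <;>
          simp [w, J4, Cfsg.Lie.star4, Cfsg.Lie.pairOf, Fin.rev, CharTwo.sub_eq_add, CharTwo.neg_eq]
    have h2 : orderOf (⟨w, hwS⟩ : ↥S) = 2 := by
      apply orderOf_eq_prime
      · ext1
        show w ^ 2 = 1
        rw [pow_two]
        ext1
        exact w.val_inv
      · intro h
        have := congrArg (fun x : ↥S => ((x : GL (Fin 4) F) : Matrix (Fin 4) (Fin 4) F) 0 0) h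
        simp [w, J4, Fin.rev] at this
    rw [← h2]
    exact orderOf_dvd_natCard _
  -- squares in the kernel
  have hker : ∀ z : P, z.right = 1 → z ^ 2 = 1 := by
    intro z hz
    have : z = SemidirectProduct.inl z.left := SemidirectProduct.ext (by simp) (by simpa using hz)
    have hsq : z.left ^ 2 = 1 := by
      apply Multiplicative.toAdd.injective
      rw [toAdd_pow, toAdd_one]
      funext i j
      simp [two_nsmul, CharTwo.two_eq_zero, CharTwo.add_self_eq_zero]
    rw [this, ← map_pow, hsq, map_one]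
  have key : ∀ r s : ℕ, r.Prime → s.Prime → r ≠ s →
      ((∃ x : ↥S, orderOf x = r * s) ↔ (∃ y : P, orderOf y = r * s)) := by
    intro r s hr hs hne
    constructor
    · rintro ⟨x, hx⟩
      exact ⟨SemidirectProduct.inr x, by
        rw [← hx]; exact orderOf_injective _ SemidirectProduct.inr_injective x⟩
    · rintro ⟨y, hy⟩
      refine ⟨y.right, ?_⟩
      set a := orderOf y.right with ha
      have had : a ∣ r * s := by
        rw [← hy]; exact orderOf_map_dvd SemidirectProduct.rightHom y
      have hz : (y ^ a).right = 1 := by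
        have : SemidirectProduct.rightHom (y ^ a) = 1 := by
          rw [map_pow]; exact pow_orderOf_eq_one _
        exact this
      have h2a : r * s ∣ 2 * a := by
        rw [← hy, orderOf_dvd_iff_pow_eq_one, mul_comm, pow_mul]
        exact hker _ hz
      by_contra hane
      obtain ⟨k, hk⟩ := had
      have hk1 : k ≠ 1 := fun h => hane (by rw [hk, h, mul_one])
      have hapos : 0 < a := orderOf_pos _
      have hk2 : k = 2 := by
        rw [hk, mul_comm 2 a] at h2a
        have : k ∣ 2 := Nat.dvd_of_mul_dvd_mul_left hapos h2a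
        exact ((Nat.dvd_prime Nat.prime_two).1 this).resolve_left hk1
      have haodd : Odd a ∧ a ≠ 1 := by
        rw [hk2] at hk
        have h2rs : 2 ∣ r * s := ⟨a, by omega⟩
        rcases (Nat.Prime.dvd_mul Nat.prime_two).1 h2rs with h | h
        · have hr2 := (Nat.prime_dvd_prime_iff_eq Nat.prime_two hr).1 h
          have : a = s := by rw [← hr2] at hk; omega
          exact ⟨this ▸ hs.odd_of_ne_two (by omega), this ▸ hs.one_lt.ne'⟩
        · have hs2 := (Nat.prime_dvd_prime_iff_eq Nat.prime_two hs).1 h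
          have : a = r := by rw [← hs2] at hk; omega
          exact ⟨this ▸ hr.odd_of_ne_two (by omega), this ▸ hr.one_lt.ne'⟩
      have hzne : y ^ a ≠ 1 := by
        intro h
        have := orderOf_dvd_of_pow_eq_one h
        rw [hy] at this
        have := Nat.le_of_dvd hapos this
        rw [hk, hk2] at this
        omega
      have hzl : Multiplicative.toAdd (y ^ a).left ≠ 0 := by
        intro h
        apply hzne
        exact SemidirectProduct.ext (Multiplicative.toAdd.injective h) hz
      obtain ⟨i, hi⟩ : ∃ i, Multiplicative.toAdd (y ^ a).left i ≠ 0 := by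
        by_contra! h; exact hzl (funext h)
      have hcomm : y * y ^ a = y ^ a * y := (Commute.self_pow y a).eq
      have hl0 := congrArg SemidirectProduct.left hcomm
      rw [SemidirectProduct.mul_left, SemidirectProduct.mul_left, hz, map_one, MulAut.one_apply]
        at hl0
      have hl : Multiplicative.toAdd y.left i +
          (((y.right : ↥S) : GL (Fin 4) F) : Matrix (Fin 4) (Fin 4) F) *ᵥ
            Multiplicative.toAdd (y ^ a).left i =
          Multiplicative.toAdd (y ^ a).left i + Multiplicative.toAdd y.left i :=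
        congrArg (fun q : V => Multiplicative.toAdd q i) hl0
      have hfix : (((y.right : ↥S) : GL (Fin 4) F) : Matrix (Fin 4) (Fin 4) F) *ᵥ
          Multiplicative.toAdd (y ^ a).left i = Multiplicative.toAdd (y ^ a).left i := by
        rw [add_comm (Multiplicative.toAdd (y ^ a).left i)] at hl
        exact add_left_cancel hl
      have h4 := pow_four_eq_one_of_fix θ (good_of_mem θ _ hθ y.right.2) hi hfix
      have h4' : y.right ^ 4 = 1 := Subtype.ext h4
      have : a ∣ 4 := orderOf_dvd_of_pow_eq_one h4'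
      obtain ⟨hodd, hne1⟩ := haodd
      exact hne1 (((Nat.coprime_two_right.2 hodd).pow_right 2).eq_one_of_dvd this)
  -- transport to a small type
  obtain ⟨n, ⟨e⟩⟩ := Finite.exists_equiv_fin P
  letI : Mul (Fin n) := ⟨fun x y => e (e.symm x * e.symm y)⟩
  letI : Inv (Fin n) := ⟨fun x => e (e.symm x)⁻¹⟩
  letI : One (Fin n) := ⟨e 1⟩
  letI grp : Group (Fin n) := Group.ofLeftAxioms
    (fun x y z => show e (e.symm (e (e.symm x * e.symm y)) * e.symm z) =
        e (e.symm x * e.symm (e (e.symm y * e.symm z))) by simp [mul_assoc])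
    (fun x => show e (e.symm (e 1) * e.symm x) = x by simp)
    (fun x => show e (e.symm (e (e.symm x)⁻¹) * e.symm x) = e 1 by simp)
  let me : Fin n ≃* P :=
    { toEquiv := e.symm
      map_mul' := fun x y => show e.symm (e (e.symm x * e.symm y)) = e.symm x * e.symm y by simp }
  refine ⟨Fin n, grp, inferInstance, ?_, ?_, ?_⟩
  · rw [← Nat.card_eq_fintype_card, Nat.card_congr me.toEquiv, hcardP]
    refine lt_of_lt_of_le ?_ (Nat.le_mul_of_pos_right _ Nat.card_pos)
    rw [hcardV]
    refine lt_of_lt_of_le (Nat.lt_succ_self N) (le_of_lt ?_)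
    refine lt_of_lt_of_le Nat.lt_two_pow_self (Nat.pow_le_pow_right (by norm_num) ?_)
    exact Nat.le_mul_of_pos_left _ (by positivity)
  · intro r hr
    rw [Nat.card_congr me.toEquiv, hcardP]
    constructor
    · exact fun h => Dvd.dvd.mul_left h _
    · intro h
      rcases hr.dvd_mul.1 h with h | h
      · rw [hcardV] at h
        rw [(Nat.prime_dvd_prime_iff_eq hr Nat.prime_two).1 (hr.dvd_of_dvd_pow h)]
        exact h2S
      · exact h
  · intro r s hr hs hne
    rw [key r s hr hs hne]
    exact ⟨fun ⟨y, hy⟩ => ⟨me.symm y, (MulEquiv.orderOf_eq me.symm y).trans hy⟩,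
      fun ⟨y, hy⟩ => ⟨me y, (MulEquiv.orderOf_eq me y).trans hy⟩⟩

end Cfsg.Agent.S3639
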