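import Cfsg.Statements.S3641
import Cfsg.Agent.Sylow1817.Overgroup

set_option autoImplicit false
open Cfsg

namespace Cfsg.Agent.S3641

open CfsgLib.Sylow1817

/-- A nontrivial normal subgroup of a `p`-group meets the centre nontrivially. -/
theorem exists_ne_one_commute {G : Type*} [Group G] [Finite G] (p : ℕ) [Fact p.Prime]
    {R N : Subgroup G} (hR : IsPGroup p R) (hNR : N ≤ R) (hN : R ≤ Subgroup.normalizer (N : Set G))
    (hne : N ≠ ⊥) : ∃ z ∈ N, z ≠ 1 ∧ ∀ x ∈ R, Commute z x := by
  let a : MulAction R N :=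
    { smul := fun x n => ⟨(x : G) * n * (x : G)⁻¹, (Subgroup.mem_normalizer_iff.1 (hN x.2) n).1 n.2⟩
      one_smul := fun n => Subtype.ext (by show (1 : G) * n * (1 : G)⁻¹ = n; simp)
      mul_smul := fun x y n => Subtype.ext (by
        show ((x : G) * y) * n * ((x : G) * y)⁻¹ = x * (y * n * (y : G)⁻¹) * (x : G)⁻¹
        group) }
  have hp : p ∣ Nat.card N := by
    obtain ⟨k, hk⟩ := IsPGroup.iff_card.1 (hR.to_le hNR)
    rw [hk]
    exact dvd_pow_self p (by rintro rfl; exact hne (Subgroup.eq_bot_of_card_eq _ (by simpa using hk)))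
  have h1 : (1 : N) ∈ MulAction.fixedPoints R N := fun x => Subtype.ext (by
    show (x : G) * (1 : G) * (x : G)⁻¹ = 1; simp)
  obtain ⟨z, hz, hz1⟩ := hR.exists_fixed_point_of_prime_dvd_card_of_fixed_point N hp h1
  refine ⟨z, z.2, fun h => hz1 (Subtype.ext h.symm), fun x hx => ?_⟩
  have h2 : x * (z : G) * x⁻¹ = z := congrArg Subtype.val (hz ⟨x, hx⟩)
  exact (mul_inv_eq_iff_eq_mul.1 h2).symm

/-- A group with every Sylow subgroup inside a subgroup is that subgroup. -/
theorem eq_top_of_sylow_le {G : Type*} [Group G] [Finite G] (H : Subgroup G)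
    (h : ∀ r : ℕ, r.Prime → r ∣ Nat.card G → ∃ R : Sylow r G, (R : Subgroup G) ≤ H) : H = ⊤ := by
  rw [← Subgroup.index_eq_one]
  by_contra hne
  obtain ⟨r, hr, hd⟩ := Nat.exists_prime_and_dvd hne
  have : Fact r.Prime := ⟨hr⟩
  obtain ⟨R, hR⟩ := h r hr (hd.trans (Subgroup.index_dvd_card H))
  exact R.not_dvd_index (hd.trans (Subgroup.index_dvd_of_le hR))

theorem card_fixed_conj {G : Type*} [Group G] [Finite G] (r : ℕ) [Fact r.Prime] {U O : Subgroup G}
    (hU : IsPGroup r U) (hUO : U ≤ Subgroup.normalizer (O : Set G)) :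
    Nat.card O ≡ Nat.card (O ⊓ Subgroup.centralizer (U : Set G) : Subgroup G) [MOD r] := by
  let a : MulAction U O :=
    { smul := fun x n => ⟨(x : G) * n * (x : G)⁻¹, (Subgroup.mem_normalizer_iff.1 (hUO x.2) n).1 n.2⟩
      one_smul := fun n => Subtype.ext (by show (1 : G) * n * (1 : G)⁻¹ = n; simp)
      mul_smul := fun x y n => Subtype.ext (by
        show ((x : G) * y) * n * ((x : G) * y)⁻¹ = x * (y * n * (y : G)⁻¹) * (x : G)⁻¹
        group) }
  refine (hU.card_modEq_card_fixedPoints O).trans (congrArg (· % r) ?_)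
  refine Nat.card_congr
    { toFun := fun n => ⟨((n : O) : G), Subgroup.mem_inf.2 ⟨(n : O).2, ?_⟩⟩
      invFun := fun n => ⟨⟨(n : G), (Subgroup.mem_inf.1 n.2).1⟩, ?_⟩
      left_inv := fun n => rfl
      right_inv := fun n => rfl }
  · rw [Subgroup.mem_centralizer_iff]
    intro x hx
    have h2 : x * ((n : O) : G) * x⁻¹ = ((n : O) : G) := congrArg Subtype.val (n.2 ⟨x, hx⟩)
    exact mul_inv_eq_iff_eq_mul.1 h2
  · intro x
    apply Subtype.ext
    show (x : G) * (n : G) * (x : G)⁻¹ = n
    rw [mul_inv_eq_iff_eq_mul]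
    exact Subgroup.mem_centralizer_iff.1 (Subgroup.mem_inf.1 n.2).2 x x.2

/-- The two groups attached to a field with 17 elements. -/
theorem equiv_ranges {F : Type*} [Field F] [Fintype F] (hF : Fintype.card F = 17) :
    Nonempty (piSL.range ≃* Matrix.ProjectiveSpecialLinearGroup (Fin 2) F) ∧
      Nonempty (piGL.range ≃* (GL (Fin 2) F ⧸ Subgroup.center (GL (Fin 2) F))) := by
  let e : F ≃+* K := (ZMod.ringEquivOfPrime F (show Nat.Prime 17 by norm_num) hF).symm
  let eG : GL (Fin 2) F ≃* GL (Fin 2) K := Units.mapEquiv (e.mapMatrix (m := Fin 2)).toMulEquiv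
  let eS : Matrix.SpecialLinearGroup (Fin 2) F ≃* Matrix.SpecialLinearGroup (Fin 2) K :=
    { toFun := Matrix.SpecialLinearGroup.map e.toRingHom
      invFun := Matrix.SpecialLinearGroup.map e.symm.toRingHom
      left_inv := fun g => by ext i j; exact e.symm_apply_apply _
      right_inv := fun g => by ext i j; exact e.apply_symm_apply _
      map_mul' := map_mul _ }
  have hcen : ∀ {A B : Type _} [Group A] [Group B] (f : A ≃* B),
      (Subgroup.center B).comap f.toMonoidHom = Subgroup.center A := by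
    intro A B _ _ f
    ext a
    rw [Subgroup.mem_comap, Subgroup.mem_center_iff, Subgroup.mem_center_iff]
    constructor
    · intro h b
      apply f.injective
      rw [map_mul, map_mul]
      exact h (f b)
    · intro h b
      obtain ⟨c, rfl⟩ := f.surjective b
      show f c * f a = f a * f c
      rw [← map_mul, ← map_mul, h c]
  refine ⟨⟨?_⟩, ⟨?_⟩⟩
  · have hk : (piSL.comp eS.toMonoidHom).ker =
        Subgroup.center (Matrix.SpecialLinearGroup (Fin 2) F) := by
      rw [← MonoidHom.comap_ker, ker_piSL, hcen eS]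
    have hr : (piSL.comp eS.toMonoidHom).range = piSL.range := by
      rw [MonoidHom.range_comp, (MonoidHom.range_eq_top (f := eS.toMonoidHom)).2 eS.surjective,
        ← MonoidHom.range_eq_map]
    exact (((QuotientGroup.quotientMulEquivOfEq hk).symm.trans
      (QuotientGroup.quotientKerEquivRange _)).trans (MulEquiv.subgroupCongr hr)).symm
  · have hk : (piGL.comp eG.toMonoidHom).ker = Subgroup.center (GL (Fin 2) F) := by
      rw [← MonoidHom.comap_ker, ker_piGL, hcen eG]
    have hr : (piGL.comp eG.toMonoidHom).range = piGL.range := by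
      rw [MonoidHom.range_comp, (MonoidHom.range_eq_top (f := eG.toMonoidHom)).2 eG.surjective,
        ← MonoidHom.range_eq_map]
    exact (((QuotientGroup.quotientMulEquivOfEq hk).symm.trans
      (QuotientGroup.quotientKerEquivRange _)).trans (MulEquiv.subgroupCongr hr)).symm


/-- Let G be a finite group with trivial centre whose set of Sylow numbers (numbers of Sylow r-subgroups, r over the prime divisors of its order) is exactly {18, 136, 153}. Then G is isomorphic to PSL(2, 17) or to PGL(2, 17). -/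
theorem result {G : Type*} [Group G] [Finite G] (hZ : Subgroup.center G = ⊥) (hNS : {c : ℕ | ∃ r : ℕ, r.Prime ∧ r ∣ Nat.card G ∧ c = Nat.card (Sylow r G)} = ({18, 136, 153} : Set ℕ))
    {F : Type*} [Field F] [Fintype F] (hF : Fintype.card F = 17) :
    Nonempty (G ≃* Matrix.ProjectiveSpecialLinearGroup (Fin 2) F) ∨ Nonempty (G ≃* (GL (Fin 2) F ⧸ Subgroup.center (GL (Fin 2) F))) := by
  classical
  have hmem : ∀ r : ℕ, r.Prime → r ∣ Nat.card G →
      Nat.card (Sylow r G) = 18 ∨ Nat.card (Sylow r G) = 136 ∨ Nat.card (Sylow r G) = 153 := by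
    intro r hr hd
    have h : Nat.card (Sylow r G) ∈ ({18, 136, 153} : Set ℕ) := hNS ▸ ⟨r, hr, hd, rfl⟩
    simpa using h
  have hprime : ∀ r : ℕ, r.Prime → r ∣ Nat.card G →
      (Nat.card (Sylow r G) = 18 ∧ r = 17) ∨ (Nat.card (Sylow r G) = 136 ∧ (r = 3 ∨ r = 5)) ∨
        (Nat.card (Sylow r G) = 153 ∧ (r = 2 ∨ r = 19)) := by
    intro r hr hd
    have : Fact r.Prime := ⟨hr⟩
    have hmod : r ∣ Nat.card (Sylow r G) - 1 :=
      (Nat.modEq_iff_dvd' Nat.card_pos).1 (card_sylow_modEq_one r G).symm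
    rcases hmem r hr hd with h | h | h <;> rw [h] at hmod
    · left
      exact ⟨h, (Nat.prime_dvd_prime_iff_eq hr (by norm_num)).1 hmod⟩
    · right; left
      refine ⟨h, ?_⟩
      rw [show (136 - 1 : ℕ) = 3 ^ 3 * 5 by norm_num] at hmod
      rcases hr.dvd_mul.1 hmod with h' | h'
      · exact Or.inl ((Nat.prime_dvd_prime_iff_eq hr Nat.prime_three).1 (hr.dvd_of_dvd_pow h'))
      · exact Or.inr ((Nat.prime_dvd_prime_iff_eq hr (by norm_num)).1 h')
    · right; right
      refine ⟨h, ?_⟩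
      rw [show (153 - 1 : ℕ) = 2 ^ 3 * 19 by norm_num] at hmod
      rcases hr.dvd_mul.1 hmod with h' | h'
      · exact Or.inl ((Nat.prime_dvd_prime_iff_eq hr Nat.prime_two).1 (hr.dvd_of_dvd_pow h'))
      · exact Or.inr ((Nat.prime_dvd_prime_iff_eq hr (by norm_num)).1 h')
  have h17 : 17 ∣ Nat.card G ∧ Nat.card (Sylow 17 G) = 18 := by
    obtain ⟨r, hr, hd, hc⟩ :
        (18 : ℕ) ∈ {c : ℕ | ∃ r : ℕ, r.Prime ∧ r ∣ Nat.card G ∧ c = Nat.card (Sylow r G)} := by
      rw [hNS]; simp
    rcases hprime r hr hd with ⟨h, rfl⟩ | ⟨h, -⟩ | ⟨h, -⟩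
    · exact ⟨hd, h⟩
    · omega
    · omega
  have : Fact (Nat.Prime 17) := ⟨by norm_num⟩
  have : Fact (Nat.Prime 3) := ⟨Nat.prime_three⟩
  have : Fact (Nat.Prime 2) := ⟨Nat.prime_two⟩
  have hdiv : ∀ r : ℕ, r ∣ 18 → r ∣ Nat.card G := by
    intro r hr
    obtain ⟨P⟩ : Nonempty (Sylow 17 G) := inferInstance
    refine hr.trans ?_
    rw [← h17.2, Sylow.card_eq_index_normalizer P]
    exact Subgroup.index_dvd_card _
  have h3 : Nat.card (Sylow 3 G) = 136 := by
    rcases hprime 3 Nat.prime_three (hdiv 3 (by norm_num)) with ⟨-, h⟩ | ⟨h, -⟩ | ⟨-, h⟩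
    · norm_num at h
    · exact h
    · norm_num at h
  have h2 : Nat.card (Sylow 2 G) = 153 := by
    rcases hprime 2 Nat.prime_two (hdiv 2 (by norm_num)) with ⟨-, h⟩ | ⟨-, h⟩ | ⟨h, -⟩
    · norm_num at h
    · norm_num at h
    · exact h
  -- the action on the Sylow 17-subgroups
  obtain ⟨P⟩ : Nonempty (Sylow 17 G) := inferInstance
  have hself : ∀ Q : Sylow 17 G, (∀ x ∈ (P : Subgroup G), x • Q = Q) → Q = P := by
    intro Q hQ
    have hle : (P : Subgroup G) ≤ Subgroup.normalizer ((Q : Subgroup G) : Set G) := fun x hx =>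
      Sylow.smul_eq_iff_mem_normalizer.1 (hQ x hx)
    have h := (inf_eq_left.2 hle).symm.trans (P.isPGroup'.inf_normalizer_sylow Q)
    exact (Sylow.ext (P.is_maximal' Q.isPGroup' (inf_eq_left.1 h.symm))).symm ▸ rfl
  obtain ⟨Q, hQ⟩ : ∃ Q : Sylow 17 G, Q ≠ P := by
    have : Nontrivial (Sylow 17 G) := Finite.one_lt_card_iff_nontrivial.1 (by omega)
    exact exists_ne P
  obtain ⟨g0, hg0P, hg0Q⟩ : ∃ x ∈ (P : Subgroup G), x • Q ≠ Q := by
    by_contra! h
    exact hQ (hself Q h)
  set π : G →* Equiv.Perm (Sylow 17 G) := MulAction.toPermHom _ _ with hπ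
  have hord17 : orderOf (π g0) = 17 := by
    obtain ⟨k, hk⟩ := P.isPGroup' ⟨g0, hg0P⟩
    have h1 : orderOf (π g0) ∣ 17 ^ k := by
      apply orderOf_dvd_of_pow_eq_one
      rw [← map_pow, show g0 ^ 17 ^ k = 1 from congrArg Subtype.val hk, map_one]
    have h2 : orderOf (π g0) ∣ Nat.factorial 18 := by
      rw [← h17.2]
      refine (orderOf_dvd_natCard _).trans ?_
      rw [Nat.card_perm]
    obtain ⟨i, -, hi⟩ := (Nat.dvd_prime_pow (by norm_num)).1 h1
    have hne : π g0 ≠ 1 := fun h => hg0Q (Equiv.ext_iff.1 h Q)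
    rcases i with _ | _ | i
    · rw [pow_zero, orderOf_eq_one_iff] at hi; exact absurd hi hne
    · rw [hi, zero_add, pow_one]
    · exfalso
      rw [hi] at h2
      have : 17 ^ 2 ∣ Nat.factorial 18 := (pow_dvd_pow 17 (by omega)).trans h2
      revert this
      decide +kernel
  have hP17 : π g0 P = P := by
    show g0 • P = P
    exact Sylow.smul_eq_iff_mem_normalizer.2 (Subgroup.le_normalizer hg0P)
  have hpowP : ∀ n : ℕ, (π g0 ^ n) P = P := by
    intro n
    induction n with
    | zero => rfl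
    | succ n ih => rw [pow_succ, Equiv.Perm.mul_apply, hP17, ih]
  have hmod17 : ∀ n : ℕ, π g0 ^ n = π g0 ^ (n % 17) := fun n => by
    have h := pow_mod_orderOf (π g0) n
    rw [hord17] at h
    exact h.symm
  let e0 : P1 → Sylow 17 G := fun p => Option.elim p P fun x => (π g0 ^ (x : K).val) Q
  have he0 : Function.Bijective e0 := by
    rw [Nat.bijective_iff_injective_and_card]
    refine ⟨?_, by rw [card_P1, h17.2]⟩
    rintro (_ | x) (_ | y) h
    · rfl
    · exact absurd ((π g0 ^ (y : K).val).injective ((hpowP _).trans h)).symm hQ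
    · exact absurd ((π g0 ^ (x : K).val).injective (h.trans (hpowP _).symm)) hQ
    · congr 1
      apply ZMod.val_injective
      by_contra hne
      have key : ∀ a b : ℕ, a < b → b < 17 → (π g0 ^ a) Q = (π g0 ^ b) Q → False := by
        intro a b hab hb17 hEq
        rw [show b = a + (b - a) by omega, pow_add, Equiv.Perm.mul_apply] at hEq
        have hfix := (π g0 ^ a).injective hEq
        -- a power fixing `Q` generates
        have hc : Nat.Coprime (b - a) (orderOf (π g0)) := by
          rw [hord17]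
          exact ((Nat.Prime.coprime_iff_not_dvd (by norm_num)).2 fun hd => by
            have := Nat.le_of_dvd (by omega) hd; omega).symm
        obtain ⟨m, hm⟩ := exists_pow_eq_self_of_coprime hc
        have hall : ∀ m : ℕ, ((π g0 ^ (b - a)) ^ m) Q = Q := by
          intro m
          induction m with
          | zero => rfl
          | succ m ih => rw [pow_succ, Equiv.Perm.mul_apply, ← hfix, ih]
        have := hall m
        rw [hm] at this
        exact hg0Q this
      rcases Nat.lt_or_gt_of_ne hne with hlt | hlt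
      · exact key _ _ hlt (ZMod.val_lt y) h
      · exact key _ _ hlt (ZMod.val_lt x) h.symm
  let e : P1 ≃ Sylow 17 G := Equiv.ofBijective e0 he0
  let ψ : G →* Equiv.Perm P1 := (e.symm.permCongrHom.toMonoidHom).comp π
  have hψ : ∀ (g : G) (p : P1), ψ g p = e.symm (g • e p) := fun g p => rfl
  have hψg0 : ψ g0 = transl := by
    refine Equiv.ext fun p => ?_
    rw [hψ, Equiv.symm_apply_eq]
    rcases p with _ | x
    · show π g0 P = P
      exact hP17
    · show π g0 ((π g0 ^ x.val) Q) = (π g0 ^ (x + 1 : K).val) Q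
      rw [← Equiv.Perm.mul_apply, ← pow_succ', hmod17 (x.val + 1)]
      congr 2
  set Y := ψ.range with hY
  have hsur : Function.Surjective ψ.rangeRestrict := ψ.rangeRestrict_surjective
  have hYadm : Admissible Y := by
    refine ⟨⟨g0, hψg0⟩, ⟨fun p q => ?_⟩, ?_, ?_⟩
    · obtain ⟨g, hg⟩ := MulAction.exists_smul_eq G (e p) (e q)
      refine ⟨⟨ψ g, g, rfl⟩, ?_⟩
      show ψ g p = q
      rw [hψ, hg, Equiv.symm_apply_apply]
    · rintro _ ⟨g, rfl⟩ hinf
      have hgP : g • P = P := by
        have h := congrArg e hinf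
        rw [hψ, Equiv.apply_symm_apply] at h
        exact h
      have hmemP : g * g0 * g⁻¹ ∈ (P : Subgroup G) :=
        (Subgroup.mem_normalizer_iff.1 (Sylow.smul_eq_iff_mem_normalizer.1 hgP) g0).1 hg0P
      -- the image of `P` has order 17
      have hPim : (P : Subgroup G).map ψ = Subgroup.zpowers transl := by
        refine (Subgroup.eq_of_le_of_card_ge ?_ ?_).symm
        · rw [Subgroup.zpowers_le]; exact ⟨g0, hg0P, hψg0⟩
        · rw [Nat.card_zpowers, orderOf_transl]
          obtain ⟨k, hk⟩ := IsPGroup.iff_card.1 (P.isPGroup'.map ψ)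
          rw [hk]
          have hd : 17 ^ k ∣ Nat.factorial 18 := by
            rw [← hk, ← card_P1, ← Nat.card_perm]
            exact Subgroup.card_subgroup_dvd_card _
          rcases k with _ | _ | k
          · norm_num
          · norm_num
          · exfalso
            have : 17 ^ 2 ∣ Nat.factorial 18 := (pow_dvd_pow 17 (by omega)).trans hd
            revert this
            decide +kernel
      have h : ψ g * transl * (ψ g)⁻¹ ∈ Subgroup.zpowers transl := by
        rw [← hPim, ← hψg0, ← map_inv, ← map_mul, ← map_mul]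
        exact ⟨_, hmemP, rfl⟩
      rw [← mem_powers_iff_mem_zpowers] at h
      obtain ⟨n, hn⟩ := h
      exact ⟨n, hn.symm⟩
    · rw [← h3]; exact card_sylow_dvd_of_surjective 3 _ hsur
  have e17 : Nat.card (Sylow 17 ↥Y) = Nat.card (Sylow 17 G) :=
    Nat.dvd_antisymm (card_sylow_dvd_of_surjective 17 _ hsur) (h17.2 ▸ hYadm.card_sylow_seventeen)
  have e3 : Nat.card (Sylow 3 ↥Y) = Nat.card (Sylow 3 G) := by rw [hYadm.eq_range.2.2, h3]
  have e2 : Nat.card (Sylow 2 ↥Y) = Nat.card (Sylow 2 G) := by rw [hYadm.card_sylow_two, h2]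
  set K0 := ψ.rangeRestrict.ker with hK0
  -- `K0` normalises the Sylow subgroups for 2, 3, 17
  have hnorm : ∀ r : ℕ, r = 2 ∨ r = 3 ∨ r = 17 → ∀ R : Sylow r G,
      K0 ≤ Subgroup.normalizer ((R : Subgroup G) : Set G) := by
    rintro r (rfl | rfl | rfl) R
    · exact ker_le_normalizer 2 _ hsur e2 R
    · exact ker_le_normalizer 3 _ hsur e3 R
    · exact ker_le_normalizer 17 _ hsur e17 R
  -- the Sylow subgroup of `K0` for such a prime is normal in `G`
  have hO : ∀ r : ℕ, r = 2 ∨ r = 3 ∨ r = 17 → ∀ (R : Sylow r G) (g : G),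
      ∀ x ∈ (R : Subgroup G) ⊓ K0, g * x * g⁻¹ ∈ (R : Subgroup G) ⊓ K0 := by
    intro r hr R g x hx
    have : Fact r.Prime := ⟨by rcases hr with rfl | rfl | rfl <;> norm_num⟩
    obtain ⟨hxR, hxK⟩ := Subgroup.mem_inf.1 hx
    have hgx : g * x * g⁻¹ ∈ K0 := (MonoidHom.normal_ker _).conj_mem x hxK g
    refine Subgroup.mem_inf.2 ⟨?_, hgx⟩
    have hpg : IsPGroup r ((Subgroup.zpowers (g * x * g⁻¹) : Subgroup G)) := by
      obtain ⟨k, hk⟩ := R.isPGroup' ⟨x, hxR⟩
      obtain ⟨i, -, hi⟩ := (Nat.dvd_prime_pow Fact.out).1 (orderOf_dvd_of_pow_eq_one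
        (show (g * x * g⁻¹) ^ r ^ k = 1 by
          rw [conj_pow, show x ^ r ^ k = 1 from congrArg Subtype.val hk]; group))
      exact IsPGroup.iff_card.2 ⟨i, by rw [Nat.card_zpowers, hi]⟩
    have hle : Subgroup.zpowers (g * x * g⁻¹) ≤ Subgroup.normalizer ((R : Subgroup G) : Set G) := by
      rw [Subgroup.zpowers_le]; exact hnorm r hr R hgx
    have := (inf_eq_left.2 hle).symm.trans (hpg.inf_normalizer_sylow R)
    exact (inf_eq_left.1 this.symm) (Subgroup.mem_zpowers _)
  -- elements of different Sylow subgroups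
  have hcomm : ∀ r s : ℕ, (r = 2 ∨ r = 3 ∨ r = 17) → (s = 2 ∨ s = 3 ∨ s = 17) → r ≠ s →
      ∀ (R : Sylow r G) (S : Sylow s G), ∀ x ∈ (R : Subgroup G), ∀ k ∈ (S : Subgroup G) ⊓ K0,
        Commute k x := by
    intro r s hr hs hrs R S x hx k hk
    have hrp : r.Prime := by rcases hr with rfl | rfl | rfl <;> norm_num
    have hsp : s.Prime := by rcases hs with rfl | rfl | rfl <;> norm_num
    have h1 : x * k * x⁻¹ * k⁻¹ ∈ (S : Subgroup G) :=
      mul_mem (Subgroup.mem_inf.1 (hO s hs S x k hk)).1 (inv_mem (Subgroup.mem_inf.1 hk).1)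
    have h2 : x * k * x⁻¹ * k⁻¹ ∈ (R : Subgroup G) := by
      rw [show x * k * x⁻¹ * k⁻¹ = x * (k * x⁻¹ * k⁻¹) by group]
      exact mul_mem hx ((Subgroup.mem_normalizer_iff.1 (hnorm r hr R (Subgroup.mem_inf.1 hk).2) _).1
        (inv_mem hx))
    obtain ⟨i, hi⟩ := R.isPGroup' ⟨_, h2⟩
    obtain ⟨j, hj⟩ := S.isPGroup' ⟨_, h1⟩
    have hd := Nat.dvd_gcd (orderOf_dvd_of_pow_eq_one (congrArg Subtype.val hi :))
      (orderOf_dvd_of_pow_eq_one (congrArg Subtype.val hj :))
    rw [((Nat.coprime_primes hrp hsp).2 hrs).pow i j |>.gcd_eq_one, Nat.dvd_one,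
      orderOf_eq_one_iff] at hd
    have h3 : x * k * x⁻¹ = k := mul_inv_eq_one.1 hd
    exact (mul_inv_eq_iff_eq_mul.1 h3).symm
  have hYprimes : ∀ r : ℕ, r.Prime → r ∣ Nat.card Y → r = 2 ∨ r = 3 ∨ r = 17 := by
    intro r hr hd
    have hd' : r ∣ 2 ^ 5 * (3 ^ 2 * 17) := by
      refine hd.trans ?_
      rcases hYadm.eq_range.1 with h | h <;> rw [h]
      · rw [card_piSL_range]; norm_num
      · rw [card_piGL_range]; norm_num
    rcases hr.dvd_mul.1 hd' with h | h
    · exact Or.inl ((Nat.prime_dvd_prime_iff_eq hr Nat.prime_two).1 (hr.dvd_of_dvd_pow h))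
    · rcases hr.dvd_mul.1 h with h | h
      · exact Or.inr (Or.inl ((Nat.prime_dvd_prime_iff_eq hr Nat.prime_three).1 (hr.dvd_of_dvd_pow h)))
      · exact Or.inr (Or.inr ((Nat.prime_dvd_prime_iff_eq hr (by norm_num)).1 h))
  have hprimes : ∀ r : ℕ, r.Prime → r ∣ Nat.card G → r = 2 ∨ r = 3 ∨ r = 17 := by
    intro r hr hd
    by_contra hcon
    have : Fact r.Prime := ⟨hr⟩
    have hn : Nat.card (Sylow r G) = 17 * 8 ∨ Nat.card (Sylow r G) = 17 * 9 := by
      rcases hprime r hr hd with ⟨-, h⟩ | ⟨h, -⟩ | ⟨h, -⟩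
      · exact absurd (Or.inr (Or.inr h)) hcon
      · exact Or.inl h
      · exact Or.inr h
    have hr17 : ¬ r ∣ 16 := by
      intro h
      rw [show (16 : ℕ) = 2 ^ 4 by norm_num] at h
      exact hcon (Or.inl ((Nat.prime_dvd_prime_iff_eq hr Nat.prime_two).1 (hr.dvd_of_dvd_pow h)))
    obtain ⟨U⟩ : Nonempty (Sylow r G) := inferInstance
    have hUK : (U : Subgroup G) ≤ K0 := by
      intro u hu
      rw [hK0, MonoidHom.mem_ker, ← orderOf_eq_one_iff]
      obtain ⟨k, hk⟩ := U.isPGroup' ⟨u, hu⟩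
      obtain ⟨i, -, hi⟩ := (Nat.dvd_prime_pow hr).1 (orderOf_dvd_of_pow_eq_one
        (show (ψ.rangeRestrict u) ^ r ^ k = 1 by
          rw [← map_pow, show u ^ r ^ k = 1 from congrArg Subtype.val hk, map_one]))
      rcases i with _ | i
      · exact hi
      · exfalso
        apply hcon (hYprimes r hr ?_)
        refine (dvd_pow_self r (by omega : i + 1 ≠ 0)).trans ?_
        rw [← hi]
        exact orderOf_dvd_natCard _
    -- the conjugation action: `17 ≡ 1 (mod r)`
    have hFr : Subgroup.normalizer ((U : Subgroup G) : Set G) ⊔ K0 = ⊤ := by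
      have h := Sylow.normalizer_sup_eq_top (N := K0) (U.subtype hUK)
      rwa [Sylow.coe_subtype, Subgroup.subgroupOf_map_subtype, inf_eq_left.2 hUK] at h
    set N := Subgroup.normalizer ((U : Subgroup G) : Set G) ⊓ K0 with hN
    have hKi : Nat.card K0 = Nat.card (Sylow r G) * Nat.card N := by
      set Nn := Subgroup.normalizer ((U : Subgroup G) : Set G) with hNn
      have h := Subgroup.relIndex_sup_right (H := Nn) (K := K0)
      rw [hFr, Subgroup.relIndex_top_right] at h
      have h2 : Nat.card Nn = Nat.card N * K0.index := by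
        rw [hN, h, ← Subgroup.inf_relIndex_left, Subgroup.relIndex,
          ← Nat.card_congr (Subgroup.subgroupOfEquivOfLe (inf_le_left : Nn ⊓ K0 ≤ Nn)).toEquiv]
        exact (Subgroup.card_mul_index _).symm
      have h3 : Nat.card (Sylow r G) = Nn.index := Sylow.card_eq_index_normalizer U
      have h4 := Subgroup.card_mul_index K0
      have h5 := Subgroup.index_mul_card Nn
      rw [← h3, h2, ← h4, ← mul_assoc] at h5
      exact (Nat.eq_of_mul_eq_mul_right (Nat.pos_of_ne_zero Subgroup.index_ne_zero_of_finite) h5).symm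
    -- the Sylow 17-subgroup of the kernel
    obtain ⟨R⟩ : Nonempty (Sylow 17 G) := inferInstance
    set O := (R : Subgroup G) ⊓ K0 with hOdef
    have hOn : O.Normal := ⟨fun x hx g => hO 17 (by simp) R g x hx⟩
    obtain ⟨a, ha⟩ := IsPGroup.iff_card.1 (R.isPGroup'.to_le (inf_le_left : O ≤ R))
    have hOmax : ∀ L : Subgroup G, L ≤ K0 → IsPGroup 17 L → L ≤ O := by
      intro L hL hLp x hx
      have hle : Subgroup.zpowers x ≤ Subgroup.normalizer ((R : Subgroup G) : Set G) := by
        rw [Subgroup.zpowers_le]; exact hnorm 17 (by simp) R (hL hx)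
      have hp' : IsPGroup 17 (Subgroup.zpowers x) := hLp.to_le ((Subgroup.zpowers_le).2 hx)
      have := (inf_eq_left.2 hle).symm.trans (hp'.inf_normalizer_sylow R)
      exact Subgroup.mem_inf.2 ⟨(inf_eq_left.1 this.symm) (Subgroup.mem_zpowers _), hL hx⟩
    have hK17 : (Nat.card K0).factorization 17 = a := by
      obtain ⟨T⟩ : Nonempty (Sylow 17 ↥K0) := inferInstance
      have hle : Nat.card (T : Subgroup ↥K0) ≤ Nat.card O := by
        rw [← Subgroup.card_map_of_injective K0.subtype_injective (K := (T : Subgroup ↥K0))]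
        exact Subgroup.card_le_of_le (hOmax _ (Subgroup.map_subtype_le _) (T.isPGroup'.map _))
      rw [T.card_eq_multiplicity, ha] at hle
      have hge : 17 ^ a ∣ Nat.card K0 := ha ▸ Subgroup.card_dvd_of_le inf_le_right
      have h1 := ((Fact.out : Nat.Prime 17).pow_dvd_iff_le_factorization Nat.card_pos.ne').1 hge
      have h2 := (Nat.pow_le_pow_iff_right (show 1 < 17 by norm_num)).1 hle
      omega
    set C := O ⊓ Subgroup.centralizer ((U : Subgroup G) : Set G) with hC
    have hCN : C ≤ N := by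
      intro x hx
      obtain ⟨hxO, hxC⟩ := Subgroup.mem_inf.1 hx
      refine Subgroup.mem_inf.2 ⟨Subgroup.centralizer_le_normalizer _ hxC, (Subgroup.mem_inf.1 hxO).2⟩
    obtain ⟨c, hc⟩ := IsPGroup.iff_card.1 (R.isPGroup'.to_le ((inf_le_left : C ≤ O).trans inf_le_left))
    have hN17 : (Nat.card N).factorization 17 = c := by
      obtain ⟨T⟩ : Nonempty (Sylow 17 ↥N) := inferInstance
      have hTC : (T : Subgroup ↥N).map N.subtype ≤ C := by
        intro x hx
        have hxN := Subgroup.map_subtype_le _ hx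
        have hxO : x ∈ O := hOmax _ ((Subgroup.map_subtype_le _).trans inf_le_right) (T.isPGroup'.map _) hx
        refine Subgroup.mem_inf.2 ⟨hxO, ?_⟩
        rw [Subgroup.mem_centralizer_iff]
        intro u hu
        have h1 : u * x * u⁻¹ * x⁻¹ ∈ O := mul_mem (hOn.conj_mem x hxO u) (inv_mem hxO)
        have h2 : u * x * u⁻¹ * x⁻¹ ∈ (U : Subgroup G) := by
          rw [show u * x * u⁻¹ * x⁻¹ = u * (x * u⁻¹ * x⁻¹) by group]
          exact mul_mem hu ((Subgroup.mem_normalizer_iff.1 (Subgroup.mem_inf.1 hxN).1 _).1 (inv_mem hu))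
        obtain ⟨i, hi⟩ := U.isPGroup' ⟨_, h2⟩
        obtain ⟨j, hj⟩ := R.isPGroup' ⟨_, (Subgroup.mem_inf.1 h1).1⟩
        have hd := Nat.dvd_gcd (orderOf_dvd_of_pow_eq_one (congrArg Subtype.val hi :))
          (orderOf_dvd_of_pow_eq_one (congrArg Subtype.val hj :))
        rw [((Nat.coprime_primes hr (by norm_num)).2 fun h => hcon (Or.inr (Or.inr h))).pow i j
          |>.gcd_eq_one, Nat.dvd_one, orderOf_eq_one_iff, mul_inv_eq_one, mul_inv_eq_iff_eq_mul] at hd
        exact hd
      have hle := Subgroup.card_le_of_le hTC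
      rw [Subgroup.card_map_of_injective N.subtype_injective, T.card_eq_multiplicity, hc] at hle
      have h1 := ((Fact.out : Nat.Prime 17).pow_dvd_iff_le_factorization Nat.card_pos.ne').1
        (hc ▸ Subgroup.card_dvd_of_le hCN : 17 ^ c ∣ Nat.card N)
      have h2 := (Nat.pow_le_pow_iff_right (show 1 < 17 by norm_num)).1 hle
      omega
    have hac : a = c + 1 := by
      rw [hKi, Nat.factorization_mul Nat.card_pos.ne' Nat.card_pos.ne', Finsupp.add_apply, hN17]
        at hK17
      have : (Nat.card (Sylow r G)).factorization 17 = 1 := by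
        rcases hn with h | h <;> rw [h, Nat.factorization_mul (by norm_num) (by norm_num),
          Finsupp.add_apply, (show Nat.Prime 17 by norm_num).factorization_self,
          Nat.factorization_eq_zero_of_not_dvd (by norm_num)]
      omega
    have hmodr := card_fixed_conj r U.isPGroup' (O := O)
      (by rw [Subgroup.normalizer_eq_top]; exact le_top)
    rw [← hC, ha, hc, hac, pow_succ] at hmodr
    have h16 : r ∣ 17 ^ c * 16 := by
      have := (Nat.modEq_iff_dvd' (Nat.le_mul_of_pos_right _ (by norm_num))).1 hmodr.symm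
      rwa [← Nat.mul_sub_one] at this
    rcases hr.dvd_mul.1 h16 with h | h
    · exact hcon (Or.inr (Or.inr ((Nat.prime_dvd_prime_iff_eq hr (by norm_num)).1 (hr.dvd_of_dvd_pow h))))
    · exact hr17 h
  have hKbot : K0 = ⊥ := by
    by_contra hne
    obtain ⟨s, hs, hsd⟩ := Nat.exists_prime_and_dvd
      (fun h : Nat.card K0 = 1 => hne (Subgroup.eq_bot_of_card_eq _ h))
    have hs' := hprimes s hs (hsd.trans (Subgroup.card_subgroup_dvd_card _))
    have : Fact s.Prime := ⟨hs⟩
    obtain ⟨x, hx⟩ := exists_prime_orderOf_dvd_card' s hsd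
    have hxG : orderOf (x : G) = s := by rw [Subgroup.orderOf_coe]; exact hx
    obtain ⟨S, hS⟩ := (IsPGroup.iff_card.2 ⟨1, by rw [Nat.card_zpowers, hxG, pow_one]⟩ :
      IsPGroup s (Subgroup.zpowers (x : G))).exists_le_sylow
    have hNne : (S : Subgroup G) ⊓ K0 ≠ ⊥ := by
      intro h
      have : (x : G) ∈ (S : Subgroup G) ⊓ K0 := Subgroup.mem_inf.2 ⟨hS (Subgroup.mem_zpowers _), x.2⟩
      rw [h, Subgroup.mem_bot] at this
      rw [this, orderOf_one] at hxG
      exact hs.ne_one hxG.symm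
    have hnormal : ((S : Subgroup G) ⊓ K0).Normal := ⟨fun x hx g => hO s hs' S g x hx⟩
    obtain ⟨z, hz, hz1, hzc⟩ := exists_ne_one_commute s S.isPGroup'
      (inf_le_left : (S : Subgroup G) ⊓ K0 ≤ S) (by rw [Subgroup.normalizer_eq_top]; exact le_top) hNne
    apply hz1
    have htop : Subgroup.centralizer ({z} : Set G) = ⊤ := by
      apply eq_top_of_sylow_le
      intro r hr hrd
      rcases eq_or_ne r s with rfl | hrs
      · exact ⟨S, fun x hx => Subgroup.mem_centralizer_singleton_iff.2 (hzc x hx).eq.symm⟩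
      · obtain ⟨R⟩ : Nonempty (Sylow r G) := inferInstance
        exact ⟨R, fun x hx => Subgroup.mem_centralizer_singleton_iff.2
          (hcomm r s (hprimes r hr hrd) hs' hrs R S x hx z hz).eq.symm⟩
    have hzZ : z ∈ Subgroup.center G := Subgroup.mem_center_iff.2 fun g =>
      Subgroup.mem_centralizer_singleton_iff.1 (htop ▸ Subgroup.mem_top g :)
    rw [hZ] at hzZ
    exact Subgroup.mem_bot.1 hzZ
  have hinj : Function.Injective ψ.rangeRestrict := (MonoidHom.ker_eq_bot_iff _).1 hKbot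
  let eG : G ≃* Y := MulEquiv.ofBijective _ ⟨hinj, hsur⟩
  obtain ⟨⟨eS⟩, ⟨eP⟩⟩ := equiv_ranges hF
  rcases hYadm.eq_range.1 with h | h
  · exact Or.inl ⟨(eG.trans (MulEquiv.subgroupCongr h)).trans eS⟩
  · exact Or.inr ⟨(eG.trans (MulEquiv.subgroupCongr h)).trans eP⟩

end Cfsg.Agent.S3641
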