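import Cfsg.Statements.S3648
import Cfsg.Agent.PGLCount35.Model
import Cfsg.Agent.PGLCount35.Counts
import Cfsg.Agent.PGLCount35.Action
import Cfsg.Agent.Dickson.Realize

set_option autoImplicit false
open Cfsg

namespace Cfsg.Agent.S3648

open scoped MatrixGroups

/-- For a finite group X let nse(X) be the set of values of the function 'number of elements of order k' over the element orders k that occur. Let F be a finite field of odd order q > 3 and P = PGL(2, F) = GL(2, F) modulo its centre. If G is a finite group with the same order as P and nse(G) = nse(P), then G is isomorphic to P. -/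
theorem result {F : Type*} [Field F] [Fintype F] (hodd : Odd (Fintype.card F)) (h3 : 3 < Fintype.card F)
    {G : Type*} [Group G] [Finite G] (hcard : Nat.card G = Nat.card (GL (Fin 2) F ⧸ Subgroup.center (GL (Fin 2) F)))
    (hnse : {c : ℕ | 0 < c ∧ ∃ n : ℕ, c = Nat.card {g : G // orderOf g = n}} = {c : ℕ | 0 < c ∧ ∃ n : ℕ, c = Nat.card {g : (GL (Fin 2) F ⧸ Subgroup.center (GL (Fin 2) F)) // orderOf g = n}}) :
    Nonempty (G ≃* (GL (Fin 2) F ⧸ Subgroup.center (GL (Fin 2) F))) := by
  classical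
  obtain ⟨f, hp, hq⟩ := FiniteField.card F (ringChar F)
  set p := ringChar F with hpdef
  have hp2 : p ≠ 2 := by
    intro e
    rw [hq, e] at hodd
    exact Nat.not_odd_iff_even.2 (even_two.pow_of_ne_zero f.ne_zero) hodd
  have h2 : (2 : F) ≠ 0 := Ring.two_ne_zero hp2
  set q := Fintype.card F with hqdef
  have hinv0 := CfsgLib.PGLCount35.card_involutions (F := F) h2
  have hchar0 := CfsgLib.PGLCount35.card_order_char (F := F) (p := p) hp h2
  set r := q * q - 1 with hrdef
  have hqq : 0 < q * q := Nat.mul_pos (by omega) (by omega)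
  have hr : r + 1 = q * q := by omega
  have hN : Nat.card G = q * r := by
    refine hcard.trans ((CfsgLib.Dickson.card_pgl2 (L := F)).trans ?_)
    rw [← hqdef, hrdef]
    obtain ⟨t, ht⟩ : ∃ t, q = t + 1 := ⟨q - 1, by omega⟩
    rw [ht, Nat.add_sub_cancel, show (t + 1) * (t + 1) = (t + 1 + 1) * t + 1 by ring,
      Nat.add_sub_cancel]
    ring
  have hinv : ∃ n, Cfsg.Agent.S3995.cnt G n = q * q := by
    have hmem : q * q ∈ {c : ℕ | 0 < c ∧ ∃ n : ℕ, c = Nat.card {g : G // orderOf g = n}} := by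
      rw [hnse]
      exact ⟨hqq, 2, hinv0.symm⟩
    obtain ⟨-, n, hn⟩ := hmem
    exact ⟨n, hn.symm⟩
  have hv : ∀ n, 0 < Cfsg.Agent.S3995.cnt G n → Cfsg.Agent.S3995.cnt G n = 1 ∨
      Cfsg.Agent.S3995.cnt G n = r ∨ q ∣ Cfsg.Agent.S3995.cnt G n := by
    intro n hn
    have hmem : Cfsg.Agent.S3995.cnt G n ∈
        {c : ℕ | 0 < c ∧ ∃ n : ℕ, c = Nat.card {g : G // orderOf g = n}} := ⟨hn, n, rfl⟩
    rw [hnse] at hmem
    obtain ⟨-, m, hm⟩ := hmem
    by_cases hm1 : m = 1
    · left
      rw [hm, hm1]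
      exact CfsgLib.PGLCount35.cnt_one (G := PGL(2, F))
    by_cases hmp : m = p
    · right; left
      rw [hm, hmp]
      exact hchar0
    · right; right
      rw [hm]
      exact CfsgLib.PGLCount35.card_dvd_other (F := F) hp hm1 hmp
  obtain ⟨h1, h2', h3'⟩ := CfsgLib.PGLCount35.facts hp hp2 f.pos hq hr hN hinv hv
  obtain ⟨K, iF, iT, hK, ⟨e⟩⟩ := CfsgLib.PGLCount35.recognise hp hp2 f.pos hq hr hN h1 h2' h3'
  obtain ⟨i⟩ := CfsgLib.Dickson.pgl_congr (FiniteField.ringEquivOfCardEq (K := K) (K' := F) hK)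
  exact ⟨e.trans i⟩

end Cfsg.Agent.S3648
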