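import Cfsg.Statements.S3662
import Cfsg.Agent.G2Oct.GraphCover
import Cfsg.Agent.S1059

set_option autoImplicit false
open Cfsg

namespace Cfsg.Agent.S3662

/-- The prime graph of a finite group has the prime divisors of its order as vertices, two distinct primes p, q being joined when the group has an element of order pq; two groups have the same prime graph when they have the same prime divisors and the same joined pairs. Let F be the field with 4 elements and L the Chevalley group of type G₂ over F. There are finite groups of arbitrarily large order with the same prime graph as L. -/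
theorem result {F : Type*} [Field F] [Fintype F] (hF : Fintype.card F = 4) (N : ℕ) :
    ∃ (H : Type) (_ : Group H) (_ : Finite H), N < Nat.card H ∧
      ((∀ p : ℕ, p.Prime → (p ∣ Nat.card ↥(Cfsg.Lie.chevG2.group F) ↔ p ∣ Nat.card H)) ∧
      (∀ p q : ℕ, p.Prime → q.Prime → p ≠ q → ((∃ g : ↥(Cfsg.Lie.chevG2.group F), orderOf g = p * q) ↔ (∃ g : H, orderOf g = p * q)))) := by
  classical
  have := CfsgLib.G2Oct.charP_two_of_card_four hF
  let iso := CfsgLib.G2Oct.chevIso F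
  have hcardG : Nat.card ↥(Cfsg.Lie.G2 F) = 4 ^ 6 * (4 ^ 2 - 1) * (4 ^ 6 - 1) :=
    (Nat.card_congr iso.toEquiv).trans (Cfsg.Agent.S1059.result hF)
  have hprimes : ∀ r : ℕ, r.Prime → r ∣ Nat.card ↥(Cfsg.Lie.G2 F) →
      r = 2 ∨ r = 3 ∨ r = 5 ∨ r = 7 ∨ r = 13 := by
    intro r hr hd
    rw [hcardG, show (4 : ℕ) ^ 6 * (4 ^ 2 - 1) * (4 ^ 6 - 1) =
      2 ^ 12 * 3 ^ 3 * 5 ^ 2 * 7 * 13 from rfl] at hd
    rcases (Nat.Prime.dvd_mul hr).1 hd with hd | hd
    rotate_left
    · exact Or.inr (Or.inr (Or.inr (Or.inr ((Nat.prime_dvd_prime_iff_eq hr (by norm_num)).1 hd))))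
    rcases (Nat.Prime.dvd_mul hr).1 hd with hd | hd
    rotate_left
    · exact Or.inr (Or.inr (Or.inr (Or.inl ((Nat.prime_dvd_prime_iff_eq hr (by norm_num)).1 hd))))
    rcases (Nat.Prime.dvd_mul hr).1 hd with hd | hd
    rotate_left
    · exact Or.inr (Or.inr (Or.inl ((Nat.prime_dvd_prime_iff_eq hr (by norm_num)).1 (hr.dvd_of_dvd_pow hd))))
    rcases (Nat.Prime.dvd_mul hr).1 hd with hd | hd
    · exact Or.inl ((Nat.prime_dvd_prime_iff_eq hr (by norm_num)).1 (hr.dvd_of_dvd_pow hd))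
    · exact Or.inr (Or.inl ((Nat.prime_dvd_prime_iff_eq hr (by norm_num)).1 (hr.dvd_of_dvd_pow hd)))
  let X := CfsgLib.G2Oct.G2Cover F (N + 1)
  have : Finite X := Finite.of_equiv _ SemidirectProduct.equivProd.symm
  have : Small.{0} X := ⟨⟨Fin (Nat.card X), ⟨Finite.equivFin X⟩⟩⟩
  have : Finite (Shrink.{0} X) := Finite.of_equiv _ (equivShrink X)
  let eH : Shrink.{0} X ≃* X := Shrink.mulEquiv
  have hcardW : 2 ≤ Nat.card (CfsgLib.G2Oct.oWq F) := by
    have : Nontrivial (CfsgLib.G2Oct.oWq F) := by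
      refine Submodule.Quotient.nontrivial_iff.2 fun htop => ?_
      have hx : (Pi.single 1 1 : Fin 8 → F) ∈ CfsgLib.G2Oct.oTperp F := by
        simp [CfsgLib.G2Oct.oTperp, CfsgLib.G2Oct.polarB, CfsgLib.G2Oct.octOne, CfsgLib.G2Oct.zMk]
      have h1 : (⟨_, hx⟩ : CfsgLib.G2Oct.oTperp F) ∈ CfsgLib.G2Oct.oLine F := htop ▸ Submodule.mem_top
      obtain ⟨c, hc⟩ := Submodule.mem_span_singleton.1 (Submodule.mem_comap.1 h1)
      have hc1 := congrFun hc 1
      simp [CfsgLib.G2Oct.octOne, CfsgLib.G2Oct.zMk] at hc1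
    exact Finite.one_lt_card
  have hX : Nat.card X = Nat.card (CfsgLib.G2Oct.oWq F) ^ (N + 1) * Nat.card ↥(Cfsg.Lie.G2 F) := by
    rw [SemidirectProduct.card, Nat.card_congr Multiplicative.toAdd, Nat.card_fun, Nat.card_fin]
  refine ⟨Shrink.{0} X, inferInstance, inferInstance, ?_, fun p hp => ?_, fun p q hp hq hpq => ?_⟩
  · rw [Nat.card_congr eH.toEquiv, hX]
    calc N < N + 1 := Nat.lt_succ_self N
      _ < 2 ^ (N + 1) := Nat.lt_two_pow_self
      _ ≤ Nat.card (CfsgLib.G2Oct.oWq F) ^ (N + 1) := Nat.pow_le_pow_left hcardW _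
      _ ≤ _ := Nat.le_mul_of_pos_right _ Nat.card_pos
  · rw [Nat.card_congr eH.toEquiv, hX, ← Nat.card_congr iso.toEquiv]
    refine ⟨fun h => h.trans (dvd_mul_left _ _), fun h => ?_⟩
    rcases (Nat.Prime.dvd_mul hp).1 h with h | h
    · have h2 : IsPGroup 2 (Multiplicative (CfsgLib.G2Oct.oWq F)) := fun v => ⟨1, by
        rw [pow_one, pow_two]
        refine Multiplicative.toAdd.injective ?_
        show v.toAdd + v.toAdd = 0
        rw [← two_smul F, CharTwo.two_eq_zero, zero_smul]⟩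
      obtain ⟨k, hk⟩ := IsPGroup.iff_card.1 h2
      rw [Nat.card_congr Multiplicative.toAdd] at hk
      rw [hk] at h
      rw [(Nat.prime_dvd_prime_iff_eq hp Nat.prime_two).1 (hp.dvd_of_dvd_pow (hp.dvd_of_dvd_pow h)),
        hcardG]
      norm_num
    · exact h
  · have h1 : (∃ g : ↥(Cfsg.Lie.chevG2.group F), orderOf g = p * q) ↔
        ∃ g : ↥(Cfsg.Lie.G2 F), orderOf g = p * q :=
      ⟨fun ⟨g, hg⟩ => ⟨iso.symm g, by rw [MulEquiv.orderOf_eq, hg]⟩,
        fun ⟨g, hg⟩ => ⟨iso g, by rw [MulEquiv.orderOf_eq, hg]⟩⟩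
    rw [h1, CfsgLib.G2Oct.graph_iff hF (N + 1) hprimes p q hp hq hpq]
    exact ⟨fun ⟨g, hg⟩ => ⟨eH.symm g, (MulEquiv.orderOf_eq eH.symm g).trans hg⟩,
      fun ⟨g, hg⟩ => ⟨eH g, (MulEquiv.orderOf_eq eH g).trans hg⟩⟩

end Cfsg.Agent.S3662
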