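import Cfsg.Statements.S3669
import Cfsg.Agent.Eq.Def_DegreeGraph
import Cfsg.Agent.Frobenius57.DegreeSixty
import Cfsg.Agent.Frobenius57.SimpleSixty

set_option autoImplicit false
open Cfsg

namespace Cfsg.Agent.S3669

/-- The character degree graph of a finite group has as vertices the primes dividing some irreducible complex character degree, two distinct primes being joined when their product divides some irreducible character degree; two groups have the same character degree graph when they have the same vertices and the same joined pairs. A finite group of order 60 with the same character degree graph as the alternating group A₅ (whose character degrees are 1, 3, 4, 5, so the graph has vertices 2, 3, 5 and no edges) is isomorphic to A₅. -/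
theorem result {G : Type*} [Group G] [Finite G] (hcard : Nat.card G = 60)
    (hΓ : Cfsg.degreePrimes G = Cfsg.degreePrimes (alternatingGroup (Fin 5)) ∧ Cfsg.degreeGraph G = Cfsg.degreeGraph (alternatingGroup (Fin 5))) : Nonempty (G ≃* alternatingGroup (Fin 5)) := by
  haveI := CfsgLib.DegreeSixty.isSimple_of_degree_graph hcard hΓ.1 hΓ.2
  exact CfsgLib.SimpleSixty.nonempty_mulEquiv_alt_five hcard

end Cfsg.Agent.S3669
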