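import Cfsg.Statements.S3678
import Cfsg.Agent.PrimeGraph57.SL2Seven

set_option autoImplicit false
open Cfsg

namespace Cfsg.Agent.S3678

/-- The prime graph of a finite group has the prime divisors of its order as vertices, two distinct primes p, q being joined when the group has an element of order pq; two groups have the same prime graph when they have the same prime divisors and the same joined pairs. Let F be the field with 7 elements. There are finite groups of arbitrarily large order with the same prime graph as PSL(2,F) (the graph on {2, 3, 7} with no edges, which is also the prime graph of PSL(2,8)). -/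
theorem result {F : Type*} [Field F] [Fintype F] (hF : Fintype.card F = 7) (N : ℕ) :
    ∃ (H : Type) (_ : Group H) (_ : Finite H), N < Nat.card H ∧
      ((∀ p : ℕ, p.Prime → (p ∣ Nat.card (Matrix.ProjectiveSpecialLinearGroup (Fin 2) F) ↔ p ∣ Nat.card H)) ∧
      (∀ p q : ℕ, p.Prime → q.Prime → p ≠ q → ((∃ g : (Matrix.ProjectiveSpecialLinearGroup (Fin 2) F), orderOf g = p * q) ↔ (∃ g : H, orderOf g = p * q)))) := by
  haveI : Fintype (GaloisField 2 3) := Fintype.ofFinite _
  have h8 : Fintype.card (GaloisField 2 3) = 8 := by
    rw [← Nat.card_eq_fintype_card, GaloisField.card 2 3 (by norm_num)]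
    norm_num
  obtain ⟨hp7, he7⟩ := CfsgLib.PrimeGraph57.psl2_seven_three_isolated hF
  obtain ⟨hp8, he8⟩ := CfsgLib.PrimeGraph57.sl2_eight_three_isolated h8
  exact CfsgLib.PrimeGraph57.sl2_large_group_same_graph (F := GaloisField 2 3) N
    (fun p hp => by rw [hp7 p hp, hp8 p hp])
    (fun p q hp hq hpq => iff_of_false (he7 p q hp hq hpq) (he8 p q hp hq hpq))

end Cfsg.Agent.S3678
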