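import Cfsg.Statements.S3680
import Cfsg.Agent.MinNormal.Primitive

set_option autoImplicit false
open Cfsg

namespace Cfsg.Agent.S3680

open MulAction CfsgLib.MinNormal

theorem sSup_eq_of_forall {G : Type*} [Group G] (A : Subgroup G) (S : Set (Subgroup G))
    (hA : A ∈ S) (h : ∀ B ∈ S, B ≤ A) : sSup S = A :=
  le_antisymm (sSup_le h) (le_sSup hA)


/-- The socle of a finite primitive permutation group. Let a finite group G act faithfully and primitively on a set Ω, and let N be the subgroup generated by the minimal normal subgroups of G. Then either N is an elementary abelian p-group for some prime p and acts regularly on Ω (transitively with trivial point stabilizers), or N is isomorphic to a direct product of m ≥ 1 copies of a non-abelian simple group. -/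
theorem result {G Ω : Type*} [Group G] [Finite G] [MulAction G Ω] [FaithfulSMul G Ω] [Finite Ω]
    (hprim : MulAction.IsPreprimitive G Ω) (N : Subgroup G)
    (hN : N = sSup {V : Subgroup G | V.Normal ∧ V ≠ ⊥ ∧ ∀ M : Subgroup G, M.Normal → M ≤ V → M = ⊥ ∨ M = V}) :
    (∃ p : ℕ, p.Prime ∧ IsMulCommutative N ∧ (∀ x : N, x ^ p = 1) ∧
      MulAction.IsPretransitive N Ω ∧ ∀ ω : Ω, MulAction.stabilizer N ω = ⊥) ∨
    (∃ (T : Type) (_ : Group T) (m : ℕ), 1 ≤ m ∧ IsSimpleGroup T ∧ ¬ IsMulCommutative T ∧ Nonempty (N ≃* (Fin m → T))) := by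
  haveI := hprim
  set S := {V : Subgroup G | V.Normal ∧ V ≠ ⊥ ∧ ∀ M : Subgroup G, M.Normal → M ≤ V → M = ⊥ ∨ M = V}
    with hS
  have hmemS : ∀ V, V ∈ S ↔ IsMinNormal V := fun V =>
    ⟨fun h => ⟨h.1, h.2.1, h.2.2⟩, fun h => ⟨h.normal, h.ne_bot, h.eq_or_eq⟩⟩
  rcases subsingleton_or_nontrivial G with hsub | hnt
  · -- the trivial group
    refine Or.inl ⟨2, Nat.prime_two, ⟨⟨fun x y => Subsingleton.elim _ _⟩⟩,
      fun x => Subsingleton.elim _ _, ⟨fun x y => ?_⟩, fun ω => eq_bot_iff.2 fun x _ =>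
        Subgroup.mem_bot.2 (Subsingleton.elim _ _)⟩
    obtain ⟨g, hg⟩ := exists_smul_eq G x y
    exact ⟨1, by rw [← hg, Subsingleton.elim g 1]; simp⟩
  haveI : Nonempty Ω := by
    by_contra he
    rw [not_nonempty_iff] at he
    obtain ⟨g, hg⟩ := exists_ne (1 : G)
    exact hg (FaithfulSMul.eq_of_smul_eq_smul (α := Ω) fun x => he.elim x)
  obtain ⟨V, hV⟩ := exists_isMinNormal (G := G)
  rcases hV.primitive_cases (X := Ω) with ⟨hab, -, hreg, huniq⟩ | ⟨hna, -, huniq⟩ |
    ⟨hna, -, M, hM, hMV, hMC, ⟨e⟩, -, huniq⟩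
  · have hNV : N = V := hN.trans (sSup_eq_of_forall V S ((hmemS V).2 hV)
      fun B hB => (huniq B ((hmemS B).1 hB)).le)
    subst hNV
    obtain ⟨p, hp, hx⟩ := hV.exists_prime_pow_eq_one hab
    exact Or.inl ⟨p, hp, hab, fun x => Subtype.ext (hx x x.2),
      isPretransitive_of_normal hV.normal hV.ne_bot, hreg⟩
  · have hNV : N = V := hN.trans (sSup_eq_of_forall V S ((hmemS V).2 hV)
      fun B hB => (huniq B ((hmemS B).1 hB)).le)
    subst hNV
    obtain ⟨T, iT, m, hT, hm, hc, he⟩ := hV.exists_mulEquiv_pi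
    exact Or.inr ⟨T, iT, m, hm, hT, fun h => hna (hc h), he⟩
  · have hNV : N = V ⊔ M := by
      refine hN.trans (le_antisymm (sSup_le fun B hB => ?_) ?_)
      · rcases huniq B ((hmemS B).1 hB) with h | h <;> subst h
        · exact le_sup_left
        · exact le_sup_right
      · exact sup_le (le_sSup ((hmemS V).2 hV)) (le_sSup ((hmemS M).2 hM))
    obtain ⟨T, iT, m, hT, hm, hc, ⟨eT⟩⟩ := hV.exists_mulEquiv_pi
    let φ : V × M →* G := (V.subtype).noncommCoprod M.subtype
      (fun x y => hV.commute_of_ne hM hMV.symm x.2 y.2)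
    have hφ : Function.Injective φ := by
      rw [MonoidHom.noncommCoprod_injective]
      refine ⟨V.subtype_injective, M.subtype_injective, ?_⟩
      rw [Subgroup.range_subtype, Subgroup.range_subtype, disjoint_iff]
      exact hV.inf_eq_bot_of_ne hM hMV.symm
    have hrange : φ.range = N := by
      rw [hNV, MonoidHom.noncommCoprod_range, Subgroup.range_subtype, Subgroup.range_subtype]
    let e1 : N ≃* V × M := ((MonoidHom.ofInjective hφ).trans (MulEquiv.subgroupCongr hrange)).symm
    let e2 : V × M ≃* (Fin m → T) × (Fin m → T) := eT.prodCongr (e.symm.trans eT)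
    let e3 : (Fin m → T) × (Fin m → T) ≃* (Fin (m + m) → T) :=
      { toEquiv := (Equiv.sumArrowEquivProdArrow (Fin m) (Fin m) T).symm.trans
          (Equiv.arrowCongr finSumFinEquiv (Equiv.refl T))
        map_mul' := fun x y => by
          funext i
          show Sum.elim (x * y).1 (x * y).2 (finSumFinEquiv.symm i) =
            Sum.elim x.1 x.2 (finSumFinEquiv.symm i) * Sum.elim y.1 y.2 (finSumFinEquiv.symm i)
          cases finSumFinEquiv.symm i <;> rfl }
    exact Or.inr ⟨T, iT, m + m, by omega, hT, fun h => hna (hc h), ⟨(e1.trans e2).trans e3⟩⟩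

end Cfsg.Agent.S3680
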