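import Cfsg.Statements.S3687
import Cfsg.Agent.Suborbit.AltShape

set_option autoImplicit false
open Cfsg

namespace Cfsg.Agent.S3687

open CfsgLib.Suborbit MulAction in
theorem shape_cases {A : Type*} [Group A] {m n : ℕ} (hm : 5 ≤ m) (hn : 5 ≤ n)
    (Φ : A →* Equiv.Perm (Fin m) × Equiv.Perm (Fin n)) (hΦ : Function.Injective Φ)
    (h1 : ∀ σ ∈ alt (Fin m), (σ, 1) ∈ Φ.range) (h2 : ∀ τ ∈ alt (Fin n), (1, τ) ∈ Φ.range) :
    (((MonoidHom.fst _ _).comp Φ).range = alternatingGroup (Fin m) ∧
      (Nonempty (A ≃* alternatingGroup (Fin m) × alternatingGroup (Fin n)) ∨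
        ((MonoidHom.snd _ _).comp Φ).range = ⊤ ∧
          Nonempty (A ≃* alternatingGroup (Fin m) × Equiv.Perm (Fin n)))) ∨
    (((MonoidHom.fst _ _).comp Φ).range = ⊤ ∧
      (Nonempty (A ≃* Equiv.Perm (Fin m) × Equiv.Perm (Fin n)) ∨
       Nonempty (A ≃* Equiv.Perm (Fin m) × alternatingGroup (Fin n)) ∨
       Nonempty (A ≃* ((Equiv.Perm.sign.comp (MonoidHom.fst (Equiv.Perm (Fin m)) (Equiv.Perm (Fin n)))) *
         (Equiv.Perm.sign.comp (MonoidHom.snd (Equiv.Perm (Fin m)) (Equiv.Perm (Fin n))))).ker))) := by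
  haveI : Nontrivial (Fin m) := Fin.nontrivial_iff_two_le.2 (by omega)
  haveI : Nontrivial (Fin n) := Fin.nontrivial_iff_two_le.2 (by omega)
  obtain ⟨σ, hσ⟩ : ∃ σ : Equiv.Perm (Fin m), Equiv.Perm.sign σ = -1 :=
    Equiv.Perm.sign_surjective _ (-1)
  obtain ⟨τ, hτ⟩ : ∃ τ : Equiv.Perm (Fin n), Equiv.Perm.sign τ = -1 :=
    Equiv.Perm.sign_surjective _ (-1)
  have key : ∀ x ∈ Φ.range, ∀ y : Equiv.Perm (Fin m) × Equiv.Perm (Fin n),
      Equiv.Perm.sign y.1 = Equiv.Perm.sign x.1 → Equiv.Perm.sign y.2 = Equiv.Perm.sign x.2 →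
      y ∈ Φ.range := fun x hx y e1 e2 => mem_of_signs hm hn h1 h2 hx e1 e2
  have hfst : ∀ s, s ∈ ((MonoidHom.fst _ _).comp Φ).range ↔ ∃ t, (s, t) ∈ Φ.range := fun s =>
    ⟨fun ⟨x, hx⟩ => ⟨(Φ x).2, x, Prod.ext hx rfl⟩, fun ⟨t, x, hx⟩ => ⟨x, congrArg Prod.fst hx⟩⟩
  have hsnd : ∀ t, t ∈ ((MonoidHom.snd _ _).comp Φ).range ↔ ∃ s, (s, t) ∈ Φ.range := fun t =>
    ⟨fun ⟨x, hx⟩ => ⟨(Φ x).1, x, Prod.ext rfl hx⟩, fun ⟨s, x, hx⟩ => ⟨x, congrArg Prod.snd hx⟩⟩
  let e := MonoidHom.ofInjective hΦ
  by_cases hp : (σ, (1 : Equiv.Perm (Fin n))) ∈ Φ.range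
  · refine Or.inr ⟨eq_top_iff.2 fun s _ => ?_, ?_⟩
    · rcases Int.units_eq_one_or (Equiv.Perm.sign s) with h | h
      · exact (hfst s).2 ⟨1, key 1 (one_mem _) (s, 1) (by simp [h]) (by simp)⟩
      · exact (hfst s).2 ⟨1, key _ hp (s, 1) (by simp [h, hσ]) (by simp)⟩
    by_cases hq : ((1 : Equiv.Perm (Fin m)), τ) ∈ Φ.range
    · have hall : Φ.range = ⊤ := eq_top_iff.2 fun y _ => by
        rcases Int.units_eq_one_or (Equiv.Perm.sign y.1) with h | h <;>
          rcases Int.units_eq_one_or (Equiv.Perm.sign y.2) with h' | h'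
        · exact key 1 (one_mem _) y (by simp [h]) (by simp [h'])
        · exact key _ hq y (by simp [h]) (by simp [h', hτ])
        · exact key _ hp y (by simp [h, hσ]) (by simp [h'])
        · exact key _ (mul_mem hp hq) y (by simp [h, hσ]) (by simp [h', hτ])
      exact Or.inl ⟨(e.trans (MulEquiv.subgroupCongr hall)).trans Subgroup.topEquiv⟩
    · have hall : Φ.range = Subgroup.prod ⊤ (alternatingGroup (Fin n)) := by
        ext y
        rw [Subgroup.mem_prod, Equiv.Perm.mem_alternatingGroup]
        refine ⟨fun hy => ⟨trivial, ?_⟩, fun hy => ?_⟩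
        · rcases Int.units_eq_one_or (Equiv.Perm.sign y.2) with h' | h'
          · exact h'
          exfalso
          apply hq
          rcases Int.units_eq_one_or (Equiv.Perm.sign y.1) with h | h
          · exact key y hy _ (by simp [h]) (by simp [h', hτ])
          · exact key _ (mul_mem hp hy) _ (by simp [h, hσ]) (by simp [h', hτ])
        · rcases Int.units_eq_one_or (Equiv.Perm.sign y.1) with h | h
          · exact key 1 (one_mem _) y (by simp [h]) (by simp [hy.2])
          · exact key _ hp y (by simp [h, hσ]) (by simp [hy.2])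
      exact Or.inr (Or.inl ⟨((e.trans (MulEquiv.subgroupCongr hall)).trans
        (Subgroup.prodEquiv _ _)).trans (Subgroup.topEquiv.prodCongr (MulEquiv.refl _))⟩)
  by_cases hr : (σ, τ) ∈ Φ.range
  · refine Or.inr ⟨eq_top_iff.2 fun s _ => ?_, Or.inr (Or.inr ?_)⟩
    · rcases Int.units_eq_one_or (Equiv.Perm.sign s) with h | h
      · exact (hfst s).2 ⟨1, key 1 (one_mem _) (s, 1) (by simp [h]) (by simp)⟩
      · exact (hfst s).2 ⟨τ, key _ hr (s, τ) (by simp [h, hσ]) rfl⟩
    refine ⟨e.trans (MulEquiv.subgroupCongr ?_)⟩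
    ext y
    rw [MonoidHom.mem_ker]
    show _ ↔ Equiv.Perm.sign y.1 * Equiv.Perm.sign y.2 = 1
    refine ⟨fun hy => ?_, fun hy => ?_⟩
    · rcases Int.units_eq_one_or (Equiv.Perm.sign y.1) with h | h <;>
        rcases Int.units_eq_one_or (Equiv.Perm.sign y.2) with h' | h'
      · rw [h, h']; rfl
      · exact absurd (key _ (mul_mem hr hy) (σ, 1) (by simp [h, hσ]) (by simp [h', hτ])) hp
      · exact absurd (key _ hy (σ, 1) (by simp [h, hσ]) (by simp [h'])) hp
      · rw [h, h']; rfl
    · rcases Int.units_eq_one_or (Equiv.Perm.sign y.1) with h | h <;>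
        rcases Int.units_eq_one_or (Equiv.Perm.sign y.2) with h' | h'
      · exact key 1 (one_mem _) y (by simp [h]) (by simp [h'])
      · exact absurd hy (by rw [h, h']; decide)
      · exact absurd hy (by rw [h, h']; decide)
      · exact key _ hr y (by simp [h, hσ]) (by simp [h', hτ])
  have hs1 : ∀ y ∈ Φ.range, Equiv.Perm.sign y.1 = 1 := fun y hy => by
    rcases Int.units_eq_one_or (Equiv.Perm.sign y.1) with h | h
    · exact h
    exfalso
    rcases Int.units_eq_one_or (Equiv.Perm.sign y.2) with h' | h'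
    · exact hp (key y hy _ (by simp [h, hσ]) (by simp [h']))
    · exact hr (key y hy _ (by simp [h, hσ]) (by simp [h', hτ]))
  refine Or.inl ⟨?_, ?_⟩
  · ext s
    rw [hfst, Equiv.Perm.mem_alternatingGroup]
    exact ⟨fun ⟨t, ht⟩ => hs1 _ ht,
      fun hs => ⟨1, key 1 (one_mem _) (s, 1) (by simp [hs]) (by simp)⟩⟩
  by_cases hq : ((1 : Equiv.Perm (Fin m)), τ) ∈ Φ.range
  · have hall : Φ.range = Subgroup.prod (alternatingGroup (Fin m)) ⊤ := by
      ext y
      rw [Subgroup.mem_prod, Equiv.Perm.mem_alternatingGroup]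
      refine ⟨fun hy => ⟨hs1 y hy, trivial⟩, fun hy => ?_⟩
      rcases Int.units_eq_one_or (Equiv.Perm.sign y.2) with h' | h'
      · exact key 1 (one_mem _) y (by simp [hy.1]) (by simp [h'])
      · exact key _ hq y (by simp [hy.1]) (by simp [h', hτ])
    refine Or.inr ⟨eq_top_iff.2 fun t _ => (hsnd t).2 ⟨1, ?_⟩,
      ⟨((e.trans (MulEquiv.subgroupCongr hall)).trans (Subgroup.prodEquiv _ _)).trans
        ((MulEquiv.refl _).prodCongr Subgroup.topEquiv)⟩⟩
    rw [hall]
    exact ⟨one_mem _, trivial⟩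
  · have hall : Φ.range = Subgroup.prod (alternatingGroup (Fin m)) (alternatingGroup (Fin n)) := by
      ext y
      rw [Subgroup.mem_prod, Equiv.Perm.mem_alternatingGroup, Equiv.Perm.mem_alternatingGroup]
      refine ⟨fun hy => ⟨hs1 y hy, ?_⟩,
        fun hy => key 1 (one_mem _) y (by simp [hy.1]) (by simp [hy.2])⟩
      rcases Int.units_eq_one_or (Equiv.Perm.sign y.2) with h' | h'
      · exact h'
      exact absurd (key y hy _ (by simp [hs1 y hy]) (by simp [h', hτ])) hq
    exact Or.inl ⟨(e.trans (MulEquiv.subgroupCongr hall)).trans (Subgroup.prodEquiv _ _)⟩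

/-- No group `A_m × S_n` maps onto `A_n` when `n < m`. -/
theorem not_onto_alt {m n : ℕ} (hn : 5 ≤ n) (hmn : n < m) {H : Type*} [Group H] [Finite H]
    (hH : 2 * Nat.card H = n.factorial) :
    ¬ ∃ ρ : alternatingGroup (Fin m) × Equiv.Perm (Fin n) →* H, Function.Surjective ρ := by
  rintro ⟨ρ, hρ⟩
  haveI : Nontrivial (Fin m) := Fin.nontrivial_iff_two_le.2 (by omega)
  haveI := alternatingGroup.isSimpleGroup (α := Fin m) (by simp; omega)
  have hAm : 2 * Nat.card (alternatingGroup (Fin m)) = m.factorial := by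
    rw [two_mul_nat_card_alternatingGroup, Nat.card_perm, Nat.card_fin]
  have hl : (ρ.comp (MonoidHom.inl _ _)).ker = ⊤ := by
    rcases (inferInstance : (ρ.comp (MonoidHom.inl _ _)).ker.Normal).eq_bot_or_eq_top with h | h
    · have h1 := Nat.card_le_card_of_injective _ (MonoidHom.ker_eq_bot_iff _ |>.1 h)
      have h2 := Nat.factorial_lt (by omega : 0 < n) |>.2 hmn
      omega
    · exact h
  have hr : Function.Surjective (ρ.comp (MonoidHom.inr _ _)) := fun y => by
    obtain ⟨⟨u, v⟩, rfl⟩ := hρ y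
    refine ⟨v, ?_⟩
    have hu : ρ (u, 1) = 1 := MonoidHom.mem_ker.1 (hl ▸ Subgroup.mem_top u :
      u ∈ (ρ.comp (MonoidHom.inl _ _)).ker)
    show ρ (1, v) = ρ (u, v)
    rw [show (u, v) = (u, (1 : Equiv.Perm (Fin n))) * (1, v) by simp, map_mul, hu, one_mul]
  have hcard := Subgroup.card_eq_card_quotient_mul_card_subgroup (ρ.comp (MonoidHom.inr _ _)).ker
  rw [Nat.card_congr (QuotientGroup.quotientKerEquivOfSurjective _ hr).toEquiv, Nat.card_perm,
    Nat.card_fin, ← hH, mul_comm 2] at hcard
  have hk2 : 2 = Nat.card (ρ.comp (MonoidHom.inr _ _)).ker :=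
    Nat.eq_of_mul_eq_mul_left Nat.card_pos hcard
  have hne : (ρ.comp (MonoidHom.inr _ _)).ker ≠ ⊥ := fun h => by
    rw [h, Subgroup.card_bot] at hk2
    omega
  have hle := CfsgLib.Suborbit.alt_le_of_normalized (by simpa using hn) hne
    (fun a _ x hx => (inferInstance : (ρ.comp (MonoidHom.inr _ _)).ker.Normal).conj_mem x hx a)
  have h1 := Subgroup.card_le_of_le hle
  have h2 := CfsgLib.Suborbit.two_mul_card_alt (α := Fin n) (by simpa using hn)
  rw [Nat.card_fin] at h2
  have h3 : 120 ≤ n.factorial := Nat.factorial_le hn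
  omega

/-- Let a finite group G act faithfully and primitively on a set Ω, let a and b be points such that the orbit Δ of b under the stabilizer H of a has d ≥ 6 elements, and suppose that the permutation group induced by H on Δ contains the alternating group of Δ (the image of H in the symmetric group of Δ has index at most 2) while H does not act faithfully on Δ. Then either H induces exactly the alternating group of Δ and H is isomorphic to the direct product of the alternating groups of degrees d and d - 1; or H induces the full symmetric group of Δ and H is isomorphic to one of: the direct product of the symmetric groups of degrees d and d - 1, the direct product of the symmetric group of degree d with the alternating group of degree d - 1, or the subgroup of the direct product of the symmetric groups of degrees d and d - 1 consisting of the pairs of permutations with equal signs. -/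
theorem result {G Ω : Type*} [Group G] [Finite G] [MulAction G Ω] [FaithfulSMul G Ω] [Finite Ω]
    (hprim : MulAction.IsPreprimitive G Ω) (a b : Ω) (d : ℕ) (hd : Nat.card (MulAction.orbit (MulAction.stabilizer G a) b) = d) (h6 : 6 ≤ d)
    (halt : (MulAction.toPermHom (MulAction.stabilizer G a) (MulAction.orbit (MulAction.stabilizer G a) b)).range.index ≤ 2)
    (hunf : ¬ Function.Injective (MulAction.toPermHom (MulAction.stabilizer G a) (MulAction.orbit (MulAction.stabilizer G a) b))) :
    ((MulAction.toPermHom (MulAction.stabilizer G a) (MulAction.orbit (MulAction.stabilizer G a) b)).range.index = 2 ∧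
      Nonempty (MulAction.stabilizer G a ≃* alternatingGroup (Fin d) × alternatingGroup (Fin (d - 1)))) ∨
    ((MulAction.toPermHom (MulAction.stabilizer G a) (MulAction.orbit (MulAction.stabilizer G a) b)).range = ⊤ ∧
      (Nonempty (MulAction.stabilizer G a ≃* Equiv.Perm (Fin d) × Equiv.Perm (Fin (d - 1))) ∨
       Nonempty (MulAction.stabilizer G a ≃* Equiv.Perm (Fin d) × alternatingGroup (Fin (d - 1))) ∨
       Nonempty (MulAction.stabilizer G a ≃* ((Equiv.Perm.sign.comp (MonoidHom.fst (Equiv.Perm (Fin d)) (Equiv.Perm (Fin (d - 1))))) *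
         (Equiv.Perm.sign.comp (MonoidHom.snd (Equiv.Perm (Fin d)) (Equiv.Perm (Fin (d - 1)))))).ker))) := by
  haveI := hprim
  obtain ⟨hA, hcore, hne⟩ := CfsgLib.ThompsonWielandt.primitive_setting hprim a b (by omega)
  obtain ⟨g, hg⟩ := MulAction.exists_smul_eq G a b
  have hp := CfsgLib.Suborbit.AltPair.of_index hd halt
  have hK : CfsgLib.Suborbit.core G a b ≠ ⊥ := fun h => hunf (by
    rw [← MonoidHom.ker_eq_bot_iff, CfsgLib.Suborbit.ker_eq_core, h, Subgroup.bot_subgroupOf])
  have hS := CfsgLib.Suborbit.altSetting hp h6 hA hcore hne hg hK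
  have h0 := hS.inf_core_eq_bot
    (CfsgLib.Suborbit.shallow_or_shallow hp h6 hA hcore hne hg) hg
  obtain ⟨Φ, hinj, h1, h2, hc1, hc2⟩ := hS.exists_embedding h0
  have hidx : ((MonoidHom.fst _ _).comp Φ).range.index = (MulAction.toPermHom
      (MulAction.stabilizer G a) (MulAction.orbit (MulAction.stabilizer G a) b)).range.index := by
    have h3 := CfsgLib.Suborbit.card_range_mul_card_core (G := G) a b
    rw [← hc1] at h3
    have h4 := Nat.eq_of_mul_eq_mul_right Nat.card_pos h3
    have h5 := Subgroup.card_mul_index ((MonoidHom.fst _ _).comp Φ).range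
    have h5' := Subgroup.card_mul_index (MulAction.toPermHom
      (MulAction.stabilizer G a) (MulAction.orbit (MulAction.stabilizer G a) b)).range
    rw [Nat.card_perm, Nat.card_fin] at h5
    rw [Nat.card_perm, hd, h4] at h5'
    exact Nat.eq_of_mul_eq_mul_left Nat.card_pos (h5.trans h5'.symm)
  haveI : Nontrivial (Fin d) := Fin.nontrivial_iff_two_le.2 (by omega)
  rcases shape_cases (by omega) (by omega) Φ hinj h1 h2 with
    ⟨hf, h | ⟨hs, ⟨e⟩⟩⟩ | ⟨hf, h⟩
  · exact Or.inl ⟨by rw [← hidx, hf, alternatingGroup.index_eq_two], h⟩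
  · exfalso
    obtain ⟨Ψ, hinj', h1', h2', hc1', hc2'⟩ := hS.symm.exists_embedding (by rwa [inf_comm])
    have hcardA : Nat.card (MulAction.stabilizer G b) = Nat.card (MulAction.stabilizer G a) := by
      rw [← hg, CfsgLib.ThompsonWielandt.card_stabilizer_smul]
    have hT := CfsgLib.ThompsonWielandt.orbit_card_mul (G := G) a b
    rw [hd] at hT
    rw [inf_comm (MulAction.stabilizer G b)] at hc2'
    rw [hs, Subgroup.card_top, Nat.card_perm, Nat.card_fin] at hc2
    have hm : 2 * Nat.card (alternatingGroup (Fin d)) = d * (d - 1).factorial := by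
      rw [two_mul_nat_card_alternatingGroup, Nat.card_perm, Nat.card_fin,
        Nat.mul_factorial_pred (by omega)]
    rw [hf] at hc1
    have hcard : 2 * Nat.card ((MonoidHom.snd _ _).comp Ψ).range = (d - 1).factorial := by
      refine Nat.eq_of_mul_eq_mul_left (show 0 < d * Nat.card (CfsgLib.Suborbit.core G a b) from
        Nat.mul_pos (by omega) Nat.card_pos) ?_
      calc d * Nat.card (CfsgLib.Suborbit.core G a b) *
            (2 * Nat.card ((MonoidHom.snd _ _).comp Ψ).range)
          = 2 * (d * (Nat.card ((MonoidHom.snd _ _).comp Ψ).range *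
              Nat.card (CfsgLib.Suborbit.core G a b))) := by ring
        _ = 2 * Nat.card (alternatingGroup (Fin d)) * Nat.card (CfsgLib.Suborbit.core G a b) := by
          rw [hc2', hT, ← hc1]; ring
        _ = _ := by rw [hm]; ring
    let j : MulAction.stabilizer G a ≃* MulAction.stabilizer G b :=
      ((MulAut.conj g).subgroupMap (MulAction.stabilizer G a)).trans (MulEquiv.subgroupCongr
        (by rw [← hg, MulAction.stabilizer_smul_eq_stabilizer_map_conj]; rfl))
    exact not_onto_alt (by omega) (by omega) hcard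
      ⟨((MonoidHom.snd _ _).comp Ψ).rangeRestrict.comp (e.symm.trans j).toMonoidHom,
        (MonoidHom.rangeRestrict_surjective _).comp (e.symm.trans j).surjective⟩
  · refine Or.inr ⟨?_, h⟩
    rw [← Subgroup.index_eq_one, ← hidx, hf, Subgroup.index_top]

end Cfsg.Agent.S3687
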