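import Cfsg.Statements.S3701
import Cfsg.Agent.TIThree.Cube.Perm

set_option autoImplicit false
open Cfsg

namespace Cfsg.Agent.S3701

/-- Let H₀ ≤ Sym(9) be generated by the 3-cycles (1 2 3), (4 5 6), (7 8 9) and the involutions (1 2)(4 5), (1 2)(7 8) (a group of order 108, elementary abelian of order 27 extended by a four-group). Let G be a finite group with a subgroup H ≅ H₀, and T ≤ H of order 27 (a Sylow 3-subgroup of H) with N_G(T) = H and C_G(t) ≤ H for every t ≠ 1 in T. Then G = H. -/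
theorem result {G : Type*} [Group G] [Finite G] (H : Subgroup G)
    (hH : Nonempty (↥H ≃* ↥(Subgroup.closure ({Equiv.swap (0 : Fin 9) 1 * Equiv.swap 1 2, Equiv.swap (3 : Fin 9) 4 * Equiv.swap 4 5, Equiv.swap (6 : Fin 9) 7 * Equiv.swap 7 8,
        Equiv.swap (0 : Fin 9) 1 * Equiv.swap 3 4, Equiv.swap (0 : Fin 9) 1 * Equiv.swap 6 7} : Set (Equiv.Perm (Fin 9))))))
    (T : Subgroup G) (hTH : T ≤ H) (hT : Nat.card T = 27) (hN : Subgroup.normalizer (T : Set G) = H)
    (hC : ∀ t ∈ T, t ≠ 1 → Subgroup.centralizer ({t} : Set G) ≤ H) : H = ⊤ := by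
  classical
  obtain ⟨e⟩ := hH
  rw [← CfsgLib.TIThree.Cube.range_toPerm] at e
  set ι := (MonoidHom.ofInjective CfsgLib.TIThree.Cube.toPerm_injective).trans e.symm with hι
  have hr : (H.subtype.comp ι.toMonoidHom).range = H := by
    ext g
    refine ⟨fun ⟨x, hx⟩ => hx ▸ (ι x).2, fun hg => ⟨ι.symm ⟨g, hg⟩, by simp⟩⟩
  have := CfsgLib.TIThree.Cube.eq_top (H.subtype.comp ι.toMonoidHom)
    (Subtype.val_injective.comp ι.injective) T (by rw [hr]; exact hTH) hT (by rw [hr]; exact hN)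
    (by rw [hr]; exact hC)
  rwa [hr] at this

end Cfsg.Agent.S3701
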