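import Cfsg.Statements.S3702
import Cfsg.Agent.AltNineCube.Perm

set_option autoImplicit false
open Cfsg

namespace Cfsg.Agent.S3702

/-- Let K ≤ Sym(9) be generated by (1 2 3), (1 4 7)(2 5 8)(3 6 9), (1 2)(4 5) and (1 4)(2 5)(3 6)(7 8) (the normalizer in Alt(9) of the elementary abelian group generated by (1 2 3), (4 5 6), (7 8 9)). Let G be a finite group with a subgroup H ≅ K and J = O₃(H). If C_G(j) ≤ H for every j ≠ 1 in J and J is strongly closed in H with respect to G (a G-conjugate of an element of J lying in H lies in J), then G = H. -/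
theorem result {G : Type*} [Group G] [Finite G] (H : Subgroup G)
    (hH : Nonempty (↥H ≃* ↥(Subgroup.closure ({Equiv.swap (0 : Fin 9) 1 * Equiv.swap 1 2,
        Equiv.swap (0 : Fin 9) 3 * Equiv.swap 3 6 * (Equiv.swap (1 : Fin 9) 4 * Equiv.swap 4 7) * (Equiv.swap (2 : Fin 9) 5 * Equiv.swap 5 8),
        Equiv.swap (0 : Fin 9) 1 * Equiv.swap 3 4, Equiv.swap (0 : Fin 9) 3 * Equiv.swap 1 4 * Equiv.swap 2 5 * Equiv.swap 6 7} : Set (Equiv.Perm (Fin 9))))))
    (J : Subgroup G) (hJ : J = (Cfsg.pCore 3 ↥H).map H.subtype)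
    (hC : ∀ j ∈ J, j ≠ 1 → Subgroup.centralizer ({j} : Set G) ≤ H) (hsc : Cfsg.IsStronglyClosed J H) : H = ⊤ := by
  classical
  haveI : Fact (Nat.Prime 3) := ⟨Nat.prime_three⟩
  obtain ⟨e⟩ := hH
  rw [← CfsgLib.AltNineCube.range_toPerm] at e
  set ι := (MonoidHom.ofInjective CfsgLib.AltNineCube.toPerm_injective).trans e.symm with hι
  have hcore : Cfsg.pCore 3 ↥H = CfsgLib.AltNineCube.Af.trans.map ι.toMonoidHom := by
    rw [← CfsgLib.AltNineCube.pCore_af]
    refine le_antisymm (fun x hx => ⟨ι.symm x, ?_, ι.apply_symm_apply x⟩)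
      (CfsgLib.LocalP.le_pCore (Subgroup.Normal.map inferInstance _ ι.surjective)
        (CfsgLib.LocalP.isPGroup_pCore.map _))
    refine CfsgLib.LocalP.le_pCore (N := (Cfsg.pCore 3 ↥H).comap ι.toMonoidHom)
      inferInstance (CfsgLib.LocalP.isPGroup_pCore.comap_of_injective _ ι.injective) ?_
    rw [Subgroup.mem_comap]
    show ι (ι.symm x) ∈ _
    rw [ι.apply_symm_apply]
    exact hx
  set φ := H.subtype.comp ι.toMonoidHom with hφ
  have hinj : Function.Injective φ := Subtype.val_injective.comp ι.injective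
  have hJ' : ∀ g : G, g ∈ J ↔ ∃ x : CfsgLib.AltNineCube.Af, x.m = 0 ∧ φ x = g := by
    intro g
    rw [hJ, hcore, Subgroup.map_map]
    rfl
  have hr : φ.range = H := by
    ext g
    exact ⟨fun ⟨x, hx⟩ => hx ▸ (ι x).2, fun hg => ⟨ι.symm ⟨g, hg⟩, by simp [hφ]⟩⟩
  let S : CfsgLib.AltNineCube.Emb G :=
    { φ := φ
      inj := hinj
      cent := fun x hx hx1 g hg => by
        rw [hr]
        exact hC (φ x) ((hJ' _).mpr ⟨x, hx, rfl⟩) (fun h => hx1 (hinj (by rw [h, map_one])))
          (Subgroup.mem_centralizer_singleton_iff.mpr hg)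
      closed := fun x y hx g hg => by
        have h := hsc.2 (φ x) ((hJ' _).mpr ⟨x, hx, rfl⟩) g (by rw [hg, ← hr]; exact ⟨y, rfl⟩)
        obtain ⟨z, hz, e'⟩ := (hJ' _).mp h
        rw [hg] at e'
        exact hinj e' ▸ hz }
  have := S.range_eq_top
  rwa [show S.φ.range = H from hr] at this

end Cfsg.Agent.S3702
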