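import Cfsg.Statements.S3708
import Cfsg.Agent.Phan.Four.Chain
import Cfsg.Agent.Phan.Four.Standard

set_option autoImplicit false
open Cfsg

namespace Cfsg.Agent.S3708

/-- Phan's recognition of unitary groups. Let F be a finite field with q² elements, q > 4, and n ≥ 2. Let G be a group generated by subgroups U_0, …, U_{n−1}, each isomorphic to the special unitary group SU(2, q²) (determinant-one isometries of the standard Hermitian form in two variables over F), and let D_i ≤ U_i be cyclic subgroups of order q + 1. Suppose that U_i and U_j commute elementwise whenever the indices differ by at least 2, that the subgroup generated by U_i and U_{i+1} is isomorphic to SU(3, q²) for each i, and that D_i and D_j commute elementwise for all i, j. Then G is a homomorphic image of SU(n+1, q²). (Generation of G by the U_i is part of the hypothesis; G is not assumed finite.) -/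
theorem result {G : Type*} [Group G] (n : ℕ) (hn : 2 ≤ n)
    (F : Type*) [Field F] [Fintype F] (q : ℕ) (hq : 4 < q) (hF : Fintype.card F = q ^ 2)
    (U : Fin n → Subgroup G) (e : ∀ i, ↥(Cfsg.SU 2 F q) ≃* ↥(U i)) (hgen : ⨆ i, U i = ⊤)
    (D : Fin n → Subgroup G) (hD : ∀ i, D i ≤ U i ∧ IsCyclic ↥(D i) ∧ Nat.card ↥(D i) = q + 1)
    (h1 : ∀ i j : Fin n, (i : ℕ) + 2 ≤ j → ∀ x ∈ U i, ∀ y ∈ U j, x * y = y * x)
    (h2 : ∀ i j : Fin n, (i : ℕ) + 1 = j → Nonempty (↥(U i ⊔ U j) ≃* ↥(Cfsg.SU 3 F q)))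
    (h3 : ∀ i j : Fin n, i ≠ j → ∀ x ∈ D i, ∀ y ∈ D j, x * y = y * x) :
    ∃ f : ↥(Cfsg.SU (n + 1) F q) →* G, Function.Surjective f := by
  classical
  let U' : ℕ → Subgroup G := fun a => if h : a < n then U ⟨a, h⟩ else ⊥
  have hU' : ∀ a (h : a < n), U' a = U ⟨a, h⟩ := fun a h => dif_pos h
  refine CfsgLib.Phan.exists_surjective_of_pairs hF (by omega) n hn U'
    (fun a b hab hb x hx y hy => h1 ⟨a, by omega⟩ ⟨b, hb⟩ hab x
      (by rw [← hU' a (by omega)]; exact hx) y (by rw [← hU' b hb]; exact hy)) (fun a ha => ?_) fun H hH => ?_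
  · rw [hU' a (by omega), hU' (a + 1) (by omega)]
    set i : Fin n := ⟨a, by omega⟩
    set j : Fin n := ⟨a + 1, by omega⟩
    obtain ⟨θ⟩ := h2 i j rfl
    obtain ⟨hAi, hci, hni⟩ := hD i
    obtain ⟨hAj, hcj, hnj⟩ := hD j
    obtain ⟨d, hd⟩ := IsCyclic.exists_ofOrder_eq_natCard (α := ↥(D i))
    obtain ⟨d', hd'⟩ := IsCyclic.exists_ofOrder_eq_natCard (α := ↥(D j))
    exact CfsgLib.Phan.exists_standard_hom hF (by omega) (e i) (e j) θ (hAi d.2) (hAj d'.2)
      (by rw [Subgroup.orderOf_coe, hd, hni]) (by rw [Subgroup.orderOf_coe, hd', hnj])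
      (h3 i j (fun h => by
        have := congrArg Fin.val h
        simp [i, j] at this) d d.2 d' d'.2)
  · rw [← top_le_iff, ← hgen]
    refine iSup_le fun i => ?_
    have := hH i.1 i.2
    rwa [hU' i.1 i.2] at this

end Cfsg.Agent.S3708
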