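import Cfsg.Statements.S3709
import Cfsg.Agent.Phan.Four.Chain

set_option autoImplicit false
open Cfsg

namespace Cfsg.Agent.S3709

/-- Recognition of unitary groups from a weak Phan system. Let F be a finite field with q² elements, q > 3, and n ≥ 3. Let G be a group with subgroups U_0, …, U_{n−1}, each isomorphic to SU(2, q²), and, for each pair of consecutive indices, a subgroup V_{i,i+1} in which U_i and U_{i+1} form a standard pair (some isomorphism from SU(3, q²), or from its central quotient PSU(3, q²), onto V_{i,i+1} carries the two block-diagonal SU(2, q²) subgroups, or their images, onto U_i and U_{i+1}). Suppose that U_i and U_j commute elementwise whenever the indices differ by at least 2, and that G is generated by the U_i together with the V_{i,i+1}. Then G is a homomorphic image of SU(n+1, q²). (G is not assumed finite.) -/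
theorem result {G : Type*} [Group G] (n : ℕ) (hn : 3 ≤ n)
    (F : Type*) [Field F] [Fintype F] (q : ℕ) (hq : 3 < q) (hF : Fintype.card F = q ^ 2)
    (U : Fin n → Subgroup G) (e : ∀ i, ↥(Cfsg.SU 2 F q) ≃* ↥(U i))
    (V : Fin n → Fin n → Subgroup G)
    (h1 : ∀ i j : Fin n, (i : ℕ) + 2 ≤ j → ∀ x ∈ U i, ∀ y ∈ U j, x * y = y * x)
    (h2 : ∀ i j : Fin n, (i : ℕ) + 1 = j → Cfsg.IsStandardUnitaryPair (V i j) (U i) (U j) F q)
    (hgen : (⨆ i, U i) ⊔ (⨆ (i : Fin n) (j : Fin n) (_ : (i : ℕ) + 1 = j), V i j) = ⊤) :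
    ∃ f : ↥(Cfsg.SU (n + 1) F q) →* G, Function.Surjective f := by
  classical
  let U' : ℕ → Subgroup G := fun a => if h : a < n then U ⟨a, h⟩ else ⊥
  have hU' : ∀ a (h : a < n), U' a = U ⟨a, h⟩ := fun a h => dif_pos h
  have hpair : ∀ a, a + 2 ≤ n → ∃ π : ↥(Cfsg.SU 3 F q) →* G, π.ker ≤ Subgroup.center ↥(Cfsg.SU 3 F q) ∧
      (π.comp (CfsgLib.Phan.emb hF CfsgLib.Phan.w01)).range = U' a ∧
      (π.comp (CfsgLib.Phan.emb hF CfsgLib.Phan.w12)).range = U' (a + 1) := by
    intro a ha
    obtain ⟨π, -, hk, -, hA, hB⟩ := CfsgLib.Phan.exists_pair_hom hF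
      (h2 ⟨a, by omega⟩ ⟨a + 1, by omega⟩ rfl)
    refine ⟨π, hk, ?_, ?_⟩
    · rw [MonoidHom.range_comp, CfsgLib.Phan.range_w01 hF, hA, hU' a (by omega)]
    · rw [MonoidHom.range_comp, CfsgLib.Phan.range_w12 hF, hB, hU' (a + 1) (by omega)]
  refine CfsgLib.Phan.exists_surjective_of_pairs hF (by omega) n (by omega) U'
    (fun a b hab hb x hx y hy => h1 ⟨a, by omega⟩ ⟨b, hb⟩ hab x
      (by rw [← hU' a (by omega)]; exact hx) y (by rw [← hU' b hb]; exact hy)) hpair fun H hH => ?_
  rw [← top_le_iff, ← hgen]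
  have hle : ∀ i : Fin n, U i ≤ H := fun i => by
    have := hH i.1 i.2
    rwa [hU' i.1 i.2] at this
  refine sup_le (iSup_le hle) (iSup_le fun i => iSup_le fun j => iSup_le fun hij => ?_)
  obtain ⟨π, hV, -, -, hA, hB⟩ := CfsgLib.Phan.exists_pair_hom hF (h2 i j hij)
  rw [← hV]
  refine CfsgLib.Phan.range_le_of_blocks hF (by omega) π H ?_ ?_
  · rw [MonoidHom.range_comp, CfsgLib.Phan.range_w01 hF, hA]; exact hle i
  · rw [MonoidHom.range_comp, CfsgLib.Phan.range_w12 hF, hB]; exact hle j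

end Cfsg.Agent.S3709
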