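import Cfsg.Statements.S3716
import Cfsg.Agent.TIThree.Dihedral.Embed
import Mathlib.GroupTheory.Perm.Cycle.Type

set_option autoImplicit false
open Cfsg

namespace Cfsg.Agent.S3716

/-- Let G be a finite group with an elementary abelian Sylow 3-subgroup M of order 9 which is self-centralizing (C_G(M) = M), let N = N_G(M), and suppose C_G(g) ≤ N for every nonidentity g ∈ M. If the Sylow 2-subgroups of N are dihedral of order 8, then G is not simple. -/
theorem result {G : Type*} [Group G] [Finite G] (M : Sylow 3 G) (hM9 : Nat.card ↥(M : Subgroup G) = 9)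
    (hMel : ∀ m ∈ (M : Subgroup G), m ^ 3 = 1)
    (hCM : Subgroup.centralizer ((M : Subgroup G) : Set G) = (M : Subgroup G))
    (N : Subgroup G) (hN : N = Subgroup.normalizer ((M : Subgroup G) : Set G))
    (hCg : ∀ g ∈ (M : Subgroup G), g ≠ 1 → Subgroup.centralizer ({g} : Set G) ≤ N)
    (hS : ∀ S : Sylow 2 ↥N, Nonempty (↥(S : Subgroup ↥N) ≃* DihedralGroup 4)) :
    ¬ IsSimpleGroup G := by
  classical
  intro hsimple
  haveI := hsimple
  haveI : Fact (Nat.Prime 3) := ⟨Nat.prime_three⟩
  haveI : Fact (Nat.Prime 2) := ⟨Nat.prime_two⟩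
  subst hN
  set N := Subgroup.normalizer ((M : Subgroup G) : Set G) with hN
  set Tn := (M : Subgroup G).subgroupOf N with hTn
  haveI : Tn.Normal := Subgroup.normal_in_normalizer
  have hTncard : Nat.card Tn = 9 := by
    rw [Nat.card_congr (Subgroup.subgroupOfEquivOfLe
      (Subgroup.le_normalizer (H := (M : Subgroup G)))).toEquiv, hM9]
  have hm3 : ¬ 3 ∣ Tn.index := fun h =>
    M.not_dvd_index (h.trans (Subgroup.relIndex_dvd_index_of_le Subgroup.le_normalizer))
  have hprime : ∀ q : ℕ, q.Prime → q ∣ Nat.card (N ⧸ Tn) → q = 2 := by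
    intro q hq hdvd
    haveI := Fact.mk hq
    rw [← Subgroup.index_eq_card] at hdvd
    by_contra hq2
    obtain ⟨n, hn⟩ := exists_prime_orderOf_dvd_card' (G := N) q
      (hdvd.trans (Subgroup.index_dvd_card Tn))
    have hq3 : q ≠ 3 := fun e => hm3 (e ▸ hdvd)
    have hconj : ∀ t ∈ (M : Subgroup G), (n : G) * t * (n : G)⁻¹ ∈ (M : Subgroup G) :=
      fun t ht => (Subgroup.mem_normalizer_iff.mp n.2 t).mp ht
    let f : Function.End (M : Subgroup G) := fun t => ⟨(n : G) * t * (n : G)⁻¹, hconj t t.2⟩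
    have hf : ∀ (k : ℕ) (t : (M : Subgroup G)),
        (((f ^ k) t : (M : Subgroup G)) : G) = (n : G) ^ k * t * ((n : G) ^ k)⁻¹ := by
      intro k
      induction k with
      | zero => intro t; show (t : G) = _; simp
      | succ k ih =>
        intro t
        rw [pow_succ]
        show (((f ^ k) (f t) : (M : Subgroup G)) : G) = _
        rw [ih, show ((f t : (M : Subgroup G)) : G) = (n : G) * t * (n : G)⁻¹ from rfl, pow_succ]
        group
    have hfq : f ^ q ^ 1 = 1 := funext fun t => Subtype.ext (by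
      rw [hf, pow_one, ← SubmonoidClass.coe_pow, ← hn, pow_orderOf_eq_one]
      simp
      rfl)
    haveI : Fintype (M : Subgroup G) := Fintype.ofFinite _
    have hmod := Equiv.Perm.card_fixedPoints_modEq hfq
    rw [← Nat.card_eq_fintype_card, hM9] at hmod
    let F : Subgroup (M : Subgroup G) :=
      (Subgroup.centralizer ({(n : G)} : Set G)).subgroupOf (M : Subgroup G)
    have hF : Fintype.card f.fixedPoints = Nat.card F := by
      rw [← Nat.card_eq_fintype_card]
      refine Nat.card_congr (Equiv.subtypeEquivRight fun t => ?_)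
      show f t = t ↔ t ∈ F
      rw [Subgroup.mem_subgroupOf, Subgroup.mem_centralizer_singleton_iff, Subtype.ext_iff]
      show (n : G) * t * (n : G)⁻¹ = t ↔ (t : G) * n = n * t
      rw [mul_inv_eq_iff_eq_mul]
      exact eq_comm
    rw [hF] at hmod
    have hFd : Nat.card F ∣ 3 ^ 2 := by
      rw [show (3 : ℕ) ^ 2 = Nat.card (M : Subgroup G) by rw [hM9]; norm_num]
      exact Subgroup.card_subgroup_dvd_card F
    obtain ⟨i, hi2, hi⟩ := (Nat.dvd_prime_pow Nat.prime_three).mp hFd
    rw [hi] at hmod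
    rcases (show i = 0 ∨ i = 1 ∨ i = 2 by omega) with rfl | rfl | rfl
    · have h1 : q ∣ 8 := (Nat.modEq_iff_dvd' (by norm_num : 1 ≤ 9)).mp hmod.symm
      exact hq2 ((Nat.prime_dvd_prime_iff_eq hq Nat.prime_two).mp
        (hq.dvd_of_dvd_pow (n := 3) (by simpa using h1)))
    · have h1 : q ∣ 2 * 3 := (Nat.modEq_iff_dvd' (by norm_num : 3 ≤ 9)).mp hmod.symm
      rcases hq.dvd_mul.mp h1 with h | h
      · exact hq2 ((Nat.prime_dvd_prime_iff_eq hq Nat.prime_two).mp h)
      · exact hq3 ((Nat.prime_dvd_prime_iff_eq hq Nat.prime_three).mp h)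
    · have hFtop : F = ⊤ := Subgroup.eq_top_of_card_eq F (by rw [hi, hM9]; norm_num)
      have hnM : (n : G) ∈ (M : Subgroup G) := by
        refine hCM.le (Subgroup.mem_centralizer_iff.mpr fun t ht => ?_)
        have : (⟨t, ht⟩ : (M : Subgroup G)) ∈ F := by rw [hFtop]; trivial
        exact Subgroup.mem_centralizer_singleton_iff.mp (Subgroup.mem_subgroupOf.mp this)
      have hd : q ∣ 3 := by
        rw [← hn]
        exact orderOf_dvd_of_pow_eq_one (Subtype.ext (by simpa using hMel _ hnM))
      exact hq3 ((Nat.prime_dvd_prime_iff_eq hq Nat.prime_three).mp hd)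
  obtain ⟨S⟩ : Nonempty (Sylow 2 N) := inferInstance
  obtain ⟨eS⟩ := hS S
  have hScard : Nat.card (S : Subgroup N) = 8 := by
    rw [Nat.card_congr eS.toEquiv, DihedralGroup.nat_card]
  let θ : (S : Subgroup N) →* N ⧸ Tn := (QuotientGroup.mk' Tn).comp (S : Subgroup N).subtype
  have hθ : Function.Injective θ := by
    refine (injective_iff_map_eq_one θ).mpr fun x hx => ?_
    have hxT : (x : N) ∈ Tn := (QuotientGroup.eq_one_iff _).mp hx
    have h1 : orderOf (x : N) ∣ 9 := by rw [← hTncard]; exact Subgroup.orderOf_dvd_natCard _ hxT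
    have h2 : orderOf (x : N) ∣ 8 := by rw [← hScard]; exact Subgroup.orderOf_dvd_natCard _ x.2
    exact Subtype.ext (orderOf_eq_one_iff.mp (Nat.eq_one_of_dvd_coprimes (by norm_num) h1 h2))
  have hcardQ : Nat.card (N ⧸ Tn) = 8 := by
    have h8 := Subgroup.card_dvd_of_injective θ hθ
    rw [hScard] at h8
    have hN9 : Nat.card N = 9 * Nat.card (N ⧸ Tn) := by
      rw [← Tn.card_mul_index, hTncard, Subgroup.index_eq_card]
    have hk := Sylow.card_eq_multiplicity S
    rw [hScard, hN9] at hk
    obtain ⟨k, hk2⟩ : ∃ k, Nat.card (N ⧸ Tn) = 2 ^ k :=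
      ⟨_, Nat.eq_prime_pow_of_unique_prime_dvd Nat.card_pos.ne' (fun {d} hd hd2 => hprime d hd hd2)⟩
    rw [hk2, Nat.factorization_mul (by norm_num) (by positivity), Finsupp.coe_add, Pi.add_apply,
      Nat.Prime.factorization_pow Nat.prime_two, Finsupp.single_eq_same,
      Nat.factorization_eq_zero_of_not_dvd (by norm_num : ¬ 2 ∣ 9), zero_add,
      show (8 : ℕ) = 2 ^ 3 from rfl] at hk
    rw [hk2, ← Nat.pow_right_injective le_rfl hk]
    rfl
  let eθ : (S : Subgroup N) ≃* N ⧸ Tn := MulEquiv.ofBijective θ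
    ((Nat.bijective_iff_injective_and_card _).mpr ⟨hθ, by rw [hScard, hcardQ]⟩)
  rcases CfsgLib.TIThree.Dihedral.normalizer_eq_top_or M hM9 hCM (eθ.symm.trans eS) hCg with
    htop | ⟨-, K, hK, h360, -, h2, -⟩
  · haveI hn : (M : Subgroup G).Normal := Subgroup.normalizer_eq_top_iff.mp htop
    rcases hn.eq_bot_or_eq_top with e | e
    · rw [e, Subgroup.card_bot] at hM9
      norm_num at hM9
    · have hG9 : Nat.card G = 9 := by rw [← hM9, e, Subgroup.card_top]
      have hc : ∀ x y : G, x * y = y * x := fun x y => by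
        have := IsPGroup.commutative_of_card_eq_prime_sq (p := 3) (G := G) (by rw [hG9]; norm_num)
        exact this x y
      letI : CommGroup G := { (inferInstance : Group G) with mul_comm := hc }
      have := IsSimpleGroup.prime_card (α := G)
      rw [hG9] at this
      norm_num at this
  · haveI := hK
    rcases hK.eq_bot_or_eq_top with e | e
    · rw [e, Subgroup.card_bot] at h360
      norm_num at h360
    · rw [e, Subgroup.index_top] at h2
      norm_num at h2

end Cfsg.Agent.S3716
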