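import Cfsg.Statements.S3738
import Cfsg.Agent.OmegaFour.Apply
import Cfsg.Agent.Eq.Def_CaseTheorems

set_option autoImplicit false
open Cfsg

namespace Cfsg.Agent.S3738

/-- Let d be a non-identity 3-element of a finite group and P a 2-subgroup normalized by d on which ⟨d⟩ acts faithfully (no non-identity power of d centralizes P) and without non-identity fixed points (C_P(d) = 1). If every abelian subgroup of P has 2-rank at most 2, then d has order 3. -/
theorem result {X : Type*} [Group X] [Finite X] (d : X) (n : ℕ) (hn : 1 ≤ n) (hd : orderOf d = 3 ^ n) (P : Subgroup X) (hP : IsPGroup 2 P) (hdP : d ∈ Subgroup.normalizer (P : Set X)) (hfaith : Subgroup.zpowers d ⊓ Subgroup.centralizer (P : Set X) = ⊥) (hfpf : P ⊓ Subgroup.centralizer {d} = ⊥) (hrank : ∀ V : Subgroup X, V ≤ P → IsMulCommutative V → Cfsg.PRankLE 2 2 V) : orderOf d = 3 := by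
  classical
  haveI : Fact (Nat.Prime 2) := ⟨Nat.prime_two⟩
  by_contra hne
  have hn2 : 2 ≤ n := by
    rcases Nat.lt_or_ge n 2 with h | h
    · exact absurd (by rw [hd, show n = 1 by omega, pow_one]) hne
    · exact h
  have hfix : ∀ a ∈ P, Commute d a → a = 1 := fun a ha h => by
    have : a ∈ P ⊓ Subgroup.centralizer {d} := ⟨ha, Subgroup.mem_centralizer_singleton_iff.mpr h.eq.symm⟩
    rwa [hfpf, Subgroup.mem_bot] at this
  have hP1 : P ≠ ⊥ := by
    intro h
    have : d ∈ Subgroup.zpowers d ⊓ Subgroup.centralizer (P : Set X) :=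
      ⟨Subgroup.mem_zpowers d, Subgroup.mem_centralizer_iff.mpr fun a ha => by
        rw [h, SetLike.mem_coe, Subgroup.mem_bot] at ha
        rw [ha, one_mul, mul_one]⟩
    rw [hfaith, Subgroup.mem_bot] at this
    rw [this, orderOf_one] at hd
    exact absurd hd.symm (Nat.one_lt_pow (by omega) (by norm_num)).ne'
  let W : Subgroup X :=
    { carrier := {a | a ∈ P ∧ a * a = 1 ∧ ∀ p ∈ P, Commute a p}
      one_mem' := ⟨P.one_mem, one_mul 1, fun p _ => Commute.one_left p⟩
      inv_mem' := fun {a} h => by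
        rw [inv_eq_of_mul_eq_one_right h.2.1]; exact h
      mul_mem' := fun {a b} ha hb => ⟨P.mul_mem ha.1 hb.1, by
        rw [(ha.2.2 b hb.1).symm.mul_mul_mul_comm a b, ha.2.1, hb.2.1, one_mul],
        fun p hp => (ha.2.2 p hp).mul_left (hb.2.2 p hp)⟩ }
  have hWP : W ≤ P := fun a ha => ha.1
  have hW2 : ∀ a ∈ W, a * a = 1 := fun a ha => ha.2.1
  have hWc : ∀ a ∈ W, ∀ p ∈ P, Commute a p := fun a ha => ha.2.2
  have hdW : d ∈ Subgroup.normalizer (W : Set X) := by
    have key : ∀ g ∈ Subgroup.normalizer (P : Set X), ∀ a ∈ W, g * a * g⁻¹ ∈ W := by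
      intro g hg a ha
      refine ⟨CfsgLib.OmegaFour.mem_normalizer_conj hg ha.1, ?_, fun p hp => ?_⟩
      · rw [show g * a * g⁻¹ * (g * a * g⁻¹) = g * (a * a) * g⁻¹ by group, ha.2.1, mul_one, mul_inv_cancel]
      · have h := (Commute.conj_iff g).mpr
          (ha.2.2 _ (CfsgLib.OmegaFour.mem_normalizer_conj (inv_mem hg) hp))
        simpa [mul_assoc] using h
    rw [Subgroup.mem_normalizer_iff]
    exact fun a => ⟨key d hdP a, fun h => by simpa [mul_assoc] using key d⁻¹ (inv_mem hdP) _ h⟩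
  have hrankW : ∀ V : Subgroup X, V ≤ P → IsMulCommutative V → (∀ a ∈ V, a * a = 1) → Nat.card V ≤ 4 := by
    intro V hV hab h2
    have := hrank V hV hab ⊤ ⟨⟨fun a b => Subtype.ext (@mul_comm' V _ hab (a : V) b)⟩⟩
      (fun a _ => Subtype.ext (by rw [pow_two]; exact h2 a a.2))
    rwa [Subgroup.card_top] at this
  have hWab : IsMulCommutative W := ⟨⟨fun a b => Subtype.ext (hWc a a.2 b (hWP b.2)).eq⟩⟩
  -- `W` has order four
  haveI : Nontrivial P := (Subgroup.nontrivial_iff_ne_bot P).mpr hP1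
  haveI := hP.center_nontrivial
  obtain ⟨k, hk⟩ := IsPGroup.iff_card.mp (hP.to_subgroup (Subgroup.center P))
  have hk1 : k ≠ 0 := fun h => by
    have := Finite.one_lt_card (α := Subgroup.center P)
    rw [hk, h, pow_zero] at this
    omega
  obtain ⟨c, hc2⟩ := exists_prime_orderOf_dvd_card' (G := Subgroup.center P) 2 (hk ▸ dvd_pow_self 2 hk1)
  obtain ⟨u, hu⟩ : ∃ u : X, u = ((c : P) : X) := ⟨_, rfl⟩
  have hu2 : orderOf u = 2 := by rw [hu, Subgroup.orderOf_coe, Subgroup.orderOf_coe, hc2]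
  have hu1 : u ≠ 1 := fun h => by rw [h, orderOf_one] at hu2; omega
  have huW : u ∈ W := ⟨hu ▸ (c : P).2, by rw [← pow_two, ← hu2, pow_orderOf_eq_one], fun p hp => by
    rw [hu]
    exact (congrArg Subtype.val (Subgroup.mem_center_iff.mp c.2 ⟨p, hp⟩)).symm⟩
  haveI : Fintype W := Fintype.ofFinite W
  have hu'W := CfsgLib.OmegaFour.mem_normalizer_conj hdW huW
  have huu' : u ≠ d * u * d⁻¹ := fun h => hu1 (hfix u (hWP huW) (mul_inv_eq_iff_eq_mul.mp h.symm))
  have hu'1 : d * u * d⁻¹ ≠ 1 := fun h => hu1 (conj_eq_one_iff.mp h)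
  have hW4 : Nat.card W = 4 := by
    refine le_antisymm (hrankW W hWP hWab hW2) ?_
    have huc := hWc u huW _ (hWP hu'W)
    have h1 : u * (d * u * d⁻¹) ≠ 1 := fun h => huu' (mul_left_cancel ((hW2 u huW).trans h.symm))
    have h2 : u * (d * u * d⁻¹) ≠ u := fun h => hu'1 (mul_left_cancel (h.trans (mul_one u).symm))
    have h3 : u * (d * u * d⁻¹) ≠ d * u * d⁻¹ := fun h => hu1 (mul_right_cancel (h.trans (one_mul _).symm))
    have := Finset.card_le_univ
      ({(1 : W), ⟨u, huW⟩, ⟨_, hu'W⟩, ⟨_, W.mul_mem huW hu'W⟩} : Finset W)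
    rw [Nat.card_eq_fintype_card]
    refine le_trans (le_of_eq ?_) this
    simp [Finset.card_insert_of_notMem, Subtype.ext_iff, Ne.symm hu1, Ne.symm hu'1, Ne.symm h1, huu',
      Ne.symm h2, Ne.symm h3]
  -- all involutions of `P` lie in `W`
  have hinv : ∀ a ∈ P, a * a = 1 → a ∈ W := by
    intro a ha ha2
    have hV : Subgroup.closure ((W : Set X) ∪ {a}) ≤ P :=
      (Subgroup.closure_le _).mpr (Set.union_subset (fun b hb => hWP hb) (by simpa using ha))
    have hcomm : ∀ x ∈ (W : Set X) ∪ {a}, ∀ y ∈ (W : Set X) ∪ {a}, x * y = y * x := by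
      rintro x (hx | rfl) y (hy | rfl)
      exacts [(hWc x hx y (hWP hy)).eq, (hWc x hx _ ha).eq, (hWc y hy _ ha).eq.symm, rfl]
    set V := Subgroup.closure ((W : Set X) ∪ {a}) with hVdef
    have hVc : ∀ x ∈ V, ∀ y ∈ V, Commute x y := by
      have h1 : V ≤ Subgroup.centralizer ((W : Set X) ∪ {a}) := (Subgroup.closure_le _).mpr fun x hx =>
        Subgroup.mem_centralizer_iff.mpr fun y hy => hcomm y hy x hx
      intro x hx y hy
      have h2 : V ≤ Subgroup.centralizer {x} := (Subgroup.closure_le _).mpr fun z hz =>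
        Subgroup.mem_centralizer_singleton_iff.mpr ((Subgroup.mem_centralizer_iff.mp (h1 hx)) z hz)
      exact (Subgroup.mem_centralizer_singleton_iff.mp (h2 hy)).symm
    have hVab : IsMulCommutative V := ⟨⟨fun x y => Subtype.ext (hVc x x.2 y y.2).eq⟩⟩
    have hV2 : ∀ x ∈ V, x * x = 1 := by
      intro x hx
      induction hx using Subgroup.closure_induction with
      | mem x hx => rcases hx with hx | rfl; exacts [hW2 x hx, ha2]
      | one => exact one_mul 1
      | mul x y hx hy ihx ihy => rw [(hVc x hx y hy).symm.mul_mul_mul_comm x y, ihx, ihy, one_mul]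
      | inv x hx ihx => rw [← mul_inv_rev, ihx, inv_one]
    have hWV : W ≤ V := fun b hb => Subgroup.subset_closure (Or.inl hb)
    have heq : W = V := Subgroup.eq_of_le_of_card_ge hWV (by rw [hW4]; exact hrankW V hV hVab hV2)
    rw [heq]
    exact Subgroup.subset_closure (Or.inr rfl)
  -- the element of order three
  have hd3 : ∀ a ∈ W, Commute (d ^ 3) a := by
    have hodd : Odd (orderOf (d ^ 3)) :=
      Odd.of_dvd_nat (hd ▸ (by decide : Odd 3).pow) (orderOf_pow_dvd 3)
    obtain ⟨u', hu'⟩ : ∃ u', u' = d * u * d⁻¹ := ⟨_, rfl⟩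
    obtain ⟨u'', hu''⟩ : ∃ u'', u'' = d * u' * d⁻¹ := ⟨_, rfl⟩
    rw [← hu'] at hu'W huu' hu'1
    have hu''W : u'' ∈ W := hu'' ▸ CfsgLib.OmegaFour.mem_normalizer_conj hdW hu'W
    have hu''e : u'' = u * u' := by
      rcases CfsgLib.OmegaFour.eq_of_card_four hW4 hW2 huW hu'W hu1 hu'1 huu' hu''W with h | h | h | h
      · exact absurd (conj_eq_one_iff.mp (hu''.symm.trans h)) hu'1
      · exfalso
        have h1 : d * (u * u') * d⁻¹ = u * u' := by
          calc d * (u * u') * d⁻¹ = (d * u * d⁻¹) * (d * u' * d⁻¹) := by group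
            _ = u * u' := by rw [← hu', ← hu'', h, (hWc u' hu'W u (hWP huW)).eq]
        exact huu' (mul_left_cancel ((hW2 u huW).trans
          (hfix _ (P.mul_mem (hWP huW) (hWP hu'W)) (mul_inv_eq_iff_eq_mul.mp h1)).symm))
      · exact absurd (hfix u' (hWP hu'W) (mul_inv_eq_iff_eq_mul.mp (hu''.symm.trans h))) hu'1
      · exact h
    have h3 : Commute (d ^ 3) u := by
      refine mul_inv_eq_iff_eq_mul.mp ?_
      calc d ^ 3 * u * (d ^ 3)⁻¹ = d * (d * (d * u * d⁻¹) * d⁻¹) * d⁻¹ := by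
            simp [pow_succ, mul_assoc]
        _ = d * u'' * d⁻¹ := by rw [← hu', ← hu'']
        _ = (d * u * d⁻¹) * (d * u' * d⁻¹) := by rw [hu''e]; group
        _ = u := by
            rw [← hu', ← hu'', hu''e, (hWc u huW u' (hWP hu'W)).eq, ← mul_assoc, hW2 u' hu'W, one_mul]
    exact CfsgLib.OmegaFour.commute_of_odd hW4 hW2 (pow_mem hdW 3) hodd huW hu1 h3
  obtain ⟨m, rfl⟩ := Nat.exists_eq_add_of_le' hn2
  have he : (d ^ 3 ^ (m + 1)) ^ 3 = 1 := by
    rw [← pow_mul, ← pow_succ, ← hd, pow_orderOf_eq_one]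
  have hcomm := CfsgLib.OmegaFour.commute_of_three_involutions P W hP hWP hW4 hW2 hWc hinv d hdP hdW
    (fun a ha h => hfix a (hWP ha) h) (d ^ 3 ^ (m + 1)) (pow_mem hdP _)
    (fun a ha => by rw [pow_succ', pow_mul]; exact (hd3 a ha).pow_left _) he
  have h1 : d ^ 3 ^ (m + 1) ∈ Subgroup.zpowers d ⊓ Subgroup.centralizer (P : Set X) :=
    ⟨pow_mem (Subgroup.mem_zpowers d) _, Subgroup.mem_centralizer_iff.mpr fun p hp => (hcomm p hp).eq.symm⟩
  rw [hfaith, Subgroup.mem_bot] at h1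
  have h2 := orderOf_dvd_of_pow_eq_one h1
  rw [hd, Nat.pow_dvd_pow_iff_le_right (by norm_num)] at h2
  omega

end Cfsg.Agent.S3738
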