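import Cfsg.Statements.S3739
import Cfsg.Agent.OmegaFour.Apply
import Cfsg.Agent.Constrained.Basic
import Cfsg.Agent.Eq.Def_Transfer

set_option autoImplicit false
open Cfsg

namespace Cfsg.Agent.S3739

/-- Let G be a finite group with C_G(O₂(G)) ≤ O₂(G) containing an element of order 6, and let d be a non-identity 3-element of G normalizing a nontrivial elementary abelian 2-subgroup W with C_W(d) = 1. Then G has an elementary abelian subgroup of order 8. -/
theorem result {G : Type*} [Group G] [Finite G] (hchar : Subgroup.centralizer (Cfsg.pCore 2 G : Set G) ≤ Cfsg.pCore 2 G) (hsix : ∃ g : G, orderOf g = 6) (d : G) (hd1 : d ≠ 1) (hd : IsPGroup 3 ↥(Subgroup.zpowers d)) (W : Subgroup G) (hW : Cfsg.IsElementaryAbelian 2 W) (hW1 : W ≠ ⊥) (hdW : d ∈ Subgroup.normalizer (W : Set G)) (hfpf : W ⊓ Subgroup.centralizer {d} = ⊥) : ∃ E : Subgroup G, Cfsg.IsElementaryAbelian 2 E ∧ Nat.card E = 8 := by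
  classical
  haveI : Fact (Nat.Prime 2) := ⟨Nat.prime_two⟩
  haveI : Fact (Nat.Prime 3) := ⟨Nat.prime_three⟩
  by_contra hno
  push Not at hno
  set Q := Cfsg.pCore 2 G with hQdef
  have hQp : IsPGroup 2 Q := CfsgLib.Constrained.isPGroup_pCore
  haveI hQn : Q.Normal := by rw [hQdef]; infer_instance
  have hnQ : ∀ g : G, g ∈ Subgroup.normalizer (Q : Set G) := fun g => by
    rw [Subgroup.normalizer_eq_top]; trivial
  have hW2 : ∀ a ∈ W, a * a = 1 := fun a ha => by rw [← pow_two]; exact hW.2 a ha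
  have hfix : ∀ a ∈ W, Commute d a → a = 1 := fun a ha h => by
    have : a ∈ W ⊓ Subgroup.centralizer {d} := ⟨ha, Subgroup.mem_centralizer_singleton_iff.mpr h.eq.symm⟩
    rwa [hfpf, Subgroup.mem_bot] at this
  have hdodd : Odd (orderOf d) := by
    obtain ⟨k, hk⟩ := IsPGroup.iff_orderOf.mp hd ⟨d, Subgroup.mem_zpowers d⟩
    rw [Subgroup.orderOf_mk] at hk
    rw [hk]
    exact (by decide : Odd 3).pow
  -- `W` is a four-group
  obtain ⟨u, hu, hu1⟩ : ∃ u ∈ W, u ≠ 1 := (Subgroup.bot_or_exists_ne_one W).resolve_left hW1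
  have hWp : IsPGroup 2 W := fun a => ⟨1, Subtype.ext (by simpa using hW.2 a a.2)⟩
  have hW4 : Nat.card W = 4 := by
    obtain ⟨k, hk⟩ := IsPGroup.iff_card.mp hWp
    have h2 : 2 ≤ k := by
      by_contra h
      push Not at h
      have hle : Nat.card W ≤ 2 := by rw [hk]; interval_cases k <;> norm_num
      refine hu1 (hfix u hu (mul_inv_eq_iff_eq_mul.mp ?_))
      by_contra hne
      haveI : Fintype W := Fintype.ofFinite W
      have hc := CfsgLib.OmegaFour.mem_normalizer_conj hdW hu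
      have hthree : ({(1 : W), ⟨u, hu⟩, ⟨_, hc⟩} : Finset W).card ≤ 2 :=
        (Finset.card_le_univ _).trans (by rwa [← Nat.card_eq_fintype_card])
      rw [Finset.card_insert_of_notMem, Finset.card_insert_of_notMem, Finset.card_singleton] at hthree
      · omega
      · simp [Subtype.ext_iff, Ne.symm hne]
      · simp only [Finset.mem_insert, Finset.mem_singleton, Subtype.ext_iff, Subgroup.coe_one, not_or]
        exact ⟨Ne.symm hu1, fun h => hu1 (conj_eq_one_iff.mp h.symm)⟩
    rcases Nat.lt_or_ge k 3 with h | h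
    · rw [hk, show k = 2 by omega]; norm_num
    · obtain ⟨E, hE⟩ := Sylow.exists_subgroup_card_pow_prime (G := W) 2 (n := 3) (hk ▸ pow_dvd_pow 2 h)
      refine absurd ?_ (hno (E.map W.subtype) ⟨⟨⟨fun a b => ?_⟩⟩, ?_⟩)
      · rw [Nat.card_congr (E.equivMapOfInjective W.subtype W.subtype_injective).toEquiv.symm, hE]
        norm_num
      · obtain ⟨a', -, ha'⟩ := a.2
        obtain ⟨b', -, hb'⟩ := b.2
        apply Subtype.ext
        show (a : G) * b = b * a
        rw [← ha', ← hb']
        exact congrArg Subtype.val (@mul_comm' W _ hW.1 a' b')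
      · rintro a ⟨a', -, rfl⟩
        exact hW.2 _ a'.2
  -- involutions centralizing `W` lie in it
  have hkey : ∀ t : G, t * t = 1 → (∀ a ∈ W, Commute t a) → t ∈ W := by
    intro t ht hcomm
    by_contra htW
    let V : Subgroup G :=
      { carrier := {v | v ∈ W ∨ v * t ∈ W}
        one_mem' := Or.inl W.one_mem
        inv_mem' := by
          intro v hv
          rcases hv with hv | hv
          · exact Or.inl (W.inv_mem hv)
          · refine Or.inr ?_
            have hi : t⁻¹ = t := inv_eq_of_mul_eq_one_right ht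
            have h := W.inv_mem hv
            have e : v⁻¹ * t = (v * t)⁻¹ := by
              have hc := hcomm _ hv
              rw [Commute, SemiconjBy] at hc
              have h1 : t * v = v * t := by
                have h2 : t * (v * t) * t = v * t * t * t := by rw [hc]
                simpa [mul_assoc, ht] using h2
              rw [← h1, mul_inv_rev, hi]
            rwa [e]
        mul_mem' := by
          intro a b ha hb
          have hta : ∀ a, a ∈ W ∨ a * t ∈ W → t * a = a * t := by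
            rintro a (h | h)
            · exact hcomm a h
            · have h2 : t * (a * t) * t = a * t * t * t := by rw [(hcomm _ h).eq]
              simpa [mul_assoc, ht] using h2
          have hb' := hta b hb
          rcases ha with ha | ha <;> rcases hb with hb | hb
          · exact Or.inl (W.mul_mem ha hb)
          · exact Or.inr (by rw [mul_assoc]; exact W.mul_mem ha hb)
          · exact Or.inr (by rw [mul_assoc, ← hb', ← mul_assoc]; exact W.mul_mem ha hb)
          · refine Or.inl ?_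
            have e : a * b = a * t * (b * t) := by
              rw [← hb', ← mul_assoc (a * t) t b, mul_assoc a t t, ht, mul_one]
            rw [e]; exact W.mul_mem ha hb }
    have hVW : W ≤ V := fun a ha => Or.inl ha
    have htV : t ∈ V := Or.inr (by rw [ht]; exact W.one_mem)
    have hVt : ∀ a ∈ V, ∃ i : ℕ, ∃ b ∈ W, a = b * t ^ i := by
      rintro a (h | h)
      · exact ⟨0, a, h, by simp⟩
      · exact ⟨1, a * t, h, by rw [pow_one, mul_assoc, ht, mul_one]⟩
    have hVab : Cfsg.IsElementaryAbelian 2 V := by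
      refine ⟨⟨⟨fun a b => Subtype.ext ?_⟩⟩, fun a ha => ?_⟩
      · obtain ⟨i, a', ha', hea⟩ := hVt a a.2
        obtain ⟨j, b', hb', heb⟩ := hVt b b.2
        have c1 : Commute a' b' := congrArg Subtype.val (@mul_comm' W _ hW.1 ⟨a', ha'⟩ ⟨b', hb'⟩)
        show Commute (a : G) b
        rw [hea, heb]
        exact ((c1.mul_right ((hcomm a' ha').symm.pow_right j))).mul_left
          (((hcomm b' hb').pow_left i).mul_right (Commute.pow_pow_self t i j))
      · obtain ⟨i, a', ha', hea⟩ := hVt a ha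
        rw [hea, ((hcomm a' ha').symm.pow_right i).mul_pow, hW.2 a' ha', one_mul, ← pow_mul, mul_comm,
          pow_mul, pow_two, ht, one_pow]
    refine hno V hVab ?_
    have hVW' : ∀ v : V, (⟨v, v.2⟩ : V) ∈ W.subgroupOf V ∨ (⟨v, v.2⟩ * ⟨t, htV⟩ : V) ∈ W.subgroupOf V :=
      fun v => v.2
    have hidx : (W.subgroupOf V).index = 2 := by
      rw [Subgroup.index_eq_two_iff]
      refine ⟨⟨t, htV⟩, fun b => ?_⟩
      simp only [xor_iff_not_iff, Subgroup.mem_subgroupOf, Subgroup.coe_mul]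
      rcases b.2 with h | h
      · exact fun hiff => htW (by simpa using W.mul_mem (W.inv_mem h) (hiff.mpr h))
      · exact fun hiff => htW (by simpa using W.mul_mem (W.inv_mem (hiff.mp h)) h)
    rw [← Subgroup.card_mul_index (W.subgroupOf V), hidx,
      Nat.card_congr (Subgroup.subgroupOfEquivOfLe hVW).toEquiv, hW4]
  -- two elements
  obtain ⟨u', hu', hu'1, huu', hu'e⟩ : ∃ u', u' ∈ W ∧ u' ≠ 1 ∧ u ≠ u' ∧ u' = d * u * d⁻¹ :=
    ⟨_, CfsgLib.OmegaFour.mem_normalizer_conj hdW hu, fun h => hu1 (conj_eq_one_iff.mp h),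
      fun h => hu1 (hfix u hu (mul_inv_eq_iff_eq_mul.mp h.symm)), rfl⟩
  have hgen : ∀ w ∈ W, w ≠ 1 → ∀ S : Subgroup G, w ∈ S → d * w * d⁻¹ ∈ S → W ≤ S := by
    intro w hw hw1 S hwS hwS' t ht
    have hne : w ≠ d * w * d⁻¹ := fun h => hw1 (hfix w hw (mul_inv_eq_iff_eq_mul.mp h.symm))
    rcases CfsgLib.OmegaFour.eq_of_card_four hW4 hW2 hw (CfsgLib.OmegaFour.mem_normalizer_conj hdW hw)
      hw1 (fun h => hw1 (conj_eq_one_iff.mp h)) hne ht with rfl | rfl | rfl | rfl
    exacts [S.one_mem, hwS, hwS', S.mul_mem hwS hwS']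
  obtain ⟨g, hg⟩ := hsix
  have hQ1 : Q ≠ ⊥ := by
    intro h
    rw [h] at hchar
    have : g ∈ (⊥ : Subgroup G) := hchar (Subgroup.mem_centralizer_iff.mpr fun a ha => by
      rw [SetLike.mem_coe, Subgroup.mem_bot] at ha
      rw [ha, one_mul, mul_one])
    rw [Subgroup.mem_bot] at this
    rw [this, orderOf_one] at hg
    omega
  have hWQ : W ≤ Q := by
    by_contra hnot
    have hWQ1 : ∀ w ∈ W, w ∈ Q → w = 1 := fun w hw hwQ => by
      by_contra hw1
      exact hnot (hgen w hw hw1 Q hwQ (hQn.conj_mem w hwQ d))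
    letI : MulAction W Q := MulAction.compHom Q ((MulAut.conjNormal (H := Q)).comp W.subtype)
    have hdvd : 2 ∣ Nat.card Q := by
      obtain ⟨k, hk⟩ := IsPGroup.iff_card.mp hQp
      rw [hk]
      refine dvd_pow_self 2 fun h0 => hQ1 ?_
      rw [h0, pow_zero] at hk
      exact Subgroup.card_eq_one.mp hk
    obtain ⟨c, hc, hc1⟩ := hWp.exists_fixed_point_of_prime_dvd_card_of_fixed_point Q hdvd
      (a := (1 : Q)) (fun w => map_one (MulAut.conjNormal (H := Q) (w : G)))
    obtain ⟨k, hk⟩ := IsPGroup.iff_orderOf.mp hQp c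
    have hk1 : k ≠ 0 := fun h => hc1 (orderOf_eq_one_iff.mp (by rw [hk, h, pow_zero])).symm
    obtain ⟨t, ht⟩ : ∃ t, t = c ^ 2 ^ (k - 1) := ⟨_, rfl⟩
    have ht2 : orderOf t = 2 := by
      rw [ht, orderOf_pow_of_dvd (by positivity) (hk ▸ pow_dvd_pow 2 (by omega)), hk,
        Nat.pow_div (by omega) (by norm_num), show k - (k - 1) = 1 by omega, pow_one]
    have htt : (t : G) * t = 1 := by
      rw [← pow_two, ← Subgroup.coe_pow, ← ht2, pow_orderOf_eq_one, Subgroup.coe_one]
    have htW : (t : G) ∈ W := by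
      refine hkey _ htt fun w hw => ?_
      have h1 : (⟨w, hw⟩ : W) • c = c := hc ⟨w, hw⟩
      have h2 : w * (c : G) * w⁻¹ = c := congrArg Subtype.val h1
      rw [ht, Subgroup.coe_pow]
      exact (Commute.symm (mul_inv_eq_iff_eq_mul.mp h2)).pow_left _
    have := hWQ1 _ htW t.2
    rw [show t = 1 from Subtype.ext this, orderOf_one] at ht2
    omega
  haveI : Nontrivial Q := (Subgroup.nontrivial_iff_ne_bot Q).mpr hQ1
  haveI := hQp.center_nontrivial
  obtain ⟨k, hk⟩ := IsPGroup.iff_card.mp (hQp.to_subgroup (Subgroup.center Q))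
  have hk1 : k ≠ 0 := fun h => by
    have := Finite.one_lt_card (α := Subgroup.center Q)
    rw [hk, h, pow_zero] at this
    omega
  obtain ⟨c, hc2⟩ := exists_prime_orderOf_dvd_card' (G := Subgroup.center Q) 2 (hk ▸ dvd_pow_self 2 hk1)
  obtain ⟨z, hz⟩ : ∃ z : G, z = ((c : Q) : G) := ⟨_, rfl⟩
  have hzQ : z ∈ Q := hz ▸ (c : Q).2
  have hzc : ∀ p ∈ Q, Commute z p := fun p hp => by
    rw [hz]
    exact (congrArg Subtype.val (Subgroup.mem_center_iff.mp c.2 ⟨p, hp⟩)).symm
  have hz2 : orderOf z = 2 := by rw [hz, Subgroup.orderOf_coe, Subgroup.orderOf_coe, hc2]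
  have hzW : z ∈ W := hkey z (by rw [← pow_two, ← hz2, pow_orderOf_eq_one]) fun a ha => hzc a (hWQ ha)
  have hWc : ∀ a ∈ W, ∀ p ∈ Q, Commute a p := by
    intro a ha p hp
    refine Commute.symm (Subgroup.mem_centralizer_singleton_iff.mp (hgen z hzW
      (fun h => by rw [h, orderOf_one] at hz2; omega) (Subgroup.centralizer {p}) ?_ ?_ ha)).symm
    · exact Subgroup.mem_centralizer_singleton_iff.mpr (hzc p hp).eq
    · refine Subgroup.mem_centralizer_singleton_iff.mpr ?_
      have h := (Commute.conj_iff d).mpr (hzc _ (hQn.conj_mem p hp d⁻¹))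
      simpa [mul_assoc] using h.eq
  have hinv : ∀ a ∈ Q, a * a = 1 → a ∈ W := fun a ha h => hkey a h fun b hb => (hWc b hb a ha).symm
  have hnW : ∀ g : G, g ∈ Subgroup.normalizer (W : Set G) := by
    intro g
    rw [Subgroup.mem_normalizer_iff]
    intro a
    have : ∀ (g : G), ∀ a ∈ W, g * a * g⁻¹ ∈ W := fun g a ha =>
      hinv _ (hQn.conj_mem a (hWQ ha) g) (by
        rw [show g * a * g⁻¹ * (g * a * g⁻¹) = g * (a * a) * g⁻¹ by group, hW2 a ha, mul_one, mul_inv_cancel])
    exact ⟨this g a, fun h => by simpa [mul_assoc] using this g⁻¹ _ h⟩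
  -- the element of order six
  obtain ⟨x, hx⟩ : ∃ x, x = g ^ 2 := ⟨_, rfl⟩
  obtain ⟨t, ht⟩ : ∃ t, t = g ^ 3 := ⟨_, rfl⟩
  have hx3 : orderOf x = 3 := by rw [hx, orderOf_pow_of_dvd (by norm_num) (by rw [hg]; norm_num), hg]
  have ht2 : orderOf t = 2 := by rw [ht, orderOf_pow_of_dvd (by norm_num) (by rw [hg]; norm_num), hg]
  have hxt : Commute x t := by rw [hx, ht]; exact Commute.pow_pow_self g 2 3
  have htt : t * t = 1 := by rw [← pow_two, ← ht2, pow_orderOf_eq_one]
  have hti : t⁻¹ = t := inv_eq_of_mul_eq_one_right htt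
  have hxodd : Odd (orderOf x) := by rw [hx3]; decide
  have hxW : ∀ a ∈ W, Commute x a := by
    by_contra hnot
    obtain ⟨w, hw, hw1, htw⟩ : ∃ w ∈ W, w ≠ 1 ∧ Commute t w := by
      by_cases h : t * u * t⁻¹ = u
      · exact ⟨u, hu, hu1, mul_inv_eq_iff_eq_mul.mp h⟩
      refine ⟨u * (t * u * t⁻¹), W.mul_mem hu (CfsgLib.OmegaFour.mem_normalizer_conj (hnW t) hu),
        fun h' => h ?_, ?_⟩
      · exact mul_left_cancel (h'.trans (hW2 u hu).symm)
      · have hc : Commute u (t * u * t⁻¹) :=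
          hWc u hu _ (hQn.conj_mem u (hWQ hu) t)
        refine mul_inv_eq_iff_eq_mul.mp ?_
        calc t * (u * (t * u * t⁻¹)) * t⁻¹ = t * u * t⁻¹ * (t * t * u * (t * t)⁻¹) := by group
          _ = _ := by rw [htt, inv_one, one_mul, mul_one, hc.eq]
    have hxw : ¬ Commute x w := fun h =>
      hnot (CfsgLib.OmegaFour.commute_of_odd hW4 hW2 (hnW x) hxodd hw hw1 h)
    have htall := CfsgLib.OmegaFour.commute_of_two hW4 hW2 hw
      (CfsgLib.OmegaFour.mem_normalizer_conj (hnW x) hw) hw1 (fun h => hw1 (conj_eq_one_iff.mp h))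
      (fun h => hxw (mul_inv_eq_iff_eq_mul.mp h.symm)) htw
      ((hxt.symm.mul_right htw).mul_right hxt.symm.inv_right)
    have htW := hkey t htt htall
    exact hnot (CfsgLib.OmegaFour.commute_of_odd hW4 hW2 (hnW x) hxodd htW
      (fun h => by rw [h, orderOf_one] at ht2; omega) hxt)
  have hxQ := CfsgLib.OmegaFour.commute_of_three_involutions Q W hQp hWQ hW4 hW2 hWc hinv d (hnQ d) hdW
    hfix x (hnQ x) hxW (by rw [← hx3, pow_orderOf_eq_one])
  have hxin : x ∈ Q := hchar (Subgroup.mem_centralizer_iff.mpr fun p hp => (hxQ p hp).eq.symm)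
  obtain ⟨k, hk⟩ := IsPGroup.iff_orderOf.mp hQp ⟨x, hxin⟩
  rw [Subgroup.orderOf_mk, hx3] at hk
  rcases Nat.eq_zero_or_pos k with h | h
  · rw [h] at hk; omega
  · have : 2 ∣ 3 := hk ▸ dvd_pow_self 2 h.ne'
    omega

end Cfsg.Agent.S3739
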