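import Cfsg.Statements.S3770
import Cfsg.Agent.OddLocal.FrobCyclic
import Cfsg.Agent.Eq.Def_Solvable
import Cfsg.Agent.Eq.Def_Transfer
import Cfsg.Agent.FPFNilpotent.Main

set_option autoImplicit false
open Cfsg

namespace Cfsg.Agent.S3770

/-- Let G and V be subgroups of a finite group with G a Frobenius group with complement R of prime order and kernel K, G normalizing V, and V an elementary abelian ℓ-group for a prime ℓ not dividing the order of G. If C_V(R) has order ℓ, then the derived subgroup of K centralizes V. -/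
theorem result {X : Type*} [Group X] [Finite X] (G : Subgroup X) (V : Subgroup X) {ℓ : ℕ} (hℓ : ℓ.Prime) (hV : Cfsg.IsElementaryAbelian ℓ V) (hℓG : ¬ ℓ ∣ Nat.card G) (hGV : G ≤ Subgroup.normalizer (V : Set X)) (R : Subgroup ↥G) (hR : Cfsg.IsFrobeniusComplement R) (hRp : (Nat.card R).Prime) (hCV : Nat.card ↥(V ⊓ Subgroup.centralizer ((R.map G.subtype : Subgroup X) : Set X)) = ℓ) : ⁅Subgroup.closure (Subtype.val '' Cfsg.frobeniusKernel R), Subgroup.closure (Subtype.val '' Cfsg.frobeniusKernel R)⁆ ≤ Subgroup.centralizer (V : Set X) := by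
  obtain ⟨N, hN, hNn, hNnil⟩ :=
    CfsgLib.FPFNilpotent.frobenius_kernel_isNilpotent CfsgLib.FPFNilpotent.criterion R hR
  haveI := Fact.mk hℓ
  haveI := hNn
  haveI := hNnil
  rw [← hN]
  have hK : Subgroup.closure (Subtype.val '' (N : Set ↥G)) = N.map G.subtype := by
    rw [← Subgroup.coe_subtype, ← Subgroup.coe_map, Subgroup.closure_eq]
  rw [hK]
  haveI : Group.IsNilpotent (N.map G.subtype) :=
    Group.nilpotent_of_mulEquiv (N.equivMapOfInjective G.subtype G.subtype_injective)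
  have hsup : N.map G.subtype ⊔ R.map G.subtype = G := by
    rw [← Subgroup.map_sup, (CfsgLib.Frobenius.kernel_isComplement' hR hN).sup_eq_top,
      ← MonoidHom.range_eq_map, Subgroup.range_subtype]
  refine CfsgLib.OddLocal.FrobFormula.commutator_le_centralizer_of_small_fixed (ℓ := ℓ)
    (N.map G.subtype) (R.map G.subtype) V ?_ ?_ ?_ (hsup.symm ▸ hGV) ?_ hV.2 (hsup.symm ▸ hℓG)
    hCV.le
  · rw [← Subgroup.map_inf _ _ _ G.subtype_injective, CfsgLib.Frobenius.kernel_inf hN,
      Subgroup.map_bot]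
  · refine CfsgLib.Coprime.le_normalizer_of_conj_mem ?_
    rintro _ ⟨r, hr, rfl⟩ _ ⟨k, hk, rfl⟩
    exact ⟨r * k * r⁻¹, hNn.conj_mem k hk r, by simp⟩
  · rintro _ ⟨r, hr, rfl⟩ hr1 _ ⟨k, hk, rfl⟩ h
    have h1 : r * k * r⁻¹ = k := by
      rw [mul_inv_eq_iff_eq_mul]
      exact Subtype.ext h
    rw [CfsgLib.Frobenius.kernel_fpf hR hN hr (fun e => hr1 (by rw [e]; rfl)) hk h1]
    rfl
  · exact fun x hx y hy => congrArg Subtype.val (hV.1.is_comm.comm ⟨x, hx⟩ ⟨y, hy⟩)

end Cfsg.Agent.S3770
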