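import Cfsg.Statements.S3782
import Cfsg.Agent.AlperinFix.PGroup
import Cfsg.Agent.SelfCentPrime.PrimeCore
import Cfsg.Agent.Constrained.HallHigman
import Cfsg.Agent.Constrained.PSolvable
import Cfsg.Agent.Coprime.External
import Cfsg.Agent.LocalP.Basic
import Cfsg.Agent.FPFNilpotent.Main
-- import your own Cfsg.Agent.* helpers here

set_option autoImplicit false
set_option linter.style.haveILetI false
open Cfsg

namespace Cfsg.Agent.S3782

open CfsgLib.AlperinFix

/-- Groups with `O_{p'} = 1`. -/
theorem derivedSeries_eq_bot_of_core_eq_bot {G : Type*} [Group G] [Finite G] [Group.IsSolvable G]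
    {p n : ℕ} [hp : Fact p.Prime] (hO : pPrimeCore p G = ⊥) (α : MulAut G) (hα : α ^ p = 1)
    (hn : Nat.card (fixSub α) ≤ p ^ n) :
    derivedSeries G (((p ^ n) ^ p).factorial + pBound p n) = ⊥ := by
  classical
  haveI := CfsgLib.LocalP.pCore_characteristic (G := G) p
  set Q := pCore p G with hQ
  have hQp : IsPGroup p Q := CfsgLib.LocalP.isPGroup_pCore
  have hC := CfsgLib.Constrained.centralizer_pCore_le
    CfsgLib.Constrained.isPSolvable_of_isSolvable hO
  have hQi : Invar α Q := invar_of_characteristic α _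
  have hfixQ := (card_fixSub_restr_le α Q hQi).trans hn
  haveI := frattini_characteristic (G := Q)
  set F := (frattini Q).map Q.subtype with hF
  haveI : F.Normal := by rw [hF]; infer_instance
  set V := Q.map (QuotientGroup.mk' F) with hV
  haveI : V.Normal := Subgroup.Normal.map inferInstance _ (QuotientGroup.mk'_surjective F)
  have hVcard : Nat.card V ≤ (p ^ n) ^ p := by
    have h1 : frattini Q ≤ ((QuotientGroup.mk' F).comp Q.subtype).ker := fun x hx =>
      (QuotientGroup.eq_one_iff _).mpr (Subgroup.mem_map_of_mem Q.subtype hx)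
    have h2 : ((QuotientGroup.mk' F).comp Q.subtype).range = V := by
      rw [MonoidHom.range_comp, Subgroup.range_subtype]
    rw [← h2, ← Subgroup.index_ker]
    refine (Nat.le_of_dvd (Nat.pos_of_ne_zero Subgroup.index_ne_zero_of_finite)
      (Subgroup.index_dvd_of_le h1)).trans ?_
    rw [Subgroup.index_eq_card]
    exact card_frattini_quotient_le hQp (restr_pow_eq_one hα Q hQi) hfixQ
  let f : G →* Equiv.Perm V :=
    (MulAut.toPerm V).comp (MulAut.conjNormal.comp (QuotientGroup.mk' F))
  have hfi : f.ker.index ≤ ((p ^ n) ^ p).factorial := by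
    letI := Fintype.ofFinite V
    rw [Subgroup.index_ker]
    refine (Subgroup.card_le_card_group _).trans ?_
    rw [Nat.card_eq_fintype_card, Fintype.card_perm]
    exact Nat.factorial_le (by rwa [← Nat.card_eq_fintype_card])
  have hfK : f.ker ≤ Q := by
    refine CfsgLib.LocalP.le_pCore inferInstance
      (CfsgLib.LocalP.isPGroup_of_forall_coprime _ fun x hx hcop => ?_)
    obtain ⟨k, hk⟩ := IsPGroup.iff_card.mp hQp
    have hx' : Subgroup.zpowers x ≤ f.ker := Subgroup.zpowers_le.mpr hx
    let φ : Subgroup.zpowers x →* MulAut Q :=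
      MulAut.conjNormal.comp (Subgroup.zpowers x).subtype
    have hcopQ : (Nat.card (Subgroup.zpowers x)).Coprime (Nat.card Q) := by
      rw [Nat.card_zpowers, hk]
      exact hcop.pow_right k
    have hstab : ∀ (a : Subgroup.zpowers x) (g : Q), g⁻¹ * φ a g ∈ frattini Q := by
      intro a g
      have ha : f a = 1 := hx' a.2
      have h3 := congrArg Subtype.val (Equiv.ext_iff.mp ha ⟨_, Subgroup.mem_map_of_mem _ g.2⟩ :)
      have h4 : (QuotientGroup.mk' F) ((a : G) * g * (a : G)⁻¹) = QuotientGroup.mk' F g := by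
        rw [map_mul, map_mul, map_inv]
        exact h3
      have h5 : ((g⁻¹ * φ a g : Q) : G) ∈ F := by
        have := QuotientGroup.eq.mp h4.symm
        simpa [φ, MulAut.conjNormal_apply, mul_assoc] using this
      obtain ⟨z, hz, hze⟩ := h5
      exact (Subtype.ext hze : z = _) ▸ hz
    have htriv := CfsgLib.Coprime.aut_eq_one_of_frattini_quotient φ hcopQ hstab
      ⟨x, Subgroup.mem_zpowers x⟩
    refine CfsgLib.LocalP.eq_one_of_centralizes_pCore hC hcop fun q hq => ?_
    have h6 := congrArg Subtype.val (htriv ⟨q, hq⟩)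
    exact mul_inv_eq_iff_eq_mul.mp h6
  refine derivedSeries_eq_bot_of_quotient Q (derivedSeries_eq_bot_of_card_le ?_) ?_
  · rw [← Subgroup.index_eq_card]
    exact (Nat.le_of_dvd (Nat.pos_of_ne_zero Subgroup.index_ne_zero_of_finite)
      (Subgroup.index_dvd_of_le hfK)).trans hfi
  · exact derivedSeries_eq_bot_of_isPGroup hQp (restr α Q hQi) (restr_pow_eq_one hα Q hQi) hfixQ

/-- The `p'`-core has bounded derived length. -/
theorem derivedSeries_pPrimeCore {G : Type} [Group G] [Finite G] {p n : ℕ} [hp : Fact p.Prime]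
    (α : MulAut G) (hα : α ^ p = 1) (hn : Nat.card (fixSub α) = p ^ n) :
    derivedSeries (pPrimeCore p G) (hkk p) = ⊥ := by
  haveI := CfsgLib.SelfCentPrime.pPrimeCore_characteristic (G := G) p
  set R := pPrimeCore p G with hR
  have hRi : Invar α R := invar_of_characteristic α _
  set β := restr α R hRi with hβ
  have hfpf : ∀ x : R, β x = x → x = 1 := by
    intro x hx
    have h1 : orderOf (x : G) ∣ p ^ n := hn ▸ Subgroup.orderOf_dvd_natCard (fixSub α)
      (congrArg Subtype.val hx :)
    have h2 : orderOf (x : G) ∣ Nat.card R := Subgroup.orderOf_dvd_natCard R x.2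
    have h3 : ((p ^ n).Coprime (Nat.card R)) :=
      (CfsgLib.Constrained.pPrimeCore_coprime (G := G) (p := p)).symm.pow_left n
    exact Subtype.ext (orderOf_eq_one_iff.mp (Nat.eq_one_of_dvd_coprimes h3 h1 h2))
  by_cases h1 : β = 1
  · haveI : Subsingleton R := ⟨fun a b => by
      rw [hfpf a (by rw [h1]; rfl), hfpf b (by rw [h1]; rfl)]⟩
    exact Subsingleton.elim _ _
  · have hord : orderOf β = p := orderOf_eq_prime (restr_pow_eq_one hα R hRi) h1
    haveI : Group.IsNilpotent R := CfsgLib.FPFNilpotent.isNilpotent_of_fpf_automorphism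
      CfsgLib.FPFNilpotent.criterion β hfpf p hp.out hord
    rw [eq_bot_iff, ← (CfsgLib.LieFPF.class_bound β (restr_pow_eq_one hα R hRi) hfpf).2.2]
    exact Subgroup.derived_le_lower_central _

/-- Alperin's Theorem: for each prime p and each n ≥ 0 there is an integer l such that every finite solvable group admitting an automorphism of order p with exactly p^n fixed points has derived length at most l. -/
theorem result (p : ℕ) (hp : p.Prime) (n : ℕ) : ∃ l : ℕ, ∀ (G : Type) [Group G] [Finite G], Group.IsSolvable G → ∀ α : MulAut G, orderOf α = p → Nat.card {g : G // α g = g} = p ^ n → derivedSeries G l = ⊥ := by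
  refine ⟨((p ^ n) ^ p).factorial + pBound p n + hkk p, fun G _ _ hG α hord hfix => ?_⟩
  haveI := Fact.mk hp
  have hα : α ^ p = 1 := hord ▸ pow_orderOf_eq_one α
  have hn : Nat.card (fixSub α) = p ^ n := hfix
  haveI := CfsgLib.SelfCentPrime.pPrimeCore_characteristic (G := G) p
  have hRi : Invar α (pPrimeCore p G) := invar_of_characteristic α _
  haveI : Group.IsSolvable (G ⧸ pPrimeCore p G) :=
    Group.isSolvable_of_surjective (QuotientGroup.mk'_surjective (pPrimeCore p G))
  exact derivedSeries_eq_bot_of_quotient (pPrimeCore p G)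
    (derivedSeries_eq_bot_of_core_eq_bot CfsgLib.Constrained.pPrimeCore_quotient_pPrimeCore
      (quot α _ hRi) (quot_pow_eq_one hα _ hRi) ((card_fixSub_quot_le α _ hRi).trans hn.le))
    (derivedSeries_pPrimeCore α hα hn)

end Cfsg.Agent.S3782
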