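import Cfsg.Statements.S3802
import Mathlib
import Cfsg.Agent.Subnormal.Basic

set_option autoImplicit false
open Cfsg

namespace Cfsg.Agent.S3802

/-- Let G be a finite group, M a maximal subgroup of G and N a subnormal subgroup of G contained in M. Then N is contained in every conjugate of M, that is, N lies in the core of M in G. -/
theorem result {G : Type*} [Group G] [Finite G] (M N : Subgroup G) (hM : IsCoatom M) (hN : N.IsSubnormal) (hNM : N ≤ M) :
    N ≤ Subgroup.normalCore M := by
  set K := M.normalCore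
  set f := QuotientGroup.mk' K with hf
  have hfs : Function.Surjective f := QuotientGroup.mk'_surjective K
  have hK : f.ker = K := QuotientGroup.ker_mk' K
  have hKM : K ≤ M := M.normalCore_le
  set M' := M.map f with hM'
  set N' := N.map f with hN'
  have hcM : M'.comap f = M := by
    rw [hM', Subgroup.comap_map_eq, hK, sup_eq_left.2 hKM]
  have hM't : IsCoatom M' := by
    refine ⟨fun h => hM.1 ?_, fun L hL => ?_⟩
    · rw [← hcM, h, Subgroup.comap_top]
    · have h1 : M < L.comap f :=
        calc M = M'.comap f := hcM.symm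
          _ < L.comap f := (Subgroup.comap_lt_comap_of_surjective hfs).2 hL
      rw [← Subgroup.map_comap_eq_self_of_surjective hfs L, hM.2 _ h1, Subgroup.map_top_of_surjective f hfs]
  have hcore : ∀ X : Subgroup (G ⧸ K), X.Normal → X ≤ M' → X = ⊥ := by
    intro X hX hXM
    have h1 : X.comap f ≤ K := (Subgroup.normal_le_normalCore (hN := hX.comap f)).2
      ((Subgroup.comap_mono hXM).trans hcM.le)
    rw [← Subgroup.map_comap_eq_self_of_surjective hfs X, eq_bot_iff]
    exact (Subgroup.map_mono h1).trans ((Subgroup.map_eq_bot_iff K).2 hK.ge).le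
  suffices h : N' = ⊥ by
    rw [hN', Subgroup.map_eq_bot_iff, hK] at h
    exact h
  have : Nontrivial (G ⧸ K) := by
    rw [QuotientGroup.nontrivial_iff]
    exact fun h => hM.1 (top_le_iff.1 (h ▸ hKM))
  obtain ⟨L, ⟨hLn, hLb⟩, hLmin⟩ := Set.Finite.exists_minimal
    (Set.toFinite {L : Subgroup (G ⧸ K) | L.Normal ∧ L ≠ ⊥}) ⟨⊤, inferInstance, top_ne_bot⟩
  have hLN : L ≤ Subgroup.normalizer (N' : Set (G ⧸ K)) := by
    refine CfsgLib.Subnormal.minimalNormal_le_normalizer hLn (fun X hX hXL => ?_) (hN.map hfs)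
    by_cases hXb : X = ⊥
    · exact Or.inl hXb
    · exact Or.inr (le_antisymm hXL (hLmin ⟨hX, hXb⟩ hXL))
  have htop : L ⊔ M' = ⊤ := by
    refine hM't.2 _ (lt_of_le_of_ne le_sup_right fun h => hLb (hcore L hLn (h ▸ le_sup_left)))
  have hnc : Subgroup.normalClosure (N' : Set (G ⧸ K)) ≤ M' := by
    refine (Subgroup.closure_le _).2 ?_
    intro y hy
    obtain ⟨x, hx, hxy⟩ := Group.mem_conjugatesOfSet_iff.1 hy
    obtain ⟨g, rfl⟩ := isConj_iff.1 hxy
    have hg : g⁻¹ ∈ L ⊔ M' := htop ▸ Subgroup.mem_top _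
    obtain ⟨l, hl, m, hm, he⟩ := Subgroup.mem_sup_of_normal_left.1 hg
    have hg' : g = m⁻¹ * l⁻¹ := by rw [← mul_inv_rev, he, inv_inv]
    subst hg'
    have h1 : l⁻¹ * x * l⁻¹⁻¹ ∈ N' :=
      (Subgroup.mem_normalizer_iff.1 (hLN (inv_mem hl)) x).1 hx
    have h2 : N' ≤ M' := Subgroup.map_mono hNM
    have h3 := M'.mul_mem (M'.mul_mem (M'.inv_mem hm) (h2 h1)) hm
    rw [SetLike.mem_coe]
    convert h3 using 1
    group
  exact le_bot_iff.1 ((Subgroup.le_normalClosure).trans (hcore _ Subgroup.normalClosure_normal hnc).le)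

end Cfsg.Agent.S3802
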