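import Cfsg.Statements.S3803
-- import your own Cfsg.Agent.* helpers here
import Mathlib
import Cfsg.Agent.Coprime.Minimal
import Cfsg.Agent.Coprime.Basic
import Cfsg.Agent.PGroup.Frattini

set_option autoImplicit false
open Cfsg

namespace Cfsg.Agent.S3803

open CfsgLib.Coprime
open scoped commutatorElement

variable {X : Type*} [Group X] [Finite X] {A P : Subgroup X}

theorem coprime_two (hA : Odd (Nat.card A)) (hP : IsPGroup 2 P) :
    (Nat.card A).Coprime (Nat.card P) := by
  haveI : Fact (Nat.Prime 2) := ⟨Nat.prime_two⟩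
  exact coprime_card_of_isPGroup hP (Nat.coprime_two_right.2 hA)

/-- An odd order group fixing all `x` with `x ^ 4 = 1` centralizes a 2-group. -/
theorem fixes_of_fixes_four (hP : IsPGroup 2 P) (hA : Odd (Nat.card A))
    (hAP : A ≤ Subgroup.normalizer (P : Set X))
    (h4 : ∀ x ∈ P, x ^ 4 = 1 → ∀ a ∈ A, a * x = x * a) : A ≤ Subgroup.centralizer (P : Set X) := by
  haveI : Fact (Nat.Prime 2) := ⟨Nat.prime_two⟩
  rw [← Subgroup.commutator_eq_bot_iff_le_centralizer, Subgroup.commutator_comm]
  by_contra hnt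
  obtain ⟨Q, hQP, hAQ, hQnt, hmin⟩ := exists_minimal hAP hnt
  have hQ : IsPGroup 2 Q := hP.to_le hQP
  have hAp : (Nat.card A).Coprime 2 := Nat.coprime_two_right.2 hA
  obtain ⟨hF, -⟩ := minimal_inf_centralizer_eq hQ hAQ le_rfl Subgroup.le_normalizer hAp hQnt hmin
  have hcen := (minimal_frattini_central hQ hAQ le_rfl Subgroup.le_normalizer hAp hQnt hmin).trans
    inf_le_left
  apply hQnt
  rw [Subgroup.commutator_eq_bot_iff_le_centralizer]
  intro x hx
  rw [Subgroup.mem_centralizer_iff]
  refine fun a ha => h4 x (hQP hx) ?_ a ha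
  have hder : ∀ y ∈ ⁅Q, Q⁆, y ^ 2 = 1 ∧ ∀ q ∈ Q, y * q = q * y := by
    intro y hy
    let E : Subgroup X :=
      { carrier := {y | y ^ 2 = 1 ∧ (∀ q ∈ Q, y * q = q * y) ∧ y ∈ Q}
        one_mem' := ⟨one_pow 2, fun q _ => by rw [one_mul, mul_one], Q.one_mem⟩
        mul_mem' := fun {a b} ha hb => ⟨by
            have hab : Commute a b := ha.2.1 b hb.2.2
            rw [hab.mul_pow, ha.1, hb.1, one_mul],
          fun q hq => by rw [mul_assoc, hb.2.1 q hq, ← mul_assoc, ha.2.1 q hq, mul_assoc],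
          Q.mul_mem ha.2.2 hb.2.2⟩
        inv_mem' := fun {a} ha => ⟨by rw [inv_pow, ha.1, inv_one],
          fun q hq => (Commute.inv_left (ha.2.1 q hq : Commute a q)).eq, Q.inv_mem ha.2.2⟩ }
    have hle : ⁅Q, Q⁆ ≤ E := by
      rw [Subgroup.commutator_le]
      intro u hu v hv
      have hmem : ∀ w ∈ (frattini ↥Q).map Q.subtype, ∀ q ∈ Q, w * q = q * w := fun w hw q hq =>
        (Subgroup.mem_centralizer_iff.1 (hcen hw) q hq).symm
      have hc := hmem _ (commutator_le_frattini_map hQ (Subgroup.commutator_mem_commutator hu hv))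
      refine ⟨?_, hc, Q.mul_mem (Q.mul_mem (Q.mul_mem hu hv) (Q.inv_mem hu)) (Q.inv_mem hv)⟩
      have h1 : ⁅u * u, v⁆ = ⁅u, v⁆ ^ 2 := by
        rw [show ⁅u * u, v⁆ = u * ⁅u, v⁆ * (v * u⁻¹ * v⁻¹) by
          simp only [commutatorElement_def]; group, ← hc u hu, pow_two, commutatorElement_def]
        group
      rw [← h1, commutatorElement_eq_one_iff_mul_comm]
      exact hmem _ (by rw [← pow_two]; exact pow_mem_frattini_map hQ hu) v hv
    exact ⟨(hle hy).1, (hle hy).2.1⟩
  have h2 := pow_mem_frattini_map hQ hx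
  rw [hF] at h2
  rw [show 4 = 2 * 2 from rfl, pow_mul]
  exact (hder _ h2).1

/-- An odd order element normalising a cyclic 2-group centralizes it. -/
theorem commute_of_normalizes_cyclic (hA : Odd (Nat.card A)) {C : Subgroup X} [IsCyclic C]
    (hC : IsPGroup 2 C) (hAC : A ≤ Subgroup.normalizer (C : Set X)) :
    ∀ a ∈ A, ∀ x ∈ C, a * x = x * a := by
  haveI : Fact (Nat.Prime 2) := ⟨Nat.prime_two⟩
  intro a ha x hx
  let ψ : ↥(Subgroup.normalizer (C : Set X)) →* MulAut ↥C := Subgroup.normalizerMonoidHom C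
  have h1 : orderOf (ψ ⟨a, hAC ha⟩) ∣ Nat.card A := by
    refine (orderOf_map_dvd ψ _).trans ?_
    rw [Subgroup.orderOf_mk]
    exact A.orderOf_dvd_natCard ha
  have h2 : orderOf (ψ ⟨a, hAC ha⟩) ∣ Nat.card (MulAut ↥C) := orderOf_dvd_natCard _
  rw [IsCyclic.card_mulAut] at h2
  obtain ⟨k, hk⟩ := IsPGroup.iff_card.1 hC
  have h3 : orderOf (ψ ⟨a, hAC ha⟩) = 1 := by
    refine Nat.eq_one_of_dvd_coprimes ?_ h1 h2
    rcases Nat.eq_zero_or_pos k with hk0 | hk0
    · rw [hk, hk0, pow_zero, Nat.totient_one]; exact Nat.coprime_one_right _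
    · rw [hk, Nat.totient_prime_pow Nat.prime_two hk0]
      simp only [show (2 : ℕ) - 1 = 1 from rfl, mul_one]
      exact (Nat.coprime_two_right.2 hA).pow_right _
  have h4 := congrArg (fun e : MulAut ↥C => ((e ⟨x, hx⟩ : C) : X)) (orderOf_eq_one_iff.1 h3)
  exact mul_inv_eq_iff_eq_mul.1 h4

theorem exists_le_card (hP : IsPGroup 2 P) {U : Subgroup X} (hUP : U ≤ P) {k : ℕ}
    (hU : Nat.card U ∣ 2 ^ k) (hk : 2 ^ k ≤ Nat.card P) :
    ∃ E : Subgroup X, E ≤ P ∧ U ≤ E ∧ Nat.card E = 2 ^ k := by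
  haveI : Fact (Nat.Prime 2) := ⟨Nat.prime_two⟩
  obtain ⟨j, hjk, hj⟩ := (Nat.dvd_prime_pow Nat.prime_two).1 hU
  obtain ⟨m, hm⟩ := IsPGroup.iff_card.1 hP
  have hdvd : 2 ^ k ∣ Nat.card P := by
    rw [hm] at hk ⊢
    exact Nat.pow_dvd_pow 2 ((Nat.pow_le_pow_iff_right (by norm_num)).1 hk)
  have hU' : Nat.card (U.subgroupOf P) = 2 ^ j := by
    rw [Nat.card_congr (Subgroup.subgroupOfEquivOfLe hUP).toEquiv, hj]
  obtain ⟨K, hK1, hK2⟩ := Sylow.exists_subgroup_card_pow_prime_le 2 hdvd (U.subgroupOf P) hU' hjk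
  refine ⟨K.map P.subtype, Subgroup.map_subtype_le _, fun u hu => ⟨⟨u, hUP hu⟩, hK2 hu, rfl⟩, ?_⟩
  rw [Subgroup.card_map_of_injective P.subtype_injective, hK1]

theorem main (hA : Odd (Nat.card A)) {k : ℕ} (hk : 2 ≤ k) :
    ∀ n, ∀ P : Subgroup X, Nat.card P = n → IsPGroup 2 P → A ≤ Subgroup.normalizer (P : Set X) →
      2 ^ k < Nat.card P →
      (∀ E : Subgroup X, E ≤ P → Nat.card E = 2 ^ k → A ≤ Subgroup.normalizer (E : Set X)) →
      A ≤ Subgroup.centralizer (P : Set X) := by
  haveI : Fact (Nat.Prime 2) := ⟨Nat.prime_two⟩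
  intro n
  induction n using Nat.strong_induction_on with
  | _ n ih =>
  intro P hn hP hAP hlt hinv
  set F := (frattini ↥P).map P.subtype with hF
  have hAF : A ≤ Subgroup.normalizer (F : Set X) := le_normalizer_map_characteristic hAP _
  have hFP : F ≤ P := Subgroup.map_subtype_le _
  have hPcard : P ≠ ⊥ := fun h => by
    have h1 : Nat.card P = 1 := by rw [h]; exact Subgroup.card_bot
    have := Nat.one_le_two_pow (n := k)
    omega
  have hsq : ∀ x ∈ P, x * x ∈ F := fun x hx => by
    rw [← pow_two]; exact pow_mem_frattini_map hP hx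
  obtain ⟨j, hj⟩ := IsPGroup.iff_card.1 (hP.to_le hFP)
  by_cases hFk : j < k
  · -- every maximal subgroup is invariant
    have hmaxinv : ∀ M : Subgroup ↥P, IsCoatom M → 2 ^ k ≤ Nat.card M →
        A ≤ Subgroup.normalizer ((M.map P.subtype : Subgroup X) : Set X) := by
      intro M hM hMk
      refine le_normalizer_of_conj_mem ?_
      rintro a ha _ ⟨m, hm, rfl⟩
      have hFM : F ≤ M.map P.subtype := Subgroup.map_mono (iInf₂_le M hM)
      have hMP : M.map P.subtype ≤ P := Subgroup.map_subtype_le _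
      have hU : Nat.card ↥(F ⊔ Subgroup.zpowers (m : X)) ∣ 2 ^ k := by
        set U := F ⊔ Subgroup.zpowers (m : X) with hU'
        have hUP : U ≤ P := sup_le hFP (Subgroup.zpowers_le.2 m.2)
        have hle : U.relIndex F = 1 := Subgroup.relIndex_eq_one.2 le_sup_left
        have h2 : F.relIndex U ∣ 2 := by
          by_cases hmF : (m : X) ∈ F
          · rw [Subgroup.relIndex_eq_one.2 (sup_le le_rfl (Subgroup.zpowers_le.2 hmF))]
            exact one_dvd _
          · have hn : (F.subgroupOf U).Normal := by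
              refine (Subgroup.normal_subgroupOf_iff_le_normalizer le_sup_left).2
                (hUP.trans ?_)
              exact le_normalizer_map_characteristic Subgroup.le_normalizer _
            show (F.subgroupOf U).index ∣ 2
            haveI := hn
            rw [Subgroup.index_eq_card]
            have hgen : ∀ q : ↥U ⧸ F.subgroupOf U, q ∈ Subgroup.zpowers
                (QuotientGroup.mk' (F.subgroupOf U) ⟨m, Subgroup.mem_sup_right (Subgroup.mem_zpowers _)⟩) := by
              intro q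
              obtain ⟨u, rfl⟩ := QuotientGroup.mk'_surjective _ q
              have hu : (u : X) ∈ F ⊔ Subgroup.zpowers (m : X) := u.2
              rw [← SetLike.mem_coe, Subgroup.coe_mul_of_right_le_normalizer_left F _
                ((Subgroup.zpowers_le.2 m.2).trans
                  (le_normalizer_map_characteristic Subgroup.le_normalizer _))] at hu
              obtain ⟨f, hf, _, ⟨i, rfl⟩, hfi⟩ := Set.mem_mul.1 hu
              refine ⟨i, ?_⟩
              show (QuotientGroup.mk' (F.subgroupOf U)) _ ^ i = _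
              rw [← map_zpow]
              refine (QuotientGroup.mk'_eq_mk' _).2 ?_
              refine ⟨(⟨(m : X), Subgroup.mem_sup_right (Subgroup.mem_zpowers _)⟩ : ↥U) ^ (-i) * u, ?_, by group⟩
              rw [Subgroup.mem_subgroupOf, Subgroup.coe_mul, Subgroup.coe_zpow, ← hfi]
              have hmn : (m : X) ^ (-i) ∈ Subgroup.normalizer (F : Set X) :=
                le_normalizer_map_characteristic Subgroup.le_normalizer _ (P.zpow_mem m.2 _)
              have h3 := (Subgroup.mem_normalizer_iff.1 hmn f).1 hf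
              rwa [zpow_neg, inv_inv, ← zpow_neg, mul_assoc] at h3
            rw [Nat.card_congr (Equiv.subtypeUnivEquiv hgen).symm, Nat.card_zpowers]
            refine orderOf_dvd_of_pow_eq_one ?_
            rw [← map_pow]
            refine (QuotientGroup.eq_one_iff _).2 ?_
            rw [Subgroup.mem_subgroupOf, Subgroup.coe_pow, pow_two]
            exact hsq _ m.2
        have h3 : Nat.card F * F.relIndex U = Nat.card U := by
          rw [Subgroup.relIndex, ← Subgroup.card_mul_index (F.subgroupOf U),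
            Nat.card_congr (Subgroup.subgroupOfEquivOfLe (show F ≤ U from le_sup_left)).toEquiv]
        rw [← h3, hj]
        calc 2 ^ j * F.relIndex U ∣ 2 ^ j * 2 := Nat.mul_dvd_mul_left _ h2
          _ = 2 ^ (j + 1) := (pow_succ 2 j).symm
          _ ∣ 2 ^ k := Nat.pow_dvd_pow 2 hFk
      obtain ⟨E, hEM, hUE, hEk⟩ := exists_le_card (hP.to_le hMP)
        (sup_le hFM (Subgroup.zpowers_le.2 ⟨m, hm, rfl⟩)) hU
        (by rwa [Subgroup.card_map_of_injective P.subtype_injective])
      exact hEM ((Subgroup.mem_normalizer_iff.1 (hinv E (hEM.trans hMP) hEk ha) m).1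
        (hUE (Subgroup.mem_sup_right (Subgroup.mem_zpowers _))))
    have hcomm : ⁅P, A⁆ ≤ F := by
      rw [Subgroup.commutator_le]
      intro x hx a ha
      have hxa : a * x⁻¹ * a⁻¹ ∈ P := conj_mem_of_le_normalizer hAP ha (P.inv_mem hx)
      have hmem : ⁅x, a⁆ ∈ P := by
        rw [commutatorElement_def, show x * a * x⁻¹ * a⁻¹ = x * (a * x⁻¹ * a⁻¹) by group]
        exact P.mul_mem hx hxa
      refine ⟨⟨_, hmem⟩, ?_, rfl⟩
      rw [SetLike.mem_coe, CfsgLib.PGroup.mem_frattini_iff]
      intro M hM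
      haveI := CfsgLib.PGroup.normal_of_coatom hP hM
      have hidx : M.index = 2 := CfsgLib.PGroup.index_of_coatom hP hM
      have hMk : 2 ^ k ≤ Nat.card M := by
        obtain ⟨m, hm⟩ := IsPGroup.iff_card.1 hP
        have h := Subgroup.card_mul_index M
        rw [hidx, hm] at h
        rw [hm] at hlt
        have hkm : k < m := (Nat.pow_lt_pow_iff_right (by norm_num)).1 hlt
        have : 2 ^ (k + 1) ≤ 2 ^ m := Nat.pow_le_pow_right two_pos hkm
        rw [pow_succ] at this
        omega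
      have hinvM := hmaxinv M hM hMk
      have h2 : (⟨x, hx⟩ : ↥P) ∈ M ↔ (⟨a * x⁻¹ * a⁻¹, hxa⟩ : ↥P) ∈ M := by
        rw [← inv_mem_iff (H := M)]
        constructor
        · intro h
          obtain ⟨y, hy, hye⟩ :=
            (Subgroup.mem_normalizer_iff.1 (hinvM ha) _).1 ⟨_, h, rfl⟩
          rwa [show (⟨a * x⁻¹ * a⁻¹, hxa⟩ : ↥P) = y from Subtype.ext hye.symm]
        · intro h
          obtain ⟨y, hy, hye⟩ :=
            (Subgroup.mem_normalizer_iff.1 (hinvM ha) x⁻¹).2 ⟨_, h, rfl⟩
          rwa [show (⟨x, hx⟩ : ↥P)⁻¹ = y from Subtype.ext hye.symm]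
      rw [show (⟨⁅x, a⁆, hmem⟩ : ↥P) = ⟨x, hx⟩ * ⟨a * x⁻¹ * a⁻¹, hxa⟩ from
        Subtype.ext (show ⁅x, a⁆ = x * (a * x⁻¹ * a⁻¹) by rw [commutatorElement_def]; group)]
      exact (Subgroup.mul_mem_iff_of_index_two hidx).2 h2
    exact Subgroup.le_centralizer_iff.1 (le_centralizer_of_frattini hAP (coprime_two hA hP) hcomm)
  -- all subgroups of order `2 ^ k` are centralised
  push Not at hFk
  have hcase : ∀ E : Subgroup X, E ≤ P → Nat.card E = 2 ^ k → E ≠ F →
      A ≤ Subgroup.centralizer ((E ⊔ F : Subgroup X) : Set X) := by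
    intro E hEP hEk hne
    have hRP : E ⊔ F ≤ P := sup_le hEP hFP
    have hRne : E ⊔ F ≠ P := by
      intro h
      have h1 : E.subgroupOf P ⊔ frattini ↥P = ⊤ := by
        apply Subgroup.map_injective P.subtype_injective
        rw [Subgroup.map_sup, Subgroup.subgroupOf_map_subtype, inf_eq_left.2 hEP,
          ← MonoidHom.range_eq_map, Subgroup.range_subtype]
        exact h
      have h2 := frattini_nongenerating h1
      rw [Subgroup.subgroupOf_eq_top] at h2
      have := Subgroup.card_le_of_le h2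
      omega
    have hR : 2 ^ k < Nat.card ↥(E ⊔ F) := by
      rw [← hEk]
      refine lt_of_le_of_ne (Subgroup.card_le_of_le le_sup_left) fun h => hne ?_
      have hle : F ≤ E := by
        rw [Subgroup.eq_of_le_of_card_ge (le_sup_left (a := E) (b := F)) h.ge]
        exact le_sup_right
      refine (Subgroup.eq_of_le_of_card_ge hle ?_).symm
      rw [hj, hEk]
      exact Nat.pow_le_pow_right two_pos hFk
    have hAR : A ≤ Subgroup.normalizer ((E ⊔ F : Subgroup X) : Set X) :=
      (le_inf (hinv E hEP hEk) hAF).trans (Subgroup.normalizer_inf_normalizer_le_normalizer_sup E F)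
    refine ih _ ?_ _ rfl (hP.to_le hRP) hAR hR fun E' h1 h2 => hinv E' (h1.trans hRP) h2
    rw [← hn]
    exact lt_of_le_of_ne (Subgroup.card_le_of_le hRP)
      fun h => hRne (Subgroup.eq_of_le_of_card_ge hRP h.ge)
  refine fixes_of_fixes_four hP hA hAP fun x hx hx4 a ha => ?_
  obtain ⟨E, hEP, hxE, hEk⟩ := exists_le_card hP (Subgroup.zpowers_le.2 hx) (k := k) (by
    rw [Nat.card_zpowers]
    exact (orderOf_dvd_of_pow_eq_one hx4).trans (Nat.pow_dvd_pow 2 hk)) hlt.le
  by_cases hEF : E = F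
  · by_cases huniq : ∀ E' : Subgroup X, E' ≤ P → Nat.card E' = 2 ^ k → E' = F
    · obtain ⟨y, hy, hyF⟩ : ∃ y ∈ P, y ∉ F := by
        by_contra hall
        push Not at hall
        exact (frattini_map_lt hP hPcard).not_ge fun y hy => hall y hy
      have hyk : ¬ orderOf y ∣ 2 ^ k := by
        intro h
        obtain ⟨E', h1, h2, h3⟩ := exists_le_card hP (Subgroup.zpowers_le.2 hy) (k := k)
          (by rwa [Nat.card_zpowers]) hlt.le
        exact hyF (huniq E' h1 h3 ▸ h2 (Subgroup.mem_zpowers y))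
      obtain ⟨i, hi⟩ := IsPGroup.iff_card.1 (hP.to_le (Subgroup.zpowers_le.2 hy))
      have hki : k ≤ i := by
        by_contra hik
        exact hyk (by
          rw [← Nat.card_zpowers, hi]
          exact Nat.pow_dvd_pow 2 (not_le.1 hik).le)
      obtain ⟨E', h1, -, h3⟩ := exists_le_card (hP.to_le (Subgroup.zpowers_le.2 hy))
        (bot_le (a := Subgroup.zpowers y)) (k := k) (by rw [Subgroup.card_bot]; exact one_dvd _)
        (by rw [hi]; exact Nat.pow_le_pow_right two_pos hki)
      have hFy : F ≤ Subgroup.zpowers y :=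
        huniq E' (h1.trans (Subgroup.zpowers_le.2 hy)) h3 ▸ h1
      haveI : IsCyclic F :=
        isCyclic_of_injective (Subgroup.inclusion hFy) (Subgroup.inclusion_injective hFy)
      exact commute_of_normalizes_cyclic hA (hP.to_le hFP) hAF a ha x
        (hEF ▸ hxE (Subgroup.mem_zpowers x))
    · push Not at huniq
      obtain ⟨E', h1, h2, h3⟩ := huniq
      exact (Subgroup.mem_centralizer_iff.1 (hcase E' h1 h2 h3 ha) x
        (Subgroup.mem_sup_right (hEF ▸ hxE (Subgroup.mem_zpowers x)))).symm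
  · exact (Subgroup.mem_centralizer_iff.1 (hcase E hEP hEk hEF ha) x
      (Subgroup.mem_sup_left (hxE (Subgroup.mem_zpowers x)))).symm

/-- Let P be a 2-subgroup and A a subgroup of odd order of a finite group, with A normalizing P. Let D ≤ P with 1 < |D| < |P|. If every subgroup of P of order |D|, and also every subgroup of P of order 4 in case |D| = 2, is normalized by A, then A centralizes P. -/
theorem result {X : Type*} [Group X] [Finite X] (P A D : Subgroup X) (hP : IsPGroup 2 P) (hA : Odd (Nat.card A))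
    (hAP : A ≤ Subgroup.normalizer (P : Set X)) (hDP : D ≤ P) (hD1 : 1 < Nat.card D) (hD2 : Nat.card D < Nat.card P)
    (hinv : ∀ E : Subgroup X, E ≤ P → (Nat.card E = Nat.card D ∨ (Nat.card D = 2 ∧ Nat.card E = 4)) → A ≤ Subgroup.normalizer (E : Set X)) :
    A ≤ Subgroup.centralizer (P : Set X) := by
  haveI : Fact (Nat.Prime 2) := ⟨Nat.prime_two⟩
  obtain ⟨k, hk⟩ := IsPGroup.iff_card.1 (hP.to_le hDP)
  rcases Nat.lt_or_ge k 2 with hk2 | hk2
  · have hD : Nat.card D = 2 := by
      interval_cases k <;> simp_all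
    refine fixes_of_fixes_four hP hA hAP fun x hx hx4 a ha => ?_
    have hxP : Subgroup.zpowers x ≤ P := Subgroup.zpowers_le.2 hx
    have hcard : Nat.card (Subgroup.zpowers x) ∣ 2 ^ 2 := by
      rw [Nat.card_zpowers]; exact orderOf_dvd_of_pow_eq_one hx4
    obtain ⟨i, hi2, hi⟩ := (Nat.dvd_prime_pow Nat.prime_two).1 hcard
    interval_cases i
    · have : x = 1 := by
        rw [← orderOf_eq_one_iff, ← Nat.card_zpowers, hi, pow_zero]
      rw [this, one_mul, mul_one]
    · exact commute_of_normalizes_cyclic hA (hP.to_le hxP)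
        (hinv _ hxP (Or.inl (by rw [hi, hD, pow_one]))) a ha x (Subgroup.mem_zpowers x)
    · exact commute_of_normalizes_cyclic hA (hP.to_le hxP)
        (hinv _ hxP (Or.inr ⟨hD, by rw [hi]; norm_num⟩)) a ha x (Subgroup.mem_zpowers x)
  · exact main hA hk2 _ P rfl hP hAP (hk ▸ hD2) fun E hE hEk => hinv E hE (Or.inl (hEk.trans hk.symm))

end Cfsg.Agent.S3803
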