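import Cfsg.Statements.S3814
import Cfsg.Agent.FourPrimes98.Main

set_option autoImplicit false
open Cfsg

namespace Cfsg.Agent.S3814

/-- A criterion for nonsolvability from element orders: let G be a finite group and σ a set of at least four primes such that for all distinct p, q ∈ σ the product pq is the order of some element of G, while for all pairwise distinct p, q, r ∈ σ no element of G has order pqr. Then G is not solvable. -/
theorem result {G : Type*} [Group G] [Finite G]
    (σ : Finset ℕ) (hσ : 4 ≤ σ.card) (hprime : ∀ p ∈ σ, p.Prime)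
    (h2 : ∀ p ∈ σ, ∀ q ∈ σ, p ≠ q → ∃ g : G, orderOf g = p * q)
    (h3 : ∀ p ∈ σ, ∀ q ∈ σ, ∀ r ∈ σ, p ≠ q → q ≠ r → p ≠ r → ∀ g : G, orderOf g ≠ p * q * r) :
    ¬ Group.IsSolvable G := by
  exact CfsgLib.FourPrimes.not_isSolvable_of_four_primes hσ hprime h2 h3

end Cfsg.Agent.S3814
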