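import Cfsg.Statements.S3815
import Mathlib

set_option autoImplicit false
open Cfsg

namespace Cfsg.Agent.S3815

/-- Let G be a finite group, p a prime and d ∈ G an element of order prime to p. If dg has order prime to p for every element g ∈ G of order prime to p, then d ∈ O_{p'}(G). -/
theorem result {G : Type*} [Group G] [Finite G] {p : ℕ} [Fact p.Prime]
    (d : G) (hd : (orderOf d).Coprime p)
    (h : ∀ g : G, (orderOf g).Coprime p → (orderOf (d * g)).Coprime p) :
    d ∈ Cfsg.pPrimeCore p G := by
  classical
  let D : Subgroup G :=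
    { carrier := {x | (orderOf x).Coprime p ∧ ∀ g : G, (orderOf g).Coprime p → (orderOf (x * g)).Coprime p}
      one_mem' := ⟨by simp, fun g hg => by simpa using hg⟩
      mul_mem' := by
        rintro x y ⟨hx, hx'⟩ ⟨hy, hy'⟩
        exact ⟨hx' y hy, fun g hg => by rw [mul_assoc]; exact hx' _ (hy' g hg)⟩
      inv_mem' := by
        rintro x ⟨hx, hx'⟩
        refine ⟨by simpa using hx, fun g hg => ?_⟩
        have key : ∀ (n : ℕ) (g : G), (orderOf g).Coprime p → (orderOf (x ^ n * g)).Coprime p := by
          intro n
          induction n with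
          | zero => intro g hg; simpa using hg
          | succ n ih => intro g hg; rw [pow_succ, mul_assoc]; exact ih _ (hx' g hg)
        have he : x⁻¹ = x ^ (orderOf x - 1) := by
          refine inv_eq_of_mul_eq_one_right ?_
          rw [← pow_succ', Nat.sub_add_cancel (orderOf_pos x), pow_orderOf_eq_one]
        rw [he]; exact key _ g hg }
  have hDn : D.Normal := by
    constructor
    rintro x ⟨hx, hx'⟩ c
    have hord : ∀ y : G, orderOf (c * y * c⁻¹) = orderOf y := fun y => by
      simpa using MulEquiv.orderOf_eq (MulAut.conj c) y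
    refine ⟨by rw [hord]; exact hx, fun g hg => ?_⟩
    have h1 : c * x * c⁻¹ * g = c * (x * (c⁻¹ * g * c)) * c⁻¹ := by group
    rw [h1, hord]
    apply hx'
    have h2 : orderOf (c⁻¹ * g * c) = orderOf g := by
      simpa using MulEquiv.orderOf_eq (MulAut.conj c⁻¹) g
    rw [h2]; exact hg
  have hDc : (Nat.card D).Coprime p := by
    refine Nat.Coprime.symm ((Fact.out : p.Prime).coprime_iff_not_dvd.2 ?_)
    intro hdvd
    obtain ⟨x, hx⟩ := exists_prime_orderOf_dvd_card' p hdvd
    have hx2 : (orderOf (x : G)).Coprime p := x.2.1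
    rw [Subgroup.orderOf_coe, hx] at hx2
    exact (Fact.out : p.Prime).one_lt.ne' (by simpa using hx2)
  have hle : D ≤ Cfsg.pPrimeCore p G := le_sSup ⟨hDn, hDc⟩
  exact hle (show d ∈ D from ⟨hd, h⟩)

end Cfsg.Agent.S3815
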