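import Cfsg.Statements.S3816
import Cfsg.Agent.FixGen.Main
-- import your own Cfsg.Agent.* helpers here

set_option autoImplicit false
open Cfsg

namespace Cfsg.Agent.S3816

/-- Let p be an odd prime, H a finite solvable group of order prime to p, and x an automorphism of H of order p (so P = ⟨x⟩ has prime order p > 2 and acts coprimely on H). For h ∈ H let [h, P] be the subgroup generated by the commutators h⁻¹·xⁱ(h), and let [H, P] be the subgroup generated by all of these. Then the fixed points of x in [H, P] are generated by the fixed points of x in the subgroups [h, P], h ∈ H. -/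
theorem result {H : Type*} [Group H] [Finite H]
    [Group.IsSolvable H] {p : ℕ} [Fact p.Prime] (hp : p ≠ 2) (hcop : (Nat.card H).Coprime p)
    (x : MulAut H) (hx : orderOf x = p) :
    Subgroup.closure {c : H | ∃ h : H, ∃ i : ℕ, c = h⁻¹ * (x ^ i) h} ⊓ (x : H →* H).eqLocus (MonoidHom.id H) =
      ⨆ h : H, Subgroup.closure {c : H | ∃ i : ℕ, c = h⁻¹ * (x ^ i) h} ⊓ (x : H →* H).eqLocus (MonoidHom.id H) := by
  refine le_antisymm (fun c hc => ?_) (iSup_le fun h => inf_le_inf_right _ ?_)
  · refine CfsgLib.FixGen.dk_inf_fx_le_gen (Nat.card H) H x p hp (hx ▸ pow_orderOf_eq_one x)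
      hcop le_rfl ⟨?_, hc.2⟩
    refine Subgroup.closure_mono ?_ hc.1
    rintro _ ⟨h, i, rfl⟩
    exact ⟨h, Subgroup.mem_top h, i, rfl⟩
  · refine Subgroup.closure_mono ?_
    rintro _ ⟨i, rfl⟩
    exact ⟨h, i, rfl⟩

end Cfsg.Agent.S3816
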