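import Cfsg.Statements.S3818
import Cfsg.Agent.FixedHalf.Main

set_option autoImplicit false
open Cfsg
open scoped TensorProduct

namespace Cfsg.Agent.S3818

/-- Let G be a finite solvable group and P a subgroup of G of prime order p > 3 whose conjugates generate G. Let V be a faithful irreducible representation of G over a field of positive characteristic, finite-dimensional. Then the subspace of V fixed by P has dimension less than half the dimension of V. -/
theorem result {G : Type*} [Group G] [Finite G] [Group.IsSolvable G]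
    {p : ℕ} [Fact p.Prime] (hp : 3 < p) (P : Subgroup G) (hP : Nat.card P = p) (hgen : Subgroup.normalClosure (P : Set G) = ⊤)
    {k : Type*} [Field k] (ℓ : ℕ) [Fact ℓ.Prime] [CharP k ℓ]
    {V : Type*} [AddCommGroup V] [Module k V] [FiniteDimensional k V]
    (ρ : Representation k G V) [ρ.IsIrreducible] (hfaith : Function.Injective ρ) :
    2 * Module.finrank k ↥(⨅ g : ↥P, LinearMap.ker (ρ (g : G) - LinearMap.id)) < Module.finrank k V := by
  classical
  haveI : Finite P := inferInstance
  have hp5 : 4 < p := by
    rcases Nat.lt_or_ge 4 p with h | h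
    · exact h
    · exact absurd (show p = 4 by omega) fun h4 => absurd (h4 ▸ (Fact.out : p.Prime)) (by norm_num)
  obtain ⟨x₀, hx₀⟩ : ∃ x : P, x ≠ 1 := by
    haveI : Nontrivial P := Finite.one_lt_card_iff_nontrivial.1 (by rw [hP]; exact (Fact.out : p.Prime).one_lt)
    exact exists_ne 1
  have hzp : Subgroup.zpowers x₀ = ⊤ := zpowers_eq_top_of_prime_card hP hx₀
  set x : G := (x₀ : G) with hx
  have hPx : P = Subgroup.zpowers x := by
    have h := congrArg (Subgroup.map P.subtype) hzp
    rw [MonoidHom.map_zpowers, ← MonoidHom.range_eq_map, Subgroup.range_subtype] at h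
    exact h.symm
  have hgenx : Subgroup.normalClosure ({x} : Set G) = ⊤ := by
    refine top_le_iff.1 (hgen.ge.trans (Subgroup.normalClosure_le_normal ?_))
    rw [SetLike.coe_subset_coe, hPx, Subgroup.zpowers_le]
    exact Subgroup.subset_normalClosure rfl
  have hxp : x ^ p = 1 := by rw [hx, ← hP, ← Subgroup.coe_pow, pow_card_eq_one', Subgroup.coe_one]
  -- the fixed space
  set C : Submodule k V := ⨅ g : ↥P, LinearMap.ker (ρ (g : G) - LinearMap.id) with hC
  have hCle : C ≤ LinearMap.ker (ρ x - 1) := iInf_le _ x₀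
  haveI : Nontrivial V := by
    by_contra h
    rw [not_nontrivial_iff_subsingleton] at h
    exact hx₀ (Subtype.ext (hfaith (LinearMap.ext fun v => Subsingleton.elim _ _)))
  have hsimp : ∀ U : Submodule k V, (∀ g, U.map (ρ g) ≤ U) → U = ⊥ ∨ U = ⊤ := by
    intro U hU
    let S : Subrepresentation ρ := ⟨U, fun g v hv => hU g ⟨v, hv, rfl⟩⟩
    rcases eq_bot_or_eq_top S with h | h
    · exact Or.inl (congrArg Subrepresentation.toSubmodule h)
    · exact Or.inr (congrArg Subrepresentation.toSubmodule h)
  haveI : Nontrivial G := ⟨x, 1, fun h => hx₀ (Subtype.ext h)⟩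
  obtain ⟨q, hq, hqR⟩ : ∃ q : ℕ, q.Prime ∧ pCore q G ≠ ⊥ := by
    by_contra h
    push Not at h
    refine CfsgLib.Constrained.fitting_ne_bot (G := G) ?_
    rw [CfsgLib.Constrained.fitting_eq_iSup_pCore, eq_bot_iff]
    exact iSup₂_le fun q hq => (h q hq).le
  haveI : Fact q.Prime := ⟨hq⟩
  set R := pCore q G with hRdef
  haveI : R.Normal := CfsgLib.Constrained.instNormalPCore q
  letI : Fintype R := Fintype.ofFinite R
  have hsum : ∑ r : R, ρ (r : G) = 0 := by
    set S : Module.End k V := ∑ r : R, ρ (r : G) with hS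
    have hrS : ∀ r : R, ρ (r : G) * S = S := fun r => by
      rw [hS, Finset.mul_sum]
      refine Fintype.sum_equiv (Equiv.mulLeft r) _ _ fun s => ?_
      rw [Equiv.coe_mulLeft, Subgroup.coe_mul, map_mul]
    have hgS : ∀ g, ρ g * S = S * ρ g := fun g => by
      rw [hS, Finset.mul_sum, Finset.sum_mul]
      refine Fintype.sum_equiv (MulAut.conjNormal g : MulAut R).toEquiv _ _ fun s => ?_
      show ρ g * ρ (s : G) = ρ ((MulAut.conjNormal g s : R) : G) * ρ g
      rw [← map_mul, ← map_mul, MulAut.conjNormal_apply, inv_mul_cancel_right]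
    have hinv : ∀ g, (LinearMap.range S).map (ρ g) ≤ LinearMap.range S := by
      rintro g _ ⟨_, ⟨v, rfl⟩, rfl⟩
      exact ⟨ρ g v, (LinearMap.congr_fun (hgS g) v).symm⟩
    rcases hsimp _ hinv with h | h
    · exact LinearMap.range_eq_bot.1 h
    · refine absurd ((Subgroup.eq_bot_iff_forall R).2 fun r hr => hfaith (LinearMap.ext fun v => ?_)) hqR
      obtain ⟨u, rfl⟩ := LinearMap.range_eq_top.1 h v
      rw [map_one, Module.End.one_apply]
      exact LinearMap.congr_fun (hrS ⟨r, hr⟩) u
  have hRk : (Nat.card R : AlgebraicClosure k) ≠ 0 := by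
    intro h0
    rw [CharP.cast_eq_zero_iff (AlgebraicClosure k) ℓ] at h0
    obtain ⟨n, hn⟩ := IsPGroup.iff_card.1 (CfsgLib.Constrained.isPGroup_pCore (p := q) (G := G))
    rw [hn] at h0
    have hℓq : ℓ = q := (Nat.prime_dvd_prime_iff_eq Fact.out hq).1 ((Fact.out : ℓ.Prime).dvd_of_dvd_pow h0)
    exact hqR (CfsgLib.FixedHalf.normal_pgroup_eq_bot (ℓ := ℓ) ρ hfaith hsimp R
      (hℓq ▸ CfsgLib.Constrained.isPGroup_pCore))
  let K := AlgebraicClosure k
  let β : Module.End k V →ₐ[k] Module.End K (TensorProduct k K V) := Module.End.baseChangeHom k K V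
  let L : G →* Module.End K (TensorProduct k K V) := β.toMonoidHom.comp ρ
  have hLsum : ∑ r : R, L (r : G) = 0 := by
    show ∑ r : R, β (ρ (r : G)) = 0
    rw [← map_sum, hsum, map_zero]
  have hdim : Module.finrank K (TensorProduct k K V) = Module.finrank k V := Module.finrank_baseChange
  have hmain := CfsgLib.FixedHalf.norm_zero_bound (k := K) (ℓ := ℓ) hp5 R hRk hxp hgenx
    (Module.finrank k V) (TensorProduct k K V) hdim Module.finrank_pos L hLsum
  refine lt_of_le_of_lt (Nat.mul_le_mul_left 2 ((Submodule.finrank_mono hCle).trans ?_)) hmain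
  set D := LinearMap.ker (ρ x - 1) with hD
  let ι : TensorProduct k K D →ₗ[K] LinearMap.ker (L x - 1) :=
    LinearMap.codRestrict _ (D.subtype.baseChange K) fun t => by
      rw [LinearMap.mem_ker]
      induction t with
      | zero => simp
      | tmul a v =>
        have hv : ρ x (v : V) = v := by
          have h : (ρ x - 1) (v : V) = 0 := LinearMap.mem_ker.1 v.2
          rwa [LinearMap.sub_apply, Module.End.one_apply, sub_eq_zero] at h
        show (β (ρ x) - 1) (D.subtype.baseChange K (a ⊗ₜ[k] v)) = 0
        rw [LinearMap.sub_apply, Module.End.one_apply, sub_eq_zero]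
        show (ρ x).baseChange K (a ⊗ₜ[k] (v : V)) = _
        rw [LinearMap.baseChange_tmul, hv, LinearMap.baseChange_tmul, Submodule.subtype_apply]
      | add s t hs ht => rw [map_add, map_add, hs, ht, add_zero]
  have hι : Function.Injective ι := fun s t h =>
    Module.Flat.lTensor_preserves_injective_linearMap (M := K) D.subtype D.injective_subtype
      (congrArg Subtype.val h)
  exact (Module.finrank_baseChange (R := K) (S := k) (M' := D)).ge.trans
    (LinearMap.finrank_le_finrank_of_injective hι)

end Cfsg.Agent.S3818
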