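import Cfsg.Statements.S3820
import Mathlib

set_option autoImplicit false
open Cfsg

namespace Cfsg.Agent.S3820

/-- Call a subgroup H of G pronormal if H and gHg⁻¹ are conjugate inside ⟨H, gHg⁻¹⟩ for every g ∈ G. Let S ≤ H ≤ G be subgroups of a finite group with S pronormal in G (for instance S a Sylow subgroup). Then H is pronormal in G if and only if H and gHg⁻¹ are conjugate inside ⟨H, gHg⁻¹⟩ for every g ∈ N_G(S). In particular H is pronormal whenever N_G(S) ≤ H. -/
theorem result {G : Type*} [Group G] [Finite G] (S H : Subgroup G) (hSH : S ≤ H)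
    (hS : Cfsg.IsPronormal S) :
    Cfsg.IsPronormal H ↔
      ∀ g ∈ Subgroup.normalizer (S : Set G), ∃ w ∈ H ⊔ H.map (MulAut.conj g).toMonoidHom,
        H.map (MulAut.conj g).toMonoidHom = H.map (MulAut.conj w).toMonoidHom := by
  refine ⟨fun h g _ => h g, fun h g => ?_⟩
  obtain ⟨x, hx, hxS⟩ := hS g
  have hcomp : ∀ (K : Subgroup G) (a b : G), (K.map (MulAut.conj b).toMonoidHom).map (MulAut.conj a).toMonoidHom
      = K.map (MulAut.conj (a * b)).toMonoidHom := by
    intro K a b
    rw [Subgroup.map_map]; congr 1; ext y; simp [mul_assoc]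
  have hn : x⁻¹ * g ∈ Subgroup.normalizer (S : Set G) := by
    have e : S.map (MulAut.conj (x⁻¹ * g)).toMonoidHom = S := by
      rw [← hcomp, hxS, hcomp, inv_mul_cancel]
      ext y; simp
    rw [Subgroup.mem_normalizer_iff]
    intro s
    constructor
    · intro hs
      rw [← e]; exact ⟨s, hs, by simp [mul_assoc]⟩
    · intro hs
      rw [← e] at hs
      obtain ⟨t, ht, hte⟩ := hs
      simp only [MulEquiv.coe_toMonoidHom, MulAut.conj_apply] at hte
      have : t = s := by simpa [mul_assoc] using hte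
      rw [← this]; exact ht
  obtain ⟨w, hw, hwH⟩ := h _ hn
  set J := H ⊔ H.map (MulAut.conj g).toMonoidHom with hJ
  have hxJ : x ∈ J := (sup_le_sup hSH (Subgroup.map_mono hSH)) hx
  refine ⟨x * w, ?_, ?_⟩
  · have hle : H ⊔ H.map (MulAut.conj (x⁻¹ * g)).toMonoidHom ≤ J := by
      refine sup_le le_sup_left ?_
      rw [← hcomp]
      rintro y ⟨z, hz, rfl⟩
      have hz' : z ∈ J := le_sup_right (a := H) hz
      simpa using J.mul_mem (J.mul_mem (J.inv_mem hxJ) hz') hxJ
    exact J.mul_mem hxJ (hle hw)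
  · rw [← hcomp H x w, ← hwH, hcomp, mul_inv_cancel_left]

end Cfsg.Agent.S3820
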