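import Cfsg.Statements.S3821
import Mathlib

set_option autoImplicit false
open Cfsg

namespace Cfsg.Agent.S3821

/-- Let A be a normal subgroup of the finite group G and H a subgroup of A. Then H is pronormal in G (H and gHg⁻¹ conjugate inside ⟨H, gHg⁻¹⟩ for every g ∈ G) if and only if H is pronormal in A and G = A · N_G(H). -/
theorem result {G : Type*} [Group G] [Finite G] (A H : Subgroup G) [A.Normal] (hHA : H ≤ A) :
    Cfsg.IsPronormal H ↔ (Cfsg.IsPronormal (H.subgroupOf A) ∧ A ⊔ Subgroup.normalizer (H : Set G) = ⊤) := by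
  have hmap : ∀ a : A, ((H.subgroupOf A).map (MulAut.conj a).toMonoidHom).map A.subtype
      = H.map (MulAut.conj (a : G)).toMonoidHom := by
    intro a
    rw [Subgroup.map_map]
    have : A.subtype.comp (MulAut.conj a).toMonoidHom = (MulAut.conj (a : G)).toMonoidHom.comp A.subtype := by
      ext y; simp
    rw [this, ← Subgroup.map_map, Subgroup.map_subgroupOf_eq_of_le hHA]
  have hsup : ∀ a : A, (H.subgroupOf A ⊔ (H.subgroupOf A).map (MulAut.conj a).toMonoidHom).map A.subtype
      = H ⊔ H.map (MulAut.conj (a : G)).toMonoidHom := by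
    intro a
    rw [Subgroup.map_sup, hmap, Subgroup.map_subgroupOf_eq_of_le hHA]
  have hcomp : ∀ (K : Subgroup G) (a b : G), (K.map (MulAut.conj b).toMonoidHom).map (MulAut.conj a).toMonoidHom
      = K.map (MulAut.conj (a * b)).toMonoidHom := by
    intro K a b
    rw [Subgroup.map_map]; congr 1; ext y; simp [mul_assoc]
  constructor
  · intro h
    refine ⟨fun a => ?_, ?_⟩
    · obtain ⟨x, hx, hxH⟩ := h (a : G)
      rw [← hsup] at hx
      obtain ⟨x', hx', rfl⟩ := hx
      refine ⟨x', hx', ?_⟩
      apply Subgroup.map_injective A.subtype_injective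
      rw [hmap, hmap]; exact hxH
    · rw [eq_top_iff]
      intro g _
      obtain ⟨x, hx, hxH⟩ := h g
      have hxA : x ∈ A := by
        refine (sup_le hHA ?_) hx
        rintro y ⟨z, hz, rfl⟩
        exact (inferInstance : A.Normal).conj_mem z (hHA hz) g
      have e : H.map (MulAut.conj (x⁻¹ * g)).toMonoidHom = H := by
        rw [← hcomp, hxH, hcomp, inv_mul_cancel]
        ext y; simp
      have hn : x⁻¹ * g ∈ Subgroup.normalizer (H : Set G) := by
        rw [Subgroup.mem_normalizer_iff]
        intro s
        constructor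
        · intro hs
          rw [← e]; exact ⟨s, hs, by simp [mul_assoc]⟩
        · intro hs
          rw [← e] at hs
          obtain ⟨t, ht, hte⟩ := hs
          simp only [MulEquiv.coe_toMonoidHom, MulAut.conj_apply] at hte
          have : t = s := by simpa [mul_assoc] using hte
          rw [← this]; exact ht
      have := Subgroup.mul_mem_sup hxA hn
      simpa using this
  · rintro ⟨h, htop⟩ g
    have hg : g ∈ A ⊔ Subgroup.normalizer (H : Set G) := htop ▸ Subgroup.mem_top g
    obtain ⟨a, ha, n, hn, rfl⟩ := Subgroup.mem_sup_of_normal_left.1 hg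
    have e : H.map (MulAut.conj n).toMonoidHom = H := by
      ext y
      constructor
      · rintro ⟨z, hz, rfl⟩
        exact (Subgroup.mem_normalizer_iff.1 hn z).1 hz
      · intro hy
        refine ⟨n⁻¹ * y * n, ?_, by simp [mul_assoc]⟩
        refine (Subgroup.mem_normalizer_iff.1 hn _).2 ?_
        simpa [mul_assoc] using hy
    rw [← hcomp H a n, e]
    obtain ⟨x, hx, hxH⟩ := h ⟨a, ha⟩
    refine ⟨(x : G), ?_, ?_⟩
    · have := Subgroup.mem_map_of_mem A.subtype hx
      rwa [hsup] at this
    · have := congrArg (Subgroup.map A.subtype) hxH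
      rwa [hmap, hmap] at this

end Cfsg.Agent.S3821
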