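import Cfsg.Statements.S3825
-- import your own Cfsg.Agent.* helpers here
import Mathlib
import Cfsg.Agent.Eq.Def_Transfer

set_option autoImplicit false
open Cfsg
open scoped commutatorElement

namespace Cfsg.Agent.S3825

/-- Let U be a subgroup of a finite group H and w an involution of H normalizing U and commuting with exactly two elements of U, the identity and y. If V is a non-cyclic elementary abelian 2-subgroup of U containing y which is normal in U and invariant under w, then V is a Sylow 2-subgroup of U, V has order 4, and U/V is abelian. -/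
theorem result {H : Type*} [Group H] [Finite H] (U : Subgroup H) (w : H) (hw : orderOf w = 2)
    (hwU : w ∈ Subgroup.normalizer (U : Set H)) (y : H) (hy : y ≠ 1) (hyU : y ∈ U)
    (hfix : ∀ u ∈ U, w * u * w⁻¹ = u ↔ (u = 1 ∨ u = y))
    (V : Subgroup H) (hVU : V ≤ U) (hVn : (V.subgroupOf U).Normal) (hVw : ∀ v ∈ V, w * v * w⁻¹ ∈ V)
    (hVe : Cfsg.IsElementaryAbelian 2 V) (hVc : ¬ IsCyclic ↥V) (hyV : y ∈ V) :
    ¬ 2 ∣ V.relIndex U ∧ Nat.card ↥V = 4 ∧ ⁅U, U⁆ ≤ V := by
  classical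
  have hw2 : w * w = 1 := by rw [← pow_two, ← hw, pow_orderOf_eq_one]
  have hwwconj : ∀ x : H, w * (w * x * w⁻¹) * w⁻¹ = x := fun x => by
    calc w * (w * x * w⁻¹) * w⁻¹ = (w * w) * x * (w * w)⁻¹ := by group
      _ = x := by rw [hw2]; group
  have hVsq : ∀ v ∈ V, v * v = 1 := fun v hv => by rw [← pow_two]; exact hVe.2 v hv
  have hVinv : ∀ v ∈ V, v⁻¹ = v := fun v hv => inv_eq_of_mul_eq_one_right (hVsq v hv)
  have hVcomm : ∀ a ∈ V, ∀ b ∈ V, a * b = b * a := fun a ha b hb => by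
    haveI := hVe.1
    exact congrArg Subtype.val (mul_comm' (⟨a, ha⟩ : V) ⟨b, hb⟩)
  haveI := hVn
  -- elements of `U` whose coset is fixed by `w`
  let f : H → H := fun u => u⁻¹ * (w * u * w⁻¹)
  have hfix1 : ∀ u ∈ U, f u = 1 → u = 1 ∨ u = y := fun u hu h =>
    (hfix u hu).1 (inv_mul_eq_one.1 h).symm
  have hy2 : w * y * w⁻¹ = y := (hfix y hyU).2 (Or.inr rfl)
  have himage : ∀ u ∈ U, f u ∈ V → f u = 1 ∨ f u = y := by
    intro u hu hfu
    refine hfix1 _ (hVU hfu) ?_
    have h1 : w * f u * w⁻¹ = (f u)⁻¹ := by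
      show w * (u⁻¹ * (w * u * w⁻¹)) * w⁻¹ = (u⁻¹ * (w * u * w⁻¹))⁻¹
      calc w * (u⁻¹ * (w * u * w⁻¹)) * w⁻¹ = (w * u⁻¹ * w⁻¹) * (w * (w * u * w⁻¹) * w⁻¹) := by group
        _ = (u⁻¹ * (w * u * w⁻¹))⁻¹ := by rw [hwwconj]; group
    show (f u)⁻¹ * (w * f u * w⁻¹) = 1
    rw [h1, hVinv _ hfu, hVsq _ hfu]
  have hsame : ∀ u ∈ U, ∀ u' ∈ U, f u = f u' → u' = u ∨ u' = y * u := by
    intro u hu u' hu' h
    have hmem : u' * u⁻¹ ∈ U := U.mul_mem hu' (U.inv_mem hu)
    have h1 : w * (u' * u⁻¹) * w⁻¹ = u' * u⁻¹ := by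
      calc w * (u' * u⁻¹) * w⁻¹ = u' * (u'⁻¹ * (w * u' * w⁻¹)) * (u⁻¹ * (w * u * w⁻¹))⁻¹ * u⁻¹ := by
            group
        _ = u' * f u' * (f u)⁻¹ * u⁻¹ := rfl
        _ = u' * u⁻¹ := by rw [h]; group
    rcases (hfix _ hmem).1 h1 with h2 | h2
    · exact Or.inl (mul_inv_eq_one.1 h2)
    · exact Or.inr (by rw [← h2, inv_mul_cancel_right])
  set E : Set H := {u | u ∈ U ∧ f u ∈ V} with hE
  have hVE : (V : Set H) ⊆ E := fun v hv =>
    ⟨hVU hv, V.mul_mem (V.inv_mem hv) (hVw v hv)⟩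
  have hEcard : E.ncard ≤ 4 := by
    by_cases hex : ∃ u ∈ E, f u = y
    · obtain ⟨u0, hu0, hu0y⟩ := hex
      have hsub : E ⊆ {1, y, u0, y * u0} := by
        intro u hu
        rcases himage u hu.1 hu.2 with h | h
        · rcases hfix1 u hu.1 h with h' | h' <;> simp [h']
        · rcases hsame u0 hu0.1 u hu.1 (by rw [hu0y, h]) with h' | h' <;> simp [h']
      calc E.ncard ≤ ({1, y, u0, y * u0} : Set H).ncard := Set.ncard_le_ncard hsub
        _ ≤ ({y, u0, y * u0} : Set H).ncard + 1 := Set.ncard_insert_le _ _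
        _ ≤ (({u0, y * u0} : Set H).ncard + 1) + 1 := by gcongr; exact Set.ncard_insert_le _ _
        _ ≤ ((({y * u0} : Set H).ncard + 1) + 1) + 1 := by gcongr; exact Set.ncard_insert_le _ _
        _ = 4 := by rw [Set.ncard_singleton]
    · push Not at hex
      have hsub : E ⊆ {1, y} := by
        intro u hu
        rcases himage u hu.1 hu.2 with h | h
        · rcases hfix1 u hu.1 h with h' | h' <;> simp [h']
        · exact absurd h (hex u hu)
      calc E.ncard ≤ ({1, y} : Set H).ncard := Set.ncard_le_ncard hsub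
        _ ≤ ({y} : Set H).ncard + 1 := Set.ncard_insert_le _ _
        _ ≤ 4 := by rw [Set.ncard_singleton]; norm_num
  have hV4 : Nat.card V = 4 := by
    have hle : Nat.card V ≤ 4 := (Set.ncard_le_ncard hVE).trans hEcard
    haveI : Fact (Nat.Prime 2) := ⟨Nat.prime_two⟩
    have h2 : IsPGroup 2 V := fun v => ⟨1, Subtype.ext (hVe.2 v v.2)⟩
    obtain ⟨k, hk⟩ := IsPGroup.iff_card.1 h2
    rcases lt_or_ge k 2 with hk2 | hk2
    · refine absurd ?_ hVc
      interval_cases k
      · haveI : Subsingleton V := (Nat.card_eq_one_iff_unique.1 (by simpa using hk)).1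
        exact isCyclic_of_subsingleton
      · exact isCyclic_of_prime_card (p := 2) (by simpa using hk)
    · have : 4 ≤ 2 ^ k := by
        calc 4 = 2 ^ 2 := rfl
          _ ≤ 2 ^ k := Nat.pow_le_pow_right two_pos hk2
      omega
  have hEV : E = (V : Set H) := by
    refine (Set.eq_of_subset_of_ncard_le hVE ?_).symm
    rw [← Nat.card_coe_set_eq (V : Set H)]
    exact hEcard.trans (le_of_eq hV4.symm)
  have hwn : ∀ u ∈ U, w * u * w⁻¹ ∈ U := fun u hu => (Subgroup.mem_normalizer_iff.1 hwU u).1 hu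
  let σ : U →* U := MonoidHom.mk' (fun u => ⟨w * u * w⁻¹, hwn u u.2⟩)
    fun a b => Subtype.ext (by simp only [Subgroup.coe_mul]; group)
  let σq := QuotientGroup.map (V.subgroupOf U) (V.subgroupOf U) σ
    (fun u hu => hVw _ hu)
  have hfpf : MonoidHom.FixedPointFree σq := by
    intro q hq
    obtain ⟨u, rfl⟩ := QuotientGroup.mk'_surjective _ q
    have h1 : ((σ u : U) : U ⧸ V.subgroupOf U) = (u : U ⧸ V.subgroupOf U) := hq
    have h2 : (u : H) ∈ E := ⟨u.2, (QuotientGroup.eq (s := V.subgroupOf U)).1 h1.symm⟩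
    rw [hEV] at h2
    exact (QuotientGroup.eq_one_iff u).2 h2
  have hinvol : Function.Involutive σq := by
    intro q
    obtain ⟨u, rfl⟩ := QuotientGroup.mk'_surjective _ q
    exact congrArg _ (Subtype.ext (hwwconj u) : σ (σ u) = u)
  refine ⟨?_, hV4, ?_⟩
  · have hodd := MonoidHom.FixedPointFree.odd_card_of_involutive hfpf hinvol
    rw [← Subgroup.index_eq_card] at hodd
    exact fun h => Nat.not_even_iff_odd.2 hodd (even_iff_two_dvd.2 h)
  · rw [Subgroup.commutator_le]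
    intro a ha b hb
    have h := (MonoidHom.FixedPointFree.commute_all_of_involutive hfpf hinvol
      (QuotientGroup.mk' (V.subgroupOf U) ⟨a, ha⟩) (QuotientGroup.mk' (V.subgroupOf U) ⟨b, hb⟩))
    rw [← commutatorElement_eq_one_iff_commute, ← map_commutatorElement] at h
    have h2 : ⁅(⟨a, ha⟩ : U), ⟨b, hb⟩⁆ ∈ V.subgroupOf U := (QuotientGroup.eq_one_iff _).1 h
    exact h2

end Cfsg.Agent.S3825
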