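import Cfsg.Statements.S3836
import Cfsg.Agent.Eq.Def_LocalEven
import Cfsg.Agent.LocalP.Basic

set_option autoImplicit false
open Cfsg

namespace Cfsg.Agent.S3836

theorem pCore_normal (p : ℕ) (K : Type*) [Group K] : (Cfsg.pCore p K).Normal :=
  Subgroup.sSup_normal _ fun _ hN => hN.1

/-- Let G be a finite group that is p-stable in the normalizer form: for every p-subgroup Q and every x ∈ N_G(Q) with [Q, x, x] = 1, the image of x in N_G(Q)/C_G(Q) lies in O_p(N_G(Q)/C_G(Q)). Then every subgroup of G is p-stable in the same sense. -/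
theorem result {G : Type*} [Group G] [Finite G] {p : ℕ} [Fact p.Prime] (hst : Cfsg.IsNormalizerPStable p G) (H : Subgroup G) : Cfsg.IsNormalizerPStable p ↥H := by
  intro P hP g hg hquad
  set P' : Subgroup G := P.map H.subtype with hP'
  have hg' : (g : G) ∈ Subgroup.normalizer (P' : Set G) :=
    Subgroup.le_normalizer_map H.subtype ⟨g, hg, rfl⟩
  have hquad' : ⁅⁅P', Subgroup.zpowers (g : G)⁆, Subgroup.zpowers (g : G)⁆ = ⊥ := by
    have h := congrArg (fun K : Subgroup ↥H => K.map H.subtype) hquad
    simp only [Subgroup.map_commutator, Subgroup.map_bot, MonoidHom.map_zpowers] at h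
    exact h
  have hmem := hst P' (hP.map H.subtype) (g : G) hg' hquad'
  set NH := Subgroup.normalizer (P : Set ↥H) with hNH
  set CH := (Subgroup.centralizer (P : Set ↥H)).subgroupOf NH with hCH
  set NG := Subgroup.normalizer (P' : Set G) with hNG
  set CG := (Subgroup.centralizer (P' : Set G)).subgroupOf NG with hCG
  let ι : ↥NH →* ↥NG := (H.subtype.comp NH.subtype).codRestrict NG
    (fun x => Subgroup.le_normalizer_map H.subtype ⟨x.1, x.2, rfl⟩)
  let f : ↥NH ⧸ CH →* ↥NG ⧸ CG := QuotientGroup.map CH CG ι (by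
    intro x hx
    rw [Subgroup.mem_comap, Subgroup.mem_subgroupOf]
    rintro _ ⟨y, hy, rfl⟩
    exact congrArg Subtype.val (hx y hy))
  have hf : Function.Injective f := by
    rw [injective_iff_map_eq_one]
    intro q
    induction q using QuotientGroup.induction_on with | H x => ?_
    intro hx
    rw [QuotientGroup.map_mk, QuotientGroup.eq_one_iff, Subgroup.mem_subgroupOf] at hx
    rw [QuotientGroup.eq_one_iff, Subgroup.mem_subgroupOf]
    intro y hy
    exact Subtype.ext (hx (y : G) ⟨y, hy, rfl⟩)
  have hle : (Cfsg.pCore p (↥NG ⧸ CG)).comap f ≤ Cfsg.pCore p (↥NH ⧸ CH) := by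
    refine CfsgLib.LocalP.le_pCore ?_ ((CfsgLib.LocalP.isPGroup_pCore).comap_of_injective f hf)
    have : (Cfsg.pCore p (↥NG ⧸ CG)).Normal := Cfsg.Agent.S3836.pCore_normal p _
    exact Subgroup.Normal.comap this f
  exact hle hmem

end Cfsg.Agent.S3836
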