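import Cfsg.Statements.S3838
import Cfsg.Agent.Eq.Def_Transfer
import Cfsg.Agent.Transfer.QuotientFrattini
import Cfsg.Agent.PGroup.Frattini

set_option autoImplicit false
open Cfsg
open CfsgLib.Transfer (hasNormalPComplement_of_quotient_le_frattini)
open scoped commutatorElement

namespace Cfsg.Agent.S3838

/-- Let G be a finite group with Sylow p-subgroup P such that N_G(P) has a normal p-complement. Then N_G(Q) has a normal p-complement for every subgroup Q with [P, P] ≤ Q ≤ Φ(P). -/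
theorem result {G : Type*} [Group G] [Finite G] {p : ℕ} [Fact p.Prime] (P : Sylow p G) (hN : Cfsg.HasNormalPComplement p ↥(Subgroup.normalizer ((P : Subgroup G) : Set G))) (Q : Subgroup G) (h1 : (commutator ↥(P : Subgroup G)).map (P : Subgroup G).subtype ≤ Q) (h2 : Q ≤ (frattini ↥(P : Subgroup G)).map (P : Subgroup G).subtype) : Cfsg.HasNormalPComplement p ↥(Subgroup.normalizer (Q : Set G)) := by
  set M := Subgroup.normalizer (Q : Set G) with hM
  set N := Subgroup.normalizer ((P : Subgroup G) : Set G) with hNdef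
  obtain ⟨K, hKn, hKc⟩ := CfsgLib.Transfer.exists_isComplement' hN (P.subtype (Subgroup.le_normalizer : (P : Subgroup G) ≤ N))
  haveI := hKn
  -- `N` acts on `P` as `P` does
  have hact : ∀ g ∈ N, ∀ z ∈ (P : Subgroup G), g * z * g⁻¹ * z⁻¹ ∈ Q := by
    intro g hg z hz
    obtain ⟨⟨k, u⟩, hku, -⟩ := Subgroup.IsComplement.existsUnique hKc ⟨g, hg⟩
    have huP : ((u : N) : G) ∈ (P : Subgroup G) := u.2
    haveI : ((P : Subgroup G).subgroupOf N).Normal := Subgroup.normal_in_normalizer
    have hcom : Commute ((k : N)) (⟨z, Subgroup.le_normalizer hz⟩ : N) :=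
      Subgroup.commute_of_normal_of_disjoint K ((P : Subgroup G).subgroupOf N) hKn inferInstance
        hKc.disjoint _ _ k.2 hz
    have hu' : ⁅((u : N) : G), z⁆ ∈ Q :=
      h1 ⟨⁅(⟨_, huP⟩ : (P : Subgroup G)), ⟨z, hz⟩⁆,
        Subgroup.commutator_mem_commutator (Subgroup.mem_top _) (Subgroup.mem_top _), rfl⟩
    have hmem : ((u : N) : G) * z * ((u : N) : G)⁻¹ ∈ (P : Subgroup G) :=
      mul_mem (mul_mem huP hz) (inv_mem huP)
    have hcom' : Commute ((k : N)) (⟨_, Subgroup.le_normalizer hmem⟩ : N) :=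
      Subgroup.commute_of_normal_of_disjoint K ((P : Subgroup G).subgroupOf N) hKn inferInstance
        hKc.disjoint _ _ k.2 hmem
    have hg' : g = ((k : N) : G) * ((u : N) : G) := (congrArg Subtype.val hku).symm
    have h3 : ((k : N) : G) * (((u : N) : G) * z * ((u : N) : G)⁻¹) =
        ((u : N) : G) * z * ((u : N) : G)⁻¹ * ((k : N) : G) := congrArg Subtype.val hcom'.eq
    have h4 : g * z * g⁻¹ * z⁻¹ = ⁅((u : N) : G), z⁆ := by
      calc g * z * g⁻¹ * z⁻¹
          = ((k : N) : G) * (((u : N) : G) * z * ((u : N) : G)⁻¹) * ((k : N) : G)⁻¹ * z⁻¹ := by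
            rw [hg']; group
        _ = ⁅((u : N) : G), z⁆ := by rw [h3, commutatorElement_def]; group
    rw [h4]
    exact hu'
  have hQP : Q ≤ (P : Subgroup G) := h2.trans (Subgroup.map_subtype_le _)
  have hPM : (P : Subgroup G) ≤ M := by
    intro u hu
    refine Subgroup.mem_normalizer_iff.mpr fun q => ?_
    have key : ∀ v ∈ (P : Subgroup G), ∀ w ∈ Q, v * w * v⁻¹ ∈ Q := fun v hv w hw => by
      have h3 : ⁅v, w⁆ ∈ Q := h1 ⟨⁅(⟨v, hv⟩ : (P : Subgroup G)), ⟨w, hQP hw⟩⁆,
        Subgroup.commutator_mem_commutator (Subgroup.mem_top _) (Subgroup.mem_top _), rfl⟩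
      have h4 := mul_mem h3 hw
      rwa [commutatorElement_def, inv_mul_cancel_right] at h4
    exact ⟨key u hu q, fun h => by simpa [mul_assoc] using key u⁻¹ (inv_mem hu) _ h⟩
  haveI : (Q.subgroupOf M).Normal := Subgroup.normal_in_normalizer
  have hker : ∀ x : M, QuotientGroup.mk' (Q.subgroupOf M) x = 1 ↔ (x : G) ∈ Q := fun x => by
    rw [QuotientGroup.mk'_apply, QuotientGroup.eq_one_iff, Subgroup.mem_subgroupOf]
  set P' := P.subtype hPM with hP'
  refine hasNormalPComplement_of_quotient_le_frattini P' (Q.subgroupOf M) ?_ ?_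
  · rintro ⟨x, hxM⟩ hx
    obtain ⟨f, hf, hfx⟩ := h2 hx
    have hmap := CfsgLib.PGroup.map_frattini_eq P'.2
      ((Subgroup.subgroupOfEquivOfLe hPM).toMonoidHom) (Subgroup.subgroupOfEquivOfLe hPM).surjective
    rw [← hmap] at hf
    obtain ⟨f', hf', rfl⟩ := hf
    exact ⟨f', hf', Subtype.ext hfx⟩
  · set π := QuotientGroup.mk' (Q.subgroupOf M)
    refine CfsgLib.Transfer.hasNormalPComplement_of_normalizer_le_centralizer
      (P'.mapSurjective (QuotientGroup.mk'_surjective (Q.subgroupOf M))) fun n hn => ?_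
    obtain ⟨g, rfl⟩ := QuotientGroup.mk'_surjective (Q.subgroupOf M) n
    have hgN : (g : G) ∈ N := by
      have key : ∀ v : M, π v ∈ Subgroup.normalizer
          (((↑(P'.mapSurjective (QuotientGroup.mk'_surjective (Q.subgroupOf M))) :
            Subgroup (↥M ⧸ Q.subgroupOf M))) : Set (↥M ⧸ Q.subgroupOf M)) →
          ∀ z ∈ (P : Subgroup G), (v : G) * z * (v : G)⁻¹ ∈ (P : Subgroup G) := by
        intro v hv z hz
        obtain ⟨w, hw, hwe⟩ := (Subgroup.mem_normalizer_iff.mp hv (π ⟨z, hPM hz⟩)).mp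
          ⟨⟨z, hPM hz⟩, hz, rfl⟩
        rw [← map_inv, ← map_mul, ← map_mul, QuotientGroup.mk'_eq_mk'] at hwe
        obtain ⟨q, hq, hwq⟩ := hwe
        have hwq' := congrArg Subtype.val hwq
        simp only [Subgroup.coe_mul, InvMemClass.coe_inv] at hwq'
        rw [← hwq']
        exact mul_mem hw (hQP hq)
      refine Subgroup.mem_normalizer_iff.mpr fun z => ⟨key g hn z, fun h => ?_⟩
      have h3 := key g⁻¹ (by rw [map_inv]; exact inv_mem hn) _ h
      simpa [mul_assoc] using h3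
    rw [Subgroup.mem_centralizer_iff]
    rintro _ ⟨z, hz, rfl⟩
    rw [← map_mul, ← map_mul]
    have h3 := (hker (g * z * g⁻¹ * z⁻¹)).mpr (hact g hgN z hz)
    rw [map_mul, map_mul, map_mul, map_inv, map_inv, mul_inv_eq_one, mul_inv_eq_iff_eq_mul] at h3
    rw [map_mul, map_mul]
    exact h3.symm

end Cfsg.Agent.S3838
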