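import Cfsg.Statements.S3839
import Cfsg.Agent.Eq.Def_Transfer
import Cfsg.Agent.Eq.Def_TwoFusion
import Cfsg.Agent.Transfer.Frobenius

set_option autoImplicit false
open Cfsg
open scoped Pointwise

namespace Cfsg.Agent.S3839

section
variable {G : Type*} [Group G] [Finite G] {p : ℕ} [hp : Fact p.Prime]

theorem sc_conj {D S : Subgroup G} (hD : Cfsg.IsStronglyClosed D S) {x g : G} (hx : x ∈ D)
    (h : g * x * g⁻¹ ∈ S) : g * x * g⁻¹ ∈ D := hD.2 x hx g h

theorem mem_normalizer_of_conj {K : Subgroup G} {h : G} (H : ∀ x ∈ K, h * x * h⁻¹ ∈ K) :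
    h ∈ Subgroup.normalizer (K : Set G) :=
  Subgroup.mem_normalizer_fintype fun x hx => H x hx

theorem mem_normalizer_sup {A B : Subgroup G} {z : G} (hA : z ∈ Subgroup.normalizer (A : Set G))
    (hB : z ∈ Subgroup.normalizer (B : Set G)) :
    z ∈ Subgroup.normalizer ((A ⊔ B : Subgroup G) : Set G) := by
  refine mem_normalizer_of_conj fun x hx => ?_
  have h1 : A ⊔ B ≤ (A ⊔ B).comap (MulAut.conj z).toMonoidHom :=
    sup_le (fun a ha => Subgroup.mem_sup_left ((Subgroup.mem_normalizer_iff.mp hA a).mp ha))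
      (fun b hb => Subgroup.mem_sup_right ((Subgroup.mem_normalizer_iff.mp hB b).mp hb))
  exact h1 hx

/-- a conjugate which is fully normalized in `S` -/
theorem exists_conj_full (S : Sylow p G) (U : Subgroup G) (hU : IsPGroup p U) :
    ∃ x : G, U.map (MulAut.conj x).toMonoidHom ≤ (S : Subgroup G) ∧
      ∀ R : Subgroup G, IsPGroup p R →
        R ≤ Subgroup.normalizer ((U.map (MulAut.conj x).toMonoidHom : Subgroup G) : Set G) →
        ∃ n ∈ Subgroup.normalizer ((U.map (MulAut.conj x).toMonoidHom : Subgroup G) : Set G),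
          ∀ r ∈ R, n * r * n⁻¹ ∈ (S : Subgroup G) := by
  set N := Subgroup.normalizer (U : Set G) with hN
  obtain ⟨R0⟩ : Nonempty (Sylow p N) := inferInstance
  obtain ⟨W, hW⟩ := (R0.2.map N.subtype).exists_le_sylow
  obtain ⟨x, hx⟩ := MulAction.exists_smul_eq G W S
  refine ⟨x, ?_, fun R hR hRN => ?_⟩
  · rintro _ ⟨u, hu, rfl⟩
    rw [← hx]
    refine Subgroup.mem_map.mpr ⟨u, hW ⟨⟨u, Subgroup.le_normalizer hu⟩, ?_, rfl⟩, rfl⟩
    haveI : (U.comap N.subtype).Normal := Subgroup.normal_in_normalizer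
    have h1 := R0.is_maximal' ((hU.comap_of_injective N.subtype N.subtype_injective).to_sup_of_normal_left R0.2) le_sup_right
    rw [← h1]
    exact Subgroup.mem_sup_left hu
  · have hback : ∀ r ∈ R, x⁻¹ * r * x ∈ N := by
      intro r hr
      have hr' := Subgroup.mem_normalizer_iff.mp (hRN hr)
      refine mem_normalizer_of_conj fun u hu => ?_
      obtain ⟨v, hv, hve⟩ := (hr' (x * u * x⁻¹)).mp ⟨u, hu, rfl⟩
      have hv' : x⁻¹ * r * x * u * (x⁻¹ * r * x)⁻¹ = v := by
        have e1 : x * v * x⁻¹ = r * (x * u * x⁻¹) * r⁻¹ := hve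
        calc x⁻¹ * r * x * u * (x⁻¹ * r * x)⁻¹ = x⁻¹ * (r * (x * u * x⁻¹) * r⁻¹) * x := by group
          _ = v := by rw [← e1]; group
      rw [hv']
      exact hv
    set R' := (R.map (MulAut.conj x⁻¹).toMonoidHom).subgroupOf N
    obtain ⟨Q, hQ⟩ := ((hR.map (MulAut.conj x⁻¹).toMonoidHom).comap_of_injective N.subtype
      N.subtype_injective).exists_le_sylow
    obtain ⟨m, hm⟩ := MulAction.exists_smul_eq N Q R0
    refine ⟨x * m * x⁻¹, mem_normalizer_of_conj ?_, fun r hr => ?_⟩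
    · rintro _ ⟨u, hu, rfl⟩
      refine ⟨m * u * (m : G)⁻¹, (Subgroup.mem_normalizer_iff.mp m.2 u).mp hu, ?_⟩
      simp only [MulEquiv.coe_toMonoidHom, MulAut.conj_apply]
      group
    · have h2 : (⟨x⁻¹ * r * x, hback r hr⟩ : N) ∈ (Q : Subgroup N) :=
        hQ ⟨r, hr, by simp⟩
      have h3 : m * (⟨x⁻¹ * r * x, hback r hr⟩ : N) * m⁻¹ ∈ (R0 : Subgroup N) := by
        rw [← hm]
        exact CfsgLib.Transfer.mem_smul_sylow m h2
      have h4 := hW ⟨_, h3, rfl⟩
      have h5 := CfsgLib.Transfer.mem_smul_sylow x h4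
      rw [hx] at h5
      simpa [mul_assoc] using h5

omit hp in
theorem transport_centralizer {U : Subgroup G} (x : G)
    (H : ∀ g ∈ Subgroup.normalizer ((U.map (MulAut.conj x).toMonoidHom : Subgroup G) : Set G),
      (orderOf g).Coprime p →
        g ∈ Subgroup.centralizer ((U.map (MulAut.conj x).toMonoidHom : Subgroup G) : Set G))
    {g : G} (hg : g ∈ Subgroup.normalizer (U : Set G)) (hgc : (orderOf g).Coprime p) :
    g ∈ Subgroup.centralizer (U : Set G) := by
  have h1 := H (x * g * x⁻¹) (mem_normalizer_of_conj ?_) ?_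
  · rw [Subgroup.mem_centralizer_iff] at h1 ⊢
    intro u hu
    have h2 := h1 (x * u * x⁻¹) ⟨u, hu, rfl⟩
    have h3 : x * (u * g) * x⁻¹ = x * (g * u) * x⁻¹ := by
      calc x * (u * g) * x⁻¹ = x * u * x⁻¹ * (x * g * x⁻¹) := by group
        _ = _ := h2
        _ = x * (g * u) * x⁻¹ := by group
    simpa using h3
  · rintro _ ⟨u, hu, rfl⟩
    refine ⟨g * u * g⁻¹, (Subgroup.mem_normalizer_iff.mp hg u).mp hu, ?_⟩
    simp only [MulEquiv.coe_toMonoidHom, MulAut.conj_apply]
    group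
  · rwa [show x * g * x⁻¹ = MulAut.conj x g from rfl, MulEquiv.orderOf_eq]

/-- replace `g` by an element normalizing a subgroup of `M ∩ D` -/
theorem reduce_step (S : Sylow p G) {D : Subgroup G} (hD : Cfsg.IsStronglyClosed D (S : Subgroup G))
    {U : Subgroup G}
    (hfull : ∀ R : Subgroup G, IsPGroup p R → R ≤ Subgroup.normalizer (U : Set G) →
      ∃ n ∈ Subgroup.normalizer (U : Set G), ∀ r ∈ R, n * r * n⁻¹ ∈ (S : Subgroup G))
    {M : Subgroup G} (hMN : M ≤ Subgroup.normalizer (U : Set G))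
    (hMn : ∀ n ∈ Subgroup.normalizer (U : Set G), ∀ m ∈ M, n * m * n⁻¹ ∈ M)
    (hMc : ∀ m ∈ M, (orderOf m).Coprime p → m ∈ Subgroup.centralizer (U : Set G))
    (hnext : ∀ h ∈ Subgroup.normalizer (U : Set G),
      h ∈ Subgroup.normalizer ((D ⊓ M : Subgroup G) : Set G) → (orderOf h).Coprime p →
        h ∈ Subgroup.centralizer (U : Set G))
    {g : G} (hg : g ∈ Subgroup.normalizer (U : Set G)) (hgc : (orderOf g).Coprime p) :
    g ∈ Subgroup.centralizer (U : Set G) := by
  set N := Subgroup.normalizer (U : Set G) with hN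
  have hTp : IsPGroup p ((S : Subgroup G) ⊓ M : Subgroup G) := S.2.to_le inf_le_left
  obtain ⟨Q, hQ⟩ := (hTp.comap_of_injective M.subtype M.subtype_injective).exists_le_sylow
  have hQT : (Q : Subgroup M).map M.subtype = (S : Subgroup G) ⊓ M := by
    obtain ⟨n, hn, hnS⟩ := hfull _ (Q.2.map M.subtype) ((Subgroup.map_subtype_le _).trans hMN)
    have h1 : (S : Subgroup G) ⊓ M ≤ (Q : Subgroup M).map M.subtype := fun t ht =>
      ⟨⟨t, ht.2⟩, hQ ht, rfl⟩
    have h2 : ((Q : Subgroup M).map M.subtype).map (MulAut.conj n).toMonoidHom ≤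
        (S : Subgroup G) ⊓ M := by
      rintro _ ⟨r, hr, rfl⟩
      exact ⟨hnS r hr, hMn n hn r (Subgroup.map_subtype_le _ hr)⟩
    have h3 := Subgroup.card_le_of_le h2
    rw [Subgroup.card_map_of_injective (MulAut.conj n).injective] at h3
    exact (Subgroup.eq_of_le_of_card_ge h1 h3).symm
  have hQ'le : ∀ q : M, q ∈ (Q : Subgroup M) ↔ (q : G) ∈ (S : Subgroup G) := by
    intro q
    constructor
    · intro h
      have h1 : (q : G) ∈ (Q : Subgroup M).map M.subtype := ⟨q, h, rfl⟩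
      rw [hQT] at h1
      exact h1.1
    · intro h
      exact hQ ⟨h, q.2⟩
  -- the conjugate of `Q` by `g`
  have hgT : IsPGroup p (((S : Subgroup G) ⊓ M : Subgroup G).map (MulAut.conj g).toMonoidHom) :=
    hTp.map _
  obtain ⟨Q2, hQ2⟩ := (hgT.comap_of_injective M.subtype M.subtype_injective).exists_le_sylow
  obtain ⟨m, hm⟩ := MulAction.exists_smul_eq M Q2 Q
  set h := (m : G) * g with hh
  have hhN : h ∈ N := mul_mem (hMN m.2) hg
  have hhS : ∀ t ∈ (S : Subgroup G) ⊓ M, h * t * h⁻¹ ∈ (S : Subgroup G) ⊓ M := by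
    intro t ht
    have htM := hMn g hg t ht.2
    have h1 : (⟨g * t * g⁻¹, htM⟩ : M) ∈ (Q2 : Subgroup M) := hQ2 ⟨t, ht, rfl⟩
    have h2 := CfsgLib.Transfer.mem_smul_sylow m h1
    rw [hm, hQ'le] at h2
    refine ⟨?_, hMn h hhN t ht.2⟩
    rw [show h * t * h⁻¹ = (m : G) * (g * t * g⁻¹) * (m : G)⁻¹ by rw [hh]; group]
    exact h2
  have hhD : h ∈ Subgroup.normalizer ((D ⊓ M : Subgroup G) : Set G) := by
    refine mem_normalizer_of_conj fun d hd => ?_
    have h1 := hhS d ⟨hD.1 hd.1, hd.2⟩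
    exact ⟨sc_conj hD hd.1 h1.1, h1.2⟩
  obtain ⟨a, b, ha, hb, hab, ⟨k, hk⟩, hbc⟩ :=
    CfsgLib.Transfer.exists_pPart_decomposition (p := p) h
  have hbC : b ∈ Subgroup.centralizer (U : Set G) :=
    hnext b (Subgroup.zpowers_le.mpr hhN hb) (Subgroup.zpowers_le.mpr hhD hb) hbc
  -- in the automorphism group, `g` is a `p`-element
  set π := Subgroup.normalizerMonoidHom U with hπ
  have hker : ∀ z : N, π z = 1 ↔ (z : G) ∈ Subgroup.centralizer (U : Set G) := fun z => by
    rw [← MonoidHom.mem_ker, hπ, Subgroup.normalizerMonoidHom_ker, Subgroup.mem_subgroupOf]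
  set A := (M.subgroupOf N).map π with hA
  set B := Subgroup.zpowers (π ⟨h, hhN⟩) with hB
  have hAp : IsPGroup p A := by
    rintro ⟨_, ⟨z, hz, rfl⟩⟩
    obtain ⟨a', b', ha', hb', hab', ⟨k', hk'⟩, hbc'⟩ :=
      CfsgLib.Transfer.exists_pPart_decomposition (p := p) (z : G)
    have haN : a' ∈ N := Subgroup.zpowers_le.mpr z.2 ha'
    have hbN : b' ∈ N := Subgroup.zpowers_le.mpr z.2 hb'
    have h1 : π z = π ⟨a', haN⟩ := by
      rw [show z = (⟨a', haN⟩ : N) * ⟨b', hbN⟩ from Subtype.ext hab', map_mul,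
        (hker ⟨b', hbN⟩).mpr (hMc b' (Subgroup.zpowers_le.mpr (Subgroup.mem_subgroupOf.mp hz) hb') hbc'), mul_one]
    refine ⟨k', Subtype.ext ?_⟩
    change (π z) ^ p ^ k' = 1
    have h2 : (⟨a', haN⟩ : N) ^ p ^ k' = 1 :=
      orderOf_dvd_iff_pow_eq_one.mp (by rwa [Subgroup.orderOf_mk])
    rw [h1, ← map_pow, h2, map_one]
  have hBp : IsPGroup p B := by
    have haN : a ∈ N := Subgroup.zpowers_le.mpr hhN ha
    have hbN : b ∈ N := Subgroup.zpowers_le.mpr hhN hb
    refine IsPGroup.of_card_dvd_pow (n := k) ?_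
    rw [hB, Nat.card_zpowers, show (⟨h, hhN⟩ : N) = (⟨a, haN⟩ : N) * ⟨b, hbN⟩ from Subtype.ext hab,
      map_mul, (hker ⟨b, hbN⟩).mpr hbC, mul_one]
    exact (orderOf_map_dvd _ _).trans (by rwa [Subgroup.orderOf_mk])
  have hBA : B ≤ Subgroup.normalizer (A : Set (MulAut U)) := by
    rw [hB, Subgroup.zpowers_le]
    refine Subgroup.mem_normalizer_fintype ?_
    rintro _ ⟨z, hz, rfl⟩
    exact ⟨⟨h, hhN⟩ * z * ⟨h, hhN⟩⁻¹, hMn h hhN z hz, by simp only [map_mul, map_inv]⟩
  obtain ⟨e, he⟩ := IsPGroup.iff_orderOf.mp (hBp.to_sup_of_normal_right' hAp hBA)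
    ⟨π ⟨g, hg⟩, by
      have h3 : (⟨g, hg⟩ : N) = (⟨m, hMN m.2⟩ : N)⁻¹ * ⟨h, hhN⟩ := Subtype.ext (by simp [hh])
      rw [h3, map_mul, map_inv]
      exact mul_mem (inv_mem (Subgroup.mem_sup_right ⟨⟨m, hMN m.2⟩, m.2, rfl⟩))
        (Subgroup.mem_sup_left (Subgroup.mem_zpowers _))⟩
  refine (hker ⟨g, hg⟩).mp (orderOf_eq_one_iff.mp ?_)
  rw [Subgroup.orderOf_mk] at he
  refine CfsgLib.Transfer.eq_one_of_coprime_of_dvd_pow ?_ (dvd_of_eq he)
  exact Nat.Coprime.coprime_dvd_left ((orderOf_map_dvd _ _).trans (by rw [Subgroup.orderOf_mk])) hgc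

/-- In a subgroup with a normal `p`-complement the `p`-regular elements centralize normal `p`-subgroups. -/
theorem centralize_of_npc {H U : Subgroup G} (hH : Cfsg.HasNormalPComplement p H)
    (hU : IsPGroup p U) (hUH : U ≤ H) {g : G} (hgH : g ∈ H)
    (hg : g ∈ Subgroup.normalizer (U : Set G)) (hgc : (orderOf g).Coprime p) :
    g ∈ Subgroup.centralizer (U : Set G) := by
  rw [Subgroup.mem_centralizer_iff]
  intro u hu
  obtain ⟨N, hN, hNc, k, hk⟩ := CfsgLib.Transfer.hasNormalPComplement_iff_exists.mp hH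
  have hgN : (⟨g, hgH⟩ : H) ∈ N :=
    (CfsgLib.Transfer.mem_iff_coprime_of_pPower_index hNc hk _).mpr (by rwa [Subgroup.orderOf_mk])
  set u' : H := ⟨u, hUH hu⟩
  set g' : H := ⟨g, hgH⟩
  have hcm : g' * u' * g'⁻¹ * u'⁻¹ ∈ N := by
    have h1 := N.mul_mem hgN (hN.conj_mem _ (N.inv_mem hgN) u')
    simpa [mul_assoc] using h1
  have hcU : g * u * g⁻¹ * u⁻¹ ∈ U :=
    U.mul_mem ((Subgroup.mem_normalizer_iff.mp hg u).mp hu) (U.inv_mem hu)
  have h2 : g * u * g⁻¹ * u⁻¹ = 1 := by
    refine CfsgLib.Transfer.eq_one_of_mem_pGroup_of_coprime hU hcU ?_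
    have h3 := Nat.Coprime.coprime_dvd_left (Subgroup.orderOf_dvd_natCard N hcm) hNc
    rwa [← Subgroup.orderOf_coe] at h3
  exact (mul_inv_eq_iff_eq_mul.mp (mul_inv_eq_one.mp h2)).symm

end


/-- A Frobenius normal p-complement criterion relative to a strongly closed subgroup. Let G be a finite group, S a Sylow p-subgroup and D a subgroup of S strongly closed in S with respect to G. Then G has a normal p-complement if and only if N_G(U) has a normal p-complement for every subgroup U of D with C_D(U) ≤ U. -/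
theorem result {G : Type*} [Group G] [Finite G] {p : ℕ} [Fact p.Prime] (S : Sylow p G) (D : Subgroup G) (hD : Cfsg.IsStronglyClosed D (S : Subgroup G)) : Cfsg.HasNormalPComplement p G ↔ ∀ U : Subgroup G, U ≤ D → D ⊓ Subgroup.centralizer (U : Set G) ≤ U → Cfsg.HasNormalPComplement p ↥(Subgroup.normalizer (U : Set G)) := by
  refine ⟨fun h U _ _ => CfsgLib.Transfer.hasNormalPComplement_subgroup h _, fun H => ?_⟩
  have hSn : (S : Subgroup G) ≤ Subgroup.normalizer (D : Set G) := fun s hs =>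
    mem_normalizer_of_conj fun d hd =>
      sc_conj hD hd (mul_mem (mul_mem hs (hD.1 hd)) (inv_mem hs))
  have step1 : ∀ (n : ℕ) (U : Subgroup G), Nat.card G - Nat.card U ≤ n → U ≤ D →
      ∀ g ∈ Subgroup.normalizer (U : Set G), (orderOf g).Coprime p →
        g ∈ Subgroup.centralizer (U : Set G) := by
    intro n
    induction n using Nat.strong_induction_on with
    | h n ih =>
    intro U hn hUD g hg hgc
    obtain ⟨x, hxS, hfull⟩ := exists_conj_full S U (S.2.to_le (hUD.trans hD.1))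
    refine transport_centralizer x (fun g hg hgc => ?_) hg hgc
    set V := U.map (MulAut.conj x).toMonoidHom with hV
    have hVD : V ≤ D := by
      rintro _ ⟨u, hu, rfl⟩
      exact sc_conj hD (hUD hu) (hxS ⟨u, hu, rfl⟩)
    by_cases hcase : D ⊓ Subgroup.centralizer (V : Set G) ≤ V
    · exact centralize_of_npc (H V hVD hcase) (S.2.to_le (hVD.trans hD.1)) Subgroup.le_normalizer
        hg hg hgc
    refine reduce_step S hD hfull (Subgroup.centralizer_le_normalizer _) ?_ (fun m hm _ => hm) ?_ hg hgc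
    · intro z hz m hm
      rw [Subgroup.mem_centralizer_iff] at hm ⊢
      intro v hv
      have hv' : z⁻¹ * v * z ∈ V := by
        simpa using (Subgroup.mem_normalizer_iff.mp (inv_mem hz) v).mp hv
      calc v * (z * m * z⁻¹) = z * ((z⁻¹ * v * z) * m) * z⁻¹ := by group
        _ = z * (m * (z⁻¹ * v * z)) * z⁻¹ := by rw [hm _ hv']
        _ = z * m * z⁻¹ * v := by group
    · intro z hz hzW hzc
      set W := V ⊔ (D ⊓ Subgroup.centralizer (V : Set G)) with hW
      have hlt : V < W := lt_of_le_of_ne le_sup_left fun he => hcase (le_sup_right.trans he.ge)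
      have hcard : Nat.card V < Nat.card W := by
        refine lt_of_le_of_ne (Subgroup.card_le_of_le hlt.le) fun he => hlt.ne ?_
        exact Subgroup.eq_of_le_of_card_ge hlt.le he.ge
      have hVU : Nat.card V = Nat.card U := Subgroup.card_map_of_injective (MulAut.conj x).injective
      have hWG : Nat.card W ≤ Nat.card G := W.card_le_card_group
      have hzc' := ih (Nat.card G - Nat.card W) (by omega) W le_rfl (sup_le hVD inf_le_left) z
        (mem_normalizer_sup hz hzW) hzc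
      exact Subgroup.centralizer_le (SetLike.coe_subset_coe.mpr le_sup_left) hzc'
  refine CfsgLib.Transfer.hasNormalPComplement_of_pLocal_centralizes ?_
  suffices step2 : ∀ (n : ℕ) (U : Subgroup G), Nat.card G - Nat.card U ≤ n → IsPGroup p U →
      ∀ g ∈ Subgroup.normalizer (U : Set G), (orderOf g).Coprime p →
        g ∈ Subgroup.centralizer (U : Set G) from
    fun U hU g hg hgc => step2 _ U le_rfl hU g hg hgc
  intro n
  induction n using Nat.strong_induction_on with
  | h n ih =>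
  intro U hn hU g hg hgc
  obtain ⟨x, hxS, hfull⟩ := exists_conj_full S U hU
  refine transport_centralizer x (fun g hg hgc => ?_) hg hgc
  set V := U.map (MulAut.conj x).toMonoidHom with hV
  have hVN : V ≤ Subgroup.normalizer (D : Set G) := hxS.trans hSn
  by_cases hDV : D ≤ V
  · have hgD : g ∈ Subgroup.normalizer (D : Set G) := mem_normalizer_of_conj fun d hd =>
      sc_conj hD hd (hxS ((Subgroup.mem_normalizer_iff.mp hg d).mp (hDV hd)))
    exact centralize_of_npc (H D le_rfl inf_le_left) (S.2.to_le hxS) hVN hgD hg hgc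
  have hWp : IsPGroup p (V ⊓ D : Subgroup G) := S.2.to_le (inf_le_left.trans hxS)
  have hWnorm : ∀ z ∈ Subgroup.normalizer (V : Set G), ∀ w ∈ V ⊓ D, z * w * z⁻¹ ∈ V ⊓ D := by
    intro z hz w hw
    have h1 := (Subgroup.mem_normalizer_iff.mp hz w).mp hw.1
    exact ⟨h1, sc_conj hD hw.2 (hxS h1)⟩
  let M : Subgroup G :=
    { carrier := {m | m ∈ Subgroup.normalizer (V : Set G) ∧ ∀ v ∈ V, m * v * m⁻¹ * v⁻¹ ∈ D}
      one_mem' := ⟨one_mem _, fun v _ => by simp⟩
      mul_mem' := by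
        rintro a b ⟨ha, ha'⟩ ⟨hb, hb'⟩
        refine ⟨mul_mem ha hb, fun v hv => ?_⟩
        have h1 := D.mul_mem (ha' _ ((Subgroup.mem_normalizer_iff.mp hb v).mp hv)) (hb' v hv)
        simpa [mul_assoc] using h1
      inv_mem' := by
        rintro a ⟨ha, ha'⟩
        refine ⟨inv_mem ha, fun v hv => ?_⟩
        have hv' : a⁻¹ * v * a ∈ V := by
          simpa using (Subgroup.mem_normalizer_iff.mp (inv_mem ha) v).mp hv
        have h1 := D.inv_mem (ha' _ hv')
        simpa [mul_assoc] using h1 }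
  refine reduce_step S hD hfull (M := M) (fun m hm => hm.1) ?_ ?_ ?_ hg hgc
  · intro z hz m hm
    refine ⟨mul_mem (mul_mem hz hm.1) (inv_mem hz), fun v hv => ?_⟩
    have hv' : z⁻¹ * v * z ∈ V := by
      simpa using (Subgroup.mem_normalizer_iff.mp (inv_mem hz) v).mp hv
    have h1 : m * (z⁻¹ * v * z) * m⁻¹ * (z⁻¹ * v * z)⁻¹ ∈ V ⊓ D :=
      ⟨V.mul_mem ((Subgroup.mem_normalizer_iff.mp hm.1 _).mp hv') (V.inv_mem hv'), hm.2 _ hv'⟩
    have h2 := (hWnorm z hz _ h1).2
    simpa [mul_assoc] using h2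
  · intro m hm hmc
    have hmW : m ∈ Subgroup.normalizer ((V ⊓ D : Subgroup G) : Set G) :=
      mem_normalizer_of_conj (hWnorm m hm.1)
    have hfix := Subgroup.mem_centralizer_iff.mp
      (step1 _ (V ⊓ D) le_rfl inf_le_right m hmW hmc)
    rw [Subgroup.mem_centralizer_iff]
    intro v hv
    set d := m * v * m⁻¹ * v⁻¹ with hd
    have hdW : d ∈ V ⊓ D :=
      ⟨V.mul_mem ((Subgroup.mem_normalizer_iff.mp hm.1 v).mp hv) (V.inv_mem hv), hm.2 v hv⟩
    have hpow : ∀ j : ℕ, m ^ j * v * (m ^ j)⁻¹ = d ^ j * v := by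
      intro j
      induction j with
      | zero => simp
      | succ j ihj =>
        have hc : Commute m (d ^ j) := Commute.pow_right (hfix d hdW).symm j
        calc m ^ (j + 1) * v * (m ^ (j + 1))⁻¹ = m * (m ^ j * v * (m ^ j)⁻¹) * m⁻¹ := by
              rw [pow_succ']; group
          _ = (m * d ^ j) * v * m⁻¹ := by rw [ihj]; group
          _ = d ^ j * (m * v * m⁻¹) := by rw [hc.eq]; group
          _ = d ^ (j + 1) * v := by rw [pow_succ, hd]; group
    have h1 := hpow (orderOf m)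
    rw [pow_orderOf_eq_one, inv_one, mul_one, one_mul, right_eq_mul] at h1
    have h2 : d = 1 := CfsgLib.Transfer.eq_one_of_mem_pGroup_of_coprime hWp hdW
      (Nat.Coprime.coprime_dvd_left (orderOf_dvd_of_pow_eq_one h1) hmc)
    exact (mul_inv_eq_iff_eq_mul.mp (mul_inv_eq_one.mp h2)).symm
  · intro z hz hzW hzc
    set W := V ⊔ (D ⊓ M) with hW
    have hWS : W ≤ (S : Subgroup G) := sup_le hxS (inf_le_left.trans hD.1)
    have hlt : V < W := by
      refine lt_of_le_of_ne le_sup_left fun he => ?_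
      have hVD : V < V ⊔ D := lt_of_le_of_ne le_sup_left fun e => hDV (le_sup_right.trans e.ge)
      have hN := CfsgLib.Transfer.lt_inf_normalizer_of_lt
        (S.2.to_le (sup_le hxS hD.1)) hVD
      obtain ⟨y, hy, hyV⟩ := SetLike.exists_of_lt hN
      have hy1 : y ∈ (V : Set G) * (D : Set G) := by
        rw [← Subgroup.coe_mul_of_left_le_normalizer_right _ _ hVN]
        exact hy.1
      obtain ⟨v, hv, d, hd, rfl⟩ := Set.mem_mul.mp hy1
      have hdN : d ∈ Subgroup.normalizer (V : Set G) := by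
        simpa using mul_mem (inv_mem (Subgroup.le_normalizer hv)) hy.2
      have hdM : d ∈ M := by
        refine ⟨hdN, fun w hw => ?_⟩
        have h1 := D.mul_mem hd
          ((Subgroup.mem_normalizer_iff.mp (hVN hw) d⁻¹).mp (D.inv_mem hd))
        simpa [mul_assoc] using h1
      exact hyV (V.mul_mem hv (he.ge (Subgroup.mem_sup_right ⟨hd, hdM⟩)))
    have hcard : Nat.card V < Nat.card W := by
      refine lt_of_le_of_ne (Subgroup.card_le_of_le hlt.le) fun he => hlt.ne ?_
      exact Subgroup.eq_of_le_of_card_ge hlt.le he.ge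
    have hVU : Nat.card V = Nat.card U := Subgroup.card_map_of_injective (MulAut.conj x).injective
    have hWG : Nat.card W ≤ Nat.card G := W.card_le_card_group
    have hzc' := ih (Nat.card G - Nat.card W) (by omega) W le_rfl (S.2.to_le hWS) z
      (mem_normalizer_sup hz hzW) hzc
    exact Subgroup.centralizer_le (SetLike.coe_subset_coe.mpr le_sup_left) hzc'

end Cfsg.Agent.S3839
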