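import Cfsg.Statements.S3858
import Cfsg.Agent.ClassSizes.NotDvdIndex

import Mathlib

set_option autoImplicit false
open Cfsg

namespace Cfsg.Agent.S3858

theorem normalizer_inf_ne_top {G : Type*} [Group G] [Finite G] {T : Subgroup G} [T.Normal]
    (hT : IsSimpleGroup T) (hna : ¬ IsMulCommutative T) {r : ℕ} [Fact r.Prime] (R : Sylow r G)
    (hR0 : (R : Subgroup G) ⊓ T ≠ ⊥) :
    Subgroup.normalizer (((R : Subgroup G) ⊓ T : Subgroup G) : Set G) ≠ ⊤ := by
  intro htop
  haveI : ((R : Subgroup G) ⊓ T).Normal := Subgroup.normalizer_eq_top_iff.mp htop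
  haveI := hT
  rcases (inferInstance : (((R : Subgroup G) ⊓ T).subgroupOf T).Normal).eq_bot_or_eq_top with h | h
  · exact hR0 (Subgroup.subgroupOf_eq_bot.mp h |>.eq_bot_of_le inf_le_right)
  · have hle : T ≤ (R : Subgroup G) := (Subgroup.subgroupOf_eq_top.mp h).trans inf_le_left
    have hp : IsPGroup r T := R.2.to_le hle
    haveI : Nontrivial T := IsSimpleGroup.toNontrivial
    haveI := hp.center_nontrivial
    rcases (inferInstance : (Subgroup.center T).Normal).eq_bot_or_eq_top with h0 | h1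
    · exact ((Subgroup.center T).nontrivial_iff_ne_bot.mp inferInstance) h0
    · exact hna ⟨⟨fun a b => Subgroup.mem_center_iff.mp (h1 ▸ Subgroup.mem_top b) a⟩⟩

theorem normalizer_le_normalizer_inf {G : Type*} [Group G] {T : Subgroup G} [T.Normal]
    (R : Subgroup G) :
    Subgroup.normalizer (R : Set G) ≤ Subgroup.normalizer ((R ⊓ T : Subgroup G) : Set G) := by
  intro g hg
  rw [Subgroup.mem_normalizer_iff] at hg ⊢
  intro x
  rw [Subgroup.mem_inf, Subgroup.mem_inf, hg x]
  refine and_congr_right fun _ => ⟨fun hx => Subgroup.Normal.conj_mem inferInstance x hx g,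
    fun hx => ?_⟩
  simpa [mul_assoc] using Subgroup.Normal.conj_mem inferInstance _ hx g⁻¹

/-- Let G be a finite group with a normal non-abelian simple subgroup T whose centralizer is trivial (G almost simple with socle T), r a prime and R a Sylow r-subgroup of G meeting T nontrivially. Then R lies in exactly one maximal subgroup of G if and only if G has exactly one conjugacy class of maximal subgroups whose index is prime to r. -/
theorem result {G : Type*} [Group G] [Finite G] (T : Subgroup G) [T.Normal] (hT : IsSimpleGroup T) (hna : ¬ IsMulCommutative T)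
    (hC : Subgroup.centralizer (T : Set G) = ⊥) {r : ℕ} [Fact r.Prime] (R : Sylow r G) (hR0 : (R : Subgroup G) ⊓ T ≠ ⊥) :
    (∃! M : Subgroup G, IsCoatom M ∧ (R : Subgroup G) ≤ M) ↔
      ((∃ M : Subgroup G, IsCoatom M ∧ ¬ r ∣ M.index) ∧
        ∀ M₁ M₂ : Subgroup G, IsCoatom M₁ → ¬ r ∣ M₁.index → IsCoatom M₂ → ¬ r ∣ M₂.index → ∃ g : G, M₂ = M₁.map (MulAut.conj g).toMonoidHom) := by
  have hN : Subgroup.normalizer ((R : Subgroup G) : Set G) ≠ ⊤ := fun e =>
    normalizer_inf_ne_top hT hna R hR0 (top_le_iff.mp (e ▸ normalizer_le_normalizer_inf (T := T) _))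
  obtain ⟨M0, hM0, hNM0⟩ :=
    (eq_top_or_exists_le_coatom (Subgroup.normalizer ((R : Subgroup G) : Set G))).resolve_left hN
  have hR0' : (R : Subgroup G) ≤ M0 := Subgroup.le_normalizer.trans hNM0
  have hidx : ∀ M : Subgroup G, (R : Subgroup G) ≤ M → ¬ r ∣ M.index := fun M hM hd =>
    R.not_dvd_index (hd.trans (Subgroup.index_dvd_of_le hM))
  have hconj : ∀ M : Subgroup G, ¬ r ∣ M.index → ∃ g : G,
      (R : Subgroup G) ≤ M.map (MulAut.conj g).toMonoidHom := by
    intro M hM
    obtain ⟨Q, hQ⟩ := CfsgLib.ClassSizes.exists_sylow_le_of_not_dvd_index M hM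
    obtain ⟨g, hg⟩ := MulAction.exists_smul_eq G Q R
    exact ⟨g, hg ▸ Subgroup.map_mono hQ⟩
  constructor
  · rintro ⟨M, ⟨hM, hRM⟩, huniq⟩
    refine ⟨⟨M, hM, hidx M hRM⟩, fun M₁ M₂ h1 h1' h2 h2' => ?_⟩
    obtain ⟨g, hg⟩ := hconj M₁ h1'
    obtain ⟨k, hk⟩ := hconj M₂ h2'
    have e1 := huniq _ ⟨(MulEquiv.mapSubgroup (MulAut.conj g)).isCoatom_iff M₁ |>.mpr h1, hg⟩
    have e2 := huniq _ ⟨(MulEquiv.mapSubgroup (MulAut.conj k)).isCoatom_iff M₂ |>.mpr h2, hk⟩
    refine ⟨k⁻¹ * g, ?_⟩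
    have hcomp : ∀ a c : G, ∀ K : Subgroup G, (K.map (MulAut.conj c).toMonoidHom).map
        (MulAut.conj a).toMonoidHom = K.map (MulAut.conj (a * c)).toMonoidHom := by
      intro a c K
      rw [Subgroup.map_map]; congr 1; ext x; simp [mul_assoc]
    replace e1 : M₁.map (MulAut.conj g).toMonoidHom = M := e1
    replace e2 : M₂.map (MulAut.conj k).toMonoidHom = M := e2
    rw [← hcomp, e1, ← e2, hcomp, inv_mul_cancel]
    conv_lhs => rw [← Subgroup.map_id M₂]
    congr 1; ext x; simp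
  · rintro ⟨-, hall⟩
    refine ⟨M0, ⟨hM0, hR0'⟩, fun M hM => ?_⟩
    obtain ⟨g, hg⟩ := hall M0 M hM0 (hidx M0 hR0') hM.1 (hidx M hM.2)
    have hgR : ((g • R : Sylow r G) : Subgroup G) ≤ M := by
      rw [hg]; exact Subgroup.map_mono hR0'
    obtain ⟨m, hm⟩ := MulAction.exists_smul_eq M ((g • R).subtype hgR) (R.subtype hM.2)
    have hm' : ((m : G) * g) • R = R := by
      simp_rw [Sylow.smul_subtype, Subgroup.smul_def, smul_smul] at hm
      exact Sylow.subtype_injective hm
    have hn : (m : G) * g ∈ M0 := hNM0 (Sylow.smul_eq_iff_mem_normalizer.mp hm')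
    rw [hg]
    apply le_antisymm
    all_goals intro x hx
    · obtain ⟨y, hy, rfl⟩ := hx
      have hmem : g * y * g⁻¹ ∈ M := hg ▸ ⟨y, hy, rfl⟩
      have hmm : (m : G) * (g * y * g⁻¹) * (m : G)⁻¹ ∈ M0 := by
        have := mul_mem (mul_mem hn hy) (inv_mem hn)
        simpa [mul_assoc] using this
      obtain ⟨z, hz, hzz⟩ := (show (m : G) ∈ M0.map (MulAut.conj g).toMonoidHom from hg ▸ m.2)
      change g * z * g⁻¹ = (m : G) at hzz
      show g * y * g⁻¹ ∈ M0
      have hgz : g * z ∈ M0 := by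
        have e : g * z = (m : G) * g := by rw [← hzz]; group
        rw [e]; exact hn
      have hgmem : g ∈ M0 := by simpa using mul_mem hgz (inv_mem hz)
      exact mul_mem (mul_mem hgmem hy) (inv_mem hgmem)
    · obtain ⟨z, hz, hzz⟩ := (show (m : G) ∈ M0.map (MulAut.conj g).toMonoidHom from hg ▸ m.2)
      change g * z * g⁻¹ = (m : G) at hzz
      have hgz : g * z ∈ M0 := by
        have e : g * z = (m : G) * g := by rw [← hzz]; group
        rw [e]; exact hn
      have hgmem : g ∈ M0 := by simpa using mul_mem hgz (inv_mem hz)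
      refine ⟨g⁻¹ * x * g, mul_mem (mul_mem (inv_mem hgmem) hx) hgmem, ?_⟩
      show g * (g⁻¹ * x * g) * g⁻¹ = x
      group

end Cfsg.Agent.S3858
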