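import Cfsg.Statements.S3859

import Mathlib

set_option autoImplicit false
open Cfsg

namespace Cfsg.Agent.S3859

theorem normalizer_inf_ne_top {G : Type*} [Group G] [Finite G] {T : Subgroup G} [T.Normal]
    (hT : IsSimpleGroup T) (hna : ¬ IsMulCommutative T) {r : ℕ} [Fact r.Prime] (R : Sylow r G)
    (hR0 : (R : Subgroup G) ⊓ T ≠ ⊥) :
    Subgroup.normalizer (((R : Subgroup G) ⊓ T : Subgroup G) : Set G) ≠ ⊤ := by
  intro htop
  haveI : ((R : Subgroup G) ⊓ T).Normal := Subgroup.normalizer_eq_top_iff.mp htop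
  haveI := hT
  rcases (inferInstance : (((R : Subgroup G) ⊓ T).subgroupOf T).Normal).eq_bot_or_eq_top with h | h
  · exact hR0 (Subgroup.subgroupOf_eq_bot.mp h |>.eq_bot_of_le inf_le_right)
  · have hle : T ≤ (R : Subgroup G) := (Subgroup.subgroupOf_eq_top.mp h).trans inf_le_left
    have hp : IsPGroup r T := R.2.to_le hle
    haveI : Nontrivial T := IsSimpleGroup.toNontrivial
    haveI := hp.center_nontrivial
    rcases (inferInstance : (Subgroup.center T).Normal).eq_bot_or_eq_top with h0 | h1
    · exact ((Subgroup.center T).nontrivial_iff_ne_bot.mp inferInstance) h0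
    · exact hna ⟨⟨fun a b => Subgroup.mem_center_iff.mp (h1 ▸ Subgroup.mem_top b) a⟩⟩

theorem normalizer_le_normalizer_inf {G : Type*} [Group G] {T : Subgroup G} [T.Normal]
    (R : Subgroup G) :
    Subgroup.normalizer (R : Set G) ≤ Subgroup.normalizer ((R ⊓ T : Subgroup G) : Set G) := by
  intro g hg
  rw [Subgroup.mem_normalizer_iff] at hg ⊢
  intro x
  rw [Subgroup.mem_inf, Subgroup.mem_inf, hg x]
  refine and_congr_right fun _ => ⟨fun hx => Subgroup.Normal.conj_mem inferInstance x hx g,
    fun hx => ?_⟩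
  simpa [mul_assoc] using Subgroup.Normal.conj_mem inferInstance _ hx g⁻¹

/-- Let G be a finite group with a normal non-abelian simple subgroup T whose centralizer is trivial (G almost simple with socle T), r a prime and R a Sylow r-subgroup of G meeting T nontrivially. If R lies in exactly one maximal subgroup of G, then G/T is an r-group. -/
theorem result {G : Type*} [Group G] [Finite G] (T : Subgroup G) [T.Normal] (hT : IsSimpleGroup T) (hna : ¬ IsMulCommutative T)
    (hC : Subgroup.centralizer (T : Set G) = ⊥) {r : ℕ} [Fact r.Prime] (R : Sylow r G) (hR0 : (R : Subgroup G) ⊓ T ≠ ⊥)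
    (huniq : ∃! M : Subgroup G, IsCoatom M ∧ (R : Subgroup G) ≤ M) : IsPGroup r (G ⧸ T) := by
  obtain ⟨M, ⟨hM, hRM⟩, huniq⟩ := huniq
  have hsup : (R : Subgroup G) ⊔ T = ⊤ := by
    by_contra hne
    obtain ⟨M1, hM1, hle⟩ := (eq_top_or_exists_le_coatom ((R : Subgroup G) ⊔ T)).resolve_left hne
    obtain ⟨M2, hM2, hle2⟩ := (eq_top_or_exists_le_coatom _).resolve_left
      (normalizer_inf_ne_top hT hna R hR0)
    have e1 : M1 = M := huniq M1 ⟨hM1, le_sup_left.trans hle⟩
    have e2 : M2 = M := huniq M2 ⟨hM2,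
      (Subgroup.le_normalizer.trans (normalizer_le_normalizer_inf (T := T) _)).trans hle2⟩
    obtain ⟨S, hS0⟩ := (R.2.comap_of_injective T.subtype Subtype.val_injective).exists_le_sylow
    obtain ⟨R', hR'⟩ := (S.2.map T.subtype).exists_le_sylow
    obtain ⟨g, hg⟩ := MulAction.exists_smul_eq G R R'
    have hle1 : (R : Subgroup G) ⊓ T ≤ (S : Subgroup T).map T.subtype := fun y hy =>
      ⟨⟨y, hy.2⟩, hS0 hy.1, rfl⟩
    have hle2s : (S : Subgroup T).map T.subtype ≤ (R' : Subgroup G) ⊓ T :=
      le_inf hR' (Subgroup.map_subtype_le _)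
    have hcard : Nat.card ↥((R' : Subgroup G) ⊓ T) ≤ Nat.card ↥((R : Subgroup G) ⊓ T) := by
      refine Nat.card_le_card_of_injective (fun y => ⟨g⁻¹ * y * g, ?_, ?_⟩) ?_
      · obtain ⟨z, hz, hzy⟩ : (y : G) ∈ ((g • R : Sylow r G) : Subgroup G) := hg ▸ y.2.1
        change g * z * g⁻¹ = (y : G) at hzy
        rw [← hzy]
        simpa [mul_assoc] using hz
      · simpa [mul_assoc] using (‹T.Normal›).conj_mem _ y.2.2 g⁻¹
      · intro y z h
        have := congrArg Subtype.val h
        exact Subtype.ext (mul_left_cancel (mul_right_cancel this))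
    have hS : (S : Subgroup T).map T.subtype = (R : Subgroup G) ⊓ T :=
      (Subgroup.eq_of_le_of_card_ge hle1
        ((Subgroup.card_le_of_le hle2s).trans hcard)).symm
    have hfr := Sylow.normalizer_sup_eq_top S
    rw [hS] at hfr
    apply hM.1
    rw [eq_top_iff, ← hfr]
    exact sup_le (e2 ▸ hle2) (le_sup_right.trans (e1 ▸ hle))
  have hsurj : Function.Surjective ((QuotientGroup.mk' T).comp (R : Subgroup G).subtype) := by
    intro q
    induction q using QuotientGroup.induction_on with | H g => ?_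
    have hg : g ∈ (((R : Subgroup G) ⊔ T : Subgroup G) : Set G) := hsup ▸ Set.mem_univ g
    rw [Subgroup.mul_normal] at hg
    obtain ⟨a, ha, t, ht, rfl⟩ := hg
    refine ⟨⟨a, ha⟩, QuotientGroup.eq.mpr ?_⟩
    simpa using ht
  exact R.2.of_surjective _ hsurj

end Cfsg.Agent.S3859
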