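import Cfsg.Statements.S3862
import Mathlib
import Cfsg.Agent.Eq.Def_Transfer
import Cfsg.Agent.Transfer.SmallElements

set_option autoImplicit false
open Cfsg
open CfsgLib.Transfer
open scoped commutatorElement

namespace Cfsg.Agent.S3862

/-- If every 2-element of the finite group G that is conjugate to its inverse lies in the centre of G, then G has a normal 2-complement. -/
theorem result {G : Type*} [Group G] [Finite G] (h : ∀ x : G, (∃ j : ℕ, orderOf x = 2 ^ j) → IsConj x x⁻¹ → x ∈ Subgroup.center G) : Cfsg.HasNormalPComplement 2 G := by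
  haveI : Fact (Nat.Prime 2) := ⟨Nat.prime_two⟩
  refine hasNormalPComplement_of_pLocal_centralizes fun Q hQ g hg hgc => ?_
  refine mem_centralizer_of_fixes_real hQ hg hgc fun a ha hy => ?_
  obtain ⟨y, _, hya⟩ := hy
  refine (Subgroup.mem_center_iff.mp (h a ?_ (isConj_iff.mpr ⟨y, hya⟩)) g)
  obtain ⟨k, hk⟩ := IsPGroup.iff_orderOf.mp hQ ⟨a, ha⟩
  exact ⟨k, by rwa [Subgroup.orderOf_mk] at hk⟩

end Cfsg.Agent.S3862
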