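import Cfsg.Statements.S3863
import Cfsg.Agent.ClassCount.SylowClasses
import Mathlib

set_option autoImplicit false
open Cfsg

namespace Cfsg.Agent.S3863

/-- Let x be an element of the finite group G that is conjugate to its inverse. Then some 2-element conjugates x to its inverse; if the conjugacy class of x has odd size then x ^ 2 = 1; and x lies in, and is conjugate to its inverse inside, every normal subgroup of odd index. -/
theorem result {G : Type*} [Group G] [Finite G] (x : G) (hx : IsConj x x⁻¹) : (∃ t : G, (∃ j : ℕ, orderOf t = 2 ^ j) ∧ t * x * t⁻¹ = x⁻¹) ∧ (Odd (Subgroup.centralizer ({x} : Set G)).index → x ^ 2 = 1) ∧ ∀ (N : Subgroup G) [N.Normal], Odd N.index → ∃ hxN : x ∈ N, IsConj (⟨x, hxN⟩ : N) (⟨x, hxN⟩ : N)⁻¹ := by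
  obtain ⟨g, hg⟩ := isConj_iff.mp hx
  obtain ⟨a, m, hm, hn⟩ := Nat.exists_eq_pow_mul_and_not_dvd (orderOf_pos g).ne' 2 (by norm_num)
  have hmodd : Odd m := Nat.not_even_iff_odd.mp (fun h => hm (even_iff_two_dvd.mp h))
  have hpow : ∀ k : ℕ, g ^ k * x * (g ^ k)⁻¹ = if Even k then x else x⁻¹ := by
    intro k
    induction k with
    | zero => simp
    | succ k ih =>
      have e : g ^ (k + 1) * x * (g ^ (k + 1))⁻¹ = g * (g ^ k * x * (g ^ k)⁻¹) * g⁻¹ := by
        rw [pow_succ']; group
      rw [e, ih]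
      by_cases h : Even k
      · rw [if_pos h, if_neg (Nat.even_add_one.not.mpr (not_not.mpr h)), hg]
      · rw [if_neg h, if_pos (Nat.even_add_one.mpr h), ← conj_inv, hg, inv_inv]
  set t := g ^ m with ht
  have hto : orderOf t ∣ 2 ^ a :=
    orderOf_dvd_of_pow_eq_one (by rw [ht, ← pow_mul, mul_comm, ← hn, pow_orderOf_eq_one])
  have htx : t * x * t⁻¹ = x⁻¹ := by rw [ht, hpow, if_neg (Nat.not_even_iff_odd.mpr hmodd)]
  refine ⟨⟨t, ((Nat.dvd_prime_pow Nat.prime_two).mp hto).imp fun _ h => h.2, htx⟩, ?_, ?_⟩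
  · intro hodd
    classical
    let C := CfsgLib.ClassCount.conjOrb (⊤ : Subgroup G) x
    haveI : Fintype C := Fintype.ofFinite _
    have hcard : ¬ 2 ∣ Fintype.card C := by
      rw [← Nat.card_eq_fintype_card, CfsgLib.ClassCount.card_conjOrb]
      show ¬ 2 ∣ (Subgroup.centralizer ({x} : Set G)).relIndex ⊤
      rw [Subgroup.relIndex_top_right]
      exact fun h => Nat.not_even_iff_odd.mpr hodd (even_iff_two_dvd.mpr h)
    have hinv : ∀ y : C, (y : G)⁻¹ ∈ C := by
      rintro ⟨y, n, -, rfl⟩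
      refine ⟨n * t, Subgroup.mem_top _, ?_⟩
      calc n * t * x * (n * t)⁻¹ = n * (t * x * t⁻¹) * n⁻¹ := by group
        _ = (n * x * n⁻¹)⁻¹ := by rw [htx]; group
    let σ : Equiv.Perm C := Function.Involutive.toPerm (fun y => ⟨(y : G)⁻¹, hinv y⟩)
      (fun y => Subtype.ext (inv_inv _))
    obtain ⟨⟨y, n, hn2, hny⟩, hy⟩ := Equiv.Perm.exists_fixed_point_of_prime (p := 2) (n := 1) hcard
      (σ := σ) (by ext y; simp [σ, pow_two, Equiv.Perm.mul_apply, Function.Involutive.toPerm])
    have hy' : y⁻¹ = y := congrArg Subtype.val hy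
    have hy2 : y ^ 2 = 1 := by
      rw [pow_two]; nth_rw 1 [← hy']; exact inv_mul_cancel y
    rw [← hny, conj_pow] at hy2
    simpa using hy2
  · intro N hN hodd
    have key : ∀ u : G ⧸ N, u ^ 2 = 1 → u = 1 := fun u hu => by
      have h1 : orderOf u ∣ 2 := orderOf_dvd_of_pow_eq_one hu
      have h2 : orderOf u ∣ N.index := orderOf_dvd_natCard u
      have h3 : Nat.Coprime 2 N.index := (Nat.prime_two.coprime_iff_not_dvd).mpr
        (fun h => Nat.not_even_iff_odd.mpr hodd (even_iff_two_dvd.mpr h))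
      have := Nat.dvd_gcd h1 h2
      rw [h3.gcd_eq_one, Nat.dvd_one] at this
      exact orderOf_eq_one_iff.mp this
    have htN : t ∈ N := by
      rw [← QuotientGroup.eq_one_iff]
      have h1 : orderOf ((t : G ⧸ N)) ∣ 2 ^ a :=
        (orderOf_map_dvd (QuotientGroup.mk' N) t).trans hto
      have h2 : orderOf ((t : G ⧸ N)) ∣ N.index := orderOf_dvd_natCard _
      have h3 : Nat.Coprime (2 ^ a) N.index := Nat.Coprime.pow_left _
        ((Nat.prime_two.coprime_iff_not_dvd).mpr
          (fun h => Nat.not_even_iff_odd.mpr hodd (even_iff_two_dvd.mpr h)))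
      have := Nat.dvd_gcd h1 h2
      rw [h3.gcd_eq_one, Nat.dvd_one] at this
      exact orderOf_eq_one_iff.mp this
    have hxN : x ∈ N := by
      rw [← QuotientGroup.eq_one_iff]
      apply key
      have := congrArg (QuotientGroup.mk' N) htx
      simp only [map_mul, map_inv, QuotientGroup.mk'_apply, (QuotientGroup.eq_one_iff t).mpr htN,
        one_mul, inv_one, mul_one] at this
      rw [pow_two]
      nth_rw 1 [this]
      exact inv_mul_cancel _
    exact ⟨hxN, isConj_iff.mpr ⟨⟨t, htN⟩, Subtype.ext htx⟩⟩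

end Cfsg.Agent.S3863
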