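import Cfsg.Statements.S3865
import Cfsg.Agent.PGroup.MaxClass.Sylow
import Cfsg.Agent.Transfer.Tate
import Cfsg.Agent.S0662
import Cfsg.Agent.PGroup.Normal

set_option autoImplicit false
open Cfsg

open scoped commutatorElement
open CfsgLib.PGroup.MaxClass

namespace Cfsg.Agent.S3865

/-- The `p`-core is a `p`-group. -/
theorem pCore_le_sylow {G : Type*} [Group G] [Finite G] {p : ℕ} [Fact p.Prime] (P : Sylow p G) :
    Cfsg.pCore p G ≤ (P : Subgroup G) := by
  refine sSup_le fun M hM => ?_
  obtain ⟨S, hS⟩ := hM.2.exists_le_sylow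
  obtain ⟨g, hg⟩ := MulAction.exists_smul_eq G S P
  intro a ha
  have h1 : g⁻¹ * a * g⁻¹⁻¹ ∈ M := hM.1.conj_mem a ha g⁻¹
  rw [← hg, Sylow.coe_subgroup_smul, Subgroup.mem_pointwise_smul_iff_inv_smul_mem]
  simpa [mul_assoc] using hS h1

/-- A normal subgroup with a normal `p`-complement is a `p`-group when the `p'`-core is trivial. -/
theorem isPGroup_of_pComplement {G : Type*} [Group G] [Finite G] {p : ℕ} [Fact p.Prime]
    (hcore : Cfsg.pPrimeCore p G = ⊥) (N : Subgroup G) [hN : N.Normal]
    (h : Cfsg.HasNormalPComplement p ↥N) : IsPGroup p ↥N := by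
  have hp : p.Prime := Fact.out
  obtain ⟨S, M, hM, hMS⟩ := h
  obtain ⟨i, hi⟩ := IsPGroup.iff_card.1 S.2
  have hidx : M.index = p ^ i := hMS.symm.index_eq_card.trans hi
  have hcop : (Nat.card M).Coprime p := by
    rw [Nat.coprime_comm, hp.coprime_iff_not_dvd]
    intro hd
    have h1 := hMS.card_mul
    have h2 : (Nat.card ↥N).factorization p = i := by
      have := S.card_eq_multiplicity
      rw [hi] at this
      exact (Nat.pow_right_injective hp.two_le this).symm
    have h3 : p ^ (i + 1) ∣ Nat.card ↥N := by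
      rw [← h1, hi, pow_succ']
      exact Nat.mul_dvd_mul_right hd _
    have h4 := (hp.pow_dvd_iff_le_factorization Nat.card_pos.ne').1 h3
    omega
  -- the complement is normal in the whole group
  have hnorm : (M.map N.subtype).Normal := by
    refine ⟨?_⟩
    rintro _ ⟨m, hm, rfl⟩ g
    have hmem : g * (m : G) * g⁻¹ ∈ N := hN.conj_mem _ m.2 g
    refine ⟨⟨_, hmem⟩, ?_, rfl⟩
    rw [SetLike.mem_coe, ← QuotientGroup.eq_one_iff, ← orderOf_eq_one_iff]
    refine Nat.eq_one_of_dvd_coprimes (Nat.Coprime.pow_right i hcop) ?_ ?_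
    · refine (orderOf_map_dvd (QuotientGroup.mk' M) ⟨_, hmem⟩).trans ?_
      rw [← Subgroup.orderOf_coe]
      show orderOf (MulAut.conj g (m : G)) ∣ _
      rw [MulEquiv.orderOf_eq, Subgroup.orderOf_coe]
      exact M.orderOf_dvd_natCard hm
    · rw [← hidx, Subgroup.index_eq_card]
      exact orderOf_dvd_natCard _
  have hMbot : M = ⊥ := by
    rw [← Subgroup.map_eq_bot_iff_of_injective M N.subtype_injective, eq_bot_iff, ← hcore]
    exact le_sSup ⟨hnorm, by rwa [Subgroup.card_map_of_injective N.subtype_injective]⟩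
  refine IsPGroup.of_card (n := i) ?_
  rw [← hMS.card_mul, hi, hMbot, Subgroup.card_bot, one_mul]

/-- The case of a Sylow subgroup of order `p ^ 3`. -/
theorem three_case {G : Type*} [Group G] [Finite G] {p : ℕ} [Fact p.Prime] (P : Sylow p G)
    (hP : Nat.card P = p ^ 3) (hcen : Subgroup.center ↥(P : Subgroup G) ≤ gam ↥(P : Subgroup G) 2)
    (hne : gam ↥(P : Subgroup G) 2 ≠ ⊥) (h3 : gam ↥(P : Subgroup G) 3 = ⊥)
    (N : Subgroup G) [N.Normal] (hN : gam ↥(P : Subgroup G) 2 ≤ N.subgroupOf P)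
    (hNtop : N.subgroupOf P ≠ ⊤) :
    ∃ x ∈ (P : Subgroup G),
      (Nat.card (Subgroup.centralizer ({x} : Set G))).factorization p = 2 := by
  have hp : p.Prime := Fact.out
  obtain ⟨x, -, hxN⟩ := SetLike.exists_of_lt (lt_top_iff_ne_top.2 hNtop)
  refine ⟨x, x.2, ?_⟩
  set C := Subgroup.centralizer ({(x : G)} : Set G) with hC
  set E := (Subgroup.zpowers x ⊔ gam ↥(P : Subgroup G) 2).map (P : Subgroup G).subtype with hE
  have hEC : E ≤ C := by
    rintro _ ⟨w, hw, rfl⟩
    rw [hC, Subgroup.mem_centralizer_singleton_iff]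
    have h1 : Subgroup.zpowers x ⊔ gam ↥(P : Subgroup G) 2 ≤ Subgroup.centralizer {x} := by
      refine sup_le (Subgroup.zpowers_le.2 (Subgroup.mem_centralizer_singleton_iff.2 rfl))
        fun c hc => Subgroup.mem_centralizer_singleton_iff.2 ?_
      refine commutatorElement_eq_one_iff_mul_comm.1 (Subgroup.mem_bot.1 ?_)
      rw [← h3]
      exact comm_mem_gam_succ (by omega) hc x
    exact congrArg Subtype.val (Subgroup.mem_centralizer_singleton_iff.1 (h1 hw))
  obtain ⟨S, hS⟩ := ((P.2.to_le (Subgroup.map_subtype_le _) : IsPGroup p E).of_equiv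
    (Subgroup.subgroupOfEquivOfLe hEC).symm).exists_le_sylow
  have hcE : p ^ 2 ≤ Nat.card E := by
    rw [hE, Subgroup.card_map_of_injective (Subgroup.subtype_injective _)]
    obtain ⟨i, hi⟩ := IsPGroup.iff_card.1
      (P.2.to_subgroup (Subgroup.zpowers x ⊔ gam ↥(P : Subgroup G) 2))
    obtain ⟨j, hj⟩ := IsPGroup.iff_card.1 (P.2.to_subgroup (gam ↥(P : Subgroup G) 2))
    have hj0 : j ≠ 0 := fun h => hne (Subgroup.eq_bot_of_card_eq _ (by rw [hj, h, pow_zero]))
    have hlt : gam ↥(P : Subgroup G) 2 < Subgroup.zpowers x ⊔ gam ↥(P : Subgroup G) 2 :=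
      lt_of_le_of_ne le_sup_right fun he =>
        hxN (hN (he.ge (Subgroup.mem_sup_left (Subgroup.mem_zpowers x))))
    have h1 : Nat.card (gam ↥(P : Subgroup G) 2) <
        Nat.card ↥(Subgroup.zpowers x ⊔ gam ↥(P : Subgroup G) 2) :=
      lt_of_le_of_ne (Subgroup.card_le_of_le hlt.le)
        fun he => hlt.ne (Subgroup.eq_of_le_of_card_ge hlt.le he.ge)
    rw [hi, hj, Nat.pow_lt_pow_iff_right hp.one_lt] at h1
    rw [hi]
    exact Nat.pow_le_pow_right hp.pos (by omega)
  have h1 := Subgroup.card_le_of_le hS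
  rw [Nat.card_congr (Subgroup.subgroupOfEquivOfLe hEC).toEquiv, S.card_eq_multiplicity] at h1
  have h2 := (Nat.pow_le_pow_iff_right hp.one_lt).1 (hcE.trans h1)
  refine le_antisymm ?_ h2
  by_contra hcon
  push_neg at hcon
  obtain ⟨S', hS'⟩ := (S.2.map C.subtype).exists_le_sylow
  obtain ⟨g, hg⟩ := MulAction.exists_smul_eq G S' P
  have hSS' : (S : Subgroup ↥C).map C.subtype = (S' : Subgroup G) := by
    refine Subgroup.eq_of_le_of_card_ge hS' ?_
    rw [Subgroup.card_map_of_injective C.subtype_injective, S.card_eq_multiplicity,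
      S'.card_eq_multiplicity, ← P.card_eq_multiplicity, hP]
    exact Nat.pow_le_pow_right hp.pos hcon
  have hxS' : (x : G) ∈ (S' : Subgroup G) := by
    rw [← hSS']
    exact ⟨⟨x, hEC (Subgroup.mem_map_of_mem _ (Subgroup.mem_sup_left (Subgroup.mem_zpowers x)))⟩,
      hS (Subgroup.mem_map_of_mem _ (Subgroup.mem_sup_left (Subgroup.mem_zpowers x))), rfl⟩
  have hu : g * x * g⁻¹ ∈ (P : Subgroup G) := by
    have h := Subgroup.smul_mem_pointwise_smul _ (MulAut.conj g) _ hxS'
    rw [← Sylow.coe_subgroup_smul, hg] at h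
    exact h
  have huc : (⟨_, hu⟩ : ↥(P : Subgroup G)) ∈ Subgroup.center ↥(P : Subgroup G) := by
    refine Subgroup.mem_center_iff.2 fun q => Subtype.ext ?_
    have hq : (q : G) ∈ ((g • S' : Sylow p G) : Subgroup G) := hg.symm ▸ q.2
    rw [Sylow.coe_subgroup_smul, Subgroup.mem_pointwise_smul_iff_inv_smul_mem] at hq
    rw [← hSS'] at hq
    obtain ⟨t, -, ht⟩ := hq
    have h3 : (t : G) * x = x * t := Subgroup.mem_centralizer_singleton_iff.1 t.2
    have h4 : (q : G) = g * t * g⁻¹ := by
      rw [show (t : G) = g⁻¹ * q * g by simpa [← map_inv, mul_assoc] using ht]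
      group
    show (q : G) * (g * x * g⁻¹) = g * x * g⁻¹ * q
    rw [h4]
    calc g * t * g⁻¹ * (g * x * g⁻¹) = g * (t * x) * g⁻¹ := by group
      _ = g * (x * t) * g⁻¹ := by rw [h3]
      _ = g * x * g⁻¹ * (g * t * g⁻¹) := by group
  refine hxN ?_
  have h5 := (inferInstance : N.Normal).conj_mem _ (show g * (x : G) * g⁻¹ ∈ N from hN (hcen huc)) g⁻¹
  rwa [show g⁻¹ * (g * x * g⁻¹) * g⁻¹⁻¹ = (x : G) by group] at h5

/-- Let G be a finite group whose Sylow p-subgroup P has order p ^ n with n ≥ 2 and nilpotency class n - 1 (maximal class), whose largest normal subgroup of order prime to p is trivial, and which has no proper normal subgroup of index prime to p. Then either some x ∈ P has a centralizer in G whose order has p-part p ^ 2, or G is quasisimple with centre of order at most p. -/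
theorem result {G : Type*} [Group G] [Finite G] (p : ℕ) [Fact p.Prime] (P : Sylow p G) (n : ℕ) (hP : Nat.card P = p ^ n) (hn : 2 ≤ n) (hmax : Group.nilpotencyClass ↥(P : Subgroup G) = n - 1) (hcore : Cfsg.pPrimeCore p G = ⊥) (hres : ∀ N : Subgroup G, N.Normal → (N.index).Coprime p → N = ⊤) : (∃ x ∈ (P : Subgroup G), (Nat.card (Subgroup.centralizer ({x} : Set G))).factorization p = 2) ∨ (Cfsg.IsQuasisimple G ∧ Nat.card (Subgroup.center G) ≤ p) := by
  classical
  have hp : p.Prime := Fact.out
  have hP2 : (Nat.card G).factorization p = n := by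
    have := P.card_eq_multiplicity
    rw [hP] at this
    exact (Nat.pow_right_injective hp.two_le this).symm
  rcases eq_or_lt_of_le hn with rfl | hn3
  · refine Or.inl ⟨1, one_mem _, ?_⟩
    have htop : Subgroup.centralizer ({1} : Set G) = ⊤ := by
      rw [eq_top_iff]
      intro g _
      rw [Subgroup.mem_centralizer_singleton_iff, one_mul, mul_one]
    rw [htop, Subgroup.card_top, hP2]
  set Q := (P : Subgroup G)
  haveI : Group.IsNilpotent ↥Q := P.2.isNilpotent
  set Γ : ℕ → Subgroup ↥Q := fun i => gam ↥Q i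
  have hS0662 := (Cfsg.Agent.S0662.result (p := p) n hP hmax hn3).1
  -- normal subgroups of the Sylow subgroup
  have hsmallN : ∀ M : Subgroup ↥Q, M.Normal → M.index ≠ 1 → M.index ≠ p →
      ∃ r, 2 ≤ r ∧ r ≤ n ∧ M.index = p ^ r ∧ M = gam ↥Q r := by
    intro M hM h1 h2
    obtain ⟨r, hr⟩ := P.2.index M
    have hr2 : 2 ≤ r := by
      rcases r with _ | _ | r
      · exact absurd (hr.trans (pow_zero p)) h1
      · exact absurd (hr.trans (pow_one p)) h2
      · omega
    refine ⟨r, hr2, ?_, hr, hS0662 M r hr2 hr⟩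
    have := M.index_dvd_card
    rw [hr, hP] at this
    exact (Nat.pow_dvd_pow_iff_le_right hp.one_lt).1 this
  have hgamf : gam ↥Q 2 ≤ frattini ↥Q := by
    rw [gam_succ le_rfl, gam_one, ← commutator_def]
    exact CfsgLib.PGroup.commutator_le_frattini P.2
  have hgne : gam ↥Q (n - 1) ≠ ⊥ := by
    intro h
    rw [gam] at h
    have := Subgroup.lowerCentralSeries_eq_bot_iff_nilpotencyClass_le.1 h
    omega
  have hclast : Nat.card (gam ↥Q (n - 1)) ≤ p := by
    have h := CfsgLib.PGroup.card_lowerCentralSeries_le hP (n - 3)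
    rw [show n - 3 + 1 = n - 1 - 1 by omega, show n - (n - 3 + 2) = 1 by omega, pow_one] at h
    exact h
  have hcenle : Subgroup.center ↥Q ≤ gam ↥Q (n - 1) := by
    have hnc : ¬ IsCyclic (↥Q ⧸ Subgroup.center ↥Q) := by
      intro hc
      haveI := hc
      have hcomm := isMulCommutative_of_isCyclic_quotient_center_self ↥Q
      refine hgne (eq_bot_iff.2 ((gam_anti (show 2 ≤ n - 1 by omega)).trans ?_))
      rw [gam_succ le_rfl, gam_one, Subgroup.commutator_le]
      exact fun a _ b _ => Subgroup.mem_bot.2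
        (commutatorElement_eq_one_iff_mul_comm.2 (hcomm.is_comm.comm a b))
    have h1 : (Subgroup.center ↥Q).index ≠ 1 := fun h => hnc (by
      rw [Subgroup.index_eq_card] at h
      haveI := (Nat.card_eq_one_iff_unique.1 h).1
      infer_instance)
    have h2 : (Subgroup.center ↥Q).index ≠ p := fun h => hnc (by
      rw [Subgroup.index_eq_card] at h
      exact isCyclic_of_prime_card h)
    obtain ⟨r, hr2, hrn, -, hrc⟩ := hsmallN _ inferInstance h1 h2
    rw [hrc]
    refine gam_anti ?_
    by_contra hlt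
    refine hgne (eq_bot_iff.2 ?_)
    rw [show n - 1 = n - 2 + 1 by omega, gam_succ (by omega), Subgroup.commutator_le]
    intro a ha b _
    have hac : a ∈ Subgroup.center ↥Q := hrc ▸ gam_anti (by omega) ha
    exact Subgroup.mem_bot.2 (commutatorElement_eq_one_iff_mul_comm.2
      (Subgroup.mem_center_iff.1 hac b).symm)
  by_cases hA : ∃ N : Subgroup G, N.Normal ∧ (N.subgroupOf Q).index = p
  · -- a normal subgroup cutting out a maximal subgroup
    obtain ⟨N, hN, hNi⟩ := hA
    have hM2 : gam ↥Q 2 ≤ N.subgroupOf Q :=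
      hgamf.trans (frattini_le_coatom (CfsgLib.PGroup.isCoatom_of_index_eq hNi))
    refine Or.inl ?_
    rcases eq_or_lt_of_le (show 3 ≤ n from hn3) with hn4 | hn4
    · subst hn4
      refine three_case P hP hcenle hgne ?_ N hM2 (fun htop => by
        rw [htop, Subgroup.index_top] at hNi; exact hp.ne_one hNi.symm)
      exact Subgroup.lowerCentralSeries_eq_bot_iff_nilpotencyClass_le.2 hmax.le
    have hmc : IsMaxCl p ↥Q n := isMaxCl_of_class hP hn4 hmax
    let C : Finset (Subgroup ↥Q) :=
      insert (N.subgroupOf Q) (((Finset.Ico 2 (max p 3)).filter (fun i => i + 2 ≤ n)).image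
        (twoStep ↥Q))
    obtain ⟨x, hx2, hxC⟩ := hmc.exists_notMem_family C (by
        intro M hM
        simp only [C, Finset.mem_insert, Finset.mem_image, Finset.mem_filter, Finset.mem_Ico] at hM
        rcases hM with rfl | ⟨i, ⟨hi, hin⟩, rfl⟩
        · exact hNi
        · exact hmc.index_twoStep hi.1 hin) (by
        refine (Finset.card_insert_le _ _).trans ?_
        have h1 := (Finset.card_image_le (f := twoStep ↥Q)
          (s := (Finset.Ico 2 (max p 3)).filter (fun i => i + 2 ≤ n))).trans (Finset.card_filter_le _ _)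
        rw [Nat.card_Ico] at h1
        have := hp.two_le
        omega)
    have hgood : Good ↥Q n x := by
      refine ⟨hx2, fun j hj hjn => ?_⟩
      have hmem : ∀ i, 2 ≤ i → i < max p 3 → i + 2 ≤ n → x ∉ twoStep ↥Q i := fun i h1 h2 h3 =>
        hxC _ (Finset.mem_insert_of_mem (Finset.mem_image_of_mem _
          (Finset.mem_filter.2 ⟨Finset.mem_Ico.2 ⟨h1, h2⟩, h3⟩)))
      rcases lt_or_ge j p with hjp | hjp
      · exact hmem j hj (by omega) hjn
      · obtain ⟨i, hi1, hi2, hi3⟩ := hmc.lines j hjp hjn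
        rw [hi3]
        exact hmem i hi1 hi2 (by omega)
    exact ⟨x, x.2, factorization_centralizer_of_good P hmc hgood N
      (fun a ha => hM2 (gam_anti (by omega) ha)) (hxC _ (Finset.mem_insert_self _ _))⟩
  -- otherwise proper normal subgroups are `p`-groups
  push_neg at hA
  have hsmall : ∀ N : Subgroup G, N.Normal → N ≠ ⊤ → N ≤ Cfsg.pCore p G ∧
      N.subgroupOf Q ≤ gam ↥Q 2 := by
    intro N hN hNtop
    haveI := hN
    have h1 : (N.subgroupOf Q).index ≠ 1 := by
      intro h
      rw [Subgroup.index_eq_one, Subgroup.subgroupOf_eq_top] at h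
      refine hNtop (hres N hN ?_)
      rw [Nat.coprime_comm, hp.coprime_iff_not_dvd]
      exact fun hd => P.not_dvd_index (hd.trans (Subgroup.index_dvd_of_le h))
    obtain ⟨r, hr, -, -, hrN⟩ := hsmallN _ inferInstance h1 (hA N hN)
    have h2 : N.subgroupOf Q ≤ gam ↥Q 2 := hrN ▸ gam_anti hr
    refine ⟨le_sSup ⟨hN, isPGroup_of_pComplement hcore N
      (CfsgLib.Transfer.tate_normal_pComplement P N ?_)⟩, h2⟩
    rintro a ⟨haN, haP⟩
    exact ⟨⟨a, haP⟩, hgamf (h2 haN), rfl⟩
  set R := Cfsg.pCore p G with hR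
  have hRQ : R ≤ Q := pCore_le_sylow P
  have hnp : Q ≠ ⊤ := by
    intro htop
    obtain ⟨M, hM⟩ : ∃ M : Subgroup ↥Q, M.index = p := by
      obtain ⟨M, hM⟩ := Sylow.exists_subgroup_card_pow_prime (G := ↥Q) p (n := n - 1)
        (by rw [hP]; exact pow_dvd_pow p (by omega))
      refine ⟨M, ?_⟩
      have h := M.card_mul_index
      rw [hM, hP, show p ^ n = p ^ (n - 1) * p by rw [← pow_succ]; congr 1; omega] at h
      exact Nat.eq_of_mul_eq_mul_left (pow_pos hp.pos _) h
    have hMn : M.Normal := CfsgLib.PGroup.normal_of_coatom P.2 (CfsgLib.PGroup.isCoatom_of_index_eq hM)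
    refine hA (M.map Q.subtype) ⟨?_⟩ ?_
    · rintro _ ⟨m, hm, rfl⟩ g
      have hg : g ∈ Q := htop ▸ Subgroup.mem_top g
      exact ⟨⟨g, hg⟩ * m * ⟨g, hg⟩⁻¹, hMn.conj_mem m hm _, rfl⟩
    · rwa [Subgroup.subgroupOf, Subgroup.comap_map_eq_self_of_injective Q.subtype_injective]
  have hQn : ¬ Q.Normal := fun hQ => hnp (hres Q hQ (by
    rw [Nat.coprime_comm, hp.coprime_iff_not_dvd]; exact P.not_dvd_index))
  have hperf : commutator G = ⊤ := by
    by_contra hne
    exact hQn (Subgroup.Normal.of_commutator_le G (H := Q) ((hsmall _ inferInstance hne).1.trans hRQ))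
  have hRtop : R ≠ ⊤ := fun h => hnp (top_le_iff.1 (h ▸ hRQ))
  have hR2 : R.subgroupOf Q ≤ gam ↥Q 2 := (hsmall R inferInstance hRtop).2
  have hZ : Subgroup.center G ≤ R := by
    refine (hsmall _ inferInstance fun h => ?_).1
    refine hnp ?_
    have hc : commutator G = ⊥ := by
      rw [commutator_def, eq_bot_iff, Subgroup.commutator_le]
      intro a _ b _
      rw [Subgroup.mem_bot, commutatorElement_eq_one_iff_mul_comm]
      exact Subgroup.mem_center_iff.1 (h ▸ Subgroup.mem_top b) a
    have htriv : ∀ g : G, g = 1 := fun g => Subgroup.mem_bot.1 (hc ▸ hperf.symm ▸ Subgroup.mem_top g)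
    exact top_le_iff.1 fun g _ => htriv g ▸ one_mem _
  have hcenQ : ∀ M : Subgroup ↥Q, M ≤ Subgroup.center ↥Q → Nat.card M ≤ p :=
    fun M h => (Subgroup.card_le_of_le (h.trans hcenle)).trans hclast
  by_cases hCR : Subgroup.centralizer (R : Set G) = ⊤
  · -- quasisimple
    have hRZ : R ≤ Subgroup.center G := fun a ha => Subgroup.mem_center_iff.2 fun g =>
      (Subgroup.mem_centralizer_iff.1 (hCR ▸ Subgroup.mem_top g : g ∈ _) a ha).symm
    have hZR : Subgroup.center G = R := le_antisymm hZ hRZ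
    refine Or.inr ⟨⟨⟨hperf⟩, ?_⟩, ?_⟩
    · have hne : Subgroup.center G ≠ ⊤ := fun h => hRtop (hZR ▸ h)
      haveI : Nontrivial (G ⧸ Subgroup.center G) := QuotientGroup.nontrivial_iff.2 hne
      refine ⟨fun K hK => ?_⟩
      haveI := hK
      by_cases hKtop : K.comap (QuotientGroup.mk' (Subgroup.center G)) = ⊤
      · right
        rw [← Subgroup.map_comap_eq_self_of_surjective (QuotientGroup.mk'_surjective _) K, hKtop,
          Subgroup.map_top_of_surjective _ (QuotientGroup.mk'_surjective _)]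
      · left
        rw [← Subgroup.map_comap_eq_self_of_surjective (QuotientGroup.mk'_surjective _) K,
          Subgroup.map_eq_bot_iff, QuotientGroup.ker_mk']
        exact ((hsmall _ inferInstance hKtop).1).trans hRZ
    · rw [hZR, ← Nat.card_congr (Subgroup.subgroupOfEquivOfLe hRQ).toEquiv]
      refine hcenQ _ fun a ha => Subgroup.mem_center_iff.2 fun g => Subtype.ext ?_
      exact Subgroup.mem_center_iff.1 (hRZ ha) g
  -- the core is not central
  refine Or.inl ?_
  haveI hRn : (R.subgroupOf Q).Normal := inferInstance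
  have hRcard : p ^ 2 ≤ Nat.card (R.subgroupOf Q) := by
    by_contra hlt
    push_neg at hlt
    obtain ⟨i, hi⟩ := IsPGroup.iff_card.1 (P.2.to_subgroup (R.subgroupOf Q))
    rw [hi, Nat.pow_lt_pow_iff_right hp.one_lt] at hlt
    have hc : R.subgroupOf Q ≤ Subgroup.center ↥Q := by
      rcases (show i = 0 ∨ i = 1 by omega) with rfl | rfl
      · rw [Subgroup.eq_bot_of_card_eq _ (hi.trans (pow_zero p))]
        exact bot_le
      · exact CfsgLib.PGroup.le_center_of_card_eq P.2 _ (hi.trans (pow_one p))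
    refine hCR (hres _ inferInstance ?_)
    rw [Nat.coprime_comm, hp.coprime_iff_not_dvd]
    refine fun hd => P.not_dvd_index (hd.trans (Subgroup.index_dvd_of_le fun g hg => ?_))
    rw [Subgroup.mem_centralizer_iff]
    intro a ha
    exact (congrArg Subtype.val (Subgroup.mem_center_iff.1 (hc (x := ⟨a, hRQ ha⟩) ha) ⟨g, hg⟩)).symm
  have hi1 : (R.subgroupOf Q).index ≠ 1 := by
    intro h
    rw [Subgroup.index_eq_one] at h
    have h1 := gam_anti (G := ↥Q) (show 2 ≤ n - 1 by omega)
    rw [h, top_le_iff] at hR2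
    refine hgne (eq_bot_iff.2 ?_)
    have h2 : ∀ i, 2 ≤ i → gam ↥Q i = ⊤ := by
      intro i hi
      induction i, hi using Nat.le_induction with
      | base => exact hR2
      | succ i hi ih =>
        have h4 := gam_succ (G := ↥Q) (le_refl 1)
        rw [gam_one, hR2] at h4
        rw [gam_succ (by omega), ih, ← h4]
    have h3 : gam ↥Q n = ⊥ :=
      Subgroup.lowerCentralSeries_eq_bot_iff_nilpotencyClass_le.2 (by omega)
    rw [← h3, h2 n (by omega)]
    exact le_top
  obtain ⟨r, hr, hrn, hri, hrR⟩ := hsmallN _ hRn hi1 (hA R inferInstance)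
  have hr2 : r + 2 ≤ n := by
    have h := (R.subgroupOf Q).card_mul_index
    rw [hri, hP] at h
    have h1 := Nat.mul_le_mul_right (p ^ r) hRcard
    rw [h, ← pow_add, Nat.pow_le_pow_iff_right hp.one_lt] at h1
    omega
  have hn4 : 4 ≤ n := by omega
  have hmc : IsMaxCl p ↥Q n := isMaxCl_of_class hP hn4 hmax
  obtain ⟨x, hx⟩ := hmc.exists_good
  refine ⟨x, x.2, factorization_centralizer_of_good P hmc hx R (fun a ha => ?_) fun h => hx.1 (hR2 h)⟩
  have : a ∈ R.subgroupOf Q := hrR ▸ gam_anti (show r ≤ n - 2 by omega) ha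
  exact this

end Cfsg.Agent.S3865
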