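import Cfsg.Statements.S3866

import Mathlib

set_option autoImplicit false
open Cfsg

open scoped commutatorElement

namespace Cfsg.Agent.S3866

/-- Let A be a commutative normal subgroup of the finite group G with G generated by A and an element x. Then a ↦ x a x⁻¹ a⁻¹ is a surjective homomorphism from A onto the commutator subgroup of G whose kernel is the centralizer of x in A; in particular the commutator subgroup has order equal to the index in A of that centralizer. -/
theorem result {G : Type*} [Group G] [Finite G] (A : Subgroup G) [A.Normal] (hA : IsMulCommutative A) (x : G) (hgen : A ⊔ Subgroup.zpowers x = ⊤) : (∀ a ∈ A, x * a * x⁻¹ * a⁻¹ ∈ commutator G) ∧ (∀ c ∈ commutator G, ∃ a ∈ A, x * a * x⁻¹ * a⁻¹ = c) ∧ (∀ a ∈ A, ∀ b ∈ A, x * (a * b) * x⁻¹ * (a * b)⁻¹ = (x * a * x⁻¹ * a⁻¹) * (x * b * x⁻¹ * b⁻¹)) ∧ Nat.card (commutator G) * Nat.card ↥(A ⊓ Subgroup.centralizer ({x} : Set G)) = Nat.card A := by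
  have hxA : ∀ a ∈ A, x * a * x⁻¹ ∈ A := fun a ha => ‹A.Normal›.conj_mem a ha x
  have hcomm : ∀ a ∈ A, ∀ b ∈ A, a * b = b * a := fun a ha b hb =>
    congrArg Subtype.val (hA.1.comm ⟨a, ha⟩ ⟨b, hb⟩)
  have hhom : ∀ a ∈ A, ∀ b ∈ A, x * (a * b) * x⁻¹ * (a * b)⁻¹ =
      (x * a * x⁻¹ * a⁻¹) * (x * b * x⁻¹ * b⁻¹) := by
    intro a ha b hb
    have h1 : (x * b * x⁻¹ * b⁻¹) * a⁻¹ = a⁻¹ * (x * b * x⁻¹ * b⁻¹) :=
      hcomm _ (mul_mem (hxA b hb) (inv_mem hb)) _ (inv_mem ha)
    calc x * (a * b) * x⁻¹ * (a * b)⁻¹ = x * a * x⁻¹ * ((x * b * x⁻¹ * b⁻¹) * a⁻¹) := by group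
      _ = _ := by rw [h1]; group
  have hmem : ∀ a ∈ A, x * a * x⁻¹ * a⁻¹ ∈ commutator G := fun a _ =>
    Subgroup.commutator_mem_commutator (Subgroup.mem_top x) (Subgroup.mem_top a)
  let φ : ↥A →* G := MonoidHom.mk' (fun a => x * (a : G) * x⁻¹ * (a : G)⁻¹)
    (fun a b => hhom a a.2 b b.2)
  have hKA : φ.range ≤ A := by
    rintro _ ⟨a, rfl⟩
    exact mul_mem (hxA a a.2) (inv_mem a.2)
  haveI hKn : φ.range.Normal := by
    refine Subgroup.normalizer_eq_top_iff.mp (top_le_iff.mp (hgen ▸ sup_le ?_ ?_))
    · intro a ha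
      rw [Subgroup.mem_normalizer_iff]
      intro k
      constructor
      · intro hk
        rw [hcomm a ha k (hKA hk)]
        simpa [mul_assoc] using hk
      · intro hk
        have h1 := hcomm a⁻¹ (inv_mem ha) _ (hKA hk)
        have e : k = a⁻¹ * (a * k * a⁻¹) * a := by group
        rw [e, h1]
        simpa [mul_assoc] using hk
    · rw [Subgroup.zpowers_le, Subgroup.mem_normalizer_iff]
      intro k
      constructor
      · rintro ⟨a, rfl⟩
        exact ⟨⟨x * a * x⁻¹, hxA a a.2⟩, by simp [φ, mul_assoc]⟩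
      · rintro ⟨a, ha⟩
        have hxA' : x⁻¹ * (a : G) * x ∈ A := by
          simpa using ‹A.Normal›.conj_mem a a.2 x⁻¹
        refine ⟨⟨x⁻¹ * a * x, hxA'⟩, ?_⟩
        have ha' : x * (a : G) * x⁻¹ * (a : G)⁻¹ = x * k * x⁻¹ := ha
        have hk : k = x⁻¹ * (x * k * x⁻¹) * x := by group
        rw [hk, ← ha']
        show x * (x⁻¹ * a * x) * x⁻¹ * (x⁻¹ * a * x)⁻¹ = _
        group
  have hrange : φ.range = commutator G := by
    refine le_antisymm ?_ ?_
    · rintro _ ⟨a, rfl⟩; exact hmem a a.2
    · have hc : ∀ g h : G, (QuotientGroup.mk' φ.range g) * (QuotientGroup.mk' φ.range h) =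
          (QuotientGroup.mk' φ.range h) * (QuotientGroup.mk' φ.range g) := by
        have hxa : ∀ a ∈ A, (QuotientGroup.mk' φ.range x) * QuotientGroup.mk' φ.range a =
            QuotientGroup.mk' φ.range a * QuotientGroup.mk' φ.range x := by
          intro a ha
          have h0 : QuotientGroup.mk' φ.range (x * a * x⁻¹ * a⁻¹) = 1 :=
            (QuotientGroup.eq_one_iff _).mpr ⟨⟨a, ha⟩, rfl⟩
          simp only [map_mul, map_inv] at h0
          rw [mul_inv_eq_one, mul_inv_eq_iff_eq_mul] at h0
          exact h0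
        have hcenter : (⊤ : Subgroup G) ≤
            (Subgroup.center (G ⧸ φ.range)).comap (QuotientGroup.mk' φ.range) := by
          have hcent : ∀ y : G, (∀ a ∈ A, Commute (QuotientGroup.mk' φ.range y)
              (QuotientGroup.mk' φ.range a)) →
              Commute (QuotientGroup.mk' φ.range y) (QuotientGroup.mk' φ.range x) →
              y ∈ (Subgroup.center (G ⧸ φ.range)).comap (QuotientGroup.mk' φ.range) := by
            intro y h1 h2
            rw [Subgroup.mem_comap, Subgroup.mem_center_iff]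
            intro q
            induction q using QuotientGroup.induction_on with | H g => ?_
            have hle : A ⊔ Subgroup.zpowers x ≤ (Subgroup.centralizer
                {QuotientGroup.mk' φ.range y}).comap (QuotientGroup.mk' φ.range) := by
              refine sup_le (fun a ha => ?_) (Subgroup.zpowers_le.mpr ?_)
              · exact Subgroup.mem_centralizer_singleton_iff.mpr (h1 a ha).symm.eq
              · exact Subgroup.mem_centralizer_singleton_iff.mpr h2.symm.eq
            exact Subgroup.mem_centralizer_singleton_iff.mp (hle (hgen ▸ Subgroup.mem_top g))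
          rw [← hgen]
          refine sup_le (fun a ha => hcent a (fun b hb => ?_) ?_) (Subgroup.zpowers_le.mpr
            (hcent x (fun a ha => hxa a ha) (Commute.refl _)))
          · show _ = _
            rw [← map_mul, ← map_mul, hcomm a ha b hb]
          · exact (hxa a ha).symm
        intro g h
        exact Subgroup.mem_center_iff.mp (hcenter (Subgroup.mem_top h)) _
      rw [commutator_def, Subgroup.commutator_le]
      intro g _ h _
      rw [← QuotientGroup.eq_one_iff, ← QuotientGroup.mk'_apply, map_commutatorElement,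
        commutatorElement_eq_one_iff_commute]
      exact hc g h
  refine ⟨hmem, fun c hc => ?_, hhom, ?_⟩
  · rw [← hrange] at hc
    obtain ⟨a, ha⟩ := hc
    exact ⟨a, a.2, ha⟩
  · have hker : Nat.card φ.ker = Nat.card ↥(A ⊓ Subgroup.centralizer ({x} : Set G)) :=
      Nat.card_congr
        { toFun := fun a => ⟨(a.1 : G), a.1.2, Subgroup.mem_centralizer_singleton_iff.mpr (by
            have := a.2; rw [MonoidHom.mem_ker] at this
            change x * (a.1 : G) * x⁻¹ * (a.1 : G)⁻¹ = 1 at this
            rw [mul_inv_eq_one, mul_inv_eq_iff_eq_mul] at this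
            exact this.symm)⟩
          invFun := fun a => ⟨⟨a.1, a.2.1⟩, by
            rw [MonoidHom.mem_ker]
            show x * a.1 * x⁻¹ * (a.1)⁻¹ = 1
            rw [← Subgroup.mem_centralizer_singleton_iff.mp a.2.2]; group⟩
          left_inv := fun a => rfl
          right_inv := fun a => rfl }
    rw [← hrange, ← hker, ← Subgroup.index_ker, mul_comm]
    exact φ.ker.card_mul_index

end Cfsg.Agent.S3866
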