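import Cfsg.Statements.S3867

import Mathlib

set_option autoImplicit false
open Cfsg

namespace Cfsg.Agent.S3867

/-- Let M and N be nontrivial normal subgroups of the finite group G with M ⊓ N trivial, and let p be a prime. Writing n(X) for the number of Sylow p-subgroups of a group X, one has n(G) · n(G/MN) = n(G/M) · n(G/N). -/
theorem result {G : Type*} [Group G] [Finite G] (p : ℕ) [Fact p.Prime] (M N : Subgroup G) [M.Normal] [N.Normal] (hM : M ≠ ⊥) (hN : N ≠ ⊥) (hMN : M ⊓ N = ⊥) : Nat.card (Sylow p G) * Nat.card (Sylow p (G ⧸ (M ⊔ N))) = Nat.card (Sylow p (G ⧸ M)) * Nat.card (Sylow p (G ⧸ N)) := by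
  classical
  let P : Sylow p G := default
  have hn : ∀ (K : Subgroup G) [K.Normal], Nat.card (Sylow p (G ⧸ K)) =
      (Subgroup.normalizer (((P : Subgroup G) ⊔ K : Subgroup G) : Set G)).index := by
    intro K hK
    rw [(P.mapSurjective (QuotientGroup.mk'_surjective K)).card_eq_index_normalizer]
    show (Subgroup.normalizer (((P.mapSurjective (QuotientGroup.mk'_surjective K) : Sylow p (G ⧸ K)) :
      Subgroup (G ⧸ K)) : Set (G ⧸ K))).index = _
    rw [Sylow.coe_mapSurjective,
      ← (Subgroup.normalizer (_ : Set (G ⧸ K))).index_comap_of_surjective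
        (QuotientGroup.mk'_surjective K),
      Subgroup.comap_normalizer_eq_of_surjective _ (QuotientGroup.mk'_surjective K),
      Subgroup.comap_map_eq, QuotientGroup.ker_mk']
  rw [hn, hn, hn, show Nat.card (Sylow p G) =
    (Subgroup.normalizer ((P : Subgroup G) : Set G)).index from P.card_eq_index_normalizer]
  set A := Subgroup.normalizer (((P : Subgroup G) ⊔ M : Subgroup G) : Set G) with hA
  set B := Subgroup.normalizer (((P : Subgroup G) ⊔ N : Subgroup G) : Set G) with hB
  set C := Subgroup.normalizer (((P : Subgroup G) ⊔ (M ⊔ N) : Subgroup G) : Set G) with hC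
  set D := Subgroup.normalizer ((P : Subgroup G) : Set G) with hD
  have conjmem : ∀ (K L : Subgroup G), K.Normal → ∀ g : G,
      (∀ y, y ∈ L → g * y * g⁻¹ ∈ L ⊔ K) → g ∈ Subgroup.normalizer ((L ⊔ K : Subgroup G) : Set G) := by
    intro K L hK g hL
    apply Subgroup.mem_normalizer_iff_map_conj_eq.mpr
    refine Subgroup.eq_of_le_of_card_ge ?_
      (le_of_eq (Nat.card_congr ((L ⊔ K).equivMapOfInjective _ (MulAut.conj g).injective).toEquiv))
    rw [Subgroup.map_sup]
    refine sup_le ?_ ?_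
    · rintro _ ⟨y, hy, rfl⟩; exact hL y hy
    · rintro _ ⟨y, hy, rfl⟩; exact Subgroup.mem_sup_right (hK.conj_mem y hy g)
  have hDK : ∀ (K : Subgroup G), K.Normal →
      D ≤ Subgroup.normalizer (((P : Subgroup G) ⊔ K : Subgroup G) : Set G) := fun K hK d hd =>
    conjmem K _ hK d fun y hy => Subgroup.mem_sup_left ((Subgroup.mem_normalizer_iff.mp hd y).mp hy)
  have hAC : A ≤ C := by
    intro g hg
    apply conjmem _ _ inferInstance
    intro y hy
    exact (show (P : Subgroup G) ⊔ M ≤ (P : Subgroup G) ⊔ (M ⊔ N) from sup_le_sup_left le_sup_left _)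
      ((Subgroup.mem_normalizer_iff.mp hg y).mp (Subgroup.mem_sup_left hy))
  have hBC : B ≤ C := by
    intro g hg
    apply conjmem _ _ inferInstance
    intro y hy
    exact (show (P : Subgroup G) ⊔ N ≤ (P : Subgroup G) ⊔ (M ⊔ N) from sup_le_sup_left le_sup_right _)
      ((Subgroup.mem_normalizer_iff.mp hg y).mp (Subgroup.mem_sup_left hy))
  have hdec : ∀ (K : Subgroup G), K.Normal → ∀ y ∈ (P : Subgroup G) ⊔ K,
      ∃ k : ℕ, y ^ p ^ k ∈ K := by
    intro K hK y hy
    have hmem : QuotientGroup.mk' K y ∈ (P : Subgroup G).map (QuotientGroup.mk' K) := by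
      have : QuotientGroup.mk' K y ∈ ((P : Subgroup G) ⊔ K).map (QuotientGroup.mk' K) := ⟨y, hy, rfl⟩
      rw [Subgroup.map_sup, QuotientGroup.map_mk'_self, sup_bot_eq] at this
      exact this
    obtain ⟨k, hk⟩ := P.2.map (QuotientGroup.mk' K) ⟨_, hmem⟩
    refine ⟨k, (QuotientGroup.eq_one_iff _).mp ?_⟩
    simpa using congrArg Subtype.val hk
  have hX : ((P : Subgroup G) ⊔ M) ⊓ ((P : Subgroup G) ⊔ N) = P := by
    refine P.3 (fun y => ?_) (le_inf le_sup_left le_sup_left)
    obtain ⟨k, hk⟩ := hdec M inferInstance y y.2.1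
    obtain ⟨l, hl⟩ := hdec N inferInstance ((y : G) ^ p ^ k) (pow_mem y.2.2 _)
    refine ⟨k + l, Subtype.ext ?_⟩
    have h1 : ((y : G) ^ p ^ k) ^ p ^ l ∈ M ⊓ N := ⟨pow_mem hk _, hl⟩
    rw [hMN, Subgroup.mem_bot] at h1
    simpa [pow_add, pow_mul] using h1
  have hAB : A ⊓ B = D := by
    refine le_antisymm (fun g hg => ?_) (le_inf (hDK M inferInstance) (hDK N inferInstance))
    rw [hD, Subgroup.mem_normalizer_iff]
    intro y
    rw [← hX, Subgroup.mem_inf, Subgroup.mem_inf, Subgroup.mem_normalizer_iff.mp hg.1 y,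
      Subgroup.mem_normalizer_iff.mp hg.2 y]
  have hprod : ∀ c ∈ C, ∃ b ∈ B, ∃ a ∈ A, c = b * a := by
    intro c hc
    set X := (P : Subgroup G) ⊔ (M ⊔ N) with hXdef
    have hPX : (P : Subgroup G) ≤ X := le_sup_left
    have hcPX : ((c • P : Sylow p G) : Subgroup G) ≤ X := by
      rintro _ ⟨y, hy, rfl⟩
      exact (Subgroup.mem_normalizer_iff.mp hc y).mp (hPX hy)
    obtain ⟨u, hu⟩ := MulAction.exists_smul_eq X ((c • P).subtype hcPX) (P.subtype hPX)
    have hu' : ((u : G) * c) • P = P := by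
      simp_rw [Sylow.smul_subtype, Subgroup.smul_def, smul_smul] at hu
      exact Sylow.subtype_injective hu
    have hd : (u : G) * c ∈ D := Sylow.smul_eq_iff_mem_normalizer.mp hu'
    have hux : ((u : G)⁻¹ : G) ∈ (((P : Subgroup G) ⊔ (M ⊔ N) : Subgroup G) : Set G) :=
      inv_mem u.2
    rw [Subgroup.mul_normal] at hux
    obtain ⟨q, hq, w, hw, hqw⟩ := hux
    have hw' : w ∈ ((N ⊔ M : Subgroup G) : Set G) := sup_comm M N ▸ hw
    rw [Subgroup.mul_normal] at hw'
    obtain ⟨n, hn', m, hm, rfl⟩ := hw'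
    refine ⟨q * n, mul_mem (hDK N inferInstance (Subgroup.le_normalizer hq))
      (Subgroup.le_normalizer (Subgroup.mem_sup_right hn')), m * ((u : G) * c),
      mul_mem (Subgroup.le_normalizer (Subgroup.mem_sup_right hm)) (hDK M inferInstance hd), ?_⟩
    calc c = (u : G)⁻¹ * ((u : G) * c) := by group
      _ = q * (n * m) * ((u : G) * c) := by rw [← hqw]
      _ = _ := by group
  have hrel : D.relIndex B = A.relIndex C := by
    rw [← hAB, Subgroup.inf_relIndex_right]
    refine Nat.card_congr (Equiv.ofBijective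
      (Subgroup.quotientSubgroupOfEmbeddingOfLE A hBC) ⟨Function.Embedding.injective _, ?_⟩)
    intro q
    induction q using Quotient.inductionOn' with | h c => ?_
    obtain ⟨b, hb, a, ha, hc⟩ := hprod c c.2
    refine ⟨Quotient.mk'' ⟨b, hb⟩, ?_⟩
    apply Quotient.sound'
    rw [QuotientGroup.leftRel_apply, Subgroup.mem_subgroupOf]
    simp [hc, ha]
  have hDB : D ≤ B := hAB ▸ inf_le_right
  rw [← Subgroup.relIndex_mul_index hDB, ← Subgroup.relIndex_mul_index hAC, hrel]
  ring

end Cfsg.Agent.S3867
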