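import Cfsg.Statements.S3878
import Cfsg.Agent.Eq.Def_HallClasses
import Cfsg.Agent.Perm57.HallUniversal

set_option autoImplicit false
open Cfsg

namespace Cfsg.Agent.S3878

/-- For a set of primes π the following are equivalent: every finite group has a Hall π-subgroup; in every finite group the maximal π-subgroups are pairwise conjugate; π contains at most one prime or contains every prime. -/
theorem result (π : Set ℕ) :
    ((∀ (G : Type) [Group G] [Finite G], Cfsg.IsEPiGroup π G) ↔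
      ((∀ p q : ℕ, p.Prime → q.Prime → p ∈ π → q ∈ π → p = q) ∨ ∀ p : ℕ, p.Prime → p ∈ π)) ∧
    ((∀ (G : Type) [Group G] [Finite G], Cfsg.IsDPiGroup π G) ↔
      ((∀ p q : ℕ, p.Prime → q.Prime → p ∈ π → q ∈ π → p = q) ∨ ∀ p : ℕ, p.Prime → p ∈ π)) := by
  have hd : ((∀ p q : ℕ, p.Prime → q.Prime → p ∈ π → q ∈ π → p = q) ∨ ∀ p : ℕ, p.Prime → p ∈ π) →
      ∀ (G : Type) [Group G] [Finite G], Cfsg.IsDPiGroup π G := by
    rintro (h | h) G _ _
    · exact CfsgLib.HallUniversal.dPi_of_subsingleton h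
    · exact CfsgLib.HallUniversal.dPi_of_all h
  exact ⟨⟨fun h => CfsgLib.HallUniversal.trivial_of_forall_ePi h,
      fun h G _ _ => CfsgLib.HallUniversal.ePi_of_dPi (hd h G)⟩,
    ⟨fun h => CfsgLib.HallUniversal.trivial_of_forall_ePi
      (fun G _ _ => CfsgLib.HallUniversal.ePi_of_dPi (h G)), hd⟩⟩

end Cfsg.Agent.S3878
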