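import Cfsg.Statements.S3881
import Cfsg.Agent.MetacyclicP.Abelian

set_option autoImplicit false
open Cfsg

namespace Cfsg.Agent.S3881

/-- Let p be an odd prime and G a finite metacyclic p-group (G has a cyclic normal subgroup with cyclic quotient). Suppose G is non-abelian with |G'| = p^n. Then for 1 ≤ i ≤ n the number of elements of G whose conjugacy class has exactly p^i elements is |Z(G)| · (p^(2i) − p^(2i−2)). -/
theorem result {G : Type*} [Group G] [Finite G] {p : ℕ} [Fact p.Prime] (hp : p ≠ 2) (hG : IsPGroup p G) (hmc : Cfsg.IsMetacyclic G) (n : ℕ) (hn : n ≠ 0) (hGn : Nat.card ↥(commutator G) = p ^ n) (i : ℕ) (hi : 1 ≤ i) (hin : i ≤ n) :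
    Nat.card {g : G // (Subgroup.centralizer ({g} : Set G)).index = p ^ i} =
      Nat.card ↥(Subgroup.center G) * (p ^ (2 * i) - p ^ (2 * i - 2)) := by
  obtain ⟨D⟩ := CfsgLib.MetacyclicP.exists_gens hG hmc
  have hn' : n = D.n := Nat.pow_right_injective (Fact.out : p.Prime).two_le
    (hGn.symm.trans D.card_commutator)
  subst hn'
  have hpr : p.Prime := Fact.out
  have hset : Nat.card {g : G // (Subgroup.centralizer ({g} : Set G)).index = p ^ i} =
      ((D.layer hp i : Set G) \ (D.layer hp (i - 1) : Set G)).ncard := by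
    rw [← Nat.card_coe_set_eq]
    refine Nat.card_congr (Equiv.subtypeEquivRight fun g => ?_)
    rw [Set.mem_sdiff, SetLike.mem_coe, SetLike.mem_coe, D.mem_layer hp, D.mem_layer hp,
      Nat.dvd_prime_pow hpr, Nat.dvd_prime_pow hpr]
    constructor
    · intro h
      refine ⟨⟨i, le_rfl, h⟩, ?_⟩
      rintro ⟨k, hk, hk'⟩
      have := Nat.pow_right_injective hpr.two_le (h.symm.trans hk')
      omega
    · rintro ⟨⟨k, hk, hk'⟩, h⟩
      rcases eq_or_lt_of_le hk with rfl | hlt
      · exact hk'
      · exact absurd ⟨k, by omega, hk'⟩ h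
  have hsub : (D.layer hp (i - 1) : Set G) ⊆ (D.layer hp i : Set G) := by
    intro g hg
    rw [SetLike.mem_coe, D.mem_layer hp] at hg ⊢
    exact hg.trans (pow_dvd_pow p (by omega))
  rw [hset, Set.ncard_sdiff hsub, ← Nat.card_coe_set_eq, ← Nat.card_coe_set_eq]
  simp only [SetLike.coe_sort_coe]
  rw [D.card_layer hp hin, D.card_layer hp (by omega : i - 1 ≤ D.n), ← Nat.mul_sub, ← pow_add,
    ← pow_add]
  congr 3 <;> omega

end Cfsg.Agent.S3881
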