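import Cfsg.Statements.S3883
import Cfsg.Agent.MetacyclicP.Abelian

set_option autoImplicit false
open Cfsg

namespace Cfsg.Agent.S3883

/-- Let p be an odd prime and G a finite metacyclic p-group (G has a cyclic normal subgroup with cyclic quotient). Suppose G is non-abelian. Then an element g of G lies outside the Frattini subgroup if and only if its centralizer C_G(g) is abelian. -/
theorem result {G : Type*} [Group G] [Finite G] {p : ℕ} [Fact p.Prime] (hp : p ≠ 2) (hG : IsPGroup p G) (hmc : Cfsg.IsMetacyclic G) (hna : ¬ IsMulCommutative G) (g : G) :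
    g ∉ frattini G ↔ IsMulCommutative ↥(Subgroup.centralizer ({g} : Set G)) := by
  obtain ⟨D⟩ := CfsgLib.MetacyclicP.exists_gens hG hmc
  have hn : 0 < D.n := by
    by_contra h0
    refine hna ⟨⟨fun x y => ?_⟩⟩
    have h := D.card_commutator
    rw [Nat.eq_zero_of_not_pos h0, pow_zero, Subgroup.card_eq_one, commutator_eq_bot_iff_center_eq_top] at h
    exact (Subgroup.mem_center_iff.mp (h ▸ Subgroup.mem_top y) x)
  rw [D.not_mem_frattini_iff hp hG hn, D.isMulCommutative_iff_card hp hG, D.index_commutator hp]
  set C := Subgroup.centralizer ({g} : Set G)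
  have h1 := C.card_mul_index
  rw [D.card_eq hp] at h1
  have h2 : C.index ≤ p ^ D.n := by
    have : C.index ∣ p ^ D.n := by
      rw [D.index_centralizer_singleton hp]
      apply addOrderOf_dvd_of_nsmul_eq_zero
      apply Prod.ext <;>
        simp only [Prod.smul_fst, Prod.smul_snd, nsmul_eq_mul, ZMod.natCast_self, zero_mul,
          Prod.fst_mul, Prod.snd_mul, Prod.fst_natCast, Prod.snd_natCast,
          Prod.fst_zero, Prod.snd_zero]
    exact Nat.le_of_dvd (pow_pos (Fact.out : p.Prime).pos _) this
  have hq : 0 < p ^ D.n := pow_pos (Fact.out : p.Prime).pos _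
  rw [← mul_assoc] at h1
  constructor
  · intro h
    rw [h] at h1
    exact (Nat.eq_of_mul_eq_mul_right hq h1).le
  · intro h
    refine le_antisymm h2 ?_
    by_contra hlt
    rw [not_le] at hlt
    exact (Nat.mul_lt_mul_of_le_of_lt h hlt (Nat.mul_pos Nat.card_pos hq)).ne h1

end Cfsg.Agent.S3883
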