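import Cfsg.Statements.S3886
import Cfsg.Agent.Eq.Def_BaumannBlocks
import Cfsg.Agent.MetacyclicP.Abelian

set_option autoImplicit false
open Cfsg

namespace Cfsg.Agent.S3886

/-- Let p be an odd prime and G a finite metacyclic p-group (G has a cyclic normal subgroup with cyclic quotient). Then the largest value of |R| · |Z(R)| over subgroups R of G is |G : G'|², and the subgroups attaining it (the centrally large subgroups) are exactly the non-abelian subgroups together with the maximal abelian subgroups of G. -/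
theorem result {G : Type*} [Group G] [Finite G] {p : ℕ} [Fact p.Prime] (hp : p ≠ 2) (hG : IsPGroup p G) (hmc : Cfsg.IsMetacyclic G) : Cfsg.maxCentralProduct G = (commutator G).index ^ 2 ∧
    ∀ R : Subgroup G, Cfsg.IsCentrallyLarge R ↔ (¬ IsMulCommutative ↥R ∨ Maximal (fun K : Subgroup G => IsMulCommutative ↥K) R) := by
  obtain ⟨D⟩ := CfsgLib.MetacyclicP.exists_gens hG hmc
  have hbound := D.card_mul_card_center hp hG
  have hmax : Cfsg.maxCentralProduct G = (commutator G).index ^ 2 := by
    have hset : BddAbove {k : ℕ | ∃ R : Subgroup G,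
        Nat.card ↥R * Nat.card ↥(Subgroup.center ↥R) = k} :=
      ⟨_, fun k ⟨R, hR⟩ => hR ▸ (hbound R).1⟩
    refine le_antisymm (csSup_le' fun k ⟨R, hR⟩ => hR ▸ (hbound R).1)
      (le_csSup hset ⟨⊤, (hbound ⊤).2.mpr ?_⟩)
    by_cases hc : IsMulCommutative ↥(⊤ : Subgroup G)
    · right
      refine (D.maximal_abelian_iff hp hG ⊤).mp ⟨hc, fun B _ _ => le_top⟩
    · exact Or.inl hc
  refine ⟨hmax, fun R => ?_⟩
  rw [D.maximal_abelian_iff hp hG R]
  show _ = _ ↔ _
  rw [hmax]
  exact (hbound R).2

end Cfsg.Agent.S3886
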