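import Cfsg.Statements.S3887
import Cfsg.Agent.Eq.Def_BaumannBlocks
import Cfsg.Agent.MetacyclicP.Abelian

set_option autoImplicit false
open Cfsg

namespace Cfsg.Agent.S3887

/-- Let p be an odd prime and G a finite metacyclic p-group (G has a cyclic normal subgroup with cyclic quotient). Then a subgroup R of G maximizes |R| · |C_G(R)| over all subgroups of G if and only if R contains the center of G. -/
theorem result {G : Type*} [Group G] [Finite G] {p : ℕ} [Fact p.Prime] (hp : p ≠ 2) (hG : IsPGroup p G) (hmc : Cfsg.IsMetacyclic G) (R : Subgroup G) : Cfsg.IsCentralizerLarge R ↔ Subgroup.center G ≤ R := by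
  obtain ⟨D⟩ := CfsgLib.MetacyclicP.exists_gens hG hmc
  have hbound : ∀ R : Subgroup G, Nat.card ↥R * Nat.card ↥(Subgroup.centralizer (R : Set G)) ≤
      Nat.card G * Nat.card ↥(Subgroup.center G) := fun R => by
    rw [← D.card_centralizer_mul hp R]
    exact Nat.mul_le_mul_right _ (Subgroup.card_le_of_le le_sup_left)
  have hmax : Cfsg.maxCentralizerProduct G = Nat.card G * Nat.card ↥(Subgroup.center G) := by
    refine le_antisymm (csSup_le' fun k ⟨R, hR⟩ => hR ▸ hbound R)
      (le_csSup ⟨_, fun k ⟨R, hR⟩ => hR ▸ hbound R⟩ ⟨⊤, ?_⟩)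
    rw [← D.card_centralizer_mul hp (⊤ : Subgroup G), sup_eq_left.mpr le_top]
  show _ = _ ↔ _
  rw [hmax, ← D.card_centralizer_mul hp R]
  constructor
  · intro h
    have h2 := Nat.eq_of_mul_eq_mul_right Nat.card_pos h
    rw [Subgroup.eq_of_le_of_card_ge (le_sup_left : R ≤ R ⊔ Subgroup.center G) h2.ge]
    exact le_sup_right
  · intro h
    rw [sup_eq_left.mpr h]

end Cfsg.Agent.S3887
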