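import Cfsg.Statements.S3897
import Cfsg.Agent.ClassCount.SylowClasses

set_option autoImplicit false
open Cfsg

namespace Cfsg.Agent.S3897

/-- Let p be an odd prime and G a finite group with Sylow p-subgroup P, and write k_p(G) for the number of conjugacy classes of G consisting of p-elements (elements of p-power order, the identity included). Then k_p(G) > (p + 1)|P|/(2p) if and only if G has a normal p-complement and P is abelian. -/
theorem result {G : Type*} [Group G] [Finite G] {p : ℕ} [Fact p.Prime] (hp : p ≠ 2) (P : Sylow p G) :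
    (p + 1) * Nat.card ↥(P : Subgroup G) < 2 * p * Nat.card {c : ConjClasses G // ∀ x ∈ c.carrier, ∃ k : ℕ, orderOf x = p ^ k} ↔
      Cfsg.HasNormalPComplement p G ∧ IsMulCommutative ↥(P : Subgroup G) := by
  have hpr : p.Prime := Fact.out
  rw [← CfsgLib.ClassCount.card_piClasses_singleton hpr]
  refine ⟨CfsgLib.ClassCount.complement_of_many_classes P hp, ?_⟩
  rintro ⟨⟨Q, K, hKn, hK⟩, hC⟩
  have hPQ : Nat.card ↥(P : Subgroup G) = Nat.card ↥(Q : Subgroup G) :=
    P.card_eq_multiplicity.trans Q.card_eq_multiplicity.symm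
  have hcard : Nat.card K * Nat.card ↥(P : Subgroup G) = Nat.card G := by
    rw [hPQ]; exact hK.card_mul
  have hcop : (Nat.card K).Coprime (Nat.card ↥(P : Subgroup G)) := by
    rw [← hK.index_eq_card, hPQ]
    exact (Q.card_coprime_index).symm
  have hKP : Subgroup.IsComplement' K (P : Subgroup G) :=
    Subgroup.isComplement'_of_coprime hcard hcop
  have hinj : Function.Injective (CfsgLib.ClassCount.sylowToClass P) := by
    intro x y hxy
    have h1 : IsConj (x : G) (y : G) :=
      ConjClasses.mk_eq_mk_iff_isConj.mp (congrArg Subtype.val hxy)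
    obtain ⟨g, hg⟩ := isConj_iff.mp h1
    obtain ⟨⟨u, v⟩, huv⟩ := hKP.2 g
    change (u : G) * (v : G) = g at huv
    have hv : (v : G) * (x : G) * (v : G)⁻¹ = (x : G) := by
      have := congrArg Subtype.val (hC.1.comm ⟨v, v.2⟩ x)
      change (v : G) * (x : G) = (x : G) * (v : G) at this
      rw [this]; group
    have hy : (y : G) = (u : G) * (x : G) * (u : G)⁻¹ := by
      rw [← hg, ← huv, ← congrArg (fun z => (u : G) * z * (u : G)⁻¹) hv]
      group
    have hKmem : (y : G) * (x : G)⁻¹ ∈ K := by
      rw [hy]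
      have := mul_mem u.2 (hKn.conj_mem _ (inv_mem u.2) (x : G))
      simpa [mul_assoc] using this
    have hPmem : (y : G) * (x : G)⁻¹ ∈ (P : Subgroup G) := mul_mem y.2 (inv_mem x.2)
    have h0 : (y : G) * (x : G)⁻¹ = 1 := by
      have := hKP.disjoint.le_bot (Subgroup.mem_inf.mpr ⟨hKmem, hPmem⟩)
      simpa using this
    exact Subtype.ext (mul_inv_eq_one.mp h0).symm
  have hle := Nat.card_le_card_of_injective _ hinj
  have hp2 := hpr.two_le
  have hP0 : 0 < Nat.card ↥(P : Subgroup G) := Nat.card_pos
  refine lt_of_lt_of_le ?_ (Nat.mul_le_mul_left (2 * p) hle)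
  exact Nat.mul_lt_mul_of_pos_right (by omega) hP0

end Cfsg.Agent.S3897
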