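import Cfsg.Statements.S3899
import Cfsg.Agent.ClassCount.PiComplement

set_option autoImplicit false
open Cfsg

namespace Cfsg.Agent.S3899

/-- Let π be a finite non-empty set of odd primes with smallest member p and G a finite group. Write k_π(G) for the number of conjugacy classes of G consisting of π-elements (elements all of whose order's prime divisors lie in π) and |G|_π for the π-part of the order of G. If k_π(G) > (p + 1)|G|_π/(2p), then G has a normal π-complement (a normal subgroup of order prime to π whose index is a π-number) and an abelian Hall π-subgroup. -/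
theorem result {G : Type*} [Group G] [Finite G] (π : Finset ℕ) (hπ : ∀ r ∈ π, r.Prime) (h2 : 2 ∉ π) (p : ℕ) (hp : p ∈ π)
    (hmin : ∀ r ∈ π, p ≤ r) (hk : (p + 1) * π.prod (fun r => r ^ (Nat.card G).factorization r) < 2 * p * Nat.card {c : ConjClasses G // ∀ x ∈ c.carrier, ∀ r : ℕ, r.Prime → r ∣ orderOf x → r ∈ π}) :
    (∃ N : Subgroup G, N.Normal ∧ (∀ r : ℕ, r.Prime → r ∣ Nat.card ↥N → r ∉ π) ∧ ∀ r : ℕ, r.Prime → r ∣ N.index → r ∈ π) ∧ ∃ H : Subgroup G, Cfsg.IsPiHall (↑π : Set ℕ) H ∧ IsMulCommutative ↥H := by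
  change _ < 2 * p * Nat.card (CfsgLib.ClassCount.PiClasses (↑π : Set ℕ) G) at hk
  have key : ∀ r ∈ π, ∀ P : Sylow r G,
      Cfsg.HasNormalPComplement r G ∧ IsMulCommutative ↥(P : Subgroup G) := by
    intro r hr P
    haveI := Fact.mk (hπ r hr)
    refine CfsgLib.ClassCount.complement_of_many_classes P (fun e => h2 (e ▸ hr)) ?_
    rw [P.card_eq_multiplicity]
    set X := r ^ (Nat.card G).factorization r with hX
    set K := Nat.card (CfsgLib.ClassCount.PiClasses ({r} : Set ℕ) G)
    set M := (π.erase r).prod (fun q => q ^ (Nat.card G).factorization q)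
    have h1 : (p + 1) * (X * M) < 2 * p * (K * M) := by
      rw [hX, Finset.mul_prod_erase π (fun q => q ^ (Nat.card G).factorization q) hr]
      exact lt_of_lt_of_le hk (Nat.mul_le_mul_left _
        (CfsgLib.ClassCount.card_piClasses_le_mul_part π hπ hr G))
    rw [← mul_assoc, ← mul_assoc] at h1
    have h3 := Nat.lt_of_mul_lt_mul_right h1
    have h4 := hmin r hr
    refine Nat.lt_of_mul_lt_mul_left (a := p) ?_
    calc p * ((r + 1) * X) ≤ r * ((p + 1) * X) := by nlinarith [Nat.mul_le_mul_right X h4]
      _ < r * (2 * p * K) := Nat.mul_lt_mul_of_pos_left h3 (hπ r hr).pos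
      _ = p * (2 * r * K) := by ring
  refine CfsgLib.ClassCount.exists_abelian_hall π hπ (fun r hr => ?_) fun r hr P => (key r hr P).2
  haveI := Fact.mk (hπ r hr)
  exact (key r hr default).1

end Cfsg.Agent.S3899
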