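import Cfsg.Statements.S3910
import Mathlib

set_option autoImplicit false
open Cfsg

namespace Cfsg.Agent.S3910

/-- A finite nilpotent group in which any two abelian subgroups of the same order are conjugate is cyclic. -/
theorem result {G : Type*} [Group G] [Finite G] (hB : ∀ A B : Subgroup G, IsMulCommutative ↥A → IsMulCommutative ↥B → Nat.card ↥A = Nat.card ↥B → ∃ g : G, B = A.map (MulAut.conj g).toMonoidHom) (hnil : Group.IsNilpotent G) : IsCyclic G := by
  haveI := hnil
  have hcomm : ∀ a b : G, (∃ p : ℕ, p.Prime ∧ ∃ k, orderOf a = p ^ k) →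
      (∃ p : ℕ, p.Prime ∧ ∃ k, orderOf b = p ^ k) → Nat.Coprime (orderOf a) (orderOf b) → Commute a b := by
    intro a b ha hb hco
    obtain ⟨p, hp, k, hk⟩ := ha
    obtain ⟨q, hq, l, hl⟩ := hb
    haveI := Fact.mk hp
    haveI := Fact.mk hq
    by_cases h : p = q
    · subst h
      rw [hk, hl] at hco
      rcases Nat.eq_zero_or_pos k with rfl | hk0
      · rw [pow_zero, orderOf_eq_one_iff] at hk; subst hk; exact Commute.one_left b
      rcases Nat.eq_zero_or_pos l with rfl | hl0
      · rw [pow_zero, orderOf_eq_one_iff] at hl; subst hl; exact Commute.one_right a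
      rw [Nat.coprime_pow_left_iff hk0, Nat.coprime_pow_right_iff hl0, Nat.coprime_self] at hco
      exact absurd hco hp.ne_one
    · have hA : IsPGroup p (Subgroup.zpowers a) := IsPGroup.of_card (by rw [Nat.card_zpowers, hk])
      have hB : IsPGroup q (Subgroup.zpowers b) := IsPGroup.of_card (by rw [Nat.card_zpowers, hl])
      obtain ⟨P, hP⟩ := hA.exists_le_sylow
      obtain ⟨Q, hQ⟩ := hB.exists_le_sylow
      haveI hPn : (P : Subgroup G).Normal :=
        P.normal_of_normalizerCondition normalizerCondition_of_isNilpotent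
      haveI hQn : (Q : Subgroup G).Normal :=
        Q.normal_of_normalizerCondition normalizerCondition_of_isNilpotent
      exact Subgroup.commute_of_normal_of_disjoint _ _ hPn hQn
        (IsPGroup.disjoint_of_ne p q h _ _ P.isPGroup' Q.isPGroup') a b
        (hP (Subgroup.mem_zpowers a)) (hQ (Subgroup.mem_zpowers b))
  have hpick : ∀ p : {p : ℕ // p.Prime}, ∃ g : G,
      orderOf g = p.1 ^ (Monoid.exponent G).factorization p.1 := fun p =>
    p.2.exists_orderOf_eq_pow_factorization_exponent G
  choose w hw using hpick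
  let A : Subgroup G := Subgroup.closure (Set.range w)
  have hAc : IsMulCommutative A := by
    refine Subgroup.isMulCommutative_closure ?_
    rintro _ ⟨p, rfl⟩ _ ⟨q, rfl⟩
    by_cases h : p = q
    · subst h; rfl
    exact hcomm _ _ ⟨p.1, p.2, _, hw p⟩ ⟨q.1, q.2, _, hw q⟩
      (by rw [hw, hw]; exact Nat.Coprime.pow _ _ ((Nat.coprime_primes p.2 q.2).2 fun e => h (Subtype.ext e)))
  letI : CommGroup A := { (inferInstance : Group A) with mul_comm := fun a b => hAc.is_comm.comm a b }
  obtain ⟨y, hy⟩ := Monoid.exists_orderOf_eq_exponent (G := A) Monoid.ExponentExists.of_finite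
  have hye : Monoid.exponent G ∣ orderOf (y : G) := by
    rw [Subgroup.orderOf_coe, hy, ← Nat.factorization_le_iff_dvd Monoid.exponent_ne_zero_of_finite
      Monoid.exponent_ne_zero_of_finite]
    intro q
    by_cases hq : q.Prime
    · have h1 : q ^ (Monoid.exponent G).factorization q ∣ Monoid.exponent A := by
        rw [← hw ⟨q, hq⟩, ← Subgroup.orderOf_mk (w ⟨q, hq⟩) (Subgroup.subset_closure (Set.mem_range_self (⟨q, hq⟩ : {p : ℕ // p.Prime})))]
        exact Monoid.order_dvd_exponent _
      exact (hq.pow_dvd_iff_le_factorization Monoid.exponent_ne_zero_of_finite).1 h1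
    · rw [Nat.factorization_eq_zero_of_not_prime _ hq]; exact Nat.zero_le _
  refine isCyclic_iff_exists_zpowers_eq_top.2 ⟨(y : G), ?_⟩
  by_contra hne
  obtain h | ⟨M, hM, hyM⟩ := eq_top_or_exists_le_coatom (Subgroup.zpowers (y : G))
  · exact hne h
  haveI := Subgroup.NormalizerCondition.normal_of_coatom M normalizerCondition_of_isNilpotent hM
  apply hM.1
  rw [eq_top_iff]
  intro g _
  have hd : orderOf g ∣ orderOf (y : G) := (Monoid.order_dvd_exponent g).trans hye
  obtain ⟨j, hj⟩ : ∃ j, orderOf ((y : G) ^ j) = orderOf g := ⟨orderOf (y : G) / orderOf g,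
    orderOf_pow_orderOf_div (orderOf_pos (y : G)).ne' hd⟩
  obtain ⟨c, hc⟩ := hB (Subgroup.zpowers ((y : G) ^ j)) (Subgroup.zpowers g) inferInstance inferInstance
    (by rw [Nat.card_zpowers, Nat.card_zpowers, hj])
  have hg : g ∈ (Subgroup.zpowers ((y : G) ^ j)).map (MulAut.conj c).toMonoidHom :=
    hc ▸ Subgroup.mem_zpowers g
  obtain ⟨z, hz, hzg⟩ := Subgroup.mem_map.1 hg
  rw [← hzg]
  exact Subgroup.Normal.conj_mem inferInstance z
    (Subgroup.zpowers_le.2 (hyM (Subgroup.npow_mem_zpowers (y : G) j)) hz) c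

end Cfsg.Agent.S3910
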