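import Cfsg.Statements.S3911
import Cfsg.Agent.PGroup.UniqueOrderP
-- import your own Cfsg.Agent.* helpers here

set_option autoImplicit false
open Cfsg
open scoped commutatorElement

namespace Cfsg.Agent.S3911

/-- Cyclicity of a `p`-group from the absence of independent commuting elements of order `p`. -/
theorem isCyclic_of_no_pair {P : Type*} [Group P] [Finite P] {p : ℕ} [Fact p.Prime] (hp : p ≠ 2)
    (hP : IsPGroup p P)
    (h : ∀ a b : P, orderOf a = p → orderOf b = p → Commute a b → b ∈ Subgroup.zpowers a) :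
    IsCyclic P := by
  refine CfsgLib.PGroup.isCyclic_of_unique_subgroup hp hP fun x y hx hy => ?_
  haveI : Nontrivial P := ⟨⟨x, 1, fun he => by
    rw [he, orderOf_one] at hx; exact (Fact.out : p.Prime).ne_one hx.symm⟩⟩
  haveI := hP.center_nontrivial
  obtain ⟨c, hc0⟩ := exists_prime_orderOf_dvd_card' (G := Subgroup.center P) p (by
    obtain ⟨j, hj⟩ := (hP.to_subgroup (Subgroup.center P)).exists_card_eq
    rw [hj]
    refine dvd_pow_self p fun h0 => ?_
    have := Finite.one_lt_card (α := Subgroup.center P)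
    rw [hj, h0, pow_zero] at this
    omega)
  have hcen : ∀ w : P, orderOf w = p → Subgroup.zpowers w = Subgroup.zpowers (c : P) := by
    intro w hw
    have h1 := h (c : P) w (by rw [Subgroup.orderOf_coe, hc0]) hw (Subgroup.mem_center_iff.mp c.2 w).symm
    refine Subgroup.eq_of_le_of_card_ge (Subgroup.zpowers_le.mpr h1) ?_
    rw [Nat.card_zpowers, Nat.card_zpowers, Subgroup.orderOf_coe, hc0, hw]
  rw [hcen x hx, ← hcen y hy]
  exact Subgroup.mem_zpowers y

variable {G : Type*} [Group G] [Finite G]

/-- A prime dividing the order and the index of a normal subgroup has cyclic Sylow subgroups. -/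
theorem cyclic_sylow (hB : ∀ A B : Subgroup G, IsMulCommutative ↥A → IsMulCommutative ↥B →
      Nat.card ↥A = Nat.card ↥B → ∃ g : G, B = A.map (MulAut.conj g).toMonoidHom)
    (M : Subgroup G) [M.Normal] {p : ℕ} [Fact p.Prime] (hp : p ≠ 2) (hpM : p ∣ Nat.card M)
    (hpi : p ∣ M.index) (P : Sylow p G) : IsCyclic P := by
  refine isCyclic_of_no_pair hp P.isPGroup' fun a b ha hb hab => ?_
  by_contra hba
  obtain ⟨m, hm⟩ := exists_prime_orderOf_dvd_card' (G := M) p hpM
  have hord : ∀ y : G, orderOf y = p → y ∈ M := by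
    intro y hy
    obtain ⟨g, hg⟩ := hB (Subgroup.zpowers (m : G)) (Subgroup.zpowers y) inferInstance inferInstance
      (by rw [Nat.card_zpowers, Nat.card_zpowers, Subgroup.orderOf_coe, hm, hy])
    have h1 : y ∈ (Subgroup.zpowers (m : G)).map (MulAut.conj g).toMonoidHom := hg ▸ Subgroup.mem_zpowers y
    obtain ⟨u, hu, rfl⟩ := h1
    exact Subgroup.Normal.conj_mem inferInstance u (Subgroup.zpowers_le.mpr m.2 hu) g
  set φ := MonoidHom.noncommCoprod (Subgroup.zpowers (a : G)).subtype (Subgroup.zpowers (b : G)).subtype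
    (fun x y => by
      obtain ⟨i, hi⟩ := x.2
      obtain ⟨j, hj⟩ := y.2
      show Commute (x : G) (y : G)
      rw [← hi, ← hj]
      exact (show Commute (a : G) b from congrArg (fun q : (P : Subgroup G) => (q : G)) hab.eq).zpow_zpow i j) with hφ
  have hinj : Function.Injective φ := by
    rw [injective_iff_map_eq_one]
    rintro ⟨⟨x, i, rfl⟩, ⟨y, j, rfl⟩⟩ hxy
    have hxy' : (a : G) ^ i * (b : G) ^ j = 1 := hxy
    by_cases hj : (b : G) ^ j = 1
    · rw [hj, mul_one] at hxy'
      exact Prod.ext (Subtype.ext hxy') (Subtype.ext hj)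
    · exfalso
      have hbj : orderOf ((b : G) ^ j) = p := by
        refine orderOf_eq_prime ?_ hj
        rw [← zpow_natCast, ← zpow_mul, mul_comm, zpow_mul, zpow_natCast,
          orderOf_dvd_iff_pow_eq_one.mp (dvd_of_eq (by rw [Subgroup.orderOf_coe, hb])), one_zpow]
      have h1 : Subgroup.zpowers ((b : G) ^ j) = Subgroup.zpowers (b : G) := by
        refine Subgroup.eq_of_le_of_card_ge (Subgroup.zpowers_le.mpr ⟨j, rfl⟩) ?_
        rw [Nat.card_zpowers, Nat.card_zpowers, hbj, Subgroup.orderOf_coe, hb]
      have h2 : (b : G) ∈ Subgroup.zpowers (a : G) := by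
        have h3 : Subgroup.zpowers ((b : G) ^ j) ≤ Subgroup.zpowers (a : G) :=
          Subgroup.zpowers_le.mpr (by
            rw [eq_inv_of_mul_eq_one_right hxy']; exact inv_mem ⟨i, rfl⟩)
        exact h3 (h1 ▸ Subgroup.mem_zpowers _)
      obtain ⟨k, hk⟩ := h2
      exact hba ⟨k, Subtype.ext (by simpa using hk)⟩
  have hcardE : Nat.card φ.range = p ^ 2 := by
    rw [← Nat.card_congr (MonoidHom.ofInjective hinj).toEquiv, Nat.card_prod, Nat.card_zpowers,
      Nat.card_zpowers, Subgroup.orderOf_coe, Subgroup.orderOf_coe, ha, hb, pow_two]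
  have hEab : IsMulCommutative φ.range := ⟨⟨by
    rintro ⟨_, x, rfl⟩ ⟨_, y, rfl⟩
    exact Subtype.ext (by show φ x * φ y = φ y * φ x; rw [← map_mul, ← map_mul, mul_comm' x y])⟩⟩
  -- every `p`-element lies in `M`
  have hexp : ∀ y : G, orderOf y ≠ p ^ 2 := by
    intro y hy
    obtain ⟨g, hg⟩ := hB φ.range (Subgroup.zpowers y) hEab inferInstance
      (by rw [hcardE, Nat.card_zpowers, hy])
    have h1 : y ∈ φ.range.map (MulAut.conj g).toMonoidHom := hg ▸ Subgroup.mem_zpowers y
    obtain ⟨u, ⟨x, rfl⟩, rfl⟩ := h1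
    rw [orderOf_injective _ (MulEquiv.injective _), orderOf_injective φ hinj, Prod.orderOf] at hy
    have hx1 : orderOf x.1 ∣ p := (orderOf_dvd_natCard x.1).trans
      (dvd_of_eq (by rw [Nat.card_zpowers, Subgroup.orderOf_coe, ha]))
    have hx2 : orderOf x.2 ∣ p := (orderOf_dvd_natCard x.2).trans
      (dvd_of_eq (by rw [Nat.card_zpowers, Subgroup.orderOf_coe, hb]))
    have h2 := Nat.le_of_dvd (Fact.out : p.Prime).pos (hy ▸ Nat.lcm_dvd hx1 hx2)
    nlinarith [(Fact.out : p.Prime).two_le]
  obtain ⟨Q, hQ⟩ : ∃ Q : Sylow p G, (Q : Subgroup G) ≤ M := by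
    refine ⟨P, fun y hy => ?_⟩
    obtain ⟨k, hk⟩ := IsPGroup.iff_orderOf.mp P.isPGroup' ⟨y, hy⟩
    rw [← Subgroup.orderOf_coe] at hk
    match k with
    | 0 => rw [pow_zero, orderOf_eq_one_iff] at hk; show y ∈ M; rw [show y = 1 from hk]; exact one_mem M
    | 1 => exact hord y (by rw [← pow_one p]; exact hk)
    | k + 2 =>
      refine absurd ?_ (hexp (y ^ p ^ k))
      rw [orderOf_pow' y (pow_ne_zero _ (Fact.out : p.Prime).ne_zero), show orderOf y = p ^ (k + 2) from hk,
        Nat.gcd_eq_right (pow_dvd_pow p (by omega)), pow_add, Nat.mul_div_cancel_left _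
        (pow_pos (Fact.out : p.Prime).pos _)]
  exact Q.not_dvd_index (dvd_trans hpi (Subgroup.index_dvd_of_le hQ))

/-- An abelian lift of an abelian subgroup of `G ⧸ M` whose order depends only on that of the subgroup. -/
theorem exists_lift (hB : ∀ A B : Subgroup G, IsMulCommutative ↥A → IsMulCommutative ↥B →
      Nat.card ↥A = Nat.card ↥B → ∃ g : G, B = A.map (MulAut.conj g).toMonoidHom)
    (M : Subgroup G) [M.Normal] (hM : Odd (Nat.card M)) (A : Subgroup (G ⧸ M)) (hA : IsMulCommutative A) :
    ∃ U : Subgroup G, IsMulCommutative U ∧ U.map (QuotientGroup.mk' M) = A ∧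
      ∀ p : ℕ, p.Prime → (Nat.card U).factorization p =
        (Nat.card A).factorization p +
          if p ∣ Nat.card A then (Nat.card M).factorization p else 0 := by
  set π := QuotientGroup.mk' M
  obtain ⟨U, hU, hmin⟩ := (Set.toFinite {U : Subgroup G | U.map π = A}).exists_minimal
    ⟨A.comap π, Subgroup.map_comap_eq_self_of_surjective (QuotientGroup.mk'_surjective M) A⟩
  set L := M.subgroupOf U with hL
  -- `L` lies in the Frattini subgroup
  have hfrat : L ≤ frattini U := by
    show L ≤ Order.radical (Subgroup U)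
    refine le_iInf₂ fun K hK => ?_
    by_contra hle
    have hsup : K ⊔ L = ⊤ := hK.2 _ (left_lt_sup.mpr hle)
    have h1 : (K.map U.subtype).map π = A := by
      refine le_antisymm ((Subgroup.map_mono (Subgroup.map_subtype_le K)).trans hU.le) ?_
      have h2 := congrArg (fun S => (Subgroup.map U.subtype S).map π) hsup
      simp only [Subgroup.map_sup, ← MonoidHom.range_eq_map, Subgroup.range_subtype] at h2
      rw [hU] at h2
      refine h2.ge.trans (sup_le le_rfl ?_)
      rintro _ ⟨_, ⟨y, hy, rfl⟩, rfl⟩
      rw [show π (U.subtype y) = 1 from (QuotientGroup.eq_one_iff _).mpr hy]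
      exact one_mem _
    have h3 := hmin h1 (Subgroup.map_subtype_le K)
    refine hK.1 (eq_top_iff.mpr fun m _ => ?_)
    obtain ⟨k, hk, e⟩ := h3 m.2
    rwa [← Subtype.ext e]
  have hcomm : commutator U ≤ L := by
    rw [commutator_def, Subgroup.commutator_le]
    intro x _ y _
    show ((⁅x, y⁆ : U) : G) ∈ M
    rw [← QuotientGroup.ker_mk' M, MonoidHom.mem_ker, ← U.coe_subtype, map_commutatorElement,
      map_commutatorElement, commutatorElement_eq_one_iff_mul_comm]
    have hx : π x ∈ A := hU ▸ Subgroup.mem_map_of_mem π x.2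
    have hy : π y ∈ A := hU ▸ Subgroup.mem_map_of_mem π y.2
    exact congrArg Subtype.val (mul_comm' (⟨π x, hx⟩ : A) ⟨π y, hy⟩)
  haveI hnil : Group.IsNilpotent U := by
    refine (Group.isNilpotent_of_finite_tfae.out 0 3).mpr fun p hp P => ?_
    haveI := hp
    haveI hn : ((P : Subgroup U) ⊔ frattini U).Normal :=
      ⟨fun x hx g => by
        rw [show g * x * g⁻¹ = ⁅g, x⁆ * x by rw [commutatorElement_def, inv_mul_cancel_right]]
        exact mul_mem (((hcomm.trans hfrat).trans le_sup_right)
          (Subgroup.commutator_mem_commutator trivial trivial)) hx⟩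
    -- Frattini argument
    obtain ⟨P', hP'⟩ : ∃ P' : Sylow p U, (P' : Subgroup U) = P := ⟨P, rfl⟩
    have h1 := Sylow.normalizer_sup_eq_top' (N := (P : Subgroup U) ⊔ frattini U) P le_sup_left
    have h2 : Subgroup.normalizer ((P : Subgroup U) : Set U) ⊔ frattini U = ⊤ := by
      rw [← h1]
      refine le_antisymm (sup_le_sup_left le_sup_right _) (sup_le le_sup_left (sup_le ?_ le_sup_right))
      exact le_trans Subgroup.le_normalizer le_sup_left
    exact Subgroup.normalizer_eq_top_iff.mp (frattini_nongenerating h2)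
  -- the prime divisors
  have hdvd : ∀ p : ℕ, p.Prime → p ∣ Nat.card U → p ∣ Nat.card A := by
    intro p hp hpU
    haveI : Fact p.Prime := ⟨hp⟩
    by_contra hpA
    obtain ⟨P⟩ : Nonempty (Sylow p U) := inferInstance
    haveI : (P : Subgroup U).Normal := inferInstance
    have hPL : (P : Subgroup U) ≤ L := by
      intro y hy
      show (y : G) ∈ M
      rw [← QuotientGroup.ker_mk' M, MonoidHom.mem_ker]
      obtain ⟨k, hk⟩ := P.isPGroup' ⟨y, hy⟩
      have hk' : (y : G) ^ p ^ k = 1 := by
        have := congrArg (fun q : (P : Subgroup U) => (((q : U)) : G)) hk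
        simpa using this
      have hy' : π y ∈ A := hU ▸ Subgroup.mem_map_of_mem π y.2
      have h1 : (⟨π y, hy'⟩ : A) ^ p ^ k = 1 := Subtype.ext (by simp [← map_pow, hk'])
      have h2 := Nat.dvd_gcd (orderOf_dvd_of_pow_eq_one h1) (orderOf_dvd_natCard (⟨π y, hy'⟩ : A))
      rw [Nat.Coprime.gcd_eq_one ((hp.coprime_iff_not_dvd.mpr hpA).pow_left k), Nat.dvd_one,
        orderOf_eq_one_iff] at h2
      exact congrArg Subtype.val h2
    have hne : (P : Subgroup U) ≠ ⊤ → False := fun _ => by
      -- a complement of `P` would be a supplement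
      obtain ⟨K, hK⟩ := Subgroup.exists_right_complement'_of_coprime (N := (P : Subgroup U)) P.card_coprime_index
      have h3 : K ⊔ frattini U = ⊤ := eq_top_iff.mpr (hK.symm.sup_eq_top.ge.trans
        (sup_le le_sup_left (le_trans (hPL.trans hfrat) le_sup_right)))
      have h4 := frattini_nongenerating h3
      rw [h4] at hK
      have h5 : (P : Subgroup U) = ⊥ := by
        have := hK.disjoint
        rwa [disjoint_top] at this
      exact P.ne_bot_of_dvd_card hpU h5
    refine hne fun htop => ?_
    have h3 : frattini U = ⊤ := eq_top_iff.mpr (htop.ge.trans (hPL.trans hfrat))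
    have h4 : (⊥ : Subgroup U) = ⊤ := frattini_nongenerating (by rw [bot_sup_eq, h3])
    exact P.ne_bot_of_dvd_card hpU (eq_bot_iff.mpr (h4 ▸ le_top))
  have hcardU : Nat.card U = Nat.card A * Nat.card L := by
    rw [← L.card_mul_index, mul_comm]
    congr 1
    show M.relIndex U = _
    have h := Subgroup.relIndex_ker (K := U) (f := π)
    rw [QuotientGroup.ker_mk', hU] at h
    exact h
  have hLM : Nat.card L ∣ Nat.card M :=
    Subgroup.card_comap_dvd_of_injective M U.subtype U.subtype_injective
  have hLp : ∀ p : ℕ, p.Prime → p ∣ Nat.card L → p ≠ 2 ∧ p ∣ Nat.card M ∧ p ∣ M.index := by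
    intro p hp hd
    refine ⟨fun h => hM.not_two_dvd_nat (h ▸ hd.trans hLM), hd.trans hLM, ?_⟩
    refine (hdvd p hp (hd.trans ⟨_, hcardU.trans (mul_comm _ _)⟩)).trans ?_
    rw [Subgroup.index_eq_card]
    exact Subgroup.card_subgroup_dvd_card A
  refine ⟨U, ?_, hU, ?_⟩
  · have hPc : ∀ (p : ℕ) [Fact p.Prime] (P : Sylow p U), IsMulCommutative P := by
      intro p hp P
      by_cases hpL : p ∣ Nat.card L
      · obtain ⟨h2, hM', hi⟩ := hLp p hp.out hpL
        obtain ⟨Q, hQ⟩ := (P.isPGroup'.map U.subtype).exists_le_sylow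
        haveI := cyclic_sylow hB M h2 hM' hi Q
        refine ⟨⟨fun a b => Subtype.ext (Subtype.ext ?_)⟩⟩
        show ((a : U) : G) * ((b : U) : G) = ((b : U) : G) * ((a : U) : G)
        exact congrArg Subtype.val (mul_comm' (⟨_, hQ (Subgroup.mem_map_of_mem U.subtype a.2)⟩ : (Q : Subgroup G))
          ⟨_, hQ (Subgroup.mem_map_of_mem U.subtype b.2)⟩)
      · refine ⟨⟨fun a b => ?_⟩⟩
        rw [← commutatorElement_eq_one_iff_mul_comm]
        have h1 : ((⁅a, b⁆ : P) : U) ∈ L := hcomm (by
          show (P : Subgroup U).subtype ⁅a, b⁆ ∈ _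
          rw [commutator_def, map_commutatorElement]
          exact Subgroup.commutator_mem_commutator trivial trivial)
        refine Subtype.ext (orderOf_eq_one_iff.mp ?_)
        obtain ⟨k, hk⟩ := IsPGroup.iff_orderOf.mp P.isPGroup' ⁅a, b⁆
        rw [Subgroup.orderOf_coe]
        have h2 : orderOf ((⟨_, h1⟩ : L)) = p ^ k := by
          rw [← Subgroup.orderOf_coe, Subgroup.orderOf_coe ⁅a, b⁆, hk]
        rw [hk]
        rcases Nat.eq_zero_or_pos k with h0 | h0
        · rw [h0, pow_zero]
        · exact absurd ((dvd_pow_self p h0.ne').trans (h2 ▸ orderOf_dvd_natCard _)) hpL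
    refine ⟨⟨fun a b => ?_⟩⟩
    let e := Sylow.directProductOfNormal (G := U) (fun {p} _ P => inferInstance)
    obtain ⟨x, rfl⟩ := e.surjective a
    obtain ⟨y, rfl⟩ := e.surjective b
    rw [← map_mul, ← map_mul]
    congr 1
    funext p P
    haveI : Fact (p : ℕ).Prime := ⟨Nat.prime_of_mem_primeFactors p.2⟩
    haveI := hPc p P
    exact mul_comm' _ _
  · intro p hp
    haveI : Fact p.Prime := ⟨hp⟩
    rw [hcardU, Nat.factorization_mul Nat.card_pos.ne' Nat.card_pos.ne', Finsupp.add_apply]
    congr 1
    split_ifs with hpA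
    · refine le_antisymm (Finsupp.le_def.mp ((Nat.factorization_le_iff_dvd Nat.card_pos.ne'
        Nat.card_pos.ne').mpr hLM) p) ?_
      by_cases hpM : p ∣ Nat.card M
      · have h2 : p ≠ 2 := fun h => hM.not_two_dvd_nat (h ▸ hpM)
        have hi : p ∣ M.index := by
          rw [Subgroup.index_eq_card]; exact hpA.trans (Subgroup.card_subgroup_dvd_card A)
        obtain ⟨P⟩ : Nonempty (Sylow p U) := inferInstance
        obtain ⟨Q, hQ⟩ := (P.isPGroup'.map U.subtype).exists_le_sylow
        haveI := cyclic_sylow hB M h2 hpM hi Q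
        obtain ⟨y, hyP, hyM⟩ : ∃ y : U, y ∈ (P : Subgroup U) ∧ (y : G) ∉ M := by
          by_contra! hall
          have hle : (P : Subgroup U) ≤ L := hall
          have h1 := (Subgroup.card_dvd_of_le hle)
          rw [P.card_eq_multiplicity, hcardU, Nat.factorization_mul Nat.card_pos.ne' Nat.card_pos.ne',
            Finsupp.add_apply, hp.pow_dvd_iff_le_factorization Nat.card_pos.ne'] at h1
          have := hp.factorization_pos_of_dvd Nat.card_pos.ne' hpA
          omega
        have hy : (y : G) ∈ (Q : Subgroup G) := hQ (Subgroup.mem_map_of_mem U.subtype hyP)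
        set QM := M.subgroupOf (Q : Subgroup G)
        set Y := Subgroup.zpowers (⟨(y : G), hy⟩ : (Q : Subgroup G))
        have hle : QM ≤ Y := by
          classical
          haveI : Fintype (Q : Subgroup G) := Fintype.ofFinite _
          obtain ⟨i, hi'⟩ := IsPGroup.iff_card.mp (Q.isPGroup'.to_subgroup QM)
          obtain ⟨j, hj⟩ := IsPGroup.iff_card.mp (Q.isPGroup'.to_subgroup Y)
          have hcyc : ∀ (A B : Subgroup (Q : Subgroup G)), Nat.card A ∣ Nat.card B → A ≤ B := by
            intro A B hd x hx
            have hsub : (Finset.univ.filter fun z => z ∈ B) =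
                Finset.univ.filter fun z : (Q : Subgroup G) => z ^ Nat.card B = 1 := by
              refine Finset.eq_of_subset_of_card_le ?_ ?_
              · intro z hz
                rw [Finset.mem_filter] at hz ⊢
                refine ⟨Finset.mem_univ _, ?_⟩
                exact congrArg Subtype.val (pow_card_eq_one' (x := (⟨z, hz.2⟩ : B)))
              · refine le_trans (IsCyclic.card_pow_eq_one_le (Nat.card_pos (α := B))) ?_
                rw [← Fintype.card_subtype, ← Nat.card_eq_fintype_card]
            have h1 : x ∈ Finset.univ.filter fun z : (Q : Subgroup G) => z ^ Nat.card B = 1 := by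
              rw [Finset.mem_filter]
              refine ⟨Finset.mem_univ _, orderOf_dvd_iff_pow_eq_one.mp ?_⟩
              exact ((Subgroup.orderOf_coe (⟨x, hx⟩ : A)).symm ▸ orderOf_dvd_natCard _).trans hd
            rw [← hsub, Finset.mem_filter] at h1
            exact h1.2
          rcases le_total i j with h | h
          · exact hcyc _ _ (by rw [hi', hj]; exact pow_dvd_pow p h)
          · exact absurd (hcyc Y QM (by rw [hi', hj]; exact pow_dvd_pow p h)
              (Subgroup.mem_zpowers _)) hyM
        obtain ⟨k, hk⟩ := IsPGroup.iff_card.mp (Q.isPGroup'.to_subgroup QM)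
        have h1 : p ^ k ∣ Nat.card L := by
          rw [← hk]
          have hmap : QM.map (Q : Subgroup G).subtype ≤ L.map U.subtype := by
            rintro _ ⟨z, hz, rfl⟩
            obtain ⟨n, hn⟩ := hle hz
            refine ⟨y ^ n, ?_, ?_⟩
            · show ((y ^ n : U) : G) ∈ M
              have h3 : (z : G) ∈ M := hz
              rw [← hn] at h3
              simpa using h3
            · rw [← hn]; simp
          have h2 := Subgroup.card_dvd_of_le hmap
          rwa [Subgroup.card_map_of_injective (Subgroup.subtype_injective _),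
            Subgroup.card_map_of_injective (Subgroup.subtype_injective _)] at h2
        have h3 : QM.index ∣ M.index := Subgroup.relIndex_dvd_index_of_normal M _
        have h4 := QM.card_mul_index
        rw [Q.card_eq_multiplicity, hk] at h4
        have h5 := congrArg (fun n => n.factorization p) h4
        simp only [Nat.factorization_mul (pow_ne_zero _ hp.ne_zero) (Subgroup.index_ne_zero_of_finite),
          Finsupp.add_apply, Nat.Prime.factorization_pow hp, Finsupp.single_eq_same] at h5
        have h6 := Finsupp.le_def.mp ((Nat.factorization_le_iff_dvd Subgroup.index_ne_zero_of_finite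
          Subgroup.index_ne_zero_of_finite).mpr h3) p
        have h7 : (Nat.card G).factorization p = (Nat.card M).factorization p + M.index.factorization p := by
          rw [← M.card_mul_index, Nat.factorization_mul Nat.card_pos.ne' Subgroup.index_ne_zero_of_finite,
            Finsupp.add_apply]
        have h8 := (hp.pow_dvd_iff_le_factorization Nat.card_pos.ne').mp h1
        omega
      · rw [Nat.factorization_eq_zero_of_not_dvd hpM]; exact Nat.zero_le _
    · refine Nat.factorization_eq_zero_of_not_dvd fun hd => hpA (hdvd p hp ?_)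
      exact hd.trans ⟨_, hcardU.trans (mul_comm _ _)⟩


/-- Let G be a finite group in which any two abelian subgroups of the same order are conjugate. If M is a normal subgroup of G of odd order, then any two abelian subgroups of G/M of the same order are conjugate in G/M. -/
theorem result {G : Type*} [Group G] [Finite G] (hB : ∀ A B : Subgroup G, IsMulCommutative ↥A → IsMulCommutative ↥B → Nat.card ↥A = Nat.card ↥B → ∃ g : G, B = A.map (MulAut.conj g).toMonoidHom) (M : Subgroup G) [M.Normal] (hM : Odd (Nat.card ↥M)) :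
    ∀ A B : Subgroup (G ⧸ M), IsMulCommutative ↥A → IsMulCommutative ↥B → Nat.card ↥A = Nat.card ↥B →
      ∃ g : G ⧸ M, B = A.map (MulAut.conj g).toMonoidHom := by
  intro A B hA hB' hAB
  obtain ⟨U, hU, hUA, hUc⟩ := exists_lift hB M hM A hA
  obtain ⟨V, hV, hVB, hVc⟩ := exists_lift hB M hM B hB'
  obtain ⟨g, hg⟩ := hB U V hU hV (Nat.eq_of_factorization_eq Nat.card_pos.ne' Nat.card_pos.ne' fun p => by
    by_cases hp : p.Prime
    · rw [hUc p hp, hVc p hp, hAB]
    · rw [Nat.factorization_eq_zero_of_not_prime _ hp, Nat.factorization_eq_zero_of_not_prime _ hp])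
  refine ⟨QuotientGroup.mk' M g, ?_⟩
  rw [← hUA, ← hVB, hg, Subgroup.map_map, Subgroup.map_map]
  refine congrArg (fun f => Subgroup.map f U) (MonoidHom.ext fun x => ?_)
  simp

end Cfsg.Agent.S3911
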