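import Cfsg.Statements.S3913
import Cfsg.Agent.AbConjSolvable.Main

set_option autoImplicit false
set_option linter.style.haveILetI false
open Cfsg

namespace Cfsg.Agent.S3913

open CfsgLib.AbConjSolvable CfsgLib.Solvable CfsgLib.Constrained
open scoped Pointwise

universe u

theorem hard_eq {G : Type u} [Group G] [Finite G] (hB : Cfsg.Agent.S3912.AbConj G)
    (hsol : Group.IsSolvable G) (A B : Subgroup G) (hAB : Nat.card A = Nat.card B) (hmin : MinHyp A)
    (hU : A ⊓ fittingSubgroup G = B ⊓ fittingSubgroup G) : ∃ g : G, MulAut.conj g • A = B := by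
  haveI := hsol
  set F := fittingSubgroup G with hF
  have hFc := fitting_coprime hB hsol hmin
  have hFab := fitting_comm hB hsol hmin
  obtain ⟨R, hFR⟩ := Subgroup.exists_right_complement'_of_coprime hFc
  have hRH : RankHyp R := rankHyp_complement hB hsol hmin hFR
  have hidx : F.index = Nat.card R := hFR.symm.index_eq_card
  set U := A ⊓ F with hUdef
  set K := Subgroup.normalizer (U : Set G) with hK
  have hFK : F ≤ K := by
    refine le_trans ?_ (Subgroup.centralizer_le_normalizer (U : Set G))
    exact hFab.trans (Subgroup.centralizer_le fun x hx => hx.2)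
  have hCK : ∀ C : Subgroup G, C ⊓ F = U → C ≤ K := by
    intro C hC
    refine le_normalizer_of_forall_conj_mem fun x hx y hy => ?_
    rw [← hC] at hy ⊢
    exact ⟨Subgroup.mul_mem _ (Subgroup.mul_mem _ hx hy.1) (Subgroup.inv_mem _ hx),
      Subgroup.Normal.conj_mem inferInstance y hy.2 x⟩
  have hAK : A ≤ K := hCK A rfl
  have hBK : B ≤ K := hCK B hU.symm
  -- the Sylow subgroups of `K` for primes outside `F`
  have hcycK : ∀ q : ℕ, q.Prime → q ∣ F.index → ∀ P : Sylow q ↥K, IsCyclic (P : Subgroup ↥K) := by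
    intro q hq hqi P
    haveI := Fact.mk hq
    set X := (P : Subgroup ↥K).map K.subtype with hX
    suffices hc : IsCyclic X by
      haveI := hc
      exact isCyclic_of_surjective
        ((P : Subgroup ↥K).equivMapOfInjective K.subtype K.subtype_injective).symm.toMonoidHom
        ((P : Subgroup ↥K).equivMapOfInjective K.subtype K.subtype_injective).symm.surjective
    have hXK : X ≤ K := Subgroup.map_subtype_le _
    obtain ⟨S, hS⟩ := (P.isPGroup'.map K.subtype).exists_le_sylow
    obtain ⟨PR⟩ : Nonempty (Sylow q R) := inferInstance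
    obtain ⟨T, hT⟩ := (PR.isPGroup'.map R.subtype).exists_le_sylow
    have hTR : (T : Subgroup G) = (PR : Subgroup R).map R.subtype := by
      refine (Subgroup.eq_of_le_of_card_ge hT ?_).symm
      rw [Subgroup.card_subtype, T.card_eq_multiplicity, PR.card_eq_multiplicity]
      have h1 : Nat.card G = Nat.card F * Nat.card R := by rw [← hidx, F.card_mul_index]
      rw [h1, Nat.factorization_mul Nat.card_pos.ne' Nat.card_pos.ne', Finsupp.add_apply,
        Nat.factorization_eq_zero_of_not_dvd (n := Nat.card F) fun hd =>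
          hq.ne_one (Nat.eq_one_of_dvd_coprimes hFc hd hqi), zero_add]
    obtain ⟨g, hg⟩ := MulAction.exists_smul_eq G S T
    have hgX : X.map (MulAut.conj g).toMonoidHom ≤ (PR : Subgroup R).map R.subtype := by
      rw [← hTR, ← hg, ← conj_smul_eq_map]
      exact Subgroup.pointwise_smul_le_pointwise_smul_iff.2 hS
    set Y := X.map (MulAut.conj g).toMonoidHom with hY
    suffices hc : IsCyclic Y by
      haveI := hc
      exact isCyclic_of_surjective
        (X.equivMapOfInjective (MulAut.conj g).toMonoidHom (MulAut.conj g).injective).symm.toMonoidHom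
        (X.equivMapOfInjective (MulAut.conj g).toMonoidHom (MulAut.conj g).injective).symm.surjective
    have hdone : IsCyclic ((PR : Subgroup R).map R.subtype : Subgroup G) → IsCyclic Y := fun h => by
      haveI := h
      exact isCyclic_of_injective (Subgroup.inclusion hgX) (Subgroup.inclusion_injective hgX)
    have hmapc : IsCyclic (PR : Subgroup R) → IsCyclic ((PR : Subgroup R).map R.subtype : Subgroup G) :=
      fun h => by
        haveI := h
        exact isCyclic_of_surjective
          ((PR : Subgroup R).equivMapOfInjective R.subtype R.subtype_injective).toMonoidHom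
          ((PR : Subgroup R).equivMapOfInjective R.subtype R.subtype_injective).surjective
    rcases eq_or_ne q 2 with rfl | hq2
    swap
    · exact hdone (hmapc (hRH.sylow_odd hq2 PR))
    rcases hRH.sylow_two PR with h | ⟨⟨h8, hamo, hnc⟩, hPO⟩
    · exact hdone (hmapc h)
    set Q := (PR : Subgroup R).map R.subtype with hQ
    have hQn : ∀ r ∈ R, ∀ x ∈ Q, r * x * r⁻¹ ∈ Q := by
      rintro r hr _ ⟨x, hx, rfl⟩
      refine ⟨⟨r, hr⟩ * x * ⟨r, hr⟩⁻¹, ?_, rfl⟩
      rw [hPO] at hx ⊢
      exact Subgroup.Normal.conj_mem inferInstance x hx _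
    have hamoQ : CfsgLib.TwoGroup.AtMostOneInvolution Q := by
      rintro ⟨_, a, ha, rfl⟩ ⟨_, b, hb, rfl⟩ hao hbo
      replace hao : orderOf (a : G) = 2 :=
        (orderOf_injective Q.subtype Q.subtype_injective ⟨R.subtype a, a, ha, rfl⟩).trans hao
      replace hbo : orderOf (b : G) = 2 :=
        (orderOf_injective Q.subtype Q.subtype_injective ⟨R.subtype b, b, hb, rfl⟩).trans hbo
      have ha' : a ∈ Cfsg.pCore 2 R := hPO ▸ ha
      have hb' : b ∈ Cfsg.pCore 2 R := hPO ▸ hb
      have hab := hamo ⟨a, ha'⟩ ⟨b, hb'⟩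
        (by rw [Subgroup.orderOf_mk, ← Subgroup.orderOf_coe, hao])
        (by rw [Subgroup.orderOf_mk, ← Subgroup.orderOf_coe, hbo])
      exact Subtype.ext (congrArg (fun z : ↥(Cfsg.pCore 2 R) => ((z : R) : G)) hab)
    have hQcard : Nat.card Q = 8 := by rw [hQ, Subgroup.card_subtype, hPO, h8]
    by_cases heq : Y = Q
    · -- then the quaternion core normalises `U`, and would be abelian
      exfalso
      obtain ⟨r, hr, f, hf, hgf, -⟩ := proj hFR g
      have hQK : Q ≤ K := by
        intro x hx
        have hx' : r * x * r⁻¹ ∈ Y := by rw [heq]; exact hQn r hr x hx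
        obtain ⟨w, hw, hwx⟩ := hx'
        have hx2 : x = f * w * f⁻¹ := by
          have h1 : r * x * r⁻¹ = g * w * g⁻¹ := hwx.symm
          rw [hgf] at h1
          calc x = r⁻¹ * (r * x * r⁻¹) * r := by group
            _ = r⁻¹ * (r * f * w * (r * f)⁻¹) * r := by rw [h1]
            _ = f * w * f⁻¹ := by group
        rw [hx2]
        exact mul_mem (mul_mem (hFK hf) (hXK hw)) (inv_mem (hFK hf))
      have hQR : Q ≤ R := Subgroup.map_subtype_le _
      have hcomm := fun x (hx : x ∈ Q) y (hy : y ∈ Q) =>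
        not_normalizes hB hsol hmin hFR hQR hQn (fun x hx u hu =>
          (Subgroup.mem_normalizer_iff.1 (hQK hx) u).1 hu) hx hy
      apply hnc
      refine CfsgLib.TwoGroup.isCyclic_of_comm_atMostOneInvolution isPGroup_pCore
        (fun a b => Subtype.ext (Subtype.ext ?_)) hamo
      exact hcomm _ ⟨a, by rw [SetLike.mem_coe, hPO]; exact a.2, rfl⟩ _ ⟨b, by rw [SetLike.mem_coe, hPO]; exact b.2, rfl⟩
    · have hYlt : Nat.card Y < 8 := by
        rw [← hQcard]
        exact lt_of_le_of_ne (Nat.le_of_dvd Nat.card_pos (Subgroup.card_dvd_of_le hgX))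
          fun h => heq (Subgroup.eq_of_le_of_card_ge hgX h.ge)
      have hYp : IsPGroup 2 Y := (P.isPGroup'.map K.subtype).map _
      have hYamo : CfsgLib.TwoGroup.AtMostOneInvolution Y := fun a b hao hbo => by
        have h1 := hamoQ ⟨a, hgX a.2⟩ ⟨b, hgX b.2⟩
          (by rw [Subgroup.orderOf_mk, Subgroup.orderOf_coe]; exact hao)
          (by rw [Subgroup.orderOf_mk, Subgroup.orderOf_coe]; exact hbo)
        exact Subtype.ext (congrArg (fun z : Q => (z : G)) h1)
      refine CfsgLib.TwoGroup.isCyclic_of_comm_atMostOneInvolution hYp (fun a b => ?_) hYamo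
      obtain ⟨i, hi⟩ := IsPGroup.iff_card.1 hYp
      have hi3 : i < 3 := by
        by_contra h
        have h1 : 2 ^ 3 ≤ 2 ^ i := Nat.pow_le_pow_right two_pos (not_lt.1 h)
        omega
      interval_cases i
      · haveI : Subsingleton Y := (Nat.card_eq_one_iff_unique.1 (hi.trans (pow_zero 2))).1
        exact Subsingleton.elim _ _
      · haveI := isCyclic_of_prime_card (p := 2) (by simpa using hi : Nat.card Y = 2)
        haveI : IsMulCommutative Y := IsCyclic.isMulCommutative
        exact IsMulCommutative.is_comm.comm a b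
      · letI := IsPGroup.commGroupOfCardEqPrimeSq (p := 2) (G := Y) hi
        exact mul_comm a b
  -- conjugacy in the quotient by `U`
  haveI hUn : (U.subgroupOf K).Normal := Subgroup.normal_in_normalizer
  set f := QuotientGroup.mk' (U.subgroupOf K) with hf
  have hUA : U ≤ A := inf_le_left
  have hUB : U ≤ B := hU.le.trans inf_le_left
  have hUK : U ≤ K := hUA.trans hAK
  have hcard : ∀ C : Subgroup G, U ≤ C → C ≤ K →
      Nat.card ((C.subgroupOf K).map f) * Nat.card U = Nat.card C := by
    intro C hUC hCK'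
    have h1 := card_map_mk'_mul (U.subgroupOf K) (X := C.subgroupOf K) (Subgroup.comap_mono hUC)
    rwa [Nat.card_congr (Subgroup.subgroupOfEquivOfLe hUK).toEquiv,
      Nat.card_congr (Subgroup.subgroupOfEquivOfLe hCK').toEquiv] at h1
  have hrel : Nat.card ((A.subgroupOf K).map f) = F.relIndex A := by
    refine Nat.eq_of_mul_eq_mul_right (Nat.card_pos (α := U)) ?_
    rw [hcard A hUA hAK]
    have h1 := (F.subgroupOf A).card_mul_index
    rw [show Nat.card (F.subgroupOf A) = Nat.card U by
      rw [← Subgroup.inf_subgroupOf_left, Nat.card_congr (Subgroup.subgroupOfEquivOfLe inf_le_left).toEquiv]] at h1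
    rw [← h1, mul_comm]
    rfl
  haveI : Group.IsSolvable (↥K ⧸ U.subgroupOf K) := inferInstance
  obtain ⟨y, hy⟩ := exists_conj_of_card_eq_of_cyclic (H := ↥K ⧸ U.subgroupOf K) inferInstance
    ((A.subgroupOf K).map f) ((B.subgroupOf K).map f)
    (Nat.eq_of_mul_eq_mul_right (Nat.card_pos (α := U))
      ((hcard A hUA hAK).trans (hAB.trans (hcard B hUB hBK).symm)))
    (fun q hq hqd P => by
      haveI := Fact.mk hq
      obtain ⟨P0, rfl⟩ := Sylow.mapSurjective_surjective
        (QuotientGroup.mk'_surjective (U.subgroupOf K)) q P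
      haveI := hcycK q hq (hqd.trans (hrel ▸ Subgroup.relIndex_dvd_index_of_normal F A)) P0
      rw [Sylow.coe_mapSurjective]
      exact isCyclic_of_surjective ((QuotientGroup.mk' (U.subgroupOf K)).subgroupMap (P0 : Subgroup ↥K))
        (MonoidHom.subgroupMap_surjective _ _))
  obtain ⟨k, rfl⟩ := QuotientGroup.mk'_surjective (U.subgroupOf K) y
  rw [← map_conj_smul] at hy
  have h1 := congrArg (Subgroup.comap f) hy
  rw [Subgroup.comap_map_eq, Subgroup.comap_map_eq, QuotientGroup.ker_mk'] at h1
  have hleA : U.subgroupOf K ≤ MulAut.conj k • A.subgroupOf K := by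
    rw [← conj_smul_le_of_mem_normal (N := U.subgroupOf K) k]
    exact Subgroup.pointwise_smul_le_pointwise_smul_iff.2 (Subgroup.comap_mono hUA)
  have hleB : U.subgroupOf K ≤ B.subgroupOf K := Subgroup.comap_mono hUB
  rw [sup_eq_left.2 hleA, sup_eq_left.2 hleB] at h1
  exact ⟨k, conj_eq_of_subgroupOf hAK hBK k h1⟩

theorem hard {G : Type u} [Group G] [Finite G] (hB : Cfsg.Agent.S3912.AbConj G)
    (hsol : Group.IsSolvable G) (A B : Subgroup G) (hAB : Nat.card A = Nat.card B) (hmin : MinHyp A) :
    ∃ g : G, MulAut.conj g • A = B := by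
  set F := fittingSubgroup G with hF
  have hFc := fitting_coprime hB hsol hmin
  have hFab := fitting_comm hB hsol hmin
  have hcomm : ∀ C : Subgroup G, IsMulCommutative (C ⊓ F : Subgroup G) := fun C =>
    ⟨⟨fun a b => Subtype.ext (Subgroup.mem_centralizer_iff.1 (hFab b.2.2) a a.2.2)⟩⟩
  have hsplit : ∀ C : Subgroup G, Nat.card (C ⊓ F : Subgroup G) * F.relIndex C = Nat.card C := by
    intro C
    have h1 := (F.subgroupOf C).card_mul_index
    rwa [show Nat.card (F.subgroupOf C) = Nat.card (C ⊓ F : Subgroup G) by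
      rw [← Subgroup.inf_subgroupOf_left, Nat.card_congr (Subgroup.subgroupOfEquivOfLe inf_le_left).toEquiv]] at h1
  have hdvd : ∀ C D : Subgroup G, Nat.card C = Nat.card D →
      Nat.card (C ⊓ F : Subgroup G) ∣ Nat.card (D ⊓ F : Subgroup G) := by
    intro C D hCD
    have hcop : (Nat.card (C ⊓ F : Subgroup G)).Coprime (F.relIndex D) :=
      (hFc.coprime_dvd_left (Subgroup.card_dvd_of_le inf_le_right)).coprime_dvd_right
        (Subgroup.relIndex_dvd_index_of_normal F D)
    refine hcop.dvd_of_dvd_mul_right ?_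
    rw [hsplit D, ← hCD, ← hsplit C]
    exact dvd_mul_right _ _
  obtain ⟨g, hg⟩ := hB (A ⊓ F) (B ⊓ F) (hcomm A) (hcomm B)
    (Nat.dvd_antisymm (hdvd A B hAB) (hdvd B A hAB.symm))
  rw [← conj_smul_eq_map, Subgroup.smul_inf, conj_smul_le_of_mem_normal (N := F) g] at hg
  have hmin' : MinHyp (MulAut.conj g • A) := by
    intro M p k hMn hp hk hMc hab hexp
    obtain ⟨h1, h2, h3⟩ := hmin M p k hMn hp hk hMc hab hexp
    refine ⟨h1, by rw [card_conj_smul]; exact h2, fun h => h3 ?_⟩
    haveI := hMn
    rw [← conj_smul_le_of_mem_normal (N := M) g, Subgroup.pointwise_smul_le_pointwise_smul_iff] at h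
    exact h
  obtain ⟨x, hx⟩ := hard_eq hB hsol _ B (by rw [card_conj_smul, hAB]) hmin' hg.symm
  exact ⟨x * g, by rw [map_mul, mul_smul, hx]⟩

theorem conj_all (n : ℕ) : ∀ (G : Type u) [Group G] [Finite G], Nat.card G = n →
    Cfsg.Agent.S3912.AbConj G → Group.IsSolvable G → ∀ A B : Subgroup G, Nat.card A = Nat.card B →
      ∃ g : G, MulAut.conj g • A = B := by
  induction n using Nat.strong_induction_on with
  | _ n ih =>
  intro G _ _ hn hB hsol A B hAB
  haveI := hsol
  by_cases hmin : MinHyp A
  · exact hard hB hsol A B hAB hmin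
  simp only [MinHyp, not_forall] at hmin
  obtain ⟨M, p, k, hMn, hp, hk, hMc, hab, hexp, hnot⟩ := hmin
  haveI := hMn
  haveI := Fact.mk hp
  have hMne : M ≠ ⊥ := fun h => by
    rw [h, Subgroup.card_bot] at hMc
    exact absurd hMc.symm (Nat.one_lt_pow hk.ne' hp.one_lt).ne'
  set f := QuotientGroup.mk' M with hf
  have hq : ∀ X Y : Subgroup (G ⧸ M), Nat.card X = Nat.card Y →
      ∃ g : G, MulAut.conj g • X.comap f = Y.comap f := by
    intro X Y hXY
    obtain ⟨x, hx⟩ := ih _ (hn ▸ card_quotient_lt M hMne) (G ⧸ M) rfl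
      (Cfsg.Agent.S3912.result hB hsol M) inferInstance X Y hXY
    obtain ⟨g, rfl⟩ := QuotientGroup.mk'_surjective M x
    refine ⟨g, ?_⟩
    rw [← hx]
    ext y
    rw [mem_conj_smul_iff, Subgroup.mem_comap, Subgroup.mem_comap, mem_conj_smul_iff]
    simp only [map_mul, map_inv, hf]
  by_cases hpA : p ∣ Nat.card A
  · have hle : ∀ C : Subgroup G, Nat.card C = Nat.card A → M ≤ C := by
      intro C hC
      rcases Nat.lt_or_ge k 2 with hk2 | hk2
      · -- a cyclic minimal normal subgroup
        obtain rfl : k = 1 := by omega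
        obtain ⟨c, hc⟩ := exists_prime_orderOf_dvd_card' (G := C) p (hC ▸ hpA)
        obtain ⟨m, hm⟩ := exists_prime_orderOf_dvd_card' (G := M) p (by rw [hMc, pow_one])
        have hcM : (c : G) ∈ M := (Cfsg.Agent.S3909.result hB M).1 c
          ⟨m, m.2, by rw [Subgroup.orderOf_coe, hm, Subgroup.orderOf_coe, hc]⟩
        have h1 : Subgroup.zpowers (c : G) = M := Subgroup.eq_of_le_of_card_ge
          (Subgroup.zpowers_le.2 hcM)
          (by rw [hMc, pow_one, Nat.card_zpowers, Subgroup.orderOf_coe, hc])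
        exact h1 ▸ Subgroup.zpowers_le.2 c.2
      · -- `M` is the Sylow subgroup
        have hMA : M ≤ A := by
          by_contra hMA
          exact hnot ⟨hk2, hpA, hMA⟩
        obtain ⟨T, hT⟩ := Sylow.exists_subgroup_card_pow_prime p (G := C) (n := k)
          (hC ▸ hMc ▸ Subgroup.card_dvd_of_le hMA)
        obtain ⟨S, hS⟩ := ((IsPGroup.of_card hT).map C.subtype).exists_le_sylow
        rw [(Cfsg.Agent.S3909.result hB M).2 p k hk2 hMc ⟨hab, hexp⟩ S] at hS
        have h1 := Subgroup.eq_of_le_of_card_ge hS (by rw [Subgroup.card_subtype, hT, hMc])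
        exact h1 ▸ Subgroup.map_subtype_le T
    have hA := hle A rfl
    have hB' := hle B hAB.symm
    obtain ⟨g, hg⟩ := hq (A.map f) (B.map f) (Nat.eq_of_mul_eq_mul_right Nat.card_pos
      ((card_map_mk'_mul M hA).trans (hAB.trans (card_map_mk'_mul M hB').symm)))
    refine ⟨g, ?_⟩
    rwa [Subgroup.comap_map_eq, Subgroup.comap_map_eq, QuotientGroup.ker_mk', sup_eq_left.2 hA,
      sup_eq_left.2 hB'] at hg
  · have hcop : ∀ C : Subgroup G, Nat.card C = Nat.card A → (Nat.card C).Coprime (Nat.card M) := by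
      intro C hC
      rw [hMc, hC]
      exact ((hp.coprime_iff_not_dvd.2 hpA).symm).pow_right k
    have hcard : ∀ C : Subgroup G, Nat.card C = Nat.card A → Nat.card (C.map f) = Nat.card A := by
      intro C hC
      rw [← hC]
      refine (Nat.card_congr (Equiv.ofBijective (f.subgroupMap C) ⟨?_, f.subgroupMap_surjective C⟩)).symm
      rw [injective_iff_map_eq_one]
      intro c hc
      have h1 : (c : G) ∈ M := (QuotientGroup.eq_one_iff _).1 (congrArg Subtype.val hc)
      exact Subtype.ext (Subgroup.disjoint_def.1 (disjoint_of_coprime_card (hcop C hC)) c.2 h1)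
    obtain ⟨g, hg⟩ := hq (A.map f) (B.map f) ((hcard A rfl).trans (hcard B hAB.symm).symm)
    rw [Subgroup.comap_map_eq, Subgroup.comap_map_eq, QuotientGroup.ker_mk', Subgroup.smul_sup,
      conj_smul_le_of_mem_normal (N := M) g] at hg
    obtain ⟨m, -, hm⟩ := exists_conj_of_sup_eq M (MulAut.conj g • A) B hg
      (by rw [card_conj_smul]; exact hcop A rfl) (hcop B hAB.symm) (Or.inl inferInstance)
    exact ⟨m * g, by rw [map_mul, mul_smul, hm]⟩

/-- If G is a finite solvable group in which any two abelian subgroups of the same order are conjugate, then any two subgroups of G of the same order are conjugate. -/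
theorem result {G : Type*} [Group G] [Finite G] (hB : ∀ A B : Subgroup G, IsMulCommutative ↥A → IsMulCommutative ↥B → Nat.card ↥A = Nat.card ↥B → ∃ g : G, B = A.map (MulAut.conj g).toMonoidHom) (hsol : Group.IsSolvable G) (A B : Subgroup G)
    (h : Nat.card ↥A = Nat.card ↥B) : ∃ g : G, B = A.map (MulAut.conj g).toMonoidHom := by
  obtain ⟨g, hg⟩ := conj_all _ G rfl hB hsol A B h
  exact ⟨g, by rw [← conj_smul_eq_map, hg]⟩

end Cfsg.Agent.S3913
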