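import Cfsg.Statements.S3917
import Mathlib

set_option autoImplicit false
open Cfsg

namespace Cfsg.Agent.S3917

/-- Say that a group has self-centralizing non-cyclic subgroups when every non-cyclic subgroup H satisfies C_G(H) ≤ H. A finite abelian group with self-centralizing non-cyclic subgroups is cyclic or elementary abelian of order p² for a prime p. -/
theorem result {G : Type*} [CommGroup G] [Finite G] (hX : (∀ H : Subgroup G, ¬ IsCyclic ↥H → Subgroup.centralizer (H : Set G) ≤ H)) :
    IsCyclic G ∨ ∃ p : ℕ, p.Prime ∧ Nat.card G = p ^ 2 ∧ Monoid.exponent G = p := by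
  classical
  by_cases hall : ∀ p : ℕ, p.Prime → Nat.card (powMonoidHom p : G →* G).ker ≤ p
  · left
    have key : ∀ n : ℕ, 0 < n → Nat.card (powMonoidHom n : G →* G).ker ≤ n := by
      intro n
      induction n using Nat.recOnMul with
      | zero => intro h; omega
      | one =>
        intro _
        have : (powMonoidHom 1 : G →* G).ker = ⊥ := by ext a; simp
        simp [this]
      | prime p hp => intro _; exact hall p hp
      | mul a b iha ihb =>
        intro h
        have ha : 0 < a := Nat.pos_of_ne_zero fun e => by simp [e] at h
        have hb : 0 < b := Nat.pos_of_ne_zero fun e => by simp [e] at h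
        refine le_trans ?_ (Nat.mul_le_mul (iha ha) (ihb hb))
        let f : (powMonoidHom (a * b) : G →* G).ker →* (powMonoidHom b : G →* G).ker :=
          ((powMonoidHom a : G →* G).comp (powMonoidHom (a * b) : G →* G).ker.subtype).codRestrict _
            (fun x => by
              have hx := x.2
              simp only [MonoidHom.mem_ker, powMonoidHom_apply] at hx
              simp [MonoidHom.mem_ker, ← pow_mul, hx])
        rw [← Subgroup.card_mul_index f.ker, Subgroup.index_ker]
        refine Nat.mul_le_mul ?_ (Subgroup.card_le_card_group _)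
        refine Nat.card_le_card_of_injective
          (fun x => (⟨((x : (powMonoidHom (a * b) : G →* G).ker) : G), by
            have h3 : f x.1 = 1 := x.2
            have h4 := congrArg Subtype.val h3
            simpa [f, MonoidHom.mem_ker] using h4⟩ : (powMonoidHom a : G →* G).ker)) ?_
        intro x y hxy
        have h2 := congrArg (fun z : (powMonoidHom a : G →* G).ker => (z : G)) hxy
        exact Subtype.ext (Subtype.ext h2)
    haveI := Fintype.ofFinite G
    apply isCyclic_of_card_pow_eq_one_le
    intro n hn
    refine le_trans (le_of_eq ?_) (key n hn)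
    rw [Nat.card_eq_fintype_card, ← Fintype.card_coe]
    exact Fintype.card_congr (Equiv.subtypeEquivRight (fun x => by simp [MonoidHom.mem_ker]))
  · right
    push_neg at hall
    obtain ⟨p, hp, hcard⟩ := hall
    haveI := Fact.mk hp
    let K := (powMonoidHom p : G →* G).ker
    have hK : ∀ x ∈ K, x ^ p = 1 := fun x hx => by simpa [K, MonoidHom.mem_ker] using hx
    have hKp : IsPGroup p K := fun x => ⟨1, Subtype.ext (by simpa using hK x x.2)⟩
    obtain ⟨k, hk⟩ := hKp.exists_card_eq
    have hk2 : 2 ≤ k := by
      by_contra h
      have : p ^ k ≤ p ^ 1 := Nat.pow_le_pow_right hp.pos (by omega)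
      rw [← hk, pow_one] at this
      exact absurd hcard (not_lt.2 this)
    obtain ⟨H, hH⟩ := Sylow.exists_subgroup_card_pow_prime p (G := K) (n := 2)
      (by rw [hk]; exact pow_dvd_pow p hk2)
    let E : Subgroup G := H.map K.subtype
    have hEc : Nat.card E = p ^ 2 := by
      rw [Subgroup.card_map_of_injective K.subtype_injective, hH]
    have hEK : ∀ x ∈ E, x ^ p = 1 := fun x hx => hK x (Subgroup.map_subtype_le H hx)
    have hEnc : ¬ IsCyclic E := by
      intro hc
      obtain ⟨g, hg⟩ := hc.exists_generator
      have h1 := orderOf_eq_card_of_forall_mem_zpowers hg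
      have h2 : orderOf g ∣ p := orderOf_dvd_of_pow_eq_one (Subtype.ext (by simpa using hEK g g.2))
      rw [h1, hEc] at h2
      have := Nat.le_of_dvd hp.pos h2
      nlinarith [hp.two_le]
    have htop : E = ⊤ := eq_top_iff.2 fun x _ => hX E hEnc
      (Subgroup.mem_centralizer_iff.2 fun y _ => mul_comm y x)
    refine ⟨p, hp, ?_, ?_⟩
    · rw [← hEc, htop, Subgroup.card_top]
    · have hd : Monoid.exponent G ∣ p := Monoid.exponent_dvd_of_forall_pow_eq_one fun x =>
        hEK x (htop ▸ Subgroup.mem_top x)
      rcases (Nat.dvd_prime hp).1 hd with h | h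
      · exfalso
        have hs := Monoid.exp_eq_one_iff.1 h
        have h1 : Nat.card G = 1 := by
          haveI := hs; exact Nat.card_of_subsingleton (1 : G)
        rw [← Subgroup.card_top (G := G), ← htop, hEc] at h1
        nlinarith [hp.two_le]
      · exact h

end Cfsg.Agent.S3917
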