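import Cfsg.Statements.S3919
import Cfsg.Agent.TwoGroup.MaximalClass
import Cfsg.Agent.TwoGroup.UniqueInvolution
import Cfsg.Agent.TwoGroup.CentralQuotient

set_option autoImplicit false
open Cfsg

namespace Cfsg.Agent.S3919

/-- Say that a group has self-centralizing non-cyclic subgroups when every non-cyclic subgroup H satisfies C_G(H) ≤ H. A finite non-abelian 2-group G of order 2^n has self-centralizing non-cyclic subgroups if and only if G has nilpotency class n − 1 (that is, G is dihedral, semidihedral or generalized quaternion). -/
theorem result {G : Type*} [Group G] [Finite G] (hna : ¬ IsMulCommutative G) (n : ℕ) (hG : Nat.card G = 2 ^ n) :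
    (∀ H : Subgroup G, ¬ IsCyclic ↥H → Subgroup.centralizer (H : Set G) ≤ H) ↔ (⊤ : Subgroup G).lowerCentralSeries (n - 2) ≠ ⊥ := by
  have h2 : IsPGroup 2 G := IsPGroup.of_card hG
  have : Fact (Nat.Prime 2) := ⟨Nat.prime_two⟩
  have hnil := h2.isNilpotent
  have hm : 3 ≤ n := by
    by_contra hlt
    apply hna
    rcases (show n = 0 ∨ n = 1 ∨ n = 2 by omega) with rfl | rfl | rfl
    · have : Subsingleton G := (Nat.card_eq_one_iff_unique.mp hG).1
      exact ⟨⟨fun a b => Subsingleton.elim _ _⟩⟩
    · have : IsCyclic G := isCyclic_of_prime_card (p := 2) hG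
      infer_instance
    · exact IsPGroup.isMulCommutative_of_card_eq_prime_sq hG
  constructor
  · intro h
    have key : CfsgLib.TwoGroup.IsMaxClassType G := by
      by_cases hu : CfsgLib.TwoGroup.AtMostOneInvolution G
      · rcases CfsgLib.TwoGroup.cyclic_or_quaternion_frame h2 hu with hc | ⟨m, hm, -, hF⟩
        · exact absurd (IsMulCommutative.mk ⟨fun a b => IsCyclic.commGroup.mul_comm a b⟩) hna
        · exact ⟨m, hm, Or.inr (Or.inl hF)⟩
      obtain ⟨z, hzG', hzc, hz⟩ := CfsgLib.TwoGroup.exists_central_involution_commutator h2 hna
      obtain ⟨t, ht, htz⟩ : ∃ t : G, orderOf t = 2 ∧ t ≠ z := by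
        by_contra hc
        push Not at hc
        exact hu fun a b ha hb => (hc a ha).trans (hc b hb).symm
      have hzz : z * z = 1 := by rw [← pow_two, ← hz, pow_orderOf_eq_one]
      have htt : t * t = 1 := by rw [← pow_two, ← ht, pow_orderOf_eq_one]
      have hzt : ∀ g, g * z = z * g := Subgroup.mem_center_iff.mp hzc
      have hne : z ≠ 1 := by intro h1; rw [h1, orderOf_one] at hz; omega
      have htne : t ≠ 1 := by intro h1; rw [h1, orderOf_one] at ht; omega
      let T : Subgroup G :=
        { carrier := {1, z, t, z * t}
          mul_mem' := by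
            intro a b ha hb
            simp only [Set.mem_insert_iff, Set.mem_singleton_iff] at ha hb ⊢
            rcases ha with ha | ha | ha | ha <;> rcases hb with hb | hb | hb | hb <;>
              simp [ha, hb, ← mul_assoc, hzz, htt, hzt t, hzt] <;> simp [mul_assoc, hzz, htt]
          one_mem' := by simp
          inv_mem' := by
            intro a ha
            simp only [Set.mem_insert_iff, Set.mem_singleton_iff] at ha ⊢
            rcases ha with ha | ha | ha | ha <;>
              simp [ha, inv_eq_of_mul_eq_one_right hzz, inv_eq_of_mul_eq_one_right htt, hzt t] }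
      have hcardT : Nat.card T ≤ 4 := by
        show Nat.card ({1, z, t, z * t} : Set G) ≤ 4
        rw [Nat.card_coe_set_eq]
        calc ({1, z, t, z * t} : Set G).ncard ≤ ({z, t, z * t} : Set G).ncard + 1 := Set.ncard_insert_le _ _
        _ ≤ (({t, z * t} : Set G).ncard + 1) + 1 := by gcongr; exact Set.ncard_insert_le _ _
        _ ≤ ((({z * t} : Set G).ncard + 1) + 1) + 1 := by gcongr; exact Set.ncard_insert_le _ _
        _ = 4 := by rw [Set.ncard_singleton]
      have hTc : ¬ IsCyclic T := by
        intro hc
        have := (CfsgLib.TwoGroup.AtMostOneInvolution.eq_one_or_eq (G := T) ?_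
          (t := ⟨z, by show z ∈ ({1, z, t, z * t} : Set G); simp⟩)
          (by rw [← Subgroup.orderOf_coe]; exact hz)
          (g := ⟨t, by show t ∈ ({1, z, t, z * t} : Set G); simp⟩) (Subtype.ext htt))
        · rcases this with h1 | h1
          · exact htne (congrArg Subtype.val h1)
          · exact htz (congrArg Subtype.val h1)
        · intro a b ha hb
          classical
          letI : Fintype T := Fintype.ofFinite _
          have h2d : 2 ∣ Fintype.card T := by rw [← ha]; exact orderOf_dvd_card
          have hone := IsCyclic.card_orderOf_eq_totient (α := T) h2d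
          rw [Nat.totient_two, Finset.card_eq_one] at hone
          obtain ⟨c, hc'⟩ := hone
          have hmem : ∀ w : T, orderOf w = 2 → w = c := fun w hw => by
            have : w ∈ Finset.univ.filter (fun w : T => orderOf w = 2) := by simp [hw]
            rw [hc'] at this
            simpa using this
          rw [hmem a ha, hmem b hb]
      refine (CfsgLib.TwoGroup.isMaxClassType_of_index_commutator h2 ?_).resolve_left ?_
      · refine CfsgLib.TwoGroup.index_commutator_of_small_centralizer h2 t htne (le_trans ?_ hcardT) ?_
        · refine Subgroup.card_le_of_le fun g hg => h T hTc ?_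
          rw [Subgroup.mem_centralizer_singleton_iff] at hg
          rw [Subgroup.mem_centralizer_iff]
          intro a ha
          rcases ha with ha | ha | ha | ha <;> rw [ha]
          · rw [one_mul, mul_one]
          · exact (hzt g).symm
          · exact hg.symm
          · rw [mul_assoc, ← hg, ← mul_assoc, ← hzt g, mul_assoc]
        · rw [hG]; exact lt_of_lt_of_le (by norm_num : 4 < 2 ^ 3) (Nat.pow_le_pow_right (by norm_num) hm)
      · rw [hG]; exact (lt_of_lt_of_le (by norm_num : 4 < 2 ^ 3) (Nat.pow_le_pow_right (by norm_num) hm)).ne'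
    obtain ⟨m, r, s, hm2, hr, ⟨F⟩⟩ := key.exists_maxType_frame
    have hnm : n = m + 1 := Nat.pow_right_injective le_rfl
      (show 2 ^ n = 2 ^ (m + 1) by rw [← hG, F.card_eq, pow_succ'])
    intro hb
    have hcl := Subgroup.lowerCentralSeries_eq_bot_iff_nilpotencyClass_le.mp hb
    rw [F.nilpotencyClass_of_maxType hm2 hr] at hcl
    omega
  · intro h H hH
    have hidx := CfsgLib.TwoGroup.index_commutator_of_lowerCentralSeries hG hm h
    rcases CfsgLib.TwoGroup.isMaxClassType_of_index_commutator h2 hidx with h4 | hk
    · exfalso
      rw [hG] at h4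
      have := Nat.pow_right_injective (le_refl 2) (show 2 ^ n = 2 ^ 2 from h4)
      omega
    · obtain ⟨m, r, s, hm2, hr, ⟨F⟩⟩ := hk.exists_maxType_frame
      exact F.centralizer_le_of_not_isCyclic (by omega) hr hH

end Cfsg.Agent.S3919
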