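import Cfsg.Statements.S3920
import Mathlib

set_option autoImplicit false
open Cfsg

namespace Cfsg.Agent.S3920

/-- Say that a group has self-centralizing non-cyclic subgroups when every non-cyclic subgroup H satisfies C_G(H) ≤ H. For n ≥ 3, the dihedral group of order 2n has self-centralizing non-cyclic subgroups if and only if n is odd or a power of 2. -/
theorem result (n : ℕ) (hn : 3 ≤ n) : (∀ H : Subgroup (DihedralGroup n), ¬ IsCyclic ↥H → Subgroup.centralizer (H : Set (DihedralGroup n)) ≤ H) ↔ (Odd n ∨ ∃ k : ℕ, n = 2 ^ k) := by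
  have : NeZero n := ⟨by omega⟩
  constructor
  · intro h
    by_contra hc
    rw [not_or, not_exists] at hc
    obtain ⟨k, m, hm, hn2⟩ := Nat.exists_eq_pow_mul_and_not_dvd (show n ≠ 0 by omega) 2 (by norm_num)
    have hk : 1 ≤ k := by
      by_contra hk
      refine hc.1 (Nat.odd_iff.2 ?_)
      rw [show k = 0 by omega, pow_zero, one_mul] at hn2
      omega
    have hm3 : 3 ≤ m := by
      have : m ≠ 0 := fun h0 => hm (h0 ▸ dvd_zero 2)
      have : m ≠ 1 := fun h1 => hc.2 k (by rw [hn2, h1, mul_one])
      omega
    set a : DihedralGroup n := DihedralGroup.r ((2 ^ k : ℕ) : ZMod n) with ha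
    set b : DihedralGroup n := DihedralGroup.sr 0 with hb
    set H := Subgroup.closure ({a, b} : Set (DihedralGroup n)) with hH
    have hnc : ¬ IsCyclic H := by
      intro hcyc
      have hab := congrArg Subtype.val ((IsCyclic.commGroup (α := H)).mul_comm
        ⟨a, Subgroup.subset_closure (Set.mem_insert a _)⟩
        ⟨b, Subgroup.subset_closure (Set.mem_insert_of_mem a rfl)⟩)
      simp only [Subgroup.coe_mul, ha, hb, DihedralGroup.r_mul_sr, DihedralGroup.sr_mul_r,
        DihedralGroup.sr.injEq, zero_sub, zero_add] at hab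
      have h2 : ((2 ^ (k + 1) : ℕ) : ZMod n) = 0 := by
        rw [pow_succ, Nat.cast_mul, Nat.cast_ofNat, mul_comm, two_mul]
        nth_rewrite 1 [← hab]
        rw [neg_add_cancel]
      rw [ZMod.natCast_eq_zero_iff, hn2, pow_succ, Nat.mul_dvd_mul_iff_left (by positivity)] at h2
      have := Nat.le_of_dvd two_pos h2
      omega
    have hdm : 2 ^ k ∣ n := ⟨m, hn2⟩
    have hH' : ∀ g ∈ H, (∃ i : ZMod n, ZMod.castHom hdm (ZMod (2 ^ k)) i = 0 ∧
        (g = DihedralGroup.r i ∨ g = DihedralGroup.sr i)) := by
      intro g hg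
      induction hg using Subgroup.closure_induction with
      | mem x hx =>
        rcases hx with rfl | rfl
        · exact ⟨_, by rw [map_natCast, ZMod.natCast_self], Or.inl rfl⟩
        · exact ⟨_, map_zero _, Or.inr rfl⟩
      | one => exact ⟨0, map_zero _, Or.inl DihedralGroup.one_def⟩
      | mul x y _ _ hx hy =>
        obtain ⟨i, hi, rfl | rfl⟩ := hx <;> obtain ⟨j, hj, rfl | rfl⟩ := hy
        · exact ⟨i + j, by rw [map_add, hi, hj, add_zero], Or.inl (DihedralGroup.r_mul_r i j)⟩
        · exact ⟨j - i, by rw [map_sub, hi, hj, sub_zero], Or.inr (DihedralGroup.r_mul_sr i j)⟩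
        · exact ⟨i + j, by rw [map_add, hi, hj, add_zero], Or.inr (DihedralGroup.sr_mul_r i j)⟩
        · exact ⟨j - i, by rw [map_sub, hi, hj, sub_zero], Or.inl (DihedralGroup.sr_mul_sr i j)⟩
      | inv x _ hx =>
        obtain ⟨i, hi, rfl | rfl⟩ := hx
        · exact ⟨-i, by rw [map_neg, hi, neg_zero], Or.inl (DihedralGroup.inv_r i)⟩
        · exact ⟨i, hi, Or.inr (DihedralGroup.inv_sr i)⟩
    set z : ZMod n := ((2 ^ (k - 1) * m : ℕ) : ZMod n) with hz
    have hzz : z + z = 0 := by
      rw [hz, ← Nat.cast_add, ← two_mul, ← mul_assoc, ← pow_succ', Nat.sub_add_cancel hk, ← hn2,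
        ZMod.natCast_self]
    have hmem : DihedralGroup.r z ∈ Subgroup.centralizer (H : Set (DihedralGroup n)) := by
      rw [Subgroup.mem_centralizer_iff]
      rintro (i | i) -
      · rw [DihedralGroup.r_mul_r, DihedralGroup.r_mul_r, add_comm]
      · rw [DihedralGroup.r_mul_sr, DihedralGroup.sr_mul_r, eq_neg_of_add_eq_zero_left hzz,
          sub_neg_eq_add]
        rw [← eq_neg_of_add_eq_zero_left hzz]
    obtain ⟨i, hi, e | e⟩ := hH' _ (h H hnc hmem)
    · rw [DihedralGroup.r.injEq] at e
      rw [← e, hz, map_natCast, ZMod.natCast_eq_zero_iff] at hi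
      have h2 : 2 ^ k ∣ 2 ^ (k - 1) * m := hi
      rw [show 2 ^ k = 2 ^ (k - 1) * 2 by rw [← pow_succ, Nat.sub_add_cancel hk],
        Nat.mul_dvd_mul_iff_left (by positivity)] at h2
      exact hm h2
    · simp at e
  · intro hn' H hH c hc
    rw [Subgroup.mem_centralizer_iff] at hc
    obtain ⟨i, hi⟩ : ∃ i, DihedralGroup.sr i ∈ H := by
      by_contra hno
      rw [not_exists] at hno
      refine hH ?_
      have hle : H ≤ Subgroup.zpowers (DihedralGroup.r 1) := by
        rintro (j | j) hj
        · exact ⟨j.val, by simp⟩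
        · exact absurd hj (hno j)
      exact isCyclic_of_injective (Subgroup.inclusion hle) (Subgroup.inclusion_injective _)
    obtain ⟨j, hj, hj0⟩ : ∃ j, DihedralGroup.r j ∈ H ∧ j ≠ 0 := by
      by_contra hno
      refine hH ?_
      have hle : H ≤ Subgroup.zpowers (DihedralGroup.sr i) := by
        rintro (j | j) hj
        · have hj0 : j = 0 := by by_contra h0; exact hno ⟨j, hj, h0⟩
          rw [hj0, ← DihedralGroup.one_def]; exact one_mem _
        · have hj' : i = j := by
            by_contra h0
            exact hno ⟨j - i, by rw [← DihedralGroup.sr_mul_sr]; exact mul_mem hi hj,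
              sub_ne_zero.2 (Ne.symm h0)⟩
          rw [hj']; exact Subgroup.mem_zpowers _
      exact isCyclic_of_injective (Subgroup.inclusion hle) (Subgroup.inclusion_injective _)
    have hhalf : ∀ x : ZMod n, x + x = 0 → DihedralGroup.r x ∈ H := by
      intro x hx
      rcases hn' with ho | ⟨k, hk⟩
      · have hu : IsUnit (2 : ZMod n) := by
          rw [show (2 : ZMod n) = ((2 : ℕ) : ZMod n) by norm_num, ZMod.isUnit_iff_coprime]
          exact Nat.coprime_two_left.2 ho
        rw [← two_mul, hu.mul_right_eq_zero] at hx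
        rw [hx, ← DihedralGroup.one_def]; exact one_mem _
      · by_cases hx0 : x = 0
        · rw [hx0, ← DihedralGroup.one_def]; exact one_mem _
        -- both `x` and a multiple of `j` are the element of order two
        have hpow : ∀ t : ℕ, DihedralGroup.r (t • j) ∈ H := fun t => by
          rw [nsmul_eq_mul, mul_comm, ← DihedralGroup.r_pow]; exact pow_mem hj t
        have huniq : ∀ y : ZMod n, y + y = 0 → y ≠ 0 → y.val * 2 = n := by
          intro y hy hy0
          have h1 : ((y.val + y.val : ℕ) : ZMod n) = 0 := by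
            rw [Nat.cast_add, ZMod.natCast_zmod_val]; exact hy
          rw [ZMod.natCast_eq_zero_iff] at h1
          obtain ⟨t, ht⟩ := h1
          have hlt := y.val_lt
          have hpos : 0 < y.val := Nat.pos_of_ne_zero (fun h0 => hy0 ((ZMod.val_eq_zero y).1 h0))
          rcases t with _ | _ | t
          · omega
          · omega
          · nlinarith
        obtain ⟨l, hl⟩ : ∃ l, (2 ^ l) • j + (2 ^ l) • j = 0 ∧ (2 ^ l) • j ≠ 0 := by
          by_contra hno
          rw [not_exists] at hno
          have hall : ∀ l, (2 ^ l) • j ≠ 0 := by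
            intro l
            induction l with
            | zero => simpa using hj0
            | succ l ih =>
              intro h0
              refine hno l ⟨?_, ih⟩
              rw [← two_nsmul, smul_smul, ← pow_succ', h0]
          refine hall k ?_
          rw [nsmul_eq_mul, ← hk, ZMod.natCast_self, zero_mul]
        have e1 := huniq x hx hx0
        have e2 := huniq _ hl.1 hl.2
        have : x = (2 ^ l) • j := ZMod.val_injective n (by omega)
        rw [this]; exact hpow _
    cases c with
    | r x =>
      have h1 := hc _ hi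
      rw [DihedralGroup.sr_mul_r, DihedralGroup.r_mul_sr, DihedralGroup.sr.injEq] at h1
      exact hhalf x (by linear_combination h1)
    | sr x =>
      have h1 := hc _ hi
      rw [DihedralGroup.sr_mul_sr, DihedralGroup.sr_mul_sr, DihedralGroup.r.injEq] at h1
      have hd := mul_mem hi (hhalf (x - i) (by linear_combination h1))
      rwa [DihedralGroup.sr_mul_r, add_sub_cancel] at hd

end Cfsg.Agent.S3920
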