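import Cfsg.Statements.S3927
import Cfsg.Agent.Subnormal.FullClosureZipper

set_option autoImplicit false
open Cfsg

namespace Cfsg.Agent.S3927


open scoped Pointwise
open Subgroup

universe u

section
variable {G : Type u} [Group G]

/-- The map `c ↦ [c, α]`. -/
def commMap (α : MulAut G) (c : G) : G := c * (α c)⁻¹

theorem commMap_apply_comm (α : MulAut G) (c : G) : α (commMap α c) = commMap α (α c) := by
  simp [commMap]

theorem map_mem_closure_range {α : MulAut G} {S : Set G} (hS : ∀ s ∈ S, α s ∈ S) {x : G}
    (hx : x ∈ closure S) : α x ∈ closure S := by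
  have : (closure S) ≤ (closure S).comap α.toMonoidHom :=
    (closure_le _).mpr fun s hs => subset_closure (hS s hs)
  exact this hx

variable [Finite G]

theorem zpowers_apply_mem {α : MulAut G} {V : Subgroup G} (hV : ∀ v ∈ V, α v ∈ V)
    (a : zpowers α) {v : G} (hv : v ∈ V) : (zpowers α).subtype a v ∈ V := by
  obtain ⟨n, hn⟩ := (Submonoid.mem_powers_iff _ _).mp
    ((isOfFinOrder_of_finite α).mem_powers_iff_mem_zpowers.mpr a.2)
  show (a : MulAut G) v ∈ V
  rw [← hn]
  clear hn
  induction n with
  | zero => simpa using hv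
  | succ n ih => rw [pow_succ', MulAut.mul_apply]; exact hV _ ih

/-- The semidirect product of `G` with `⟨α⟩`. -/
abbrev Ext (α : MulAut G) := G ⋊[(zpowers α).subtype] zpowers α

omit [Finite G] in
theorem pow_comm_mem {α : MulAut G} {V : Subgroup G} {U : Set G} (hU : ∀ u ∈ U, α u ∈ U)
    (hV : ∀ u ∈ U, commMap α u ∈ V) (n : ℕ) : ∀ u ∈ U, u * ((α ^ n) u)⁻¹ ∈ V := by
  induction n with
  | zero => intro u _; simp
  | succ n ih =>
    intro u hu
    have h : u * ((α ^ (n + 1)) u)⁻¹ = commMap α u * (α u * ((α ^ n) (α u))⁻¹) := by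
      simp [commMap, pow_succ, mul_assoc]
    rw [h]
    exact V.mul_mem (hV u hu) (ih _ (hU u hu))

/-- The elements with left component in an invariant subgroup. -/
def leftSub (α : MulAut G) (V : Subgroup G) (hV : ∀ v ∈ V, α v ∈ V) : Subgroup (Ext α) where
  carrier := {x | x.left ∈ V}
  one_mem' := V.one_mem
  mul_mem' {x y} hx hy := by
    show (x * y).left ∈ V
    rw [SemidirectProduct.mul_left]
    exact V.mul_mem hx (zpowers_apply_mem hV _ hy)
  inv_mem' {x} hx := by
    show x⁻¹.left ∈ V
    rw [SemidirectProduct.inv_left]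
    exact zpowers_apply_mem hV _ (V.inv_mem hx)

omit [Finite G] in
theorem mul_comm' {α : MulAut G} (x y : zpowers α) : x * y = y * x :=
  IsMulCommutative.is_comm.comm x y

theorem mem_leftSub {α : MulAut G} {V : Subgroup G} {hV : ∀ v ∈ V, α v ∈ V} {x : Ext α} :
    x ∈ leftSub α V hV ↔ x.left ∈ V := Iff.rfl

end

open SemidirectProduct in
theorem iterate_generate (N : ℕ) : ∀ (G : Type u) [Group G] [Finite G] (α : MulAut G),
    Nat.card G ≤ N → closure (Set.range (commMap α)) = ⊤ → ∀ k : ℕ,
    closure (Set.range (commMap α)^[k]) = ⊤ := by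
  induction N with
  | zero =>
    intro G _ _ α hN
    have : 0 < Nat.card G := Nat.card_pos
    omega
  | succ N ih =>
  intro G _ _ α hN hG k
  set f := commMap α with hf
  set Hk := closure (Set.range f^[k]) with hHk
  by_contra hne
  have hcomm : ∀ j c, α (f^[j] c) = f^[j] (α c) := by
    intro j
    induction j with
    | zero => intro c; rfl
    | succ j ihj =>
      intro c
      rw [Function.iterate_succ_apply', Function.iterate_succ_apply', ← ihj, hf, commMap_apply_comm]
  have hHkα : ∀ v ∈ Hk, α v ∈ Hk := fun v hv => map_mem_closure_range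
    (by rintro _ ⟨c, rfl⟩; exact ⟨α c, by rw [hcomm]⟩) hv
  set t : Ext α := inr ⟨α, mem_zpowers α⟩ with ht
  set A : Subgroup (Ext α) := (inr : zpowers α →* Ext α).range with hA
  have hfin : Finite (Ext α) := Finite.of_equiv _ (SemidirectProduct.equivProd (φ := (zpowers α).subtype)).symm
  have htA : t ∈ A := ⟨_, rfl⟩
  have hconj : ∀ c : G, t * inl c * t⁻¹ = inl (α c) := fun c => by
    rw [ht, ← map_inv, ← inl_aut]; rfl
  have hfe : ∀ c : G, inl (f c) = inl c * t * (inl c)⁻¹ * t⁻¹ := by
    intro c
    have h : (inl (α c))⁻¹ = t * (inl c)⁻¹ * t⁻¹ := by rw [← hconj]; group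
    rw [hf, commMap, map_mul, map_inv, h]
    group
  have hncl : normalClosure (A : Set (Ext α)) = ⊤ := by
    rw [← top_le_iff]
    intro x _
    have hn : closure (Set.range f) ≤ (normalClosure (A : Set (Ext α))).comap inl := by
      refine (closure_le _).mpr ?_
      rintro _ ⟨c, rfl⟩
      show inl (f c) ∈ normalClosure (A : Set (Ext α))
      rw [hfe]
      exact mul_mem (normalClosure_normal.conj_mem _ (subset_normalClosure htA) _)
        (inv_mem (subset_normalClosure htA))
    rw [← inl_left_mul_inr_right x]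
    exact mul_mem (hn (hG ▸ mem_top x.left)) (subset_normalClosure ⟨_, rfl⟩)
  have hAt : A ≠ ⊤ := by
    intro e
    refine hne (top_le_iff.mp fun c _ => ?_)
    obtain ⟨s, hs⟩ := e.ge (mem_top (inl c : Ext α))
    have := congr_arg SemidirectProduct.left hs
    simp at this
    exact this ▸ one_mem _
  set R := leftSub α Hk hHkα with hR
  have hAR : A ≤ R := by
    rintro _ ⟨s, rfl⟩
    exact mem_leftSub.mpr (by simp)
  have hRt : R ≠ ⊤ := fun e => hne (top_le_iff.mp fun c _ => by
    simpa using mem_leftSub.mp (e ▸ mem_top (inl c : Ext α) : (inl c : Ext α) ∈ R))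
  have hfam : sSup (CfsgLib.Subnormal.fullFamily A) ≤ R := by
    refine sSup_le fun H ⟨hAH, hHt, hH⟩ => ?_
    set U : Subgroup G := H.comap inl with hU
    have hleft : ∀ x ∈ H, x.left ∈ U := by
      intro x hx
      show inl x.left ∈ H
      have h : inl x.left = x * (inr x.right)⁻¹ := by
        rw [eq_mul_inv_iff_mul_eq, inl_left_mul_inr_right]
      rw [h]
      exact mul_mem hx (inv_mem (hAH ⟨_, rfl⟩))
    have hUα : ∀ v ∈ U, α v ∈ U := fun v hv => by
      show inl (α v) ∈ H
      rw [← hconj]
      exact mul_mem (mul_mem (hAH htA) hv) (inv_mem (hAH htA))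
    have hlt : Nat.card U ≤ N := by
      rcases (Nat.le_of_dvd Nat.card_pos U.card_subgroup_dvd_card).lt_or_eq with hl | he
      · omega
      · refine absurd (top_le_iff.mp fun x _ => ?_) hHt
        rw [← inl_left_mul_inr_right x]
        exact mul_mem ((U.eq_top_of_card_eq he).ge (mem_top x.left)) (hAH ⟨_, rfl⟩)
    -- the restriction of `α`
    let β : MulAut U :=
      { toFun := fun v => ⟨α v, hUα v v.2⟩
        invFun := fun v => ⟨α.symm v, by
          have h := zpowers_apply_mem hUα ⟨α⁻¹, inv_mem (mem_zpowers α)⟩ v.2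
          exact h⟩
        left_inv := fun v => Subtype.ext (α.symm_apply_apply _)
        right_inv := fun v => Subtype.ext (α.apply_symm_apply _)
        map_mul' := fun v w => Subtype.ext (map_mul α _ _) }
    set V : Subgroup G := (closure (Set.range (commMap β))).map U.subtype with hV
    have hVe : V = closure (f '' (U : Set G)) := by
      rw [hV, MonoidHom.map_closure]
      congr 1
      ext y
      constructor
      · rintro ⟨_, ⟨v, rfl⟩, rfl⟩
        exact ⟨v, v.2, rfl⟩
      · rintro ⟨v, hv, rfl⟩
        exact ⟨_, ⟨⟨v, hv⟩, rfl⟩, rfl⟩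
    have hVα : ∀ v ∈ V, α v ∈ V := by
      rw [hVe]
      refine fun v hv => map_mem_closure_range ?_ hv
      rintro _ ⟨w, hw, rfl⟩
      exact ⟨α w, hUα w hw, by rw [hf, commMap_apply_comm]⟩
    have hVU : U ≤ V := by
      intro v hv
      have hsub : normalClosure ((A.subgroupOf H : Subgroup H) : Set H) ≤
          (leftSub α V hVα).subgroupOf H := by
        refine (closure_le _).mpr ?_
        intro y hy
        obtain ⟨a, ha, hay⟩ := Group.mem_conjugatesOfSet_iff.mp hy
        obtain ⟨h, hh⟩ := isConj_iff.mp hay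
        obtain ⟨s, hs⟩ := (mem_subgroupOf.mp ha)
        show ((y : H) : Ext α).left ∈ V
        rw [← hh]
        simp only [Subgroup.coe_mul, Subgroup.coe_inv, ← hs]
        obtain ⟨m, hm⟩ := (Submonoid.mem_powers_iff _ _).mp
          ((isOfFinOrder_of_finite α).mem_powers_iff_mem_zpowers.mpr s.2)
        have e : ((h : Ext α) * inr s * (h : Ext α)⁻¹).left =
            (h : Ext α).left * ((s : MulAut G) ((h : Ext α).left))⁻¹ := by
          have hz : (h : Ext α).right * s = s * (h : Ext α).right :=
            mul_comm' _ _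
          have e2 : (h : Ext α) * inr s * (h : Ext α)⁻¹ =
              inl ((h : Ext α).left * ((s : MulAut G) ((h : Ext α).left))⁻¹) * inr s := by
            generalize (h : Ext α) = x at hz ⊢
            have h1 : inl ((s : MulAut G) x.left) = inr s * inl x.left * inr s⁻¹ :=
              inl_aut (φ := (zpowers α).subtype) s x.left
            have h2 : (inr x.right : Ext α) * inr s = inr s * inr x.right := by
              rw [← map_mul, ← map_mul, hz]
            conv_lhs => rw [← inl_left_mul_inr_right x]
            rw [map_mul, map_inv, h1, mul_assoc (inl x.left), h2, map_inv inr s]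
            group
          rw [e2]
          simp
        rw [e, ← hm]
        refine pow_comm_mem (U := (U : Set G)) hUα (fun u hu => ?_) m _ (hleft _ h.2)
        rw [hVe]
        exact subset_closure ⟨u, hu, rfl⟩
      have hv' : (inl v : Ext α) ∈ H := hv
      have := hsub (hH.ge (mem_top (⟨inl v, hv'⟩ : H)))
      simpa using mem_leftSub.mp (mem_subgroupOf.mp this)
    have hβ : closure (Set.range (commMap β)) = ⊤ := by
      rw [← top_le_iff]
      intro v _
      obtain ⟨w, hw, hwv⟩ := hVU v.2
      exact Subtype.ext hwv ▸ hw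
    have hgen := ih U β hlt hβ k
    have hit : ∀ j (v : U), ((commMap β)^[j] v : G) = f^[j] (v : G) := by
      intro j
      induction j with
      | zero => intro v; rfl
      | succ j ihj =>
        intro v
        rw [Function.iterate_succ_apply', Function.iterate_succ_apply', ← ihj]
        rfl
    intro x hx
    have h1 : closure (Set.range (commMap β)^[k]) ≤ Hk.comap U.subtype := by
      refine (closure_le _).mpr ?_
      rintro _ ⟨v, rfl⟩
      show ((commMap β)^[k] v : G) ∈ Hk
      rw [hit]
      exact subset_closure ⟨_, rfl⟩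
    exact mem_leftSub.mpr (h1 (hgen.ge (mem_top ⟨x.left, hleft x hx⟩)))
  rcases CfsgLib.Subnormal.sSup_fullFamily_or_existsUnique hncl hAt with h | ⟨M, ⟨hM, hAM⟩, huniq⟩
  · exact hRt (top_le_iff.mp (h ▸ hfam))
  obtain ⟨M₁, hM₁, hRM₁⟩ := (eq_top_or_exists_le_coatom R).resolve_left hRt
  have hRM : R ≤ M := huniq M₁ ⟨hM₁, hAR.trans hRM₁⟩ ▸ hRM₁
  have hdesc : ∀ c : G, inl (f c) ∈ M → inl c ∈ M := by
    intro c hc
    have h1 : inl c * t * (inl c)⁻¹ ∈ M := by
      have h2 := mul_mem hc (hAM htA)
      rwa [hfe, inv_mul_cancel_right] at h2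
    have h3 : A ≤ MulAut.conj (inl c : Ext α)⁻¹ • M := by
      rintro _ ⟨s, rfl⟩
      obtain ⟨m, hm⟩ := (Submonoid.mem_powers_iff _ _).mp
        ((isOfFinOrder_of_finite α).mem_powers_iff_mem_zpowers.mpr s.2)
      have hs : (inr s : Ext α) = t ^ m := by
        rw [ht, ← map_pow]; congr 1; exact Subtype.ext hm.symm
      rw [hs]
      refine pow_mem ?_ m
      rw [map_inv, mem_inv_pointwise_smul_iff]
      exact h1
    exact inv_mem_iff.mp (CfsgLib.Subnormal.coatom_self_normalizing hncl hM hAM
      (huniq _ ⟨CfsgLib.Subnormal.smul_coatom hM _, h3⟩))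
  have hall : ∀ j c, inl (f^[j] c) ∈ M → inl c ∈ M := by
    intro j
    induction j with
    | zero => intro c h; exact h
    | succ j ihj =>
      intro c h
      rw [Function.iterate_succ_apply'] at h
      exact ihj c (hdesc _ h)
  refine hM.1 (top_le_iff.mp fun x _ => ?_)
  rw [← inl_left_mul_inr_right x]
  refine mul_mem (hall k _ (hRM (mem_leftSub.mpr ?_))) (hAM ⟨_, rfl⟩)
  exact subset_closure (Set.mem_range_self (f := f^[k]) x.left)


/-- Let G be a finite group and α an automorphism of G with [G, α] = G, that is, the elements g·α(g)⁻¹ generate G. Then for every k ≥ 1 the iterated commutators [g, α, …, α] with k entries α — the values of the k-th iterate of the map c ↦ c·α(c)⁻¹ — also generate G. -/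
theorem result {G : Type*} [Group G] [Finite G] (α : MulAut G) (hG : Subgroup.closure (Set.range (fun c : G => c * (α c)⁻¹)) = ⊤) (k : ℕ) (hk : 1 ≤ k) :
    Subgroup.closure (Set.range ((fun c : G => c * (α c)⁻¹)^[k])) = ⊤ := by
  exact iterate_generate (Nat.card G) G α le_rfl hG k

end Cfsg.Agent.S3927
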