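import Cfsg.Statements.S3949
import Mathlib

set_option autoImplicit false
open Cfsg

namespace Cfsg.Agent.S3949

/-- Let G be a finite group and α an automorphism of G of order 2 such that the elements g·α(g)⁻¹ generate G. Let j be a positive integer such that 2^j divides the order of no element inverted by α. Then the set of values of the j-th iterate of the map c ↦ c·α(c)⁻¹ is exactly the set of elements of odd order inverted by α. -/
theorem result {G : Type*} [Group G] [Finite G] (α : MulAut G) (hα : orderOf α = 2) (hG : Subgroup.closure (Set.range (fun c : G => c * (α c)⁻¹)) = ⊤)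
    (j : ℕ) (hj : ∀ g : G, α g = g⁻¹ → ¬ 2 ^ j ∣ orderOf g) :
    Set.range ((fun c : G => c * (α c)⁻¹)^[j]) = {g : G | Odd (orderOf g) ∧ α g = g⁻¹} := by
  have hinv : ∀ c : G, α (α c) = c := fun c => by
    have h2 := pow_orderOf_eq_one α
    rw [hα, pow_two] at h2
    simpa using congrArg (fun e : MulAut G => e c) h2
  have hj1 : 1 ≤ j := by
    by_contra h
    have := hj 1 (by simp)
    simp [show j = 0 by omega] at this
  have hf : ∀ c : G, α (c * (α c)⁻¹) = (c * (α c)⁻¹)⁻¹ := fun c => by simp [hinv]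
  have hit : ∀ (k : ℕ) (y : G), α y = y⁻¹ →
      (fun c : G => c * (α c)⁻¹)^[k] y = y ^ (2 ^ k) := by
    intro k
    induction k with
    | zero => intro y _; simp
    | succ k ih =>
      intro y hy
      rw [Function.iterate_succ_apply, hy, inv_inv, ← pow_two, ih _ (by rw [map_pow, hy, inv_pow]),
        ← pow_mul, pow_succ, Nat.mul_comm 2]
  obtain ⟨k, rfl⟩ : ∃ k, j = k + 1 := ⟨j - 1, by omega⟩
  ext x
  constructor
  · rintro ⟨c, rfl⟩
    rw [Function.iterate_succ_apply, hit k _ (hf c)]
    refine ⟨?_, by rw [map_pow, hf, inv_pow]⟩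
    set y := c * (α c)⁻¹ with hy
    obtain ⟨a, m, hm, hym⟩ := Nat.exists_eq_two_pow_mul_odd (orderOf_pos y).ne'
    have hak : a ≤ k := by
      by_contra h
      exact hj y (hf c) (by rw [hym]; exact (pow_dvd_pow 2 (by omega)).trans (dvd_mul_right _ _))
    have hd : orderOf (y ^ 2 ^ k) ∣ m := by
      rw [orderOf_dvd_iff_pow_eq_one, ← pow_mul, ← orderOf_dvd_iff_pow_eq_one, hym]
      exact Nat.mul_dvd_mul_right (pow_dvd_pow 2 hak) m
    exact hm.of_dvd_nat hd
  · rintro ⟨hodd, hx⟩
    obtain ⟨m, hm⟩ := exists_pow_eq_self_of_coprime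
      (x := x) (n := 2 ^ (k + 1)) (Nat.Coprime.pow_left _ (Nat.coprime_two_left.2 hodd))
    refine ⟨x ^ m, ?_⟩
    rw [hit (k + 1) _ (by rw [map_pow, hx, inv_pow]), ← pow_mul, Nat.mul_comm, pow_mul, hm]

end Cfsg.Agent.S3949
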