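import Cfsg.Statements.S3928
import Cfsg.Agent.InvertedBound.Main
import Cfsg.Agent.S3927
import Cfsg.Agent.S3949

set_option autoImplicit false
open Cfsg

namespace Cfsg.Agent.S3928

/-- There is a function f such that for every non-trivial finite group G and every automorphism α of G of order 2 with [G, α] = G (the elements g·α(g)⁻¹ generate G), the order of G is at most f(m), where m is the number of elements of odd order inverted by α. -/
theorem result : ∃ f : ℕ → ℕ, ∀ (G : Type) [Group G] [Finite G] [Nontrivial G] (α : MulAut G), orderOf α = 2 →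
    Subgroup.closure (Set.range (fun c : G => c * (α c)⁻¹)) = ⊤ →
      Nat.card G ≤ f (Nat.card {g : G // Odd (orderOf g) ∧ α g = g⁻¹}) := by
  choose B hB using CfsgLib.InvertedBound.exists_bounds.{0}
  refine ⟨B, fun G _ _ _ α hα hG => hB _ G α ⟨fun g => ?_, ?_⟩ le_rfl⟩
  · have h2 := pow_orderOf_eq_one α
    rw [hα, pow_two] at h2
    simpa using congrArg (fun e : MulAut G => e g) h2
  · obtain ⟨j, hj1, hj⟩ : ∃ j : ℕ, 1 ≤ j ∧ ∀ g : G, α g = g⁻¹ → ¬ 2 ^ j ∣ orderOf g :=
      ⟨Nat.card G + 1, by omega, fun g _ hd =>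
        absurd ((Nat.le_of_dvd (orderOf_pos g) hd).trans
          (Nat.le_of_dvd Nat.card_pos (orderOf_dvd_natCard g)))
          (not_le.2 ((Nat.lt_two_pow_self).trans (Nat.pow_lt_pow_right (by omega) (by omega))))⟩
    have h := Cfsg.Agent.S3927.result α hG j hj1
    rwa [Cfsg.Agent.S3949.result α hα hG j hj] at h

end Cfsg.Agent.S3928
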