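import Cfsg.Statements.S3933
import Cfsg.Agent.Chars.Apps.Burnside
import Mathlib.GroupTheory.Sylow
-- import your own Cfsg.Agent.* helpers here

set_option autoImplicit false
open Cfsg

namespace Cfsg.Agent.S3933

open scoped Pointwise

universe u

/-- The hypothesis: every Sylow number is a power of a prime. -/
abbrev SylowHyp (G : Type u) [Group G] : Prop :=
  ∀ (r : ℕ) [Fact r.Prime], ∃ p k : ℕ, p.Prime ∧ Nat.card (Sylow r G) = p ^ k

/-- Two subgroups of coprime index factorise the group. -/
theorem exists_mul_of_coprime {G : Type u} [Group G] [Finite G] (N M : Subgroup G)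
    (h : N.index.Coprime M.index) (g : G) : ∃ n ∈ N, n⁻¹ * g ∈ M := by
  haveI : M.FiniteIndex := inferInstance
  have h1 : M.relIndex N * N.index = (M ⊓ N).index := by
    rw [← Subgroup.inf_relIndex_right M N]
    exact Subgroup.relIndex_mul_index inf_le_right
  have h2 : M.index ∣ M.relIndex N := by
    have : M.index ∣ M.relIndex N * N.index := h1 ▸ Subgroup.index_dvd_of_le inf_le_left
    exact h.symm.dvd_of_dvd_mul_right this
  let f : N ⧸ M.subgroupOf N → G ⧸ M :=
    Quotient.map' (fun n : N => (n : G)) fun a b hab => by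
      rw [QuotientGroup.leftRel_apply] at hab ⊢
      exact hab
  have hf : Function.Injective f := by
    intro a b hab
    induction a using QuotientGroup.induction_on
    rename_i a
    induction b using QuotientGroup.induction_on
    rename_i b
    exact QuotientGroup.eq.mpr (QuotientGroup.eq.mp hab : ((a : G))⁻¹ * b ∈ M)
  have hcard : Nat.card (G ⧸ M) ≤ Nat.card (N ⧸ M.subgroupOf N) := by
    rw [← Subgroup.index_eq_card, ← Subgroup.index_eq_card]
    exact Nat.le_of_dvd (Nat.pos_of_ne_zero Subgroup.index_ne_zero_of_finite) h2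
  obtain ⟨b, hb⟩ := (hf.bijective_of_nat_card_le hcard).2 (g : G ⧸ M)
  induction b using QuotientGroup.induction_on
  rename_i n
  exact ⟨n, n.2, QuotientGroup.eq.mp hb⟩

theorem relIndex_dvd_index_right {G : Type u} [Group G] [Finite G] (P N : Subgroup G) [N.Normal] :
    P.relIndex N ∣ P.index := by
  have a := Subgroup.relIndex_mul_relIndex ⊥ P (P ⊔ N) bot_le le_sup_left
  have b := Subgroup.relIndex_mul_relIndex ⊥ N (P ⊔ N) bot_le le_sup_right
  have c := Subgroup.relIndex_mul_relIndex ⊥ (P ⊓ N) P bot_le inf_le_left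
  have d := Subgroup.relIndex_mul_relIndex ⊥ (P ⊓ N) N bot_le inf_le_right
  rw [Subgroup.inf_relIndex_left] at c
  rw [Subgroup.inf_relIndex_right] at d
  rw [Subgroup.relIndex_sup_right] at b
  simp only [Subgroup.relIndex_bot_left] at a b c d
  have hI : 0 < Nat.card (P ⊓ N : Subgroup G) := Nat.card_pos
  have hz : 0 < N.relIndex P := Nat.pos_of_ne_zero (by
    intro h
    rw [h, mul_zero] at c
    exact (Nat.card_pos (α := P)).ne c)
  have key : P.relIndex (P ⊔ N) = P.relIndex N := by
    apply Nat.eq_of_mul_eq_mul_left (Nat.mul_pos hI hz)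
    rw [c, a, ← b, ← c]
    rw [mul_comm _ (P.relIndex N)] at d
    rw [← d]; ring
  rw [← key]
  exact Subgroup.relIndex_dvd_index_of_le le_sup_left

theorem card_sylow_normal_dvd {G : Type u} [Group G] [Finite G] {r : ℕ} [Fact r.Prime]
    (N : Subgroup G) [N.Normal] : Nat.card (Sylow r N) ∣ Nat.card (Sylow r G) := by
  obtain ⟨P⟩ : Nonempty (Sylow r G) := inferInstance
  rw [P.card_eq_index_normalizer]
  -- the intersection with `N` is a Sylow subgroup of `N`
  set Q : Subgroup N := (P : Subgroup G).subgroupOf N with hQ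
  have hQp : IsPGroup r Q := P.isPGroup'.comap_of_injective N.subtype N.subtype_injective
  have hQi : ¬ r ∣ Q.index := by
    intro h
    have h1 : Q.index ∣ (P : Subgroup G).index := by
      show (P : Subgroup G).relIndex N ∣ _
      exact relIndex_dvd_index_right (P : Subgroup G) N
    exact P.not_dvd_index (h.trans h1)
  rw [(hQp.toSylow hQi).card_eq_index_normalizer]
  have hle : (Subgroup.normalizer ((P : Subgroup G) : Set G)).subgroupOf N ≤
      Subgroup.normalizer ((hQp.toSylow hQi : Subgroup N) : Set N) := by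
    intro x hx
    rw [Subgroup.mem_normalizer_iff]
    intro y
    exact Subgroup.mem_normalizer_iff.mp hx (y : G)
  refine (Subgroup.index_dvd_of_le hle).trans ?_
  exact relIndex_dvd_index_right _ N

theorem card_sylow_quotient_dvd {G : Type u} [Group G] [Finite G] {r : ℕ} [Fact r.Prime]
    (N : Subgroup G) [N.Normal] : Nat.card (Sylow r (G ⧸ N)) ∣ Nat.card (Sylow r G) := by
  obtain ⟨P⟩ : Nonempty (Sylow r G) := inferInstance
  rw [P.card_eq_index_normalizer]
  have hQp : IsPGroup r ((P : Subgroup G).map (QuotientGroup.mk' N)) := P.isPGroup'.map _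
  have hQi : ¬ r ∣ ((P : Subgroup G).map (QuotientGroup.mk' N)).index := fun h =>
    P.not_dvd_index (h.trans (Subgroup.index_map_dvd _ (QuotientGroup.mk'_surjective N)))
  rw [(hQp.toSylow hQi).card_eq_index_normalizer]
  exact (Subgroup.index_dvd_of_le (Subgroup.le_normalizer_map _)).trans
    (Subgroup.index_map_dvd _ (QuotientGroup.mk'_surjective N))

theorem main : ∀ (n : ℕ) (G : Type u) [Group G] [Finite G], Nat.card G = n → SylowHyp G →
    Group.IsSolvable G := by
  intro n
  induction n using Nat.strong_induction_on with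
  | _ n ih =>
  intro G _ _ hcard hG
  subst hcard
  have hdvd : ∀ {a : ℕ → ℕ}, (∀ (r : ℕ) [Fact r.Prime], a r ∣ Nat.card (Sylow r G)) →
      ∀ (r : ℕ) [Fact r.Prime], ∃ p k : ℕ, p.Prime ∧ a r = p ^ k := by
    intro a ha r _
    obtain ⟨p, k, hp, hk⟩ := hG r
    obtain ⟨j, -, hj⟩ := (Nat.dvd_prime_pow hp).mp (hk ▸ ha r)
    exact ⟨p, j, hp, hj⟩
  by_cases hex : ∃ N : Subgroup G, N.Normal ∧ N ≠ ⊥ ∧ N ≠ ⊤
  · obtain ⟨N, hN, hb, ht⟩ := hex
    have hprod := N.card_eq_card_quotient_mul_card_subgroup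
    have h1 : 1 < Nat.card N := (Subgroup.one_lt_card_iff_ne_bot N).mpr hb
    have h2 : 1 < Nat.card (G ⧸ N) := by
      have h0 : N.index ≠ 1 := fun h => ht (Subgroup.index_eq_one.mp h)
      have h0' : N.index ≠ 0 := Subgroup.index_ne_zero_of_finite
      rw [← Subgroup.index_eq_card]
      omega
    have hNs : Group.IsSolvable N := ih _ (by rw [hprod]; nlinarith) N rfl fun r hr =>
      @hdvd (fun r => Nat.card (Sylow r N)) (fun r _ => card_sylow_normal_dvd N) r hr
    have hQs : Group.IsSolvable (G ⧸ N) := ih _ (by rw [hprod]; nlinarith) (G ⧸ N) rfl fun r hr =>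
      @hdvd (fun r => Nat.card (Sylow r (G ⧸ N))) (fun r _ => card_sylow_quotient_dvd N) r hr
    exact Group.isSolvable_of_ker_le_range N.subtype (QuotientGroup.mk' N)
      (by rw [QuotientGroup.ker_mk', Subgroup.range_subtype])
  push Not at hex
  by_cases hab : IsMulCommutative G
  · exact Group.isSolvable_of_comm fun a b => mul_comm' a b
  classical
  -- the map attached to the hypothesis
  have hσ : ∀ r : ℕ, ∃ p : ℕ, ∀ [Fact r.Prime], r ∣ Nat.card G →
      p.Prime ∧ p ≠ r ∧ ∀ P : Sylow r G, ∃ k, (Subgroup.normalizer ((P : Subgroup G) : Set G)).index = p ^ k ∧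
        p ∣ Nat.card G ∧ Subgroup.normalizer ((P : Subgroup G) : Set G) ≠ ⊤ := by
    intro r
    by_cases hr : r.Prime ∧ r ∣ Nat.card G
    swap
    · exact ⟨0, fun {hf} hd => absurd ⟨hf.out, hd⟩ hr⟩
    haveI := Fact.mk hr.1
    obtain ⟨p, k, hp, hk⟩ := hG r
    refine ⟨p, fun {_} _ => ⟨hp, ?_, fun P => ⟨k, ?_⟩⟩⟩
    · rintro rfl
      obtain ⟨P⟩ : Nonempty (Sylow p G) := inferInstance
      haveI : Nontrivial (P : Subgroup G) :=
        (Subgroup.nontrivial_iff_ne_bot _).mpr (P.ne_bot_of_dvd_card hr.2)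
      have hk0 : k = 0 := by
        by_contra h0
        exact not_dvd_card_sylow p G (hk ▸ dvd_pow_self p h0)
      replace hk : (Subgroup.normalizer ((P : Subgroup G) : Set G)).index = p ^ k :=
        P.card_eq_index_normalizer.symm.trans hk
      rw [hk0, pow_zero, Subgroup.index_eq_one, Subgroup.normalizer_eq_top_iff] at hk
      rcases (hex (P : Subgroup G) hk) (P.ne_bot_of_dvd_card hr.2) with h
      exact hab ⟨⟨fun a b => by
        have hp' : IsPGroup p G := by
          have := P.isPGroup'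
          rw [h] at this
          exact this.of_equiv Subgroup.topEquiv
        haveI := hp'.isNilpotent
        haveI : Nontrivial G := Finite.one_lt_card_iff_nontrivial.mp
          (lt_of_lt_of_le hr.1.one_lt (Nat.le_of_dvd Nat.card_pos hr.2))
        haveI := hp'.center_nontrivial
        rcases eq_or_ne (Subgroup.center G) ⊤ with hc | hc
        · exact (Subgroup.mem_center_iff.mp (hc ▸ Subgroup.mem_top b) a)
        · exact absurd (hex _ inferInstance ((Subgroup.nontrivial_iff_ne_bot _).mp inferInstance)) hc⟩⟩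
    · have hne : Subgroup.normalizer ((P : Subgroup G) : Set G) ≠ ⊤ := by
        intro htop
        have hPn := Subgroup.normalizer_eq_top_iff.mp htop
        have h := hex (P : Subgroup G) hPn (P.ne_bot_of_dvd_card hr.2)
        have hp' : IsPGroup r G := by
          have := P.isPGroup'
          rw [h] at this
          exact this.of_equiv Subgroup.topEquiv
        haveI : Nontrivial G := Finite.one_lt_card_iff_nontrivial.mp
          (lt_of_lt_of_le hr.1.one_lt (Nat.le_of_dvd Nat.card_pos hr.2))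
        haveI := hp'.center_nontrivial
        exact hab ⟨⟨fun a b => Subgroup.mem_center_iff.mp
          ((hex _ (inferInstance : (Subgroup.center G).Normal)
            ((Subgroup.nontrivial_iff_ne_bot _).mp inferInstance)) ▸ Subgroup.mem_top b) a⟩⟩
      have hidx : (Subgroup.normalizer ((P : Subgroup G) : Set G)).index = p ^ k := by
        exact P.card_eq_index_normalizer.symm.trans hk
      refine ⟨hidx, ?_, hne⟩
      rcases Nat.eq_zero_or_pos k with rfl | hk'
      · exact absurd (Subgroup.index_eq_one.mp (by rw [hidx, pow_zero])) hne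
      · exact (dvd_pow_self p hk'.ne').trans (hidx ▸ Subgroup.index_dvd_card _)
  choose σ hσ using hσ
  -- two suitable normalisers contradict simplicity
  have key : ∀ r x : ℕ, r.Prime → r ∣ Nat.card G → x.Prime → x ∣ Nat.card G →
      σ x = r ∨ σ x = σ r := by
    intro r x hr hrd hx hxd
    haveI := Fact.mk hr
    haveI := Fact.mk hx
    by_contra hcon
    push Not at hcon
    obtain ⟨R⟩ : Nonempty (Sylow r G) := inferInstance
    obtain ⟨X⟩ : Nonempty (Sylow x G) := inferInstance
    obtain ⟨hpr, -, hR⟩ := hσ r hrd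
    obtain ⟨hpx, -, hX⟩ := hσ x hxd
    obtain ⟨k, hk, -, -⟩ := hR R
    obtain ⟨l, hl, -, hne⟩ := hX X
    set N := Subgroup.normalizer ((R : Subgroup G) : Set G) with hNdef
    set M := Subgroup.normalizer ((X : Subgroup G) : Set G) with hMdef
    have hcop : N.index.Coprime M.index := by
      rw [hk, hl]
      exact Nat.Coprime.pow _ _ ((Nat.coprime_primes hpr hpx).mpr (Ne.symm hcon.2))
    -- a conjugate of `R` lies in `M`
    obtain ⟨P⟩ : Nonempty (Sylow r M) := inferInstance
    have hPcard : Nat.card ((P : Subgroup M).map M.subtype) = Nat.card (R : Subgroup G) := by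
      rw [Subgroup.card_map_of_injective M.subtype_injective, P.card_eq_multiplicity,
        R.card_eq_multiplicity, ← M.card_mul_index, Nat.factorization_mul Nat.card_pos.ne'
          Subgroup.index_ne_zero_of_finite, hl]
      simp [hpx.factorization_pow, hcon.1]
    let R' : Sylow r G := Sylow.ofCard ((P : Subgroup M).map M.subtype)
      (by rw [hPcard, R.card_eq_multiplicity])
    obtain ⟨g, hg⟩ := MulAction.exists_smul_eq G R R'
    have hg' : ∀ y ∈ (R : Subgroup G), g * y * g⁻¹ ∈ M := by
      intro y hy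
      have : g * y * g⁻¹ ∈ ((g • R : Sylow r G) : Subgroup G) := ⟨y, hy, by simp⟩
      rw [hg] at this
      obtain ⟨z, -, hz⟩ := this
      exact hz ▸ z.2
    -- all conjugates lie in `M`
    have hall : ∀ (u : G), ∀ y ∈ (R : Subgroup G), u * y * u⁻¹ ∈ M := by
      intro u y hy
      obtain ⟨n, hn, hm⟩ := exists_mul_of_coprime N M hcop g⁻¹
      obtain ⟨n', hn', hm'⟩ := exists_mul_of_coprime N M hcop u⁻¹
      have h1 : (n'⁻¹ * u⁻¹)⁻¹ * (n⁻¹ * g⁻¹) * (g * (n * (n'⁻¹ * y * n'⁻¹⁻¹) * n⁻¹) * g⁻¹) *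
          ((n'⁻¹ * u⁻¹)⁻¹ * (n⁻¹ * g⁻¹))⁻¹ ∈ M := by
        have hA := hg' _ ((Subgroup.mem_normalizer_iff.mp hn _).mp
          ((Subgroup.mem_normalizer_iff.mp (N.inv_mem hn') y).mp hy))
        have hB : (n'⁻¹ * u⁻¹)⁻¹ * (n⁻¹ * g⁻¹) ∈ M := M.mul_mem (M.inv_mem hm') hm
        exact M.mul_mem (M.mul_mem hB hA) (M.inv_mem hB)
      have e : u * y * u⁻¹ = (n'⁻¹ * u⁻¹)⁻¹ * (n⁻¹ * g⁻¹) *
          (g * (n * (n'⁻¹ * y * n'⁻¹⁻¹) * n⁻¹) * g⁻¹) *
          ((n'⁻¹ * u⁻¹)⁻¹ * (n⁻¹ * g⁻¹))⁻¹ := by group
      rw [e]; exact h1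
    have hcl : Subgroup.normalClosure ((R : Subgroup G) : Set G) ≤ M := by
      rw [Subgroup.normalClosure, Subgroup.closure_le]
      intro y hy
      obtain ⟨z, hz, hzy⟩ := Group.mem_conjugatesOfSet_iff.mp hy
      obtain ⟨u, rfl⟩ := isConj_iff.mp hzy
      exact hall u z hz
    refine hne (top_le_iff.mp ?_)
    refine le_trans (le_of_eq ?_) hcl
    refine (hex _ Subgroup.normalClosure_normal fun hb => ?_).symm
    exact R.ne_bot_of_dvd_card hrd (le_bot_iff.mp (hb ▸ Subgroup.le_normalClosure))
  -- hence there are at most two primes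
  have himage : ∀ r : ℕ, r.Prime → r ∣ Nat.card G → ∃ x, x.Prime ∧ x ∣ Nat.card G ∧ σ x = r := by
    intro r hr hrd
    haveI := Fact.mk hr
    obtain ⟨hp, hpne, hR⟩ := hσ r hrd
    obtain ⟨-, -, hpd, -⟩ := hR Classical.ofNonempty
    haveI := Fact.mk hp
    obtain ⟨-, hne2, -⟩ := hσ (σ r) hpd
    rcases key r (σ r) hr hrd hp hpd with h | h
    · exact ⟨σ r, hp, hpd, h⟩
    · exact absurd h hne2
  by_cases hone : Nat.card G = 1
  · haveI := (Nat.card_eq_one_iff_unique.mp hone).1
    exact absurd (⟨⟨fun a b => Subsingleton.elim _ _⟩⟩ : IsMulCommutative G) hab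
  obtain ⟨r, hr, hrd⟩ := Nat.exists_prime_and_dvd hone
  haveI := Fact.mk hr
  obtain ⟨hp, -, -⟩ := hσ r hrd
  refine CfsgLib.Chars.Apps.isSolvable_of_primeFactors_subset G hr hp fun t ht htd => ?_
  obtain ⟨x, hx, hxd, rfl⟩ := himage t ht htd
  exact key r x hr hrd hx hxd

/-- If for every prime r the number of Sylow r-subgroups of the finite group G is a prime power or 1, then G is solvable. -/
theorem result {G : Type*} [Group G] [Finite G] (h : ∀ (r : ℕ) [Fact r.Prime], Nat.card (Sylow r G) = 1 ∨ IsPrimePow (Nat.card (Sylow r G))) :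
    Group.IsSolvable G := by
  refine main _ G rfl fun r hr => ?_
  rcases @h r hr with h1 | h1
  · exact ⟨2, 0, Nat.prime_two, by rw [h1, pow_zero]⟩
  · obtain ⟨p, k, hp, -, e⟩ := h1
    exact ⟨p, k, hp.nat_prime, e.symm⟩

end Cfsg.Agent.S3933
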