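import Cfsg.Statements.S3937
import Cfsg.Agent.Subnormal.Zipper
import Cfsg.Agent.Constrained.Fitting
import Cfsg.Agent.FStar.SelfCentralizing

set_option autoImplicit false
open Cfsg

namespace Cfsg.Agent.S3937

open scoped commutatorElement

open scoped Pointwise in
theorem isSubnormal_zpowers_of_engel (n : ℕ) : ∀ (G : Type*) [Group G] [Finite G], Nat.card G ≤ n → ∀ g : G,
    (∀ x : G, ∃ k : ℕ, (fun c => c * g * c⁻¹ * g⁻¹)^[k] x = 1) → (Subgroup.zpowers g).IsSubnormal := by
  induction n using Nat.strong_induction_on with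
  | _ n ih =>
  intro G _ _ hn g hg
  by_contra hns
  have hprop : ∀ H : Subgroup G, H ≠ ⊤ → Subgroup.zpowers g ≤ H →
      ((Subgroup.zpowers g).subgroupOf H).IsSubnormal := by
    intro H hH hle
    have hlt : Nat.card H < n := lt_of_lt_of_le (lt_of_le_of_ne (H.card_le_card_group)
      (fun e => hH (Subgroup.eq_top_of_card_eq H e))) hn
    have hgH : g ∈ H := hle (Subgroup.mem_zpowers g)
    have key : ∀ (k : ℕ) (x : H), (((fun c : H => c * ⟨g, hgH⟩ * c⁻¹ * (⟨g, hgH⟩ : H)⁻¹)^[k] x : H) : G)
        = (fun c : G => c * g * c⁻¹ * g⁻¹)^[k] x := by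
      intro k x
      exact Function.Semiconj.iterate_right (f := ((↑) : H → G))
        (ga := fun c : H => c * ⟨g, hgH⟩ * c⁻¹ * (⟨g, hgH⟩ : H)⁻¹)
        (gb := fun c : G => c * g * c⁻¹ * g⁻¹) (fun c => by simp) k x
    have h := ih _ hlt H le_rfl ⟨g, hgH⟩ (fun x => by
      obtain ⟨k, hk⟩ := hg x
      exact ⟨k, Subtype.ext ((key k x).trans hk)⟩)
    have e : (Subgroup.zpowers g).subgroupOf H = Subgroup.zpowers (⟨g, hgH⟩ : H) := by
      apply Subgroup.map_injective H.subtype_injective
      rw [Subgroup.map_subgroupOf_eq_of_le hle, MonoidHom.map_zpowers]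
      rfl
    rw [e]; exact h
  obtain ⟨M, ⟨hM, hAM⟩, huniq⟩ := CfsgLib.Subnormal.existsUnique_coatom_of_not_isSubnormal hprop hns
  have hMn : ¬ M.Normal := fun h =>
    hns (CfsgLib.Subnormal.trans_of_le hAM (hprop M hM.1 hAM) h.isSubnormal)
  obtain ⟨x, -, hx⟩ := SetLike.exists_of_lt hM.1.lt_top
  obtain ⟨k, hk⟩ := hg x
  have step : ∀ (k : ℕ) (x : G), x ∉ M → (fun c => c * g * c⁻¹ * g⁻¹)^[k] x ∉ M := by
    intro k
    induction k with
    | zero => intro x hx; simpa using hx
    | succ k ihk =>
      intro x hx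
      rw [Function.iterate_succ_apply]
      refine ihk _ fun hmem => hx ?_
      have h1 : x * g * x⁻¹ ∈ M := by
        have := M.mul_mem hmem (hAM (Subgroup.mem_zpowers g))
        simpa using this
      have hA : Subgroup.zpowers g ≤ MulAut.conj x⁻¹ • M := by
        rw [Subgroup.zpowers_le, Subgroup.mem_pointwise_smul_iff_inv_smul_mem]
        simpa [MulAut.smul_def] using h1
      have hco : IsCoatom (MulAut.conj x⁻¹ • M) := by
        have := (OrderIso.isCoatom_iff (MulAut.conj x⁻¹).mapSubgroup M).mpr hM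
        exact this
      have he : MulAut.conj x⁻¹ • M = M := huniq _ ⟨hco, hA⟩
      have hxN : x⁻¹ ∈ Subgroup.normalizer (M : Set G) :=
        CfsgLib.Subnormal.mem_normalizer_of_conj_le he.le
      have hNM : Subgroup.normalizer (M : Set G) = M := by
        rcases eq_or_ne (Subgroup.normalizer (M : Set G)) M with h | h
        · exact h
        · exact absurd (Subgroup.normalizer_eq_top_iff.mp
            (hM.2 _ (lt_of_le_of_ne Subgroup.le_normalizer (Ne.symm h)))) hMn
      rw [hNM] at hxN
      simpa using hxN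
  exact step k x hx (hk ▸ M.one_mem)

theorem foldl_replicate_eq {G : Type*} [Group G] (g : G) : ∀ (k : ℕ) (x : G),
    (List.replicate k g).foldl (fun a b => a * b * a⁻¹ * b⁻¹) x = (fun c => c * g * c⁻¹ * g⁻¹)^[k] x
  | 0, x => rfl
  | k + 1, x => by
    rw [List.replicate_succ, List.foldl_cons, Function.iterate_succ_apply]
    exact foldl_replicate_eq g k _


/-- Baer's characterization of the Fitting subgroup: in a finite group G, an element g lies in the Fitting subgroup if and only if g is a left Engel element, that is, for every x there is n with [x, g, g, …, g] = 1 (n entries g, [a, b] = aba⁻¹b⁻¹). -/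
theorem result {G : Type*} [Group G] [Finite G] (g : G) :
    g ∈ Cfsg.fittingSubgroup G ↔ ∀ x : G, ∃ n : ℕ, (List.replicate n g).foldl (fun a b => a * b * a⁻¹ * b⁻¹) x = 1 := by
  simp_rw [foldl_replicate_eq]
  constructor
  · intro hg x
    haveI := CfsgLib.Constrained.isNilpotent_fitting (G := G)
    set F := Cfsg.fittingSubgroup G
    haveI hFn : F.Normal := CfsgLib.Constrained.instNormalFitting
    obtain ⟨m, hm⟩ := Subgroup.nilpotent_iff_lowerCentralSeries.mp (inferInstance : Group.IsNilpotent ↥F)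
    have h1 : x * g * x⁻¹ * g⁻¹ ∈ F := F.mul_mem (hFn.conj_mem g hg x) (F.inv_mem hg)
    have key : ∀ k, ∃ y : F, y ∈ (⊤ : Subgroup F).lowerCentralSeries k ∧
        (y : G) = (fun c => c * g * c⁻¹ * g⁻¹)^[k] (x * g * x⁻¹ * g⁻¹) := by
      intro k
      induction k with
      | zero => exact ⟨⟨_, h1⟩, by simp, rfl⟩
      | succ k ih =>
        obtain ⟨y, hy, he⟩ := ih
        refine ⟨⁅y, (⟨g, hg⟩ : F)⁆, Subgroup.commutator_mem_commutator hy (Subgroup.mem_top _), ?_⟩
        rw [Function.iterate_succ_apply', ← he]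
        simp [commutatorElement_def]
    obtain ⟨y, hy, he⟩ := key m
    refine ⟨m + 1, ?_⟩
    rw [Function.iterate_succ_apply, ← he]
    rw [hm, Subgroup.mem_bot] at hy
    rw [hy, Subgroup.coe_one]
  · intro h
    exact CfsgLib.FStar.le_fittingSubgroup_of_isSubnormal (hnil := by
      letI : CommGroup (Subgroup.zpowers g) := IsCyclic.commGroup
      exact CommGroup.isNilpotent) (isSubnormal_zpowers_of_engel (Nat.card G) G le_rfl g h)
      (Subgroup.mem_zpowers g)

end Cfsg.Agent.S3937
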