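import Cfsg.Statements.S3939
import Cfsg.Agent.Constrained.Fitting
import Cfsg.Agent.PGroup.Normal

set_option autoImplicit false
open Cfsg

namespace Cfsg.Agent.S3939

open scoped commutatorElement

theorem commute_of_nilpotent_coprime {H : Type*} [Group H] [Finite H] [Group.IsNilpotent H]
    {p q : ℕ} [Fact p.Prime] [Fact q.Prime] (hne : p ≠ q) {a b : H}
    (ha : ∃ k : ℕ, a ^ p ^ k = 1) (hb : ∃ k : ℕ, b ^ q ^ k = 1) : Commute a b := by
  have h : ∀ (r : ℕ) [Fact r.Prime] (R : Sylow r H), (R : Subgroup H).Normal := by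
    intro r _ R
    exact (List.TFAE.out (Group.isNilpotent_of_finite_tfae (G := H)) 0 3 rfl rfl).mp inferInstance r inferInstance R
  have hmem : ∀ (r : ℕ) [Fact r.Prime] (R : Sylow r H) (c : H), (∃ k : ℕ, c ^ r ^ k = 1) → c ∈ (R : Subgroup H) := by
    intro r _ R c hc
    obtain ⟨k, hk⟩ := hc
    have hp : IsPGroup r (Subgroup.zpowers c) := by
      rintro ⟨y, hy⟩
      obtain ⟨i, rfl⟩ := Subgroup.mem_zpowers_iff.mp hy
      refine ⟨k, Subtype.ext ?_⟩
      rw [Subgroup.coe_pow, Subgroup.coe_one, ← zpow_natCast, ← zpow_mul, mul_comm, zpow_mul, zpow_natCast, hk, one_zpow]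
    obtain ⟨R', hR'⟩ := hp.exists_le_sylow
    haveI := h r R
    haveI : Subsingleton (Sylow r H) := (Sylow.unique_of_normal R (h r R)).instSubsingleton
    rw [Subsingleton.elim R R']
    exact hR' (Subgroup.mem_zpowers c)
  let P : Sylow p H := default
  let Q : Sylow q H := default
  exact Subgroup.commute_of_normal_of_disjoint _ _ (h p P) (h q Q)
    (P.isPGroup'.disjoint_of_ne p q hne _ _ Q.isPGroup') a b (hmem p P a ha) (hmem q Q b hb)

variable {G : Type*} [Group G]

theorem engelNilp_of_mem_upper [Finite G] {g : G} {n : ℕ} (hg : g ∈ Subgroup.upperCentralSeries G n) (x : G) :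
    Group.IsNilpotent ↥(Subgroup.closure ({x, g} : Set G)) := by
  set H := Subgroup.closure ({x, g} : Set G) with hH
  have hle : ∀ m, (Subgroup.upperCentralSeries G m).subgroupOf H ≤ Subgroup.upperCentralSeries H m := by
    intro m
    induction m with
    | zero => intro y hy; rw [Subgroup.upperCentralSeries_zero, Subgroup.mem_subgroupOf, Subgroup.mem_bot] at hy; simpa using hy
    | succ m ih =>
      intro y hy
      rw [Subgroup.mem_upperCentralSeries_succ_iff]
      intro z
      exact ih (Subgroup.mem_subgroupOf.mpr (Subgroup.mem_upperCentralSeries_succ_iff.mp hy z))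
  let Z := Subgroup.upperCentralSeries H n
  have hgH : g ∈ H := Subgroup.subset_closure (by simp)
  have hxH : x ∈ H := Subgroup.subset_closure (by simp)
  have hgZ : (⟨g, hgH⟩ : H) ∈ Z := hle n (Subgroup.mem_subgroupOf.mpr hg)
  refine ⟨⟨n + 1, ?_⟩⟩
  rw [Subgroup.eq_top_iff']
  intro y
  rw [Subgroup.mem_upperCentralSeries_succ_iff]
  intro z
  have hcomm : ∀ a : H, ∃ i : ℤ, (a : H ⧸ Z) = ((⟨x, hxH⟩ : H) : H ⧸ Z) ^ i := by
    rintro ⟨a, ha⟩
    induction ha using Subgroup.closure_induction with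
    | mem a ha =>
      rcases ha with rfl | rfl
      · exact ⟨1, by simp⟩
      · exact ⟨0, by rw [zpow_zero]; exact (QuotientGroup.eq_one_iff _).mpr hgZ⟩
    | one => exact ⟨0, by rw [zpow_zero]; rfl⟩
    | mul a b ha hb h1 h2 =>
      obtain ⟨i, hi⟩ := h1; obtain ⟨j, hj⟩ := h2
      exact ⟨i + j, by rw [zpow_add, ← hi, ← hj]; rfl⟩
    | inv a ha h1 =>
      obtain ⟨i, hi⟩ := h1
      exact ⟨-i, by rw [zpow_neg, ← hi]; rfl⟩
  obtain ⟨i, hi⟩ := hcomm y
  obtain ⟨j, hj⟩ := hcomm z
  rw [← QuotientGroup.eq_one_iff]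
  change ((y * z * y⁻¹ * z⁻¹ : H) : H ⧸ Z) = 1
  rw [QuotientGroup.mk_mul, QuotientGroup.mk_mul, QuotientGroup.mk_mul, QuotientGroup.mk_inv,
    QuotientGroup.mk_inv, hi, hj]
  group

theorem hyper_of_engelNilp [Finite G] {g : G}
    (h : ∀ x : G, Group.IsNilpotent ↥(Subgroup.closure ({x, g} : Set G))) :
    g ∈ ⨆ n : ℕ, Subgroup.upperCentralSeries G n := by
  classical
  obtain ⟨m, hm⟩ := WellFoundedGT.monotone_chain_condition
    ⟨Subgroup.upperCentralSeries G, Subgroup.upperCentralSeries_mono G⟩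
  simp only [OrderHom.coe_mk] at hm
  set Z := Subgroup.upperCentralSeries G m with hZ
  refine (le_iSup (fun n => Subgroup.upperCentralSeries G n) m) ?_
  have hZ1 : ∀ w : G, (∀ v : G, ⁅w, v⁆ ∈ Z) → w ∈ Z := by
    intro w hw
    show w ∈ Subgroup.upperCentralSeries G m
    rw [← hZ, hm (m + 1) (Nat.le_succ m)]
    exact Subgroup.mem_upperCentralSeries_succ_iff.mpr hw
  let S : Set G := {y | ∀ x : G, Group.IsNilpotent ↥(Subgroup.closure ({x, y} : Set G))}
  have hpow : ∀ y ∈ S, ∀ i : ℤ, y ^ i ∈ S := by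
    intro y hy i x
    haveI := hy x
    have hle : Subgroup.closure ({x, y ^ i} : Set G) ≤ Subgroup.closure ({x, y} : Set G) := by
      rw [Subgroup.closure_le]
      rintro w (rfl | rfl)
      · exact Subgroup.subset_closure (by simp)
      · exact Subgroup.zpow_mem _ (Subgroup.subset_closure (by simp)) i
    exact Group.nilpotent_of_mulEquiv (Subgroup.subgroupOfEquivOfLe hle)
  have hconj : ∀ y ∈ S, ∀ u : G, u * y * u⁻¹ ∈ S := by
    intro y hy u x
    haveI := hy (u⁻¹ * x * u)
    have e : (Subgroup.closure ({u⁻¹ * x * u, y} : Set G)).map (MulAut.conj u).toMonoidHom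
        = Subgroup.closure ({x, u * y * u⁻¹} : Set G) := by
      rw [MonoidHom.map_closure]
      congr 1
      simp [Set.image_pair, mul_assoc]
    rw [← e]
    exact Group.nilpotent_of_mulEquiv ((Subgroup.closure ({u⁻¹ * x * u, y} : Set G)).equivMapOfInjective (MulAut.conj u).toMonoidHom (MulAut.conj u).injective)
  have main : ∀ (p : ℕ) [Fact p.Prime] (y : G) (P : Sylow p G), y ∈ S → y ∈ (P : Subgroup G) → y ∈ Z := by
    intro p _ y P hy hyP
    have hcent : ∀ w ∈ S, w ∈ (P : Subgroup G) → ∀ (q : ℕ) [Fact q.Prime], q ≠ p → ∀ (Q : Sylow q G),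
        ∀ v ∈ (Q : Subgroup G), Commute w v := by
      intro w hw hwP q _ hqp Q v hv
      haveI := hw v
      obtain ⟨k, hk⟩ := P.isPGroup' ⟨w, hwP⟩
      obtain ⟨l, hl⟩ := Q.isPGroup' ⟨v, hv⟩
      have hk' : w ^ p ^ k = 1 := congrArg Subtype.val hk
      have hl' : v ^ q ^ l = 1 := congrArg Subtype.val hl
      have := commute_of_nilpotent_coprime (H := ↥(Subgroup.closure ({v, w} : Set G))) (p := p) (q := q)
        (Ne.symm hqp) (a := ⟨w, Subgroup.subset_closure (by simp)⟩) (b := ⟨v, Subgroup.subset_closure (by simp)⟩)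
        ⟨k, Subtype.ext hk'⟩ ⟨l, Subtype.ext hl'⟩
      exact congrArg Subtype.val this
    let N : Subgroup G := Subgroup.closure {w | ∃ u ∈ (P : Subgroup G), w = u * y * u⁻¹}
    have hNP : N ≤ (P : Subgroup G) := by
      rw [Subgroup.closure_le]
      rintro w ⟨u, hu, rfl⟩
      exact Subgroup.mul_mem _ (Subgroup.mul_mem _ hu hyP) (Subgroup.inv_mem _ hu)
    have hyN : y ∈ N := Subgroup.subset_closure ⟨1, one_mem _, by simp⟩
    have hNcent : ∀ n ∈ N, ∀ (q : ℕ) [Fact q.Prime], q ≠ p → ∀ (Q : Sylow q G),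
        ∀ v ∈ (Q : Subgroup G), Commute n v := by
      intro n hn q _ hqp Q v hv
      have : N ≤ Subgroup.centralizer {v} := by
        rw [Subgroup.closure_le]
        rintro w ⟨u, hu, rfl⟩
        rw [SetLike.mem_coe, Subgroup.mem_centralizer_singleton_iff]
        exact hcent _ (hconj y hy u) (Subgroup.mul_mem _ (Subgroup.mul_mem _ hu hyP) (Subgroup.inv_mem _ hu)) q hqp Q v hv
      exact Subgroup.mem_centralizer_singleton_iff.mp (this hn)
    have hPN : ∀ u ∈ (P : Subgroup G), ∀ n ∈ N, u * n * u⁻¹ ∈ N := by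
      intro u hu n hn
      have : N ≤ N.comap (MulAut.conj u).toMonoidHom := by
        rw [Subgroup.closure_le]
        rintro w ⟨u', hu', rfl⟩
        exact Subgroup.subset_closure ⟨u * u', Subgroup.mul_mem _ hu hu', by simp [mul_assoc]⟩
      exact this hn
    let π := QuotientGroup.mk' Z
    by_contra hyZ
    let Pb : Subgroup (G ⧸ Z) := (P : Subgroup G).map π
    let Nb : Subgroup (G ⧸ Z) := N.map π
    haveI hNn : (Nb.subgroupOf Pb).Normal := by
      constructor
      rintro ⟨a, ha⟩ han ⟨b, hb⟩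
      obtain ⟨b', hb', rfl⟩ := hb
      obtain ⟨a', ha', rfl⟩ := Subgroup.mem_subgroupOf.mp han
      exact Subgroup.mem_subgroupOf.mpr ⟨b' * a' * b'⁻¹, hPN b' hb' a' ha', by simp [π]⟩
    have hne : Nb.subgroupOf Pb ≠ ⊥ := by
      intro h0
      have : (⟨π y, Subgroup.mem_map_of_mem π hyP⟩ : Pb) ∈ Nb.subgroupOf Pb :=
        Subgroup.mem_subgroupOf.mpr (Subgroup.mem_map_of_mem π hyN)
      rw [h0, Subgroup.mem_bot] at this
      exact hyZ ((QuotientGroup.eq_one_iff y).mp (congrArg Subtype.val this))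
    obtain ⟨⟨z, hzP⟩, hz, hz1⟩ := (Subgroup.bot_or_exists_ne_one _).resolve_left
      (CfsgLib.PGroup.inf_center_ne_bot (P.isPGroup'.map π) (Nb.subgroupOf Pb) hne)
    obtain ⟨n, hn, rfl⟩ := Subgroup.mem_subgroupOf.mp hz.1
    have htop : (Subgroup.centralizer {π n}).comap π = ⊤ := by
      refine CfsgLib.Constrained.eq_top_of_forall_sylow_le _ fun q hq => ?_
      haveI : Fact q.Prime := ⟨hq⟩
      by_cases hqp : q = p
      · subst hqp
        refine ⟨P, fun v hv => ?_⟩
        rw [Subgroup.mem_comap, Subgroup.mem_centralizer_singleton_iff]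
        exact congrArg Subtype.val (Subgroup.mem_center_iff.mp hz.2 ⟨π v, Subgroup.mem_map_of_mem π hv⟩)
      · refine ⟨default, fun v hv => ?_⟩
        rw [Subgroup.mem_comap, Subgroup.mem_centralizer_singleton_iff, ← map_mul, ← map_mul,
          (hNcent n hn q hqp default v hv).eq]
    apply hz1
    refine Subtype.ext ((QuotientGroup.eq_one_iff n).mpr (hZ1 n fun v => ?_))
    rw [← QuotientGroup.eq_one_iff]
    have hv : v ∈ (Subgroup.centralizer {π n}).comap π := htop ▸ Subgroup.mem_top v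
    rw [Subgroup.mem_comap, Subgroup.mem_centralizer_singleton_iff] at hv
    change π ⁅n, v⁆ = 1
    rw [map_commutatorElement, commutatorElement_eq_one_iff_commute]
    exact hv.symm
  have htop : Z.subgroupOf (Subgroup.zpowers g) = ⊤ := by
    refine CfsgLib.Constrained.eq_top_of_forall_sylow_le _ fun q hq => ?_
    haveI : Fact q.Prime := ⟨hq⟩
    refine ⟨default, fun v hv => ?_⟩
    obtain ⟨i, hi⟩ := Subgroup.mem_zpowers_iff.mp v.2
    obtain ⟨P, hP⟩ := ((default : Sylow q (Subgroup.zpowers g)).isPGroup'.map (Subgroup.zpowers g).subtype).exists_le_sylow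
    exact Subgroup.mem_subgroupOf.mpr (main q (v : G) P (hi ▸ hpow g h i) (hP ⟨v, hv, rfl⟩))
  exact Subgroup.subgroupOf_eq_top.mp htop (Subgroup.mem_zpowers g)


/-- In a finite group G the set of elements g such that the subgroup generated by g and x is nilpotent for every x ∈ G is exactly the hypercenter of G (the last term of the upper central series). -/
theorem result {G : Type*} [Group G] [Finite G] (g : G) :
    (∀ x : G, Group.IsNilpotent ↥(Subgroup.closure ({x, g} : Set G))) ↔ g ∈ ⨆ n : ℕ, Subgroup.upperCentralSeries G n := by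
  refine ⟨hyper_of_engelNilp, fun hg x => ?_⟩
  rw [Subgroup.mem_iSup_of_directed (Monotone.directed_le (Subgroup.upperCentralSeries_mono G))] at hg
  obtain ⟨n, hn⟩ := hg
  exact engelNilp_of_mem_upper hn x

end Cfsg.Agent.S3939
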