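import Cfsg.Statements.S3941
import Mathlib

set_option autoImplicit false
open Cfsg

namespace Cfsg.Agent.S3941

/-- Let n ≥ 5 and p an odd prime with p ≤ n, and suppose that every proper subgroup of the alternating group of degree n whose order is divisible by p has a normal Sylow p-subgroup. Then n = p. -/
theorem result (n p : ℕ) (hn : 5 ≤ n) [Fact p.Prime] (hp : p ≠ 2) (hpn : p ≤ n)
    (h : ∀ H : Subgroup ↥(alternatingGroup (Fin n)), H ≠ ⊤ → p ∣ Nat.card ↥H → Cfsg.IsPClosed p ↥H) : n = p := by
  classical
  by_contra hne
  have hlt : p < n := lt_of_le_of_ne hpn (fun e => hne e.symm)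
  obtain ⟨m, rfl⟩ : ∃ m, n = m + 1 := ⟨n - 1, by omega⟩
  have hpr : p.Prime := Fact.out
  let e : Fin m ↪ Fin (m + 1) := Fin.castSuccEmb
  let φ : Equiv.Perm (Fin m) →* Equiv.Perm (Fin (m + 1)) :=
    Equiv.Perm.viaEmbeddingHom e
  have hφ : Function.Injective φ := Equiv.Perm.viaEmbeddingHom_injective e
  have hsign : ∀ s : alternatingGroup (Fin m), φ s ∈ alternatingGroup (Fin (m + 1)) := fun s => by
    have hs := s.2
    rw [Equiv.Perm.mem_alternatingGroup] at hs ⊢
    simpa [φ, Equiv.Perm.viaEmbeddingHom_apply, Equiv.Perm.viaEmbedding,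
      Equiv.Perm.sign_extendDomain] using hs
  let ψ : alternatingGroup (Fin m) →* alternatingGroup (Fin (m + 1)) :=
    (φ.comp (alternatingGroup (Fin m)).subtype).codRestrict _ hsign
  have hψ : Function.Injective ψ := fun a b hab => by
    have := congrArg Subtype.val hab
    exact Subtype.ext (hφ this)
  haveI : Nontrivial (Fin m) := Fin.nontrivial_iff_two_le.2 (by omega)
  haveI : Nontrivial (Fin (m + 1)) := Fin.nontrivial_iff_two_le.2 (by omega)
  have hc1 := two_mul_nat_card_alternatingGroup (α := Fin m)
  have hc2 := two_mul_nat_card_alternatingGroup (α := Fin (m + 1))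
  rw [Nat.card_perm, Nat.card_fin] at hc1 hc2
  have hcard : Nat.card ψ.range = Nat.card (alternatingGroup (Fin m)) :=
    (Nat.card_congr (MonoidHom.ofInjective hψ).toEquiv).symm
  have hproper : ψ.range ≠ ⊤ := by
    intro htop
    rw [htop, Subgroup.card_top] at hcard
    rw [Nat.factorial_succ] at hc2
    have := Nat.factorial_pos m
    rw [hcard] at hc2
    nlinarith
  have hdiv : p ∣ Nat.card (alternatingGroup (Fin m)) := by
    have : p ∣ 2 * Nat.card (alternatingGroup (Fin m)) := by
      rw [hc1]; exact Nat.dvd_factorial hpr.pos (by omega)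
    exact ((hpr.dvd_mul).1 this).resolve_left fun h2 => hp ((Nat.prime_dvd_prime_iff_eq hpr Nat.prime_two).1 h2)
  have hclosed : ∀ P : Sylow p (alternatingGroup (Fin m)), (P : Subgroup (alternatingGroup (Fin m))).Normal := by
    intro P
    have := h ψ.range hproper (hcard ▸ hdiv)
    haveI : Subsingleton (Sylow p ψ.range) := by
      obtain ⟨P0⟩ : Nonempty (Sylow p ψ.range) := inferInstance
      exact @Unique.instSubsingleton _ (Sylow.unique_of_normal P0 (this P0))
    let E := MonoidHom.ofInjective hψ
    have hs : Subsingleton (Sylow p (alternatingGroup (Fin m))) := by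
      have h1 : Function.Injective fun Q : Sylow p (alternatingGroup (Fin m)) =>
          Q.comapOfInjective (E.symm.toMonoidHom) E.symm.injective
            (by rw [MonoidHom.range_eq_top.2 E.symm.surjective]; exact le_top) := by
        intro Q R hQR
        have := congrArg (fun T : Sylow p ψ.range => (T : Subgroup ψ.range)) hQR
        simp only [Sylow.coe_comapOfInjective] at this
        exact Sylow.ext (Subgroup.comap_injective E.symm.surjective this)
      exact h1.subsingleton
    exact Sylow.normal_of_subsingleton P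
  obtain ⟨P⟩ : Nonempty (Sylow p (alternatingGroup (Fin m))) := inferInstance
  haveI := hclosed P
  have hPtop : (P : Subgroup (alternatingGroup (Fin m))) = ⊤ := by
    rcases Nat.lt_or_ge m 5 with hm5 | hm5
    · have hp3 : p = 3 := by
        have := hpr.two_le
        have h4 : p ≤ 4 := by omega
        interval_cases p <;> first | rfl | omega | (norm_num at hpr)
      subst hp3
      rw [eq_top_iff]
      rintro ⟨s, hs⟩ -
      rw [← Equiv.Perm.closure_three_cycles_eq_alternating] at hs
      have hs' : s ∈ (P : Subgroup (alternatingGroup (Fin m))).map (alternatingGroup (Fin m)).subtype := by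
        refine (Subgroup.closure_le _).2 ?_ hs
        intro c hc
        refine ⟨⟨c, hc.mem_alternatingGroup⟩, ?_, rfl⟩
        have hpg : IsPGroup 3 (Subgroup.zpowers (⟨c, hc.mem_alternatingGroup⟩ : alternatingGroup (Fin m))) := by
          refine IsPGroup.of_card (n := 1) ?_
          rw [Nat.card_zpowers, Subgroup.orderOf_mk, hc.orderOf, pow_one]
        obtain ⟨Q, hQ⟩ := hpg.exists_le_sylow
        haveI := hclosed Q
        haveI := (Sylow.unique_of_normal P (hclosed P))
        rw [Subsingleton.elim P Q]
        exact hQ (Subgroup.mem_zpowers _)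
      obtain ⟨t, ht, hts⟩ := hs'
      have : t = ⟨s, by rw [← hts]; exact t.2⟩ := Subtype.ext hts
      exact this ▸ ht
    · haveI : IsSimpleGroup (alternatingGroup (Fin m)) :=
        alternatingGroup.isSimpleGroup (by simpa using hm5)
      rcases Subgroup.Normal.eq_bot_or_eq_top (hclosed P) with hb | ht
      · have := P.dvd_card_of_dvd_card hdiv
        rw [hb, Subgroup.card_bot] at this
        exact absurd (Nat.dvd_one.1 this) hpr.ne_one
      · exact ht
  obtain ⟨k, hk⟩ := P.isPGroup'.exists_card_eq
  rw [hPtop, Subgroup.card_top] at hk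
  have h2 : 2 ∣ Nat.card (alternatingGroup (Fin m)) := by
    have h4 : 4 ∣ Nat.factorial m := (show 4 ∣ Nat.factorial 4 by decide).trans
      (Nat.factorial_dvd_factorial (by omega))
    rw [← hc1] at h4
    omega
  rw [hk] at h2
  exact hp ((Nat.prime_dvd_prime_iff_eq Nat.prime_two hpr).1 (Nat.prime_two.dvd_of_dvd_pow h2)).symm

end Cfsg.Agent.S3941
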