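import Cfsg.Statements.S3966
import Mathlib

set_option autoImplicit false
open Cfsg
open scoped commutatorElement

namespace Cfsg.Agent.S3966

/-- For even `n ≥ 2` the dicyclic group of order `4 n` is a stem extension of the dihedral group of order `2 n` with kernel of order `2`: there is a surjective homomorphism `QuaternionGroup n →* DihedralGroup n` whose kernel is central, lies in the commutator subgroup and has two elements. Together with the order of the multiplier this exhibits the dicyclic group as a Schur covering group of the dihedral group. -/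
theorem result (n : ℕ) [NeZero n] (hn : Even n) : ∃ σ : QuaternionGroup n →* DihedralGroup n, Cfsg.IsStemExtension σ ∧ Nat.card σ.ker = 2 := by
  let c : ZMod (2 * n) →+* ZMod n := ZMod.castHom (dvd_mul_left n 2) _
  have hcn : c (n : ZMod (2 * n)) = 0 := by rw [map_natCast, ZMod.natCast_self]
  let σ : QuaternionGroup n →* DihedralGroup n :=
    { toFun := fun x => match x with
        | .a i => .r (c i)
        | .xa i => .sr (c i)
      map_one' := by
        rw [QuaternionGroup.one_def, DihedralGroup.one_def]
        simp
      map_mul' := by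
        rintro (i | i) (j | j) <;>
          simp [map_sub, map_add, hcn] }
  have hsurj : Function.Surjective σ := by
    rintro (i | i)
    · obtain ⟨k, hk⟩ := ZMod.castHom_surjective (dvd_mul_left n 2) i
      exact ⟨.a k, congrArg DihedralGroup.r hk⟩
    · obtain ⟨k, hk⟩ := ZMod.castHom_surjective (dvd_mul_left n 2) i
      exact ⟨.xa k, congrArg DihedralGroup.sr hk⟩
  have hcard : Nat.card σ.ker = 2 := by
    have h1 := Subgroup.card_mul_index σ.ker
    rw [Subgroup.index_ker, MonoidHom.range_eq_top.2 hsurj, Subgroup.card_top,
      DihedralGroup.nat_card, Nat.card_eq_fintype_card (α := QuaternionGroup n), QuaternionGroup.card] at h1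
    have := NeZero.pos n
    nlinarith
  have hmem : (QuaternionGroup.a (n : ZMod (2 * n))) ∈ σ.ker := by
    rw [MonoidHom.mem_ker, DihedralGroup.one_def]
    exact congrArg DihedralGroup.r hcn
  have hne : (QuaternionGroup.a (n : ZMod (2 * n))) ≠ 1 := by
    rw [QuaternionGroup.one_def, ne_eq, QuaternionGroup.a.injEq, ZMod.natCast_eq_zero_iff]
    intro h
    have := Nat.le_of_dvd (NeZero.pos n) h
    have := NeZero.pos n
    omega
  haveI : Fact (Nat.Prime 2) := ⟨Nat.prime_two⟩
  have hall : ∀ x ∈ σ.ker, x = 1 ∨ x = QuaternionGroup.a (n : ZMod (2 * n)) := by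
    intro x hx
    by_contra h
    push_neg at h
    have h3 : ({1, QuaternionGroup.a (n : ZMod (2 * n)), x} : Finset (QuaternionGroup n)).card = 3 := by
      rw [Finset.card_eq_three]
      exact ⟨_, _, _, hne.symm, Ne.symm h.1, Ne.symm h.2, rfl⟩
    have h4 : ({1, QuaternionGroup.a (n : ZMod (2 * n)), x} : Finset (QuaternionGroup n)).card ≤ 2 := by
      refine le_trans ?_ hcard.le
      rw [Nat.card_eq_fintype_card, ← Fintype.card_coe]
      refine Fintype.card_le_of_injective (fun y => ⟨y.1, ?_⟩) (fun y z hyz => ?_)
      · have := y.2
        simp only [Finset.mem_insert, Finset.mem_singleton] at this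
        rcases this with h | h | h <;> rw [h]
        · exact σ.ker.one_mem
        · exact hmem
        · exact hx
      · exact Subtype.ext (congrArg (fun w => w.1) hyz :)
    omega
  refine ⟨σ, ⟨hsurj, ?_, ?_⟩, hcard⟩
  · intro x hx
    rw [Subgroup.mem_center_iff]
    rcases hall x hx with rfl | rfl
    · simp
    · rintro (i | i)
      · simp [add_comm]
      · simp only [QuaternionGroup.xa_mul_a, QuaternionGroup.a_mul_xa, QuaternionGroup.xa.injEq]
        have h2n : ((2 * n : ℕ) : ZMod (2 * n)) = 0 := ZMod.natCast_self _
        push_cast at h2n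
        linear_combination h2n
  · intro x hx
    rcases hall x hx with rfl | rfl
    · exact Subgroup.one_mem _
    · obtain ⟨k, hk⟩ := hn
      have : QuaternionGroup.a (n : ZMod (2 * n)) = ⁅QuaternionGroup.a (k : ZMod (2 * n)), QuaternionGroup.xa 0⁆ := by
        rw [commutatorElement_def]
        rw [show (QuaternionGroup.a (k : ZMod (2 * n)))⁻¹ = QuaternionGroup.a (-(k : ZMod (2 * n))) from rfl,
          show (QuaternionGroup.xa (0 : ZMod (2 * n)))⁻¹ = QuaternionGroup.xa ((n : ZMod (2 * n)) + 0) from rfl]
        simp only [QuaternionGroup.a_mul_xa, QuaternionGroup.xa_mul_a, QuaternionGroup.xa_mul_xa,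
          QuaternionGroup.a.injEq]
        have hn' : (n : ZMod (2 * n)) = k + k := by rw [← Nat.cast_add, ← hk]
        have h2n : ((2 * n : ℕ) : ZMod (2 * n)) = 0 := ZMod.natCast_self _
        push_cast at h2n
        linear_combination hn' - h2n
      rw [this]
      exact Subgroup.commutator_mem_commutator (Subgroup.mem_top _) (Subgroup.mem_top _)

end Cfsg.Agent.S3966
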