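import Cfsg.Statements.S3982
-- import your own Cfsg.Agent.* helpers here
import Mathlib
import Cfsg.Agent.Coprime.Sylow

set_option autoImplicit false
open Cfsg

namespace Cfsg.Agent.S3982

/-- Let p be an odd prime and G a finite group of even order divisible by p in which the centralizer of every non-identity p-element has odd order. If some nontrivial p-subgroup of G has a normalizer of even order, then the normalizer of every Sylow p-subgroup of G has even order. -/
theorem result {G : Type*} [Group G] [Finite G] (p : ℕ) [Fact p.Prime] (hp2 : p ≠ 2) (hpG : p ∣ Nat.card G) (h2G : 2 ∣ Nat.card G) (hC : ∀ g : G, g ≠ 1 → (∃ k : ℕ, orderOf g = p ^ k) → Odd (Nat.card ↥(Subgroup.centralizer ({g} : Set G)))) (Q : Subgroup G) (hQ : IsPGroup p ↥Q) (hQ1 : Q ≠ ⊥) (hev : Even (Nat.card ↥(Subgroup.normalizer (Q : Set G)))) (P : Sylow p G) : Even (Nat.card ↥(Subgroup.normalizer ((P : Subgroup G) : Set G))) := by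
  classical
  have hpp : p.Prime := Fact.out
  obtain ⟨R, ⟨hR, hR1, hRev⟩, hmax⟩ := (Set.toFinite {R : Subgroup G | IsPGroup p R ∧ R ≠ ⊥ ∧
    Even (Nat.card (Subgroup.normalizer (R : Set G)))}).exists_maximal ⟨Q, hQ, hQ1, hev⟩
  obtain ⟨S, hRS⟩ := hR.exists_le_sylow
  suffices hSR : (S : Subgroup G) = R by
    obtain ⟨g, hg⟩ := MulAction.exists_smul_eq G S P
    have e : (P : Subgroup G) = R.map (MulAut.conj g).toMonoidHom := by
      rw [← hg, Sylow.coe_subgroup_smul, ← hSR]; rfl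
    have h1 := congrArg (fun H : Subgroup G => Nat.card (Subgroup.normalizer (H : Set G))) e
    have e2 : (Subgroup.normalizer (R : Set G)).map (MulAut.conj g).toMonoidHom =
        Subgroup.normalizer ((R.map (MulAut.conj g).toMonoidHom : Subgroup G) : Set G) :=
      Subgroup.map_equiv_normalizer_eq R (MulAut.conj g)
    rw [h1, ← e2, Subgroup.card_map_of_injective (MulAut.conj g).injective]
    exact hRev
  by_contra hne
  -- a `p`-element of `N(R)` outside `R`
  obtain ⟨x, hxS, hxN, hxR⟩ : ∃ x ∈ (S : Subgroup G), x ∈ Subgroup.normalizer (R : Set G) ∧ x ∉ R := by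
    haveI : Group.IsNilpotent (S : Subgroup G) := S.2.isNilpotent
    have hlt : R.subgroupOf (S : Subgroup G) < ⊤ := lt_top_iff_ne_top.2 fun h => hne
      (le_antisymm (fun y hy => by
        have : (⟨y, hy⟩ : (S : Subgroup G)) ∈ R.subgroupOf (S : Subgroup G) := h ▸ Subgroup.mem_top _
        exact this) hRS)
    obtain ⟨y, hy, hyn⟩ := SetLike.exists_of_lt
      (Group.normalizerCondition_of_isNilpotent (G := (S : Subgroup G)) _ hlt)
    refine ⟨y, y.2, ?_, fun h => hyn h⟩
    rw [Subgroup.mem_normalizer_iff]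
    intro z
    constructor
    · intro hz
      exact (Subgroup.mem_normalizer_iff.1 hy ⟨z, hRS hz⟩).1 hz
    · intro hz
      have hzS : z ∈ (S : Subgroup G) := by
        have h1 := (S : Subgroup G).mul_mem ((S : Subgroup G).mul_mem (inv_mem y.2) (hRS hz)) y.2
        rwa [show (y : G)⁻¹ * ((y : G) * z * (y : G)⁻¹) * y = z by group] at h1
      exact (Subgroup.mem_normalizer_iff.1 hy ⟨z, hzS⟩).2 hz
  haveI : Fact (Nat.Prime 2) := ⟨Nat.prime_two⟩
  obtain ⟨t, ht⟩ := exists_prime_orderOf_dvd_card' 2 (G := ↥(Subgroup.normalizer (R : Set G)))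
    (even_iff_two_dvd.1 hRev)
  have ht2 : (t : G) * t = 1 := by
    have := congrArg Subtype.val (show t * t = 1 by rw [← pow_two, ← ht, pow_orderOf_eq_one])
    simpa using this
  have hRodd : ∀ r ∈ R, r ≠ 1 → Odd (Nat.card (Subgroup.centralizer ({r} : Set G))) := by
    intro r hr hr1
    obtain ⟨k, hk⟩ := IsPGroup.iff_orderOf.1 hR ⟨r, hr⟩
    exact hC r hr1 ⟨k, by rwa [Subgroup.orderOf_mk] at hk⟩
  -- `t` inverts `R`
  have htn : ∀ r ∈ R, (t : G) * r * (t : G)⁻¹ ∈ R := fun r hr =>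
    (Subgroup.mem_normalizer_iff.1 t.2 r).1 hr
  let φ : ↥R →* ↥R := MonoidHom.mk' (fun r => ⟨(t : G) * r * (t : G)⁻¹, htn r r.2⟩)
    fun a b => Subtype.ext (by simp only [Subgroup.coe_mul]; group)
  have hfpf : MonoidHom.FixedPointFree φ := by
    intro r hr
    by_contra hr1
    have hr' : (t : G) * r * (t : G)⁻¹ = r := congrArg Subtype.val hr
    have hmem : (t : G) ∈ Subgroup.centralizer ({(r : G)} : Set G) := by
      rw [Subgroup.mem_centralizer_singleton_iff]
      exact mul_inv_eq_iff_eq_mul.1 hr'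
    have h2 : orderOf (⟨t, hmem⟩ : ↥(Subgroup.centralizer ({(r : G)} : Set G))) = 2 := by
      rw [Subgroup.orderOf_mk, Subgroup.orderOf_coe]; exact ht
    have h3 := orderOf_dvd_natCard (⟨t, hmem⟩ : ↥(Subgroup.centralizer ({(r : G)} : Set G)))
    rw [h2] at h3
    exact Nat.not_even_iff_odd.2 (hRodd r r.2 fun h => hr1 (Subtype.ext h)) (even_iff_two_dvd.2 h3)
  have hinvol : Function.Involutive φ := fun r => Subtype.ext (by
    show (t : G) * ((t : G) * r * (t : G)⁻¹) * (t : G)⁻¹ = r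
    calc (t : G) * ((t : G) * r * (t : G)⁻¹) * (t : G)⁻¹
        = ((t : G) * t) * r * ((t : G) * t)⁻¹ := by group
      _ = r := by rw [ht2]; group)
  have hinv : ∀ r ∈ R, (t : G) * r * (t : G)⁻¹ = r⁻¹ := fun r hr =>
    congrArg Subtype.val (congrFun (MonoidHom.FixedPointFree.coe_eq_inv_of_involutive hfpf hinvol) ⟨r, hr⟩)
  set L := Subgroup.centralizer (R : Set G) with hL
  obtain ⟨r₀, hr₀, hr₀1⟩ : ∃ r ∈ R, r ≠ 1 := by
    by_contra h
    push Not at h
    exact hR1 ((Subgroup.eq_bot_iff_forall R).2 h)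
  have hLodd : Odd (Nat.card L) := by
    refine (hRodd r₀ hr₀ hr₀1).of_dvd_nat (Subgroup.card_dvd_of_le fun l hl => ?_)
    rw [Subgroup.mem_centralizer_singleton_iff]
    exact (Subgroup.mem_centralizer_iff.1 hl r₀ hr₀).symm
  have hNL : Subgroup.normalizer (R : Set G) ≤ Subgroup.normalizer (L : Set G) := by
    have key : ∀ n ∈ Subgroup.normalizer (R : Set G), ∀ l ∈ L, n * l * n⁻¹ ∈ L := by
      intro n hn l hl
      rw [hL, Subgroup.mem_centralizer_iff]
      intro r hr
      have hr' : n⁻¹ * r * n ∈ R := by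
        simpa using (Subgroup.mem_normalizer_iff.1 (inv_mem hn) r).1 hr
      calc r * (n * l * n⁻¹) = n * ((n⁻¹ * r * n) * l) * n⁻¹ := by group
        _ = n * (l * (n⁻¹ * r * n)) * n⁻¹ := by rw [Subgroup.mem_centralizer_iff.1 hl _ hr']
        _ = n * l * n⁻¹ * r := by group
    intro n hn
    rw [Subgroup.mem_normalizer_iff]
    refine fun l => ⟨key n hn l, fun hl => ?_⟩
    simpa [mul_assoc] using key n⁻¹ (inv_mem hn) _ hl
  set H := L ⊔ Subgroup.zpowers x with hH
  have hxnL : Subgroup.zpowers x ≤ Subgroup.normalizer (L : Set G) :=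
    (Subgroup.zpowers_le.2 hxN).trans hNL
  have hHN : H ≤ Subgroup.normalizer (R : Set G) :=
    sup_le (Subgroup.centralizer_le_normalizer _) (Subgroup.zpowers_le.2 hxN)
  have hHdec : ∀ s ∈ H, ∃ l ∈ L, ∃ i : ℤ, l * x ^ i = s := by
    intro s hs
    rw [hH, ← SetLike.mem_coe, Subgroup.coe_mul_of_right_le_normalizer_left L _ hxnL] at hs
    obtain ⟨l, hl, _, ⟨i, rfl⟩, rfl⟩ := Set.mem_mul.1 hs
    exact ⟨l, hl, i, rfl⟩
  obtain ⟨k, hk⟩ := IsPGroup.iff_orderOf.1 S.2 ⟨x, hxS⟩
  rw [Subgroup.orderOf_mk] at hk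
  have hHodd : Odd (Nat.card H) := by
    rw [← Nat.not_even_iff_odd]
    intro hev'
    obtain ⟨s, hs⟩ := exists_prime_orderOf_dvd_card' 2 (G := ↥H) (even_iff_two_dvd.1 hev')
    obtain ⟨l, hl, i, hli⟩ := hHdec s s.2
    have hs2 : (s : G) * s = 1 := by
      have := congrArg Subtype.val (show s * s = 1 by rw [← pow_two, ← hs, pow_orderOf_eq_one])
      simpa using this
    have hconj : x ^ i * l * (x ^ i)⁻¹ ∈ L :=
      (Subgroup.mem_normalizer_iff.1 (hxnL ⟨i, rfl⟩) l).1 hl
    have h2i : x ^ i * x ^ i ∈ L := by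
      have h1 : x ^ i * x ^ i = (l * (x ^ i * l * (x ^ i)⁻¹))⁻¹ * ((s : G) * s) := by
        rw [← hli]; group
      rw [h1, hs2, mul_one]
      exact L.inv_mem (L.mul_mem hl hconj)
    have hxi : x ^ i ∈ L := by
      obtain ⟨m, hm⟩ : Odd (p ^ k) := (hpp.odd_of_ne_two hp2).pow
      have h1 : (x ^ i) ^ (p ^ k) = 1 := by
        rw [← zpow_natCast, ← zpow_mul, mul_comm, zpow_mul, zpow_natCast, ← hk,
          pow_orderOf_eq_one, one_zpow]
      rw [hm, pow_succ, pow_mul, pow_two] at h1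
      rw [eq_inv_of_mul_eq_one_right h1]
      exact L.inv_mem (L.pow_mem h2i m)
    have hsL : (s : G) ∈ L := hli ▸ L.mul_mem hl hxi
    have h3 := L.orderOf_dvd_natCard hsL
    rw [Subgroup.orderOf_coe, hs] at h3
    exact Nat.not_even_iff_odd.2 hLodd (even_iff_two_dvd.2 h3)
  have htL : (t : G) ∈ Subgroup.normalizer (L : Set G) := hNL t.2
  have htx : (t : G) * x * (t : G)⁻¹ * x⁻¹ ∈ L := by
    rw [hL, Subgroup.mem_centralizer_iff]
    intro r hr
    have hr1 : x⁻¹ * r * x ∈ R := by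
      simpa using (Subgroup.mem_normalizer_iff.1 (inv_mem hxN) r).1 hr
    have h1 : (t : G)⁻¹ * r * t = r⁻¹ := by
      have h := hinv r hr
      rwa [inv_eq_of_mul_eq_one_right ht2] at h ⊢
    have h2 := hinv _ (R.inv_mem hr1)
    rw [inv_inv] at h2
    have h3 : x * ((t : G)⁻¹ * (x⁻¹ * r * x) * t) * x⁻¹ = r⁻¹ := by
      have h4 := hinv _ hr1
      rw [inv_eq_of_mul_eq_one_right ht2] at h4 ⊢
      rw [h4]; group
    calc r * ((t : G) * x * (t : G)⁻¹ * x⁻¹)
        = (t : G) * (((t : G)⁻¹ * r * t) * x * (t : G)⁻¹ * x⁻¹) := by group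
      _ = (t : G) * ((x * ((t : G)⁻¹ * (x⁻¹ * r * x) * t) * x⁻¹) * x * (t : G)⁻¹ * x⁻¹) := by
          rw [h1, h3]
      _ = (t : G) * x * (t : G)⁻¹ * x⁻¹ * r := by group
  have hHinv : Subgroup.zpowers (t : G) ≤ Subgroup.normalizer (H : Set G) := by
    rw [Subgroup.zpowers_le]
    have key : ∀ s ∈ H, (t : G) * s * (t : G)⁻¹ ∈ H := by
      intro s hs
      obtain ⟨l, hl, i, rfl⟩ := hHdec s hs
      rw [show (t : G) * (l * x ^ i) * (t : G)⁻¹ =
        ((t : G) * l * (t : G)⁻¹) * ((t : G) * x * (t : G)⁻¹) ^ i by rw [conj_zpow]; group]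
      refine H.mul_mem (le_sup_left (b := Subgroup.zpowers x)
        ((Subgroup.mem_normalizer_iff.1 htL l).1 hl)) (H.zpow_mem ?_ i)
      rw [show (t : G) * x * (t : G)⁻¹ = ((t : G) * x * (t : G)⁻¹ * x⁻¹) * x by group]
      exact Subgroup.mul_mem_sup htx (Subgroup.mem_zpowers x)
    rw [Subgroup.mem_normalizer_iff]
    refine fun s => ⟨key s, fun hs => ?_⟩
    have h := key _ hs
    rwa [show (t : G) * ((t : G) * s * (t : G)⁻¹) * (t : G)⁻¹ = ((t : G) * t) * s * ((t : G) * t)⁻¹ by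
      group, ht2, one_mul, inv_one, mul_one] at h
  have hcop : (Nat.card (Subgroup.zpowers (t : G))).Coprime (Nat.card H) := by
    rw [Nat.card_zpowers, Subgroup.orderOf_coe, ht]
    exact Nat.coprime_two_left.2 hHodd
  obtain ⟨T, hT⟩ := CfsgLib.Coprime.exists_invariant_sylow (p := p) hHinv hcop
    (Or.inl (CfsgLib.Coprime.isSolvable_zpowers _))
  set U := (T : Subgroup H).map H.subtype
  have hRL : R ≤ H := by
    intro r hr
    refine Subgroup.mem_sup_left ?_
    rw [hL, Subgroup.mem_centralizer_iff]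
    intro s hs
    exact congrArg Subtype.val
      (MonoidHom.FixedPointFree.commute_all_of_involutive hfpf hinvol ⟨s, hs⟩ ⟨r, hr⟩).eq
  have hRU : R ≤ U := by
    haveI : (R.subgroupOf H).Normal := ⟨fun r hr h => by
      rw [Subgroup.mem_subgroupOf] at hr ⊢
      exact (Subgroup.mem_normalizer_iff.1 (hHN h.2) _).1 hr⟩
    have hle : R.subgroupOf H ≤ (T : Subgroup H) := by
      obtain ⟨T', hT'⟩ := (hR.comap_subtype (K := H)).exists_le_sylow
      obtain ⟨c, rfl⟩ := MulAction.exists_smul_eq H T' T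
      intro r hr
      rw [Sylow.coe_subgroup_smul, Subgroup.mem_pointwise_smul_iff_inv_smul_mem]
      refine hT' ?_
      simpa using Subgroup.Normal.conj_mem inferInstance r hr c⁻¹
    exact fun r hr => ⟨⟨r, hRL hr⟩, hle hr, rfl⟩
  have hUR : U ≠ R := by
    intro hUR
    have hxH : x ∈ H := Subgroup.mem_sup_right (Subgroup.mem_zpowers x)
    have hRx : IsPGroup p ↥(R ⊔ Subgroup.zpowers x) :=
      S.2.to_le (sup_le hRS (Subgroup.zpowers_le.2 hxS))
    obtain ⟨T', hT'⟩ := (hRx.comap_subtype (K := H)).exists_le_sylow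
    have h1 : R ⊔ Subgroup.zpowers x ≤ (T' : Subgroup H).map H.subtype := fun y hy =>
      ⟨⟨y, (sup_le hRL (Subgroup.zpowers_le.2 hxH)) hy⟩, hT' hy, rfl⟩
    have h2 : Nat.card ((T' : Subgroup H).map H.subtype) ≤ Nat.card R := by
      rw [← hUR, Subgroup.card_map_of_injective H.subtype_injective,
        Subgroup.card_map_of_injective H.subtype_injective, T'.card_eq_multiplicity,
        T.card_eq_multiplicity]
    have h3 : R = (T' : Subgroup H).map H.subtype :=
      Subgroup.eq_of_le_of_card_ge (le_sup_left.trans h1) h2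
    exact hxR (h3.symm ▸ h1 (Subgroup.mem_sup_right (Subgroup.mem_zpowers x)))
  have hU : U ∈ {R : Subgroup G | IsPGroup p R ∧ R ≠ ⊥ ∧
      Even (Nat.card (Subgroup.normalizer (R : Set G)))} := by
    refine ⟨T.2.map _, fun h => hR1 (le_bot_iff.1 (h ▸ hRU)), even_iff_two_dvd.2 ?_⟩
    have h := (Subgroup.normalizer (U : Set G)).orderOf_dvd_natCard (hT (Subgroup.mem_zpowers _))
    rwa [Subgroup.orderOf_coe, ht] at h
  exact hUR (le_antisymm (hmax hU hRU) hRU)

end Cfsg.Agent.S3982
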