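import Cfsg.Statements.S3983
import Mathlib

set_option autoImplicit false
open scoped Pointwise
open Cfsg

namespace Cfsg.Agent.S3983

/-- Let P be a Sylow p-subgroup of the finite group G that meets each conjugate g P g⁻¹ with g outside N_G(P) trivially, and let U be a subgroup of G of order divisible by p. Then a Sylow p-subgroup Q of U has the same property inside U: Q meets each conjugate u Q u⁻¹ with u ∈ U outside N_U(Q) trivially. -/
theorem result {G : Type*} [Group G] [Finite G] (p : ℕ) [Fact p.Prime] (P : Sylow p G) (hTI : ∀ g : G, g ∉ Subgroup.normalizer ((P : Subgroup G) : Set G) → (P : Subgroup G) ⊓ (MulAut.conj g • (P : Subgroup G)) = ⊥) (U : Subgroup G) (hU : p ∣ Nat.card ↥U) (Q : Sylow p ↥U) : ∀ u : ↥U, u ∉ Subgroup.normalizer ((Q : Subgroup ↥U) : Set ↥U) → (Q : Subgroup ↥U) ⊓ (MulAut.conj u • (Q : Subgroup ↥U)) = ⊥ := by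
  intro u hu
  by_contra hne
  obtain ⟨⟨x, hx1, hx2⟩, hx⟩ : ∃ x : ↥((Q : Subgroup U) ⊓ (MulAut.conj u • (Q : Subgroup U))), x ≠ 1 := by
    haveI := (Subgroup.nontrivial_iff_ne_bot _).2 hne
    exact exists_ne 1
  have hQp : IsPGroup p ((Q : Subgroup U).map U.subtype) := Q.isPGroup'.map _
  obtain ⟨R, hR⟩ := hQp.exists_le_sylow
  obtain ⟨g, hg⟩ := MulAction.exists_smul_eq G P R
  have hgR : (R : Subgroup G) = MulAut.conj g • (P : Subgroup G) := by
    rw [← hg]; rfl
  have hTIR : ∀ h : G, ∀ a : G, a ∈ (R : Subgroup G) → a ∈ MulAut.conj h • (R : Subgroup G) → a ≠ 1 →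
      MulAut.conj h • (R : Subgroup G) = R := by
    intro h a ha1 ha2 hane
    rw [hgR] at ha1 ha2 ⊢
    by_cases hk : g⁻¹ * h * g ∈ Subgroup.normalizer ((P : Subgroup G) : Set G)
    · have h3 : MulAut.conj (g⁻¹ * h * g) • (P : Subgroup G) = P := by
        exact congrArg (fun T : Sylow p G => (T : Subgroup G)) (Sylow.smul_eq_iff_mem_normalizer.2 hk)
      rw [← mul_smul, ← map_mul]
      rw [show h * g = g * (g⁻¹ * h * g) by group, map_mul, mul_smul, h3]
    · exfalso
      have h4 : (MulAut.conj g)⁻¹ • a ∈ (P : Subgroup G) ⊓ MulAut.conj (g⁻¹ * h * g) • (P : Subgroup G) := by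
        refine ⟨Subgroup.mem_pointwise_smul_iff_inv_smul_mem.1 ha1, ?_⟩
        rw [map_mul, map_mul, map_inv, mul_smul, mul_smul]
        exact Subgroup.smul_mem_pointwise_smul _ _ _ ha2
      rw [hTI _ hk, Subgroup.mem_bot] at h4
      exact hane (by rw [← smul_inv_smul (MulAut.conj g) a, h4, smul_one])
  have hxne : (x : G) ≠ 1 := fun h => hx (Subtype.ext (Subtype.ext h))
  have hxR : (x : G) ∈ (R : Subgroup G) := hR ⟨x, hx1, rfl⟩
  have hxR2 : (x : G) ∈ MulAut.conj (u : G) • (R : Subgroup G) := by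
    obtain ⟨y, hy, hyx⟩ := hx2
    rw [← hyx]
    exact Subgroup.smul_mem_pointwise_smul _ (MulAut.conj (u : G)) _ (hR ⟨y, hy, rfl⟩)
  have hfix := hTIR _ _ hxR hxR2 hxne
  have hQeq : (R : Subgroup G).subgroupOf U = (Q : Subgroup U) :=
    Q.is_maximal' (R.isPGroup'.comap_of_injective _ U.subtype_injective)
      (fun y hy => hR ⟨y, hy, rfl⟩)
  apply hu
  rw [Subgroup.mem_normalizer_iff]
  intro y
  have key : ∀ z : G, z ∈ (R : Subgroup G) ↔ (u : G) * z * (u : G)⁻¹ ∈ (R : Subgroup G) := by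
    intro z
    conv_rhs => rw [← hfix]
    exact (Subgroup.smul_mem_pointwise_smul_iff (a := MulAut.conj (u : G))).symm
  rw [← hQeq]
  exact key (y : G)

end Cfsg.Agent.S3983
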