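import Cfsg.Statements.S3984
import Mathlib

set_option autoImplicit false
open scoped Pointwise
open Cfsg

namespace Cfsg.Agent.S3984

/-- Let P be a Sylow p-subgroup of the finite group G that meets each conjugate g P g⁻¹ with g outside N_G(P) trivially, and let N be a normal subgroup of G of order prime to p. Then every Sylow p-subgroup Q of G ⧸ N meets each conjugate x Q x⁻¹ with x outside its normalizer trivially. -/
theorem result {G : Type*} [Group G] [Finite G] (p : ℕ) [Fact p.Prime] (P : Sylow p G) (hTI : ∀ g : G, g ∉ Subgroup.normalizer ((P : Subgroup G) : Set G) → (P : Subgroup G) ⊓ (MulAut.conj g • (P : Subgroup G)) = ⊥) (N : Subgroup G) [N.Normal] (hN : (Nat.card ↥N).Coprime p) (Q : Sylow p (G ⧸ N)) : ∀ x : G ⧸ N, x ∉ Subgroup.normalizer ((Q : Subgroup (G ⧸ N)) : Set (G ⧸ N)) → (Q : Subgroup (G ⧸ N)) ⊓ (MulAut.conj x • (Q : Subgroup (G ⧸ N))) = ⊥ := by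
  intro x hx
  by_contra hne
  obtain ⟨⟨q, hq1, hq2⟩, hq⟩ : ∃ q : ↥((Q : Subgroup (G ⧸ N)) ⊓ (MulAut.conj x • (Q : Subgroup (G ⧸ N)))), q ≠ 1 := by
    haveI := (Subgroup.nontrivial_iff_ne_bot _).2 hne
    exact exists_ne 1
  have hsurj := QuotientGroup.mk'_surjective N
  obtain ⟨g0, hg0⟩ := MulAction.exists_smul_eq (G ⧸ N) (P.mapSurjective hsurj) Q
  obtain ⟨g, rfl⟩ := hsurj g0
  obtain ⟨R, hRdef⟩ : ∃ R : Sylow p G, R = g • P := ⟨_, rfl⟩
  have hQR : (Q : Subgroup (G ⧸ N)) = (R : Subgroup G).map (QuotientGroup.mk' N) := by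
    rw [← hg0, hRdef, Sylow.coe_subgroup_smul, Sylow.coe_subgroup_smul, Sylow.coe_mapSurjective]
    ext z
    simp only [Subgroup.mem_map, Subgroup.mem_pointwise_smul_iff_inv_smul_mem]
    constructor
    · rintro ⟨y, hy, hyz⟩
      refine ⟨g * y * g⁻¹, by simpa [mul_assoc] using hy, ?_⟩
      rw [map_mul, map_mul, hyz, map_inv]
      simp [mul_assoc]
    · rintro ⟨y, hy, rfl⟩
      exact ⟨_, hy, by simp⟩
  have hTIR : ∀ h : G, h ∉ Subgroup.normalizer ((R : Subgroup G) : Set G) →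
      ∀ a, a ∈ (R : Subgroup G) → a ∈ MulAut.conj h • (R : Subgroup G) → a = 1 := by
    intro h hh a ha1 ha2
    rw [hRdef, Sylow.coe_subgroup_smul] at ha1 ha2
    have hk : g⁻¹ * h * g ∉ Subgroup.normalizer ((P : Subgroup G) : Set G) := by
      intro hk
      apply hh
      refine Sylow.smul_eq_iff_mem_normalizer.1 ?_
      rw [hRdef, ← mul_smul, show h * g = g * (g⁻¹ * h * g) by group, mul_smul,
        Sylow.smul_eq_iff_mem_normalizer.2 hk]
    have h4 : (MulAut.conj g)⁻¹ • a ∈ (P : Subgroup G) ⊓ MulAut.conj (g⁻¹ * h * g) • (P : Subgroup G) := by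
      refine ⟨Subgroup.mem_pointwise_smul_iff_inv_smul_mem.1 ha1, ?_⟩
      rw [map_mul, map_mul, map_inv, mul_smul, mul_smul]
      exact Subgroup.smul_mem_pointwise_smul _ _ _ ha2
    rw [hTI _ hk, Subgroup.mem_bot] at h4
    rw [← smul_inv_smul (MulAut.conj g) a, h4, smul_one]
  obtain ⟨t, rfl⟩ := hsurj x
  rw [hQR] at hq1 hq2
  obtain ⟨a, ha, rfl⟩ := hq1
  obtain ⟨b', ⟨b, hb, rfl⟩, hbq⟩ := hq2
  -- `a` lies in `(t R t⁻¹) N`, so in an `N`-conjugate of `t R t⁻¹`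
  let S : Sylow p G := t • R
  have haS : a ∈ (S : Subgroup G) ⊔ N := by
    have h1 : QuotientGroup.mk' N (t * b * t⁻¹) = QuotientGroup.mk' N a := by
      rw [map_mul, map_mul, map_inv]; exact hbq
    obtain ⟨z, hz, hza⟩ := (QuotientGroup.mk'_eq_mk' N).1 h1
    rw [← hza]
    refine Subgroup.mul_mem_sup ?_ hz
    exact ⟨b, hb, rfl⟩
  let M : Subgroup G := (S : Subgroup G) ⊔ N
  have hap : IsPGroup p (Subgroup.zpowers (⟨a, haS⟩ : M)) := by
    obtain ⟨k, hk⟩ := IsPGroup.iff_orderOf.1 R.isPGroup' ⟨a, ha⟩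
    refine IsPGroup.of_card (n := k) ?_
    rw [Nat.card_zpowers, Subgroup.orderOf_mk]
    rwa [Subgroup.orderOf_mk] at hk
  obtain ⟨T, hT⟩ := hap.exists_le_sylow
  obtain ⟨⟨m, hm⟩, hmT⟩ := MulAction.exists_smul_eq M (S.subtype (le_sup_left : (S : Subgroup G) ≤ M)) T
  obtain ⟨v, hv, w, hw, hvw⟩ : ∃ v ∈ N, ∃ w ∈ (S : Subgroup G), m = v * w := by
    have hm' : m ∈ N ⊔ (S : Subgroup G) := by rwa [sup_comm]
    rw [← SetLike.mem_coe, Subgroup.normal_mul] at hm'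
    obtain ⟨v, hv, w, hw, h⟩ := hm'
    exact ⟨v, hv, w, hw, h.symm⟩
  have ha2 : a ∈ MulAut.conj (v * t) • (R : Subgroup G) := by
    have h1 : (⟨a, haS⟩ : M) ∈ (T : Subgroup M) := hT (Subgroup.mem_zpowers _)
    rw [← hmT, Sylow.coe_subgroup_smul, Sylow.coe_subtype] at h1
    obtain ⟨⟨s, hsM⟩, hs, hsa⟩ := h1
    have hs' : s ∈ (S : Subgroup G) := hs
    have hsa' : m * s * m⁻¹ = a := congrArg Subtype.val hsa
    obtain ⟨r, hr, hrs⟩ : w * s * w⁻¹ ∈ MulAut.conj t • (R : Subgroup G) :=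
      (S : Subgroup G).mul_mem ((S : Subgroup G).mul_mem hw hs') ((S : Subgroup G).inv_mem hw)
    refine ⟨r, hr, ?_⟩
    have hrs' : t * r * t⁻¹ = w * s * w⁻¹ := hrs
    show v * t * r * (v * t)⁻¹ = a
    rw [← hsa', hvw, show v * t * r * (v * t)⁻¹ = v * (t * r * t⁻¹) * v⁻¹ by group, hrs']
    group
  by_cases hvt : v * t ∈ Subgroup.normalizer ((R : Subgroup G) : Set G)
  · apply hx
    rw [hQR]
    refine Subgroup.le_normalizer_map _ ⟨v * t, hvt, ?_⟩
    rw [map_mul, (QuotientGroup.eq_one_iff v).2 hv |> (fun h => (show QuotientGroup.mk' N v = 1 from h)), one_mul]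
  · exact hq (Subtype.ext (by simp [hTIR _ hvt a ha ha2]))

end Cfsg.Agent.S3984
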