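import Cfsg.Statements.S3985
import Mathlib

set_option autoImplicit false
open scoped Pointwise
open Cfsg

namespace Cfsg.Agent.S3985

/-- Congruence: a `p'`-power that is trivial on `x`'s cyclic group and fixes a nontrivial element. -/
theorem cyclic_aut_trivial {G : Type*} [Group G] (p : ℕ) (hp : p.Prime) (v g : G) (e : ℕ) (he : orderOf v = p ^ e)
    (n : ℤ) (hg : g * v * g⁻¹ = v ^ n) (hn : (p : ℤ) ∣ n - 1) (j : ℕ) (hj : ¬ p ∣ j) (hgj : g ^ j = 1) :
    g * v * g⁻¹ = v := by
  have hiter : ∀ i : ℕ, g ^ i * v * (g ^ i)⁻¹ = v ^ (n ^ i) := by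
    intro i; induction i with
    | zero => simp
    | succ i ih =>
      calc g ^ (i+1) * v * (g ^ (i+1))⁻¹ = g ^ i * (g * v * g⁻¹) * (g ^ i)⁻¹ := by group
        _ = (g ^ i * v * (g ^ i)⁻¹) ^ n := by rw [hg, conj_zpow]
        _ = v ^ (n ^ (i+1)) := by rw [ih, ← zpow_mul, pow_succ]
  have h1 := hiter j
  rw [hgj] at h1
  simp only [one_mul, inv_one, mul_one] at h1
  have hd : ((p : ℤ) ^ e) ∣ n ^ j - 1 := by
    have : v ^ (n ^ j - 1) = 1 := by rw [zpow_sub, ← h1, zpow_one, mul_inv_cancel]
    have := orderOf_dvd_iff_zpow_eq_one.mpr this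
    rw [he] at this; exact_mod_cast this
  rw [(geom_sum_mul n j).symm] at hd
  have hco : IsCoprime ((p:ℤ) ^ e) (∑ i ∈ Finset.range j, n ^ i) := by
    apply IsCoprime.pow_left
    rw [(Nat.prime_iff_prime_int.mp hp).coprime_iff_not_dvd]
    intro hdiv
    have hsum : (p : ℤ) ∣ (∑ i ∈ Finset.range j, n ^ i) - (j : ℤ) := by
      have : (∑ i ∈ Finset.range j, n ^ i) - (j : ℤ) = ∑ i ∈ Finset.range j, (n ^ i - 1) := by simp
      rw [this]
      exact Finset.dvd_sum fun i _ => hn.trans ⟨_, (mul_geom_sum n i).symm⟩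
    have := dvd_sub hdiv hsum
    simp at this
    exact hj (by exact_mod_cast this)
  have hn1 : ((p : ℤ) ^ e) ∣ n - 1 := hco.dvd_of_dvd_mul_left hd
  have : v ^ (n - 1) = 1 := orderOf_dvd_iff_zpow_eq_one.mp (by rw [he]; exact_mod_cast hn1)
  rw [hg, show n = n - 1 + 1 by ring, zpow_add, this, one_mul, zpow_one]

/-- Let P be a cyclic Sylow p-subgroup of the finite group G. Then P meets each conjugate g P g⁻¹ with g outside N_G(P) trivially if and only if P is weakly self-centralizing: C_G(x) = C_G(P) for every non-identity x ∈ P. -/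
theorem result {G : Type*} [Group G] [Finite G] (p : ℕ) [Fact p.Prime] (P : Sylow p G) (hcyc : IsCyclic ↥(P : Subgroup G)) : (∀ g : G, g ∉ Subgroup.normalizer ((P : Subgroup G) : Set G) → (P : Subgroup G) ⊓ (MulAut.conj g • (P : Subgroup G)) = ⊥) ↔ ∀ x : G, x ∈ (P : Subgroup G) → x ≠ 1 → Subgroup.centralizer ({x} : Set G) = Subgroup.centralizer ((P : Subgroup G) : Set G) := by
  have hp := Fact.out (p := p.Prime)
  haveI := hcyc
  have hab : ∀ a ∈ (P : Subgroup G), ∀ b ∈ (P : Subgroup G), a * b = b * a := by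
    intro a ha b hb
    obtain ⟨v, hv⟩ := IsCyclic.exists_generator (α := (P : Subgroup G))
    obtain ⟨i, hi⟩ := Subgroup.mem_zpowers_iff.mp (hv ⟨a, ha⟩)
    obtain ⟨j, hj⟩ := Subgroup.mem_zpowers_iff.mp (hv ⟨b, hb⟩)
    have := congrArg Subtype.val (Commute.zpow_zpow (Commute.refl v) i j).eq
    rw [hi, hj] at this; exact this
  constructor
  · intro hTI x hx hx1
    apply le_antisymm
    · intro g hg
      rw [Subgroup.mem_centralizer_singleton_iff] at hg
      have hgN : g ∈ Subgroup.normalizer ((P : Subgroup G) : Set G) := by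
        by_contra hgN
        have hbot := hTI g hgN
        have : x ∈ (P : Subgroup G) ⊓ MulAut.conj g • (P : Subgroup G) := by
          refine ⟨hx, x, hx, ?_⟩
          simp [hg]
        rw [hbot] at this
        exact hx1 (Subgroup.mem_bot.mp this)
      obtain ⟨⟨v, hvP⟩, hv⟩ := IsCyclic.exists_generator (α := (P : Subgroup G))
      obtain ⟨e, he⟩ := IsPGroup.iff_orderOf.mp P.2 ⟨v, hvP⟩
      rw [Subgroup.orderOf_mk] at he
      obtain ⟨m, hm⟩ := Subgroup.mem_zpowers_iff.mp (hv ⟨x, hx⟩)
      have hm' : v ^ m = x := congrArg Subtype.val hm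
      obtain ⟨n, hn⟩ := Subgroup.mem_zpowers_iff.mp (hv ⟨g * v * g⁻¹, (Subgroup.mem_normalizer_iff.mp hgN v).mp hvP⟩)
      have hn' : g * v * g⁻¹ = v ^ n := (congrArg Subtype.val hn).symm
      have hpn : (p : ℤ) ∣ n - 1 := by
        have h2 : v ^ (n * m) = v ^ m := by
          rw [zpow_mul, ← hn', conj_zpow, hm', hg, mul_inv_cancel_right]
        have h3 : v ^ ((n - 1) * m) = 1 := by rw [sub_mul, one_mul, zpow_sub, h2, mul_inv_cancel]
        have h4 : ¬ ((p : ℤ) ^ e ∣ m) := by
          intro hd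
          apply hx1
          rw [← hm']
          exact orderOf_dvd_iff_zpow_eq_one.mp (by rw [he]; exact_mod_cast hd)
        have h5 : (p : ℤ) ^ e ∣ (n - 1) * m := by
          have := orderOf_dvd_iff_zpow_eq_one.mpr h3
          rw [he] at this; exact_mod_cast this
        by_contra hnd
        exact h4 ((((Nat.prime_iff_prime_int.mp hp).coprime_iff_not_dvd.mpr hnd).pow_left).dvd_of_dvd_mul_left h5)
      obtain ⟨k, j, hj, hkj⟩ := Nat.exists_eq_pow_mul_and_not_dvd (orderOf_pos g).ne' p hp.ne_one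
      have hord : g ^ (p ^ k * j) = 1 := hkj ▸ pow_orderOf_eq_one g
      have hiter : ∀ i : ℕ, g ^ i * v * (g ^ i)⁻¹ = v ^ (n ^ i) := by
        intro i; induction i with
        | zero => simp
        | succ i ih =>
          calc g ^ (i+1) * v * (g ^ (i+1))⁻¹ = g ^ i * (g * v * g⁻¹) * (g ^ i)⁻¹ := by group
            _ = (g ^ i * v * (g ^ i)⁻¹) ^ n := by rw [hn', conj_zpow]
            _ = v ^ (n ^ (i+1)) := by rw [ih, ← zpow_mul, pow_succ]
      have ck : Commute (g ^ p ^ k) v := mul_inv_eq_iff_eq_mul.mp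
        (cyclic_aut_trivial p hp v _ e he _ (hiter (p ^ k)) (hpn.trans ⟨_, (mul_geom_sum n _).symm⟩) j hj
          (by rw [← pow_mul, hord]))
      have cj : Commute (g ^ j) v := by
        have hT : IsPGroup p ((P : Subgroup G) ⊔ Subgroup.zpowers (g ^ j) : Subgroup G) := by
          refine IsPGroup.to_sup_of_normal_left' P.2 ?_ ?_
          · obtain ⟨a, -, ha⟩ := (Nat.dvd_prime_pow hp).mp
              (orderOf_dvd_of_pow_eq_one (show (g ^ j) ^ p ^ k = 1 by rw [← pow_mul, mul_comm, hord]))
            exact IsPGroup.of_card (n := a) (by rw [Nat.card_zpowers, ha])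
          · rw [Subgroup.zpowers_le]; exact Subgroup.pow_mem _ hgN j
        have heq := P.3 hT le_sup_left
        exact hab _ (heq ▸ Subgroup.mem_sup_right (Subgroup.mem_zpowers _)) v hvP
      have hco : Nat.Coprime (p ^ k) j := Nat.Coprime.pow_left _ (hp.coprime_iff_not_dvd.mpr hj)
      have hcom : Commute g v := by
        have hg1 : g = (g ^ p ^ k) ^ (Nat.gcdA (p ^ k) j) * (g ^ j) ^ (Nat.gcdB (p ^ k) j) := by
          rw [← zpow_natCast g (p ^ k), ← zpow_natCast g j, ← zpow_mul, ← zpow_mul, ← zpow_add, ← Nat.gcd_eq_gcd_ab]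
          simp [hco.gcd_eq_one]
        rw [hg1]
        exact (ck.zpow_left _).mul_left (cj.zpow_left _)
      rw [Subgroup.mem_centralizer_iff]
      intro r hr
      obtain ⟨i, hi⟩ := Subgroup.mem_zpowers_iff.mp (hv ⟨r, hr⟩)
      rw [← show v ^ i = r from congrArg Subtype.val hi]
      exact (hcom.zpow_right i).eq.symm
    · exact Subgroup.centralizer_le (Set.singleton_subset_iff.mpr hx)
  · intro h g hg
    rw [Subgroup.eq_bot_iff_forall]
    rintro x ⟨hxP, ⟨y, hyP, hyx⟩⟩
    have hyx' : g * y * g⁻¹ = x := hyx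
    by_contra hx1
    have hy1 : y ≠ 1 := by rintro rfl; exact hx1 (by rw [← hyx']; group)
    apply hg
    have hCx := h x hxP hx1
    have hCy := h y hyP hy1
    have hPC : (P : Subgroup G) ≤ Subgroup.centralizer ((P : Subgroup G) : Set G) := by
      intro a ha
      rw [Subgroup.mem_centralizer_iff]
      exact fun b hb => hab b hb a ha
    have key : ∀ w, w ∈ Subgroup.centralizer ({x} : Set G) → (∃ k, orderOf w = p ^ k) → w ∈ (P : Subgroup G) := by
      intro w hw ⟨k, hk⟩
      rw [hCx, Subgroup.mem_centralizer_iff] at hw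
      have hT : IsPGroup p ((P : Subgroup G) ⊔ Subgroup.zpowers w : Subgroup G) := by
        refine IsPGroup.to_sup_of_normal_left' P.2 (IsPGroup.of_card (n := k) (by rw [Nat.card_zpowers, hk])) ?_
        rw [Subgroup.zpowers_le, Subgroup.mem_normalizer_iff]
        intro r
        constructor
        · intro hr; rw [← hw r hr]; simpa using hr
        · intro hr
          have := hw _ hr
          have e : w * r * w⁻¹ = r := by
            have h' : w * r = w * (w * r * w⁻¹) := by rw [← this]; simp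
            exact (mul_left_cancel h').symm
          rwa [e] at hr
      exact P.3 hT le_sup_left ▸ Subgroup.mem_sup_right (Subgroup.mem_zpowers w)
    have hfwd : ∀ r ∈ (P : Subgroup G), g * r * g⁻¹ ∈ (P : Subgroup G) := by
      intro r hr
      refine key _ ?_ ?_
      · have := hCy ▸ hPC hr
        rw [Subgroup.mem_centralizer_singleton_iff] at this ⊢
        rw [← hyx']
        calc g * r * g⁻¹ * (g * y * g⁻¹) = g * (r * y) * g⁻¹ := by group
          _ = g * (y * r) * g⁻¹ := by rw [this]
          _ = _ := by group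
      · obtain ⟨k, hk⟩ := IsPGroup.iff_orderOf.mp P.2 ⟨r, hr⟩
        rw [Subgroup.orderOf_mk] at hk
        refine ⟨k, ?_⟩
        rw [show g * r * g⁻¹ = MulAut.conj g r from rfl, ← hk]
        exact orderOf_injective (MulAut.conj g).toMonoidHom (MulAut.conj g).injective r
    have hmap : (P : Subgroup G).map (MulAut.conj g).toMonoidHom = (P : Subgroup G) := by
      apply Subgroup.eq_of_le_of_card_ge
      · rintro _ ⟨r, hr, rfl⟩; exact hfwd r hr
      · rw [Subgroup.card_map_of_injective (MulAut.conj g).injective]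
    rw [Subgroup.mem_normalizer_iff]
    intro r
    constructor
    · exact hfwd r
    · intro hr
      rw [← hmap] at hr
      obtain ⟨r', hr', he'⟩ := hr
      have : r' = r := (MulAut.conj g).injective he'
      exact this ▸ hr'

end Cfsg.Agent.S3985
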