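import Cfsg.Statements.S3986
import Mathlib

set_option autoImplicit false
open Cfsg

namespace Cfsg.Agent.S3986

/-- Let p be a prime and G a finite group. Then some Sylow p-subgroup of G is a direct factor of G (it is normal and has a normal complement) if and only if every element of p-power order commutes with every element whose order is a power of a prime other than p. -/
theorem result {G : Type*} [Group G] [Finite G] (p : ℕ) [Fact p.Prime] : (∃ (P : Sylow p G) (K : Subgroup G), (P : Subgroup G).Normal ∧ K.Normal ∧ (P : Subgroup G) ⊓ K = ⊥ ∧ (P : Subgroup G) ⊔ K = ⊤) ↔ ∀ x y : G, (∃ a : ℕ, orderOf x = p ^ a) → (∃ q b : ℕ, q.Prime ∧ q ≠ p ∧ orderOf y = q ^ b) → x * y = y * x := by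
  have hp := Fact.out (p := p.Prime)
  constructor
  · rintro ⟨P, K, hPn, hKn, hdisj, htop⟩ x y ⟨a, ha⟩ ⟨q, b, hq, hqp, hb⟩
    have hxP : x ∈ (P : Subgroup G) := by
      obtain ⟨R, hR⟩ := (IsPGroup.of_card (G := Subgroup.zpowers x) (n := a) (by rw [Nat.card_zpowers, ha])).exists_le_sylow
      haveI := hPn
      haveI := Sylow.unique_of_normal P inferInstance
      rw [Subsingleton.elim P R]; exact hR (Subgroup.mem_zpowers x)
    have hcompl : Subgroup.IsComplement' (P : Subgroup G) K := by
      haveI := hPn; haveI := hKn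
      refine Subgroup.isComplement'_of_disjoint_and_mul_eq_univ (disjoint_iff.mpr hdisj) ?_
      rw [← Subgroup.mul_normal, htop, Subgroup.coe_top]
    have hyK : y ∈ K := by
      haveI := hKn
      rw [← QuotientGroup.eq_one_iff (N := K), ← orderOf_eq_one_iff]
      have h1 : orderOf (y : G ⧸ K) ∣ q ^ b := hb ▸ orderOf_map_dvd (QuotientGroup.mk' K) y
      have h2 : orderOf (y : G ⧸ K) ∣ Nat.card P := by
        rw [← hcompl.index_eq_card, Subgroup.index_eq_card]; exact orderOf_dvd_natCard _
      obtain ⟨n, hn⟩ := IsPGroup.iff_card.mp P.2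
      rw [hn] at h2
      exact Nat.eq_one_of_dvd_coprimes (Nat.Coprime.pow _ _ ((Nat.coprime_primes hq hp).mpr hqp)) h1 h2
    exact Subgroup.commute_of_normal_of_disjoint _ _ hPn hKn (disjoint_iff.mpr hdisj) x y hxP hyK
  · intro h
    obtain ⟨P⟩ : Nonempty (Sylow p G) := inferInstance
    let C := Subgroup.centralizer ((P : Subgroup G) : Set G)
    have hC : ∀ q, q.Prime → q ≠ p → ¬ q ∣ C.index := by
      intro q hq hqp hd
      haveI : Fact q.Prime := ⟨hq⟩
      obtain ⟨Q⟩ : Nonempty (Sylow q G) := inferInstance
      have hQC : (Q : Subgroup G) ≤ C := by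
        intro y hy
        rw [Subgroup.mem_centralizer_iff]
        intro x hx
        obtain ⟨a, ha⟩ := IsPGroup.iff_orderOf.mp P.2 ⟨x, hx⟩
        obtain ⟨b, hb⟩ := IsPGroup.iff_orderOf.mp Q.2 ⟨y, hy⟩
        rw [Subgroup.orderOf_mk] at ha hb
        exact h x y ⟨a, ha⟩ ⟨q, b, hq, hqp, hb⟩
      exact Q.not_dvd_index (hd.trans (Subgroup.index_dvd_of_le hQC))
    have hCN : C ≤ Subgroup.normalizer ((P : Subgroup G) : Set G) := by
      intro g hg
      rw [Subgroup.mem_normalizer_iff]
      rw [Subgroup.mem_centralizer_iff] at hg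
      intro r
      constructor
      · intro hr; rw [← hg r hr]; simpa using hr
      · intro hr
        have := hg _ hr
        have e : g * r * g⁻¹ = r := by
          have h' : g * r = g * (g * r * g⁻¹) := by rw [← this]; simp
          exact (mul_left_cancel h').symm
        rwa [e] at hr
    have hPn : (P : Subgroup G).Normal := by
      rw [← Subgroup.normalizer_eq_top_iff, ← Subgroup.index_eq_one]
      refine Nat.eq_one_iff_not_exists_prime_dvd.mpr fun q hq hd => ?_
      by_cases hqp : q = p
      · subst hqp
        exact P.not_dvd_index (hd.trans (Subgroup.index_dvd_of_le Subgroup.le_normalizer))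
      · exact hC q hq hqp (hd.trans (Subgroup.index_dvd_of_le hCN))
    haveI := hPn
    obtain ⟨K, hK⟩ := Subgroup.exists_right_complement'_of_coprime (P.card_coprime_index)
    have hKC : K ≤ C := by
      intro y hy
      haveI : C.Normal := inferInstance
      rw [← QuotientGroup.eq_one_iff (N := C), ← orderOf_eq_one_iff]
      refine Nat.eq_one_iff_not_exists_prime_dvd.mpr fun q hq hd => ?_
      by_cases hqp : q = p
      · subst hqp
        exact P.not_dvd_index ((hd.trans ((orderOf_map_dvd (QuotientGroup.mk' C) y).trans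
          (Subgroup.orderOf_dvd_natCard K hy))).trans (dvd_of_eq hK.symm.index_eq_card.symm))
      · exact hC q hq hqp (hd.trans (by rw [Subgroup.index_eq_card]; exact orderOf_dvd_natCard _))
    refine ⟨P, K, hPn, ?_, hK.isCompl.inf_eq_bot, hK.isCompl.sup_eq_top⟩
    rw [← Subgroup.normalizer_eq_top_iff, eq_top_iff, ← hK.isCompl.sup_eq_top, sup_le_iff]
    refine ⟨fun r hr => Subgroup.mem_normalizer_iff.mpr fun x => ?_, Subgroup.le_normalizer⟩
    constructor
    · intro hx
      rw [Subgroup.mem_centralizer_iff.mp (hKC hx) r hr]; simpa using hx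
    · intro hx
      have := Subgroup.mem_centralizer_iff.mp (hKC hx) r hr
      have e : r * x * r⁻¹ = x := by
        have h' : r * x = r * (r * x * r⁻¹) := by rw [this]; simp
        exact (mul_left_cancel h').symm
      rwa [e] at hx

end Cfsg.Agent.S3986
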