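import Cfsg.Statements.S3987
import Cfsg.Agent.S3986

set_option autoImplicit false
open Cfsg

namespace Cfsg.Agent.S3987

/-- Let p be a prime and G a finite group. Then some Sylow p-subgroup of G is a direct factor of G (normal with a normal complement) if and only if for every element x of p-power order and every element y whose order is a power of a prime other than p, the conjugacy class of x y has as many elements as the product of the sizes of the classes of x and of y. -/
theorem result {G : Type*} [Group G] [Finite G] (p : ℕ) [Fact p.Prime] : (∃ (P : Sylow p G) (K : Subgroup G), (P : Subgroup G).Normal ∧ K.Normal ∧ (P : Subgroup G) ⊓ K = ⊥ ∧ (P : Subgroup G) ⊔ K = ⊤) ↔ ∀ x y : G, (∃ a : ℕ, orderOf x = p ^ a) → (∃ q b : ℕ, q.Prime ∧ q ≠ p ∧ orderOf y = q ^ b) → (Subgroup.centralizer ({x * y} : Set G)).index = (Subgroup.centralizer ({x} : Set G)).index * (Subgroup.centralizer ({y} : Set G)).index := by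
  have hp := Fact.out (p := p.Prime)
  have key := Cfsg.Agent.S3986.result (G := G) p
  constructor
  · intro hex x y hx hy
    have hxy : x * y = y * x := key.mp hex x y hx hy
    obtain ⟨a, ha⟩ := hx
    obtain ⟨q, b, hq, hqp, hb⟩ := hy
    set A := Subgroup.centralizer ({x} : Set G)
    set B := Subgroup.centralizer ({y} : Set G)
    have hco : Nat.Coprime (orderOf x) (orderOf y) := by
      rw [ha, hb]; exact Nat.Coprime.pow _ _ ((Nat.coprime_primes hp hq).mpr (Ne.symm hqp))
    have hinf : Subgroup.centralizer ({x * y} : Set G) = A ⊓ B := by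
      ext g
      simp only [A, B, Subgroup.mem_inf, Subgroup.mem_centralizer_singleton_iff]
      constructor
      · intro hg
        have hg' : Commute g (x * y) := hg
        have hc : Commute x y := hxy
        have hyo := pow_orderOf_eq_one y
        have hxo := pow_orderOf_eq_one x
        have h1 : Commute g (x ^ orderOf y) := by
          have := hg'.pow_right (orderOf y)
          rwa [hc.mul_pow, hyo, mul_one] at this
        have h2 : Commute g (y ^ orderOf x) := by
          have := hg'.pow_right (orderOf x)
          rwa [hc.mul_pow, hxo, one_mul] at this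
        obtain ⟨i, hi⟩ := exists_pow_eq_self_of_coprime hco.symm
        obtain ⟨j, hj⟩ := exists_pow_eq_self_of_coprime hco
        exact ⟨(hi ▸ h1.pow_right i : Commute g x), (hj ▸ h2.pow_right j : Commute g y)⟩
      · rintro ⟨h1, h2⟩
        exact (Commute.mul_right (h1 : Commute g x) (h2 : Commute g y))
    have hA : ∀ r, r.Prime → r ≠ p → ¬ r ∣ A.index := by
      intro r hr hrp hd
      haveI : Fact r.Prime := ⟨hr⟩
      obtain ⟨Q⟩ : Nonempty (Sylow r G) := inferInstance
      refine Q.not_dvd_index (hd.trans (Subgroup.index_dvd_of_le fun z hz => ?_))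
      obtain ⟨c, hc⟩ := IsPGroup.iff_orderOf.mp Q.2 ⟨z, hz⟩
      rw [Subgroup.orderOf_mk] at hc
      exact Subgroup.mem_centralizer_singleton_iff.mpr (key.mp hex x z ⟨a, ha⟩ ⟨r, c, hr, hrp, hc⟩).symm
    have hB : ¬ p ∣ B.index := by
      intro hd
      obtain ⟨Q⟩ : Nonempty (Sylow p G) := inferInstance
      refine Q.not_dvd_index (hd.trans (Subgroup.index_dvd_of_le fun z hz => ?_))
      obtain ⟨c, hc⟩ := IsPGroup.iff_orderOf.mp Q.2 ⟨z, hz⟩
      rw [Subgroup.orderOf_mk] at hc
      exact Subgroup.mem_centralizer_singleton_iff.mpr (key.mp hex z y ⟨c, hc⟩ ⟨q, b, hq, hqp, hb⟩)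
    have hcop : Nat.Coprime A.index B.index := by
      refine Nat.coprime_of_dvd fun r hr h1 h2 => ?_
      by_cases hrp : r = p
      · exact hB (hrp ▸ h2)
      · exact hA r hr hrp h1
    rw [hinf]
    exact le_antisymm Subgroup.index_inf_le (Nat.le_of_dvd (Nat.pos_of_ne_zero Subgroup.index_ne_zero_of_finite)
      (hcop.mul_dvd_of_dvd_of_dvd (Subgroup.index_dvd_of_le inf_le_left) (Subgroup.index_dvd_of_le inf_le_right)))
  · intro h
    refine key.mpr fun x y hx hy => ?_
    classical
    haveI := Fintype.ofFinite G
    have horb : ∀ z : G, Nat.card (MulAction.orbit (ConjAct G) z) = (Subgroup.centralizer ({z} : Set G)).index := by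
      intro z
      rw [Nat.card_congr (MulAction.orbitEquivQuotientStabilizer (ConjAct G) z), ← Subgroup.index_eq_card,
        Subgroup.centralizer_eq_comap_stabilizer]
      exact (Subgroup.index_comap_of_surjective (f := (ConjAct.toConjAct : G ≃* ConjAct G).toMonoidHom) _ ConjAct.toConjAct.surjective).symm
    let f : MulAction.orbit (ConjAct G) x × MulAction.orbit (ConjAct G) y → G := fun w => (w.1 : G) * (w.2 : G)
    have hsub : MulAction.orbit (ConjAct G) (x * y) ⊆ Set.range f := by
      rintro _ ⟨c, rfl⟩
      exact ⟨(⟨c • x, c, rfl⟩, ⟨c • y, c, rfl⟩), (smul_mul' c x y).symm⟩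
    have hinj : Function.Injective f := by
      by_contra hni
      rw [← Set.injOn_univ] at hni
      have hlt : (f '' Set.univ).ncard < (Set.univ : Set (MulAction.orbit (ConjAct G) x × MulAction.orbit (ConjAct G) y)).ncard :=
        lt_of_le_of_ne (Set.ncard_image_le) (fun he => hni (Set.injOn_of_ncard_image_eq he))
      rw [Set.image_univ, Set.ncard_univ, Nat.card_prod, horb, horb, ← h x y hx hy, ← horb] at hlt
      have := Set.ncard_le_ncard hsub
      rw [← Nat.card_coe_set_eq] at this
      omega
    have := @hinj (⟨x, MulAction.mem_orbit_self _⟩, ⟨y, MulAction.mem_orbit_self _⟩)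
      (⟨_, MulAction.mem_orbit x (ConjAct.toConjAct (x * y))⟩, ⟨_, MulAction.mem_orbit y (ConjAct.toConjAct (x * y))⟩)
      (by simp only [f, ConjAct.toConjAct_smul]; group)
    have hx' : x = x * y * x * (x * y)⁻¹ := by
      exact (congrArg (fun w => ((w.1 : MulAction.orbit (ConjAct G) x) : G)) this).trans (ConjAct.toConjAct_smul _ _)
    have h1 : x * (x * y) = x * y * x := (mul_inv_eq_iff_eq_mul.mp hx'.symm).symm
    rw [mul_assoc] at h1
    exact mul_left_cancel h1

end Cfsg.Agent.S3987
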