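import Cfsg.Statements.S3989
import Cfsg.Agent.Transfer.Frobenius
import Cfsg.Agent.Constrained.PSolvable

/-!
Let `N` be a minimal normal subgroup. If a `q`-element `g` of `N` (`q ≠ p`) normalizes and does not
centralize a `p`-subgroup `Q` of `N`, pick `u ∈ Q` and put `c = [u, g]`; then `c g` is conjugate to
`g`, so the class of `g` is stable under left multiplication by the conjugates of `c`, hence by `N`,
and contains `1`. So `N` has a normal `p`-complement by Frobenius' criterion, hence is a `p`-group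
or a `p'`-group; the hypothesis passes to `G / N`.
-/

set_option autoImplicit false
open Cfsg

namespace Cfsg.Agent.S3989

universe v

/-- The hypothesis, in the direction that is used: `x^G y^G` is inside the class of `x y`. -/
def ClassMult (p : ℕ) (G : Type*) [Group G] : Prop :=
  ∀ x y : G, (∃ a : ℕ, orderOf x = p ^ a) → (∃ q b : ℕ, q.Prime ∧ q ≠ p ∧ orderOf y = q ^ b) →
    ∀ a b : G, IsConj (x * y) (a * x * a⁻¹ * (b * y * b⁻¹))

/-- A prime-power element of a quotient is the image of a prime-power element for the same prime. -/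
theorem exists_lift {G H : Type*} [Group G] [Finite G] [Group H] (f : G →* H)
    (hf : Function.Surjective f) {q a : ℕ} (hq : q.Prime) (z : H) (hz : orderOf z = q ^ a) :
    ∃ g : G, (∃ b, orderOf g = q ^ b) ∧ f g = z := by
  haveI := Fact.mk hq
  obtain ⟨g, rfl⟩ := hf z
  obtain ⟨u, v, -, hv, huv, ⟨k, hk⟩, hcop⟩ :=
    CfsgLib.Transfer.exists_pPart_decomposition (p := q) g
  obtain ⟨b, -, hb⟩ := (Nat.dvd_prime_pow hq).mp hk
  refine ⟨u, ⟨b, hb⟩, ?_⟩
  have h1 : orderOf (f v) ∣ orderOf v := orderOf_map_dvd f v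
  have h2 : orderOf (f v) ∣ q ^ a := by
    obtain ⟨i, rfl⟩ := Subgroup.mem_zpowers_iff.mp hv
    rw [← hz, map_zpow, orderOf_dvd_iff_pow_eq_one, ← zpow_natCast, ← zpow_mul, mul_comm,
      zpow_mul, zpow_natCast, pow_orderOf_eq_one, one_zpow]
  have h3 : orderOf (f v) = 1 :=
    Nat.dvd_one.mp ((hcop.pow_right a).gcd_eq_one ▸ Nat.dvd_gcd h1 h2)
  rw [huv, map_mul, orderOf_eq_one_iff.mp h3, mul_one]

theorem ClassMult.quotient {p : ℕ} [hp : Fact p.Prime] {G : Type*} [Group G] [Finite G]
    (h : ClassMult p G) (N : Subgroup G) [N.Normal] : ClassMult p (G ⧸ N) := by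
  intro X Y ⟨i, hX⟩ ⟨q, j, hq, hqp, hY⟩ A B
  have hs := QuotientGroup.mk'_surjective N
  obtain ⟨x, hx, rfl⟩ := exists_lift _ hs hp.out X hX
  obtain ⟨y, ⟨j', hy⟩, rfl⟩ := exists_lift _ hs hq Y hY
  obtain ⟨a, rfl⟩ := hs A
  obtain ⟨b, rfl⟩ := hs B
  have := MonoidHom.map_isConj (QuotientGroup.mk' N) (h x y hx ⟨q, j', hq, hqp, hy⟩ a b)
  simpa using this

/-- A minimal normal subgroup has a normal `p`-complement. -/
theorem hasNormalPComplement_of_minimal {p : ℕ} [hp : Fact p.Prime] {G : Type*} [Group G] [Finite G]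
    (h : ClassMult p G) (N : Subgroup G) [N.Normal]
    (hmin : ∀ M : Subgroup G, M.Normal → M ≤ N → M ≠ ⊥ → M = N) :
    Cfsg.HasNormalPComplement p ↥N := by
  refine CfsgLib.Transfer.hasNormalPComplement_of_primePow_centralizes
    fun Q hQ q k hq hqp g hg hgk => ?_
  by_contra hgc
  rw [Subgroup.mem_centralizer_iff] at hgc
  push Not at hgc
  obtain ⟨u, hu, hne⟩ := hgc
  have hy : ∃ q b : ℕ, q.Prime ∧ q ≠ p ∧ orderOf (g : G) = q ^ b :=
    ⟨q, k, hq, hqp, (Subgroup.orderOf_coe g).trans hgk⟩
  set c : ↥N := u * (g * u⁻¹ * g⁻¹) with hc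
  have hcQ : c ∈ Q := mul_mem hu ((Subgroup.mem_normalizer_iff.mp hg u⁻¹).mp (inv_mem hu))
  have hc1 : (c : G) ≠ 1 := by
    intro he
    have he' : c = 1 := Subtype.ext he
    rw [hc] at he'
    refine hne ?_
    calc u * g = u * (g * u⁻¹ * g⁻¹) * (g * u) := by group
      _ = g * u := by rw [he', one_mul]
  have hx : ∃ a : ℕ, orderOf (c : G) = p ^ a := by
    obtain ⟨a, ha⟩ := IsPGroup.iff_orderOf.mp hQ ⟨c, hcQ⟩
    exact ⟨a, by rw [Subgroup.orderOf_coe, ← Subgroup.orderOf_mk c hcQ, ha]⟩
  -- `c * g` is conjugate to `g`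
  have hcg : IsConj (g : G) ((c : G) * g) := by
    refine isConj_iff.mpr ⟨(u : G), ?_⟩
    rw [hc]
    push_cast
    group
  have hstab : ∀ a s : G, IsConj (g : G) s → IsConj (g : G) (a * c * a⁻¹ * s) := by
    intro a s hs
    obtain ⟨b, rfl⟩ := isConj_iff.mp hs
    exact hcg.trans (h c g hx hy a b)
  -- so the class of `g` is stable under left multiplication by `N`
  let S : Submonoid G :=
    { carrier := {m | ∀ s : G, IsConj (g : G) s → IsConj (g : G) (m * s)}
      one_mem' := fun s hs => by rwa [one_mul]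
      mul_mem' := fun {m₁ m₂} h₁ h₂ s hs => by rw [mul_assoc]; exact h₁ _ (h₂ s hs) }
  have hclo : (Subgroup.normalClosure ({(c : G)} : Set G)).toSubmonoid ≤ S := by
    show (Subgroup.closure (Group.conjugatesOfSet ({(c : G)} : Set G))).toSubmonoid ≤ S
    rw [Subgroup.closure_toSubmonoid_of_finite, Submonoid.closure_le]
    intro m hm
    obtain ⟨d, hd, hdm⟩ := Group.mem_conjugatesOfSet_iff.mp hm
    rw [Set.mem_singleton_iff] at hd
    subst hd
    obtain ⟨a, rfl⟩ := isConj_iff.mp hdm
    exact hstab a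
  have hN : Subgroup.normalClosure ({(c : G)} : Set G) = N :=
    hmin _ Subgroup.normalClosure_normal (Subgroup.normalClosure_le_normal (by simp))
      fun he => hc1 (by
        simpa [he] using Subgroup.subset_normalClosure (Set.mem_singleton (c : G)))
  have h1 : IsConj (g : G) 1 := by
    have := hclo (show (g : G)⁻¹ ∈ Subgroup.normalClosure ({(c : G)} : Set G) from
      hN.symm ▸ inv_mem g.2) (g : G) (IsConj.refl _)
    simpa using this
  have hg1 : g = 1 := Subtype.ext (isConj_one_left.mp h1)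
  exact hne (by rw [hg1, mul_one, one_mul])

/-- A group with multiplicative classes of `p`-elements is `p`-solvable. -/
theorem isPSolvable_of_classMult {p : ℕ} [hp : Fact p.Prime] :
    ∀ (G : Type v) [Group G] [Finite G], ClassMult p G → Cfsg.IsPSolvable p G := by
  suffices key : ∀ (n : ℕ) (G : Type v) [Group G] [Finite G], Nat.card G = n → ClassMult p G →
      Cfsg.IsPSolvable p G from fun G _ _ h => key _ G rfl h
  intro n
  induction n using Nat.strong_induction_on with
  | _ n ih =>
    intro G _ _ hn h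
    rcases subsingleton_or_nontrivial G with hs | hs
    · exact CfsgLib.Constrained.isPSolvable_of_subsingleton
    obtain ⟨N, ⟨hN, hN1⟩, hmin⟩ :=
      (Set.toFinite {N : Subgroup G | N.Normal ∧ N ≠ ⊥}).exists_minimal
        ⟨⊤, inferInstance, top_ne_bot⟩
    haveI := hN
    have hmin' : ∀ M : Subgroup G, M.Normal → M ≤ N → M ≠ ⊥ → M = N :=
      fun M hM hle hne => le_antisymm hle (hmin ⟨hM, hne⟩ hle)
    refine CfsgLib.Constrained.isPSolvable_of_quotient N ?_ (ih _ ?_ (G ⧸ N) rfl (h.quotient N))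
    · obtain ⟨P, K, hK, hKc⟩ := hasNormalPComplement_of_minimal h N hmin'
      haveI := hK
      have hKp : ¬ p ∣ Nat.card ↥K := hKc.index_eq_card ▸ P.not_dvd_index
      have hKle : K ≤ pPrimeCore p ↥N := CfsgLib.Constrained.le_pPrimeCore_of_not_dvd hK hKp
      by_cases hM : (pPrimeCore p ↥N).map N.subtype = ⊥
      · left
        have hK1 : K = ⊥ := le_bot_iff.mp
          (((Subgroup.map_eq_bot_iff_of_injective _ N.subtype_injective).mp hM) ▸ hKle)
        have hc := hKc.card_mul_card
        rw [hK1, Subgroup.card_bot, one_mul] at hc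
        obtain ⟨m, hm⟩ := IsPGroup.iff_card.mp P.isPGroup'
        exact IsPGroup.of_card (hc.symm.trans hm)
      · right
        have he := hmin' _ inferInstance (Subgroup.map_subtype_le _) hM
        rw [← he, Subgroup.card_map_of_injective N.subtype_injective]
        exact CfsgLib.Constrained.pPrimeCore_not_dvd
    · rw [← hn, ← Subgroup.index, ← N.card_mul_index]
      exact lt_mul_of_one_lt_left (Nat.pos_of_ne_zero Subgroup.index_ne_zero_of_finite)
        (N.one_lt_card_iff_ne_bot.mpr hN1)

/-- Let p be a prime and G a finite group such that for every element x of p-power order and every element y whose order is a power of a prime other than p, the conjugacy class of x y is the set of all products of a conjugate of x with a conjugate of y. Then G is p-solvable. -/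
theorem result {G : Type*} [Group G] [Finite G] (p : ℕ) [Fact p.Prime] (h : ∀ x y : G, (∃ a : ℕ, orderOf x = p ^ a) → (∃ q b : ℕ, q.Prime ∧ q ≠ p ∧ orderOf y = q ^ b) → ∀ z : G, IsConj (x * y) z ↔ ∃ a b : G, z = a * x * a⁻¹ * (b * y * b⁻¹)) : Cfsg.IsPSolvable p G :=
  isPSolvable_of_classMult G fun x y hx hy a b => (h x y hx hy _).mpr ⟨a, b, rfl⟩

end Cfsg.Agent.S3989
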