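import Cfsg.Statements.S3992
import Cfsg.Agent.PrimeGraph.ThreePrimes
import Cfsg.Agent.Chars.Apps.Burnside
import Cfsg.Agent.MinNormal.Basic

set_option autoImplicit false
open Cfsg

namespace Cfsg.Agent.S3992

open CfsgLib.MinNormal in
theorem key_commute {Q : Type*} [Group Q] [Finite Q] (hpp : ∀ g : Q, g ≠ 1 → IsPrimePow (orderOf g))
    (A B : Subgroup Q) (hc : ∀ a ∈ A, ∀ b ∈ B, Commute a b) (hB : B ≠ ⊥) :
    ∃ p : ℕ, p.Prime ∧ IsPGroup p A := by
  obtain ⟨⟨b, hbB⟩, hb1⟩ := (B.ne_bot_iff_exists_ne_one).mp hB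
  have hb1' : b ≠ 1 := fun h => hb1 (Subtype.ext h)
  obtain ⟨q, hq, hqd⟩ := Nat.exists_prime_and_dvd (fun h => hb1' (orderOf_eq_one_iff.mp h))
  refine ⟨q, hq, ?_⟩
  haveI : Fact q.Prime := ⟨hq⟩
  intro ⟨a, haA⟩
  refine ⟨(orderOf a).factorization q, Subtype.ext ?_⟩
  show a ^ q ^ _ = 1
  rw [← orderOf_dvd_iff_pow_eq_one]
  have hall : ∀ {r : ℕ}, r.Prime → r ∣ orderOf a → r = q := by
    intro r hr hrd
    by_contra hrq
    set a' := a ^ (orderOf a / r) with ha'
    set b' := b ^ (orderOf b / q) with hb'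
    have h1 : orderOf a' = r := orderOf_pow_orderOf_div (orderOf_pos a).ne' hrd
    have h2 : orderOf b' = q := orderOf_pow_orderOf_div (orderOf_pos b).ne' hqd
    have hcc : Commute a' b' := (hc a haA b hbB).pow_pow _ _
    have hord := hcc.orderOf_mul_eq_mul_orderOf_of_coprime (by rw [h1, h2]; exact (Nat.coprime_primes hr hq).mpr hrq)
    rw [h1, h2] at hord
    have hne : a' * b' ≠ 1 := by
      intro he
      rw [he, orderOf_one] at hord
      exact hr.ne_one (Nat.eq_one_of_mul_eq_one_right hord.symm)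
    have hP := hpp _ hne
    rw [hord] at hP
    exact hrq ((isPrimePow_iff_unique_prime_dvd.mp hP).unique ⟨hr, dvd_mul_right r q⟩ ⟨hq, dvd_mul_left q r⟩)
  exact dvd_of_eq (Nat.eq_prime_pow_of_unique_prime_dvd (orderOf_pos a).ne' hall)
    |>.trans (pow_dvd_pow q ((hq.pow_dvd_iff_le_factorization (orderOf_pos a).ne').mp
      (dvd_of_eq (Nat.eq_prime_pow_of_unique_prime_dvd (orderOf_pos a).ne' hall).symm)))

theorem no_adjacent {Q : Type*} [Group Q] (hpp : ∀ g : Q, g ≠ 1 → IsPrimePow (orderOf g)) (x : Q) {a b : ℕ}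
    (ha : a.Prime) (hb : b.Prime) (hab : a ≠ b) : orderOf x ≠ a * b := by
  intro he
  have hne : x ≠ 1 := by
    rintro rfl
    rw [orderOf_one] at he
    exact ha.ne_one (Nat.eq_one_of_mul_eq_one_right he.symm)
  have hP := hpp x hne
  rw [he] at hP
  exact hab ((isPrimePow_iff_unique_prime_dvd.mp hP).unique ⟨ha, dvd_mul_right a b⟩ ⟨hb, dvd_mul_left b a⟩)

theorem no_three {Q : Type*} [Group Q] [Finite Q] (hpp : ∀ g : Q, g ≠ 1 → IsPrimePow (orderOf g))
    (H : Subgroup Q) (hH : Group.IsSolvable H) {p q r : ℕ} (hp : p.Prime) (hq : q.Prime) (hr : r.Prime)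
    (hpq : p ≠ q) (hpr : p ≠ r) (hqr : q ≠ r) :
    ¬ (p ∣ Nat.card H ∧ q ∣ Nat.card H ∧ r ∣ Nat.card H) := by
  rintro ⟨h1, h2, h3⟩
  obtain ⟨x, hx⟩ := CfsgLib.PrimeGraph.exists_adjacent_of_isSolvable (G := H) hp hq hr hpq hpr hqr h1 h2 h3
  rw [← Subgroup.orderOf_coe] at hx
  rcases hx with hx | hx | hx
  · exact no_adjacent hpp _ hp hq hpq hx
  · exact no_adjacent hpp _ hp hr hpr hx
  · exact no_adjacent hpp _ hq hr hqr hx

/-- Let G be a finite non-solvable group in which every element has prime-power order, and let R be its largest solvable normal subgroup. Then R is a p-group for some prime p; G/R has a non-abelian simple normal subgroup contained in every nontrivial normal subgroup of G/R (its unique minimal normal subgroup); and the order of every solvable subgroup of G has at most two prime divisors. -/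
theorem result {G : Type*} [Group G] [Finite G] (hns : ¬ Group.IsSolvable G) (hpp : ∀ g : G, g ≠ 1 → IsPrimePow (orderOf g))
    (R : Subgroup G) [R.Normal] (hRs : Group.IsSolvable ↥R) (hRmax : ∀ N : Subgroup G, N.Normal → Group.IsSolvable ↥N → N ≤ R) :
    (∃ p : ℕ, p.Prime ∧ IsPGroup p ↥R) ∧
      (∃ M : Subgroup (G ⧸ R), M.Normal ∧ IsSimpleGroup ↥M ∧ ¬ IsMulCommutative ↥M ∧
        ∀ N : Subgroup (G ⧸ R), N.Normal → N ≠ ⊥ → M ≤ N) ∧
      ∀ H : Subgroup G, Group.IsSolvable ↥H → (Nat.card ↥H).primeFactors.card ≤ 2 := by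
  classical
  refine ⟨?_, ?_, ?_⟩
  · by_cases hR : Nat.card R = 1
    · exact ⟨2, Nat.prime_two, IsPGroup.of_card (n := 0) (by rw [hR, pow_zero])⟩
    obtain ⟨p, hp, hpd⟩ := Nat.exists_prime_and_dvd hR
    refine ⟨p, hp, ?_⟩
    haveI : Fact p.Prime := ⟨hp⟩
    suffices hall : ∀ {q : ℕ}, q.Prime → q ∣ Nat.card R → q = p from
      IsPGroup.of_card (Nat.eq_prime_pow_of_unique_prime_dvd Nat.card_pos.ne' hall)
    intro q hq hqd
    by_contra hqp
    obtain ⟨r, hr, hrd, hrp, hrq⟩ : ∃ r : ℕ, r.Prime ∧ r ∣ Nat.card G ∧ r ≠ p ∧ r ≠ q := by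
      by_contra hc
      push_neg at hc
      exact hns (CfsgLib.Chars.Apps.isSolvable_of_primeFactors_subset G hp hq fun r hr hrd =>
        (em (r = p)).imp_right (hc r hr hrd))
    haveI : Fact r.Prime := ⟨hr⟩
    obtain ⟨y, hy⟩ := exists_prime_orderOf_dvd_card' r hrd
    have hyn : Subgroup.zpowers y ≤ Subgroup.normalizer (R : Set G) := by
      rw [Subgroup.normalizer_eq_top]; exact le_top
    have hsol := CfsgLib.PrimeGraph.isSolvable_sup_of_le_normalizer hRs
      (inferInstance : Group.IsSolvable (Subgroup.zpowers y)) hyn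
    exact no_three hpp _ hsol hp hq hr (Ne.symm hqp) hrp.symm hrq.symm
      ⟨hpd.trans (Subgroup.card_dvd_of_le le_sup_left), hqd.trans (Subgroup.card_dvd_of_le le_sup_left),
        (dvd_of_eq (by rw [Nat.card_zpowers, hy])).trans (Subgroup.card_dvd_of_le le_sup_right)⟩
  · have hppQ : ∀ g : G ⧸ R, g ≠ 1 → IsPrimePow (orderOf g) := by
      intro g hg
      obtain ⟨a, rfl⟩ := QuotientGroup.mk_surjective g
      have ha : a ≠ 1 := by rintro rfl; exact hg rfl
      exact (hpp a ha).dvd (orderOf_map_dvd (QuotientGroup.mk' R) a) (fun h => hg (orderOf_eq_one_iff.mp h))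
    have hsolbot : ∀ N : Subgroup (G ⧸ R), N.Normal → Group.IsSolvable N → N = ⊥ := by
      intro N hN hNs
      have h1 : (N.comap (QuotientGroup.mk' R)).Normal := hN.comap _
      have h2 : Group.IsSolvable (N.comap (QuotientGroup.mk' R)) := by
        haveI := hNs; haveI := hRs
        have hle : R ≤ N.comap (QuotientGroup.mk' R) := by
          intro x hx; show QuotientGroup.mk' R x ∈ N
          rw [show QuotientGroup.mk' R x = 1 from (QuotientGroup.eq_one_iff x).mpr hx]; exact N.one_mem
        let f : ↥(N.comap (QuotientGroup.mk' R)) →* ↥N := (QuotientGroup.mk' R).subgroupComap N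
        refine solvable_of_ker_le_range (Subgroup.inclusion hle) f fun x hx => ?_
        exact ⟨⟨x, (QuotientGroup.eq_one_iff _).mp (congrArg Subtype.val hx)⟩, rfl⟩
      rw [eq_bot_iff]
      intro x hx
      obtain ⟨a, rfl⟩ := QuotientGroup.mk_surjective x
      exact Subgroup.mem_bot.mpr ((QuotientGroup.eq_one_iff a).mpr (hRmax _ h1 h2 hx))
    have hnp : ∀ {p : ℕ}, p.Prime → ∀ N : Subgroup (G ⧸ R), N.Normal → IsPGroup p N → N = ⊥ := by
      intro p hp N hN hNp
      haveI : Fact p.Prime := ⟨hp⟩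
      haveI := hNp.isNilpotent
      exact hsolbot N hN inferInstance
    haveI : Nontrivial (G ⧸ R) := by
      by_contra hnt
      rw [not_nontrivial_iff_subsingleton] at hnt
      haveI := hRs
      exact hns (solvable_of_surjective (f := R.subtype) fun g =>
        ⟨⟨g, (QuotientGroup.eq_one_iff g).mp (Subsingleton.elim _ _)⟩, rfl⟩)
    obtain ⟨M, hM⟩ := CfsgLib.MinNormal.exists_isMinNormal (G := G ⧸ R)
    haveI := hM.normal
    have hMns : ¬ Group.IsSolvable M := fun h => hM.ne_bot (hsolbot M hM.normal h)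
    have hMna : ¬ IsMulCommutative M := fun h => hMns (by
      haveI := h; exact Group.isSolvable_of_comm fun a b => mul_comm' a b)
    haveI : Nontrivial M := (Subgroup.nontrivial_iff_ne_bot M).mpr hM.ne_bot
    refine ⟨M, hM.normal, ?_, hMna, ?_⟩
    · rw [← CfsgLib.MinNormal.isMinNormal_top_iff]
      obtain ⟨S, hS⟩ := CfsgLib.MinNormal.exists_isMinNormal (G := M)
      suffices hST : S = ⊤ by rwa [hST] at hS
      haveI := hS.normal
      let c : (G ⧸ R) → Subgroup (G ⧸ R) := fun g => (S.map M.subtype).map (MulAut.conj g).toMonoidHom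
      have hcsub : ∀ g, c g ≤ M := by
        rintro g _ ⟨w, ⟨⟨z, hz⟩, -, rfl⟩, rfl⟩
        exact hM.normal.conj_mem z hz g
      have hmin : ∀ g, CfsgLib.MinNormal.IsMinNormal ((c g).subgroupOf M) := by
        intro g
        have he : (c g).subgroupOf M = S.map (MulAut.conjNormal (H := M) g).toMonoidHom := by
          ext x
          simp only [Subgroup.mem_subgroupOf, c, Subgroup.mem_map]
          constructor
          · rintro ⟨w, ⟨z, hz, rfl⟩, hwx⟩; exact ⟨z, hz, Subtype.ext hwx⟩
          · rintro ⟨z, hz, rfl⟩; exact ⟨_, ⟨z, hz, rfl⟩, rfl⟩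
        rw [he]; exact hS.map_mulEquiv _
      have hcomm : ∀ g h, c g ≠ c h → ∀ x ∈ c g, ∀ y ∈ c h, Commute x y := by
        intro g h hne x hx y hy
        have hne' : (c g).subgroupOf M ≠ (c h).subgroupOf M := by
          intro he
          apply hne
          rw [← Subgroup.map_subgroupOf_eq_of_le (hcsub g), he, Subgroup.map_subgroupOf_eq_of_le (hcsub h)]
        exact congrArg Subtype.val ((hmin g).commute_of_ne (hmin h) hne'
          (x := ⟨x, hcsub g hx⟩) (y := ⟨y, hcsub h hy⟩) hx hy).eq
      have hnb : ∀ g, c g ≠ ⊥ := by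
        intro g he
        exact (hmin g).ne_bot (by rw [he]; simp)
      by_cases hall : ∀ g, c g = c 1
      · have hn : (c 1).Normal := ⟨fun x hx g => by
          rw [← hall g]
          obtain ⟨w, hw, rfl⟩ := hx
          exact ⟨w, hw, by simp⟩⟩
        have hc1 : c 1 = S.map M.subtype := by
          ext x; simp [c]
        rcases hM.eq_or_eq _ hn (hcsub 1) with h0 | h0
        · exact absurd h0 (hnb 1)
        · rw [eq_top_iff]
          intro x _
          have : (x : G ⧸ R) ∈ S.map M.subtype := by rw [← hc1, h0]; exact x.2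
          obtain ⟨z, hz, hzx⟩ := this
          rwa [← show z = x from Subtype.ext hzx]
      · push_neg at hall
        obtain ⟨g, hg⟩ := hall
        obtain ⟨p, hp, hpG⟩ := key_commute hppQ (c 1) (c g) (hcomm 1 g hg.symm) (hnb g)
        haveI : Fact p.Prime := ⟨hp⟩
        have hpgrp : ∀ h, IsPGroup p (c h) := by
          intro h
          have : c h = (c 1).map (MulAut.conj h).toMonoidHom := by
            ext x; simp [c, Subgroup.mem_map]
          rw [this]; exact hpG.map _
        have hS2 : IsPGroup p S := by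
          have h1 : IsPGroup p (S.map M.subtype) := by
            have hc1 : c 1 = S.map M.subtype := by ext x; simp [c]
            rw [← hc1]; exact hpG
          exact h1.of_equiv (S.equivMapOfInjective _ M.subtype_injective).symm
        exfalso
        have hcore : ∃ N : Subgroup (G ⧸ R), N.Normal ∧ IsPGroup p N ∧ N ≠ ⊥ := by
          obtain ⟨T⟩ : Nonempty (Sylow p M) := inferInstance
          have hle : ∀ h, (c h).subgroupOf M ≤ (T : Subgroup M) := by
            intro h
            haveI := (hmin h).normal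
            refine IsPGroup.le_sylow_of_normal ?_ T
            exact (hpgrp h).of_equiv (Subgroup.subgroupOfEquivOfLe (hcsub h)).symm
          refine ⟨⨆ h, c h, ?_, ?_, ?_⟩
          · constructor
            intro x hx k
            have : (⨆ h, c h).map (MulAut.conj k).toMonoidHom ≤ ⨆ h, c h := by
              rw [Subgroup.map_iSup]
              refine iSup_le fun h => le_trans (le_of_eq ?_) (le_iSup c (k * h))
              ext w; simp [c, Subgroup.mem_map, mul_assoc]
            exact this ⟨x, hx, rfl⟩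
          · refine (T.2.map M.subtype).to_le (iSup_le fun h => ?_)
            rw [← Subgroup.map_subgroupOf_eq_of_le (hcsub h)]
            exact Subgroup.map_mono (hle h)
          · exact fun he => hnb 1 (eq_bot_iff.mpr (he ▸ le_iSup c 1))
        obtain ⟨N, hN, hNp, hN1⟩ := hcore
        exact hN1 (hnp hp N hN hNp)
    · intro N hN hN1
      rcases hM.le_or_inf_eq_bot hN with h | h
      · exact h
      · exfalso
        have hc : ∀ a ∈ M, ∀ b ∈ N, Commute a b := fun a ha b hb =>
          Subgroup.commute_of_normal_of_disjoint M N hM.normal hN (disjoint_iff.mpr h) a b ha hb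
        obtain ⟨p, hp, hMp⟩ := key_commute hppQ M N hc hN1
        exact hM.ne_bot (hnp hp M hM.normal hMp)
  · intro H hH
    by_contra hlt
    rw [not_le] at hlt
    obtain ⟨p, q, r, hp, hq, hr, hpq, hpr, hqr⟩ := Finset.two_lt_card_iff.mp hlt
    rw [Nat.mem_primeFactors] at hp hq hr
    exact no_three hpp H hH hp.1 hq.1 hr.1 hpq hpr hqr ⟨hp.2.1, hq.2.1, hr.2.1⟩

end Cfsg.Agent.S3992
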