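import Cfsg.Statements.S3999
import Cfsg.Agent.FrobType.Structure
import Cfsg.Agent.FPFNilpotent.Main
import Mathlib

set_option autoImplicit false
open Cfsg

namespace Cfsg.Agent.S3999

section Helpers

theorem kernelNilpotent {F : Type*} [Group F] [Finite F] (C : Subgroup F) (hC : Cfsg.IsFrobeniusComplement C) :
    ∃ N : Subgroup F, (N : Set F) = Cfsg.frobeniusKernel C ∧ N.Normal ∧ Group.IsNilpotent N :=
  CfsgLib.FPFNilpotent.frobenius_kernel_isNilpotent CfsgLib.FPFNilpotent.criterion C hC

theorem solvable_of_frobenius {F : Type*} [Group F] [Finite F] {C K : Subgroup F}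
    (hC : Cfsg.IsFrobeniusComplement C) (hK : (K : Set F) = Cfsg.frobeniusKernel C)
    [Group.IsNilpotent K] [Group.IsSolvable C] : Group.IsSolvable F := by
  haveI := CfsgLib.Frobenius.kernel_normal hK
  exact CfsgLib.FrobType.isSolvable_of_normal_of_complement
    (CfsgLib.Frobenius.kernel_isComplement' hC hK)

theorem hasFPFRep_of_complement {F : Type*} [Group F] [Finite F] {C : Subgroup F}
    (hC : Cfsg.IsFrobeniusComplement C) : CfsgLib.FrobType.HasFPFRep C := by
  obtain ⟨r, hr, d, ρ, hd, -, hρ⟩ := CfsgLib.Frobenius.exists_prime_rep hC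
  exact ⟨r, hr, d, ρ, hd, hρ⟩

end Helpers


/-- Let F be a finite Frobenius group (it has a Frobenius complement) and G a finite group with the same order type as F (for every m the same number of elements of order m). Then G is a Frobenius group; moreover G is solvable if and only if F is. -/
theorem result {F G : Type*} [Group F] [Finite F] [Group G] [Finite G] (hF : (∃ C : Subgroup F, Cfsg.IsFrobeniusComplement C)) (hT : (∀ m : ℕ, Nat.card {g : F // orderOf g = m} = Nat.card {h : G // orderOf h = m})) :
    (∃ C : Subgroup G, Cfsg.IsFrobeniusComplement C) ∧ (Group.IsSolvable G ↔ Group.IsSolvable F) := by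
  obtain ⟨C, hC⟩ := hF
  obtain ⟨K, hK, hKn, hKnil⟩ := kernelNilpotent C hC
  obtain ⟨N, D, hN, hNnil, hND, hD, hDc, hcnt⟩ :=
    CfsgLib.FrobType.exists_structure (G := G) hC hK hT
  refine ⟨⟨D, hD⟩, ?_, ?_⟩
  · intro hG
    haveI : Group.IsSolvable C :=
      CfsgLib.FrobType.isSolvable_of_counts (hasFPFRep_of_complement hD) inferInstance hDc.symm
        (fun m _ => hcnt m)
    exact solvable_of_frobenius hC hK
  · intro hFs
    haveI : Group.IsSolvable D :=
      CfsgLib.FrobType.isSolvable_of_counts (hasFPFRep_of_complement hC) inferInstance hDc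
        (fun m _ => (hcnt m).symm)
    haveI := hN
    exact CfsgLib.FrobType.isSolvable_of_normal_of_complement hND

end Cfsg.Agent.S3999
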