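import Cfsg.Statements.S4001
import Mathlib
import Cfsg.Agent.TwoFrobenius.Basic

set_option autoImplicit false
open Cfsg

namespace Cfsg.Agent.S4001

/-- Let G be a 2-Frobenius group: it has normal subgroups H < K with K a Frobenius group with kernel H and G/H a Frobenius group with kernel K/H. Then G is solvable; K/H has odd order coprime to the order of H and to the order of G/K (it is the image of an odd-order Hall subgroup); G/K is cyclic; and the prime graph of G has exactly two connected components, both complete: for distinct primes p, q dividing the order of G, G has an element of order pq exactly when p and q either both divide the order of K/H or both do not. -/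
theorem result {G : Type*} [Group G] [Finite G] (H K : Subgroup G) [H.Normal] [K.Normal] (hlt : H < K)
    (hK : ∃ C : Subgroup ↥K, Cfsg.IsFrobeniusComplement C ∧ Cfsg.frobeniusKernel C = (H.subgroupOf K : Set ↥K))
    (hGH : ∃ C : Subgroup (G ⧸ H), Cfsg.IsFrobeniusComplement C ∧ Cfsg.frobeniusKernel C = (K.map (QuotientGroup.mk' H) : Set (G ⧸ H))) :
    Group.IsSolvable G ∧ Odd (Nat.card (↥K ⧸ H.subgroupOf K)) ∧
      Nat.Coprime (Nat.card (↥K ⧸ H.subgroupOf K)) (Nat.card ↥H * Nat.card (G ⧸ K)) ∧ IsCyclic (G ⧸ K) ∧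
      ∀ p q : ℕ, p.Prime → q.Prime → p ≠ q → p ∣ Nat.card G → q ∣ Nat.card G →
        ((∃ g : G, orderOf g = p * q) ↔ (p ∣ Nat.card (↥K ⧸ H.subgroupOf K) ↔ q ∣ Nat.card (↥K ⧸ H.subgroupOf K))) := by
  obtain ⟨C, hC, hCk⟩ := hK
  obtain ⟨D, hD, hDk⟩ := hGH
  let d : CfsgLib.TwoFrobenius.Data H K := ⟨hlt, C, hC, hCk, D, hD, hDk⟩
  have hcard : Nat.card (↥K ⧸ H.subgroupOf K) = Nat.card (K.map (QuotientGroup.mk' H)) := by
    have h1 := Subgroup.card_eq_card_quotient_mul_card_subgroup (H.subgroupOf K)
    rw [Nat.card_congr (Subgroup.subgroupOfEquivOfLe hlt.le).toEquiv, ← d.card_quot_mul] at h1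
    exact (Nat.eq_of_mul_eq_mul_right Nat.card_pos h1).symm
  rw [hcard]
  set b := Nat.card (K.map (QuotientGroup.mk' H))
  refine ⟨d.isSolvable, Nat.odd_iff.mpr (by have h := d.odd_quot; rw [Nat.dvd_iff_mod_eq_zero] at h; omega),
    Nat.Coprime.mul_right d.coprime_H d.coprime_top, d.isCyclic_top, ?_⟩
  intro p q hp hq hpq hpG hqG
  constructor
  · rintro ⟨g, hg⟩
    exact ⟨d.not_mixed hp hq hg, d.not_mixed hq hp (by rw [hg, mul_comm])⟩
  · intro hiff
    have hco : Nat.Coprime p q := (Nat.coprime_primes hp hq).mpr hpq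
    haveI := Fact.mk hp
    haveI := Fact.mk hq
    by_cases hpb : p ∣ b
    · haveI := d.isCyclic_quot
      obtain ⟨x, hx⟩ := IsCyclic.exists_generator (α := K.map (QuotientGroup.mk' H))
      obtain ⟨g, -, hg⟩ := Subgroup.mem_map.mp x.2
      have h1 : b ∣ orderOf g := by
        rw [show b = orderOf x from (orderOf_eq_card_of_forall_mem_zpowers hx).symm, ← Subgroup.orderOf_coe, ← hg]
        exact orderOf_map_dvd _ _
      exact ⟨g ^ (orderOf g / (p * q)), orderOf_pow_orderOf_div (orderOf_pos g).ne'
        ((hco.mul_dvd_of_dvd_of_dvd hpb (hiff.mp hpb)).trans h1)⟩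
    · have hqb : ¬ q ∣ b := fun h => hpb (hiff.mpr h)
      have hside : ∀ r : ℕ, r.Prime → r ∣ Nat.card G → ¬ r ∣ b → r ∣ Nat.card H ∨ r ∣ Nat.card (G ⧸ K) := by
        intro r hr hrG hrb
        rw [d.card_eq] at hrG
        rcases hr.dvd_mul.mp hrG with h | h
        · exact Or.inl ((hr.dvd_mul.mp h).resolve_right hrb)
        · exact Or.inr h
      by_cases hpH : p ∣ Nat.card H <;> by_cases hqH : q ∣ Nat.card H
      · haveI := d.isNilpotent_H
        obtain ⟨x, hx⟩ := exists_prime_orderOf_dvd_card' p hpH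
        obtain ⟨y, hy⟩ := exists_prime_orderOf_dvd_card' q hqH
        let T : Sylow q H := default
        have hyT : y ∈ (T : Subgroup H) := by
          obtain ⟨T', hT'⟩ := (IsPGroup.of_card (n := 1) (show Nat.card (Subgroup.zpowers y) = q ^ 1 by
            rw [Nat.card_zpowers, hy, pow_one])).exists_le_sylow
          haveI := Sylow.unique_of_normal T inferInstance
          exact (Subsingleton.elim T' T) ▸ hT' (Subgroup.mem_zpowers y)
        have hc : Commute x y := CfsgLib.CharPClimb.commute_of_nilpotent T.2 inferInstance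
          (by rw [hx]; exact hco) y hyT
        exact ⟨((x * y : H) : G), by
          rw [Subgroup.orderOf_coe, hc.orderOf_mul_eq_mul_orderOf_of_coprime (by rw [hx, hy]; exact hco), hx, hy]⟩
      · exact d.exists_adjacent hp hq hpH ((hside q hq hqG hqb).resolve_left hqH) hqH
      · obtain ⟨g, hg⟩ := d.exists_adjacent hq hp hqH ((hside p hp hpG hpb).resolve_left hpH) hpH
        exact ⟨g, by rw [hg, mul_comm]⟩
      · haveI := d.isCyclic_top
        exact d.exists_of_cyclic_quotient (hco.mul_dvd_of_dvd_of_dvd ((hside p hp hpG hpb).resolve_left hpH)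
          ((hside q hq hqG hqb).resolve_left hqH))

end Cfsg.Agent.S4001
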