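import Cfsg.Statements.S4010
import Mathlib

set_option autoImplicit false
open Cfsg

namespace Cfsg.Agent.S4010

open scoped commutatorElement
open Module

universe u v w

/-- The `k`th derived subgroup acts trivially. -/
def Triv {P : Type u} [Group P] {K : Type v} [Field K] {V : Type w} [AddCommGroup V] [Module K V]
    (ρ : Representation K P V) (k : ℕ) : Prop :=
  ∀ g ∈ derivedSeries P k, ρ g = 1

section Basics

variable {P : Type u} [Group P] {K : Type v} [Field K] {V : Type w} [AddCommGroup V] [Module K V]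
  {ρ : Representation K P V}

theorem Triv.mono {k l : ℕ} (h : Triv ρ k) (hkl : k ≤ l) : Triv ρ l := fun g hg =>
  h g (derivedSeries_antitone P hkl hg)

/-- The representation on an invariant subspace. -/
def restr (ρ : Representation K P V) (W : Submodule K V) (hW : ∀ g, ∀ w ∈ W, ρ g w ∈ W) :
    Representation K P W where
  toFun g := (ρ g).restrict (hW g)
  map_one' := LinearMap.ext fun x => Subtype.ext (by simp)
  map_mul' g h := LinearMap.ext fun x => Subtype.ext (by simp)

/-- The representation on the quotient by an invariant subspace. -/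
def quot (ρ : Representation K P V) (W : Submodule K V) (hW : ∀ g, ∀ w ∈ W, ρ g w ∈ W) :
    Representation K P (V ⧸ W) where
  toFun g := W.mapQ W (ρ g) (fun w hw => hW g w hw)
  map_one' := Submodule.linearMap_qext _ (LinearMap.ext fun x => by simp)
  map_mul' g h := Submodule.linearMap_qext _ (LinearMap.ext fun x => by simp)

theorem inv_act (g : P) (x : V) : ρ g⁻¹ (ρ g x) = x := by
  rw [← Module.End.mul_apply, ← map_mul, inv_mul_cancel, map_one]; rfl

theorem act_inv (g : P) (x : V) : ρ g (ρ g⁻¹ x) = x := by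
  rw [← Module.End.mul_apply, ← map_mul, mul_inv_cancel, map_one]; rfl

theorem map_commutator_eq_one {a b : P} (h : ρ a * ρ b = ρ b * ρ a) : ρ ⁅a, b⁆ = 1 := by
  rw [show ⁅a, b⁆ = a * b * (b * a)⁻¹ by rw [commutatorElement_def]; group, map_mul, map_mul, h,
    ← map_mul, ← map_mul, mul_inv_cancel, map_one]

/-- Two unipotent layers give an abelian group. -/
theorem triv_succ_of_layers {W : Submodule K V} {hW : ∀ g, ∀ w ∈ W, ρ g w ∈ W} {k : ℕ}
    (h1 : Triv (restr ρ W hW) k) (h2 : Triv (quot ρ W hW) k) : Triv ρ (k + 1) := by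
  have e1 : ∀ g ∈ derivedSeries P k, ∀ w ∈ W, ρ g w = w := fun g hg w hw =>
    congrArg Subtype.val (LinearMap.ext_iff.mp (h1 g hg) ⟨w, hw⟩)
  have e2 : ∀ g ∈ derivedSeries P k, ∀ x, ρ g x - x ∈ W := fun g hg x =>
    (Submodule.Quotient.eq W).mp (LinearMap.ext_iff.mp (h2 g hg) (Submodule.Quotient.mk x))
  have hc : ∀ a ∈ derivedSeries P k, ∀ b ∈ derivedSeries P k, ρ a * ρ b = ρ b * ρ a := by
    intro a ha b hb
    refine LinearMap.ext fun x => ?_
    show ρ a (ρ b x) = ρ b (ρ a x)
    have hA := e1 a ha _ (e2 b hb x)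
    have hB := e1 b hb _ (e2 a ha x)
    rw [map_sub] at hA hB
    have hA' := sub_eq_iff_eq_add.mp hA
    have hB' := sub_eq_iff_eq_add.mp hB
    rw [hA', hB']
    abel
  intro g hg
  rw [derivedSeries_succ] at hg
  have hsub : ⁅derivedSeries P k, derivedSeries P k⁆ ≤ MonoidHom.ker ρ := by
    rw [Subgroup.commutator_le]
    intro a ha b hb
    exact map_commutator_eq_one (hc a ha b hb)
  exact hsub hg

end Basics

section CharP

variable {P : Type u} [Group P] [Finite P] {p : ℕ} [hp : Fact p.Prime] {K : Type v} [Field K] [CharP K p]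

theorem exists_fixed_vector (hP : IsPGroup p P) {V : Type w} [AddCommGroup V] [Module K V] [Nontrivial V]
    (ρ : Representation K P V) : ∃ v : V, v ≠ 0 ∧ ∀ g, ρ g v = v := by
  classical
  haveI := Fintype.ofFinite P
  obtain ⟨v₀, hv₀⟩ := exists_ne (0 : V)
  let ι : ZMod p →+* K := ZMod.castHom dvd_rfl K
  let Φ : (P → ZMod p) →+ V :=
    AddMonoidHom.mk' (fun f => ∑ g, ι (f g) • ρ g v₀) (fun f f' => by
      simp only [Pi.add_apply, map_add, add_smul, Finset.sum_add_distrib])
  have hstab : ∀ (h : P) (x : V), x ∈ Φ.range → ρ h x ∈ Φ.range := by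
    rintro h _ ⟨f, rfl⟩
    refine ⟨fun g => f (h⁻¹ * g), ?_⟩
    simp only [Φ, AddMonoidHom.mk'_apply, map_sum, map_smul]
    refine (Fintype.sum_equiv (Equiv.mulLeft h) _ _ fun g => ?_).symm
    simp only [Equiv.coe_mulLeft, inv_mul_cancel_left, map_mul, Module.End.mul_apply]
  letI act : MulAction P Φ.range :=
    { smul := fun h x => ⟨ρ h x, hstab h x x.2⟩
      one_smul := fun x => Subtype.ext (show ρ 1 (x : V) = x by rw [map_one]; rfl)
      mul_smul := fun g h x => Subtype.ext (show ρ (g * h) (x : V) = ρ g (ρ h x) by rw [map_mul]; rfl) }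
  haveI : Finite Φ.range := Finite.of_surjective Φ.rangeRestrict Φ.rangeRestrict_surjective
  have hv : v₀ ∈ Φ.range := by
    refine ⟨Pi.single 1 1, ?_⟩
    simp only [Φ, AddMonoidHom.mk'_apply]
    rw [Finset.sum_eq_single (1 : P) (fun g _ hg => by simp [hg]) (fun h => absurd (Finset.mem_univ _) h)]
    simp
  have hdvd : p ∣ Nat.card Φ.range := by
    obtain ⟨x, hx⟩ := (⟨⟨v₀, hv⟩, rfl⟩ : ∃ x : Φ.range, (x : V) = v₀)
    have hpx : p • (⟨v₀, hv⟩ : Φ.range) = 0 := Subtype.ext (by
      show p • v₀ = 0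
      rw [← Nat.cast_smul_eq_nsmul K, CharP.cast_eq_zero, zero_smul])
    have ho : addOrderOf (⟨v₀, hv⟩ : Φ.range) = p :=
      addOrderOf_eq_prime hpx fun h => hv₀ (congrArg Subtype.val h)
    have hd := addOrderOf_dvd_natCard (⟨v₀, hv⟩ : Φ.range)
    rwa [ho] at hd
  obtain ⟨b, hb, hb0⟩ := hP.exists_fixed_point_of_prime_dvd_card_of_fixed_point Φ.range hdvd
    (a := (0 : Φ.range)) (fun g => Subtype.ext (map_zero (ρ g)))
  exact ⟨b, fun h => hb0 (Subtype.ext h).symm, fun g => congrArg Subtype.val (hb g)⟩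

theorem exists_invariant_of_dim (hP : IsPGroup p P) {V : Type w} [AddCommGroup V] [Module K V]
    [FiniteDimensional K V] (ρ : Representation K P V) :
    ∀ r, r ≤ finrank K V → ∃ W : Submodule K V, finrank K W = r ∧ ∀ g, ∀ x ∈ W, ρ g x ∈ W := by
  intro r
  induction r with
  | zero => exact fun _ => ⟨⊥, finrank_bot K V, fun g x hx => by rw [Submodule.mem_bot] at hx; simp [hx]⟩
  | succ r ih =>
    intro hr
    obtain ⟨W, hW, hinv⟩ := ih (by omega)
    have hlt : 0 < finrank K (V ⧸ W) := by
      have := W.finrank_quotient_add_finrank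
      omega
    haveI : Nontrivial (V ⧸ W) := finrank_pos_iff.mp hlt
    obtain ⟨y, hy, hfix⟩ := exists_fixed_vector hP (quot ρ W hinv)
    have hline : ∀ g, ∀ x ∈ Submodule.comap W.mkQ (Submodule.span K {y}), ρ g x ∈ Submodule.comap W.mkQ (Submodule.span K {y}) := by
      intro g x hx
      rw [Submodule.mem_comap, Submodule.mem_span_singleton] at hx ⊢
      obtain ⟨c, hc⟩ := hx
      refine ⟨c, ?_⟩
      show c • y = quot ρ W hinv g (W.mkQ x)
      rw [← hc, map_smul, hfix]
    refine ⟨_, ?_, hline⟩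
    have h1 := Submodule.finrank_quotient_add_finrank (Submodule.comap W.mkQ (Submodule.span K {y}))
    have h2 := W.finrank_quotient_add_finrank
    have e : (V ⧸ Submodule.comap W.mkQ (Submodule.span K {y})) ≃ₗ[K] (V ⧸ W) ⧸ Submodule.span K {y} :=
      ((Submodule.quotientQuotientEquivQuotient W _ (by
        intro x hx
        rw [Submodule.mem_comap, show W.mkQ x = 0 from (Submodule.Quotient.mk_eq_zero W).mpr hx]
        exact Submodule.zero_mem _)).symm.trans
        (Submodule.quotEquivOfEq _ _ (Submodule.map_comap_eq_of_surjective W.mkQ_surjective _)))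
    have h3 := Submodule.finrank_quotient_add_finrank (Submodule.span K {y})
    rw [finrank_span_singleton hy] at h3
    rw [e.finrank_eq] at h1
    omega

end CharP

theorem triv_charP {p : ℕ} [Fact p.Prime] {K : Type v} [Field K] [CharP K p] :
    ∀ (n : ℕ) {P : Type u} [Group P] [Finite P], IsPGroup p P →
      ∀ {V : Type w} [AddCommGroup V] [Module K V] [FiniteDimensional K V] (ρ : Representation K P V),
        finrank K V = n → Triv ρ (Nat.clog 2 n) := by
  intro n
  induction n using Nat.strong_induction_on with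
  | _ n ih =>
  intro P _ _ hP V _ _ _ ρ hn
  rcases Nat.lt_or_ge n 2 with h | h
  · rcases (show n = 0 ∨ n = 1 by omega) with rfl | rfl
    · intro g _
      haveI := finrank_zero_iff.mp hn
      exact LinearMap.ext fun x => Subsingleton.elim _ _
    · haveI : Nontrivial V := finrank_pos_iff (R := K) |>.mp (by omega)
      obtain ⟨y, hy, hfix⟩ := exists_fixed_vector hP ρ
      intro g _
      refine LinearMap.ext fun x => ?_
      obtain ⟨c, rfl⟩ := exists_smul_eq_of_finrank_eq_one hn hy x
      rw [map_smul, hfix]; rfl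
  · obtain ⟨W, hW, hinv⟩ := exists_invariant_of_dim hP ρ ((n + 1) / 2) (by omega)
    have hq : finrank K (V ⧸ W) = n - (n + 1) / 2 := by
      have := W.finrank_quotient_add_finrank
      omega
    rw [Nat.clog_of_one_lt one_lt_two (by omega : 1 < n), show n + 2 - 1 = n + 1 by omega]
    refine triv_succ_of_layers (ih _ (by omega) hP (restr ρ W hinv) hW) ?_
    exact (ih _ (by omega) hP (quot ρ W hinv) hq).mono (Nat.clog_mono_right 2 (by omega))

theorem triv_coprime {p : ℕ} [Fact p.Prime] {K : Type v} [Field K] [IsAlgClosed K] (hK : (p : K) ≠ 0) :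
    ∀ (n : ℕ) {P : Type u} [Group P] [Finite P], IsPGroup p P →
      ∀ {V : Type w} [AddCommGroup V] [Module K V] [FiniteDimensional K V] (ρ : Representation K P V),
        finrank K V = n → Triv ρ (Nat.log 2 n + 1) := by
  intro n
  induction n using Nat.strong_induction_on with
  | _ n ih =>
  intro P _ _ hP V _ _ _ ρ hn
  classical
  by_cases hred : ∃ W : Submodule K V, W ≠ ⊥ ∧ W ≠ ⊤ ∧ ∀ g, ∀ x ∈ W, ρ g x ∈ W
  · obtain ⟨W, hW0, hW1, hinv⟩ := hred
    haveI : NeZero (Nat.card P : K) := by
      obtain ⟨m, hm⟩ := IsPGroup.iff_card.mp hP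
      exact ⟨by rw [hm, Nat.cast_pow]; exact pow_ne_zero m hK⟩
    obtain ⟨W', hWW'⟩ := exists_isCompl (⟨W, fun g x hx => hinv g x hx⟩ : Subrepresentation ρ)
    have hinv' : ∀ g, ∀ x ∈ W'.toSubmodule, ρ g x ∈ W'.toSubmodule := fun g x hx => W'.apply_mem_toSubmodule g hx
    have hsup : W ⊔ W'.toSubmodule = ⊤ := congrArg Subrepresentation.toSubmodule hWW'.sup_eq_top
    have hinf : W ⊓ W'.toSubmodule = ⊥ := congrArg Subrepresentation.toSubmodule hWW'.inf_eq_bot
    have hdim := Submodule.finrank_sup_add_finrank_inf_eq W W'.toSubmodule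
    rw [hsup, hinf, finrank_top, finrank_bot, hn] at hdim
    have hpos : 0 < finrank K W := Nat.pos_of_ne_zero fun h => hW0 (Submodule.finrank_eq_zero.mp h)
    have hlt : finrank K W < n := by
      by_contra hge
      exact hW1 (Submodule.eq_top_of_finrank_eq (le_antisymm (Submodule.finrank_le W) (by omega)))
    have t1 := (ih _ hlt hP (restr ρ W hinv) rfl).mono (Nat.add_le_add_right (Nat.log_mono_right hlt.le) 1)
    have t2 := (ih _ (by omega) hP (restr ρ W'.toSubmodule hinv') rfl).mono
      (Nat.add_le_add_right (Nat.log_mono_right (by omega : finrank K W'.toSubmodule ≤ n)) 1)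
    intro g hg
    refine LinearMap.ext fun x => ?_
    obtain ⟨y, hy, z, hz, rfl⟩ := Submodule.mem_sup.mp (hsup ▸ Submodule.mem_top : x ∈ W ⊔ W'.toSubmodule)
    have ey : ρ g y = y := congrArg Subtype.val (LinearMap.ext_iff.mp (t1 g hg) ⟨y, hy⟩)
    have ez : ρ g z = z := congrArg Subtype.val (LinearMap.ext_iff.mp (t2 g hg) ⟨z, hz⟩)
    rw [map_add, ey, ez]; rfl
  push_neg at hred
  have hirr : ∀ W : Submodule K V, (∀ g, ∀ x ∈ W, ρ g x ∈ W) → W ≠ ⊥ → W = ⊤ := by
    intro W hW hne
    by_contra htop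
    obtain ⟨g, x, hx, hgx⟩ := hred W hne htop
    exact hgx (hW g x hx)
  by_cases hcomm : ∀ g h : P, ρ g * ρ h = ρ h * ρ g
  · refine Triv.mono (k := 1) ?_ (by omega)
    intro g hg
    rw [derivedSeries_one] at hg
    have hsub : commutator P ≤ MonoidHom.ker ρ := by
      refine Subgroup.commutator_le.mpr fun a _ b _ => ?_
      exact map_commutator_eq_one (hcomm a b)
    exact hsub hg
  haveI : Nontrivial V := by
    by_contra hn'
    rw [not_nontrivial_iff_subsingleton] at hn'
    exact hcomm fun g h => LinearMap.ext fun x => Subsingleton.elim _ _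
  have hscalar : ∀ u : P, (∀ g, ρ g * ρ u = ρ u * ρ g) → ∃ c : K, ∀ x, ρ u x = c • x := by
    intro u hu
    obtain ⟨c, hc⟩ := Module.End.exists_eigenvalue (ρ u)
    refine ⟨c, fun x => ?_⟩
    have htop := hirr (Module.End.eigenspace (ρ u) c) (fun g y hy => by
      rw [Module.End.mem_eigenspace_iff] at hy ⊢
      rw [← Module.End.mul_apply, ← hu, Module.End.mul_apply, hy, map_smul]) hc
    exact Module.End.mem_eigenspace_iff.mp (htop ▸ Submodule.mem_top)
  -- an element that is central modulo the scalars, but not scalar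
  let N : Subgroup P := MonoidHom.ker ρ
  have hQc : ¬ ∀ a b : P ⧸ N, a * b = b * a := by
    intro h
    apply hcomm
    intro g k
    have hmem : (g * k)⁻¹ * (k * g) ∈ N := QuotientGroup.eq.mp (h (g : P ⧸ N) (k : P ⧸ N))
    rw [← map_mul, ← map_mul]
    calc ρ (g * k) = ρ (g * k) * ρ ((g * k)⁻¹ * (k * g)) := by rw [MonoidHom.mem_ker.mp hmem, mul_one]
      _ = _ := by rw [← map_mul, mul_inv_cancel_left]
  have hQ : IsPGroup p (P ⧸ N) := hP.to_quotient N
  haveI : Nontrivial ((P ⧸ N) ⧸ Subgroup.center (P ⧸ N)) := by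
    rw [QuotientGroup.nontrivial_iff]
    exact fun htop => hQc fun a b => Subgroup.mem_center_iff.mp (htop ▸ Subgroup.mem_top b : b ∈ Subgroup.center (P ⧸ N)) a
  haveI := (hQ.to_quotient (Subgroup.center (P ⧸ N))).center_nontrivial
  obtain ⟨⟨q₂, hq₂⟩, hq₂1⟩ := exists_ne (1 : Subgroup.center ((P ⧸ N) ⧸ Subgroup.center (P ⧸ N)))
  obtain ⟨q₁, rfl⟩ := QuotientGroup.mk_surjective q₂
  obtain ⟨a, rfl⟩ := QuotientGroup.mk_surjective q₁
  have hacent : ∀ g k : P, ρ k * ρ ⁅a, g⁆ = ρ ⁅a, g⁆ * ρ k := by
    intro g k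
    have h1 : QuotientGroup.mk' N ⁅a, g⁆ ∈ Subgroup.center (P ⧸ N) := by
      rw [← QuotientGroup.eq_one_iff]
      show QuotientGroup.mk' (Subgroup.center (P ⧸ N)) (QuotientGroup.mk' N ⁅a, g⁆) = 1
      rw [map_commutatorElement, map_commutatorElement, commutatorElement_eq_one_iff_mul_comm]
      exact (Subgroup.mem_center_iff.mp hq₂ _).symm
    have h2 := Subgroup.mem_center_iff.mp h1 (k : P ⧸ N)
    have hmem : (k * ⁅a, g⁆)⁻¹ * (⁅a, g⁆ * k) ∈ N := QuotientGroup.eq.mp h2
    rw [← map_mul, ← map_mul]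
    calc ρ (k * ⁅a, g⁆) = ρ (k * ⁅a, g⁆) * ρ ((k * ⁅a, g⁆)⁻¹ * (⁅a, g⁆ * k)) := by
          rw [MonoidHom.mem_ker.mp hmem, mul_one]
      _ = _ := by rw [← map_mul, mul_inv_cancel_left]
  choose c hc using fun g : P => hscalar ⁅a, g⁆ (hacent g)
  have hswap : ∀ g x, ρ a (ρ g x) = c g • ρ g (ρ a x) := by
    intro g x
    rw [← hc g, ← Module.End.mul_apply, ← map_mul, ← Module.End.mul_apply, ← Module.End.mul_apply,
      ← map_mul, ← map_mul]
    congr 2
    rw [commutatorElement_def]; group
  obtain ⟨ev, hev⟩ := Module.End.exists_eigenvalue (ρ a)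
  set E : K → Submodule K V := fun μ => Module.End.eigenspace (ρ a) μ
  have hne_top : E ev ≠ ⊤ := by
    intro htop
    apply hq₂1
    apply Subtype.ext
    show ((a : P ⧸ N) : (P ⧸ N) ⧸ Subgroup.center (P ⧸ N)) = 1
    rw [QuotientGroup.eq_one_iff, Subgroup.mem_center_iff]
    intro q
    obtain ⟨k, rfl⟩ := QuotientGroup.mk_surjective q
    rw [← QuotientGroup.mk_mul, ← QuotientGroup.mk_mul, QuotientGroup.eq]
    have hs : ∀ x, ρ a x = ev • x := fun x => Module.End.mem_eigenspace_iff.mp (htop ▸ Submodule.mem_top : x ∈ E ev)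
    have hka : ρ (k * a) = ρ (a * k) := by
      rw [map_mul, map_mul]
      exact LinearMap.ext fun x => by rw [Module.End.mul_apply, Module.End.mul_apply, hs, hs, map_smul]
    show (k * a)⁻¹ * (a * k) ∈ MonoidHom.ker ρ
    rw [MonoidHom.mem_ker, map_mul, ← hka, ← map_mul, inv_mul_cancel, map_one]
  have hmove : ∀ g μ, ∀ x ∈ E μ, ρ g x ∈ E (c g * μ) := by
    intro g μ x hx
    rw [Module.End.mem_eigenspace_iff] at hx ⊢
    rw [hswap, hx, map_smul, mul_smul]
  -- the sum of the translates of one eigenspace is everything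
  have htot : (⨆ g : P, (E ev).map (ρ g)) = ⊤ := by
    refine hirr _ (fun k x hx => ?_) ?_
    · have : (⨆ g : P, (E ev).map (ρ g)).map (ρ k) ≤ ⨆ g : P, (E ev).map (ρ g) := by
        rw [Submodule.map_iSup]
        refine iSup_le fun g => le_iSup_of_le (k * g) ?_
        rw [← Submodule.map_comp, map_mul]; rfl
      exact this (Submodule.mem_map_of_mem hx)
    · intro hbot
      apply hev
      rw [eq_bot_iff]
      intro x hx
      have : x ∈ (E ev).map (ρ 1) := ⟨x, hx, by rw [map_one]; rfl⟩
      exact hbot ▸ Submodule.mem_iSup_of_mem 1 this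
  obtain ⟨g₀, hg₀⟩ : ∃ g, ¬ (E ev).map (ρ g) ≤ E ev := by
    by_contra hall
    push_neg at hall
    exact hne_top (top_le_iff.mp (htot ▸ iSup_le hall))
  have hhalf : 2 * finrank K (E ev) ≤ n := by
    have hne : c g₀ * ev ≠ ev := by
      intro heq
      apply hg₀
      rintro _ ⟨x, hx, rfl⟩
      exact heq ▸ hmove g₀ ev x hx
    have hdisj : E ev ⊓ (E ev).map (ρ g₀) = ⊥ := by
      rw [eq_bot_iff]
      rintro x ⟨hx, y, hy, rfl⟩
      have h1 := Module.End.mem_eigenspace_iff.mp hx
      have h2 := Module.End.mem_eigenspace_iff.mp (hmove g₀ ev y hy)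
      rw [h2, ← sub_eq_zero, ← sub_smul, smul_eq_zero] at h1
      exact (Submodule.mem_bot K).mpr (h1.resolve_left (sub_ne_zero.mpr hne))
    have heq : finrank K ((E ev).map (ρ g₀)) = finrank K (E ev) :=
      LinearEquiv.finrank_eq (Submodule.equivMapOfInjective _ (Function.LeftInverse.injective (inv_act g₀)) _).symm
    have hdim := Submodule.finrank_sup_add_finrank_inf_eq (E ev) ((E ev).map (ρ g₀))
    rw [hdisj, finrank_bot, heq, add_zero] at hdim
    have := Submodule.finrank_le (E ev ⊔ (E ev).map (ρ g₀))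
    omega
  have hposE : 0 < finrank K (E ev) := Nat.pos_of_ne_zero fun h => hev (Submodule.finrank_eq_zero.mp h)
  let M : Subgroup P :=
    { carrier := {g | ∀ x, ρ a (ρ g x) = ρ g (ρ a x)}
      one_mem' := fun x => by simp
      mul_mem' := fun {g k} hg hk x => by
        simp only [map_mul, Module.End.mul_apply]
        rw [hg, hk]
      inv_mem' := fun {g} hg x => by
        have h := hg (ρ g⁻¹ x)
        rw [act_inv] at h
        rw [h, inv_act] }
  have h1M : derivedSeries P 1 ≤ M := by
    rw [derivedSeries_one]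
    refine Subgroup.commutator_le.mpr fun g _ k _ => ?_
    have hinv : ∀ g : P, ρ a ≠ 0 → c g * c g⁻¹ = 1 := by
      intro g hne
      obtain ⟨x, hx⟩ : ∃ x, ρ a x ≠ 0 := by
        by_contra h
        push_neg at h
        exact hne (LinearMap.ext h)
      have h := hswap g (ρ g⁻¹ x)
      rw [act_inv, hswap, map_smul, act_inv, smul_smul] at h
      have h' : (c g * c g⁻¹ - 1) • ρ a x = 0 := by rw [sub_smul, one_smul, ← h, sub_self]
      exact sub_eq_zero.mp ((smul_eq_zero.mp h').resolve_right hx)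
    have hane : ρ a ≠ 0 := by
      intro h0
      obtain ⟨x, hx⟩ := exists_ne (0 : V)
      exact hx (by rw [← inv_act (ρ := ρ) a x, h0, LinearMap.zero_apply, map_zero])
    intro x
    simp only [commutatorElement_def, map_mul, Module.End.mul_apply, hswap, map_smul, smul_smul]
    rw [show c g * (c k * (c g⁻¹ * c k⁻¹)) = (c g * c g⁻¹) * (c k * c k⁻¹) by ring, hinv g hane, hinv k hane,
      one_mul, one_smul]
  have hlog : Nat.log 2 (finrank K (E ev)) + 1 ≤ Nat.log 2 n := by
    calc Nat.log 2 (finrank K (E ev)) + 1 = Nat.log 2 (finrank K (E ev) * 2) := (Nat.log_mul_base one_lt_two hposE.ne').symm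
      _ ≤ _ := Nat.log_mono_right (by omega)
  have hsub : ∀ i, derivedSeries P (i + 1) ≤ (derivedSeries M i).map M.subtype := by
    intro i
    induction i with
    | zero => rw [derivedSeries_zero, ← MonoidHom.range_eq_map, Subgroup.range_subtype]; exact h1M
    | succ i hi =>
      rw [derivedSeries_succ P (i + 1), derivedSeries_succ M i, Subgroup.map_commutator]
      exact Subgroup.commutator_mono hi hi
  intro g hg
  obtain ⟨m, hm, rfl⟩ := hsub _ hg
  refine LinearMap.ext fun x => ?_
  have hx : x ∈ (⨆ g : P, (E ev).map (ρ g)) := htot ▸ Submodule.mem_top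
  induction hx using Submodule.iSup_induction' with
  | mem k y hy =>
    have hinvW : ∀ (w : M), ∀ z ∈ E (c k * ev), ρ (w : P) z ∈ E (c k * ev) := by
      intro w z hz
      rw [Module.End.mem_eigenspace_iff] at hz ⊢
      rw [w.2 z, hz, map_smul]
    obtain ⟨y, hy, rfl⟩ := hy
    have hrank : finrank K (E (c k * ev)) ≤ n / 2 := by
      have hle : E (c k * ev) ≤ (E ev).map (ρ k) := by
        intro z hz
        refine ⟨ρ k⁻¹ z, ?_, act_inv k z⟩
        rw [SetLike.mem_coe, Module.End.mem_eigenspace_iff] at *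
        have h := hswap k (ρ k⁻¹ z)
        rw [act_inv, hz] at h
        have h2 : ρ k⁻¹ (c k • ρ k (ρ a (ρ k⁻¹ z))) = ρ k⁻¹ ((c k * ev) • z) := by rw [h]
        rw [map_smul, map_smul, inv_act, mul_smul] at h2
        have hck : c k ≠ 0 := by
          intro h0
          obtain ⟨w, hw⟩ := exists_ne (0 : V)
          have := hswap k (ρ k⁻¹ (ρ a⁻¹ w))
          rw [act_inv, act_inv, h0, zero_smul] at this
          exact hw this
        exact smul_right_injective V hck h2
      calc finrank K (E (c k * ev)) ≤ finrank K ((E ev).map (ρ k)) := Submodule.finrank_mono hle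
        _ ≤ finrank K (E ev) := Submodule.finrank_map_le _ _
        _ ≤ n / 2 := by omega
    let ρM : Representation K M (E (c k * ev)) := restr (ρ.comp M.subtype) _ hinvW
    have ht := ih _ (show finrank K (E (c k * ev)) < n by omega) (hP.to_subgroup M) ρM rfl
    have ht' := ht.mono (show Nat.log 2 (finrank K (E (c k * ev))) + 1 ≤ Nat.log 2 n by
      rcases Nat.eq_zero_or_pos (finrank K (E (c k * ev))) with h0 | h0
      · rw [h0, Nat.log_zero_right]; omega
      · calc Nat.log 2 (finrank K (E (c k * ev))) + 1 = Nat.log 2 (finrank K (E (c k * ev)) * 2) :=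
              (Nat.log_mul_base one_lt_two h0.ne').symm
          _ ≤ _ := Nat.log_mono_right (by omega)) m hm
    exact congrArg Subtype.val (LinearMap.ext_iff.mp ht' ⟨_, hmove k ev y hy⟩)
  | zero => simp
  | add y z _ _ hy hz => rw [map_add, map_add, hy, hz]

/-- Let F be a field, n ≥ 1, and P a finite p-group (p a prime) admitting an injective homomorphism into the general linear group of degree n over F. Then the derived length of P is at most ⌊log₂ n⌋ + 1: that term of the derived series of P is trivial. -/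
theorem result {P : Type*} [Group P] [Finite P] (p : ℕ) [Fact p.Prime] (hP : IsPGroup p P) (F : Type*) [Field F] (n : ℕ) (hn : 1 ≤ n) (ρ : P →* Matrix.GeneralLinearGroup (Fin n) F) (hρ : Function.Injective ρ) : derivedSeries P (Nat.log 2 n + 1) = ⊥ := by
  by_cases hchar : (p : F) = 0
  · haveI : CharP F p := (CharP.charP_iff_prime_eq_zero Fact.out).mpr hchar
    let σ : Representation F P (Fin n → F) := (Matrix.toLinAlgEquiv' : Matrix (Fin n) (Fin n) F ≃ₐ[F] _).toRingEquiv.toMonoidHom.comp ((Units.coeHom _).comp ρ)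
    have h := (triv_charP n hP σ (Module.finrank_fin_fun F)).mono (Nat.clog_le_of_le_pow (Nat.lt_pow_succ_log_self one_lt_two n).le)
    rw [eq_bot_iff]
    intro g hg
    rw [Subgroup.mem_bot]
    apply hρ
    rw [map_one]
    exact Units.ext (Matrix.toLinAlgEquiv'.injective ((h g hg).trans (map_one _).symm))
  · let K := AlgebraicClosure F
    let i : Matrix (Fin n) (Fin n) F →+* Matrix (Fin n) (Fin n) K := (algebraMap F K).mapMatrix
    let σ : Representation K P (Fin n → K) :=
      (Matrix.toLinAlgEquiv' : Matrix (Fin n) (Fin n) K ≃ₐ[K] _).toRingEquiv.toMonoidHom.comp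
        (i.toMonoidHom.comp ((Units.coeHom _).comp ρ))
    have hK : (p : K) ≠ 0 := by
      rw [← map_natCast (algebraMap F K)]
      exact (map_ne_zero _).mpr hchar
    have h := triv_coprime hK n hP σ (Module.finrank_fin_fun K)
    rw [eq_bot_iff]
    intro g hg
    rw [Subgroup.mem_bot]
    apply hρ
    rw [map_one]
    apply Units.ext
    apply Matrix.map_injective (algebraMap F K).injective
    have h2 := Matrix.toLinAlgEquiv'.injective ((h g hg).trans (map_one _).symm)
    exact h2.trans (map_one i).symm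

end Cfsg.Agent.S4010
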