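import Cfsg.Statements.S4013
-- no helper imports

set_option autoImplicit false
open Cfsg

namespace Cfsg.Agent.S4013

/-- Let G be a finite p-group (p prime) and N < M normal subgroups of G such that for some g ∈ M ∖ N the conjugacy class of g is exactly M ∖ N. Then p = 2 and N has index 2 in M. -/
theorem result {G : Type*} [Group G] [Finite G] (p : ℕ) [Fact p.Prime] (hG : IsPGroup p G) (N M : Subgroup G) [N.Normal] [M.Normal] (hNM : N < M) (g : G) (hgM : g ∈ M) (hgN : g ∉ N) (hcl : {h : G | IsConj g h} = (M : Set G) \ (N : Set G)) : p = 2 ∧ N.relIndex M = 2 := by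
  classical
  have hcard : Nat.card {h : G | IsConj g h} = Nat.card M - Nat.card N := by
    rw [hcl, Nat.card_coe_set_eq, Set.ncard_diff (fun x hx => hNM.le hx), ← Nat.card_coe_set_eq, ← Nat.card_coe_set_eq]
    rfl
  have hdvd : Nat.card {h : G | IsConj g h} ∣ Nat.card G := by
    have : {h : G | IsConj g h} = MulAction.orbit (ConjAct G) g := by
      ext h; rw [Set.mem_setOf_eq, ConjAct.mem_orbit_conjAct]; exact isConj_comm
    rw [this]
    rw [Nat.card_congr (MulAction.orbitEquivQuotientStabilizer (ConjAct G) g)]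
    exact (Subgroup.card_quotient_dvd_card _).trans (dvd_of_eq (Nat.card_congr ConjAct.ofConjAct.toEquiv))
  obtain ⟨n, hn⟩ := IsPGroup.iff_card.mp hG
  have hp := Fact.out (p := p.Prime)
  have hmul : Nat.card N * N.relIndex M = Nat.card M := by
    rw [← Subgroup.relIndex_bot_left, ← Subgroup.relIndex_bot_left]
    exact Subgroup.relIndex_mul_relIndex _ _ _ bot_le hNM.le
  have hm_dvd : N.relIndex M ∣ p ^ n :=
    hn ▸ ((Dvd.intro_left _ hmul).trans (Subgroup.card_subgroup_dvd_card M))
  have h1 : Nat.card M - Nat.card N = Nat.card N * (N.relIndex M - 1) := by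
    rw [Nat.mul_sub, mul_one, hmul]
  rw [hcard, h1, hn] at hdvd
  have hm1 : N.relIndex M - 1 ∣ p ^ n := (dvd_mul_left _ _).trans hdvd
  obtain ⟨a, -, ha⟩ := (Nat.dvd_prime_pow hp).mp hm_dvd
  obtain ⟨b, -, hb⟩ := (Nat.dvd_prime_pow hp).mp hm1
  have hne : N.relIndex M ≠ 1 := fun h => (show ¬ M ≤ N from hNM.not_ge) (Subgroup.relIndex_eq_one.mp h)
  rcases Nat.eq_zero_or_pos a with rfl | hapos
  · rw [pow_zero] at ha; exact absurd ha hne
  rcases Nat.eq_zero_or_pos b with rfl | hbpos
  · have h2 : N.relIndex M = 2 := by rw [pow_zero] at hb; omega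
    have hd : p ∣ 2 := by rw [← h2, ha]; exact dvd_pow_self p hapos.ne'
    exact ⟨(Nat.prime_dvd_prime_iff_eq hp Nat.prime_two).mp hd, h2⟩
  · exfalso
    have d1 : p ∣ p ^ a := dvd_pow_self p hapos.ne'
    have d2 : p ∣ p ^ b := dvd_pow_self p hbpos.ne'
    have : 1 ≤ p ^ a := Nat.one_le_pow _ _ hp.pos
    have e : p ^ a = p ^ b + 1 := by omega
    exact hp.not_dvd_one ((Nat.dvd_add_right d2).mp (e ▸ d1))

end Cfsg.Agent.S4013
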