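import Cfsg.Statements.S4014
import Mathlib
import Cfsg.Agent.PGroup.Normal

set_option autoImplicit false
open Cfsg

namespace Cfsg.Agent.S4014

universe u

open scoped commutatorElement

/-- The derived series drops below a subgroup of index `p ^ j` after `j` steps. -/
theorem derived_le_of_index : ∀ (j : ℕ) (Q : Type u) [Group Q] [Finite Q] {p : ℕ} [Fact p.Prime],
    IsPGroup p Q → ∀ S : Subgroup Q, S.index = p ^ j → derivedSeries Q j ≤ S := by
  intro j
  induction j with
  | zero =>
    intro Q _ _ p _ _ S hS
    rw [pow_zero, Subgroup.index_eq_one] at hS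
    rw [hS]; exact le_top
  | succ j ih =>
    intro Q _ _ p hp hQ S hS
    have hne : S ≠ ⊤ := fun h => by
      rw [h, Subgroup.index_top] at hS
      exact (Nat.one_lt_pow (Nat.succ_ne_zero j) hp.out.one_lt).ne hS
    obtain ⟨M, hSM, hM, hMn⟩ := CfsgLib.PGroup.exists_index_eq_ge hQ hne
    haveI := hMn
    have h1 : derivedSeries Q 1 ≤ M := by
      rw [derivedSeries_one]
      haveI : IsCyclic (Q ⧸ M) := isCyclic_of_prime_card (p := p) (by rw [← Subgroup.index_eq_card, hM])
      refine Subgroup.commutator_le.mpr fun a _ b _ => ?_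
      rw [← QuotientGroup.eq_one_iff]
      show QuotientGroup.mk' M ⁅a, b⁆ = 1
      rw [map_commutatorElement, commutatorElement_eq_one_iff_mul_comm]
      exact mul_comm' _ _
    have h2 : ∀ i, derivedSeries Q (i + 1) ≤ (derivedSeries M i).map M.subtype := by
      intro i
      induction i with
      | zero => rw [derivedSeries_zero, ← MonoidHom.range_eq_map, Subgroup.range_subtype]; exact h1
      | succ i hi =>
        rw [derivedSeries_succ Q (i + 1), derivedSeries_succ M i, Subgroup.map_commutator]
        exact Subgroup.commutator_mono hi hi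
    have hidx : (S.subgroupOf M).index = p ^ j := by
      have h := Subgroup.relIndex_mul_index hSM
      rw [hM, hS, pow_succ] at h
      exact Nat.eq_of_mul_eq_mul_right hp.out.pos h
    refine (h2 j).trans ?_
    exact (Subgroup.map_mono (ih M (hQ.to_subgroup M) _ hidx)).trans (Subgroup.map_subgroupOf_eq_of_le hSM).le

theorem derived_log_eq_bot {α : Type*} [Fintype α] {p : ℕ} [hp : Fact p.Prime]
    (Q : Subgroup (Equiv.Perm α)) (hQ : IsPGroup p Q) (hne : 1 ≤ Fintype.card α) :
    derivedSeries Q (Nat.log p (Fintype.card α)) = ⊥ := by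
  rw [Subgroup.eq_bot_iff_forall]
  intro g hg
  apply Subtype.ext
  apply Equiv.ext
  intro x
  obtain ⟨j, -, hj⟩ := (Nat.dvd_prime_pow hp.out).mp
    ((IsPGroup.iff_card.mp hQ).choose_spec ▸ (MulAction.stabilizer Q x).index_dvd_card)
  have hle : p ^ j ≤ Fintype.card α := by
    rw [← hj, MulAction.index_stabilizer, ← Nat.card_eq_fintype_card, Set.ncard_def]
    rw [← Set.ncard_def, ← Nat.card_coe_set_eq]
    exact Nat.card_le_card_of_injective _ Subtype.val_injective
  have hanti : derivedSeries Q (Nat.log p (Fintype.card α)) ≤ derivedSeries Q j :=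
    derivedSeries_antitone _ (Nat.le_log_of_pow_le hp.out.one_lt hle)
  exact derived_le_of_index j Q hQ (MulAction.stabilizer Q x) hj (hanti hg)

variable {p : ℕ} [hp : Fact p.Prime]

/-- The base of the wreath product, as permutations of `ZMod p × X`. -/
def baseHom (X : Type) (W : Subgroup (Equiv.Perm X)) : (ZMod p → W) →* Equiv.Perm (ZMod p × X) where
  toFun f :=
    { toFun := fun x => (x.1, (f x.1 : Equiv.Perm X) x.2)
      invFun := fun x => (x.1, (f x.1 : Equiv.Perm X).symm x.2)
      left_inv := fun x => by simp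
      right_inv := fun x => by simp }
  map_one' := Equiv.ext fun x => rfl
  map_mul' := fun f g => Equiv.ext fun x => rfl

theorem exists_wreath (p : ℕ) [hp : Fact p.Prime] : ∀ k : ℕ, 1 ≤ k →
    ∃ (X : Type) (_ : Fintype X) (W : Subgroup (Equiv.Perm X)), Fintype.card X = p ^ k ∧ IsPGroup p W ∧
      derivedSeries W (k - 1) ≠ ⊥ := by
  intro k hk
  induction k, hk using Nat.le_induction with
  | base =>
    let t : Equiv.Perm (ZMod p) := Equiv.addRight 1
    haveI : NeZero p := ⟨hp.out.ne_zero⟩
    refine ⟨ZMod p, inferInstance, Subgroup.zpowers t, by rw [ZMod.card, pow_one], ?_, ?_⟩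
    · have ht : t ^ p = 1 := by
        have : ∀ (i : ℕ) (x : ZMod p), (t ^ i) x = x + i := by
          intro i
          induction i with
          | zero => intro x; simp
          | succ i hi =>
            intro x
            rw [pow_succ', Equiv.Perm.mul_apply, hi]
            simp only [t, Equiv.coe_addRight, Nat.cast_succ, add_assoc]
        exact Equiv.ext fun x => by rw [this, ZMod.natCast_self, add_zero]; rfl
      exact IsPGroup.of_card_dvd_pow (n := 1) (by rw [Nat.card_zpowers, pow_one]; exact orderOf_dvd_of_pow_eq_one ht)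
    · rw [derivedSeries_zero]
      intro h
      have h1 : (⟨t, Subgroup.mem_zpowers t⟩ : Subgroup.zpowers t) = 1 := by
        rw [← Subgroup.mem_bot, ← h]; exact Subgroup.mem_top _
      have h2 := Equiv.ext_iff.mp (congrArg Subtype.val h1) (0 : ZMod p)
      haveI : Fact (1 < p) := ⟨hp.out.one_lt⟩
      simp [t] at h2
  | succ k hk ih =>
    obtain ⟨X, hX, W, hcard, hW, hD⟩ := ih
    haveI : NeZero p := ⟨hp.out.ne_zero⟩
    set φ := baseHom (p := p) X W
    let t : Equiv.Perm (ZMod p × X) := Equiv.prodCongr (Equiv.addRight (1 : ZMod p)) (Equiv.refl X)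
    have htf : ∀ f, t * φ f * t⁻¹ = φ (fun i => f (i - 1)) := by
      intro f
      rw [mul_inv_eq_iff_eq_mul]
      refine Equiv.ext fun x => ?_
      show ((x.1 + 1, (f x.1 : Equiv.Perm X) x.2) : ZMod p × X) = (x.1 + 1, (f (x.1 + 1 - 1) : Equiv.Perm X) x.2)
      rw [add_sub_cancel_right]
    have hbase : IsPGroup p φ.range := by
      refine IsPGroup.of_surjective (H := φ.range) ?_ φ.rangeRestrict φ.rangeRestrict_surjective
      obtain ⟨m, hm⟩ := IsPGroup.iff_card.mp hW
      refine IsPGroup.of_card (n := m * p) ?_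
      rw [Nat.card_fun, hm, Nat.card_zmod, ← pow_mul]
    have ht : IsPGroup p (Subgroup.zpowers t) := by
      refine IsPGroup.of_card_dvd_pow (n := 1) ?_
      rw [Nat.card_zpowers, pow_one]
      apply orderOf_dvd_of_pow_eq_one
      have : ∀ (i : ℕ) (x : ZMod p × X), (t ^ i) x = (x.1 + i, x.2) := by
        intro i
        induction i with
        | zero => intro x; simp
        | succ i hi =>
          intro x
          rw [pow_succ', Equiv.Perm.mul_apply, hi]
          simp only [t, Equiv.prodCongr_apply, Prod.map_apply, Equiv.coe_addRight, Equiv.coe_refl, id_eq, Nat.cast_succ, add_assoc]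
      exact Equiv.ext fun x => by rw [this, ZMod.natCast_self, add_zero]; rfl
    have hnorm : Subgroup.zpowers t ≤ Subgroup.normalizer (φ.range : Set (Equiv.Perm (ZMod p × X))) := by
      rw [Subgroup.zpowers_le, Subgroup.mem_normalizer_iff_map_conj_eq]
      refine Subgroup.eq_of_le_of_card_ge ?_ (by rw [Subgroup.card_map_of_injective (MulAut.conj t).injective])
      rintro _ ⟨_, ⟨f, rfl⟩, rfl⟩
      exact ⟨_, (htf f).symm⟩
    set W' := φ.range ⊔ Subgroup.zpowers t
    have hW' : IsPGroup p W' := hbase.to_sup_of_normal_left' ht hnorm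
    refine ⟨ZMod p × X, inferInstance, W', by rw [Fintype.card_prod, ZMod.card, hcard, pow_succ'], hW', ?_⟩
    let ev : (ZMod p → W) →* W := Pi.evalMonoidHom (fun _ => W) 0
    let R : ℕ → Subgroup W := fun j => (((derivedSeries W' (j + 1)).map W'.subtype).comap φ).map ev
    have hR : ∀ j, derivedSeries W j ≤ R j := by
      intro j
      induction j with
      | zero =>
        intro w _
        classical
        let f : ZMod p → W := Pi.mulSingle 0 w
        refine ⟨(fun i => f (i - 1))⁻¹ * f, ?_, ?_⟩
        · have hf : φ f ∈ W' := Subgroup.mem_sup_left ⟨f, rfl⟩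
          have htW : t ∈ W' := Subgroup.mem_sup_right (Subgroup.mem_zpowers t)
          refine ⟨(⁅(⟨φ f, hf⟩⁻¹ : W'), (⟨t, htW⟩ : W')⁆)⁻¹, ?_, ?_⟩
          · apply Subgroup.inv_mem
            rw [derivedSeries_one]
            exact Subgroup.commutator_mem_commutator (Subgroup.mem_top _) (Subgroup.mem_top _)
          · rw [map_mul, map_inv]
            refine Eq.trans ?_ (congrArg (fun g => g⁻¹ * φ f) (htf f))
            simp only [commutatorElement_def, map_inv, map_mul, Subgroup.coe_subtype, inv_inv]
            group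
        · show ((f (0 - 1))⁻¹ * f 0 : W) = w
          haveI : Fact (1 < p) := ⟨hp.out.one_lt⟩
          simp [f, neg_eq_zero]
      | succ j hj =>
        rw [derivedSeries_succ, Subgroup.commutator_le]
        intro a ha b hb
        obtain ⟨f, ⟨u, hu, hfu⟩, rfl⟩ := hj ha
        obtain ⟨g, ⟨v, hv, hgv⟩, rfl⟩ := hj hb
        refine ⟨⁅f, g⁆, ⟨⁅u, v⁆, ?_, ?_⟩, map_commutatorElement ev f g⟩
        · rw [derivedSeries_succ W' (j + 1)]
          exact Subgroup.commutator_mem_commutator hu hv
        · rw [map_commutatorElement, map_commutatorElement, hfu, hgv]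
    intro h
    apply hD
    rw [eq_bot_iff]
    refine (hR (k - 1)).trans ?_
    rintro _ ⟨f, ⟨u, hu, hfu⟩, rfl⟩
    rw [show k - 1 + 1 = k + 1 - 1 by omega, h] at hu
    rw [Subgroup.mem_bot.mp hu, map_one] at hfu
    have h0 : f = 1 := by
      funext i
      apply Subtype.ext
      refine Equiv.ext fun x => ?_
      exact congrArg Prod.snd (Equiv.ext_iff.mp hfu.symm (i, x))
    exact Subgroup.mem_bot.mpr (by rw [h0, map_one])

/-- Let p be a prime, n ≥ 1, and P a Sylow p-subgroup of the symmetric group on n letters. Then the derived length of P is exactly k = ⌊log_p n⌋ (the largest k with p^k ≤ n): the k-th derived subgroup of P is trivial and, when k ≥ 1, the (k−1)-st is not. -/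
theorem result (p : ℕ) [Fact p.Prime] (n : ℕ) (hn : 1 ≤ n) (P : Sylow p (Equiv.Perm (Fin n))) : derivedSeries ↥(P : Subgroup (Equiv.Perm (Fin n))) (Nat.log p n) = ⊥ ∧ (1 ≤ Nat.log p n → derivedSeries ↥(P : Subgroup (Equiv.Perm (Fin n))) (Nat.log p n - 1) ≠ ⊥) := by
  refine ⟨?_, fun hk => ?_⟩
  · have h := derived_log_eq_bot (P : Subgroup (Equiv.Perm (Fin n))) P.2 (by rw [Fintype.card_fin]; exact hn)
    rwa [Fintype.card_fin] at h
  · intro hbot
    obtain ⟨X, hX, W, hcard, hW, hD⟩ := exists_wreath p (Nat.log p n) hk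
    obtain ⟨e⟩ : Nonempty (X ↪ Fin n) := Function.Embedding.nonempty_of_card_le (by
      rw [Fintype.card_fin, hcard]; exact Nat.pow_log_le_self p (by omega))
    have hinj : Function.Injective (Equiv.Perm.viaEmbeddingHom e) := Equiv.Perm.viaEmbeddingHom_injective e
    obtain ⟨Q, hQ⟩ := (hW.map (Equiv.Perm.viaEmbeddingHom e)).exists_le_sylow
    apply hD
    have hι : Function.Injective ((Q.equiv P).toMonoidHom.comp ((Subgroup.inclusion hQ).comp
        (W.equivMapOfInjective _ hinj).toMonoidHom)) :=
      (Q.equiv P).injective.comp ((Subgroup.inclusion_injective hQ).comp (W.equivMapOfInjective _ hinj).injective)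
    rw [eq_bot_iff]
    intro w hw
    have := map_derivedSeries_le_derivedSeries ((Q.equiv P).toMonoidHom.comp ((Subgroup.inclusion hQ).comp
        (W.equivMapOfInjective _ hinj).toMonoidHom)) _ (Subgroup.mem_map_of_mem _ hw)
    rw [hbot, Subgroup.mem_bot] at this
    exact Subgroup.mem_bot.mpr (hι (this.trans (map_one _).symm))

end Cfsg.Agent.S4014
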