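import Cfsg.Statements.S4023
import Mathlib
import Cfsg.Agent.IsoSubgroups.Basic

set_option autoImplicit false
open Cfsg

namespace Cfsg.Agent.S4023

/-- Let p be a prime and G a finite group in which any two p-subgroups of the same order are conjugate, with Sylow p-subgroup P. Then P is cyclic, or elementary abelian, or p = 2 and P is a quaternion group of order 8, or p is odd and P is non-abelian of order p³ and exponent p. -/
theorem result {G : Type*} [Group G] [Finite G]
    {p : ℕ} [Fact p.Prime] (hC : ∀ H K : Subgroup G, IsPGroup p H → IsPGroup p K → Nat.card H = Nat.card K →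
      ∃ g : G, K = H.map (MulAut.conj g).toMonoidHom) (P : Sylow p G) :
    IsCyclic P ∨ Cfsg.IsElementaryAbelian p (P : Subgroup G) ∨
      (p = 2 ∧ Nonempty ((P : Subgroup G) ≃* QuaternionGroup 2)) ∨
      (p ≠ 2 ∧ ¬ IsMulCommutative P ∧ Nat.card P = p ^ 3 ∧ Monoid.exponent P = p) := by
  have hiso : ∀ H K : Subgroup ↥(P : Subgroup G), Nat.card H = Nat.card K → Nonempty (H ≃* K) := by
    intro H K hHK
    have hcard : ∀ L : Subgroup ↥(P : Subgroup G), Nat.card (L.map (P : Subgroup G).subtype) = Nat.card L :=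
      fun L => Subgroup.card_map_of_injective (P : Subgroup G).subtype_injective
    obtain ⟨g, hg⟩ := hC (H.map (P : Subgroup G).subtype) (K.map (P : Subgroup G).subtype)
      (P.2.to_le (Subgroup.map_subtype_le H)) (P.2.to_le (Subgroup.map_subtype_le K))
      (by rw [hcard, hcard, hHK])
    exact ⟨((H.equivMapOfInjective _ (P : Subgroup G).subtype_injective).trans
      ((Subgroup.equivMapOfInjective _ _ (MulAut.conj g).injective).trans (MulEquiv.subgroupCongr hg.symm))).trans
      (K.equivMapOfInjective _ (P : Subgroup G).subtype_injective).symm⟩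
  rcases CfsgLib.IsoSubgroups.classify P.2 hiso with h | ⟨hc, he⟩ | h | ⟨hp, hc, hcard, he⟩
  · exact Or.inl h
  · exact Or.inr (Or.inl ⟨hc, fun a ha => congrArg Subtype.val (he ⟨a, ha⟩)⟩)
  · exact Or.inr (Or.inr (Or.inl h))
  · refine Or.inr (Or.inr (Or.inr ⟨hp, hc, hcard, ?_⟩))
    refine ((Fact.out : p.Prime).eq_one_or_self_of_dvd _ (Monoid.exponent_dvd_of_forall_pow_eq_one he)).resolve_left ?_
    rw [Monoid.exp_eq_one_iff]
    intro hs
    rw [Nat.card_unique] at hcard
    exact (Nat.one_lt_pow (by norm_num : (3 : ℕ) ≠ 0) (Fact.out : p.Prime).one_lt).ne hcard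

end Cfsg.Agent.S4023
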