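import Cfsg.Statements.S4024
import Mathlib
import Cfsg.Agent.S4023
import Cfsg.Agent.Constrained.PSolvable

set_option autoImplicit false
open Cfsg

namespace Cfsg.Agent.S4024

open CfsgLib.Constrained in
theorem pCore_ne_bot_quotient {G : Type*} [Group G] [Finite G] {p : ℕ} [Fact p.Prime]
    (H : Subgroup G) [H.Normal] (hsolv : Cfsg.IsPSolvable p H) (hdiv : p ∣ Nat.card H) :
    Cfsg.pCore p (G ⧸ Cfsg.pPrimeCore p G) ≠ ⊥ := by
  set N := Cfsg.pPrimeCore p G with hN
  let f := (QuotientGroup.mk' N).comp H.subtype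
  have hrange : f.range = H.map (QuotientGroup.mk' N) := by
    rw [MonoidHom.range_comp, Subgroup.range_subtype]
  set Hb := H.map (QuotientGroup.mk' N)
  have hHbn : Hb.Normal := ‹H.Normal›.map _ (QuotientGroup.mk'_surjective N)
  have hs : Cfsg.IsPSolvable p Hb :=
    IsPSolvable.of_mulEquiv (IsPSolvable.of_surjective hsolv f.rangeRestrict f.rangeRestrict_surjective) (MulEquiv.subgroupCongr hrange)
  have hne : Hb ≠ ⊥ := by
    intro h
    have hle : H ≤ N := by
      intro x hx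
      rw [← QuotientGroup.eq_one_iff, ← Subgroup.mem_bot, ← h]
      exact Subgroup.mem_map_of_mem _ hx
    exact pPrimeCore_not_dvd (hdiv.trans (Subgroup.card_dvd_of_le hle))
  haveI : Nontrivial Hb := (Subgroup.nontrivial_iff_ne_bot Hb).mpr hne
  intro hbot
  rcases IsPSolvable.core_ne_bot hs with h | h
  · apply h
    rw [eq_bot_iff]
    intro x hx
    have := map_pCore_subgroup_le Hb (Subgroup.mem_map_of_mem Hb.subtype hx)
    rw [hbot, Subgroup.mem_bot] at this
    exact Subgroup.mem_bot.mpr (Subtype.ext this)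
  · apply h
    rw [eq_bot_iff]
    intro x hx
    have := map_pPrimeCore_subgroup_le Hb (Subgroup.mem_map_of_mem Hb.subtype hx)
    rw [pPrimeCore_quotient_pPrimeCore, Subgroup.mem_bot] at this
    exact Subgroup.mem_bot.mpr (Subtype.ext this)

/-- Let p be an odd prime and G a finite group in which any two p-subgroups of the same order are conjugate, with Sylow p-subgroup P. If H is a normal p-solvable subgroup of G whose order is divisible by p, then P is abelian, and either P ≤ H or P is cyclic. -/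
theorem result {G : Type*} [Group G] [Finite G]
    {p : ℕ} [Fact p.Prime] (hp : p ≠ 2) (hC : ∀ H K : Subgroup G, IsPGroup p H → IsPGroup p K → Nat.card H = Nat.card K →
      ∃ g : G, K = H.map (MulAut.conj g).toMonoidHom) (P : Sylow p G)
    (H : Subgroup G) [H.Normal] (hsolv : Cfsg.IsPSolvable p H) (hdiv : p ∣ Nat.card H) :
    IsMulCommutative P ∧ ((P : Subgroup G) ≤ H ∨ IsCyclic P) := by
  have hzp : ∀ u : G, u ^ p = 1 → IsPGroup p (Subgroup.zpowers u) := by
    rintro u hu ⟨_, i, rfl⟩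
    refine ⟨1, Subtype.ext ?_⟩
    show (u ^ i) ^ p ^ 1 = 1
    rw [pow_one, ← zpow_natCast, ← zpow_mul, mul_comm, zpow_mul, zpow_natCast, hu, one_zpow]
  have hconj : ∀ u v : G, orderOf u = p → orderOf v = p →
      ∃ g : G, Subgroup.zpowers v = Subgroup.zpowers (g * u * g⁻¹) := by
    intro u v hu hv
    obtain ⟨g, hg⟩ := hC (Subgroup.zpowers u) (Subgroup.zpowers v) (hzp u (hu ▸ pow_orderOf_eq_one u))
      (hzp v (hv ▸ pow_orderOf_eq_one v)) (by rw [Nat.card_zpowers, Nat.card_zpowers, hu, hv])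
    exact ⟨g, by rw [hg, MonoidHom.map_zpowers]; rfl⟩
  obtain ⟨⟨h₀, hh₀⟩, hho⟩ := exists_prime_orderOf_dvd_card' p hdiv
  have hall : ∀ v : G, orderOf v = p → v ∈ H := by
    intro v hv
    obtain ⟨g, hg⟩ := hconj h₀ v (by rw [← hho]; exact (Subgroup.orderOf_coe ⟨h₀, hh₀⟩).symm ▸ rfl) hv
    have := Subgroup.mem_zpowers v
    rw [hg] at this
    exact Subgroup.zpowers_le.mpr (‹H.Normal›.conj_mem h₀ hh₀ g) this
  have hexpH : (∀ g : (P : Subgroup G), g ^ p = 1) → (P : Subgroup G) ≤ H := by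
    intro he x hx
    by_cases h1 : x = 1
    · exact h1 ▸ H.one_mem
    · exact hall x (orderOf_eq_prime (congrArg Subtype.val (he ⟨x, hx⟩)) h1)
  rcases Cfsg.Agent.S4023.result hC P with h | ⟨hc, he⟩ | ⟨h, -⟩ | ⟨-, hc, -, he⟩
  · exact ⟨inferInstance, Or.inr h⟩
  · exact ⟨hc, Or.inl (hexpH fun g => Subtype.ext (he g g.2))⟩
  · exact absurd h hp
  · exfalso
    apply hc
    set N := Cfsg.pPrimeCore p G
    set π := QuotientGroup.mk' N
    have hπ : Function.Surjective π := QuotientGroup.mk'_surjective N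
    have he' : ∀ g : (P : Subgroup G), g ^ p = 1 := fun g => by
      have h := Monoid.pow_exponent_eq_one g
      rwa [he] at h
    set R₀ := Cfsg.pCore p (G ⧸ N)
    have hR₀ : R₀ ≠ ⊥ := pCore_ne_bot_quotient H hsolv hdiv
    set R := (Subgroup.center R₀).map R₀.subtype
    haveI hRn : R.Normal := inferInstance
    haveI : Nontrivial R₀ := (Subgroup.nontrivial_iff_ne_bot _).mpr hR₀
    haveI : Nontrivial (Subgroup.center R₀) := CfsgLib.Constrained.isPGroup_pCore.center_nontrivial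
    have hRne : R ≠ ⊥ := fun h => (Subgroup.nontrivial_iff_ne_bot _).mp ‹Nontrivial (Subgroup.center R₀)›
      ((Subgroup.map_eq_bot_iff_of_injective _ R₀.subtype_injective).mp h)
    have hRP : R ≤ (P : Subgroup G).map π := by
      have hRp : IsPGroup p R := (CfsgLib.Constrained.isPGroup_pCore.to_le (Subgroup.map_subtype_le _))
      obtain ⟨Q, hQ⟩ := hRp.exists_le_sylow
      obtain ⟨g, hg⟩ := MulAction.exists_smul_eq (G ⧸ N) Q (P.mapSurjective hπ)
      intro r hr
      show r ∈ ((P.mapSurjective hπ : Sylow p (G ⧸ N)) : Subgroup (G ⧸ N))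
      rw [← hg]
      have hmem : g⁻¹ * r * g⁻¹⁻¹ ∈ (Q : Subgroup (G ⧸ N)) := hQ (hRn.conj_mem r hr g⁻¹)
      refine ⟨g⁻¹ * r * g⁻¹⁻¹, hmem, ?_⟩
      show g * (g⁻¹ * r * g⁻¹⁻¹) * g⁻¹ = r
      group
    obtain ⟨r, hr, hr1⟩ := R.bot_or_exists_ne_one.resolve_left hRne
    obtain ⟨y, hy, rfl⟩ := Subgroup.mem_map.mp (hRP hr)
    have hyo : orderOf y = p := orderOf_eq_prime (congrArg Subtype.val (he' ⟨y, hy⟩))
      (fun h => hr1 (by rw [h, map_one]))
    have hin : ∀ x ∈ (P : Subgroup G), π x ∈ R := by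
      intro x hx
      by_cases h1 : x = 1
      · rw [h1, map_one]; exact R.one_mem
      obtain ⟨g, hg⟩ := hconj y x hyo (orderOf_eq_prime (congrArg Subtype.val (he' ⟨x, hx⟩)) h1)
      obtain ⟨i, hi⟩ := hg ▸ Subgroup.mem_zpowers x
      simp only at hi
      rw [← hi, map_zpow, map_mul, map_mul, map_inv]
      exact R.zpow_mem (hRn.conj_mem _ hr _) i
    refine ⟨⟨fun a b => Subtype.ext ?_⟩⟩
    show (a : G) * b = b * a
    have hinj : ∀ x ∈ (P : Subgroup G), π x = 1 → x = 1 := fun x hx h => by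
      have hxN : x ∈ N := (QuotientGroup.eq_one_iff x).mp h
      have := CfsgLib.Constrained.disjoint_of_isPGroup_of_not_dvd P.2 (CfsgLib.Constrained.pPrimeCore_not_dvd (G := G))
      exact Subgroup.mem_bot.mp (this ▸ Subgroup.mem_inf.mpr ⟨hx, hxN⟩)
    rw [← commutatorElement_eq_one_iff_mul_comm]
    apply hinj
    · rw [commutatorElement_def]
      exact Subgroup.mul_mem _ (Subgroup.mul_mem _ (Subgroup.mul_mem _ a.2 b.2) (Subgroup.inv_mem _ a.2)) (Subgroup.inv_mem _ b.2)
    · rw [map_commutatorElement, commutatorElement_eq_one_iff_mul_comm]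
      obtain ⟨u, hu, hu'⟩ := Subgroup.mem_map.mp (hin a a.2)
      obtain ⟨v, hv, hv'⟩ := Subgroup.mem_map.mp (hin b b.2)
      rw [← hu', ← hv', ← map_mul, ← map_mul, Subgroup.mem_center_iff.mp hv u]

end Cfsg.Agent.S4024
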