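import Cfsg.Statements.S4025
import Cfsg.Agent.Huppert.PlaneTrans
import Cfsg.Agent.Alperin.Basic
import Cfsg.Agent.SelfCentPrime.PrimeCore
import Cfsg.Agent.Eq.Def_Perm
-- import your own Cfsg.Agent.* helpers here

set_option autoImplicit false
open Cfsg

namespace Cfsg.Agent.S4025

theorem card_ringAut (p k : ℕ) [Fact p.Prime] (hk : k ≠ 0) :
    Nat.card (GaloisField p k ≃+* GaloisField p k) = k := by
  have hgal : IsGalois (ZMod p) (GaloisField p k) := GaloisField.instIsGaloisOfFinite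
  refine Eq.trans ?_ ((IsGalois.card_aut_eq_finrank (ZMod p) (GaloisField p k)).trans
    (GaloisField.finrank p hk))
  refine Nat.card_congr
    { toFun := fun f => AlgEquiv.ofRingEquiv (f := f) fun x => RingHom.congr_fun
        (RingHom.ext_zmod ((f : GaloisField p k →+* GaloisField p k).comp (algebraMap (ZMod p) _))
          (algebraMap (ZMod p) _)) x
      invFun := fun f => f.toRingEquiv
      left_inv := fun f => RingEquiv.ext fun x => rfl
      right_inv := fun f => AlgEquiv.ext fun x => rfl }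

theorem card_semiaffine_le (p k : ℕ) [Fact p.Prime] (hk : k ≠ 0) :
    Nat.card (Cfsg.semiaffineGroup (GaloisField p k)) ≤ (p ^ k - 1) * p ^ k * k := by
  haveI : Finite (GaloisField p k ≃+* GaloisField p k) :=
    Nat.finite_of_card_ne_zero (by rw [card_ringAut p k hk]; exact hk)
  let mk : (GaloisField p k)ˣ × GaloisField p k × (GaloisField p k ≃+* GaloisField p k) →
      Cfsg.semiaffineGroup (GaloisField p k) := fun t =>
    ⟨(t.2.2.toEquiv.trans (Units.mulLeft t.1)).trans (Equiv.addRight t.2.1), t.1, t.2.1, t.2.2, fun x => rfl⟩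
  have hs : Function.Surjective mk := by
    rintro ⟨σ, a, b, φ, hσ⟩
    exact ⟨(a, b, φ), Subtype.ext (Equiv.ext fun x => (hσ x).symm)⟩
  refine (Nat.card_le_card_of_surjective mk hs).trans_eq ?_
  rw [Nat.card_prod, Nat.card_prod, Nat.card_units, GaloisField.card p k hk, card_ringAut p k hk, mul_assoc]

theorem card_affine_le (p k : ℕ) [Fact p.Prime] (hk : k ≠ 0) :
    Nat.card (Cfsg.affineGroup (GaloisField p k)) ≤ (p ^ k - 1) * p ^ k := by
  let mk : (GaloisField p k)ˣ × GaloisField p k → Cfsg.affineGroup (GaloisField p k) := fun t =>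
    ⟨(Units.mulLeft t.1).trans (Equiv.addRight t.2), t.1, t.2, fun x => rfl⟩
  have hs : Function.Surjective mk := by
    rintro ⟨σ, a, b, hσ⟩
    exact ⟨(a, b), Subtype.ext (Equiv.ext fun x => (hσ x).symm)⟩
  refine (Nat.card_le_card_of_surjective mk hs).trans_eq ?_
  rw [Nat.card_prod, Nat.card_units, GaloisField.card p k hk]

/-- An injective homomorphism into a group that is not larger is an isomorphism. -/
theorem equiv_of_injective {A B : Type*} [Group A] [Group B] [Finite B] (f : A →* B)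
    (hf : Function.Injective f) (h : Nat.card B ≤ Nat.card A) : Nonempty (A ≃* B) :=
  ⟨MulEquiv.ofBijective f
    ((Nat.bijective_iff_injective_and_card f).2 ⟨hf, le_antisymm (Nat.card_le_card_of_injective f hf) h⟩)⟩


/-- Let p be a prime and G a finite group in which any two p-subgroups of the same order are conjugate, and suppose a Sylow p-subgroup P of G is elementary abelian of order pⁿ with n ≥ 3. Let N be the normalizer of P and K the largest normal subgroup of N of order prime to p, and assume N/K is solvable. Then either n = 3 and N/K embeds in the one-dimensional semi-affine group over the field with p³ elements (and for p = 2 it is isomorphic to the affine or the semi-affine group over the field with 8 elements), or n = 5, p = 2 and N/K is isomorphic to the one-dimensional semi-affine group over the field with 32 elements. -/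
theorem result {G : Type*} [Group G] [Finite G]
    {p : ℕ} [Fact p.Prime] (hC : ∀ H K : Subgroup G, IsPGroup p H → IsPGroup p K → Nat.card H = Nat.card K →
      ∃ g : G, K = H.map (MulAut.conj g).toMonoidHom) (P : Sylow p G) (n : ℕ) (hn : 3 ≤ n)
    (hel : Cfsg.IsElementaryAbelian p (P : Subgroup G)) (hcard : Nat.card P = p ^ n)
    (N : Subgroup G) (hN : N = Subgroup.normalizer ((P : Subgroup G) : Set G))
    (hsolv : Group.IsSolvable (↥N ⧸ Cfsg.pPrimeCore p ↥N)) :
    (n = 3 ∧ (∃ f : ↥N ⧸ Cfsg.pPrimeCore p ↥N →* ↥(Cfsg.semiaffineGroup (GaloisField p 3)), Function.Injective f) ∧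
      (p = 2 → Nonempty (↥N ⧸ Cfsg.pPrimeCore p ↥N ≃* Cfsg.semiaffineGroup (GaloisField 2 3)) ∨
               Nonempty (↥N ⧸ Cfsg.pPrimeCore p ↥N ≃* Cfsg.affineGroup (GaloisField 2 3)))) ∨
    (n = 5 ∧ p = 2 ∧ Nonempty (↥N ⧸ Cfsg.pPrimeCore p ↥N ≃* Cfsg.semiaffineGroup (GaloisField 2 5))) := by
  classical
  have hC' := hC
  clear hC
  have hp : p.Prime := Fact.out
  subst hN
  set N := Subgroup.normalizer ((P : Subgroup G) : Set G)
  have hPN : (P : Subgroup G) ≤ N := Subgroup.le_normalizer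
  set M := Cfsg.pPrimeCore p N with hM
  haveI hMn : M.Normal := by
    haveI := CfsgLib.SelfCentPrime.pPrimeCore_characteristic (G := N) p
    infer_instance
  have hMc : (Nat.card M).Coprime p := (CfsgLib.SelfCentPrime.pPrimeCore_mem (G := N) p).2
  set π := QuotientGroup.mk' M with hπ
  set P' := (P : Subgroup G).subgroupOf N with hP'
  haveI hP'n : P'.Normal := ⟨fun x hx g => by
    rw [hP', Subgroup.mem_subgroupOf] at hx ⊢
    exact (Subgroup.mem_normalizer_iff.1 g.2 x).1 hx⟩
  have hcP' : Nat.card P' = p ^ n := by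
    rw [← hcard]; exact Nat.card_congr (Subgroup.subgroupOfEquivOfLe hPN).toEquiv
  have hP'comm : ∀ a ∈ P', ∀ b ∈ P', a * b = b * a := fun a ha b hb => by
    have h := hel.1.is_comm.comm (⟨(a : G), ha⟩ : (P : Subgroup G)) ⟨(b : G), hb⟩
    apply Subtype.ext
    exact (congrArg Subtype.val h :)
  have hdisj : ∀ x ∈ P', x ∈ M → x = 1 := fun x hx hxM => by
    have h : P' ⊓ M = ⊥ := Subgroup.inf_eq_bot_of_coprime (by rw [hcP']; exact hMc.symm.pow_left n)
    exact (Subgroup.mem_bot.1 (h ▸ ⟨hx, hxM⟩ : x ∈ (⊥ : Subgroup N)))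
  have hinjP : ∀ x ∈ P', ∀ y ∈ P', π x = π y → x = y := fun x hx y hy h =>
    inv_mul_eq_one.1 (hdisj _ (P'.mul_mem (P'.inv_mem hx) hy) (QuotientGroup.eq.1 h))
  set Pb := P'.map π with hPb
  haveI hPbn : Pb.Normal := hP'n.map π (QuotientGroup.mk'_surjective M)
  have hPbc : ∀ a ∈ Pb, ∀ b ∈ Pb, a * b = b * a := by
    rintro _ ⟨a, ha, rfl⟩ _ ⟨b, hb, rfl⟩
    rw [← map_mul, ← map_mul, hP'comm a ha b hb]
  have hcardmap : ∀ A : Subgroup N, A ≤ P' → Nat.card (A.map π) = Nat.card A := fun A hA =>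
    (Nat.card_congr (Equiv.ofBijective (fun a : A => (⟨π a, Subgroup.mem_map_of_mem π a.2⟩ : A.map π))
      ⟨fun a b h => Subtype.ext (hinjP _ (hA a.2) _ (hA b.2) (congrArg Subtype.val h)), by
        rintro ⟨_, a, ha, rfl⟩; exact ⟨⟨a, ha⟩, rfl⟩⟩)).symm
  have hcPb : Nat.card Pb = p ^ n := (hcardmap P' le_rfl).trans hcP'
  have hidx : (Nat.card Pb).Coprime Pb.index := by
    rw [hcPb]
    refine Nat.Coprime.pow_left n ((hp.coprime_iff_not_dvd).2 fun h => P.not_dvd_index ?_)
    exact (h.trans (Subgroup.index_map_dvd P' (QuotientGroup.mk'_surjective M))).trans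
      (Subgroup.relIndex_dvd_index_of_le hPN)
  -- the centralizer of the image of `P`
  have hC : ∀ x, (∀ a ∈ Pb, x * a = a * x) → x ∈ Pb := by
    set C := Subgroup.centralizer (Pb : Set (↥N ⧸ M)) with hCdef
    have hPbC : Pb ≤ C := fun a ha => Subgroup.mem_centralizer_iff.2 fun b hb => hPbc b hb a ha
    haveI hCn : C.Normal := Subgroup.normal_centralizer
    have hcopC : (Nat.card (Pb.subgroupOf C)).Coprime (Pb.subgroupOf C).index := by
      rw [Nat.card_congr (Subgroup.subgroupOfEquivOfLe hPbC).toEquiv]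
      exact hidx.coprime_dvd_right (Subgroup.relIndex_dvd_index_of_le hPbC)
    obtain ⟨K, hK⟩ := Subgroup.exists_right_complement'_of_coprime hcopC
    have hKc : (Nat.card K).Coprime p := by
      rw [← hK.symm.index_eq_card]
      rw [Nat.card_congr (Subgroup.subgroupOfEquivOfLe hPbC).toEquiv, hcPb] at hcopC
      exact (Nat.coprime_pow_left_iff (by omega) _ _).1 hcopC |>.symm
    set K₀ := K.map C.subtype with hK₀
    haveI hK₀n : K₀.Normal := ⟨by
      rintro _ ⟨k, hk, rfl⟩ g
      set y : C := ⟨g * k * g⁻¹, hCn.conj_mem _ k.2 g⟩ with hy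
      obtain ⟨⟨⟨z, hz⟩, ⟨k', hk'⟩⟩, he⟩ := hK.2 y
      have hcm : Commute z k' := Subtype.ext
        (Subgroup.mem_centralizer_iff.1 k'.2 z hz)
      have hy1 : y ^ Nat.card K = 1 := by
        apply Subtype.ext
        show (g * (k : ↥N ⧸ M) * g⁻¹) ^ Nat.card K = 1
        rw [conj_pow]
        have : k ^ Nat.card K = 1 := congrArg Subtype.val (pow_card_eq_one' (x := (⟨k, hk⟩ : K)))
        rw [← Subgroup.coe_pow, this, Subgroup.coe_one, mul_one, mul_inv_cancel]
      rw [← he, hcm.mul_pow] at hy1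
      have hk1 : k' ^ Nat.card K = 1 := congrArg Subtype.val (pow_card_eq_one' (x := (⟨k', hk'⟩ : K)))
      rw [hk1, mul_one] at hy1
      have hz1 : z = 1 := by
        have h1 := orderOf_dvd_of_pow_eq_one hy1
        have h2 : orderOf z ∣ p ^ n := by
          have := orderOf_dvd_natCard (⟨z, hz⟩ : Pb.subgroupOf C)
          rwa [Subgroup.orderOf_mk, Nat.card_congr (Subgroup.subgroupOfEquivOfLe hPbC).toEquiv, hcPb] at this
        exact orderOf_eq_one_iff.1 (Nat.eq_one_of_dvd_coprimes (hKc.pow_right n) h1 h2)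
      refine ⟨k', hk', ?_⟩
      have := congrArg Subtype.val he
      simp only [hz1, one_mul] at this
      exact this⟩
    have hL : K₀.comap π ≤ M := CfsgLib.SelfCentPrime.le_pPrimeCore inferInstance (by
      have hle : M ≤ K₀.comap π := fun x hx => by
        show π x ∈ K₀
        rw [show π x = 1 from (QuotientGroup.eq_one_iff x).2 hx]
        exact K₀.one_mem
      have h1 := (M.subgroupOf (K₀.comap π)).card_mul_index
      rw [← h1, Nat.card_congr (Subgroup.subgroupOfEquivOfLe hle).toEquiv]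
      refine Nat.Coprime.mul_left hMc ?_
      have h2 : M.relIndex (K₀.comap π) = Nat.card K₀ := by
        have h := Subgroup.relIndex_ker (K₀.comap π) π
        rw [Subgroup.map_comap_eq_self_of_surjective (QuotientGroup.mk'_surjective M)] at h
        rwa [hπ, QuotientGroup.ker_mk', ← hπ] at h
      rw [show (M.subgroupOf (K₀.comap π)).index = Nat.card K₀ from h2, hK₀,
        Subgroup.card_map_of_injective C.subtype_injective]
      exact hKc)
    intro x hx
    have hxC : x ∈ C := Subgroup.mem_centralizer_iff.2 fun b hb => (hx b hb).symm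
    obtain ⟨⟨⟨z, hz⟩, ⟨k', hk'⟩⟩, he⟩ := hK.2 ⟨x, hxC⟩
    obtain ⟨m, hm⟩ := QuotientGroup.mk'_surjective M (k' : ↥N ⧸ M)
    have hmM : m ∈ M := hL (show π m ∈ K₀ from hm ▸ ⟨k', hk', rfl⟩)
    have hk0 : (k' : ↥N ⧸ M) = 1 := hm ▸ (QuotientGroup.eq_one_iff m).2 hmM
    have := congrArg Subtype.val he
    simp only [Subgroup.coe_mul, hk0, mul_one] at this
    exact this ▸ hz
  obtain ⟨X, hX⟩ := Subgroup.exists_right_complement'_of_coprime hidx
  have hdec : ∀ g : ↥N ⧸ M, ∃ z ∈ Pb, ∃ x ∈ X, g = z * x := fun g => by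
    obtain ⟨⟨⟨z, hz⟩, ⟨x, hx⟩⟩, he⟩ := hX.2 g
    exact ⟨z, hz, x, hx, he.symm⟩
  have hPX : ∀ z ∈ Pb, z ∈ X → z = 1 := fun z hz hzX =>
    (Subgroup.mem_bot.1 (hX.disjoint.le_bot ⟨hz, hzX⟩))
  -- Burnside: subgroups of equal order are conjugate under the complement
  have key : ∀ A B : Subgroup (↥N ⧸ M), A ≤ Pb → B ≤ Pb → Nat.card A = Nat.card B →
      ∃ x ∈ X, A.map (MulAut.conj x).toMonoidHom = B := by
    intro A B hA hB hAB
    set A₁ := A.comap π ⊓ P' with hA₁
    set B₁ := B.comap π ⊓ P' with hB₁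
    have hmapA : ∀ (A : Subgroup (↥N ⧸ M)), A ≤ Pb → (A.comap π ⊓ P').map π = A := by
      intro A hA
      refine le_antisymm ((Subgroup.map_mono inf_le_left).trans (Subgroup.map_comap_le π A)) fun a ha => ?_
      obtain ⟨y, hy, rfl⟩ := hA ha
      exact ⟨y, ⟨ha, hy⟩, rfl⟩
    have hA₂ : A₁.map N.subtype ≤ (P : Subgroup G) := by rintro _ ⟨y, hy, rfl⟩; exact hy.2
    have hB₂ : B₁.map N.subtype ≤ (P : Subgroup G) := by rintro _ ⟨y, hy, rfl⟩; exact hy.2
    have hcA : Nat.card (A₁.map N.subtype) = Nat.card (B₁.map N.subtype) := by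
      rw [Subgroup.card_map_of_injective N.subtype_injective, Subgroup.card_map_of_injective N.subtype_injective,
        ← hcardmap A₁ inf_le_right, ← hcardmap B₁ inf_le_right, hmapA A hA, hmapA B hB, hAB]
    obtain ⟨g, hg⟩ := hC' _ _ (P.2.to_le hA₂) (P.2.to_le hB₂) hcA
    have hnorm : ∀ Y : Subgroup G, Y ≤ (P : Subgroup G) →
        (P : Subgroup G) ≤ Subgroup.normalizer (Y : Set G) := fun Y hY s hs => by
      have hc : ∀ y ∈ Y, s * y = y * s := fun y hy => congrArg Subtype.val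
        (hel.1.is_comm.comm (⟨s, hs⟩ : (P : Subgroup G)) ⟨y, hY hy⟩)
      refine Subgroup.mem_normalizer_iff.2 fun y => ⟨fun hy => ?_, fun hy => ?_⟩
      · rwa [hc y hy, mul_inv_cancel_right]
      · have h := hc _ hy
        rw [inv_mul_cancel_right] at h
        have : y = s * y * s⁻¹ := mul_left_cancel (h.symm.trans rfl)
        rwa [this]
    obtain ⟨m, hm, hmap⟩ := CfsgLib.Alperin.exists_mem_normalizer_conj_eq P (hnorm _ hA₂) (hnorm _ hB₂) hg.symm
    have hm1 : A₁.map (MulAut.conj (⟨m, hm⟩ : N)).toMonoidHom = B₁ := by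
      apply Subgroup.map_injective N.subtype_injective
      rw [Subgroup.map_map, ← hmap, Subgroup.map_map]
      rfl
    have hm2 : A.map (MulAut.conj (π ⟨m, hm⟩)).toMonoidHom = B := by
      have h := congrArg (Subgroup.map π) hm1
      rw [Subgroup.map_map] at h
      rw [← hmapA A hA, ← hmapA B hB, Subgroup.map_map, ← h]
      congr 1
    obtain ⟨z, hz, x, hx, he⟩ := hdec (π ⟨m, hm⟩)
    refine ⟨x, hx, ?_⟩
    rw [← hm2, he]
    ext y
    simp only [Subgroup.mem_map]
    have hfix : ∀ a ∈ A, (z * x) * a * (z * x)⁻¹ = x * a * x⁻¹ := fun a ha => by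
      have h : x * a * x⁻¹ ∈ Pb := hPbn.conj_mem a (hA ha) x
      calc (z * x) * a * (z * x)⁻¹ = z * (x * a * x⁻¹) * z⁻¹ := by group
        _ = x * a * x⁻¹ := by rw [hPbc z hz _ h, mul_inv_cancel_right]
    constructor
    · rintro ⟨a, ha, rfl⟩; exact ⟨a, ha, hfix a ha⟩
    · rintro ⟨a, ha, rfl⟩; exact ⟨a, ha, (hfix a ha).symm⟩
  -- the vector space
  letI : CommGroup Pb :=
    { (inferInstance : Group Pb) with mul_comm := fun a b => Subtype.ext (hPbc a a.2 b b.2) }
  set V := Additive Pb with hV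
  have hexp : ∀ v : V, p • v = 0 := fun v => by
    obtain ⟨y, hy, hye⟩ := (Additive.toMul v).2
    refine Additive.toMul.injective (Subtype.ext ?_)
    show (((Additive.toMul v) ^ p : Pb) : ↥N ⧸ M) = 1
    rw [Subgroup.coe_pow, ← hye, ← map_pow]
    have : y ^ p = 1 := Subtype.ext (hel.2 _ hy)
    rw [this, map_one]
  obtain ⟨instM⟩ : Nonempty (Module (ZMod p) V) := ⟨AddCommGroup.zmodModule hexp⟩
  haveI : Finite V := inferInstanceAs (Finite Pb)
  have hfr : Module.finrank (ZMod p) V = n := by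
    refine Nat.pow_right_injective hp.two_le ?_
    show p ^ _ = p ^ n
    rw [← hcPb]
    have := Module.natCard_eq_pow_finrank (K := ZMod p) (V := V)
    rw [Nat.card_zmod] at this
    exact this.symm
  let cv : X → Pb → Pb := fun x v => ⟨(x : ↥N ⧸ M) * v * (x : ↥N ⧸ M)⁻¹, hPbn.conj_mem _ v.2 _⟩
  let act : X → (V ≃ₗ[ZMod p] V) := fun x =>
    { toFun := fun v => Additive.ofMul (cv x (Additive.toMul v))
      invFun := fun v => Additive.ofMul (cv x⁻¹ (Additive.toMul v))
      map_add' := fun v w => Subtype.ext (conj_mul).symm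
      map_smul' := fun c v => ZMod.map_smul
        (AddMonoidHom.mk' (fun v : V => Additive.ofMul (cv x (Additive.toMul v)))
          fun v w => Subtype.ext (conj_mul).symm) c v
      left_inv := fun v => by
        refine Additive.toMul.injective (Subtype.ext ?_)
        show ((x⁻¹ : X) : ↥N ⧸ M) * (x * (Additive.toMul v : Pb) * (x : ↥N ⧸ M)⁻¹) * ((x⁻¹ : X) : ↥N ⧸ M)⁻¹ = _
        rw [Subgroup.coe_inv]; group
      right_inv := fun v => by
        refine Additive.toMul.injective (Subtype.ext ?_)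
        show (x : ↥N ⧸ M) * (((x⁻¹ : X) : ↥N ⧸ M) * (Additive.toMul v : Pb) * ((x⁻¹ : X) : ↥N ⧸ M)⁻¹) * (x : ↥N ⧸ M)⁻¹ = _
        rw [Subgroup.coe_inv]; group }
  have hact : ∀ (x : X) (v : V), (((Additive.toMul (act x v)) : Pb) : ↥N ⧸ M) =
      (x : ↥N ⧸ M) * (Additive.toMul v : Pb) * (x : ↥N ⧸ M)⁻¹ := fun x v => rfl
  have hmulact : ∀ x y : X, act (x * y) = act x * act y := fun x y =>
    LinearEquiv.ext fun v => by
      refine Additive.toMul.injective (Subtype.ext ?_)
      rw [LinearEquiv.mul_apply, hact, hact, hact, Subgroup.coe_mul]; group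
  let φ : X →* (V ≃ₗ[ZMod p] V) := MonoidHom.mk' act hmulact
  have hφinj : Function.Injective φ := by
    rw [injective_iff_map_eq_one]
    intro x hx
    refine Subtype.ext (hPX _ (hC _ fun a ha => ?_) x.2)
    have h : act x = 1 := hx
    have h' := hact x (Additive.ofMul ⟨a, ha⟩)
    rw [h] at h'
    have h'' : a = (x : ↥N ⧸ M) * a * (x : ↥N ⧸ M)⁻¹ := h'
    conv_rhs => rw [h'']
    rw [inv_mul_cancel_right]
  have hsolH : Group.IsSolvable φ.range := by
    haveI := hsolv
    exact Group.isSolvable_of_surjective φ.rangeRestrict_surjective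
  have hL : ∀ v w : V, v ≠ 0 → w ≠ 0 → ∃ h ∈ φ.range, ∃ c : ZMod p, h v = c • w := by
    intro v w hv hw
    set a : ↥N ⧸ M := ((Additive.toMul v : Pb) : ↥N ⧸ M) with ha
    set b : ↥N ⧸ M := ((Additive.toMul w : Pb) : ↥N ⧸ M) with hb
    have hord : ∀ u : V, u ≠ 0 → orderOf ((Additive.toMul u : Pb) : ↥N ⧸ M) = p := fun u hu => by
      refine orderOf_eq_prime (congrArg (fun t : V => ((Additive.toMul t : Pb) : ↥N ⧸ M)) (hexp u)) fun h => hu ?_
      exact Additive.toMul.injective (Subtype.ext h)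
    obtain ⟨x, hx, he⟩ := key (Subgroup.zpowers a) (Subgroup.zpowers b)
      (Subgroup.zpowers_le.2 (Additive.toMul v : Pb).2) (Subgroup.zpowers_le.2 (Additive.toMul w : Pb).2)
      (by rw [Nat.card_zpowers, Nat.card_zpowers, hord v hv, hord w hw])
    have hmem : x * a * x⁻¹ ∈ Subgroup.zpowers b := by
      rw [← he]; exact Subgroup.mem_map_of_mem _ (Subgroup.mem_zpowers a)
    obtain ⟨i, hi⟩ := Subgroup.mem_zpowers_iff.1 hmem
    refine ⟨φ ⟨x, hx⟩, ⟨_, rfl⟩, (i : ZMod p), ?_⟩
    rw [Int.cast_smul_eq_zsmul]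
    refine Additive.toMul.injective (Subtype.ext ?_)
    show x * a * x⁻¹ = _
    rw [← hi]
    rfl
  have hT : ∀ U W : Submodule (ZMod p) V, Module.finrank (ZMod p) U = 2 → Module.finrank (ZMod p) W = 2 →
      ∃ h ∈ φ.range, U.map (h : V →ₗ[ZMod p] V) = W := by
    intro U W hU hW
    haveI : Module.Finite (ZMod p) V := Module.Finite.of_finite
    let sub : Submodule (ZMod p) V → Subgroup (↥N ⧸ M) := fun U =>
      (AddSubgroup.toSubgroup' U.toAddSubgroup).map Pb.subtype
    have hsub : ∀ (U : Submodule (ZMod p) V) (u : V), ((Additive.toMul u : Pb) : ↥N ⧸ M) ∈ sub U ↔ u ∈ U :=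
      fun U u => Subgroup.mem_map_iff_mem Pb.subtype_injective (K := AddSubgroup.toSubgroup' U.toAddSubgroup)
    have hcs : ∀ U : Submodule (ZMod p) V, Nat.card (sub U) = p ^ Module.finrank (ZMod p) U := fun U => by
      rw [Subgroup.card_map_of_injective Pb.subtype_injective]
      have := Module.natCard_eq_pow_finrank (K := ZMod p) (V := U)
      rw [Nat.card_zmod] at this
      exact this
    obtain ⟨x, hx, he⟩ := key (sub U) (sub W) (Subgroup.map_subtype_le _) (Subgroup.map_subtype_le _)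
      (by rw [hcs, hcs, hU, hW])
    refine ⟨φ ⟨x, hx⟩, ⟨_, rfl⟩, Submodule.eq_of_le_of_finrank_le ?_ ?_⟩
    · rintro _ ⟨u, hu, rfl⟩
      rw [← hsub W, ← he]
      exact ⟨_, (hsub U u).2 hu, rfl⟩
    · rw [hW, ← hU]
      exact ((φ ⟨x, hx⟩).finrank_map_eq U).ge
  obtain ⟨hdim, hsl, h73, h55⟩ :=
    CfsgLib.Huppert.PlaneTrans.classify (hn.trans_eq hfr.symm) φ.range hsolH hL hT
  rw [hfr] at hdim hsl h73 h55
  obtain ⟨e, he⟩ := hsl
  choose α σ hσ using fun x : X => he (φ x) ⟨x, rfl⟩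
  have hα0 : ∀ x, α x ≠ 0 := fun x h => by
    have h1 := hσ x (e.symm 1)
    rw [h, zero_mul, AddEquivClass.map_eq_zero_iff, LinearEquiv.map_eq_zero_iff] at h1
    exact one_ne_zero (by simpa using congrArg e h1 : (1 : GaloisField p n) = 0)
  have hval : ∀ x, e (φ x (e.symm 1)) = α x := fun x => by
    rw [hσ, e.apply_symm_apply, map_one, mul_one]
  have hmulσ : ∀ x y : X, σ (x * y) = σ x * σ y := fun x y => by
    have hm : α (x * y) = α x * σ x (α y) := by
      rw [← hval (x * y), map_mul, LinearEquiv.mul_apply, hσ x, hval]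
    ext t
    have h := hσ (x * y) (e.symm t)
    rw [map_mul, LinearEquiv.mul_apply, hσ x, hσ y, e.apply_symm_apply, map_mul, hm, ← mul_assoc] at h
    exact (mul_left_cancel₀ (mul_ne_zero (hα0 x) ((map_ne_zero (σ x)).2 (hα0 y))) h).symm
  -- the action on the cosets of the complement
  have hbij : Function.Bijective (fun v : V => (((Additive.toMul v : Pb) : ↥N ⧸ M) : (↥N ⧸ M) ⧸ X)) := by
    constructor
    · intro v w h
      refine Additive.toMul.injective (Subtype.ext (inv_mul_eq_one.1 (hPX _ ?_ (QuotientGroup.eq.1 h))))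
      exact Pb.mul_mem (Pb.inv_mem (Additive.toMul v : Pb).2) (Additive.toMul w : Pb).2
    · intro c
      obtain ⟨g, rfl⟩ := QuotientGroup.mk_surjective c
      obtain ⟨z, hz, x, hx, rfl⟩ := hdec g
      exact ⟨Additive.ofMul ⟨z, hz⟩, QuotientGroup.eq.2 (by simpa using hx)⟩
  let Θ : (↥N ⧸ M) ⧸ X ≃ GaloisField p n := (Equiv.ofBijective _ hbij).symm.trans e.toEquiv
  let f0 : ↥N ⧸ M →* Equiv.Perm (GaloisField p n) :=
    Θ.permCongrHom.toMonoidHom.comp (MulAction.toPermHom (↥N ⧸ M) ((↥N ⧸ M) ⧸ X))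
  have hf0 : ∀ (z : ↥N ⧸ M) (hz : z ∈ Pb) (x : X) (t : GaloisField p n),
      f0 (z * x) t = α x * σ x t + e (Additive.ofMul ⟨z, hz⟩) := by
    intro z hz x t
    obtain ⟨v, rfl⟩ := e.surjective t
    rw [← hσ x v, add_comm, ← map_add]
    show Θ ((z * x) • Θ.symm (e v)) = _
    simp only [Θ, Equiv.symm_trans_apply, Equiv.symm_symm, AddEquiv.toEquiv_symm, AddEquiv.coe_toEquiv,
      AddEquiv.symm_apply_apply, Equiv.trans_apply, Equiv.ofBijective_apply]
    refine congrArg e ?_
    rw [Equiv.symm_apply_eq, Equiv.ofBijective_apply, MulAction.Quotient.smul_mk]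
    refine QuotientGroup.eq.2 ?_
    erw [e.symm_apply_apply]
    rw [smul_eq_mul]
    show (z * x * ((Additive.toMul v : Pb) : ↥N ⧸ M))⁻¹ *
      (z * (x * ((Additive.toMul v : Pb) : ↥N ⧸ M) * (x : ↥N ⧸ M)⁻¹)) ∈ X
    have : (z * x * ((Additive.toMul v : Pb) : ↥N ⧸ M))⁻¹ *
      (z * (x * ((Additive.toMul v : Pb) : ↥N ⧸ M) * (x : ↥N ⧸ M)⁻¹)) = (x : ↥N ⧸ M)⁻¹ := by group
    rw [this]
    exact X.inv_mem x.2
  have hinj : Function.Injective f0 := by
    rw [injective_iff_map_eq_one]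
    intro g hg
    obtain ⟨z, hz, x, hx, rfl⟩ := hdec g
    have h0 := hf0 z hz ⟨x, hx⟩ 0
    rw [hg, Equiv.Perm.one_apply, map_zero, mul_zero, zero_add, eq_comm, AddEquivClass.map_eq_zero_iff] at h0
    have hz1 : z = 1 := congrArg (fun t : V => ((Additive.toMul t : Pb) : ↥N ⧸ M)) h0
    have hφ1 : φ ⟨x, hx⟩ = 1 := LinearEquiv.ext fun v => e.injective (by
      have h := hf0 z hz ⟨x, hx⟩ (e v)
      rw [hg, Equiv.Perm.one_apply, h0, map_zero, add_zero, ← hσ] at h
      exact h.symm)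
    have hx1 : x = 1 := congrArg Subtype.val (hφinj (hφ1.trans (map_one φ).symm))
    rw [hz1, hx1, one_mul]
  have hmemSA : ∀ g, f0 g ∈ Cfsg.semiaffineGroup (GaloisField p n) := fun g => by
    obtain ⟨z, hz, x, hx, rfl⟩ := hdec g
    exact ⟨Units.mk0 _ (hα0 ⟨x, hx⟩), e (Additive.ofMul ⟨z, hz⟩), σ ⟨x, hx⟩, hf0 z hz ⟨x, hx⟩⟩
  have hcQ : Nat.card (↥N ⧸ M) = p ^ n * Nat.card φ.range := by
    rw [← hX.card_mul, hcPb, Nat.card_congr (MonoidHom.ofInjective hφinj).toEquiv]
  haveI : Finite (GaloisField p n) := Finite.of_equiv V e.toEquiv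
  rcases hdim with rfl | ⟨rfl, rfl⟩
  · refine Or.inl ⟨rfl, ⟨f0.codRestrict _ hmemSA, (MonoidHom.injective_codRestrict _ _ _).2 hinj⟩, ?_⟩
    intro hp2
    subst hp2
    rcases h73 rfl rfl with h7 | h21
    · refine Or.inr (equiv_of_injective (f0.codRestrict _ fun g => ?_)
        ((MonoidHom.injective_codRestrict _ _ _).2 hinj) ((card_affine_le 2 3 (by norm_num)).trans ?_))
      · obtain ⟨z, hz, x, hx, rfl⟩ := hdec g
        let τ : X →* (GaloisField 2 3 ≃+* GaloisField 2 3) := MonoidHom.mk' σ hmulσ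
        haveI : Finite (GaloisField 2 3 ≃+* GaloisField 2 3) :=
          Nat.finite_of_card_ne_zero (by rw [card_ringAut 2 3 (by norm_num)]; norm_num)
        have h1 : orderOf (τ ⟨x, hx⟩) ∣ 7 := by
          refine (orderOf_map_dvd τ _).trans ?_
          rw [← h7, ← Nat.card_congr (MonoidHom.ofInjective hφinj).toEquiv]
          exact orderOf_dvd_natCard _
        have h2 : orderOf (τ ⟨x, hx⟩) ∣ 3 := by
          have := orderOf_dvd_natCard (τ ⟨x, hx⟩)
          rwa [card_ringAut 2 3 (by norm_num)] at this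
        have hσ1 : σ ⟨x, hx⟩ = 1 := orderOf_eq_one_iff.1 (Nat.eq_one_of_dvd_coprimes (by norm_num) h1 h2)
        exact ⟨Units.mk0 _ (hα0 ⟨x, hx⟩), e (Additive.ofMul ⟨z, hz⟩), fun t => by
          rw [hf0 z hz ⟨x, hx⟩, hσ1]; rfl⟩
      · rw [hcQ, h7]; norm_num
    · exact Or.inl (equiv_of_injective (f0.codRestrict _ hmemSA)
        ((MonoidHom.injective_codRestrict _ _ _).2 hinj)
        ((card_semiaffine_le 2 3 (by norm_num)).trans (by rw [hcQ, h21]; norm_num)))
  · exact Or.inr ⟨rfl, rfl, equiv_of_injective (f0.codRestrict _ hmemSA)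
      ((MonoidHom.injective_codRestrict _ _ _).2 hinj)
      ((card_semiaffine_le 2 5 (by norm_num)).trans (by rw [hcQ, h55 rfl rfl]; norm_num))⟩

end Cfsg.Agent.S4025
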