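import Cfsg.Statements.S4028
-- no helper imports

set_option autoImplicit false
open Cfsg

namespace Cfsg.Agent.S4028

/-- An odd-order operator on a cyclic 2-group acts trivially. -/
theorem aut_two_power {G : Type*} [Group G] (x g : G) (e : ℕ) (he : orderOf x = 2 ^ e)
    (n : ℤ) (hg : g * x * g⁻¹ = x ^ n) (j : ℕ) (hj : Odd j) (hgj : g ^ j = 1) : g * x * g⁻¹ = x := by
  rcases Nat.eq_zero_or_pos e with rfl | hepos
  · rw [pow_zero, orderOf_eq_one_iff] at he; subst he; simp
  have hiter : ∀ i : ℕ, g ^ i * x * (g ^ i)⁻¹ = x ^ (n ^ i) := by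
    intro i; induction i with
    | zero => simp
    | succ i ih =>
      calc g ^ (i+1) * x * (g ^ (i+1))⁻¹ = g ^ i * (g * x * g⁻¹) * (g ^ i)⁻¹ := by group
        _ = (g ^ i * x * (g ^ i)⁻¹) ^ n := by rw [hg, conj_zpow]
        _ = x ^ (n ^ (i+1)) := by rw [ih, ← zpow_mul, pow_succ]
  have h1 := hiter j
  rw [hgj] at h1
  simp only [one_mul, inv_one, mul_one] at h1
  have hd : (2 ^ e : ℤ) ∣ n ^ j - 1 := by
    have : x ^ (n ^ j - 1) = 1 := by rw [zpow_sub, ← h1, zpow_one, mul_inv_cancel]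
    have := orderOf_dvd_iff_zpow_eq_one.mpr this
    rw [he] at this; exact_mod_cast this
  have hj0 : j ≠ 0 := by rcases hj with ⟨k, rfl⟩; omega
  have hnodd : Odd n := by
    by_contra hev
    rw [Int.not_odd_iff_even] at hev
    have h2 : (2:ℤ) ∣ n ^ j := dvd_pow hev.two_dvd hj0
    have : (2:ℤ) ∣ n ^ j - 1 := (dvd_pow_self 2 hepos.ne').trans hd
    omega
  have hfac : n ^ j - 1 = (∑ i ∈ Finset.range j, n ^ i) * (n - 1) := (geom_sum_mul n j).symm
  have hco : IsCoprime ((2:ℤ) ^ e) (∑ i ∈ Finset.range j, n ^ i) := by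
    apply IsCoprime.pow_left
    have : Odd (∑ i ∈ Finset.range j, n ^ i) := by
      have hp : ∀ i : ℕ, Odd (n ^ i) := fun i => hnodd.pow
      have key : ∀ t : ℕ, Odd (∑ i ∈ Finset.range t, n ^ i) ↔ Odd t := by
        intro t; induction t with
        | zero => simp
        | succ t ih => rw [Finset.sum_range_succ]; grind [Int.odd_add, Int.even_iff, Int.odd_iff, Nat.odd_iff]
      exact (key j).mpr hj
    rcases this with ⟨k, hk⟩
    rw [hk]
    exact ⟨-k, 1, by ring⟩
  rw [hfac] at hd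
  have hn1 : (2 ^ e : ℤ) ∣ n - 1 := hco.dvd_of_dvd_mul_left hd
  have : x ^ (n - 1) = 1 := orderOf_dvd_iff_zpow_eq_one.mp (by rw [he]; exact_mod_cast hn1)
  rw [hg, show n = n - 1 + 1 by ring, zpow_add, this, one_mul, zpow_one]

theorem mem_normalizer_zpowers {G : Type*} [Group G] [Finite G] {x g : G}
    (h : g * x * g⁻¹ ∈ Subgroup.zpowers x) :
    g ∈ Subgroup.normalizer ((Subgroup.zpowers x : Subgroup G) : Set G) := by
  have hmap : (Subgroup.zpowers x).map (MulAut.conj g).toMonoidHom = Subgroup.zpowers x := by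
    apply Subgroup.eq_of_le_of_card_ge
    · rw [MonoidHom.map_zpowers, Subgroup.zpowers_le]; simpa using h
    · rw [Subgroup.card_map_of_injective (MulEquiv.injective _)]
  rw [Subgroup.mem_normalizer_iff]
  intro w
  constructor
  · intro hw; rw [← hmap]; exact ⟨w, hw, by simp⟩
  · intro hw; rw [← hmap] at hw; obtain ⟨w', hw', he'⟩ := hw
    have : w' = w := by simpa using he'
    exact this ▸ hw'

/-- Let G be a finite group with Sylow 2-subgroup P. Then N_G(⟨x⟩) = C_G(x) holds for every 2-element x of G if and only if N_P(⟨y⟩) = C_P(y) holds for every y ∈ P (computed inside P). -/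
theorem result {G : Type*} [Group G] [Finite G] (P : Sylow 2 G) :
    (∀ x : G, (∀ r : ℕ, r.Prime → r ∣ orderOf x → r = 2) →
      Subgroup.normalizer ((Subgroup.zpowers x : Subgroup G) : Set G) ≤ Subgroup.centralizer {x}) ↔
    (∀ y : ↥(P : Subgroup G), Subgroup.normalizer ((Subgroup.zpowers y : Subgroup ↥(P : Subgroup G)) : Set ↥(P : Subgroup G)) ≤
        Subgroup.centralizer {y}) := by
  constructor
  · intro h y z hz
    have h2 : ∀ r : ℕ, r.Prime → r ∣ orderOf (y : G) → r = 2 := by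
      intro r hr hd
      obtain ⟨k, hk⟩ := IsPGroup.iff_orderOf.mp P.2 y
      rw [Subgroup.orderOf_coe, hk] at hd
      exact (Nat.prime_dvd_prime_iff_eq hr Nat.prime_two).mp (hr.dvd_of_dvd_pow hd)
    obtain ⟨n, hn⟩ := Subgroup.mem_zpowers_iff.mp
      ((Subgroup.mem_normalizer_iff.mp hz y).mp (Subgroup.mem_zpowers y))
    have := h y h2 (mem_normalizer_zpowers (g := (z : G)) ⟨n, congrArg Subtype.val hn⟩)
    rw [Subgroup.mem_centralizer_singleton_iff] at this ⊢
    exact Subtype.ext this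
  · intro h x hx g hg
    obtain ⟨e, he⟩ : ∃ e, orderOf x = 2 ^ e :=
      ⟨_, Nat.eq_prime_pow_of_unique_prime_dvd (orderOf_pos x).ne' (fun {d} hd hdd => hx d hd hdd)⟩
    rw [Subgroup.mem_centralizer_singleton_iff]
    obtain ⟨k, j, hj, hkj⟩ := Nat.exists_eq_two_pow_mul_odd (orderOf_pos g).ne'
    have hord : g ^ (2 ^ k * j) = 1 := hkj ▸ pow_orderOf_eq_one g
    have conj_mem : ∀ i : ℕ, g ^ i * x * (g ^ i)⁻¹ ∈ Subgroup.zpowers x := fun i =>
      ((Subgroup.mem_normalizer_iff.mp (Subgroup.pow_mem _ hg i)) x).mp (Subgroup.mem_zpowers x)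
    have hodd : g ^ 2 ^ k * x * (g ^ 2 ^ k)⁻¹ = x := by
      obtain ⟨n, hn⟩ := Subgroup.mem_zpowers_iff.mp (conj_mem (2 ^ k))
      exact aut_two_power x _ e he n hn.symm j hj (by rw [← pow_mul, hord])
    have heven : g ^ j * x * (g ^ j)⁻¹ = x := by
      have hT : IsPGroup 2 (Subgroup.zpowers x ⊔ Subgroup.zpowers (g ^ j) : Subgroup G) := by
        refine IsPGroup.to_sup_of_normal_left' ?_ ?_ ?_
        · exact IsPGroup.of_card (n := e) (by rw [Nat.card_zpowers, he])
        · obtain ⟨a, -, ha⟩ := (Nat.dvd_prime_pow Nat.prime_two).mp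
            (orderOf_dvd_of_pow_eq_one (show (g ^ j) ^ 2 ^ k = 1 by rw [← pow_mul, mul_comm, hord]))
          exact IsPGroup.of_card (n := a) (by rw [Nat.card_zpowers, ha])
        · rw [Subgroup.zpowers_le]; exact Subgroup.pow_mem _ hg j
      obtain ⟨Q, hQ⟩ := hT.exists_le_sylow
      obtain ⟨c, hc⟩ := MulAction.exists_smul_eq G Q P
      have mem : ∀ v ∈ (Subgroup.zpowers x ⊔ Subgroup.zpowers (g ^ j) : Subgroup G),
          c * v * c⁻¹ ∈ (P : Subgroup G) := by
        intro v hv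
        rw [← hc, Sylow.coe_subgroup_smul]
        exact ⟨v, hQ hv, by simp⟩
      let y : (P : Subgroup G) := ⟨_, mem x (Subgroup.mem_sup_left (Subgroup.mem_zpowers x))⟩
      let z : (P : Subgroup G) := ⟨_, mem (g ^ j) (Subgroup.mem_sup_right (Subgroup.mem_zpowers _))⟩
      have hz : z ∈ Subgroup.normalizer ((Subgroup.zpowers y) : Set (P : Subgroup G)) := by
        refine mem_normalizer_zpowers ?_
        obtain ⟨n, hn⟩ := Subgroup.mem_zpowers_iff.mp (conj_mem j)
        refine ⟨n, Subtype.ext ?_⟩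
        simp only [z, y, Subgroup.coe_zpow, Subgroup.coe_mul, Subgroup.coe_inv, conj_zpow, hn]
        group
      have hyz := Subgroup.mem_centralizer_singleton_iff.mp (h y hz)
      have h1 : c * (g ^ j) * c⁻¹ * (c * x * c⁻¹) = c * x * c⁻¹ * (c * (g ^ j) * c⁻¹) := congrArg Subtype.val hyz
      have h1' := congrArg (fun v => c⁻¹ * v * c) h1
      have h2 : g ^ j * x = x * g ^ j := by simpa [mul_assoc] using h1'
      rw [h2]; group
    have cj : Commute (g ^ j) x := mul_inv_eq_iff_eq_mul.mp heven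
    have ck : Commute (g ^ 2 ^ k) x := mul_inv_eq_iff_eq_mul.mp hodd
    have hco : Nat.Coprime j (2 ^ k) := Nat.Coprime.pow_right _ (Nat.coprime_two_right.mpr hj)
    have hg1 : g = (g ^ j) ^ (Nat.gcdA j (2 ^ k)) * (g ^ 2 ^ k) ^ (Nat.gcdB j (2 ^ k)) := by
      rw [← zpow_natCast, ← zpow_natCast, ← zpow_mul, ← zpow_mul, ← zpow_add, ← Nat.gcd_eq_gcd_ab]
      simp [hco.gcd_eq_one]
    rw [hg1]
    exact ((cj.zpow_left _).mul_left (ck.zpow_left _)).eq

end Cfsg.Agent.S4028
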