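import Cfsg.Statements.S4029
import Cfsg.Agent.Eq.Def_Characters
import Cfsg.Agent.Chars.Basic
import Cfsg.Agent.Chars.Exceptional.FixedPoints
import Cfsg.Agent.PGroup.Frattini

set_option autoImplicit false
open Cfsg CfsgLib.Chars
open scoped commutatorElement ComplexConjugate

namespace Cfsg.Agent.S4029

universe u

variable {P : Type u} [Group P] [Finite P]

/-- The inverse map on conjugacy classes. -/
def invClass : Equiv.Perm (ConjClasses P) :=
  Function.Involutive.toPerm
    (fun C => Quotient.liftOn C (fun g => ConjClasses.mk g⁻¹) fun a b (h : IsConj a b) => by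
      refine ConjClasses.mk_eq_mk_iff_isConj.2 ?_
      obtain ⟨c, hc⟩ := isConj_iff.1 h
      exact isConj_iff.2 ⟨c, by rw [← hc]; group⟩)
    fun C => Quotient.inductionOn C fun g => by
      show ConjClasses.mk g⁻¹⁻¹ = ConjClasses.mk g
      rw [inv_inv]

omit [Finite P] in
theorem invClass_mk (g : P) : invClass (ConjClasses.mk g) = ConjClasses.mk g⁻¹ := rfl

theorem card_frattini_quotient_le_real (hP : IsPGroup 2 P) :
    Nat.card (P ⧸ frattini P) ≤ Nat.card {C : ConjClasses P // invClass C = C} := by
  rw [← CfsgLib.Chars.Exceptional.brauer_permutation (conjChar (G := P)) invClass fun χ g g' h => by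
    rw [invClass_mk, ConjClasses.mk_eq_mk_iff_isConj] at h
    rw [conjChar_apply, eq_of_isConj (isClassFunction_coe χ) h,
      ← conj_eq_map_inv (isCharacter_coe χ), Complex.conj_conj]]
  have hcm : commutator (P ⧸ frattini P) = ⊥ := by
    rw [commutator_def, Subgroup.commutator_eq_bot_iff_le_centralizer]
    intro a _
    rw [Subgroup.mem_centralizer_iff]
    intro b _
    obtain ⟨x, rfl⟩ := QuotientGroup.mk'_surjective (frattini P) a
    obtain ⟨y, rfl⟩ := QuotientGroup.mk'_surjective (frattini P) b
    rw [← commutatorElement_eq_one_iff_mul_comm, ← map_commutatorElement, QuotientGroup.mk'_apply,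
      QuotientGroup.eq_one_iff]
    exact CfsgLib.PGroup.commutatorElement_mem_frattini (p := 2) hP y x
  have hcard : Nat.card (P ⧸ frattini P) = Nat.card ((P ⧸ frattini P) →* ℂˣ) := by
    rw [card_monoidHom_units, hcm, Subgroup.index_bot]
  rw [hcard]
  refine Nat.card_le_card_of_injective
    (fun l => ⟨linChar (l.comp (QuotientGroup.mk' (frattini P))), ?_⟩) fun l l' h => ?_
  · refine Subtype.ext (funext fun g => ?_)
    have h2 : ((l.comp (QuotientGroup.mk' (frattini P))) g : ℂ) ^ 2 = 1 := by
      rw [← Units.val_pow_eq_pow_val, ← map_pow, MonoidHom.comp_apply, QuotientGroup.mk'_apply,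
        (QuotientGroup.eq_one_iff _).2 (CfsgLib.PGroup.pow_prime_mem_frattini (p := 2) hP g),
        map_one, Units.val_one]
    rw [conjChar_apply, linChar_apply]
    rcases sq_eq_one_iff.1 h2 with h3 | h3 <;> rw [h3] <;> simp
  · have h1 := linChar_injective (congrArg Subtype.val h)
    refine MonoidHom.ext fun q => ?_
    obtain ⟨g, rfl⟩ := QuotientGroup.mk'_surjective (frattini P) q
    exact congrArg (fun f : P →* ℂˣ => f g) h1

/-- Let P be a finite 2-group in which N_P(⟨y⟩) = C_P(y) for every y ∈ P. If s is the number of conjugacy classes of involutions of P, then #(P/Φ(P)) ≤ s + 1; in particular the subgroup generated by the involutions of P has order at least #(P/Φ(P)). -/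
theorem result {P : Type*} [Group P] [Finite P] (hP : IsPGroup 2 P)
    (hirr : ∀ y : P, Subgroup.normalizer ((Subgroup.zpowers y : Subgroup P) : Set P) ≤ Subgroup.centralizer {y}) :
    Nat.card (P ⧸ frattini P) ≤ Nat.card {c : ConjClasses P // ∃ y : P, ConjClasses.mk y = c ∧ orderOf y = 2} + 1 ∧
    Nat.card (P ⧸ frattini P) ≤ Nat.card (Subgroup.closure {y : P | orderOf y = 2}) := by
  classical
  have hreal : ∀ y : P, invClass (ConjClasses.mk y) = ConjClasses.mk y → y ≠ 1 → orderOf y = 2 := by
    intro y hy hy1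
    rw [invClass_mk, ConjClasses.mk_eq_mk_iff_isConj] at hy
    obtain ⟨w, hw⟩ := isConj_iff.1 hy
    have hn : w ∈ Subgroup.normalizer ((Subgroup.zpowers y : Subgroup P) : Set P) := by
      rw [Subgroup.mem_normalizer_iff]
      intro z
      have h1 : w * y * w⁻¹ = y⁻¹ := by
        calc w * y * w⁻¹ = (w * y⁻¹ * w⁻¹)⁻¹ := by group
          _ = y⁻¹ := by rw [hw]
      constructor
      · intro hz
        obtain ⟨k, rfl⟩ := Subgroup.mem_zpowers_iff.1 hz
        exact Subgroup.mem_zpowers_iff.2 ⟨-k, by rw [← conj_zpow, h1, inv_zpow, zpow_neg]⟩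
      · intro hz
        obtain ⟨k, hk⟩ := Subgroup.mem_zpowers_iff.1 hz
        refine Subgroup.mem_zpowers_iff.2 ⟨-k, ?_⟩
        have h2 : z = w⁻¹ * y ^ k * w := by rw [hk]; group
        have h3 : w⁻¹ * y * w = y⁻¹ := by
          calc w⁻¹ * y * w = w⁻¹ * (w * y⁻¹ * w⁻¹) * w := by rw [hw]
            _ = y⁻¹ := by group
        rw [h2, show w⁻¹ * y ^ k * w = (w⁻¹ * y * w) ^ k by
          have h4 := (conj_zpow (a := w⁻¹) (b := y) (i := k)).symm
          rwa [inv_inv] at h4, h3, inv_zpow, zpow_neg]
    have hc := Subgroup.mem_centralizer_singleton_iff.1 (hirr y hn)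
    have h1 : y⁻¹ = y := by
      calc y⁻¹ = w⁻¹ * (w * y⁻¹ * w⁻¹) * w := by group
        _ = w⁻¹ * y * w := by rw [hw]
        _ = w⁻¹ * (y * w) := by group
        _ = y := by rw [← hc]; group
    exact orderOf_eq_prime (by rw [pow_two]; nth_rw 1 [← h1]; exact inv_mul_cancel y) hy1
  have hA : Nat.card {C : ConjClasses P // invClass C = C} ≤
      Nat.card (Option {c : ConjClasses P // ∃ y : P, ConjClasses.mk y = c ∧ orderOf y = 2}) := by
    refine Nat.card_le_card_of_injective (fun C => if h : C.1 = ConjClasses.mk 1 then none else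
      some ⟨C.1, ?_⟩) fun C C' hCC => ?_
    · obtain ⟨C, hC⟩ := C
      obtain ⟨y, rfl⟩ := ConjClasses.mk_surjective C
      exact ⟨y, rfl, hreal y hC fun hy => h (congrArg ConjClasses.mk hy)⟩
    · dsimp only at hCC
      split_ifs at hCC with h1 h2
      · exact Subtype.ext (h1.trans h2.symm)
      · exact Subtype.ext (congrArg Subtype.val (Option.some_injective _ hCC) :)
  rw [Finite.card_option] at hA
  refine ⟨(card_frattini_quotient_le_real hP).trans hA, ((card_frattini_quotient_le_real hP).trans hA).trans ?_⟩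
  rw [← Finite.card_option]
  refine Nat.card_le_card_of_injective (fun o => o.elim 1 fun c =>
    ⟨Classical.choose c.2, Subgroup.subset_closure (Classical.choose_spec c.2).2⟩) fun o o' ho => ?_
  have hne : ∀ c : {c : ConjClasses P // ∃ y : P, ConjClasses.mk y = c ∧ orderOf y = 2},
      Classical.choose c.2 ≠ 1 := fun c hc => by
    have h1 := (Classical.choose_spec c.2).2
    rw [hc, orderOf_one] at h1
    exact absurd h1 (by norm_num)
  rcases o with _ | c <;> rcases o' with _ | c'
  · rfl
  · exact absurd (congrArg Subtype.val ho).symm (hne c')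
  · exact absurd (congrArg Subtype.val ho) (hne c)
  · have h1 : Classical.choose c.2 = Classical.choose c'.2 := congrArg Subtype.val ho
    refine congrArg some (Subtype.ext ?_)
    rw [← (Classical.choose_spec c.2).1, ← (Classical.choose_spec c'.2).1, h1]

end Cfsg.Agent.S4029
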