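import Cfsg.Statements.S4032
import Mathlib

set_option autoImplicit false
open Cfsg

namespace Cfsg.Agent.S4032

theorem normalizer_zpowers_mk {G : Type*} [Group G] [Finite G] {x g : G}
    (h : g * x * g⁻¹ ∈ Subgroup.zpowers x) :
    g ∈ Subgroup.normalizer ((Subgroup.zpowers x : Subgroup G) : Set G) := by
  have hmap : (Subgroup.zpowers x).map (MulAut.conj g).toMonoidHom = Subgroup.zpowers x := by
    apply Subgroup.eq_of_le_of_card_ge
    · rw [MonoidHom.map_zpowers, Subgroup.zpowers_le]; simpa using h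
    · rw [Subgroup.card_map_of_injective (MulEquiv.injective _)]
  rw [Subgroup.mem_normalizer_iff]
  intro w
  constructor
  · intro hw; rw [← hmap]; exact ⟨w, hw, by simp⟩
  · intro hw; rw [← hmap] at hw; obtain ⟨w', hw', he'⟩ := hw
    have : w' = w := by simpa using he'
    exact this ▸ hw'

/-- A prime power case: a `q`-element of the quotient normalised by `g` is centralised by `g`. -/
theorem commute_prime_power {G : Type*} [Group G] [Finite G] (N : Subgroup G) [N.Normal]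
    {q : ℕ} [Fact q.Prime] (hqN : ¬ q ∣ Nat.card N)
    (hirr : ∀ x : G, (∀ r : ℕ, r.Prime → r ∣ orderOf x → r = q) →
      Subgroup.normalizer ((Subgroup.zpowers x : Subgroup G) : Set G) ≤ Subgroup.centralizer {x})
    (y : G ⧸ N) (e : ℕ) (hy : orderOf y = q ^ e) (g : G)
    (hg : (g : G ⧸ N) * y * (g : G ⧸ N)⁻¹ ∈ Subgroup.zpowers y) : (g : G ⧸ N) * y = y * (g : G ⧸ N) := by
  have hq := Fact.out (p := q.Prime)
  obtain ⟨a, rfl⟩ := QuotientGroup.mk_surjective y
  obtain ⟨k, j, hj, hkj⟩ := Nat.exists_eq_pow_mul_and_not_dvd (orderOf_pos a).ne' q hq.ne_one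
  have hjc : Nat.Coprime j (q ^ e) := Nat.Coprime.pow_right _ (Nat.Coprime.symm (hq.coprime_iff_not_dvd.mpr hj))
  obtain ⟨i, hi⟩ := exists_pow_eq_self_of_coprime (x := (a : G ⧸ N)) (n := j) (hy ▸ hjc)
  set x := (a ^ j) ^ i with hxdef
  have hxy : (x : G ⧸ N) = (a : G ⧸ N) := by rw [hxdef]; push_cast; exact hi
  have hxo : x ^ q ^ k = 1 := by
    rw [hxdef, ← pow_mul, ← pow_mul, show j * (i * q ^ k) = q ^ k * j * i by ring, pow_mul, ← hkj,
      pow_orderOf_eq_one, one_pow]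
  obtain ⟨c, -, hc⟩ := (Nat.dvd_prime_pow hq).mp (orderOf_dvd_of_pow_eq_one hxo)
  rw [← hxy] at hg ⊢
  let S := (Subgroup.zpowers (x : G ⧸ N)).comap (QuotientGroup.mk' N)
  have hxS : x ∈ S := Subgroup.mem_zpowers _
  have hpx : IsPGroup q (Subgroup.zpowers (⟨x, hxS⟩ : S)) :=
    IsPGroup.of_card (n := c) (by rw [Nat.card_zpowers, Subgroup.orderOf_mk, hc])
  obtain ⟨Q, hQ⟩ := hpx.exists_le_sylow
  have hQeq : (Q : Subgroup S) = Subgroup.zpowers (⟨x, hxS⟩ : S) := by
    refine le_antisymm (fun z hz => ?_) hQ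
    obtain ⟨i, hi⟩ := Subgroup.mem_zpowers_iff.mp (show ((z : G) : G ⧸ N) ∈ Subgroup.zpowers (x : G ⧸ N) from z.2)
    have hzQ : (⟨x, hxS⟩ : S) ^ (-i) * z ∈ (Q : Subgroup S) :=
      Subgroup.mul_mem _ (Subgroup.zpow_mem _ (hQ (Subgroup.mem_zpowers _)) _) hz
    have hzN : x ^ (-i) * (z : G) ∈ N := by
      rw [← QuotientGroup.eq_one_iff, QuotientGroup.mk_mul, QuotientGroup.mk_zpow, zpow_neg, hi, inv_mul_cancel]
    obtain ⟨f, hf⟩ := IsPGroup.iff_orderOf.mp Q.2 ⟨_, hzQ⟩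
    rw [Subgroup.orderOf_mk, ← Subgroup.orderOf_coe] at hf
    have hd : orderOf (x ^ (-i) * (z : G)) ∣ Nat.card N := Subgroup.orderOf_dvd_natCard N hzN
    have hval : ((((⟨x, hxS⟩ : S) ^ (-i) * z) : S) : G) = x ^ (-i) * (z : G) := by simp
    rw [hval] at hf
    rw [hf] at hd
    have h1 : x ^ (-i) * (z : G) = 1 := by
      rcases Nat.eq_zero_or_pos f with rfl | hfpos
      · exact orderOf_eq_one_iff.mp (by simpa using hf)
      · exact absurd ((dvd_pow_self q hfpos.ne').trans hd) hqN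
    refine ⟨i, Subtype.ext ?_⟩
    rw [zpow_neg, inv_mul_eq_one] at h1
    simpa using h1
  have hgx : g * x * g⁻¹ ∈ S := by
    show ((g * x * g⁻¹ : G) : G ⧸ N) ∈ Subgroup.zpowers (x : G ⧸ N)
    push_cast; exact hg
  have hpx' : IsPGroup q (Subgroup.zpowers (⟨_, hgx⟩ : S)) := by
    refine IsPGroup.of_card (n := c) ?_
    rw [Nat.card_zpowers, Subgroup.orderOf_mk, ← hc]
    exact orderOf_injective (MulAut.conj g).toMonoidHom (MulAut.conj g).injective x
  obtain ⟨R, hR⟩ := hpx'.exists_le_sylow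
  obtain ⟨s, hs⟩ := MulAction.exists_smul_eq S Q R
  have hmem : (⟨_, hgx⟩ : S) ∈ (R : Subgroup S) := hR (Subgroup.mem_zpowers _)
  rw [← hs, Sylow.coe_subgroup_smul, hQeq] at hmem
  obtain ⟨w, hw, hwe⟩ := hmem
  obtain ⟨l, rfl⟩ := Subgroup.mem_zpowers_iff.mp hw
  have hwe' : (s : G) * x ^ l * (s : G)⁻¹ = g * x * g⁻¹ := by
    simpa using congrArg Subtype.val hwe
  have hsg : ((s : G)⁻¹ * g) * x * ((s : G)⁻¹ * g)⁻¹ ∈ Subgroup.zpowers x := by
    refine ⟨l, ?_⟩
    calc x ^ l = (s : G)⁻¹ * ((s : G) * x ^ l * (s : G)⁻¹) * (s : G) := by group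
      _ = (s : G)⁻¹ * (g * x * g⁻¹) * (s : G) := by rw [hwe']
      _ = _ := by group
  have hcx : ∀ r : ℕ, r.Prime → r ∣ orderOf x → r = q := fun r hr hd =>
    (Nat.prime_dvd_prime_iff_eq hr hq).mp (hr.dvd_of_dvd_pow (hc ▸ hd))
  have hcomm := Subgroup.mem_centralizer_singleton_iff.mp (hirr x hcx (normalizer_zpowers_mk hsg))
  have hcomm' := congrArg (QuotientGroup.mk' N) hcomm
  simp only [map_mul, map_inv, QuotientGroup.mk'_apply] at hcomm'
  obtain ⟨m, hm⟩ := Subgroup.mem_zpowers_iff.mp (show ((s : G) : G ⧸ N) ∈ Subgroup.zpowers (x : G ⧸ N) from s.2)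
  have c1 : Commute (((s : G) : G ⧸ N)⁻¹ * (g : G ⧸ N)) (x : G ⧸ N) := hcomm'
  have c2 : Commute ((s : G) : G ⧸ N) (x : G ⧸ N) := hm ▸ (Commute.refl _).zpow_left m
  have := c2.mul_left c1
  rwa [mul_inv_cancel_left] at this

/-- Let π be a set of primes and G a finite group in which N_G(⟨x⟩) = C_G(x) for every π-element x. If N is a normal subgroup of G whose order is divisible by no prime of π, then G/N has the same property: N_{G/N}(⟨y⟩) = C_{G/N}(y) for every π-element y of G/N. -/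
theorem result {G : Type*} [Group G] [Finite G] (π : Set ℕ)
    (hirr : ∀ x : G, (∀ r : ℕ, r.Prime → r ∣ orderOf x → r ∈ π) →
      Subgroup.normalizer ((Subgroup.zpowers x : Subgroup G) : Set G) ≤ Subgroup.centralizer {x})
    (N : Subgroup G) [N.Normal] (hN : ∀ r : ℕ, r.Prime → r ∣ Nat.card N → r ∉ π) :
    ∀ y : G ⧸ N, (∀ r : ℕ, r.Prime → r ∣ orderOf y → r ∈ π) →
      Subgroup.normalizer ((Subgroup.zpowers y : Subgroup (G ⧸ N)) : Set (G ⧸ N)) ≤ Subgroup.centralizer {y} := by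
  intro y hy g hg
  obtain ⟨g, rfl⟩ := QuotientGroup.mk_surjective g
  rw [Subgroup.mem_centralizer_singleton_iff]
  obtain ⟨n, hn⟩ := Subgroup.mem_zpowers_iff.mp ((Subgroup.mem_normalizer_iff.mp hg y).mp (Subgroup.mem_zpowers y))
  suffices h : ∀ m k : ℕ, orderOf y = m * k → Commute (g : G ⧸ N) (y ^ k) by
    have := h (orderOf y) 1 (by simp)
    rw [pow_one] at this; exact this.eq
  intro m
  induction m using Nat.recOnPosPrimePosCoprime with
  | zero => intro k hk; exact absurd (by simpa using hk) (orderOf_pos y).ne'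
  | one =>
    intro k hk
    rw [one_mul] at hk
    rw [← hk, pow_orderOf_eq_one]; exact Commute.one_right _
  | prime_pow q e hq hepos =>
    intro k hk
    haveI : Fact q.Prime := ⟨hq⟩
    have hqd : q ∣ orderOf y := hk ▸ (dvd_pow_self q (by omega)).trans (dvd_mul_right _ _)
    have hqπ : q ∈ π := hy q hq hqd
    have hord : orderOf (y ^ k) = q ^ e := by
      have hk0 : k ≠ 0 := by rintro rfl; simp [(orderOf_pos y).ne'] at hk
      rw [orderOf_pow' _ hk0, hk, Nat.gcd_mul_left_left, Nat.mul_div_cancel _ (Nat.pos_of_ne_zero hk0)]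
    refine commute_prime_power N (fun hd => hN q hq hd hqπ) (fun x hx => hirr x fun r hr hd => hx r hr hd ▸ hqπ)
      (y ^ k) e hord g ?_
    refine ⟨n, ?_⟩
    show (y ^ k) ^ n = _
    rw [← conj_pow, ← hn, ← zpow_natCast, ← zpow_natCast, ← zpow_mul, ← zpow_mul, mul_comm]
  | coprime a b ha hb hab iha ihb =>
    intro k hk
    have h1 : Commute (g : G ⧸ N) (y ^ (b * k)) := iha (b * k) (by rw [hk, mul_assoc])
    have h2 : Commute (g : G ⧸ N) (y ^ (a * k)) := ihb (a * k) (by rw [hk]; ring)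
    have : y ^ k = (y ^ (b * k)) ^ Nat.gcdB a b * (y ^ (a * k)) ^ Nat.gcdA a b := by
      rw [← zpow_natCast, ← zpow_natCast, ← zpow_natCast, ← zpow_mul, ← zpow_mul, ← zpow_add]
      congr 1
      have := Nat.gcd_eq_gcd_ab a b
      rw [hab.gcd_eq_one] at this
      push_cast at this ⊢
      linear_combination (k : ℤ) * this
    rw [this]
    exact (h1.zpow_right _).mul_right (h2.zpow_right _)

end Cfsg.Agent.S4032
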