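import Cfsg.Statements.S4034
import Cfsg.Agent.PCompl.ClassSize
-- import your own Cfsg.Agent.* helpers here

set_option autoImplicit false
open Cfsg

namespace Cfsg.Agent.S4034

/-- Let G be a finite group and p a prime. Every conjugacy class of p-regular elements of G (elements of order prime to p) has p-power size if and only if G has an abelian p-complement, i.e. an abelian subgroup of order prime to p and p-power index. -/
theorem result {G : Type*} [Group G] [Finite G] {p : ℕ} (hp : p.Prime) :
    (∀ x : G, (orderOf x).Coprime p → ∃ k : ℕ, (ConjClasses.mk x).carrier.ncard = p ^ k) ↔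
    (∃ H : Subgroup G, IsMulCommutative H ∧ ¬ p ∣ Nat.card H ∧ ∃ k : ℕ, H.index = p ^ k) := by
  constructor
  · intro h
    have hG : CfsgLib.PCompl.RegPow p G := fun x hx => by
      obtain ⟨k, hk⟩ := h x hx
      exact ⟨k, (CfsgLib.PCompl.carrier_ncard x).symm.trans hk⟩
    have hsolv := hG.isSolvable hp _ G rfl
    obtain ⟨H, hH⟩ := CfsgLib.PCompl.exists_isPCompl hp _ G rfl hsolv
    exact ⟨H, CfsgLib.PCompl.commutative_of_regPow hp _ G rfl hsolv hG H hH, hH.1, hH.2⟩
  · rintro ⟨H, hab, h1, h2⟩ x hx
    obtain ⟨k, hk⟩ := CfsgLib.PCompl.regPow_of_commutative_pCompl hp H hab ⟨h1, h2⟩ x hx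
    exact ⟨k, (CfsgLib.PCompl.carrier_ncard x).trans hk⟩

end Cfsg.Agent.S4034
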