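import Cfsg.Statements.S4035
-- no helper imports

set_option autoImplicit false
open Cfsg

namespace Cfsg.Agent.S4035

theorem ncard_carrier_eq_index {G : Type*} [Group G] [Finite G] (x : G) :
    (ConjClasses.mk x).carrier.ncard = (Subgroup.centralizer ({x} : Set G)).index := by
  rw [← ConjAct.orbit_eq_carrier_conjClasses, ← Nat.card_coe_set_eq,
    Nat.card_congr (MulAction.orbitEquivQuotientStabilizer (ConjAct G) x), ← Subgroup.index_eq_card,
    Subgroup.centralizer_eq_comap_stabilizer]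
  exact (Subgroup.index_comap_of_surjective (f := (ConjAct.toConjAct : G ≃* ConjAct G).toMonoidHom) _ ConjAct.toConjAct.surjective).symm

/-- Let G be a finite group and p a prime such that p divides the size of no conjugacy class of p-regular elements (elements of order prime to p). Then G is the internal direct product of a Sylow p-subgroup P and a normal subgroup H of order prime to p: P is normal, P ⊓ H = 1 and PH = G. -/
theorem result {G : Type*} [Group G] [Finite G] {p : ℕ} [Fact p.Prime]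
    (h : ∀ x : G, (orderOf x).Coprime p → ¬ p ∣ (ConjClasses.mk x).carrier.ncard) (P : Sylow p G) :
    (P : Subgroup G).Normal ∧ ∃ H : Subgroup G, H.Normal ∧ ¬ p ∣ Nat.card H ∧
      (P : Subgroup G) ⊓ H = ⊥ ∧ (P : Subgroup G) ⊔ H = ⊤ := by
  have hp := Fact.out (p := p.Prime)
  have hcent : ∀ a : G, (orderOf a).Coprime p → ∀ b : G, b * a = a * b → (∃ k, orderOf b = p ^ k) →
      ∃ R : Sylow p G, b ∈ R ∧ ∀ r ∈ R, r * a = a * r := by
    intro a ha b hab ⟨k, hk⟩
    let C := Subgroup.centralizer ({a} : Set G)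
    have hidx : ¬ p ∣ C.index := ncard_carrier_eq_index a ▸ h a ha
    obtain ⟨S⟩ : Nonempty (Sylow p C) := inferInstance
    have hbC : b ∈ C := Subgroup.mem_centralizer_singleton_iff.mpr hab
    have hbp : IsPGroup p (Subgroup.zpowers (⟨b, hbC⟩ : C)) := IsPGroup.of_card (n := k)
      (by rw [Nat.card_zpowers, Subgroup.orderOf_mk, hk])
    obtain ⟨T, hT⟩ := hbp.exists_le_sylow
    have hTp : IsPGroup p ((T : Subgroup C).map C.subtype) := T.2.map _
    obtain ⟨R, hR⟩ := hTp.exists_le_sylow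
    have heq : (T : Subgroup C).map C.subtype = (R : Subgroup G) := by
      apply Subgroup.eq_of_le_of_card_ge hR
      rw [Subgroup.card_map_of_injective C.subtype_injective, Sylow.card_eq_multiplicity, Sylow.card_eq_multiplicity,
        ← C.card_mul_index, Nat.factorization_mul Nat.card_pos.ne' C.index_ne_zero_of_finite, Finsupp.add_apply,
        Nat.factorization_eq_zero_of_not_dvd hidx, add_zero]
    refine ⟨R, ?_, ?_⟩
    · show b ∈ (R : Subgroup G)
      rw [← heq]; exact ⟨⟨b, hbC⟩, hT (Subgroup.mem_zpowers _), rfl⟩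
    · intro r hr
      have hr' : r ∈ (R : Subgroup G) := hr
      rw [← heq] at hr'
      obtain ⟨c, -, rfl⟩ := hr'
      exact Subgroup.mem_centralizer_singleton_iff.mp c.2
  have hfix : ∀ g : G, ∃ R : Sylow p G, g • R = R := by
    intro g
    obtain ⟨k, m, hm, hkm⟩ := Nat.exists_eq_pow_mul_and_not_dvd (orderOf_pos g).ne' p hp.ne_one
    have hco : Nat.Coprime (p ^ k) m := Nat.Coprime.pow_left _ (hp.coprime_iff_not_dvd.mpr hm)
    have hbez : g = g ^ ((p ^ k : ℕ) * Nat.gcdA (p ^ k) m) * g ^ ((m : ℕ) * Nat.gcdB (p ^ k) m) := by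
      rw [← zpow_add, ← Nat.gcd_eq_gcd_ab, hco.gcd_eq_one]; simp
    set a := g ^ (((p ^ k : ℕ) : ℤ) * Nat.gcdA (p ^ k) m) with had
    set b := g ^ (((m : ℕ) : ℤ) * Nat.gcdB (p ^ k) m) with hbd
    have hgo : g ^ (p ^ k * m) = 1 := hkm ▸ pow_orderOf_eq_one g
    have ha : orderOf a ∣ m := orderOf_dvd_of_pow_eq_one (by
      rw [had, ← zpow_natCast, ← zpow_mul]
      calc g ^ (((p ^ k : ℕ) : ℤ) * Nat.gcdA (p ^ k) m * (m : ℤ))
          = (g ^ (p ^ k * m)) ^ Nat.gcdA (p ^ k) m := by
            rw [← zpow_natCast, ← zpow_mul]; congr 1; push_cast; ring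
        _ = 1 := by rw [hgo, one_zpow])
    have hb : orderOf b ∣ p ^ k := orderOf_dvd_of_pow_eq_one (by
      rw [hbd, ← zpow_natCast, ← zpow_mul]
      calc g ^ (((m : ℕ) : ℤ) * Nat.gcdB (p ^ k) m * ((p ^ k : ℕ) : ℤ))
          = (g ^ (p ^ k * m)) ^ Nat.gcdB (p ^ k) m := by
            rw [← zpow_natCast, ← zpow_mul]; congr 1; push_cast; ring
        _ = 1 := by rw [hgo, one_zpow])
    obtain ⟨i, -, hi⟩ := (Nat.dvd_prime_pow hp).mp hb
    obtain ⟨R, hbR, hR⟩ := hcent a (Nat.Coprime.coprime_dvd_left ha (Nat.Coprime.symm (hp.coprime_iff_not_dvd.mpr hm)))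
      b (Commute.zpow_zpow (Commute.refl g) _ _).eq ⟨i, hi⟩
    refine ⟨R, Sylow.smul_eq_iff_mem_normalizer.mpr ?_⟩
    rw [hbez]
    refine Subgroup.mul_mem _ ?_ (Subgroup.le_normalizer hbR)
    show a ∈ Subgroup.normalizer ((R : Subgroup G) : Set G)
    rw [Subgroup.mem_normalizer_iff]
    intro r
    constructor
    · intro hr; rw [← hR r hr]; simpa using hr
    · intro hr
      have := hR _ hr
      have e : a * r * a⁻¹ = r := by
        have : a * r = a * (a * r * a⁻¹) := by rw [← this]; simp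
        exact (mul_left_cancel this).symm
      rwa [e] at hr
  have hone : Subsingleton (Sylow p G) := by
    classical
    haveI := Fintype.ofFinite G
    haveI := Fintype.ofFinite (Sylow p G)
    have hb := MulAction.sum_card_fixedBy_eq_card_orbits_mul_card_group G (Sylow p G)
    have h1 : Fintype.card (MulAction.orbitRel.Quotient G (Sylow p G)) = 1 :=
      Fintype.card_eq_one_iff.mpr ⟨⟦P⟧, fun y => Quotient.inductionOn' y fun R =>
        Quotient.sound' (MulAction.exists_smul_eq G P R)⟩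
    rw [h1, one_mul] at hb
    by_contra hns
    rw [not_subsingleton_iff_nontrivial] at hns
    have hlt : ∑ _a : G, 1 < ∑ a : G, Fintype.card (MulAction.fixedBy (Sylow p G) a) := by
      apply Finset.sum_lt_sum
      · intro g _
        obtain ⟨R, hR⟩ := hfix g
        exact Fintype.card_pos_iff.mpr ⟨⟨R, hR⟩⟩
      · refine ⟨1, Finset.mem_univ _, Fintype.one_lt_card_iff_nontrivial.mpr ?_⟩
        obtain ⟨A, B, hAB⟩ := hns
        exact ⟨⟨A, one_smul G A⟩, ⟨B, one_smul G B⟩, fun h => hAB (congrArg Subtype.val h)⟩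
    rw [hb] at hlt; simp at hlt
  have hPn : (P : Subgroup G).Normal := Sylow.normal_of_subsingleton P
  refine ⟨hPn, ?_⟩
  obtain ⟨H, hH⟩ := Subgroup.exists_right_complement'_of_coprime (P.card_coprime_index)
  have hHp : ¬ p ∣ Nat.card H := by
    rw [← hH.symm.index_eq_card]; exact P.not_dvd_index
  have hc : ∀ x ∈ H, ∀ r ∈ (P : Subgroup G), r * x = x * r := by
    intro x hx r hr
    obtain ⟨R, -, hR⟩ := hcent x (Nat.Coprime.coprime_dvd_left (Subgroup.orderOf_dvd_natCard H hx)
      (Nat.Coprime.symm (hp.coprime_iff_not_dvd.mpr hHp))) 1 (by simp) ⟨0, by simp⟩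
    rw [Subsingleton.elim P R] at hr
    exact hR r hr
  refine ⟨H, ?_, hHp, hH.isCompl.inf_eq_bot, hH.isCompl.sup_eq_top⟩
  rw [← Subgroup.normalizer_eq_top_iff, eq_top_iff, ← hH.isCompl.sup_eq_top, sup_le_iff]
  refine ⟨fun r hr => Subgroup.mem_normalizer_iff.mpr fun x => ⟨fun hx => ?_, fun hx => ?_⟩, Subgroup.le_normalizer⟩
  · rw [hc x hx r hr]; simpa using hx
  · have := hc _ hx r hr
    have e : r * x * r⁻¹ = x := by
      have h' : r * x = r * (r * x * r⁻¹) := by rw [this]; simp
      exact (mul_left_cancel h').symm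
    rwa [e] at hx

end Cfsg.Agent.S4035
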