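import Cfsg.Statements.S4036
-- no helper imports

set_option autoImplicit false
open Cfsg

namespace Cfsg.Agent.S4036

/-- Let P be a finite abelian p-group and K a group of automorphisms of P (a subgroup of Aut P) whose order is divisible by p. If all non-identity elements of K have the same fixed-point subgroup on P, then K has no non-trivial normal subgroup of order prime to p. -/
theorem result {P : Type*} [CommGroup P] [Finite P] {p : ℕ}
    [Fact p.Prime] (hP : IsPGroup p P) (K : Subgroup (MulAut P)) (hK : p ∣ Nat.card K)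
    (hfix : ∀ x y : MulAut P, x ∈ K → y ∈ K → x ≠ 1 → y ≠ 1 → ∀ v : P, x v = v ↔ y v = v) :
    ∀ N : Subgroup ↥K, N.Normal → ¬ p ∣ Nat.card N → N = ⊥ := by
  intro N hN hpN
  haveI : Fintype N := Fintype.ofFinite N
  by_contra hne
  obtain ⟨⟨n₀, hn₀⟩, hn₀1⟩ := (N.ne_bot_iff_exists_ne_one).mp hne
  have hn₀' : ((n₀ : ↥K) : MulAut P) ≠ 1 := by
    intro h; exact hn₀1 (Subtype.ext (Subtype.ext h))
  obtain ⟨v, hv⟩ : ∃ v, (n₀ : MulAut P) v ≠ v := by
    by_contra h; push_neg at h; exact hn₀' (MulEquiv.ext h)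
  obtain ⟨x, hx⟩ := exists_prime_orderOf_dvd_card' p hK
  let T : P →* P :=
    { toFun := fun w => ∏ n : N, ((n : ↥K) : MulAut P) w
      map_one' := by simp
      map_mul' := fun a b => by simp [Finset.prod_mul_distrib] }
  have hTinv : ∀ w, T ((n₀ : MulAut P) w) = T w := by
    intro w
    exact Fintype.prod_equiv (Equiv.mulRight (⟨n₀, hn₀⟩ : N))
      (fun n : N => ((n : ↥K) : MulAut P) ((n₀ : MulAut P) w)) (fun n : N => ((n : ↥K) : MulAut P) w)
      (fun n => by simp [MulAut.mul_apply])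
  have hTx : ∀ w, T ((x : MulAut P) w) = (x : MulAut P) (T w) := by
    intro w
    let σ : N ≃ N :=
      { toFun := fun n => ⟨x⁻¹ * n * x, by simpa using hN.conj_mem n n.2 x⁻¹⟩
        invFun := fun n => ⟨x * n * x⁻¹, hN.conj_mem n n.2 x⟩
        left_inv := fun n => by ext; simp [mul_assoc]
        right_inv := fun n => by ext; simp [mul_assoc] }
    simp only [T, MonoidHom.coe_mk, OneHom.coe_mk, map_prod]
    refine Fintype.prod_equiv σ _ _ (fun n => ?_)
    simp [σ, MulAut.mul_apply]
  let w : P := v⁻¹ * (n₀ : MulAut P) v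
  have hw1 : w ≠ 1 := fun h => hv (inv_mul_eq_one.mp h).symm
  have hwk : w ∈ T.ker := by
    rw [MonoidHom.mem_ker, map_mul, map_inv, hTinv, inv_mul_cancel]
  have hmem : ∀ u : P, u ∈ T.ker ↔ (x : MulAut P) u ∈ T.ker := by
    intro u; simp [MonoidHom.mem_ker, hTx]
  haveI : Fintype T.ker := Fintype.ofFinite _
  let σ : Equiv.Perm T.ker := (x : MulAut P).toEquiv.subtypeEquiv hmem
  have hσ : σ ^ p ^ 1 = 1 := by
    have hval : ∀ (k : ℕ) (u : T.ker), ((σ ^ k) u : P) = ((x : MulAut P) ^ k) u := by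
      intro k; induction k with
      | zero => intro u; simp
      | succ k ih => intro u; rw [pow_succ', pow_succ']; simp [MulAut.mul_apply, ← ih, σ]
    refine Equiv.ext fun u => Subtype.ext ?_
    rw [hval, ← Subgroup.coe_pow, pow_one, ← hx, pow_orderOf_eq_one]
    simp
  have hdiv : p ∣ Fintype.card T.ker := by
    rw [← Nat.card_eq_fintype_card]
    haveI : Nontrivial T.ker := ⟨⟨⟨w, hwk⟩, 1, fun h => hw1 (congrArg Subtype.val h)⟩⟩
    obtain ⟨k, hk0, hk⟩ := (hP.to_subgroup T.ker).nontrivial_iff_card.mp inferInstance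
    exact hk ▸ dvd_pow_self p (by omega)
  obtain ⟨u, hu, hu1⟩ := Equiv.Perm.exists_fixed_point_of_prime' hdiv hσ (a := 1)
    (Subtype.ext (by simp [σ]))
  have hxu : (x : MulAut P) u = u := congrArg Subtype.val hu
  have hall : ∀ n : N, ((n : ↥K) : MulAut P) u = u := by
    intro n
    by_cases hn1 : ((n : ↥K) : MulAut P) = 1
    · rw [hn1]; rfl
    · have hx1 : (x : MulAut P) ≠ 1 := by
        intro h
        have : x = 1 := Subtype.ext h
        rw [this, orderOf_one] at hx
        exact (Fact.out (p := p.Prime)).ne_one hx.symm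
      exact (hfix _ _ x.2 (n : ↥K).2 hx1 hn1 _).mp hxu
  have hu2 : (u : P) ^ Nat.card N = 1 := by
    have := u.2
    rw [MonoidHom.mem_ker] at this
    simpa [T, hall, Finset.prod_const, Nat.card_eq_fintype_card] using this
  obtain ⟨k, hk⟩ := IsPGroup.iff_orderOf.mp hP (u : P)
  have hd := orderOf_dvd_of_pow_eq_one hu2
  rw [hk] at hd
  rcases Nat.eq_zero_or_pos k with rfl | hkpos
  · exact hu1 (Subtype.ext (orderOf_eq_one_iff.mp (by simpa using hk)))
  · exact hpN ((dvd_pow_self p hkpos.ne').trans hd)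

end Cfsg.Agent.S4036
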