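import Cfsg.Statements.S4039
import Mathlib
import Cfsg.Agent.Alperin.Chain
import Cfsg.Agent.Transfer.Frobenius
import Cfsg.Agent.Coprime.Sylow
import Cfsg.Agent.FPFNilpotent.Basic

set_option autoImplicit false
open Cfsg

namespace Cfsg.Agent.S4039

universe u

theorem aux : ∀ (n : ℕ) (G : Type u) [Group G] [Finite G], Nat.card G = n →
    ∀ M : Subgroup G, IsCoatom M → Group.IsNilpotent M → (∀ a b c : M, Commute (a * b * a⁻¹ * b⁻¹) c) → Group.IsSolvable G := by
  intro n
  induction n using Nat.strong_induction_on with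
  | _ n ih =>
  intro G _ _ hG M hmax hnil hcl
  haveI := hnil
  by_cases hcore : ∃ N : Subgroup G, N.Normal ∧ N ≠ ⊥ ∧ N ≤ M
  · obtain ⟨N, hN, hN1, hNM⟩ := hcore
    haveI : Group.IsSolvable N := Group.isSolvable_of_isSolvable_injective (Subgroup.inclusion_injective hNM)
    haveI : Group.IsSolvable (G ⧸ N) := by
      set π := QuotientGroup.mk' N
      have hcm : (M.map π).comap π = M := by
        rw [Subgroup.comap_map_eq, QuotientGroup.ker_mk', sup_eq_left.mpr hNM]
      refine ih (Nat.card (G ⧸ N)) ?_ (G ⧸ N) rfl (M.map π) ⟨?_, ?_⟩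
        (Group.nilpotent_of_surjective (π.subgroupMap M) (π.subgroupMap_surjective M))
        ?_
      · rw [← hG, Subgroup.card_eq_card_quotient_mul_card_subgroup N]
        exact lt_mul_of_one_lt_right Nat.card_pos ((Subgroup.one_lt_card_iff_ne_bot N).2 hN1)
      · intro h
        rw [h, Subgroup.comap_top] at hcm
        exact hmax.1 hcm.symm
      · intro L hL
        have hlt : M < L.comap π := by
          rw [← hcm]
          exact Subgroup.comap_lt_comap_of_surjective (QuotientGroup.mk'_surjective N) |>.mpr hL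
        have := hmax.2 _ hlt
        rw [← Subgroup.map_comap_eq_self_of_surjective (QuotientGroup.mk'_surjective N) L, this,
          Subgroup.map_top_of_surjective _ (QuotientGroup.mk'_surjective N)]
      · intro a b c
        obtain ⟨a', rfl⟩ := π.subgroupMap_surjective M a
        obtain ⟨b', rfl⟩ := π.subgroupMap_surjective M b
        obtain ⟨c', rfl⟩ := π.subgroupMap_surjective M c
        have h := (hcl a' b' c').map (π.subgroupMap M)
        simpa only [map_mul, map_inv] using h
    exact (Group.isSolvable_iff_subgroup_quotient N).mpr ⟨‹_›, ‹_›⟩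
  push_neg at hcore
  by_cases hM1 : M = ⊥
  · subst hM1
    by_cases h : ∀ x : G, x = 1
    · haveI : Subsingleton G := ⟨fun a b => by rw [h a, h b]⟩
      infer_instance
    · push_neg at h
      obtain ⟨x, hx⟩ := h
      have : Subgroup.zpowers x = ⊤ := hmax.2 _ (bot_lt_iff_ne_bot.mpr (by simpa using hx))
      exact Group.isSolvable_of_comm fun a b => by
        have ha : a ∈ Subgroup.zpowers x := this ▸ Subgroup.mem_top a
        have hb : b ∈ Subgroup.zpowers x := this ▸ Subgroup.mem_top b
        obtain ⟨i, rfl⟩ := ha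
        obtain ⟨j, rfl⟩ := hb
        exact ((Commute.refl x).zpow_zpow i j).eq
  have hself : ∀ Q : Subgroup G, Q ≤ M → Q ≠ ⊥ → M ≤ Subgroup.normalizer (Q : Set G) →
      Subgroup.normalizer (Q : Set G) = M := by
    intro Q hQM hQ hle
    by_contra hne
    have := hmax.2 _ (lt_of_le_of_ne hle (Ne.symm hne))
    exact hcore Q (Subgroup.normalizer_eq_top_iff.mp this) hQ hQM
  have hloc : ∀ p, p.Prime → p ∣ Nat.card M →
      Cfsg.HasNormalPComplement p G ∧ ¬ p ∣ M.index := by
    intro p hp hpM
    haveI := Fact.mk hp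
    let T : Sylow p M := default
    haveI hTn : (T : Subgroup M).Normal := inferInstance
    set Q := (T : Subgroup M).map M.subtype
    have hQM : Q ≤ M := Subgroup.map_subtype_le _
    have hQc : Nat.card Q = p ^ (Nat.card M).factorization p := by
      rw [Subgroup.card_map_of_injective M.subtype_injective, T.card_eq_multiplicity]
    have hQ1 : Q ≠ ⊥ := by
      intro h
      rw [h, Subgroup.card_bot] at hQc
      exact (Nat.one_lt_pow (hp.factorization_pos_of_dvd Nat.card_pos.ne' hpM).ne' hp.one_lt).ne hQc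
    have hMN : M ≤ Subgroup.normalizer (Q : Set G) := fun m hm => by
      rw [Subgroup.mem_normalizer_iff]
      intro x
      constructor
      · rintro ⟨y, hy, rfl⟩
        exact ⟨⟨m, hm⟩ * y * ⟨m, hm⟩⁻¹, hTn.conj_mem y hy _, rfl⟩
      · rintro ⟨y, hy, hyx⟩
        refine ⟨⟨m, hm⟩⁻¹ * y * ⟨m, hm⟩, (by have h := hTn.conj_mem y hy (⟨m, hm⟩⁻¹); rwa [inv_inv] at h), ?_⟩
        show m⁻¹ * M.subtype y * m = x
        rw [hyx]; group
    have hNQ : Subgroup.normalizer (Q : Set G) = M := hself Q hQM hQ1 hMN
    have hQp : IsPGroup p Q := T.2.map _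
    obtain ⟨S, hS⟩ := hQp.exists_le_sylow
    have hSQ : (S : Subgroup G) = Q := by
      by_contra hne
      have hlt : Q.subgroupOf (S : Subgroup G) < ⊤ := by
        rw [lt_top_iff_ne_top, Ne, Subgroup.subgroupOf_eq_top]
        exact fun h => hne (le_antisymm h hS)
      haveI := S.2.isNilpotent
      obtain ⟨x, hx, hxQ⟩ := SetLike.exists_of_lt (Group.normalizerCondition_of_isNilpotent (Q.subgroupOf (S : Subgroup G)) hlt)
      have hxN : (x : G) ∈ Subgroup.normalizer (Q : Set G) := by
        rw [Subgroup.mem_normalizer_iff] at hx ⊢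
        intro y
        constructor
        · intro hy
          exact (hx ⟨y, hS hy⟩).mp hy
        · intro hy
          have hy2 : y ∈ (S : Subgroup G) := by
            have := (S : Subgroup G).mul_mem ((S : Subgroup G).mul_mem ((S : Subgroup G).inv_mem x.2) (hS hy)) x.2
            simpa [mul_assoc] using this
          exact (hx ⟨y, hy2⟩).mpr hy
      rw [hNQ] at hxN
      -- a `p`-element of `M` lies in its normal Sylow subgroup
      have hzp : IsPGroup p (Subgroup.zpowers (⟨(x : G), hxN⟩ : M)) := by
        obtain ⟨k, hk⟩ := S.2 x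
        rintro ⟨_, i, rfl⟩
        refine ⟨k, Subtype.ext (Subtype.ext ?_)⟩
        have hk' : (x : G) ^ p ^ k = 1 := congrArg Subtype.val hk
        show ((x : G) ^ i) ^ p ^ k = 1
        rw [← zpow_natCast, ← zpow_mul, mul_comm, zpow_mul, zpow_natCast, hk', one_zpow]
      obtain ⟨T', hT'⟩ := hzp.exists_le_sylow
      haveI := Sylow.unique_of_normal T hTn
      have : T' = T := Subsingleton.elim T' T
      exact hxQ (show (x : G) ∈ Q from ⟨⟨(x : G), hxN⟩, this ▸ hT' (Subgroup.mem_zpowers _), rfl⟩)
    refine ⟨?_, ?_⟩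
    · have hSM : (S : Subgroup G) ≤ M := hSQ ▸ hQM
      have hSp : IsPGroup p (S : Subgroup G) := S.2
      -- elements of `M` act on `S` as elements of `S`
      have hact : ∀ m ∈ M, ∃ s ∈ (S : Subgroup G), ∀ y ∈ (S : Subgroup G), m * y * m⁻¹ = s * y * s⁻¹ := by
        intro m hm
        obtain ⟨a, b, -, -, hab, ⟨k, hak⟩, hb⟩ :=
          CfsgLib.Transfer.exists_pPart_decomposition (p := p) (⟨m, hm⟩ : M)
        have haT : a ∈ (T : Subgroup M) := by
          obtain ⟨T', hT'⟩ := (IsPGroup.of_card_dvd_pow (show Nat.card (Subgroup.zpowers a) ∣ p ^ k by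
            rw [Nat.card_zpowers]; exact hak) : IsPGroup p (Subgroup.zpowers a)).exists_le_sylow
          haveI := Sylow.unique_of_normal T hTn
          exact (Subsingleton.elim T' T) ▸ hT' (Subgroup.mem_zpowers a)
        refine ⟨(a : G), hSQ ▸ ⟨a, haT, rfl⟩, fun y hy => ?_⟩
        obtain ⟨y', hy', rfl⟩ := (hSQ ▸ hy : y ∈ Q)
        have hby : Commute b y' := CfsgLib.CharPClimb.commute_of_nilpotent T.2 hTn hb y' hy'
        have hbyG : (b : G) * (y' : G) = (y' : G) * b := congrArg Subtype.val hby.eq
        rw [show m = (a : G) * b from congrArg Subtype.val hab]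
        calc (a : G) * b * y' * ((a : G) * b)⁻¹ = (a : G) * ((b : G) * y') * ((a : G) * b)⁻¹ := by simp only [mul_assoc]
          _ = (a : G) * ((y' : G) * b) * ((a : G) * b)⁻¹ := by rw [hbyG]
          _ = _ := by rw [Subgroup.coe_subtype]; group
      -- the normalisers of the centric subgroups of `S` lie in `M`
      have hsteps : ∀ D x, CfsgLib.Alperin.IsRadicalStep S D x → x ∈ M := by
        rintro D x ⟨⟨R, hRD, -, -, hxN, -⟩, hrad⟩
        have hDS : D ≤ (S : Subgroup G) := hRD ▸ inf_le_left
        have hcen : (S : Subgroup G) ⊓ Subgroup.centralizer (D : Set G) ≤ D := by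
          refine hrad _ le_rfl ?_ ?_ le_sup_left
          · intro g hg
            rw [Subgroup.mem_normalizer_iff]
            intro h
            constructor
            · intro hh
              rw [← Subgroup.mem_centralizer_iff.mp hg h hh, mul_inv_cancel_right]; exact hh
            · intro hh
              have := Subgroup.mem_centralizer_iff.mp hg _ hh
              have h2 : h = g * h * g⁻¹ := by
                apply mul_left_cancel (a := g)
                rw [← this]; group
              rwa [h2]
          · intro n hn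
            rw [Subgroup.mem_normalizer_iff_map_conj_eq]
            refine Subgroup.eq_of_le_of_card_ge ?_ (by rw [Subgroup.card_map_of_injective (MulAut.conj n).injective])
            rintro _ ⟨g, hg, rfl⟩
            refine Subgroup.mem_centralizer_iff.mpr fun h hh => ?_
            have := Subgroup.mem_centralizer_iff.mp hg _ ((Subgroup.mem_normalizer_iff''.mp hn h).mp hh)
            show h * (n * g * n⁻¹) = n * g * n⁻¹ * h
            calc h * (n * g * n⁻¹) = n * (n⁻¹ * h * n * g) * n⁻¹ := by group
              _ = n * (g * (n⁻¹ * h * n)) * n⁻¹ := by rw [this]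
              _ = _ := by group
        have hconj : ∀ s ∈ (S : Subgroup G), ∀ d ∈ D, s * d * s⁻¹ ∈ D := by
          intro s hs d hd
          have hc : s * d * s⁻¹ * d⁻¹ ∈ (S : Subgroup G) ⊓ Subgroup.centralizer (D : Set G) := by
            refine ⟨Subgroup.mul_mem _ (Subgroup.mul_mem _ (Subgroup.mul_mem _ hs (hDS hd)) (Subgroup.inv_mem _ hs)) (Subgroup.inv_mem _ (hDS hd)), ?_⟩
            refine Subgroup.mem_centralizer_iff.mpr fun e he => ?_
            exact (congrArg Subtype.val (hcl ⟨s, hSM hs⟩ ⟨d, hSM (hDS hd)⟩ ⟨e, hSM (hDS he)⟩).eq).symm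
          simpa using D.mul_mem (hcen hc) hd
        have hMD : M ≤ Subgroup.normalizer (D : Set G) := by
          intro m hm
          obtain ⟨s, hs, hms⟩ := hact m hm
          rw [Subgroup.mem_normalizer_iff_map_conj_eq]
          refine Subgroup.eq_of_le_of_card_ge ?_ (by rw [Subgroup.card_map_of_injective (MulAut.conj m).injective])
          rintro _ ⟨d, hd, rfl⟩
          show m * d * m⁻¹ ∈ D
          rw [hms d (hDS hd)]
          exact hconj s hs d hd
        have hD1 : D ≠ ⊥ := by
          intro h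
          apply hQ1
          rw [← hSQ, eq_bot_iff, ← h]
          intro y hy
          exact hcen ⟨hy, Subgroup.mem_centralizer_iff.mpr fun e he => by
            rw [Subgroup.mem_bot.mp ((congrArg (fun L : Subgroup G => e ∈ L) h).mp he)]; simp⟩
        rw [← hself D (hDS.trans hSM) hD1 hMD]
        exact hxN
      have hchain : ∀ A g, CfsgLib.Alperin.Chain (CfsgLib.Alperin.IsRadicalStep S) A g → g ∈ M := by
        intro A g h
        induction h with
        | nil => exact M.one_mem
        | cons A D x g hD hA _ ih => exact M.mul_mem (hsteps D x hD) ih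
      refine CfsgLib.Transfer.hasNormalPComplement_of_pLocal_centralizes ?_
      -- for subgroups of `S` first
      have hSub : ∀ U : Subgroup G, U ≤ (S : Subgroup G) → ∀ g ∈ Subgroup.normalizer (U : Set G),
          (orderOf g).Coprime p → g ∈ Subgroup.centralizer (U : Set G) := by
        intro U hU g hg hgc
        obtain ⟨c, hc, g', hg', hgg⟩ := CfsgLib.Alperin.exists_radical_chain S (A := (U : Set G)) (g := g⁻¹)
          hU (by
            rintro _ ⟨u, hu, rfl⟩
            show g⁻¹⁻¹ * u * g⁻¹ ∈ _
            rw [inv_inv]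
            exact hU ((Subgroup.mem_normalizer_iff.mp hg u).mp hu))
        obtain ⟨s, hs, hgs⟩ := hact g'⁻¹ (M.inv_mem (hchain _ _ hg'))
        have h1 : ∀ u ∈ U, g * u * g⁻¹ = s * u * s⁻¹ := by
          intro u hu
          rw [← hgs u (hU hu)]
          have hg1 : g = g'⁻¹ * c⁻¹ := by rw [← inv_inv g, hgg, mul_inv_rev]
          have := Subgroup.mem_centralizer_iff.mp hc u hu
          calc g * u * g⁻¹ = g'⁻¹ * (c⁻¹ * (u * c)) * g' := by rw [hg1]; group
            _ = g'⁻¹ * (c⁻¹ * (c * u)) * g' := by rw [this]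
            _ = _ := by group
        have h2 : ∀ (k : ℕ), ∀ u ∈ U, g ^ k * u * (g ^ k)⁻¹ = s ^ k * u * (s ^ k)⁻¹ := by
          intro k
          induction k with
          | zero => intro u _; simp
          | succ k ihk =>
            intro u hu
            calc g ^ (k + 1) * u * (g ^ (k + 1))⁻¹ = g ^ k * (g * u * g⁻¹) * (g ^ k)⁻¹ := by rw [pow_succ]; group
              _ = s ^ k * (g * u * g⁻¹) * (s ^ k)⁻¹ := ihk _ ((Subgroup.mem_normalizer_iff.mp hg u).mp hu)
              _ = s ^ k * (s * u * s⁻¹) * (s ^ k)⁻¹ := by rw [h1 u hu]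
              _ = _ := by rw [pow_succ]; group
        obtain ⟨k, hk⟩ := hSp ⟨s, hs⟩
        have hk' : s ^ p ^ k = 1 := congrArg Subtype.val hk
        have hgk : g ^ p ^ k ∈ Subgroup.centralizer (U : Set G) := by
          refine Subgroup.mem_centralizer_iff.mpr fun u hu => ?_
          have := h2 (p ^ k) u hu
          rw [hk', one_mul, inv_one, mul_one] at this
          exact (mul_inv_eq_iff_eq_mul.mp this).symm
        obtain ⟨j, hj⟩ := exists_pow_eq_self_of_coprime (x := g) (Nat.Coprime.pow_left k hgc.symm)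
        rw [← hj]
        exact Subgroup.pow_mem _ hgk j
      intro U hUp g hg hgc
      obtain ⟨R, hR⟩ := hUp.exists_le_sylow
      obtain ⟨x, hx⟩ := MulAction.exists_smul_eq G R S
      have hU' : U.map (MulAut.conj x).toMonoidHom ≤ (S : Subgroup G) := by
        rw [← hx]; exact Subgroup.map_mono hR
      have h := hSub _ hU' (x * g * x⁻¹) (Subgroup.le_normalizer_map _ (Subgroup.mem_map.mpr ⟨g, hg, rfl⟩))
        (by rwa [show orderOf (x * g * x⁻¹) = orderOf g from MulEquiv.orderOf_eq (MulAut.conj x) g])
      refine Subgroup.mem_centralizer_iff.mpr fun u hu => ?_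
      have h2 : x * u * x⁻¹ * (x * g * x⁻¹) = x * g * x⁻¹ * (x * u * x⁻¹) :=
        Subgroup.mem_centralizer_iff.mp h _ ⟨u, hu, rfl⟩
      calc u * g = x⁻¹ * (x * u * x⁻¹ * (x * g * x⁻¹)) * x := by group
        _ = x⁻¹ * (x * g * x⁻¹ * (x * u * x⁻¹)) * x := by rw [h2]
        _ = g * u := by group
    · intro hdvd
      have h1 : Nat.card (S : Subgroup G) = p ^ (Nat.card G).factorization p := S.card_eq_multiplicity
      rw [hSQ, hQc, ← M.card_mul_index, Nat.factorization_mul Nat.card_pos.ne' Subgroup.index_ne_zero_of_finite,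
        Finsupp.add_apply] at h1
      have := Nat.pow_right_injective hp.two_le h1
      have := hp.factorization_pos_of_dvd Subgroup.index_ne_zero_of_finite hdvd
      omega
  -- the intersection of the normal complements
  set π := (Nat.card M).primeFactors
  let K : Subgroup G := ⨅ p ∈ π, Cfsg.pResidual p G
  have hKmem : ∀ g, g ∈ K ↔ ∀ p ∈ π, (orderOf g).Coprime p := by
    intro g
    simp only [K, Subgroup.mem_iInf]
    refine forall₂_congr fun p hp => ?_
    obtain ⟨hpp, hpd, -⟩ := Nat.mem_primeFactors.mp hp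
    haveI := Fact.mk hpp
    exact CfsgLib.Transfer.mem_pResidual_iff (hloc p hpp hpd).1 g
  haveI hKn : K.Normal := ⟨fun k hk g => (hKmem _).mpr fun p hp => by
    have := (hKmem k).mp hk p hp
    rwa [show orderOf (g * k * g⁻¹) = orderOf k from MulEquiv.orderOf_eq (MulAut.conj g) k]⟩
  have hcop : (Nat.card M).Coprime (Nat.card K) := by
    refine Nat.coprime_of_dvd fun q hq hqM hqK => ?_
    haveI := Fact.mk hq
    obtain ⟨k, hk⟩ := exists_prime_orderOf_dvd_card' q hqK
    have h := (hKmem (k : G)).mp k.2 q (Nat.mem_primeFactors.mpr ⟨hq, hqM, Nat.card_pos.ne'⟩)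
    rw [Subgroup.orderOf_coe, hk] at h
    exact hq.one_lt.ne' (Nat.Coprime.eq_one_of_dvd h dvd_rfl)
  have hMK : M ≤ Subgroup.normalizer (K : Set G) := Subgroup.le_normalizer_of_normal
  have hMsol : Group.IsSolvable M := inferInstance
  by_cases hKM : K ≤ M
  · -- then `G / K` is a `π`-group, so `M = G`
    exfalso
    have hKbot : K = ⊥ := by
      by_contra hne
      exact hcore K hKn hne hKM
    have hall : M.index = 1 := by
      by_contra hne
      obtain ⟨q, hq, hqd⟩ := Nat.exists_prime_and_dvd hne
      haveI := Fact.mk hq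
      obtain ⟨x, hx⟩ := exists_prime_orderOf_dvd_card' (G := G) q (hqd.trans M.index_dvd_card)
      have hxK : x ∈ K := (hKmem x).mpr fun p hp => by
        obtain ⟨hpp, hpd, -⟩ := Nat.mem_primeFactors.mp hp
        rw [hx]
        exact (Nat.coprime_primes hq hpp).mpr fun h => (hloc p hpp hpd).2 (h ▸ hqd)
      rw [hKbot, Subgroup.mem_bot] at hxK
      rw [hxK, orderOf_one] at hx
      exact hq.one_lt.ne hx
    exact hmax.1 (Subgroup.index_eq_one.mp hall)
  · -- `M` normalises a Sylow subgroup of `K`
    have hqgroup : ∀ q : ℕ, q.Prime → q ∣ Nat.card K → ∃ Q : Subgroup G, Q ≠ ⊥ ∧ IsPGroup q Q ∧ M ⊔ Q = ⊤ ∧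
        M ≤ Subgroup.normalizer (Q : Set G) := by
      intro q hq hqK
      haveI := Fact.mk hq
      obtain ⟨P, hP⟩ := CfsgLib.Coprime.exists_invariant_sylow (p := q) hMK hcop (Or.inl hMsol)
      have hQ1 : (P : Subgroup K).map K.subtype ≠ ⊥ := fun h => P.ne_bot_of_dvd_card hqK
        ((Subgroup.map_eq_bot_iff_of_injective _ K.subtype_injective).mp h)
      refine ⟨_, hQ1, P.2.map _, hmax.2 _ (lt_of_le_of_ne le_sup_left fun h => ?_), hP⟩
      refine hQ1 (eq_bot_iff.mpr fun x hx => ?_)
      have hxM : x ∈ M := h ▸ Subgroup.mem_sup_right hx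
      exact (Subgroup.inf_eq_bot_of_coprime hcop).le ⟨hxM, Subgroup.map_subtype_le _ hx⟩
    have hKbot : K ≠ ⊥ := fun h => hKM (h ▸ bot_le)
    obtain ⟨q, hq, hqK⟩ := Nat.exists_prime_and_dvd ((Subgroup.one_lt_card_iff_ne_bot K).mpr hKbot).ne'
    haveI := Fact.mk hq
    obtain ⟨Q, hQ1, hQp, hsup, hnorm⟩ := hqgroup q hq hqK
    haveI : Q.Normal := Subgroup.normalizer_eq_top_iff.mp
      (eq_top_iff.mpr (hsup ▸ sup_le hnorm Subgroup.le_normalizer))
    haveI : Group.IsSolvable Q := by
      haveI := hQp.isNilpotent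
      infer_instance
    haveI : Group.IsSolvable (G ⧸ Q) := by
      refine Group.isSolvable_of_surjective (f := (QuotientGroup.mk' Q).comp M.subtype) ?_
      intro x
      obtain ⟨g, rfl⟩ := QuotientGroup.mk'_surjective Q x
      have hg : g ∈ M ⊔ Q := hsup ▸ Subgroup.mem_top g
      rw [Subgroup.mem_sup_of_normal_right] at hg
      obtain ⟨a, ha, b, hb, rfl⟩ := hg
      exact ⟨⟨a, ha⟩, by
        show (a : G ⧸ Q) = ((a * b : G) : G ⧸ Q)
        rw [QuotientGroup.mk_mul, (QuotientGroup.eq_one_iff b).mpr hb, mul_one]⟩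
    exact (Group.isSolvable_iff_subgroup_quotient Q).mpr ⟨‹_›, ‹_›⟩

/-- A finite group possessing a maximal subgroup that is nilpotent of class at most 2 is solvable. -/
theorem result {G : Type*} [Group G] [Finite G]
    (M : Subgroup G) (hmax : IsCoatom M) (hnil : Group.IsNilpotent M) (hcl : Group.nilpotencyClass ↥M ≤ 2) :
    Group.IsSolvable G := by
  refine aux _ G rfl M hmax hnil ?_
  intro a b c
  haveI := hnil
  have h2 : Subgroup.upperCentralSeries M 2 = ⊤ :=
    Subgroup.upperCentralSeries_eq_top_iff_nilpotencyClass_le.mpr hcl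
  have ha : a ∈ Subgroup.upperCentralSeries M 2 := h2 ▸ Subgroup.mem_top a
  rw [Subgroup.mem_upperCentralSeries_succ_iff] at ha
  have := ha b
  rw [Subgroup.upperCentralSeries_one, commutatorElement_def] at this
  exact (Subgroup.mem_center_iff.mp this c).symm

end Cfsg.Agent.S4039
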