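import Cfsg.Statements.S4043
import Mathlib
import Cfsg.Agent.Eq.Def_Transfer
import Cfsg.Agent.Solvable.SchurZassenhaus

set_option autoImplicit false
open Cfsg

namespace Cfsg.Agent.S4043

theorem comp_data {G : Type*} [Group G] [Finite G] {p : ℕ} [Fact p.Prime] (N : Subgroup G) [N.Normal]
    (A : Subgroup G) (hA : A.IsComplement' N) (hAp : Cfsg.HasNormalPComplement p A) :
    ∃ K P : Subgroup G, K ≤ A ∧ P ≤ A ∧ IsPGroup p P ∧ ¬ p ∣ Nat.card K ∧ K ⊔ P = A ∧ (K ⊔ N).Normal ∧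
      (∀ a ∈ A, a ∈ Subgroup.normalizer (K : Set G)) ∧ (∃ k : ℕ, (K ⊔ N).index ∣ p ^ k) := by
  obtain ⟨P, K, hK, hKP⟩ := hAp
  refine ⟨K.map A.subtype, (P : Subgroup A).map A.subtype, Subgroup.map_subtype_le _, Subgroup.map_subtype_le _,
    P.2.map _, ?_, ?_, ?_, ?_, ?_⟩
  · rw [Subgroup.card_subtype, ← hKP.index_eq_card]; exact P.not_dvd_index
  · rw [← Subgroup.map_sup, hKP.isCompl.sup_eq_top, ← MonoidHom.range_eq_map, Subgroup.range_subtype]
  rotate_left
  · intro a ha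
    rw [Subgroup.mem_normalizer_iff]
    intro x
    constructor
    · rintro ⟨y, hy, rfl⟩
      exact ⟨⟨a, ha⟩ * y * ⟨a, ha⟩⁻¹, hK.conj_mem y hy _, rfl⟩
    · rintro ⟨y, hy, hyx⟩
      refine ⟨⟨a, ha⟩⁻¹ * y * ⟨a, ha⟩, by simpa using hK.conj_mem y hy ⟨a, ha⟩⁻¹, ?_⟩
      simp only [map_mul, map_inv, hyx, Subgroup.coe_subtype]
      group
  · obtain ⟨k, hk⟩ := IsPGroup.iff_card.mp P.2
    refine ⟨k, ?_⟩
    have hidx : K.index = p ^ k := by rw [← hk]; exact hKP.symm.index_eq_card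
    rw [← hidx]
    -- `G = (K ⊔ N) A`
    have h1 : (K.map A.subtype ⊔ N).relIndex A ∣ K.index := by
      rw [Subgroup.relIndex]
      refine Subgroup.index_dvd_of_le fun x hx => ?_
      exact Subgroup.mem_sup_left ⟨x, hx, rfl⟩
    have h2 : (K.map A.subtype ⊔ N).index ≤ (K.map A.subtype ⊔ N).relIndex A := by
      rw [Subgroup.index_eq_card, Subgroup.relIndex, Subgroup.index_eq_card]
      refine Nat.card_le_card_of_surjective (fun q : A ⧸ (K.map A.subtype ⊔ N).subgroupOf A =>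
        Quotient.liftOn' q (fun a => (QuotientGroup.mk (a : G) : G ⧸ (K.map A.subtype ⊔ N))) ?_) ?_
      · intro a b hab
        rw [QuotientGroup.leftRel_apply] at hab
        exact QuotientGroup.eq.mpr hab
      · intro q
        obtain ⟨g, rfl⟩ := QuotientGroup.mk_surjective q
        obtain ⟨⟨a, m⟩, ham⟩ := hA.2 g
        refine ⟨QuotientGroup.mk a, QuotientGroup.eq.mpr ?_⟩
        have : (a : G)⁻¹ * g = (m : G) := by rw [← ham]; simp
        rw [this]; exact Subgroup.mem_sup_right m.2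
    have h3 : (K.map A.subtype ⊔ N).relIndex A ∣ (K.map A.subtype ⊔ N).index →
        (K.map A.subtype ⊔ N).index ∣ K.index := fun hd =>
      (Nat.le_antisymm h2 (Nat.le_of_dvd (Nat.pos_of_ne_zero Subgroup.index_ne_zero_of_finite) hd)) ▸ h1
    have hn : (K.map A.subtype ⊔ N).Normal := by
      rw [← Subgroup.normalizer_eq_top_iff, eq_top_iff]
      intro g _
      obtain ⟨⟨a, m⟩, rfl⟩ := hA.2 g
      refine Subgroup.mul_mem _ ?_ (Subgroup.le_normalizer (Subgroup.mem_sup_right m.2))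
      rw [Subgroup.mem_normalizer_iff]
      have hle : ∀ b : A, ∀ x ∈ K.map A.subtype ⊔ N, (b : G) * x * (b : G)⁻¹ ∈ K.map A.subtype ⊔ N := by
        intro b x hx
        rw [Subgroup.mem_sup_of_normal_right] at hx
        obtain ⟨_, ⟨y, hy, rfl⟩, n, hn, rfl⟩ := hx
        have : (b : G) * (A.subtype y * n) * (b : G)⁻¹ = A.subtype (b * y * b⁻¹) * ((b : G) * n * (b : G)⁻¹) := by
          simp only [map_mul, map_inv, Subgroup.coe_subtype]; group
        rw [this]
        exact Subgroup.mul_mem_sup ⟨_, hK.conj_mem y hy b, rfl⟩ (Subgroup.Normal.conj_mem inferInstance n hn _)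
      intro x
      refine ⟨hle a x, fun hx => ?_⟩
      simpa [mul_assoc] using hle a⁻¹ _ hx
    haveI := hn
    exact h3 (Subgroup.relIndex_dvd_index_of_normal _ _)
  · rw [← Subgroup.normalizer_eq_top_iff, eq_top_iff]
    intro g _
    obtain ⟨⟨a, m⟩, rfl⟩ := hA.2 g
    refine Subgroup.mul_mem _ ?_ (Subgroup.le_normalizer (Subgroup.mem_sup_right m.2))
    rw [Subgroup.mem_normalizer_iff]
    have hle : ∀ b : A, ∀ x ∈ K.map A.subtype ⊔ N, (b : G) * x * (b : G)⁻¹ ∈ K.map A.subtype ⊔ N := by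
      intro b x hx
      rw [Subgroup.mem_sup_of_normal_right] at hx
      obtain ⟨_, ⟨y, hy, rfl⟩, n, hn, rfl⟩ := hx
      have : (b : G) * (A.subtype y * n) * (b : G)⁻¹ = A.subtype (b * y * b⁻¹) * ((b : G) * n * (b : G)⁻¹) := by
        simp only [map_mul, map_inv, Subgroup.coe_subtype]; group
      rw [this]
      exact Subgroup.mul_mem_sup ⟨_, hK.conj_mem y hy b, rfl⟩ (Subgroup.Normal.conj_mem inferInstance n hn _)
    intro x
    refine ⟨hle a x, fun hx => ?_⟩
    simpa [mul_assoc] using hle a⁻¹ _ hx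

/-- Let G be a finite group that is the semidirect product of a normal p-subgroup N by a subgroup A, and also of N by a subgroup A₁, where p is a prime and A and A₁ both have normal p-complements. If C_N(A) = C_N(A₁) = 1, then A₁ is conjugate to A by an element of N. -/
theorem result {G : Type*} [Group G] [Finite G] {p : ℕ}
    [Fact p.Prime] (N : Subgroup G) [N.Normal] (hN : IsPGroup p N) (A A₁ : Subgroup G)
    (hA : A.IsComplement' N) (hA₁ : A₁.IsComplement' N)
    (hAp : Cfsg.HasNormalPComplement p A) (hA₁p : Cfsg.HasNormalPComplement p A₁)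
    (hC : ∀ n : G, n ∈ N → (∀ a : G, a ∈ A → a * n * a⁻¹ = n) → n = 1)
    (hC₁ : ∀ n : G, n ∈ N → (∀ a : G, a ∈ A₁ → a * n * a⁻¹ = n) → n = 1) :
    ∃ n : G, n ∈ N ∧ A₁ = A.map (MulAut.conj n).toMonoidHom := by
  classical
  have hp := Fact.out (p := p.Prime)
  obtain ⟨K, P, hKA, hPA, -, hKp, -, hKn, hKnorm, k, hk⟩ := comp_data N A hA hAp
  obtain ⟨K₁, P₁, hK₁A, hP₁A, hP₁, hK₁p, hKP₁, hK₁n, hK₁norm, k₁, hk₁⟩ := comp_data N A₁ hA₁ hA₁p
  have hinto : ∀ (X Y : Subgroup G), X.Normal → ¬ p ∣ Nat.card Y → (∃ j : ℕ, X.index ∣ p ^ j) → Y ≤ X := by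
    intro X Y hX hY ⟨j, hj⟩ y hy
    haveI := hX
    rw [← QuotientGroup.eq_one_iff (N := X), ← orderOf_eq_one_iff]
    exact Nat.eq_one_of_dvd_coprimes (Nat.Coprime.pow_left j (hp.coprime_iff_not_dvd.mpr hY))
      ((orderOf_dvd_natCard _).trans ((dvd_of_eq (Subgroup.index_eq_card X).symm).trans hj))
      ((orderOf_map_dvd (QuotientGroup.mk' X) y).trans (Subgroup.orderOf_dvd_natCard Y hy))
  have hsup : K ⊔ N = K₁ ⊔ N := le_antisymm (sup_le (hinto _ K hK₁n hKp ⟨k₁, hk₁⟩) le_sup_right)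
    (sup_le (hinto _ K₁ hKn hK₁p ⟨k, hk⟩) le_sup_right)
  obtain ⟨e, he⟩ := IsPGroup.iff_card.mp hN
  obtain ⟨n, hn, hnK⟩ := CfsgLib.Solvable.exists_conj_of_sup_eq N K K₁ hsup
    (by rw [he]; exact Nat.Coprime.pow_right e (hp.coprime_iff_not_dvd.mpr hKp).symm)
    (by rw [he]; exact Nat.Coprime.pow_right e (hp.coprime_iff_not_dvd.mpr hK₁p).symm)
    (Or.inl (by haveI := hN.isNilpotent; infer_instance))
  rw [CfsgLib.Solvable.conj_smul_eq_map] at hnK
  refine ⟨n, hn, ?_⟩
  -- the normaliser of `K₁` meets `N` trivially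
  set M := N ⊓ Subgroup.centralizer (K₁ : Set G) with hMdef
  have hM1 : M = ⊥ := by
    by_contra hne
    have hM : IsPGroup p M := hN.to_le inf_le_left
    have hmem : ∀ (a : P₁) (m : M), (a : G) * m * (a : G)⁻¹ ∈ M := by
      intro a m
      refine ⟨Subgroup.Normal.conj_mem inferInstance _ m.2.1 _, Subgroup.mem_centralizer_iff.mpr fun x hx => ?_⟩
      have hx' := (Subgroup.mem_normalizer_iff.mp ((Subgroup.normalizer _).inv_mem (hK₁norm a (hP₁A a.2))) x).mp hx
      rw [inv_inv] at hx'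
      have hc := Subgroup.mem_centralizer_iff.mp m.2.2 _ hx'
      calc x * ((a : G) * m * (a : G)⁻¹) = (a : G) * (((a : G)⁻¹ * x * a) * m) * (a : G)⁻¹ := by group
        _ = (a : G) * ((m : G) * ((a : G)⁻¹ * x * a)) * (a : G)⁻¹ := by rw [hc]
        _ = _ := by group
    letI act : MulAction P₁ M :=
      { smul := fun a m => ⟨(a : G) * m * (a : G)⁻¹, hmem a m⟩
        one_smul := fun m => Subtype.ext (show ((1 : P₁) : G) * m * ((1 : P₁) : G)⁻¹ = m by simp)
        mul_smul := fun a b m => Subtype.ext (show ((a * b : P₁) : G) * m * ((a * b : P₁) : G)⁻¹ =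
          (a : G) * ((b : G) * m * (b : G)⁻¹) * (a : G)⁻¹ by push_cast; group) }
    have hdiv : p ∣ Nat.card M := by
      haveI : Nontrivial M := (Subgroup.nontrivial_iff_ne_bot M).mpr hne
      obtain ⟨j, hj0, hj⟩ := hM.nontrivial_iff_card.mp inferInstance
      exact hj ▸ dvd_pow_self p (by omega)
    have hone : (1 : M) ∈ MulAction.fixedPoints P₁ M := fun a => Subtype.ext
      (show (a : G) * ((1 : M) : G) * (a : G)⁻¹ = ((1 : M) : G) by simp)
    obtain ⟨m, hm, hm1⟩ := hP₁.exists_fixed_point_of_prime_dvd_card_of_fixed_point M hdiv hone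
    apply hm1
    refine (Subtype.ext ?_).symm
    refine hC₁ m m.2.1 fun a ha => ?_
    have hle : K₁ ⊔ P₁ ≤ Subgroup.centralizer ({(m : G)} : Set G) := by
      refine sup_le (fun x hx => ?_) (fun x hx => ?_)
      · rw [Subgroup.mem_centralizer_singleton_iff]
        exact Subgroup.mem_centralizer_iff.mp m.2.2 x hx
      · rw [Subgroup.mem_centralizer_singleton_iff]
        exact mul_inv_eq_iff_eq_mul.mp (congrArg Subtype.val (hm ⟨x, hx⟩))
    rw [mul_inv_eq_iff_eq_mul]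
    exact Subgroup.mem_centralizer_singleton_iff.mp (hle (hKP₁.symm ▸ ha))
  have hsub : ∀ g ∈ Subgroup.normalizer (K₁ : Set G), g ∈ A₁ := by
    intro g hg
    obtain ⟨⟨a, m⟩, rfl⟩ := hA₁.2 g
    have hmN : (m : G) ∈ Subgroup.normalizer (K₁ : Set G) := by
      simpa using Subgroup.mul_mem _ ((Subgroup.normalizer _).inv_mem (hK₁norm a a.2)) hg
    have hmM : (m : G) ∈ M := by
      refine ⟨m.2, Subgroup.mem_centralizer_iff.mpr fun x hx => ?_⟩
      have h1 : x * m * x⁻¹ * (m : G)⁻¹ ∈ N ⊓ K₁ := by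
        constructor
        · exact N.mul_mem (Subgroup.Normal.conj_mem inferInstance _ m.2 _) (N.inv_mem m.2)
        · have : x * m * x⁻¹ * (m : G)⁻¹ = x * ((m : G) * x⁻¹ * (m : G)⁻¹) := by group
          rw [this]
          exact K₁.mul_mem hx ((Subgroup.mem_normalizer_iff.mp hmN _).mp (K₁.inv_mem hx))
      have hbot : N ⊓ K₁ = ⊥ := Subgroup.inf_eq_bot_of_coprime
        (by rw [he]; exact Nat.Coprime.pow_left e (hp.coprime_iff_not_dvd.mpr hK₁p))
      rw [hbot, Subgroup.mem_bot, mul_inv_eq_one, mul_inv_eq_iff_eq_mul] at h1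
      exact h1
    rw [hM1, Subgroup.mem_bot] at hmM
    simp [hmM]
  symm
  apply Subgroup.eq_of_le_of_card_ge
  · rintro _ ⟨a, ha, rfl⟩
    apply hsub
    rw [Subgroup.mem_normalizer_iff, ← hnK]
    have := hKnorm a ha
    rw [Subgroup.mem_normalizer_iff] at this
    intro x
    simp only [Subgroup.mem_map, MulEquiv.coe_toMonoidHom, MulAut.conj_apply]
    constructor
    · rintro ⟨y, hy, rfl⟩; exact ⟨a * y * a⁻¹, (this y).mp hy, by group⟩
    · rintro ⟨y, hy, hyx⟩
      refine ⟨a⁻¹ * y * a, ?_, ?_⟩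
      · rw [this]; simpa [mul_assoc] using hy
      · have hx : x = (n * a⁻¹ * n⁻¹) * (n * y * n⁻¹) * (n * a * n⁻¹) := by rw [hyx]; group
        rw [hx]; group
  · rw [Subgroup.card_map_of_injective (MulAut.conj n).injective]
    have h1 := hA.card_mul_card
    have h2 := hA₁.card_mul_card
    have h3 : Nat.card A * Nat.card N = Nat.card A₁ * Nat.card N := h1.trans h2.symm
    exact (Nat.eq_of_mul_eq_mul_right Nat.card_pos h3).ge

end Cfsg.Agent.S4043
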