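import Cfsg.Statements.S4050
import Cfsg.Agent.PiClosed.Basic

set_option autoImplicit false
open Cfsg

namespace Cfsg.Agent.S4050

/-- Let π be a set of primes and G a finite group. The π-elements of G (elements whose order is divisible only by primes of π) form a subgroup if and only if G is π-separable (it has a chain of normal subgroups from 1 to G with each successive index divisible only by primes in π or only by primes outside π) and N_G(H)/C_G(H) is a π'-group for every nontrivial π'-subgroup H of G. -/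
theorem result {G : Type*} [Group G] [Finite G] (π : Set ℕ)
    (hπ : ∀ p ∈ π, p.Prime) :
    (∃ K : Subgroup G, ∀ x : G, x ∈ K ↔ ∀ p : ℕ, p.Prime → p ∣ orderOf x → p ∈ π) ↔
    ((∃ (n : ℕ) (H : Fin (n + 1) → Subgroup G), H 0 = ⊥ ∧ H (Fin.last n) = ⊤ ∧ Monotone H ∧ (∀ i, (H i).Normal) ∧
      ∀ i : Fin n, (∀ q : ℕ, q.Prime → q ∣ (H i.castSucc).relIndex (H i.succ) → q ∈ π) ∨
        (∀ q : ℕ, q.Prime → q ∣ (H i.castSucc).relIndex (H i.succ) → q ∉ π)) ∧
     (∀ H : Subgroup G, H ≠ ⊥ → (∀ p : ℕ, p.Prime → p ∣ Nat.card ↥H → p ∉ π) →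
        ∀ p : ℕ, p.Prime → p ∣ (Subgroup.centralizer (H : Set G)).relIndex (Subgroup.normalizer (H : Set G)) → p ∉ π)) := by
  classical
  constructor
  · rintro ⟨K, hK⟩
    have hKn : K.Normal := ⟨fun x hx g => by
      rw [hK, show g * x * g⁻¹ = (MulAut.conj g).toMonoidHom x from rfl,
        orderOf_injective _ (MulAut.conj g).injective]
      exact (hK x).mp hx⟩
    haveI := hKn
    have hKπ : CfsgLib.PiClosed.PiNat π (Nat.card K) := CfsgLib.PiClosed.piNat_card fun x hx => (hK x).mp hx
    have hidx : CfsgLib.PiClosed.CoNat π K.index := by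
      intro q hq hd hqπ
      haveI : Fact q.Prime := ⟨hq⟩
      obtain ⟨Q⟩ : Nonempty (Sylow q G) := inferInstance
      refine Q.not_dvd_index (hd.trans (Subgroup.index_dvd_of_le fun x hx => (hK x).mpr fun r hr hrd => ?_))
      obtain ⟨c, hc⟩ := IsPGroup.iff_orderOf.mp Q.2 ⟨x, hx⟩
      rw [Subgroup.orderOf_mk] at hc
      rw [(Nat.prime_dvd_prime_iff_eq hr hq).mp (hr.dvd_of_dvd_pow (hc ▸ hrd))]
      exact hqπ
    refine ⟨⟨2, ![⊥, K, ⊤], rfl, rfl, ?_, ?_, ?_⟩, ?_⟩
    · rw [Fin.monotone_iff_le_succ]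
      intro i
      fin_cases i <;> simp
    · intro i
      fin_cases i
      · exact (inferInstance : (⊥ : Subgroup G).Normal)
      · exact hKn
      · exact (inferInstance : (⊤ : Subgroup G).Normal)
    · intro i
      fin_cases i
      · left
        show ∀ q : ℕ, q.Prime → q ∣ (⊥ : Subgroup G).relIndex K → q ∈ π
        rw [Subgroup.relIndex_bot_left]; exact hKπ
      · right
        show ∀ q : ℕ, q.Prime → q ∣ K.relIndex ⊤ → q ∉ π
        rw [Subgroup.relIndex_top_right]; exact hidx
    · intro H _ hH q hq hd hqπ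
      haveI : Fact q.Prime := ⟨hq⟩
      obtain ⟨Q⟩ : Nonempty (Sylow q ↥(Subgroup.normalizer (H : Set G))) := inferInstance
      refine Q.not_dvd_index (hd.trans (Subgroup.index_dvd_of_le fun x hx => ?_))
      rw [Subgroup.mem_subgroupOf]
      obtain ⟨c, hc⟩ := IsPGroup.iff_orderOf.mp Q.2 ⟨x, hx⟩
      rw [Subgroup.orderOf_mk, ← Subgroup.orderOf_coe] at hc
      have hxK : (x : G) ∈ K := (hK _).mpr fun r hr hrd => by
        rw [(Nat.prime_dvd_prime_iff_eq hr hq).mp (hr.dvd_of_dvd_pow (hc ▸ hrd))]; exact hqπ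
      rw [Subgroup.mem_centralizer_iff]
      intro y hy
      have h1 : y * x * y⁻¹ * (x : G)⁻¹ ∈ H ⊓ K := by
        constructor
        · have : y * x * y⁻¹ * (x : G)⁻¹ = y * ((x : G) * y⁻¹ * (x : G)⁻¹) := by group
          rw [this]
          exact H.mul_mem hy ((Subgroup.mem_normalizer_iff.mp x.2 _).mp (H.inv_mem hy))
        · exact K.mul_mem (hKn.conj_mem _ hxK y) (K.inv_mem hxK)
      have hbot : H ⊓ K = ⊥ := Subgroup.inf_eq_bot_of_coprime (CfsgLib.PiClosed.coprime hKπ hH).symm
      rw [hbot, Subgroup.mem_bot, mul_inv_eq_one, mul_inv_eq_iff_eq_mul] at h1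
      exact h1
  · rintro ⟨⟨n, H, h0, hn, hmono, hnormal, hstep⟩, hhom⟩
    have hH := CfsgLib.PiClosed.homog_of_relIndex hhom
    suffices hall : ∀ i, CfsgLib.PiClosed.Closed π (H i) by
      obtain ⟨L, hL⟩ := hall (Fin.last n)
      refine ⟨L.map (H (Fin.last n)).subtype, fun x => ?_⟩
      have hx : x ∈ H (Fin.last n) := hn ▸ Subgroup.mem_top x
      constructor
      · rintro ⟨y, hy, rfl⟩
        rw [Subgroup.coe_subtype, Subgroup.orderOf_coe]; exact (hL y).mp hy
      · intro h; exact ⟨⟨x, hx⟩, (hL _).mpr (by rwa [Subgroup.orderOf_mk]), rfl⟩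
    intro i
    induction i using Fin.induction with
    | zero =>
      refine ⟨⊤, fun x => iff_of_true trivial ?_⟩
      have h1 : x = 1 := Subtype.ext (Subgroup.mem_bot.mp (h0 ▸ x.2))
      rw [h1, orderOf_one]; exact CfsgLib.PiClosed.piNat_one
    | succ i ih =>
      haveI := hnormal i.castSucc
      have hle : H i.castSucc ≤ H i.succ := hmono (Fin.castSucc_le_succ i)
      refine CfsgLib.PiClosed.closed_extension (hH.subgroup (H i.succ)) ((H i.castSucc).subgroupOf (H i.succ)) ?_ ?_
      · obtain ⟨L, hL⟩ := ih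
        refine ⟨L.comap (Subgroup.subgroupOfEquivOfLe hle).toMonoidHom, fun x => ?_⟩
        rw [Subgroup.mem_comap, hL, orderOf_injective _ (Subgroup.subgroupOfEquivOfLe hle).injective]
      · rcases hstep i with h | h
        · exact ⟨⊤, fun x => iff_of_true trivial fun p hp hd =>
            h p hp (hd.trans (orderOf_dvd_natCard x))⟩
        · refine ⟨⊥, fun x => ⟨fun hx => ?_, fun hx => ?_⟩⟩
          · rw [Subgroup.mem_bot.mp hx, orderOf_one]; exact fun p hp hd => absurd (Nat.dvd_one.mp hd) hp.ne_one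
          · rw [Subgroup.mem_bot, ← orderOf_eq_one_iff]
            exact Nat.eq_one_iff_not_exists_prime_dvd.mpr fun p hp hd =>
              h p hp (hd.trans (orderOf_dvd_natCard x)) (hx p hp hd)

end Cfsg.Agent.S4050
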