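import Cfsg.Statements.S4052
import Cfsg.Agent.PiHomog.Basic
import Cfsg.Agent.S0877
-- import your own Cfsg.Agent.* helpers here

set_option autoImplicit false
open Cfsg

namespace Cfsg.Agent.S4052

/-- Let π be a set of primes and G a finite group whose maximal π-subgroups are pairwise conjugate (so Hall π-subgroups exist, any two are conjugate, and every π-subgroup lies in one of them), and suppose N_G(H)/C_G(H) is a π-group for every nontrivial π-subgroup H. If either 3 does not divide the order of G, or the π'-elements of every proper subgroup of G form a subgroup, then the π'-elements of G form a subgroup. -/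
theorem result {G : Type*} [Group G] [Finite G] (π : Set ℕ)
    (hπ : ∀ p ∈ π, p.Prime) (hD : Cfsg.IsDPiGroup π G) (hhom : (∀ H : Subgroup G, H ≠ ⊥ → (∀ p : ℕ, p.Prime → p ∣ Nat.card ↥H → p ∈ π) →
        ∀ p : ℕ, p.Prime → p ∣ (Subgroup.centralizer (H : Set G)).relIndex (Subgroup.normalizer (H : Set G)) → p ∈ π))
    (hcase : ¬ 3 ∣ Nat.card G ∨ ∀ M : Subgroup G, M ≠ ⊤ →
      ∃ L : Subgroup ↥M, ∀ x : ↥M, x ∈ L ↔ ∀ p : ℕ, p.Prime → p ∣ orderOf x → p ∉ π) :
    (∃ K : Subgroup G, ∀ x : G, x ∈ K ↔ ∀ p : ℕ, p.Prime → p ∣ orderOf x → p ∉ π) := by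
  
  have hom : CfsgLib.PiHomog.Homogeneous π G := by
    intro U hUne hU n hn hq
    set C' := (Subgroup.centralizer (U : Set G)).subgroupOf (Subgroup.normalizer (U : Set G)) with hC'
    haveI hCn : C'.Normal := by
      constructor
      intro c hc w
      show (w : G) * (c : G) * (w : G)⁻¹ ∈ Subgroup.centralizer (U : Set G)
      rw [Subgroup.mem_centralizer_iff]
      intro v hv
      have h1 := Subgroup.mem_centralizer_iff.1 (Subgroup.mem_subgroupOf.1 hc) _
        ((Subgroup.mem_normalizer_iff.1 (Subgroup.inv_mem _ w.2) v).1 hv)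
      calc v * ((w : G) * c * (w : G)⁻¹)
          = (w : G) * ((w : G)⁻¹ * v * (w : G)⁻¹⁻¹ * c) * (w : G)⁻¹ := by group
        _ = (w : G) * (c * ((w : G)⁻¹ * v * (w : G)⁻¹⁻¹)) * (w : G)⁻¹ := by rw [h1]
        _ = (w : G) * c * (w : G)⁻¹ * v := by group
    have h1 : QuotientGroup.mk' C' ⟨n, hn⟩ = 1 := by
      by_contra hne
      obtain ⟨q, hq', hqd⟩ := Nat.exists_prime_and_dvd (mt orderOf_eq_one_iff.1 hne)
      refine hq q hq' ?_ (hhom U hUne hU q hq' (hqd.trans (orderOf_dvd_natCard _)))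
      have h2 := hqd.trans (orderOf_map_dvd (QuotientGroup.mk' C') (⟨n, hn⟩ : ↥(Subgroup.normalizer (U : Set G))))
      rwa [Subgroup.orderOf_mk] at h2
    exact Subgroup.mem_subgroupOf.1 ((QuotientGroup.eq_one_iff _).1 h1)
  obtain ⟨H, hH⟩ : ∃ H : Subgroup G, Maximal (Cfsg.IsPiSubgroup π) H := by
    obtain ⟨H, hH⟩ := (Set.toFinite {K : Subgroup G | Cfsg.IsPiSubgroup π K}).exists_maximal
      ⟨⊥, fun q hq hd => absurd (Nat.dvd_one.1 (by simpa using hd)) hq.ne_one⟩
    exact ⟨H, hH⟩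
  have hdom : CfsgLib.PiHomog.Dominates π H := by
    refine ⟨hH.prop, fun T hT => ?_⟩
    obtain ⟨K, hTK, hK⟩ := (Set.toFinite {K : Subgroup G | Cfsg.IsPiSubgroup π K}).exists_le_maximal hT
    obtain ⟨g, hg⟩ := hD K H hK hH
    exact ⟨g, hg ▸ Subgroup.map_mono hTK⟩
  have hHall : Nat.Coprime (Nat.card H) H.index := by
    refine Nat.coprime_of_dvd fun q hq h1 h2 => ?_
    haveI := Fact.mk hq
    obtain ⟨S, hS⟩ := CfsgLib.PiHomog.exists_sylow_le hdom (hH.prop q hq h1)
    exact S.not_dvd_index (h2.trans (Subgroup.index_dvd_of_le hS))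
  obtain ⟨K, hKn, hKH, hKi⟩ := Cfsg.Agent.S0877.result H hHall
    (fun x hx y hy hxy => by
      obtain ⟨c, hc⟩ := isConj_iff.1 hxy
      obtain ⟨h, hh, hhx⟩ := CfsgLib.PiHomog.exists_mem_conj_eq _ H hdom hom x hx rfl c (hc ▸ hy)
      exact ⟨h, hh, hhx.trans hc⟩)
    (fun E p hp _ hE => hdom.2 E fun q hq hd => hH.prop q hq (hd.trans hE))
  refine ⟨K, fun x => ⟨fun hx q hq hd hqπ => ?_, fun hx => ?_⟩⟩
  · haveI := Fact.mk hq
    obtain ⟨S, hS⟩ := CfsgLib.PiHomog.exists_sylow_le hdom hqπ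
    have hc : Nat.card K = H.index :=
      ((Subgroup.isComplement'_of_disjoint_and_mul_eq_univ (disjoint_iff.2 hKi)
        (by rw [← Subgroup.normal_mul, hKH, Subgroup.coe_top])).index_eq_card).symm
    refine S.not_dvd_index ((hd.trans ((Subgroup.orderOf_dvd_natCard K hx).trans ?_)))
    rw [hc]
    exact Subgroup.index_dvd_of_le hS
  · haveI := hKn
    rw [← QuotientGroup.eq_one_iff]
    by_contra hne
    obtain ⟨q, hq, hqd⟩ := Nat.exists_prime_and_dvd (mt orderOf_eq_one_iff.1 hne)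
    have hcard : Nat.card (G ⧸ K) = Nat.card H :=
      (Subgroup.isComplement'_of_disjoint_and_mul_eq_univ (disjoint_iff.2 hKi)
        (by rw [← Subgroup.normal_mul, hKH, Subgroup.coe_top])).symm.index_eq_card
    refine hx q hq (hqd.trans (orderOf_map_dvd (QuotientGroup.mk' K) x)) (hH.prop q hq ?_)
    rw [← hcard]
    exact hqd.trans (orderOf_dvd_natCard _)

end Cfsg.Agent.S4052
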