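import Cfsg.Statements.S4057
import Mathlib
import Cfsg.Agent.PGroup.GeneratorBound
import Cfsg.Agent.PGroup.NormalRank
import Cfsg.Agent.Classical.Linear.SylowP

set_option autoImplicit false
open Cfsg
open scoped Pointwise

namespace Cfsg.Agent.S4057

section

variable {P : Type*} [Group P] [Finite P] {p : ℕ} [Fact p.Prime]

omit [Finite P] in
theorem closure_le_center_card {X : Subgroup P} (hc : ∀ a ∈ X, ∀ b ∈ X, a * b = b * a)
    (he : ∀ a ∈ X, a ^ p = 1) [Finite P] (S : Finset P) (hS : (S : Set P) ⊆ X) :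
    Nat.card ↥(Subgroup.closure (S : Set P)) ≤ p ^ S.card := by
  classical
  induction S using Finset.induction with
  | empty => simp
  | insert a T haT ih =>
    rw [Finset.coe_insert] at hS
    obtain ⟨haX, hTX⟩ := Set.insert_subset_iff.1 hS
    rw [Finset.card_insert_of_notMem haT, Finset.coe_insert, Set.insert_eq, Subgroup.closure_union,
      ← Subgroup.zpowers_eq_closure, pow_succ]
    set E := Subgroup.closure (T : Set P)
    have hEX : E ≤ X := (Subgroup.closure_le X).2 hTX
    have hn : E ≤ Subgroup.normalizer (Subgroup.zpowers a : Set P) := fun e he' =>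
      Subgroup.centralizer_le_normalizer _ (Subgroup.mem_centralizer_iff.2 fun z hz =>
        hc z ((Subgroup.zpowers_le.2 haX) hz) e (hEX he'))
    have hsurj : Function.Surjective (fun q : ↥(Subgroup.zpowers a) × ↥E =>
        (⟨q.1 * q.2, mul_mem (Subgroup.mem_sup_left q.1.2) (Subgroup.mem_sup_right q.2.2)⟩ :
          ↥(Subgroup.zpowers a ⊔ E))) := by
      rintro ⟨z, hz⟩
      rw [← SetLike.mem_coe, Subgroup.coe_mul_of_right_le_normalizer_left _ _ hn] at hz
      obtain ⟨u, hu, v, hv, huv⟩ := hz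
      exact ⟨(⟨u, hu⟩, ⟨v, hv⟩), Subtype.ext huv⟩
    refine (Nat.card_le_card_of_surjective _ hsurj).trans ?_
    rw [Nat.card_prod, mul_comm, Nat.card_zpowers]
    exact Nat.mul_le_mul (ih hTX) (Nat.le_of_dvd (Fact.out : p.Prime).pos
      (orderOf_dvd_of_pow_eq_one (he a haX)))

/-- An elementary abelian group has a coordinate description of its automorphisms. -/
theorem exists_matrix_hom {X : Type*} [CommGroup X] [Finite X] (he : ∀ x : X, x ^ p = 1) :
    ∃ (r : ℕ) (ψ : MulAut X →* GL (Fin r) (ZMod p)), Nat.card X = p ^ r ∧ Function.Injective ψ := by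
  letI : Module (ZMod p) (Additive X) :=
    AddCommGroup.zmodModule (n := p) (G := Additive X) (fun x => he (Additive.toMul x))
  haveI : Module.Finite (ZMod p) (Additive X) := Module.Finite.of_finite
  let b := Module.finBasis (ZMod p) (Additive X)
  set r := Module.finrank (ZMod p) (Additive X)
  let lin : MulAut X →* Module.End (ZMod p) (Additive X) :=
    { toFun := fun σ => (MulEquiv.toAdditive σ).toAddMonoidHom.toZModLinearMap p
      map_one' := LinearMap.ext fun _ => rfl
      map_mul' := fun _ _ => LinearMap.ext fun _ => rfl }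
  let ψ₀ : MulAut X →* Matrix (Fin r) (Fin r) (ZMod p) :=
    (LinearMap.toMatrixAlgEquiv b).toAlgHom.toRingHom.toMonoidHom.comp lin
  refine ⟨r, ψ₀.toHomUnits, ?_, fun σ τ h => ?_⟩
  · have := Module.natCard_eq_pow_finrank (K := ZMod p) (V := Additive X)
    rw [Nat.card_zmod] at this
    exact this
  · have h1 : ψ₀ σ = ψ₀ τ := congrArg Units.val h
    have h2 : lin σ = lin τ := (LinearMap.toMatrixAlgEquiv b).injective h1
    exact MulEquiv.ext fun x => congrArg Additive.toMul (LinearMap.congr_fun h2 (Additive.ofMul x))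

end

/-- Let p be an odd prime and P a finite p-group in which every normal abelian subgroup can be generated by k elements. Then every subgroup of P can be generated by at most ⌊k(k+4)/4⌋ elements. -/
theorem result {P : Type*} [Group P] [Finite P] {p : ℕ} [Fact p.Prime]
    (hp : p ≠ 2) (hP : IsPGroup p P) (k : ℕ)
    (hab : ∀ A : Subgroup P, A.Normal → IsMulCommutative A → ∃ S : Finset P, S.card ≤ k ∧ Subgroup.closure (S : Set P) = A) :
    ∀ H : Subgroup P, ∃ S : Finset P, S.card ≤ k * (k + 4) / 4 ∧ Subgroup.closure (S : Set P) = H := by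
  classical
  intro H
  haveI : Group.IsNilpotent P := hP.isNilpotent
  obtain ⟨X, hX⟩ := CfsgLib.PGroup.exists_maximal_normalAbelianExp' (P := P) p
  obtain ⟨hXn, hXc, hXe⟩ := hX.1
  haveI := hXn
  have hodd : Odd p := (Fact.out : p.Prime).odd_of_ne_two hp
  letI : CommGroup ↥X := { (inferInstance : Group ↥X) with mul_comm := fun a b => hXc.1.comm a b }
  obtain ⟨r, ψ, hr, hψ⟩ := exists_matrix_hom (p := p) (X := ↥X) (fun x => Subtype.ext (hXe x x.2))
  have hrk : r ≤ k := by
    obtain ⟨S, hS, hSX⟩ := hab X hXn hXc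
    have h1 := closure_le_center_card (p := p) (X := X)
      (fun a ha b hb => congrArg Subtype.val (hXc.1.comm ⟨a, ha⟩ ⟨b, hb⟩)) hXe S
      (fun z hz => hSX.le (Subgroup.subset_closure hz))
    rw [hSX, hr] at h1
    exact ((Nat.pow_le_pow_iff_right (Fact.out : p.Prime).one_lt).1 h1).trans hS
  let act : ↥H →* GL (Fin r) (ZMod p) := ψ.comp ((MulAut.conjNormal (H := X)).comp H.subtype)
  have hHp : IsPGroup p ↥H := hP.to_subgroup H
  have hrange : IsPGroup p ↥act.range :=
    hHp.of_surjective act.rangeRestrict act.rangeRestrict_surjective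
  obtain ⟨Q, hQ⟩ := hrange.exists_le_sylow
  obtain ⟨g, hg⟩ := MulAction.exists_smul_eq (GL (Fin r) (ZMod p)) Q
    (CfsgLib.Classical.Linear.upperSylow r (ZMod p) p)
  let act' : ↥H →* GL (Fin r) (ZMod p) := (MulAut.conj g).toMonoidHom.comp act
  have hup : ∀ h, act' h ∈ CfsgLib.Classical.Linear.upperUnitri r (ZMod p) := by
    intro h
    rw [← CfsgLib.Classical.Linear.coe_upperSylow (n := r) (F := ZMod p) (p := p), ← hg]
    show g * act h * g⁻¹ ∈ MulAut.conj g • (Q : Subgroup (GL (Fin r) (ZMod p)))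
    exact Subgroup.smul_mem_pointwise_smul (act h) (MulAut.conj g) (Q : Subgroup (GL (Fin r) (ZMod p)))
      (hQ ⟨h, rfl⟩)
  let f : ↥H →* Matrix (Fin r) (Fin r) (ZMod p) := (Units.coeHom _).comp act'
  have hf : ∀ h, CfsgLib.GeneratorBound.Low 0 (f h - 1) := by
    intro h i j hne
    refine ⟨?_, Nat.zero_le _⟩
    obtain ⟨h1, h2⟩ := hup h
    by_contra hle
    apply hne
    rcases eq_or_ne i j with rfl | hij
    · rw [Matrix.sub_apply, show f h i i = 1 from h2 i, Matrix.one_apply_eq, sub_self]
    · have : j < i := lt_of_le_of_ne (not_lt.1 hle) (Ne.symm hij)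
      rw [Matrix.sub_apply, show f h i j = 0 from h1 i j this, Matrix.one_apply_ne hij, sub_self]
  obtain ⟨S₁, hS₁, hgen⟩ := CfsgLib.GeneratorBound.exists_generators_unitriangular hHp f hf
  -- the kernel
  have hker : ∀ z : ↥f.ker, ((z : ↥H) : P) ∈ Subgroup.centralizer (X : Set P) := by
    intro z
    have h1 : act' z = 1 := Units.ext z.2
    have h2 : act z = 1 := by
      have : g * act z * g⁻¹ = 1 := h1
      exact conj_eq_one_iff.1 this
    have h3 : MulAut.conjNormal (H := X) ((z : ↥H) : P) = 1 := hψ (by rw [map_one]; exact h2)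
    refine Subgroup.mem_centralizer_iff.2 fun x hx => ?_
    have h4 := congrArg Subtype.val (MulEquiv.congr_fun h3 ⟨x, hx⟩)
    rw [MulAut.conjNormal_apply] at h4
    calc x * ((z : ↥H) : P) = ((z : ↥H) : P) * x * ((z : ↥H) : P)⁻¹ * ((z : ↥H) : P) := by
          exact congrArg (· * ((z : ↥H) : P)) h4.symm
      _ = ((z : ↥H) : P) * x := by group
  have hinX : ∀ z : ↥f.ker, z ^ p = 1 → ((z : ↥H) : P) ∈ X := fun z hz =>
    CfsgLib.PGroup.mem_of_maximal_normalAbelianExp hodd hX (hker z)
      (congrArg (fun w : ↥f.ker => ((w : ↥H) : P)) hz)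
  obtain ⟨S₂, hS₂, hgen₂⟩ := CfsgLib.GeneratorBound.exists_generators_of_central hp
    (hHp.to_subgroup f.ker)
    (fun z hz => Subgroup.mem_center_iff.2 fun w => Subtype.ext (Subtype.ext
      (Subgroup.mem_centralizer_iff.1 (hker w) _ (hinX z hz)).symm))
    (m := r) (by
      rw [← hr]
      refine Nat.card_le_card_of_injective (fun z => (⟨_, hinX z.1 z.2⟩ : ↥X)) fun a b h => ?_
      exact Subtype.ext (Subtype.ext (Subtype.ext (congrArg (fun w : ↥X => (w : P)) h))))
  refine ⟨(S₁ ∪ S₂.image Subtype.val).image Subtype.val, ?_, ?_⟩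
  · refine Finset.card_image_le.trans ((Finset.card_union_le _ _).trans ?_)
    have h1 := Finset.card_image_le (s := S₂) (f := Subtype.val)
    have h2 : r * r ≤ k * k := Nat.mul_le_mul hrk hrk
    have h3 : k * (k + 4) = k * k + 4 * k := by ring
    omega
  · rw [Finset.coe_image, ← H.coe_subtype, ← MonoidHom.map_closure, Finset.coe_union,
      Finset.coe_image, Subgroup.closure_union]
    have h2 : Subgroup.closure (Subtype.val '' (S₂ : Set ↥f.ker)) = f.ker := by
      rw [← f.ker.coe_subtype, ← MonoidHom.map_closure, hgen₂, ← MonoidHom.range_eq_map,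
        Subgroup.range_subtype]
    rw [h2, hgen, ← MonoidHom.range_eq_map, Subgroup.range_subtype]

end Cfsg.Agent.S4057
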