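import Cfsg.Statements.S4058
import Cfsg.Agent.Chars.FrobSchur.Count
import Mathlib.GroupTheory.Frattini
import Mathlib.GroupTheory.Nilpotent
import Mathlib.GroupTheory.GroupAction.Quotient

namespace Cfsg.Agent.S4058

open CfsgLib CfsgLib.FrobSchur

variable {G : Type*} [Group G]

theorem sq_mem_frattini [Finite G] (hG : IsPGroup 2 G) (g : G) : g * g ∈ frattini G := by
  haveI : Fact (Nat.Prime 2) := ⟨Nat.prime_two⟩
  haveI : Group.IsNilpotent G := hG.isNilpotent
  show g * g ∈ Order.radical (Subgroup G)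
  rw [Order.radical, Subgroup.mem_iInf]
  intro M
  rw [Subgroup.mem_iInf]
  intro hM
  by_contra hg
  haveI hMn : M.Normal :=
    Subgroup.NormalizerCondition.normal_of_coatom M Group.normalizerCondition_of_isNilpotent hM
  have htop : M ⊔ Subgroup.zpowers (g * g) = ⊤ :=
    hM.2 _ (left_lt_sup.2 fun h => hg (h (Subgroup.mem_zpowers _)))
  have hmem : g ∈ ((M ⊔ Subgroup.zpowers (g * g) : Subgroup G) : Set G) := by rw [htop]; trivial
  rw [Subgroup.normal_mul] at hmem
  obtain ⟨m, hm, _, ⟨i, rfl⟩, e⟩ := hmem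
  set q : G ⧸ M := QuotientGroup.mk g with hq
  have e1 : (q ^ 2) ^ i = q := by
    have := congrArg (QuotientGroup.mk : G → G ⧸ M) e
    rw [QuotientGroup.mk_mul, (QuotientGroup.eq_one_iff m).2 hm, one_mul, QuotientGroup.mk_zpow,
      QuotientGroup.mk_mul, ← pow_two] at this
    exact this
  obtain ⟨k, hk⟩ := (hG.to_quotient M) q
  have e2 : q ^ (2 * i - 1) = 1 := by
    rw [zpow_sub_one, zpow_mul, zpow_ofNat, e1, mul_inv_cancel]
  have e3 : (orderOf q : ℤ) ∣ 2 * i - 1 := orderOf_dvd_iff_zpow_eq_one.2 e2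
  obtain ⟨j, -, hj⟩ := (Nat.dvd_prime_pow Nat.prime_two).1 (orderOf_dvd_of_pow_eq_one hk)
  rcases j with _ | j
  · rw [pow_zero, orderOf_eq_one_iff, hq, QuotientGroup.eq_one_iff] at hj
    exact hg (mul_mem hj hj)
  · rw [hj, Nat.cast_pow, pow_succ] at e3
    have : (2 : ℤ) ∣ 2 * i - 1 := dvd_trans (dvd_mul_left _ _) e3
    omega

/-- The homomorphisms into `ℂˣ` of exponent two. -/
def twoHoms (G : Type*) [Group G] : Subgroup (G →* ℂˣ) where
  carrier := {l | l * l = 1}
  one_mem' := mul_one 1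
  mul_mem' {a b} ha hb := by
    show a * b * (a * b) = 1
    refine MonoidHom.ext fun g => ?_
    show a g * b g * (a g * b g) = 1
    rw [mul_mul_mul_comm, show a g * a g = 1 from DFunLike.congr_fun ha g,
      show b g * b g = 1 from DFunLike.congr_fun hb g, mul_one]
  inv_mem' {a} ha := by
    show a⁻¹ * a⁻¹ = 1
    refine MonoidHom.ext fun g => ?_
    show (a g)⁻¹ * (a g)⁻¹ = 1
    rw [← mul_inv, show a g * a g = 1 from DFunLike.congr_fun ha g, inv_one]

theorem card_le_twoHoms [Finite G] (hG : IsPGroup 2 G) :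
    Nat.card (G ⧸ frattini G) ≤ Nat.card (twoHoms G) := by
  have hcomm : commutator (G ⧸ frattini G) = ⊥ := by
    rw [commutator_def, Subgroup.commutator_eq_bot_iff_le_centralizer]
    intro a _
    rw [Subgroup.mem_centralizer_iff]
    intro b _
    have hsq : ∀ c : G ⧸ frattini G, c * c = 1 := fun c => by
      obtain ⟨c, rfl⟩ := QuotientGroup.mk_surjective c
      rw [← QuotientGroup.mk_mul, QuotientGroup.eq_one_iff]
      exact sq_mem_frattini hG c
    have hinv : ∀ c : G ⧸ frattini G, c⁻¹ = c := fun c => inv_eq_of_mul_eq_one_right (hsq c)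
    calc b * a = (b * a)⁻¹ := (hinv _).symm
      _ = a * b := by rw [mul_inv_rev, hinv, hinv]
  have hcard := Chars.card_monoidHom_units (G := G ⧸ frattini G)
  rw [hcomm, Subgroup.index_bot] at hcard
  rw [← hcard]
  refine Nat.card_le_card_of_injective
    (fun l => (⟨l.comp (QuotientGroup.mk' (frattini G)), ?_⟩ : twoHoms G)) ?_
  · refine MonoidHom.ext fun g => ?_
    show l (QuotientGroup.mk g) * l (QuotientGroup.mk g) = 1
    rw [← map_mul, ← QuotientGroup.mk_mul, (QuotientGroup.eq_one_iff _).2 (sq_mem_frattini hG g),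
      map_one]
  · intro l m h
    refine MonoidHom.ext fun q => ?_
    obtain ⟨g, rfl⟩ := QuotientGroup.mk_surjective q
    exact DFunLike.congr_fun (congrArg Subtype.val h) g

variable [Fintype G]

noncomputable def twist (l : twoHoms G) (χ : Cfsg.IrrCharacter G) : Cfsg.IrrCharacter G :=
  ⟨fun g => ((l.1 g : ℂˣ) : ℂ) * (χ : G → ℂ) g, Chars.isIrrCharacter_linear_mul χ.2 l.1⟩

theorem twist_apply (l : twoHoms G) (χ : Cfsg.IrrCharacter G) (g : G) :
    (twist l χ : G → ℂ) g = ((l.1 g : ℂˣ) : ℂ) * (χ : G → ℂ) g := rfl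

noncomputable abbrev twistAction : MulAction (twoHoms G) (Cfsg.IrrCharacter G) where
  smul := twist
  one_smul χ := Subtype.ext (funext fun g => by
    show (twist 1 χ : G → ℂ) g = _
    simp [twist_apply])
  mul_smul l m χ := Subtype.ext (funext fun g => by
    show (twist (l * m) χ : G → ℂ) g = (twist l (twist m χ) : G → ℂ) g
    simp [twist_apply, mul_assoc])

theorem indicator_twist (l : twoHoms G) (χ : Cfsg.IrrCharacter G) :
    indicator (twist l χ : G → ℂ) = indicator (χ : G → ℂ) := by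
  simp only [indicator_def, twist_apply, map_mul]
  have : ∀ s : G, l.1 s * l.1 s = 1 := fun s => DFunLike.congr_fun (show l.1 * l.1 = 1 from l.2) s
  simp [this]

theorem degree_twist (l : twoHoms G) (χ : Cfsg.IrrCharacter G) :
    Cfsg.charDegree (twist l χ : G → ℂ) = Cfsg.charDegree (χ : G → ℂ) := by
  simp [Cfsg.charDegree, twist_apply]

/-- A stabilizer has order at most the square of the degree. -/
theorem card_stab_le (χ : Cfsg.IrrCharacter G) (S : Subgroup (twoHoms G))
    (hS : ∀ l ∈ S, twist l χ = χ) : Nat.card S ≤ Cfsg.charDegree (χ : G → ℂ) ^ 2 := by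
  classical
  set F : G → ℂ := fun g => (χ : G → ℂ) g * starRingEnd ℂ ((χ : G → ℂ) g) with hF
  have hchar : Cfsg.IsCharacter G F :=
    Chars.isCharacter_mul (Chars.isCharacter_coe χ) (Chars.isCharacter_conj (Chars.isCharacter_coe χ))
  obtain ⟨c, hc, hc'⟩ := Chars.exists_nat_coeff hchar
  let f : S → Cfsg.IrrCharacter G := fun l => Chars.linChar l.1.1
  have hf : Function.Injective f := fun l m h =>
    Subtype.ext (Subtype.ext (Chars.linChar_injective h))
  haveI : Fintype S := Fintype.ofFinite _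
  have h1 : ∀ l : S, c (f l) = 1 := by
    intro l
    rw [← Nat.cast_inj (R := ℂ), ← hc', Nat.cast_one]
    conv_rhs => rw [← Chars.classInner_self χ]
    simp only [Cfsg.classInner]
    refine congrArg _ (Finset.sum_congr rfl fun g => fun _ => ?_)
    have e : ((l.1.1 g : ℂˣ) : ℂ) * (χ : G → ℂ) g = (χ : G → ℂ) g :=
      congrFun (congrArg Subtype.val (hS l.1 l.2)) g
    show (χ : G → ℂ) g * starRingEnd ℂ ((χ : G → ℂ) g) * starRingEnd ℂ ((l.1.1 g : ℂˣ) : ℂ) = _
    rw [mul_assoc, mul_comm (starRingEnd ℂ ((χ : G → ℂ) g)), ← map_mul, e]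
  have h2 : ∑ φ : Cfsg.IrrCharacter G, c φ * Cfsg.charDegree (φ : G → ℂ) =
      Cfsg.charDegree (χ : G → ℂ) ^ 2 := by
    have h3 := congrFun hc 1
    simp only [hF, Finset.sum_apply, Pi.smul_apply, smul_eq_mul, ← Chars.coe_charDegree,
      map_natCast] at h3
    rw [sq]
    exact_mod_cast h3.symm
  rw [← h2, Nat.card_eq_fintype_card, Fintype.card, Finset.card_eq_sum_ones]
  calc ∑ _l : S, 1 = ∑ l : S, c (f l) * Cfsg.charDegree (f l : G → ℂ) :=
        Finset.sum_congr rfl fun l _ => by rw [h1, Chars.charDegree_linChar, mul_one]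
    _ = ∑ φ ∈ Finset.univ.image f, c φ * Cfsg.charDegree (φ : G → ℂ) :=
        (Finset.sum_image (f := fun φ : Cfsg.IrrCharacter G => c φ * Cfsg.charDegree (φ : G → ℂ))
          fun a _ b _ h => hf h).symm
    _ ≤ _ := Finset.sum_le_sum_of_subset (Finset.subset_univ _)

end Cfsg.Agent.S4058

open Cfsg.Agent.S4058 CfsgLib CfsgLib.FrobSchur

set_option autoImplicit false
open Cfsg

namespace Cfsg.Agent.S4058

/-- Let G be a finite 2-group with #(G/Φ(G)) ≥ 2^(2k+1). Then the number of elements x of G with x² = 1 is divisible by 2^(k+1). -/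
theorem result {G : Type*} [Group G] [Finite G] (hG : IsPGroup 2 G) (k : ℕ)
    (hgen : 2 ^ (2 * k + 1) ≤ Nat.card (G ⧸ frattini G)) :
    2 ^ (k + 1) ∣ Nat.card {x : G // x ^ 2 = 1} := by
  classical
  haveI : Fintype G := Fintype.ofFinite G
  haveI : Fact (Nat.Prime 2) := ⟨Nat.prime_two⟩
  letI := twistAction (G := G)
  have hν : ∀ χ : Cfsg.IrrCharacter G, ∃ e : ℤ, indicator (χ : G → ℂ) = e := by
    intro χ
    rcases irr_trichotomy χ.2 with h | h | h
    · exact ⟨0, by rw [h, Int.cast_zero]⟩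
    · exact ⟨1, by rw [h, Int.cast_one]⟩
    · exact ⟨-1, by rw [h, Int.cast_neg, Int.cast_one]⟩
  choose ν hνeq using hν
  set F : Cfsg.IrrCharacter G → ℤ := fun χ => ν χ * (Cfsg.charDegree (χ : G → ℂ) : ℤ) with hF
  have hsum : (Nat.card {x : G // x ^ 2 = 1} : ℤ) = ∑ χ, F χ := by
    have h := sum_indicator_mul (1 : G)
    rw [← Int.cast_inj (α := ℂ), Int.cast_natCast, Int.cast_sum]
    simp only [hF, Int.cast_mul, Int.cast_natCast, Chars.coe_charDegree, ← hνeq]
    rw [h, sqrtCount_def]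
    simp only [pow_two]
  rw [← Int.natCast_dvd_natCast, hsum,
    ← (MulAction.selfEquivSigmaOrbits' (twoHoms G) (Cfsg.IrrCharacter G)).symm.sum_comp F,
    Fintype.sum_sigma]
  refine Finset.dvd_sum fun ω _ => ?_
  induction ω using Quotient.inductionOn' with
  | _ χ =>
  have horb : MulAction.orbitRel.Quotient.orbit
      (Quotient.mk'' χ : MulAction.orbitRel.Quotient (twoHoms G) (Cfsg.IrrCharacter G)) =
      MulAction.orbit (twoHoms G) χ := MulAction.orbitRel.Quotient.orbit_mk χ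
  have hconst : ∀ ψ : MulAction.orbitRel.Quotient.orbit
      (Quotient.mk'' χ : MulAction.orbitRel.Quotient (twoHoms G) (Cfsg.IrrCharacter G)),
      F ψ.1 = F χ := by
    rintro ⟨ψ, hψ⟩
    rw [horb] at hψ
    obtain ⟨l, rfl⟩ := hψ
    have e1 : ν (twist l χ) = ν χ := by
      rw [← Int.cast_inj (α := ℂ), ← hνeq, ← hνeq, indicator_twist]
    show ν (twist l χ) * (Cfsg.charDegree (twist l χ : G → ℂ) : ℤ) = F χ
    rw [e1, degree_twist]
  refine (Finset.sum_congr rfl fun ψ _ => hconst ψ).symm ▸ ?_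
  rw [Finset.sum_const, nsmul_eq_mul, Finset.card_univ, ← Nat.card_eq_fintype_card,
    Nat.card_congr (Equiv.setCongr horb), hF]
  simp only
  rw [mul_left_comm]
  apply Dvd.dvd.mul_left
  rw [← Nat.cast_mul, Int.natCast_dvd_natCast]
  -- powers of two
  obtain ⟨a, ha⟩ := IsPGroup.iff_card.1 hG
  obtain ⟨i, -, hi⟩ := (Nat.dvd_prime_pow Nat.prime_two).1 (ha ▸ Chars.charDegree_dvd_card χ)
  have hTp : IsPGroup 2 (twoHoms G) := fun l => ⟨1, by
    rw [pow_one, pow_two]; exact Subtype.ext l.2⟩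
  obtain ⟨D, hD⟩ := IsPGroup.iff_card.1 hTp
  have hD' : 2 * k + 1 ≤ D := by
    have := hgen.trans ((card_le_twoHoms hG).trans_eq hD)
    exact (Nat.pow_le_pow_iff_right (by norm_num)).1 this
  obtain ⟨j, hj⟩ := IsPGroup.iff_card.1 (hTp.to_subgroup (MulAction.stabilizer (twoHoms G) χ))
  have hji : 2 ^ j ≤ (2 ^ i) ^ 2 := by
    rw [← hj, ← hi]
    exact card_stab_le χ _ fun l hl => MulAction.mem_stabilizer_iff.1 hl
  rw [← pow_mul] at hji
  replace hji := (Nat.pow_le_pow_iff_right (by norm_num)).1 hji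
  have horbc := MulAction.index_stabilizer (twoHoms G) χ
  have hmul := Subgroup.card_mul_index (MulAction.stabilizer (twoHoms G) χ)
  rw [horbc, hj, hD, ← Nat.card_coe_set_eq] at hmul
  have hjD : j ≤ D := (Nat.pow_dvd_pow_iff_le_right (by norm_num)).1 (Dvd.intro _ hmul)
  have hc : Nat.card (MulAction.orbit (twoHoms G) χ) = 2 ^ (D - j) := by
    apply Nat.eq_of_mul_eq_mul_left (pow_pos two_pos j)
    rw [hmul, ← pow_add, Nat.add_sub_cancel' hjD]
  rw [hc, hi, ← pow_add]
  exact pow_dvd_pow 2 (by omega)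

end Cfsg.Agent.S4058
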