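import Cfsg.Statements.S4065
import Cfsg.Agent.Eq.Def_OddOrderLocal
import Mathlib

set_option autoImplicit false
open Cfsg

namespace Cfsg.Agent.S4065

variable {F : Type*} [Field F]

theorem comm_of_comm {M X Y : Matrix (Fin 2) (Fin 2) F} (hM : M 0 1 ≠ 0 ∨ M 1 0 ≠ 0 ∨ M 0 0 ≠ M 1 1)
    (hX : M * X = X * M) (hY : M * Y = Y * M) : X * Y = Y * X := by
  have e : ∀ (Z : Matrix (Fin 2) (Fin 2) F), M * Z = Z * M →
      M 0 1 * Z 1 0 = M 1 0 * Z 0 1 ∧ M 0 1 * (Z 1 1 - Z 0 0) = Z 0 1 * (M 1 1 - M 0 0) ∧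
        M 1 0 * (Z 1 1 - Z 0 0) = Z 1 0 * (M 1 1 - M 0 0) := by
    intro Z hZ
    have h00 := congrFun (congrFun hZ 0) 0
    have h01 := congrFun (congrFun hZ 0) 1
    have h10 := congrFun (congrFun hZ 1) 0
    simp only [Matrix.mul_apply, Fin.sum_univ_two] at h00 h01 h10
    exact ⟨by linear_combination h00, by linear_combination h01, by linear_combination -h10⟩
  obtain ⟨x1, x2, x3⟩ := e X hX
  obtain ⟨y1, y2, y3⟩ := e Y hY
  obtain ⟨A1, A2, A3⟩ : X 0 1 * Y 1 0 = X 1 0 * Y 0 1 ∧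
      X 0 1 * (Y 1 1 - Y 0 0) = Y 0 1 * (X 1 1 - X 0 0) ∧
      X 1 0 * (Y 1 1 - Y 0 0) = Y 1 0 * (X 1 1 - X 0 0) := by
    rcases hM with h | h | h
    · have A1 : X 0 1 * Y 1 0 = X 1 0 * Y 0 1 :=
        mul_left_cancel₀ h (by linear_combination X 0 1 * y1 - Y 0 1 * x1)
      exact ⟨A1, mul_left_cancel₀ h (by linear_combination X 0 1 * y2 - Y 0 1 * x2),
        mul_left_cancel₀ h (by linear_combination X 1 0 * y2 - Y 1 0 * x2 - (M 1 1 - M 0 0) * A1)⟩
    · have A1 : X 0 1 * Y 1 0 = X 1 0 * Y 0 1 :=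
        mul_left_cancel₀ h (by linear_combination X 1 0 * y1 - Y 1 0 * x1)
      exact ⟨A1, mul_left_cancel₀ h (by linear_combination X 0 1 * y3 - Y 0 1 * x3 + (M 1 1 - M 0 0) * A1),
        mul_left_cancel₀ h (by linear_combination X 1 0 * y3 - Y 1 0 * x3)⟩
    · have h' : M 1 1 - M 0 0 ≠ 0 := fun h0 => h (sub_eq_zero.1 h0).symm
      have A2 : X 0 1 * (Y 1 1 - Y 0 0) = Y 0 1 * (X 1 1 - X 0 0) :=
        mul_left_cancel₀ h' (by linear_combination (X 1 1 - X 0 0) * y2 - (Y 1 1 - Y 0 0) * x2)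
      exact ⟨mul_left_cancel₀ h' (by linear_combination Y 0 1 * x3 - X 0 1 * y3 + M 1 0 * A2), A2,
        mul_left_cancel₀ h' (by linear_combination (X 1 1 - X 0 0) * y3 - (Y 1 1 - Y 0 0) * x3)⟩
  ext i j
  fin_cases i <;> fin_cases j <;> simp [Matrix.mul_apply, Fin.sum_univ_two] <;>
    first
    | linear_combination A1
    | linear_combination A2
    | linear_combination -A1
    | linear_combination -A3

theorem isTISubset_centralizer [CharP F 2] (x : Matrix.ProjectiveSpecialLinearGroup (Fin 2) F) :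
    Cfsg.IsTISubset (Subgroup.centralizer ({x} : Set (Matrix.ProjectiveSpecialLinearGroup (Fin 2) F)) :
      Set (Matrix.ProjectiveSpecialLinearGroup (Fin 2) F)) := by
  have hsc : ∀ A : Matrix.SpecialLinearGroup (Fin 2) F,
      A.1 0 1 = 0 → A.1 1 0 = 0 → A.1 0 0 = A.1 1 1 → A = 1 := by
    intro A h1 h2 h3
    have hd := A.2
    rw [Matrix.det_fin_two, h1, h2, ← h3, mul_zero, sub_zero] at hd
    have h00 : A.1 0 0 = 1 := by
      have : (A.1 0 0 - 1) * (A.1 0 0 + 1) = 0 := by linear_combination hd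
      rcases mul_eq_zero.1 this with h | h
      · exact sub_eq_zero.1 h
      · rw [← CharTwo.sub_eq_add] at h; exact sub_eq_zero.1 h
    apply Subtype.ext
    ext i j
    fin_cases i <;> fin_cases j <;> simp [h1, h2, ← h3, h00]
  have hcen : Subgroup.center (Matrix.SpecialLinearGroup (Fin 2) F) = ⊥ := by
    rw [eq_bot_iff]
    intro A hA
    rw [Matrix.SpecialLinearGroup.mem_center_iff] at hA
    obtain ⟨r, -, hr⟩ := hA
    refine Subgroup.mem_bot.2 (hsc A ?_ ?_ ?_) <;> simp [← hr]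
  have hinj : ∀ A B : Matrix.SpecialLinearGroup (Fin 2) F,
      (A : Matrix.ProjectiveSpecialLinearGroup (Fin 2) F) = B → A = B := by
    intro A B h
    have h' := QuotientGroup.eq.1 h
    rw [hcen, Subgroup.mem_bot, inv_mul_eq_one] at h'
    exact h'
  have hCA : ∀ a b c : Matrix.ProjectiveSpecialLinearGroup (Fin 2) F, a ≠ 1 →
      b * a = a * b → c * a = a * c → b * c = c * b := by
    intro a b c ha hb hc
    obtain ⟨A, rfl⟩ := QuotientGroup.mk_surjective a
    obtain ⟨B, rfl⟩ := QuotientGroup.mk_surjective b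
    obtain ⟨C, rfl⟩ := QuotientGroup.mk_surjective c
    have hA : A.1 0 1 ≠ 0 ∨ A.1 1 0 ≠ 0 ∨ A.1 0 0 ≠ A.1 1 1 := by
      by_contra hcon
      push Not at hcon
      exact ha (by rw [hsc A hcon.1 hcon.2.1 hcon.2.2]; rfl)
    have hb' := congrArg Subtype.val (hinj (B * A) (A * B) hb)
    have hc' := congrArg Subtype.val (hinj (C * A) (A * C) hc)
    have := comm_of_comm hA (X := B.1) (Y := C.1) hb'.symm hc'.symm
    exact congrArg (QuotientGroup.mk (s := _)) (Subtype.ext this : B * C = C * B)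
  intro g hg y hy hgy
  by_contra hy1
  apply hg
  simp only [SetLike.mem_coe, Subgroup.mem_centralizer_singleton_iff] at hy hgy
  have hx : x ≠ 1 := by
    intro hx
    apply hg
    rw [hx]
    have : Subgroup.centralizer ({(1 : Matrix.ProjectiveSpecialLinearGroup (Fin 2) F)} : Set _) = ⊤ := by
      rw [eq_top_iff]; intro z _; simp [Subgroup.mem_centralizer_singleton_iff]
    rw [this, Subgroup.normalizer_eq_top]
    exact Subgroup.mem_top g
  have hgy1 : g * y * g⁻¹ ≠ 1 := by simpa using hy1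
  have key : ∀ z : Matrix.ProjectiveSpecialLinearGroup (Fin 2) F, z * x = x * z ↔ z * y = y * z :=
    fun z => ⟨fun h => hCA x z y hx h hy, fun h => hCA y z x hy1 h hy.symm⟩
  have key' : ∀ z : Matrix.ProjectiveSpecialLinearGroup (Fin 2) F,
      z * x = x * z ↔ z * (g * y * g⁻¹) = g * y * g⁻¹ * z :=
    fun z => ⟨fun h => hCA x z _ hx h hgy, fun h => hCA _ z x hgy1 h hgy.symm⟩
  rw [Subgroup.mem_normalizer_iff]
  intro z
  simp only [Subgroup.mem_centralizer_singleton_iff]
  rw [key, key']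
  constructor
  · intro h
    calc g * z * g⁻¹ * (g * y * g⁻¹) = g * (z * y) * g⁻¹ := by group
      _ = g * (y * z) * g⁻¹ := by rw [h]
      _ = g * y * g⁻¹ * (g * z * g⁻¹) := by group
  · intro h
    calc z * y = g⁻¹ * (g * z * g⁻¹ * (g * y * g⁻¹)) * g := by group
      _ = g⁻¹ * (g * y * g⁻¹ * (g * z * g⁻¹)) * g := by rw [h]
      _ = y * z := by group

/-- Let F be a finite field with 2ⁿ elements, n ≥ 2. In PSL₂(F) the centralizer of every element meets each of its conjugates by elements outside its normalizer trivially. -/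
theorem result (n : ℕ) (hn : 2 ≤ n)
    (x : Matrix.ProjectiveSpecialLinearGroup (Fin 2) (GaloisField 2 n)) :
    Cfsg.IsTISubset (Subgroup.centralizer ({x} : Set (Matrix.ProjectiveSpecialLinearGroup (Fin 2) (GaloisField 2 n))) :
      Set (Matrix.ProjectiveSpecialLinearGroup (Fin 2) (GaloisField 2 n))) :=
  isTISubset_centralizer x

end Cfsg.Agent.S4065
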