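import Cfsg.Statements.S4066
import Cfsg.Agent.Eq.Def_OddOrderLocal
import Mathlib

set_option autoImplicit false
open Cfsg

namespace Cfsg.Agent.S4066

variable {G : Type*} [Group G]

theorem mem_normalizer_centralizer
    (hTI : ∀ x : G, Cfsg.IsTISubset (Subgroup.centralizer ({x} : Set G) : Set G))
    {a b g : G} (ha : a ≠ 1) (hab : a * b = b * a) (hg : g * a = a * g) :
    g ∈ Subgroup.normalizer (Subgroup.centralizer ({b} : Set G) : Set G) := by
  by_contra hcon
  have hmem : a ∈ Subgroup.centralizer ({b} : Set G) := Subgroup.mem_centralizer_singleton_iff.2 hab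
  exact ha (hTI b g hcon a hmem (by rw [hg, mul_inv_cancel_right]; exact hmem))

/-- In the centralizer of a non-identity element, an element of `p`-power order lies in every
Sylow `p`-subgroup. -/
theorem mem_sylow_centralizer [Finite G]
    (hTI : ∀ x : G, Cfsg.IsTISubset (Subgroup.centralizer ({x} : Set G) : Set G))
    {p : ℕ} [Fact p.Prime] {z : G} (hz : z ≠ 1) (P : Sylow p G)
    (hP : (P : Subgroup G) ≤ Subgroup.centralizer ({z} : Set G))
    {u : G} (hu : u ∈ Subgroup.centralizer ({z} : Set G)) {k : ℕ} (huk : u ^ p ^ k = 1) :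
    u ∈ (P : Subgroup G) := by
  set K := Subgroup.centralizer ({z} : Set G) with hK
  let u' : K := ⟨u, hu⟩
  have hcomm : ∀ a ∈ Group.conjugatesOfSet ({u'} : Set K), ∀ b ∈ Group.conjugatesOfSet ({u'} : Set K),
      a * b = b * a := by
    have hfix : ∀ g : K, ∀ y : K, y * u' = u' * y → (g * y * g⁻¹) * u' = u' * (g * y * g⁻¹) := by
      intro g y hy
      have hgN := mem_normalizer_centralizer hTI (b := u) hz
        (Subgroup.mem_centralizer_singleton_iff.1 hu).symm (Subgroup.mem_centralizer_singleton_iff.1 g.2)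
      have h1 := (Subgroup.mem_normalizer_iff.1 hgN (y : G)).1
        (Subgroup.mem_centralizer_singleton_iff.2 (congrArg Subtype.val hy))
      exact Subtype.ext (Subgroup.mem_centralizer_singleton_iff.1 h1)
    intro a ha b hb
    obtain ⟨_, rfl, g, rfl⟩ : ∃ w, w = u' ∧ ∃ g : K, g * w * g⁻¹ = a := by
      obtain ⟨w, hw, hc⟩ := Group.mem_conjugatesOfSet_iff.1 ha
      exact ⟨w, hw, isConj_iff.1 hc⟩
    obtain ⟨_, rfl, h, rfl⟩ : ∃ w, w = u' ∧ ∃ g : K, g * w * g⁻¹ = b := by
      obtain ⟨w, hw, hc⟩ := Group.mem_conjugatesOfSet_iff.1 hb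
      exact ⟨w, hw, isConj_iff.1 hc⟩
    have h2 := hfix (h⁻¹ * g) u' rfl
    calc (g * u' * g⁻¹) * (h * u' * h⁻¹)
        = h * ((h⁻¹ * g * u' * (h⁻¹ * g)⁻¹) * u') * h⁻¹ := by group
      _ = h * (u' * (h⁻¹ * g * u' * (h⁻¹ * g)⁻¹)) * h⁻¹ := by rw [h2]
      _ = (h * u' * h⁻¹) * (g * u' * g⁻¹) := by group
  haveI hc := Subgroup.isMulCommutative_closure hcomm
  have hp : IsPGroup p (Subgroup.normalClosure ({u'} : Set K)) := by
    have hall : ∀ y ∈ Subgroup.closure (Group.conjugatesOfSet ({u'} : Set K)), y ^ p ^ k = 1 := by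
      intro y hy
      induction hy using Subgroup.closure_induction with
      | mem y hy =>
        obtain ⟨w, hw, hc⟩ := Group.mem_conjugatesOfSet_iff.1 hy
        obtain ⟨g, rfl⟩ := isConj_iff.1 hc
        rw [conj_pow, Set.mem_singleton_iff.1 hw, show u' ^ p ^ k = 1 from Subtype.ext huk]
        simp
      | one => simp
      | mul a b ha hb ha' hb' =>
        have : Commute a b := congrArg Subtype.val
          (mul_comm' (⟨a, ha⟩ : Subgroup.closure (Group.conjugatesOfSet ({u'} : Set K))) ⟨b, hb⟩)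
        rw [this.mul_pow, ha', hb', one_mul]
      | inv a ha ha' => rw [inv_pow, ha', inv_one]
    intro y
    exact ⟨k, Subtype.ext (hall _ y.2)⟩
  let P' : Sylow p K := P.subtype hP
  have h := P'.is_maximal' (IsPGroup.to_sup_of_normal_left hp P'.isPGroup') le_sup_right
  have h1 : u' ∈ Subgroup.normalClosure ({u'} : Set K) ⊔ (P' : Subgroup K) :=
    Subgroup.mem_sup_left (Subgroup.subset_normalClosure rfl)
  rw [h] at h1
  exact Subgroup.mem_subgroupOf.1 h1

theorem exists_central [Finite G] {p : ℕ} [Fact p.Prime] (P : Sylow p G) (h : (P : Subgroup G) ≠ ⊥) :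
    ∃ z : G, z ≠ 1 ∧ z ∈ (P : Subgroup G) ∧ (P : Subgroup G) ≤ Subgroup.centralizer ({z} : Set G) := by
  haveI : Nontrivial (P : Subgroup G) := (Subgroup.nontrivial_iff_ne_bot _).2 h
  haveI := P.isPGroup'.center_nontrivial
  obtain ⟨⟨z, hz⟩, hne⟩ := exists_ne (1 : Subgroup.center (P : Subgroup G))
  refine ⟨z, fun h => hne (Subtype.ext (Subtype.ext h)), z.2, fun y hy => ?_⟩
  rw [Subgroup.mem_centralizer_singleton_iff]
  exact congrArg Subtype.val (Subgroup.mem_center_iff.1 hz ⟨y, hy⟩)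

theorem exists_pow_eq_one_of_mem {p : ℕ} [Fact p.Prime] (P : Sylow p G) {u : G} (hu : u ∈ (P : Subgroup G)) :
    ∃ k : ℕ, u ^ p ^ k = 1 := by
  obtain ⟨k, hk⟩ := P.isPGroup' ⟨u, hu⟩
  exact ⟨k, by simpa using congrArg Subtype.val hk⟩

/-- Let G be a finite group in which the centralizer of every element meets each of its conjugates by elements outside its normalizer trivially. Then any two distinct Sylow p-subgroups of G, for any prime p, intersect trivially. -/
theorem result {G : Type*} [Group G] [Finite G] (hTI : ∀ x : G, Cfsg.IsTISubset (Subgroup.centralizer ({x} : Set G) : Set G))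
    {p : ℕ} [Fact p.Prime] (P Q : Sylow p G) (hPQ : P ≠ Q) : (P : Subgroup G) ⊓ (Q : Subgroup G) = ⊥ := by
  by_contra hne
  obtain ⟨x, ⟨hxP, hxQ⟩, hx⟩ := Subgroup.ne_bot_iff_exists_ne_one.1 hne |>.elim
    fun x hx => (⟨(x : G), x.2, fun h => hx (Subtype.ext h)⟩ : ∃ x, x ∈ (P : Subgroup G) ⊓ (Q : Subgroup G) ∧ x ≠ 1)
  have hPne : (P : Subgroup G) ≠ ⊥ := fun h => hx (Subgroup.mem_bot.1 (h ▸ hxP))
  have hQne : (Q : Subgroup G) ≠ ⊥ := fun h => hx (Subgroup.mem_bot.1 (h ▸ hxQ))
  obtain ⟨z, hz, hzP, hPz⟩ := exists_central P hPne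
  obtain ⟨w, hw, hwQ, hQw⟩ := exists_central Q hQne
  -- p-elements centralizing a non-identity element of P lie in P
  have key : ∀ a ∈ (P : Subgroup G), a ≠ 1 → ∀ u : G, u * a = a * u → ∀ k : ℕ, u ^ p ^ k = 1 →
      u ∈ (P : Subgroup G) := by
    intro a ha ha1 u hu k huk
    have hN := mem_normalizer_centralizer hTI (b := z) ha1
      (Subgroup.mem_centralizer_singleton_iff.1 (hPz ha)) hu
    have huN : u ∈ Subgroup.normalizer ((P : Subgroup G) : Set G) := by
      rw [Subgroup.mem_normalizer_iff_conj_image_eq]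
      refine Set.eq_of_subset_of_ncard_le ?_ (Set.ncard_image_of_injective _ (MulAut.conj u).injective).ge
      rintro _ ⟨y, hy, rfl⟩
      obtain ⟨j, hj⟩ := exists_pow_eq_one_of_mem P hy
      have hy' := (Subgroup.mem_normalizer_iff.1 hN y).1 (hPz hy)
      refine mem_sylow_centralizer hTI hz P hPz (u := (MulAut.conj u) y) hy' (k := j) ?_
      rw [← map_pow, hj, map_one]
    have h1 : Subgroup.zpowers u ≤ (P : Subgroup G) := by
      have hp : IsPGroup p (Subgroup.zpowers u) := fun y => by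
        obtain ⟨i, hi⟩ := Subgroup.mem_zpowers_iff.1 y.2
        refine ⟨k, Subtype.ext ?_⟩
        rw [SubgroupClass.coe_pow, ← hi, ← zpow_natCast, ← zpow_mul, mul_comm, zpow_mul, zpow_natCast, huk]
        simp
      exact le_sup_left.trans_eq (P.is_maximal'
        (IsPGroup.to_sup_of_normal_right' hp P.isPGroup' (Subgroup.zpowers_le.2 huN)) le_sup_right)
    exact h1 (Subgroup.mem_zpowers u)
  obtain ⟨j, hj⟩ := exists_pow_eq_one_of_mem Q hwQ
  have hwP : w ∈ (P : Subgroup G) :=
    key x hxP hx w (Subgroup.mem_centralizer_singleton_iff.1 (hQw hxQ)).symm j hj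
  have hQP : (Q : Subgroup G) ≤ (P : Subgroup G) := by
    intro u hu
    obtain ⟨k, hk⟩ := exists_pow_eq_one_of_mem Q hu
    exact key w hwP hw u (Subgroup.mem_centralizer_singleton_iff.1 (hQw hu)) k hk
  exact hPQ (Sylow.ext (Q.is_maximal' P.isPGroup' hQP))

end Cfsg.Agent.S4066
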