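import Cfsg.Statements.S4067
import Mathlib
import Cfsg.Agent.PGroup.Normal
import Cfsg.Agent.PGroup.Frattini

set_option autoImplicit false
open Cfsg

namespace Cfsg.Agent.S4067

open scoped commutatorElement

universe u

section Counting

variable {A X : Type*} [Group A] [MulAction A X] [Finite X]

theorem orbits_mul_le (w : X → ℕ) (c : ℕ) (h : ∀ x : X, c ≤ w x * Nat.card (MulAction.orbit A x)) :
    c * Nat.card (MulAction.orbitRel.Quotient A X) ≤ ∑ᶠ x, w x := by
  classical
  haveI := Fintype.ofFinite X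
  haveI : Fintype (MulAction.orbitRel.Quotient A X) := Fintype.ofFinite _
  rw [finsum_eq_sum_of_fintype, Nat.card_eq_fintype_card, mul_comm, ← Finset.card_univ,
    ← Finset.sum_fiberwise Finset.univ (Quotient.mk'' : X → MulAction.orbitRel.Quotient A X) w]
  rw [← smul_eq_mul, ← Finset.sum_const]
  refine Finset.sum_le_sum fun q _ => ?_
  induction q using Quotient.inductionOn' with
  | h x =>
    set s := Finset.univ.filter fun y : X =>
      (Quotient.mk'' y : MulAction.orbitRel.Quotient A X) = Quotient.mk'' x with hs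
    have hx : x ∈ s := by simp [hs]
    have hcard : ∀ y ∈ s, Nat.card (MulAction.orbit A y) = s.card := by
      intro y hy
      have hyx : y ∈ MulAction.orbit A x := by
        have h1 := (Finset.mem_filter.1 hy).2
        rwa [Quotient.eq'', MulAction.orbitRel_apply] at h1
      rw [MulAction.orbit_eq_iff.2 hyx, ← Nat.card_eq_finsetCard]
      refine Nat.card_congr (Equiv.subtypeEquivRight fun z => ?_)
      simp [hs, Quotient.eq'', MulAction.orbitRel_apply]
    have h2 : ∑ y ∈ s, c ≤ ∑ y ∈ s, w y * s.card := by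
      refine Finset.sum_le_sum fun y hy => ?_
      rw [← hcard y hy]
      exact h y
    rw [Finset.sum_const, smul_eq_mul, ← Finset.sum_mul, mul_comm] at h2
    exact Nat.le_of_mul_le_mul_right h2 (Finset.card_pos.2 ⟨x, hx⟩)

end Counting

section Classes

variable {G : Type*} [Group G] [Finite G]

instance orbit_nonempty' {A X : Type*} [Group A] [MulAction A X] (x : X) :
    Nonempty (MulAction.orbit A x) := ⟨⟨x, MulAction.mem_orbit_self x⟩⟩

theorem card_conj_orbit_ge {x : G} (hx : x ∉ Subgroup.center G) :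
    (Nat.card G).minFac ≤ Nat.card (MulAction.orbit (ConjAct G) x) := by
  have hdvd : Nat.card (MulAction.orbit (ConjAct G) x) ∣ Nat.card G := by
    rw [Nat.card_congr (MulAction.orbitEquivQuotientStabilizer (ConjAct G) x)]
    exact (Subgroup.card_quotient_dvd_card _).trans (dvd_of_eq (Nat.card_congr ConjAct.ofConjAct.toEquiv))
  refine Nat.minFac_le_of_dvd ?_ hdvd
  have hpos : Nat.card (MulAction.orbit (ConjAct G) x) ≠ 0 := Nat.card_pos.ne'
  suffices Nat.card (MulAction.orbit (ConjAct G) x) ≠ 1 by omega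
  intro h1
  refine hx (Subgroup.mem_center_iff.2 fun g => ?_)
  haveI := (Nat.card_eq_one_iff_unique.1 h1).1
  have h2 : ConjAct.toConjAct g • x = x := congrArg Subtype.val (Subsingleton.elim
    (⟨_, MulAction.mem_orbit x (ConjAct.toConjAct g)⟩ : MulAction.orbit (ConjAct G) x)
    ⟨x, MulAction.mem_orbit_self x⟩)
  rw [ConjAct.toConjAct_smul, mul_inv_eq_iff_eq_mul] at h2
  exact h2

theorem sum_ite_center {w v : ℕ} (s : Subgroup G) [DecidablePred (· ∈ s)] :
    ∑ᶠ x : G, (if x ∈ s then w else v) = w * Nat.card s + v * (Nat.card G - Nat.card s) := by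
  classical
  haveI := Fintype.ofFinite G
  rw [finsum_eq_sum_of_fintype, Finset.sum_ite, Finset.sum_const, Finset.sum_const, smul_eq_mul,
    smul_eq_mul, Finset.filter_not, Finset.card_sdiff, Finset.inter_univ, Finset.card_univ,
    ← Nat.card_eq_fintype_card, mul_comm w, mul_comm v, ← Fintype.card_subtype,
    ← Nat.card_eq_fintype_card]

/-- A finite group that is not nilpotent has at most `|G| / p` classes. -/
theorem classes_bound : ∀ (n : ℕ) (H : Type u) [Group H] [Finite H], Nat.card H = n →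
    ¬ Group.IsNilpotent H →
    Nat.card (MulAction.orbitRel.Quotient (ConjAct H) H) * (Nat.card H).minFac ≤ Nat.card H := by
  intro n
  induction n using Nat.strong_induction_on with
  | _ n ih =>
    intro H _ _ hn hnil
    classical
    have hne1 : Nat.card H ≠ 1 := fun h1 => by
      haveI := (Nat.card_eq_one_iff_unique.1 h1).1
      exact hnil inferInstance
    have hp := Nat.minFac_prime hne1
    set Z := Subgroup.center H with hZ
    by_cases hZ1 : Z = ⊥
    · have h := orbits_mul_le (A := ConjAct H) (fun x : H => if x ∈ Z then (Nat.card H).minFac else 1)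
        (Nat.card H).minFac (fun x => by
          split_ifs with hx
          · exact le_mul_of_one_le_right (Nat.zero_le _) Nat.card_pos
          · rw [one_mul]; exact card_conj_orbit_ge hx)
      rw [sum_ite_center, hZ1, Subgroup.card_bot] at h
      obtain ⟨m, hm⟩ := Nat.minFac_dvd (Nat.card H)
      set k := Nat.card (MulAction.orbitRel.Quotient (ConjAct H) H)
      set p := (Nat.card H).minFac
      have h2 : p * k < p * (m + 1) := by
        have := hp.two_le
        have hG : 0 < Nat.card H := Nat.card_pos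
        rw [mul_add, ← hm]
        omega
      have h3 := Nat.lt_of_mul_lt_mul_left h2
      rw [hm, mul_comm k]
      exact Nat.mul_le_mul_left _ (by omega)
    · have hnQ : ¬ Group.IsNilpotent (H ⧸ Z) := fun h => hnil (of_quotient_center_nilpotent h)
      have hcard := Subgroup.card_eq_card_quotient_mul_card_subgroup Z
      have h1 : 1 < Nat.card Z := Subgroup.one_lt_card_iff_ne_bot Z |>.2 hZ1
      have hlt : Nat.card (H ⧸ Z) < n := by
        rw [← hn, hcard]
        exact lt_mul_of_one_lt_right Nat.card_pos h1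
      have h2 := ih _ hlt (H ⧸ Z) rfl hnQ
      have hne1' : Nat.card (H ⧸ Z) ≠ 1 := fun h => by
        haveI := (Nat.card_eq_one_iff_unique.1 h).1
        exact hnQ inferInstance
      have hle : (Nat.card H).minFac ≤ (Nat.card (H ⧸ Z)).minFac :=
        Nat.minFac_le_of_dvd (Nat.minFac_prime hne1').two_le
          ((Nat.minFac_dvd _).trans (Subgroup.card_quotient_dvd_card Z))
      have hk : Nat.card (MulAction.orbitRel.Quotient (ConjAct H) H) ≤
          Nat.card (MulAction.orbitRel.Quotient (ConjAct (H ⧸ Z)) (H ⧸ Z)) * Nat.card Z := by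
        rw [← Nat.card_prod]
        refine Nat.card_le_card_of_surjective
          (fun qz => Quotient.mk'' ((Quotient.out qz.1).out * (qz.2 : H))) ?_
        intro q
        induction q using Quotient.inductionOn' with
        | h x =>
          set q' : MulAction.orbitRel.Quotient (ConjAct (H ⧸ Z)) (H ⧸ Z) :=
            Quotient.mk'' (QuotientGroup.mk x) with hq'
          have hrel : (Quotient.out q') ∈ MulAction.orbit (ConjAct (H ⧸ Z)) (QuotientGroup.mk x : H ⧸ Z) := by
            rw [← MulAction.orbitRel_apply, ← Quotient.eq'']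
            exact Quotient.out_eq' q'
          obtain ⟨c, hc⟩ := hrel
          obtain ⟨g, hg⟩ := QuotientGroup.mk_surjective (ConjAct.ofConjAct c)
          have hc' : (QuotientGroup.mk (g * x * g⁻¹) : H ⧸ Z) = Quotient.out q' := by
            rw [← hc]
            simp only [ConjAct.smul_def, ← hg]
            rfl
          have hz : (Quotient.out q').out⁻¹ * (g * x * g⁻¹) ∈ Z := by
            rw [← QuotientGroup.eq, QuotientGroup.out_eq', hc']
          refine ⟨(q', ⟨_, hz⟩), ?_⟩
          simp only [mul_inv_cancel_left]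
          rw [Quotient.eq'', MulAction.orbitRel_apply]
          exact ⟨ConjAct.toConjAct g, ConjAct.toConjAct_smul g x⟩
      calc Nat.card (MulAction.orbitRel.Quotient (ConjAct H) H) * (Nat.card H).minFac
          ≤ Nat.card (MulAction.orbitRel.Quotient (ConjAct (H ⧸ Z)) (H ⧸ Z)) * Nat.card Z *
            (Nat.card (H ⧸ Z)).minFac := Nat.mul_le_mul hk hle
        _ = Nat.card (MulAction.orbitRel.Quotient (ConjAct (H ⧸ Z)) (H ⧸ Z)) *
            (Nat.card (H ⧸ Z)).minFac * Nat.card Z := by ring
        _ ≤ Nat.card (H ⧸ Z) * Nat.card Z := Nat.mul_le_mul_right _ h2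
        _ = Nat.card H := hcard.symm

theorem aut_le_conj :
    Nat.card (MulAction.orbitRel.Quotient (MulAut G) G) ≤
      Nat.card (MulAction.orbitRel.Quotient (ConjAct G) G) := by
  refine Nat.card_le_card_of_surjective
    (Quotient.lift (fun x => Quotient.mk'' x) fun a b hab => ?_) ?_
  · obtain ⟨g, rfl⟩ := (MulAction.orbitRel_apply.1 hab : a ∈ MulAction.orbit (ConjAct G) b)
    rw [Quotient.eq'', MulAction.orbitRel_apply]
    exact ⟨MulAut.conj (ConjAct.ofConjAct g), (ConjAct.smul_def g b).symm⟩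
  · intro q
    induction q using Quotient.inductionOn' with
    | h x => exact ⟨Quotient.mk'' x, rfl⟩

end Classes

section Transvection

variable {G : Type*} [Group G]

/-- The automorphism fixing `M` and sending `y` to `y * a`. -/
theorem exists_transv [Finite G] {p : ℕ} [Fact p.Prime] (M : Subgroup G) [M.Normal]
    (hM : M.index = p) {y : G} (hy : y ∉ M) {a : G} (ha : a ∈ M) (hac : ∀ m ∈ M, a * m = m * a)
    (hpow : (y * a) ^ p = y ^ p) :
    ∃ θ : MulAut G, (∀ m ∈ M, θ m = m) ∧ θ y = y * a := by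
  have hp : p.Prime := Fact.out
  have hconj : MulAut.conjNormal (H := M) (y * a) = MulAut.conjNormal y := by
    refine MulEquiv.ext fun m => Subtype.ext ?_
    simp only [MulAut.conjNormal_apply]
    rw [show y * a * (m : G) * (y * a)⁻¹ = y * (a * m * a⁻¹) * y⁻¹ by group, hac _ m.2,
      mul_inv_cancel_right]
  let φ : Multiplicative ℤ →* MulAut M := zpowersHom (MulAut M) (MulAut.conjNormal y)
  have hlift : ∀ u : G, MulAut.conjNormal (H := M) u = MulAut.conjNormal y →
      ∀ g : Multiplicative ℤ, M.subtype.comp (φ g).toMonoidHom =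
        (MulAut.conj (zpowersHom G u g)).toMonoidHom.comp M.subtype := by
    intro u hu g
    ext m
    simp [φ, zpowersHom_apply, ← hu, ← map_zpow, MulAut.conjNormal_apply]
  let f₁ : M ⋊[φ] Multiplicative ℤ →* G :=
    SemidirectProduct.lift M.subtype (zpowersHom G y) (hlift y rfl)
  let f₂ : M ⋊[φ] Multiplicative ℤ →* G :=
    SemidirectProduct.lift M.subtype (zpowersHom G (y * a)) (hlift _ hconj)
  have happ : ∀ s : M ⋊[φ] Multiplicative ℤ,
      f₁ s = (s.left : G) * y ^ s.right.toAdd ∧ f₂ s = (s.left : G) * (y * a) ^ s.right.toAdd :=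
    fun s => ⟨rfl, rfl⟩
  have hsurj : ∀ g : G, ∃ s, f₁ s = g := by
    intro g
    have htop : ⊤ ≤ f₁.range := by
      have hle : M ≤ f₁.range := fun m hm => ⟨SemidirectProduct.inl ⟨m, hm⟩, by
        simp [f₁]⟩
      have hyr : y ∈ f₁.range := ⟨SemidirectProduct.inr (Multiplicative.ofAdd 1), by
        simp [f₁, zpowersHom_apply]⟩
      have hlt : M < f₁.range := lt_of_le_of_ne hle fun he => hy (he ▸ hyr)
      rcases (Nat.dvd_prime hp).1 (hM ▸ Subgroup.index_dvd_of_le hle) with h1 | h1
      · exact (Subgroup.index_eq_one.1 h1).ge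
      · exact absurd (Subgroup.index_strictAnti hlt) (by rw [h1, hM]; exact lt_irrefl p)
    exact htop (Subgroup.mem_top g)
  have hker : f₁.ker ≤ f₂.ker := by
    intro s hs
    rw [MonoidHom.mem_ker] at hs ⊢
    rw [(happ s).1] at hs
    rw [(happ s).2]
    set n := s.right.toAdd
    have hyn : y ^ n ∈ M := by
      rw [eq_inv_of_mul_eq_one_right hs]
      exact inv_mem s.left.2
    have hdvd : ((p : ℕ) : ℤ) ∣ n := by
      have h1 : (QuotientGroup.mk' M y) ^ n = 1 := by
        rw [← map_zpow]
        exact (QuotientGroup.eq_one_iff _).2 hyn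
      have h2 := orderOf_dvd_iff_zpow_eq_one.2 h1
      have h3 : orderOf (QuotientGroup.mk' M y) = p := by
        refine orderOf_eq_prime ?_ fun h => hy ((QuotientGroup.eq_one_iff _).1 h)
        rw [← hM, Subgroup.index_eq_card]
        exact pow_card_eq_one'
      rwa [h3] at h2
    obtain ⟨k, hk⟩ := hdvd
    rw [hk, zpow_mul, zpow_natCast, hpow, ← zpow_natCast, ← zpow_mul, ← hk]
    exact hs
  let θ : G →* G := f₁.liftOfSurjective (fun g => hsurj g) ⟨f₂, hker⟩
  have hθ : ∀ s, θ (f₁ s) = f₂ s := fun s =>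
    MonoidHom.liftOfRightInverse_comp_apply _ _ _ _ s
  have hθM : ∀ m ∈ M, θ m = m := by
    intro m hm
    have h := hθ (SemidirectProduct.inl ⟨m, hm⟩)
    simpa [f₁, f₂] using h
  have hθy : θ y = y * a := by
    have h := hθ (SemidirectProduct.inr (Multiplicative.ofAdd 1))
    simpa [f₁, f₂, zpowersHom_apply] using h
  have hbij : Function.Bijective θ := by
    have hs : Function.Surjective θ := by
      rw [← MonoidHom.range_eq_top]
      have hle : M ≤ θ.range := fun m hm => ⟨m, hθM m hm⟩
      have hlt : M < θ.range := lt_of_le_of_ne hle fun he => hy (by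
        have h1 : y * a ∈ θ.range := ⟨y, hθy⟩
        rw [← he] at h1
        simpa using mul_mem h1 (inv_mem ha))
      rcases (Nat.dvd_prime hp).1 (hM ▸ Subgroup.index_dvd_of_le hle) with h1 | h1
      · exact Subgroup.index_eq_one.1 h1
      · exact absurd (Subgroup.index_strictAnti hlt) (by rw [h1, hM]; exact lt_irrefl p)
    exact ⟨Finite.injective_iff_surjective.2 hs, hs⟩
  exact ⟨MulEquiv.ofBijective θ hbij, hθM, hθy⟩

end Transvection

section PGroupCase

variable {P : Type*} [Group P] [Finite P] {p : ℕ} [Fact p.Prime]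

theorem dvd_of_zpow_mem {K : Subgroup P} {a : P} {m : ℕ} (ham : a ^ p ^ m ∈ K) (ha : a ∉ K) {d : ℤ}
    (hd : a ^ d ∈ K) : (p : ℤ) ∣ d := by
  by_contra hnd
  have hcop : IsCoprime ((p : ℤ) ^ m) d :=
    ((Nat.prime_iff_prime_int.1 Fact.out).coprime_iff_not_dvd.2 hnd).pow_left
  obtain ⟨u, v, huv⟩ := hcop
  refine ha ?_
  have h : a = (a ^ p ^ m) ^ u * (a ^ d) ^ v := by
    rw [← zpow_natCast, ← zpow_mul, ← zpow_mul, ← zpow_add]
    conv_lhs => rw [← zpow_one a, ← huv]
    congr 1
    push_cast
    ring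
  rw [h]
  exact mul_mem (zpow_mem ham u) (zpow_mem hd v)

theorem orbit_card_ge {x : P} {ω : P} (hω : orderOf ω = p) (f : ℕ → P)
    (hmem : ∀ i k : ℕ, ∃ σ : MulAut P, σ x = f i * ω ^ k)
    (hsep : ∀ i < p, ∀ j < p, (f i)⁻¹ * f j ∈ Subgroup.zpowers ω → i = j) :
    p * p ≤ Nat.card (MulAction.orbit (MulAut P) x) := by
  have hinj : Function.Injective (fun ik : Fin p × Fin p =>
      (⟨f ik.1 * ω ^ (ik.2 : ℕ), by
        obtain ⟨σ, hσ⟩ := hmem ik.1 ik.2
        exact ⟨σ, hσ⟩⟩ : MulAction.orbit (MulAut P) x)) := by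
    rintro ⟨i, k⟩ ⟨j, l⟩ h
    have h' : f i * ω ^ (k : ℕ) = f j * ω ^ (l : ℕ) := congrArg Subtype.val h
    have hij : i = j := Fin.ext (hsep _ i.2 _ j.2 (by
      rw [show (f i)⁻¹ * f j = ω ^ (k : ℕ) * (ω ^ (l : ℕ))⁻¹ by
        rw [eq_mul_inv_iff_mul_eq, mul_assoc, ← h', inv_mul_cancel_left]]
      exact mul_mem (pow_mem (Subgroup.mem_zpowers ω) _) (inv_mem (pow_mem (Subgroup.mem_zpowers ω) _))))
    subst hij
    have hkl := pow_injOn_Iio_orderOf (x := ω) (by rw [hω]; exact k.2) (by rw [hω]; exact l.2)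
      (mul_left_cancel h')
    exact Prod.ext rfl (Fin.ext hkl)
  have := Nat.card_le_card_of_injective _ hinj
  simpa using this

theorem mem_zpowers_of_omega {ω : P} (hω : orderOf ω = p) (hP : IsPGroup p P)
    (hΩ : ∀ z ∈ Subgroup.center P, z ^ p = 1 → z ∈ Subgroup.zpowers ω) :
    ∀ e : ℕ, ∀ u v : P, u ∈ Subgroup.center P → v ∈ Subgroup.center P → v ^ p ^ e = 1 →
      p ^ e ∣ orderOf u → v ∈ Subgroup.zpowers u := by
  have hp : p.Prime := Fact.out
  intro e
  induction e with
  | zero =>
    intro u v _ _ hv _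
    simp only [pow_zero, pow_one] at hv
    rw [hv]
    exact one_mem _
  | succ e ih =>
    intro u v hu hv hvp hdvd
    obtain ⟨k, hk⟩ := ih u (v ^ p) hu (pow_mem hv p) (by rw [← pow_mul, ← pow_succ', hvp])
      ((pow_dvd_pow p e.le_succ).trans hdvd)
    simp only at hk
    have h1 : u ^ (k * (p : ℤ) ^ e) = 1 := by
      rw [zpow_mul, hk, ← Nat.cast_pow, zpow_natCast, ← pow_mul, ← pow_succ', hvp]
    have h2 : (p : ℤ) ∣ k := by
      have h3 : ((p ^ (e + 1) : ℕ) : ℤ) ∣ k * (p : ℤ) ^ e :=
        (Int.natCast_dvd_natCast.2 hdvd).trans (orderOf_dvd_iff_zpow_eq_one.2 h1)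
      push_cast at h3
      rw [pow_succ'] at h3
      exact Int.dvd_of_mul_dvd_mul_right (pow_ne_zero e (by exact_mod_cast hp.ne_zero)) h3
    obtain ⟨k', rfl⟩ := h2
    have hcomm : Commute v (u ^ (-k')) := (Subgroup.mem_center_iff.1 hv _).symm
    have h4 : (v * u ^ (-k')) ^ p = 1 := by
      rw [hcomm.mul_pow, ← hk, ← zpow_natCast (u ^ (-k')), ← zpow_mul, ← zpow_add]
      rw [show (p : ℤ) * k' + -k' * (p : ℤ) = 0 by ring, zpow_zero]
    have h5 := hΩ _ (mul_mem hv (zpow_mem hu _)) h4
    obtain ⟨n, hn⟩ := IsPGroup.iff_orderOf.1 hP u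
    have hωu : ω ∈ Subgroup.zpowers u := by
      have hn0 : n ≠ 0 := by
        rintro rfl
        rw [hn, pow_zero, Nat.dvd_one] at hdvd
        exact (Nat.one_lt_pow (Nat.succ_ne_zero e) hp.one_lt).ne' hdvd
      obtain ⟨m, rfl⟩ := Nat.exists_eq_succ_of_ne_zero hn0
      have h6 : orderOf (u ^ p ^ m) = p := by
        rw [orderOf_pow' _ (pow_ne_zero _ hp.ne_zero), hn, Nat.gcd_eq_right (pow_dvd_pow p m.le_succ),
          pow_succ', Nat.mul_div_cancel _ (pow_pos hp.pos _)]
      have h7 := hΩ _ (pow_mem hu _) (by rw [← h6]; exact pow_orderOf_eq_one _)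
      have h8 : Subgroup.zpowers (u ^ p ^ m) = Subgroup.zpowers ω :=
        Subgroup.eq_of_le_of_card_ge (by simpa using h7)
          (by rw [Nat.card_zpowers, Nat.card_zpowers, h6, hω])
      exact Subgroup.zpowers_le.2 (pow_mem (Subgroup.mem_zpowers u) _)
        (h8 ▸ Subgroup.mem_zpowers ω)
    have h9 : v * u ^ (-k') ∈ Subgroup.zpowers u := Subgroup.zpowers_le.2 hωu h5
    simpa using mul_mem h9 (zpow_mem (Subgroup.mem_zpowers u) k')

theorem mul_pow_comm {y a c : P} (hc : ∀ g : P, c * g = g * c) (h : a * y = c * (y * a)) :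
    ∀ n : ℕ, (y * a) ^ n = c ^ n.choose 2 * (y ^ n * a ^ n) := by
  have hc' : ∀ n : ℕ, ∀ g : P, c ^ n * g = g * c ^ n := fun n g => (Commute.pow_left (hc g) n)
  have h1 : ∀ n : ℕ, a ^ n * y = c ^ n * (y * a ^ n) := by
    intro n
    induction n with
    | zero => simp
    | succ n ih =>
      calc a ^ (n + 1) * y = a * (a ^ n * y) := by rw [pow_succ', mul_assoc]
        _ = a * c ^ n * (y * a ^ n) := by rw [ih, mul_assoc]
        _ = c ^ n * (a * y) * a ^ n := by rw [← hc' n a]; simp only [mul_assoc]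
        _ = c ^ n * c * (y * (a * a ^ n)) := by rw [h]; simp only [mul_assoc]
        _ = c ^ (n + 1) * (y * a ^ (n + 1)) := by rw [← pow_succ, ← pow_succ']
  intro n
  induction n with
  | zero => simp
  | succ n ih =>
    calc (y * a) ^ (n + 1) = c ^ n.choose 2 * (y ^ n * a ^ n) * (y * a) := by rw [pow_succ, ih]
      _ = c ^ n.choose 2 * (y ^ n * (a ^ n * y) * a) := by simp only [mul_assoc]
      _ = c ^ n.choose 2 * ((y ^ n * c ^ n) * (y * a ^ n) * a) := by
        rw [h1]; simp only [mul_assoc]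
      _ = c ^ n.choose 2 * c ^ n * (y ^ (n + 1) * a ^ (n + 1)) := by
        rw [← hc' n (y ^ n), pow_succ, pow_succ]; simp only [mul_assoc]
      _ = c ^ (n + 1).choose 2 * (y ^ (n + 1) * a ^ (n + 1)) := by
        rw [← pow_add, show (n + 1).choose 2 = n.choose 2 + n by
          show (n + 1).choose (1 + 1) = _
          rw [Nat.choose_succ_succ', Nat.choose_one_right]; exact add_comm _ _]

/-- A maximal subgroup containing the centre outside which all orbits have at least `p ^ 2`
elements. -/
theorem exists_big_orbits (hP : IsPGroup p P) (hna : ¬ IsMulCommutative P) :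
    ∃ M : Subgroup P, M.index = p ∧ Subgroup.center P ≤ M ∧
      ∀ x ∉ M, p * p ≤ Nat.card (MulAction.orbit (MulAut P) x) := by
  have hp : p.Prime := Fact.out
  have hD : commutator P ≠ ⊥ := fun h => hna ((commutator_eq_bot_iff_center_eq_top P).1 h |> fun hc =>
    ⟨⟨fun a b => (Subgroup.mem_center_iff.1 (hc ▸ Subgroup.mem_top b) a)⟩⟩)
  obtain ⟨w, hw, hw1⟩ := (Subgroup.bot_or_exists_ne_one (commutator P ⊓ Subgroup.center P)).resolve_left
    (CfsgLib.PGroup.inf_center_ne_bot hP _ hD)
  obtain ⟨n, hn⟩ := IsPGroup.iff_orderOf.1 hP w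
  have hn0 : n ≠ 0 := by
    rintro rfl
    exact hw1 (orderOf_eq_one_iff.1 (by rw [hn, pow_zero]))
  obtain ⟨m, rfl⟩ := Nat.exists_eq_succ_of_ne_zero hn0
  set ω := w ^ p ^ m with hωdef
  have hω : orderOf ω = p := by
    rw [hωdef, orderOf_pow' _ (pow_ne_zero _ hp.ne_zero), hn,
      Nat.gcd_eq_right (pow_dvd_pow p m.le_succ), pow_succ', Nat.mul_div_cancel _ (pow_pos hp.pos _)]
  have hωZ : ω ∈ Subgroup.center P := pow_mem hw.2 _
  have hωD : ω ∈ commutator P := pow_mem hw.1 _
  set W := Subgroup.zpowers ω with hW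
  have hWZ : W ≤ Subgroup.center P := Subgroup.zpowers_le.2 hωZ
  haveI hWn : W.Normal := ⟨fun n hn g => by
    rw [Subgroup.mem_center_iff.1 (hWZ hn) g, mul_inv_cancel_right]; exact hn⟩
  -- the translations by `ω`
  have htr : ∀ M : Subgroup P, M.index = p → ∀ x ∉ M, ∀ k : ℕ,
      ∃ τ : MulAut P, (∀ m ∈ M, τ m = m) ∧ τ x = x * ω ^ k := by
    intro M hM x hx k
    have hMc := CfsgLib.PGroup.isCoatom_of_index_eq hM
    haveI := CfsgLib.PGroup.normal_of_coatom hP hMc
    have hωM : ω ∈ M :=
      (CfsgLib.PGroup.mem_frattini_iff.1 (CfsgLib.PGroup.commutator_le_frattini hP hωD)) M hMc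
    obtain ⟨τ, hτ, hτx⟩ := exists_transv M hM hx hωM
      (fun g _ => (Subgroup.mem_center_iff.1 hωZ g).symm)
      (by rw [Commute.mul_pow (Subgroup.mem_center_iff.1 hωZ x), ← hω, pow_orderOf_eq_one, mul_one])
    refine ⟨τ ^ k, fun g hg => ?_, ?_⟩
    · induction k with
      | zero => rfl
      | succ k ih => rw [pow_succ', MulAut.mul_apply, ih, hτ g hg]
    · induction k with
      | zero => simp
      | succ k ih =>
        rw [pow_succ', MulAut.mul_apply, ih, map_mul, map_pow, hτx, hτ ω hωM, mul_assoc, ← pow_succ']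
  by_cases hX : ∃ x g : P, ⁅g, x⁆ ∉ W
  · obtain ⟨x₀, g₀, hx₀⟩ := hX
    let X : Subgroup P := (Subgroup.center (P ⧸ W)).comap (QuotientGroup.mk' W)
    have hXne : X ≠ ⊤ := fun h => by
      refine hx₀ ((QuotientGroup.eq_one_iff _).1 ?_)
      rw [← QuotientGroup.mk'_apply, map_commutatorElement, commutatorElement_eq_one_iff_commute]
      exact Subgroup.mem_center_iff.1 (show x₀ ∈ X from h ▸ Subgroup.mem_top x₀) _
    obtain ⟨M, hMc, hXM⟩ := (eq_top_or_exists_le_coatom X).resolve_left hXne
    have hM := CfsgLib.PGroup.index_of_coatom hP hMc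
    refine ⟨M, hM, le_trans (fun z hz => ?_) hXM, fun x hx => ?_⟩
    · refine Subgroup.mem_center_iff.2 fun q => ?_
      obtain ⟨q, rfl⟩ := QuotientGroup.mk'_surjective W q
      rw [← map_mul, ← map_mul, Subgroup.mem_center_iff.1 hz q]
    · obtain ⟨g, hg⟩ : ∃ g : P, ¬ Commute (QuotientGroup.mk' W g) (QuotientGroup.mk' W x) := by
        by_contra hcon
        push Not at hcon
        refine hx (hXM (Subgroup.mem_center_iff.2 fun q => ?_))
        obtain ⟨q, rfl⟩ := QuotientGroup.mk'_surjective W q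
        exact hcon q
      refine orbit_card_ge hω (fun i => g ^ i * x * (g ^ i)⁻¹) (fun i k => ?_) (fun i hi j hj h => ?_)
      · obtain ⟨τ, -, hτ⟩ := htr M hM x hx k
        refine ⟨MulAut.conj (g ^ i) * τ, ?_⟩
        rw [MulAut.mul_apply, hτ, MulAut.conj_apply]
        rw [show g ^ i * (x * ω ^ k) * (g ^ i)⁻¹ = g ^ i * x * (ω ^ k * (g ^ i)⁻¹) by group,
          ← Subgroup.mem_center_iff.1 (pow_mem hωZ k) (g ^ i)⁻¹]
        simp only [mul_assoc]
      · let S : Subgroup P :=
          (Subgroup.centralizer {QuotientGroup.mk' W x}).comap (QuotientGroup.mk' W)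
        obtain ⟨e, he⟩ := hP g
        have hgS : g ∉ S := fun hgS => hg (Subgroup.mem_centralizer_singleton_iff.1 hgS)
        have hd : g ^ ((j : ℤ) - i) ∈ S := by
          rw [Subgroup.mem_comap, Subgroup.mem_centralizer_singleton_iff]
          have h2 : QuotientGroup.mk' W (g ^ i * x * (g ^ i)⁻¹) =
              QuotientGroup.mk' W (g ^ j * x * (g ^ j)⁻¹) :=
            (QuotientGroup.eq).2 h
          simp only [map_mul, map_inv, map_pow] at h2
          rw [map_zpow, zpow_sub, zpow_natCast, zpow_natCast]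
          set G' := QuotientGroup.mk' W g
          set X' := QuotientGroup.mk' W x
          have hc : Commute (G' ^ i)⁻¹ (G' ^ j) := ((Commute.refl G').pow_pow i j).inv_left
          calc G' ^ j * (G' ^ i)⁻¹ * X' = (G' ^ i)⁻¹ * (G' ^ j * X' * (G' ^ j)⁻¹) * G' ^ j := by
                rw [← hc.eq]; group
            _ = X' * ((G' ^ i)⁻¹ * G' ^ j) := by rw [← h2]; group
            _ = X' * (G' ^ j * (G' ^ i)⁻¹) := by rw [hc.eq]
        have := dvd_of_zpow_mem (p := p) (K := S) (m := e) (by rw [he]; exact one_mem _) hgS hd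
        have h0 : (j : ℤ) - i = 0 := by
          rcases this with ⟨q, hq⟩
          rcases lt_trichotomy q 0 with hq0 | rfl | hq0
          · nlinarith
          · simpa using hq
          · nlinarith
        omega
  · push Not at hX
    have hcen : ∀ g x : P, ⁅g, x⁆ ∈ Subgroup.center P := fun g x => hWZ (hX x g)
    have hcp : ∀ g x : P, ⁅g, x⁆ ^ p = 1 := fun g x =>
      orderOf_dvd_iff_pow_eq_one.1 (by
        rw [← hω]; exact orderOf_dvd_of_mem_zpowers (hX x g))
    -- suitable element for the transvection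
    suffices h : ∃ (M : Subgroup P) (a : P), M.index = p ∧ Subgroup.center P ≤ M ∧ a ∈ M ∧
        (∀ m ∈ M, a * m = m * a) ∧ (∀ y ∉ M, (y * a) ^ p = y ^ p) ∧ a ∉ W ∧ a ^ p ∈ W by
      obtain ⟨M, a, hM, hZM, haM, hac, hpow, haW, hapW⟩ := h
      refine ⟨M, hM, hZM, fun x hx => ?_⟩
      haveI := CfsgLib.PGroup.normal_of_coatom hP (CfsgLib.PGroup.isCoatom_of_index_eq hM)
      obtain ⟨θ, hθ, hθx⟩ := exists_transv M hM hx haM hac (hpow x hx)
      have hit : ∀ i : ℕ, (θ ^ i) x = x * a ^ i ∧ ∀ g ∈ M, (θ ^ i) g = g := by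
        intro i
        induction i with
        | zero => simp
        | succ i ih =>
          refine ⟨?_, fun g hg => ?_⟩
          · rw [pow_succ', MulAut.mul_apply, ih.1, map_mul, map_pow, hθx, hθ a haM, mul_assoc,
              ← pow_succ']
          · rw [pow_succ', MulAut.mul_apply, ih.2 g hg, hθ g hg]
      refine orbit_card_ge hω (fun i => x * a ^ i) (fun i k => ?_) (fun i hi j hj h => ?_)
      · obtain ⟨τ, -, hτ⟩ := htr M hM x hx k
        refine ⟨θ ^ i * τ, ?_⟩
        rw [MulAut.mul_apply, hτ, map_mul, (hit i).1, (hit i).2 _ (pow_mem (hZM hωZ) k)]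
      · have hd : a ^ ((j : ℤ) - i) ∈ W := by
          rw [zpow_sub, zpow_natCast, zpow_natCast, ((Commute.refl a).pow_pow j i).inv_right.eq]
          simpa [mul_assoc] using h
        have := dvd_of_zpow_mem (p := p) (K := W) (m := 1) (by rwa [pow_one]) haW hd
        have h0 : (j : ℤ) - i = 0 := by
          rcases this with ⟨q, hq⟩
          rcases lt_trichotomy q 0 with hq0 | rfl | hq0
          · nlinarith
          · simpa using hq
          · nlinarith
        omega
    have hZne : Subgroup.center P ≠ ⊤ := fun h => hna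
      ⟨⟨fun a b => (Subgroup.mem_center_iff.1 (h ▸ Subgroup.mem_top b) a)⟩⟩
    by_cases hΩ : ∀ z ∈ Subgroup.center P, z ^ p = 1 → z ∈ W
    swap
    · push Not at hΩ
      obtain ⟨z, hzZ, hzp, hzW⟩ := hΩ
      obtain ⟨M, hMc, hZM⟩ := (eq_top_or_exists_le_coatom (Subgroup.center P)).resolve_left hZne
      refine ⟨M, z, CfsgLib.PGroup.index_of_coatom hP hMc, hZM, hZM hzZ,
        fun g _ => (Subgroup.mem_center_iff.1 hzZ g).symm, fun y _ => ?_, hzW,
        by rw [hzp]; exact one_mem _⟩
      rw [Commute.mul_pow (Subgroup.mem_center_iff.1 hzZ y), hzp, mul_one]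
    have hsq : ∀ (y a : P) (n : ℕ), (y * a) ^ n = ⁅a, y⁆ ^ n.choose 2 * (y ^ n * a ^ n) :=
      fun y a n => mul_pow_comm (fun g => (Subgroup.mem_center_iff.1 (hcen a y) g).symm)
        (by rw [commutatorElement_def]; group) n
    -- the element `a`
    obtain ⟨a, haZ, haW, hpw⟩ : ∃ a : P, a ∉ Subgroup.center P ∧ a ^ p ∈ W ∧
        ∀ y : P, ¬ Commute a y → (y * a) ^ p = y ^ p := by
      obtain ⟨x₀, hx₀⟩ : ∃ x₀ : P, x₀ ∉ Subgroup.center P := by
        by_contra hcon
        push Not at hcon
        exact hZne ((Subgroup.eq_top_iff' _).2 hcon)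
      obtain ⟨y₀, hy₀⟩ : ∃ y₀ : P, ¬ Commute x₀ y₀ := by
        by_contra hcon
        push Not at hcon
        exact hx₀ (Subgroup.mem_center_iff.2 fun g => (hcon g).symm.eq)
      have hpowZ : ∀ g : P, g ^ p ∈ Subgroup.center P := fun g =>
        Subgroup.mem_center_iff.2 fun h => by
          have h1 : h * g = ⁅h, g⁆ * (g * h) := by rw [commutatorElement_def]; group
          have h2 : SemiconjBy h g (⁅h, g⁆ * g) := by
            show h * g = ⁅h, g⁆ * g * h
            rw [h1, mul_assoc]
          have h3 := (h2.pow_right p).eq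
          rw [Commute.mul_pow ((Subgroup.mem_center_iff.1 (hcen h g) g).symm : Commute ⁅h, g⁆ g),
            hcp, one_mul] at h3
          exact h3
      -- two non-commuting elements, the `p`-th power of one a power of that of the other
      obtain ⟨x, y, hxy, k, hk⟩ : ∃ x y : P, ¬ Commute x y ∧ ∃ k : ℤ, (x ^ p) ^ k = y ^ p := by
        obtain ⟨e₁, he₁⟩ := IsPGroup.iff_orderOf.1 hP (x₀ ^ p)
        obtain ⟨e₂, he₂⟩ := IsPGroup.iff_orderOf.1 hP (y₀ ^ p)
        rcases le_total e₁ e₂ with h | h
        · exact ⟨y₀, x₀, fun h' => hy₀ h'.symm, mem_zpowers_of_omega hω hP hΩ e₁ _ _ (hpowZ _)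
            (hpowZ _) (by rw [← he₁]; exact pow_orderOf_eq_one _) (he₂ ▸ pow_dvd_pow p h)⟩
        · exact ⟨x₀, y₀, hy₀, mem_zpowers_of_omega hω hP hΩ e₂ _ _ (hpowZ _)
            (hpowZ _) (by rw [← he₂]; exact pow_orderOf_eq_one _) (he₁ ▸ pow_dvd_pow p h)⟩
      have hb : ∃ b : P, ¬ Commute x b ∧ b ^ p ∈ W ∧ (Odd p → b ^ p = 1) := by
        have hnc : ¬ Commute x (y * x ^ (-k)) := fun h => hxy (by
          have := h.mul_right ((Commute.refl x).zpow_right k)
          rwa [mul_assoc, ← zpow_add, neg_add_cancel, zpow_zero, mul_one] at this)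
        have hb0 : (y * x ^ (-k)) ^ p = ⁅x ^ (-k), y⁆ ^ p.choose 2 := by
          rw [hsq, ← hk, ← zpow_natCast x, ← zpow_natCast (x ^ (-k)), ← zpow_mul, ← zpow_mul,
            ← zpow_add, show (p : ℤ) * k + -k * (p : ℤ) = 0 by ring, zpow_zero, mul_one]
        refine ⟨y * x ^ (-k), hnc, by rw [hb0]; exact pow_mem (hX _ _) _, fun hodd => ?_⟩
        rw [hb0]
        have : p ∣ p.choose 2 := hp.dvd_choose_self (by norm_num)
          (lt_of_le_of_ne hp.two_le fun h => by rw [← h] at hodd; norm_num at hodd)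
        obtain ⟨c, hc⟩ := this
        rw [hc, pow_mul, hcp, one_pow]
      obtain ⟨b, hxb, hbW, hbodd⟩ := hb
      have hbZ : b ∉ Subgroup.center P := fun h => hxb (Subgroup.mem_center_iff.1 h x)
      rcases hp.eq_two_or_odd' with rfl | hodd
      · -- `p = 2`: an element with square `ω`
        have hW2 : ∀ g ∈ W, g = 1 ∨ g = ω := by
          intro g hg
          obtain ⟨i, rfl⟩ := hg
          rcases Int.even_or_odd' i with ⟨j, rfl | rfl⟩
          · left
            simp only
            rw [zpow_mul, show ω ^ (2 : ℤ) = 1 by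
              rw [show (2 : ℤ) = ((2 : ℕ) : ℤ) from rfl, zpow_natCast, ← hω, pow_orderOf_eq_one],
              one_zpow]
          · right
            simp only
            rw [zpow_add, zpow_mul, show ω ^ (2 : ℤ) = 1 by
              rw [show (2 : ℤ) = ((2 : ℕ) : ℤ) from rfl, zpow_natCast, ← hω, pow_orderOf_eq_one],
              one_zpow, one_mul, zpow_one]
        suffices h : ∃ a : P, a ∉ Subgroup.center P ∧ a ^ 2 = ω by
          obtain ⟨a, ha, ha2⟩ := h
          refine ⟨a, ha, by rw [ha2]; exact Subgroup.mem_zpowers ω, fun g hg => ?_⟩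
          have hcω : ⁅a, g⁆ = ω := (hW2 _ (hX g a)).resolve_left fun h =>
            hg (commutatorElement_eq_one_iff_commute.1 h)
          rw [hsq, show Nat.choose 2 2 = 1 from rfl, pow_one, hcω, ha2,
            Subgroup.mem_center_iff.1 hωZ (g ^ 2), ← mul_assoc,
            show ω * ω = 1 by rw [← pow_two, ← hω, pow_orderOf_eq_one], one_mul]
        rcases hW2 _ hbW with hb1 | hb1
        swap
        · exact ⟨b, hbZ, hb1⟩
        rcases eq_or_ne (x ^ 2) 1 with hx2 | hx2
        · refine ⟨x * b, fun h => hxb ?_, ?_⟩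
          · have h2 : Commute x (x * b) := Subgroup.mem_center_iff.1 h x
            simpa using ((Commute.refl x).inv_right).mul_right h2
          · rw [hsq, hx2, hb1, show Nat.choose 2 2 = 1 from rfl, pow_one, mul_one, mul_one]
            exact (hW2 _ (hX x b)).resolve_left fun h =>
              hxb (commutatorElement_eq_one_iff_commute.1 h).symm
        · obtain ⟨e, he⟩ := IsPGroup.iff_orderOf.1 hP (x ^ 2)
          obtain ⟨e', rfl⟩ : ∃ e', e = e' + 1 := Nat.exists_eq_succ_of_ne_zero (by
            rintro rfl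
            exact hx2 (orderOf_eq_one_iff.1 (by rw [he, pow_zero])))
          set u := x ^ 2 ^ e' with hu
          have hu2 : u ^ 2 = ω := by
            have h1 : orderOf ((x ^ 2) ^ 2 ^ e') = 2 := by
              rw [orderOf_pow' _ (pow_ne_zero _ two_ne_zero), he,
                Nat.gcd_eq_right (pow_dvd_pow 2 e'.le_succ), pow_succ',
                Nat.mul_div_cancel _ (pow_pos two_pos _)]
            rw [hu, ← pow_mul, mul_comm, pow_mul]
            refine (hW2 _ (hΩ _ (pow_mem (hpowZ x) _) (by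
              have h2 := pow_orderOf_eq_one ((x ^ 2) ^ 2 ^ e')
              rwa [h1] at h2))).resolve_left fun h => ?_
            rw [h, orderOf_one] at h1
            exact absurd h1 (by norm_num)
          by_cases huZ : u ∈ Subgroup.center P
          · refine ⟨b * u, fun h => hbZ ?_, ?_⟩
            · simpa using mul_mem h (inv_mem huZ)
            · rw [Commute.mul_pow (Subgroup.mem_center_iff.1 huZ b), hb1, hu2, one_mul]
          · exact ⟨u, huZ, hu2⟩
      · refine ⟨b, hbZ, hbW, fun g _ => ?_⟩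
        have : p ∣ p.choose 2 := hp.dvd_choose_self (by norm_num)
          (lt_of_le_of_ne hp.two_le fun h => by rw [← h] at hodd; norm_num at hodd)
        obtain ⟨c, hc⟩ := this
        rw [hsq, hbodd hodd, hc, pow_mul, hcp, one_pow, one_mul, mul_one]
    -- the centralizer of `a`
    let φ : P →* W :=
      { toFun := fun g => ⟨⁅g, a⁆, hX a g⟩
        map_one' := Subtype.ext (commutatorElement_one_left a)
        map_mul' := fun g h => Subtype.ext (by
          show ⁅g * h, a⁆ = ⁅g, a⁆ * ⁅h, a⁆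
          rw [show ⁅g * h, a⁆ = g * ⁅h, a⁆ * g⁻¹ * ⁅g, a⁆ by
            simp only [commutatorElement_def]; group,
            Subgroup.mem_center_iff.1 (hcen h a) g, mul_inv_cancel_right]
          exact (Subgroup.mem_center_iff.1 (hcen h a) _).symm) }
    have hmem : ∀ g : P, g ∈ φ.ker ↔ Commute g a := fun g => by
      rw [MonoidHom.mem_ker, Subtype.ext_iff]
      exact commutatorElement_eq_one_iff_commute
    refine ⟨φ.ker, a, ?_, fun z hz => (hmem z).2 (Subgroup.mem_center_iff.1 hz a).symm,
      (hmem a).2 (Commute.refl a), fun g hg => ((hmem g).1 hg).symm.eq,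
      fun y hy => hpw y fun h => hy ((hmem y).2 h.symm), fun h => haZ (hWZ h), haW⟩
    rw [Subgroup.index_ker]
    have hdvd : Nat.card φ.range ∣ p := by
      have h := Subgroup.card_subgroup_dvd_card φ.range
      rwa [Nat.card_zpowers, hω] at h
    refine ((Nat.dvd_prime hp).1 hdvd).resolve_left fun h1 => haZ ?_
    have hb := Subgroup.card_eq_one.1 h1
    refine Subgroup.mem_center_iff.2 fun g => ((hmem g).1 ?_).eq
    rw [MonoidHom.mem_ker, ← Subgroup.mem_bot, ← hb]
    exact ⟨g, rfl⟩

theorem pgroup_bound (hP : IsPGroup p P) (hna : ¬ IsMulCommutative P) :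
    Nat.card (MulAction.orbitRel.Quotient (MulAut P) P) * p ≤ Nat.card P := by
  classical
  have hp : p.Prime := Fact.out
  obtain ⟨M, hM, hZM, hbig⟩ := exists_big_orbits hP hna
  let w : P → ℕ := fun x =>
    if x ∈ M then (if x ∈ Subgroup.center P then p * p else p) else 1
  have hmf : (Nat.card P).minFac = p := by
    obtain ⟨n, hn⟩ := IsPGroup.iff_card.1 hP
    have hn0 : n ≠ 0 := by
      rintro rfl
      rw [pow_zero] at hn
      haveI := (Nat.card_eq_one_iff_unique.1 hn).1
      exact hna ⟨⟨fun a b => Subsingleton.elim _ _⟩⟩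
    rw [hn, hp.pow_minFac hn0]
  have h := orbits_mul_le (A := MulAut P) w (p * p) (fun x => by
    simp only [w]
    split_ifs with h1 h2
    · exact le_mul_of_one_le_right (Nat.zero_le _) Nat.card_pos
    · refine Nat.mul_le_mul_left p ?_
      refine le_trans (hmf ▸ card_conj_orbit_ge h2) (Nat.card_mono (Set.toFinite _) ?_)
      rintro _ ⟨g, rfl⟩
      exact ⟨MulAut.conj (ConjAct.ofConjAct g), (ConjAct.smul_def g x).symm⟩
    · rw [one_mul]
      exact hbig x h1)
  have hsum : ∑ᶠ x, w x = p * p * Nat.card (Subgroup.center P) +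
      p * (Nat.card M - Nat.card (Subgroup.center P)) + (Nat.card P - Nat.card M) := by
    haveI := Fintype.ofFinite P
    have e : ∀ x : P, w x + (if x ∈ M then 1 else 0) + (if x ∈ Subgroup.center P then p else 0) =
        (if x ∈ Subgroup.center P then p * p else 0) + (if x ∈ M then p else 0) + 1 := by
      intro x
      simp only [w]
      by_cases h1 : x ∈ M <;> by_cases h2 : x ∈ Subgroup.center P <;>
        simp [h1, h2] <;> first | exact absurd (hZM h2) h1 | ring
    have hsum := Finset.sum_congr rfl (fun x (_ : x ∈ Finset.univ) => e x)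
    have hc : ∀ (K : Subgroup P) [DecidablePred (· ∈ K)] (a : ℕ), ∑ x : P, (if x ∈ K then a else 0) = Nat.card K * a := by
      intro K _ a
      simp [Finset.sum_ite, Nat.card_eq_fintype_card, Fintype.card_subtype]
    rw [Finset.sum_add_distrib, Finset.sum_add_distrib, Finset.sum_add_distrib,
      Finset.sum_add_distrib, hc, hc, hc, hc, mul_one, Finset.sum_const, smul_eq_mul, mul_one,
      Finset.card_univ, ← Nat.card_eq_fintype_card] at hsum
    rw [finsum_eq_sum_of_fintype]
    have h1 : Nat.card (Subgroup.center P) ≤ Nat.card M :=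
      Nat.le_of_dvd Nat.card_pos (Subgroup.card_dvd_of_le hZM)
    have h2 : Nat.card M ≤ Nat.card P := Nat.le_of_dvd Nat.card_pos (Subgroup.card_subgroup_dvd_card M)
    obtain ⟨u, hu⟩ := Nat.exists_eq_add_of_le h1
    obtain ⟨v, hv⟩ := Nat.exists_eq_add_of_le h2
    rw [hv, Nat.add_sub_cancel_left]
    rw [hu, Nat.add_sub_cancel_left]
    rw [hv, hu] at hsum
    ring_nf at hsum ⊢
    omega
  have hMc : Nat.card P = p * Nat.card M := by rw [← hM, mul_comm, Subgroup.card_mul_index]
  have hZc : p * Nat.card (Subgroup.center P) ≤ Nat.card M := by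
    have hlt : Subgroup.center P < M := lt_of_le_of_ne hZM fun he => by
      haveI : IsCyclic (P ⧸ Subgroup.center P) := isCyclic_of_prime_card (p := p)
        (by rw [← Subgroup.index_eq_card, he, hM])
      exact hna ⟨⟨commutative_of_cyclic_center_quotient (QuotientGroup.mk' (Subgroup.center P))
        (le_of_eq (QuotientGroup.ker_mk' _))⟩⟩
    obtain ⟨a, ha⟩ := IsPGroup.iff_card.1 (hP.to_subgroup (Subgroup.center P))
    obtain ⟨b, hb⟩ := IsPGroup.iff_card.1 (hP.to_subgroup M)
    have h1 : Nat.card (Subgroup.center P) < Nat.card M := Set.Finite.card_lt_card (Set.toFinite _) hlt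
    rw [ha, hb] at h1 ⊢
    rw [← pow_succ']
    exact Nat.pow_le_pow_right hp.pos ((Nat.pow_lt_pow_iff_right hp.one_lt).1 h1)
  rw [hsum] at h
  set z := Nat.card (Subgroup.center P)
  set m := Nat.card M
  rw [hMc] at h ⊢
  have h2 := hp.two_le
  have hzm : z ≤ m := le_trans (Nat.le_mul_of_pos_left z hp.pos) hZc
  zify [hzm, Nat.le_mul_of_pos_left m hp.pos] at h hZc ⊢
  have h3 : (0 : ℤ) < p := by exact_mod_cast hp.pos
  have h2' : (2 : ℤ) ≤ p := by exact_mod_cast h2
  have hkey : ((p : ℤ) - 1) * (p * z) ≤ ((p : ℤ) - 1) * m := mul_le_mul_of_nonneg_left hZc (by linarith)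
  have hkey2 : ((p : ℤ) - 1) * m ≤ ((p : ℤ) - 1) * ((p - 1) * m) :=
    mul_le_mul_of_nonneg_left (le_mul_of_one_le_left (by positivity) (by linarith)) (by linarith)
  refine le_of_mul_le_mul_left ?_ h3
  nlinarith

end PGroupCase

theorem pi_bound {ι : Type*} [Fintype ι] (H : ι → Type*) [∀ i, Group (H i)] [∀ i, Finite (H i)]
    (i₀ : ι) :
    Nat.card (MulAction.orbitRel.Quotient (MulAut (∀ i, H i)) (∀ i, H i)) * Nat.card (H i₀) ≤
      Nat.card (MulAction.orbitRel.Quotient (MulAut (H i₀)) (H i₀)) * Nat.card (∀ i, H i) := by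
  classical
  have hprod : Nat.card (∀ i, H i) = Nat.card (H i₀) * Nat.card (∀ j : {j // j ≠ i₀}, H j) := by
    rw [← Nat.card_prod]
    exact Nat.card_congr (Equiv.piSplitAt i₀ H)
  rw [hprod, ← mul_assoc, mul_right_comm]
  refine Nat.mul_le_mul_right _ ?_
  rw [← Nat.card_prod]
  refine Nat.card_le_card_of_surjective
    (fun qr => Quotient.mk'' ((Equiv.piSplitAt i₀ H).symm (Quotient.out qr.1, qr.2))) ?_
  intro q
  induction q using Quotient.inductionOn' with
  | h x =>
    set q' : MulAction.orbitRel.Quotient (MulAut (H i₀)) (H i₀) := Quotient.mk'' (x i₀) with hq'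
    obtain ⟨σ, hσ⟩ : Quotient.out q' ∈ MulAction.orbit (MulAut (H i₀)) (x i₀) := by
      rw [← MulAction.orbitRel_apply, ← Quotient.eq'']
      exact Quotient.out_eq' q'
    refine ⟨(q', fun j => x j), ?_⟩
    rw [Quotient.eq'', MulAction.orbitRel_apply]
    let F : MulAut (∀ i, H i) := MulEquiv.piCongrRight
      (Function.update (fun i => MulEquiv.refl (H i)) i₀ σ)
    refine ⟨F, funext fun i => ?_⟩
    show F x i = _
    rw [MulEquiv.piCongrRight_apply, Equiv.piSplitAt_symm_apply]
    by_cases hi : i = i₀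
    · subst hi
      simp only [Function.update_self, dite_true]
      exact hσ
    · simp [Function.update_of_ne hi, hi]

theorem orbits_congr {G H : Type*} [Group G] [Group H] [Finite G] (e : G ≃* H) :
    Nat.card (MulAction.orbitRel.Quotient (MulAut H) H) =
      Nat.card (MulAction.orbitRel.Quotient (MulAut G) G) := by
  refine Nat.card_congr (Quotient.congr e.symm.toEquiv fun a b => ?_)
  simp only [MulAction.orbitRel_apply, MulEquiv.toEquiv_eq_coe, MulEquiv.coe_toEquiv]
  constructor
  · rintro ⟨σ, rfl⟩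
    exact ⟨(e.trans σ).trans e.symm, by simp [MulAut.smul_def]⟩
  · rintro ⟨σ, hσ⟩
    refine ⟨(e.symm.trans σ).trans e, e.symm.injective ?_⟩
    simpa [MulAut.smul_def] using hσ

/-- Let G be a finite non-abelian group and p the least prime dividing its order. Then the automorphism group of G has at most #G/p orbits on G. -/
theorem result {G : Type*} [Group G] [Finite G] (hna : ¬ IsMulCommutative G) :
    Nat.card (MulAction.orbitRel.Quotient (MulAut G) G) ≤ Nat.card G / (Nat.card G).minFac := by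

  classical
  set k := Nat.card (MulAction.orbitRel.Quotient (MulAut G) G) with hk
  have hne1 : Nat.card G ≠ 1 := fun h1 => by
    haveI := (Nat.card_eq_one_iff_unique.1 h1).1
    exact hna ⟨⟨fun a b => Subsingleton.elim _ _⟩⟩
  rw [Nat.le_div_iff_mul_le (Nat.minFac_pos _)]
  by_cases hnil : Group.IsNilpotent G
  · obtain ⟨e⟩ := (Group.isNilpotent_of_finite_tfae (G := G)).out 0 4 |>.1 hnil
    let H : ((p : (Nat.card G).primeFactors) → Type _) := fun p => ∀ P : Sylow p G, (↑P : Subgroup G)
    obtain ⟨i₀, hi₀⟩ : ∃ i, ¬ IsMulCommutative (H i) := by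
      by_contra hcon
      push Not at hcon
      refine hna ⟨⟨fun a b => e.symm.injective ?_⟩⟩
      rw [map_mul, map_mul]
      funext i
      exact (hcon i).is_comm.comm _ _
    haveI hfact : Fact (i₀ : ℕ).Prime := ⟨Nat.prime_of_mem_primeFactors i₀.2⟩
    have hpg : IsPGroup i₀ (H i₀) := by
      intro f
      obtain ⟨n, hn⟩ : ∃ n, ∀ P : Sylow i₀ G, (f P) ^ (i₀ : ℕ) ^ n = 1 := by
        choose n hn using fun P : Sylow i₀ G => P.isPGroup' (f P)
        obtain ⟨N, hN⟩ := Finite.exists_le n
        exact ⟨N, fun P => by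
          obtain ⟨c, hc⟩ := pow_dvd_pow (i₀ : ℕ) (hN P)
          rw [hc, pow_mul, hn, one_pow]⟩
      exact ⟨n, funext hn⟩
    have h1 := pgroup_bound hpg hi₀
    have h2 := pi_bound H i₀
    rw [← orbits_congr e.symm] at hk
    have hcard : Nat.card G = Nat.card (∀ i, H i) := Nat.card_congr e.symm.toEquiv
    have hle : (Nat.card G).minFac ≤ i₀ :=
      Nat.minFac_le_of_dvd hfact.out.two_le (Nat.dvd_of_mem_primeFactors i₀.2)
    rw [← hk] at h2
    refine le_trans (Nat.mul_le_mul_left k hle) ?_
    refine Nat.le_of_mul_le_mul_right ?_ (Nat.card_pos (α := H i₀))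
    calc k * i₀ * Nat.card (H i₀) = k * Nat.card (H i₀) * i₀ := by ring
      _ ≤ Nat.card (MulAction.orbitRel.Quotient (MulAut (H i₀)) (H i₀)) * Nat.card (∀ i, H i) * i₀ :=
          Nat.mul_le_mul_right _ h2
      _ = Nat.card (MulAction.orbitRel.Quotient (MulAut (H i₀)) (H i₀)) * i₀ * Nat.card (∀ i, H i) := by
          ring
      _ ≤ Nat.card (H i₀) * Nat.card (∀ i, H i) := Nat.mul_le_mul_right _ h1
      _ = Nat.card G * Nat.card (H i₀) := by
          rw [mul_comm]; exact congrArg (· * _) hcard.symm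
  · exact le_trans (Nat.mul_le_mul_right _ aut_le_conj) (classes_bound _ G rfl hnil)

end Cfsg.Agent.S4067
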