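import Cfsg.Statements.S4068
import Cfsg.Agent.Chars.Apps.Burnside
import Cfsg.Agent.StronglyEmbedded.AbelianCentralizer
import Cfsg.Agent.Frobenius57.SimpleSixty
import Mathlib

set_option autoImplicit false
open Cfsg

namespace Cfsg.Agent.S4068

universe u
variable {G : Type u} [Group G] [Finite G]

/-- `2 ^ n + 1` a power of three. -/
theorem pow_add_one_eq {n b : ℕ} (hn : 2 ≤ n) (h : 2 ^ n + 1 = 3 ^ b) : n = 3 := by
  rcases Nat.even_or_odd b with ⟨c, hc⟩ | ⟨c, hc⟩
  · have h1 : (3 ^ c - 1) * (3 ^ c + 1) = 2 ^ n := by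
      have h2 : 3 ^ b = 3 ^ c * 3 ^ c := by rw [hc, pow_add]
      have h3 : 1 ≤ 3 ^ c := Nat.one_le_pow _ _ (by norm_num)
      obtain ⟨a, ha⟩ := Nat.exists_eq_add_of_le h3
      rw [h2, ha] at h
      rw [ha, Nat.add_sub_cancel_left]
      nlinarith
    obtain ⟨i, -, hi⟩ := (Nat.dvd_prime_pow Nat.prime_two).1 (Dvd.intro _ h1)
    obtain ⟨j, -, hj⟩ := (Nat.dvd_prime_pow Nat.prime_two).1 (Dvd.intro_left _ h1)
    have h3 : 1 ≤ 3 ^ c := Nat.one_le_pow _ _ (by norm_num)
    -- two powers of two at distance two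
    have hi1 : i ≤ 1 := by
      by_contra hcon
      have h4 : (4 : ℕ) ∣ 2 ^ i := by
        rw [show (4 : ℕ) = 2 ^ 2 from rfl]
        exact Nat.pow_dvd_pow 2 (by omega)
      have hj2 : 2 ≤ j := by
        by_contra hj2
        have : 2 ^ j ≤ 2 ^ 1 := Nat.pow_le_pow_right (by norm_num) (by omega)
        have hj' : 3 ^ c + 1 ≤ 2 := by rw [hj]; simpa using this
        have hi' : 4 ≤ 3 ^ c - 1 := by rw [hi]; exact Nat.le_of_dvd (Nat.pow_pos (by norm_num)) h4
        omega
      have h5 : (4 : ℕ) ∣ 2 ^ j := by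
        rw [show (4 : ℕ) = 2 ^ 2 from rfl]
        exact Nat.pow_dvd_pow 2 hj2
      rw [← hi] at h4
      rw [← hj] at h5
      omega
    have : 3 ^ c - 1 ≤ 2 := by
      rw [hi]
      exact (Nat.pow_le_pow_right (by norm_num) hi1).trans (by norm_num)
    have hc1 : c ≤ 1 := by
      by_contra hcon
      have : 3 ^ 2 ≤ 3 ^ c := Nat.pow_le_pow_right (by norm_num) (by omega)
      omega
    interval_cases c
    · simp [hc] at h
    · have : 2 ^ n = 2 ^ 3 := by rw [hc] at h; norm_num at h ⊢; omega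
      exact Nat.pow_right_injective (by norm_num) this
  · exfalso
    have h1 : 3 ^ b % 4 = 3 := by
      rw [hc, pow_succ, pow_mul, Nat.mul_mod, Nat.pow_mod]
      norm_num
    have h2 : 2 ^ n % 4 = 0 := by
      rw [show n = 2 + (n - 2) by omega, pow_add]
      simp
    omega

/-- `2 ^ n - 1` a power of three. -/
theorem pow_sub_one_eq {n b : ℕ} (hn : 2 ≤ n) (h : 2 ^ n - 1 = 3 ^ b) : n = 2 := by
  by_contra hne
  have h8 : 2 ^ n % 8 = 0 := by
    rw [show n = 3 + (n - 3) by omega, pow_add]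
    simp
  rcases Nat.even_or_odd b with ⟨c, hc⟩ | ⟨c, hc⟩
  · have h1 : 3 ^ b % 8 = 1 := by
      rw [hc, ← two_mul, pow_mul, Nat.pow_mod]
      norm_num
    omega
  · have h1 : 3 ^ b % 8 = 3 := by
      rw [hc, pow_succ, pow_mul, Nat.mul_mod, Nat.pow_mod]
      norm_num
    omega

/-- A number all of whose prime divisors equal `r` is a power of `r`. -/
theorem exists_pow_of_forall {r m : ℕ} (hm : m ≠ 0) (h : ∀ s : ℕ, s.Prime → s ∣ m → s = r) : ∃ b, m = r ^ b :=
  ⟨_, Nat.eq_prime_pow_of_unique_prime_dvd hm fun {d} hd hdm => h d hd hdm⟩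

theorem orderOf_aut (σ : MulAut G) (y : G) : orderOf (σ y) = orderOf y :=
  orderOf_injective σ.toMonoidHom σ.injective y

/-- Four orbits: three primes, all non-trivial elements have prime order, equal orders are conjugate
under automorphisms. -/
theorem orders (hns : ¬ Group.IsSolvable G)
    (h4 : Nat.card (MulAction.orbitRel.Quotient (MulAut G) G) = 4) :
    ∃ S : Finset ℕ, S.card = 3 ∧ (∀ r ∈ S, r.Prime ∧ r ∣ Nat.card G) ∧ (∀ r, r.Prime → r ∣ Nat.card G → r ∈ S) ∧
      (∀ x : G, x ≠ 1 → orderOf x ∈ S) ∧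
      ∀ x y : G, x ≠ 1 → orderOf x = orderOf y → ∃ σ : MulAut G, σ x = y := by
  classical
  set S := (Nat.card G).primeFactors with hS
  have hex : ∀ r : S, ∃ x : G, orderOf x = r := fun r =>
    haveI := Fact.mk (Nat.prime_of_mem_primeFactors r.2)
    exists_prime_orderOf_dvd_card' r.1 (Nat.dvd_of_mem_primeFactors r.2)
  choose el hel using hex
  have h2 : 3 ≤ S.card := by
    by_contra hlt
    apply hns
    rcases Nat.lt_or_ge S.card 1 with h0 | h1
    · exact CfsgLib.Chars.Apps.isSolvable_of_primeFactors_subset G Nat.prime_two Nat.prime_two fun r hr hd => absurd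
        (Nat.mem_primeFactors.2 ⟨hr, hd, Nat.card_pos.ne'⟩) (by
          rw [← hS, Finset.card_eq_zero.1 (Nat.lt_one_iff.1 h0)]; simp)
    obtain ⟨r, hr⟩ := Finset.card_pos.1 h1
    obtain ⟨s, hs, hsub⟩ : ∃ s, s ∈ S ∧ S ⊆ {r, s} := by
      by_cases hone : S ⊆ {r}
      · exact ⟨r, hr, hone.trans (by simp)⟩
      · obtain ⟨s, hs, hsr⟩ := Finset.not_subset.1 hone
        refine ⟨s, hs, fun t ht => ?_⟩
        by_contra htn
        simp only [Finset.mem_singleton] at hsr
        simp only [Finset.mem_insert, Finset.mem_singleton, not_or] at htn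
        have h3 : ({r, s, t} : Finset ℕ).card = 3 := by
          simp [Ne.symm hsr, Ne.symm htn.1, Ne.symm htn.2]
        have := Finset.card_le_card (show ({r, s, t} : Finset ℕ) ⊆ S by simp [Finset.insert_subset_iff, hr, hs, ht])
        omega
    exact CfsgLib.Chars.Apps.isSolvable_of_primeFactors_subset G (Nat.prime_of_mem_primeFactors hr)
      (Nat.prime_of_mem_primeFactors hs) fun t ht hd => by
        simpa using hsub (Nat.mem_primeFactors.2 ⟨ht, hd, Nat.card_pos.ne'⟩)
  haveI := Fintype.ofFinite (MulAction.orbitRel.Quotient (MulAut G) G)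
  have key : ∀ u v : G, (Quotient.mk'' u : MulAction.orbitRel.Quotient (MulAut G) G) = Quotient.mk'' v →
      ∃ σ : MulAut G, σ v = u := by
    intro u v h
    rw [Quotient.eq''] at h
    exact MulAction.orbitRel_apply.1 h
  let f : Option S → MulAction.orbitRel.Quotient (MulAut G) G := fun o =>
    Quotient.mk'' (o.elim 1 el)
  have hne1 : ∀ r : S, el r ≠ 1 := fun r e => (Nat.prime_of_mem_primeFactors r.2).ne_one (by rw [← hel r, e, orderOf_one])
  have hord : ∀ a b : Option S, f a = f b → orderOf (a.elim 1 el) = orderOf (b.elim 1 el) := by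
    intro a b h
    obtain ⟨σ, hσ⟩ := key _ _ h
    rw [← hσ, orderOf_aut]
  have hinj : Function.Injective f := by
    rintro (_ | a) (_ | b) h
    · rfl
    · have h1 := hord _ _ h
      simp only [Option.elim, orderOf_one, hel] at h1
      exact absurd h1.symm (Nat.prime_of_mem_primeFactors b.2).ne_one
    · have h1 := hord _ _ h
      simp only [Option.elim, orderOf_one, hel] at h1
      exact absurd h1 (Nat.prime_of_mem_primeFactors a.2).ne_one
    · have h1 := hord _ _ h
      simp only [Option.elim, hel] at h1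
      exact congrArg some (Subtype.ext h1)
  have hle := Fintype.card_le_of_injective f hinj
  rw [Fintype.card_option, Fintype.card_coe, ← Nat.card_eq_fintype_card, h4] at hle
  have hsurj : Function.Surjective f := ((Fintype.bijective_iff_injective_and_card f).2 ⟨hinj, by
    rw [Fintype.card_option, Fintype.card_coe, ← Nat.card_eq_fintype_card, h4]; omega⟩).2
  have hrep : ∀ x : G, x ≠ 1 → ∃ (r : S) (σ : MulAut G), σ (el r) = x := by
    intro x hx
    obtain ⟨o, ho⟩ := hsurj (Quotient.mk'' x)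
    obtain ⟨σ, hσ⟩ := key _ _ ho.symm
    rcases o with _ | r
    · exact absurd (by simpa using hσ.symm) hx
    · exact ⟨r, σ, hσ⟩
  refine ⟨S, by omega, fun r hr => ⟨Nat.prime_of_mem_primeFactors hr, Nat.dvd_of_mem_primeFactors hr⟩,
    fun r hr hd => Nat.mem_primeFactors.2 ⟨hr, hd, Nat.card_pos.ne'⟩, fun x hx => ?_, fun x y hx hxy => ?_⟩
  · obtain ⟨r, σ, rfl⟩ := hrep x hx
    rw [orderOf_aut, hel]
    exact r.2
  · obtain ⟨r, σ, rfl⟩ := hrep x hx
    have hy : y ≠ 1 := fun e => hx (orderOf_eq_one_iff.1 (by rw [hxy, e, orderOf_one]))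
    obtain ⟨r', σ', rfl⟩ := hrep y hy
    rw [orderOf_aut, orderOf_aut, hel, hel] at hxy
    obtain rfl : r = r' := Subtype.ext hxy
    exact ⟨σ' * σ⁻¹, by rw [MulAut.mul_apply, MulAut.inv_apply, MulEquiv.symm_apply_apply]⟩

section Orders

variable {S : Finset ℕ} (hS3 : S.card = 3) (hSp : ∀ r ∈ S, r.Prime ∧ r ∣ Nat.card G)
  (hSall : ∀ r, r.Prime → r ∣ Nat.card G → r ∈ S) (hord : ∀ x : G, x ≠ 1 → orderOf x ∈ S)
  (haut : ∀ x y : G, x ≠ 1 → orderOf x = orderOf y → ∃ σ : MulAut G, σ x = y)

include hSp hord in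
theorem eq_of_commute {x y : G} (hx : x ≠ 1) (hy : y ≠ 1) (h : Commute x y) : orderOf x = orderOf y := by
  by_contra hne
  have hpx := (hSp _ (hord x hx)).1
  have hpy := (hSp _ (hord y hy)).1
  have hc : (orderOf x).Coprime (orderOf y) := (Nat.coprime_primes hpx hpy).2 hne
  have hm := h.orderOf_mul_eq_mul_orderOf_of_coprime hc
  have hxy : x * y ≠ 1 := fun e => by
    rw [e, orderOf_one] at hm
    exact hpx.ne_one (Nat.eq_one_of_mul_eq_one_right hm.symm)
  exact Nat.not_prime_mul hpx.ne_one hpy.ne_one (hm ▸ (hSp _ (hord _ hxy)).1)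

include hSp hord in
theorem centralizer_pGroup {x : G} (hx : x ≠ 1) : IsPGroup (orderOf x) (Subgroup.centralizer ({x} : Set G)) := by
  intro c
  by_cases hc : (c : G) = 1
  · exact ⟨0, Subtype.ext (by simp [hc])⟩
  · refine ⟨1, Subtype.ext ?_⟩
    have h : Commute x (c : G) := (Subgroup.mem_centralizer_singleton_iff.1 c.2).symm
    rw [pow_one, SubgroupClass.coe_pow, eq_of_commute hSp hord hx hc h, pow_orderOf_eq_one]
    rfl

include hSp hord in
theorem centralizer_eq_of_central {r : ℕ} [Fact r.Prime] (P : Sylow r G) {z : G} (hz1 : z ≠ 1)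
    (hz : z ∈ (P : Subgroup G) ⊓ Subgroup.centralizer ((P : Subgroup G) : Set G)) :
    orderOf z = r ∧ Subgroup.centralizer ({z} : Set G) = (P : Subgroup G) := by
  have hzr : orderOf z = r := by
    obtain ⟨k, hk⟩ := (IsPGroup.iff_orderOf.1 P.2) ⟨z, hz.1⟩
    rw [Subgroup.orderOf_mk] at hk
    have hk0 : k ≠ 0 := fun h0 => hz1 (orderOf_eq_one_iff.1 (by rw [hk, h0, pow_zero]))
    have := (Nat.Prime.pow_eq_iff (hSp _ (hord z hz1)).1).1 hk.symm
    exact this.1.symm
  refine ⟨hzr, P.3 (hzr ▸ centralizer_pGroup hSp hord hz1) fun y hy => ?_⟩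
  rw [Subgroup.mem_centralizer_singleton_iff]
  exact Subgroup.mem_centralizer_iff.1 hz.2 y hy

include hSp hord haut in
theorem exists_central_sylow {r : ℕ} [Fact r.Prime] (hr : r ∣ Nat.card G) {x : G} (hx : orderOf x = r) :
    ∃ Q : Sylow r G, x ∈ (Q : Subgroup G) ⊓ Subgroup.centralizer ((Q : Subgroup G) : Set G) := by
  obtain ⟨P⟩ := (inferInstance : Nonempty (Sylow r G))
  haveI : Nontrivial (P : Subgroup G) := (Subgroup.nontrivial_iff_ne_bot _).2 (P.ne_bot_of_dvd_card hr)
  haveI := P.2.center_nontrivial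
  obtain ⟨⟨z, hz⟩, hz1⟩ := exists_ne (1 : Subgroup.center (P : Subgroup G))
  have hzmem : (z : G) ∈ (P : Subgroup G) ⊓ Subgroup.centralizer ((P : Subgroup G) : Set G) :=
    ⟨z.2, Subgroup.mem_centralizer_iff.2 fun y hy => congrArg Subtype.val (Subgroup.mem_center_iff.1 hz ⟨y, hy⟩)⟩
  have hzne : (z : G) ≠ 1 := fun e => hz1 (Subtype.ext (Subtype.ext e))
  obtain ⟨σ, hσ⟩ := haut (z : G) x hzne ((centralizer_eq_of_central hSp hord P hzne hzmem).1.trans hx.symm)
  obtain ⟨Q, hQ⟩ : ∃ Q : Sylow r G, (Q : Subgroup G) = (P : Subgroup G).map σ.toMonoidHom := by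
    refine ⟨Sylow.ofCard ((P : Subgroup G).map σ.toMonoidHom) ?_, rfl⟩
    rw [Subgroup.card_map_of_injective σ.injective, P.card_eq_multiplicity]
  refine ⟨Q, ?_, Subgroup.mem_centralizer_iff.2 ?_⟩
  · rw [hQ]; exact ⟨z, z.2, hσ⟩
  · rw [hQ]
    rintro _ ⟨y, hy, rfl⟩
    show σ y * x = x * σ y
    rw [← hσ, ← map_mul, ← map_mul, Subgroup.mem_centralizer_iff.1 hzmem.2 y hy]

include hSp hord haut in
/-- The elements of order `r` are the non-trivial central elements of the Sylow subgroups. -/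
theorem card_orderOf_eq {r : ℕ} [Fact r.Prime] (hr : r ∣ Nat.card G) (P : Sylow r G) :
    Nat.card {x : G // orderOf x = r} * (P : Subgroup G).relIndex (Subgroup.normalizer ((P : Subgroup G) : Set G)) +
      (P : Subgroup G).index =
      (P : Subgroup G).index * Nat.card ↥((P : Subgroup G) ⊓ Subgroup.centralizer ((P : Subgroup G) : Set G)) := by
  classical
  haveI := Fintype.ofFinite (Sylow r G)
  let Z : Sylow r G → Subgroup G := fun Q => (Q : Subgroup G) ⊓ Subgroup.centralizer ((Q : Subgroup G) : Set G)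
  let f : (Σ Q : Sylow r G, {z : Z Q // z ≠ 1}) → {x : G // orderOf x = r} := fun p =>
    ⟨p.2.1, (centralizer_eq_of_central hSp hord p.1 (fun e => p.2.2 (Subtype.ext e)) p.2.1.2).1⟩
  have hf : Function.Bijective f := by
    refine ⟨?_, fun x => ?_⟩
    · rintro ⟨Q, ⟨z, hz⟩, hz1⟩ ⟨Q', ⟨z', hz'⟩, hz1'⟩ e
      obtain rfl : z = z' := congrArg Subtype.val e
      have h1 := (centralizer_eq_of_central hSp hord Q (fun e => hz1 (Subtype.ext e)) hz).2
      have h2 := (centralizer_eq_of_central hSp hord Q' (fun e => hz1 (Subtype.ext e)) hz').2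
      obtain rfl : Q = Q' := Sylow.ext (h1.symm.trans h2)
      rfl
    · obtain ⟨Q, hQ⟩ := exists_central_sylow hSp hord haut hr x.2
      exact ⟨⟨Q, ⟨⟨x, hQ⟩, fun e => (Fact.out : r.Prime).ne_one (by
        rw [← x.2, show (x : G) = 1 from congrArg Subtype.val e, orderOf_one])⟩⟩, rfl⟩
  have hZ : ∀ Q : Sylow r G, Nat.card (Z Q) = Nat.card (Z P) := by
    intro Q
    obtain ⟨g, rfl⟩ := MulAction.exists_smul_eq G P Q
    have : Z (g • P) = (Z P).map (MulAut.conj g).toMonoidHom := by
      have hmap : ((g • P : Sylow r G) : Subgroup G) = (P : Subgroup G).map (MulAut.conj g).toMonoidHom := by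
        rw [Sylow.coe_subgroup_smul]; rfl
      simp only [Z]
      rw [hmap, Subgroup.map_inf _ _ _ (MulAut.conj g).injective]
      congr 1
      ext y
      rw [Subgroup.mem_centralizer_iff, Subgroup.mem_map_equiv, Subgroup.mem_centralizer_iff]
      constructor
      · intro hy w hw
        apply (MulAut.conj g).injective
        rw [map_mul, map_mul, MulEquiv.apply_symm_apply]
        exact hy _ ⟨w, hw, rfl⟩
      · rintro hy _ ⟨w, hw, rfl⟩
        apply (MulAut.conj g).symm.injective
        rw [map_mul, map_mul]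
        show (MulAut.conj g).symm ((MulAut.conj g) w) * (MulAut.conj g).symm y =
          (MulAut.conj g).symm y * (MulAut.conj g).symm ((MulAut.conj g) w)
        rw [MulEquiv.symm_apply_apply]
        exact hy w hw
    rw [this, Subgroup.card_map_of_injective (MulAut.conj g).injective]
  have hcard := Nat.card_eq_of_bijective f hf
  have hc1 : ∀ Q : Sylow r G, Nat.card {z : Z Q // z ≠ 1} + 1 = Nat.card (Z P) := by
    intro Q
    haveI := Fintype.ofFinite (Z Q)
    rw [← hZ Q, Nat.card_eq_fintype_card, Fintype.card_subtype_compl, Fintype.card_subtype_eq, Nat.card_eq_fintype_card]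
    exact Nat.sub_add_cancel Fintype.card_pos
  rw [← hcard, Nat.card_sigma]
  have hidx : (P : Subgroup G).relIndex (Subgroup.normalizer ((P : Subgroup G) : Set G)) * Nat.card (Sylow r G) = (P : Subgroup G).index := by
    rw [P.card_eq_index_normalizer]
    exact Subgroup.relIndex_mul_index Subgroup.le_normalizer
  set e := (P : Subgroup G).relIndex (Subgroup.normalizer ((P : Subgroup G) : Set G))
  set m := Nat.card {z : Z P // z ≠ 1}
  have hconst : ∀ Q : Sylow r G, Nat.card {z : Z Q // z ≠ 1} = m := fun Q => by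
    have := hc1 Q; have := hc1 P; omega
  rw [Finset.sum_congr rfl (fun Q _ => hconst Q), Finset.sum_const, Finset.card_univ, smul_eq_mul,
    ← Nat.card_eq_fintype_card]
  have := hc1 P
  show _ = _ * Nat.card (Z P)
  rw [← this, ← hidx]
  ring

include hS3 hSp hord haut in
/-- The order is even, by counting. -/
theorem two_mem [IsSimpleGroup G] (hna : ¬ IsMulCommutative G) : 2 ∈ S := by
  classical
  haveI := Fintype.ofFinite G
  by_contra h2
  have hodd : ∀ r ∈ S, ∀ [Fact r.Prime] (P : Sylow r G),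
      3 * Nat.card {x : G // orderOf x = r} + (P : Subgroup G).index ≤ Nat.card G := by
    intro r hr _ P
    have hr3 : 3 ≤ r := by
      have := (hSp r hr).1.two_le
      rcases eq_or_ne r 2 with rfl | hne
      · exact absurd hr h2
      · omega
    have h := card_orderOf_eq hSp hord haut (hSp r hr).2 P
    have hG := (P : Subgroup G).index_mul_card
    set e := (P : Subgroup G).relIndex (Subgroup.normalizer ((P : Subgroup G) : Set G)) with he
    set Z := (P : Subgroup G) ⊓ Subgroup.centralizer ((P : Subgroup G) : Set G) with hZ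
    have hZP : Nat.card Z ≤ Nat.card (P : Subgroup G) := Subgroup.card_le_of_le inf_le_left
    have hepos : e ≠ 0 := Subgroup.index_ne_zero_of_finite
    have hnocomp : e = 1 → Nat.card Z * r ≤ Nat.card (P : Subgroup G) := by
      intro he1
      have hne : Z ≠ (P : Subgroup G) := by
        intro heq
        have hc : Subgroup.normalizer ((P : Subgroup G) : Set G) ≤ Subgroup.centralizer ((P : Subgroup G) : Set G) :=
          (Subgroup.relIndex_eq_one.1 he1).trans (heq.ge.trans inf_le_right)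
        have hcomp := MonoidHom.ker_transferSylow_isComplement' P hc
        have hPbot : (P : Subgroup G) ≠ ⊥ := P.ne_bot_of_dvd_card (hSp r hr).2
        rcases (inferInstance : (MonoidHom.transferSylow P hc).ker.Normal).eq_bot_or_eq_top with hb | ht
        · rw [hb, Subgroup.isComplement'_bot_left] at hcomp
          apply hna
          refine IsMulCommutative.of_comm fun a b => ?_
          exact (Subgroup.mem_centralizer_iff.1 ((heq.ge.trans inf_le_right : (P : Subgroup G) ≤
            Subgroup.centralizer ((P : Subgroup G) : Set G)) (hcomp ▸ Subgroup.mem_top b)) a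
              (hcomp ▸ Subgroup.mem_top a : a ∈ (P : Subgroup G)))
        · rw [ht, Subgroup.isComplement'_top_left] at hcomp
          exact hPbot hcomp
      obtain ⟨i, hi⟩ := IsPGroup.iff_card.1 (P.2.to_le (inf_le_left : Z ≤ _))
      obtain ⟨j, hj⟩ := IsPGroup.iff_card.1 P.2
      have hlt : Nat.card Z < Nat.card (P : Subgroup G) := lt_of_le_of_ne hZP fun e => hne
        (Subgroup.eq_of_le_of_card_ge inf_le_left e.ge)
      have hij : i < j := by
        rw [hi, hj] at hlt
        exact (Nat.pow_lt_pow_iff_right (by omega : 1 < r)).1 hlt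
      rw [hi, hj, ← pow_succ]
      exact Nat.pow_le_pow_right (by omega) hij
    have hodde : e = 1 ∨ 3 ≤ e := by
      have hdvd : e ∣ Nat.card G := (Subgroup.relIndex_dvd_card _ _).trans (Subgroup.card_subgroup_dvd_card _)
      have : e ≠ 2 := fun e2 => h2 (by
        have h2G : 2 ∣ Nat.card G := e2 ▸ hdvd
        obtain ⟨x, hx⟩ := exists_prime_orderOf_dvd_card' (G := G) 2 h2G
        have := hord x (fun e1 => by rw [e1, orderOf_one] at hx; omega)
        rwa [hx] at this)
      omega
    have hmul : (3 * Nat.card {x : G // orderOf x = r} + (P : Subgroup G).index) ≤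
        (P : Subgroup G).index * Nat.card (P : Subgroup G) := by
      set N := Nat.card {x : G // orderOf x = r}
      set I := (P : Subgroup G).index
      set z := Nat.card Z
      rcases hodde with he1 | he3
      · have := hnocomp he1
        rw [he1, mul_one] at h
        have h3z : 3 * z ≤ Nat.card (P : Subgroup G) := le_trans (by rw [mul_comm]; exact Nat.mul_le_mul_left _ hr3) this
        calc 3 * N + I ≤ 3 * (N + I) := by omega
          _ = I * (3 * z) := by rw [h]; ring
          _ ≤ I * Nat.card (P : Subgroup G) := Nat.mul_le_mul_left _ h3z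
      · calc 3 * N + I ≤ N * e + I := by rw [mul_comm 3]; exact Nat.add_le_add_right (Nat.mul_le_mul_left _ he3) _
          _ = I * z := h
          _ ≤ I * Nat.card (P : Subgroup G) := Nat.mul_le_mul_left _ hZP
    rwa [hG] at hmul
  have hpart : ∑ r ∈ S, Nat.card {x : G // orderOf x = r} + 1 = Nat.card G := by
    have h1 : ∀ r, Nat.card {x : G // orderOf x = r} = (Finset.univ.filter fun x : G => orderOf x = r).card := fun r => by
      rw [Nat.card_eq_fintype_card, Fintype.card_subtype]
    simp only [h1]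
    have h2 : (Finset.univ.erase (1 : G)).card = ∑ r ∈ S, (Finset.univ.filter fun x : G => orderOf x = r).card := by
      rw [Finset.card_eq_sum_card_fiberwise (f := orderOf) (t := S)
        (fun x hx => hord x (Finset.mem_erase.1 hx).1)]
      refine Finset.sum_congr rfl fun r hr => congrArg Finset.card ?_
      ext x
      simp only [Finset.mem_filter, Finset.mem_erase, Finset.mem_univ, and_true, true_and]
      exact ⟨fun h => h.2, fun h => ⟨fun e => (hSp r hr).1.ne_one (by rw [← h, e, orderOf_one]), h⟩⟩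
    rw [← h2, Finset.card_erase_of_mem (Finset.mem_univ _), Finset.card_univ, ← Nat.card_eq_fintype_card,
      Nat.sub_add_cancel Nat.card_pos]
  have hsum : ∑ r ∈ S, (3 * Nat.card {x : G // orderOf x = r} + 2) ≤ ∑ r ∈ S, Nat.card G := by
    refine Finset.sum_le_sum fun r hr => ?_
    haveI := Fact.mk (hSp r hr).1
    obtain ⟨P⟩ := (inferInstance : Nonempty (Sylow r G))
    have hidx : 2 ≤ (P : Subgroup G).index := by
      have h0 : (P : Subgroup G).index ≠ 0 := Subgroup.index_ne_zero_of_finite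
      have h1 : (P : Subgroup G).index ≠ 1 := fun e => by
        have ht := Subgroup.index_eq_one.1 e
        obtain ⟨s, hs, hsr⟩ := Finset.exists_mem_ne (by omega : 1 < S.card) r
        obtain ⟨k, hk⟩ := IsPGroup.iff_card.1 P.2
        rw [ht, Subgroup.card_top] at hk
        exact hsr ((Nat.prime_dvd_prime_iff_eq (hSp s hs).1 (hSp r hr).1).1
          ((hSp s hs).1.dvd_of_dvd_pow (hk ▸ (hSp s hs).2)))
      omega
    have := hodd r hr P
    omega
  simp only [Finset.sum_add_distrib, Finset.sum_const, smul_eq_mul, ← Finset.mul_sum, hS3] at hsum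
  omega

end Orders

/-- An automorphism-invariant normal subgroup is trivial or everything. -/
theorem eq_bot_or_top_of_char (hns : ¬ Group.IsSolvable G) {S : Finset ℕ} (hS3 : S.card = 3)
    (hSp : ∀ r ∈ S, r.Prime ∧ r ∣ Nat.card G)
    (hSall : ∀ r, r.Prime → r ∣ Nat.card G → r ∈ S) (hord : ∀ x : G, x ≠ 1 → orderOf x ∈ S)
    (haut : ∀ x y : G, x ≠ 1 → orderOf x = orderOf y → ∃ σ : MulAut G, σ x = y)
    (M : Subgroup G) [M.Normal] (hM : ∀ σ : MulAut G, ∀ x ∈ M, σ x ∈ M) : M = ⊥ ∨ M = ⊤ := by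
  classical
  by_contra hcon
  push Not at hcon
  obtain ⟨hb, ht⟩ := hcon
  obtain ⟨m, hm, hm1⟩ : ∃ m ∈ M, m ≠ (1 : G) := by
    by_contra h
    push Not at h
    exact hb ((Subgroup.eq_bot_iff_forall _).2 h)
  set p := orderOf m
  have hall : ∀ x : G, orderOf x = p → x ∈ M := fun x hx => by
    obtain ⟨σ, rfl⟩ := haut m x hm1 hx.symm
    exact hM σ m hm
  obtain ⟨x, hx⟩ : ∃ x, x ∉ M := by
    by_contra h
    push Not at h
    exact ht ((Subgroup.eq_top_iff' _).2 h)
  have hx1 : x ≠ 1 := fun e => hx (e ▸ M.one_mem)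
  set r := orderOf x
  -- no element of order `r` lies in `M`
  have hno : ∀ y ∈ M, y ≠ 1 → orderOf y ≠ r := fun y hy hy1 e => by
    obtain ⟨σ, hσ⟩ := haut y x hy1 e
    exact hx (hσ ▸ hM σ y hy)
  have hpm : p ∈ S := hord m hm1
  have hrS : r ∈ S := hord x hx1
  have hpr : p ≠ r := hno m hm hm1
  obtain ⟨t, htS⟩ : ∃ t, (S.erase p).erase r = {t} := Finset.card_eq_one.1 (by
    rw [Finset.card_erase_of_mem (Finset.mem_erase.2 ⟨hpr.symm, hrS⟩), Finset.card_erase_of_mem hpm, hS3])
  have ht : t ∈ (S.erase p).erase r := by rw [htS]; simp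
  simp only [Finset.mem_erase] at ht
  have hS' : ∀ s ∈ S, s = p ∨ s = r ∨ s = t := by
    intro s hs
    by_contra h
    push Not at h
    have : s ∈ (S.erase p).erase r := by simp [h, hs]
    rw [htS, Finset.mem_singleton] at this
    exact h.2.2 this
  have hMsol : Group.IsSolvable M := CfsgLib.Chars.Apps.isSolvable_of_primeFactors_subset M (hSp p hpm).1 (hSp t ht.2.2).1
    fun s hs hd => by
      haveI := Fact.mk hs
      obtain ⟨y, hy⟩ := exists_prime_orderOf_dvd_card' (G := M) s hd
      have hy1 : (y : G) ≠ 1 := fun e => hs.ne_one (by rw [← hy, ← Subgroup.orderOf_coe, e, orderOf_one])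
      rw [← Subgroup.orderOf_coe] at hy
      rcases hS' s (hSall s hs (hd.trans (Subgroup.card_subgroup_dvd_card M))) with h | h | h
      · exact Or.inl h
      · exact absurd (hy.trans h) (hno y y.2 hy1)
      · exact Or.inr h
  have hQsol : Group.IsSolvable (G ⧸ M) := CfsgLib.Chars.Apps.isSolvable_of_primeFactors_subset (G ⧸ M) (hSp r hrS).1 (hSp t ht.2.2).1
    fun s hs hd => by
      haveI := Fact.mk hs
      obtain ⟨y, hy⟩ := exists_prime_orderOf_dvd_card' (G := G ⧸ M) s hd
      induction y using QuotientGroup.induction_on with | H y => ?_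
      have hy1 : y ≠ 1 := fun e => hs.ne_one (by rw [← hy, e, QuotientGroup.mk_one, orderOf_one])
      have hds : s ∣ orderOf y := hy ▸ orderOf_map_dvd (QuotientGroup.mk' M) y
      have hsy := (Nat.prime_dvd_prime_iff_eq hs (hSp _ (hord y hy1)).1).1 hds
      rcases hS' s (hsy ▸ hord y hy1) with h | h | h
      · exact absurd hy (by
          rw [(QuotientGroup.eq_one_iff y).2 (hall y (hsy ▸ h)), orderOf_one]
          exact hs.ne_one.symm)
      · exact Or.inl h
      · exact Or.inr h
  exact hns (Group.isSolvable_of_ker_le_range M.subtype (QuotientGroup.mk' M)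
    (by rw [QuotientGroup.ker_mk', Subgroup.range_subtype]))

theorem simple (hns : ¬ Group.IsSolvable G) {S : Finset ℕ} (hS3 : S.card = 3)
    (hSp : ∀ r ∈ S, r.Prime ∧ r ∣ Nat.card G)
    (hSall : ∀ r, r.Prime → r ∣ Nat.card G → r ∈ S) (hord : ∀ x : G, x ≠ 1 → orderOf x ∈ S)
    (haut : ∀ x y : G, x ≠ 1 → orderOf x = orderOf y → ∃ σ : MulAut G, σ x = y) : IsSimpleGroup G := by
  classical
  have hnt : Nontrivial G := by
    by_contra h
    rw [not_nontrivial_iff_subsingleton] at h
    exact hns inferInstance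
  have hchar := eq_bot_or_top_of_char hns hS3 hSp hSall hord haut
  -- a minimal normal subgroup
  obtain ⟨N, ⟨hNn, hN1⟩, hNmin⟩ := Set.Finite.exists_minimal
    (Set.toFinite {N : Subgroup G | N.Normal ∧ N ≠ ⊥}) ⟨⊤, inferInstance, top_ne_bot⟩
  have hNtop : N = ⊤ := by
    refine (hchar N ?_).resolve_left hN1
    intro σ x hx
    by_contra hσx
    set N' := N.map σ.toMonoidHom with hN'
    haveI hN'n : N'.Normal := hNn.map _ σ.surjective
    have hinf : N ⊓ N' = ⊥ := by
      by_contra hne
      have := hNmin (y := N ⊓ N') ⟨inferInstance, hne⟩ inf_le_left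
      have h1 : N ≤ N' := le_trans this inf_le_right
      have h2 : N = N' := Subgroup.eq_of_le_of_card_ge h1 (by rw [hN', Subgroup.card_map_of_injective σ.injective])
      exact hσx (h2 ▸ ⟨x, hx, rfl⟩)
    obtain ⟨a, haN, ha1⟩ : ∃ a ∈ N, a ≠ (1 : G) := by
      by_contra h
      push Not at h
      exact hN1 ((Subgroup.eq_bot_iff_forall _).2 h)
    have hNp : ∀ y ∈ N, y ≠ 1 → orderOf y = orderOf a := by
      have hcomm : ∀ u ∈ N, ∀ v ∈ N', Commute u v := fun u hu v hv =>
        Subgroup.commute_of_normal_of_disjoint N N' hNn hN'n (disjoint_iff.2 hinf) u v hu hv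
      have hb : σ a ∈ N' := ⟨a, haN, rfl⟩
      have hb1 : σ a ≠ 1 := fun e => ha1 (σ.injective (e.trans (map_one σ).symm))
      intro y hy hy1
      rw [eq_of_commute hSp hord hy1 hb1 (hcomm y hy _ hb), orderOf_aut]
    set p := orderOf a
    haveI : Fact p.Prime := ⟨(hSp _ (hord a ha1)).1⟩
    have hNpg : IsPGroup p N := by
      intro y
      by_cases hy : (y : G) = 1
      · exact ⟨0, Subtype.ext (by simp [hy])⟩
      · refine ⟨1, Subtype.ext ?_⟩
        rw [pow_one, SubgroupClass.coe_pow, ← hNp y y.2 hy, pow_orderOf_eq_one]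
        rfl
    -- then all elements of order `p` form a characteristic `p`-subgroup
    set M := Subgroup.closure {y : G | ∃ τ : MulAut G, ∃ n ∈ N, τ n = y} with hM
    haveI : M.Normal := by
      refine ⟨fun y hy g => ?_⟩
      have : M.map (MulAut.conj g).toMonoidHom ≤ M := by
        rw [hM, MonoidHom.map_closure]
        refine Subgroup.closure_mono ?_
        rintro _ ⟨_, ⟨τ, n, hn, rfl⟩, rfl⟩
        exact ⟨MulAut.conj g * τ, n, hn, rfl⟩
      exact this ⟨y, hy, rfl⟩
    have hMP : ∀ P : Sylow p G, M ≤ P := by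
      intro P
      rw [hM, Subgroup.closure_le]
      rintro _ ⟨τ, n, hn, rfl⟩
      haveI : (N.map τ.toMonoidHom).Normal := hNn.map _ τ.surjective
      exact (hNpg.map τ.toMonoidHom).le_sylow_of_normal P ⟨n, hn, rfl⟩
    rcases hchar M (fun τ y hy => by
      have : M.map τ.toMonoidHom ≤ M := by
        rw [hM, MonoidHom.map_closure]
        refine Subgroup.closure_mono ?_
        rintro _ ⟨_, ⟨τ', n, hn, rfl⟩, rfl⟩
        exact ⟨τ * τ', n, hn, rfl⟩
      exact this ⟨y, hy, rfl⟩) with hb | ht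
    · exact ha1 (Subgroup.mem_bot.1 (hb ▸ Subgroup.subset_closure ⟨1, a, haN, rfl⟩))
    · obtain ⟨P⟩ := (inferInstance : Nonempty (Sylow p G))
      obtain ⟨k, hk⟩ := IsPGroup.iff_card.1 P.2
      have hP : (P : Subgroup G) = ⊤ := top_le_iff.1 (ht ▸ hMP P)
      rw [hP, Subgroup.card_top] at hk
      exact hns (CfsgLib.Chars.Apps.isSolvable_of_card_eq_pow_mul_pow G (Fact.out : p.Prime) Nat.prime_two (a := k) (b := 0)
        (by rw [hk, pow_zero, mul_one]))
  refine @IsSimpleGroup.mk G _ hnt fun H hH => ?_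
  by_cases hb : H = ⊥
  · exact Or.inl hb
  · exact Or.inr (top_le_iff.1 ((hNtop ▸ hNmin (y := H) ⟨hH, hb⟩ (hNtop ▸ le_top) :)))

section Eight

variable {T : Sylow 2 G} (h : CfsgLib.StronglyEmbedded.AbelianCentralizer.Hyp T)

open CfsgLib.StronglyEmbedded.AbelianCentralizer

include h in
/-- The degree-nine case contains an element of order nine. -/
theorem exists_order_ne (hq : Nat.card (T : Subgroup G) = 8) :
    ∃ g : G, g ^ 2 ≠ 1 ∧ g ^ 3 ≠ 1 ∧ g ^ 7 ≠ 1 := by
  classical
  set N := Subgroup.normalizer ((T : Subgroup G) : Set G) with hN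
  have hse := stronglyEmbedded h
  obtain ⟨u, huN, hu⟩ := CfsgLib.StronglyEmbedded.exists_involution_not_mem hse
  obtain ⟨hcard, hinv, hdisj⟩ := inf_conj_spec h hu huN
  set D := N ⊓ N.map (MulAut.conj u).toMonoidHom with hD
  have huu : u * u = 1 := CfsgLib.StronglyEmbedded.mul_self_eq_one hu
  set b : G ⧸ N := ((1 : G) : G ⧸ N) with hb
  set z : G ⧸ N := ((u : G) : G ⧸ N) with hz
  have hub : u • b = z := by rw [hb, MulAction.Quotient.smul_coe, smul_eq_mul, mul_one]
  have huz : u • z = b := by rw [← hub, smul_smul, huu, one_smul]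
  have hzb : z ≠ b := fun e => huN (show u ∈ N by simpa using QuotientGroup.eq.1 e.symm)
  -- every other point is a unique translate of `z`
  have hTinj : ∀ t s : (T : Subgroup G), (t : G) • z = (s : G) • z → t = s := by
    intro t s e
    have e1 : ((t : G)⁻¹ * s) • z = z := by rw [← smul_smul, ← e, inv_smul_smul]
    rw [hz, CfsgLib.StronglyEmbedded.quotient_eq_self_iff] at e1
    have hmem : (t : G)⁻¹ * s ∈ D ⊓ (T : Subgroup G) :=
      ⟨⟨Subgroup.le_normalizer ((T : Subgroup G).mul_mem ((T : Subgroup G).inv_mem t.2) s.2),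
        Subgroup.mem_map.2 ⟨_, e1, by simp [mul_assoc]⟩⟩, (T : Subgroup G).mul_mem ((T : Subgroup G).inv_mem t.2) s.2⟩
    rw [hdisj, Subgroup.mem_bot, inv_mul_eq_one] at hmem
    exact Subtype.ext hmem
  have hTb : ∀ t : (T : Subgroup G), (t : G) • b = b := fun t => by
    rw [hb, CfsgLib.StronglyEmbedded.quotient_eq_self_iff]
    simpa [hN] using Subgroup.le_normalizer t.2
  have hTz : ∀ c : G ⧸ N, c ≠ b → ∃ t : (T : Subgroup G), (t : G) • z = c := by
    haveI := Fintype.ofFinite (G ⧸ N)
    haveI := Fintype.ofFinite (T : Subgroup G)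
    intro c hc
    have hsub : Finset.univ.image (fun t : (T : Subgroup G) => (t : G) • z) = Finset.univ.erase b := by
      refine Finset.eq_of_subset_of_card_le ?_ ?_
      · intro c hc
        simp only [Finset.mem_image, Finset.mem_univ, true_and] at hc
        obtain ⟨t, rfl⟩ := hc
        refine Finset.mem_erase.2 ⟨fun e => hzb ?_, Finset.mem_univ _⟩
        rw [← inv_smul_smul (t : G) z, e]
        nth_rw 1 [← hTb t]
        rw [inv_smul_smul]
      · rw [Finset.card_image_of_injective _ hTinj, Finset.card_erase_of_mem (Finset.mem_univ _), Finset.card_univ,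
          Finset.card_univ, ← Nat.card_eq_fintype_card, ← Nat.card_eq_fintype_card]
        show N.index - 1 ≤ _
        rw [index_eq h]
        omega
    have : c ∈ Finset.univ.image (fun t : (T : Subgroup G) => (t : G) • z) := by rw [hsub]; simp [hc]
    simpa using this
  -- the fixed point of `u`
  obtain ⟨c, hc⟩ : ∃ c : G ⧸ N, u • c = c := by
    have hp : IsPGroup 2 (Subgroup.zpowers u) := IsPGroup.of_card (n := 1) (by rw [Nat.card_zpowers, hu, pow_one])
    have hodd : ¬ 2 ∣ Nat.card (G ⧸ N) := by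
      show ¬ 2 ∣ N.index
      rw [index_eq h, hq]
      norm_num
    obtain ⟨c, hc⟩ := hp.nonempty_fixed_point_of_prime_not_dvd_card (G ⧸ N) hodd
    exact ⟨c, hc ⟨u, Subgroup.mem_zpowers u⟩⟩
  obtain ⟨x, hx⟩ := hTz c (fun e => hzb (by rw [← hub, ← e, hc]))
  have hx1 : (x : G) ≠ 1 := fun e => hzb (by
    rw [e, one_smul] at hx
    rw [← huz, hx, hc])
  -- a generator of the two-point stabilizer
  have hD7 : Nat.card D = 7 := by rw [hcard, hq]
  obtain ⟨d₀, hd₀D, hd₀⟩ : ∃ d₀ ∈ D, d₀ ≠ (1 : G) := by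
    haveI : Nontrivial D := Finite.one_lt_card_iff_nontrivial.1 (by omega)
    obtain ⟨⟨d, hd⟩, hd1⟩ := exists_ne (1 : D)
    exact ⟨d, hd, fun e => hd1 (Subtype.ext e)⟩
  have hpow7 : ∀ d ∈ D, d ^ 7 = 1 := fun d hd => by
    have := congrArg Subtype.val (pow_card_eq_one' (x := (⟨d, hd⟩ : D)))
    rwa [hD7] at this
  -- the translates of `x` under powers of a generator
  haveI : Fact (Nat.Prime 7) := ⟨by norm_num⟩
  have hxs : ∀ d ∈ D, d ≠ 1 → ∀ i j : ℕ, i < 7 → j < 7 → d ^ i * x * (d ^ i)⁻¹ = d ^ j * x * (d ^ j)⁻¹ → i = j := by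
    intro d hd hd1 i j hi hj e
    have hc2 : (d ^ j)⁻¹ * d ^ i ∈ Subgroup.centralizer ({(x : G)} : Set G) := by
      rw [Subgroup.mem_centralizer_singleton_iff]
      calc (d ^ j)⁻¹ * d ^ i * x = (d ^ j)⁻¹ * (d ^ i * x * (d ^ i)⁻¹) * d ^ i := by group
        _ = x * ((d ^ j)⁻¹ * d ^ i) := by rw [e]; group
    rw [centralizer_eq h x.2 hx1] at hc2
    have h0 : (d ^ j)⁻¹ * d ^ i ∈ D ⊓ (T : Subgroup G) :=
      ⟨D.mul_mem (D.inv_mem (D.pow_mem hd j)) (D.pow_mem hd i), hc2⟩
    rw [hdisj, Subgroup.mem_bot, inv_mul_eq_one] at h0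
    exact pow_injOn_Iio_orderOf (by rw [orderOf_eq_prime (hpow7 d hd) hd1]; exact hi)
      (by rw [orderOf_eq_prime (hpow7 d hd) hd1]; exact hj) h0.symm
  have hTT : ∀ k : G, k ∈ D → k * x * k⁻¹ ∈ (T : Subgroup G) := fun k hk =>
    (Subgroup.mem_normalizer_iff.1 hk.1 _).1 x.2
  obtain ⟨d, hdD, hd1, hrel⟩ : ∃ d ∈ D, d ≠ (1 : G) ∧ (x : G) * (d * x * d⁻¹) = d ^ 3 * x * (d ^ 3)⁻¹ := by
    set y : ℕ → G := fun k => d₀ ^ k * x * (d₀ ^ k)⁻¹ with hy
    have hyT : ∀ k, y k ∈ (T : Subgroup G) := fun k => hTT _ (D.pow_mem hd₀D k)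
    have hyc : ∀ i j, y i * y j = y j * y i := by
      intro i j
      have hy1 : y i ≠ 1 := fun e => hx1 (conj_eq_one_iff.1 e)
      have := centralizer_eq h (hyT i) hy1 ▸ hyT j
      exact (Subgroup.mem_centralizer_singleton_iff.1 this).symm
    have hy2 : ∀ i, y i * y i = 1 := fun i =>
      CfsgLib.StronglyEmbedded.mul_self_eq_one (orderOf_eq_two h (hyT i) fun e => hx1 (conj_eq_one_iff.1 e))
    have hyshift : ∀ i j, d₀ ^ i * y j * (d₀ ^ i)⁻¹ = y (i + j) := fun i j => by simp only [hy, pow_add]; group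
    have hper : ∀ i, y (i + 7) = y i := fun i => by simp only [hy, pow_add, hpow7 d₀ hd₀D, mul_one]
    have hinjy : ∀ i j, i < 7 → j < 7 → y i = y j → i = j := hxs d₀ hd₀D hd₀
    obtain ⟨j, hj7, hj⟩ : ∃ j < 7, y 0 * y 1 = y j := by
      haveI := Fintype.ofFinite (T : Subgroup G)
      let f : Fin 7 → {t : (T : Subgroup G) // t ≠ 1} := fun k =>
        ⟨⟨y k, hyT k⟩, fun e => hx1 (conj_eq_one_iff.1 (congrArg Subtype.val e))⟩
      have hf : Function.Bijective f := (Fintype.bijective_iff_injective_and_card f).2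
        ⟨fun a b e => Fin.ext (hinjy a b a.2 b.2 (congrArg (fun t => ((t.1 : (T : Subgroup G)) : G)) e)), by
          rw [Fintype.card_fin, Fintype.card_subtype_compl, Fintype.card_subtype_eq, ← Nat.card_eq_fintype_card, hq]⟩
      obtain ⟨k, hk⟩ := hf.2 ⟨⟨y 0 * y 1, mul_mem (hyT 0) (hyT 1)⟩, fun e => by
        have e' : y 0 * y 1 = 1 := congrArg Subtype.val e
        have := hinjy 0 1 (by norm_num) (by norm_num)
          (mul_right_cancel (e'.trans (hy2 1).symm))
        omega⟩
      exact ⟨k, k.2, (congrArg (fun t => ((t.1 : (T : Subgroup G)) : G)) hk).symm⟩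
    have hsh : ∀ i, y i * y (i + 1) = y (i + j) := fun i => by
      rw [← hyshift i j, ← hj, ← conj_mul, hyshift, hyshift, add_zero]
    have c0 : ∀ a b : ℕ, y a * (y a * y b) = y b := fun a b => by rw [← mul_assoc, hy2, one_mul]
    interval_cases j
    · exfalso
      have : y 1 = 1 := by simpa [← mul_assoc, hy2] using congrArg (fun w => y 0 * w) hj
      exact hx1 (conj_eq_one_iff.1 this)
    · exfalso
      have : y 0 = 1 := (mul_eq_right.1 hj)
      exact hx1 (conj_eq_one_iff.1 this)
    · exfalso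
      have h1 := hsh 1
      norm_num at h1
      rw [← hj, hyc 0 1, c0] at h1
      have := hinjy 0 3 (by norm_num) (by norm_num) h1
      omega
    · exact ⟨d₀, hd₀D, hd₀, by simpa [hy] using hj⟩
    · exfalso
      have h1 := hsh 4
      norm_num at h1
      rw [show y 8 = y 1 from hper 1, ← hj] at h1
      have h2 : y 5 = y 0 := by
        have := congrArg (fun w => y 0 * y 1 * w) h1
        simp only [← mul_assoc] at this
        rw [mul_assoc (y 0) (y 1) (y 0), hyc 1 0, c0, hy2, one_mul] at this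
        rw [this, mul_assoc, hy2, mul_one]
      have := hinjy 5 0 (by norm_num) (by norm_num) h2
      omega
    · -- replace the generator by its inverse
      refine ⟨d₀⁻¹, D.inv_mem hd₀D, inv_ne_one.2 hd₀, ?_⟩
      have hinv1 : d₀⁻¹ = d₀ ^ 6 := inv_eq_of_mul_eq_one_right (by rw [← pow_succ']; exact hpow7 d₀ hd₀D)
      have hinv3 : d₀⁻¹ ^ 3 = d₀ ^ 4 := by
        rw [inv_pow]
        exact inv_eq_of_mul_eq_one_right (by rw [← pow_add]; exact hpow7 d₀ hd₀D)
      rw [hinv3]
      conv_lhs => rw [hinv1]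
      have hgoal : y 0 * y 6 = y 4 := by
        have h6 := hsh 6
        norm_num at h6
        rw [show y 7 = y 0 from hper 0, show y 11 = y 4 from hper 4] at h6
        rw [hyc, h6]
      simpa [hy] using hgoal
    · exfalso
      have h1 := hsh 1
      norm_num at h1
      rw [show y 7 = y 0 from hper 0] at h1
      have h2 : y 2 = y 6 := by
        rw [← hj, ← h1]
        rw [hyc 1 2, mul_assoc, hy2, mul_one]
      have := hinjy 2 6 (by norm_num) (by norm_num) h2
      omega
  set y : ℕ → G := fun k => d ^ k * x * (d ^ k)⁻¹ with hy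
  set P : ℕ → G ⧸ N := fun k => y k • z with hP
  have hyT : ∀ k, y k ∈ (T : Subgroup G) := fun k => hTT _ (D.pow_mem hdD k)
  have hyc : ∀ i j, y i * y j = y j * y i := by
    intro i j
    have := centralizer_eq h (hyT i) (fun e => hx1 (conj_eq_one_iff.1 e)) ▸ hyT j
    exact (Subgroup.mem_centralizer_singleton_iff.1 this).symm
  have hy2 : ∀ i, y i * y i = 1 := fun i =>
    CfsgLib.StronglyEmbedded.mul_self_eq_one (orderOf_eq_two h (hyT i) fun e => hx1 (conj_eq_one_iff.1 e))
  have hsh : ∀ i, y i * y (i + 1) = y (i + 3) := fun i => by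
    calc y i * y (i + 1) = d ^ i * (x * (d * x * d⁻¹)) * (d ^ i)⁻¹ := by simp only [hy, pow_succ]; group
      _ = _ := by rw [hrel]; simp only [hy, pow_add]; group
  have hper : ∀ i, y (i + 7) = y i := fun i => by simp only [hy, pow_add, hpow7 d hdD, mul_one]
  have hdz : ∀ k ∈ D, k • z = z := fun k hk => by
    rw [hz, CfsgLib.StronglyEmbedded.quotient_eq_self_iff]
    obtain ⟨e, he, rfl⟩ := Subgroup.mem_map.1 hk.2
    simpa [mul_assoc] using he
  have hPd : ∀ k, P k = d ^ k • c := fun k => by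
    show y k • z = _
    rw [← hx, smul_smul]
    show (d ^ k * x * (d ^ k)⁻¹) • z = _
    rw [← smul_smul, hdz _ (D.inv_mem (D.pow_mem hdD k))]
  have huP : ∀ k ≤ 7, u • P k = P (7 - k) := fun k hk => by
    rw [hPd, hPd, smul_smul]
    have h1 : u * d ^ k = (d ^ k)⁻¹ * u := by
      rw [← hinv _ (D.pow_mem hdD k), inv_mul_cancel_right]
    rw [h1, ← smul_smul, hc]
    congr 1
    exact inv_eq_of_mul_eq_one_right (by rw [← pow_add, Nat.add_sub_cancel' hk, hpow7 d hdD])
  have hP7 : P 7 = P 0 := by simp only [hP, show y 7 = y 0 from hper 0]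
  have hPb : ∀ k, P k ≠ b := fun k e => hzb (by
    have h1 := hTb ⟨_, hyT k⟩
    exact smul_left_cancel _ (e.trans h1.symm))
  set g := y 1 * u with hg
  have step : ∀ k ≤ 7, g • P k = (y 1 * y (7 - k)) • z := fun k hk => by
    rw [hg, ← smul_smul, huP k hk, smul_smul]
  have h14 : y 1 * y 2 = y 4 := hsh 1
  have g0 : g • b = P 1 := by rw [hg, ← smul_smul, hub]
  have g1 : g • P 1 = P 5 := by
    rw [step 1 (by norm_num)]
    have h5 : y 5 * y 6 = y 1 := by rw [show 6 = 5 + 1 from rfl, hsh 5]; exact hper 1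
    rw [← h5, mul_assoc, hy2, mul_one]
  have g5 : g • P 5 = P 4 := by rw [step 5 (by norm_num)]; norm_num [h14, hP]
  have g4 : g • P 4 = P 0 := by
    rw [step 4 (by norm_num)]
    have : y 1 * y 3 = y 0 := by rw [← hsh 0, hyc 0 1, ← mul_assoc, hy2, one_mul]
    norm_num [this, hP]
  have g0' : g • P 0 = P 3 := by
    rw [step 0 (by norm_num)]
    norm_num [show y 7 = y 0 from hper 0, hyc 1 0, show y 0 * y 1 = y 3 from hsh 0, hP]
  have g3 : g • P 3 = P 2 := by
    rw [step 3 (by norm_num)]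
    norm_num [show y 1 * y 4 = y 2 by rw [← h14, ← mul_assoc, hy2, one_mul], hP]
  have g2 : g • P 2 = P 6 := by
    rw [step 2 (by norm_num)]
    have : y 1 * y 5 = y 6 := by
      rw [← hsh 2, ← mul_assoc, h14, hyc]
      exact hsh 3
    norm_num [this, hP]
  refine ⟨g, fun e => hPb 5 ?_, fun e => hPb 4 ?_, fun e => hPb 6 ?_⟩
  · calc P 5 = g ^ 2 • b := by simp only [pow_succ', pow_zero, mul_one, ← smul_smul, g0, g1]
      _ = b := by rw [e, one_smul]
  · calc P 4 = g ^ 3 • b := by simp only [pow_succ', pow_zero, mul_one, ← smul_smul, g0, g1, g5]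
      _ = b := by rw [e, one_smul]
  · calc P 6 = g ^ 7 • b := by simp only [pow_succ', pow_zero, mul_one, ← smul_smul, g0, g1, g5, g4, g0', g3, g2]
      _ = b := by rw [e, one_smul]

end Eight

theorem main (hns : ¬ Group.IsSolvable G)
    (h4 : Nat.card (MulAction.orbitRel.Quotient (MulAut G) G) = 4) : Nonempty (G ≃* alternatingGroup (Fin 5)) := by
  classical
  obtain ⟨S, hS3, hSp, hSall, hord, haut⟩ := orders hns h4
  haveI := simple hns hS3 hSp hSall hord haut
  have hna : ¬ IsMulCommutative G := fun hc => hns (Group.isSolvable_of_comm hc.1.comm)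
  have h2S := two_mem hS3 hSp hord haut hna
  obtain ⟨T⟩ := (inferInstance : Nonempty (Sylow 2 G))
  have hexp : ∀ t : G, orderOf t = 2 → ∀ c ∈ Subgroup.centralizer ({t} : Set G), c ^ 2 = 1 := by
    intro t ht c hc
    have ht1 : t ≠ 1 := fun e => by rw [e, orderOf_one] at ht; omega
    by_cases hc1 : c = 1
    · rw [hc1, one_pow]
    · have := eq_of_commute hSp hord ht1 hc1 (Subgroup.mem_centralizer_singleton_iff.1 hc).symm
      rw [← ht, this, pow_orderOf_eq_one]
  have hT2 : ∀ t ∈ (T : Subgroup G), t ^ 2 = 1 := by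
    intro t ht
    by_cases ht1 : t = 1
    · rw [ht1, one_pow]
    · obtain ⟨k, hk⟩ := (IsPGroup.iff_orderOf.1 T.2) ⟨t, ht⟩
      rw [Subgroup.orderOf_mk] at hk
      have := (Nat.Prime.pow_eq_iff (hSp _ (hord t ht1)).1).1 hk.symm
      rw [this.1, pow_orderOf_eq_one]
  have hTbot : (T : Subgroup G) ≠ ⊥ := T.ne_bot_of_dvd_card (hSp 2 h2S).2
  have hnn : ¬ (T : Subgroup G).Normal := fun hn => by
    rcases hn.eq_bot_or_eq_top with hb | ht
    · exact hTbot hb
    · exact hns (CfsgLib.Chars.Apps.isSolvable_of_primeFactors_subset G Nat.prime_two Nat.prime_two fun r hr hd => by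
        obtain ⟨k, hk⟩ := IsPGroup.iff_card.1 T.2
        rw [ht, Subgroup.card_top] at hk
        exact Or.inl ((Nat.prime_dvd_prime_iff_eq hr Nat.prime_two).1 (hr.dvd_of_dvd_pow (hk ▸ hd))))
  have hnc : ¬ IsCyclic (T : Subgroup G) := by
    intro hcy
    obtain ⟨g, hg⟩ := IsCyclic.exists_generator (α := (T : Subgroup G))
    have hcard : Nat.card (T : Subgroup G) ∣ 2 := by
      rw [← orderOf_eq_card_of_forall_mem_zpowers hg]
      exact orderOf_dvd_of_pow_eq_one (Subtype.ext (hT2 g g.2))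
    have hnormc : Subgroup.normalizer ((T : Subgroup G) : Set G) ≤ Subgroup.centralizer ((T : Subgroup G) : Set G) := by
      have htwo : ∀ a ∈ (T : Subgroup G), a = 1 ∨ a = (g : G) := by
        intro a ha
        obtain ⟨i, hi⟩ := hg ⟨a, ha⟩
        have hi' : (g : G) ^ i = a := congrArg Subtype.val hi
        rcases Int.even_or_odd i with ⟨j, hj⟩ | ⟨j, hj⟩
        · left
          rw [← hi', hj, ← two_mul, zpow_mul, zpow_ofNat, hT2 g g.2, one_zpow]
        · right
          rw [← hi', hj, zpow_add_one, zpow_mul, zpow_ofNat, hT2 g g.2, one_zpow, one_mul]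
      intro n hn
      rw [Subgroup.mem_centralizer_iff]
      intro a ha
      rcases htwo a ha with rfl | rfl
      · simp
      · have hc := (Subgroup.mem_normalizer_iff.1 hn _).1 ha
        rcases htwo _ hc with e | e
        · rw [conj_eq_one_iff] at e
          simp [e]
        · exact (mul_inv_eq_iff_eq_mul.1 e).symm
    have hcomp := MonoidHom.ker_transferSylow_isComplement' T hnormc
    rcases (inferInstance : (MonoidHom.transferSylow T hnormc).ker.Normal).eq_bot_or_eq_top with hb | ht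
    · rw [hb, Subgroup.isComplement'_bot_left] at hcomp
      exact hnn (hcomp ▸ inferInstance)
    · rw [ht, Subgroup.isComplement'_top_left] at hcomp
      exact hTbot hcomp
  have hHyp : CfsgLib.StronglyEmbedded.AbelianCentralizer.Hyp T := by
    refine ⟨hnc, hnn, fun t ht => ⟨IsMulCommutative.of_comm fun a b => ?_, hexp t ht⟩⟩
    have h2 : ∀ c : Subgroup.centralizer ({t} : Set G), c⁻¹ = c := fun c =>
      inv_eq_of_mul_eq_one_right (Subtype.ext (by simpa [pow_two] using hexp t ht c c.2))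
    calc a * b = (a * b)⁻¹ := (h2 _).symm
      _ = b * a := by rw [mul_inv_rev, h2, h2]
  set q := Nat.card (T : Subgroup G) with hq
  have h4q := CfsgLib.StronglyEmbedded.AbelianCentralizer.four_le_card hHyp
  have hG : Nat.card G = (q + 1) * (q * (q - 1)) := by
    rw [← (Subgroup.normalizer ((T : Subgroup G) : Set G)).index_mul_card,
      CfsgLib.StronglyEmbedded.AbelianCentralizer.index_eq hHyp, CfsgLib.StronglyEmbedded.AbelianCentralizer.card_normalizer hHyp]
  obtain ⟨n, hn⟩ := IsPGroup.iff_card.1 T.2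
  rw [← hq] at hn
  have hn2 : 2 ≤ n := by
    by_contra hlt
    have : 2 ^ n ≤ 2 ^ 1 := Nat.pow_le_pow_right (by norm_num) (by omega)
    omega
  have heven : 2 ∣ q := hn ▸ dvd_pow_self 2 (by omega)
  -- `q - 1` and `q + 1` are prime powers
  obtain ⟨r, hr, hrd⟩ := Nat.exists_prime_and_dvd (show q - 1 ≠ 1 by omega)
  obtain ⟨s, hs, hsd⟩ := Nat.exists_prime_and_dvd (show q + 1 ≠ 1 by omega)
  have hrS : r ∈ S := hSall r hr (hG ▸ dvd_mul_of_dvd_right (dvd_mul_of_dvd_right hrd q) _)
  have hsS : s ∈ S := hSall s hs (hG ▸ dvd_mul_of_dvd_left hsd _)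
  have hr2 : r ≠ 2 := by rintro rfl; omega
  have hs2 : s ≠ 2 := by rintro rfl; omega
  have hrs : r ≠ s := by
    rintro rfl
    have : r ∣ 2 := (Nat.dvd_add_right hrd).1 (show r ∣ q - 1 + 2 by rwa [show q - 1 + 2 = q + 1 by omega])
    exact hr2 ((Nat.prime_dvd_prime_iff_eq hr Nat.prime_two).1 this)
  have hS : S = {2, r, s} := by
    refine (Finset.eq_of_subset_of_card_le ?_ ?_).symm
    · simp [Finset.insert_subset_iff, h2S, hrS, hsS]
    · rw [hS3]; simp [Ne.symm hr2, Ne.symm hs2, hrs]
  have hone : ∀ t : ℕ, t.Prime → t ∣ q - 1 → t = r := by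
    intro t ht htd
    have := hSall t ht (hG ▸ dvd_mul_of_dvd_right (dvd_mul_of_dvd_right htd q) _)
    rw [hS] at this
    simp only [Finset.mem_insert, Finset.mem_singleton] at this
    rcases this with rfl | h | rfl
    · omega
    · exact h
    · exfalso
      have h2 : t ∣ 2 := (Nat.dvd_add_right htd).1 (show t ∣ q - 1 + 2 by rwa [show q - 1 + 2 = q + 1 by omega])
      exact hs2 ((Nat.prime_dvd_prime_iff_eq ht Nat.prime_two).1 h2)
  have hone' : ∀ t : ℕ, t.Prime → t ∣ q + 1 → t = s := by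
    intro t ht htd
    have := hSall t ht (hG ▸ dvd_mul_of_dvd_left htd _)
    rw [hS] at this
    simp only [Finset.mem_insert, Finset.mem_singleton] at this
    rcases this with rfl | rfl | h
    · omega
    · exfalso
      have h2 : t ∣ 2 := (Nat.dvd_add_right hrd).1 (show t ∣ q - 1 + 2 by rwa [show q - 1 + 2 = q + 1 by omega])
      exact hr2 ((Nat.prime_dvd_prime_iff_eq ht Nat.prime_two).1 h2)
    · exact h
  obtain ⟨a, ha⟩ := exists_pow_of_forall (show q - 1 ≠ 0 by omega) hone
  obtain ⟨b, hb⟩ := exists_pow_of_forall (show q + 1 ≠ 0 by omega) hone'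
  rcases Nat.even_or_odd n with ⟨k, hk⟩ | ⟨k, hk⟩
  · -- three divides `q - 1`
    have h3 : 3 ∣ q - 1 := by
      rw [hn, hk, ← two_mul, pow_mul]
      have h41 := Nat.sub_dvd_pow_sub_pow (2 ^ 2) 1 k
      rwa [one_pow, show 2 ^ 2 - 1 = 3 from rfl] at h41
    have hr3 : r = 3 := (hone 3 Nat.prime_three h3).symm
    have hn' : n = 2 := pow_sub_one_eq hn2 (b := a) (by rw [← hn, ha, hr3])
    refine CfsgLib.SimpleSixty.nonempty_mulEquiv_alt_five ?_
    rw [hG, hn, hn']
    norm_num
  · exfalso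
    have h3 : 3 ∣ q + 1 := by
      rw [hn, hk, pow_succ, pow_mul, Nat.dvd_iff_mod_eq_zero, Nat.add_mod, Nat.mul_mod, Nat.pow_mod]
      norm_num
    have hs3 : s = 3 := (hone' 3 Nat.prime_three h3).symm
    have hn' : n = 3 := pow_add_one_eq hn2 (b := b) (by rw [← hn, hb, hs3])
    have hq8 : q = 8 := by rw [hn, hn']; norm_num
    have hr7 : r = 7 := by
      have h7 : q - 1 = 7 := by omega
      exact ((Nat.prime_dvd_prime_iff_eq hr (by norm_num)).1 (h7 ▸ hrd))
    obtain ⟨g, g2, g3, g7⟩ := exists_order_ne hHyp hq8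
    by_cases hg1 : g = 1
    · exact g2 (by rw [hg1, one_pow])
    have := hord g hg1
    rw [hS, hs3, hr7] at this
    simp only [Finset.mem_insert, Finset.mem_singleton] at this
    rcases this with e | e | e
    · exact g2 (e ▸ pow_orderOf_eq_one g)
    · exact g7 (e ▸ pow_orderOf_eq_one g)
    · exact g3 (e ▸ pow_orderOf_eq_one g)

theorem result {G : Type*} [Group G] [Finite G] (hns : ¬ Group.IsSolvable G)
    (h4 : Nat.card (MulAction.orbitRel.Quotient (MulAut G) G) = 4) : Nonempty (G ≃* alternatingGroup (Fin 5)) :=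
  main hns h4

end Cfsg.Agent.S4068
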