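import Cfsg.Statements.S4071
import Mathlib

set_option autoImplicit false
open Cfsg

namespace Cfsg.Agent.S4071

variable {G : Type*} [Group G] [Finite G]

theorem exists_normal_prime_index [Group.IsSolvable G] [Nontrivial G] :
    ∃ (M : Subgroup G) (p : ℕ), M.Normal ∧ p.Prime ∧ M.index = p := by
  have hne : commutator G ≠ ⊤ := (Group.IsSolvable.commutator_lt_top_of_nontrivial G).ne
  obtain ⟨M, hM, hle⟩ := (eq_top_or_exists_le_coatom (commutator G)).resolve_left hne
  have hn : M.Normal := ⟨fun m hm g => by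
    have h1 : g * m * g⁻¹ * m⁻¹ ∈ M :=
      hle (Subgroup.commutator_mem_commutator (Subgroup.mem_top g) (Subgroup.mem_top m))
    have h2 := M.mul_mem h1 hm
    rwa [inv_mul_cancel_right] at h2⟩
  haveI := hn
  haveI : Nontrivial (G ⧸ M) := by
    rw [← not_subsingleton_iff_nontrivial, QuotientGroup.subsingleton_iff]
    exact hM.1
  obtain ⟨q, hq, hqd⟩ := Nat.exists_prime_and_dvd (Finite.one_lt_card (α := G ⧸ M)).ne'
  haveI := Fact.mk hq
  obtain ⟨u, hu⟩ := exists_prime_orderOf_dvd_card' (G := G ⧸ M) q hqd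
  have hu1 : u ≠ 1 := fun h => hq.one_lt.ne (by rw [← hu, h, orderOf_one])
  refine ⟨M, q, hn, hq, ?_⟩
  have hlt : M < (Subgroup.zpowers u).comap (QuotientGroup.mk' M) := by
    refine lt_of_le_of_ne (fun k hk => ?_) fun h => ?_
    · rw [Subgroup.mem_comap, show QuotientGroup.mk' M k = 1 from (QuotientGroup.eq_one_iff k).2 hk]
      exact one_mem _
    · obtain ⟨g, rfl⟩ := QuotientGroup.mk'_surjective M u
      have hg : g ∈ (Subgroup.zpowers (QuotientGroup.mk' M g)).comap (QuotientGroup.mk' M) :=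
        Subgroup.mem_zpowers _
      rw [← h] at hg
      exact hu1 ((QuotientGroup.eq_one_iff g).2 hg)
  have htop := hM.2 _ hlt
  have h3 : Subgroup.zpowers u = ⊤ := by
    rw [← Subgroup.map_comap_eq_self_of_surjective (QuotientGroup.mk'_surjective M) (Subgroup.zpowers u), htop,
      Subgroup.map_top_of_surjective _ (QuotientGroup.mk'_surjective M)]
  rw [Subgroup.index_eq_card, ← Subgroup.card_top, ← h3, Nat.card_zpowers, hu]

theorem exists_conj_pow {x a c : G} (h : x * a * x⁻¹ = a * c) (hxc : x * c = c * x) :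
    ∀ n : ℕ, x ^ n * a * (x ^ n)⁻¹ = a * c ^ n := by
  intro n
  induction n with
  | zero => simp
  | succ n ih =>
    calc x ^ (n + 1) * a * (x ^ (n + 1))⁻¹ = x ^ n * (x * a * x⁻¹) * (x ^ n)⁻¹ := by rw [pow_succ]; group
      _ = (x ^ n * a * (x ^ n)⁻¹) * (x ^ n * c * (x ^ n)⁻¹) := by rw [h]; group
      _ = a * c ^ n * c := by
        rw [ih, ((show Commute x c from hxc).pow_left n).eq, mul_inv_cancel_right]
      _ = a * c ^ (n + 1) := by rw [pow_succ]; group

theorem forward [Group.IsSolvable G] (hnn : ¬ Group.IsNilpotent G)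
    (hS : ∀ H : Subgroup G, ¬ IsMulCommutative H → Subgroup.normalizer (H : Set G) = H) :
    ∃ (x : G) (A : Subgroup G) (p : ℕ), p.Prime ∧ A.Normal ∧ IsMulCommutative A ∧ (∃ k : ℕ, orderOf x = p ^ k) ∧
      ¬ p ∣ Nat.card A ∧ (Subgroup.zpowers x).IsComplement' A ∧ x ^ p ∈ Subgroup.center G ∧
      ∀ a : G, a ∈ A → a ≠ 1 → x * a * x⁻¹ ≠ a := by
  haveI : Nontrivial G := by
    rcases subsingleton_or_nontrivial G with h | h
    · exact absurd (inferInstance : Group.IsNilpotent G) hnn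
    · exact h
  obtain ⟨M, p, hMn, hp, hMp⟩ := exists_normal_prime_index (G := G)
  haveI := Fact.mk hp
  haveI := hMn
  have hself : ∀ H : Subgroup G, ∀ a ∈ H, ∀ b ∈ H, a * b ≠ b * a → Subgroup.normalizer (H : Set G) = H :=
    fun H a ha b hb hne => hS H fun hc => hne (congrArg Subtype.val (mul_comm' (⟨a, ha⟩ : H) ⟨b, hb⟩))
  have hMne : M ≠ ⊤ := fun h => hp.one_lt.ne (by rw [← hMp, h, Subgroup.index_top])
  have hMab : ∀ a ∈ M, ∀ b ∈ M, a * b = b * a := by
    intro a ha b hb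
    by_contra hne
    exact hMne (((Subgroup.normalizer_eq_top (H := M)).symm.trans (hself M a ha b hb hne)).symm)
  -- a p-element outside M
  obtain ⟨g, hg⟩ : ∃ g, g ∉ M := by
    by_contra h
    push Not at h
    exact hMne ((Subgroup.eq_top_iff' M).2 h)
  obtain ⟨i, r, hr, hn⟩ := Nat.exists_eq_pow_mul_and_not_dvd (orderOf_pos g).ne' p hp.ne_one
  set x := g ^ r with hx
  have hxp : x ^ p ^ i = 1 := by rw [hx, ← pow_mul, mul_comm, ← hn, pow_orderOf_eq_one]
  have hpowM : ∀ y : G, y ^ p ∈ M := by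
    intro y
    rw [← QuotientGroup.eq_one_iff, QuotientGroup.mk_pow, ← hMp, Subgroup.index_eq_card]
    exact pow_card_eq_one'
  have hxM : x ∉ M := by
    intro h
    apply hg
    rw [← QuotientGroup.eq_one_iff] at h ⊢
    rw [hx, QuotientGroup.mk_pow, ← orderOf_dvd_iff_pow_eq_one] at h
    rw [← orderOf_eq_one_iff]
    refine Nat.eq_one_of_dvd_coprimes ((hp.coprime_iff_not_dvd).2 hr).symm h ?_
    rw [← hMp, Subgroup.index_eq_card]
    exact orderOf_dvd_natCard _
  have hgen : Subgroup.zpowers x ⊔ M = ⊤ := by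
    by_contra h
    have hd : (Subgroup.zpowers x ⊔ M).index ∣ p := hMp ▸ Subgroup.index_dvd_of_le le_sup_right
    rcases (Nat.dvd_prime hp).1 hd with h1 | h1
    · exact h (Subgroup.index_eq_one.1 h1)
    · have hcard : Nat.card M = Nat.card ↥(Subgroup.zpowers x ⊔ M) := by
        have e1 := M.card_mul_index
        rw [← (Subgroup.zpowers x ⊔ M).card_mul_index, h1, hMp] at e1
        exact Nat.eq_of_mul_eq_mul_right hp.pos e1
      have := Subgroup.eq_of_le_of_card_ge (le_sup_right : M ≤ Subgroup.zpowers x ⊔ M) hcard.ge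
      exact hxM (this ▸ Subgroup.mem_sup_left (Subgroup.mem_zpowers x))
  have hcen : ∀ z ∈ M, x * z = z * x → z ∈ Subgroup.center G := by
    intro z hz hxz
    rw [Subgroup.mem_center_iff]
    intro y
    have hy : y ∈ Subgroup.zpowers x ⊔ M := hgen ▸ Subgroup.mem_top y
    rw [← SetLike.mem_coe, Subgroup.mul_normal, Set.mem_mul] at hy
    obtain ⟨u, hu, m, hm, rfl⟩ := hy
    obtain ⟨j, rfl⟩ := Subgroup.mem_zpowers_iff.1 hu
    rw [mul_assoc, hMab m hm z hz, ← mul_assoc, ((show Commute x z from hxz).zpow_left j).eq, mul_assoc]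
  -- the p'-part of M
  let A : Subgroup G :=
    { carrier := {a | a ∈ M ∧ (orderOf a).Coprime p}
      one_mem' := ⟨M.one_mem, by simp [orderOf_one]⟩
      mul_mem' := fun {a b} ha hb => ⟨M.mul_mem ha.1 hb.1,
        Nat.Coprime.coprime_dvd_left ((show Commute a b from hMab a ha.1 b hb.1).orderOf_mul_dvd_mul_orderOf)
          (Nat.Coprime.mul_left ha.2 hb.2)⟩
      inv_mem' := fun {a} ha => ⟨M.inv_mem ha.1, by rw [orderOf_inv]; exact ha.2⟩ }
  have hAmem : ∀ a, a ∈ A ↔ a ∈ M ∧ (orderOf a).Coprime p := fun a => Iff.rfl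
  haveI hAn : A.Normal := ⟨fun a ha c => by
    rw [hAmem] at ha ⊢
    refine ⟨hMn.conj_mem a ha.1 c, ?_⟩
    have : orderOf (c * a * c⁻¹) = orderOf a :=
      orderOf_injective (MulAut.conj c).toMonoidHom (MulAut.conj c).injective a
    rw [this]; exact ha.2⟩
  have hpA : ∀ a ∈ A, ∀ j : ℕ, a ^ p ^ j = 1 → a = 1 := by
    intro a ha j hj
    rw [← orderOf_eq_one_iff]
    exact Nat.eq_one_of_dvd_coprimes (((hAmem a).1 ha).2.pow_right j) dvd_rfl (orderOf_dvd_of_pow_eq_one hj)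
  have hsmall : ∀ q : ℕ, q.Prime → q ≠ p → ∀ y : G, (∃ k, y ^ q ^ k = 1) → y ∈ A := by
    rintro q hq hqp y ⟨k, hk⟩
    have hco : (orderOf y).Coprime p :=
      Nat.Coprime.coprime_dvd_left (orderOf_dvd_of_pow_eq_one hk) (((Nat.coprime_primes hq hp).2 hqp).pow_left k)
    refine ⟨?_, hco⟩
    rw [← QuotientGroup.eq_one_iff, ← orderOf_eq_one_iff]
    refine Nat.eq_one_of_dvd_coprimes hco (orderOf_map_dvd (QuotientGroup.mk' M) y) ?_
    rw [← hMp, Subgroup.index_eq_card]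
    exact orderOf_dvd_natCard _
  have hnil : ¬ ∀ a ∈ A, x * a = a * x := by
    intro hc
    apply hnn
    have hker : (QuotientGroup.mk' A).ker ≤ Subgroup.center G := by
      rw [QuotientGroup.ker_mk']
      exact fun a ha => hcen a ha.1 (hc a ha)
    haveI : Group.IsNilpotent (G ⧸ A) := by
      refine IsPGroup.isNilpotent (p := p) ?_
      intro u
      induction u using QuotientGroup.induction_on with
      | H y =>
        obtain ⟨j, s, hs, hjs⟩ := Nat.exists_eq_pow_mul_and_not_dvd (orderOf_pos y).ne' p hp.ne_one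
        refine ⟨j, ?_⟩
        rw [← QuotientGroup.mk_pow, QuotientGroup.eq_one_iff]
        have ho : orderOf (y ^ p ^ j) = s := by
          rw [orderOf_pow_of_dvd (pow_ne_zero _ hp.ne_zero) (hjs ▸ dvd_mul_right _ _), hjs,
            Nat.mul_div_cancel_left _ (pow_pos hp.pos _)]
        have hco : (orderOf (y ^ p ^ j)).Coprime p := by
          rw [ho]; exact ((hp.coprime_iff_not_dvd).2 hs).symm
        refine ⟨?_, hco⟩
        rw [← QuotientGroup.eq_one_iff, ← orderOf_eq_one_iff]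
        refine Nat.eq_one_of_dvd_coprimes hco (orderOf_map_dvd (QuotientGroup.mk' M) _) ?_
        rw [← hMp, Subgroup.index_eq_card]
        exact orderOf_dvd_natCard _
    exact Subgroup.isNilpotent_of_ker_le_center (QuotientGroup.mk' A) hker
  push Not at hnil
  obtain ⟨a0, ha0, hxa0⟩ := hnil
  have hmemH : ∀ y ∈ Subgroup.zpowers x ⊔ A, ∃ j : ℤ, ∃ a ∈ A, y = x ^ j * a := by
    intro y hy
    rw [← SetLike.mem_coe, Subgroup.mul_normal, Set.mem_mul] at hy
    obtain ⟨u, hu, a, ha, rfl⟩ := hy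
    obtain ⟨j, rfl⟩ := Subgroup.mem_zpowers_iff.1 hu
    exact ⟨j, a, ha, rfl⟩
  -- the cyclic group generated by x is a Sylow subgroup
  set H := Subgroup.zpowers x ⊔ A with hH
  have hNH := hself H x (Subgroup.mem_sup_left (Subgroup.mem_zpowers x)) a0 (Subgroup.mem_sup_right ha0) hxa0
  have hxpg : IsPGroup p (Subgroup.zpowers x) := fun y => by
    obtain ⟨j, hj⟩ := Subgroup.mem_zpowers_iff.1 y.2
    refine ⟨i, Subtype.ext ?_⟩
    rw [SubgroupClass.coe_pow, ← hj, ← zpow_natCast, ← zpow_mul, mul_comm, zpow_mul, zpow_natCast, hxp]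
    simp
  obtain ⟨P, hP⟩ := hxpg.exists_le_sylow
  have hPeq : (P : Subgroup G) = Subgroup.zpowers x := by
    by_contra hne
    haveI := P.isPGroup'.isNilpotent
    have hlt : (Subgroup.zpowers x).subgroupOf (P : Subgroup G) < ⊤ := by
      rw [lt_top_iff_ne_top, Ne, Subgroup.subgroupOf_eq_top]
      exact fun h => hne (le_antisymm h hP)
    obtain ⟨u, hu, hux⟩ := SetLike.exists_of_lt (Group.normalizerCondition_of_isNilpotent _ hlt)
    have huN : (u : G) ∈ Subgroup.normalizer (Subgroup.zpowers x : Set G) := by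
      have h := Subgroup.le_normalizer_map (P : Subgroup G).subtype (Subgroup.mem_map_of_mem _ hu)
      rw [Subgroup.map_subgroupOf_eq_of_le hP] at h
      exact h
    have huH : (u : G) ∈ H := by
      rw [← hNH, Subgroup.mem_normalizer_iff_map_conj_eq, hH, Subgroup.map_sup,
        Subgroup.mem_normalizer_iff_map_conj_eq.1 huN,
        Subgroup.mem_normalizer_iff_map_conj_eq.1 ((Subgroup.normalizer_eq_top (H := A)).symm ▸ Subgroup.mem_top _)]
    obtain ⟨j, a, ha, hja⟩ := hmemH _ huH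
    have haP : a ∈ (P : Subgroup G) := by
      have : a = (x ^ j)⁻¹ * u := by rw [hja]; group
      rw [this]
      exact mul_mem (inv_mem (hP (zpow_mem (Subgroup.mem_zpowers x) j))) u.2
    obtain ⟨k, hk⟩ := P.isPGroup' ⟨a, haP⟩
    rw [hpA a ha k (by simpa using congrArg Subtype.val hk), mul_one] at hja
    exact hux (Subgroup.mem_subgroupOf.2 (hja ▸ zpow_mem (Subgroup.mem_zpowers x) j))
  have hHtop : H = ⊤ := by
    rw [← Subgroup.index_eq_one]
    by_contra hne
    obtain ⟨q, hq, hqd⟩ := Nat.exists_prime_and_dvd hne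
    haveI := Fact.mk hq
    let Q : Sylow q G := default
    by_cases hqp : q = p
    · subst hqp
      refine P.not_dvd_index (hqd.trans (Subgroup.index_dvd_of_le ?_))
      rw [hPeq]; exact le_sup_left
    · refine Q.not_dvd_index (hqd.trans (Subgroup.index_dvd_of_le fun y hy => Subgroup.mem_sup_right ?_))
      obtain ⟨k, hk⟩ := Q.isPGroup' ⟨y, hy⟩
      exact hsmall q hq hqp y ⟨k, by simpa using congrArg Subtype.val hk⟩
  have hdisj : Disjoint (Subgroup.zpowers x) A := by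
    rw [Subgroup.disjoint_def]
    intro y hy hyA
    obtain ⟨k, hk⟩ := hxpg ⟨y, hy⟩
    exact hpA y hyA k (by simpa using congrArg Subtype.val hk)
  refine ⟨x, A, p, hp, hAn, ⟨⟨fun a b => Subtype.ext (hMab a a.2.1 b b.2.1)⟩⟩, ?_, ?_, ?_, ?_, ?_⟩
  · obtain ⟨k, -, hk⟩ := (Nat.dvd_prime_pow hp).1 (orderOf_dvd_of_pow_eq_one hxp)
    exact ⟨k, hk⟩
  · intro hd
    obtain ⟨a, ha⟩ := exists_prime_orderOf_dvd_card' (G := A) p hd
    have hco := ((hAmem _).1 a.2).2
    rw [Subgroup.orderOf_coe, ha, Nat.coprime_self] at hco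
    exact hp.one_lt.ne' hco
  · refine Subgroup.isComplement'_of_disjoint_and_mul_eq_univ hdisj ?_
    rw [← Subgroup.mul_normal, ← hH, hHtop, Subgroup.coe_top]
  · exact hcen _ (hpowM x) (Commute.self_pow x p).eq
  · intro a1 ha1 hne1 hfix
    let φ : A →* A :=
      { toFun := fun a => ⟨(a : G)⁻¹ * (x * a * x⁻¹), A.mul_mem (A.inv_mem a.2) (hAn.conj_mem a a.2 x)⟩
        map_one' := by simp
        map_mul' := fun a b => Subtype.ext (by
          have h1 := hMab (a : G) a.2.1 (b : G) b.2.1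
          have h2 := hMab _ (M.mul_mem (M.inv_mem a.2.1) (hMn.conj_mem _ a.2.1 x)) _ (M.inv_mem b.2.1)
          simp only [Subgroup.coe_mul]
          calc ((a : G) * b)⁻¹ * (x * ((a : G) * b) * x⁻¹)
              = (b : G)⁻¹ * ((a : G)⁻¹ * (x * a * x⁻¹)) * (x * b * x⁻¹) := by group
            _ = (a : G)⁻¹ * (x * a * x⁻¹) * ((b : G)⁻¹ * (x * b * x⁻¹)) := by rw [← h2]; group) }
    let B : Subgroup G := φ.range.map A.subtype
    have hBA : B ≤ A := Subgroup.map_subtype_le _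
    have hBne : B ≠ A := by
      intro h
      have hsurj : Function.Surjective φ := fun a => by
        have : (a : G) ∈ B := h.symm ▸ a.2
        obtain ⟨a', ha', e⟩ := this
        obtain ⟨b, hb⟩ := ha'
        exact ⟨b, Subtype.ext (by rw [hb]; exact e)⟩
      have hinj := Finite.injective_iff_surjective.2 hsurj
      have h1 : φ ⟨a1, ha1⟩ = φ 1 := Subtype.ext (by simp [φ, hfix])
      exact hne1 (congrArg Subtype.val (hinj h1))
    have hBmem : ∀ a : G, a ∈ A → a⁻¹ * (x * a * x⁻¹) ∈ B := fun a ha => ⟨φ ⟨a, ha⟩, ⟨_, rfl⟩, rfl⟩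
    have hBn : B.Normal := by
      refine ⟨fun b hb y => ?_⟩
      obtain ⟨_, ⟨a, rfl⟩, rfl⟩ := hb
      obtain ⟨j, c, hc, rfl⟩ := hmemH y (hHtop ▸ Subgroup.mem_top y)
      have hcb : c * (φ a : G) * c⁻¹ = (φ a : G) := by
        rw [hMab c hc.1 _ (φ a).2.1, mul_inv_cancel_right]
      have e : x ^ j * c * (A.subtype (φ a)) * (x ^ j * c)⁻¹ =
          (x ^ j * (a : G) * (x ^ j)⁻¹)⁻¹ * (x * (x ^ j * (a : G) * (x ^ j)⁻¹) * x⁻¹) := by
        calc x ^ j * c * (φ a : G) * (x ^ j * c)⁻¹ = x ^ j * (c * (φ a : G) * c⁻¹) * (x ^ j)⁻¹ := by group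
          _ = x ^ j * ((a : G)⁻¹ * (x * a * x⁻¹)) * (x ^ j)⁻¹ := by rw [hcb]; rfl
          _ = (x ^ j * (a : G) * (x ^ j)⁻¹)⁻¹ * (x * (x ^ j * (a : G) * (x ^ j)⁻¹) * x⁻¹) := by group
      rw [e]
      exact hBmem _ (hAn.conj_mem _ a.2 _)
    haveI := hBn
    set K := Subgroup.zpowers x ⊔ B with hK
    have hKn : K.Normal := by
      rw [← Subgroup.normalizer_eq_top_iff, eq_top_iff, ← hHtop, hH]
      refine sup_le ((le_sup_left : Subgroup.zpowers x ≤ K).trans Subgroup.le_normalizer) fun c hc => ?_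
      rw [Subgroup.mem_normalizer_iff_map_conj_eq]
      refine Subgroup.eq_of_le_of_card_ge ?_ (Nat.card_congr (Subgroup.equivMapOfInjective K ((MulAut.conj c : MulAut G) : G →* G) (MulAut.conj c).injective).toEquiv).le
      rw [hK, Subgroup.map_sup, MonoidHom.map_zpowers]
      refine sup_le (Subgroup.zpowers_le.2 ?_) ?_
      · have hm : c * x * c⁻¹ = (c⁻¹⁻¹ * (x * c⁻¹ * x⁻¹)) * x := by group
        show c * x * c⁻¹ ∈ Subgroup.zpowers x ⊔ B
        rw [hm]
        exact mul_mem (Subgroup.mem_sup_right (hBmem _ (A.inv_mem hc))) (Subgroup.mem_sup_left (Subgroup.mem_zpowers x))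
      · rintro _ ⟨b, hb, rfl⟩
        exact Subgroup.mem_sup_right (hBn.conj_mem b hb c)
    have hKne : K ≠ ⊤ := by
      intro h
      apply hBne
      refine le_antisymm hBA fun a ha => ?_
      have : a ∈ K := h ▸ Subgroup.mem_top a
      rw [hK, ← SetLike.mem_coe, Subgroup.mul_normal, Set.mem_mul] at this
      obtain ⟨u, hu, b, hb, rfl⟩ := this
      have : u = 1 := Subgroup.disjoint_def.1 hdisj hu ((Subgroup.mul_mem_cancel_right A (hBA hb)).1 ha)
      rw [this, one_mul]; exact hb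
    apply hxa0
    set c := a0⁻¹ * (x * a0 * x⁻¹) with hc
    have hcK : c ∈ K := Subgroup.mem_sup_right (hBmem _ ha0)
    have hxc : x * c = c * x := by
      by_contra hne
      haveI := hKn
      exact hKne (((Subgroup.normalizer_eq_top (H := K)).symm.trans
        (hself K x (Subgroup.mem_sup_left (Subgroup.mem_zpowers x)) c hcK hne)).symm)
    have h := exists_conj_pow (x := x) (a := a0) (c := c) (by rw [hc]; group) hxc (p ^ i)
    rw [hxp] at h
    simp only [one_mul, inv_one, mul_one] at h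
    have hc1 : c = 1 := hpA c (hBA (hBmem _ ha0)) i (mul_eq_left.1 h.symm)
    rw [hc, inv_mul_eq_one] at hc1
    exact mul_inv_eq_iff_eq_mul.1 hc1.symm

theorem backward {x : G} {A : Subgroup G} {p : ℕ} (hp : p.Prime) (hAn : A.Normal) (hAc : IsMulCommutative A)
    (hx : ∃ k : ℕ, orderOf x = p ^ k) (hpA : ¬ p ∣ Nat.card A) (hcomp : (Subgroup.zpowers x).IsComplement' A)
    (hxc : x ^ p ∈ Subgroup.center G) (hfpf : ∀ a : G, a ∈ A → a ≠ 1 → x * a * x⁻¹ ≠ a)
    (H : Subgroup G) (hH : ¬ IsMulCommutative H) : Subgroup.normalizer (H : Set G) = H := by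
  haveI := Fact.mk hp
  haveI := hAn
  obtain ⟨k, hk⟩ := hx
  have hA : ∀ a ∈ A, ∀ b ∈ A, a * b = b * a := fun a ha b hb =>
    congrArg Subtype.val (mul_comm' (⟨a, ha⟩ : A) ⟨b, hb⟩)
  have hdec : ∀ y : G, ∃ (j : ℤ) (a : G), a ∈ A ∧ y = x ^ j * a := by
    intro y
    obtain ⟨⟨⟨u, hu⟩, ⟨a, ha⟩⟩, hua, -⟩ := hcomp.existsUnique y
    obtain ⟨j, rfl⟩ := Subgroup.mem_zpowers_iff.1 hu
    exact ⟨j, a, ha, hua.symm⟩
  -- some element of H has exponent prime to p
  obtain ⟨h, hhH, j, a, ha, hh, hj⟩ : ∃ h ∈ H, ∃ (j : ℤ) (a : G), a ∈ A ∧ h = x ^ j * a ∧ ¬ (p : ℤ) ∣ j := by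
    by_contra hcon
    push Not at hcon
    refine hH ⟨⟨?_⟩⟩
    rintro ⟨u, hu⟩ ⟨v, hv⟩
    obtain ⟨j, a, ha, rfl⟩ := hdec u
    obtain ⟨l, b, hb, rfl⟩ := hdec v
    obtain ⟨j', rfl⟩ := hcon _ hu j a ha rfl
    obtain ⟨l', rfl⟩ := hcon _ hv l b hb rfl
    have hz : ∀ (z : ℤ) (y : G), y * x ^ ((p : ℤ) * z) = x ^ ((p : ℤ) * z) * y := by
      intro z y
      rw [zpow_mul, zpow_natCast]
      exact ((show Commute y (x ^ p) from Subgroup.mem_center_iff.1 hxc y).zpow_right z).eq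
    apply Subtype.ext
    show x ^ ((p : ℤ) * j') * a * (x ^ ((p : ℤ) * l') * b) = x ^ ((p : ℤ) * l') * b * (x ^ ((p : ℤ) * j') * a)
    calc x ^ ((p : ℤ) * j') * a * (x ^ ((p : ℤ) * l') * b)
        = x ^ ((p : ℤ) * j') * (a * x ^ ((p : ℤ) * l')) * b := by group
      _ = x ^ ((p : ℤ) * j') * (x ^ ((p : ℤ) * l') * a) * b := by rw [hz]
      _ = x ^ ((p : ℤ) * l') * x ^ ((p : ℤ) * j') * (a * b) := by
          rw [((Commute.refl x).zpow_zpow ((p : ℤ) * l') ((p : ℤ) * j')).eq]; simp only [mul_assoc]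
      _ = x ^ ((p : ℤ) * l') * x ^ ((p : ℤ) * j') * (b * a) := by rw [hA a ha b hb]
      _ = x ^ ((p : ℤ) * l') * (x ^ ((p : ℤ) * j') * b) * a := by group
      _ = x ^ ((p : ℤ) * l') * (b * x ^ ((p : ℤ) * j')) * a := by rw [hz]
      _ = x ^ ((p : ℤ) * l') * b * (x ^ ((p : ℤ) * j') * a) := by group
  -- a conjugate of x lies in H
  obtain ⟨i, r, hr, hn⟩ := Nat.exists_eq_pow_mul_and_not_dvd (orderOf_pos h).ne' p hp.ne_one
  set h' := h ^ r with hh'
  have hh'H : h' ∈ H := H.pow_mem hhH r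
  have hidx : (Subgroup.zpowers x).index = Nat.card A := by
    have h1 := hcomp.card_mul_card
    rw [← (Subgroup.zpowers x).card_mul_index] at h1
    exact (Nat.eq_of_mul_eq_mul_left Nat.card_pos h1).symm
  let P : Sylow p G := (IsPGroup.of_card (n := k) (by rw [Nat.card_zpowers, hk]) : IsPGroup p (Subgroup.zpowers x)).toSylow
    (by rw [hidx]; exact hpA)
  have hP : (P : Subgroup G) = Subgroup.zpowers x := rfl
  have hpg : IsPGroup p (Subgroup.zpowers h') := by
    have hpow : h' ^ p ^ i = 1 := by rw [hh', ← pow_mul, mul_comm, ← hn, pow_orderOf_eq_one]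
    intro y
    obtain ⟨m, hm⟩ := Subgroup.mem_zpowers_iff.1 y.2
    refine ⟨i, Subtype.ext ?_⟩
    rw [SubgroupClass.coe_pow, ← hm, ← zpow_natCast, ← zpow_mul, mul_comm, zpow_mul, zpow_natCast, hpow]
    simp
  obtain ⟨Q, hQ⟩ := hpg.exists_le_sylow
  obtain ⟨s, hs⟩ := MulAction.exists_smul_eq G P Q
  have hmem : h' ∈ (Q : Subgroup G) := hQ (Subgroup.mem_zpowers _)
  rw [← hs, Sylow.coe_subgroup_smul, hP, Subgroup.mem_pointwise_smul_iff_inv_smul_mem] at hmem
  obtain ⟨m, hm⟩ := Subgroup.mem_zpowers_iff.1 (show s⁻¹ * h' * s ∈ Subgroup.zpowers x by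
    simpa [MulAut.smul_def, ← map_inv] using hmem)
  obtain ⟨l, c, hc, hsdec⟩ : ∃ (l : ℤ) (c : G), c ∈ A ∧ s = c * x ^ l := by
    obtain ⟨l, c, hc, e⟩ := hdec s
    refine ⟨l, x ^ l * c * (x ^ l)⁻¹, hAn.conj_mem c hc _, ?_⟩
    rw [e]; group
  have hh'c : h' = c * x ^ m * c⁻¹ := by
    calc h' = s * (s⁻¹ * h' * s) * s⁻¹ := by group
      _ = c * x ^ l * x ^ m * (c * x ^ l)⁻¹ := by rw [← hm, hsdec]
      _ = c * x ^ m * c⁻¹ := by group
  -- m is prime to p
  have hmp : ¬ (p : ℤ) ∣ m := by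
    intro hd
    have e1 : (h' : G ⧸ A) = ((x ^ m : G) : G ⧸ A) := by
      rw [hh'c]
      simp [(QuotientGroup.eq_one_iff c).2 hc]
    have e2 : (h' : G ⧸ A) = ((x ^ (j * r) : G) : G ⧸ A) := by
      rw [hh', hh]
      simp [(QuotientGroup.eq_one_iff a).2 ha, zpow_mul]
    rw [e2, QuotientGroup.eq] at e1
    have hz : (x ^ (j * (r : ℤ)))⁻¹ * x ^ m = 1 :=
      Subgroup.disjoint_def.1 hcomp.disjoint
        (mul_mem (inv_mem (zpow_mem (Subgroup.mem_zpowers x) _)) (zpow_mem (Subgroup.mem_zpowers x) _)) e1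
    rw [inv_mul_eq_one, zpow_eq_zpow_iff_modEq, hk] at hz
    rcases Nat.eq_zero_or_pos k with hk0 | hk0
    · -- then x = 1 and G = A
      rw [hk0, pow_zero, orderOf_eq_one_iff] at hk
      apply hH
      refine ⟨⟨fun u v => Subtype.ext ?_⟩⟩
      obtain ⟨_, b, hb, e⟩ := hdec u
      obtain ⟨_, b', hb', e'⟩ := hdec v
      rw [hk, one_zpow, one_mul] at e e'
      simp [e, e', hA b hb b' hb']
    have hd2 : (p : ℤ) ∣ j * r := by
      have h3 : ((p ^ k : ℕ) : ℤ) ∣ m - j * r := Int.modEq_iff_dvd.1 hz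
      have h4 : (p : ℤ) ∣ m - j * r := (Int.natCast_dvd_natCast.2 (dvd_pow_self p hk0.ne')).trans h3
      have := dvd_sub hd h4
      rwa [sub_sub_cancel] at this
    rcases (Nat.prime_iff_prime_int.1 hp).dvd_or_dvd hd2 with h5 | h5
    · exact hj h5
    · exact hr (Int.natCast_dvd_natCast.1 h5)
  -- so x' := c x c⁻¹ is a power of h'
  set y := c * x * c⁻¹ with hy
  have hyH : y ∈ H := by
    have hcop : IsCoprime m (orderOf x : ℤ) := by
      rw [hk, Nat.cast_pow]
      exact ((Nat.prime_iff_prime_int.1 hp).coprime_iff_not_dvd.2 hmp).symm.pow_right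
    obtain ⟨u, v, huv⟩ := hcop
    have : y = h' ^ u := by
      rw [hh'c, hy, conj_zpow, ← zpow_mul]
      congr 2
      conv_lhs => rw [← zpow_one x, ← huv]
      rw [zpow_add, mul_comm v, zpow_mul x (orderOf x : ℤ) v, zpow_natCast, pow_orderOf_eq_one, one_zpow, mul_one, mul_comm]
    rw [this]
    exact zpow_mem hh'H u
  refine le_antisymm (fun g hg => ?_) Subgroup.le_normalizer
  obtain ⟨t, b, hb, hgb⟩ := hdec (c⁻¹ * g * c)
  have hg' : g = y ^ t * b := by
    have e : y ^ t = c * x ^ t * c⁻¹ := conj_zpow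
    calc g = c * (c⁻¹ * g * c) * c⁻¹ := by group
      _ = c * x ^ t * (b * c⁻¹) := by rw [hgb]; group
      _ = c * x ^ t * (c⁻¹ * b) := by rw [hA b hb c⁻¹ (A.inv_mem hc)]
      _ = y ^ t * b := by rw [e]; group
  have hbN : b ∈ Subgroup.normalizer (H : Set G) := by
    have : b = (y ^ t)⁻¹ * g := by rw [hg']; group
    rw [this]
    exact mul_mem (inv_mem (Subgroup.le_normalizer (zpow_mem hyH t))) hg
  let φ : A →* A :=
    { toFun := fun a => ⟨(a : G)⁻¹ * (y * a * y⁻¹), A.mul_mem (A.inv_mem a.2) (hAn.conj_mem a a.2 y)⟩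
      map_one' := by simp
      map_mul' := fun u v => Subtype.ext (by
        have h1 := hA (u : G) u.2 (v : G) v.2
        have h2 := hA _ (A.mul_mem (A.inv_mem u.2) (hAn.conj_mem _ u.2 y)) _ (A.inv_mem v.2)
        simp only [Subgroup.coe_mul]
        calc ((u : G) * v)⁻¹ * (y * ((u : G) * v) * y⁻¹)
            = (v : G)⁻¹ * ((u : G)⁻¹ * (y * u * y⁻¹)) * (y * v * y⁻¹) := by group
          _ = (u : G)⁻¹ * (y * u * y⁻¹) * ((v : G)⁻¹ * (y * v * y⁻¹)) := by rw [← h2]; group) }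
  have hinj : Function.Injective φ := by
    rw [← MonoidHom.ker_eq_bot_iff, eq_bot_iff]
    intro u hu
    rw [Subgroup.mem_bot]
    by_contra hu1
    have h1 : y * (u : G) * y⁻¹ = u := (inv_mul_eq_one.1 (congrArg Subtype.val hu)).symm
    refine hfpf u u.2 (fun e => hu1 (Subtype.ext e)) ?_
    calc x * (u : G) * x⁻¹ = c⁻¹ * (y * (c * u * c⁻¹) * y⁻¹) * c := by rw [hy]; group
      _ = c⁻¹ * (y * u * y⁻¹) * c := by rw [hA c hc u u.2, mul_inv_cancel_right]
      _ = c⁻¹ * (u * c) := by rw [h1]; group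
      _ = u := by rw [hA u u.2 c hc]; group
  let B : Subgroup A := H.subgroupOf A
  have hmaps : ∀ u ∈ B, φ u ∈ B := fun u hu =>
    Subgroup.mem_subgroupOf.2 (mul_mem (inv_mem hu) (mul_mem (mul_mem hyH hu) (inv_mem hyH)))
  have hsurj : Function.Surjective (fun u : B => (⟨φ u, hmaps u u.2⟩ : B)) :=
    Finite.injective_iff_surjective.1 fun u v e => Subtype.ext (hinj (congrArg Subtype.val e))
  have hφb : φ ⟨b, hb⟩ ∈ B := by
    rw [Subgroup.mem_subgroupOf]
    show b⁻¹ * (y * b * y⁻¹) ∈ H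
    have h1 := (Subgroup.mem_normalizer_iff.1 (inv_mem hbN) y).1 hyH
    rw [inv_inv] at h1
    have : b⁻¹ * (y * b * y⁻¹) = (b⁻¹ * y * b) * y⁻¹ := by group
    rw [this]
    exact mul_mem h1 (inv_mem hyH)
  obtain ⟨u, hu⟩ := hsurj ⟨_, hφb⟩
  have hub : (u : A) = ⟨b, hb⟩ := hinj (congrArg Subtype.val hu)
  rw [hg']
  refine mul_mem (zpow_mem hyH t) ?_
  have := u.2
  rw [Subgroup.mem_subgroupOf, hub] at this
  exact this

/-- Let G be a finite solvable non-nilpotent group. Every non-abelian subgroup of G is self-normalizing if and only if G is a semidirect product ⟨x⟩ ⋉ A in which ⟨x⟩ is a p-group for some prime p, A is a normal abelian subgroup of order prime to p, x^p is central in G, and x acts fixed-point-freely on A (no non-identity element of A commutes with x). -/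
theorem result {G : Type*} [Group G] [Finite G]
    [Group.IsSolvable G] (hnn : ¬ Group.IsNilpotent G) :
    (∀ H : Subgroup G, ¬ IsMulCommutative H → Subgroup.normalizer (H : Set G) = H) ↔
    ∃ (x : G) (A : Subgroup G) (p : ℕ), p.Prime ∧ A.Normal ∧ IsMulCommutative A ∧ (∃ k : ℕ, orderOf x = p ^ k) ∧
      ¬ p ∣ Nat.card A ∧ (Subgroup.zpowers x).IsComplement' A ∧ x ^ p ∈ Subgroup.center G ∧
      ∀ a : G, a ∈ A → a ≠ 1 → x * a * x⁻¹ ≠ a :=
  ⟨forward hnn, fun ⟨_, _, _, hp, hAn, hAc, hx, hpA, hcomp, hxc, hfpf⟩ H hH =>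
    backward hp hAn hAc hx hpA hcomp hxc hfpf H hH⟩

end Cfsg.Agent.S4071
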