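import Cfsg.Statements.S4072
import Mathlib

set_option autoImplicit false
open Cfsg
open scoped commutatorElement

namespace Cfsg.Agent.S4072

/-- In a finite `p`-group every `p`-th power and every commutator lies in every maximal subgroup. -/
theorem pow_and_commutator_mem_of_isCoatom {P : Type*} [Group P] [Finite P] {p : ℕ} [Fact p.Prime]
    (hP : IsPGroup p P) {K : Subgroup P} (hK : IsCoatom K) (a b : P) :
    a ^ p ∈ K ∧ a * b * a⁻¹ * b⁻¹ ∈ K := by
  haveI := hP.isNilpotent
  have hn : K.Normal := Subgroup.NormalizerCondition.normal_of_coatom K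
    Group.normalizerCondition_of_isNilpotent hK
  haveI := hn
  set Q := P ⧸ K
  have hgen : ∀ y : Q, y ≠ 1 → Subgroup.zpowers y = ⊤ := by
    intro y hy
    have hlt : K < (Subgroup.zpowers y).comap (QuotientGroup.mk' K) := by
      refine lt_of_le_of_ne (fun k hk => ?_) fun h => ?_
      · rw [Subgroup.mem_comap, QuotientGroup.mk'_apply, (QuotientGroup.eq_one_iff k).2 hk]
        exact one_mem _
      · obtain ⟨g, rfl⟩ := QuotientGroup.mk'_surjective K y
        have hg : g ∈ (Subgroup.zpowers (QuotientGroup.mk' K g)).comap (QuotientGroup.mk' K) :=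
          Subgroup.mem_zpowers _
        rw [← h] at hg
        exact hy ((QuotientGroup.eq_one_iff g).2 hg)
    have := hK.2 _ hlt
    rw [← Subgroup.map_comap_eq_self_of_surjective (QuotientGroup.mk'_surjective K) (Subgroup.zpowers y), this,
      Subgroup.map_top_of_surjective _ (QuotientGroup.mk'_surjective K)]
  have hpow : ∀ y : Q, y ^ p = 1 := by
    intro y
    by_contra hne
    have hy : y ≠ 1 := fun h => hne (by rw [h, one_pow])
    have h1 : orderOf (y ^ p) = orderOf y := by
      rw [← Nat.card_zpowers, ← Nat.card_zpowers, hgen y hy, hgen _ hne]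
    obtain ⟨k, hk⟩ := IsPGroup.iff_orderOf.1 (hP.to_quotient K) y
    have hk0 : k ≠ 0 := fun h => hy (orderOf_eq_one_iff.1 (by rw [hk, h, pow_zero]))
    rw [orderOf_pow_of_dvd (Fact.out : p.Prime).ne_zero (hk ▸ dvd_pow_self p hk0)] at h1
    exact (Nat.div_lt_self (orderOf_pos y) (Fact.out : p.Prime).one_lt).ne h1
  have hcomm : ∀ y z : Q, y * z = z * y := by
    intro y z
    by_cases hy : y = 1
    · simp [hy]
    · obtain ⟨i, rfl⟩ : z ∈ Subgroup.zpowers y := hgen y hy ▸ Subgroup.mem_top z
      exact (Commute.zpow_right (Commute.refl y) i).eq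
  constructor
  · rw [← QuotientGroup.eq_one_iff, QuotientGroup.mk_pow]
    exact hpow _
  · rw [← QuotientGroup.eq_one_iff]
    simp only [QuotientGroup.mk_mul, QuotientGroup.mk_inv]
    rw [hcomm (a : Q) b, mul_inv_cancel_right, mul_inv_cancel]

/-- The derived group of a finite non-abelian `p`-group all whose proper subgroups are abelian is
generated by any of its non-identity elements. -/
theorem commutator_le_zpowers {P : Type*} [Group P] [Finite P] {p : ℕ} [Fact p.Prime]
    (hP : IsPGroup p P) (hab : ∀ H : Subgroup P, H ≠ ⊤ → ∀ a ∈ H, ∀ b ∈ H, a * b = b * a)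
    {z : P} (hz : z ∈ commutator P) (hz1 : z ≠ 1) : commutator P ≤ Subgroup.zpowers z := by
  obtain ⟨a, b, hne⟩ : ∃ a b : P, a * b ≠ b * a := by
    by_contra hcon
    push Not at hcon
    apply hz1
    have hbot : commutator P = ⊥ := by
      rw [eq_bot_iff, commutator_def, Subgroup.commutator_le]
      intro g _ h _
      rw [Subgroup.mem_bot, commutatorElement_eq_one_iff_mul_comm]
      exact hcon g h
    exact Subgroup.mem_bot.1 (hbot ▸ hz)
  have hgen : Subgroup.closure ({a, b} : Set P) = ⊤ := by
    by_contra h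
    exact hne (hab _ h a (Subgroup.subset_closure (by simp)) b (Subgroup.subset_closure (by simp)))
  have hcyc : ∀ y : P, Subgroup.zpowers y ≠ ⊤ := by
    intro y hy
    obtain ⟨i, hi⟩ := Subgroup.mem_zpowers_iff.1 (hy ▸ Subgroup.mem_top a)
    obtain ⟨j, hj⟩ := Subgroup.mem_zpowers_iff.1 (hy ▸ Subgroup.mem_top b)
    exact hne (by rw [← hi, ← hj]; exact Commute.zpow_zpow_self y i j)
  have hcen : ∀ x ∈ frattini P, ∀ y : P, x * y = y * x := by
    intro x hx y
    refine hab (Subgroup.zpowers y ⊔ frattini P) (fun h => hcyc y (frattini_nongenerating h)) x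
      (Subgroup.mem_sup_right hx) y (Subgroup.mem_sup_left (Subgroup.mem_zpowers y))
  have hfr : ∀ x y : P, x ^ p ∈ frattini P ∧ x * y * x⁻¹ * y⁻¹ ∈ frattini P := by
    intro x y
    simp only [frattini, Order.radical, Subgroup.mem_iInf]
    exact ⟨fun K hK => (pow_and_commutator_mem_of_isCoatom hP hK x y).1,
      fun K hK => (pow_and_commutator_mem_of_isCoatom hP hK x y).2⟩
  set c := a * b * a⁻¹ * b⁻¹ with hc
  have hcc : ∀ y, c * y = y * c := hcen c (hfr a b).2
  haveI hcn : (Subgroup.zpowers c).Normal := by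
    refine ⟨fun n hn g => ?_⟩
    obtain ⟨i, rfl⟩ := Subgroup.mem_zpowers_iff.1 hn
    have : g * c ^ i * g⁻¹ = c ^ i := by
      rw [((Commute.zpow_left (hcc g) i).symm).eq, mul_inv_cancel_right]
    rw [this]
    exact zpow_mem (Subgroup.mem_zpowers c) i
  have hle : commutator P ≤ Subgroup.zpowers c := by
    have hcl : ∀ x y : P, (x : P ⧸ Subgroup.zpowers c) * y = (y : P ⧸ Subgroup.zpowers c) * x := by
      have hS : ∀ x ∈ ({a, b} : Set P), ∀ y ∈ ({a, b} : Set P),
          (x : P ⧸ Subgroup.zpowers c) * y = (y : P ⧸ Subgroup.zpowers c) * x := by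
        have hab' : (a : P ⧸ Subgroup.zpowers c) * b = (b : P ⧸ Subgroup.zpowers c) * a := by
          rw [← commutatorElement_eq_one_iff_mul_comm, commutatorElement_def]
          simp only [← QuotientGroup.mk_mul, ← QuotientGroup.mk_inv, QuotientGroup.eq_one_iff]
          exact Subgroup.mem_zpowers c
        rintro x (rfl | rfl) y (rfl | rfl)
        exacts [rfl, hab', hab'.symm, rfl]
      intro x y
      have hx : x ∈ Subgroup.closure ({a, b} : Set P) := hgen ▸ Subgroup.mem_top x
      have hy : y ∈ Subgroup.closure ({a, b} : Set P) := hgen ▸ Subgroup.mem_top y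
      haveI := Subgroup.isMulCommutative_closure (k := QuotientGroup.mk' (Subgroup.zpowers c) '' {a, b}) (by
        rintro _ ⟨x, hx, rfl⟩ _ ⟨y, hy, rfl⟩
        exact hS x hx y hy)
      have hm : ∀ w ∈ Subgroup.closure ({a, b} : Set P), (w : P ⧸ Subgroup.zpowers c) ∈
          Subgroup.closure (QuotientGroup.mk' (Subgroup.zpowers c) '' {a, b}) := by
        intro w hw
        rw [← MonoidHom.map_closure]
        exact Subgroup.mem_map_of_mem _ hw
      exact congrArg Subtype.val (mul_comm' (⟨_, hm x hx⟩ : Subgroup.closure _) ⟨_, hm y hy⟩)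
    rw [commutator_def, Subgroup.commutator_le]
    intro g _ h _
    rw [← QuotientGroup.eq_one_iff, commutatorElement_def]
    simp only [QuotientGroup.mk_mul, QuotientGroup.mk_inv]
    rw [hcl g h, mul_inv_cancel_right, mul_inv_cancel]
  have hcp : c ^ p = 1 := by
    have e1 : a * b * a⁻¹ = c * b := by rw [hc]; group
    have e2 : ∀ n : ℕ, a ^ n * b * (a ^ n)⁻¹ = c ^ n * b := by
      intro n
      induction n with
      | zero => simp
      | succ n ih =>
        have hcn' : a * c ^ n = c ^ n * a := ((Commute.pow_left (hcc a) n).symm).eq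
        calc a ^ (n + 1) * b * (a ^ (n + 1))⁻¹ = a * (a ^ n * b * (a ^ n)⁻¹) * a⁻¹ := by rw [pow_succ']; group
          _ = (a * c ^ n) * b * a⁻¹ := by rw [ih]; group
          _ = c ^ n * (a * b * a⁻¹) := by rw [hcn']; group
          _ = c ^ (n + 1) * b := by rw [e1, pow_succ]; group
    have := e2 p
    rw [hcen _ (hfr a b).1 b, mul_inv_cancel_right] at this
    exact right_eq_mul.1 this
  have hzc := hle hz
  have hord : orderOf c = p := orderOf_eq_prime hcp (fun h => hz1 (by
    rw [h, Subgroup.zpowers_one_eq_bot, Subgroup.mem_bot] at hzc; exact hzc))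
  refine hle.trans (le_of_eq (Subgroup.eq_of_le_of_card_ge (Subgroup.zpowers_le.2 hzc) ?_).symm)
  rw [Nat.card_zpowers, Nat.card_zpowers, hord]
  have hdv : orderOf z ∣ p := hord ▸ orderOf_dvd_of_mem_zpowers hzc
  rcases (Nat.dvd_prime Fact.out).1 hdv with h | h
  · exact absurd (orderOf_eq_one_iff.1 h) hz1
  · exact h.ge

/-- In a simple group no non-trivial abelian Sylow subgroup is self-normalizing, unless it is everything. -/
theorem not_selfNormalizing_abelian_sylow {Q : Type*} [Group Q] [Finite Q] [IsSimpleGroup Q] {p : ℕ}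
    [Fact p.Prime] (R : Sylow p Q) (hR : (R : Subgroup Q) ≠ ⊥) (hR' : (R : Subgroup Q) ≠ ⊤)
    (hcomm : ∀ a ∈ (R : Subgroup Q), ∀ b ∈ (R : Subgroup Q), a * b = b * a)
    (hN : Subgroup.normalizer ((R : Subgroup Q) : Set Q) = R) : False := by
  have hP : Subgroup.normalizer ((R : Subgroup Q) : Set Q) ≤ Subgroup.centralizer ((R : Subgroup Q) : Set Q) := by
    rw [hN]
    exact fun a ha => Subgroup.mem_centralizer_iff.2 fun b hb => hcomm b hb a ha
  have hc := MonoidHom.ker_transferSylow_isComplement' R hP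
  rcases (MonoidHom.normal_ker (MonoidHom.transferSylow R hP)).eq_bot_or_eq_top with h | h
  · rw [h, Subgroup.isComplement'_bot_left] at hc
    exact hR' hc
  · rw [h, Subgroup.isComplement'_top_left] at hc
    exact hR hc

theorem perfect_of_not_solvable {G : Type*} [Group G]
    (hab : ∀ M : Subgroup G, M.Normal → M ≠ ⊤ → ∀ a ∈ M, ∀ b ∈ M, a * b = b * a)
    (hsol : ¬ Group.IsSolvable G) : commutator G = ⊤ := by
  by_contra h
  refine hsol ((Group.isSolvable_def G).2 ⟨2, ?_⟩)
  rw [derivedSeries_succ, derivedSeries_one, Subgroup.commutator_eq_bot_iff_le_centralizer]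
  exact fun a ha => Subgroup.mem_centralizer_iff.2 fun b hb => hab _ inferInstance h b hb a ha

/-- A finite group in which every non-abelian subgroup is self-normalizing is solvable or simple. -/
theorem result {G : Type*} [Group G] [Finite G] (hS : ∀ H : Subgroup G, ¬ IsMulCommutative H → Subgroup.normalizer (H : Set G) = H) :
    Group.IsSolvable G ∨ IsSimpleGroup G := by
  by_contra hcon
  push Not at hcon
  obtain ⟨hsol, hsimple⟩ := hcon
  haveI : Nontrivial G := by
    rcases subsingleton_or_nontrivial G with h | h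
    · exact absurd (inferInstance : Group.IsSolvable G) hsol
    · exact h
  have hself : ∀ H : Subgroup G, ∀ a ∈ H, ∀ b ∈ H, a * b ≠ b * a → Subgroup.normalizer (H : Set G) = H :=
    fun H a ha b hb hne => hS H fun hc => hne (congrArg Subtype.val (mul_comm' (⟨a, ha⟩ : H) ⟨b, hb⟩))
  have habn : ∀ M : Subgroup G, M.Normal → M ≠ ⊤ → ∀ a ∈ M, ∀ b ∈ M, a * b = b * a := by
    intro M hM hMt a ha b hb
    by_contra hne
    haveI := hM
    exact hMt (((Subgroup.normalizer_eq_top (H := M)).symm.trans (hself M a ha b hb hne)).symm)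
  have hperf := perfect_of_not_solvable habn hsol
  obtain ⟨M0, hM0n, hM0b, hM0t⟩ : ∃ M : Subgroup G, M.Normal ∧ M ≠ ⊥ ∧ M ≠ ⊤ := by
    by_contra h
    push Not at h
    exact hsimple { eq_bot_or_eq_top_of_normal := fun H hH => (em (H = ⊥)).imp_right (h H hH) }
  obtain ⟨M, hM0M, hMmax⟩ := Finite.exists_le_maximal (p := fun M : Subgroup G => M.Normal ∧ M ≠ ⊤)
    (a := M0) ⟨hM0n, hM0t⟩
  obtain ⟨⟨hMn, hMt⟩, hmax⟩ := hMmax
  haveI := hMn
  have hMb : M ≠ ⊥ := fun h => hM0b (le_bot_iff.1 (h ▸ hM0M))
  haveI : Nontrivial (G ⧸ M) := by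
    rw [← not_subsingleton_iff_nontrivial, QuotientGroup.subsingleton_iff]
    exact hMt
  haveI hQ : IsSimpleGroup (G ⧸ M) := by
    constructor
    intro H hH
    by_cases hH' : H.comap (QuotientGroup.mk' M) = ⊤
    · right
      rw [← Subgroup.map_comap_eq_self_of_surjective (QuotientGroup.mk'_surjective M) H, hH',
        Subgroup.map_top_of_surjective _ (QuotientGroup.mk'_surjective M)]
    · left
      have hle : M ≤ H.comap (QuotientGroup.mk' M) := fun m hm => by
        rw [Subgroup.mem_comap, QuotientGroup.mk'_apply, (QuotientGroup.eq_one_iff m).2 hm]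
        exact one_mem _
      have hle' := hmax ⟨hH.comap _, hH'⟩ hle
      rw [← Subgroup.map_comap_eq_self_of_surjective (QuotientGroup.mk'_surjective M) H, eq_bot_iff]
      rintro _ ⟨x, hx, rfl⟩
      exact Subgroup.mem_bot.2 ((QuotientGroup.eq_one_iff x).2 (hle' hx))
  have hQab : ¬ ∀ x y : G ⧸ M, x * y = y * x := by
    intro hcomm
    apply hMt
    rw [eq_top_iff, ← hperf, commutator_def, Subgroup.commutator_le]
    intro g _ h _
    rw [← QuotientGroup.eq_one_iff, commutatorElement_def]
    simp only [QuotientGroup.mk_mul, QuotientGroup.mk_inv]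
    rw [hcomm (g : G ⧸ M) h, mul_inv_cancel_right, mul_inv_cancel]
  have hnotp : ∀ {q : ℕ} [Fact q.Prime] (R : Sylow q (G ⧸ M)), (R : Subgroup (G ⧸ M)) ≠ ⊥ →
      (∀ a ∈ (R : Subgroup (G ⧸ M)), ∀ b ∈ (R : Subgroup (G ⧸ M)), a * b = b * a) →
      Subgroup.normalizer ((R : Subgroup (G ⧸ M)) : Set (G ⧸ M)) = R → False := by
    intro q _ R hR hcomm hN
    refine not_selfNormalizing_abelian_sylow R hR (fun h => hQab fun x y => ?_) hcomm hN
    exact hcomm x (h ▸ Subgroup.mem_top x) y (h ▸ Subgroup.mem_top y)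
  by_cases hcen : ∀ m ∈ M, ∀ g : G, m * g = g * m
  · -- central case
    obtain ⟨p, hp, hpM⟩ := Nat.exists_prime_and_dvd (fun h => hMb (Subgroup.card_eq_one.1 h))
    haveI := Fact.mk hp
    obtain ⟨z0, hz0⟩ := exists_prime_orderOf_dvd_card' p hpM
    obtain ⟨P, hP⟩ := ((IsPGroup.of_card (n := 1) (p := p)
      (by rw [Nat.card_zpowers, Subgroup.orderOf_coe, hz0, pow_one])).exists_le_sylow :
        ∃ P : Sylow p G, Subgroup.zpowers (z0 : G) ≤ P)
    have hzP : (z0 : G) ∈ (P : Subgroup G) := hP (Subgroup.mem_zpowers _)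
    have hz1 : (z0 : G) ≠ 1 := fun h => by
      rw [← Subgroup.orderOf_coe, h, orderOf_one] at hz0
      exact hp.one_lt.ne hz0
    -- transfer
    have hzcomm : (⟨(z0 : G), hzP⟩ : (P : Subgroup G)) ∈ commutator (P : Subgroup G) := by
      let ϕ : (P : Subgroup G) →* Abelianization (P : Subgroup G) := Abelianization.of
      have hker : (MonoidHom.transfer ϕ).ker = ⊤ := by
        rw [eq_top_iff, ← hperf]
        exact Abelianization.commutator_subset_ker _
      have h1 : MonoidHom.transfer ϕ (z0 : G) = 1 :=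
        MonoidHom.mem_ker.1 (hker ▸ Subgroup.mem_top _)
      rw [MonoidHom.transfer_eq_pow ϕ (z0 : G) (fun k g₀ _ => by
        rw [mul_assoc, (Commute.pow_left (hcen _ z0.2 g₀) k).eq, inv_mul_cancel_left])] at h1
      have hmem : (⟨(z0 : G), hzP⟩ : (P : Subgroup G)) ^ (P : Subgroup G).index ∈ commutator (P : Subgroup G) := by
        rw [← Abelianization.ker_of, MonoidHom.mem_ker]
        exact h1
      have hcop : (orderOf (⟨(z0 : G), hzP⟩ : (P : Subgroup G))).Coprime (P : Subgroup G).index := by
        rw [Subgroup.orderOf_mk, Subgroup.orderOf_coe, hz0]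
        exact (hp.coprime_iff_not_dvd).2 P.not_dvd_index
      obtain ⟨m, hm⟩ := exists_pow_eq_self_of_coprime hcop.symm
      rw [← hm]
      exact pow_mem hmem m
    have hPna : ∃ a ∈ (P : Subgroup G), ∃ b ∈ (P : Subgroup G), a * b ≠ b * a := by
      by_contra h
      push Not at h
      have hbot : commutator (P : Subgroup G) = ⊥ := by
        rw [eq_bot_iff, commutator_def, Subgroup.commutator_le]
        intro g _ h' _
        rw [Subgroup.mem_bot, commutatorElement_eq_one_iff_mul_comm]
        exact Subtype.ext (h g g.2 h' h'.2)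
      rw [hbot, Subgroup.mem_bot] at hzcomm
      exact hz1 (congrArg Subtype.val hzcomm)
    obtain ⟨a, ha, b, hb, hne⟩ := hPna
    have hPab : ∀ H : Subgroup (P : Subgroup G), H ≠ ⊤ → ∀ u ∈ H, ∀ v ∈ H, u * v = v * u := by
      intro H hH u hu v hv
      by_contra hne'
      haveI := P.isPGroup'.isNilpotent
      have hlt := Group.normalizerCondition_of_isNilpotent (G := (P : Subgroup G)) H hH.lt_top
      obtain ⟨w, hw, hwH⟩ := SetLike.exists_of_lt hlt
      have hN := hself (H.map (P : Subgroup G).subtype) _ (Subgroup.mem_map_of_mem _ hu) _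
        (Subgroup.mem_map_of_mem _ hv) (fun e => hne' (Subtype.ext e))
      have hw' : ((P : Subgroup G).subtype w) ∈ H.map (P : Subgroup G).subtype := by
        rw [← hN]
        exact Subgroup.le_normalizer_map _ (Subgroup.mem_map_of_mem _ hw)
      obtain ⟨w', hw'', e⟩ := hw'
      exact hwH (Subtype.coe_injective e ▸ hw'')
    have hcle := commutator_le_zpowers P.isPGroup' hPab hzcomm (fun h => hz1 (congrArg Subtype.val h))
    let R : Sylow p (G ⧸ M) := P.mapSurjective (QuotientGroup.mk'_surjective M)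
    have hRab : ∀ x ∈ (R : Subgroup (G ⧸ M)), ∀ y ∈ (R : Subgroup (G ⧸ M)), x * y = y * x := by
      rintro _ ⟨x, hx, rfl⟩ _ ⟨y, hy, rfl⟩
      have h1 := hcle (Subgroup.commutator_mem_commutator (Subgroup.mem_top (⟨x, hx⟩ : (P : Subgroup G))) (Subgroup.mem_top ⟨y, hy⟩))
      obtain ⟨i, hi⟩ := Subgroup.mem_zpowers_iff.1 h1
      rw [← commutatorElement_eq_one_iff_mul_comm, ← map_commutatorElement, QuotientGroup.mk'_apply,
        QuotientGroup.eq_one_iff]
      have h2 : ⁅x, y⁆ = (z0 : G) ^ i := by
        have := congrArg Subtype.val hi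
        simp [commutatorElement_def] at this ⊢
        exact this.symm
      rw [h2]
      exact zpow_mem z0.2 i
    have hMle : ∀ H : Subgroup G, Subgroup.normalizer (H : Set G) = H → M ≤ H := by
      intro H hH m hm
      rw [← hH, Subgroup.mem_normalizer_iff]
      intro h
      rw [hcen m hm h, mul_inv_cancel_right]
    have hNP := hself _ a ha b hb hne
    refine hnotp R ?_ hRab ?_
    · intro hbot
      have hPM : (P : Subgroup G) ≤ M := fun x hx => by
        have : QuotientGroup.mk' M x ∈ (R : Subgroup (G ⧸ M)) := Subgroup.mem_map_of_mem _ hx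
        rw [hbot, Subgroup.mem_bot] at this
        exact (QuotientGroup.eq_one_iff x).1 this
      exact hne (hcen a (hPM ha) b)
    · have hker : (QuotientGroup.mk' M).ker ≤ (P : Subgroup G) := by
        rw [QuotientGroup.ker_mk']
        exact hMle _ hNP
      have e : Subgroup.comap (QuotientGroup.mk' M) (R : Subgroup (G ⧸ M)) = (P : Subgroup G) :=
        Subgroup.comap_map_eq_self hker
      have := Subgroup.comap_normalizer_eq_of_surjective (R : Subgroup (G ⧸ M)) (QuotientGroup.mk'_surjective M)
      rw [e, hNP, ← e] at this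
      exact Subgroup.comap_injective (QuotientGroup.mk'_surjective M) this
  · -- self-centralizing case
    push Not at hcen
    obtain ⟨m0, hm0, g0, hg0⟩ := hcen
    have hCM : Subgroup.centralizer (M : Set G) ≤ M := by
      refine hmax ⟨inferInstance, fun h => hg0 ?_⟩ (fun m hm => Subgroup.mem_centralizer_iff.2 fun k hk => habn M hMn hMt k hk m hm)
      exact Subgroup.mem_centralizer_iff.1 (h ▸ Subgroup.mem_top g0) m0 hm0
    have hcyc : ∀ y : G ⧸ M, y ≠ 1 →
        Subgroup.normalizer (Subgroup.zpowers y : Set (G ⧸ M)) = Subgroup.zpowers y := by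
      intro y hy
      obtain ⟨x, rfl⟩ := QuotientGroup.mk'_surjective M y
      have hx : x ∉ M := fun h => hy ((QuotientGroup.eq_one_iff x).2 h)
      obtain ⟨k, hk, hkx⟩ : ∃ k ∈ M, k * x ≠ x * k := by
        by_contra h
        push Not at h
        exact hx (hCM (Subgroup.mem_centralizer_iff.2 h))
      set H := (Subgroup.zpowers (QuotientGroup.mk' M x)).comap (QuotientGroup.mk' M) with hH
      have hN := hself H k (by
        rw [hH, Subgroup.mem_comap, show QuotientGroup.mk' M k = 1 from (QuotientGroup.eq_one_iff k).2 hk]; exact one_mem _)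
        x (by rw [hH, Subgroup.mem_comap]; exact Subgroup.mem_zpowers _) hkx
      have := Subgroup.comap_normalizer_eq_of_surjective (Subgroup.zpowers (QuotientGroup.mk' M x)) (QuotientGroup.mk'_surjective M)
      rw [← hH, hN, hH] at this
      exact Subgroup.comap_injective (QuotientGroup.mk'_surjective M) this
    obtain ⟨p, hp, hpd⟩ := Nat.exists_prime_and_dvd (Finite.one_lt_card (α := G ⧸ M)).ne'
    haveI := Fact.mk hp
    let R : Sylow p (G ⧸ M) := default
    have hRne := R.ne_bot_of_dvd_card hpd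
    haveI : Nontrivial (R : Subgroup (G ⧸ M)) := (Subgroup.nontrivial_iff_ne_bot _).2 hRne
    haveI := R.isPGroup'.center_nontrivial
    obtain ⟨⟨y, hy⟩, hyne⟩ := exists_ne (1 : Subgroup.center (R : Subgroup (G ⧸ M)))
    have hRy : (R : Subgroup (G ⧸ M)) = Subgroup.zpowers (y : G ⧸ M) := by
      refine le_antisymm ?_ (Subgroup.zpowers_le.2 y.2)
      intro r hr
      rw [← hcyc _ (fun h => hyne (Subtype.ext (Subtype.ext h))), Subgroup.mem_normalizer_iff]
      intro w
      have hc : Commute r (y : G ⧸ M) := congrArg Subtype.val (Subgroup.mem_center_iff.1 hy ⟨r, hr⟩)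
      have key : ∀ v, v ∈ Subgroup.zpowers (y : G ⧸ M) → r * v * r⁻¹ = v := by
        intro v hv
        obtain ⟨i, rfl⟩ := Subgroup.mem_zpowers_iff.1 hv
        rw [(hc.zpow_right i).eq, mul_inv_cancel_right]
      constructor
      · intro hw; rw [key w hw]; exact hw
      · intro hw
        have hkey := key _ hw
        have : w = r * w * r⁻¹ := by
          calc w = r⁻¹ * (r * w * r⁻¹) * r := by group
            _ = r⁻¹ * (r * (r * w * r⁻¹) * r⁻¹) * r := by rw [hkey]
            _ = r * w * r⁻¹ := by group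
        rw [this]; exact hw
    refine hnotp R hRne ?_ ?_
    · rw [hRy]
      intro u hu v hv
      obtain ⟨i, rfl⟩ := Subgroup.mem_zpowers_iff.1 hu
      obtain ⟨j, rfl⟩ := Subgroup.mem_zpowers_iff.1 hv
      exact Commute.zpow_zpow_self _ i j
    · rw [hRy]
      exact hcyc _ (fun h => hyne (Subtype.ext (Subtype.ext h)))

end Cfsg.Agent.S4072
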