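import Cfsg.Statements.S4074
import Mathlib

set_option autoImplicit false
open Cfsg

namespace Cfsg.Agent.S4074

open DihedralGroup

/-- For n > 2, every non-abelian subgroup of the dihedral group of order 2n is self-normalizing if and only if n = 4 or n is odd. -/
theorem result (n : ℕ) (hn : 2 < n) :
    (∀ H : Subgroup (DihedralGroup n), ¬ IsMulCommutative H → Subgroup.normalizer (H : Set (DihedralGroup n)) = H) ↔
    (n = 4 ∨ Odd n) := by
  haveI : NeZero n := ⟨by omega⟩
  constructor
  · intro h
    by_contra hcon
    push Not at hcon
    obtain ⟨h4, hodd⟩ := hcon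
    have hev : 2 ∣ n := by
      rw [Nat.not_odd_iff_even] at hodd
      exact hodd.two_dvd
    let c := ZMod.castHom hev (ZMod 2)
    let f : DihedralGroup n →* Multiplicative (ZMod 2) :=
      { toFun := fun g => match g with
          | r i => Multiplicative.ofAdd (c i)
          | sr i => Multiplicative.ofAdd (c i)
        map_one' := by
          show Multiplicative.ofAdd (c 0) = 1
          simp
        map_mul' := by
          rintro (i | i) (j | j) <;> simp only [r_mul_r, r_mul_sr, sr_mul_r, sr_mul_sr] <;>
            rw [← ofAdd_add] <;> congr 1 <;> simp only [map_add, map_sub, CharTwo.sub_eq_add] <;>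
            ring }
    have hmem : ∀ i, (r i ∈ f.ker ↔ c i = 0) ∧ (sr i ∈ f.ker ↔ c i = 0) := fun i =>
      ⟨Multiplicative.ofAdd.injective.eq_iff' rfl, Multiplicative.ofAdd.injective.eq_iff' rfl⟩
    have hna : ¬ IsMulCommutative f.ker := by
      intro hc
      have h2 : r (2 : ZMod n) ∈ f.ker := (hmem 2).1.2 (by
        rw [map_ofNat]; decide)
      have h0 : sr (0 : ZMod n) ∈ f.ker := (hmem 0).2.2 (map_zero c)
      have := congrArg Subtype.val (mul_comm' (⟨_, h2⟩ : f.ker) ⟨_, h0⟩)
      simp only [Subgroup.coe_mul, r_mul_sr, sr_mul_r, sr.injEq, zero_sub, zero_add] at this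
      have h40 : ((4 : ℕ) : ZMod n) = 0 := by
        have : (2 : ZMod n) + 2 = 0 := by linear_combination -this
        push_cast
        linear_combination this
      rw [ZMod.natCast_eq_zero_iff] at h40
      have := Nat.le_of_dvd (by norm_num) h40
      omega
    have hker := h f.ker hna
    rw [Subgroup.normalizer_eq_top] at hker
    have h1 : r (1 : ZMod n) ∈ f.ker := hker ▸ Subgroup.mem_top _
    rw [(hmem 1).1, map_one] at h1
    exact one_ne_zero h1
  · intro hn' H hH
    rcases hn' with rfl | hodd
    · have hcard : Nat.card (DihedralGroup 4) = 8 := by rw [DihedralGroup.nat_card]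
      have hd := Subgroup.card_subgroup_dvd_card H
      rw [hcard] at hd
      have hle := Nat.le_of_dvd (by norm_num) hd
      by_cases h8 : Nat.card H = 8
      · rw [Subgroup.eq_top_of_card_eq H (by rw [h8, hcard])]
        exact eq_top_iff.2 Subgroup.le_normalizer
      · exfalso
        apply hH
        haveI := Fact.mk Nat.prime_two
        interval_cases hc : Nat.card H
        · simp at hd
        · have : Subsingleton H := (Nat.card_eq_one_iff_unique.1 hc).1
          exact ⟨⟨fun a b => Subsingleton.elim _ _⟩⟩
        · haveI := isCyclic_of_prime_card hc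
          exact ⟨⟨fun a b => IsCyclic.commGroup.mul_comm a b⟩⟩
        · norm_num at hd
        · exact ⟨⟨(IsPGroup.commGroupOfCardEqPrimeSq (p := 2) (G := H) (by rw [hc]; norm_num)).mul_comm⟩⟩
        · norm_num at hd
        · norm_num at hd
        · norm_num at hd
        · exact absurd rfl h8
    · refine le_antisymm ?_ Subgroup.le_normalizer
      obtain ⟨i, hi⟩ : ∃ i, sr i ∈ H := by
        by_contra hcon
        push Not at hcon
        apply hH
        refine ⟨⟨?_⟩⟩
        rintro ⟨a | a, ha⟩ ⟨b | b, hb⟩
        · exact Subtype.ext (by simp [add_comm])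
        · exact absurd hb (hcon b)
        · exact absurd ha (hcon a)
        · exact absurd ha (hcon a)
      have key : ∀ j, r j ∈ Subgroup.normalizer (H : Set (DihedralGroup n)) → r j ∈ H := by
        intro j hj
        have h1 := (Subgroup.mem_normalizer_iff.1 hj (sr i)).1 hi
        have h2 := mul_mem hi h1
        simp only [r_mul_sr, sr_mul_r, sr_mul_sr, inv_r] at h2
        obtain ⟨k, hk⟩ := hodd
        have h3 := pow_mem h2 k
        rw [r_pow] at h3
        have hk' : ((2 * k + 1 : ℕ) : ZMod n) = 0 := by rw [← hk, ZMod.natCast_self]
        push_cast at hk'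
        convert h3 using 2
        linear_combination j * hk'
      rintro (j | j) hg
      · exact key j hg
      · have h1 := key _ (show r (i - j) ∈ Subgroup.normalizer (H : Set (DihedralGroup n)) by
          simpa [sr_mul_sr] using mul_mem hg (Subgroup.le_normalizer hi))
        have := mul_mem hi (inv_mem h1)
        simpa using this

end Cfsg.Agent.S4074
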