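import Cfsg.Statements.S4075
import Mathlib

set_option autoImplicit false
open Cfsg

namespace Cfsg.Agent.S4075

/-- Let G be a finite nilpotent group. Every non-abelian subgroup of G is self-normalizing if and only if G is abelian or G is a minimal non-abelian p-group for some prime p (non-abelian of prime-power order with every proper subgroup abelian). -/
theorem result {G : Type*} [Group G] [Finite G]
    [Group.IsNilpotent G] :
    (∀ H : Subgroup G, ¬ IsMulCommutative H → Subgroup.normalizer (H : Set G) = H) ↔
    (IsMulCommutative G ∨ (IsPrimePow (Nat.card G) ∧ ¬ IsMulCommutative G ∧ ∀ H : Subgroup G, H ≠ ⊤ → IsMulCommutative H)) := by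
  constructor
  · intro h
    by_cases hG : IsMulCommutative G
    · exact Or.inl hG
    refine Or.inr ⟨?_, hG, ?_⟩
    swap
    · intro H hH
      by_contra hna
      have hlt := Group.normalizerCondition_of_isNilpotent (G := G) H hH.lt_top
      exact hlt.ne (h H hna).symm
    have hab : ∀ H : Subgroup G, H ≠ ⊤ → IsMulCommutative H := by
      intro H hH
      by_contra hna
      have hlt := Group.normalizerCondition_of_isNilpotent (G := G) H hH.lt_top
      exact hlt.ne (h H hna).symm
    by_contra hpp
    apply hG
    have e := (Group.isNilpotent_of_finite_tfae (G := G)).out 0 4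
    obtain ⟨e⟩ := e.1 inferInstance
    have hS : ∀ (p : (Nat.card G).primeFactors) (P : Sylow p G), IsMulCommutative (P : Subgroup G) := by
      intro p P
      refine hab _ fun htop => hpp ?_
      have hpfact : Fact (p : ℕ).Prime := ⟨Nat.prime_of_mem_primeFactors p.2⟩
      have hP : IsPGroup (p : ℕ) (⊤ : Subgroup G) := htop ▸ P.isPGroup'
      obtain ⟨k, hk⟩ := IsPGroup.iff_card.1 hP
      rw [Subgroup.card_top] at hk
      refine (isPrimePow_nat_iff _).2 ⟨p, k, hpfact.out, ?_, hk.symm⟩
      rcases Nat.eq_zero_or_pos k with h0 | h0
      · exfalso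
        rw [h0, pow_zero] at hk
        have := (Nat.mem_primeFactors.1 p.2).2.1
        exact hpfact.out.one_lt.ne' (Nat.dvd_one.1 (this.trans (dvd_of_eq hk)))
      · exact h0
    refine ⟨⟨fun a b => ?_⟩⟩
    apply e.symm.injective
    rw [map_mul, map_mul]
    funext p P
    haveI := hS p P
    exact mul_comm' _ _
  · rintro (hG | ⟨-, -, h⟩) H hH
    · exact absurd (inferInstance : IsMulCommutative H) hH
    · have : H = ⊤ := by
        by_contra hne
        exact hH (h H hne)
      subst this
      exact eq_top_iff.2 Subgroup.le_normalizer

end Cfsg.Agent.S4075
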