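import Cfsg.Statements.S4079
import Cfsg.Agent.Eq.Def_OddOrderLocal
import Cfsg.Agent.MetacyclicP.AutOrderP
import Cfsg.Agent.RankTwoP.Data
import Cfsg.Agent.S0112

set_option autoImplicit false
open Cfsg

namespace Cfsg.Agent.S4079

open Subgroup CfsgLib.RankTwoP CfsgLib.MetacyclicP
open scoped commutatorElement

universe u

section

variable {L : Type u} [Group L] (a : MulAut L)

/-- The image in the semidirect product of a subgroup invariant under all automorphisms. -/
theorem normal_map_inl (K : Subgroup L) (hK : ∀ f : MulAut L, ∀ x ∈ K, f x ∈ K) :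
    (K.map (SemidirectProduct.inl : L →* SemidirectProduct L ↥(zpowers a) (zpowers a).subtype)).Normal := by
  refine ⟨?_⟩
  rintro n ⟨x, hx, rfl⟩ g
  rw [← SemidirectProduct.inl_left_mul_inr_right g]
  refine ⟨MulAut.conj g.left ((g.right : MulAut L) x), hK _ _ (hK _ _ hx), ?_⟩
  rw [MulAut.conj_apply, map_mul, map_mul, map_inv,
    show ((g.right : MulAut L) x) = (zpowers a).subtype g.right x from rfl,
    SemidirectProduct.inl_aut, map_inv]
  group

theorem map_mem_commutator (f : MulAut L) {x : L} (hx : x ∈ commutator L) : f x ∈ commutator L := by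
  have : (commutator L).map f.toMonoidHom ≤ commutator L := by
    rw [commutator_def, map_commutator]
    exact commutator_mono le_top le_top
  exact this ⟨x, hx, rfl⟩

end

variable {L : Type u} [Group L] [Finite L] {p : ℕ} [hpF : Fact p.Prime]

theorem choose_three_dvd (h : 5 ≤ p) : p ∣ p.choose 3 :=
  hpF.out.dvd_choose_self (by norm_num) (by omega)

omit [Finite L] hpF in
theorem iterate_formula {a : MulAut L} {d δ ε η : L} (h1 : a d = d * δ) (h2 : a δ = δ * ε)
    (h3 : a ε = ε * η) (h4 : a η = η) (c12 : Commute δ ε) (c23 : Commute ε η) (t : ℕ) :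
    (a ^ t) d = d * δ ^ t * ε ^ t.choose 2 * η ^ t.choose 3 := by
  induction t with
  | zero => simp
  | succ t ih =>
    rw [pow_succ', MulAut.mul_apply, ih, map_mul, map_mul, map_mul, map_pow, map_pow, map_pow,
      h1, h2, h3, h4, c12.mul_pow, c23.mul_pow,
      show (t + 1).choose 3 = t.choose 2 + t.choose 3 from Nat.choose_succ_succ' t 2,
      show (t + 1).choose 2 = t + t.choose 2 by rw [Nat.choose_succ_succ' t 1, Nat.choose_one_right],
      pow_succ' δ, pow_add ε, pow_add η]
    simp only [mul_assoc]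

theorem main (hp : p ≠ 2) (hL : IsPGroup p L) (hmc : Cfsg.IsMetacyclic L)
    (hnc : ∀ C : Subgroup L, IsCyclic C → C.index ≠ p) (a : MulAut L) (ha : orderOf a = p)
    (m : ℕ) (hm : Nat.card L = p ^ m) :
    (∃ x : L, orderOf x = p ∧ a x ≠ x) ↔
    (p = 3 ∧ Group.nilpotencyClass (SemidirectProduct L ↥(zpowers a) (zpowers a).subtype) = m) := by
  classical
  have hp1 := hpF.out.one_lt
  have hne : a ≠ 1 := fun h => by rw [h, orderOf_one] at ha; omega
  obtain ⟨x₀, hx₀⟩ : ∃ x : L, a x ≠ x := by
    by_contra h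
    exact hne (MulEquiv.ext fun x => by simpa using not_not.mp (not_exists.mp h x))
  have hm1 : m ≠ 0 := fun h => by
    rw [h, pow_zero, Nat.card_eq_one_iff_unique] at hm
    exact hx₀ (hm.1.elim _ _)
  have hncyc : ¬ IsCyclic L := fun hcyc => by
    obtain ⟨K, hK⟩ := Sylow.exists_subgroup_card_pow_prime p (n := m - 1) (hm ▸ pow_dvd_pow p (Nat.sub_le m 1))
    refine hnc K inferInstance ?_
    have h := K.card_mul_index
    rw [hK, hm, ← Nat.sub_add_cancel (Nat.pos_of_ne_zero hm1), pow_succ, Nat.add_sub_cancel] at h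
    exact Nat.eq_of_mul_eq_mul_left (pow_pos hpF.out.pos _) h
  have hexp : ∀ g : L, ∀ k, Nat.card L = p ^ k → g ^ p ^ (k - 2) = 1 := by
    intro g k hk
    obtain rfl : k = m := Nat.pow_right_injective hpF.out.two_le (hk ▸ hm : p ^ k = p ^ m)
    obtain ⟨e, he⟩ := IsPGroup.iff_orderOf.mp hL g
    have hek : e ≤ k := (Nat.pow_dvd_pow_iff_le_right hp1).mp (he ▸ hm ▸ orderOf_dvd_natCard g)
    refine orderOf_dvd_iff_pow_eq_one.mp (he ▸ pow_dvd_pow p ?_)
    by_contra hlt
    have hidx := (zpowers g).card_mul_index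
    rw [Nat.card_zpowers, he, hm] at hidx
    rcases Nat.lt_or_ge e k with h | h
    · rw [show k = e + 1 by omega, pow_succ] at hidx
      exact hnc _ inferInstance (Nat.eq_of_mul_eq_mul_left (pow_pos hpF.out.pos _) hidx)
    · exact hncyc ⟨g, fun y => mem_zpowers_iff.mp (by
        rw [(card_eq_iff_eq_top (zpowers g)).mp (by rw [Nat.card_zpowers, he, hm, le_antisymm hek h])]
        exact mem_top y)⟩
  obtain ⟨D⟩ := exists_gens hL hmc
  obtain ⟨E, hEc, hE2, hE⟩ := D.omega_spec hp hL hncyc
  have hEchar : ∀ f : MulAut L, ∀ x ∈ E, f x ∈ E := fun f x hx => by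
    rw [hE, ← map_pow, (hE x).mp hx, map_one]
  haveI hEn : E.Normal := ⟨fun x hx g => hEchar (MulAut.conj g) x hx⟩
  have hEcomm : ∀ x ∈ E, ∀ y ∈ E, Commute x y := fun x hx y hy =>
    congrArg Subtype.val (hEc.1.comm ⟨x, hx⟩ ⟨y, hy⟩)
  set G := SemidirectProduct L ↥(zpowers a) (zpowers a).subtype
  let ι : L →* G := SemidirectProduct.inl
  haveI : Finite G := Finite.of_equiv _ SemidirectProduct.equivProd.symm
  have hι : Function.Injective ι := SemidirectProduct.inl_injective
  have hcardG : Nat.card G = p ^ (m + 1) := by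
    rw [SemidirectProduct.card, hm, Nat.card_zpowers, ha, pow_succ]
  have hG : IsPGroup p G := IsPGroup.of_card hcardG
  haveI hWn : (E.map ι).Normal := normal_map_inl a E hEchar
  have hWcard : Nat.card (E.map ι) = p ^ 2 := by rw [card_map_of_injective hι, hE2]
  let α : ↥(zpowers a) := ⟨a, mem_zpowers a⟩
  have hact : ∀ x : L, SemidirectProduct.inr α * ι x * (SemidirectProduct.inr α : G)⁻¹ = ι (a x) := fun x => by
    show _ = SemidirectProduct.inl ((zpowers a).subtype α x)
    rw [SemidirectProduct.inl_aut, map_inv]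
  have hcentral : ∀ x : L, ι x ∈ center G → x ∈ center L ∧ a x = x := fun x hx =>
    ⟨Subgroup.mem_center_iff.mpr fun y => hι (by
      rw [map_mul, map_mul]; exact Subgroup.mem_center_iff.mp hx _),
     hι (by rw [← hact, Subgroup.mem_center_iff.mp hx, mul_inv_cancel_right])⟩
  have hmove : ∀ e ∈ E, (a e * e⁻¹) ∈ E ∧ a e * e⁻¹ ∈ center L ∧ a (a e * e⁻¹) = a e * e⁻¹ := by
    intro e he
    have h := comm_mem_center_sq hG hWcard (mem_map_of_mem ι he) (SemidirectProduct.inr α)
    rw [commutatorElement_def, hact, ← map_inv, ← map_mul] at h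
    exact ⟨mul_mem (hEchar a e he) (inv_mem he), hcentral _ h.2⟩
  constructor
  · rintro ⟨c, hco, hca⟩
    have hcp : c ^ p = 1 := hco ▸ pow_orderOf_eq_one c
    have hcE : c ∈ E := (hE c).mpr hcp
    set z := a c * c⁻¹ with hz
    obtain ⟨hzE, hzc, hza⟩ := hmove c hcE
    have hzp : z ^ p = 1 := (hE z).mp hzE
    have hz1 : z ≠ 1 := fun h => hca (mul_inv_eq_one.mp h)
    have hac : a c = c * z := by
      rw [(hEcomm c hcE z hzE).eq, hz, inv_mul_cancel_right]
    have hgen : ∀ e ∈ E, ∀ f ∈ E, f ∉ zpowers z → e ∈ zpowers z ⊔ zpowers f := by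
      intro e he f hf hfz
      have hle : zpowers z ⊔ zpowers f ≤ E := sup_le (zpowers_le.mpr hzE) (zpowers_le.mpr hf)
      have hlt : zpowers z < zpowers z ⊔ zpowers f :=
        lt_of_le_of_ne le_sup_left fun h => hfz (h ▸ mem_sup_right (mem_zpowers f))
      have hlt' : Nat.card (zpowers z) < Nat.card ↥(zpowers z ⊔ zpowers f) :=
        Set.ncard_lt_ncard hlt (Set.toFinite _)
      rw [Nat.card_zpowers, orderOf_eq_prime hzp hz1] at hlt'
      obtain ⟨k, hk, hkc⟩ := (Nat.dvd_prime_pow hpF.out).mp (hE2 ▸ card_dvd_of_le hle)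
      have hk2 : 2 ≤ k := (Nat.pow_lt_pow_iff_right hp1).mp (by rw [pow_one]; exact hkc ▸ hlt')
      rw [eq_of_le_of_card_ge hle (by rw [hE2, hkc]; exact Nat.pow_le_pow_right hpF.out.pos hk2)]
      exact he
    have hfix : ∀ e ∈ E, a e = e → e ∈ zpowers z := by
      intro e he hae
      by_contra hez
      have h := hgen c hcE e he hez
      have hle : zpowers z ⊔ zpowers e ≤ a.toMonoidHom.eqLocus (MonoidHom.id L) :=
        sup_le (zpowers_le.mpr hza) (zpowers_le.mpr hae)
      exact hca (hle h)
    have hcz : c ∉ zpowers z := fun h => by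
      obtain ⟨i, hi⟩ := mem_zpowers_iff.mp h
      exact hca (by rw [← hi, map_zpow, hza])
    -- powers lie in the centralizer of `E`
    set C := centralizer (E : Set L) with hC
    have hpC : ∀ d : L, d ^ p ∈ C := by
      intro d e he
      obtain ⟨h1, h2⟩ := comm_mem_center_sq hL hE2 he d
      set w := ⁅d, e⁆ with hw
      have hwp : w ^ p = 1 := (hE w).mp h1
      have hconj : ∀ t : ℕ, d ^ t * e * (d ^ t)⁻¹ = w ^ t * e := by
        intro t
        induction t with
        | zero => simp
        | succ t ih =>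
          rw [CfsgLib.RankTwoP.conj_pow_succ, ih, ← conj_mul,
            show d * e * d⁻¹ = w * e by rw [hw, commutatorElement_def]; group,
            Subgroup.mem_center_iff.mp (pow_mem h2 t) d, mul_inv_cancel_right, ← mul_assoc, ← pow_succ]
      have := hconj p
      rw [hwp, one_mul, mul_inv_eq_iff_eq_mul] at this
      exact this.symm
    have hOC : OmegaCentral p C := fun x hx => Subgroup.mem_center_iff.mpr fun y => Subtype.ext
      (le_center_of_mem_centralizer ((hE x).mpr (congrArg Subtype.val hx)) y.2)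
    have hEC : E ≤ C := fun e he f hf => hEcomm f hf e he
    have hCa : ∀ x ∈ C, a x ∈ C := fun x hx e he => by
      have := hx _ (hEchar a⁻¹ e he)
      simpa using congrArg a this
    have hCp : IsPGroup p C := hL.to_subgroup C
    obtain ⟨d, hd⟩ := D.exists_root hp hexp hcp
    have hdC : d ∈ C := by
      intro e he
      have hle : zpowers z ⊔ zpowers c ≤ centralizer ({d} : Set L) :=
        sup_le (zpowers_le.mpr (mem_centralizer_singleton_iff.mpr (Subgroup.mem_center_iff.mp hzc d).symm))
          (zpowers_le.mpr (mem_centralizer_singleton_iff.mpr (by rw [← hd, ← pow_succ, ← pow_succ'])))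
      exact mem_centralizer_singleton_iff.mp (hle (hgen e he c hcE hcz))
    have hd2 : d ^ (p ^ 2) = 1 := by rw [pow_two, pow_mul, hd, hcp]
    set δ := d⁻¹ * a d with hδ
    have hδC : δ ∈ C := mul_mem (inv_mem hdC) (hCa d hdC)
    have had : a d = d * δ := by rw [hδ, mul_inv_cancel_left]
    have hdO : (⟨d, hdC⟩ : C) ∈ omegaTwo hp hCp hOC := Subtype.ext hd2
    have haO : (⟨a d, hCa d hdC⟩ : C) ∈ omegaTwo hp hCp hOC := Subtype.ext (by
      show (a d) ^ p ^ 2 = 1
      rw [← map_pow, hd2, map_one])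
    have hδ2 : δ ^ (p ^ 2) = 1 := congrArg Subtype.val (mul_mem (inv_mem hdO) haO)
    have hδp : δ ^ p = z := by
      have h : (d * δ) ^ p = d ^ p * δ ^ p := congrArg Subtype.val
        (mul_pow_of_small hp hCp hOC (y := (⟨δ, hδC⟩ : C)) (Subtype.ext hδ2) ⟨d, hdC⟩)
      rw [← had, ← map_pow, hd, hac] at h
      exact (mul_left_cancel h).symm
    have hdiv : ∀ x ∈ C, ∀ y ∈ C, x ^ p = y ^ p → x⁻¹ * y ∈ E := fun x hx y hy h => (hE _).mpr
      (congrArg Subtype.val (CfsgLib.RankTwoP.inv_mul_pow_eq_one hp hCp hOC (x := (⟨x, hx⟩ : C))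
        (y := ⟨y, hy⟩) (Subtype.ext h)))
    set ε := δ⁻¹ * a δ with hε
    have hεE : ε ∈ E := hdiv δ hδC (a δ) (hCa δ hδC) (by rw [← map_pow, hδp, hza])
    obtain ⟨hηE, hηc, hηa⟩ := hmove ε hεE
    set η := a ε * ε⁻¹ with hη
    have haε : a ε = ε * η := by rw [(hEcomm ε hεE η hηE).eq, hη, inv_mul_cancel_right]
    have haδ : a δ = δ * ε := by rw [hε, mul_inv_cancel_left]
    have hit := iterate_formula had haδ haε hηa (hδC ε hεE).symm (hEcomm ε hεE η hηE) p
    rw [← ha, pow_orderOf_eq_one, ha, MulAut.one_apply, mul_assoc, mul_assoc, left_eq_mul, hδp] at hit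
    obtain ⟨q, hq⟩ : p ∣ p.choose 2 := CfsgLib.PGroup.dvd_choose_two_of_odd (hpF.out.odd_of_ne_two hp)
    rw [hq, pow_mul, (hE ε).mp hεE, one_pow, one_mul] at hit
    have hp3 : p = 3 := by
      by_contra h3
      have h5 : 5 ≤ p := hpF.out.five_le_of_ne_two_of_ne_three hp h3
      obtain ⟨q, hq⟩ := choose_three_dvd h5
      rw [hq, pow_mul, (hE η).mp hηE, one_pow, mul_one] at hit
      exact hz1 hit
    refine ⟨hp3, ?_⟩
    have hη1 : η ≠ 1 := fun h => by rw [h, one_pow, mul_one] at hit; exact hz1 hit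
    -- no element with `p`-th power `z` is moved within `⟨z⟩`
    have key : ∀ g ∈ C, g ^ p = z → g⁻¹ * a g ∉ zpowers z := by
      intro g hg hgp hmem
      set w := δ⁻¹ * g with hw
      have hwE : w ∈ E := hdiv δ hδC g hg (by rw [hδp, hgp])
      obtain ⟨h1, -, h3⟩ := hmove w hwE
      have hw' := hfix _ h1 h3
      have hg' : g⁻¹ * a g = ε * (a w * w⁻¹) := by
        rw [show g = δ * w by rw [hw, mul_inv_cancel_left], map_mul, haδ, mul_inv_rev,
          show w⁻¹ * δ⁻¹ * (δ * ε * a w) = w⁻¹ * (ε * a w) by group,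
          (hEcomm w⁻¹ (inv_mem hwE) (ε * a w) (mul_mem hεE (hEchar a w hwE))).eq, mul_assoc]
      rw [hg', mul_mem_cancel_right hw'] at hmem
      obtain ⟨i, hi⟩ := mem_zpowers_iff.mp hmem
      exact hη1 (by rw [hη, ← hi, map_zpow, hza, mul_inv_cancel])
    have hroot : ∀ g ∈ C, orderOf g = p ^ 2 → g ^ p ∈ zpowers z →
        ∃ i : ℕ, (g ^ i) ^ p = z := by
      intro g hg hgo hgz
      obtain ⟨j, hj⟩ := mem_powers_iff_mem_zpowers.mpr hgz
      simp only at hj
      have hpj : ¬ p ∣ j := fun ⟨k, hk⟩ => by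
        rw [hk, pow_mul, hzp, one_pow] at hj
        have := Nat.le_of_dvd hpF.out.pos (hgo ▸ orderOf_dvd_of_pow_eq_one hj.symm)
        nlinarith
      obtain ⟨s, hs⟩ := exists_pow_eq_self_of_coprime (x := z) (n := j) (by
        rw [orderOf_eq_prime hzp hz1]; exact (hpF.out.coprime_iff_not_dvd.mpr hpj).symm)
      exact ⟨s, by rw [← pow_mul, mul_comm, pow_mul, ← hj, hs]⟩
    have hzfix : ∀ f : L, a f = f → f ^ p ^ 2 = 1 → f ∈ C → f ∈ zpowers z := by
      intro f hf hf2 hfC
      have hfp : f ^ p ∈ zpowers z := hfix _ ((hE _).mpr (by rw [← pow_mul, ← pow_two, hf2]))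
        (by rw [map_pow, hf])
      by_cases hf1 : f ^ p = 1
      · exact hfix f ((hE f).mpr hf1) hf
      have hfo : orderOf f = p ^ 2 := orderOf_eq_prime_pow (by rwa [pow_one]) hf2
      obtain ⟨i, hi⟩ := hroot f hfC hfo hfp
      exfalso
      refine key _ (pow_mem hfC i) hi ?_
      rw [map_pow, hf, inv_mul_cancel]; exact one_mem _
    -- the commutator subgroup has order at most `p`
    have hLc : Nat.card (commutator L) ≤ p := by
      by_contra hlt
      haveI := D.isCyclic_commutator
      obtain ⟨n, hn⟩ := IsPGroup.iff_card.mp (hL.to_subgroup (commutator L))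
      obtain ⟨⟨h, hhm⟩, hh⟩ := IsCyclic.exists_generator (α := commutator L)
      have hho : orderOf h = p ^ n := by
        rw [← hn, ← Subgroup.orderOf_mk h hhm, orderOf_eq_card_of_forall_mem_zpowers hh]
      have hn2 : 2 ≤ n := by
        by_contra hn2
        exact hlt (hn ▸ (Nat.pow_le_pow_right hpF.out.pos (show n ≤ 1 by omega)).trans (pow_one p).le)
      set g := h ^ p ^ (n - 2) with hg
      have hgo : orderOf g = p ^ 2 := by
        rw [hg, orderOf_pow' h (pow_ne_zero _ hpF.out.ne_zero), hho,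
          Nat.gcd_eq_right (pow_dvd_pow p (Nat.sub_le n 2)), Nat.pow_div (Nat.sub_le n 2) hpF.out.pos]
        congr 1; omega
      have hgm : g ∈ commutator L := pow_mem hhm _
      have hgC : g ∈ C := by
        obtain ⟨y, hy⟩ := D.exists_pow_eq_of_mem_commutator hgm
        rw [← hy]; exact hpC y
      have hgp : g ^ p ∈ E := (hE _).mpr (by rw [← pow_mul, ← pow_two, ← hgo, pow_orderOf_eq_one])
      have hgp1 : g ^ p ≠ 1 := fun h1 => by
        have := Nat.le_of_dvd hpF.out.pos (hgo ▸ orderOf_dvd_of_pow_eq_one h1)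
        nlinarith
      have hag : a g ∈ zpowers g := by
        have := mem_zpowers_of_pow_eq_one (g := (⟨g, hgm⟩ : commutator L))
          (x := ⟨a g, map_mem_commutator a hgm⟩) (Subtype.ext (by
            show (a g) ^ orderOf (⟨g, hgm⟩ : commutator L) = 1
            rw [Subgroup.orderOf_mk, ← map_pow, pow_orderOf_eq_one, map_one]))
        obtain ⟨i, hi⟩ := mem_zpowers_iff.mp this
        exact mem_zpowers_iff.mpr ⟨i, congrArg Subtype.val hi⟩
      have hgz : g ^ p ∈ zpowers z := by
        obtain ⟨h1, -, h3⟩ := hmove _ hgp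
        have h4 := hfix _ h1 h3
        by_cases h5 : a (g ^ p) * (g ^ p)⁻¹ = 1
        · exact hfix _ hgp (mul_inv_eq_one.mp h5)
        · have h6 : a (g ^ p) * (g ^ p)⁻¹ ∈ zpowers (g ^ p) := by
            obtain ⟨i, hi⟩ := mem_zpowers_iff.mp hag
            refine mul_mem (mem_zpowers_iff.mpr ⟨i, ?_⟩) (inv_mem (mem_zpowers _))
            rw [map_pow, ← hi, ← zpow_natCast, ← zpow_natCast, ← zpow_mul, ← zpow_mul, mul_comm]
          have e : ∀ u : L, u ^ p = 1 → u ≠ 1 → zpowers (a (g ^ p) * (g ^ p)⁻¹) ≤ zpowers u →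
              zpowers (a (g ^ p) * (g ^ p)⁻¹) = zpowers u := fun u hu hu1 hle =>
            eq_of_le_of_card_ge hle (by
              rw [Nat.card_zpowers, Nat.card_zpowers, orderOf_eq_prime hu hu1,
                orderOf_eq_prime ((hE _).mp h1) h5])
          rw [← e z hzp hz1 (zpowers_le.mpr h4), e _ ((hE _).mp hgp) hgp1 (zpowers_le.mpr h6)]
          exact mem_zpowers _
      obtain ⟨i, hi⟩ := hroot g hgC hgo hgz
      refine key _ (pow_mem hgC i) hi ?_
      have h1 : (g ^ i)⁻¹ * a (g ^ i) ∈ zpowers g := by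
        rw [map_pow]
        exact mul_mem (inv_mem (pow_mem (mem_zpowers g) i)) (pow_mem hag i)
      obtain ⟨j, hj⟩ := mem_powers_iff_mem_zpowers.mpr h1
      simp only at hj
      have h2 := (hE _).mp (hdiv _ (pow_mem hgC i) _ (hCa _ (pow_mem hgC i)) (by rw [← map_pow, hi, hza]))
      rw [← hj, ← pow_mul] at h2
      have h3 : p ^ 2 ∣ j * p := hgo ▸ orderOf_dvd_of_pow_eq_one h2
      rw [pow_two] at h3
      obtain ⟨k, rfl⟩ := Nat.dvd_of_mul_dvd_mul_right hpF.out.pos h3
      rw [← hj, pow_mul]
      exact pow_mem hgz k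
    -- `E` is central
    have hEZ : ∀ x ∈ E, x ∈ center L := fun x hx => by
      obtain ⟨y, hy⟩ := D.exists_root hp hexp ((hE x).mp hx)
      exact hy ▸ D.pow_mem_center hp hL hLc y
    have hCtop : ∀ x : L, x ∈ C := fun x e he => (Subgroup.mem_center_iff.mp (hEZ e he) x).symm
    have hfixed : ∀ f : L, a f = f → f ∈ zpowers z := by
      intro f hf
      obtain ⟨e, he⟩ := IsPGroup.iff_orderOf.mp hL f
      by_cases he2 : e ≤ 2
      · exact hzfix f hf (orderOf_dvd_iff_pow_eq_one.mp (he ▸ pow_dvd_pow p he2)) (hCtop f)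
      exfalso
      set g := f ^ p ^ (e - 2) with hg
      have hg2 : g ^ p ^ 2 = 1 := by
        rw [hg, ← pow_mul, ← pow_add, Nat.sub_add_cancel (by omega), ← he, pow_orderOf_eq_one]
      have hgz := hzfix g (by rw [hg, map_pow, hf]) hg2 (hCtop g)
      have h1 : g ^ p = 1 := by
        obtain ⟨i, hi⟩ := mem_zpowers_iff.mp hgz
        rw [← hi, ← zpow_natCast, ← zpow_mul, mul_comm, zpow_mul, zpow_natCast, hzp, one_zpow]
      rw [hg, ← pow_mul, ← pow_succ] at h1
      have := (Nat.pow_dvd_pow_iff_le_right hp1).mp (he ▸ orderOf_dvd_of_pow_eq_one h1)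
      omega
    set A := centralizer ({(SemidirectProduct.inr α : G)} : Set G) with hA
    have hAmem : ∀ g : G, g ∈ A ↔ a g.left = g.left := by
      intro g
      have hl1 : SemidirectProduct.left (g * SemidirectProduct.inr α) = g.left := by
        rw [SemidirectProduct.mul_left, SemidirectProduct.left_inr, map_one, mul_one]
      have hl2 : SemidirectProduct.left ((SemidirectProduct.inr α : G) * g) = a g.left := by
        rw [SemidirectProduct.mul_left, SemidirectProduct.left_inr, SemidirectProduct.right_inr, one_mul]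
        rfl
      rw [hA, mem_centralizer_singleton_iff]
      constructor
      · intro h
        exact hl2.symm.trans ((congrArg SemidirectProduct.left h).symm.trans hl1)
      · intro h
        refine SemidirectProduct.ext (hl1.trans (h.symm.trans hl2.symm)) ?_
        rw [SemidirectProduct.mul_right, SemidirectProduct.mul_right, SemidirectProduct.right_inr]
        exact Subtype.ext (by
          obtain ⟨k, hk⟩ := mem_zpowers_iff.mp g.right.2
          show (g.right : MulAut L) * a = a * (g.right : MulAut L)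
          rw [← hk]; exact ((Commute.refl a).zpow_left k).eq)
    have hAcard : Nat.card A = p ^ 2 := by
      have e : A ≃ ↥(zpowers z) × ↥(zpowers a) :=
        { toFun := fun g => (⟨g.1.left, hfixed _ ((hAmem g.1).mp g.2)⟩, g.1.right)
          invFun := fun x => ⟨⟨x.1, x.2⟩, (hAmem _).mpr (by
            obtain ⟨i, hi⟩ := mem_zpowers_iff.mp x.1.2
            show a (x.1 : L) = x.1
            rw [← hi, map_zpow, hza])⟩
          left_inv := fun _ => rfl
          right_inv := fun _ => rfl }
      rw [Nat.card_congr e, Nat.card_prod, Nat.card_zpowers, Nat.card_zpowers, ha,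
        orderOf_eq_prime hzp hz1, pow_two]
    have hCA : centralizer (A : Set G) = A := by
      refine le_antisymm (fun x hx => mem_centralizer_singleton_iff.mpr
        (hx _ (mem_centralizer_singleton_iff.mpr rfl)).symm) (fun x hx y hy => ?_)
      have hcom := IsPGroup.commutative_of_card_eq_prime_sq hAcard
      exact congrArg Subtype.val (hcom ⟨y, hy⟩ ⟨x, hx⟩)
    simpa using Cfsg.Agent.S0112.result (m + 1) hcardG A hAcard hCA
  · rintro ⟨hp3, hcl⟩
    by_contra hall
    have hEfix : ∀ x ∈ E, a x = x := by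
      intro x hx
      by_cases hx1 : x = 1
      · rw [hx1, map_one]
      · exact not_not.mp fun h => hall ⟨x, orderOf_eq_prime ((hE x).mp hx) hx1, h⟩
    haveI : Nontrivial E := Finite.one_lt_card_iff_nontrivial.mp (by rw [hE2]; exact Nat.one_lt_pow two_ne_zero hp1)
    obtain ⟨⟨c, hc⟩, hc1⟩ := exists_ne (1 : E)
    have hc1' : c ≠ 1 := fun h => hc1 (Subtype.ext h)
    have hm3 : 3 ≤ m := by
      by_contra h
      obtain ⟨d, hd⟩ := D.exists_root hp hexp ((hE c).mp hc)
      have hd' := hexp d m hm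
      have : p ^ (m - 2) ∣ p := (pow_dvd_pow p (show m - 2 ≤ 1 by omega)).trans (pow_one p).dvd
      exact hc1' (hd ▸ orderOf_dvd_iff_pow_eq_one.mp ((orderOf_dvd_of_pow_eq_one hd').trans this))
    obtain ⟨hZ1, hZ2⟩ := card_upper_le hG hm3 hcardG hcl
    have hLc : Nat.card (commutator L) ≤ p := by
      by_contra hlt
      haveI := D.isCyclic_commutator
      obtain ⟨n, hn⟩ := IsPGroup.iff_card.mp (hL.to_subgroup (commutator L))
      have hn2 : 2 ≤ n := by
        by_contra hn2
        exact hlt (hn ▸ (Nat.pow_le_pow_right hpF.out.pos (show n ≤ 1 by omega)).trans (pow_one p).le)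
      obtain ⟨K', hK'⟩ := Sylow.exists_subgroup_card_pow_prime p (G := commutator L) (n := 2)
        (hn ▸ pow_dvd_pow p hn2)
      obtain ⟨⟨g, hgm⟩, hgen⟩ := IsCyclic.exists_generator (α := K')
      have hgo : orderOf (g : commutator L) = p ^ 2 := by
        rw [← hK', ← orderOf_eq_card_of_forall_mem_zpowers hgen]
        exact (Subgroup.orderOf_mk g hgm).symm
      have hgo' : orderOf ((g : commutator L) : L) = p ^ 2 := by rw [Subgroup.orderOf_coe, hgo]
      set K := zpowers ((g : commutator L) : L) with hK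
      have hKchar : ∀ f : MulAut L, ∀ x ∈ K, f x ∈ K := by
        intro f x hx
        have hxm : x ∈ commutator L := (zpowers_le.mpr g.2) hx
        have := mem_zpowers_of_pow_eq_one (g := g)
          (x := ⟨f x, map_mem_commutator f hxm⟩) (Subtype.ext (by
            show (f x) ^ orderOf g = 1
            rw [← map_pow, hgo, ← hgo', orderOf_dvd_iff_pow_eq_one.mp (orderOf_dvd_of_mem_zpowers hx),
              map_one]))
        obtain ⟨i, hi⟩ := mem_zpowers_iff.mp this
        exact mem_zpowers_iff.mpr ⟨i, congrArg Subtype.val hi⟩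
      haveI := normal_map_inl a K hKchar
      have hKcard : Nat.card (K.map ι) = p ^ 2 := by
        rw [card_map_of_injective hι, Nat.card_zpowers, hgo']
      have e1 := eq_of_le_of_card_ge (le_upper_two hG hKcard) (hKcard ▸ hZ2)
      have e2 := eq_of_le_of_card_ge (le_upper_two hG hWcard) (hWcard ▸ hZ2)
      have hEK : E = K := map_injective hι (e2.trans e1.symm)
      have hgE : ((g : commutator L) : L) ∈ E := hEK ▸ mem_zpowers _
      have := Nat.le_of_dvd hpF.out.pos (hgo' ▸ orderOf_dvd_of_pow_eq_one ((hE _).mp hgE))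
      nlinarith
    have hle : E.map ι ≤ center G := by
      rintro _ ⟨x, hx, rfl⟩
      obtain ⟨d, hd⟩ := D.exists_root hp hexp ((hE x).mp hx)
      have hxc : x ∈ center L := hd ▸ D.pow_mem_center hp hL hLc d
      rw [Subgroup.mem_center_iff]
      intro g
      rw [← SemidirectProduct.inl_left_mul_inr_right g]
      obtain ⟨k, hk⟩ := mem_zpowers_iff.mp g.right.2
      have hfix : ((zpowers a).subtype g.right) x = x := by
        show (g.right : MulAut L) x = x
        rw [← hk]
        have hmem : a ∈ MulAction.stabilizer (MulAut L) x := hEfix x hx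
        exact zpow_mem hmem k
      have h1 : SemidirectProduct.inr g.right * ι x = ι x * (SemidirectProduct.inr g.right : G) := by
        rw [← mul_inv_eq_iff_eq_mul, ← map_inv SemidirectProduct.inr, ← SemidirectProduct.inl_aut, hfix]
      rw [mul_assoc, h1, ← mul_assoc, ← map_mul, Subgroup.mem_center_iff.mp hxc g.left, map_mul,
        mul_assoc]
    have := (hWcard ▸ card_le_of_le hle).trans hZ1
    nlinarith

/-- Let p be an odd prime and L a finite metacyclic p-group with no cyclic subgroup of index p, and let a be an automorphism of L of order p. Then a moves some element of order p of L if and only if p = 3 and the semidirect product L ⋊ ⟨a⟩ (of order 3·#L) has maximal class, i.e. nilpotency class m where #L = 3^m. -/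
theorem result {L : Type*} [Group L] [Finite L] {p : ℕ} [Fact p.Prime]
    (hp : p ≠ 2) (hL : IsPGroup p L) (hmc : Cfsg.IsMetacyclic L) (hnc : ∀ C : Subgroup L, IsCyclic C → C.index ≠ p)
    (a : MulAut L) (ha : orderOf a = p) (m : ℕ) (hm : Nat.card L = p ^ m) :
    (∃ x : L, orderOf x = p ∧ a x ≠ x) ↔
    (p = 3 ∧ Group.nilpotencyClass (SemidirectProduct L ↥(Subgroup.zpowers a) (Subgroup.zpowers a).subtype) = m) :=
  main hp hL hmc hnc a ha m hm

end Cfsg.Agent.S4079
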