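import Cfsg.Statements.S4080
import Mathlib

set_option autoImplicit false
open Cfsg

namespace Cfsg.Agent.S4080

variable {p : ℕ} [Fact p.Prime]

theorem p_sq_zero : (p : ZMod (p ^ 2)) * (p : ZMod (p ^ 2)) = 0 := by
  rw [← Nat.cast_mul, ← pow_two, ZMod.natCast_self]

theorem eq_p_mul_of_p_mul_eq_zero {u : ZMod (p ^ 2)} (h : (p : ZMod (p ^ 2)) * u = 0) :
    ∃ v : ZMod (p ^ 2), u = (p : ZMod (p ^ 2)) * v := by
  haveI : NeZero (p ^ 2) := ⟨pow_ne_zero 2 (Fact.out : p.Prime).ne_zero⟩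
  rw [← ZMod.natCast_zmod_val u, ← Nat.cast_mul, ZMod.natCast_eq_zero_iff] at h
  obtain ⟨k, hk⟩ := Nat.dvd_of_mul_dvd_mul_left (Fact.out : p.Prime).pos ((dvd_of_eq (pow_two p).symm).trans h)
  exact ⟨k, by rw [← ZMod.natCast_zmod_val u, hk, Nat.cast_mul]⟩

theorem eq_p_mul_of_cast_eq_zero {u : ZMod (p ^ 2)}
    (h : ZMod.castHom (dvd_pow_self p two_ne_zero) (ZMod p) u = 0) :
    ∃ v : ZMod (p ^ 2), u = (p : ZMod (p ^ 2)) * v := by
  haveI : NeZero (p ^ 2) := ⟨pow_ne_zero 2 (Fact.out : p.Prime).ne_zero⟩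
  rw [← ZMod.natCast_zmod_val u, map_natCast, ZMod.natCast_eq_zero_iff] at h
  obtain ⟨k, hk⟩ := h
  exact ⟨k, by rw [← ZMod.natCast_zmod_val u, hk, Nat.cast_mul]⟩

/-- A nilpotent 2 by 2 matrix over a field squares to zero. -/
theorem sq_eq_zero_of_pow_eq_zero {F : Type*} [Field F] (N : Matrix (Fin 2) (Fin 2) F) {n : ℕ}
    (h : N ^ n = 0) : N * N = 0 := by
  have hdet : N.det = 0 := by
    have := congrArg Matrix.det h
    rw [Matrix.det_pow, Matrix.det_zero] at this
    exact eq_zero_of_pow_eq_zero this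
  have hsq : N * N = N.trace • N := by
    rw [Matrix.det_fin_two] at hdet
    ext i j
    fin_cases i <;> fin_cases j <;>
      simp [Matrix.mul_apply, Fin.sum_univ_two, Matrix.trace_fin_two] <;>
      (first | ring1 | linear_combination (-1 : F) * hdet | linear_combination hdet)
  have hpow : ∀ k : ℕ, N ^ (k + 1) = N.trace ^ k • N := by
    intro k
    induction k with
    | zero => simp
    | succ k ih => rw [pow_succ, ih, Matrix.smul_mul, hsq, smul_smul, pow_succ]
  rcases n with _ | k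
  · have : (1 : Matrix (Fin 2) (Fin 2) F) = 0 := by simpa using h
    exact absurd this one_ne_zero
  · rw [hpow] at h
    rcases smul_eq_zero.1 h with h0 | h0
    · rw [hsq, eq_zero_of_pow_eq_zero h0, zero_smul]
    · rw [h0, mul_zero]

/-- A 2 by 2 matrix over `ZMod (p ^ 2)` of order dividing `p` is the identity modulo `p`. -/
theorem p_smul_sub_one (hp : 3 < p) (M : Matrix (Fin 2) (Fin 2) (ZMod (p ^ 2))) (hM : M ^ p = 1) :
    (p : ZMod (p ^ 2)) • (M - 1) = 0 := by
  set A := M - 1 with hA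
  let φ := (ZMod.castHom (dvd_pow_self p two_ne_zero) (ZMod p)).mapMatrix (m := Fin 2)
  have hnil : (φ A) ^ p = 0 := by
    rw [hA, map_sub, map_one, sub_pow_char_of_commute _ (Commute.one_right _), ← map_pow, hM, map_one,
      one_pow, sub_self]
  have hsq := sq_eq_zero_of_pow_eq_zero _ hnil
  rw [← map_mul] at hsq
  have hex : ∀ i j, ∃ v, (A * A) i j = (p : ZMod (p ^ 2)) * v := fun i j =>
    eq_p_mul_of_cast_eq_zero (congrFun (congrFun hsq i) j)
  choose B hB using hex
  have hAA : A * A = (p : ZMod (p ^ 2)) • (Matrix.of B) := by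
    ext i j
    simp [hB i j]
  have hp1 : M = A + 1 := by simp [hA]
  have hexp : M ^ p = ∑ i ∈ Finset.range (p + 1), A ^ i * 1 ^ (p - i) * (p.choose i : Matrix (Fin 2) (Fin 2) (ZMod (p ^ 2))) := by
    rw [hp1]
    exact (Commute.one_right A).add_pow p
  have hterm : ∀ i, 2 ≤ i → A ^ i * 1 ^ (p - i) * (p.choose i : Matrix (Fin 2) (Fin 2) (ZMod (p ^ 2))) = 0 := by
    intro i hi
    rw [one_pow, mul_one, ← nsmul_eq_mul']
    rcases le_or_gt 4 i with h4 | h4
    · have : A ^ i = (A * A) * (A * A) * A ^ (i - 4) := by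
        rw [show (A * A) * (A * A) = A ^ 4 by simp [pow_succ, mul_assoc], ← pow_add]; congr 1; omega
      rw [this, hAA, Matrix.smul_mul, Matrix.mul_smul, smul_smul, p_sq_zero, zero_smul, zero_mul, smul_zero]
    · obtain ⟨c, hc⟩ := (Fact.out : p.Prime).dvd_choose_self (show i ≠ 0 by omega) (show i < p by omega)
      have : A ^ i = (A * A) * A ^ (i - 2) := by
        rw [← pow_two, ← pow_add]; congr 1; omega
      rw [this, hAA, Matrix.smul_mul, hc, mul_comm p c, mul_smul, ← Nat.cast_smul_eq_nsmul (ZMod (p ^ 2)) p, smul_smul,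
        p_sq_zero, zero_smul, smul_zero]
  rw [hM, show p + 1 = (p - 1) + 2 by omega, Finset.sum_range_succ', Finset.sum_range_succ',
    Finset.sum_eq_zero (fun i _ => hterm (i + 1 + 1) (by omega))] at hexp
  simp at hexp
  rw [Nat.cast_smul_eq_nsmul, nsmul_eq_mul']
  exact hexp

/-- Let p > 3 be a prime and L the direct product of two cyclic groups of order p². Every automorphism of L of order p fixes every element of order p of L. -/
theorem result {p : ℕ} [Fact p.Prime] (hp : 3 < p)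
    (a : MulAut (Multiplicative (ZMod (p ^ 2) × ZMod (p ^ 2)))) (ha : orderOf a = p)
    (x : Multiplicative (ZMod (p ^ 2) × ZMod (p ^ 2))) (hx : orderOf x = p) : a x = x := by
  let f : ((ZMod (p ^ 2)) × (ZMod (p ^ 2))) →+ ((ZMod (p ^ 2)) × (ZMod (p ^ 2))) :=
    { toFun := fun v => (a (Multiplicative.ofAdd v)).toAdd
      map_zero' := by simp
      map_add' := fun v w => by simp [ofAdd_add] }
  let F : Module.End (ZMod (p ^ 2)) ((ZMod (p ^ 2)) × (ZMod (p ^ 2))) := f.toZModLinearMap (p ^ 2)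
  have hFk : ∀ (k : ℕ) (v : (ZMod (p ^ 2)) × (ZMod (p ^ 2))), (F ^ k) v = ((a ^ k) (Multiplicative.ofAdd v)).toAdd := by
    intro k
    induction k with
    | zero => simp
    | succ k ih =>
      intro v
      rw [pow_succ' F k, pow_succ' a k, Module.End.mul_apply, ih, MulAut.mul_apply]
      rfl
  have hFp : F ^ p = 1 := by
    apply LinearMap.ext
    intro v
    rw [hFk, orderOf_dvd_iff_pow_eq_one.1 (dvd_of_eq ha)]
    simp
  let Φ := LinearMap.toMatrixAlgEquiv (Module.Basis.finTwoProd (ZMod (p ^ 2)))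
  have hM := p_smul_sub_one hp (Φ F) (by rw [← map_pow, hFp, map_one])
  rw [← map_one Φ, ← map_sub, ← map_smul] at hM
  have h0 : (p : (ZMod (p ^ 2))) • (F - 1) = 0 := Φ.injective (hM.trans (map_zero Φ).symm)
  have hxp : (p : (ZMod (p ^ 2))) • x.toAdd = 0 := by
    rw [Nat.cast_smul_eq_nsmul, ← toAdd_pow, orderOf_dvd_iff_pow_eq_one.1 (dvd_of_eq hx)]
    rfl
  obtain ⟨u, hu⟩ := eq_p_mul_of_p_mul_eq_zero (congrArg Prod.fst hxp)
  obtain ⟨w, hw⟩ := eq_p_mul_of_p_mul_eq_zero (congrArg Prod.snd hxp)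
  have hxe : x.toAdd = (p : (ZMod (p ^ 2))) • (u, w) := Prod.ext hu hw
  have h1 : F x.toAdd = x.toAdd := by
    have := LinearMap.congr_fun h0 (u, w)
    rw [LinearMap.smul_apply, LinearMap.sub_apply, Module.End.one_apply, LinearMap.zero_apply, smul_sub, sub_eq_zero] at this
    rw [hxe, map_smul]
    exact this
  exact Multiplicative.toAdd.injective (show (a x).toAdd = x.toAdd from h1)

end Cfsg.Agent.S4080
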