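import Cfsg.Statements.S4081
import Cfsg.Agent.Eq.Def_Transfer
import Cfsg.Agent.Chars.Apps.Burnside
import Mathlib

set_option autoImplicit false
open Cfsg
open Polynomial

namespace Cfsg.Agent.S4081

section Linear

variable {V : Type*} [AddCommGroup V] {p : ℕ} [Fact p.Prime] [Module (ZMod p) V]

/-- The sum of the powers of a fixed-point-free operator of order `q` vanishes. -/
theorem geom_sum_eq_zero {W : Module.End (ZMod p) V} {q : ℕ} (hW : W ^ q = 1)
    (hfpf : ∀ v, W v = v → v = 0) : ∑ k ∈ Finset.range q, W ^ k = 0 := by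
  have h : (W - 1) * ∑ k ∈ Finset.range q, W ^ k = 0 := by rw [mul_geom_sum, hW, sub_self]
  apply LinearMap.ext
  intro v
  have h' := LinearMap.congr_fun h v
  rw [Module.End.mul_apply, LinearMap.sub_apply, Module.End.one_apply, LinearMap.zero_apply, sub_eq_zero] at h'
  exact hfpf _ h'

/-- No elementary abelian group of rank two acts fixed-point-freely. -/
theorem false_of_rank_two {T U : Module.End (ZMod p) V} {q : ℕ} (hq : q.Prime) (hqp : q ≠ p)
    (hTU : Commute T U) (hT : T ^ q = 1) (hU : U ^ q = 1)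
    (hTUfpf : ∀ j v, (T * U ^ j) v = v → v = 0)
    (hUfpf : ∀ k, k ≠ 0 → k < q → ∀ v, (U ^ k) v = v → v = 0)
    {v : V} (hv : v ≠ 0) : False := by
  have hzero : ∀ j ∈ Finset.range q, ∑ k ∈ Finset.range q, (T * U ^ j) ^ k = 0 := by
    intro j _
    refine geom_sum_eq_zero ?_ (hTUfpf j)
    rw [(hTU.pow_right j).mul_pow, hT, ← pow_mul, mul_comm j, pow_mul, hU, one_pow, one_mul]
  have hsum : ∑ k ∈ Finset.range q, T ^ k * ∑ j ∈ Finset.range q, (U ^ k) ^ j = 0 := by
    refine Eq.trans ?_ (Finset.sum_eq_zero hzero)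
    conv_rhs => rw [Finset.sum_comm]
    refine Finset.sum_congr rfl fun k _ => ?_
    rw [Finset.mul_sum]
    refine Finset.sum_congr rfl fun j _ => ?_
    rw [(hTU.pow_right j).mul_pow, ← pow_mul U j k, ← pow_mul U k j, mul_comm j k]
  rw [Finset.sum_eq_single_of_mem 0 (Finset.mem_range.2 hq.pos)] at hsum
  swap
  · intro k hk hk0
    rw [geom_sum_eq_zero (W := U ^ k) (by rw [← pow_mul, mul_comm, pow_mul, hU, one_pow])
      (hUfpf k hk0 (Finset.mem_range.1 hk)), mul_zero]
  simp only [pow_zero, one_pow, one_mul, Finset.sum_const, Finset.card_range] at hsum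
  have h := LinearMap.congr_fun hsum v
  rw [LinearMap.smul_apply, Module.End.one_apply, LinearMap.zero_apply, ← Nat.cast_smul_eq_nsmul (ZMod p),
    smul_eq_zero] at h
  rcases h with h | h
  · rw [ZMod.natCast_eq_zero_iff, Nat.prime_dvd_prime_iff_eq Fact.out hq] at h
    exact hqp h.symm
  · exact hv h

theorem semiconj_aeval {σ T T' : Module.End (ZMod p) V} (h : σ * T = T' * σ) (f : (ZMod p)[X]) :
    σ * aeval T f = aeval T' f * σ := by
  induction f using Polynomial.induction_on with
  | C a => rw [aeval_C, aeval_C]; exact (Algebra.commutes a σ).symm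
  | add f g hf hg => rw [map_add, map_add, mul_add, add_mul, hf, hg]
  | monomial k a _ =>
    have hk : σ * T ^ (k + 1) = T' ^ (k + 1) * σ := SemiconjBy.pow_right h (k + 1)
    simp only [map_mul, aeval_C, aeval_X, map_pow]
    rw [← mul_assoc, ← Algebra.commutes a σ, mul_assoc, hk, ← mul_assoc]

theorem pow_mul_of_semiconj {σ T : Module.End (ZMod p) V} {q i j : ℕ} (hT : T ^ q = 1)
    (h : σ * T = T ^ i * σ) (hij : i * j ≡ 1 [MOD q]) : σ * T ^ j = T * σ := by
  have h1 : σ * T ^ j = (T ^ i) ^ j * σ := SemiconjBy.pow_right h j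
  rw [h1, ← pow_mul]
  congr 1
  conv_rhs => rw [← pow_one T]
  exact pow_eq_pow_of_modEq hij hT

/-- If the normalizer of a fixed-point-free operator of prime order `q` is transitive on non-zero
vectors and induces every power, then `p` is a primitive root modulo `q`. -/
theorem primitive_root_of_transitive [Finite V] {q : ℕ} [Fact q.Prime] (hpq : p ≠ q)
    {T : Module.End (ZMod p) V} (hT : T ^ q = 1) (hfpf : ∀ v, T v = v → v = 0) {v₁ : V} (hv₁ : v₁ ≠ 0)
    (htrans : ∀ v w : V, v ≠ 0 → w ≠ 0 → ∃ (σ : Module.End (ZMod p) V) (i : ℕ),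
      ¬ q ∣ i ∧ σ * T = T ^ i * σ ∧ σ v = w ∧ ∀ u, σ u = 0 → u = 0)
    (hall : ∀ i, ¬ q ∣ i → ∃ σ : Module.End (ZMod p) V, σ * T = T ^ i * σ ∧ ∀ u, σ u = 0 → u = 0) :
    orderOf (p : ZMod q) = q - 1 := by
  classical
  have hq : q.Prime := Fact.out
  have hpqd : ¬ q ∣ p := fun h => hpq ((Nat.prime_dvd_prime_iff_eq hq Fact.out).1 h).symm
  let C : V → Set V := fun v => Set.range fun f : (ZMod p)[X] => aeval T f v
  let Simple : V → Prop := fun v => ∀ f : (ZMod p)[X], aeval T f v ≠ 0 → ∃ g : (ZMod p)[X], aeval T g (aeval T f v) = v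
  obtain ⟨v₀, hv₀, hmin⟩ := Set.exists_min_image {v : V | v ≠ 0} (fun v => (C v).ncard) (Set.toFinite _) ⟨v₁, hv₁⟩
  have hv₀s : Simple v₀ := by
    intro f hf
    have hsub : C (aeval T f v₀) ⊆ C v₀ := by
      rintro _ ⟨g, rfl⟩
      exact ⟨g * f, by simp [Module.End.mul_apply]⟩
    have heq := Set.eq_of_subset_of_ncard_le hsub (hmin _ hf) (Set.toFinite _)
    have hmem : v₀ ∈ C (aeval T f v₀) := by rw [heq]; exact ⟨1, by simp⟩
    obtain ⟨g, hg⟩ := hmem
    exact ⟨g, hg⟩
  have hsimple : ∀ v, v ≠ 0 → Simple v := by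
    intro w hw
    obtain ⟨σ, i, hi, hσ, rfl, hinj⟩ := htrans v₀ w hv₀ hw
    obtain ⟨j, hj⟩ : ∃ j, i * j ≡ 1 [MOD q] := by
      obtain ⟨j, -, hj⟩ := Nat.exists_mul_mod_eq_one_of_coprime ((hq.coprime_iff_not_dvd.2 hi).symm) hq.one_lt
      exact ⟨j, by rw [Nat.ModEq, Nat.one_mod_eq_one.2 hq.one_lt.ne']; exact hj⟩
    have e : ∀ f : (ZMod p)[X], aeval T f (σ v₀) = σ (aeval T (f.comp (X ^ j)) v₀) := by
      intro f
      rw [← Module.End.mul_apply, ← Module.End.mul_apply]
      refine LinearMap.congr_fun ?_ v₀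
      rw [aeval_comp, aeval_X_pow]
      exact (semiconj_aeval (pow_mul_of_semiconj hT hσ hj) f).symm
    intro f hf
    rw [e] at hf ⊢
    obtain ⟨g, hg⟩ := hv₀s _ (fun h => hf (by rw [h, map_zero]))
    refine ⟨g.comp (X ^ i), ?_⟩
    conv_rhs => rw [← hg]
    rw [← Module.End.mul_apply (aeval T (g.comp (X ^ i))) σ, ← Module.End.mul_apply σ (aeval T g)]
    refine LinearMap.congr_fun ?_ _
    rw [aeval_comp, aeval_X_pow]
    exact (semiconj_aeval hσ g).symm
  have hdom : ∀ (f : (ZMod p)[X]) (v : V), v ≠ 0 → aeval T f v = 0 → aeval T f = 0 := by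
    intro f v hv hf
    apply LinearMap.ext
    intro w
    rw [LinearMap.zero_apply]
    by_contra hfw
    have hw : w ≠ 0 := fun h => hfw (by rw [h, map_zero])
    have hu : aeval T f (v + w) = aeval T f w := by rw [map_add, hf, zero_add]
    have hu0 : v + w ≠ 0 := fun h => hfw (by rw [← hu, h, map_zero])
    obtain ⟨g, hg⟩ := hsimple _ hu0 f (by rwa [hu])
    rw [hu] at hg
    obtain ⟨h, hh⟩ := hsimple _ hw f hfw
    have hvr : aeval T ((g - h) * f) w = v := by
      rw [map_mul, Module.End.mul_apply, map_sub, LinearMap.sub_apply, hg, hh, add_sub_cancel_right]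
    obtain ⟨k, hk⟩ := hsimple _ hw ((g - h) * f) (by rwa [hvr])
    rw [hvr] at hk
    apply hfw
    rw [← hk, ← Module.End.mul_apply, ← map_mul, mul_comm, map_mul, Module.End.mul_apply, hf, map_zero]
  -- the minimal polynomial is irreducible
  have hint : IsIntegral (ZMod p) T := Algebra.IsIntegral.isIntegral T
  haveI : Nontrivial V := ⟨v₁, 0, hv₁⟩
  set m := minpoly (ZMod p) T with hm
  have hmne : m ≠ 0 := minpoly.ne_zero hint
  have hirr : Irreducible m := by
    constructor
    · intro hu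
      have h1 := minpoly.aeval (ZMod p) T
      obtain ⟨c, hc, hce⟩ := Polynomial.isUnit_iff.1 hu
      rw [← hm, ← hce, aeval_C] at h1
      have := LinearMap.congr_fun h1 v₁
      rw [Module.algebraMap_end_apply, LinearMap.zero_apply, smul_eq_zero] at this
      rcases this with h | h
      · exact hc.ne_zero h
      · exact hv₁ h
    · intro a b hab
      have h1 : aeval T a (aeval T b v₁) = 0 := by
        rw [← Module.End.mul_apply, ← map_mul, ← hab, hm, minpoly.aeval, LinearMap.zero_apply]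
      have hane : a ≠ 0 := fun h => hmne (by rw [hab, h, zero_mul])
      have hbne : b ≠ 0 := fun h => hmne (by rw [hab, h, mul_zero])
      have hdeg : m.natDegree = a.natDegree + b.natDegree := by rw [hab, natDegree_mul hane hbne]
      have hz : aeval T a = 0 ∨ aeval T b = 0 := by
        by_cases hb : aeval T b v₁ = 0
        · exact Or.inr (hdom b v₁ hv₁ hb)
        · exact Or.inl (hdom a _ hb h1)
      rcases hz with hz | hz
      · right
        rw [Polynomial.isUnit_iff_degree_eq_zero, degree_eq_natDegree hbne]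
        have := natDegree_le_of_dvd (minpoly.dvd (ZMod p) T hz) hane
        rw [← hm] at this
        norm_cast
        omega
      · left
        rw [Polynomial.isUnit_iff_degree_eq_zero, degree_eq_natDegree hane]
        have := natDegree_le_of_dvd (minpoly.dvd (ZMod p) T hz) hbne
        rw [← hm] at this
        norm_cast
        omega
  have hcyc : m ∣ cyclotomic q (ZMod p) := by
    refine minpoly.dvd (ZMod p) T ?_
    rw [cyclotomic_prime, map_sum]
    simp only [aeval_X_pow]
    exact geom_sum_eq_zero hT hfpf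
  haveI : Fact (Irreducible m) := ⟨hirr⟩
  haveI : NeZero ((q : ℕ) : AdjoinRoot m) := by
    refine ⟨fun h => ?_⟩
    rw [← map_natCast (algebraMap (ZMod p) (AdjoinRoot m)), map_eq_zero, ZMod.natCast_eq_zero_iff,
      Nat.prime_dvd_prime_iff_eq Fact.out hq] at h
    exact hpq h
  set ζ := AdjoinRoot.root m with hζ
  have hprim : IsPrimitiveRoot ζ q := by
    rw [← isRoot_cyclotomic_iff, IsRoot.def, ← map_cyclotomic q (algebraMap (ZMod p) (AdjoinRoot m)),
      eval_map_algebraMap, hζ, AdjoinRoot.aeval_eq]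
    exact AdjoinRoot.mk_eq_zero.2 hcyc
  have hroots : ∀ i, ¬ q ∣ i → aeval (ζ ^ i) m = 0 := by
    intro i hi
    obtain ⟨σ, hσ, hinj⟩ := hall i hi
    have h1 : aeval (T ^ i) m = 0 := by
      have h2 := semiconj_aeval hσ m
      rw [hm, minpoly.aeval, mul_zero, ← hm] at h2
      have hbij : Function.Surjective σ :=
        Finite.injective_iff_surjective.1 ((injective_iff_map_eq_zero σ).2 hinj)
      apply LinearMap.ext
      intro u
      obtain ⟨u', rfl⟩ := hbij u
      exact (LinearMap.congr_fun h2 u').symm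
    have h3 : m ∣ m.comp (X ^ i) := minpoly.dvd (ZMod p) T (by rw [aeval_comp, aeval_X_pow, h1])
    obtain ⟨c, hc⟩ := h3
    have h4 : aeval ζ (m.comp (X ^ i)) = 0 := by
      rw [hc, map_mul, hζ, AdjoinRoot.aeval_eq, AdjoinRoot.mk_self, zero_mul]
    rwa [aeval_comp, aeval_X_pow] at h4
  have hdeg1 : q - 1 ≤ m.natDegree := by
    have hmap : m.map (algebraMap (ZMod p) (AdjoinRoot m)) ≠ 0 := (map_ne_zero hmne)
    have hsub : (Finset.Ico 1 q).image (fun i => ζ ^ i) ⊆ (m.map (algebraMap (ZMod p) (AdjoinRoot m))).roots.toFinset := by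
      intro z hz
      obtain ⟨i, hi, rfl⟩ := Finset.mem_image.1 hz
      rw [Finset.mem_Ico] at hi
      rw [Multiset.mem_toFinset, mem_roots hmap, IsRoot.def, eval_map_algebraMap]
      exact hroots i (fun hd => (Nat.le_of_dvd hi.1 hd).not_gt hi.2)
    have hinj : Set.InjOn (fun i => ζ ^ i) (Finset.Ico 1 q : Set ℕ) := fun a ha b hb h => by
      simp only [Finset.coe_Ico, Set.mem_Ico] at ha hb
      exact hprim.pow_inj ha.2 hb.2 h
    have hcard := Finset.card_le_card hsub
    rw [Finset.card_image_of_injOn hinj, Nat.card_Ico] at hcard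
    exact (hcard.trans ((Multiset.toFinset_card_le _).trans (card_roots' _))).trans (natDegree_map_le)
  have hco : (p ^ 1).Coprime q := by rw [pow_one]; exact (hq.coprime_iff_not_dvd.2 hpqd).symm
  have hord := Polynomial.natDegree_of_dvd_cyclotomic_of_irreducible (K := ZMod p) (f := 1) (n := q)
    (by rw [ZMod.card, pow_one]) (by simpa using (hq.coprime_iff_not_dvd.2 hpqd).symm) hcyc hirr
  rw [← orderOf_units, ZMod.coe_unitOfCoprime, pow_one] at hord
  rw [hord] at hdeg1
  refine le_antisymm ?_ hdeg1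
  refine Nat.le_of_dvd (by have := hq.two_le; omega) (orderOf_dvd_of_pow_eq_one (ZMod.pow_card_sub_one_eq_one ?_))
  rw [Ne, ZMod.natCast_eq_zero_iff]
  exact hpqd

theorem exists_linearEquiv_apply_eq {K W : Type*} [Field K] [AddCommGroup W] [Module K W] [Finite W]
    {v w : W} (hv : v ≠ 0) (hw : w ≠ 0) : ∃ L : W →ₗ[K] W, L v = w ∧ ∀ u, L u = 0 → u = 0 := by
  obtain ⟨φ₁, h1⟩ : ∃ φ : Module.Dual K W, φ v ≠ 0 := by
    by_contra h; push Not at h; exact hv ((Module.forall_dual_apply_eq_zero_iff K v).1 h)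
  obtain ⟨φ₂, h2⟩ : ∃ φ : Module.Dual K W, φ w ≠ 0 := by
    by_contra h; push Not at h; exact hw ((Module.forall_dual_apply_eq_zero_iff K w).1 h)
  obtain ⟨φ, hφv, hφw⟩ : ∃ φ : Module.Dual K W, φ v ≠ 0 ∧ φ w ≠ 0 := by
    by_cases h1w : φ₁ w = 0
    · by_cases h2v : φ₂ v = 0
      · exact ⟨φ₁ + φ₂, by simp [h2v, h1], by simp [h1w, h2]⟩
      · exact ⟨φ₂, h2v, h2⟩
    · exact ⟨φ₁, h1, h1w⟩
  refine ⟨LinearMap.id + ((φ v)⁻¹ • φ).smulRight (w - v), ?_, fun u hu => ?_⟩
  · simp [inv_mul_cancel₀ hφv]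
  · simp only [LinearMap.add_apply, LinearMap.id_apply, LinearMap.smulRight_apply, LinearMap.smul_apply,
      smul_eq_mul] at hu
    have h3 := congrArg φ hu
    simp only [map_add, map_smul, map_sub, map_zero, smul_eq_mul] at h3
    have h4 : φ u * φ w = 0 := by
      field_simp at h3
      linear_combination h3
    have h5 : φ u = 0 := (mul_eq_zero.1 h4).resolve_right hφw
    simpa [h5] using hu

/-- If `p` is a primitive root modulo `q` then the normalizer of a fixed-point-free operator of order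
`q` is transitive on non-zero vectors and induces every power. -/
theorem semilinear_of_primitive_root [Finite V] {q : ℕ} [Fact q.Prime] (hpq : p ≠ q)
    (hord : orderOf (p : ZMod q) = q - 1) {T : Module.End (ZMod p) V} (hT : T ^ q = 1)
    (hfpf : ∀ v, T v = v → v = 0) :
    (∀ v w : V, v ≠ 0 → w ≠ 0 → ∃ f : V →+ V, (∀ u, f (T u) = T (f u)) ∧ f v = w ∧ Function.Injective f) ∧
    (∀ i, ¬ q ∣ i → ∃ f : V →+ V, (∀ u, f (T u) = (T ^ i) (f u)) ∧ Function.Injective f) := by
  classical
  have hq : q.Prime := Fact.out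
  have hqp : ¬ p ∣ q := fun h => hpq ((Nat.prime_dvd_prime_iff_eq Fact.out hq).1 h)
  set Φ := cyclotomic q (ZMod p) with hΦ
  have hirr : Irreducible Φ := by
    refine ZMod.irreducible_of_dvd_cyclotomic_of_natDegree (n := q) hqp dvd_rfl ?_
    rw [hΦ, natDegree_cyclotomic, Nat.totient_prime hq, ← hord, ← orderOf_units, ZMod.coe_unitOfCoprime]
  haveI : Fact (Irreducible Φ) := ⟨hirr⟩
  have h0 : aeval T Φ = 0 := by
    rw [hΦ, cyclotomic_prime, map_sum]
    simp only [aeval_X_pow]
    exact geom_sum_eq_zero hT hfpf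
  let ρ : AdjoinRoot Φ →+* Module.End (ZMod p) V :=
    Ideal.Quotient.lift (Ideal.span {Φ}) (aeval T).toRingHom (fun a ha => by
      obtain ⟨c, rfl⟩ := Ideal.mem_span_singleton.1 ha
      show aeval T (Φ * c) = 0
      rw [map_mul, h0, zero_mul])
  have hρ : ρ (AdjoinRoot.root Φ) = T := by
    show aeval T X = T
    rw [aeval_X]
  letI : Module (AdjoinRoot Φ) V := Module.compHom V ρ
  have hsmul : ∀ (k : AdjoinRoot Φ) (u : V), k • u = ρ k u := fun k u => rfl
  have hroot : ∀ u : V, AdjoinRoot.root Φ • u = T u := fun u => by rw [hsmul, hρ]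
  constructor
  · intro v w hv hw
    obtain ⟨L, hL, hinj⟩ := exists_linearEquiv_apply_eq (K := AdjoinRoot Φ) hv hw
    refine ⟨L.toAddMonoidHom, fun u => ?_, hL, (injective_iff_map_eq_zero _).2 hinj⟩
    show L (T u) = T (L u)
    rw [← hroot, ← hroot, map_smul]
  · intro i hi
    haveI : NeZero ((q : ℕ) : AdjoinRoot Φ) := by
      refine ⟨fun h => ?_⟩
      rw [← map_natCast (algebraMap (ZMod p) (AdjoinRoot Φ)), map_eq_zero, ZMod.natCast_eq_zero_iff] at h
      exact hqp h
    have hprim : IsPrimitiveRoot (AdjoinRoot.root Φ) q := by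
      rw [← isRoot_cyclotomic_iff, IsRoot.def, ← map_cyclotomic q (algebraMap (ZMod p) (AdjoinRoot Φ)),
        eval_map_algebraMap, AdjoinRoot.aeval_eq]
      exact AdjoinRoot.mk_self
    have hroot' : aeval (AdjoinRoot.root Φ ^ i) Φ = 0 := by
      have h := hprim.pow_of_coprime i ((hq.coprime_iff_not_dvd.2 hi).symm)
      rw [← isRoot_cyclotomic_iff, IsRoot.def, ← map_cyclotomic q (algebraMap (ZMod p) (AdjoinRoot Φ)),
        eval_map_algebraMap] at h
      exact h
    let τ : AdjoinRoot Φ →ₐ[ZMod p] AdjoinRoot Φ :=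
      AdjoinRoot.liftAlgHom Φ (Algebra.ofId (ZMod p) (AdjoinRoot Φ)) (AdjoinRoot.root Φ ^ i) hroot'
    have hτ : τ (AdjoinRoot.root Φ) = AdjoinRoot.root Φ ^ i := AdjoinRoot.liftAlgHom_root ..
    have hfin : Module.Finite (AdjoinRoot Φ) V := Module.Finite.of_finite
    let b := Module.finBasis (AdjoinRoot Φ) V
    let f : V →+ V :=
      { toFun := fun u => ∑ k, τ (b.repr u k) • b k
        map_zero' := by simp
        map_add' := fun u u' => by simp [map_add, add_smul, Finset.sum_add_distrib] }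
    refine ⟨f, fun u => ?_, (injective_iff_map_eq_zero f).2 fun u hu => ?_⟩
    · show ∑ k, τ (b.repr (T u) k) • b k = (T ^ i) (∑ k, τ (b.repr u k) • b k)
      rw [← hρ, ← map_pow, ← hsmul, ← hsmul, Finset.smul_sum]
      refine Finset.sum_congr rfl fun k _ => ?_
      rw [map_smul, Finsupp.smul_apply, smul_eq_mul, map_mul, hτ, mul_smul]
    · have h := Fintype.linearIndependent_iff.1 b.linearIndependent _ hu
      apply b.repr.injective
      ext k
      rw [map_zero, Finsupp.zero_apply]
      exact (map_eq_zero τ).1 (h k)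

end Linear

section Group

variable {G : Type*} [Group G] [Finite G]

open scoped IsMulCommutative

/-- Automorphisms of a commutative group of exponent `p` as linear operators. -/
def autToEnd (p : ℕ) {P : Type*} [CommGroup P] [Module (ZMod p) (Additive P)] :
    MulAut P →* Module.End (ZMod p) (Additive P) where
  toFun f := f.toMonoidHom.toAdditive.toZModLinearMap p
  map_one' := by
    apply LinearMap.ext
    intro v
    rfl
  map_mul' f g := by
    apply LinearMap.ext
    intro v
    rfl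

/-- Conjugation on a normal elementary abelian subgroup as linear operators. -/
theorem exists_rep {p : ℕ} [Fact p.Prime] (P : Subgroup G) [P.Normal] [IsMulCommutative P]
    (hexp : ∀ a ∈ P, a ^ p = 1) :
    ∃ (_ : Module (ZMod p) (Additive P)) (ψ : G →* Module.End (ZMod p) (Additive P)),
      ∀ (g : G) (v : Additive P), ((Additive.toMul (ψ g v) : P) : G) = g * ((Additive.toMul v : P) : G) * g⁻¹ := by
  have hp0 : ∀ v : Additive P, p • v = 0 := fun v => by
    apply Additive.toMul.injective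
    exact Subtype.ext (by simpa using hexp _ (Additive.toMul v).2)
  letI m : Module (ZMod p) (Additive P) := AddCommGroup.zmodModule (n := p) hp0
  let ψ : G →* Module.End (ZMod p) (Additive P) :=
    (autToEnd p).comp MulAut.conjNormal
  refine ⟨m, ψ, fun g v => ?_⟩
  rfl

theorem orderOf_aut (σ : MulAut G) (y : G) : orderOf (σ y) = orderOf y :=
  orderOf_injective σ.toMonoidHom σ.injective y

/-- With three automorphism orbits there are at most two non-trivial element orders. -/
theorem three_orbits (h3 : Nat.card (MulAction.orbitRel.Quotient (MulAut G) G) = 3) {a b : G} (ha : a ≠ 1)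
    (hb : b ≠ 1) (hab : orderOf a ≠ orderOf b) :
    ∀ c : G, c = 1 ∨ (∃ σ : MulAut G, σ a = c) ∨ (∃ σ : MulAut G, σ b = c) := by
  classical
  set qa : MulAction.orbitRel.Quotient (MulAut G) G := Quotient.mk'' a with hqa
  set qb : MulAction.orbitRel.Quotient (MulAut G) G := Quotient.mk'' b with hqb
  set q1 : MulAction.orbitRel.Quotient (MulAut G) G := Quotient.mk'' 1 with hq1
  have key : ∀ u v : G, (Quotient.mk'' u : MulAction.orbitRel.Quotient (MulAut G) G) = Quotient.mk'' v →
      ∃ σ : MulAut G, σ v = u := by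
    intro u v h
    rw [Quotient.eq''] at h
    exact MulAction.orbitRel_apply.1 h
  have hord : ∀ u v : G, (Quotient.mk'' u : MulAction.orbitRel.Quotient (MulAut G) G) = Quotient.mk'' v →
      orderOf u = orderOf v := by
    intro u v h
    obtain ⟨σ, rfl⟩ := key u v h
    exact orderOf_aut σ v
  have h1a : q1 ≠ qa := fun h => ha (orderOf_eq_one_iff.1 ((hord _ _ h).symm.trans orderOf_one))
  have h1b : q1 ≠ qb := fun h => hb (orderOf_eq_one_iff.1 ((hord _ _ h).symm.trans orderOf_one))
  have habq : qa ≠ qb := fun h => hab (hord _ _ h)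
  intro c
  by_contra hcon
  push Not at hcon
  obtain ⟨hc1, hca, hcb⟩ := hcon
  set qc : MulAction.orbitRel.Quotient (MulAut G) G := Quotient.mk'' c with hqc
  have h1c : q1 ≠ qc := fun h => hc1 (orderOf_eq_one_iff.1 ((hord _ _ h).symm.trans orderOf_one))
  have hac : qa ≠ qc := fun h => by obtain ⟨σ, hσ⟩ := key _ _ h.symm; exact hca σ hσ
  have hbc : qb ≠ qc := fun h => by obtain ⟨σ, hσ⟩ := key _ _ h.symm; exact hcb σ hσ
  have hsub : ({q1, qa, qb, qc} : Finset (MulAction.orbitRel.Quotient (MulAut G) G)).card = 4 := by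
    simp [h1a, h1b, h1c, habq, hac, hbc]
  haveI := Fintype.ofFinite (MulAction.orbitRel.Quotient (MulAut G) G)
  have := Finset.card_le_univ ({q1, qa, qb, qc} : Finset (MulAction.orbitRel.Quotient (MulAut G) G))
  rw [hsub, ← Nat.card_eq_fintype_card, h3] at this
  omega

/-- The structure of a non-prime-power group with three orbits, given a characteristic abelian
subgroup containing an element of order `p`. -/
theorem forward_aux (h3 : Nat.card (MulAction.orbitRel.Quotient (MulAut G) G) = 3) (p q : ℕ) [Fact p.Prime]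
    [Fact q.Prime] (hpq : p ≠ q) (hpG : p ∣ Nat.card G) (hqG : q ∣ Nat.card G)
    (A : Subgroup G) [A.Normal] (hAchar : ∀ (σ : MulAut G) (a : G), a ∈ A → σ a ∈ A)
    (hAc : ∀ a ∈ A, ∀ b ∈ A, a * b = b * a) (hAp : ∃ a ∈ A, orderOf a = p) :
    ∃ n : ℕ, 1 ≤ n ∧ Nat.card G = p ^ n * q ∧
      (∀ P : Sylow p G, (P : Subgroup G).Normal ∧ Cfsg.IsElementaryAbelian p (P : Subgroup G)) ∧
      orderOf (p : ZMod q) = q - 1 ∧
      ∀ x y : G, orderOf x = q → orderOf y = p → x * y * x⁻¹ ≠ y := by
  classical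
  have hp : p.Prime := Fact.out
  have hq : q.Prime := Fact.out
  obtain ⟨a, haA, ha⟩ := hAp
  obtain ⟨b, hb⟩ := exists_prime_orderOf_dvd_card' q hqG
  have ha1 : a ≠ 1 := fun h => hp.one_lt.ne (by rw [← ha, h, orderOf_one])
  have hb1 : b ≠ 1 := fun h => hq.one_lt.ne (by rw [← hb, h, orderOf_one])
  have horb := three_orbits h3 ha1 hb1 (by rw [ha, hb]; exact hpq)
  have horder : ∀ c : G, c = 1 ∨ orderOf c = p ∨ orderOf c = q := by
    intro c
    rcases horb c with h | ⟨σ, rfl⟩ | ⟨σ, rfl⟩
    · exact Or.inl h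
    · exact Or.inr (Or.inl (by rw [orderOf_aut, ha]))
    · exact Or.inr (Or.inr (by rw [orderOf_aut, hb]))
  have horbp : ∀ c d : G, orderOf c = p → orderOf d = p → ∃ σ : MulAut G, σ c = d := by
    intro c d hc hd
    have hone : ∀ c : G, orderOf c = p → ∃ σ : MulAut G, σ a = c := by
      intro c hc
      rcases horb c with h | h | ⟨σ, rfl⟩
      · exact absurd (by rw [← hc, h, orderOf_one]) hp.one_lt.ne'
      · exact h
      · rw [orderOf_aut, hb] at hc; exact absurd hc.symm hpq
    obtain ⟨σ, rfl⟩ := hone c hc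
    obtain ⟨τ, rfl⟩ := hone d hd
    exact ⟨τ * σ⁻¹, by simp [MulAut.mul_apply]⟩
  have horbq : ∀ c d : G, orderOf c = q → orderOf d = q → ∃ σ : MulAut G, σ c = d := by
    intro c d hc hd
    have hone : ∀ c : G, orderOf c = q → ∃ σ : MulAut G, σ b = c := by
      intro c hc
      rcases horb c with h | ⟨σ, rfl⟩ | h
      · exact absurd (by rw [← hc, h, orderOf_one]) hq.one_lt.ne'
      · rw [orderOf_aut, ha] at hc; exact absurd hc hpq
      · exact h
    obtain ⟨σ, rfl⟩ := hone c hc
    obtain ⟨τ, rfl⟩ := hone d hd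
    exact ⟨τ * σ⁻¹, by simp [MulAut.mul_apply]⟩
  have hfpf : ∀ x y : G, orderOf x = q → orderOf y = p → x * y * x⁻¹ ≠ y := by
    intro x y hx hy h
    have hc : Commute x y := mul_inv_eq_iff_eq_mul.1 h
    have ho := hc.orderOf_mul_eq_mul_orderOf_of_coprime (by rw [hx, hy]; exact (Nat.coprime_primes hq hp).2 hpq.symm)
    rw [hx, hy] at ho
    rcases horder (x * y) with h1 | h1 | h1
    · rw [h1, orderOf_one] at ho; nlinarith [hp.two_le, hq.two_le]
    · rw [h1] at ho; nlinarith [hp.two_le, hq.two_le]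
    · rw [h1] at ho; nlinarith [hp.two_le, hq.two_le]
  have hAmem : ∀ y : G, orderOf y = p → y ∈ A := by
    intro y hy
    obtain ⟨σ, rfl⟩ := horbp a y ha hy
    exact hAchar σ a haA
  have hAq : ∀ y ∈ A, orderOf y ≠ q := fun y hy hoy =>
    hfpf y a hoy ha (by rw [hAc y hy a haA, mul_inv_cancel_right])
  have hAexp : ∀ y ∈ A, y ^ p = 1 := by
    intro y hy
    rcases horder y with h | h | h
    · rw [h, one_pow]
    · rw [← h, pow_orderOf_eq_one]
    · exact absurd h (hAq y hy)
  have hApg : IsPGroup p A := fun y => ⟨1, Subtype.ext (by simpa using hAexp y y.2)⟩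
  have hSyl : ∀ P : Sylow p G, (P : Subgroup G) = A := by
    intro P
    have hle : (P : Subgroup G) ≤ A := by
      intro y hy
      obtain ⟨k, hk⟩ := IsPGroup.iff_orderOf.1 P.isPGroup' ⟨y, hy⟩
      rw [Subgroup.orderOf_mk] at hk
      rcases horder y with h | h | h
      · rw [h]; exact A.one_mem
      · exact hAmem y h
      · exfalso
        rw [hk] at h
        exact hpq ((Nat.prime_dvd_prime_iff_eq hq hp).1 (hq.dvd_of_dvd_pow (dvd_of_eq h.symm))).symm
    exact (P.is_maximal' hApg hle).symm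
  haveI : IsMulCommutative A := ⟨⟨fun u v => Subtype.ext (hAc u u.2 v v.2)⟩⟩
  obtain ⟨_, ψ, hψ⟩ := exists_rep (p := p) A hAexp
  have hzero : Additive.ofMul (1 : A) = 0 := rfl
  have hadd : ∀ u v : A, Additive.ofMul (u * v) = Additive.ofMul u + Additive.ofMul v := fun _ _ => rfl
  haveI : Finite (Additive A) := Finite.of_equiv A Additive.ofMul
  let a' : Additive A := Additive.ofMul ⟨a, haA⟩
  have hne0 : ∀ v : Additive A, v ≠ 0 → orderOf ((Additive.toMul v : A) : G) = p := by
    intro v hv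
    refine orderOf_eq_prime (hAexp _ (Additive.toMul v).2) fun h => hv ?_
    apply Additive.toMul.injective
    rw [← hzero]
    exact Subtype.ext h
  have ha' : a' ≠ 0 := fun h => ha1 (by
    rw [← hzero] at h
    exact congrArg Subtype.val (Additive.ofMul.injective h))
  have hψfpf : ∀ x : G, orderOf x = q → ∀ v, ψ x v = v → v = 0 := by
    intro x hx v hv
    by_contra hv0
    exact hfpf x _ hx (hne0 v hv0) (by rw [← hψ, hv])
  -- a Sylow q-subgroup has order q
  let Q : Sylow q G := default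
  have hQexp : ∀ y ∈ (Q : Subgroup G), y ≠ 1 → orderOf y = q := by
    intro y hy hy1
    obtain ⟨k, hk⟩ := IsPGroup.iff_orderOf.1 Q.isPGroup' ⟨y, hy⟩
    rw [Subgroup.orderOf_mk] at hk
    rcases horder y with h | h | h
    · exact absurd h hy1
    · rw [hk] at h
      exact absurd ((Nat.prime_dvd_prime_iff_eq hp hq).1 (hp.dvd_of_dvd_pow (dvd_of_eq h.symm))) hpq
    · exact h
  have hQne := Q.ne_bot_of_dvd_card hqG
  haveI : Nontrivial (Q : Subgroup G) := (Subgroup.nontrivial_iff_ne_bot _).2 hQne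
  haveI := Q.isPGroup'.center_nontrivial
  obtain ⟨⟨⟨z, hzQ⟩, hzc⟩, hzne⟩ := exists_ne (1 : Subgroup.center (Q : Subgroup G))
  have hz1 : z ≠ 1 := fun h => hzne (Subtype.ext (Subtype.ext h))
  have hzq := hQexp z hzQ hz1
  have hQle : (Q : Subgroup G) ≤ Subgroup.zpowers z := by
    intro y hy
    by_contra hyz
    have hcom : Commute y z := congrArg Subtype.val (Subgroup.mem_center_iff.1 hzc ⟨y, hy⟩)
    have hy1 : y ≠ 1 := fun h => hyz (h ▸ one_mem _)
    refine false_of_rank_two (T := ψ y) (U := ψ z) hq hpq.symm (hcom.map ψ) ?_ ?_ ?_ ?_ ha'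
    · rw [← map_pow, ← hQexp y hy hy1, pow_orderOf_eq_one, map_one]
    · rw [← map_pow, ← hzq, pow_orderOf_eq_one, map_one]
    · intro j
      rw [← map_pow, ← map_mul]
      refine hψfpf _ (hQexp _ (mul_mem hy (pow_mem hzQ j)) fun h => hyz ?_)
      rw [eq_inv_of_mul_eq_one_left h]
      exact inv_mem (Subgroup.npow_mem_zpowers z j)
    · intro k hk0 hk
      rw [← map_pow]
      refine hψfpf _ (hQexp _ (pow_mem hzQ k) fun h => hk0 ?_)
      have := Nat.eq_zero_of_dvd_of_lt (orderOf_dvd_of_pow_eq_one h) (hzq ▸ hk)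
      exact this
  have hQcard : Nat.card (Q : Subgroup G) = q := by
    rw [le_antisymm hQle (Subgroup.zpowers_le.2 hzQ), Nat.card_zpowers, hzq]
  -- the order of the group
  have hGne : Nat.card G ≠ 0 := Nat.card_pos.ne'
  have hfac : (Nat.card G).factorization q = 1 := by
    refine Nat.pow_right_injective hq.two_le ?_
    simp only [← Q.card_eq_multiplicity, hQcard, pow_one]
  have honly : ∀ r : ℕ, r.Prime → r ∣ Nat.card G → r = p ∨ r = q := by
    intro r hr hrd
    haveI := Fact.mk hr
    obtain ⟨c, hc⟩ := exists_prime_orderOf_dvd_card' r hrd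
    rcases horder c with h | h | h
    · rw [h, orderOf_one] at hc; exact absurd hc hr.one_lt.ne
    · exact Or.inl (hc.symm.trans h)
    · exact Or.inr (hc.symm.trans h)
  have hcardG : Nat.card G = p ^ (Nat.card G).factorization p * q := by
    apply Nat.eq_of_factorization_eq hGne (Nat.mul_ne_zero (pow_ne_zero _ hp.ne_zero) hq.ne_zero)
    intro r
    rw [Nat.factorization_mul (pow_ne_zero _ hp.ne_zero) hq.ne_zero, Finsupp.add_apply, hp.factorization_pow,
      hq.factorization]
    by_cases hrp : r = p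
    · subst hrp
      simp [hpq]
    by_cases hrq : r = q
    · subst hrq
      simp [hrp, hfac]
    simp only [Finsupp.single_apply, Ne.symm hrp, Ne.symm hrq, if_false, add_zero]
    by_cases hr : r.Prime
    · refine Nat.factorization_eq_zero_of_not_dvd fun hd => ?_
      rcases honly r hr hd with h | h
      · exact hrp h
      · exact hrq h
    · exact Nat.factorization_eq_zero_of_not_prime _ hr
  refine ⟨_, (hp.dvd_iff_one_le_factorization hGne).1 hpG, hcardG, fun P => ?_, ?_, hfpf⟩
  · rw [hSyl P]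
    exact ⟨inferInstance, ⟨⟨fun u v => Subtype.ext (hAc u u.2 v v.2)⟩⟩, hAexp⟩
  -- the primitive root condition
  have hTq : ψ z ^ q = 1 := by rw [← map_pow, ← hzq, pow_orderOf_eq_one, map_one]
  have hdec : ∀ g : G, ∃ u ∈ A, ∃ i : ℕ, g = u * z ^ i := by
    have htop : A ⊔ Subgroup.zpowers z = ⊤ := by
      apply Subgroup.eq_top_of_card_eq
      refine Nat.dvd_antisymm (Subgroup.card_subgroup_dvd_card _) ?_
      rw [hcardG]
      refine Nat.Coprime.mul_dvd_of_dvd_of_dvd (Nat.Coprime.pow_left _ ((Nat.coprime_primes hp hq).2 hpq)) ?_ ?_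
      · rw [← (default : Sylow p G).card_eq_multiplicity, hSyl default]
        exact Subgroup.card_dvd_of_le le_sup_left
      · rw [← hzq, ← Nat.card_zpowers]
        exact Subgroup.card_dvd_of_le le_sup_right
    intro g
    have hg : g ∈ A ⊔ Subgroup.zpowers z := htop ▸ Subgroup.mem_top g
    rw [← SetLike.mem_coe, Subgroup.normal_mul, Set.mem_mul] at hg
    obtain ⟨u, hu, w, hw, rfl⟩ := hg
    obtain ⟨i, rfl⟩ := (isOfFinOrder_of_finite z).mem_powers_iff_mem_zpowers.2 hw
    exact ⟨u, hu, i, rfl⟩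
  have hmk : ∀ σ : MulAut G, ∃ (f : Module.End (ZMod p) (Additive A)) (i : ℕ), ¬ q ∣ i ∧ f * ψ z = ψ z ^ i * f ∧
      (∀ v, ((Additive.toMul (f v) : A) : G) = σ ((Additive.toMul v : A) : G)) ∧ (∀ v, f v = 0 → v = 0) ∧
      (∀ k : ℕ, σ z = z ^ k → ψ z ^ i = ψ z ^ k) := by
    intro σ
    let fh : Additive A →+ Additive A :=
      AddMonoidHom.mk' (fun v => Additive.ofMul ⟨σ ((Additive.toMul v : A) : G), hAchar σ _ (Additive.toMul v).2⟩)
        (fun v w => by
          obtain ⟨v, rfl⟩ := Additive.ofMul.surjective v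
          obtain ⟨w, rfl⟩ := Additive.ofMul.surjective w
          simp only [← hadd]
          congr 1
          exact Subtype.ext (map_mul σ _ _))
    obtain ⟨u, hu, i, hi⟩ := hdec (σ z)
    have hconj : ∀ v : Additive A, ((Additive.toMul ((ψ z ^ i) v) : A) : G) = σ z * ((Additive.toMul v : A) : G) * (σ z)⁻¹ := by
      intro v
      rw [← map_pow, hψ, hi]
      have h1 := hAc u hu (z ^ i * ((Additive.toMul v : A) : G) * (z ^ i)⁻¹)
        ((inferInstance : A.Normal).conj_mem _ (Additive.toMul v).2 _)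
      symm
      calc u * z ^ i * ((Additive.toMul v : A) : G) * (u * z ^ i)⁻¹
          = u * (z ^ i * ((Additive.toMul v : A) : G) * (z ^ i)⁻¹) * u⁻¹ := by group
        _ = z ^ i * ((Additive.toMul v : A) : G) * (z ^ i)⁻¹ := by rw [h1, mul_inv_cancel_right]
    refine ⟨fh.toZModLinearMap p, i, ?_, ?_, fun v => rfl, ?_, ?_⟩
    · intro hdq
      have hzi : z ^ i = 1 := orderOf_dvd_iff_pow_eq_one.1 (hzq ▸ hdq)
      rw [hzi, mul_one] at hi
      exact hAq _ hu (by rw [← hi, orderOf_aut, hzq])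
    · apply LinearMap.ext
      intro v
      apply Additive.toMul.injective
      apply Subtype.ext
      show σ ((Additive.toMul (ψ z v) : A) : G) = ((Additive.toMul ((ψ z ^ i) (fh v)) : A) : G)
      rw [hψ, hconj, map_mul, map_mul, map_inv]
      rfl
    · intro v hv
      apply Additive.toMul.injective
      rw [← hzero]
      apply Subtype.ext
      have h := congrArg (fun w : Additive A => ((Additive.toMul w : A) : G)) hv
      simp only [← hzero] at h
      exact σ.injective (h.trans (map_one σ).symm)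
    · intro k hk
      apply LinearMap.ext
      intro v
      apply Additive.toMul.injective
      apply Subtype.ext
      rw [hconj, ← map_pow, hψ, hk]
  refine primitive_root_of_transitive hpq hTq (hψfpf z hzq) ha' ?_ ?_
  · intro v w hv hw
    obtain ⟨σ, hσ⟩ := horbp _ _ (hne0 v hv) (hne0 w hw)
    obtain ⟨f, i, hi, hf, hfσ, hinj, -⟩ := hmk σ
    refine ⟨f, i, hi, hf, ?_, hinj⟩
    exact Additive.toMul.injective (Subtype.ext ((hfσ v).trans hσ))
  · intro i hi
    have hzi : orderOf (z ^ i) = q := by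
      rw [orderOf_pow' z (show i ≠ 0 from fun h => hi (h ▸ dvd_zero q)), hzq, (hq.coprime_iff_not_dvd.2 hi).gcd_eq_one, Nat.div_one]
    obtain ⟨σ, hσ⟩ := horbq z (z ^ i) hzq hzi
    obtain ⟨f, j, -, hf, -, hinj, hj⟩ := hmk σ
    exact ⟨f, by rw [hf, hj i hσ], hinj⟩

theorem forward (hnpp : ¬ IsPrimePow (Nat.card G)) (hnt : Nat.card G ≠ 1)
    (h3 : Nat.card (MulAction.orbitRel.Quotient (MulAut G) G) = 3) :
    ∃ (p q n : ℕ) (_ : Fact p.Prime) (_ : Fact q.Prime), p ≠ q ∧ 1 ≤ n ∧ Nat.card G = p ^ n * q ∧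
      (∀ P : Sylow p G, (P : Subgroup G).Normal ∧ Cfsg.IsElementaryAbelian p (P : Subgroup G)) ∧
      orderOf (p : ZMod q) = q - 1 ∧
      ∀ x y : G, orderOf x = q → orderOf y = p → x * y * x⁻¹ ≠ y := by
  classical
  obtain ⟨p, hp, hpG⟩ := Nat.exists_prime_and_dvd hnt
  obtain ⟨q, hq, hqG, hqp⟩ : ∃ q, q.Prime ∧ q ∣ Nat.card G ∧ q ≠ p := by
    by_contra hcon
    push Not at hcon
    refine hnpp ((isPrimePow_nat_iff _).2 ⟨p, (Nat.card G).factorization p, hp,
      (hp.dvd_iff_one_le_factorization Nat.card_pos.ne').1 hpG, ?_⟩)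
    symm
    apply Nat.eq_of_factorization_eq Nat.card_pos.ne' (pow_ne_zero _ hp.ne_zero)
    intro r
    rw [hp.factorization_pow, Finsupp.single_apply]
    by_cases hrp : p = r
    · rw [if_pos hrp, hrp]
    · rw [if_neg hrp]
      by_cases hr : r.Prime
      · exact Nat.factorization_eq_zero_of_not_dvd fun hd => hrp (hcon r hr hd).symm
      · exact Nat.factorization_eq_zero_of_not_prime _ hr
  haveI := Fact.mk hp
  haveI := Fact.mk hq
  obtain ⟨a, ha⟩ := exists_prime_orderOf_dvd_card' p hpG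
  obtain ⟨b, hb⟩ := exists_prime_orderOf_dvd_card' q hqG
  have ha1 : a ≠ 1 := fun h => hp.one_lt.ne (by rw [← ha, h, orderOf_one])
  have hb1 : b ≠ 1 := fun h => hq.one_lt.ne (by rw [← hb, h, orderOf_one])
  have horb := three_orbits h3 ha1 hb1 (by rw [ha, hb]; exact hqp.symm)
  haveI : Nontrivial G := ⟨a, 1, ha1⟩
  have hsolv : Group.IsSolvable G := by
    refine CfsgLib.Chars.Apps.isSolvable_of_primeFactors_subset G hp hq fun r hr hrd => ?_
    haveI := Fact.mk hr
    obtain ⟨c, hc⟩ := exists_prime_orderOf_dvd_card' r hrd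
    rcases horb c with rfl | ⟨σ, rfl⟩ | ⟨σ, rfl⟩
    · rw [orderOf_one] at hc; exact absurd hc hr.one_lt.ne
    · exact Or.inl (hc.symm.trans ((orderOf_aut σ a).trans ha))
    · exact Or.inr (hc.symm.trans ((orderOf_aut σ b).trans hb))
  obtain ⟨k, hk⟩ := (Group.isSolvable_def G).1 hsolv
  have hex : ∃ k, derivedSeries G k = ⊥ := ⟨k, hk⟩
  obtain ⟨j, hj⟩ : ∃ j, Nat.find hex = j + 1 := by
    refine Nat.exists_eq_succ_of_ne_zero fun h0 => ?_
    have := Nat.find_spec hex
    rw [h0, derivedSeries_zero] at this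
    exact top_ne_bot this
  set A := derivedSeries G j with hA
  have hAne : A ≠ ⊥ := Nat.find_min hex (by omega)
  have hAc : ∀ u ∈ A, ∀ v ∈ A, u * v = v * u := by
    intro u hu v hv
    have := Nat.find_spec hex
    rw [hj, derivedSeries_succ, Subgroup.commutator_eq_bot_iff_le_centralizer] at this
    exact (Subgroup.mem_centralizer_iff.1 (this hu) v hv).symm
  have hAchar : ∀ (σ : MulAut G) (u : G), u ∈ A → σ u ∈ A := by
    intro σ u hu
    have h1 := (derivedSeries_characteristic (G := G) j).fixed σ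
    exact h1.ge hu
  obtain ⟨u, hu, hu1⟩ : ∃ u ∈ A, u ≠ 1 := by
    obtain ⟨⟨u, hu⟩, hne⟩ := Subgroup.ne_bot_iff_exists_ne_one.1 hAne
    exact ⟨u, hu, fun h => hne (Subtype.ext h)⟩
  haveI : A.Normal := derivedSeries_normal G j
  rcases horb u with h | ⟨σ, rfl⟩ | ⟨σ, rfl⟩
  · exact absurd h hu1
  · obtain ⟨n, h1, h2, h4, h5, h6⟩ := forward_aux h3 p q hqp.symm hpG hqG A hAchar hAc
      ⟨_, hu, (orderOf_aut σ a).trans ha⟩
    exact ⟨p, q, n, inferInstance, inferInstance, hqp.symm, h1, h2, h4, h5, h6⟩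
  · obtain ⟨n, h1, h2, h4, h5, h6⟩ := forward_aux h3 q p hqp hqG hpG A hAchar hAc
      ⟨_, hu, (orderOf_aut σ b).trans hb⟩
    exact ⟨q, p, n, inferInstance, inferInstance, hqp, h1, h2, h4, h5, h6⟩

theorem backward {p q n : ℕ} [Fact p.Prime] [Fact q.Prime] (hpq : p ≠ q) (hn : 1 ≤ n)
    (hcard : Nat.card G = p ^ n * q)
    (hSyl : ∀ P : Sylow p G, (P : Subgroup G).Normal ∧ Cfsg.IsElementaryAbelian p (P : Subgroup G))
    (hord : orderOf (p : ZMod q) = q - 1)
    (hfpf : ∀ x y : G, orderOf x = q → orderOf y = p → x * y * x⁻¹ ≠ y) :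
    Nat.card (MulAction.orbitRel.Quotient (MulAut G) G) = 3 := by
  classical
  have hp : p.Prime := Fact.out
  have hq : q.Prime := Fact.out
  obtain ⟨P, hPn, hPel, hPcard⟩ : ∃ P : Subgroup G, P.Normal ∧ Cfsg.IsElementaryAbelian p P ∧ Nat.card P = p ^ n := by
    refine ⟨(default : Sylow p G), (hSyl default).1, (hSyl default).2, ?_⟩
    rw [(default : Sylow p G).card_eq_multiplicity, hcard,
      Nat.factorization_mul (pow_ne_zero _ hp.ne_zero) hq.ne_zero, Finsupp.add_apply, hp.factorization_pow,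
      hq.factorization]
    simp [hpq.symm]
  haveI := hPn
  have hPc : ∀ a ∈ P, ∀ b ∈ P, a * b = b * a := fun a ha b hb => by
    haveI := hPel.1
    exact congrArg Subtype.val (mul_comm' (⟨a, ha⟩ : P) ⟨b, hb⟩)
  obtain ⟨x, hx⟩ := exists_prime_orderOf_dvd_card' (G := G) q (hcard ▸ dvd_mul_left q _)
  have hx1 : x ≠ 1 := fun h => hq.one_lt.ne (by rw [← hx, h, orderOf_one])
  haveI : IsMulCommutative P := hPel.1
  obtain ⟨_, ψ, hψ⟩ := exists_rep (p := p) P hPel.2
  have hzero : Additive.ofMul (1 : P) = 0 := rfl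
  have hadd : ∀ u v : P, Additive.ofMul (u * v) = Additive.ofMul u + Additive.ofMul v := fun _ _ => rfl
  haveI : Finite (Additive P) := Finite.of_equiv P Additive.ofMul
  have hordP : ∀ y ∈ P, y ≠ 1 → orderOf y = p := fun y hy h => orderOf_eq_prime (hPel.2 y hy) h
  have hxf : ∀ i, ¬ q ∣ i → orderOf (x ^ i) = q := fun i hi => by
    rw [orderOf_pow' x (show i ≠ 0 from fun h => hi (h ▸ dvd_zero q)), hx, (hq.coprime_iff_not_dvd.2 hi).gcd_eq_one, Nat.div_one]
  have hTq : ψ x ^ q = 1 := by rw [← map_pow, ← hx, pow_orderOf_eq_one, map_one]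
  have hTfpf : ∀ v, ψ x v = v → v = 0 := by
    intro v hv
    by_contra hv0
    refine hfpf x _ hx (hordP _ (Additive.toMul v).2 fun h => hv0 ?_) (by rw [← hψ, hv])
    apply Additive.toMul.injective
    rw [← hzero]; exact Subtype.ext h
  have hcomp : P.IsComplement' (Subgroup.zpowers x) := by
    refine Subgroup.isComplement'_of_coprime (by rw [hPcard, Nat.card_zpowers, hx, hcard]) ?_
    rw [hPcard, Nat.card_zpowers, hx]
    exact Nat.Coprime.pow_left _ ((Nat.coprime_primes hp hq).2 hpq)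
  -- extend an automorphism of P
  have hext : ∀ (f : Additive P →+ Additive P) (i : ℕ), ¬ q ∣ i → (∀ u, f (ψ x u) = (ψ x ^ i) (f u)) →
      Function.Injective f → ∃ σ : MulAut G, σ x = x ^ i ∧
        ∀ a : P, σ (a : G) = ((Additive.toMul (f (Additive.ofMul a)) : P) : G) := by
    intro f i hi hf hinj
    let F : P →* P :=
      { toFun := fun a => Additive.toMul (f (Additive.ofMul a))
        map_one' := by rw [hzero, map_zero, ← hzero]; rfl
        map_mul' := fun a b => by
          apply Additive.ofMul.injective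
          rw [hadd, hadd, ofMul_toMul, ofMul_toMul, ofMul_toMul, map_add] }
    let e := Equiv.ofBijective _ hcomp
    have hFconj : ∀ (u : G), u ∈ Subgroup.zpowers x → ∀ a : P,
        ((F ⟨u * a * u⁻¹, hPn.conj_mem a a.2 u⟩ : P) : G) = u ^ i * (F a : G) * (u ^ i)⁻¹ := by
      intro u hu
      obtain ⟨k, rfl⟩ := (isOfFinOrder_of_finite x).mem_powers_iff_mem_zpowers.2 hu
      intro a
      have key : ∀ k : ℕ, f ((ψ x ^ k) (Additive.ofMul a)) = (ψ x ^ (k * i)) (f (Additive.ofMul a)) := by
        intro k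
        induction k with
        | zero => simp
        | succ k ih =>
          rw [pow_succ', Module.End.mul_apply, hf, ih, ← Module.End.mul_apply, ← pow_add, add_comm, Nat.succ_mul]
      have e1 : Additive.ofMul (⟨x ^ k * a * (x ^ k)⁻¹, hPn.conj_mem a a.2 _⟩ : P) = (ψ x ^ k) (Additive.ofMul a) := by
        apply Additive.toMul.injective
        apply Subtype.ext
        rw [← map_pow, hψ]
        rfl
      show ((Additive.toMul (f (Additive.ofMul _)) : P) : G) = _
      rw [e1, key, ← map_pow, hψ, ← pow_mul]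
      rfl
    let σ0 : G →* G := MonoidHom.mk' (fun g => (F (e.symm g).1 : G) * ((e.symm g).2 : G) ^ i) (fun g h => by
      obtain ⟨⟨a, u⟩, rfl⟩ := e.surjective g
      obtain ⟨⟨b, w⟩, rfl⟩ := e.surjective h
      have hmul : e (a, u) * e (b, w) = e (a * ⟨(u : G) * (b : G) * (u : G)⁻¹, hPn.conj_mem _ b.2 _⟩, u * w) := by
        show (a : G) * u * ((b : G) * w) = (a : G) * ((u : G) * b * (u : G)⁻¹) * ((u : G) * w)
        group
      simp only [hmul, Equiv.symm_apply_apply, map_mul, Subgroup.coe_mul, hFconj _ u.2]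
      have hc : Commute (u : G) (w : G) := by
        obtain ⟨k, hk⟩ := Subgroup.mem_zpowers_iff.1 u.2
        obtain ⟨l, hl⟩ := Subgroup.mem_zpowers_iff.1 w.2
        rw [← hk, ← hl]
        exact Commute.zpow_zpow_self x k l
      rw [Subgroup.coe_mul, hc.mul_pow]
      group)
    have hσinj : Function.Injective σ0 := by
      rw [injective_iff_map_eq_one]
      intro g hg
      obtain ⟨⟨a, u⟩, rfl⟩ := e.surjective g
      simp only [σ0, MonoidHom.mk'_apply, Equiv.symm_apply_apply] at hg
      have hu : (u : G) ^ i = 1 := by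
        refine Subgroup.disjoint_def.1 hcomp.disjoint ?_ (pow_mem u.2 i)
        rw [eq_inv_of_mul_eq_one_right hg]
        exact inv_mem (F a).2
      have hu1 : (u : G) = 1 := by
        rw [← orderOf_eq_one_iff]
        refine Nat.eq_one_of_dvd_coprimes (hq.coprime_iff_not_dvd.2 hi) ?_ (orderOf_dvd_of_pow_eq_one hu)
        rw [← hx]
        exact orderOf_dvd_of_mem_zpowers u.2
      rw [hu, mul_one] at hg
      have hfa : f (Additive.ofMul a) = f 0 := by
        rw [map_zero, ← hzero]
        exact Additive.toMul.injective (Subtype.ext hg)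
      have ha : a = 1 := Additive.ofMul.injective ((hinj hfa).trans hzero.symm)
      show (a : G) * u = 1
      rw [ha, hu1]; simp
    refine ⟨MulEquiv.ofBijective σ0 (Finite.injective_iff_bijective.1 hσinj), ?_, fun a => ?_⟩
    · show σ0 x = x ^ i
      have : e.symm x = (1, ⟨x, Subgroup.mem_zpowers x⟩) := by
        rw [Equiv.symm_apply_eq]; exact (one_mul x).symm
      simp [σ0, this]
    · show σ0 (a : G) = _
      have : e.symm (a : G) = (a, 1) := by
        rw [Equiv.symm_apply_eq]; exact (mul_one (a : G)).symm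
      simp [σ0, this, F]
  -- elements outside P
  have houtside : ∀ g, g ∉ P → ∃ (c : G) (i : ℕ), ¬ q ∣ i ∧ g = c * x ^ i * c⁻¹ := by
    intro g hg
    obtain ⟨⟨⟨a, ha⟩, ⟨u, hu⟩⟩, rfl⟩ := hcomp.2 g
    obtain ⟨i, rfl⟩ := (isOfFinOrder_of_finite x).mem_powers_iff_mem_zpowers.2 hu
    have hi : ¬ q ∣ i := fun hd => hg (by
      show a * x ^ i ∈ P
      rw [orderOf_dvd_iff_pow_eq_one.1 (hx.symm ▸ hd), mul_one]; exact ha)
    let φ : P → P := fun c => ⟨(c : G) * (x ^ i * (c : G)⁻¹ * (x ^ i)⁻¹),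
      mul_mem c.2 (hPn.conj_mem _ (inv_mem c.2) _)⟩
    have hφ : Function.Injective φ := by
      intro c d hcd
      have h : (c : G) * (x ^ i * (c : G)⁻¹ * (x ^ i)⁻¹) = (d : G) * (x ^ i * (d : G)⁻¹ * (x ^ i)⁻¹) :=
        congrArg Subtype.val hcd
      apply Subtype.ext
      by_contra hne
      refine hfpf (x ^ i) ((d : G)⁻¹ * c) (hxf i hi)
        (hordP _ (mul_mem (inv_mem d.2) c.2) fun e => hne (inv_mul_eq_one.1 e).symm) ?_
      have e2 : (d : G)⁻¹ * c * x ^ i = x ^ i * ((d : G)⁻¹ * c) := by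
        calc (d : G)⁻¹ * c * x ^ i = (d : G)⁻¹ * ((c : G) * (x ^ i * (c : G)⁻¹ * (x ^ i)⁻¹)) * x ^ i * c := by group
          _ = (d : G)⁻¹ * ((d : G) * (x ^ i * (d : G)⁻¹ * (x ^ i)⁻¹)) * x ^ i * c := by rw [h]
          _ = x ^ i * ((d : G)⁻¹ * c) := by group
      rw [← e2, mul_inv_cancel_right]
    obtain ⟨c, hc⟩ := (Finite.injective_iff_surjective.1 hφ) ⟨a, ha⟩
    refine ⟨c, i, hi, ?_⟩
    have : (c : G) * (x ^ i * (c : G)⁻¹ * (x ^ i)⁻¹) = a := congrArg Subtype.val hc
    show a * x ^ i = _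
    rw [← this]; group
  obtain ⟨a0, ha0P, ha0⟩ : ∃ a ∈ P, a ≠ 1 := by
    have hne : P ≠ ⊥ := fun h => by
      rw [h, Subgroup.card_bot] at hPcard
      exact (Nat.one_lt_pow (by omega) hp.one_lt).ne hPcard
    obtain ⟨⟨a, ha⟩, hne'⟩ := Subgroup.ne_bot_iff_exists_ne_one.1 hne
    exact ⟨a, ha, fun h => hne' (Subtype.ext h)⟩
  have hxq_notP : x ∉ P := fun h => hfpf x x hx (by
    rw [hordP x h hx1]) (by simp)
  obtain ⟨htr, hpow⟩ := semilinear_of_primitive_root hpq hord hTq hTfpf
  -- the three orbits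
  let reps : Fin 3 → MulAction.orbitRel.Quotient (MulAut G) G := ![Quotient.mk'' 1, Quotient.mk'' a0, Quotient.mk'' x]
  have hord' : ∀ u v : G, (Quotient.mk'' u : MulAction.orbitRel.Quotient (MulAut G) G) = Quotient.mk'' v →
      orderOf u = orderOf v := by
    intro u v h
    rw [Quotient.eq''] at h
    obtain ⟨σ, rfl⟩ := MulAction.orbitRel_apply.1 h
    exact orderOf_aut σ v
  have hsame : ∀ u v : G, (∃ σ : MulAut G, σ v = u) →
      (Quotient.mk'' u : MulAction.orbitRel.Quotient (MulAut G) G) = Quotient.mk'' v := by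
    intro u v h
    rw [Quotient.eq'']
    exact MulAction.orbitRel_apply.2 h
  have hbij : Function.Bijective reps := by
    constructor
    · intro i j hij
      have o0 : orderOf (1 : G) = 1 := orderOf_one
      have o1 := hordP a0 ha0P ha0
      have := hp.two_le
      have := hq.two_le
      fin_cases i <;> fin_cases j <;> first
        | rfl
        | (exfalso
           have h := hord' _ _ hij
           simp only [o0, o1, hx] at h
           omega)
    · intro t
      induction t using Quotient.inductionOn' with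
      | h g =>
        by_cases hg1 : g = 1
        · exact ⟨0, by simp [reps, hg1]⟩
        by_cases hgP : g ∈ P
        · refine ⟨1, ?_⟩
          have hv : Additive.ofMul (⟨g, hgP⟩ : P) ≠ 0 := fun h => hg1 (by
            rw [← hzero] at h; exact congrArg Subtype.val (Additive.ofMul.injective h))
          have hw : Additive.ofMul (⟨a0, ha0P⟩ : P) ≠ 0 := fun h => ha0 (by
            rw [← hzero] at h; exact congrArg Subtype.val (Additive.ofMul.injective h))
          obtain ⟨f, hf, hfv, hinj⟩ := htr _ _ hv hw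
          obtain ⟨σ, -, hσ⟩ := hext f 1 (hq.not_dvd_one) (by simpa using hf) hinj
          have hσg : σ g = a0 := by
            rw [hσ ⟨g, hgP⟩, hfv]; rfl
          exact hsame a0 g ⟨σ, hσg⟩
        · refine ⟨2, ?_⟩
          obtain ⟨c, i, hi, rfl⟩ := houtside g hgP
          obtain ⟨f, hf, hinj⟩ := hpow i hi
          obtain ⟨σ, hσ, -⟩ := hext f i hi hf hinj
          exact (hsame _ x ⟨MulAut.conj c * σ, by simp [MulAut.mul_apply, hσ]⟩).symm
  rw [← Nat.card_eq_of_bijective reps hbij, Nat.card_eq_fintype_card, Fintype.card_fin]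

end Group

/-- Let G be a finite group whose order is not a prime power. Then the automorphism group of G has exactly three orbits on G if and only if there are distinct primes p, q with #G = pⁿ·q (n ≥ 1) such that G has a normal elementary abelian Sylow p-subgroup P, p is a primitive root modulo q (the multiplicative order of p mod q is q − 1), and every element of order q of G acts on P without non-identity fixed points. -/
theorem result {G : Type*} [Group G] [Finite G] (hnpp : ¬ IsPrimePow (Nat.card G)) (hnt : Nat.card G ≠ 1) :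
    Nat.card (MulAction.orbitRel.Quotient (MulAut G) G) = 3 ↔
    ∃ (p q n : ℕ) (_ : Fact p.Prime) (_ : Fact q.Prime), p ≠ q ∧ 1 ≤ n ∧ Nat.card G = p ^ n * q ∧
      (∀ P : Sylow p G, (P : Subgroup G).Normal ∧ Cfsg.IsElementaryAbelian p (P : Subgroup G)) ∧
      orderOf (p : ZMod q) = q - 1 ∧
      ∀ x y : G, orderOf x = q → orderOf y = p → x * y * x⁻¹ ≠ y :=
  ⟨forward hnpp hnt, fun ⟨_, _, _, hp, hq, h1, h2, h3, h4, h5, h6⟩ =>
    haveI := hp
    haveI := hq
    backward h1 h2 h3 h4 h5 h6⟩

end Cfsg.Agent.S4081
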