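import Cfsg.Statements.S4083
import Cfsg.Agent.PByCyclic.Split

set_option autoImplicit false
open Cfsg

namespace Cfsg.Agent.S4083
open CfsgLib.PByCyclicSplit Subgroup

section
variable {G : Type*} [Group G] [Finite G]

omit [Finite G] in
/-- The rotations and reflections of a dihedral subgroup. -/
private theorem dih_data {P : Subgroup G} {m : ℕ} [NeZero m] (e : ↥P ≃* DihedralGroup m) :
    ∃ r0 ∈ P, ∀ x ∈ P, x ∉ zpowers r0 → x * x = 1 ∧ x * r0 * x⁻¹ = r0⁻¹ ∧
      ∀ y ∈ P, y ∉ zpowers r0 → x * y ∈ zpowers r0 := by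
  set d := e.symm (DihedralGroup.r 1)
  have hrot : ∀ (x : ↥P) j, e x = DihedralGroup.r j → (x : G) ∈ zpowers (d : G) := by
    intro x j hj
    have hx : x = d ^ j.val := e.injective (by
      rw [map_pow, hj, MulEquiv.apply_symm_apply, DihedralGroup.r_one_pow, ZMod.natCast_zmod_val])
    exact mem_zpowers_iff.2 ⟨j.val, by rw [zpow_natCast, hx, Subgroup.coe_pow]⟩
  have href : ∀ (x : G) (hx : x ∈ P), x ∉ zpowers (d : G) → ∃ i, e ⟨x, hx⟩ = DihedralGroup.sr i := by
    intro x hx hxn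
    rcases h : e ⟨x, hx⟩ with j | j
    · exact absurd (hrot _ j h) hxn
    · exact ⟨j, rfl⟩
  refine ⟨(d : G), d.2, fun x hx hxn => ?_⟩
  obtain ⟨i, hi⟩ := href x hx hxn
  refine ⟨?_, ?_, fun y hy hyn => ?_⟩
  · exact congrArg Subtype.val (e.injective (show e (⟨x, hx⟩ * ⟨x, hx⟩) = e 1 by
      rw [map_mul, hi, DihedralGroup.sr_mul_self, map_one]))
  · exact congrArg Subtype.val (e.injective (show e (⟨x, hx⟩ * d * ⟨x, hx⟩⁻¹) = e d⁻¹ by
      rw [map_mul, map_mul, map_inv, map_inv, hi, MulEquiv.apply_symm_apply, DihedralGroup.inv_sr,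
        DihedralGroup.inv_r, DihedralGroup.sr_mul_r, DihedralGroup.sr_mul_sr, sub_add_cancel_left]))
  · obtain ⟨k, hk⟩ := href y hy hyn
    exact hrot (⟨x, hx⟩ * ⟨y, hy⟩) (k - i) (by rw [map_mul, hi, hk, DihedralGroup.sr_mul_sr])

/-- An element of odd order normalising a noncyclic subgroup of a dihedral 2-group. -/
private theorem noncyclic_case {P S : Subgroup G} {k : ℕ} (hS2 : IsPGroup 2 S) (hSP : S ≤ P)
    (hSc : ¬ IsCyclic S) (e : ↥P ≃* DihedralGroup (2 ^ k))
    (hK : ∀ K : Subgroup G, K ≤ P → Nat.card K = 4 → (∀ x ∈ K, x ^ 2 = 1) → centralizer (K : Set G) = K)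
    {u : G} (hu : u ∈ normalizer (S : Set G)) (hodd : Odd (orderOf u)) :
    (∃ n : ℕ, Nonempty (↥(S ⊔ zpowers u) ≃* DihedralGroup (2 ^ n))) ∨
      Nonempty (↥(S ⊔ zpowers u) ≃* alternatingGroup (Fin 4)) := by
  obtain ⟨r0, hr0, hdata⟩ := dih_data e
  set R := S ⊓ zpowers r0
  have hRc : IsCyclic R := Subgroup.isCyclic_of_le inf_le_right
  obtain ⟨⟨r, hr⟩, hgen⟩ := IsCyclic.exists_generator (α := ↥R)
  have hRr : R = zpowers r := le_antisymm (fun t ht => by
    obtain ⟨i, hi⟩ := mem_zpowers_iff.1 (hgen ⟨t, ht⟩)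
    exact mem_zpowers_iff.2 ⟨i, congrArg Subtype.val hi⟩) (zpowers_le.2 hr)
  obtain ⟨s, hsS, hsR⟩ : ∃ s ∈ S, s ∉ zpowers r0 := by
    by_contra h
    push Not at h
    exact hSc (Subgroup.isCyclic_of_le h)
  obtain ⟨hs2, hsr0, hsmul⟩ := hdata s (hSP hsS) hsR
  have hsinv : s⁻¹ = s := inv_eq_of_mul_eq_one_right hs2
  have hso : orderOf s = 2 := orderOf_eq_prime (by rw [sq, hs2]) (fun h => hsR (h ▸ one_mem _))
  have hsr : ∀ t ∈ R, s * t * s⁻¹ = t⁻¹ := by
    rintro t ⟨-, ht⟩
    obtain ⟨i, rfl⟩ := mem_zpowers_iff.1 ht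
    rw [← conj_zpow, hsr0, inv_zpow]
  have hsr' : s * r * s⁻¹ = r⁻¹ := hsr r hr
  have hSgen : ∀ x ∈ S, x ∈ R ∨ ∃ t ∈ R, x = s * t := by
    intro x hx
    by_cases h : x ∈ zpowers r0
    · exact Or.inl ⟨hx, h⟩
    · exact Or.inr ⟨s * x, ⟨mul_mem hsS hx, hsmul x (hSP hx) h⟩, by rw [← mul_assoc, hs2, one_mul]⟩
  have hrne : s ≠ r := fun h => hsR (h ▸ (hr : r ∈ R).2)
  have hSeq : S = zpowers r ⊔ zpowers s := by
    refine le_antisymm (fun x hx => ?_) (sup_le (zpowers_le.2 hr.1) (zpowers_le.2 hsS))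
    rcases hSgen x hx with h | ⟨t, ht, rfl⟩
    · exact mem_sup_left (hRr ▸ h)
    · exact mul_mem (mem_sup_right (mem_zpowers s)) (mem_sup_left (hRr ▸ ht))
  obtain ⟨eS⟩ := dihedral_sup hso hrne hsr'
  obtain ⟨a, ha⟩ : ∃ a, orderOf r = 2 ^ a := by
    obtain ⟨b, hb⟩ := hS2 ⟨r, hr.1⟩
    have hb' : r ^ 2 ^ b = 1 := congrArg Subtype.val hb
    obtain ⟨a, -, ha⟩ := (Nat.dvd_prime_pow Nat.prime_two).1 (orderOf_dvd_of_pow_eq_one hb')
    exact ⟨a, ha⟩
  have hcardS : Nat.card S = 2 * orderOf r := by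
    rw [hSeq, Nat.card_congr eS.toEquiv, DihedralGroup.nat_card]
  obtain ⟨z, hzS, hz2, hz1, hzs, hzr⟩ : ∃ z ∈ S, z * z = 1 ∧ z ≠ 1 ∧ z * s = s * z ∧ z ∈ R := by
    rcases a with - | a
    · exfalso
      apply hSc
      have := hcardS
      rw [ha, pow_zero, mul_one] at this
      exact isCyclic_of_prime_card (p := 2) this
    refine ⟨r ^ (2 ^ a), pow_mem hr.1 _, ?_, fun h => ?_, ?_, pow_mem hr _⟩
    · rw [← pow_add, ← two_mul, mul_comm, ← pow_succ, ← ha, pow_orderOf_eq_one]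
    · have := orderOf_dvd_of_pow_eq_one h
      rw [ha, Nat.pow_dvd_pow_iff_le_right (by norm_num)] at this
      omega
    · have h1 := hsr (r ^ (2 ^ a)) (pow_mem hr _)
      have hinv : (r ^ (2 ^ a))⁻¹ = r ^ (2 ^ a) := inv_eq_of_mul_eq_one_right (by
        rw [← pow_add, ← two_mul, mul_comm, ← pow_succ, ← ha, pow_orderOf_eq_one])
      rw [hinv, mul_inv_eq_iff_eq_mul] at h1
      exact h1.symm
  -- the four-group through `s` and `z`
  have hzne : z ≠ s := fun h => hsR (h ▸ hzr.2)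
  obtain ⟨eK⟩ := dihedral_sup hso hzne.symm (by
    rw [← hzs, mul_inv_cancel_right, inv_eq_of_mul_eq_one_right hz2])
  have hzo : orderOf z = 2 := orderOf_eq_prime (by rw [sq, hz2]) hz1
  set K := zpowers z ⊔ zpowers s with hKdef
  have hKS : K ≤ S := sup_le (zpowers_le.2 hzS) (zpowers_le.2 hsS)
  have hK4 : Nat.card K = 4 := by rw [Nat.card_congr eK.toEquiv, DihedralGroup.nat_card, hzo]
  have hKsq : ∀ x ∈ K, x ^ 2 = 1 := by
    intro x hx
    have hD : ∀ y : DihedralGroup 2, y ^ 2 = 1 := by decide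
    have h2 : ∀ y : DihedralGroup (orderOf z), y ^ 2 = 1 := by rw [hzo]; exact hD
    have := h2 (eK ⟨x, hx⟩)
    rw [← map_pow, ← eK.map_one, eK.injective.eq_iff] at this
    exact congrArg Subtype.val this
  have hCK := hK K (hKS.trans hSP) hK4 hKsq
  have hu1 : u ∈ S → u = 1 := by
    intro h
    obtain ⟨b, hb⟩ := hS2 ⟨u, h⟩
    have hb' : u ^ 2 ^ b = 1 := congrArg Subtype.val hb
    obtain ⟨j, -, hj⟩ := (Nat.dvd_prime_pow Nat.prime_two).1 (orderOf_dvd_of_pow_eq_one hb')
    rcases Nat.eq_zero_or_pos j with rfl | hj0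
    · rwa [pow_zero, orderOf_eq_one_iff] at hj
    · exfalso
      rw [hj] at hodd
      exact (Nat.not_odd_iff_even.2 (even_iff_two_dvd.2 (dvd_pow_self 2 hj0.ne'))) hodd
  have htriv : u = 1 → ∃ n : ℕ, Nonempty (↥(S ⊔ zpowers u) ≃* DihedralGroup (2 ^ n)) := by
    rintro rfl
    rw [Subgroup.zpowers_one_eq_bot, sup_bot_eq]
    rw [ha] at eS
    exact ⟨a, ⟨(MulEquiv.subgroupCongr hSeq).trans eS⟩⟩
  by_cases ha1 : a ≤ 1
  · -- the four-group
    have hSK : K = S := Subgroup.eq_of_le_of_card_ge hKS (by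
      rw [hK4, hcardS, ha]
      calc 2 * 2 ^ a ≤ 2 * 2 ^ 1 := Nat.mul_le_mul_left 2 (Nat.pow_le_pow_right (by norm_num) ha1)
        _ = 4 := by norm_num)
    rw [hSK] at hK4 hCK
    let ρ : ↥(zpowers u) →* Equiv.Perm {x : G // x ∈ S ∧ x ≠ 1} :=
      { toFun := fun g => (MulAut.conj (g : G)).toEquiv.subtypeEquiv fun x => by
          have hg : (g : G) ∈ normalizer (S : Set G) := zpowers_le.2 hu g.2
          refine and_congr ?_ ?_
          · exact mem_normalizer_iff.1 hg x
          · simp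
        map_one' := by ext; simp
        map_mul' := fun g h => by ext; simp [mul_assoc] }
    have hcard3 : Nat.card {x : G // x ∈ S ∧ x ≠ 1} = 3 := by
      have h1 : Nat.card {x : G // x ∈ S ∧ x ≠ 1} = ((S : Set G) \ {1}).ncard := Nat.card_coe_set_eq _
      rw [h1, Set.ncard_sdiff (by simp), Set.ncard_singleton, ← Nat.card_coe_set_eq]
      simp [hK4]
    set g : ↥(zpowers u) := ⟨u, mem_zpowers u⟩
    have h6 : (ρ g) ^ 6 = 1 := by
      have := pow_card_eq_one' (x := ρ g)
      rwa [Nat.card_perm, hcard3] at this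
    rw [← map_pow] at h6
    have hu6 : u ^ 6 ∈ S := hCK.le (mem_centralizer_iff.2 fun x hx => by
      by_cases hx1 : x = 1
      · simp [hx1]
      have := congrArg (fun f : Equiv.Perm {x : G // x ∈ S ∧ x ≠ 1} => ((f ⟨x, hx, hx1⟩ : {x : G // x ∈ S ∧ x ≠ 1}) : G)) h6
      change u ^ 6 * x * (u ^ 6)⁻¹ = x at this
      exact (mul_inv_eq_iff_eq_mul.1 this).symm)
    have h24 : (u ^ 6) ^ 4 = 1 := by
      have := pow_card_eq_one' (x := (⟨u ^ 6, hu6⟩ : ↥S))
      rw [hK4] at this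
      exact congrArg Subtype.val this
    have hd : orderOf u ∣ 3 := by
      rw [← pow_mul] at h24
      exact (Nat.Coprime.dvd_of_dvd_mul_left
        ((Nat.coprime_two_right.2 hodd).pow_right 3) (by simpa using orderOf_dvd_of_pow_eq_one h24 : orderOf u ∣ 2 ^ 3 * 3))
    rcases (Nat.dvd_prime Nat.prime_three).1 hd with h | h
    · exact Or.inl (htriv (orderOf_eq_one_iff.1 h))
    · exact Or.inr (alt_four_sup hK4 hu h hCK.le)
  left
  refine htriv (hu1 (hKS (hCK.le (mem_centralizer_iff.2 ?_))))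
  -- `u` centralises `R`, then `s`
  have hord : ∀ x ∈ S, orderOf x = orderOf r → x ∈ R := by
    intro x hx hox
    rcases hSgen x hx with h | ⟨t, ht, rfl⟩
    · exact h
    exfalso
    have h1 : s * t * (s * t) = 1 := by
      have := hsr t ht
      rw [hsinv] at this
      rw [← mul_assoc, this, inv_mul_cancel]
    have h2 : orderOf (s * t) ∣ 2 := orderOf_dvd_of_pow_eq_one (by rw [sq, h1])
    rw [hox, ha] at h2
    have := Nat.le_of_dvd (by norm_num) h2
    have h3 : 2 ^ 2 ≤ 2 ^ a := Nat.pow_le_pow_right (by norm_num) (by omega)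
    omega
  have hconj : ∀ v ∈ normalizer (S : Set G), v * r * v⁻¹ ∈ R := fun v hv =>
    hord _ ((mem_normalizer_iff.1 hv r).1 hr.1) (orderOf_injective (MulAut.conj v).toMonoidHom (MulAut.conj v).injective r)
  have huR : u ∈ normalizer (R : Set G) := by
    refine mem_normalizer_iff.2 fun y => ⟨fun hy => ?_, fun hy => ?_⟩
    · rw [hRr] at hy
      obtain ⟨i, rfl⟩ := mem_zpowers_iff.1 hy
      rw [← conj_zpow]
      exact zpow_mem (hconj u hu) i
    · rw [hRr] at hy
      obtain ⟨i, hi⟩ := mem_zpowers_iff.1 hy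
      have : y = (u⁻¹ * r * u⁻¹⁻¹) ^ i := by rw [conj_zpow, hi]; group
      rw [this]
      exact zpow_mem (hconj u⁻¹ (inv_mem hu)) i
  have hcR := centralizes_cyclic_two (hS2.to_le inf_le_left) huR hodd
  have hcs : u * s = s * u := by
    rcases hSgen _ ((mem_normalizer_iff.1 hu s).1 hsS) with h | ⟨t, ht, hst⟩
    · exfalso
      have h' := (mem_normalizer_iff.1 huR s).2 h
      exact hsR h'.2
    have hpow : ∀ i : ℕ, u ^ i * s * (u ^ i)⁻¹ = s * t ^ i := by
      intro i
      induction i with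
      | zero => simp
      | succ i ih =>
        have hc : Commute u (t ^ i) := (Commute.pow_right (hcR t ht) i)
        rw [pow_succ', mul_inv_rev,
          show u * u ^ i * s * ((u ^ i)⁻¹ * u⁻¹) = u * (u ^ i * s * (u ^ i)⁻¹) * u⁻¹ by group, ih,
          show u * (s * t ^ i) * u⁻¹ = (u * s * u⁻¹) * (u * t ^ i * u⁻¹) by group, hst, hc.eq,
          mul_inv_cancel_right, pow_succ', mul_assoc]
    have h1 : t ^ orderOf u = 1 := by
      have := hpow (orderOf u)
      rw [pow_orderOf_eq_one, one_mul, inv_one, mul_one] at this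
      exact mul_left_cancel (this.symm.trans (mul_one s).symm)
    have h2 : t ^ (2 ^ a) = 1 := by
      rw [hRr] at ht
      obtain ⟨i, rfl⟩ := mem_zpowers_iff.1 ht
      rw [← zpow_natCast, ← zpow_mul, mul_comm, zpow_mul, zpow_natCast, ← ha, pow_orderOf_eq_one, one_zpow]
    have h3 : orderOf t = 1 := Nat.eq_one_of_dvd_coprimes ((Nat.coprime_two_right.2 hodd).pow_right a)
      (orderOf_dvd_of_pow_eq_one h1) (orderOf_dvd_of_pow_eq_one h2)
    rw [orderOf_eq_one_iff.1 h3, mul_one] at hst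
    exact mul_inv_eq_iff_eq_mul.1 hst
  intro x hx
  rw [hKdef] at hx
  have : K ≤ centralizer ({u} : Set G) := by
    refine sup_le (zpowers_le.2 ?_) (zpowers_le.2 ?_)
    · exact mem_centralizer_singleton_iff.2 (hcR z hzr).symm
    · exact mem_centralizer_singleton_iff.2 hcs.symm
  exact mem_centralizer_singleton_iff.1 (this hx)

end


/-- Let G be a finite group with Sylow 2-subgroup P. Every subgroup H of G whose Sylow 2-subgroup is normal in H with cyclic quotient is cyclic, dihedral of 2-power order, or isomorphic to the alternating group of degree 4, if and only if either P is cyclic, or P is dihedral (of order at least 4) and every elementary abelian subgroup K of order 4 of P satisfies C_G(K) = K. -/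
theorem result {G : Type*} [Group G] [Finite G] (P : Sylow 2 G) :
    (∀ H : Subgroup G, (∀ S : Sylow 2 ↥H, (S : Subgroup ↥H).Normal) →
        (∀ (S : Sylow 2 ↥H) [(S : Subgroup ↥H).Normal], IsCyclic (↥H ⧸ (S : Subgroup ↥H))) →
        IsCyclic H ∨ (∃ n : ℕ, Nonempty (H ≃* DihedralGroup (2 ^ n))) ∨ Nonempty (H ≃* alternatingGroup (Fin 4))) ↔
    (IsCyclic P ∨
      ((∃ n : ℕ, 1 ≤ n ∧ Nonempty ((P : Subgroup G) ≃* DihedralGroup (2 ^ n))) ∧
        ∀ K : Subgroup G, K ≤ P → Nat.card K = 4 → (∀ k ∈ K, k ^ 2 = 1) → Subgroup.centralizer (K : Set G) = K)) := by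
  constructor
  · intro h
    let C : Subgroup G → Prop := fun H => IsCyclic H ∨ (∃ n : ℕ, Nonempty (H ≃* DihedralGroup (2 ^ n))) ∨
      Nonempty (H ≃* alternatingGroup (Fin 4))
    have h1 := apply_test (C := C) h P.2 (one_mem (normalizer ((P : Subgroup G) : Set G)))
    rw [Subgroup.zpowers_one_eq_bot, sup_bot_eq] at h1
    rcases h1 with hc | ⟨n, ⟨e⟩⟩ | ⟨⟨e⟩⟩
    · exact Or.inl hc
    swap
    · exfalso
      obtain ⟨a, ha⟩ := IsPGroup.iff_card.1 P.2
      have h12 : Nat.card (alternatingGroup (Fin 4)) = 12 := by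
        rw [Nat.card_eq_fintype_card]
        decide +kernel
      rw [Nat.card_congr e.toEquiv, h12] at ha
      have h3 : 3 ∣ 2 ^ a := ⟨4, by rw [← ha]⟩
      exact absurd ((Nat.prime_dvd_prime_iff_eq Nat.prime_three Nat.prime_two).1 (Nat.prime_three.dvd_of_dvd_pow h3))
        (by norm_num)
    rcases Nat.eq_zero_or_pos n with rfl | hn
    · exact Or.inl (isCyclic_of_prime_card (p := 2) (by rw [Nat.card_congr e.toEquiv, DihedralGroup.nat_card, pow_zero, mul_one]))
    refine Or.inr ⟨⟨n, hn, ⟨e⟩⟩, fun K hKP hK4 hKsq => le_antisymm (fun c hc => ?_) fun x hx => ?_⟩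
    swap
    · refine mem_centralizer_iff.2 fun y hy => ?_
      have h2 : ∀ z ∈ K, z⁻¹ = z := fun z hz => inv_eq_of_mul_eq_one_right (by rw [← sq]; exact hKsq z hz)
      calc y * x = (y * x)⁻¹ := (h2 _ (mul_mem hy hx)).symm
        _ = x⁻¹ * y⁻¹ := mul_inv_rev y x
        _ = x * y := by rw [h2 x hx, h2 y hy]
    have hcN : c ∈ normalizer (K : Set G) := Subgroup.centralizer_le_normalizer _ hc
    have habel : ∀ a b : ↥(K ⊔ zpowers c), a * b = b * a := by
      have hle : K ⊔ zpowers c ≤ centralizer ((K ⊔ zpowers c : Subgroup G) : Set G) := by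
        have hKc : K ⊔ zpowers c ≤ centralizer (K : Set G) := by
          refine sup_le (fun x hx => mem_centralizer_iff.2 fun y hy => ?_) (zpowers_le.2 hc)
          have h2 : ∀ z ∈ K, z⁻¹ = z := fun z hz => inv_eq_of_mul_eq_one_right (by rw [← sq]; exact hKsq z hz)
          calc y * x = (y * x)⁻¹ := (h2 _ (mul_mem hy hx)).symm
            _ = x⁻¹ * y⁻¹ := mul_inv_rev y x
            _ = x * y := by rw [h2 x hx, h2 y hy]
        refine sup_le (fun x hx => mem_centralizer_iff.2 fun y hy => ?_) (zpowers_le.2 ?_)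
        · exact (mem_centralizer_iff.1 (hKc hy) x hx).symm
        · refine mem_centralizer_iff.2 fun y hy => ?_
          have : K ⊔ zpowers c ≤ centralizer ({c} : Set G) :=
            sup_le (fun x hx => mem_centralizer_singleton_iff.2 (mem_centralizer_iff.1 hc x hx))
              (zpowers_le.2 (mem_centralizer_singleton_iff.2 rfl))
          exact mem_centralizer_singleton_iff.1 (this hy)
      exact fun a b => Subtype.ext (mem_centralizer_iff.1 (hle b.2) a a.2)
    rcases apply_test (C := C) h (P.2.to_le hKP) hcN with hcy | ⟨m, ⟨f⟩⟩ | ⟨⟨f⟩⟩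
    · exfalso
      have hKc : IsCyclic K := Subgroup.isCyclic_of_le (le_sup_left : K ≤ K ⊔ zpowers c)
      have h4 := IsCyclic.exponent_eq_card (α := ↥K)
      have h2 : Monoid.exponent ↥K ∣ 2 := Monoid.exponent_dvd_of_forall_pow_eq_one fun x => Subtype.ext (hKsq x x.2)
      rw [h4, hK4] at h2
      norm_num at h2
    · have hcomm : ∀ a b : DihedralGroup (2 ^ m), a * b = b * a := fun a b => by
        have := congrArg f (habel (f.symm a) (f.symm b))
        simpa using this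
      have h1 := hcomm (DihedralGroup.sr 0) (DihedralGroup.r 1)
      rw [DihedralGroup.sr_mul_r, DihedralGroup.r_mul_sr] at h1
      injection h1 with h1
      have hd : 2 ^ m ∣ 2 := by
        rw [← ZMod.natCast_eq_zero_iff]
        linear_combination h1
      have hcard := Nat.card_congr f.toEquiv
      rw [DihedralGroup.nat_card] at hcard
      have hle : K ⊔ zpowers c = K := (Subgroup.eq_of_le_of_card_ge le_sup_left (by
        rw [hcard, hK4]
        calc 2 * 2 ^ m ≤ 2 * 2 := Nat.mul_le_mul_left 2 (Nat.le_of_dvd (by norm_num) hd)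
          _ = 4 := rfl)).symm
      exact hle ▸ mem_sup_right (mem_zpowers c)
    · exfalso
      have : ∃ a b : alternatingGroup (Fin 4), a * b ≠ b * a := by decide +kernel
      obtain ⟨a, b, hab⟩ := this
      apply hab
      have := congrArg f (habel (f.symm a) (f.symm b))
      simpa using this
  · intro hP H hn hc
    have core : ∀ (S : Subgroup G) (u : G), S ≤ (P : Subgroup G) → u ∈ normalizer (S : Set G) →
        Odd (orderOf u) →
        IsCyclic ↥(S ⊔ zpowers u) ∨ (∃ n : ℕ, Nonempty (↥(S ⊔ zpowers u) ≃* DihedralGroup (2 ^ n))) ∨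
          Nonempty (↥(S ⊔ zpowers u) ≃* alternatingGroup (Fin 4)) := by
      intro S u hSP hu hodd
      have hS2 : IsPGroup 2 S := P.2.to_le hSP
      by_cases hSc : IsCyclic S
      · left
        obtain ⟨a, ha⟩ := IsPGroup.iff_card.1 hS2
        exact isCyclic_sup (by rw [ha]; exact (Nat.coprime_two_left.2 hodd).pow_left a)
          (centralizes_cyclic_two hS2 hu hodd)
      rcases hP with hPc | ⟨⟨k, -, ⟨e⟩⟩, hK⟩
      · exact absurd (Subgroup.isCyclic_of_le hSP) hSc
      exact Or.inr (noncyclic_case hS2 hSP hSc e hK hu hodd)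
    obtain ⟨S, u, hS, hu, hco, rfl⟩ := split hn hc
    obtain ⟨P', hP'⟩ := hS.exists_le_sylow
    obtain ⟨g, hg⟩ := MulAction.exists_smul_eq G P' P
    obtain ⟨hu', ho, ⟨e⟩⟩ := conj_data hu g
    have hle : S.map (MulAut.conj g).toMonoidHom ≤ (P : Subgroup G) := by
      rw [← hg, Sylow.coe_subgroup_smul]
      exact Subgroup.map_mono hP'
    rcases core _ _ hle hu' (by rw [ho]; exact Nat.coprime_two_right.1 hco) with h | ⟨n, ⟨f⟩⟩ | ⟨⟨f⟩⟩
    · exact Or.inl (e.isCyclic.2 h)
    · exact Or.inr (Or.inl ⟨n, ⟨e.trans f⟩⟩)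
    · exact Or.inr (Or.inr ⟨e.trans f⟩)

end Cfsg.Agent.S4083
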