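import Cfsg.Statements.S4084
import Mathlib
import Mathlib.GroupTheory.Subgroup.Centralizer
import Mathlib.GroupTheory.Perm.Cycle.Type
import Mathlib.Order.Preorder.Finite

set_option autoImplicit false
open Cfsg

namespace Cfsg.Agent.S4084

/-- A maximal commutative subgroup is sent by a commutation preserving bijection into a
commutative subgroup of the same order. -/
theorem forward {G H : Type*} [Group G] [Finite G] [Group H] [Finite H] (e : G ≃ H)
    (he : ∀ x y : G, Commute x y ↔ Commute (e x) (e y))
    {p q : ℕ} (hp : p.Prime) (hq : q.Prime) (hpq : p ≠ q)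
    (h : ∃ g : G, orderOf g = p * q) : ∃ h : H, orderOf h = p * q := by
  classical
  haveI : Finite (Subgroup G) := Finite.of_injective (fun K : Subgroup G => (K : Set G)) SetLike.coe_injective
  obtain ⟨g, hg⟩ := h
  have hgc : IsMulCommutative (Subgroup.zpowers g) := inferInstance
  obtain ⟨K, hgK, hK⟩ := Finite.exists_le_maximal (p := fun K : Subgroup G => ∀ a ∈ K, ∀ b ∈ K, Commute a b)
    (a := Subgroup.zpowers g) (by
      rintro a ⟨i, rfl⟩ b ⟨j, rfl⟩
      exact Commute.zpow_zpow_self g i j)
  let L : Subgroup H := Subgroup.closure (e '' K)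
  have hL : ∀ a ∈ L, ∀ b ∈ L, Commute a b := by
    haveI := Subgroup.isMulCommutative_closure (k := e '' (K : Set G)) (by
      rintro _ ⟨a, ha, rfl⟩ _ ⟨b, hb, rfl⟩
      exact (he a b).1 (hK.1 a ha b hb))
    intro a ha b hb
    exact congrArg Subtype.val (mul_comm' (⟨a, ha⟩ : L) ⟨b, hb⟩)
  let K' : Subgroup G := Subgroup.closure (e.symm '' L)
  have hK' : ∀ a ∈ K', ∀ b ∈ K', Commute a b := by
    haveI := Subgroup.isMulCommutative_closure (k := e.symm '' (L : Set H)) (by
      rintro _ ⟨a, ha, rfl⟩ _ ⟨b, hb, rfl⟩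
      have := (he (e.symm a) (e.symm b)).2 (by simpa using hL a ha b hb)
      exact this)
    intro a ha b hb
    exact congrArg Subtype.val (mul_comm' (⟨a, ha⟩ : K') ⟨b, hb⟩)
  have hKK' : K ≤ K' := by
    intro a ha
    exact Subgroup.subset_closure ⟨e a, Subgroup.subset_closure ⟨a, ha, rfl⟩, e.symm_apply_apply a⟩
  have hKeq : K' ≤ K := hK.2 hK' hKK'
  have hcard : Nat.card K = Nat.card L := by
    refine Nat.card_congr (e.subtypeEquiv fun a => ⟨fun ha => Subgroup.subset_closure ⟨a, ha, rfl⟩, fun ha => ?_⟩)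
    exact hKeq (Subgroup.subset_closure ⟨e a, ha, e.symm_apply_apply a⟩)
  have hdvd : p * q ∣ Nat.card L := by
    rw [← hcard, ← hg, ← Nat.card_zpowers]
    exact Subgroup.card_dvd_of_le hgK
  haveI := Fact.mk hp
  haveI := Fact.mk hq
  obtain ⟨a, ha⟩ := exists_prime_orderOf_dvd_card' p (dvd_trans (dvd_mul_right p q) hdvd)
  obtain ⟨b, hb⟩ := exists_prime_orderOf_dvd_card' q (dvd_trans (dvd_mul_left q p) hdvd)
  refine ⟨(a : H) * b, ?_⟩
  have hc : Commute (a : H) b := hL a a.2 b b.2
  rw [hc.orderOf_mul_eq_mul_orderOf_of_coprime, Subgroup.orderOf_coe, Subgroup.orderOf_coe, ha, hb]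
  rw [Subgroup.orderOf_coe, Subgroup.orderOf_coe, ha, hb]
  exact (Nat.coprime_primes hp hq).2 hpq

/-- Let G and H be finite groups whose commuting graphs are isomorphic: there is a bijection e : G → H with x, y commuting exactly when e(x), e(y) commute. Then G and H have the same prime graph: for distinct primes p, q, G has an element of order pq if and only if H does (and #G = #H, so the prime divisors agree). -/
theorem result {G H : Type*} [Group G] [Finite G] [Group H] [Finite H] (e : G ≃ H)
    (he : ∀ x y : G, Commute x y ↔ Commute (e x) (e y))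
    {p q : ℕ} (hp : p.Prime) (hq : q.Prime) (hpq : p ≠ q) :
    (∃ g : G, orderOf g = p * q) ↔ (∃ h : H, orderOf h = p * q) := by
  refine ⟨forward e he hp hq hpq, forward e.symm ?_ hp hq hpq⟩
  intro x y
  simpa using (he (e.symm x) (e.symm y)).symm

end Cfsg.Agent.S4084
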