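import Mathlib
import Cfsg.Statements.S4085

set_option autoImplicit false
open Cfsg

namespace Cfsg.Agent.S4085

/-- Adjacency (reflexive) in the power graph. -/
def Adj {G : Type*} [Group G] (x y : G) : Prop := x ∈ Subgroup.zpowers y ∨ y ∈ Subgroup.zpowers x

theorem exists_incomparable {n d : ℕ} (hn0 : n ≠ 0) (hn : ¬ ∃ r i : ℕ, r.Prime ∧ n = r ^ i) (hd : d ∣ n) (h1 : d ≠ 1)
    (hdn : d ≠ n) : ∃ c, c ∣ n ∧ ¬ c ∣ d ∧ ¬ d ∣ c := by
  by_contra hcon
  push Not at hcon
  obtain ⟨r, hr, hrd⟩ : ∃ r : ℕ, r.Prime ∧ ¬ r ^ n.factorization r ∣ d := by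
    by_contra h
    push Not at h
    refine hdn (Nat.dvd_antisymm hd ?_)
    rw [Nat.dvd_iff_prime_pow_dvd_dvd]
    intro r i hr hi
    exact (pow_dvd_pow r ((hr.pow_dvd_iff_le_factorization hn0).1 hi)).trans (h r hr)
  have h2 := hcon _ (Nat.ordProj_dvd n r) hrd
  obtain ⟨i, -, rfl⟩ := (Nat.dvd_prime_pow hr).1 h2
  obtain ⟨t, ht, htn, htr⟩ : ∃ t : ℕ, t.Prime ∧ t ∣ n ∧ t ≠ r := by
    by_contra h
    push Not at h
    exact hn ⟨r, n.primeFactorsList.length, hr, Nat.eq_prime_pow_of_unique_prime_dvd hn0 fun {q} hq hqn => h q hq hqn⟩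
  have hi : i ≠ 0 := fun h => h1 (by rw [h, pow_zero])
  have h3 := hcon t htn (fun h => htr ((Nat.prime_dvd_prime_iff_eq ht hr).1 (ht.dvd_of_dvd_pow h)))
  exact htr ((Nat.prime_dvd_prime_iff_eq hr ht).1 ((dvd_pow_self r hi).trans h3)).symm

theorem eq_of_twins {n d d' : ℕ} (hn : ¬ ∃ r i : ℕ, r.Prime ∧ n = r ^ i) (hn0 : n ≠ 0) (hd' : d' ∣ n)
    (h1 : d ≠ 1) (hdd : d ∣ d')
    (h : ∀ c, c ∣ n → ((c ∣ d ∨ d ∣ c) ↔ (c ∣ d' ∨ d' ∣ c))) : d = d' := by
  by_contra hne
  have hd'0 : d' ≠ 0 := ne_zero_of_dvd_ne_zero hn0 hd'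
  obtain ⟨r, hr, hrd⟩ : ∃ r : ℕ, r.Prime ∧ ¬ r ^ d'.factorization r ∣ d := by
    by_contra hh
    push Not at hh
    refine hne (Nat.dvd_antisymm hdd ?_)
    rw [Nat.dvd_iff_prime_pow_dvd_dvd]
    intro r i hr hi
    exact (pow_dvd_pow r ((hr.pow_dvd_iff_le_factorization hd'0).1 hi)).trans (hh r hr)
  have h2 := ((h _ ((Nat.ordProj_dvd d' r).trans hd')).2 (Or.inl (Nat.ordProj_dvd d' r))).resolve_left hrd
  obtain ⟨i, -, rfl⟩ := (Nat.dvd_prime_pow hr).1 h2
  have hi : i ≠ 0 := fun hh => h1 (by rw [hh, pow_zero])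
  obtain ⟨t, ht, htn, htr⟩ : ∃ t : ℕ, t.Prime ∧ t ∣ n ∧ t ≠ r := by
    by_contra hh
    push Not at hh
    exact hn ⟨r, n.primeFactorsList.length, hr, Nat.eq_prime_pow_of_unique_prime_dvd hn0 fun {q} hq hqn => hh q hq hqn⟩
  by_cases htd : t ∣ d'
  · rcases (h t htn).2 (Or.inl htd) with h3 | h3
    · exact htr ((Nat.prime_dvd_prime_iff_eq ht hr).1 (ht.dvd_of_dvd_pow h3))
    · exact htr ((Nat.prime_dvd_prime_iff_eq hr ht).1 ((dvd_pow_self r hi).trans h3)).symm
  · have hcop : (r ^ i).Coprime t := ((Nat.coprime_primes hr ht).2 (Ne.symm htr)).pow_left i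
    have hc : r ^ i * t ∣ n := hcop.mul_dvd_of_dvd_of_dvd (hdd.trans hd') htn
    rcases (h _ hc).1 (Or.inr (dvd_mul_right _ _)) with h3 | h3
    · exact htd ((dvd_mul_left t _).trans h3)
    · exact hne (Nat.dvd_antisymm hdd
        (((Nat.Prime.coprime_iff_not_dvd ht).2 htd).symm.dvd_of_dvd_mul_right h3))

theorem orderOf_dvd_of_mem {G : Type*} [Group G] {x y : G} (h : x ∈ Subgroup.zpowers y) :
    orderOf x ∣ orderOf y := by
  have h1 := Subgroup.orderOf_dvd_natCard _ h
  rwa [Nat.card_zpowers] at h1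

theorem adj_iff_dvd {G : Type*} [Group G] [Finite G] {a x y : G} (hx : x ∈ Subgroup.zpowers a)
    (hy : y ∈ Subgroup.zpowers a) : x ∈ Subgroup.zpowers y ↔ orderOf x ∣ orderOf y := by
  classical
  refine ⟨orderOf_dvd_of_mem, fun h => ?_⟩
  haveI : Fintype (Subgroup.zpowers a) := Fintype.ofFinite _
  haveI : Fintype (Subgroup.zpowers y) := Fintype.ofFinite _
  set T := Finset.univ.filter (fun u : Subgroup.zpowers a => u ^ orderOf y = 1)
  have hT : T.card ≤ orderOf y := IsCyclic.card_pow_eq_one_le (orderOf_pos y)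
  let f : Subgroup.zpowers y → Subgroup.zpowers a := fun u => ⟨u.1, (Subgroup.zpowers_le.2 hy) u.2⟩
  have hf : Finset.univ.image f = T := by
    refine Finset.eq_of_subset_of_card_le ?_ ?_
    · rintro u hu
      obtain ⟨v, -, rfl⟩ := Finset.mem_image.1 hu
      exact Finset.mem_filter.2 ⟨Finset.mem_univ _, Subtype.ext
        (orderOf_dvd_iff_pow_eq_one.1 (orderOf_dvd_of_mem v.2))⟩
    · have hinj : Function.Injective f := fun u v h => Subtype.ext
        (congrArg (fun w : Subgroup.zpowers a => (w : G)) h)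
      rw [Finset.card_image_of_injective _ hinj, Finset.card_univ, ← Nat.card_eq_fintype_card,
        Nat.card_zpowers]
      exact hT
  have hxT : (⟨x, hx⟩ : Subgroup.zpowers a) ∈ T :=
    Finset.mem_filter.2 ⟨Finset.mem_univ _, Subtype.ext (orderOf_dvd_iff_pow_eq_one.1 h)⟩
  rw [← hf] at hxT
  obtain ⟨v, -, hv⟩ := Finset.mem_image.1 hxT
  have hvx : (v : G) = x := congrArg Subtype.val hv
  exact hvx ▸ v.2

theorem card_orderOf_eq {G : Type*} [Group G] [Finite G] (a : G) {d : ℕ} (hd : d ∣ orderOf a) :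
    Nat.card {x : G // x ∈ Subgroup.zpowers a ∧ orderOf x = d} = Nat.totient d := by
  classical
  haveI : Fintype (Subgroup.zpowers a) := Fintype.ofFinite _
  rw [show Nat.card {x : G // x ∈ Subgroup.zpowers a ∧ orderOf x = d} =
      Nat.card {x : Subgroup.zpowers a // orderOf x = d} from Nat.card_congr
    { toFun := fun x => ⟨⟨x.1, x.2.1⟩, (Subgroup.orderOf_mk x.1 x.2.1).trans x.2.2⟩
      invFun := fun x => ⟨x.1.1, x.1.2, (Subgroup.orderOf_coe x.1).trans x.2⟩
      left_inv := fun x => rfl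
      right_inv := fun x => rfl }]
  rw [Nat.card_eq_fintype_card, Fintype.card_subtype]
  exact IsCyclic.card_orderOf_eq_totient (α := Subgroup.zpowers a) (by rwa [← Nat.card_eq_fintype_card, Nat.card_zpowers])

/-- One direction. -/
theorem exists_of_iso {G H : Type*} [Group G] [Finite G] [Group H] [Finite H] (e : G ≃ H)
    (he : ∀ x y : G, Adj x y ↔ Adj (e x) (e y)) {p q : ℕ} (hp : p.Prime) (hq : q.Prime) (hpq : p ≠ q)
    (hg : ∃ g : G, orderOf g = p * q) : ∃ h : H, orderOf h = p * q := by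
  classical
  obtain ⟨g, hg⟩ := hg
  obtain ⟨M, ⟨⟨x, rfl⟩, hgM⟩, hMmax⟩ := (wellFounded_gt (α := Subgroup G)).has_min
    {M | (∃ x, M = Subgroup.zpowers x) ∧ g ∈ M} ⟨_, ⟨g, rfl⟩, Subgroup.mem_zpowers g⟩
  set m := orderOf x with hm
  have hm0 : m ≠ 0 := (orderOf_pos x).ne'
  have hpqm : p * q ∣ m := hg ▸ orderOf_dvd_of_mem hgM
  have hmnp : ¬ ∃ r i : ℕ, r.Prime ∧ m = r ^ i := by
    rintro ⟨r, i, hr, hmr⟩
    have h1 := (Nat.prime_dvd_prime_iff_eq hp hr).1 (hp.dvd_of_dvd_pow (hmr ▸ (dvd_mul_right p q).trans hpqm))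
    have h2 := (Nat.prime_dvd_prime_iff_eq hq hr).1 (hq.dvd_of_dvd_pow (hmr ▸ (dvd_mul_left q p).trans hpqm))
    exact hpq (h1.trans h2.symm)
  have hgen : ∀ y, x ∈ Subgroup.zpowers y → Subgroup.zpowers y = Subgroup.zpowers x := fun y hy => by
    have hle : Subgroup.zpowers x ≤ Subgroup.zpowers y := Subgroup.zpowers_le.2 hy
    by_contra hne
    exact hMmax _ ⟨⟨y, rfl⟩, hle hgM⟩ (lt_of_le_of_ne hle (Ne.symm hne))
  -- neighbourhood of a generator
  have hNgen : ∀ y, y ∈ Subgroup.zpowers x → orderOf y = m → ∀ z, Adj y z ↔ z ∈ Subgroup.zpowers x := by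
    intro y hy hym z
    have hxy : x ∈ Subgroup.zpowers y := (adj_iff_dvd (Subgroup.mem_zpowers x) hy).2 (by rw [hym])
    constructor
    · rintro (h | h)
      · have := hgen z ((Subgroup.zpowers_le.2 h) hxy)
        exact this ▸ Subgroup.mem_zpowers z
      · exact (hgen y hxy) ▸ h
    · intro h
      exact Or.inr ((hgen y hxy).symm ▸ h)
  let S : H → Prop := fun z => e.symm z ∈ Subgroup.zpowers x
  let D : H → Prop := fun z => S z ∧ ∀ w, S w → Adj z w
  have hadj : ∀ u v, Adj u v ↔ Adj (e.symm u) (e.symm v) := fun u v => by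
    rw [he, e.apply_symm_apply, e.apply_symm_apply]
  have hDiff : ∀ z, D z ↔ S z ∧ (orderOf (e.symm z) = 1 ∨ orderOf (e.symm z) = m) := by
    intro z
    constructor
    · rintro ⟨hz, hall⟩
      refine ⟨hz, ?_⟩
      by_contra hcon
      push Not at hcon
      have hdm : orderOf (e.symm z) ∣ m := orderOf_dvd_of_mem hz
      obtain ⟨c, hc, hc1, hc2⟩ := exists_incomparable hm0 hmnp hdm hcon.1 hcon.2
      have hw : x ^ (m / c) ∈ Subgroup.zpowers x := pow_mem (Subgroup.mem_zpowers x) _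
      have hwo : orderOf (x ^ (m / c)) = c := by
        rw [orderOf_pow_of_dvd (Nat.div_pos (Nat.le_of_dvd (Nat.pos_of_ne_zero hm0) hc)
          (Nat.pos_of_ne_zero (ne_zero_of_dvd_ne_zero hm0 hc))).ne' (Nat.div_dvd_of_dvd hc),
          Nat.div_div_self hc hm0]
      have h := hall (e (x ^ (m / c))) (show e.symm _ ∈ _ by rwa [e.symm_apply_apply])
      rw [hadj, e.symm_apply_apply, Adj, adj_iff_dvd hz hw, adj_iff_dvd hw hz, hwo] at h
      tauto
    · rintro ⟨hz, h | h⟩
      · refine ⟨hz, fun w _ => (hadj _ _).2 (Or.inl ?_)⟩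
        rw [orderOf_eq_one_iff.1 h]; exact one_mem _
      · exact ⟨hz, fun w hw => (hadj _ _).2 ((hNgen _ hz h _).2 hw)⟩
  -- all elements of `D` other than `1` see exactly `S`
  have hS1 : S 1 := by
    have h := (hNgen x (Subgroup.mem_zpowers x) hm.symm (e.symm 1)).1
    exact h (by rw [← e.symm_apply_apply x, ← hadj]; exact Or.inr (one_mem _))
  have hD1 : D 1 := ⟨hS1, fun w _ => Or.inl (one_mem _)⟩
  have hsee : ∀ z, D z → z ≠ 1 → ∀ w, Adj z w → S w := by
    intro z hz hz1 w hw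
    rcases ((hDiff z).1 hz).2 with h | h
    · rcases ((hDiff 1).1 hD1).2 with h' | h'
      · exact absurd (e.symm.injective ((orderOf_eq_one_iff.1 h).trans (orderOf_eq_one_iff.1 h').symm)) hz1
      · exact (hNgen _ hS1 h' _).1 ((hadj 1 w).1 (Or.inl (one_mem _)))
    · exact (hNgen _ hz.1 h _).1 ((hadj z w).1 hw)
  -- the dominating element of largest order
  haveI : Nonempty {z : H // D z} := ⟨⟨1, hD1⟩⟩
  obtain ⟨⟨y, hyD⟩, hymax⟩ := Finite.exists_max (fun z : {z : H // D z} => orderOf z.1)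
  have hcardD : Nat.card {z : H // D z} = Nat.totient m + 1 := by
    rw [show Nat.card {z : H // D z} = Nat.card ({u : G // u ∈ Subgroup.zpowers x ∧ orderOf u = m} ⊕
        {u : G // u ∈ Subgroup.zpowers x ∧ orderOf u = 1}) from Nat.card_congr (by
      refine (Equiv.subtypeEquiv e.symm (q := fun u : G => u ∈ Subgroup.zpowers x ∧ (orderOf u = m ∨ orderOf u = 1))
        (fun z => ?_)).trans ((Equiv.subtypeEquivRight fun u => and_or_left).trans
          (subtypeOrEquiv _ _ ?_))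
      · rw [hDiff]; exact and_congr_right fun _ => or_comm
      · rw [disjoint_iff_inf_le]
        rintro u ⟨⟨-, h1⟩, -, h2⟩
        exact hmnp ⟨p, 0, hp, by rw [← h1, h2, pow_zero]⟩), Nat.card_sum, card_orderOf_eq x dvd_rfl,
      card_orderOf_eq x (one_dvd _), Nat.totient_one]
  have hDle : ∀ z, D z → z ∈ Subgroup.zpowers y := fun z hz => by
    rcases hz.2 y hyD.1 with h | h
    · exact h
    · have hle : Subgroup.zpowers y ≤ Subgroup.zpowers z := Subgroup.zpowers_le.2 h
      have : Subgroup.zpowers y = Subgroup.zpowers z := Subgroup.eq_of_le_of_card_ge hle (by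
        rw [Nat.card_zpowers, Nat.card_zpowers]; exact hymax ⟨z, hz⟩)
      exact this ▸ Subgroup.mem_zpowers z
  set K := orderOf y with hK
  have hDK : Nat.totient m + 1 ≤ K := by
    rw [← hcardD, hK, ← Nat.card_zpowers y]
    exact Nat.card_le_card_of_injective (fun z : {z : H // D z} => (⟨z.1, hDle z.1 z.2⟩ : Subgroup.zpowers y))
      fun a b h => Subtype.ext (congrArg (fun w : Subgroup.zpowers y => (w : H)) h)
  have hy1 : y ≠ 1 := by
    intro h
    rw [hK, h, orderOf_one] at hDK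
    have := Nat.totient_pos.2 (Nat.pos_of_ne_zero hm0)
    omega
  have hyS : ∀ w, w ∈ Subgroup.zpowers y → S w := fun w hw => hsee y hyD hy1 w (Or.inr hw)
  by_cases hall : ∀ w, S w → w ∈ Subgroup.zpowers y
  · refine ⟨y ^ (m / (p * q)), ?_⟩
    have hKm : K = m := by
      rw [hK, hm, ← Nat.card_zpowers y, ← Nat.card_zpowers x]
      exact Nat.card_congr (Equiv.subtypeEquiv e.symm fun z => ⟨hyS z, hall z⟩)
    have hpq0 : p * q ≠ 0 := Nat.mul_ne_zero hp.ne_zero hq.ne_zero
    rw [orderOf_pow_of_dvd (Nat.div_pos (Nat.le_of_dvd (Nat.pos_of_ne_zero hm0) hpqm)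
      (Nat.pos_of_ne_zero hpq0)).ne' (by rw [← hK, hKm]; exact Nat.div_dvd_of_dvd hpqm),
      ← hK, hKm, Nat.div_div_self hpqm hm0]
  exfalso
  push Not at hall
  -- twin classes
  have hclass : ∀ w, S w → ¬ D w → Nat.totient (orderOf w) ≤ Nat.totient (orderOf (e.symm w)) ∧
      (∀ u ∈ Subgroup.zpowers w, orderOf u = orderOf w →
        S u ∧ orderOf (e.symm u) = orderOf (e.symm w)) := by
    intro w hw hwD
    have hgens : ∀ u ∈ Subgroup.zpowers w, orderOf u = orderOf w →
        S u ∧ orderOf (e.symm u) = orderOf (e.symm w) := by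
      intro u hu huo
      have huw : Subgroup.zpowers u = Subgroup.zpowers w := Subgroup.eq_of_le_of_card_ge
        (Subgroup.zpowers_le.2 hu) (by rw [Nat.card_zpowers, Nat.card_zpowers, huo])
      have hiff : ∀ v, Adj u v ↔ Adj w v := fun v => by
        show (_ ∨ _) ↔ (_ ∨ _)
        rw [huw, ← Subgroup.zpowers_le, huw, Subgroup.zpowers_le]
      have huS : S u := hsee y hyD hy1 u (by
        have h := (hiff y).2 (by
          have h := hyD.2 w hw
          exact h.symm)
        exact h.symm)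
      refine ⟨huS, ?_⟩
      have hdu : orderOf (e.symm u) ∣ m := orderOf_dvd_of_mem huS
      have hdw : orderOf (e.symm w) ∣ m := orderOf_dvd_of_mem hw
      have hne : ∀ v, S v → orderOf (e.symm v) = 1 → D v := fun v hv h => (hDiff v).2 ⟨hv, Or.inl h⟩
      have hcmp : ∀ c, c ∣ m → ((c ∣ orderOf (e.symm u) ∨ orderOf (e.symm u) ∣ c) ↔
          (c ∣ orderOf (e.symm w) ∨ orderOf (e.symm w) ∣ c)) := by
        intro c hc
        have hv : x ^ (m / c) ∈ Subgroup.zpowers x := pow_mem (Subgroup.mem_zpowers x) _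
        have hvo : orderOf (x ^ (m / c)) = c := by
          rw [orderOf_pow_of_dvd (Nat.div_pos (Nat.le_of_dvd (Nat.pos_of_ne_zero hm0) hc)
            (Nat.pos_of_ne_zero (ne_zero_of_dvd_ne_zero hm0 hc))).ne' (Nat.div_dvd_of_dvd hc),
            Nat.div_div_self hc hm0]
        have h := hiff (e (x ^ (m / c)))
        rw [hadj, hadj w, e.symm_apply_apply, Adj, Adj, adj_iff_dvd huS hv, adj_iff_dvd hv huS,
          adj_iff_dvd hw hv, adj_iff_dvd hv hw, hvo] at h
        tauto
      rcases (hcmp _ hdw).2 (Or.inl dvd_rfl) with h | h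
      · exact (eq_of_twins hmnp hm0 hdu (fun h1 => hwD (hne w hw h1)) h fun c hc => (hcmp c hc).symm).symm
      · refine eq_of_twins hmnp hm0 hdw (fun h1 => hwD ?_) h hcmp
        have hD' := hne u huS h1
        exact ⟨hw, fun v hv => (hiff v).1 (hD'.2 v hv)⟩
    refine ⟨?_, hgens⟩
    rw [← card_orderOf_eq w dvd_rfl,
      ← card_orderOf_eq x (orderOf_dvd_of_mem hw)]
    exact Nat.card_le_card_of_injective
      (fun u : {u : H // u ∈ Subgroup.zpowers w ∧ orderOf u = orderOf w} =>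
        (⟨e.symm u.1, (hgens u.1 u.2.1 u.2.2).1, (hgens u.1 u.2.1 u.2.2).2⟩ :
          {v : G // v ∈ Subgroup.zpowers x ∧ orderOf v = orderOf (e.symm w)}))
      fun a b h => Subtype.ext (e.symm.injective
        (congrArg (fun v : {v : G // v ∈ Subgroup.zpowers x ∧ orderOf v = orderOf (e.symm w)} => (v : G)) h))
  have habove : ∀ w, S w → ¬ w ∈ Subgroup.zpowers y → y ∈ Subgroup.zpowers w ∧ ¬ D w := fun w hw hwy =>
    ⟨(hyD.2 w hw).resolve_right hwy, fun hD => hwy (hDle w hD)⟩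
  by_cases hKp : ∃ r i : ℕ, r.Prime ∧ K = r ^ i
  · obtain ⟨r, i, hr, hKr⟩ := hKp
    -- prime power
    have hbelow : ∀ w, S w → w ∈ Subgroup.zpowers y → D w := by
      intro w hw hwy
      refine ⟨hw, fun v hv => ?_⟩
      by_cases hvy : v ∈ Subgroup.zpowers y
      · have hdw : orderOf w ∣ K := orderOf_dvd_of_mem hwy
        have hdv : orderOf v ∣ K := orderOf_dvd_of_mem hvy
        obtain ⟨a, -, ha⟩ := (Nat.dvd_prime_pow hr).1 (hKr ▸ hdw)
        obtain ⟨b, -, hb⟩ := (Nat.dvd_prime_pow hr).1 (hKr ▸ hdv)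
        rcases le_total a b with hab | hab
        · exact Or.inl ((adj_iff_dvd hwy hvy).2 (ha ▸ hb ▸ pow_dvd_pow r hab))
        · exact Or.inr ((adj_iff_dvd hvy hwy).2 (ha ▸ hb ▸ pow_dvd_pow r hab))
      · exact Or.inl ((Subgroup.zpowers_le.2 (habove v hv hvy).1) hwy)
    obtain ⟨s, hs, hsm, hsmin⟩ : ∃ s : ℕ, s.Prime ∧ s ∣ m ∧ ∀ t : ℕ, t.Prime → t ∣ m → s ≤ t :=
      ⟨m.minFac, Nat.minFac_prime fun h => hmnp ⟨p, 0, hp, by rw [h, pow_zero]⟩, Nat.minFac_dvd m,
        fun t ht htm => Nat.minFac_le_of_dvd ht.two_le htm⟩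
    obtain ⟨l, hl, hlm, hls⟩ : ∃ l : ℕ, l.Prime ∧ l ∣ m ∧ s < l := by
      rcases eq_or_ne p s with rfl | hps
      · exact ⟨q, hq, (dvd_mul_left q p).trans hpqm,
          lt_of_le_of_ne (hsmin q hq ((dvd_mul_left q p).trans hpqm)) hpq⟩
      · exact ⟨p, hp, (dvd_mul_right p q).trans hpqm,
          lt_of_le_of_ne (hsmin p hp ((dvd_mul_right p q).trans hpqm)) (Ne.symm hps)⟩
    set z := e (x ^ (m / s)) with hz
    have hzS : S z := by
      show e.symm z ∈ _
      rw [hz, e.symm_apply_apply]; exact pow_mem (Subgroup.mem_zpowers x) _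
    have hzo : orderOf (e.symm z) = s := by
      rw [hz, e.symm_apply_apply, orderOf_pow_of_dvd (Nat.div_pos (Nat.le_of_dvd (Nat.pos_of_ne_zero hm0) hsm)
        hs.pos).ne' (Nat.div_dvd_of_dvd hsm), Nat.div_div_self hsm hm0]
    have hzD : ¬ D z := fun h => by
      rcases ((hDiff z).1 h).2 with h | h
      · exact hs.ne_one (hzo.symm.trans h)
      · exact hmnp ⟨s, 1, hs, by rw [pow_one, ← h, hzo]⟩
    have hzy : z ∉ Subgroup.zpowers y := fun h => hzD (hbelow z hzS h)
    have h1 : Nat.totient K ≤ Nat.totient (orderOf z) :=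
      Nat.le_of_dvd (Nat.totient_pos.2 (orderOf_pos z)) (Nat.totient_dvd_of_dvd
        (orderOf_dvd_of_mem (habove z hzS hzy).1))
    have h2 := (hclass z hzS hzD).1
    rw [hzo, Nat.totient_prime hs] at h2
    have h3 : (s - 1) * (l - 1) ≤ Nat.totient m := by
      rw [← Nat.totient_prime hs, ← Nat.totient_prime hl, ← Nat.totient_mul ((Nat.coprime_primes hs hl).2 hls.ne)]
      exact Nat.le_of_dvd (Nat.totient_pos.2 (Nat.pos_of_ne_zero hm0)) (Nat.totient_dvd_of_dvd
        (((Nat.coprime_primes hs hl).2 hls.ne).mul_dvd_of_dvd_of_dvd hsm hlm))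
    have h4 : (s - 1) * 2 ≤ (s - 1) * (l - 1) := Nat.mul_le_mul_left _ (by have := hs.two_le; omega)
    have h5 : K ≤ 2 * Nat.totient K := by
      rcases Nat.eq_zero_or_pos i with rfl | hi
      · rw [hKr, pow_zero, Nat.totient_one]; omega
      · rw [hKr, Nat.totient_prime_pow hr hi]
        obtain ⟨i', rfl⟩ : ∃ i', i = i' + 1 := ⟨i - 1, by omega⟩
        rw [Nat.add_sub_cancel, pow_succ]
        have := hr.two_le
        calc r ^ i' * r ≤ r ^ i' * (2 * (r - 1)) := Nat.mul_le_mul_left _ (by omega)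
          _ = _ := by ring
    omega
  · -- not a prime power
    have hDy : ∀ w, D w → w = 1 ∨ orderOf w = K := by
      intro w hw
      by_contra hcon
      push Not at hcon
      have hwy := hDle w hw
      obtain ⟨c, hc, hc1, hc2⟩ := exists_incomparable (orderOf_pos y).ne' hKp (orderOf_dvd_of_mem hwy)
        (fun h => hcon.1 (orderOf_eq_one_iff.1 h)) hcon.2
      have hv : y ^ (K / c) ∈ Subgroup.zpowers y := pow_mem (Subgroup.mem_zpowers y) _
      have hK0 : K ≠ 0 := (orderOf_pos y).ne'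
      have hvo : orderOf (y ^ (K / c)) = c := by
        rw [orderOf_pow_of_dvd (Nat.div_pos (Nat.le_of_dvd (Nat.pos_of_ne_zero hK0) hc)
          (Nat.pos_of_ne_zero (ne_zero_of_dvd_ne_zero hK0 hc))).ne' (Nat.div_dvd_of_dvd hc),
          Nat.div_div_self hc hK0]
      rcases hw.2 _ (hyS _ hv) with h | h
      · rw [adj_iff_dvd hwy hv, hvo] at h; exact hc2 h
      · rw [adj_iff_dvd hv hwy, hvo] at h; exact hc1 h
    have hφK : Nat.totient m ≤ Nat.totient K := by
      have h : Nat.totient m + 1 ≤ Nat.totient K + 1 := by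
        calc Nat.totient m + 1 = Nat.card {z : H // D z} := hcardD.symm
          _ ≤ Nat.card ({u : H // u ∈ Subgroup.zpowers y ∧ orderOf u = K} ⊕
              {u : H // u ∈ Subgroup.zpowers y ∧ orderOf u = 1}) := by
            refine Nat.card_le_card_of_injective (fun z : {z : H // D z} =>
              if h : z.1 = 1 then Sum.inr ⟨z.1, hDle _ z.2, by rw [h, orderOf_one]⟩
              else Sum.inl ⟨z.1, hDle _ z.2, (hDy _ z.2).resolve_left h⟩) ?_
            rintro ⟨a, ha⟩ ⟨b, hb⟩ h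
            simp only at h
            by_cases ha1 : a = 1 <;> by_cases hb1 : b = 1 <;> simp [ha1, hb1] at h ⊢
            exact h
          _ = Nat.totient K + 1 := by
            rw [Nat.card_sum, card_orderOf_eq y dvd_rfl, card_orderOf_eq y (one_dvd _), Nat.totient_one]
      omega
    have hkey : ∀ w, S w → w ∉ Subgroup.zpowers y →
        orderOf (e.symm w) * 2 = m ∧ Nat.totient m ≤ Nat.totient (orderOf w) := by
      intro w hw hwy
      obtain ⟨hyw, hwD⟩ := habove w hw hwy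
      have h1 : Nat.totient m ≤ Nat.totient (orderOf w) := hφK.trans
        (Nat.le_of_dvd (Nat.totient_pos.2 (orderOf_pos w)) (Nat.totient_dvd_of_dvd
          (orderOf_dvd_of_mem hyw)))
      refine ⟨?_, h1⟩
      obtain ⟨c, hc⟩ : orderOf (e.symm w) ∣ m := orderOf_dvd_of_mem hw
      have h2 := h1.trans (hclass w hw hwD).1
      have h3 := Nat.totient_super_multiplicative (orderOf (e.symm w)) c
      rw [← hc] at h3
      have h4 : Nat.totient c ≤ 1 := by
        by_contra h
        have h5 : Nat.totient (orderOf (e.symm w)) * 2 ≤ Nat.totient (orderOf (e.symm w)) * Nat.totient c :=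
          Nat.mul_le_mul_left _ (by omega)
        have := Nat.totient_pos.2 (orderOf_pos (e.symm w))
        omega
      have hc0 : 0 < c := Nat.pos_of_ne_zero fun h => hm0 (by rw [hc, h, mul_zero])
      rcases Nat.totient_eq_one_iff.1 (le_antisymm h4 (Nat.totient_pos.2 hc0)) with rfl | rfl
      · exact absurd ((hDiff w).2 ⟨hw, Or.inr (by rw [hc, mul_one])⟩) hwD
      · exact hc.symm
    obtain ⟨w, hw, hwy⟩ := hall
    obtain ⟨hyw, hwD⟩ := habove w hw hwy
    obtain ⟨hw2, hwφ⟩ := hkey w hw hwy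
    refine hwD ⟨hw, fun v hv => ?_⟩
    by_cases hvy : v ∈ Subgroup.zpowers y
    · exact Or.inr ((Subgroup.zpowers_le.2 hyw) hvy)
    · obtain ⟨hv2, -⟩ := hkey v hv hvy
      -- the generators of `⟨w⟩` fill the whole class
      let f : {u : H // u ∈ Subgroup.zpowers w ∧ orderOf u = orderOf w} →
          {u : G // u ∈ Subgroup.zpowers x ∧ orderOf u = orderOf (e.symm w)} :=
        fun u => ⟨e.symm u.1, ((hclass w hw hwD).2 u.1 u.2.1 u.2.2).1, ((hclass w hw hwD).2 u.1 u.2.1 u.2.2).2⟩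
      have hfinj : Function.Injective f := fun a b h => Subtype.ext (e.symm.injective
        (congrArg (fun v : {v : G // v ∈ Subgroup.zpowers x ∧ orderOf v = orderOf (e.symm w)} => (v : G)) h))
      have hle : Nat.totient (orderOf (e.symm w)) ≤ Nat.totient m := Nat.le_of_dvd
        (Nat.totient_pos.2 (Nat.pos_of_ne_zero hm0)) (Nat.totient_dvd_of_dvd ⟨2, hw2.symm⟩)
      have hbij : Function.Bijective f := (Function.Injective.bijective_of_nat_card_le hfinj (by
        rw [card_orderOf_eq w dvd_rfl, card_orderOf_eq x ⟨2, hw2.symm⟩]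
        exact hle.trans hwφ))
      obtain ⟨⟨u, hu, huo⟩, hfu⟩ := hbij.2 ⟨e.symm v, hv, by omega⟩
      have : u = v := e.symm.injective (congrArg
        (fun t : {t : G // t ∈ Subgroup.zpowers x ∧ orderOf t = orderOf (e.symm w)} => (t : G)) hfu)
      exact Or.inr (this ▸ hu)

/-- Let G and H be finite groups whose power graphs are isomorphic: there is a bijection e : G → H such that, for all x, y, one of x, y is a power of the other exactly when one of e(x), e(y) is a power of the other. Then G and H have the same prime graph: for distinct primes p, q, G has an element of order pq if and only if H does. -/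
theorem result {G H : Type*} [Group G] [Finite G] [Group H] [Finite H] (e : G ≃ H)
    (he : ∀ x y : G, (x ∈ Subgroup.zpowers y ∨ y ∈ Subgroup.zpowers x) ↔
      (e x ∈ Subgroup.zpowers (e y) ∨ e y ∈ Subgroup.zpowers (e x)))
    {p q : ℕ} (hp : p.Prime) (hq : q.Prime) (hpq : p ≠ q) :
    (∃ g : G, orderOf g = p * q) ↔ (∃ h : H, orderOf h = p * q) := by
  refine ⟨exists_of_iso e (fun x y => he x y) hp hq hpq, exists_of_iso e.symm (fun x y => ?_) hp hq hpq⟩
  show Adj x y ↔ Adj (e.symm x) (e.symm y)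
  unfold Adj
  rw [he (e.symm x) (e.symm y), e.apply_symm_apply, e.apply_symm_apply]

end Cfsg.Agent.S4085
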