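import Cfsg.Statements.S4086
import Mathlib.GroupTheory.SpecificGroups.Cyclic

set_option autoImplicit false
open Cfsg

namespace Cfsg.Agent.S4086

/-- For a finite group G the following are equivalent: every non-identity element has prime-power order; whenever two elements generate a cyclic subgroup, one of them is a power of the other (the enhanced power graph of G coincides with its power graph). -/
theorem result {G : Type*} [Group G] [Finite G] :
    (∀ g : G, g ≠ 1 → IsPrimePow (orderOf g)) ↔
    (∀ x y : G, IsCyclic ↥(Subgroup.closure ({x, y} : Set G)) → (x ∈ Subgroup.zpowers y ∨ y ∈ Subgroup.zpowers x)) := by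
  constructor
  · intro h x y hc
    set C := Subgroup.closure ({x, y} : Set G) with hC
    obtain ⟨⟨c, hcC⟩, hgen⟩ := hc.exists_generator
    have hmem : ∀ z ∈ C, z ∈ Subgroup.zpowers c := by
      intro z hz
      obtain ⟨k, hk⟩ := hgen ⟨z, hz⟩
      exact ⟨k, by simpa using congrArg Subtype.val hk⟩
    have hx := hmem x (Subgroup.subset_closure (by simp))
    have hy := hmem y (Subgroup.subset_closure (by simp))
    by_cases hc1 : c = 1
    · left
      rw [hc1, Subgroup.zpowers_one_eq_bot, Subgroup.mem_bot] at hx
      rw [hx]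
      exact one_mem _
    obtain ⟨p, n, hp, _, hn⟩ := (isPrimePow_nat_iff _).1 (h c hc1)
    have hd : ∀ {z : G}, z ∈ Subgroup.zpowers c → ∃ i, i ≤ n ∧ orderOf z = p ^ i := by
      intro z hz
      exact (Nat.dvd_prime_pow hp).1 (hn.symm ▸ orderOf_dvd_of_mem_zpowers hz)
    obtain ⟨i, -, hi⟩ := hd hx
    obtain ⟨j, -, hj⟩ := hd hy
    have key : ∀ {u v : G}, u ∈ Subgroup.zpowers c → v ∈ Subgroup.zpowers c →
        orderOf u ∣ orderOf v → u ∈ Subgroup.zpowers v := by
      intro u v hu hv huv
      let u' : Subgroup.zpowers c := ⟨u, hu⟩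
      let v' : Subgroup.zpowers c := ⟨v, hv⟩
      have hv' : Nat.card (Subgroup.zpowers v') = orderOf v := by
        rw [Nat.card_zpowers]; exact (Subgroup.orderOf_coe v').symm
      have hu' : orderOf u' ∣ orderOf v := by
        rw [← Subgroup.orderOf_coe u']; exact huv
      have hsub : u' ∈ Subgroup.zpowers v' := by
        classical
        haveI := Fintype.ofFinite (Subgroup.zpowers c)
        have hsub' : ((Subgroup.zpowers v' : Set (Subgroup.zpowers c)).toFinset) ⊆
            Finset.univ.filter (fun z : Subgroup.zpowers c => z ^ orderOf v = 1) := by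
          intro z hz
          rw [Set.mem_toFinset] at hz
          rw [Finset.mem_filter]
          refine ⟨Finset.mem_univ _, ?_⟩
          rw [← orderOf_dvd_iff_pow_eq_one, ← hv', Nat.card_zpowers]
          exact orderOf_dvd_of_mem_zpowers hz
        have heq := Finset.eq_of_subset_of_card_le hsub' (by
          rw [Set.toFinset_card]
          refine (IsCyclic.card_pow_eq_one_le (orderOf_pos v)).trans ?_
          rw [← hv', Nat.card_eq_fintype_card]
          rfl)
        have hmemu : u' ∈ Finset.univ.filter (fun z : Subgroup.zpowers c => z ^ orderOf v = 1) := by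
          rw [Finset.mem_filter]
          exact ⟨Finset.mem_univ _, orderOf_dvd_iff_pow_eq_one.1 hu'⟩
        rw [← heq, Set.mem_toFinset] at hmemu
        exact hmemu
      obtain ⟨k, hk⟩ := hsub
      exact ⟨k, by simpa using congrArg Subtype.val hk⟩
    rcases le_total i j with hij | hij
    · exact Or.inl (key hx hy (by rw [hi, hj]; exact pow_dvd_pow p hij))
    · exact Or.inr (key hy hx (by rw [hi, hj]; exact pow_dvd_pow p hij))
  · intro h g hg
    set n := orderOf g with hn
    by_contra hpp
    have hn1 : n ≠ 1 := fun e => hg (orderOf_eq_one_iff.1 e)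
    obtain ⟨p, hp, hpn⟩ := Nat.exists_prime_and_dvd hn1
    obtain ⟨q, hq, hqn, hqp⟩ : ∃ q, q.Prime ∧ q ∣ n ∧ q ≠ p := by
      by_contra hcon
      push Not at hcon
      refine hpp ((isPrimePow_nat_iff _).2 ⟨p, n.primeFactorsList.length, hp, ?_, ?_⟩)
      · rcases Nat.eq_zero_or_pos n.primeFactorsList.length with h0 | h0
        · exfalso
          rw [List.length_eq_zero_iff, Nat.primeFactorsList_eq_nil] at h0
          rcases h0 with h0 | h0
          · exact (orderOf_pos g).ne' h0
          · exact hn1 h0
        · exact h0
      · exact (Nat.eq_prime_pow_of_unique_prime_dvd (orderOf_pos g).ne' (fun {d} hd hdn => hcon d hd hdn)).symm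
    have ox : orderOf (g ^ (n / p)) = p := orderOf_pow_orderOf_div (orderOf_pos g).ne' hpn
    have oy : orderOf (g ^ (n / q)) = q := orderOf_pow_orderOf_div (orderOf_pos g).ne' hqn
    have hle : Subgroup.closure ({g ^ (n / p), g ^ (n / q)} : Set G) ≤ Subgroup.zpowers g := by
      rw [Subgroup.closure_le]
      rintro z (rfl | rfl) <;> exact Subgroup.npow_mem_zpowers g _
    haveI := Subgroup.isCyclic_of_le hle
    rcases h _ _ this with h' | h'
    · have := orderOf_dvd_of_mem_zpowers h'
      rw [ox, oy, Nat.prime_dvd_prime_iff_eq hp hq] at this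
      exact hqp this.symm
    · have := orderOf_dvd_of_mem_zpowers h'
      rw [ox, oy, Nat.prime_dvd_prime_iff_eq hq hp] at this
      exact hqp this

end Cfsg.Agent.S4086
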