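import Cfsg.Statements.S4088
import Cfsg.Agent.Subnormalizer.Count

set_option autoImplicit false
open Cfsg

namespace Cfsg.Agent.S4088

/-- Let G be a finite group, p a prime dividing the order of G, H a p-subgroup of G and P a Sylow p-subgroup of G. Call the subnormalizer of H the set of elements g of G such that H is subnormal in the subgroup generated by H and g. Then the number of elements of the subnormalizer of H equals the number of Sylow p-subgroups of G containing H times the order of N_G(P), and also equals the number of conjugates of H contained in P times the order of N_G(H). -/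
theorem result {G : Type*} [Group G] [Finite G] (p : ℕ) [Fact p.Prime]
    (hp : p ∣ Nat.card G) (H : Subgroup G) (hH : IsPGroup p H) (P : Sylow p G) :
    Nat.card {g : G // ((H).subgroupOf (H ⊔ Subgroup.zpowers g)).IsSubnormal} =
        Nat.card {Q : Sylow p G // H ≤ (Q : Subgroup G)} * Nat.card (Subgroup.normalizer ((P : Subgroup G) : Set G)) ∧
    Nat.card {g : G // ((H).subgroupOf (H ⊔ Subgroup.zpowers g)).IsSubnormal} =
        Nat.card {K : Subgroup G // K ≤ (P : Subgroup G) ∧ ∃ g : G, K = H.map (MulAut.conj g).toMonoidHom} *
          Nat.card (Subgroup.normalizer (H : Set G)) := by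
  have e : Nat.card {g : G // ((H).subgroupOf (H ⊔ Subgroup.zpowers g)).IsSubnormal} =
      Nat.card (CfsgLib.Subnormalizer.pnSet p H) :=
    Nat.card_congr (Equiv.subtypeEquivRight fun g =>
      (CfsgLib.Subnormalizer.mem_pnSet_iff hH g).symm)
  refine ⟨e.trans (CfsgLib.Subnormalizer.card_pnSet hH P), ?_⟩
  rw [e, CfsgLib.Subnormalizer.card_pnSet hH P]
  exact CfsgLib.Subnormalizer.card_sylow_mul_eq_card_conj_mul H P

end Cfsg.Agent.S4088
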