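import Cfsg.Statements.S4089
import Cfsg.Agent.Eq.Def_Solvable
import Cfsg.Agent.Subnormal.Basic
import Cfsg.Agent.LocalP.Basic
import Mathlib

set_option autoImplicit false
open Cfsg

namespace Cfsg.Agent.S4089

variable {G : Type*} [Group G] [Finite G] {p : ℕ} [Fact p.Prime]

/-- The image in `G` of the `p`-core of a normalizer. -/
def radicalUp (p : ℕ) (R : Subgroup G) : Subgroup G :=
  (Cfsg.pCore p (Subgroup.normalizer (R : Set G))).map (Subgroup.normalizer (R : Set G)).subtype

theorem isSubnormal_of_normalizes {H R : Subgroup G} (hR : IsPGroup p R) (hHR : H ≤ R) {g : G}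
    (hg : g ∈ Subgroup.normalizer (R : Set G)) :
    (H.subgroupOf (H ⊔ Subgroup.zpowers g)).IsSubnormal := by
  set L := H ⊔ Subgroup.zpowers g with hL
  have hLN : L ≤ Subgroup.normalizer (R : Set G) :=
    sup_le (hHR.trans Subgroup.le_normalizer) (Subgroup.zpowers_le.2 hg)
  have hn : (R.subgroupOf L).Normal := Subgroup.normal_subgroupOf_of_le_normalizer hLN
  have hle : H.subgroupOf L ≤ R.subgroupOf L := fun x hx => hHR hx
  haveI : Group.IsNilpotent (R.subgroupOf L) := by
    refine IsPGroup.isNilpotent (p := p) ?_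
    exact hR.comap_of_injective L.subtype L.subtype_injective
  exact Subgroup.IsSubnormal.trans hle (CfsgLib.Subnormal.isSubnormal_of_isNilpotent _) hn.isSubnormal

theorem exists_normalized {H : Subgroup G} (hH : IsPGroup p H) {g : G}
    (hs : (H.subgroupOf (H ⊔ Subgroup.zpowers g)).IsSubnormal) :
    ∃ R : Subgroup G, IsPGroup p R ∧ H ≤ R ∧ g ∈ Subgroup.normalizer (R : Set G) := by
  set L := H ⊔ Subgroup.zpowers g with hL
  obtain ⟨N, hNn, hNp, hHN⟩ := CfsgLib.Subnormal.exists_normal_isPGroup_of_isSubnormal hs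
    (hH.of_equiv (Subgroup.subgroupOfEquivOfLe le_sup_left).symm)
  refine ⟨N.map L.subtype, hNp.map _, ?_, ?_⟩
  · rw [← Subgroup.map_subgroupOf_eq_of_le (le_sup_left : H ≤ L)]
    exact Subgroup.map_mono hHN
  · haveI := hNn
    have hle : (L.subtype.range) ≤ Subgroup.normalizer ((N.map L.subtype : Subgroup G) : Set G) := by
      rw [MonoidHom.range_eq_map, ← (Subgroup.normalizer_eq_top (H := N))]
      exact Subgroup.le_normalizer_map _
    apply hle
    rw [Subgroup.range_subtype]
    exact Subgroup.mem_sup_right (Subgroup.mem_zpowers g)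

theorem exists_radical {H : Subgroup G} {g : G}
    (h : ∃ R : Subgroup G, IsPGroup p R ∧ H ≤ R ∧ g ∈ Subgroup.normalizer (R : Set G)) :
    ∃ R : Subgroup G, H ≤ R ∧ radicalUp p R = R ∧ g ∈ Subgroup.normalizer (R : Set G) := by
  obtain ⟨R₀, hR₀⟩ := h
  obtain ⟨R, -, ⟨hRp, hHR, hgR⟩, hmax⟩ := Finite.exists_le_maximal
    (p := fun R : Subgroup G => IsPGroup p R ∧ H ≤ R ∧ g ∈ Subgroup.normalizer (R : Set G)) hR₀
  refine ⟨R, hHR, ?_, hgR⟩
  set N := Subgroup.normalizer (R : Set G) with hN
  have hle : R ≤ radicalUp p R := by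
    have h1 : R.subgroupOf N ≤ Cfsg.pCore p N :=
      CfsgLib.LocalP.le_pCore Subgroup.normal_in_normalizer
        (hRp.comap_of_injective N.subtype N.subtype_injective)
    have h2 := Subgroup.map_mono (f := N.subtype) h1
    rwa [Subgroup.map_subgroupOf_eq_of_le Subgroup.le_normalizer] at h2
  refine le_antisymm (hmax ⟨CfsgLib.LocalP.isPGroup_pCore.map _, hHR.trans hle, ?_⟩ hle) hle
  have hnle : (N.subtype.range) ≤ Subgroup.normalizer ((radicalUp p R : Subgroup G) : Set G) := by
    rw [MonoidHom.range_eq_map, ← (Subgroup.normalizer_eq_top (H := Cfsg.pCore p N))]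
    exact Subgroup.le_normalizer_map _
  apply hnle
  rw [Subgroup.range_subtype]
  exact hgR

/-- Let G be a finite group, p a prime and H a p-subgroup of G. Then the set of elements g of G such that H is subnormal in the subgroup generated by H and g is the union of the normalizers N_G(R) over the subgroups R of G containing H with R = O_p(N_G(R)); and this set does not change when H is replaced by the intersection of all Sylow p-subgroups of G containing H. -/
theorem result {G : Type*} [Group G] [Finite G] (p : ℕ) [Fact p.Prime]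
    (H : Subgroup G) (hH : IsPGroup p H) :
    {g : G | ((H).subgroupOf (H ⊔ Subgroup.zpowers g)).IsSubnormal} =
      {g : G | ∃ R : Subgroup G, H ≤ R ∧ (Cfsg.pCore p (Subgroup.normalizer (R : Set G))).map (Subgroup.normalizer (R : Set G)).subtype = R ∧ g ∈ Subgroup.normalizer (R : Set G)} ∧
    ∀ g : G, (((H).subgroupOf (H ⊔ Subgroup.zpowers g)).IsSubnormal ↔
      (((sInf {K : Subgroup G | ∃ Q : Sylow p G, H ≤ (Q : Subgroup G) ∧ K = (Q : Subgroup G)})).subgroupOf ((sInf {K : Subgroup G | ∃ Q : Sylow p G, H ≤ (Q : Subgroup G) ∧ K = (Q : Subgroup G)}) ⊔ Subgroup.zpowers g)).IsSubnormal) := by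
  constructor
  · ext g
    constructor
    · exact fun hs => exists_radical (exists_normalized hH hs)
    · rintro ⟨R, hHR, hR, hg⟩
      refine isSubnormal_of_normalizes (p := p) ?_ hHR hg
      rw [← hR]
      exact CfsgLib.LocalP.isPGroup_pCore.map _
  · intro g
    have hDp : ∀ K : Subgroup G, IsPGroup p K →
        IsPGroup p (sInf {S : Subgroup G | ∃ Q : Sylow p G, K ≤ (Q : Subgroup G) ∧ S = (Q : Subgroup G)} : Subgroup G) := by
      intro K hK
      obtain ⟨Q, hQ⟩ := hK.exists_le_sylow
      exact Q.isPGroup'.to_le (sInf_le ⟨Q, hQ, rfl⟩)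
    set D := sInf {K : Subgroup G | ∃ Q : Sylow p G, H ≤ (Q : Subgroup G) ∧ K = (Q : Subgroup G)} with hD
    have hHD : H ≤ D := le_sInf (by rintro _ ⟨Q, hQ, rfl⟩; exact hQ)
    constructor
    · intro hs
      obtain ⟨R, hRp, hHR, hgR⟩ := exists_normalized hH hs
      set D' := sInf {K : Subgroup G | ∃ Q : Sylow p G, R ≤ (Q : Subgroup G) ∧ K = (Q : Subgroup G)} with hD'
      have hDD' : D ≤ D' := le_sInf (by rintro _ ⟨Q, hQ, rfl⟩; exact sInf_le ⟨Q, hHR.trans hQ, rfl⟩)
      have key : ∀ c ∈ Subgroup.normalizer (R : Set G), ∀ x ∈ D', c * x * c⁻¹ ∈ D' := by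
        intro c hc x hx
        rw [hD', Subgroup.mem_sInf]
        rintro _ ⟨Q, hQ, rfl⟩
        have hRQ : R ≤ ((c⁻¹ • Q : Sylow p G) : Subgroup G) := by
          intro r hr
          rw [Sylow.coe_subgroup_smul, Subgroup.mem_pointwise_smul_iff_inv_smul_mem]
          have := (Subgroup.mem_normalizer_iff.1 hc r).1 hr
          simpa [MulAut.smul_def, ← map_inv] using hQ this
        have hx' := (Subgroup.mem_sInf.1 hx) _ ⟨_, hRQ, rfl⟩
        rw [Sylow.coe_subgroup_smul, Subgroup.mem_pointwise_smul_iff_inv_smul_mem] at hx'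
        simpa [MulAut.smul_def, ← map_inv] using hx'
      have hgD' : g ∈ Subgroup.normalizer (D' : Set G) := by
        rw [Subgroup.mem_normalizer_iff]
        intro x
        refine ⟨key g hgR x, fun hx => ?_⟩
        have := key g⁻¹ (inv_mem hgR) _ hx
        simpa [mul_assoc] using this
      exact isSubnormal_of_normalizes (hDp R hRp) hDD' hgD'
    · intro hs
      obtain ⟨R, hRp, hDR, hgR⟩ := exists_normalized (hDp H hH) hs
      exact isSubnormal_of_normalizes hRp (hHD.trans hDR) hgR

end Cfsg.Agent.S4089
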