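import Cfsg.Statements.S4091
import Cfsg.Agent.SubnormalizerCount.SylowCount
import Mathlib.Analysis.MeanInequalities

set_option autoImplicit false
open Cfsg

namespace Cfsg.Agent.S4091

/-- Let G be a finite p-solvable group, P a Sylow p-subgroup of G, u the number of p-elements of G (elements of p-power order, the identity included) and n the number of Sylow p-subgroups of G. Then u/#P ≥ n^((p−1)/p), stated as u^p ≥ #P^p · n^(p−1). -/
theorem result {G : Type*} [Group G] [Finite G] (p : ℕ) [Fact p.Prime]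
    (hG : Cfsg.IsPSolvable p G) (P : Sylow p G) :
    Nat.card (P : Subgroup G) ^ p * Nat.card (Sylow p G) ^ (p - 1) ≤ Nat.card {g : G // ∃ k : ℕ, orderOf g = p ^ k} ^ p := by
  classical
  obtain ⟨k, M, h0, hn, hmono, hnormal, hfac⟩ := hG
  haveI := hnormal
  have hle : ∀ i : Fin k, M i.castSucc ≤ M i.succ := fun i => hmono (Fin.castSucc_lt_succ).le
  set b : ℕ := ∏ i : Fin k, CfsgLib.SubnormalizerCount.fixFactor p (P : Subgroup G) (M i.castSucc) (M i.succ) with hb
  let a : G → ℕ := fun x =>
    ∏ i : Fin k, CfsgLib.SubnormalizerCount.fixFactor p (Subgroup.zpowers x) (M i.castSucc) (M i.succ)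
  set Nt : ℕ := ∏ i : Fin k, CfsgLib.SubnormalizerCount.stepOrder p (M i.castSucc) (M i.succ) with hNt
  set n := Nat.card (Sylow p G) with hndef
  set m := Nat.card (P : Subgroup G) with hmdef
  have hbpos : 0 < b := Finset.prod_pos fun i _ => CfsgLib.SubnormalizerCount.fixFactor_pos (hle i) _
  have hapos : ∀ x, 0 < a x := fun x => Finset.prod_pos fun i _ => CfsgLib.SubnormalizerCount.fixFactor_pos (hle i) _
  -- `n * b = Nt`
  have hnb : n * b = Nt := by
    have hN : Nat.card (Subgroup.normalizer ((P : Subgroup G) : Set G)) = m * b := by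
      have h1 := CfsgLib.SubnormalizerCount.card_good_series P.isPGroup' k M h0 hn hmono hnormal hfac
      have h2 : Nat.card {g : G // CfsgLib.SubnormalizerCount.Good p (P : Subgroup G) g} =
          Nat.card (Subgroup.normalizer ((P : Subgroup G) : Set G)) :=
        Nat.card_congr (Equiv.subtypeEquivRight fun g => ⟨fun ⟨D, hD, hPD, hg⟩ => by rwa [P.3 hD hPD] at hg,
          fun hg => ⟨_, P.isPGroup', le_rfl, hg⟩⟩)
      rw [← h2, h1, hmdef, ← CfsgLib.SubnormalizerCount.prod_pFactors P k M h0 hn hmono hfac,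
        hb, ← Finset.prod_mul_distrib]
      exact Finset.prod_congr rfl fun i _ => CfsgLib.SubnormalizerCount.stepFactor_split _ _ _
    have hX : Nat.card G = m * Nt := by
      rw [hmdef, ← CfsgLib.SubnormalizerCount.prod_pFactors P k M h0 hn hmono hfac, hNt, ← Finset.prod_mul_distrib]
      have key : ∀ j, ∀ hj : j ≤ k, Nat.card (M ⟨j, by omega⟩) =
          ∏ i : Fin j, (M (Fin.castLE hj i).castSucc).relIndex (M (Fin.castLE hj i).succ) := by
        intro j
        induction j with
        | zero => intro _; simp [show (⟨0, _⟩ : Fin (k + 1)) = 0 from rfl, h0]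
        | succ j ih =>
          intro hj
          rw [Fin.prod_univ_castSucc]
          have h1 := Subgroup.relIndex_mul_relIndex (⊥ : Subgroup G) (M ⟨j, by omega⟩) (M ⟨j + 1, by omega⟩)
            bot_le (hmono (Fin.le_def.mpr (by simp)))
          rw [Subgroup.relIndex_bot_left, Subgroup.relIndex_bot_left, ih (by omega)] at h1
          exact h1.symm
      have h := key k le_rfl
      rw [show (⟨k, _⟩ : Fin (k + 1)) = Fin.last k from rfl, hn, Subgroup.card_top] at h
      rw [h]
      refine Finset.prod_congr rfl fun i _ => ?_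
      unfold CfsgLib.SubnormalizerCount.stepOrder
      split_ifs <;> simp
    have h1 := Subgroup.index_mul_card (Subgroup.normalizer ((P : Subgroup G) : Set G))
    rw [show (Subgroup.normalizer ((P : Subgroup G) : Set G)).index = n from P.card_eq_index_normalizer.symm, hN, hX] at h1
    have hm0 : 0 < m := Nat.card_pos
    exact Nat.eq_of_mul_eq_mul_left hm0 (by rw [← h1]; ring)
  -- Sylow subgroups containing an element
  have hnu : ∀ x : G, CfsgLib.SubnormalizerCount.sylowCount p x * b ≤ a x := by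
    intro x
    have key : ∀ j, ∀ hj : j ≤ k, CfsgLib.SubnormalizerCount.sylowCount p ((x : G) : G ⧸ M 0) *
        (∏ i : Fin j, CfsgLib.SubnormalizerCount.fixFactor p (P : Subgroup G) (M (Fin.castLE hj i).castSucc)
          (M (Fin.castLE hj i).succ)) ≤
        (∏ i : Fin j, CfsgLib.SubnormalizerCount.fixFactor p (Subgroup.zpowers x) (M (Fin.castLE hj i).castSucc)
          (M (Fin.castLE hj i).succ)) * CfsgLib.SubnormalizerCount.sylowCount p ((x : G) : G ⧸ M ⟨j, by omega⟩) := by
      intro j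
      induction j with
      | zero =>
        intro _
        rw [Finset.univ_eq_empty, Finset.prod_empty, Finset.prod_empty, mul_one, one_mul]
        exact le_rfl
      | succ j ih =>
        intro hj
        rw [Fin.prod_univ_castSucc, Fin.prod_univ_castSucc, ← mul_assoc]
        refine le_trans (Nat.mul_le_mul_right _ (ih (by omega))) ?_
        rw [mul_assoc, mul_assoc]
        exact Nat.mul_le_mul_left _ (CfsgLib.SubnormalizerCount.sylowCount_step
          (hle ⟨j, by omega⟩) (hfac ⟨j, by omega⟩) P x)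
    have h := key k le_rfl
    have hlast : CfsgLib.SubnormalizerCount.sylowCount p ((x : G) : G ⧸ M (Fin.last k)) ≤ 1 := by
      haveI : Subsingleton (G ⧸ M (Fin.last k)) := by rw [hn]; exact QuotientGroup.subsingleton_quotient_top
      exact Finite.card_le_one_iff_subsingleton.mpr
        ⟨fun Q Q' => Subtype.ext (Sylow.ext (Subsingleton.elim _ _))⟩
    have h00 : CfsgLib.SubnormalizerCount.sylowCount p x ≤
        CfsgLib.SubnormalizerCount.sylowCount p ((x : G) : G ⧸ M 0) :=
      CfsgLib.SubnormalizerCount.sylowCount_le_of_pKer (QuotientGroup.mk' (M 0))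
        (QuotientGroup.mk'_surjective _) (by rw [QuotientGroup.ker_mk', h0]; exact IsPGroup.of_bot) x
    calc _ ≤ _ := Nat.mul_le_mul_right b h00
      _ ≤ _ := h
      _ ≤ a x * 1 := Nat.mul_le_mul_left _ hlast
      _ = a x := mul_one _
  haveI := Fintype.ofFinite (Sylow p G)
  haveI := Fintype.ofFinite G
  haveI : ∀ Q : Sylow p G, Fintype ↥(Q : Subgroup G) := fun Q => Fintype.ofFinite _
  have hmQ : ∀ Q : Sylow p G, Fintype.card ↥(Q : Subgroup G) = m := fun Q => by
    rw [← Nat.card_eq_fintype_card, hmdef, Q.card_eq_multiplicity, P.card_eq_multiplicity]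
  -- the product over one Sylow subgroup
  have hprod : ∀ Q : Sylow p G, (∏ x : ↥(Q : Subgroup G), a x) ^ p ≤ n ^ m * b ^ (m * p) := by
    intro Q
    rw [Finset.prod_comm, ← Finset.prod_pow]
    refine (Finset.prod_le_prod' fun i _ => CfsgLib.SubnormalizerCount.step_bound (hle i) Q).trans (le_of_eq ?_)
    rw [Finset.prod_mul_distrib, Finset.prod_pow, Finset.prod_pow, hmQ, ← hNt,
      Finset.prod_congr rfl (fun i _ => CfsgLib.SubnormalizerCount.fixFactor_sylow_eq (hle i) Q P), ← hb, ← hnb,
      mul_pow, mul_assoc, ← pow_add]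
    congr 2
    obtain ⟨q, hq⟩ : ∃ q, p = q + 1 := ⟨p - 1, by have := (Fact.out : p.Prime).one_le; omega⟩
    subst hq
    simp [Nat.mul_succ, add_comm]
  have hp0 : p ≠ 0 := (Fact.out : p.Prime).ne_zero
  have hn0 : (0 : ℝ) < n := by exact_mod_cast (Nat.card_pos : 0 < n)
  have hm0 : (0 : ℝ) < m := by exact_mod_cast (Nat.card_pos : 0 < m)
  set r : ℝ := ((1 : ℝ) / n) ^ ((p : ℝ)⁻¹) with hr
  have hsum : ∀ Q : Sylow p G, (m : ℝ) * r ≤ ∑ x : ↥(Q : Subgroup G), (b : ℝ) / a x := by
    intro Q
    set Z := ∑ x : ↥(Q : Subgroup G), (b : ℝ) / a x with hZ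
    have hz : ∀ x ∈ (Finset.univ : Finset ↥(Q : Subgroup G)), (0 : ℝ) ≤ (b : ℝ) / a x := fun x _ => by positivity
    have hcardm : (Finset.univ : Finset ↥(Q : Subgroup G)).card = m := by rw [Finset.card_univ, hmQ]
    have hg := Real.geom_mean_le_arith_mean (Finset.univ : Finset ↥(Q : Subgroup G)) (fun _ => (1 : ℝ))
      (fun x => (b : ℝ) / a x) (fun _ _ => zero_le_one) (by simp [hcardm, hm0]) hz
    simp only [Real.rpow_one, Finset.sum_const, nsmul_eq_mul, mul_one, hcardm, one_mul] at hg
    rw [← hZ, le_div_iff₀ hm0] at hg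
    refine le_trans ?_ hg
    rw [mul_comm]
    refine mul_le_mul_of_nonneg_right ?_ hm0.le
    rw [hr]
    have hPpos : (0 : ℝ) ≤ ∏ x : ↥(Q : Subgroup G), (b : ℝ) / a x := Finset.prod_nonneg hz
    have h1 : ((1 : ℝ) / n) ^ m ≤ (∏ x : ↥(Q : Subgroup G), (b : ℝ) / a x) ^ p := by
      rw [Finset.prod_div_distrib, Finset.prod_const, hcardm, div_pow, div_pow, one_pow, ← pow_mul]
      have hA : (0 : ℝ) < (∏ x : ↥(Q : Subgroup G), (a x : ℝ)) ^ p :=
        pow_pos (Finset.prod_pos fun x _ => by exact_mod_cast hapos x) _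
      rw [div_le_div_iff₀ (pow_pos hn0 m) hA, one_mul, mul_comm]
      exact_mod_cast hprod Q
    have h2 := Real.rpow_le_rpow (by positivity) h1 (by positivity : (0 : ℝ) ≤ ((m : ℝ)⁻¹ * (p : ℝ)⁻¹))
    rw [← Real.rpow_natCast, ← Real.rpow_natCast, ← Real.rpow_mul (by positivity), ← Real.rpow_mul hPpos] at h2
    have e1 : (m : ℝ) * ((m : ℝ)⁻¹ * (p : ℝ)⁻¹) = (p : ℝ)⁻¹ := by field_simp
    have e2 : (p : ℝ) * ((m : ℝ)⁻¹ * (p : ℝ)⁻¹) = (m : ℝ)⁻¹ := by
      have : (p : ℝ) ≠ 0 := by exact_mod_cast hp0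
      field_simp
    rwa [e1, e2] at h2
  -- double counting
  let pel : Finset G := Finset.univ.filter fun g => ∃ j : ℕ, orderOf g = p ^ j
  have hu : Nat.card {g : G // ∃ j : ℕ, orderOf g = p ^ j} = pel.card := by
    rw [Nat.card_eq_fintype_card, Fintype.card_subtype]
  let ν := fun x : G => CfsgLib.SubnormalizerCount.sylowCount p x
  have hdouble : ∑ Q : Sylow p G, ∑ x : ↥(Q : Subgroup G), (b : ℝ) / a x ≤ pel.card := by
    calc ∑ Q : Sylow p G, ∑ x : ↥(Q : Subgroup G), (b : ℝ) / a x
        = ∑ Q : Sylow p G, ∑ x ∈ Finset.univ.filter (fun x => x ∈ (Q : Subgroup G)), (b : ℝ) / a x :=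
          Finset.sum_congr rfl fun Q _ => (Finset.sum_subtype _ (by simp) fun x => (b : ℝ) / a x).symm
      _ = ∑ x ∈ pel, ∑ _Q ∈ Finset.univ.filter (fun Q : Sylow p G => x ∈ (Q : Subgroup G)), (b : ℝ) / a x := by
          refine Finset.sum_comm' fun Q x => ?_
          simp only [Finset.mem_univ, Finset.mem_filter, true_and, pel]
          exact ⟨fun h => ⟨h, by
            obtain ⟨j, hj⟩ := IsPGroup.iff_orderOf.mp Q.isPGroup' ⟨x, h⟩
            exact ⟨j, by rw [← hj, ← Subgroup.orderOf_coe]⟩⟩, fun h => h.1⟩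
      _ ≤ ∑ _x ∈ pel, (1 : ℝ) := by
          refine Finset.sum_le_sum fun x _ => ?_
          rw [Finset.sum_const, nsmul_eq_mul, mul_div_assoc', div_le_one (by exact_mod_cast hapos x)]
          have hc : (Finset.univ.filter (fun Q : Sylow p G => x ∈ (Q : Subgroup G))).card = ν x := by
            rw [← Fintype.card_subtype, ← Nat.card_eq_fintype_card]; rfl
          rw [hc]
          exact_mod_cast hnu x
      _ = pel.card := by simp
  have htot : (n : ℝ) * ((m : ℝ) * r) ≤ pel.card := by
    refine le_trans ?_ hdouble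
    refine le_trans (le_of_eq ?_) (Finset.sum_le_sum fun Q _ => hsum Q)
    rw [Finset.sum_const, Finset.card_univ, nsmul_eq_mul, hndef, Nat.card_eq_fintype_card]
  have hfin := pow_le_pow_left₀ (by positivity) htot p
  have hrp : r ^ p = (1 : ℝ) / n := by
    rw [hr, Real.rpow_inv_natCast_pow (by positivity) hp0]
  rw [mul_pow, mul_pow, hrp] at hfin
  rw [hu]
  have hgoal : ((m ^ p * n ^ (p - 1) : ℕ) : ℝ) ≤ ((pel.card ^ p : ℕ) : ℝ) := by
    push_cast
    refine le_trans (le_of_eq ?_) hfin
    rw [← mul_pow_sub_one hp0 (n : ℝ)]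
    field_simp
  exact_mod_cast hgoal

end Cfsg.Agent.S4091
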