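import Cfsg.Statements.S4092
import Cfsg.Agent.Counting.Frobenius
import Mathlib

set_option autoImplicit false
open Cfsg

namespace Cfsg.Agent.S4092

/-- Let G be a finite group, p a prime and P a Sylow p-subgroup of G that is not normal in G. Then G has at least p·#P elements of p-power order (the identity included). -/
theorem result {G : Type*} [Group G] [Finite G] (p : ℕ) [Fact p.Prime]
    (P : Sylow p G) (hP : ¬ (P : Subgroup G).Normal) :
    p * Nat.card (P : Subgroup G) ≤ Nat.card {g : G // ∃ k : ℕ, orderOf g = p ^ k} := by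
  have hp : p.Prime := Fact.out
  obtain ⟨v, hv⟩ := IsPGroup.iff_card.1 P.isPGroup'
  have hpow : ∀ g : G, (∃ k : ℕ, orderOf g = p ^ k) ↔ g ^ Nat.card (P : Subgroup G) = 1 := by
    intro g
    constructor
    · rintro ⟨k, hk⟩
      rw [← orderOf_dvd_iff_pow_eq_one, P.card_eq_multiplicity, hk]
      exact pow_dvd_pow p ((hp.pow_dvd_iff_le_factorization Nat.card_pos.ne').1 (hk ▸ orderOf_dvd_natCard g))
    · intro h
      rw [hv] at h
      obtain ⟨j, -, hj⟩ := (Nat.dvd_prime_pow hp).1 (orderOf_dvd_of_pow_eq_one h)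
      exact ⟨j, hj⟩
  rw [Nat.card_congr (Equiv.subtypeEquivRight hpow)]
  set m := Nat.card (P : Subgroup G) with hm
  set u := Nat.card {g : G // g ^ m = 1} with hu
  obtain ⟨k, hk⟩ := CfsgLib.Counting.card_pow_eq_one_dvd (G := G) (Subgroup.card_subgroup_dvd_card (P : Subgroup G))
  rw [← hm, ← hu] at hk
  have hPsub : ∀ g ∈ (P : Subgroup G), g ^ m = 1 := fun g hg => by
    rw [hm, ← orderOf_dvd_iff_pow_eq_one]
    exact Subgroup.orderOf_dvd_natCard _ hg
  have hlt : m < u := by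
    rw [hu, hm, ← SetLike.coe_sort_coe, Nat.card_coe_set_eq, ← Set.coe_setOf, Nat.card_coe_set_eq]
    refine Set.ncard_lt_ncard ⟨fun g hg => hPsub g hg, fun hsub => hP ⟨fun n hn g => ?_⟩⟩ (Set.toFinite _)
    refine hsub ?_
    show (g * n * g⁻¹) ^ m = 1
    rw [conj_pow, hPsub n hn]
    group
  have hk2 : 2 ≤ k := by
    by_contra hlt'
    interval_cases k <;> simp at hk <;> omega
  -- the count is 1 modulo p - 1
  have hdvd : (p - 1) ∣ Nat.card {g : G // g ^ m = 1 ∧ g ≠ 1} := by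
    refine CfsgLib.Counting.dvd_card_of_totient _ ?_ _ ?_
    · rintro g h ⟨hg, hg1⟩ hz
      have ho : orderOf g = orderOf h := by rw [← Nat.card_zpowers, hz, Nat.card_zpowers]
      refine ⟨?_, fun h1 => hg1 ?_⟩
      · rw [← orderOf_dvd_iff_pow_eq_one, ← ho, orderOf_dvd_iff_pow_eq_one]; exact hg
      · rw [← orderOf_eq_one_iff, ho, h1, orderOf_one]
    · rintro g ⟨hg, hg1⟩
      obtain ⟨j, hj⟩ := (hpow g).2 hg
      have hj0 : j ≠ 0 := fun h => hg1 (orderOf_eq_one_iff.1 (by rw [hj, h, pow_zero]))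
      rw [hj, Nat.totient_prime_pow hp (Nat.pos_of_ne_zero hj0)]
      exact dvd_mul_left _ _
  have hsplit : u = Nat.card {g : G // g ^ m = 1 ∧ g ≠ 1} + 1 := by
    rw [hu, ← Set.coe_setOf, ← Set.coe_setOf, Nat.card_coe_set_eq, Nat.card_coe_set_eq]
    rw [show {g : G | g ^ m = 1 ∧ g ≠ 1} = {g : G | g ^ m = 1} \ {1} from rfl]
    exact (Set.ncard_sdiff_singleton_add_one (show (1 : G) ∈ {g : G | g ^ m = 1} from one_pow m) (Set.toFinite _)).symm
  -- conclude
  have hmp : (p - 1) ∣ m - 1 := by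
    rw [hv]
    simpa using Nat.sub_dvd_pow_sub_pow p 1 v
  obtain ⟨a, ha⟩ := hdvd
  obtain ⟨b, hb⟩ := hmp
  have hm0 : 0 < m := Nat.card_pos
  have hk1 : (p - 1) ∣ (k - 1) := by
    have e1 : m * k = (p - 1) * a + 1 := by rw [← hk, hsplit, ha]
    have e2 : m = (p - 1) * b + 1 := by omega
    rw [e2, Nat.add_mul, one_mul, Nat.mul_assoc] at e1
    have e3 : (p - 1) ∣ (p - 1) * (b * k) := dvd_mul_right _ _
    have e4 : k - 1 = (p - 1) * a - (p - 1) * (b * k) := by omega
    rw [e4]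
    exact Nat.dvd_sub (dvd_mul_right _ _) e3
  have := Nat.le_of_dvd (by omega) hk1
  have hkp : p ≤ k := by omega
  rw [hk, mul_comm p]
  exact Nat.mul_le_mul_left m hkp

end Cfsg.Agent.S4092
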