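import Cfsg.Statements.S4093
import Mathlib

set_option autoImplicit false
open Cfsg
open scoped BigOperators

namespace Cfsg.Agent.S4093

theorem card_range_conj {G : Type*} [Group G] [Finite G] (N : Subgroup G) (x : G) :
    Nat.card (Set.range fun n : N => (n : G) * x * (n : G)⁻¹) =
      Nat.card N / Nat.card ↥(N ⊓ Subgroup.centralizer ({x} : Set G)) := by
  set C := (Subgroup.centralizer ({x} : Set G)).subgroupOf N with hC
  have hrel : ∀ a b : N, (a : G) * x * (a : G)⁻¹ = (b : G) * x * (b : G)⁻¹ ↔ a⁻¹ * b ∈ C := by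
    intro a b
    rw [hC, Subgroup.mem_subgroupOf, Subgroup.mem_centralizer_singleton_iff]
    push_cast
    constructor
    · intro h
      calc (a : G)⁻¹ * b * x = (a : G)⁻¹ * ((b : G) * x * (b : G)⁻¹) * b := by group
        _ = (a : G)⁻¹ * ((a : G) * x * (a : G)⁻¹) * b := by rw [h]
        _ = x * ((a : G)⁻¹ * b) := by group
    · intro h
      calc (a : G) * x * (a : G)⁻¹ = (a : G) * (x * ((a : G)⁻¹ * b)) * (b : G)⁻¹ := by group
        _ = (a : G) * ((a : G)⁻¹ * b * x) * (b : G)⁻¹ := by rw [h]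
        _ = (b : G) * x * (b : G)⁻¹ := by group
  let f : N ⧸ C → Set.range fun n : N => (n : G) * x * (n : G)⁻¹ :=
    Quotient.lift (fun n : N => ⟨(n : G) * x * (n : G)⁻¹, n, rfl⟩) (fun a b h => Subtype.ext ((hrel a b).2
      (QuotientGroup.leftRel_apply.1 h)))
  have hf : Function.Bijective f := by
    constructor
    · intro u v
      induction u using QuotientGroup.induction_on with
      | H a =>
        induction v using QuotientGroup.induction_on with
        | H b =>
          intro h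
          exact QuotientGroup.eq.2 ((hrel a b).1 (congrArg Subtype.val h))
    · rintro ⟨_, n, rfl⟩
      exact ⟨(n : N ⧸ C), rfl⟩
  have h1 : C.index = Nat.card (Set.range fun n : N => (n : G) * x * (n : G)⁻¹) := by
    rw [Subgroup.index_eq_card]
    exact Nat.card_eq_of_bijective f hf
  have h2 : Nat.card C = Nat.card ↥(N ⊓ Subgroup.centralizer ({x} : Set G)) := by
    rw [hC, ← Subgroup.inf_subgroupOf_left]
    exact Nat.card_congr (Subgroup.subgroupOfEquivOfLe inf_le_left).toEquiv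
  rw [← h1, ← h2, ← Subgroup.card_mul_index C, Nat.mul_div_cancel_left _ Nat.card_pos]

/-- Let G be a finite group with a normal subgroup N complementing a Sylow p-subgroup P (a normal p-complement). Then the number of elements of G of p-power order equals the sum over x ∈ P of the index of C_N(x) in N. -/
theorem result {G : Type*} [Group G] [Finite G] (p : ℕ) [Fact p.Prime]
    (P : Sylow p G) (N : Subgroup G) [N.Normal] (hNP : N.IsComplement' (P : Subgroup G)) :
    Nat.card {g : G // ∃ k : ℕ, orderOf g = p ^ k} =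
      ∑ᶠ x : (P : Subgroup G), Nat.card N / Nat.card ↥(N ⊓ Subgroup.centralizer ({(x : G)} : Set G)) := by
  haveI := Fintype.ofFinite (P : Subgroup G)
  have hiff : ∀ g : G, (∃ k : ℕ, orderOf g = p ^ k) ↔ ∃ k : ℕ, g ^ p ^ k = 1 := by
    intro g
    constructor
    · rintro ⟨k, hk⟩; exact ⟨k, hk ▸ pow_orderOf_eq_one g⟩
    · rintro ⟨k, hk⟩
      obtain ⟨j, -, hj⟩ := (Nat.dvd_prime_pow Fact.out).1 (orderOf_dvd_of_pow_eq_one hk)
      exact ⟨j, hj⟩
  rw [finsum_eq_sum_of_fintype]
  simp_rw [← fun x : (P : Subgroup G) => card_range_conj N (x : G)]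
  rw [← Nat.card_sigma]
  refine (Nat.card_eq_of_bijective (fun t : Σ x : (P : Subgroup G), Set.range fun n : N => (n : G) * (x : G) * (n : G)⁻¹ =>
    (⟨t.2.1, by
      obtain ⟨n, hn⟩ := t.2.2
      obtain ⟨k, hk⟩ := P.isPGroup' t.1
      refine (hiff _).2 ⟨k, ?_⟩
      rw [← hn, conj_pow, show (t.1 : G) ^ p ^ k = 1 by simpa using congrArg Subtype.val hk]
      simp⟩ : {g : G // ∃ k : ℕ, orderOf g = p ^ k})) ⟨?_, ?_⟩).symm
  · rintro ⟨x, ⟨_, n, rfl⟩⟩ ⟨y, ⟨_, m, rfl⟩⟩ h
    have h' : (n : G) * (x : G) * (n : G)⁻¹ = (m : G) * (y : G) * (m : G)⁻¹ := congrArg Subtype.val h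
    have hxy : x = y := by
      have hmem : (x : G)⁻¹ * y ∈ N := by
        rw [← QuotientGroup.eq]
        have hq := congrArg (QuotientGroup.mk' N) h'
        simpa [(QuotientGroup.eq_one_iff (n : G)).2 n.2, (QuotientGroup.eq_one_iff (m : G)).2 m.2] using hq
      have := Subgroup.disjoint_def.1 hNP.disjoint hmem (mul_mem (inv_mem x.2) y.2)
      exact Subtype.ext (inv_mul_eq_one.1 this)
    subst hxy
    exact Sigma.subtype_ext rfl h'
  · rintro ⟨g, hg⟩
    obtain ⟨k, hk⟩ := (hiff g).1 hg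
    have hpg : IsPGroup p (Subgroup.zpowers g) := fun y => by
      obtain ⟨j, hj⟩ := Subgroup.mem_zpowers_iff.1 y.2
      refine ⟨k, Subtype.ext ?_⟩
      rw [SubgroupClass.coe_pow, ← hj, ← zpow_natCast, ← zpow_mul, mul_comm, zpow_mul, zpow_natCast, hk]
      simp
    obtain ⟨Q, hQ⟩ := hpg.exists_le_sylow
    obtain ⟨s, hs⟩ := MulAction.exists_smul_eq G P Q
    have hgQ : g ∈ (Q : Subgroup G) := hQ (Subgroup.mem_zpowers g)
    rw [← hs, Sylow.coe_subgroup_smul, Subgroup.mem_pointwise_smul_iff_inv_smul_mem] at hgQ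
    have hy : s⁻¹ * g * s ∈ (P : Subgroup G) := by simpa [MulAut.smul_def, ← map_inv] using hgQ
    obtain ⟨⟨⟨n, hn⟩, ⟨q, hq⟩⟩, hnq, -⟩ := hNP.existsUnique s
    simp only at hnq
    refine ⟨⟨⟨q * (s⁻¹ * g * s) * q⁻¹, mul_mem (mul_mem hq hy) (inv_mem hq)⟩, ⟨g, ⟨n, hn⟩, ?_⟩⟩, rfl⟩
    simp only
    rw [← hnq]
    group

end Cfsg.Agent.S4093
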