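import Cfsg.Statements.S4100
import Cfsg.Agent.AltCent.Reduce
import Cfsg.Agent.AltCent.Two
import Cfsg.Agent.AltCent.Five

set_option autoImplicit false
open Cfsg

namespace Cfsg.Agent.S4100

open CfsgLib.AltCent

universe u v

/-- The stabiliser hypothesis gives the pair hypothesis. -/
theorem noFix_of_stabilizer {n : ℕ} {V : Type u} [AddCommGroup V]
    [DistribMulAction (alternatingGroup (Fin n)) V]
    (h : ∀ (S : Subgroup (alternatingGroup (Fin n))) (w : V), ¬ Group.IsSolvable S →
      (∀ s ∈ S, s • w = w) → w = 0) : NoFix n V := by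
  intro a b ha hb hab ha1 w haw hbw
  refine h _ w (not_isSolvable_closure_pair ha hb hab ha1) fun s hs => ?_
  have hle : Subgroup.closure ({a, b} : Set (alternatingGroup (Fin n))) ≤
      MulAction.stabilizer (alternatingGroup (Fin n)) w := by
    rw [Subgroup.closure_le]
    rintro _ (rfl | rfl)
    · exact haw
    · exact hbw
  exact hle hs

/-- A minimal covering group of the excluded alternating group does not exist. -/
theorem no_minimal {L : Type u} [Group L] [Finite L] {p k : ℕ} [Fact p.Prime] (hL : SolCent p L)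
    (f : L →* alternatingGroup (Fin (k + 5))) (hf : Function.Surjective f)
    (hmin : ∀ M : Subgroup L, M.map f = ⊤ → M = ⊤) (t₀ : Equiv.Perm (Fin k))
    (ht₀ : Equiv.Perm.sign t₀ = 1) (hord : orderOf t₀ = p)
    (hmod : (7 ≤ p) ∨ ∀ (V : Type u) [AddCommGroup V] [Finite V]
      [DistribMulAction (alternatingGroup (Fin (k + 5))) V], (∀ x : V, p • x = 0) →
        NoFix (k + 5) V → ∀ v : V, v = 0) : False := by
  have hp : p.Prime := Fact.out
  obtain ⟨Kp, hK⟩ := exists_kerData (p := p) f hf hmin
  obtain ⟨t, S, ht, hnc, hS, hcard, hcomm⟩ := exists_commuting_pair t₀ ht₀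
    (fun h => hp.ne_one (by rw [← hord, h, orderOf_one]))
  have hto : orderOf t = p ^ 1 := by rw [ht, hord, pow_one]
  rcases hmod with h7 | hmod
  · refine false_of_coprime hK hf hL hto hnc hS ?_ hcomm
    rw [hcard]
    intro hdvd
    have hle := Nat.le_of_dvd (by norm_num) hdvd
    interval_cases p <;> first | omega | norm_num at hdvd hp
  by_cases hc : Kp ≤ Subgroup.center L
  · exact false_of_central hK hf hL hc hto hnc hS hcomm
  · exact false_of_modules hK hf hL hc fun V _ _ _ hpV hfix => hmod V hpV (noFix_of_stabilizer hfix)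

/-- No excluded alternating group is involved. -/
theorem no_section {G : Type u} [Group G] [Finite G] {p k : ℕ} [Fact p.Prime] (hG : SolCent p G)
    {d : ℕ} (hd : k + 5 ≤ d) (hinv : Cfsg.Involves (alternatingGroup (Fin d)) G)
    (t₀ : Equiv.Perm (Fin k)) (ht₀ : Equiv.Perm.sign t₀ = 1) (hord : orderOf t₀ = p)
    (hmod : (7 ≤ p) ∨ ∀ (V : Type u) [AddCommGroup V] [Finite V]
      [DistribMulAction (alternatingGroup (Fin (k + 5))) V], (∀ x : V, p • x = 0) →
        NoFix (k + 5) V → ∀ v : V, v = 0) : False := by
  obtain ⟨K, R, hR, ⟨e⟩⟩ := hinv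
  haveI := hR
  obtain ⟨ι, hι⟩ := exists_alt_embedding hd
  let φ : K →* alternatingGroup (Fin d) := e.toMonoidHom.comp (QuotientGroup.mk' (R.subgroupOf K))
  have hφ : Function.Surjective φ := e.surjective.comp (QuotientGroup.mk'_surjective _)
  let M1 : Subgroup K := ι.range.comap φ
  let ψ : M1 →* alternatingGroup (Fin (k + 5)) :=
    (MonoidHom.ofInjective hι).symm.toMonoidHom.comp
      ((φ.comp M1.subtype).codRestrict ι.range fun x => x.2)
  have hψ : Function.Surjective ψ := by
    refine (MonoidHom.ofInjective hι).symm.surjective.comp fun y => ?_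
    obtain ⟨x, hx⟩ := hφ (y : alternatingGroup (Fin d))
    exact ⟨⟨x, show φ x ∈ ι.range by rw [hx]; exact y.2⟩, Subtype.ext hx⟩
  obtain ⟨M, hM, hmin⟩ := exists_minimal_surjection ψ hψ
  exact no_minimal (solCent_of_injective ((K.subtype.comp M1.subtype).comp M.subtype)
    (K.subtype_injective.comp (M1.subtype_injective.comp M.subtype_injective)) hG)
    (ψ.comp M.subtype) hM hmin t₀ ht₀ hord hmod

/-- Let G be a finite group and p a prime other than 3 such that the centralizer of every non-central element of p-power order is solvable. Then every alternating group of degree at least 5 involved in G (as a section) has degree at most p + 4, or at most p + 6 = 8 when p = 2. -/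
theorem result {G : Type*} [Group G] [Finite G] (p : ℕ) [Fact p.Prime] (hp3 : p ≠ 3)
    (h : ∀ x : G, x ∉ Subgroup.center G → (∃ k : ℕ, orderOf x = p ^ k) → Group.IsSolvable (Subgroup.centralizer ({x} : Set G)))
    (d : ℕ) (hd : 5 ≤ d) (hinv : Cfsg.Involves (alternatingGroup (Fin d)) G) :
    d ≤ p + 4 + (if p = 2 then 2 else 0) := by
  have hp : p.Prime := Fact.out
  by_contra hlt
  rcases eq_or_ne p 2 with rfl | hp2
  · simp at hlt
    refine no_section (k := 4) h (d := d) (by omega) hinv (Equiv.swap 0 1 * Equiv.swap 2 3)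
      (by decide) (orderOf_eq_prime (by decide) (by decide)) (Or.inr ?_)
    intro V _ _ _ hpV hX v
    exact eq_zero_two hpV hX v
  rw [if_neg hp2] at hlt
  have hodd : Odd p := hp.odd_of_ne_two hp2
  have h2 : 2 ≤ p := hp.two_le
  have hsign : Equiv.Perm.sign (finRotate p) = 1 := by
    rw [sign_finRotate, Even.neg_one_pow (Nat.Odd.sub_odd hodd odd_one)]
  have hord : orderOf (finRotate p) = p := by
    rw [(isCycle_finRotate_of_le h2).orderOf, support_finRotate_of_le h2, Finset.card_univ,
      Fintype.card_fin]
  rcases eq_or_ne p 5 with rfl | hp5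
  · refine no_section (k := 5) h (d := d) (by omega) hinv (finRotate 5) hsign hord (Or.inr ?_)
    intro V _ _ _ hpV hX v
    exact eq_zero_five hpV hX v
  · have h7 : 7 ≤ p := by
      by_contra h7
      interval_cases p <;> first | omega | norm_num at hp
    exact no_section (k := p) h (d := d) (by omega) hinv (finRotate p) hsign hord (Or.inl h7)

end Cfsg.Agent.S4100
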