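import Cfsg.Statements.S4106
import Mathlib

set_option autoImplicit false
open Cfsg

namespace Cfsg.Agent.S4106

universe u

/-- Orders involving only primes from `σ`. -/
def OnlyPrimes {G : Type*} [Group G] (σ : Finset ℕ) (x : G) : Prop :=
  ∀ q : ℕ, q.Prime → q ∣ orderOf x → q ∈ σ

theorem onlyPrimes_of_conj {G : Type*} [Group G] {σ : Finset ℕ} {x y : G} (h : IsConj x y)
    (hx : OnlyPrimes σ x) : OnlyPrimes σ y := by
  obtain ⟨g, rfl⟩ := isConj_iff.1 h
  intro q hq hd
  refine hx q hq ?_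
  have : orderOf (g * x * g⁻¹) = orderOf x :=
    orderOf_injective (MulAut.conj g).toMonoidHom (MulAut.conj g).injective x
  rwa [this] at hd

/-- Split a `σ ∪ {p}`-element into its `p`-part and its `σ`-part. -/
theorem split {G : Type*} [Group G] [Finite G] {p : ℕ} (hp : p.Prime) {σ : Finset ℕ} {x : G}
    (hx : OnlyPrimes (insert p σ) x) :
    ∃ a b : G, a * b = x ∧ b * a = a * b ∧ (∃ i, a ^ p ^ i = 1) ∧ OnlyPrimes σ b := by
  obtain ⟨i, r, hr, hn⟩ := Nat.exists_eq_pow_mul_and_not_dvd (orderOf_pos x).ne' p hp.ne_one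
  have hcop : (p ^ i).Coprime r := ((hp.coprime_iff_not_dvd).2 hr).pow_left i
  obtain ⟨e, he1, he2⟩ := Nat.chineseRemainder hcop 1 0
  obtain ⟨f, hf1, hf2⟩ := Nat.chineseRemainder hcop 0 1
  refine ⟨x ^ e, x ^ f, ?_, ?_, ⟨i, ?_⟩, ?_⟩
  · rw [← pow_add]
    conv_rhs => rw [← pow_one x]
    rw [pow_eq_pow_iff_modEq, hn]
    exact (Nat.modEq_and_modEq_iff_modEq_mul hcop).1 ⟨by simpa using he1.add hf1, by simpa using he2.add hf2⟩
  · rw [← pow_add, ← pow_add, add_comm]
  · rw [← pow_mul, ← orderOf_dvd_iff_pow_eq_one, hn, mul_comm e]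
    exact Nat.mul_dvd_mul_left _ (Nat.modEq_zero_iff_dvd.1 he2)
  · intro q hq hd
    have h1 : orderOf (x ^ f) ∣ r := by
      refine orderOf_dvd_of_pow_eq_one ?_
      rw [← pow_mul, ← orderOf_dvd_iff_pow_eq_one, hn]
      exact Nat.mul_dvd_mul_right (Nat.modEq_zero_iff_dvd.1 hf1) r
    rcases Finset.mem_insert.1 (hx q hq (hd.trans (orderOf_pow_dvd f))) with h | h
    · exact absurd (h ▸ hd.trans h1) hr
    · exact h

theorem bound (σ : Finset ℕ) : (∀ q ∈ σ, q.Prime) → ∀ (G : Type u) [Group G] [Finite G],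
    Nat.card {C : ConjClasses G // ∃ x : G, ConjClasses.mk x = C ∧ OnlyPrimes σ x} ≤
      ∏ q ∈ σ, q ^ (Nat.card G).factorization q := by
  induction σ using Finset.induction with
  | empty =>
    intro _ G _ _
    rw [Finset.prod_empty, Finite.card_le_one_iff_subsingleton]
    refine ⟨?_⟩
    rintro ⟨C, x, rfl, hx⟩ ⟨D, y, rfl, hy⟩
    have h1 : ∀ z : G, OnlyPrimes (∅ : Finset ℕ) z → z = 1 := by
      intro z hz
      by_contra hne
      obtain ⟨q, hq, hqd⟩ := Nat.exists_prime_and_dvd (fun h => hne (orderOf_eq_one_iff.1 h))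
      exact absurd (hz q hq hqd) (Finset.notMem_empty q)
    exact Subtype.ext (show ConjClasses.mk x = ConjClasses.mk y by rw [h1 x hx, h1 y hy])
  | insert p σ hpσ ih =>
    intro hprime G _ _
    classical
    have hp : p.Prime := hprime p (Finset.mem_insert_self _ _)
    haveI := Fact.mk hp
    have hσ : ∀ q ∈ σ, q.Prime := fun q hq => hprime q (Finset.mem_insert_of_mem hq)
    let P : Sylow p G := default
    let D := {C : ConjClasses G // ∃ a : (P : Subgroup G), ConjClasses.mk (a : G) = C}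
    let rep : D → G := fun d => d.2.choose
    have hrep : ∀ d : D, ConjClasses.mk (rep d) = d.1 := fun d => d.2.choose_spec
    let T := Σ d : D, {C : ConjClasses (Subgroup.centralizer ({rep d} : Set G)) //
      ∃ b, ConjClasses.mk b = C ∧ OnlyPrimes σ b}
    let back : T → ConjClasses G := fun t =>
      ConjClasses.mk (rep t.1 * (t.2.2.choose : G))
    have hsurj : ∀ C : {C : ConjClasses G // ∃ x : G, ConjClasses.mk x = C ∧ OnlyPrimes (insert p σ) x},
        ∃ t : T, back t = C.1 := by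
      rintro ⟨C, x, rfl, hx⟩
      obtain ⟨a, b, hab, hcomm, ⟨i, hi⟩, hb⟩ := split hp hx
      have hpa : IsPGroup p (Subgroup.zpowers a) := fun y => by
        obtain ⟨j, hj⟩ := Subgroup.mem_zpowers_iff.1 y.2
        refine ⟨i, Subtype.ext ?_⟩
        rw [SubgroupClass.coe_pow, ← hj, ← zpow_natCast, ← zpow_mul, mul_comm, zpow_mul, zpow_natCast, hi]
        simp
      obtain ⟨Q, hQ⟩ := hpa.exists_le_sylow
      obtain ⟨g, hg⟩ := MulAction.exists_smul_eq G Q P
      have haP : g * a * g⁻¹ ∈ (P : Subgroup G) := by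
        rw [← hg, Sylow.coe_subgroup_smul]
        exact Subgroup.smul_mem_pointwise_smul a (MulAut.conj g) _ (hQ (Subgroup.mem_zpowers a))
      let d : D := ⟨ConjClasses.mk (g * a * g⁻¹), ⟨⟨_, haP⟩, rfl⟩⟩
      obtain ⟨k, hk⟩ := isConj_iff.1 (ConjClasses.mk_eq_mk_iff_isConj.1 (hrep d).symm)
      set c := k * g
      have hca : c * a * c⁻¹ = rep d := by rw [← hk]; simp [c, mul_assoc]
      have hmem : c * b * c⁻¹ ∈ Subgroup.centralizer ({rep d} : Set G) := by
        rw [Subgroup.mem_centralizer_singleton_iff, ← hca]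
        calc c * b * c⁻¹ * (c * a * c⁻¹) = c * (b * a) * c⁻¹ := by group
          _ = c * (a * b) * c⁻¹ := by rw [hcomm]
          _ = c * a * c⁻¹ * (c * b * c⁻¹) := by group
      have hb' : OnlyPrimes σ (⟨c * b * c⁻¹, hmem⟩ : Subgroup.centralizer ({rep d} : Set G)) := by
        intro q hq hd
        rw [Subgroup.orderOf_mk] at hd
        exact onlyPrimes_of_conj (isConj_iff.2 ⟨c, rfl⟩) hb q hq hd
      let t2 : {C : ConjClasses (Subgroup.centralizer ({rep d} : Set G)) //
          ∃ b, ConjClasses.mk b = C ∧ OnlyPrimes σ b} := ⟨_, _, rfl, hb'⟩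
      refine ⟨⟨d, t2⟩, ?_⟩
      show ConjClasses.mk (rep d * (t2.2.choose : G)) = ConjClasses.mk x
      rw [ConjClasses.mk_eq_mk_iff_isConj]
      obtain ⟨w, hw⟩ := isConj_iff.1 (ConjClasses.mk_eq_mk_iff_isConj.1 t2.2.choose_spec.1)
      have hw' : (w : G) * (t2.2.choose : G) * (w : G)⁻¹ = c * b * c⁻¹ := by
        simpa using congrArg Subtype.val hw
      have hwd : (w : G) * rep d * (w : G)⁻¹ = rep d := by
        rw [Subgroup.mem_centralizer_singleton_iff.1 w.2, mul_inv_cancel_right]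
      refine isConj_iff.2 ⟨c⁻¹ * w, ?_⟩
      calc c⁻¹ * w * (rep d * (t2.2.choose : G)) * (c⁻¹ * w)⁻¹
          = c⁻¹ * ((w * rep d * (w : G)⁻¹) * (w * (t2.2.choose : G) * (w : G)⁻¹)) * c := by group
        _ = c⁻¹ * (rep d * (c * b * c⁻¹)) * c := by rw [hwd, hw']
        _ = x := by rw [← hca, ← hab]; group
    have h1 : Nat.card {C : ConjClasses G // ∃ x : G, ConjClasses.mk x = C ∧ OnlyPrimes (insert p σ) x} ≤ Nat.card T := by
      choose t ht using hsurj
      refine Nat.card_le_card_of_injective t fun C C' h => Subtype.ext ?_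
      rw [← ht C, ← ht C', h]
    have h2 : Nat.card D ≤ p ^ (Nat.card G).factorization p := by
      rw [← P.card_eq_multiplicity]
      exact Nat.card_le_card_of_surjective (fun a : (P : Subgroup G) => (⟨ConjClasses.mk (a : G), a, rfl⟩ : D))
        (fun d => ⟨d.2.choose, Subtype.ext d.2.choose_spec⟩)
    refine h1.trans ?_
    haveI : Fintype D := Fintype.ofFinite D
    rw [show Nat.card T = _ from Nat.card_sigma, Finset.prod_insert hpσ]
    calc ∑ d : D, Nat.card {C : ConjClasses (Subgroup.centralizer ({rep d} : Set G)) // ∃ b, ConjClasses.mk b = C ∧ OnlyPrimes σ b}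
        ≤ ∑ _d : D, ∏ q ∈ σ, q ^ (Nat.card G).factorization q := by
          refine Finset.sum_le_sum fun d _ => (ih hσ _).trans (Finset.prod_le_prod' fun q hq => ?_)
          exact Nat.pow_le_pow_right (hσ q hq).pos
            ((Nat.factorization_le_iff_dvd Nat.card_pos.ne' Nat.card_pos.ne').2 (Subgroup.card_subgroup_dvd_card _) q)
      _ = Nat.card D * ∏ q ∈ σ, q ^ (Nat.card G).factorization q := by
          rw [Finset.sum_const, smul_eq_mul, Finset.card_univ, Nat.card_eq_fintype_card (α := D)]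
      _ ≤ _ := Nat.mul_le_mul_right _ h2

/-- Let G be a finite group, π a set of primes and m the π-part of the order of G. Then the number of conjugacy classes of G consisting of π-elements (elements whose order is divisible only by primes in π) is at most m. -/
theorem result {G : Type*} [Group G] [Finite G]
    (π : Set ℕ) (hπ : ∀ q ∈ π, q.Prime)
    (m : ℕ) (hm : m ∣ Nat.card G) (hmπ : ∀ q : ℕ, q.Prime → q ∣ m → q ∈ π)
    (hm' : ∀ q ∈ π, ¬ q ∣ Nat.card G / m) :
    Nat.card {C : ConjClasses G // ∀ q : ℕ, q.Prime → (∃ g : G, ConjClasses.mk g = C ∧ q ∣ orderOf g) → q ∈ π} ≤ m := by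
  classical
  set σ := (Nat.card G).primeFactors.filter (· ∈ π) with hσ
  have hG : Nat.card G ≠ 0 := Nat.card_pos.ne'
  have hsub : ∀ C : ConjClasses G, (∀ q : ℕ, q.Prime → (∃ g : G, ConjClasses.mk g = C ∧ q ∣ orderOf g) → q ∈ π) →
      ∃ x : G, ConjClasses.mk x = C ∧ OnlyPrimes σ x := by
    intro C hC
    obtain ⟨x, rfl⟩ := C.exists_rep
    exact ⟨x, rfl, fun q hq hd => Finset.mem_filter.2
      ⟨Nat.mem_primeFactors.2 ⟨hq, hd.trans (orderOf_dvd_natCard x), hG⟩, hC q hq ⟨x, rfl, hd⟩⟩⟩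
  refine le_trans (Nat.card_le_card_of_injective
    (fun C : {C : ConjClasses G // ∀ q : ℕ, q.Prime → (∃ g : G, ConjClasses.mk g = C ∧ q ∣ orderOf g) → q ∈ π} =>
      (⟨C.1, hsub C.1 C.2⟩ : {C : ConjClasses G // ∃ x : G, ConjClasses.mk x = C ∧ OnlyPrimes σ x})) ?_) ?_
  · intro a b h
    exact Subtype.ext (congrArg (fun C : {C : ConjClasses G // ∃ x : G, ConjClasses.mk x = C ∧ OnlyPrimes σ x} => C.1) h)
  refine (bound σ (fun q hq => Nat.prime_of_mem_primeFactors (Finset.mem_filter.1 hq).1) G).trans ?_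
  have hm0 : m ≠ 0 := fun h => hG (by rw [h] at hm; exact zero_dvd_iff.1 hm)
  refine Nat.le_of_dvd (Nat.pos_of_ne_zero hm0) (Finset.prod_dvd_of_isRelPrime ?_ ?_)
  · intro a ha b hb hab
    exact Nat.coprime_iff_isRelPrime.1 (Nat.Coprime.pow _ _ ((Nat.coprime_primes (Nat.prime_of_mem_primeFactors (Finset.mem_filter.1 ha).1)
      (Nat.prime_of_mem_primeFactors (Finset.mem_filter.1 hb).1)).2 hab))
  · intro q hq
    obtain ⟨hq1, hq2⟩ := Finset.mem_filter.1 hq
    have hqp := Nat.prime_of_mem_primeFactors hq1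
    refine (hqp.pow_dvd_iff_le_factorization hm0).2 ?_
    obtain ⟨c, hc⟩ := hm
    have hc0 : c ≠ 0 := fun h => hG (by rw [hc, h, mul_zero])
    have hnd : ¬ q ∣ c := by
      have := hm' q hq2
      rwa [hc, Nat.mul_div_cancel_left c (Nat.pos_of_ne_zero hm0)] at this
    rw [hc, Nat.factorization_mul hm0 hc0, Finsupp.add_apply, Nat.factorization_eq_zero_of_not_dvd hnd, add_zero]

end Cfsg.Agent.S4106
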