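import Cfsg.Statements.S4107
import Cfsg.Agent.Eq.Def_Solvable
import Mathlib

set_option autoImplicit false
open Cfsg

namespace Cfsg.Agent.S4107

variable {G : Type*} [Group G] [Finite G]

theorem exists_normal_pgroup_not_le (N : Subgroup G) {K : Subgroup G} (hK : K.Normal)
    (hnil : Group.IsNilpotent K) (hKN : ¬ K ≤ N) :
    ∃ (q : ℕ) (T : Subgroup G), q.Prime ∧ T.Normal ∧ IsPGroup q T ∧ T ≤ K ∧ ¬ T ≤ N := by
  by_contra hcon
  push Not at hcon
  apply hKN
  rw [← Subgroup.subgroupOf_eq_top, ← Subgroup.index_eq_one]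
  by_contra hne
  obtain ⟨q, hq, hqd⟩ := Nat.exists_prime_and_dvd hne
  haveI := Fact.mk hq
  let P : Sylow q K := default
  have hPn : (P : Subgroup K).Normal :=
    Sylow.normal_of_normalizerCondition Group.normalizerCondition_of_isNilpotent P
  haveI := P.characteristic_of_normal hPn
  haveI := hK
  have hT := hcon q ((P : Subgroup K).map K.subtype) hq inferInstance (P.isPGroup'.map _) (Subgroup.map_subtype_le _)
  have hle : (P : Subgroup K) ≤ N.subgroupOf K := fun x hx =>
    Subgroup.mem_subgroupOf.2 (hT (Subgroup.mem_map_of_mem _ hx))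
  exact P.not_dvd_index (hqd.trans (Subgroup.index_dvd_of_le hle))

omit [Finite G] in
theorem le_fitting {N : Subgroup G} (hn : N.Normal) (h : Group.IsNilpotent N) : N ≤ fittingSubgroup G :=
  le_sSup ⟨hn, h⟩

theorem isPGroup_of_coset_orders {N T : Subgroup G} [N.Normal] [T.Normal] {p : ℕ} [Fact p.Prime]
    (hT : IsPGroup p T) {x : G} (hxT : x ∈ T) (hxN : x ∉ N)
    (heq : ∀ x : G, x ∉ N → ∀ n ∈ N, orderOf (x * n) = orderOf x) : IsPGroup p N := by
  intro n
  obtain ⟨k, hk⟩ := IsPGroup.iff_orderOf.1 hT ⟨x, hxT⟩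
  rw [Subgroup.orderOf_mk] at hk
  have h := orderOf_map_dvd (QuotientGroup.mk' T) (x * (n : G))
  rw [heq x hxN n n.2, hk, map_mul, QuotientGroup.mk'_apply, (QuotientGroup.eq_one_iff x).2 hxT, one_mul] at h
  have h2 : (n : G) ^ p ^ k ∈ T := by
    rw [← QuotientGroup.eq_one_iff, QuotientGroup.mk_pow]
    exact orderOf_dvd_iff_pow_eq_one.1 h
  obtain ⟨j, hj⟩ := hT ⟨_, h2⟩
  refine ⟨k + j, Subtype.ext ?_⟩
  rw [SubgroupClass.coe_pow, pow_add, pow_mul]
  simpa using congrArg Subtype.val hj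

/-- Let G be a finite group and N a proper non-trivial normal subgroup such that for every x outside N all elements of the coset xN have the same order as x. Then N ≤ F(G) or F(G) ≤ N, where F(G) is the Fitting subgroup; and if N is properly contained in F(G) then F(G) has prime-power order. -/
theorem result {G : Type*} [Group G] [Finite G] (N : Subgroup G) [N.Normal] (hN1 : N ≠ ⊥) (hN2 : N ≠ ⊤)
    (heq : ∀ x : G, x ∉ N → ∀ n ∈ N, orderOf (x * n) = orderOf x) :
    (N ≤ Cfsg.fittingSubgroup G ∨ Cfsg.fittingSubgroup G ≤ N) ∧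
    (N < Cfsg.fittingSubgroup G → IsPrimePow (Nat.card (Cfsg.fittingSubgroup G))) := by
  have hmain : ∀ {q : ℕ} {T : Subgroup G}, q.Prime → T.Normal → IsPGroup q T → ¬ T ≤ N → IsPGroup q N := by
    intro q T hq hTn hT hTN
    obtain ⟨x, hxT, hxN⟩ := SetLike.not_le_iff_exists.1 hTN
    haveI := Fact.mk hq
    haveI := hTn
    exact isPGroup_of_coset_orders hT hxT hxN heq
  by_cases hF : fittingSubgroup G ≤ N
  · exact ⟨Or.inr hF, fun h => absurd hF h.not_ge⟩
  obtain ⟨K, ⟨hKn, hKnil⟩, hKN⟩ : ∃ K : Subgroup G, (K.Normal ∧ Group.IsNilpotent K) ∧ ¬ K ≤ N := by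
    by_contra hcon
    push Not at hcon
    exact hF (sSup_le fun K hK => hcon K hK)
  obtain ⟨p, T, hp, hTn, hT, hTK, hTN⟩ := exists_normal_pgroup_not_le N hKn hKnil hKN
  haveI := Fact.mk hp
  have hNp : IsPGroup p N := hmain hp hTn hT hTN
  have hNle : N ≤ fittingSubgroup G := le_fitting inferInstance hNp.isNilpotent
  refine ⟨Or.inl hNle, fun _ => ?_⟩
  have hsmall : ∀ {q : ℕ} {U : Subgroup G}, q.Prime → q ≠ p → U.Normal → IsPGroup q U → U = ⊥ := by
    intro q U hq hqp hUn hU
    by_contra hne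
    haveI := Fact.mk hq
    by_cases hUN : U ≤ N
    · exact hne ((disjoint_self.1 (IsPGroup.disjoint_of_ne p q hqp.symm U U (hNp.to_le hUN) hU)))
    · exact hN1 ((disjoint_self.1 (IsPGroup.disjoint_of_ne q p hqp N N (hmain hq hUn hU hUN) hNp)))
  let P : Sylow p G := default
  have hFP : fittingSubgroup G ≤ (P : Subgroup G) := by
    refine sSup_le ?_
    rintro L ⟨hLn, hLnil⟩
    by_contra hLP
    have hcore : ¬ L ≤ (P : Subgroup G).normalCore := fun h => hLP (h.trans (Subgroup.normalCore_le _))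
    obtain ⟨q, U, hq, hUn, hU, -, hUP⟩ := exists_normal_pgroup_not_le _ hLn hLnil hcore
    haveI := hUn
    rcases eq_or_ne q p with rfl | hqp
    · exact hUP (Subgroup.normal_le_normalCore.2 ((le_sup_left).trans_eq (P.is_maximal' (IsPGroup.to_sup_of_normal_left hU P.isPGroup') le_sup_right)))
    · exact hUP (by rw [hsmall hq hqp hUn hU]; exact bot_le)
  obtain ⟨k, hk⟩ := IsPGroup.iff_card.1 (P.isPGroup'.to_le hFP)
  refine (isPrimePow_nat_iff _).2 ⟨p, k, hp, ?_, hk.symm⟩
  rcases Nat.eq_zero_or_pos k with h0 | h0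
  · exfalso
    rw [h0, pow_zero, Subgroup.card_eq_one] at hk
    exact hN1 (le_bot_iff.1 (hNle.trans hk.le))
  · exact h0

end Cfsg.Agent.S4107
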