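import Cfsg.Statements.S4108

import Cfsg.Agent.Frobenius.Complement
set_option autoImplicit false
open Cfsg

namespace Cfsg.Agent.S4108

open CfsgLib.Frobenius


/-- Let G be a finite group, p a prime and N a proper non-trivial normal p-subgroup such that for every x outside N all elements of the coset xN have the same order as x. Then every non-trivial subgroup H of G of order prime to p acts fixed-point-freely on N: NH is a Frobenius group with complement H and kernel N. -/
theorem result {G : Type*} [Group G] [Finite G] (N : Subgroup G) [N.Normal] (hN1 : N ≠ ⊥) (hN2 : N ≠ ⊤)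
    (heq : ∀ x : G, x ∉ N → ∀ n ∈ N, orderOf (x * n) = orderOf x)
    (p : ℕ) [Fact p.Prime] (hNp : IsPGroup p N) :
    ∀ H : Subgroup G, H ≠ ⊥ → (Nat.card H).Coprime p →
      Cfsg.IsFrobeniusComplement (H.subgroupOf (N ⊔ H)) ∧ Cfsg.frobeniusKernel (H.subgroupOf (N ⊔ H)) = (N.subgroupOf (N ⊔ H) : Set ↥(N ⊔ H)) := by
  intro H hH1 hHp
  have hpN : ∀ x ∈ N, ∃ k, x ^ p ^ k = 1 := fun x hx => by
    obtain ⟨k, hk⟩ := hNp ⟨x, hx⟩
    exact ⟨k, congrArg Subtype.val hk⟩
  have hinf : ∀ x ∈ N, x ∈ H → x = 1 := by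
    intro x hx hxH
    obtain ⟨k, hk⟩ := hpN x hx
    rw [← orderOf_eq_one_iff]
    exact Nat.eq_one_of_dvd_coprimes ((Nat.Coprime.pow_left k) hHp.symm)
      (orderOf_dvd_of_pow_eq_one hk) (Subgroup.orderOf_dvd_natCard H hxH)
  have hfpf : ∀ h ∈ H, h ≠ 1 → ∀ n ∈ N, h * n * h⁻¹ = n → n = 1 := by
    intro h hh h1 n hn e
    have hN : h ∉ N := fun hhN => h1 (hinf h hhN hh)
    have hc : Commute h n := mul_inv_eq_iff_eq_mul.1 e
    obtain ⟨k, hk⟩ := hpN n hn
    have hco : (orderOf h).Coprime (orderOf n) :=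
      ((hHp.coprime_dvd_left (Subgroup.orderOf_dvd_natCard H hh)).pow_right k).coprime_dvd_right
        (orderOf_dvd_of_pow_eq_one hk)
    have h2 := heq h hN n hn
    rw [hc.orderOf_mul_eq_mul_orderOf_of_coprime hco] at h2
    exact orderOf_eq_one_iff.1 (Nat.eq_of_mul_eq_mul_left (orderOf_pos h) (h2.trans (mul_one _).symm))
  set F := N ⊔ H
  set A := H.subgroupOf F with hA
  set K := N.subgroupOf F with hK
  have hmemA : ∀ a : F, a ∈ A ↔ (a : G) ∈ H := fun a => Iff.rfl
  have hdec : ∀ a : F, ∃ n ∈ N, ∃ h ∈ H, n * h = (a : G) := fun a =>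
    Subgroup.mem_sup_of_normal_left.1 a.2
  have hFC : Cfsg.IsFrobeniusComplement A := by
    rw [isFrobeniusComplement_iff]
    refine ⟨?_, ?_, ?_⟩
    · rw [hA, Ne, Subgroup.subgroupOf_eq_bot, disjoint_iff, inf_eq_left.2 le_sup_right]
      exact hH1
    · rw [hA, Ne, Subgroup.subgroupOf_eq_top]
      intro hle
      apply hN1
      rw [Subgroup.eq_bot_iff_forall]
      exact fun x hx => hinf x hx (hle (Subgroup.mem_sup_left hx))
    · intro g a ha a1 hc
      rw [hmemA] at ha hc ⊢
      obtain ⟨n, hn, h, hh, e⟩ := hdec g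
      simp only [Subgroup.coe_mul, Subgroup.coe_inv, ← e] at hc
      set b := h * (a : G) * h⁻¹ with hb
      have hbH : b ∈ H := H.mul_mem (H.mul_mem hh ha) (H.inv_mem hh)
      have hb1 : b ≠ 1 := fun e => a1 (Subtype.ext (conj_eq_one_iff.1 e))
      have hc' : n * b * n⁻¹ ∈ H := by convert hc using 1; rw [hb]; group
      have h1 : n * b * n⁻¹ * b⁻¹ = 1 := by
        refine hinf _ ?_ (H.mul_mem hc' (H.inv_mem hbH))
        have := N.mul_mem hn ((inferInstance : N.Normal).conj_mem _ (N.inv_mem hn) b)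
        simpa [mul_assoc] using this
      have hn1 : n = 1 := by
        refine hfpf b hbH hb1 n hn ?_
        rw [mul_inv_eq_one, mul_inv_eq_iff_eq_mul] at h1
        exact mul_inv_eq_iff_eq_mul.2 h1.symm
      rw [← e, hn1, one_mul]
      exact hh
  refine ⟨hFC, (coe_eq_frobeniusKernel hFC inferInstance ?_ ?_).symm⟩
  · have hi : K ⊓ A = ⊥ := by
      rw [Subgroup.eq_bot_iff_forall]
      exact fun x hx => Subtype.ext (hinf x hx.1 hx.2)
    have hs : K ⊔ A = ⊤ := by
      rw [eq_top_iff]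
      intro a _
      obtain ⟨n, hn, h, hh, e⟩ := hdec a
      have : a = (⟨n, Subgroup.mem_sup_left hn⟩ : F) * ⟨h, Subgroup.mem_sup_right hh⟩ :=
        Subtype.ext e.symm
      rw [this]
      exact mul_mem (Subgroup.mem_sup_left hn) (Subgroup.mem_sup_right hh)
    have hcomp : K.IsComplement' A := Subgroup.isComplement'_of_disjoint_and_mul_eq_univ
      (disjoint_iff.2 hi) (by rw [← Subgroup.normal_mul, hs]; rfl)
    exact (Subgroup.IsComplement'.index_eq_card hcomp).symm ▸ rfl
  · rw [Subgroup.eq_bot_iff_forall]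
    exact fun x hx => Subtype.ext (hinf x hx.1 hx.2)

end Cfsg.Agent.S4108
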