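import Cfsg.Statements.S4112
import Mathlib

set_option autoImplicit false
open Cfsg

namespace Cfsg.Agent.S4112

variable {G : Type*} [Group G] [Finite G]

theorem coprime_of_fpf (N M : Subgroup G) [N.Normal] [M.Normal]
    (hfpf : ∀ x ∈ M, x ≠ 1 → Subgroup.centralizer ({x} : Set G) ≤ N) : N.index.Coprime (Nat.card M) := by
  classical
  refine Nat.coprime_of_dvd fun p hp hpN hpM => ?_
  haveI := Fact.mk hp
  obtain ⟨m, hm⟩ := exists_prime_orderOf_dvd_card' (G := M) p hpM
  obtain ⟨P, hP⟩ := ((IsPGroup.of_card (n := 1) (p := p)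
      (by rw [Nat.card_zpowers, Subgroup.orderOf_coe, hm, pow_one])).exists_le_sylow :
        ∃ P : Sylow p G, Subgroup.zpowers (m : G) ≤ P)
  have hmP : (m : G) ∈ (P : Subgroup G) := hP (Subgroup.mem_zpowers _)
  have hm1 : (m : G) ≠ 1 := fun h => by
    rw [← Subgroup.orderOf_coe, h, orderOf_one] at hm
    exact hp.one_lt.ne hm
  -- the intersection with M as a set acted upon by P
  let X : Subgroup (P : Subgroup G) := M.subgroupOf (P : Subgroup G)
  haveI : X.Normal := inferInstance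
  have hX : X ≠ ⊥ := fun h => hm1 (by
    have : (⟨(m : G), hmP⟩ : (P : Subgroup G)) ∈ X := m.2
    rw [h, Subgroup.mem_bot] at this
    exact congrArg Subtype.val this)
  obtain ⟨z, hzX, hz1, hzc⟩ : ∃ z ∈ X, z ≠ 1 ∧ ∀ a : (P : Subgroup G), a * z = z * a := by
    haveI : Nontrivial X := (Subgroup.nontrivial_iff_ne_bot _).2 hX
    have hXp : IsPGroup p (ConjAct (P : Subgroup G)) := P.isPGroup'.of_equiv ConjAct.toConjAct
    have h1 : (1 : X) ∈ MulAction.fixedPoints (ConjAct (P : Subgroup G)) X := by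
      intro a
      exact Subtype.ext (by simp [ConjAct.Subgroup.val_conj_smul, ConjAct.smul_def])
    have hdv : p ∣ Nat.card X := by
      obtain ⟨k, hk⟩ := IsPGroup.iff_card.1 (P.isPGroup'.to_subgroup X)
      have hk0 : k ≠ 0 := fun h => hX (Subgroup.card_eq_one.1 (by rw [hk, h, pow_zero]))
      exact hk ▸ dvd_pow_self p hk0
    obtain ⟨z, hz, hne⟩ := hXp.exists_fixed_point_of_prime_dvd_card_of_fixed_point X hdv h1
    refine ⟨z, z.2, fun h => hne (Subtype.ext h.symm), fun a => ?_⟩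
    have := congrArg Subtype.val (hz (ConjAct.toConjAct a))
    simp only [ConjAct.Subgroup.val_conj_smul, ConjAct.smul_def, ConjAct.ofConjAct_toConjAct] at this
    exact mul_inv_eq_iff_eq_mul.1 this
  have hPN : (P : Subgroup G) ≤ N := by
    intro a ha
    refine hfpf _ hzX (fun h => hz1 (Subtype.ext h)) ?_
    rw [Subgroup.mem_centralizer_singleton_iff]
    exact congrArg Subtype.val (hzc ⟨a, ha⟩)
  exact P.not_dvd_index (hpN.trans (Subgroup.index_dvd_of_le hPN))

theorem fpf_of_coprime (N M : Subgroup G) [N.Normal] [M.Normal]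
    (hcam : ∀ g : G, g ∉ N → ∀ m ∈ M, ∃ x : G, x * g * x⁻¹ = g * m)
    (hco : N.index.Coprime (Nat.card M)) :
    ∀ x ∈ M, x ≠ 1 → Subgroup.centralizer ({x} : Set G) ≤ N := by
  intro x hx hx1 g hg
  by_contra hgN
  obtain ⟨q, hq, hqx⟩ := Nat.exists_prime_and_dvd (fun h => hx1 (orderOf_eq_one_iff.1 h))
  set y := x ^ (orderOf x / q) with hy
  have hyo : orderOf y = q := orderOf_pow_orderOf_div (orderOf_pos x).ne' hqx
  have hyM : y ∈ M := M.pow_mem hx _
  have hgy : Commute g y := Commute.pow_right (show Commute g x from Subgroup.mem_centralizer_singleton_iff.1 hg) _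
  have hqM : q ∣ Nat.card M := hyo ▸ Subgroup.orderOf_dvd_natCard M hyM
  obtain ⟨i, r, hr, hn⟩ := Nat.exists_eq_pow_mul_and_not_dvd (orderOf_pos g).ne' q hq.ne_one
  set g' := g ^ q ^ i with hg'
  have hg'o : orderOf g' = r := by
    rw [hg', orderOf_pow_of_dvd (pow_ne_zero _ hq.ne_zero) (hn ▸ dvd_mul_right _ _), hn,
      Nat.mul_div_cancel_left _ (pow_pos hq.pos _)]
  have hg'N : g' ∉ N := by
    intro h
    apply hgN
    rw [← QuotientGroup.eq_one_iff] at h ⊢
    rw [hg', QuotientGroup.mk_pow, ← orderOf_dvd_iff_pow_eq_one] at h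
    rw [← orderOf_eq_one_iff]
    refine Nat.eq_one_of_dvd_coprimes ?_ h ((orderOf_dvd_natCard _).trans (dvd_of_eq rfl))
    rw [← Subgroup.index_eq_card]
    exact ((hq.coprime_iff_not_dvd).2 fun hd => hq.one_lt.ne' (Nat.eq_one_of_dvd_coprimes hco hd hqM)).pow_left i
  obtain ⟨z, hz⟩ := hcam g' hg'N y hyM
  have hcomm : Commute g' y := hgy.pow_left _
  have h1 : orderOf (g' * y) = r * q := by
    rw [hcomm.orderOf_mul_eq_mul_orderOf_of_coprime, hg'o, hyo]
    rw [hg'o, hyo]
    exact ((hq.coprime_iff_not_dvd).2 hr).symm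
  have h2 : orderOf (z * g' * z⁻¹) = r := by
    rw [← hg'o]
    exact orderOf_injective (MulAut.conj z).toMonoidHom (MulAut.conj z).injective g'
  rw [hz, h1] at h2
  have : 0 < r := hg'o ▸ orderOf_pos g'
  nlinarith [hq.one_lt]

theorem exists_supplement (N M : Subgroup G) [N.Normal]
    (hco : N.index.Coprime (Nat.card M)) : ∃ H : Subgroup G, H ⊔ N = ⊤ ∧ H ⊓ M = ⊥ := by
  obtain ⟨H, -, hH, hmin⟩ := Finite.exists_le_minimal (p := fun H : Subgroup G => H ⊔ N = ⊤)
    (a := (⊤ : Subgroup G)) (top_sup_eq N)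
  refine ⟨H, hH, Subgroup.inf_eq_bot_of_coprime ?_⟩
  refine Nat.coprime_of_dvd fun q hq hqH hqM => ?_
  haveI := Fact.mk hq
  set Nh := N.subgroupOf H with hNh
  have hidx : Nh.index ∣ N.index := Subgroup.relIndex_dvd_index_of_normal N H
  have hqi : ¬ q ∣ Nh.index := fun hd => hq.one_lt.ne' (Nat.eq_one_of_dvd_coprimes hco (hd.trans hidx) hqM)
  let Q0 : Sylow q Nh := default
  obtain ⟨Q, hQ⟩ : ∃ Q : Sylow q H, (Q : Subgroup H) = (Q0 : Subgroup Nh).map Nh.subtype := by
    have hp : IsPGroup q ((Q0 : Subgroup Nh).map Nh.subtype) := Q0.isPGroup'.map _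
    obtain ⟨Q, hQ⟩ := hp.exists_le_sylow
    refine ⟨Q, (Subgroup.eq_of_le_of_card_ge hQ ?_).symm⟩
    rw [Subgroup.card_map_of_injective Nh.subtype_injective, Q.card_eq_multiplicity, Q0.card_eq_multiplicity,
      ← Nh.card_mul_index, Nat.factorization_mul Nat.card_pos.ne' Subgroup.index_ne_zero_of_finite,
      Finsupp.add_apply, Nat.factorization_eq_zero_of_not_dvd hqi, add_zero]
  have hfr := Sylow.normalizer_sup_eq_top Q0
  rw [← hQ] at hfr
  have hmax : ∀ K : Subgroup H, K ⊔ Nh = ⊤ → K = ⊤ := by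
    intro K hK
    have hsup : K.map H.subtype ⊔ N = ⊤ := by
      rw [eq_top_iff, ← hH]
      refine sup_le ?_ le_sup_right
      have h1 : H = (K ⊔ Nh).map H.subtype := by rw [hK, ← MonoidHom.range_eq_map, Subgroup.range_subtype]
      refine h1.le.trans ?_
      rw [Subgroup.map_sup]
      exact sup_le_sup_left (by rintro _ ⟨x, hx, rfl⟩; exact hx) _
    have hle := hmin hsup (Subgroup.map_subtype_le K)
    rw [eq_top_iff]
    intro x _
    obtain ⟨y, hy, hyx⟩ := hle x.2
    exact (Subtype.coe_injective hyx) ▸ hy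
  haveI hQn : (Q : Subgroup H).Normal := Subgroup.normalizer_eq_top_iff.1 (hmax _ hfr)
  obtain ⟨K, hK⟩ := Subgroup.exists_right_complement'_of_coprime (N := (Q : Subgroup H)) Q.card_coprime_index
  have hKtop : K = ⊤ := by
    refine hmax K (top_le_iff.1 ?_)
    rw [← hK.sup_eq_top, sup_comm (Q : Subgroup H)]
    exact sup_le_sup_left (hQ ▸ Subgroup.map_subtype_le _) _
  rw [hKtop] at hK
  exact Q.ne_bot_of_dvd_card hqH (Subgroup.isComplement'_top_right.1 hK)

/-- Let G be a finite group and M ≤ N non-trivial proper normal subgroups such that for every g outside N the conjugacy class of g is a union of cosets of M (equivalently gm is conjugate to g for every m ∈ M). Then (1) and (2) below are equivalent, and they imply (3): (1) every g outside N acts fixed-point-freely on M, that is C_G(x) ≤ N for every x ∈ M, x ≠ 1; (2) the index of N in G is coprime to the order of M; (3) there is a subgroup H of G with HN = G and H ∩ M = 1. -/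
theorem result {G : Type*} [Group G] [Finite G] (N M : Subgroup G) [N.Normal] [M.Normal] (hMN : M ≤ N) (hM1 : M ≠ ⊥) (hN2 : N ≠ ⊤)
    (hcam : ∀ g : G, g ∉ N → ∀ m ∈ M, ∃ x : G, x * g * x⁻¹ = g * m) :
    ((∀ x ∈ M, x ≠ 1 → Subgroup.centralizer ({x} : Set G) ≤ N) ↔ N.index.Coprime (Nat.card M)) ∧
    ((∀ x ∈ M, x ≠ 1 → Subgroup.centralizer ({x} : Set G) ≤ N) → ∃ H : Subgroup G, H ⊔ N = ⊤ ∧ H ⊓ M = ⊥) :=
  ⟨⟨coprime_of_fpf N M, fpf_of_coprime N M hcam⟩, fun h => exists_supplement N M (coprime_of_fpf N M h)⟩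

end Cfsg.Agent.S4112
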