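import Cfsg.Statements.S4115
import Cfsg.Agent.Eq.Def_OddOrderLocal
import Cfsg.Agent.Eq.Def_Solvable
import Cfsg.Agent.TISetComplement.Basic
import Cfsg.Agent.Frobenius.Basic
import Cfsg.Agent.Coprime.Basic
import Cfsg.Agent.Coprime.Stabilizer
import Cfsg.Agent.Transfer.Frobenius
import Mathlib

set_option autoImplicit false
open Cfsg
universe u

namespace Cfsg.Agent.S4115

variable {G : Type u} [Group G] [Finite G] {H : Subgroup G}

open scoped Pointwise

/-- An element of the normalizer whose order divides `|H|` lies in the Hall subgroup `H`. -/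
theorem mem_of_hall (hHall : (Nat.card H).Coprime (H.subgroupOf (Subgroup.normalizer (H : Set G))).index)
    {g : G} (hg : g ∈ Subgroup.normalizer (H : Set G)) (hord : g ^ Nat.card H = 1) : g ∈ H := by
  set N := Subgroup.normalizer (H : Set G)
  haveI : (H.subgroupOf N).Normal := Subgroup.normal_in_normalizer
  have h1 : orderOf ((⟨g, hg⟩ : N) : N ⧸ H.subgroupOf N) ∣ (H.subgroupOf N).index := by
    rw [Subgroup.index_eq_card]
    exact orderOf_dvd_natCard _
  have h2 : orderOf ((⟨g, hg⟩ : N) : N ⧸ H.subgroupOf N) ∣ Nat.card H := by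
    refine orderOf_dvd_of_pow_eq_one ?_
    rw [← QuotientGroup.mk_pow]
    have : (⟨g, hg⟩ : N) ^ Nat.card H = 1 := Subtype.ext hord
    rw [this, QuotientGroup.mk_one]
  have h3 := Nat.eq_one_of_dvd_coprimes hHall h2 h1
  rw [orderOf_eq_one_iff, QuotientGroup.eq_one_iff, Subgroup.mem_subgroupOf] at h3
  exact h3

/-- An element conjugated from `H # ` into the normalizer is conjugated by the normalizer. -/
theorem mem_normalizer_of_conj (hTI : Cfsg.IsTISubset (H : Set G))
    (hHall : (Nat.card H).Coprime (H.subgroupOf (Subgroup.normalizer (H : Set G))).index)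
    {h x : G} (hh : h ∈ H) (h1 : h ≠ 1) (hx : x⁻¹ * h * x ∈ Subgroup.normalizer (H : Set G)) :
    x ∈ Subgroup.normalizer (H : Set G) := by
  by_contra hx'
  have hmem : x⁻¹ * h * x ∈ H := by
    refine mem_of_hall hHall hx ?_
    have := conj_pow (a := x⁻¹) (b := h) (i := Nat.card H)
    rw [inv_inv] at this
    rw [this]
    have h2 : h ^ Nat.card H = 1 := congrArg Subtype.val (pow_card_eq_one' (x := (⟨h, hh⟩ : H)))
    rw [h2, mul_one, inv_mul_cancel]
  exact h1 (hTI x⁻¹ (fun e => hx' (by simpa using inv_mem e)) h hh (by simpa using hmem))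

theorem forward (hTI : Cfsg.IsTISubset (H : Set G))
    (hHall : (Nat.card H).Coprime (H.subgroupOf (Subgroup.normalizer (H : Set G))).index)
    (K : Subgroup (Subgroup.normalizer (H : Set G))) [hKn : K.Normal]
    (hK : K.IsComplement' (H.subgroupOf (Subgroup.normalizer (H : Set G)))) :
    ∃ M : Subgroup G, M.Normal ∧ M.IsComplement' H := by
  classical
  revert hK hKn K
  set N := Subgroup.normalizer (H : Set G) with hN
  set H' := H.subgroupOf N with hH'
  intro K hKn hK
  haveI hH'n : H'.Normal := Subgroup.normal_in_normalizer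
  have hHN : H ≤ N := Subgroup.le_normalizer
  have hcardH : Nat.card H' = Nat.card H := Nat.card_congr (Subgroup.subgroupOfEquivOfLe hHN).toEquiv
  have hKi : K.index = Nat.card H := by rw [hK.symm.index_eq_card, hcardH]
  have hcop : (Nat.card K).Coprime (Nat.card H) := by
    rw [← hK.index_eq_card]
    exact hHall.symm
  -- outside `K`: a non-trivial part in `H`
  set c := Nat.card K with hc
  have hout : ∀ a : N, a ∉ K → (a : G) ^ c ∈ H ∧ (a : G) ^ c ≠ 1 := by
    intro a ha
    have hpow : a ^ (c * Nat.card H) = 1 := by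
      rw [← hcardH, hK.card_mul]
      exact pow_card_eq_one'
    refine ⟨mem_of_hall hHall (Subgroup.pow_mem _ a.2 c) ?_, fun h => ha ?_⟩
    · rw [← pow_mul]
      exact congrArg Subtype.val hpow
    · rw [← QuotientGroup.eq_one_iff, ← orderOf_eq_one_iff]
      refine Nat.eq_one_of_dvd_coprimes hcop (orderOf_dvd_of_pow_eq_one ?_) ?_
      · rw [← QuotientGroup.mk_pow]
        have : a ^ c = 1 := Subtype.ext h
        rw [this, QuotientGroup.mk_one]
      · rw [← hKi, Subgroup.index_eq_card]
        exact orderOf_dvd_natCard _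
  have hTI' : ∀ x : G, ∀ a : N, a ∉ K → ∀ b : N, b ∉ K → x⁻¹ * (a : G) * x = b → x ∈ N := by
    intro x a ha b hb e
    obtain ⟨h1, h2⟩ := hout a ha
    refine mem_normalizer_of_conj hTI hHall h1 h2 ?_
    have := conj_pow (a := x⁻¹) (b := (a : G)) (i := c)
    rw [inv_inv, e] at this
    rw [← this]
    exact Subgroup.pow_mem _ b.2 c
  obtain ⟨M, hMn, hMl, hMc⟩ := CfsgLib.TISetComplement.exists_normal_of_tiSet N K hTI'
    (fun l x b hb e hl => by
      obtain ⟨-, h2⟩ := hout b hb
      apply h2
      rw [← e]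
      have := conj_pow (a := x⁻¹) (b := (l : G)) (i := c)
      rw [inv_inv] at this
      rw [this]
      have hlc : l ^ c = 1 := by
        have := congrArg K.subtype (pow_card_eq_one' (x := (⟨l, hl⟩ : K)))
        rw [map_pow, map_one] at this
        exact this
      have hlc' : (l : G) ^ c = 1 := congrArg Subtype.val hlc
      rw [hlc', mul_one, inv_mul_cancel])
  have hMH : M ⊓ H = ⊥ := by
    rw [Subgroup.eq_bot_iff_forall]
    rintro h ⟨hM, hh⟩
    have h1 : (⟨h, hHN hh⟩ : N) ∈ K := hMl _ hM
    have h2 := hK.disjoint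
    rw [disjoint_iff, Subgroup.eq_bot_iff_forall] at h2
    exact congrArg Subtype.val (h2 _ ⟨h1, hh⟩)
  have hinj : Function.Injective fun z : M × H => (z.1 : G) * z.2 :=
    Subgroup.mul_injective_of_disjoint (disjoint_iff.mpr hMH)
  have hle : Nat.card M * Nat.card H ≤ Nat.card G := by
    rw [← Nat.card_prod]
    exact Nat.card_le_card_of_injective _ hinj
  have hGe : Nat.card G = N.index * Nat.card K * Nat.card H := by
    rw [mul_assoc, ← hcardH, hK.card_mul, Subgroup.index_mul_card]
  refine ⟨M, hMn, Subgroup.isComplement'_of_card_mul_and_disjoint ?_ (disjoint_iff.mpr hMH)⟩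
  refine le_antisymm hle ?_
  rw [hGe]
  exact Nat.mul_le_mul_right _ hMc

theorem backward (M : Subgroup G) [M.Normal] (hM : M.IsComplement' H) :
    ∃ K : Subgroup (Subgroup.normalizer (H : Set G)), K.Normal ∧
      K.IsComplement' (H.subgroupOf (Subgroup.normalizer (H : Set G))) := by
  refine ⟨M.subgroupOf _, inferInstance, Subgroup.isComplement'_of_disjoint_and_mul_eq_univ ?_ ?_⟩
  · rw [disjoint_iff, Subgroup.eq_bot_iff_forall]
    rintro n ⟨h1, h2⟩
    have := hM.disjoint
    rw [disjoint_iff, Subgroup.eq_bot_iff_forall] at this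
    exact Subtype.ext (this (n : G) ⟨h1, h2⟩)
  · rw [Set.eq_univ_iff_forall]
    intro n
    obtain ⟨⟨⟨m, hm⟩, ⟨h, hh⟩⟩, e⟩ := hM.existsUnique (n : G) |>.exists
    have hmN : m ∈ Subgroup.normalizer (H : Set G) := by
      have : m = (n : G) * h⁻¹ := by rw [← e]; simp
      rw [this]
      exact mul_mem n.2 (inv_mem (Subgroup.le_normalizer hh))
    exact ⟨⟨m, hmN⟩, hm, ⟨h, Subgroup.le_normalizer hh⟩, hh, Subtype.ext e⟩

section Complement

variable {M : Subgroup G} [M.Normal]

/-- A subgroup complementing `M` fixes a coset of the normalizer. -/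
theorem exists_common_fixed {X : Type*} [Finite X] {A : Type*} [Group A] [Finite A] [MulAction A X]
    [Nontrivial A] (hfix : ∀ a : A, a ≠ 1 → ∃! c : X, a • c = c) : ∃ c : X, ∀ a : A, a • c = c := by
  classical
  haveI := Fintype.ofFinite X
  haveI := Fintype.ofFinite A
  choose fp hfp hfu using fun a : {a : A // a ≠ 1} => hfix a a.2
  -- the moved elements fixing a point of a given orbit
  let E : Finset X → Finset {a : A // a ≠ 1} := fun O => Finset.univ.filter fun a => fp a ∈ O
  have hfib : ∀ c : X, (Finset.univ.filter fun a => fp a = c).card + 1 = Fintype.card (MulAction.stabilizer A c) := by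
    intro c
    have e : (Finset.univ.filter fun a => fp a = c).map (Function.Embedding.subtype _) =
        (Finset.univ.filter fun a : A => a ∈ MulAction.stabilizer A c).erase 1 := by
      ext a
      simp only [Finset.mem_map, Finset.mem_filter, Finset.mem_univ, true_and, Finset.mem_erase,
        Function.Embedding.coe_subtype, MulAction.mem_stabilizer_iff]
      constructor
      · rintro ⟨b, rfl, rfl⟩
        exact ⟨b.2, hfp b⟩
      · rintro ⟨ha, hc⟩
        exact ⟨⟨a, ha⟩, (hfu ⟨a, ha⟩ c hc).symm, rfl⟩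
    have h1 := congrArg Finset.card e
    rw [Finset.card_map, Finset.card_erase_of_mem (by simp [one_smul])] at h1
    have h2 : (Finset.univ.filter fun a : A => a ∈ MulAction.stabilizer A c).card = Fintype.card (MulAction.stabilizer A c) := by
      rw [Fintype.card_subtype]
    have h3 : 0 < Fintype.card (MulAction.stabilizer A c) := Fintype.card_pos
    omega
  have horb : ∀ c : X, (E (MulAction.orbit A c).toFinset).card + (MulAction.orbit A c).toFinset.card = Fintype.card A := by
    intro c
    have h1 : ∀ d ∈ (MulAction.orbit A c).toFinset,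
        (Finset.univ.filter fun a => fp a = d).card + 1 = Fintype.card (MulAction.stabilizer A c) := by
      intro d hd
      rw [Set.mem_toFinset, ← MulAction.orbitRel_apply] at hd
      rw [hfib d]
      exact Fintype.card_congr (MulAction.stabilizerEquivStabilizerOfOrbitRel hd).toEquiv
    have h2 : (E (MulAction.orbit A c).toFinset).card =
        ∑ d ∈ (MulAction.orbit A c).toFinset, (Finset.univ.filter fun a => fp a = d).card := by
      rw [Finset.card_eq_sum_card_fiberwise (f := fp) (t := (MulAction.orbit A c).toFinset)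
        (fun a ha => (Finset.mem_filter.1 ha).2 : Set.MapsTo fp ↑(E (MulAction.orbit A c).toFinset) ↑(MulAction.orbit A c).toFinset)]
      refine Finset.sum_congr rfl fun d hd => congrArg Finset.card ?_
      ext a
      simp only [E, Finset.mem_filter, Finset.mem_univ, true_and]
      exact ⟨fun h => h.2, fun h => ⟨h ▸ hd, h⟩⟩
    rw [h2, Finset.card_eq_sum_ones (MulAction.orbit A c).toFinset, ← Finset.sum_add_distrib,
      Finset.sum_congr rfl h1, Finset.sum_const, smul_eq_mul, Set.toFinset_card,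
      MulAction.card_orbit_mul_card_stabilizer_eq_card_group]
  have hall : Fintype.card {a : A // a ≠ 1} + 1 = Fintype.card A := by
    rw [Fintype.card_subtype_compl, Fintype.card_subtype_eq]
    have : 0 < Fintype.card A := Fintype.card_pos
    omega
  by_contra hno
  push Not at hno
  have hbig : ∀ c : X, c ∈ Set.range fp → 2 * (MulAction.orbit A c).toFinset.card ≤ Fintype.card A := by
    rintro c ⟨a, rfl⟩
    have h1 := hfib (fp a)
    have h2 : 1 ≤ (Finset.univ.filter fun b => fp b = fp a).card := Finset.card_pos.2 ⟨a, by simp⟩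
    have h3 := MulAction.card_orbit_mul_card_stabilizer_eq_card_group A (fp a)
    rw [Set.toFinset_card, ← h3, mul_comm 2]
    exact Nat.mul_le_mul_left _ (by omega)
  obtain ⟨a₀, ha₀⟩ := exists_ne (1 : A)
  set c₀ := fp ⟨a₀, ha₀⟩
  have hO : 2 ≤ (MulAction.orbit A c₀).toFinset.card := by
    obtain ⟨a, ha⟩ := hno c₀
    exact Finset.one_lt_card.2 ⟨a • c₀, by simp [MulAction.mem_orbit], c₀, by simp, ha⟩
  obtain ⟨b, hb⟩ : ∃ b, fp b ∉ (MulAction.orbit A c₀).toFinset := by
    by_contra hcon
    push Not at hcon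
    have : E (MulAction.orbit A c₀).toFinset = Finset.univ := by
      ext a; simpa [E] using hcon a
    have h := horb c₀
    rw [this, Finset.card_univ] at h
    omega
  have hdisj : Disjoint (E (MulAction.orbit A c₀).toFinset) (E (MulAction.orbit A (fp b)).toFinset) := by
    rw [Finset.disjoint_left]
    intro a ha hb'
    simp only [E, Finset.mem_filter, Set.mem_toFinset, Finset.mem_univ, true_and] at ha hb'
    rw [Set.mem_toFinset] at hb
    apply hb
    rw [← MulAction.orbit_eq_iff.2 ha, MulAction.orbit_eq_iff.2 hb']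
    exact MulAction.mem_orbit_self _
  have h := Finset.card_le_univ (E (MulAction.orbit A c₀).toFinset ∪ E (MulAction.orbit A (fp b)).toFinset)
  rw [Finset.card_union_of_disjoint hdisj] at h
  have := horb c₀
  have := horb (fp b)
  have := hbig c₀ ⟨_, rfl⟩
  have := hbig (fp b) ⟨_, rfl⟩
  omega

variable (hTI : Cfsg.IsTISubset (H : Set G))
  (hHall : (Nat.card H).Coprime (H.subgroupOf (Subgroup.normalizer (H : Set G))).index)
  (hM : M.IsComplement' H)

include hTI hHall in
theorem coprime_index : (Nat.card H).Coprime (Subgroup.normalizer (H : Set G)).index := by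
  classical
  set N := Subgroup.normalizer (H : Set G) with hN
  -- every non-trivial element of `H` fixes only the trivial coset
  refine Nat.coprime_of_dvd fun k hk hkH hki => ?_
  haveI := Fact.mk hk
  obtain ⟨h, hh⟩ := exists_prime_orderOf_dvd_card' (G := H) k hkH
  have hp : IsPGroup k (Subgroup.zpowers h) := IsPGroup.of_card (n := 1) (by rw [Nat.card_zpowers, hh, pow_one])
  rw [Subgroup.index_eq_card] at hki
  have hone : ((1 : G) : G ⧸ N) ∈ MulAction.fixedPoints (Subgroup.zpowers h) (G ⧸ N) := by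
    rintro ⟨y, hy⟩
    show ((((y : H) : G) * 1 : G) : G ⧸ N) = ((1 : G) : G ⧸ N)
    rw [mul_one, QuotientGroup.eq, mul_one]
    exact inv_mem (Subgroup.le_normalizer (y : H).2)
  obtain ⟨d, hd, hne⟩ := hp.exists_fixed_point_of_prime_dvd_card_of_fixed_point (G ⧸ N) hki hone
  induction d using QuotientGroup.induction_on with | H x => ?_
  have := hd ⟨h, Subgroup.mem_zpowers h⟩
  have h1 : (h : G) ≠ 1 := fun e => hk.ne_one (by rw [← hh, orderOf_eq_one_iff]; exact Subtype.ext e)
  have h2 : x⁻¹ * (h : G) * x ∈ N := by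
    have h3 : ((h : G) * x : G ⧸ N) = (x : G ⧸ N) := this
    rw [eq_comm, QuotientGroup.eq, ← mul_assoc] at h3
    exact h3
  have hx := mem_normalizer_of_conj hTI hHall h.2 h1 h2
  exact hne (QuotientGroup.eq.2 (by simpa using hx))

include hTI hHall hM in
theorem coprime_card : (Nat.card H).Coprime (Nat.card M) := by
  rw [← hM.index_eq_card, ← Subgroup.relIndex_mul_index (Subgroup.le_normalizer (H := H))]
  exact Nat.Coprime.mul_right hHall (coprime_index hTI hHall)

include hTI hHall hM in
/-- `H` normalizes some Sylow subgroup for each prime. -/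
theorem exists_invariant (q : ℕ) [Fact q.Prime] (hH : H ≠ ⊥) :
    ∃ R : Sylow q M, H ≤ Subgroup.normalizer (((R : Subgroup M).map M.subtype : Subgroup G) : Set G) := by
  classical
  set N := Subgroup.normalizer (H : Set G) with hN
  obtain ⟨R⟩ := (inferInstance : Nonempty (Sylow q M))
  set T := Subgroup.normalizer (((R : Subgroup M).map M.subtype : Subgroup G) : Set G) with hT
  have hfr : T ⊔ M = ⊤ := Sylow.normalizer_sup_eq_top R
  have hrel : M.relIndex T = Nat.card H := by
    rw [← Subgroup.relIndex_sup_right, hfr, Subgroup.relIndex_top_right, hM.symm.index_eq_card]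
  obtain ⟨L, hL⟩ := Subgroup.exists_right_complement'_of_coprime (N := M.subgroupOf T) (by
    change (Nat.card (M.subgroupOf T)).Coprime (M.relIndex T)
    rw [hrel]
    refine (coprime_card hTI hHall hM).symm.coprime_dvd_left ?_
    rw [← Subgroup.card_map_of_injective (f := T.subtype) Subtype.val_injective]
    exact Subgroup.card_dvd_of_le (by rintro _ ⟨y, hy, rfl⟩; exact hy))
  set H1 := L.map T.subtype with hH1
  have hH1T : H1 ≤ T := Subgroup.map_subtype_le L
  have hH1c : Nat.card H1 = Nat.card H := by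
    rw [hH1, Subgroup.card_map_of_injective Subtype.val_injective, ← hL.symm.index_eq_card, ← hrel]
    rfl
  haveI : Nontrivial H1 := by
    rw [← Finite.one_lt_card_iff_nontrivial, hH1c, Finite.one_lt_card_iff_nontrivial, Subgroup.nontrivial_iff_ne_bot]
    exact hH
  have hmap : ∀ a ∈ H1, a ∈ M → a = 1 := by
    rintro a ⟨l, hl, rfl⟩ hlM
    have := hL.disjoint
    rw [disjoint_iff, Subgroup.eq_bot_iff_forall] at this
    exact congrArg Subtype.val (this l ⟨hlM, hl⟩)
  -- each non-trivial element fixes exactly one coset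
  have hfix : ∀ a : H1, a ≠ 1 → ∃! c : G ⧸ N, a • c = c := by
    rintro ⟨a, ha⟩ ha1
    replace ha1 : a ≠ 1 := fun e => ha1 (Subtype.ext e)
    obtain ⟨⟨⟨m, hm⟩, ⟨h, hh⟩⟩, e⟩ := hM.existsUnique a |>.exists
    simp only at e
    have hh1 : h ≠ 1 := fun e1 => ha1 (hmap a ha (by rw [← e, e1, mul_one]; exact hm))
    -- a conjugate of an element of `H`
    have hex : ∃ g : G, g⁻¹ * a * g ∈ H := by
      -- `M` is transitive on the cosets of `H`, so the coprime cyclic group fixes one
      obtain ⟨c, -, hc⟩ := CfsgLib.Coprime.exists_fixed (A := Subgroup.zpowers a) (G := M)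
        (S := (Set.univ : Set (G ⧸ H))) (by rw [Subgroup.normalizer_eq_top]; exact le_top)
        (by rw [Nat.card_zpowers]
            exact (coprime_card hTI hHall hM).coprime_dvd_left (hH1c ▸ Subgroup.orderOf_dvd_natCard H1 ha))
        (Or.inl (CfsgLib.Coprime.isSolvable_zpowers a)) Set.univ_nonempty (fun _ _ _ _ => trivial)
        (fun _ _ _ _ => trivial) (fun s _ t _ => by
          induction s using QuotientGroup.induction_on with | H s => ?_
          induction t using QuotientGroup.induction_on with | H t => ?_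
          obtain ⟨⟨⟨m1, hm1⟩, ⟨y1, hy1⟩⟩, e1⟩ := hM.existsUnique s |>.exists
          obtain ⟨⟨⟨m2, hm2⟩, ⟨y2, hy2⟩⟩, e2⟩ := hM.existsUnique t |>.exists
          refine ⟨m2 * m1⁻¹, mul_mem hm2 (inv_mem hm1), ?_⟩
          show ((m2 * m1⁻¹ * s : G) : G ⧸ H) = t
          rw [QuotientGroup.eq, ← e1, ← e2]
          simpa [mul_assoc] using mul_mem (inv_mem hy1) hy2)
      induction c using QuotientGroup.induction_on with | H g => ?_
      refine ⟨g, ?_⟩
      have h3 : ((a * g : G) : G ⧸ H) = g := hc a (Subgroup.mem_zpowers a)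
      rw [eq_comm, QuotientGroup.eq, ← mul_assoc] at h3
      exact h3
    obtain ⟨g, hg⟩ := hex
    have hg1 : g⁻¹ * a * g ≠ 1 := fun e1 => ha1 (by
      calc a = g * (g⁻¹ * a * g) * g⁻¹ := by group
        _ = 1 := by rw [e1]; group)
    refine ⟨(g : G ⧸ N), ?_, fun c hc => ?_⟩
    · show ((a * g : G) : G ⧸ N) = g
      rw [eq_comm, QuotientGroup.eq, ← mul_assoc]
      exact Subgroup.le_normalizer hg
    · induction c using QuotientGroup.induction_on with | H x => ?_
      have h3 : ((a * x : G) : G ⧸ N) = x := hc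
      rw [eq_comm, QuotientGroup.eq, ← mul_assoc] at h3
      rw [eq_comm, QuotientGroup.eq]
      refine mem_normalizer_of_conj hTI hHall hg hg1 ?_
      convert h3 using 1
      group
  obtain ⟨c, hc⟩ := exists_common_fixed hfix
  induction c using QuotientGroup.induction_on with | H g => ?_
  have hconj : H1.map (MulAut.conj g⁻¹).toMonoidHom = H := by
    refine Subgroup.eq_of_le_of_card_ge ?_ (by rw [Subgroup.card_map_of_injective (MulAut.conj g⁻¹).injective, hH1c])
    rintro _ ⟨a, ha, rfl⟩
    have h3 : ((a * g : G) : G ⧸ N) = g := hc ⟨a, ha⟩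
    rw [eq_comm, QuotientGroup.eq, ← mul_assoc] at h3
    have h4 : (MulAut.conj g⁻¹).toMonoidHom a = g⁻¹ * a * g := by simp
    rw [h4]
    refine mem_of_hall hHall h3 ?_
    rw [← h4, ← map_pow, ← hH1c]
    have := congrArg Subtype.val (pow_card_eq_one' (x := (⟨a, ha⟩ : H1)))
    simp only [SubgroupClass.coe_pow, OneMemClass.coe_one] at this
    rw [this, map_one]
  refine ⟨(MulAut.conjNormal g⁻¹ : MulAut M) • R, ?_⟩
  have hR : (((MulAut.conjNormal g⁻¹ : MulAut M) • R : Sylow q M) : Subgroup M).map M.subtype =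
      ((R : Subgroup M).map M.subtype).map (MulAut.conj g⁻¹).toMonoidHom := by
    show ((R : Subgroup M).map (MulAut.conjNormal g⁻¹ : MulAut M).toMonoidHom).map M.subtype = _
    rw [Subgroup.map_map, Subgroup.map_map]
    rfl
  rw [hR, ← hconj]
  refine le_trans (Subgroup.map_mono hH1T) ?_
  rw [hT]
  exact Subgroup.le_normalizer_map _

include hTI hHall hM in
theorem frobenius (hHn : ¬ H.Normal) :
    ∃ (F : Type u) (_ : Group F) (_ : Finite F) (C : Subgroup F), Cfsg.IsFrobeniusComplement C ∧ Nonempty (H ≃* C) := by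
  classical
  have hH : H ≠ ⊥ := fun e => hHn (e ▸ inferInstance)
  haveI : Nontrivial H := (Subgroup.nontrivial_iff_ne_bot H).2 hH
  set C := M ⊓ Subgroup.centralizer (H : Set G) with hC
  have hcent : ∀ h ∈ H, h ≠ 1 → ∀ m ∈ M, h * m = m * h → m ∈ C := by
    intro h hh h1 m hm e
    have hmN : m ∈ Subgroup.normalizer (H : Set G) := by
      refine mem_normalizer_of_conj hTI hHall hh h1 ?_
      rw [mul_assoc, e, inv_mul_cancel_left]
      exact Subgroup.le_normalizer hh
    refine ⟨hm, Subgroup.mem_centralizer_iff.2 fun y hy => ?_⟩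
    have hd := hM.disjoint
    rw [disjoint_iff, Subgroup.eq_bot_iff_forall] at hd
    have : y * m * y⁻¹ * m⁻¹ = 1 := by
      refine hd _ ⟨M.mul_mem ((inferInstance : M.Normal).conj_mem m hm y) (M.inv_mem hm), ?_⟩
      have h2 : m * y⁻¹ * m⁻¹ ∈ H := (Subgroup.mem_normalizer_iff.1 hmN _).1 (inv_mem hy)
      have := mul_mem hy h2
      simpa [mul_assoc] using this
    exact mul_inv_eq_iff_eq_mul.1 (mul_inv_eq_one.1 this)
  -- a prime and an invariant Sylow subgroup not centralized by `H`
  obtain ⟨q, hq, R, hRH, hRC⟩ : ∃ (q : ℕ) (_ : Fact q.Prime) (R : Sylow q M),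
      H ≤ Subgroup.normalizer (((R : Subgroup M).map M.subtype : Subgroup G) : Set G) ∧
      ¬ (R : Subgroup M).map M.subtype ≤ C := by
    by_contra hcon
    push Not at hcon
    apply hHn
    have hMC : M ≤ C := by
      have hdvd : Nat.card M ∣ Nat.card C := by
        refine (Nat.dvd_iff_prime_pow_dvd_dvd _ _).2 fun p k hp hk => ?_
        haveI := Fact.mk hp
        obtain ⟨R, hR⟩ := exists_invariant hTI hHall hM p hH
        have := Subgroup.card_dvd_of_le (hcon p inferInstance R hR)
        rw [Subgroup.card_map_of_injective Subtype.val_injective, R.card_eq_multiplicity] at this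
        exact ((hp.pow_dvd_iff_dvd_ordProj Nat.card_pos.ne').1 hk).trans this
      exact (Subgroup.eq_of_le_of_card_ge inf_le_left (Nat.le_of_dvd Nat.card_pos hdvd)).ge
    refine ⟨fun h hh g => ?_⟩
    obtain ⟨⟨⟨m, hm⟩, ⟨y, hy⟩⟩, rfl⟩ := hM.existsUnique g |>.exists
    have h2 : y * h * y⁻¹ ∈ H := mul_mem (mul_mem hy hh) (inv_mem hy)
    have h3 := Subgroup.mem_centralizer_iff.1 (hMC hm).2 _ h2
    convert h2 using 1
    calc m * y * h * (m * y)⁻¹ = m * (y * h * y⁻¹) * m⁻¹ := by group
      _ = _ := by rw [← h3, mul_inv_cancel_right]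
  set Q := (R : Subgroup M).map M.subtype with hQ
  have hQp : IsPGroup q Q := R.2.map _
  have hQM : Q ≤ M := Subgroup.map_subtype_le _
  set CQ := Q ⊓ Subgroup.centralizer (H : Set G) with hCQ
  -- the normalizer in `Q` of the fixed points grows
  set W := Q ⊓ Subgroup.normalizer (CQ : Set G) with hW
  have hWlt : CQ < W := CfsgLib.Transfer.lt_inf_normalizer_of_lt hQp
    (lt_of_le_of_ne inf_le_left fun e => hRC fun y hy => ⟨hQM hy, (e.symm ▸ hy : y ∈ CQ).2⟩)
  set L := Subgroup.normalizer (CQ : Set G) ⊓ Subgroup.normalizer (W : Set G) with hL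
  have hHCQ : H ≤ Subgroup.normalizer (CQ : Set G) := fun h hh =>
    Subgroup.mem_normalizer_fintype (S := (CQ : Set G)) fun y hy => by
      rw [Subgroup.mem_centralizer_iff.1 hy.2 h hh, mul_inv_cancel_right]
      exact hy
  have hHW : H ≤ Subgroup.normalizer (W : Set G) := fun h hh =>
    Subgroup.mem_normalizer_fintype (S := (W : Set G)) fun y hy =>
      ⟨(Subgroup.mem_normalizer_iff.1 (hRH hh) y).1 hy.1, Subgroup.mul_mem _ (Subgroup.mul_mem _ (hHCQ hh) hy.2) (Subgroup.inv_mem _ (hHCQ hh))⟩
  have hHL : H ≤ L := le_inf hHCQ hHW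
  have hWL : W ≤ L := le_inf inf_le_right Subgroup.le_normalizer
  haveI : (CQ.subgroupOf L).Normal := (Subgroup.normal_subgroupOf_iff_le_normalizer (hWlt.le.trans hWL)).2 inf_le_left
  haveI : (W.subgroupOf L).Normal := (Subgroup.normal_subgroupOf_iff_le_normalizer hWL).2 inf_le_right
  set Wq := (W.subgroupOf L).map (QuotientGroup.mk' (CQ.subgroupOf L)) with hWq
  haveI : Wq.Normal := Subgroup.Normal.map inferInstance _ (QuotientGroup.mk'_surjective _)
  let φ : H →* MulAut Wq :=
    (MulAut.conjNormal (H := Wq)).comp ((QuotientGroup.mk' (CQ.subgroupOf L)).comp (Subgroup.inclusion hHL))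
  haveI : Nontrivial Wq := by
    rw [Subgroup.nontrivial_iff_exists_ne_one]
    obtain ⟨w, hw, hwC⟩ := SetLike.exists_of_lt hWlt
    exact ⟨QuotientGroup.mk' _ (⟨w, hWL hw⟩ : L), ⟨⟨w, hWL hw⟩, hw, rfl⟩, fun e => hwC ((QuotientGroup.eq_one_iff (N := CQ.subgroupOf L) (⟨w, hWL hw⟩ : L)).1 e)⟩
  have hfpf : ∀ a : H, a ≠ 1 → ∀ n : Wq, φ a n = n → n = 1 := by
    rintro ⟨h, hh⟩ ha ⟨_, ⟨w, hwL⟩, hw, rfl⟩ hn
    replace hw : w ∈ W := hw
    have e : h * w * h⁻¹ * w⁻¹ ∈ CQ := by
      have e1 := congrArg Subtype.val hn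
      have e2 : ((⟨h, hHL hh⟩ * ⟨w, hwL⟩ * ⟨h, hHL hh⟩⁻¹ : L) : L ⧸ CQ.subgroupOf L) = ((⟨w, hwL⟩ : L) : L ⧸ CQ.subgroupOf L) := e1
      have e3 : ((⟨h, hHL hh⟩ * ⟨w, hwL⟩ * ⟨h, hHL hh⟩⁻¹ * ⟨w, hwL⟩⁻¹ : L) : L ⧸ CQ.subgroupOf L) = 1 := by
        rw [QuotientGroup.mk_mul, e2, ← QuotientGroup.mk_mul, mul_inv_cancel, QuotientGroup.mk_one]
      exact (QuotientGroup.eq_one_iff (N := CQ.subgroupOf L) _).1 e3
    have hcomm : h * w = w * h := by
      refine CfsgLib.Coprime.commute_of_commute_commutator_mem (H := M) ?_ (hQM e.1) ?_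
      · exact Subgroup.mem_centralizer_iff.1 e.2 h hh
      · exact (coprime_card hTI hHall hM).coprime_dvd_left (Subgroup.orderOf_dvd_natCard H hh)
    have hwC := hcent h hh (fun e1 => ha (Subtype.ext e1)) w (hQM hw.1) hcomm
    exact Subtype.ext ((QuotientGroup.eq_one_iff _).2 ⟨hw.1, hwC.2⟩)
  obtain ⟨L', _, _, C', hC', ⟨e⟩⟩ := CfsgLib.Frobenius.exists_isFrobeniusComplement_of_fpf φ hfpf
  exact ⟨ULift.{u} L', inferInstance, inferInstance, _, CfsgLib.Frobenius.map_mulEquiv hC' MulEquiv.ulift.symm,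
    ⟨e.trans (Subgroup.equivMapOfInjective _ _ MulEquiv.ulift.symm.injective)⟩⟩

end Complement

theorem result {G : Type u} [Group G] [Finite G] (H : Subgroup G)
    (hTI : Cfsg.IsTISubset (H : Set G)) (hHall : (Nat.card H).Coprime (H.subgroupOf (Subgroup.normalizer (H : Set G))).index) :
    ((∃ K : Subgroup (Subgroup.normalizer (H : Set G)), K.Normal ∧ K.IsComplement' (H.subgroupOf (Subgroup.normalizer (H : Set G)))) ↔
      (∃ N : Subgroup G, N.Normal ∧ N.IsComplement' H)) ∧
    (¬ H.Normal → (∃ K : Subgroup (Subgroup.normalizer (H : Set G)), K.Normal ∧ K.IsComplement' (H.subgroupOf (Subgroup.normalizer (H : Set G)))) →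
      ∃ (F : Type u) (_ : Group F) (_ : Finite F) (C : Subgroup F), Cfsg.IsFrobeniusComplement C ∧ Nonempty (H ≃* C)) := by
  refine ⟨⟨fun ⟨K, hKn, hK⟩ => ?_, fun ⟨N, hNn, hN⟩ => ?_⟩, fun hn ⟨K, hKn, hK⟩ => ?_⟩
  · haveI := hKn
    exact forward hTI hHall K hK
  · haveI := hNn
    exact backward N hN
  · haveI := hKn
    obtain ⟨M, hMn, hM⟩ := forward hTI hHall K hK
    haveI := hMn
    exact frobenius hTI hHall hM hn

end Cfsg.Agent.S4115
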