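import Cfsg.Statements.S4116
import Cfsg.Agent.Eq.Def_OddOrderLocal
import Cfsg.Agent.Frobenius52.Count
import Mathlib

set_option autoImplicit false
open Cfsg

namespace Cfsg.Agent.S4116

open CfsgLib.Frobenius.Count (conjHash ncard_conjHash_add_index)

variable {G : Type*} [Group G]

/-- An element normalizing a Hall subgroup whose order involves only primes of the subgroup lies in it. -/
theorem mem_of_normalizes [Finite G] {H : Subgroup G} (hHall : (Nat.card H).Coprime H.index) {y : G}
    (hy : y ∈ Subgroup.normalizer (H : Set G))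
    (ho : ∀ q : ℕ, q.Prime → q ∣ orderOf y → q ∣ Nat.card H) : y ∈ H := by
  set N := Subgroup.normalizer (H : Set G) with hN
  haveI : (H.subgroupOf N).Normal := Subgroup.normal_subgroupOf_of_le_normalizer le_rfl
  have h1 : orderOf (QuotientGroup.mk' (H.subgroupOf N) ⟨y, hy⟩) ∣ H.index :=
    (orderOf_dvd_natCard _).trans (Subgroup.relIndex_dvd_index_of_le Subgroup.le_normalizer)
  have h2 : orderOf (QuotientGroup.mk' (H.subgroupOf N) ⟨y, hy⟩) ∣ orderOf y :=
    (orderOf_map_dvd _ _).trans (by rw [Subgroup.orderOf_mk])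
  have h3 : (orderOf y).Coprime H.index := Nat.coprime_of_dvd fun q hq hqy hqi =>
    hq.one_lt.ne' (Nat.eq_one_of_dvd_coprimes hHall (ho q hq hqy) hqi)
  have h4 := orderOf_eq_one_iff.1 (Nat.eq_one_of_dvd_coprimes h3 h2 h1)
  exact Subgroup.mem_subgroupOf.1 ((QuotientGroup.eq_one_iff _).1 h4)

/-- The part of a conjugate of `H` inside `K`, as a subgroup of `K`. -/
def piece (H K : Subgroup G) (g : G) : Subgroup K := (H.map (MulAut.conj g).toMonoidHom).subgroupOf K

theorem mem_piece {H K : Subgroup G} {g : G} {x : K} : x ∈ piece H K g ↔ g⁻¹ * (x : G) * g ∈ H := by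
  rw [piece, Subgroup.mem_subgroupOf, Subgroup.mem_map]
  constructor
  · rintro ⟨y, hy, hyx⟩
    rw [← hyx]
    simpa [mul_assoc] using hy
  · intro hx
    exact ⟨_, hx, by simp [mul_assoc]⟩

theorem piece_TI [Finite G] {H K : Subgroup G} (hHall : (Nat.card H).Coprime H.index)
    (hTI : Cfsg.IsTISubset (H : Set G)) (hK : ∀ q : ℕ, q.Prime → q ∣ Nat.card K → q ∣ Nat.card H) (g : G) :
    ∀ k l : K, l ∈ piece H K g → l ≠ 1 → k * l * k⁻¹ ∈ piece H K g → k ∈ piece H K g := by
  intro k l hl hl1 hkl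
  rw [mem_piece] at hl hkl ⊢
  by_cases hn : g⁻¹ * (k : G) * g ∈ Subgroup.normalizer (H : Set G)
  · refine mem_of_normalizes hHall hn fun q hq hqd => hK q hq (hqd.trans ?_)
    have : orderOf (g⁻¹ * (k : G) * g) = orderOf k := by
      rw [← Subgroup.orderOf_coe]
      simpa using orderOf_injective (MulAut.conj g⁻¹).toMonoidHom (MulAut.conj g⁻¹).injective (k : G)
    rw [this]
    exact orderOf_dvd_natCard k
  · exfalso
    have h1 := hTI _ hn _ hl (by
      have e : g⁻¹ * (k : G) * g * (g⁻¹ * (l : G) * g) * (g⁻¹ * (k : G) * g)⁻¹ = g⁻¹ * ((k * l * k⁻¹ : K) : G) * g := by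
        push_cast
        group
      rw [e]
      exact hkl)
    apply hl1
    apply Subtype.ext
    calc (l : G) = g * (g⁻¹ * (l : G) * g) * g⁻¹ := by group
      _ = ((1 : K) : G) := by rw [h1]; simp

theorem exists_piece [Finite G] {H K : Subgroup G} (hHall : (Nat.card H).Coprime H.index)
    (hK : ∀ q : ℕ, q.Prime → q ∣ Nat.card K → q ∣ Nat.card H) {q : ℕ} [Fact q.Prime]
    (hqK : q ∣ Nat.card K) (Q : Sylow q K) : ∃ g : G, (Q : Subgroup K) ≤ piece H K g := by
  obtain ⟨S₀, hS₀⟩ : ∃ S : Sylow q G, (S : Subgroup G) ≤ H := by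
    let P : Sylow q H := default
    obtain ⟨S, hS⟩ := (P.isPGroup'.map H.subtype).exists_le_sylow
    refine ⟨S, ?_⟩
    have hq : ¬ q ∣ H.index := fun hd =>
      (Fact.out : q.Prime).one_lt.ne' (Nat.eq_one_of_dvd_coprimes hHall (hK q Fact.out hqK) hd)
    have hcard : Nat.card (S : Subgroup G) ≤ Nat.card ((P : Subgroup H).map H.subtype) := by
      rw [Subgroup.card_map_of_injective H.subtype_injective, P.card_eq_multiplicity, S.card_eq_multiplicity,
        ← H.card_mul_index, Nat.factorization_mul Nat.card_pos.ne' Subgroup.index_ne_zero_of_finite,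
        Finsupp.add_apply, Nat.factorization_eq_zero_of_not_dvd hq, add_zero]
    rw [← Subgroup.eq_of_le_of_card_ge hS hcard]
    exact Subgroup.map_subtype_le _
  obtain ⟨T, hT⟩ := (Q.isPGroup'.map K.subtype).exists_le_sylow
  obtain ⟨g, hg⟩ := MulAction.exists_smul_eq G S₀ T
  refine ⟨g, fun x hx => ?_⟩
  rw [mem_piece]
  have hxT : (x : G) ∈ (T : Subgroup G) := hT (Subgroup.mem_map_of_mem _ hx)
  rw [← hg, Sylow.coe_subgroup_smul, Subgroup.mem_pointwise_smul_iff_inv_smul_mem] at hxT
  apply hS₀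
  simpa [MulAut.smul_def, ← map_inv] using hxT

theorem piece_mono [Finite G] {H K : Subgroup G} (hTI : Cfsg.IsTISubset (H : Set G)) {g g' : G} {z : K}
    (hz1 : z ≠ 1) (hz : z ∈ piece H K g) (hz' : z ∈ piece H K g') : piece H K g = piece H K g' := by
  rw [mem_piece] at hz hz'
  have hn : g'⁻¹ * g ∈ Subgroup.normalizer (H : Set G) := by
    by_contra hn
    refine hz1 (Subtype.ext ?_)
    have h1 := hTI _ hn _ hz (by
      have e : g'⁻¹ * g * (g⁻¹ * (z : G) * g) * (g'⁻¹ * g)⁻¹ = g'⁻¹ * (z : G) * g' := by group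
      rw [e]
      exact hz')
    calc (z : G) = g * (g⁻¹ * (z : G) * g) * g⁻¹ := by group
      _ = ((1 : K) : G) := by rw [h1]; simp
  ext x
  rw [mem_piece, mem_piece, SetLike.mem_coe.symm]
  have := Subgroup.mem_normalizer_iff.1 hn (g⁻¹ * (x : G) * g)
  rw [show g'⁻¹ * g * (g⁻¹ * (x : G) * g) * (g'⁻¹ * g)⁻¹ = g'⁻¹ * (x : G) * g' by group] at this
  exact this

theorem piece_conj {H K : Subgroup G} (g : G) (a x : K) :
    a * x * a⁻¹ ∈ piece H K g ↔ x ∈ piece H K ((a : G)⁻¹ * g) := by
  rw [mem_piece, mem_piece]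
  push_cast
  rw [show g⁻¹ * ((a : G) * x * (a : G)⁻¹) * g = ((a : G)⁻¹ * g)⁻¹ * x * ((a : G)⁻¹ * g) by group]

/-- Let G be a finite group with a subgroup H whose order is coprime to its index (a Hall subgroup) and which meets each of its conjugates by elements outside N_G(H) trivially. Then every subgroup of G whose order is divisible only by primes dividing the order of H lies in a conjugate of H. -/
theorem result {G : Type*} [Group G] [Finite G] (H : Subgroup G)
    (hHall : (Nat.card H).Coprime H.index) (hTI : Cfsg.IsTISubset (H : Set G))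
    (K : Subgroup G) (hK : ∀ q : ℕ, q.Prime → q ∣ Nat.card K → q ∣ Nat.card H) :
    ∃ g : G, K ≤ H.map (MulAut.conj g).toMonoidHom := by
  by_contra hcon
  push Not at hcon
  have hnt : ∀ g, piece H K g ≠ ⊤ := fun g h => hcon g (Subgroup.subgroupOf_eq_top.1 h)
  -- some piece is non-trivial
  have hpiece : ∀ {q : ℕ}, q.Prime → q ∣ Nat.card K → ∃ (g : G) (Q : Sylow q K), (Q : Subgroup K) ≤ piece H K g ∧ piece H K g ≠ ⊥ := by
    intro q hq hqK
    haveI := Fact.mk hq
    let Q : Sylow q K := default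
    obtain ⟨g, hg⟩ := exists_piece hHall hK hqK Q
    exact ⟨g, Q, hg, fun hb => Q.ne_bot_of_dvd_card hqK (le_bot_iff.1 (hb ▸ hg))⟩
  have hK1 : Nat.card K ≠ 1 := fun h => hcon 1 (by
    rw [Subgroup.card_eq_one.1 h]; exact bot_le)
  obtain ⟨p, hp, hpK⟩ := Nat.exists_prime_and_dvd hK1
  obtain ⟨g1, -, -, hne1⟩ := hpiece hp hpK
  have hi1 : (piece H K g1).index ≠ 1 := fun h => hnt g1 (Subgroup.index_eq_one.1 h)
  obtain ⟨q, hq, hqi⟩ := Nat.exists_prime_and_dvd hi1
  obtain ⟨g2, Q, hQ, hne2⟩ := hpiece hq (hqi.trans (Subgroup.index_dvd_card _))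
  haveI := Fact.mk hq
  have hdisj : Disjoint (conjHash (piece H K g1)) (conjHash (piece H K g2)) := by
    rw [Set.disjoint_left]
    rintro z ⟨a, u, hu, hu1, rfl⟩ ⟨b, v, hv, hv1, he⟩
    have hc : (b⁻¹ * a) * u * (b⁻¹ * a)⁻¹ = v := by
      calc (b⁻¹ * a) * u * (b⁻¹ * a)⁻¹ = b⁻¹ * (a * u * a⁻¹) * b := by group
        _ = v := by rw [he]; group
    set c : K := b⁻¹ * a with hc'
    rw [← hc, piece_conj] at hv
    have heq := piece_mono hTI hu1 hu hv
    -- the Sylow subgroup Q is then conjugate into the first piece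
    let φ : K →* K := (MulAut.conj c⁻¹).toMonoidHom
    have hle : (Q : Subgroup K).map φ ≤ piece H K g1 := by
      rintro _ ⟨x, hx, rfl⟩
      rw [heq, ← piece_conj]
      have : c * φ x * c⁻¹ = x := by simp [φ, mul_assoc]
      rw [this]
      exact hQ hx
    have hd : Nat.card (Q : Subgroup K) ∣ Nat.card (piece H K g1) := by
      have hφ : Function.Injective φ := (MulAut.conj c⁻¹).injective
      rw [Nat.card_congr (Subgroup.equivMapOfInjective (Q : Subgroup K) φ hφ).toEquiv]
      exact Subgroup.card_dvd_of_le hle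
    rw [Q.card_eq_multiplicity] at hd
    have hmul := (Subgroup.card_mul_index (piece H K g1))
    have : q ^ ((Nat.card K).factorization q + 1) ∣ Nat.card K := by
      rw [pow_succ]
      exact (Nat.mul_dvd_mul hd hqi).trans (dvd_of_eq hmul)
    exact Nat.pow_succ_factorization_not_dvd Nat.card_pos.ne' hq this
  have h1 := ncard_conjHash_add_index _ (piece_TI hHall hTI hK g1)
  have h2 := ncard_conjHash_add_index _ (piece_TI hHall hTI hK g2)
  have hone : ∀ g, (1 : K) ∉ conjHash (piece H K g) := by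
    rintro g ⟨a, u, -, hu1, he⟩
    exact hu1 (conj_eq_one_iff.1 he.symm)
  have hle : (conjHash (piece H K g1) ∪ conjHash (piece H K g2)).ncard < Nat.card K := by
    rw [← Set.ncard_univ]
    refine Set.ncard_lt_ncard (Set.ssubset_univ_iff.2 fun h => ?_) (Set.toFinite _)
    rcases (h ▸ Set.mem_univ (1 : K) : (1 : K) ∈ conjHash (piece H K g1) ∪ conjHash (piece H K g2)) with h' | h'
    · exact hone g1 h'
    · exact hone g2 h'
  rw [Set.ncard_union_eq hdisj (Set.toFinite _) (Set.toFinite _)] at hle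
  have hhalf : ∀ g, piece H K g ≠ ⊥ → 2 * (piece H K g).index ≤ Nat.card K := by
    intro g hg
    rw [← Subgroup.card_mul_index (piece H K g)]
    refine Nat.mul_le_mul ?_ le_rfl
    by_contra hlt
    exact hg (Subgroup.card_eq_one.1 (by have := Nat.card_pos (α := piece H K g); omega))
  have := hhalf g1 hne1
  have := hhalf g2 hne2
  omega

end Cfsg.Agent.S4116
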