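import Cfsg.Statements.S4117
import Mathlib

set_option autoImplicit false
open Cfsg

namespace Cfsg.Agent.S4117

/-- In a cyclic group the elements killed by a prime `p` form one subgroup of order `p`. -/
theorem mem_zpowers_of_cyclic {C : Type*} [Group C] [Finite C] [IsCyclic C] {p : ℕ} (hp : p.Prime) {x y : C}
    (hy : orderOf y = p) (hx : x ^ p = 1) : x ∈ Subgroup.zpowers y := by
  classical
  haveI := Fintype.ofFinite C
  have h1 : (Finset.univ.filter fun z : C => z ∈ Subgroup.zpowers y) ⊆ Finset.univ.filter fun z : C => z ^ p = 1 := by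
    intro z hz
    simp only [Finset.mem_filter, Finset.mem_univ, true_and] at hz ⊢
    obtain ⟨k, rfl⟩ := hz
    rw [← zpow_natCast, ← zpow_mul, mul_comm, zpow_mul, zpow_natCast, ← hy, pow_orderOf_eq_one, one_zpow]
  have h2 : (Finset.univ.filter fun z : C => z ∈ Subgroup.zpowers y).card = p := by
    rw [← hy, ← Fintype.card_zpowers, Fintype.card_subtype]
  have h3 := Finset.eq_of_subset_of_card_le h1 (by rw [h2]; exact IsCyclic.card_pow_eq_one_le hp.pos)
  have : x ∈ Finset.univ.filter fun z : C => z ^ p = 1 := by simp [hx]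
  rw [← h3] at this
  simpa using this

variable {G A : Type*} [Group G] [Finite G] [Group A] [Finite A] [MulDistribMulAction A G]

theorem main (hcop : (Nat.card A).Coprime (Nat.card G))
    (hcyc : ∀ (p : ℕ) [Fact p.Prime] (P : Sylow p G), IsCyclic (P : Subgroup G)) :
    (Nat.card (MulAction.fixedPoints A G : Set G)).Coprime (Nat.card G / Nat.card (MulAction.fixedPoints A G : Set G)) ∧
    IsCyclic (Subgroup.closure {y : G | ∃ (a : A) (g : G), y = g⁻¹ * a • g}) ∧
    (Subgroup.closure {y : G | ∃ (a : A) (g : G), y = g⁻¹ * a • g}).Normal ∧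
    (Subgroup.closure {y : G | ∃ (a : A) (g : G), y = g⁻¹ * a • g} : Set G) ∩ MulAction.fixedPoints A G = {1} ∧
    Subgroup.closure {y : G | ∃ (a : A) (g : G), y = g⁻¹ * a • g} ⊔ Subgroup.closure (MulAction.fixedPoints A G) = ⊤ := by
  classical
  haveI : IsZGroup G := ⟨fun p hp P => by haveI := Fact.mk hp; exact hcyc p P⟩
  haveI := Fintype.ofFinite A
  set S : Set G := {y : G | ∃ (a : A) (g : G), y = g⁻¹ * a • g}
  set D := Subgroup.closure S with hD
  have hS : ∀ (a : A) (g : G), g⁻¹ * a • g ∈ D := fun a g => Subgroup.subset_closure ⟨a, g, rfl⟩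
  -- the centralizer of the derived subgroup is abelian
  set N := commutator G
  set K := Subgroup.centralizer (N : Set G) with hK
  haveI : IsCyclic N := IsZGroup.isCyclic_commutator G
  haveI hKcomm : IsMulCommutative K := by
    haveI : IsCyclic (Abelianization G) := inferInstance
    refine IsMulCommutative.of_comm fun u v => ?_
    refine commutative_of_cyclic_center_quotient ((Abelianization.of).comp K.subtype) ?_ u v
    intro k hk
    rw [Subgroup.mem_center_iff]
    intro l
    have hkN : (k : G) ∈ N := by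
      rw [MonoidHom.mem_ker] at hk
      rw [show N = commutator G from rfl, ← Abelianization.ker_of G]
      exact hk
    exact Subtype.ext ((Subgroup.mem_centralizer_iff.1 l.2 _ hkN).symm)
  haveI : IsZGroup K := inferInstance
  haveI : IsCyclic K := by
    letI : CommGroup K := { (inferInstance : Group K) with mul_comm := hKcomm.1.comm }
    haveI : Group.IsNilpotent K := CommGroup.isNilpotent
    infer_instance
  have hfN : ∀ (a : A) (n : G), n ∈ N → a • n ∈ N := fun a n hn =>
    (Subgroup.characteristic_iff_map_eq.1 (inferInstance : N.Characteristic) (MulDistribMulAction.toMulAut A G a)).le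
      ⟨n, hn, rfl⟩
  have hDK : D ≤ K := by
    rw [hD, Subgroup.closure_le]
    rintro _ ⟨a, g, rfl⟩
    rw [hK, SetLike.mem_coe, Subgroup.mem_centralizer_iff]
    intro n hn
    -- conjugation and the action commute on a cyclic group
    obtain ⟨z, hz⟩ := IsCyclic.exists_generator (α := N)
    obtain ⟨i, hi⟩ := hz (MulAut.conjNormal g z)
    obtain ⟨j, hj⟩ := hz ⟨a • (z : G), hfN a z z.2⟩
    have hzi : ∀ m : G, m ∈ N → g * m * g⁻¹ = m ^ i := by
      intro m hm
      obtain ⟨k, hk⟩ := hz ⟨m, hm⟩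
      have e1 : g * (z : G) * g⁻¹ = (z : G) ^ i := by
        have := congrArg Subtype.val hi
        simpa using this.symm
      have e2 : m = (z : G) ^ k := (congrArg Subtype.val hk).symm
      rw [e2, ← zpow_mul, mul_comm, zpow_mul, ← e1, conj_zpow]
    have h1 := hzi (a⁻¹ • n) (hfN a⁻¹ n hn)
    have h2 := congrArg (fun u => a • u) h1
    simp only [smul_mul', smul_inv', smul_inv_smul, MulDistribMulAction.toMulAut_apply] at h2
    have h3 : a • ((a⁻¹ • n) ^ i) = n ^ i := by
      have := map_zpow (MulDistribMulAction.toMulAut A G a) (a⁻¹ • n) i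
      simpa using this
    rw [h3] at h2
    have h4 := hzi n hn
    rw [← h4] at h2
    calc n * (g⁻¹ * a • g) = g⁻¹ * (g * n * g⁻¹) * a • g := by group
      _ = g⁻¹ * (a • g * n * (a • g)⁻¹) * a • g := by rw [h2]
      _ = g⁻¹ * a • g * n := by group
  have hDcomm : ∀ u ∈ D, ∀ v ∈ D, u * v = v * u := fun u hu v hv =>
    congrArg Subtype.val (hKcomm.1.comm ⟨u, hDK hu⟩ ⟨v, hDK hv⟩)
  haveI hDc : IsCyclic D := isCyclic_of_injective (Subgroup.inclusion hDK) (Subgroup.inclusion_injective hDK)
  have hDa : ∀ (a : A), ∀ d ∈ D, a • d ∈ D := by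
    intro a d hd
    induction hd using Subgroup.closure_induction with
    | mem x hx =>
      obtain ⟨b, g, rfl⟩ := hx
      have : a • (g⁻¹ * b • g) = (g⁻¹ * a • g)⁻¹ * (g⁻¹ * (a * b) • g) := by
        rw [smul_mul', smul_inv', mul_smul]; group
      rw [this]
      exact mul_mem (inv_mem (hS _ _)) (hS _ _)
    | one => rw [smul_one]; exact one_mem _
    | mul x y _ _ hx hy => rw [smul_mul']; exact mul_mem hx hy
    | inv x _ hx => rw [smul_inv']; exact inv_mem hx
  haveI hDn : D.Normal := by
    refine ⟨fun d hd h => ?_⟩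
    induction hd using Subgroup.closure_induction with
    | mem x hx =>
      obtain ⟨a, g, rfl⟩ := hx
      have : h * (g⁻¹ * a • g) * h⁻¹ = ((g * h⁻¹)⁻¹ * a • (g * h⁻¹)) * ((h⁻¹)⁻¹ * a • h⁻¹)⁻¹ := by
        rw [smul_mul']; group
      rw [this]
      exact mul_mem (hS _ _) (inv_mem (hS _ _))
    | one => simp
    | mul x y _ _ hx hy =>
      have : h * (x * y) * h⁻¹ = (h * x * h⁻¹) * (h * y * h⁻¹) := by group
      rw [this]; exact mul_mem hx hy
    | inv x _ hx =>
      have : h * x⁻¹ * h⁻¹ = (h * x * h⁻¹)⁻¹ := by group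
      rw [this]; exact inv_mem hx
  -- norms
  letI : CommGroup D := { (inferInstance : Group D) with mul_comm := fun u v => Subtype.ext (hDcomm u u.2 v v.2) }
  let act : A → D →* D := fun a =>
    { toFun := fun d => ⟨a • (d : G), hDa a d d.2⟩
      map_one' := Subtype.ext (smul_one a)
      map_mul' := fun u v => Subtype.ext (smul_mul' a (u : G) v) }
  let f : A → G → D := fun a g => ⟨g⁻¹ * a • g, hS a g⟩
  have hcoc : ∀ a b g, f (a * b) g = f a g * act a (f b g) := by
    intro a b g
    apply Subtype.ext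
    show g⁻¹ * (a * b) • g = g⁻¹ * a • g * a • (g⁻¹ * b • g)
    rw [smul_mul', smul_inv', mul_smul]; group
  set n := Nat.card A with hn
  have hnD : n.Coprime (Nat.card D) := hcop.coprime_dvd_right (Subgroup.card_subgroup_dvd_card D)
  let F : G → D := fun g => ∏ b : A, f b g
  have hF : ∀ a g, f a g ^ n = F g * (act a (F g))⁻¹ := by
    intro a g
    rw [eq_mul_inv_iff_mul_eq, map_prod]
    show _ = ∏ b : A, f b g
    rw [← Fintype.prod_equiv (Equiv.mulLeft a) (fun b => f (a * b) g) (fun b => f b g) (fun b => rfl)]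
    simp only [hcoc, Finset.prod_mul_distrib, Finset.prod_const, Finset.card_univ]
    rw [hn, Nat.card_eq_fintype_card]
  have hsol : ∀ g : G, ∃ d : D, ∀ a, f a g = d * (act a d)⁻¹ := by
    intro g
    obtain ⟨d, hd⟩ := (powCoprime hnD.symm).surjective (F g)
    refine ⟨d, fun a => (powCoprime hnD.symm).injective ?_⟩
    simp only [powCoprime_apply] at hd ⊢
    rw [hF, mul_pow, inv_pow, ← map_pow, hd]
  have hDC : ∀ g : G, ∃ d ∈ D, ∃ c ∈ MulAction.fixedPoints A G, g = c * d := by
    intro g
    obtain ⟨d, hd⟩ := hsol g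
    refine ⟨(d : G)⁻¹, inv_mem d.2, g * d, fun a => ?_, by group⟩
    have h1 : g⁻¹ * a • g = (d : G) * (a • (d : G))⁻¹ := congrArg Subtype.val (hd a)
    calc a • (g * (d : G)) = g * (g⁻¹ * a • g) * a • (d : G) := by rw [smul_mul']; group
      _ = g * d := by rw [h1]; group
  -- the norm kills `D`
  let Nm : D →* D := ∏ b : A, act b
  have hNm : ∀ (d : G) (hd : d ∈ D), Nm ⟨d, hd⟩ = 1 := by
    intro d hd
    induction hd using Subgroup.closure_induction with
    | mem x hx =>
      obtain ⟨a, g, rfl⟩ := hx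
      apply (powCoprime hnD.symm).injective
      simp only [powCoprime_apply]
      rw [one_pow, ← map_pow]
      show Nm (f a g ^ n) = 1
      rw [hF, map_mul, map_inv, mul_inv_eq_one]
      simp only [Nm, MonoidHom.finsetProd_apply]
      rw [← Fintype.prod_equiv (Equiv.mulRight a) (fun b => act (b * a) (F g)) (fun b => act b (F g)) (fun b => rfl)]
      refine Finset.prod_congr rfl fun b _ => Subtype.ext ?_
      exact mul_smul b a _
    | one => exact map_one Nm
    | mul x y hx hy ihx ihy =>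
      rw [show (⟨x * y, _⟩ : D) = ⟨x, hx⟩ * ⟨y, hy⟩ from rfl, map_mul, ihx, ihy, one_mul]
    | inv x hx ihx =>
      rw [show (⟨x⁻¹, _⟩ : D) = (⟨x, hx⟩ : D)⁻¹ from rfl, map_inv, ihx, inv_one]
  have hinter : ∀ d ∈ D, d ∈ MulAction.fixedPoints A G → d = 1 := by
    intro d hd hdf
    have h1 := hNm d hd
    simp only [Nm, MonoidHom.finsetProd_apply] at h1
    rw [Finset.prod_eq_pow_card (b := (⟨d, hd⟩ : D)) (fun b _ => Subtype.ext (hdf b)), Finset.card_univ,
      ← Nat.card_eq_fintype_card] at h1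
    have h2 : (⟨d, hd⟩ : D) = 1 := (powCoprime hnD.symm).injective (by simpa [powCoprime_apply, hn] using h1)
    exact congrArg Subtype.val h2
  -- the fixed subgroup
  let C : Subgroup G :=
    { carrier := MulAction.fixedPoints A G
      one_mem' := fun a => smul_one a
      mul_mem' := fun {u v} hu hv a => by rw [smul_mul', hu a, hv a]
      inv_mem' := fun {u} hu a => by rw [smul_inv', hu a] }
  have hcompl : C.IsComplement' D := by
    refine Subgroup.isComplement'_of_disjoint_and_mul_eq_univ ?_ ?_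
    · rw [disjoint_iff, Subgroup.eq_bot_iff_forall]
      exact fun x hx => hinter x hx.2 hx.1
    · rw [Set.eq_univ_iff_forall]
      intro g
      obtain ⟨d, hd, c, hc, rfl⟩ := hDC g
      exact ⟨c, hc, d, hd, rfl⟩
  refine ⟨?_, hDc, hDn, ?_, ?_⟩
  · have hC : Nat.card (MulAction.fixedPoints A G : Set G) = Nat.card C := rfl
    rw [hC, ← hcompl.card_mul_card, Nat.mul_div_cancel_left _ Nat.card_pos]
    refine Nat.coprime_of_dvd fun p hp hpC hpD => ?_
    haveI := Fact.mk hp
    obtain ⟨x, hx⟩ := exists_prime_orderOf_dvd_card' (G := C) p hpC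
    obtain ⟨y, hy⟩ := exists_prime_orderOf_dvd_card' (G := D) p hpD
    rw [← Subgroup.orderOf_coe] at hx hy
    have hxp : IsPGroup p (Subgroup.zpowers (x : G)) := IsPGroup.of_card (n := 1) (by rw [Nat.card_zpowers, hx, pow_one])
    have hyp : IsPGroup p (Subgroup.zpowers (y : G)) := IsPGroup.of_card (n := 1) (by rw [Nat.card_zpowers, hy, pow_one])
    haveI : (Subgroup.zpowers (y : G)).Normal := by
      refine ⟨fun m hm g => ?_⟩
      have hmD : m ∈ D := Subgroup.zpowers_le.2 y.2 hm
      have hmp : m ^ p = 1 := by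
        obtain ⟨k, rfl⟩ := hm
        rw [← zpow_natCast, ← zpow_mul, mul_comm, zpow_mul, zpow_natCast, ← hy, pow_orderOf_eq_one, one_zpow]
      obtain ⟨k, hk⟩ := mem_zpowers_of_cyclic (C := D) hp (x := ⟨g * m * g⁻¹, hDn.conj_mem m hmD g⟩) (y := y)
        (by rw [← Subgroup.orderOf_coe]; exact hy)
        (Subtype.ext (by show (g * m * g⁻¹) ^ p = 1; rw [conj_pow, hmp]; simp))
      exact ⟨k, congrArg Subtype.val hk⟩
    obtain ⟨P, hP⟩ := (hxp.to_sup_of_normal_right hyp).exists_le_sylow
    haveI := hcyc p P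
    obtain ⟨k, hk⟩ := mem_zpowers_of_cyclic (C := (P : Subgroup G)) hp
      (x := ⟨(x : G), hP ((le_sup_left : Subgroup.zpowers (x : G) ≤ _) (Subgroup.mem_zpowers _))⟩)
      (y := ⟨(y : G), hP ((le_sup_right : Subgroup.zpowers (y : G) ≤ _) (Subgroup.mem_zpowers _))⟩)
      (by rw [← Subgroup.orderOf_coe]; exact hy) (Subtype.ext (by show (x : G) ^ p = 1; rw [← hx, pow_orderOf_eq_one]))
    have hk' : (y : G) ^ k = (x : G) := congrArg Subtype.val hk
    have hx1 := hinter (x : G) (hk' ▸ D.zpow_mem y.2 k) x.2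
    rw [hx1, orderOf_one] at hx
    exact hp.ne_one hx.symm
  · ext x
    simp only [Set.mem_inter_iff, SetLike.mem_coe, Set.mem_singleton_iff]
    exact ⟨fun h => hinter x h.1 h.2, fun h => h ▸ ⟨one_mem _, fun a => smul_one a⟩⟩
  · rw [eq_top_iff]
    intro g _
    obtain ⟨d, hd, c, hc, rfl⟩ := hDC g
    exact mul_mem ((le_sup_right : _ ≤ D ⊔ _) (Subgroup.subset_closure hc)) ((le_sup_left : D ≤ _) hd)

theorem result {G A : Type*} [Group G] [Finite G] [Group A] [Finite A]
    [MulDistribMulAction A G] (hcop : (Nat.card A).Coprime (Nat.card G))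
    (hcyc : ∀ (p : ℕ) [Fact p.Prime] (P : Sylow p G), IsCyclic (P : Subgroup G)) :
    (Nat.card (MulAction.fixedPoints A G : Set G)).Coprime (Nat.card G / Nat.card (MulAction.fixedPoints A G : Set G)) ∧
    IsCyclic (Subgroup.closure {y : G | ∃ (a : A) (g : G), y = g⁻¹ * a • g}) ∧
    (Subgroup.closure {y : G | ∃ (a : A) (g : G), y = g⁻¹ * a • g}).Normal ∧
    (Subgroup.closure {y : G | ∃ (a : A) (g : G), y = g⁻¹ * a • g} : Set G) ∩ MulAction.fixedPoints A G = {1} ∧
    Subgroup.closure {y : G | ∃ (a : A) (g : G), y = g⁻¹ * a • g} ⊔ Subgroup.closure (MulAction.fixedPoints A G) = ⊤ :=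
  main hcop hcyc

end Cfsg.Agent.S4117
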