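import Cfsg.Statements.S4125
import Cfsg.Agent.Eq.Def_Solvable
import Cfsg.Agent.QBaer.Main

set_option autoImplicit false
open Cfsg
open CfsgLib


namespace Cfsg.Agent.S4125

/-- Let G be a finite group and q a prime dividing its order such that every element of q-power order has a conjugacy class of prime-power size. Then G is q-solvable of q-length 1: there are normal subgroups K ≤ L of G with K of order prime to q, L/K a q-group and L of index prime to q. Moreover there is a prime p such that every element of q-power order has a class of p-power size (one prime serving for all of them), and for a Sylow q-subgroup Q: if p = q then Q is normal with a normal complement (a direct factor), while if p ≠ q then Q is abelian, the product of Q with the largest normal p-subgroup O_p(G) is normal in G, and G/O_{q'}(G) is solvable, where O_{q'}(G) is the largest normal subgroup of order prime to q. -/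
theorem result {G : Type*} [Group G] [Finite G] (q : ℕ) [Fact q.Prime] (hq : q ∣ Nat.card G)
    (hBaer : ∀ x : G, (∃ k : ℕ, orderOf x = q ^ k) → ∃ (r : ℕ) (a : ℕ), r.Prime ∧ (Subgroup.centralizer ({x} : Set G)).index = r ^ a) (Q : Sylow q G) :
    (∃ K L : Subgroup G, K.Normal ∧ L.Normal ∧ K ≤ L ∧ (Nat.card K).Coprime q ∧ (∃ m : ℕ, K.relIndex L = q ^ m) ∧ L.index.Coprime q) ∧
    ∃ p : ℕ, p.Prime ∧ (∀ x : G, (∃ k : ℕ, orderOf x = q ^ k) → ∃ a : ℕ, (Subgroup.centralizer ({x} : Set G)).index = p ^ a) ∧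
      (p = q → (Q : Subgroup G).Normal ∧ ∃ N : Subgroup G, N.Normal ∧ N.IsComplement' (Q : Subgroup G)) ∧
      (p ≠ q → IsMulCommutative (Q : Subgroup G) ∧ (Cfsg.pCore p G ⊔ (Q : Subgroup G)).Normal ∧
        ∀ _h : (Cfsg.pPrimeCore q G).Normal, Group.IsSolvable (G ⧸ Cfsg.pPrimeCore q G)) := by
  classical
  have h : QBaer.IsBaer q G := hBaer
  have hQcop := h.qLength_one Q
  refine ⟨hQcop, ?_⟩
  by_cases hA : ∃ x : G, (∃ k : ℕ, orderOf x = q ^ k) ∧
      ∃ a : ℕ, (Subgroup.centralizer ({x} : Set G)).index = q ^ a ∧ a ≠ 0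
  · obtain ⟨x, hx, a, hxa, ha⟩ := hA
    obtain ⟨hn, hc⟩ := h.direct_of_qPower Q hx hxa ha
    obtain ⟨hP, hN⟩ := QBaer.exists_complement_of_direct hn hc
    exact ⟨q, Fact.out, hP, fun _ => ⟨hn, hN⟩, fun hne => absurd rfl hne⟩
  push Not at hA
  have hno : ∀ x : G, (∃ k : ℕ, orderOf x = q ^ k) →
      ∀ a : ℕ, (Subgroup.centralizer ({x} : Set G)).index = q ^ a → a = 0 := fun x hx a ha => hA x hx a ha
  by_cases hB : ∃ x : G, (∃ k : ℕ, orderOf x = q ^ k) ∧
      (Subgroup.centralizer ({x} : Set G)).index ≠ 1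
  · obtain ⟨x, hx, hx1⟩ := hB
    obtain ⟨p, a, hp, hxa⟩ := hBaer x hx
    haveI := Fact.mk hp
    have ha : a ≠ 0 := by rintro rfl; exact hx1 (by rw [hxa, pow_zero])
    have hpq : p ≠ q := by rintro rfl; exact ha (hno x hx a hxa)
    have hP := fun y hy => h.one_prime hpq hno hx hxa ha (y := y) hy
    refine ⟨p, hp, hP, fun e => absurd e hpq, fun _ => ⟨?_, QBaer.pCore_sup_normal hP Q, fun _ => ?_⟩⟩
    · exact IsMulCommutative.of_comm fun a b =>
        Subtype.ext (h.sylow_commutative hp hpq hP Q _ a.2 _ b.2)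
    · refine (h.quotient (Cfsg.pPrimeCore q G)).quotient_solvable
        Constrained.pPrimeCore_quotient_pPrimeCore hpq (fun y hy => ?_)
        (Q.mapSurjective (QuotientGroup.mk'_surjective _))
      obtain ⟨x', hx', rfl⟩ := QBaer.exists_lift (QuotientGroup.mk' _)
        (QuotientGroup.mk'_surjective _) (Fact.out : q.Prime) hy
      obtain ⟨b, hb⟩ := hP x' hx'
      obtain ⟨c, -, hc⟩ := (Nat.dvd_prime_pow hp).mp (hb ▸ PrimePowerClass.index_map_centralizer_dvd
        (QuotientGroup.mk' (Cfsg.pPrimeCore q G)) (QuotientGroup.mk'_surjective _) x')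
      exact ⟨c, hc⟩
  · push Not at hB
    have hcen : ∀ u ∈ (Q : Subgroup G), ∀ g : G, g * u = u * g := fun u hu g => by
      have h1 := Subgroup.index_eq_one.mp (hB u (QBaer.exists_pow_orderOf_sylow Q hu))
      exact Subgroup.mem_centralizer_singleton_iff.mp
        (show g ∈ Subgroup.centralizer ({u} : Set G) by rw [h1]; trivial)
    have hn : (Q : Subgroup G).Normal := ⟨fun u hu g => by
      rw [hcen u hu g, mul_inv_cancel_right]; exact hu⟩
    obtain ⟨hP, hN⟩ := QBaer.exists_complement_of_direct hn (fun u hu g _ => hcen u hu g)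
    exact ⟨q, Fact.out, hP, fun _ => ⟨hn, hN⟩, fun hne => absurd rfl hne⟩

end Cfsg.Agent.S4125
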