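import Cfsg.Statements.S4127
import Cfsg.Agent.Eq.Def_Transfer
import Cfsg.Agent.ClassSizes.PPrimeCentral
import Cfsg.Agent.GlaubermanZJ.AxB
-- import your own Cfsg.Agent.* helpers here

set_option autoImplicit false
open Cfsg

namespace Cfsg.Agent.S4127

/-- Let G be a finite group, p a prime and p^a the largest power of p dividing the size of any conjugacy class of G. If some element of p-power order has a conjugacy class of size exactly p^a, then G has a normal p-complement. -/
theorem result {G : Type*} [Group G] [Finite G] (p : ℕ) [Fact p.Prime]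
    (a : ℕ) (hmax : ∀ y : G, ¬ p ^ (a + 1) ∣ (Subgroup.centralizer ({y} : Set G)).index)
    (hx : ∃ x : G, (∃ k : ℕ, orderOf x = p ^ k) ∧ (Subgroup.centralizer ({x} : Set G)).index = p ^ a) :
    Cfsg.HasNormalPComplement p G := by
  
  obtain ⟨x, ⟨k, hk⟩, hxi⟩ := hx
  have hp : p.Prime := Fact.out
  set C := Subgroup.centralizer ({x} : Set G) with hC
  have hxC : x ∈ C := Subgroup.mem_centralizer_singleton_iff.2 rfl
  have hCh : ∀ y : C, (orderOf y).Coprime p →
      ¬ p ∣ (Subgroup.centralizer ({y} : Set C)).index := by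
    intro y hy hdvd
    rw [← Subgroup.orderOf_coe] at hy
    have hc : Commute x (y : G) := (Subgroup.mem_centralizer_singleton_iff.1 y.2).symm
    have hcop : (orderOf x).Coprime (orderOf (y : G)) := hk ▸ hy.symm.pow_left k
    set D := Subgroup.centralizer ({x * (y : G)} : Set G) with hD
    have hxm : x ∈ Subgroup.zpowers (x * (y : G)) := by
      obtain ⟨m, hm⟩ := exists_pow_eq_self_of_coprime hcop.symm
      refine Subgroup.mem_zpowers_iff.2 ⟨((orderOf (y : G) * m : ℕ) : ℤ), ?_⟩
      rw [zpow_natCast, hc.mul_pow, pow_mul (y : G), pow_orderOf_eq_one, one_pow, mul_one, pow_mul, hm]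
    have hDle : D = C ⊓ Subgroup.centralizer ({(y : G)} : Set G) := by
      refine le_antisymm (fun g hg => ?_) (fun g hg => ?_)
      · have hgxy : Commute g (x * (y : G)) := Subgroup.mem_centralizer_singleton_iff.1 hg
        have hgx : Commute g x := by
          obtain ⟨i, hi⟩ := Subgroup.mem_zpowers_iff.1 hxm
          rw [← hi]
          exact hgxy.zpow_right i
        refine ⟨Subgroup.mem_centralizer_singleton_iff.2 hgx, Subgroup.mem_centralizer_singleton_iff.2 ?_⟩
        have : Commute g (x⁻¹ * (x * (y : G))) := hgx.inv_right.mul_right hgxy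
        rwa [inv_mul_cancel_left] at this
      · have h1 : Commute g x := Subgroup.mem_centralizer_singleton_iff.1 hg.1
        have h2 : Commute g (y : G) := Subgroup.mem_centralizer_singleton_iff.1 hg.2
        exact Subgroup.mem_centralizer_singleton_iff.2 (h1.mul_right h2)
    have hsub : (Subgroup.centralizer ({y} : Set C)) = D.subgroupOf C := by
      ext g
      rw [Subgroup.mem_subgroupOf, hDle, Subgroup.mem_inf, Subgroup.mem_centralizer_singleton_iff]
      exact ⟨fun h => ⟨g.2, Subgroup.mem_centralizer_singleton_iff.2 (congrArg Subtype.val h)⟩,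
        fun h => Subtype.ext (Subgroup.mem_centralizer_singleton_iff.1 h.2)⟩
    rw [hsub] at hdvd
    refine hmax (x * (y : G)) ?_
    have h1 := Subgroup.relIndex_mul_index (show D ≤ C from hDle ▸ inf_le_left)
    rw [← hD, ← h1, hxi, pow_succ, Nat.mul_comm (p ^ a)]
    exact Nat.mul_dvd_mul_right hdvd _
  obtain ⟨P0⟩ := (inferInstance : Nonempty (Sylow p C))
  obtain ⟨hP0n, hcompl, hcen⟩ := CfsgLib.ClassSizes.sylow_direct_factor hCh P0
  obtain ⟨H0, hH0n, hH0c, j, hj⟩ := CfsgLib.Transfer.hasNormalPComplement_iff_exists.1 hcompl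
  haveI := hH0n
  set P0' := (P0 : Subgroup C).map C.subtype with hP0'
  obtain ⟨P, hP⟩ := (P0.isPGroup'.map C.subtype).exists_le_sylow
  -- `G = P C`
  have hPC : (P : Subgroup G) ⊓ C = P0' := by
    refine le_antisymm ?_ (le_inf hP (Subgroup.map_subtype_le _))
    intro g hg
    have h1 : ((P : Subgroup G).subgroupOf C) = (P0 : Subgroup C) := by
      refine P0.is_maximal' (P.isPGroup'.comap_of_injective _ C.subtype_injective) fun z hz => ?_
      exact hP (Subgroup.mem_map_of_mem _ hz)
    exact ⟨⟨g, hg.2⟩, h1 ▸ (Subgroup.mem_subgroupOf.2 hg.1 : (⟨g, hg.2⟩ : C) ∈ _), rfl⟩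
  have hrel : C.relIndex (P : Subgroup G) = p ^ a := by
    have h1 := Subgroup.card_mul_index (C.subgroupOf (P : Subgroup G))
    have h2 : Nat.card (C.subgroupOf (P : Subgroup G)) = Nat.card P0' := by
      rw [← hPC, ← Subgroup.inf_subgroupOf_left, Nat.card_congr (Subgroup.subgroupOfEquivOfLe inf_le_left).toEquiv]
    rw [h2, hP0', Subgroup.card_map_of_injective C.subtype_injective, P0.card_eq_multiplicity,
      P.card_eq_multiplicity] at h1
    have h3 : Nat.card G = p ^ a * Nat.card C := by
      rw [← hxi, Nat.mul_comm, Subgroup.card_mul_index]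
    rw [h3, Nat.factorization_mul (pow_ne_zero _ hp.ne_zero) Nat.card_pos.ne', Finsupp.add_apply,
      hp.factorization_pow, Finsupp.single_eq_same, Nat.add_comm, pow_add] at h1
    exact Nat.eq_of_mul_eq_mul_left (pow_pos hp.pos _) h1
  have hprod : ∀ g : G, ∃ u ∈ (P : Subgroup G), ∃ c ∈ C, g = u * c := by
    let ι : (P : Subgroup G) ⧸ C.subgroupOf (P : Subgroup G) → G ⧸ C :=
      Quotient.map' (fun u : (P : Subgroup G) => (u : G)) fun u v h => by
        rw [QuotientGroup.leftRel_apply] at h ⊢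
        exact h
    have hι : Function.Injective ι := by
      intro u v
      induction u using QuotientGroup.induction_on with | _ u =>
      induction v using QuotientGroup.induction_on with | _ v =>
      intro h
      exact QuotientGroup.eq.2 (Subgroup.mem_subgroupOf.2
        (QuotientGroup.eq.1 (show (QuotientGroup.mk (u : G) : G ⧸ C) = QuotientGroup.mk (v : G) from h)))
    have hbij := (Nat.bijective_iff_injective_and_card ι).2 ⟨hι, hrel.trans hxi.symm⟩
    intro g
    obtain ⟨u, hu⟩ := hbij.2 (QuotientGroup.mk g)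
    induction u using QuotientGroup.induction_on with | _ u =>
    exact ⟨u, u.2, (u : G)⁻¹ * g, QuotientGroup.eq.1 hu, (mul_inv_cancel_left _ _).symm⟩
  have hxP0 : ∀ z : C, (∃ i, orderOf z = p ^ i) → z ∈ (P0 : Subgroup C) := by
    rintro z ⟨i, hi⟩
    obtain ⟨R, hR⟩ := (IsPGroup.of_card (p := p) (n := i)
      ((Nat.card_zpowers z).trans hi)).exists_le_sylow
    haveI : Subsingleton (Sylow p C) := P0.unique_of_normal hP0n |>.instSubsingleton
    rw [Subsingleton.elim P0 R]
    exact hR (Subgroup.mem_zpowers z)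
  have hxP : x ∈ (P : Subgroup G) :=
    hP ⟨⟨x, hxC⟩, hxP0 _ ⟨k, by rw [Subgroup.orderOf_mk, hk]⟩, rfl⟩
  set Q := Subgroup.normalClosure ({x} : Set G) with hQ
  have hQP : Q ≤ (P : Subgroup G) := by
    refine (Subgroup.closure_le _).2 fun y hy => ?_
    obtain ⟨w, hw, hwy⟩ := Group.mem_conjugatesOfSet_iff.1 hy
    rw [Set.mem_singleton_iff] at hw
    subst hw
    obtain ⟨g, rfl⟩ := isConj_iff.1 hwy
    obtain ⟨u, hu, c, hc, rfl⟩ := hprod g
    have : u * c * w * (u * c)⁻¹ = u * w * u⁻¹ := by
      calc u * c * w * (u * c)⁻¹ = u * (c * w * c⁻¹) * u⁻¹ := by group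
        _ = u * w * u⁻¹ := by rw [Subgroup.mem_centralizer_singleton_iff.1 hc, mul_inv_cancel_right]
    rw [SetLike.mem_coe, this]
    exact mul_mem (mul_mem hu hxP) (inv_mem hu)
  have hQp : IsPGroup p Q := P.isPGroup'.to_le hQP
  set H := H0.map C.subtype with hH
  have hH0mem := CfsgLib.Transfer.mem_iff_coprime_of_pPower_index hH0c hj
  have hcent : ∀ h ∈ H, ∀ y ∈ Q, h * y = y * h := by
    rintro _ ⟨h, hh, rfl⟩
    have hhc : (orderOf h).Coprime p := (hH0mem h).1 hh
    refine CfsgLib.GlaubermanZJ.thompson_axb_elem (B := Subgroup.zpowers x) hQp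
      (IsPGroup.of_card ((Nat.card_zpowers x).trans hk)) ?_ ?_ ?_ ?_ ?_
    · exact Subgroup.le_normalizer_of_normal
    · exact Subgroup.le_normalizer_of_normal (Subgroup.mem_top _)
    · intro b hb
      obtain ⟨i, rfl⟩ := Subgroup.mem_zpowers_iff.1 hb
      exact (show Commute (h : G) x from Subgroup.mem_centralizer_singleton_iff.1 h.2).zpow_right i
    · rw [Subgroup.coe_subtype, Subgroup.orderOf_coe]; exact hhc
    · intro y hy hyx
      have hyC : y ∈ C := Subgroup.mem_centralizer_singleton_iff.2 (hyx x (Subgroup.mem_zpowers x)).symm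
      obtain ⟨i, hi⟩ : ∃ i, orderOf (⟨y, hy⟩ : Q) = p ^ i := IsPGroup.iff_orderOf.1 hQp _
      exact congrArg Subtype.val
        (hcen h hhc ⟨y, hyC⟩ (hxP0 _ ⟨i, by rw [Subgroup.orderOf_mk]; rwa [Subgroup.orderOf_mk] at hi⟩))
  have hHn : H.Normal := by
    refine ⟨fun n hn g => ?_⟩
    have hgx : g⁻¹ * x * g ∈ Q := by
      have := Subgroup.normalClosure_normal.conj_mem x (Subgroup.subset_normalClosure (by simp : x ∈ ({x} : Set G))) g⁻¹
      rwa [inv_inv] at this
    have h1 := hcent n hn _ hgx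
    have h2 : g * n * g⁻¹ ∈ C := by
      rw [hC, Subgroup.mem_centralizer_singleton_iff]
      calc g * n * g⁻¹ * x = g * (n * (g⁻¹ * x * g)) * g⁻¹ := by group
        _ = g * ((g⁻¹ * x * g) * n) * g⁻¹ := by rw [h1]
        _ = x * (g * n * g⁻¹) := by group
    refine ⟨⟨_, h2⟩, (hH0mem _).2 ?_, rfl⟩
    obtain ⟨n0, hn0, rfl⟩ := hn
    rw [Subgroup.orderOf_mk, show g * C.subtype n0 * g⁻¹ = MulAut.conj g (C.subtype n0) from rfl,
      MulEquiv.orderOf_eq, Subgroup.coe_subtype, Subgroup.orderOf_coe]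
    exact (hH0mem n0).1 hn0
  refine CfsgLib.Transfer.hasNormalPComplement_iff_exists.2 ⟨H, hHn, ?_, j + a, ?_⟩
  · rwa [hH, Subgroup.card_map_of_injective C.subtype_injective]
  · rw [hH, Subgroup.index_map_subtype, hj, hxi, pow_add]

end Cfsg.Agent.S4127
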