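import Cfsg.Statements.S4134
import Cfsg.Agent.ClassSizes.TwoSizes
-- import your own Cfsg.Agent.* helpers here

set_option autoImplicit false
open Cfsg

namespace Cfsg.Agent.S4134

/-- Let G be a finite group whose conjugacy classes have exactly two sizes, 1 and n > 1. Then n is a power of a prime p and G is the direct product of a p-group and an abelian group of order prime to p: its Sylow p-subgroup P is normal with an abelian normal complement centralizing it; moreover P has an abelian normal subgroup A with P/A of exponent dividing p. -/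
theorem result {G : Type*} [Group G] [Finite G] (n : ℕ) (hn : 1 < n)
    (h : ∀ x : G, (Subgroup.centralizer ({x} : Set G)).index = 1 ∨ (Subgroup.centralizer ({x} : Set G)).index = n) (hex : ∃ x : G, (Subgroup.centralizer ({x} : Set G)).index = n) :
    ∃ (p : ℕ) (_ : Fact p.Prime) (a : ℕ), n = p ^ a ∧ ∀ P : Sylow p G, (P : Subgroup G).Normal ∧
      (∃ N : Subgroup G, N.Normal ∧ N.IsComplement' (P : Subgroup G) ∧ IsMulCommutative N ∧
        ∀ x ∈ N, ∀ y ∈ (P : Subgroup G), x * y = y * x) ∧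
      ∃ A : Subgroup (P : Subgroup G), A.Normal ∧ IsMulCommutative A ∧ ∀ y : (P : Subgroup G), y ^ p ∈ A := by
  
  classical
  open CfsgLib.TwoSizes in
  have hiff : ∀ g : G, g ∈ Subgroup.center G ↔ (Subgroup.centralizer ({g} : Set G)).index = 1 := by
    intro g
    rw [Subgroup.index_eq_one]
    refine ⟨fun hg => cen_eq_top hg, fun hg => Subgroup.mem_center_iff.2 fun y => ?_⟩
    exact mem_cen.1 (hg.ge (Subgroup.mem_top y) : y ∈ cen g)
  open CfsgLib.TwoSizes in
  have h2 : HasTwoSizes G n := fun x hx => (h x).resolve_left fun h1 => hx ((hiff x).2 h1)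
  obtain ⟨x₀, hx₀⟩ := hex
  have hx₀Z : x₀ ∉ Subgroup.center G := fun hc => by
    have := (hiff x₀).1 hc
    omega
  -- some prime has a noncentral element
  open CfsgLib.TwoSizes in
  obtain ⟨p, hp, w, hw, hwZ⟩ : ∃ p : ℕ, p.Prime ∧ ∃ w : G, IsPElt p w ∧ w ∉ Subgroup.center G := by
    by_contra hno
    push Not at hno
    exact hx₀Z (le_of_forall_pElt (K := (⊤ : Subgroup G)) (fun q hq u _ hu => hno q hq u hu) (Subgroup.mem_top x₀))
  haveI : Fact p.Prime := ⟨hp⟩
  open CfsgLib.TwoSizes in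
  have hother : ∀ q : ℕ, q.Prime → q ≠ p → ∀ u : G, IsPElt q u → u ∈ Subgroup.center G := by
    intro q hq hqp u hu
    by_contra huZ
    haveI : Fact q.Prime := ⟨hq⟩
    exact hqp (prime_unique h2 hn (a := q) (b := p) ⟨u, hu, huZ⟩ ⟨w, hw, hwZ⟩)
  -- the index of the center is a power of `p`
  have hidx : ∀ q : ℕ, q.Prime → q ∣ (Subgroup.center G).index → q = p := by
    intro q hq hd
    by_contra hqp
    haveI : Fact q.Prime := ⟨hq⟩
    obtain ⟨Q⟩ : Nonempty (Sylow q G) := inferInstance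
    refine Q.not_dvd_index (hd.trans (Subgroup.index_dvd_of_le fun g hg => ?_))
    obtain ⟨k, hk⟩ := Q.2 ⟨g, hg⟩
    exact hother q hq hqp g ⟨k, congrArg Subtype.val hk⟩
  have hnd : n ∣ (Subgroup.center G).index := by
    rw [← hx₀]
    exact Subgroup.index_dvd_of_le (CfsgLib.TwoSizes.center_le_cen x₀)
  refine ⟨p, ⟨hp⟩, n.primeFactorsList.length, Nat.eq_prime_pow_of_unique_prime_dvd (by omega)
    (fun {d} hd hdn => hidx d hd (hdn.trans hnd)), fun P => ?_⟩
  -- `G = Z P`
  have hZP : (P : Subgroup G) ⊔ Subgroup.center G = ⊤ := by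
    rw [← Subgroup.index_eq_one]
    by_contra hne
    obtain ⟨q, hq, hqd⟩ := Nat.exists_prime_and_dvd hne
    have hqp := hidx q hq (hqd.trans (Subgroup.index_dvd_of_le le_sup_right))
    subst hqp
    exact P.not_dvd_index (hqd.trans (Subgroup.index_dvd_of_le le_sup_left))
  have hPn : (P : Subgroup G).Normal := by
    rw [← Subgroup.normalizer_eq_top_iff, eq_top_iff, ← hZP]
    refine sup_le Subgroup.le_normalizer ?_
    exact (Subgroup.center_le_centralizer _).trans (Subgroup.centralizer_le_normalizer _)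
  refine ⟨hPn, ?_, ?_⟩
  · -- the central Hall subgroup
    let N : Subgroup G :=
      { carrier := {z | z ∈ Subgroup.center G ∧ (orderOf z).Coprime p}
        one_mem' := ⟨one_mem _, by simp⟩
        mul_mem' := fun {a b} ha hb => ⟨mul_mem ha.1 hb.1,
          Nat.Coprime.coprime_dvd_left ((Commute.orderOf_mul_dvd_lcm
            (show Commute a b from (Subgroup.mem_center_iff.1 hb.1 a))).trans (Nat.lcm_dvd_mul _ _))
            (Nat.Coprime.mul_left ha.2 hb.2)⟩
        inv_mem' := fun {a} ha => ⟨inv_mem ha.1, by rw [orderOf_inv]; exact ha.2⟩ }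
    have hNZ : N ≤ Subgroup.center G := fun z hz => hz.1
    have hNn : N.Normal := ⟨fun z hz g => by
      have e : g * z * g⁻¹ = z := by rw [Subgroup.mem_center_iff.1 hz.1 g]; group
      rwa [e]⟩
    refine ⟨N, hNn, ?_, ⟨⟨fun a b => Subtype.ext (Subgroup.mem_center_iff.1 b.2.1 a)⟩⟩,
      fun x hx y _ => (Subgroup.mem_center_iff.1 hx.1 y).symm⟩
    have hdisj : Disjoint N (P : Subgroup G) := by
      rw [Subgroup.disjoint_def]
      intro x hx hxP
      obtain ⟨k, hk⟩ := P.2 ⟨x, hxP⟩
      rw [← orderOf_eq_one_iff]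
      exact Nat.eq_one_of_dvd_coprimes (hx.2.pow_right k) dvd_rfl
        (orderOf_dvd_of_pow_eq_one (congrArg Subtype.val hk))
    refine Subgroup.isComplement'_of_disjoint_and_mul_eq_univ hdisj ?_
    rw [← Subgroup.normal_mul, Subgroup.coe_eq_univ, eq_top_iff, ← hZP]
    refine sup_le le_sup_right (CfsgLib.TwoSizes.le_of_forall_pElt fun q hq u hu hqu => ?_)
    by_cases hqp : q = p
    · subst hqp
      refine Subgroup.mem_sup_right ?_
      obtain ⟨k, hk⟩ := hqu
      obtain ⟨j, -, hj⟩ := (Nat.dvd_prime_pow hq).1 (orderOf_dvd_of_pow_eq_one hk)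
      have hp' : IsPGroup q (Subgroup.zpowers u) := IsPGroup.of_card (n := j) (by rw [Nat.card_zpowers, hj])
      obtain ⟨P', hP'⟩ := hp'.exists_le_sylow
      haveI := P.unique_of_normal hPn
      rw [Subsingleton.elim P' P] at hP'
      exact hP' (Subgroup.mem_zpowers u)
    · refine Subgroup.mem_sup_left ⟨hu, ?_⟩
      obtain ⟨k, hk⟩ := hqu
      exact Nat.Coprime.coprime_dvd_left (orderOf_dvd_of_pow_eq_one hk)
        (((Nat.coprime_primes hq hp).2 hqp).pow_left k)
  · -- the abelian subgroup of the Sylow subgroup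
    refine CfsgLib.TwoSizes.exists_abelian_normal_pow_mem P.2 fun x y hx hy hle => ?_
    have hcl : ∀ u : (P : Subgroup G), ∀ g : G, g ∈ CfsgLib.TwoSizes.cen (u : G) →
        ∃ v ∈ CfsgLib.TwoSizes.cen u, ∃ z ∈ Subgroup.center G, g = (v : G) * z := by
      intro u g hg
      have hgm : g ∈ (P : Subgroup G) ⊔ Subgroup.center G := hZP ▸ Subgroup.mem_top g
      obtain ⟨v, hv, z, hz, rfl⟩ := Subgroup.mem_sup_of_normal_right.1 hgm
      refine ⟨⟨v, hv⟩, CfsgLib.TwoSizes.mem_cen.2 (Subtype.ext ?_), z, hz, rfl⟩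
      have h1 : v * z ∈ CfsgLib.TwoSizes.cen (u : G) := hg
      have h3 := mul_mem h1 (inv_mem (CfsgLib.TwoSizes.center_le_cen (u : G) hz))
      rw [mul_inv_cancel_right] at h3
      exact CfsgLib.TwoSizes.mem_cen.1 h3
    have hnc : ∀ u : (P : Subgroup G), u ∉ Subgroup.center (P : Subgroup G) → (u : G) ∉ Subgroup.center G :=
      fun u hu hc => hu (Subgroup.mem_center_iff.2 fun v => Subtype.ext (Subgroup.mem_center_iff.1 hc v))
    have heq := CfsgLib.TwoSizes.cen_eq_of_le h2 (hnc x hx) (hnc y hy) fun g hg => by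
      obtain ⟨v, hv, z, hz, rfl⟩ := hcl x g hg
      exact mul_mem (CfsgLib.TwoSizes.mem_cen.2 (congrArg Subtype.val
        (CfsgLib.TwoSizes.mem_cen.1 (hle hv)) : (v : G) * y = y * v))
        (CfsgLib.TwoSizes.center_le_cen (y : G) hz)
    refine le_antisymm hle fun v hv => CfsgLib.TwoSizes.mem_cen.2 (Subtype.ext ?_)
    exact CfsgLib.TwoSizes.mem_cen.1 (heq.ge (CfsgLib.TwoSizes.mem_cen.2
      (congrArg Subtype.val (CfsgLib.TwoSizes.mem_cen.1 hv) : (v : G) * y = y * v)))

end Cfsg.Agent.S4134
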