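import Cfsg.Statements.S4138
import Cfsg.Agent.ClassSizes.LargestTwoStructure
-- import your own Cfsg.Agent.* helpers here

set_option autoImplicit false
open Cfsg

namespace Cfsg.Agent.S4138

/-- Let G be a finite group whose two largest conjugacy class sizes m > n > 1 are coprime, and let x, y ∈ G have classes of sizes n and m respectively. Then C_G(x) and C_G(y) are abelian, and G/Z(G) is a Frobenius group with kernel C_G(x)/Z(G) and complement C_G(y)/Z(G). -/
theorem result {G : Type*} [Group G] [Finite G] (m n : ℕ) (hmn : n < m) (hn : 1 < n)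
    (hcop : m.Coprime n) (htop : ∀ z : G, (Subgroup.centralizer ({z} : Set G)).index ≤ m) (hsecond : ∀ z : G, (Subgroup.centralizer ({z} : Set G)).index < m → (Subgroup.centralizer ({z} : Set G)).index ≤ n)
    (x y : G) (hx : (Subgroup.centralizer ({x} : Set G)).index = n) (hy : (Subgroup.centralizer ({y} : Set G)).index = m) :
    IsMulCommutative (Subgroup.centralizer ({x} : Set G)) ∧ IsMulCommutative (Subgroup.centralizer ({y} : Set G)) ∧
    Cfsg.IsFrobeniusComplement ((Subgroup.centralizer ({y} : Set G)).map (QuotientGroup.mk' (Subgroup.center G))) ∧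
    Cfsg.frobeniusKernel ((Subgroup.centralizer ({y} : Set G)).map (QuotientGroup.mk' (Subgroup.center G))) =
      ((Subgroup.centralizer ({x} : Set G)).map (QuotientGroup.mk' (Subgroup.center G)) : Set (G ⧸ Subgroup.center G)) := by
  have H : CfsgLib.CoprimeLargest.Largest m n x y :=
    ⟨hn, hmn, hcop, fun g => (lt_or_eq_of_le (htop g)).elim (fun h => Or.inr (hsecond g h)) Or.inl, hx, hy⟩
  refine ⟨⟨⟨fun a b => Subtype.ext (H.cen_x_comm a a.2 b b.2)⟩⟩,
    ⟨⟨fun a b => Subtype.ext (H.cen_y_comm a a.2 b b.2)⟩⟩, H.frobenius⟩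

end Cfsg.Agent.S4138
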