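import Cfsg.Statements.S4142
import Cfsg.Agent.ClassSizes.ConjRange
-- import your own Cfsg.Agent.* helpers here

set_option autoImplicit false
open Cfsg

namespace Cfsg.Agent.S4142

/-- Let G be a finite group and N a normal subgroup. Then the conjugacy class of every element g outside N is a union of cosets of N (gn is conjugate to g for all n ∈ N) if and only if for every g outside N the centralizer of g in G has the same order as the centralizer of gN in G/N. -/
theorem result {G : Type*} [Group G] [Finite G] (N : Subgroup G) [N.Normal] :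
    (∀ g : G, g ∉ N → ∀ n ∈ N, ∃ x : G, x * g * x⁻¹ = g * n) ↔
      ∀ g : G, g ∉ N → Nat.card (Subgroup.centralizer ({g} : Set G)) =
        Nat.card (Subgroup.centralizer ({(QuotientGroup.mk g : G ⧸ N)} : Set (G ⧸ N))) := by
  
  refine forall₂_congr fun g _ => ?_
  set A : Set G := Set.range fun x : G => x * g * x⁻¹ with hA
  set A' : Set (G ⧸ N) := Set.range fun x : G ⧸ N => x * (QuotientGroup.mk g) * x⁻¹ with hA'
  set B : Set G := QuotientGroup.mk ⁻¹' A' with hB
  have hAB : A ⊆ B := by
    rintro _ ⟨x, rfl⟩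
    exact ⟨QuotientGroup.mk x, rfl⟩
  have hBcard : B.ncard = Nat.card N * A'.ncard := by
    rw [← Nat.card_coe_set_eq, Nat.card_congr (QuotientGroup.preimageMkEquivSubgroupProdSet N A'),
      Nat.card_prod, Nat.card_coe_set_eq]
  have e1 : Nat.card (Subgroup.centralizer ({g} : Set G)) * A.ncard = Nat.card G := by
    rw [hA, CfsgLib.ClassSizes.ncard_conjRange, Subgroup.card_mul_index]
  have e2 : Nat.card (Subgroup.centralizer ({(QuotientGroup.mk g : G ⧸ N)} : Set (G ⧸ N))) *
      B.ncard = Nat.card G := by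
    rw [hBcard, hA', CfsgLib.ClassSizes.ncard_conjRange, Nat.mul_left_comm, Subgroup.card_mul_index,
      Nat.mul_comm, ← Subgroup.card_eq_card_quotient_mul_card_subgroup]
  constructor
  · intro h
    have hBA : B ⊆ A := by
      rintro y ⟨x', hx'⟩
      obtain ⟨x, rfl⟩ := QuotientGroup.mk_surjective x'
      have hn : g⁻¹ * (x⁻¹ * y * x) ∈ N := by
        apply (QuotientGroup.eq_one_iff _).1
        change (QuotientGroup.mk g)⁻¹ * ((QuotientGroup.mk x)⁻¹ * QuotientGroup.mk y *
          QuotientGroup.mk x) = (1 : G ⧸ N)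
        rw [← hx']
        group
      obtain ⟨z, hz⟩ := h _ hn
      refine ⟨x * z, ?_⟩
      calc x * z * g * (x * z)⁻¹ = x * (z * g * z⁻¹) * x⁻¹ := by group
        _ = y := by rw [hz]; group
    rw [Set.Subset.antisymm hAB hBA] at e1
    have hne : 0 < B.ncard := (Set.ncard_pos).2 ⟨g, QuotientGroup.mk g, by group⟩
    exact Nat.eq_of_mul_eq_mul_right hne (e1.trans e2.symm)
  · intro h n hn
    have hAB' : A = B := by
      refine Set.eq_of_subset_of_ncard_le hAB (le_of_eq ?_)
      rw [h] at e1
      exact Nat.eq_of_mul_eq_mul_left Nat.card_pos (e2.trans e1.symm)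
    have hgn : g * n ∈ B := by
      refine ⟨1, ?_⟩
      show (1 : G ⧸ N) * QuotientGroup.mk g * 1⁻¹ = QuotientGroup.mk (g * n)
      rw [QuotientGroup.mk_mul, (QuotientGroup.eq_one_iff n).2 hn]
      group
    rw [← hAB'] at hgn
    exact hgn

end Cfsg.Agent.S4142
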