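import Cfsg.Statements.S4144
import Cfsg.Agent.PGroup.MaxClass.Rank

set_option autoImplicit false
open Cfsg

namespace Cfsg.Agent.S4144


/-- Let X be a finite p-group of order p^n, n ≥ 2, of nilpotency class n − 1 (maximal class), and H any subgroup of X. Then the index in H of the subgroup generated by the p-th powers of elements of H is at most p^p. -/
theorem result {X : Type*} [Group X] [Finite X] {p : ℕ} [Fact p.Prime] (n : ℕ) (hn : 2 ≤ n) (hX : Nat.card X = p ^ n)
    (hmax : Group.nilpotencyClass X = n - 1) (H : Subgroup X) :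
    (Subgroup.closure {y : X | ∃ h ∈ H, y = h ^ p}).relIndex H ≤ p ^ p := by
  haveI : Group.IsNilpotent X := (IsPGroup.of_card hX).isNilpotent
  refine CfsgLib.PGroup.MaxClass.relIndex_powers_le hX (fun h3 hb => ?_) H
  have := Subgroup.lowerCentralSeries_eq_bot_iff_nilpotencyClass_le.1 hb
  omega

end Cfsg.Agent.S4144
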