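import Cfsg.Statements.S4145
import Cfsg.Agent.Eq.Def_Transfer
import Cfsg.Agent.Eq.Def_Local
import Cfsg.Agent.Transfer.CyclicSylow
import Cfsg.Agent.GlaubermanZJ.SylowNormal

set_option autoImplicit false
open Cfsg
open scoped Pointwise

namespace Cfsg.Agent.S4145

/-- Let G be a finite group with a cyclic Sylow p-subgroup and H a normal subgroup such that p divides both the order of H and the index of H. Then H has a normal p-complement and G is p-solvable. -/
theorem result {G : Type*} [Group G] [Finite G] (p : ℕ) [Fact p.Prime]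
    (P : Sylow p G) (hP : IsCyclic (P : Subgroup G)) (H : Subgroup G) [H.Normal] (h1 : p ∣ Nat.card H) (h2 : p ∣ H.index) :
    Cfsg.HasNormalPComplement p H ∧ Cfsg.IsPSolvable p G := by
  haveI : IsMulCommutative (P : Subgroup G) := IsCyclic.isMulCommutative
  obtain ⟨Q, hQ⟩ := CfsgLib.GlaubermanZJ.exists_sylow_map_eq_inf P H
  set P0 := (P : Subgroup G) ⊓ H with hP0
  have hP0P : P0 ≤ (P : Subgroup G) := inf_le_left
  have hnle : ¬ (P : Subgroup G) ≤ H := fun hle => P.not_dvd_index
    (h2.trans (Subgroup.index_dvd_of_le hle))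
  have hnpc : Cfsg.HasNormalPComplement p H := by
    refine CfsgLib.Transfer.hasNormalPComplement_of_normalizer_le_centralizer Q fun x hx => ?_
    -- `x` normalizes `P0`
    set C := Subgroup.centralizer (P0 : Set G) with hC
    have hPC : (P : Subgroup G) ≤ C :=
      (Subgroup.le_centralizer (P : Subgroup G)).trans (Subgroup.centralizer_le hP0P)
    have hHC : (P : Subgroup G) ≤ Subgroup.normalizer ((H ⊓ C : Subgroup G) : Set G) := by
      intro u hu
      refine Subgroup.mem_normalizer_iff.mpr fun w => ?_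
      have huC := hPC hu
      constructor
      · intro hw
        exact ⟨(inferInstance : H.Normal).conj_mem w hw.1 u,
          C.mul_mem (C.mul_mem huC hw.2) (C.inv_mem huC)⟩
      · intro hw
        have h3 := (inferInstance : H.Normal).conj_mem _ hw.1 u⁻¹
        have h4 := C.mul_mem (C.mul_mem (C.inv_mem huC) hw.2) huC
        exact ⟨by simpa [mul_assoc] using h3, by simpa [mul_assoc] using h4⟩
    set W := (H ⊓ C) ⊔ (P : Subgroup G) with hW
    have hxP : ∀ u ∈ (P : Subgroup G), (x : G) * u * (x : G)⁻¹ ∈ W := by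
      intro u hu
      have h3 : (x : G) * u * (x : G)⁻¹ ∈ C := by
        rw [hC, Subgroup.mem_centralizer_iff]
        intro z hz
        have hz' : (x : G)⁻¹ * z * (x : G) ∈ P0 := by
          have hx' := Subgroup.inv_mem _ hx
          rw [← hQ] at hz ⊢
          obtain ⟨z', hz'', rfl⟩ := hz
          exact ⟨x⁻¹ * z' * x, (by simpa [SetLike.mem_coe] using (Subgroup.mem_normalizer_iff.mp hx' z').mp hz'' :), rfl⟩
        have h4 := Subgroup.mem_centralizer_iff.mp (hPC hu) _ hz'
        calc z * ((x : G) * u * (x : G)⁻¹) = (x : G) * ((x : G)⁻¹ * z * x * u) * (x : G)⁻¹ := by group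
          _ = (x : G) * (u * ((x : G)⁻¹ * z * x)) * (x : G)⁻¹ := by rw [h4]
          _ = (x : G) * u * (x : G)⁻¹ * z := by group
      have h4 : (x : G) * u * (x : G)⁻¹ * u⁻¹ ∈ H ⊓ C := by
        refine ⟨?_, C.mul_mem h3 (C.inv_mem (hPC hu))⟩
        have h5 := H.mul_mem x.2 ((inferInstance : H.Normal).conj_mem _ (H.inv_mem x.2) u)
        simpa [mul_assoc] using h5
      have h6 := W.mul_mem (Subgroup.mem_sup_left h4) (Subgroup.mem_sup_right hu)
      simpa [mul_assoc] using h6
    have hxPW : (((x : G) • P : Sylow p G) : Subgroup G) ≤ W := by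
      rintro _ ⟨u, hu, rfl⟩
      exact hxP u hu
    obtain ⟨c, hc⟩ := MulAction.exists_smul_eq W (P.subtype (le_sup_right : _ ≤ W))
      (((x : G) • P : Sylow p G).subtype hxPW)
    rw [Sylow.smul_subtype] at hc
    have hc' : (c : G) • P = (x : G) • P := Sylow.subtype_injective hc
    have hcm : (c : G) ∈ ((H ⊓ C : Subgroup G) : Set G) * ((P : Subgroup G) : Set G) := by
      rw [← Subgroup.coe_mul_of_right_le_normalizer_left _ _ hHC]
      exact c.2
    obtain ⟨h, hh, u, hu, hhu⟩ := Set.mem_mul.mp hcm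
    have huP : u • P = P := Sylow.smul_eq_iff_mem_normalizer.mpr (Subgroup.le_normalizer hu)
    have hhx : h • P = (x : G) • P := by rw [← hc', ← hhu, mul_smul, huP]
    have hy : h⁻¹ * (x : G) ∈ Subgroup.normalizer ((P : Subgroup G) : Set G) :=
      Sylow.smul_eq_iff_mem_normalizer.mp (by rw [mul_smul, ← hhx, inv_smul_smul])
    have hyC := CfsgLib.Transfer.mem_centralizer_of_cyclic_sylow_mod P hP hy (R := P0)
      (fun hle => hnle (hle.trans inf_le_right)) (fun z hz => by
        refine ⟨(P : Subgroup G).mul_mem ((Subgroup.mem_normalizer_iff.mp hy z).mp hz)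
          ((P : Subgroup G).inv_mem hz), ?_⟩
        have h5 := H.mul_mem (H.mul_mem (H.inv_mem hh.1) x.2)
          ((inferInstance : H.Normal).conj_mem _ (H.inv_mem (H.mul_mem (H.inv_mem hh.1) x.2)) z)
        simpa [mul_assoc] using h5)
    have hxC : (x : G) ∈ C := by
      have h5 := C.mul_mem hh.2 (Subgroup.centralizer_le hP0P hyC)
      simpa [← mul_assoc] using h5
    rw [Subgroup.mem_centralizer_iff]
    intro z hz
    have hz0 : (z : G) ∈ P0 := hQ ▸ Subgroup.mem_map_of_mem _ hz
    exact Subtype.ext (Subgroup.mem_centralizer_iff.mp hxC (z : G) hz0)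
  refine ⟨hnpc, ?_⟩
  haveI hKc : (Cfsg.pResidual p H).Characteristic := by
    refine Subgroup.characteristic_iff_le_comap.mpr fun φ g hg => ?_
    rw [Subgroup.mem_comap, CfsgLib.Transfer.mem_pResidual_iff hnpc] at *
    rwa [MulEquiv.coe_toMonoidHom, MulEquiv.orderOf_eq]
  set K := (Cfsg.pResidual p H).map H.subtype with hK
  have hKcard : (Nat.card K).Coprime p := by
    rw [hK, Subgroup.card_map_of_injective H.subtype_injective]
    exact CfsgLib.Transfer.hasNormalPComplement_iff_coprime_pResidual.mp hnpc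
  refine CfsgLib.Constrained.isPSolvable_of_quotient K
    (Or.inr (CfsgLib.Transfer.not_dvd_of_coprime hKcard)) ?_
  haveI : (H.map (QuotientGroup.mk' K)).Normal :=
    Subgroup.Normal.map inferInstance _ (QuotientGroup.mk'_surjective K)
  refine CfsgLib.Transfer.isPSolvable_of_cyclic_sylow_of_normal
    (P.mapSurjective (QuotientGroup.mk'_surjective K)) ?_ (H.map (QuotientGroup.mk' K)) ?_ ?_
  · haveI := hP
    exact isCyclic_of_surjective _ (MonoidHom.subgroupMap_surjective (QuotientGroup.mk' K) (P : Subgroup G))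
  · intro a
    obtain ⟨⟨_, ⟨g, hg, rfl⟩⟩, rfl⟩ : ∃ b, b = a := ⟨a, rfl⟩
    obtain ⟨a', b', ha', hb', hab', ⟨k, hk⟩, hbc⟩ :=
      CfsgLib.Transfer.exists_pPart_decomposition (p := p) g
    have hbH : b' ∈ H := Subgroup.zpowers_le.mpr hg hb'
    have hbK : b' ∈ K := ⟨⟨b', hbH⟩,
      (CfsgLib.Transfer.mem_pResidual_iff hnpc _).mpr (by rwa [Subgroup.orderOf_mk]), rfl⟩
    refine ⟨k, Subtype.ext ?_⟩
    change (QuotientGroup.mk' K g) ^ (p ^ k) = 1
    rw [hab', map_mul, show QuotientGroup.mk' K b' = 1 from (QuotientGroup.eq_one_iff _).mpr hbK,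
      mul_one, ← map_pow, orderOf_dvd_iff_pow_eq_one.mp hk, map_one]
  · intro hbot
    rw [Subgroup.map_eq_bot_iff, QuotientGroup.ker_mk'] at hbot
    exact CfsgLib.Transfer.not_dvd_of_coprime hKcard (h1.trans (Subgroup.card_dvd_of_le hbot))

end Cfsg.Agent.S4145
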