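import Cfsg.Statements.S4149
import Cfsg.Agent.ClassSizes.NotDvdIndex
-- import your own Cfsg.Agent.* helpers here

set_option autoImplicit false
open Cfsg

namespace Cfsg.Agent.S4149

/-- Let G be a finite group that has a normal p-complement for at most one prime p dividing its order, and let σ be a natural number such that every conjugacy class size of G has at most σ distinct prime divisors. Then the number of primes dividing at least one conjugacy class size of G is at most 2σ. -/
theorem result {G : Type*} [Group G] [Finite G] (σ : ℕ)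
    (hσ : ∀ x : G, ((Subgroup.centralizer ({x} : Set G)).index).primeFactors.card ≤ σ)
    (hnil : ∀ p q : ℕ, p.Prime → q.Prime → p ∣ Nat.card G → q ∣ Nat.card G →
      Cfsg.HasNormalPComplement p G → Cfsg.HasNormalPComplement q G → p = q) :
    Nat.card {p : ℕ | p.Prime ∧ ∃ x : G, p ∣ (Subgroup.centralizer ({x} : Set G)).index} ≤ 2 * σ := by
  
  classical
  haveI := Fintype.ofFinite G
  set I : G → ℕ := fun x => (Subgroup.centralizer ({x} : Set G)).index with hI
  have hset : {p : ℕ | p.Prime ∧ ∃ x : G, p ∣ (Subgroup.centralizer ({x} : Set G)).index} =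
      ↑(Finset.univ.biUnion fun x : G => (I x).primeFactors) := by
    ext p
    simp only [Set.mem_ofPred_eq, Finset.coe_biUnion, Set.mem_iUnion, Finset.mem_coe,
      Finset.mem_univ, Nat.mem_primeFactors, exists_true_left]
    constructor
    · rintro ⟨hp, x, hx⟩
      exact ⟨x, hp, hx, Subgroup.index_ne_zero_of_finite⟩
    · rintro ⟨x, hp, hx, -⟩
      exact ⟨hp, x, hx⟩
  rw [hset, Nat.card_coe_set_eq, Set.ncard_coe_finset]
  set π := Finset.univ.biUnion fun x : G => (I x).primeFactors with hπ
  have hπmem : ∀ p ∈ π, p.Prime ∧ ∃ x : G, p ∣ I x := by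
    intro p hp
    obtain ⟨x, -, hx⟩ := Finset.mem_biUnion.1 hp
    exact ⟨Nat.prime_of_mem_primeFactors hx, x, Nat.dvd_of_mem_primeFactors hx⟩
  let f : ℕ → ℕ := fun p => (Finset.univ.filter fun x : G => p ∣ I x).card
  have hsum : ∑ p ∈ π, f p ≤ Fintype.card G * σ := by
    calc ∑ p ∈ π, f p = ∑ x : G, (π.filter fun p => p ∣ I x).card := by
          simp only [f, Finset.card_filter]
          exact Finset.sum_comm
      _ ≤ ∑ _x : G, σ := Finset.sum_le_sum fun x _ => le_trans (Finset.card_le_card fun p hp => by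
          obtain ⟨hp1, hp2⟩ := Finset.mem_filter.1 hp
          exact Nat.mem_primeFactors.2 ⟨(hπmem p hp1).1, hp2, Subgroup.index_ne_zero_of_finite⟩)
          (hσ x)
      _ = Fintype.card G * σ := by simp
  set B := π.filter fun p => Cfsg.HasNormalPComplement p G with hB
  have hdvd : ∀ p ∈ π, p.Prime ∧ p ∣ Nat.card G := by
    intro p hp
    obtain ⟨hpp, x, hx⟩ := hπmem p hp
    exact ⟨hpp, hx.trans (Subgroup.index_dvd_card _)⟩
  have hB1 : B.card ≤ 1 := by
    refine Finset.card_le_one.2 fun a ha b hb => ?_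
    obtain ⟨ha1, ha2⟩ := Finset.mem_filter.1 ha
    obtain ⟨hb1, hb2⟩ := Finset.mem_filter.1 hb
    exact hnil a b (hdvd a ha1).1 (hdvd b hb1).1 (hdvd a ha1).2 (hdvd b hb1).2 ha2 hb2
  have hlow : ∀ p ∈ π, Fintype.card G ≤ 2 * f p + (if p ∈ B then Fintype.card G - 1 else 0) := by
    intro p hp
    obtain ⟨hpp, x, hx⟩ := hπmem p hp
    have hx1 : 1 ≤ f p := Finset.card_pos.2 ⟨x, Finset.mem_filter.2 ⟨Finset.mem_univ _, hx⟩⟩
    by_cases hb : p ∈ B
    · rw [if_pos hb]; omega
    · rw [if_neg hb]
      haveI : Fact p.Prime := ⟨hpp⟩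
      have hn : ¬ Cfsg.HasNormalPComplement p G := fun e => hb (Finset.mem_filter.2 ⟨hp, e⟩)
      have h2 := CfsgLib.ClassSizes.two_mul_card_pPrimeClassSet_le hn
      have e : Nat.card (CfsgLib.ClassSizes.pPrimeClassSet p G) =
          (Finset.univ.filter fun x : G => ¬ p ∣ I x).card := by
        rw [Nat.card_eq_fintype_card]
        exact Fintype.card_of_subtype _ fun y => by
          simp [CfsgLib.ClassSizes.pPrimeClassSet, hI]
      have e2 := Finset.card_filter_add_card_filter_not (s := (Finset.univ : Finset G))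
        (fun x => p ∣ I x)
      rw [e, Nat.card_eq_fintype_card] at h2
      rw [Finset.card_univ] at e2
      simp only [f]
      omega
  have hπle : π.card * Fintype.card G ≤ 2 * (Fintype.card G * σ) + (Fintype.card G - 1) := by
    calc π.card * Fintype.card G = ∑ _p ∈ π, Fintype.card G := by simp
      _ ≤ ∑ p ∈ π, (2 * f p + (if p ∈ B then Fintype.card G - 1 else 0)) :=
          Finset.sum_le_sum hlow
      _ = 2 * (∑ p ∈ π, f p) + B.card * (Fintype.card G - 1) := by
          rw [Finset.sum_add_distrib, Finset.mul_sum]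
          congr 1
          rw [Finset.sum_ite_mem, Finset.inter_eq_right.2 (Finset.filter_subset _ _)]
          rw [Finset.sum_const, smul_eq_mul]
      _ ≤ 2 * (Fintype.card G * σ) + 1 * (Fintype.card G - 1) := by gcongr
      _ = _ := by simp
  have hG : 0 < Fintype.card G := Fintype.card_pos
  by_contra hcon
  have h3 : (2 * σ + 1) * Fintype.card G ≤ π.card * Fintype.card G :=
    Nat.mul_le_mul_right _ (by omega)
  have h4 : (2 * σ + 1) * Fintype.card G = 2 * (Fintype.card G * σ) + Fintype.card G := by ring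
  omega

end Cfsg.Agent.S4149
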