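import Cfsg.Statements.S4150
import Cfsg.Agent.PermPrimes.Generation
-- import your own Cfsg.Agent.* helpers here

set_option autoImplicit false
open Cfsg

namespace Cfsg.Agent.S4150

/-- Let m ≥ 5. Then there are primes p < q with m/2 ≤ p and q ≤ m such that any two elements x, y of the alternating group of degree m with x of order p and y of order q generate a subgroup isomorphic to an alternating group of some degree d ≥ 5. -/
theorem result (m : ℕ) (hm : 5 ≤ m) :
    ∃ p q : ℕ, p.Prime ∧ q.Prime ∧ m ≤ 2 * p ∧ p < q ∧ q ≤ m ∧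
      ∀ x y : alternatingGroup (Fin m), orderOf x = p → orderOf y = q →
        ∃ d : ℕ, 5 ≤ d ∧ Nonempty (Subgroup.closure ({x, y} : Set (alternatingGroup (Fin m))) ≃* alternatingGroup (Fin d)) := by
  
  obtain ⟨p, q, hgood⟩ := CfsgLib.PermPrimes.exists_goodPair m hm
  have hgood' := hgood
  obtain ⟨hp, hq, hpq, hq5, hqm, hm2, hgap, hdouble⟩ := hgood'
  refine ⟨p, q, hp, hq, hm2, hpq, hqm, fun x y hx hy => ?_⟩
  rw [← Subgroup.orderOf_coe] at hx hy
  set X : Equiv.Perm (Fin m) := (x : Equiv.Perm (Fin m)) with hXdef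
  set Y : Equiv.Perm (Fin m) := (y : Equiv.Perm (Fin m)) with hYdef
  set S : Finset (Fin m) := X.support ∪ Y.support with hS
  have hXS : X.support ⊆ S := Finset.subset_union_left
  have hYS : Y.support ⊆ S := Finset.subset_union_right
  set X' : Equiv.Perm {i // i ∈ S} := X.subtypePerm (Equiv.Perm.isInvariant_of_support_le hXS) with hX'
  set Y' : Equiv.Perm {i // i ∈ S} := Y.subtypePerm (Equiv.Perm.isInvariant_of_support_le hYS) with hY'
  have eX : Equiv.Perm.ofSubtype X' = X :=
    Equiv.Perm.ofSubtype_subtypePerm _ fun i hi => hXS (Equiv.Perm.mem_support.2 hi)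
  have eY : Equiv.Perm.ofSubtype Y' = Y :=
    Equiv.Perm.ofSubtype_subtypePerm _ fun i hi => hYS (Equiv.Perm.mem_support.2 hi)
  have hinj := Equiv.Perm.ofSubtype_injective (p := fun i : Fin m => i ∈ S)
  have hoX : orderOf X' = p := by rw [← orderOf_injective _ hinj X', eX, hx]
  have hoY : orderOf Y' = q := by rw [← orderOf_injective _ hinj Y', eY, hy]
  have hsX : Equiv.Perm.sign X' = 1 := by
    rw [← Equiv.Perm.sign_ofSubtype, eX]; exact Equiv.Perm.mem_alternatingGroup.1 x.2
  have hsY : Equiv.Perm.sign Y' = 1 := by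
    rw [← Equiv.Perm.sign_ofSubtype, eY]; exact Equiv.Perm.mem_alternatingGroup.1 y.2
  have hcover : ∀ i, X' i ≠ i ∨ Y' i ≠ i := fun i => by
    rcases Finset.mem_union.1 i.2 with h | h
    · exact Or.inl fun e => Equiv.Perm.mem_support.1 h (congrArg Subtype.val e)
    · exact Or.inr fun e => Equiv.Perm.mem_support.1 h (congrArg Subtype.val e)
  have hcard : Fintype.card {i // i ∈ S} ≤ m :=
    (Fintype.card_subtype_le _).trans (Fintype.card_fin m).le
  obtain ⟨d, hd, ⟨e⟩⟩ := CfsgLib.PermPrimes.closure_pair_alternating hgood X' Y' hoX hoY hsX hsY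
    hcover hcard
  have h1 : (Subgroup.closure ({X', Y'} : Set (Equiv.Perm {i // i ∈ S}))).map Equiv.Perm.ofSubtype =
      (Subgroup.closure ({x, y} : Set (alternatingGroup (Fin m)))).map
        (alternatingGroup (Fin m)).subtype := by
    rw [MonoidHom.map_closure, MonoidHom.map_closure, Set.image_pair, Set.image_pair, eX, eY]
    rfl
  exact ⟨d, hd, ⟨(((Subgroup.closure ({x, y} : Set (alternatingGroup (Fin m)))).equivMapOfInjective _
    (Subgroup.subtype_injective _)).trans ((MulEquiv.subgroupCongr h1.symm).trans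
      ((Subgroup.equivMapOfInjective _ _ hinj).symm.trans e)))⟩⟩

end Cfsg.Agent.S4150
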