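import Cfsg.Statements.S4152
import Cfsg.Agent.ClassSizes.PiPart
-- import your own Cfsg.Agent.* helpers here

set_option autoImplicit false
open Cfsg

namespace Cfsg.Agent.S4152

open CfsgLib.ClassSizes

variable {G : Type*} [Group G]

theorem classPred_iff (π : Set ℕ) (g : G) :
    (∀ q : ℕ, q.Prime → (∃ x : G, ConjClasses.mk x = ConjClasses.mk g ∧ q ∣ orderOf x) → q ∈ π) ↔
      IsPiElt π g := by
  refine ⟨fun h q hq hd => h q hq ⟨g, rfl, hd⟩, ?_⟩
  rintro h q hq ⟨x, hx, hd⟩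
  obtain ⟨c, hc⟩ := isConj_iff.1 (ConjClasses.mk_eq_mk_iff_isConj.1 hx)
  refine h q hq ?_
  rw [← hc]
  exact hd.trans (MulEquiv.orderOf_eq (MulAut.conj c) x).symm.dvd

/-- `N` acting by conjugation on the elements of a given coset satisfying `P`. -/
abbrev CosetElts (N : Subgroup G) (π : Set ℕ) (Q : G ⧸ N) :=
  {x : G // QuotientGroup.mk x = Q ∧ IsPiElt π x}

@[reducible] def cosetEltsAction (N : Subgroup G) [N.Normal] (π : Set ℕ) (Q : G ⧸ N) :
    MulAction N (CosetElts N π Q) where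
  smul n x := ⟨(n : G) * x.1 * (n : G)⁻¹, by
    rw [QuotientGroup.mk_mul, QuotientGroup.mk_mul, QuotientGroup.mk_inv,
      (QuotientGroup.eq_one_iff (n : G)).2 n.2, x.2.1]; group,
    isPiElt_of_dvd (MulEquiv.orderOf_eq (MulAut.conj (n : G)) x.1).dvd x.2.2⟩
  one_smul x := Subtype.ext (show ((1 : N) : G) * x.1 * ((1 : N) : G)⁻¹ = x.1 by simp)
  mul_smul a b x := Subtype.ext (show ((a * b : N) : G) * x.1 * ((a * b : N) : G)⁻¹ =
    (a : G) * ((b : G) * x.1 * (b : G)⁻¹) * (a : G)⁻¹ by push_cast; group)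

theorem orbits_le [Finite G] (N : Subgroup G) [N.Normal] (π : Set ℕ) (Q : G ⧸ N) :
    Nat.card (Quotient (@MulAction.orbitRel N (CosetElts N π Q) _ (cosetEltsAction N π Q))) ≤
      Nat.card {C : ConjClasses N // ∀ q : ℕ, q.Prime →
        (∃ g : N, ConjClasses.mk g = C ∧ q ∣ orderOf g) → q ∈ π} := by
  classical
  letI := cosetEltsAction N π Q
  set Cl := {C : ConjClasses N // ∀ q : ℕ, q.Prime →
        (∃ g : N, ConjClasses.mk g = C ∧ q ∣ orderOf g) → q ∈ π} with hCl
  -- commuting pairs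
  let P1 := {xn : G × N // (QuotientGroup.mk xn.1 = Q ∧ IsPiElt π xn.1) ∧
    Commute xn.1 (xn.2 : G)}
  let P2 := {ym : G × N // (QuotientGroup.mk ym.1 = Q ∧ IsPiElt π (ym.2 : G)) ∧
    Commute ym.1 (ym.2 : G)}
  have h1 : Nat.card P1 = Nat.card (Quotient (MulAction.orbitRel N (CosetElts N π Q))) *
      Nat.card N := by
    rw [← Nat.card_prod]
    refine Nat.card_congr (Equiv.trans ?_ (MulAction.sigmaFixedByEquivOrbitsProdGroup N _))
    refine
      { toFun := fun z => ⟨z.1.2, ⟨⟨z.1.1, z.2.1⟩, Subtype.ext ?_⟩⟩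
        invFun := fun s => ⟨(s.2.1.1, s.1), s.2.1.2, ?_⟩
        left_inv := fun z => rfl
        right_inv := fun s => rfl }
    · show (z.1.2 : G) * z.1.1 * (z.1.2 : G)⁻¹ = z.1.1
      rw [← z.2.2.eq, mul_inv_cancel_right]
    · have h : (s.1 : G) * s.2.1.1 * (s.1 : G)⁻¹ = s.2.1.1 := congrArg Subtype.val s.2.2
      exact (mul_inv_eq_iff_eq_mul.1 h).symm
  -- decomposition gives an injection
  have hdec : ∀ n : N, ∃ ab : N × N, IsPiElt π ((ab.1 : G)) ∧ IsPiElt πᶜ ((ab.2 : G)) ∧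
      ab.1 * ab.2 = n ∧ ((ab.1 : G) ∈ Subgroup.zpowers (n : G)) ∧
      ((ab.2 : G) ∈ Subgroup.zpowers (n : G)) := by
    intro n
    obtain ⟨a, ha, b, hb, ha', hb', hab⟩ := exists_piPart_decomp π (n : G)
    have hz : Subgroup.zpowers (n : G) ≤ N := Subgroup.zpowers_le.2 n.2
    exact ⟨(⟨a, hz ha⟩, ⟨b, hz hb⟩), ha', hb', Subtype.ext hab, ha, hb⟩
  choose d hd1 hd2 hd3 hd4 hd5 using hdec
  have hcz : ∀ {x y z : G}, Commute x y → z ∈ Subgroup.zpowers y → Commute x z := by
    intro x y z h hz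
    obtain ⟨k, rfl⟩ := Subgroup.mem_zpowers_iff.1 hz
    exact h.zpow_right k
  have h2 : Nat.card P1 ≤ Nat.card P2 := by
    refine Nat.card_le_card_of_injective
      (fun z : P1 => (⟨(z.1.1 * ((d z.1.2).2 : G), (d z.1.2).1), ⟨?_, hd1 _⟩, ?_⟩ : P2)) ?_
    · rw [QuotientGroup.mk_mul, z.2.1.1, (QuotientGroup.eq_one_iff _).2 (d z.1.2).2.2, mul_one]
    · refine Commute.mul_left (hcz z.2.2 (hd4 _)) ?_
      exact (hcz (hcz (Commute.refl (z.1.2 : G)) (hd4 _)).symm (hd5 _)).symm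
    · rintro ⟨⟨x, n⟩, ⟨hx, hxn⟩⟩ ⟨⟨x', n'⟩, ⟨hx', hxn'⟩⟩ h
      have e1 := congrArg (fun w : P2 => w.1.1) h
      have e2 := congrArg (fun w : P2 => w.1.2) h
      dsimp only at e1 e2
      obtain ⟨rfl, e3⟩ := piPart_unique hx.2 (hd2 n) (hcz hxn (hd5 _)) hx'.2 (hd2 n')
        (hcz hxn' (hd5 _)) e1
      have : n = n' := by
        rw [← hd3 n, ← hd3 n', e2, Subtype.ext e3]
      subst this
      rfl
  -- the second count
  have h3 : Nat.card P2 ≤ Nat.card Cl * Nat.card N := by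
    rw [← Nat.card_prod]
    let rep : Cl → N := fun C => Quotient.out C.1
    have hc : ∀ m : N, IsPiElt π (m : G) → ∀ q : ℕ, q.Prime →
        (∃ g : N, ConjClasses.mk g = ConjClasses.mk m ∧ q ∣ orderOf g) → q ∈ π := fun m hm =>
      (classPred_iff π m).2 (isPiElt_of_dvd (Subgroup.orderOf_coe m).symm.dvd hm)
    let cl : P2 → Cl := fun z => ⟨ConjClasses.mk z.1.2, hc _ z.2.1.2⟩
    -- conjugate the class representative to `m`
    have hconj : ∀ C : Cl, ∀ m : {m : N // ConjClasses.mk m = C.1}, ∃ t : N,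
        (t : G) * (rep C : G) * (t : G)⁻¹ = (m.1 : G) := by
      intro C m
      have : IsConj (rep C) m.1 := by
        rw [← ConjClasses.mk_eq_mk_iff_isConj, m.2]
        exact Quotient.out_eq C.1
      obtain ⟨t, ht⟩ := isConj_iff.1 this
      exact ⟨t, congrArg Subtype.val ht⟩
    choose tr htr using hconj
    -- a reference element commuting with `rep C`, when there is one
    let base : Cl → G := fun C => if h : ∃ y : G, QuotientGroup.mk y = Q ∧ Commute y (rep C : G)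
      then h.choose else 1
    have key : ∀ z : P2, ∃ w : N, (QuotientGroup.mk z.1.1 : G ⧸ N) = Q ∧ (w : G) =
        (tr (cl z) ⟨z.1.2, rfl⟩ : G) * ((tr (cl z) ⟨z.1.2, rfl⟩ : G)⁻¹ * z.1.1 *
          (tr (cl z) ⟨z.1.2, rfl⟩ : G)) * (base (cl z))⁻¹ ∧
        Commute ((tr (cl z) ⟨z.1.2, rfl⟩ : G)⁻¹ * z.1.1 *
          (tr (cl z) ⟨z.1.2, rfl⟩ : G)) (rep (cl z) : G) := by
      intro z
      set t := tr (cl z) ⟨z.1.2, rfl⟩ with ht
      have e := htr (cl z) ⟨z.1.2, rfl⟩
      rw [← ht] at e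
      set y' := (t : G)⁻¹ * z.1.1 * (t : G) with hy'
      have hmk : (QuotientGroup.mk y' : G ⧸ N) = Q := by
        rw [hy', QuotientGroup.mk_mul, QuotientGroup.mk_mul, QuotientGroup.mk_inv,
          (QuotientGroup.eq_one_iff (t : G)).2 t.2, z.2.1.1]; group
      have hcy : Commute y' (rep (cl z) : G) := by
        have hzc : z.1.1 * ((t : G) * (rep (cl z) : G) * (t : G)⁻¹) =
            ((t : G) * (rep (cl z) : G) * (t : G)⁻¹) * z.1.1 := by rw [e]; exact z.2.2.eq
        show y' * (rep (cl z) : G) = (rep (cl z) : G) * y'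
        calc y' * (rep (cl z) : G) =
            (t : G)⁻¹ * (z.1.1 * ((t : G) * (rep (cl z) : G) * (t : G)⁻¹)) * (t : G) := by
              rw [hy']; group
          _ = (rep (cl z) : G) * y' := by rw [hzc, hy']; group
      have hb : (QuotientGroup.mk (base (cl z)) : G ⧸ N) = Q := by
        have hex : ∃ y : G, QuotientGroup.mk y = Q ∧ Commute y (rep (cl z) : G) :=
          ⟨y', hmk, hcy⟩
        simp only [base, dif_pos hex]
        exact hex.choose_spec.1
      refine ⟨⟨(t : G) * y' * (base (cl z))⁻¹, ?_⟩, z.2.1.1, rfl, hcy⟩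
      rw [← QuotientGroup.eq_one_iff, QuotientGroup.mk_mul, QuotientGroup.mk_mul,
        (QuotientGroup.eq_one_iff (t : G)).2 t.2, QuotientGroup.mk_inv, hmk, hb]
      group
    choose w hw1 hw2 hw3 using key
    refine Nat.card_le_card_of_injective (fun z => (cl z, w z)) ?_
    intro z z' h
    obtain ⟨e1, e2⟩ := Prod.mk.inj h
    have hw' := congrArg (Subtype.val) e2
    rw [hw2 z, hw2 z'] at hw'
    have hb : base (cl z) = base (cl z') := by rw [e1]
    rw [hb] at hw'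
    have hw'' := mul_right_cancel hw'
    set t := tr (cl z) ⟨z.1.2, rfl⟩ with ht
    set t' := tr (cl z') ⟨z'.1.2, rfl⟩ with ht'
    have et := htr (cl z) ⟨z.1.2, rfl⟩
    have et' := htr (cl z') ⟨z'.1.2, rfl⟩
    rw [← ht] at et
    rw [← ht'] at et'
    set y := (t : G)⁻¹ * z.1.1 * (t : G) with hy
    set y' := (t' : G)⁻¹ * z'.1.1 * (t' : G) with hy'
    have hr : (rep (cl z) : G) = (rep (cl z') : G) := by rw [e1]
    have hd : Commute ((t : G)⁻¹ * (t' : G)) (rep (cl z) : G) := by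
      have e : (t : G)⁻¹ * (t' : G) = y * y'⁻¹ := by
        rw [eq_mul_inv_iff_mul_eq, mul_assoc, ← hw'', inv_mul_cancel_left]
      rw [e]
      exact (hw3 z).mul_left (by rw [hr]; exact (hw3 z').inv_left)
    have hm : (z.1.2 : G) = (z'.1.2 : G) := by
      rw [← et, ← et', ← hr]
      calc (t : G) * (rep (cl z) : G) * (t : G)⁻¹
          = (t : G) * (((t : G)⁻¹ * (t' : G)) * (rep (cl z) : G) *
              ((t : G)⁻¹ * (t' : G))⁻¹) * (t : G)⁻¹ := by rw [hd.eq, mul_inv_cancel_right]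
        _ = _ := by group
    have htt : t = t' := by
      have hm' : z.1.2 = z'.1.2 := Subtype.ext hm
      rw [ht, ht']
      congr 1
      exact Subtype.heq_iff_coe_eq (fun _ => by rw [e1]) |>.2 hm'
    rw [← htt] at hw'' hy'
    have hyy : y = y' := mul_left_cancel hw''
    have hz1 : z.1.1 = z'.1.1 := by
      rw [hy, hy', mul_left_inj, mul_right_inj] at hyy
      exact hyy
    exact Subtype.ext (Prod.ext hz1 (Subtype.ext hm))
  exact Nat.le_of_mul_le_mul_right ((h1 ▸ h2).trans h3) Nat.card_pos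

theorem count_le [Finite G] (N : Subgroup G) [N.Normal] (π : Set ℕ) :
    Nat.card {C : ConjClasses G // ∀ q : ℕ, q.Prime → (∃ g : G, ConjClasses.mk g = C ∧ q ∣ orderOf g) → q ∈ π} ≤
    Nat.card {C : ConjClasses N // ∀ q : ℕ, q.Prime → (∃ g : N, ConjClasses.mk g = C ∧ q ∣ orderOf g) → q ∈ π} *
    Nat.card {C : ConjClasses (G ⧸ N) // ∀ q : ℕ, q.Prime → (∃ g : (G ⧸ N), ConjClasses.mk g = C ∧ q ∣ orderOf g) → q ∈ π} := by
  classical
  set ClG := {C : ConjClasses G // ∀ q : ℕ, q.Prime → (∃ g : G, ConjClasses.mk g = C ∧ q ∣ orderOf g) → q ∈ π}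
  set ClQ := {C : ConjClasses (G ⧸ N) // ∀ q : ℕ, q.Prime → (∃ g : (G ⧸ N), ConjClasses.mk g = C ∧ q ∣ orderOf g) → q ∈ π}
  set ClN := {C : ConjClasses N // ∀ q : ℕ, q.Prime → (∃ g : N, ConjClasses.mk g = C ∧ q ∣ orderOf g) → q ∈ π}
  let out : ClQ → G ⧸ N := fun D => Quotient.out D.1
  let Orb : ClQ → Type _ := fun D =>
    Quotient (@MulAction.orbitRel N (CosetElts N π (out D)) _ (cosetEltsAction N π (out D)))
  let F : (Σ D : ClQ, Orb D) → ClG := fun s => Quotient.liftOn s.2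
    (fun x => (⟨ConjClasses.mk x.1, (classPred_iff π x.1).2 x.2.2⟩ : ClG)) (by
      intro a b hab
      obtain ⟨n, hn⟩ := hab
      apply Subtype.ext
      show ConjClasses.mk a.1 = ConjClasses.mk b.1
      rw [← hn, ConjClasses.mk_eq_mk_iff_isConj, isConj_comm, isConj_iff]
      exact ⟨(n : G), rfl⟩)
  have hF : Function.Surjective F := by
    rintro ⟨C, hC⟩
    obtain ⟨x, rfl⟩ := ConjClasses.mk_surjective C
    have hx : IsPiElt π x := (classPred_iff π x).1 hC
    have hxq : IsPiElt π (QuotientGroup.mk x : G ⧸ N) :=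
      isPiElt_of_dvd (orderOf_map_dvd (QuotientGroup.mk' N) x) hx
    let D : ClQ := ⟨ConjClasses.mk (QuotientGroup.mk x), (classPred_iff π _).2 hxq⟩
    obtain ⟨c, hc⟩ := isConj_iff.1 (show IsConj (QuotientGroup.mk x : G ⧸ N) (out D) by
      rw [← ConjClasses.mk_eq_mk_iff_isConj]
      exact (Quotient.out_eq D.1).symm)
    obtain ⟨c, rfl⟩ := QuotientGroup.mk_surjective c
    refine ⟨⟨D, Quotient.mk _ ⟨c * x * c⁻¹, hc,
      isPiElt_of_dvd (MulEquiv.orderOf_eq (MulAut.conj c) x).dvd hx⟩⟩, ?_⟩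
    apply Subtype.ext
    show ConjClasses.mk (c * x * c⁻¹) = ConjClasses.mk x
    exact (ConjClasses.mk_eq_mk_iff_isConj.2 (isConj_iff.2 ⟨c, rfl⟩)).symm
  haveI : Fintype ClQ := Fintype.ofFinite _
  haveI : ∀ D, Finite (Orb D) := fun D => Quotient.finite _
  calc Nat.card ClG ≤ Nat.card (Σ D : ClQ, Orb D) := Nat.card_le_card_of_surjective F hF
    _ = ∑ D : ClQ, Nat.card (Orb D) := Nat.card_sigma
    _ ≤ ∑ _D : ClQ, Nat.card ClN := Finset.sum_le_sum fun D _ => orbits_le N π (out D)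
    _ = Nat.card ClN * Nat.card ClQ := by
        rw [Finset.sum_const, Finset.card_univ, smul_eq_mul, Nat.card_eq_fintype_card (α := ClQ),
          Nat.mul_comm]

/-- Let G be a finite group, N a normal subgroup and π a set of primes. Then the number of conjugacy classes of π-elements of G (elements whose order is divisible only by primes in π) is at most the number of conjugacy classes of π-elements of N (under conjugation by N) times the number of conjugacy classes of π-elements of G/N. -/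
theorem result {G : Type*} [Group G] [Finite G] (N : Subgroup G) [N.Normal] (π : Set ℕ) :
    Nat.card {C : ConjClasses G // ∀ q : ℕ, q.Prime → (∃ g : G, ConjClasses.mk g = C ∧ q ∣ orderOf g) → q ∈ π} ≤ Nat.card {C : ConjClasses N // ∀ q : ℕ, q.Prime → (∃ g : N, ConjClasses.mk g = C ∧ q ∣ orderOf g) → q ∈ π} * Nat.card {C : ConjClasses (G ⧸ N) // ∀ q : ℕ, q.Prime → (∃ g : (G ⧸ N), ConjClasses.mk g = C ∧ q ∣ orderOf g) → q ∈ π} := by
  
  classical
  exact (count_le N π)

end Cfsg.Agent.S4152
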