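import Cfsg.Statements.S4153
-- import your own Cfsg.Agent.* helpers here

set_option autoImplicit false
open Cfsg

namespace Cfsg.Agent.S4153

/-- Let G be a finite group, p a prime, N a normal subgroup, P a Sylow p-subgroup of G and P̄ a Sylow p-subgroup of G/N. Count the elements of p-power order, the identity included. Then (number of such elements of G/N)/#P̄ ≤ (number of such elements of G)/#P, stated as a cross-multiplied inequality, with equality when N is central. -/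
theorem result {G : Type*} [Group G] [Finite G] (p : ℕ) [Fact p.Prime] (N : Subgroup G) [N.Normal]
    (P : Sylow p G) (Pbar : Sylow p (G ⧸ N)) :
    Nat.card {g : (G ⧸ N) // ∃ k : ℕ, orderOf g = p ^ k} * Nat.card (P : Subgroup G) ≤ Nat.card {g : G // ∃ k : ℕ, orderOf g = p ^ k} * Nat.card (Pbar : Subgroup (G ⧸ N)) ∧
    (N ≤ Subgroup.center G → Nat.card {g : (G ⧸ N) // ∃ k : ℕ, orderOf g = p ^ k} * Nat.card (P : Subgroup G) = Nat.card {g : G // ∃ k : ℕ, orderOf g = p ^ k} * Nat.card (Pbar : Subgroup (G ⧸ N))) := by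
  
  classical
  haveI : Fintype (G ⧸ N) := Fintype.ofFinite _
  have hU : ∀ {H : Type _} [Group H] (g : H),
      (∃ k : ℕ, orderOf g = p ^ k) ↔ IsPGroup p (Subgroup.zpowers g) := by
    intro H _ g
    rw [← Nat.card_zpowers]
    refine ⟨fun ⟨k, hk⟩ => IsPGroup.of_card hk, fun h => ?_⟩
    haveI : Finite (Subgroup.zpowers g) := by
      obtain ⟨k, hk⟩ := h ⟨g, Subgroup.mem_zpowers g⟩
      exact finite_zpowers.2 (isOfFinOrder_iff_pow_eq_one.2
        ⟨p ^ k, pow_pos (Fact.out : p.Prime).pos k, congrArg Subtype.val hk⟩)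
    exact IsPGroup.iff_card.1 h
  have hsurj : Function.Surjective (QuotientGroup.mk' N) := QuotientGroup.mk'_surjective N
  -- the p-part of N
  have hsplit : ∀ Q : Sylow p G, Nat.card ↥((Q : Subgroup G) ⊓ N) * Nat.card (Pbar : Subgroup (G ⧸ N))
      = Nat.card (Q : Subgroup G) := by
    intro Q
    have h1 := Sylow.coe_mapSurjective hsurj Q
    have h2 : Nat.card (Pbar : Subgroup (G ⧸ N)) = Nat.card ((Q : Subgroup G).map (QuotientGroup.mk' N)) := by
      rw [← h1, Sylow.card_eq_multiplicity, Sylow.card_eq_multiplicity]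
    set f := (QuotientGroup.mk' N).comp (Q : Subgroup G).subtype with hf
    have h3 := f.ker.card_eq_card_quotient_mul_card_subgroup
    have h4 : f.range = (Q : Subgroup G).map (QuotientGroup.mk' N) := by
      rw [hf, MonoidHom.range_comp, Subgroup.range_subtype]
    have h5 : f.ker = ((Q : Subgroup G) ⊓ N).subgroupOf (Q : Subgroup G) := by
      ext x
      simp [hf, MonoidHom.mem_ker, Subgroup.mem_subgroupOf]
    rw [Nat.card_congr (QuotientGroup.quotientKerEquivRange f).toEquiv, h4, h5,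
      Nat.card_congr (Subgroup.subgroupOfEquivOfLe inf_le_left).toEquiv] at h3
    rw [h2, h3, Nat.mul_comm]
  set k := Nat.card ↥((P : Subgroup G) ⊓ N) with hk
  have hkQ : ∀ Q : Sylow p G, Nat.card ↥((Q : Subgroup G) ⊓ N) = k := by
    intro Q
    refine Nat.eq_of_mul_eq_mul_right (Nat.card_pos (α := (Pbar : Subgroup (G ⧸ N)))) ?_
    rw [hsplit Q, hk, hsplit P, Sylow.card_eq_multiplicity, Sylow.card_eq_multiplicity]
  have hlift : ∀ u : {g : (G ⧸ N) // ∃ k : ℕ, orderOf g = p ^ k}, ∃ Q : Sylow p G, ∃ g : G,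
      g ∈ (Q : Subgroup G) ∧ (QuotientGroup.mk g : G ⧸ N) = u.1 := by
    rintro ⟨u, hu⟩
    obtain ⟨R, hR⟩ := ((hU u).1 hu).exists_le_sylow
    obtain ⟨Q, rfl⟩ := Sylow.mapSurjective_surjective hsurj p R
    have hum := hR (Subgroup.mem_zpowers u)
    rw [Sylow.coe_mapSurjective] at hum
    obtain ⟨g, hg, hgu⟩ := hum
    exact ⟨Q, g, hg, hgu⟩
  choose Qf gf hgQ hgu using hlift
  have hpmem : ∀ (Q : Sylow p G) (x : G), x ∈ (Q : Subgroup G) → ∃ j : ℕ, orderOf x = p ^ j := by
    intro Q x hx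
    obtain ⟨j, hj⟩ : ∃ j, orderOf (⟨x, hx⟩ : (Q : Subgroup G)) = p ^ j := IsPGroup.iff_orderOf.1 Q.isPGroup' _
    exact ⟨j, by rwa [← Subgroup.orderOf_coe] at hj⟩
  let UB := {g : (G ⧸ N) // ∃ k : ℕ, orderOf g = p ^ k}
  let U := {g : G // ∃ k : ℕ, orderOf g = p ^ k}
  let Φ : (Σ u : UB, ↥((Qf u : Subgroup G) ⊓ N)) → U := fun s =>
    ⟨gf s.1 * (s.2 : G), hpmem (Qf s.1) _ (Subgroup.mul_mem _ (hgQ s.1) s.2.2.1)⟩
  have hΦinj : Function.Injective Φ := by
    rintro ⟨u, a⟩ ⟨v, b⟩ h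
    have h' : gf u * (a : G) = gf v * (b : G) := congrArg Subtype.val h
    have huv : u = v := by
      apply Subtype.ext
      have e := congrArg (QuotientGroup.mk : G → G ⧸ N) h'
      rwa [QuotientGroup.mk_mul, QuotientGroup.mk_mul, (QuotientGroup.eq_one_iff _).2 a.2.2,
        (QuotientGroup.eq_one_iff _).2 b.2.2, mul_one, mul_one, hgu, hgu] at e
    subst huv
    exact Sigma.ext rfl (heq_of_eq (Subtype.ext (mul_left_cancel h')))
  have hcard : Nat.card (Σ u : UB, ↥((Qf u : Subgroup G) ⊓ N)) = Nat.card UB * k := by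
    haveI : Fintype UB := Fintype.ofFinite _
    rw [Nat.card_sigma, Finset.sum_congr rfl fun u _ => hkQ (Qf u), Finset.sum_const,
      Finset.card_univ, smul_eq_mul, Nat.card_eq_fintype_card (α := UB)]
  have hPk : Nat.card (P : Subgroup G) = k * Nat.card (Pbar : Subgroup (G ⧸ N)) := (hsplit P).symm
  refine ⟨?_, fun hNc => ?_⟩
  · rw [hPk, ← Nat.mul_assoc]
    refine Nat.mul_le_mul_right _ ?_
    rw [← hcard]
    exact Nat.card_le_card_of_injective Φ hΦinj
  · rw [hPk, ← Nat.mul_assoc]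
    congr 1
    rw [← hcard]
    refine Nat.card_eq_of_bijective Φ ⟨hΦinj, ?_⟩
    rintro ⟨x, hx⟩
    have hxq : ∃ j : ℕ, orderOf (QuotientGroup.mk x : G ⧸ N) = p ^ j := by
      obtain ⟨j, hj⟩ := hx
      obtain ⟨i, -, hi⟩ := (Nat.dvd_prime_pow (Fact.out : p.Prime)).1
        (hj ▸ orderOf_map_dvd (QuotientGroup.mk' N) x)
      exact ⟨i, hi⟩
    set u : UB := ⟨QuotientGroup.mk x, hxq⟩ with hu
    have hn : (gf u)⁻¹ * x ∈ N := QuotientGroup.eq.1 (hgu u)
    set n := (gf u)⁻¹ * x with hndef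
    have hnc : ∀ y : G, y * n = n * y := Subgroup.mem_center_iff.1 (hNc hn)
    have hcgx : Commute (gf u)⁻¹ x := by
      have h1 : Commute (gf u) n := hnc (gf u)
      have h2 : x = gf u * n := by rw [hndef, mul_inv_cancel_left]
      rw [h2]
      exact ((Commute.refl (gf u)).mul_right h1).inv_left
    obtain ⟨i, hi⟩ := hpmem (Qf u) _ (hgQ u)
    obtain ⟨j, hj⟩ := hx
    have hnp : IsPGroup p (Subgroup.zpowers n) := by
      rw [← hU]
      have h := hcgx.orderOf_mul_dvd_lcm.trans (Nat.lcm_dvd_mul _ _)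
      rw [orderOf_inv, hi, hj, ← pow_add] at h
      obtain ⟨l, -, hl⟩ := (Nat.dvd_prime_pow (Fact.out : p.Prime)).1 h
      exact ⟨l, hl⟩
    haveI : (Subgroup.zpowers n).Normal := ⟨fun y hy g => by
      rwa [Subgroup.mem_center_iff.1 (Subgroup.zpowers_le.2 (hNc hn) hy) g, mul_inv_cancel_right]⟩
    have hnQ : n ∈ (Qf u : Subgroup G) := by
      have hle : Subgroup.zpowers n ⊔ (Qf u : Subgroup G) = (Qf u : Subgroup G) :=
        (Qf u).is_maximal' (hnp.to_sup_of_normal_left (Qf u).isPGroup') le_sup_right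
      rw [← hle]
      exact Subgroup.mem_sup_left (Subgroup.mem_zpowers n)
    exact ⟨⟨u, ⟨n, hnQ, hn⟩⟩, Subtype.ext (mul_inv_cancel_left _ _)⟩

end Cfsg.Agent.S4153
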