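import Cfsg.Statements.S4154
-- import your own Cfsg.Agent.* helpers here

set_option autoImplicit false
open Cfsg

namespace Cfsg.Agent.S4154

/-- Let G be a finite group and α an automorphism of G such that every element of G is the product of an element fixed by α and an element of the form g⁻¹α(g). If N is a normal α-invariant subgroup, then the automorphism ᾱ induced on G/N has the same property, and every coset fixed by ᾱ contains an element fixed by α (so the fixed points of ᾱ are the images of the fixed points of α). -/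
theorem result {G : Type*} [Group G] [Finite G] (α : MulAut G)
    (hccp : ∀ x : G, ∃ c g : G, α c = c ∧ x = c * (g⁻¹ * α g))
    (N : Subgroup G) [N.Normal] (hN : ∀ n ∈ N, α n ∈ N) :
    (∀ x : G, ∃ c g : G, c⁻¹ * α c ∈ N ∧ x⁻¹ * (c * (g⁻¹ * α g)) ∈ N) ∧
    (∀ x : G, x⁻¹ * α x ∈ N → ∃ c : G, α c = c ∧ c⁻¹ * x ∈ N) := by
  
  refine ⟨fun x => ?_, fun x hx => ?_⟩
  · obtain ⟨c, g, hc, rfl⟩ := hccp x
    exact ⟨c, g, by rw [hc, inv_mul_cancel]; exact N.one_mem,
      by rw [inv_mul_cancel]; exact N.one_mem⟩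
  · set β : G ⧸ N →* G ⧸ N := QuotientGroup.map N N (α : G ≃* G).toMonoidHom (show N ≤ Subgroup.comap _ N from hN) with hβ
    have hmap : ∀ y : G, β (QuotientGroup.mk y) = QuotientGroup.mk (α y) := fun y => rfl
    set F : Subgroup (G ⧸ N) := MonoidHom.eqLocus β (MonoidHom.id _) with hF
    set F0 : Subgroup (G ⧸ N) :=
      (MonoidHom.eqLocus (α : G ≃* G).toMonoidHom (MonoidHom.id _)).map (QuotientGroup.mk' N)
      with hF0
    have hle : F0 ≤ F := by
      rintro _ ⟨c, hc, rfl⟩
      show β (QuotientGroup.mk c) = QuotientGroup.mk c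
      rw [hmap]
      exact congrArg _ hc
    let φ : (G ⧸ N) ⧸ F → G ⧸ N := Quotient.lift (fun u => u * (β u)⁻¹) fun a b hab => by
      replace hab : a⁻¹ * b ∈ F := QuotientGroup.leftRel_apply.1 hab
      have e : β (a⁻¹ * b) = a⁻¹ * b := hab
      rw [map_mul, map_inv, inv_mul_eq_iff_eq_mul] at e
      show a * (β a)⁻¹ = b * (β b)⁻¹
      rw [e]
      group
    have hsurj : Function.Surjective
        (fun cq : F0 × ((G ⧸ N) ⧸ F) => (cq.1 : G ⧸ N) * φ cq.2) := by
      intro u
      obtain ⟨u, rfl⟩ := QuotientGroup.mk_surjective u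
      obtain ⟨c, g, hc, rfl⟩ := hccp u
      refine ⟨(⟨QuotientGroup.mk c, c, hc, rfl⟩, QuotientGroup.mk (QuotientGroup.mk g⁻¹)), ?_⟩
      show QuotientGroup.mk c * (QuotientGroup.mk g⁻¹ * (β (QuotientGroup.mk g⁻¹))⁻¹) = _
      rw [hmap, ← QuotientGroup.mk_inv, ← QuotientGroup.mk_mul,
        ← QuotientGroup.mk_mul]
      congr 1
      show c * (g⁻¹ * (α g⁻¹)⁻¹) = c * (g⁻¹ * α g)
      rw [map_inv, inv_inv]
    have hcard := Nat.card_le_card_of_surjective _ hsurj
    rw [Nat.card_prod] at hcard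
    have hFF : F = F0 := by
      refine (Subgroup.eq_of_le_of_card_ge hle ?_).symm
      refine Nat.le_of_mul_le_mul_right ?_ (Nat.card_pos (α := (G ⧸ N) ⧸ F))
      rwa [Nat.mul_comm (Nat.card F), ← Subgroup.card_eq_card_quotient_mul_card_subgroup]
    have hxF : (QuotientGroup.mk x : G ⧸ N) ∈ F := by
      show β (QuotientGroup.mk x) = QuotientGroup.mk x
      rw [hmap]
      exact (QuotientGroup.eq.2 hx).symm
    rw [hFF] at hxF
    obtain ⟨c, hc, hcx⟩ := hxF
    exact ⟨c, hc, QuotientGroup.eq.1 hcx⟩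

end Cfsg.Agent.S4154
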