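import Cfsg.Statements.S4155
import Cfsg.Agent.Frobenius.Complement
import Cfsg.Agent.Constrained.Basic
import Cfsg.Agent.Transfer.NormalPComplement

set_option autoImplicit false
open Cfsg

namespace Cfsg.Agent.S4155

variable {G : Type*} [Group G] [Finite G]

theorem exists_other_prime (N : Subgroup G) (hN1 : N ≠ ⊥) (hnpp : ¬ IsPrimePow (Nat.card N))
    {q : ℕ} (hq : q.Prime) : ∃ r : ℕ, r.Prime ∧ r ≠ q ∧ r ∣ Nat.card N := by
  by_contra h
  push_neg at h
  apply hnpp
  have h1 := Nat.eq_prime_pow_of_unique_prime_dvd (Nat.card_pos (α := N)).ne'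
    (fun {d} hd hdd => by by_contra hne; exact h d hd hne hdd)
  rw [h1]
  refine hq.isPrimePow.pow ?_
  intro h0
  exact hN1 (Subgroup.card_eq_one.mp (by rw [h1, h0, pow_zero]))

/-- An element outside `N` does not commute with an element of `N` of coprime nontrivial order. -/
theorem not_commute {N : Subgroup G} (heq : ∀ x : G, x ∉ N → ∀ n ∈ N, orderOf (x * n) = orderOf x)
    {x v : G} (hx : x ∉ N) (hv : v ∈ N) (hv1 : v ≠ 1) (hco : (orderOf x).Coprime (orderOf v)) :
    ¬ Commute x v := fun hc => by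
  have h := heq x hx v hv
  rw [hc.orderOf_mul_eq_mul_orderOf_of_coprime hco] at h
  have h2 : orderOf v = 1 := Nat.eq_of_mul_eq_mul_left (orderOf_pos x) (h.trans (mul_one _).symm)
  exact hv1 (orderOf_eq_one_iff.mp h2)

theorem coprime_orders {q r : ℕ} [Fact q.Prime] [Fact r.Prime] (hqr : r ≠ q) {x v : G} {k l : ℕ}
    (hx : orderOf x ∣ q ^ k) (hv : orderOf v ∣ r ^ l) : (orderOf x).Coprime (orderOf v) :=
  Nat.Coprime.coprime_dvd_left hx (Nat.Coprime.coprime_dvd_right hv
    (((Nat.coprime_primes (Fact.out : q.Prime) Fact.out).mpr hqr.symm).pow k l))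

theorem mem_pCore_of_nilpotent {M : Subgroup G} (hM : M.Normal) (hMnil : Group.IsNilpotent M)
    {q : ℕ} [Fact q.Prime] {x : G} (hx : x ∈ M) {k : ℕ} (hk : orderOf x ∣ q ^ k) :
    x ∈ Cfsg.pCore q G := by
  haveI := hM
  haveI := hMnil
  obtain ⟨S, hS⟩ := (IsPGroup.of_card (n := ((Nat.dvd_prime_pow Fact.out).mp hk).choose)
    (G := Subgroup.zpowers (⟨x, hx⟩ : M)) (by
      rw [Nat.card_zpowers, Subgroup.orderOf_mk]
      exact ((Nat.dvd_prime_pow Fact.out).mp hk).choose_spec.2)).exists_le_sylow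
  haveI : (S : Subgroup M).Normal :=
    ((Group.isNilpotent_of_finite_tfae (G := M)).out 0 3 rfl rfl).mp hMnil q inferInstance S
  haveI : (S : Subgroup M).Characteristic := S.characteristic_of_normal inferInstance
  exact CfsgLib.Constrained.le_pCore (ConjAct.normal_of_characteristic_of_normal) (S.2.map M.subtype)
    ⟨⟨x, hx⟩, hS (Subgroup.mem_zpowers _), rfl⟩

theorem nilpotent_le (N : Subgroup G) [N.Normal] (hN1 : N ≠ ⊥)
    (heq : ∀ x : G, x ∉ N → ∀ n ∈ N, orderOf (x * n) = orderOf x) (hnil : Group.IsNilpotent N)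
    (hnpp : ¬ IsPrimePow (Nat.card N)) (M : Subgroup G) (hM : M.Normal) (hMnil : Group.IsNilpotent M) :
    M ≤ N := by
  classical
  intro x hx
  induction ho : orderOf x using Nat.recOnPosPrimePosCoprime generalizing x with
  | zero => exact absurd ho (orderOf_pos x).ne'
  | one => rw [orderOf_eq_one_iff.mp ho]; exact one_mem N
  | prime_pow q n hq hn =>
      by_contra hxN
      haveI := Fact.mk hq
      obtain ⟨r, hr, hrq, hrd⟩ := exists_other_prime N hN1 hnpp hq
      haveI := Fact.mk hr
      obtain ⟨v, hv⟩ := exists_prime_orderOf_dvd_card' r hrd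
      have hvo : orderOf (v : G) = r := by rw [Subgroup.orderOf_coe, hv]
      have hxC : x ∈ Cfsg.pCore q G := mem_pCore_of_nilpotent hM hMnil hx (dvd_of_eq ho)
      have hvC : (v : G) ∈ Cfsg.pCore r G :=
        mem_pCore_of_nilpotent (inferInstance : N.Normal) hnil v.2 (k := 1) (by rw [pow_one, hvo])
      refine not_commute heq hxN v.2 (fun h => ?_)
        (coprime_orders hrq (dvd_of_eq ho) (l := 1) (by rw [pow_one, hvo])) ?_
      · rw [h, orderOf_one] at hvo; exact hr.one_lt.ne hvo
      · exact Subgroup.commute_of_normal_of_disjoint _ _ (CfsgLib.Constrained.instNormalPCore q)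
          (CfsgLib.Constrained.instNormalPCore r)
          (IsPGroup.disjoint_of_ne q r hrq.symm _ _ CfsgLib.Constrained.isPGroup_pCore
            CfsgLib.Constrained.isPGroup_pCore) _ _ hxC hvC
  | coprime a b ha hb hab iha ihb =>
      have h1 : orderOf (x ^ b) = a := by
        rw [orderOf_pow' _ (by omega), ho, Nat.gcd_mul_left_left, Nat.mul_div_cancel _ (by omega)]
      have h2 : orderOf (x ^ a) = b := by
        rw [orderOf_pow' _ (by omega), ho, Nat.gcd_mul_right_left, Nat.mul_div_cancel_left _ (by omega)]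
      obtain ⟨s, t, hst⟩ : ∃ s t : ℤ, (b : ℤ) * s + (a : ℤ) * t = 1 :=
        ⟨Nat.gcdA b a, Nat.gcdB b a, by rw [← Nat.gcd_eq_gcd_ab]; simpa using Nat.Coprime.symm hab⟩
      have e : x = (x ^ b) ^ s * (x ^ a) ^ t := by
        rw [← zpow_natCast, ← zpow_natCast, ← zpow_mul, ← zpow_mul, ← zpow_add, hst, zpow_one]
      rw [e]
      exact mul_mem (zpow_mem (iha (pow_mem hx b) h1) s) (zpow_mem (ihb (pow_mem hx a) h2) t)

theorem sylow_quotient (N : Subgroup G) [N.Normal] (hN1 : N ≠ ⊥)
    (heq : ∀ x : G, x ∉ N → ∀ n ∈ N, orderOf (x * n) = orderOf x) (hnil : Group.IsNilpotent N)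
    (hnpp : ¬ IsPrimePow (Nat.card N)) {q : ℕ} [hq : Fact q.Prime] (Q : Sylow q (G ⧸ N)) :
    IsCyclic (Q : Subgroup (G ⧸ N)) ∨
      ∃ n : ℕ, Nonempty ((Q : Subgroup (G ⧸ N)) ≃* QuaternionGroup (2 ^ n)) := by
  classical
  obtain ⟨r, hr, hrq, hrd⟩ := exists_other_prime N hN1 hnpp hq.out
  haveI := Fact.mk hr
  let V : Subgroup G :=
    { carrier := {v | v ∈ (Subgroup.center N).map N.subtype ∧ v ^ r = 1}
      one_mem' := ⟨one_mem _, one_pow _⟩
      mul_mem' := fun {a b} ha hb => ⟨mul_mem ha.1 hb.1, by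
        obtain ⟨a', ha', rfl⟩ := ha.1
        obtain ⟨b', hb', rfl⟩ := hb.1
        have hc : Commute (a' : G) (b' : G) := congrArg Subtype.val (Subgroup.mem_center_iff.mp hb' a')
        show ((a' : G) * b') ^ r = 1
        rw [hc.mul_pow, show (a' : G) ^ r = 1 from ha.2, show (b' : G) ^ r = 1 from hb.2, one_mul]⟩
      inv_mem' := fun {a} ha => ⟨inv_mem ha.1, by rw [inv_pow, ha.2, inv_one]⟩ }
  haveI : ((Subgroup.center N).map N.subtype).Normal := ConjAct.normal_of_characteristic_of_normal
  haveI hVn : V.Normal := ⟨fun v hv g => ⟨Subgroup.Normal.conj_mem inferInstance v hv.1 g, by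
    rw [conj_pow, hv.2]; group⟩⟩
  have hVN : ∀ v ∈ V, v ∈ N := fun v hv => Subgroup.map_subtype_le _ hv.1
  have hcent : ∀ n ∈ N, ∀ v ∈ V, n * v * n⁻¹ = v := by
    intro n hn v hv
    obtain ⟨v', hv', rfl⟩ := hv.1
    have := congrArg Subtype.val (Subgroup.mem_center_iff.mp hv' ⟨n, hn⟩)
    simp only [Subgroup.coe_mul] at this
    simp [this]
  haveI hVne : Nontrivial V := by
    obtain ⟨R⟩ : Nonempty (Sylow r N) := inferInstance
    haveI hRn : (R : Subgroup N).Normal :=
      ((Group.isNilpotent_of_finite_tfae (G := N)).out 0 3 rfl rfl).mp hnil r inferInstance R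
    haveI : Nontrivial (R : Subgroup N) := (Subgroup.nontrivial_iff_ne_bot _).mpr (R.ne_bot_of_dvd_card hrd)
    haveI := R.2.center_nontrivial
    obtain ⟨k, hk0, hk⟩ := (R.2.to_subgroup (Subgroup.center (R : Subgroup N))).nontrivial_iff_card.1 inferInstance
    obtain ⟨z, hz⟩ := exists_prime_orderOf_dvd_card' (G := Subgroup.center (R : Subgroup N)) r
      (by rw [hk]; exact dvd_pow_self r hk0.ne')
    have hzN : ((z : (R : Subgroup N)) : N) ∈ Subgroup.center N := by
      rw [Subgroup.mem_center_iff]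
      intro n
      induction ho : orderOf n using Nat.recOnPosPrimePosCoprime generalizing n with
      | zero => exact absurd ho (orderOf_pos n).ne'
      | one => rw [orderOf_eq_one_iff.mp ho]; simp
      | prime_pow s l hs hl =>
          haveI := Fact.mk hs
          by_cases hsr : s = r
          · subst hsr
            obtain ⟨T, hT⟩ := (IsPGroup.of_card (n := l) (G := Subgroup.zpowers n)
              (by rw [Nat.card_zpowers, ho])).exists_le_sylow
            have hTR : (T : Subgroup N) = R := by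
              haveI := Sylow.unique_of_normal R hRn
              rw [Subsingleton.elim T R]
            exact congrArg Subtype.val
              (Subgroup.mem_center_iff.mp z.2 ⟨n, hTR ▸ hT (Subgroup.mem_zpowers n)⟩)
          · obtain ⟨S, hS⟩ := (IsPGroup.of_card (n := l) (G := Subgroup.zpowers n)
              (by rw [Nat.card_zpowers, ho])).exists_le_sylow
            exact (Subgroup.commute_of_normal_of_disjoint _ _
              (((Group.isNilpotent_of_finite_tfae (G := N)).out 0 3 rfl rfl).mp hnil s inferInstance S)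
              hRn (IsPGroup.disjoint_of_ne s r hsr _ _ S.2 R.2) n _ (hS (Subgroup.mem_zpowers n))
              (z : (R : Subgroup N)).2)
      | coprime a b ha hb hab iha ihb =>
          have h1 : orderOf (n ^ b) = a := by
            rw [orderOf_pow' _ (by omega), ho, Nat.gcd_mul_left_left, Nat.mul_div_cancel _ (by omega)]
          have h2 : orderOf (n ^ a) = b := by
            rw [orderOf_pow' _ (by omega), ho, Nat.gcd_mul_right_left, Nat.mul_div_cancel_left _ (by omega)]
          obtain ⟨s, t, hst⟩ : ∃ s t : ℤ, (b : ℤ) * s + (a : ℤ) * t = 1 :=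
            ⟨Nat.gcdA b a, Nat.gcdB b a, by rw [← Nat.gcd_eq_gcd_ab]; simpa using Nat.Coprime.symm hab⟩
          have e : n = (n ^ b) ^ s * (n ^ a) ^ t := by
            rw [← zpow_natCast, ← zpow_natCast, ← zpow_mul, ← zpow_mul, ← zpow_add, hst, zpow_one]
          rw [e]
          exact (((show Commute (n ^ b) _ from iha _ h1).zpow_left s).mul_left
            ((show Commute (n ^ a) _ from ihb _ h2).zpow_left t)).eq
    have hzo : orderOf (((z : (R : Subgroup N)) : N) : G) = r := by
      rw [Subgroup.orderOf_coe, Subgroup.orderOf_coe, Subgroup.orderOf_coe, hz]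
    refine ⟨⟨⟨_, ⟨_, hzN, rfl⟩, orderOf_dvd_iff_pow_eq_one.mp (dvd_of_eq hzo)⟩, 1, fun h => ?_⟩⟩
    rw [show (((z : (R : Subgroup N)) : N) : G) = 1 from congrArg Subtype.val h, orderOf_one] at hzo
    exact hr.one_lt.ne hzo
  letI : CommGroup V := { (inferInstance : Group V) with
    mul_comm := fun a b => Subtype.ext (by
      have h := hcent _ (hVN _ a.2) _ b.2
      show (a : G) * b = b * a
      calc (a : G) * b = a * b * (a : G)⁻¹ * a := by group
        _ = b * a := by rw [h]) }
  let ψ : G ⧸ N →* MulAut V := QuotientGroup.lift N (MulAut.conjNormal (H := V)) fun n hn =>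
    MulEquiv.ext fun v => Subtype.ext (by
      rw [MulAut.one_apply, MulAut.conjNormal_apply]; exact hcent n hn v v.2)
  obtain ⟨d, ρ, hd, hρ⟩ := CfsgLib.Frobenius.FPF.exists_rep_of_elementary (B := (Q : Subgroup (G ⧸ N))) r
    (fun v : V => Subtype.ext (by simpa using v.2.2)) (ψ.comp (Q : Subgroup (G ⧸ N)).subtype) (by
      intro b hb v hbv
      by_contra hv1
      obtain ⟨g, hg⟩ := QuotientGroup.mk_surjective (b : G ⧸ N)
      obtain ⟨x, y, hxz, hyz, hgxy, ⟨k, hxk⟩, hyc⟩ := CfsgLib.Transfer.exists_pPart_decomposition (p := q) g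
      -- the `q'`-part of the lift lies in `N`
      have hbk : ∃ l, (g : G ⧸ N) ^ q ^ l = 1 := by
        obtain ⟨l, hl⟩ := Q.2 b
        exact ⟨l, by rw [hg]; exact congrArg Subtype.val hl⟩
      obtain ⟨l, hl⟩ := hbk
      have hyN : y ∈ N := by
        refine (QuotientGroup.eq_one_iff y).mp (orderOf_eq_one_iff.mp
          (Nat.eq_one_of_dvd_coprimes (hyc.pow_right l) (orderOf_map_dvd (QuotientGroup.mk' N) y)
            (orderOf_dvd_of_pow_eq_one ?_)))
        obtain ⟨i, rfl⟩ := hyz
        show QuotientGroup.mk' N (g ^ i) ^ q ^ l = 1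
        rw [map_zpow, ← zpow_natCast, ← zpow_mul, mul_comm, zpow_mul, zpow_natCast]
        show ((g : G ⧸ N) ^ q ^ l) ^ i = 1
        rw [hl, one_zpow]
      have hxb : (x : G ⧸ N) = b := by
        rw [← hg, hgxy, QuotientGroup.mk_mul, (QuotientGroup.eq_one_iff y).mpr hyN, mul_one]
      have hxN : x ∉ N := fun h => hb (Subtype.ext (by
        rw [← hxb, (QuotientGroup.eq_one_iff x).mpr h]; rfl))
      refine not_commute heq hxN (hVN _ v.2) (fun h => hv1 (Subtype.ext h))
        (coprime_orders hrq hxk (l := 1) (by rw [pow_one]; exact orderOf_dvd_of_pow_eq_one v.2.2)) ?_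
      have h1 : ψ (x : G ⧸ N) v = v := by rw [hxb]; exact hbv
      have h2 : x * (v : G) * x⁻¹ = v := congrArg Subtype.val h1
      calc x * (v : G) = x * v * x⁻¹ * x := by group
        _ = v * x := by rw [h2])
  haveI : Nonempty (Fin d) := ⟨⟨0, hd⟩⟩
  let e : (⊤ : Subgroup (Q : Subgroup (G ⧸ N))) ≃* (Q : Subgroup (G ⧸ N)) := Subgroup.topEquiv
  by_cases hq2 : q = 2
  · subst hq2
    rcases CfsgLib.Frobenius.Linear.cyclic_or_quaternion hρ ⊤ (Q.2.to_subgroup ⊤) with h | ⟨m, -, ⟨f⟩⟩
    · exact Or.inl (isCyclic_of_surjective e e.surjective)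
    · exact Or.inr ⟨m, ⟨e.symm.trans f⟩⟩
  · haveI := CfsgLib.Frobenius.Linear.isCyclic_odd_pSubgroup hρ hq2 ⊤ (Q.2.to_subgroup ⊤)
    exact Or.inl (isCyclic_of_surjective e e.surjective)


/-- Let G be a finite group and N a proper non-trivial normal nilpotent subgroup whose order is not a prime power, such that for every x outside N all elements of the coset xN have the same order as x. Then N is the Fitting subgroup of G, and for every prime q every Sylow q-subgroup of G/N is cyclic or generalized quaternion. -/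
theorem result {G : Type*} [Group G] [Finite G] (N : Subgroup G) [N.Normal] (hN1 : N ≠ ⊥) (hN2 : N ≠ ⊤)
    (heq : ∀ x : G, x ∉ N → ∀ n ∈ N, orderOf (x * n) = orderOf x)
    (hnil : Group.IsNilpotent N) (hnpp : ¬ IsPrimePow (Nat.card N)) :
    N = Cfsg.fittingSubgroup G ∧
    ∀ (q : ℕ) [Fact q.Prime] (Q : Sylow q (G ⧸ N)), IsCyclic (Q : Subgroup (G ⧸ N)) ∨ ∃ n : ℕ, Nonempty ((Q : Subgroup (G ⧸ N)) ≃* QuaternionGroup (2 ^ n)) := by
  refine ⟨le_antisymm (le_sSup ⟨inferInstance, hnil⟩) (sSup_le ?_), ?_⟩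
  · rintro M ⟨hM, hMnil⟩
    exact nilpotent_le N hN1 heq hnil hnpp M hM hMnil
  · intro q _ Q
    exact sylow_quotient N hN1 heq hnil hnpp Q

end Cfsg.Agent.S4155
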