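import Cfsg.Statements.S4156
-- import your own Cfsg.Agent.* helpers here

set_option autoImplicit false
open Cfsg

namespace Cfsg.Agent.S4156

open scoped commutatorElement

/-- A vector in `F^n`, completed to a vector of `F^(n+1)` with coordinate sum zero. -/
def extSum {F : Type*} [Field F] {n : ℕ} (v : Fin n → F) : Fin (n + 1) → F :=
  Fin.snoc v (-∑ i, v i)

theorem sum_extSum {F : Type*} [Field F] {n : ℕ} (v : Fin n → F) : ∑ i, extSum v i = 0 := by
  simp [extSum, Fin.sum_univ_castSucc]

theorem extSum_init {F : Type*} [Field F] {n : ℕ} (w : Fin (n + 1) → F) (hw : ∑ i, w i = 0) :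
    extSum (fun i : Fin n => w i.castSucc) = w := by
  rw [Fin.sum_univ_castSucc] at hw
  funext x
  refine Fin.lastCases ?_ (fun i => ?_) x
  · rw [extSum, Fin.snoc_last]
    exact (eq_neg_of_add_eq_zero_right hw).symm
  · rw [extSum, Fin.snoc_castSucc]

/-- The action of a permutation of `Fin (n+1)` on the sum-zero hyperplane. -/
def permAct (F : Type*) [Field F] (n : ℕ) :
    Equiv.Perm (Fin (n + 1)) →* Module.End F (Fin n → F) where
  toFun s :=
    { toFun := fun v i => extSum v (s⁻¹ i.castSucc)
      map_add' := fun v w => by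
        funext i
        have h : extSum (v + w) = extSum v + extSum w := by
          funext x
          refine Fin.lastCases ?_ (fun j => ?_) x <;>
            simp [extSum, Finset.sum_add_distrib]
          ring
        exact congrFun h _
      map_smul' := fun c v => by
        funext i
        have h : extSum (c • v) = c • extSum v := by
          funext x
          refine Fin.lastCases ?_ (fun j => ?_) x <;> simp [extSum, Finset.mul_sum]
        exact congrFun h _ }
  map_one' := by
    refine LinearMap.ext fun v => funext fun i => ?_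
    simp [extSum]
  map_mul' s t := by
    refine LinearMap.ext fun v => funext fun i => ?_
    show extSum v ((s * t)⁻¹ i.castSucc) =
      extSum (fun j : Fin n => extSum v (t⁻¹ j.castSucc)) (s⁻¹ i.castSucc)
    rw [extSum_init (fun j => extSum v (t⁻¹ j))
      ((Equiv.sum_comp t⁻¹ (extSum v)).trans (sum_extSum v))]
    rfl

theorem permAct_apply {F : Type*} [Field F] {n : ℕ} (s : Equiv.Perm (Fin (n + 1)))
    (v : Fin n → F) (i : Fin n) : permAct F n s v i = extSum v (s⁻¹ i.castSucc) := rfl

theorem commutator_eq_top_of_simple {α : Type*} [Fintype α] [DecidableEq α]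
    (h : 5 ≤ Nat.card α) : commutator (alternatingGroup α) = ⊤ :=
  commutator_alternatingGroup_eq_top h

/-- Let n ≥ 5 and F a finite field. Then the projective special linear group PSL_n(F) contains a subgroup isomorphic to the alternating group of degree n + 1. -/
theorem result (n : ℕ) (hn : 5 ≤ n) (F : Type*) [Field F] [Finite F] :
    ∃ f : alternatingGroup (Fin (n + 1)) →* Matrix.ProjectiveSpecialLinearGroup (Fin n) F, Function.Injective f := by
  
  classical
  have hcard : 5 ≤ Nat.card (Fin (n + 1)) := by rw [Nat.card_fin]; omega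
  haveI := alternatingGroup.isSimpleGroup hcard
  let ρ : alternatingGroup (Fin (n + 1)) →* Matrix (Fin n) (Fin n) F :=
    (LinearMap.toMatrixAlgEquiv' (R := F) (n := Fin n)).toAlgHom.toRingHom.toMonoidHom.comp
      ((permAct F n).comp (alternatingGroup (Fin (n + 1))).subtype)
  have hperf : commutator (alternatingGroup (Fin (n + 1))) = ⊤ :=
    commutator_eq_top_of_simple hcard
  have hdet : ∀ g, (ρ g).det = 1 := by
    intro g
    have h := Abelianization.commutator_subset_ker
      ((Matrix.detMonoidHom (n := Fin n) (R := F)).comp ρ).toHomUnits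
      (hperf ▸ Subgroup.mem_top g : g ∈ commutator _)
    rw [MonoidHom.mem_ker] at h
    exact congrArg Units.val h
  let σ : alternatingGroup (Fin (n + 1)) →* Matrix.SpecialLinearGroup (Fin n) F :=
    { toFun := fun g => ⟨ρ g, hdet g⟩
      map_one' := Subtype.ext (map_one ρ)
      map_mul' := fun a b => Subtype.ext (map_mul ρ a b) }
  refine ⟨(QuotientGroup.mk' (Subgroup.center (Matrix.SpecialLinearGroup (Fin n) F))).comp σ, ?_⟩
  rw [← MonoidHom.ker_eq_bot_iff]
  refine (Subgroup.Normal.eq_bot_or_eq_top (MonoidHom.normal_ker _)).resolve_right fun htop => ?_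
  have hcentral : ∀ g, σ g ∈ Subgroup.center (Matrix.SpecialLinearGroup (Fin n) F) := fun g => by
    have h : g ∈ ((QuotientGroup.mk' (Subgroup.center (Matrix.SpecialLinearGroup (Fin n) F))).comp σ).ker := by rw [htop]; exact Subgroup.mem_top g
    exact (QuotientGroup.eq_one_iff _).1 h
  have htriv : ∀ g, σ g = 1 := by
    intro g
    have h : commutator (alternatingGroup (Fin (n + 1))) ≤ σ.ker := by
      rw [commutator_def, Subgroup.commutator_le]
      intro a _ b _
      rw [MonoidHom.mem_ker, map_commutatorElement, commutatorElement_eq_one_iff_mul_comm]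
      exact Subgroup.mem_center_iff.1 (hcentral b) (σ a)
    exact h (hperf ▸ Subgroup.mem_top g)
  let i : ℕ → Fin (n + 1) := fun j => ⟨j % (n + 1), Nat.mod_lt _ (by omega)⟩
  have hi : ∀ j < 4, (i j : ℕ) = j := fun j hj => Nat.mod_eq_of_lt (by omega)
  have hne : ∀ j k, j < 4 → k < 4 → j ≠ k → i j ≠ i k := fun j k hj hk hjk e =>
    hjk (by rw [← hi j hj, ← hi k hk, e])
  let t : Equiv.Perm (Fin (n + 1)) := Equiv.swap (i 2) (i 3) * Equiv.swap (i 0) (i 1)
  have ht : t ∈ alternatingGroup (Fin (n + 1)) := by
    rw [Equiv.Perm.mem_alternatingGroup]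
    simp [t, Equiv.Perm.sign_swap (hne 0 1 (by omega) (by omega) (by omega)),
      Equiv.Perm.sign_swap (hne 2 3 (by omega) (by omega) (by omega))]
  have h1 := congrArg Subtype.val (htriv ⟨t, ht⟩)
  have h2 : LinearMap.toMatrixAlgEquiv' (permAct F n t) = (1 : Matrix (Fin n) (Fin n) F) := h1
  rw [map_eq_one_iff _ (AlgEquiv.injective _)] at h2
  let e : Fin n → F := fun x => if (x : ℕ) = 0 then 1 else 0
  have h3 := congrFun (LinearMap.congr_fun h2 e) ⟨0, by omega⟩
  rw [permAct_apply, Module.End.one_apply] at h3
  have h4 : t⁻¹ (Fin.castSucc ⟨0, by omega⟩) = Fin.castSucc ⟨1, by omega⟩ := by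
    rw [Equiv.Perm.inv_eq_iff_eq]
    have e0 : (Fin.castSucc ⟨0, by omega⟩ : Fin (n + 1)) = i 0 := Fin.ext (by rw [hi 0 (by omega)]; rfl)
    have e1 : (Fin.castSucc ⟨1, by omega⟩ : Fin (n + 1)) = i 1 := Fin.ext (by rw [hi 1 (by omega)]; rfl)
    rw [e0, e1]
    simp only [t, Equiv.Perm.mul_apply, Equiv.swap_apply_right]
    rw [Equiv.swap_apply_of_ne_of_ne (hne 0 2 (by omega) (by omega) (by omega))
      (hne 0 3 (by omega) (by omega) (by omega))]
  rw [h4, extSum, Fin.snoc_castSucc] at h3
  simp [e] at h3

end Cfsg.Agent.S4156
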