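import Cfsg.Statements.S4160
import Cfsg.Agent.ClassSizes.NotDvdIndex
-- import your own Cfsg.Agent.* helpers here

set_option autoImplicit false
open Cfsg

namespace Cfsg.Agent.S4160

/-- Let G be a finite group and p ≠ q primes each dividing the size of some conjugacy class of G, such that no conjugacy class size is divisible by pq. Then G has a normal p-complement or a normal q-complement. -/
theorem result {G : Type*} [Group G] [Finite G] (p q : ℕ) (hp : p.Prime) (hq : q.Prime) (hpq : p ≠ q)
    (hp' : ∃ x : G, p ∣ (Subgroup.centralizer ({x} : Set G)).index) (hq' : ∃ x : G, q ∣ (Subgroup.centralizer ({x} : Set G)).index) (h : ∀ x : G, ¬ p * q ∣ (Subgroup.centralizer ({x} : Set G)).index) :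
    Cfsg.HasNormalPComplement p G ∨ Cfsg.HasNormalPComplement q G := by
  
  classical
  haveI : Fact p.Prime := ⟨hp⟩
  haveI : Fact q.Prime := ⟨hq⟩
  by_contra hc
  rw [not_or] at hc
  have a := CfsgLib.ClassSizes.two_mul_card_pPrimeClassSet_le hc.1
  have b := CfsgLib.ClassSizes.two_mul_card_pPrimeClassSet_le hc.2
  have hu : CfsgLib.ClassSizes.pPrimeClassSet p G ∪ CfsgLib.ClassSizes.pPrimeClassSet q G
      = Set.univ := by
    refine Set.eq_univ_of_forall fun x => ?_
    by_contra hx
    simp only [Set.mem_union, CfsgLib.ClassSizes.pPrimeClassSet, Set.mem_ofPred_eq, not_or,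
      not_not] at hx
    exact h x (((Nat.coprime_primes hp hq).2 hpq).mul_dvd_of_dvd_of_dvd hx.1 hx.2)
  have h1 : 1 ≤ Set.ncard (CfsgLib.ClassSizes.pPrimeClassSet p G ∩
      CfsgLib.ClassSizes.pPrimeClassSet q G) :=
    (Set.ncard_pos).2 ⟨1, CfsgLib.ClassSizes.one_mem_pPrimeClassSet hp,
      CfsgLib.ClassSizes.one_mem_pPrimeClassSet hq⟩
  have h2 := Set.ncard_union_add_ncard_inter (CfsgLib.ClassSizes.pPrimeClassSet p G)
    (CfsgLib.ClassSizes.pPrimeClassSet q G)
  rw [hu, Set.ncard_univ] at h2
  rw [Nat.card_coe_set_eq] at a b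
  omega

end Cfsg.Agent.S4160
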