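import Cfsg.Statements.S4163
import Cfsg.Agent.ClassSizes.SmallClass
-- import your own Cfsg.Agent.* helpers here

set_option autoImplicit false
open Cfsg

namespace Cfsg.Agent.S4163

/-- Let G be a finite group with a normal abelian subgroup A satisfying C_G(A) = A. Suppose some conjugacy class of G has size greater than 1, let m be the smallest such size, and let M be the subgroup generated by the elements whose class has size 1 or m. Then M is nilpotent of class at most 3. -/
theorem result {G : Type*} [Group G] [Finite G]
    (A : Subgroup G) [A.Normal] (hA : IsMulCommutative A) (hCA : Subgroup.centralizer (A : Set G) = A)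
    (m : ℕ) (hm1 : 1 < m) (hm : ∃ x : G, (Subgroup.centralizer ({x} : Set G)).index = m) (hmin : ∀ x : G, 1 < (Subgroup.centralizer ({x} : Set G)).index → m ≤ (Subgroup.centralizer ({x} : Set G)).index) :
    Subgroup.upperCentralSeries ↥(Subgroup.closure {x : G | (Subgroup.centralizer ({x} : Set G)).index = 1 ∨ (Subgroup.centralizer ({x} : Set G)).index = m}) 3 = ⊤ := by
  
  exact CfsgLib.ClassSizes.upperCentralSeries_three_eq_top A hA hCA hmin _ fun x hx => hx

end Cfsg.Agent.S4163
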