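import Cfsg.Statements.S4168
-- import your own Cfsg.Agent.* helpers here

set_option autoImplicit false
open Cfsg

namespace Cfsg.Agent.S4168

/-- Let L be a finite quasisimple group (perfect with L/Z(L) simple). Then every prime dividing the order of the centre Z(L) also divides the order of L/Z(L). -/
theorem result {L : Type*} [Group L] [Finite L] (hL : Cfsg.IsQuasisimple L)
    (p : ℕ) (hp : p.Prime) (hdiv : p ∣ Nat.card (Subgroup.center L)) : p ∣ (Subgroup.center L).index := by
  
  by_contra hcon
  haveI : Fact p.Prime := ⟨hp⟩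
  obtain ⟨P⟩ := (inferInstance : Nonempty (Sylow p L))
  have hPZ : (P : Subgroup L) ≤ Subgroup.center L := by
    intro x hx
    obtain ⟨k, hk⟩ := P.isPGroup' ⟨x, hx⟩
    have hk' : x ^ p ^ k = 1 := congrArg Subtype.val hk
    have h1 : x ^ (Subgroup.center L).index ∈ Subgroup.center L := Subgroup.pow_index_mem _ x
    have hd : orderOf x ∣ p ^ k := orderOf_dvd_of_pow_eq_one hk'
    have hcop : (orderOf x).Coprime (Subgroup.center L).index :=
      Nat.Coprime.coprime_dvd_left hd ((hp.coprime_iff_not_dvd.2 hcon).pow_left k)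
    obtain ⟨m, hm⟩ := exists_pow_eq_self_of_coprime hcop.symm
    rw [← hm]
    exact Subgroup.pow_mem _ h1 m
  have hN : Subgroup.normalizer ((P : Subgroup L) : Set L) ≤
      Subgroup.centralizer ((P : Subgroup L) : Set L) := fun g _ =>
    Subgroup.mem_centralizer_iff.2 fun y hy => (Subgroup.mem_center_iff.1 (hPZ hy) g).symm
  have hker : (MonoidHom.transferSylow P hN).ker = ⊤ := by
    rw [eq_top_iff, ← hL.1.1, commutator_def, Subgroup.commutator_le]
    intro a _ b _
    rw [MonoidHom.mem_ker, map_commutatorElement, commutatorElement_eq_one_iff_mul_comm]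
    apply Subtype.ext
    exact (Subgroup.mem_center_iff.1 (hPZ (MonoidHom.transferSylow P hN b).2) _)
  have h1 := MonoidHom.ker_transferSylow_isComplement' P hN
  rw [hker, Subgroup.isComplement'_top_left] at h1
  exact P.ne_bot_of_dvd_card (hdiv.trans (Subgroup.card_subgroup_dvd_card _)) h1

end Cfsg.Agent.S4168
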