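import Cfsg.Statements.S4169
import Cfsg.Agent.ClassSizes.SmallClass
-- import your own Cfsg.Agent.* helpers here

set_option autoImplicit false
open Cfsg

namespace Cfsg.Agent.S4169

/-- Let P be a finite p-group whose conjugacy classes have exactly two sizes (1 and one other value). Then P has nilpotency class at most 3. -/
theorem result {P : Type*} [Group P] [Finite P] {p : ℕ} [Fact p.Prime] (hP : IsPGroup p P)
    (m : ℕ) (hm : 1 < m) (h : ∀ x : P, (Subgroup.centralizer ({x} : Set P)).index = 1 ∨ (Subgroup.centralizer ({x} : Set P)).index = m) :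
    upperCentralSeries P 3 = ⊤ := by
  
  classical
  obtain ⟨A, ⟨hAn, hAc⟩, hAmax⟩ := Set.Finite.exists_maximalFor (fun A : Subgroup P => Nat.card A)
    {A : Subgroup P | A.Normal ∧ IsMulCommutative A} (Set.toFinite _)
    ⟨⊥, inferInstance, ⟨⟨fun a b => Subsingleton.elim _ _⟩⟩⟩
  haveI := hAn
  have hA' : ∀ a ∈ A, ∀ b ∈ A, a * b = b * a := fun a ha b hb =>
    congrArg Subtype.val (hAc.is_comm.comm ⟨a, ha⟩ ⟨b, hb⟩)
  have hAC : A ≤ Subgroup.centralizer (A : Set P) := fun a ha =>
    Subgroup.mem_centralizer_iff.2 fun b hb => hA' b hb a ha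
  have hCA : Subgroup.centralizer (A : Set P) = A := by
    refine le_antisymm ?_ hAC
    by_contra hnot
    set Cb := (Subgroup.centralizer (A : Set P)).map (QuotientGroup.mk' A) with hCb
    haveI : Cb.Normal := Subgroup.Normal.map inferInstance _ (QuotientGroup.mk'_surjective A)
    have hne : Cb ≠ ⊥ := by
      intro h
      rw [hCb, Subgroup.map_eq_bot_iff, QuotientGroup.ker_mk'] at h
      exact hnot h
    haveI : Nontrivial Cb := (Subgroup.nontrivial_iff_ne_bot _).2 hne
    have hP' : IsPGroup p (P ⧸ A) := hP.to_quotient A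
    obtain ⟨z, hz, hzne⟩ : ∃ z ∈ Cb ⊓ Subgroup.center (P ⧸ A), z ≠ 1 := by
      by_contra hall
      simp only [ne_eq, not_exists, not_and, not_not] at hall
      obtain ⟨y, hy, hy1⟩ : ∃ y : Cb, y ∈ MulAction.fixedPoints (ConjAct (P ⧸ A)) Cb ∧ 1 ≠ y := by
        have h1 : (1 : Cb) ∈ MulAction.fixedPoints (ConjAct (P ⧸ A)) Cb := fun g => smul_one g
        have h2 : p ∣ Nat.card Cb := by
          obtain ⟨n, hn0, hn⟩ := (hP'.to_subgroup Cb).nontrivial_iff_card.1 inferInstance
          rw [hn]; exact dvd_pow_self p hn0.ne'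
        exact IsPGroup.exists_fixed_point_of_prime_dvd_card_of_fixed_point
          (G := ConjAct (P ⧸ A)) (hP'.of_equiv ConjAct.toConjAct) Cb h2 h1
      refine hy1 (Subtype.ext (hall (y : P ⧸ A) ⟨y.2, Subgroup.mem_center_iff.2 fun g => ?_⟩).symm)
      have := congrArg Subtype.val (hy (ConjAct.toConjAct g))
      rw [ConjAct.Subgroup.val_conj_smul, ConjAct.toConjAct_smul, mul_inv_eq_iff_eq_mul] at this
      exact this
    obtain ⟨⟨x, hxC, rfl⟩, hzc⟩ := hz
    have hxA : x ∉ A := fun h => hzne ((QuotientGroup.eq_one_iff x).2 h)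
    set B := A ⊔ Subgroup.zpowers x with hB
    have hBn : B.Normal := by
      have : B = (Subgroup.zpowers (QuotientGroup.mk' A x)).comap (QuotientGroup.mk' A) := by
        rw [hB, ← MonoidHom.map_zpowers, Subgroup.comap_map_eq, QuotientGroup.ker_mk', sup_comm]
      rw [this]
      haveI : (Subgroup.zpowers (QuotientGroup.mk' A x)).Normal := by
        refine ⟨fun y hy g => ?_⟩
        have hyc : y ∈ Subgroup.center (P ⧸ A) := Subgroup.zpowers_le.2 hzc hy
        rwa [Subgroup.mem_center_iff.1 hyc g, mul_inv_cancel_right]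
      infer_instance
    have hBc : IsMulCommutative B := by
      have e : B = Subgroup.closure ((A : Set P) ∪ {x}) := by
        rw [Subgroup.closure_union, Subgroup.closure_eq, hB, Subgroup.zpowers_eq_closure]
      rw [e]
      refine Subgroup.isMulCommutative_closure ?_
      have hx' : ∀ a ∈ A, a * x = x * a := fun a ha => Subgroup.mem_centralizer_iff.1 hxC a ha
      rintro a (ha | rfl) b (hb | rfl)
      · exact hA' a ha b hb
      · exact hx' a ha
      · exact (hx' b hb).symm
      · rfl
    have hlt : A < B := lt_of_le_of_ne le_sup_left fun e =>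
      hxA (e ▸ Subgroup.mem_sup_right (Subgroup.mem_zpowers x))
    have hcardlt : Nat.card A < Nat.card B :=
      lt_of_le_of_ne (Subgroup.card_le_of_le hlt.le) fun e =>
        hlt.ne (Subgroup.eq_of_le_of_card_ge hlt.le e.ge)
    exact absurd (hAmax ⟨hBn, hBc⟩ hcardlt.le) (not_le.2 hcardlt)
  have hmin : ∀ y : P, 1 < (Subgroup.centralizer ({y} : Set P)).index →
      m ≤ (Subgroup.centralizer ({y} : Set P)).index := fun y hy =>
    ((h y).resolve_left hy.ne').ge
  have h3 := CfsgLib.ClassSizes.upperCentralSeries_three_eq_top A hAc hCA hmin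
    (Set.univ : Set P) fun x _ => h x
  rw [Subgroup.closure_univ] at h3
  show Subgroup.upperCentralSeries P 3 = ⊤
  rw [← Subgroup.comap_upperCentralSeries (n := 3) (Subgroup.topEquiv (G := P)).symm, h3]
  exact Subgroup.comap_top _

end Cfsg.Agent.S4169
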