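import Cfsg.Statements.S4170
import Cfsg.Agent.SylowCount.FixRatio

set_option autoImplicit false
open scoped Pointwise
open Cfsg
open scoped Pointwise

namespace Cfsg.Agent.S4170

/-- Let p be an odd prime and G a nontrivial group of permutations of a finite set Ω that is generated by its elements of p-power order. Then Ω has two disjoint nonempty subsets Δ₁ and Δ₂ such that the index in G of the subgroup of elements mapping Δ₁ onto Δ₁ and Δ₂ onto Δ₂ (and hence also the complement of their union onto itself) is divisible by p. -/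
theorem result {Ω : Type*} [Fintype Ω] (p : ℕ) [Fact p.Prime] (hp : p ≠ 2) (G : Subgroup (Equiv.Perm Ω)) (hG : G ≠ ⊥) (hgen : Subgroup.closure {g : G | ∃ k : ℕ, orderOf g = p ^ k} = ⊤) :
    ∃ Δ₁ Δ₂ : Set Ω, Δ₁.Nonempty ∧ Δ₂.Nonempty ∧ Disjoint Δ₁ Δ₂ ∧ p ∣ (MulAction.stabilizer G Δ₁ ⊓ MulAction.stabilizer G Δ₂).index := by
  classical
  have hp3 : 3 ≤ p := by
    have := (Fact.out : p.Prime).two_le
    omega
  obtain ⟨x0, g, hg0⟩ : ∃ (x0 : Ω) (g : G), g • x0 ≠ x0 := by
    by_contra h
    push Not at h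
    refine hG ((Subgroup.eq_bot_iff_forall G).2 fun g hg => Equiv.ext fun x => ?_)
    exact h x ⟨g, hg⟩
  have hm : MulAction.stabilizer G x0 ≠ ⊤ := fun h =>
    hg0 (MulAction.mem_stabilizer_iff.1 (h ▸ Subgroup.mem_top g))
  -- an uncovered set of size at most `p`, enlarged to two parts of size less than `p`
  obtain ⟨U, hUp, hU2, hU⟩ : ∃ U : Finset Ω, U.card ≤ p ∧ 2 ≤ U.card ∧
      ∀ R : Sylow p G, ∃ x ∈ U, ¬ (R : Subgroup G) ≤ MulAction.stabilizer G x := by
    by_cases h1 : ∃ x : Ω, ∀ R : Sylow p G, ¬ (R : Subgroup G) ≤ MulAction.stabilizer G x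
    · obtain ⟨x, hx⟩ := h1
      obtain ⟨y, hy⟩ : ∃ y, y ≠ x := by
        by_cases h : x0 = x
        · exact ⟨g • x0, h ▸ hg0⟩
        · exact ⟨x0, h⟩
      refine ⟨{x, y}, ?_, ?_, fun R => ⟨x, by simp, hx R⟩⟩ <;> rw [Finset.card_pair hy.symm] <;> omega
    · push Not at h1
      obtain ⟨U, hU, hUp, hUc⟩ := CfsgLib.SylowCount.exists_uncovered hgen (Finset.univ : Finset Ω)
        (fun _ _ _ => Finset.mem_univ _) (Finset.mem_univ x0) hm
      refine ⟨U, hUp, ?_, fun R => ?_⟩
      · by_contra hlt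
        obtain ⟨R0⟩ := (inferInstance : Nonempty (Sylow p G))
        rcases U.eq_empty_or_nonempty with rfl | ⟨x, hx⟩
        · exact hUc ⟨R0, fun y hy => absurd hy (Finset.notMem_empty y)⟩
        · obtain ⟨R, hR⟩ := h1 x
          refine hUc ⟨R, fun y hy => ?_⟩
          obtain rfl : y = x := Finset.card_le_one.1 (by omega) y hy x hx
          exact hR
      · by_contra hR
        push Not at hR
        exact hUc ⟨R, hR⟩
  obtain ⟨D₁, hD₁U, hD₁c⟩ := Finset.exists_subset_card_eq (s := U) (n := U.card - 1) (by omega)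
  have hD₂c : (U \ D₁).card = 1 := by rw [Finset.card_sdiff_of_subset hD₁U]; omega
  refine ⟨D₁, ↑(U \ D₁), Finset.coe_nonempty.2 (Finset.card_pos.1 (by omega)),
    Finset.coe_nonempty.2 (Finset.card_pos.1 (by omega)),
    Finset.disjoint_coe.2 Finset.disjoint_sdiff, ?_⟩
  set K := MulAction.stabilizer G (D₁ : Set Ω) ⊓ MulAction.stabilizer G ((U \ D₁ : Finset Ω) : Set Ω)
  by_contra hnd
  obtain ⟨T⟩ : Nonempty (Sylow p K) := inferInstance
  obtain ⟨R, hR⟩ := (T.isPGroup'.map K.subtype).exists_le_sylow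
  have hTR : (T : Subgroup K).map K.subtype = (R : Subgroup G) := by
    refine Subgroup.eq_of_le_of_card_ge hR (le_of_eq ?_)
    rw [Subgroup.card_map_of_injective (Subgroup.subtype_injective _), R.card_eq_multiplicity,
      T.card_eq_multiplicity, ← Subgroup.card_mul_index K,
      Nat.factorization_mul Nat.card_pos.ne' Subgroup.index_ne_zero_of_finite, Finsupp.add_apply,
      Nat.factorization_eq_zero_of_not_dvd hnd, add_zero]
  have hRK : (R : Subgroup G) ≤ K := by
    rw [← hTR]; rintro _ ⟨t, -, rfl⟩; exact t.2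
  -- a `p`-group stabilising a set of size less than `p` fixes it pointwise
  have key : ∀ D : Finset Ω, D.card < p →
      (R : Subgroup G) ≤ MulAction.stabilizer G (D : Set Ω) →
      ∀ x ∈ D, (R : Subgroup G) ≤ MulAction.stabilizer G x := by
    intro D hDc hRD x hx
    have hinv : MulAction.orbit (R : Subgroup G) x ⊆ (D : Set Ω) := by
      rintro _ ⟨r, rfl⟩
      have := MulAction.mem_stabilizer_iff.1 (hRD r.2)
      rw [← this]
      exact Set.smul_mem_smul_set hx
    obtain ⟨k, hk⟩ := R.isPGroup'.card_orbit x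
    have hle : Nat.card (MulAction.orbit (R : Subgroup G) x) ≤ D.card := by
      rw [← Nat.card_eq_finsetCard D]
      exact Nat.card_mono (D.finite_toSet) hinv
    have hk0 : k = 0 := by
      rcases Nat.eq_zero_or_pos k with h | h
      · exact h
      · have : p ≤ p ^ k := Nat.le_self_pow h.ne' p
        omega
    intro r hr
    rw [hk0, pow_zero] at hk
    have hsub : Subsingleton (MulAction.orbit (R : Subgroup G) x) :=
      (Nat.card_eq_one_iff_unique.1 hk).1
    have := congrArg Subtype.val (hsub.elim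
      ⟨_, MulAction.mem_orbit x (⟨r, hr⟩ : (R : Subgroup G))⟩ ⟨x, MulAction.mem_orbit_self x⟩)
    exact MulAction.mem_stabilizer_iff.2 this
  obtain ⟨x, hx, hxR⟩ := hU R
  by_cases hxD : x ∈ D₁
  · exact hxR (key D₁ (by omega) (hRK.trans inf_le_left) x hxD)
  · exact hxR (key (U \ D₁) (by omega) (hRK.trans inf_le_right) x (Finset.mem_sdiff.2 ⟨hx, hxD⟩))

end Cfsg.Agent.S4170
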