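import Cfsg.Statements.S4172
import Cfsg.Agent.Cores.TwoGenSylow

set_option autoImplicit false
open Cfsg

namespace Cfsg.Agent.S4172

/-- Let p be a prime and G a finite group with a non-commutative Sylow p-subgroup P whose Frattini subgroup has index p² in P (P is generated by two elements). Suppose G has no nontrivial normal subgroup of order prime to p and the Frattini subgroup of P contains no nontrivial normal subgroup of G. Then the generalized Fitting subgroup F*(G) is the unique minimal normal subgroup of G, the image of P in G/F*(G) is cyclic, and if F*(G) is not commutative then P permutes the components of G transitively by conjugation. -/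
theorem result {G : Type*} [Group G] [Finite G] (p : ℕ) [Fact p.Prime] (P : Sylow p G) (hna : ¬ IsMulCommutative (P : Subgroup G)) (hgen : (frattini ↥(P : Subgroup G)).index = p ^ 2) (hcore : Cfsg.pPrimeCore p G = ⊥) (hfrat : ((frattini ↥(P : Subgroup G)).map (P : Subgroup G).subtype).normalCore = ⊥) [hFn : (Cfsg.generalizedFittingSubgroup G).Normal] :
    (Cfsg.generalizedFittingSubgroup G ≠ ⊥ ∧ ∀ K : Subgroup G, K.Normal → K ≠ ⊥ → Cfsg.generalizedFittingSubgroup G ≤ K) ∧
      IsCyclic ↥((P : Subgroup G).map (QuotientGroup.mk' (Cfsg.generalizedFittingSubgroup G))) ∧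
      (¬ IsMulCommutative (Cfsg.generalizedFittingSubgroup G) → ∀ K L : Subgroup G, Cfsg.IsComponent K → Cfsg.IsComponent L → ∃ x ∈ (P : Subgroup G), L = K.map (MulAut.conj x).toMonoidHom) := by
  exact CfsgLib.Cores.structure_of_twoGenerated_sylow P hna hgen hcore hfrat

end Cfsg.Agent.S4172
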