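import Cfsg.Statements.S4176
import Cfsg.Agent.Eq.Def_Local
import Cfsg.Agent.Constrained.PSolvable

set_option autoImplicit false
open Cfsg

namespace Cfsg.Agent.S4176

open Subgroup

section

variable {k V H : Type*} [Field k] [AddCommGroup V] [Module k V] [Group H] [Finite H]
  (ρ : Representation k H V)

theorem rho_mul (g h : H) (x : V) : ρ (g * h) x = ρ g (ρ h x) := by rw [map_mul]; rfl

/-- The stabilizer of a vector. -/
def stab (a : V) : Subgroup H where
  carrier := {h | ρ h a = a}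
  one_mem' := by simp
  mul_mem' {g h} hg hh := by
    show ρ (g * h) a = a
    rw [rho_mul ρ, show ρ h a = a from hh, show ρ g a = a from hg]
  inv_mem' {g} hg := by
    show ρ g⁻¹ a = a
    conv_lhs => rw [← show ρ g a = a from hg]
    rw [← rho_mul ρ, inv_mul_cancel, map_one]; rfl

theorem mem_stab {a : V} {h : H} : h ∈ stab ρ a ↔ ρ h a = a := Iff.rfl

/-- The orbit of a vector. -/
noncomputable def orb (a : V) : Finset V :=
  (Set.finite_range fun h : H => ρ h a).toFinset

theorem mem_orb {a u : V} : u ∈ orb ρ a ↔ ∃ h : H, ρ h a = u := by simp [orb]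

theorem card_orb (a : V) : (orb ρ a).card = (stab ρ a).index := by
  rw [← Nat.card_eq_finsetCard, Subgroup.index]
  refine (Nat.card_congr (Equiv.ofBijective
    (Quotient.lift (fun h : H => (⟨ρ h a, (mem_orb ρ).mpr ⟨h, rfl⟩⟩ : {u // u ∈ orb ρ a})) ?_) ⟨?_, ?_⟩)).symm
  · intro g h hgh
    replace hgh := QuotientGroup.leftRel_apply.mp hgh
    rw [mem_stab] at hgh
    apply Subtype.ext
    show ρ g a = ρ h a
    conv_rhs => rw [show h = g * (g⁻¹ * h) by group, rho_mul ρ, hgh]
  · rintro ⟨g⟩ ⟨h⟩ hgh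
    refine Quotient.sound (QuotientGroup.leftRel_apply.mpr ?_)
    have he : ρ g a = ρ h a := congrArg Subtype.val hgh
    rw [mem_stab, rho_mul ρ, ← he, ← rho_mul ρ, inv_mul_cancel, map_one]; rfl
  · rintro ⟨u, hu⟩
    obtain ⟨h, rfl⟩ := (mem_orb ρ).mp hu
    exact ⟨QuotientGroup.mk h, rfl⟩

/-- The orbit sum. -/
noncomputable def orbSum (a : V) : V := ∑ u ∈ orb ρ a, u

theorem orbSum_fixed (a : V) (g : H) : ρ g (orbSum ρ a) = orbSum ρ a := by
  classical
  rw [orbSum, map_sum]
  refine Finset.sum_bij' (fun u _ => ρ g u) (fun u _ => ρ g⁻¹ u) ?_ ?_ ?_ ?_ ?_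
  · intro u hu
    obtain ⟨h, rfl⟩ := (mem_orb ρ).mp hu
    exact (mem_orb ρ).mpr ⟨g * h, rho_mul ρ g h a⟩
  · intro u hu
    obtain ⟨h, rfl⟩ := (mem_orb ρ).mp hu
    exact (mem_orb ρ).mpr ⟨g⁻¹ * h, rho_mul ρ _ h a⟩
  · intro u _; rw [← rho_mul ρ, inv_mul_cancel, map_one]; rfl
  · intro u _; rw [← rho_mul ρ, mul_inv_cancel, map_one]; rfl
  · intro u _; rfl

/-- A normal subgroup fixing `a` fixes the whole span of its orbit. -/
theorem fix_span {L : Subgroup H} (hL : L.Normal) {a : V} (ha : L ≤ stab ρ a) {x : V}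
    (hx : x ∈ Submodule.span k {u : V | ∃ h : H, ρ h a = u}) {l : H} (hl : l ∈ L) : ρ l x = x := by
  induction hx using Submodule.span_induction with
  | mem u hu =>
    obtain ⟨h, rfl⟩ := hu
    have h1 : ρ (h⁻¹ * l * h⁻¹⁻¹) a = a := ha (hL.conj_mem l hl h⁻¹)
    rw [← rho_mul ρ, show l * h = h * (h⁻¹ * l * h⁻¹⁻¹) by group, rho_mul ρ, h1]
  | zero => simp
  | add u v _ _ hu hv => rw [map_add, hu, hv]
  | smul c u _ hu => rw [map_smul, hu]

variable (p : ℕ) [Fact p.Prime] [CharP k p]

omit [Finite H] in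
theorem natCast_ne_zero {n : ℕ} (h : n.Coprime p) : (n : k) ≠ 0 := by
  rw [Ne, CharP.cast_eq_zero_iff k p]
  exact (Fact.out : p.Prime).coprime_iff_not_dvd.mp h.symm

/-- One step up the series through a `p'`-factor. -/
theorem exists_average {L K : Subgroup H} (hL : L.Normal) (hK : K.Normal) (hLK : L ≤ K)
    (hc : (L.relIndex K).Coprime p) {a v : V} (ha : L ≤ stab ρ a)
    (hv : v ∈ Submodule.span k {u : V | ∃ h : H, ρ h a = u}) (hvfix : ∀ h, ρ h v = v)
    (hidx : (stab ρ a).index.Coprime p) :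
    ∃ a' : V, K ≤ stab ρ a' ∧ (stab ρ a').index.Coprime p ∧
      v ∈ Submodule.span k {u : V | ∃ h : H, ρ h a' = u} ∧
      ∃ c : k, orbSum ρ a' = c • orbSum ρ a := by
  classical
  haveI : (L.subgroupOf K).Normal := hL.comap _
  haveI := Fintype.ofFinite (↥K ⧸ L.subgroupOf K)
  set m := L.relIndex K with hm
  have hmk : (m : k) ≠ 0 := natCast_ne_zero p hc
  have hcardQ : Fintype.card (↥K ⧸ L.subgroupOf K) = m := by
    rw [hm, Subgroup.relIndex, Subgroup.index, Nat.card_eq_fintype_card]
  let T : V →ₗ[k] V := (m : k)⁻¹ • ∑ q : ↥K ⧸ L.subgroupOf K, ρ ((q.out : K) : H)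
  have hT : ∀ x, T x = (m : k)⁻¹ • ∑ q : ↥K ⧸ L.subgroupOf K, ρ ((q.out : K) : H) x := fun x => by
    simp [T]
  set W := Submodule.span k {u : V | ∃ h : H, ρ h a = u} with hW
  have hwd : ∀ x ∈ W, ∀ (r : K) (q : ↥K ⧸ L.subgroupOf K), (r : ↥K ⧸ L.subgroupOf K) = q →
      ρ ((q.out : K) : H) x = ρ (r : H) x := by
    intro x hx r q hq
    have hmem : (r⁻¹ * q.out : K) ∈ L.subgroupOf K := by
      rw [← QuotientGroup.eq, hq, QuotientGroup.out_eq']
    rw [show ((q.out : K) : H) = (r : H) * ((r⁻¹ * q.out : K) : H) by simp, rho_mul ρ,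
      fix_span ρ hL ha hx (mem_subgroupOf.mp hmem)]
  have hTfixK : ∀ x ∈ W, ∀ r ∈ K, ρ r (T x) = T x := by
    intro x hx r hr
    rw [hT, map_smul, map_sum]
    congr 1
    refine Fintype.sum_equiv (Equiv.mulLeft ((⟨r, hr⟩ : K) : ↥K ⧸ L.subgroupOf K)) _ _ fun q => ?_
    rw [← rho_mul ρ]
    refine (hwd x hx (⟨r, hr⟩ * q.out) _ ?_).symm
    show _ = ((⟨r, hr⟩ : K) : ↥K ⧸ L.subgroupOf K) * q
    rw [QuotientGroup.mk_mul, QuotientGroup.out_eq']
  have hTequiv : ∀ x ∈ W, ∀ h : H, T (ρ h x) = ρ h (T x) := by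
    intro x hx h
    rw [hT, hT, map_smul, map_sum]
    congr 1
    have hcomap : ∀ g : H, L.subgroupOf K ≤
        (L.subgroupOf K).comap (MulAut.conjNormal g : MulAut K).toMonoidHom := fun g r hr => by
      rw [mem_comap, mem_subgroupOf]
      exact hL.conj_mem _ hr g
    let e : ↥K ⧸ L.subgroupOf K → ↥K ⧸ L.subgroupOf K := fun q =>
      (((MulAut.conjNormal h⁻¹ : MulAut K) q.out : K) : ↥K ⧸ L.subgroupOf K)
    have he : Function.Bijective e := by
      rw [Fintype.bijective_iff_injective_and_card]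
      refine ⟨fun q q' hq => ?_, rfl⟩
      have h1 := QuotientGroup.eq.mp hq
      rw [← map_inv, ← map_mul] at h1
      have h2 := hcomap h h1
      rw [mem_comap, MulEquiv.coe_toMonoidHom, map_inv MulAut.conjNormal,
        MulAut.apply_inv_self, ← QuotientGroup.eq, QuotientGroup.out_eq', QuotientGroup.out_eq'] at h2
      exact h2
    refine Fintype.sum_bijective e he _ _ fun q => ?_
    rw [hwd x hx _ _ rfl, MulAut.conjNormal_apply, inv_inv, ← rho_mul ρ, ← rho_mul ρ]
    congr 2
    group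
  have hTfix : ∀ x ∈ W, (∀ r ∈ K, ρ r x = x) → T x = x := by
    intro x hx hfix
    rw [hT, Finset.sum_congr rfl (fun q _ => hfix _ (q.out : K).2), Finset.sum_const,
      Finset.card_univ, hcardQ, ← Nat.cast_smul_eq_nsmul k, smul_smul, inv_mul_cancel₀ hmk, one_smul]
  have haW : a ∈ W := Submodule.subset_span ⟨1, by simp⟩
  have hWinv : ∀ h : H, ρ h a ∈ W := fun h => Submodule.subset_span ⟨h, rfl⟩
  set a' := T a with ha'
  have hle : stab ρ a ≤ stab ρ a' := fun h hh => by
    rw [mem_stab, ha', ← hTequiv a haW h, show ρ h a = a from hh]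
  have himg : ∀ h : H, T (ρ h a) = ρ h a' := fun h => hTequiv a haW h
  refine ⟨a', fun r hr => hTfixK a haW r hr, Nat.Coprime.coprime_dvd_left (index_dvd_of_le hle) hidx,
    ?_, ?_⟩
  · rw [← hTfix v hv (fun r _ => hvfix r)]
    have hmap : W.map T ≤ Submodule.span k {u : V | ∃ h : H, ρ h a' = u} := by
      rw [hW, Submodule.map_span, Submodule.span_le]
      rintro _ ⟨u, ⟨h, rfl⟩, rfl⟩
      exact Submodule.subset_span ⟨h, (himg h).symm⟩
    exact hmap ⟨v, hv, rfl⟩
  · -- all fibres of `T` on the orbit have the same size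
    have hmaps : ∀ u ∈ orb ρ a, T u ∈ orb ρ a' := fun u hu => by
      obtain ⟨h, rfl⟩ := (mem_orb ρ).mp hu
      exact (mem_orb ρ).mpr ⟨h, (himg h).symm⟩
    set n := ((orb ρ a).filter fun u => T u = a').card with hn
    have hfib : ∀ w ∈ orb ρ a', ((orb ρ a).filter fun u => T u = w).card = n := by
      intro w hw
      obtain ⟨g, rfl⟩ := (mem_orb ρ).mp hw
      refine Finset.card_bij' (fun u _ => ρ g⁻¹ u) (fun u _ => ρ g u) ?_ ?_ ?_ ?_
      · intro u hu
        obtain ⟨hu1, hu2⟩ := Finset.mem_filter.mp hu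
        obtain ⟨h, rfl⟩ := (mem_orb ρ).mp hu1
        refine Finset.mem_filter.mpr ⟨(mem_orb ρ).mpr ⟨g⁻¹ * h, rho_mul ρ _ _ a⟩, ?_⟩
        rw [hTequiv _ (hWinv h) g⁻¹, hu2, ← rho_mul ρ, inv_mul_cancel, map_one]; rfl
      · intro u hu
        obtain ⟨hu1, hu2⟩ := Finset.mem_filter.mp hu
        obtain ⟨h, rfl⟩ := (mem_orb ρ).mp hu1
        refine Finset.mem_filter.mpr ⟨(mem_orb ρ).mpr ⟨g * h, rho_mul ρ _ _ a⟩, ?_⟩
        rw [hTequiv _ (hWinv h) g, hu2]
      · intro u _; rw [← rho_mul ρ, mul_inv_cancel, map_one]; rfl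
      · intro u _; rw [← rho_mul ρ, inv_mul_cancel, map_one]; rfl
    have hsum : T (orbSum ρ a) = n • orbSum ρ a' := by
      rw [orbSum, map_sum, orbSum, ← Finset.sum_fiberwise_of_maps_to hmaps, Finset.smul_sum]
      refine Finset.sum_congr rfl fun w hw => ?_
      rw [Finset.sum_congr rfl fun u hu => (Finset.mem_filter.mp hu).2, Finset.sum_const, hfib w hw]
    have hsumW : orbSum ρ a ∈ W := Submodule.sum_mem _ fun u hu => by
      obtain ⟨h, rfl⟩ := (mem_orb ρ).mp hu
      exact hWinv h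
    rw [hTfix _ hsumW (fun r _ => orbSum_fixed ρ a r), ← Nat.cast_smul_eq_nsmul k] at hsum
    have hcard : (orb ρ a).card = (orb ρ a').card * n := by
      rw [Finset.card_eq_sum_card_fiberwise hmaps, Finset.sum_congr rfl hfib, Finset.sum_const,
        smul_eq_mul]
    have hnk : (n : k) ≠ 0 := natCast_ne_zero p
      (Nat.Coprime.coprime_dvd_left (Dvd.intro_left _ hcard.symm) (by rw [card_orb ρ]; exact hidx))
    exact ⟨(n : k)⁻¹, by rw [hsum, smul_smul, inv_mul_cancel₀ hnk, one_smul]⟩

/-- Fixed vectors in the span of the orbit are multiples of the orbit sum. -/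
theorem fixed_mem (hsol : Cfsg.IsPSolvable p H) {a v : V} (hidx : (stab ρ a).index.Coprime p)
    (hv : v ∈ Submodule.span k {u : V | ∃ h : H, ρ h a = u}) (hvfix : ∀ h, ρ h v = v) :
    ∃ c : k, v = c • orbSum ρ a := by
  classical
  obtain ⟨n, N, hN0, hNl, hmono, hnorm, hfac⟩ := hsol
  suffices key : ∀ i : Fin (n + 1), ∀ a : V, N i ≤ stab ρ a → (stab ρ a).index.Coprime p →
      v ∈ Submodule.span k {u : V | ∃ h : H, ρ h a = u} → ∃ c : k, v = c • orbSum ρ a from
    key 0 a (by rw [hN0]; exact bot_le) hidx hv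
  intro i
  induction i using Fin.reverseInduction with
  | last =>
    intro a ha _ hva
    have hfix : ∀ h : H, ρ h a = a := fun h => ha (by rw [hNl]; exact mem_top h)
    have ho : orb ρ a = {a} := by
      ext u
      rw [mem_orb, Finset.mem_singleton]
      exact ⟨fun ⟨h, hh⟩ => (hfix h) ▸ hh.symm, fun hu => ⟨1, by rw [hu]; exact hfix 1⟩⟩
    have hset : {u : V | ∃ h : H, ρ h a = u} = {a} := by
      ext u
      exact ⟨fun ⟨h, hh⟩ => by rw [Set.mem_singleton_iff, ← hh, hfix],
        fun hu => ⟨1, by rw [Set.mem_singleton_iff.mp hu, hfix]⟩⟩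
    rw [hset, Submodule.mem_span_singleton] at hva
    obtain ⟨c, hc⟩ := hva
    exact ⟨c, by rw [orbSum, ho, Finset.sum_singleton, hc]⟩
  | cast i ih =>
    intro a ha hai hva
    rcases hfac i with ⟨m, hm⟩ | hc
    · refine ih a ?_ hai hva
      set S := stab ρ a
      have h1 : S.relIndex (N i.succ) ∣ p ^ m := hm ▸ relIndex_dvd_of_le_left _ ha
      have h2 : S.relIndex (N i.succ) ∣ S.index := by
        haveI := hnorm i.succ
        have e1 := relIndex_mul_relIndex (S ⊓ N i.succ) (N i.succ) (S ⊔ N i.succ) inf_le_right le_sup_right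
        have e2 := relIndex_mul_relIndex (S ⊓ N i.succ) S (S ⊔ N i.succ) inf_le_left le_sup_left
        rw [inf_relIndex_right, relIndex_sup_right] at e1
        rw [inf_relIndex_left, ← e1, mul_comm (S.relIndex (N i.succ))] at e2
        have e3 : S.relIndex (S ⊔ N i.succ) = S.relIndex (N i.succ) :=
          Nat.eq_of_mul_eq_mul_left (Nat.pos_of_ne_zero (by rw [relIndex]; exact index_ne_zero_of_finite)) e2
        rw [← e3]
        exact Dvd.intro _ (relIndex_mul_index le_sup_left)
      rw [← relIndex_eq_one]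
      exact Nat.eq_one_of_dvd_coprimes (hai.pow_right m) h2 h1
    · obtain ⟨a', hK, hi', hv', c, hcs⟩ := exists_average ρ p (hnorm _) (hnorm _)
        (hmono (Fin.castSucc_le_succ i)) hc ha hva hvfix hai
      obtain ⟨d, hd⟩ := ih a' hK hi' hv'
      exact ⟨d * c, by rw [hd, hcs, smul_smul]⟩

end

/-- Let k be a field of prime characteristic p, H a finite p-soluble group and ρ a k-linear representation of H on V. Let a be a vector that is fixed by some Sylow p-subgroup of H and whose H-orbit spans V. Then the space of H-fixed vectors has dimension at most 1, and every vector b whose H-orbit has size coprime to the size of the orbit of a is fixed by H. -/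
theorem result {k V H : Type*} [Field k] (p : ℕ) [Fact p.Prime] [CharP k p] [AddCommGroup V] [Module k V]
    [Group H] [Finite H] (hsol : Cfsg.IsPSolvable p H) (ρ : Representation k H V) (a : V)
    (hfix : ∃ P : Sylow p H, ∀ x : H, x ∈ (P : Subgroup H) → ρ x a = a)
    (hspan : Submodule.span k {u : V | ∃ h : H, ρ h a = u} = ⊤) :
    Module.finrank k ρ.invariants ≤ 1 ∧
    ∀ b : V, (Nat.card {u : V | ∃ h : H, ρ h a = u}).Coprime (Nat.card {u : V | ∃ h : H, ρ h b = u}) → ∀ h : H, ρ h b = b := by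
  classical
  obtain ⟨P, hP⟩ := hfix
  have hidx : (stab ρ a).index.Coprime p := by
    refine Nat.Coprime.coprime_dvd_left (index_dvd_of_le (H := (P : Subgroup H)) fun x hx => hP x hx) ?_
    exact ((Fact.out : p.Prime).coprime_iff_not_dvd.mpr P.not_dvd_index).symm
  constructor
  · have hle : ρ.invariants ≤ Submodule.span k {orbSum ρ a} := fun v hv => by
      obtain ⟨c, rfl⟩ := fixed_mem ρ p hsol hidx (hspan ▸ Submodule.mem_top) hv
      exact Submodule.smul_mem _ c (Submodule.subset_span rfl)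
    calc Module.finrank k ρ.invariants ≤ Module.finrank k (Submodule.span k {orbSum ρ a}) :=
          Submodule.finrank_mono hle
      _ ≤ 1 := by
          by_cases h0 : orbSum ρ a = 0
          · rw [h0, Submodule.span_zero_singleton, finrank_bot]; exact Nat.zero_le _
          · exact (finrank_span_singleton h0).le
  · intro b hb
    have hset : ∀ x : V, {u : V | ∃ h : H, ρ h x = u} = ↑(orb ρ x) := fun x => by
      ext u; simp [mem_orb]
    rw [hset, hset] at hb
    simp only [SetLike.coe_sort_coe, Nat.card_eq_finsetCard, card_orb] at hb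
    set M := stab ρ b with hM
    let σ : Representation k M V := ρ.comp M.subtype
    have hst : stab σ a = (stab ρ a).subgroupOf M := rfl
    have hrel : (stab σ a).index = (stab ρ a).index := by
      rw [hst]
      show (stab ρ a).relIndex M = _
      apply le_antisymm
      · calc (stab ρ a).relIndex M ≤ (stab ρ a).relIndex ⊤ :=
              relIndex_le_of_le_right le_top (by simp [index_ne_zero_of_finite])
          _ = _ := relIndex_top_right _
      · refine Nat.le_of_dvd (Nat.pos_of_ne_zero (by rw [relIndex]; exact index_ne_zero_of_finite)) ?_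
        refine (Nat.Coprime.dvd_of_dvd_mul_right hb ?_)
        rw [← inf_relIndex_right, relIndex_mul_index inf_le_right]
        exact index_dvd_of_le inf_le_left
    have horb : orb σ a = orb ρ a := by
      refine Finset.eq_of_subset_of_card_le (fun u hu => ?_) ?_
      · obtain ⟨h, rfl⟩ := (mem_orb σ).mp hu
        exact (mem_orb ρ).mpr ⟨(h : H), rfl⟩
      · rw [card_orb, card_orb, hrel]
    have hspanM : Submodule.span k {u : V | ∃ h : M, σ h a = u} = ⊤ := by
      rw [← hspan]
      congr 1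
      ext u
      have := Finset.ext_iff.mp horb u
      rw [mem_orb, mem_orb] at this
      exact this
    obtain ⟨c, hc⟩ := fixed_mem σ p (CfsgLib.Constrained.IsPSolvable.subgroup hsol M) (a := a) (v := b)
      (hrel ▸ hidx) (hspanM ▸ Submodule.mem_top) (fun h => h.2)
    intro h
    have hs : orbSum σ a = orbSum ρ a := by rw [orbSum, orbSum, horb]
    rw [hc, hs, map_smul, orbSum_fixed]

end Cfsg.Agent.S4176
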