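import Cfsg.Statements.S4177
-- import your own Cfsg.Agent.* helpers here

set_option autoImplicit false
open Cfsg

namespace Cfsg.Agent.S4177

open scoped Pointwise

variable {k V H : Type*} [Field k] [AddCommGroup V] [Module k V] [Group H]
variable (ρ : Representation k H V) (a : V)

/-- Stabiliser of a vector. -/
abbrev vecStab (a : V) : Subgroup H where
  carrier := {h | ρ h a = a}
  one_mem' := by simp
  mul_mem' {x y} hx hy := by
    simp only [Set.mem_ofPred_eq] at *
    rw [map_mul, Module.End.mul_apply, hy, hx]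
  inv_mem' {x} hx := by
    simp only [Set.mem_ofPred_eq] at *
    exact (congrArg (ρ x⁻¹) hx).symm.trans (ρ.inv_self_apply x a)

theorem card_orbit_eq (b : V) :
    Nat.card {u : V | ∃ h : H, ρ h b = u} = (vecStab ρ b).index := by
  symm
  refine Nat.card_congr (Equiv.ofBijective (Quotient.lift
    (fun h => (⟨ρ h b, h, rfl⟩ : {u : V | ∃ h : H, ρ h b = u})) ?_) ⟨?_, ?_⟩)
  · intro x y hxy
    have h : ρ (x⁻¹ * y) b = b := QuotientGroup.leftRel_apply.1 hxy
    apply Subtype.ext
    show ρ x b = ρ y b
    calc ρ x b = ρ x (ρ (x⁻¹ * y) b) := by rw [h]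
      _ = ρ y b := by rw [← Module.End.mul_apply, ← map_mul, mul_inv_cancel_left]
  · intro x y
    induction x using QuotientGroup.induction_on with | _ x =>
    induction y using QuotientGroup.induction_on with | _ y =>
    intro h
    apply QuotientGroup.eq.2
    have h' : ρ x b = ρ y b := congrArg Subtype.val h
    show ρ (x⁻¹ * y) b = b
    rw [map_mul, Module.End.mul_apply, ← h', ρ.inv_self_apply]
  · rintro ⟨u, h, rfl⟩
    exact ⟨QuotientGroup.mk h, rfl⟩

/-- The sum of the orbit of `a`. -/
noncomputable def orbitSum [Finite H] : V :=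
  letI := Fintype.ofFinite (H ⧸ vecStab ρ a)
  ∑ q : H ⧸ vecStab ρ a, ρ q.out a

theorem apply_out (h : H) (q : H ⧸ vecStab ρ a) : ρ h (ρ q.out a) = ρ (h • q).out a := by
  have e : (QuotientGroup.mk (h * q.out) : H ⧸ vecStab ρ a) = h • q := by
    conv_rhs => rw [← QuotientGroup.out_eq' q]
    rfl
  have h2 : ((h • q).out)⁻¹ * (h * q.out) ∈ vecStab ρ a := by
    apply QuotientGroup.eq.1
    rw [e, QuotientGroup.out_eq']
  have h3 : ρ (((h • q).out)⁻¹ * (h * q.out)) a = a := h2
  calc ρ h (ρ q.out a) = ρ (h * q.out) a := by rw [map_mul, Module.End.mul_apply]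
    _ = ρ (h • q).out (ρ (((h • q).out)⁻¹ * (h * q.out)) a) := by
        rw [← Module.End.mul_apply, ← map_mul, mul_inv_cancel_left]
    _ = _ := by rw [h3]

theorem apply_orbitSum [Finite H] (h : H) : ρ h (orbitSum ρ a) = orbitSum ρ a := by
  letI := Fintype.ofFinite (H ⧸ vecStab ρ a)
  rw [orbitSum, map_sum, Finset.sum_congr rfl fun q _ => apply_out ρ a h q]
  exact Fintype.sum_equiv (MulAction.toPerm h) _ _ fun q => rfl

theorem mem_span_orbitSum [Finite H] (hk0 : (Nat.card H : k) ≠ 0)
    (hspan : Submodule.span k {u : V | ∃ h : H, ρ h a = u} = ⊤) (b : V)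
    (hb : (Nat.card {u : V | ∃ h : H, ρ h a = u}).Coprime
      (Nat.card {u : V | ∃ h : H, ρ h b = u})) :
    b ∈ Submodule.span k {orbitSum ρ a} := by
  classical
  haveI : Fintype H := Fintype.ofFinite H
  letI : Fintype (H ⧸ vecStab ρ a) := Fintype.ofFinite _
  set A := vecStab ρ a with hA
  set B := vecStab ρ b with hB
  rw [card_orbit_eq, card_orbit_eq, ← hA, ← hB] at hb
  -- `B` is transitive on the cosets of `A`
  have hrel : A.relIndex B = A.index := by
    have h1 : A.relIndex B * B.index = (A ⊓ B).index := by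
      rw [← Subgroup.inf_relIndex_right, Subgroup.relIndex_mul_index inf_le_right]
    have h2 : A.index ∣ A.relIndex B * B.index := h1 ▸ Subgroup.index_dvd_of_le inf_le_left
    have h3 : A.index ∣ A.relIndex B := hb.dvd_of_dvd_mul_right h2
    refine le_antisymm ?_ (Nat.le_of_dvd (Nat.pos_of_ne_zero Subgroup.index_ne_zero_of_finite) h3)
    rw [← Subgroup.relIndex_top_right A]
    exact Subgroup.relIndex_le_of_le_right le_top (by
      rw [Subgroup.relIndex_top_right]; exact Subgroup.index_ne_zero_of_finite)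
  have htrans : ∀ q : H ⧸ A, ∃ g ∈ B, g • (QuotientGroup.mk (1 : H) : H ⧸ A) = q := by
    let j : B ⧸ A.subgroupOf B → H ⧸ A := Quotient.map' (fun g : B => (g : H)) fun x y h => by
      rw [QuotientGroup.leftRel_apply] at h ⊢
      exact h
    have hj : Function.Injective j := by
      intro x y
      induction x using QuotientGroup.induction_on with | _ x =>
      induction y using QuotientGroup.induction_on with | _ y =>
      intro h
      exact QuotientGroup.eq.2 (Subgroup.mem_subgroupOf.2
        (QuotientGroup.eq.1 (show (QuotientGroup.mk (x : H) : H ⧸ A) = QuotientGroup.mk (y : H) from h)))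
    have hbij := (Nat.bijective_iff_injective_and_card j).2 ⟨hj, hrel⟩
    intro q
    obtain ⟨x, rfl⟩ := hbij.2 q
    induction x using QuotientGroup.induction_on with | _ x =>
    exact ⟨x, x.2, (congrArg QuotientGroup.mk (mul_one (x : H)))⟩
  let T : (H ⧸ A → k) →ₗ[k] V := Fintype.linearCombination k fun q : H ⧸ A => ρ q.out a
  have hT : ∀ f : H ⧸ A → k, T f = ∑ q, f q • ρ q.out a := fun f => by
    simp [T, Fintype.linearCombination_apply]
  have hTsurj : Function.Surjective T := by
    rw [← LinearMap.range_eq_top, Fintype.range_linearCombination, eq_top_iff, ← hspan]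
    refine Submodule.span_le.2 ?_
    rintro u ⟨h, rfl⟩
    refine Submodule.subset_span ⟨QuotientGroup.mk h, ?_⟩
    show ρ (QuotientGroup.mk h : H ⧸ A).out a = ρ h a
    have h2 : ((QuotientGroup.mk h : H ⧸ A).out)⁻¹ * h ∈ A :=
      QuotientGroup.eq.1 (QuotientGroup.out_eq' _)
    have h3 : ρ (((QuotientGroup.mk h : H ⧸ A).out)⁻¹ * h) a = a := h2
    refine Eq.trans (congrArg (ρ _) h3.symm) ?_
    rw [← Module.End.mul_apply, ← map_mul, mul_inv_cancel_left]
  obtain ⟨s0, hs0⟩ := T.exists_rightInverse_of_surjective (LinearMap.range_eq_top.2 hTsurj)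
  have hs0' : ∀ v : V, T (s0 v) = v := fun v => LinearMap.congr_fun hs0 v
  let f : H ⧸ A → k := fun q => (Nat.card H : k)⁻¹ * ∑ h : H, s0 (ρ h⁻¹ b) (h⁻¹ • q)
  have hTf : T f = b := by
    rw [hT]
    simp only [f, mul_smul, Finset.sum_smul, Finset.smul_sum]
    rw [Finset.sum_comm]
    have e : ∀ h : H, ∑ q : H ⧸ A, (Nat.card H : k)⁻¹ • s0 (ρ h⁻¹ b) (h⁻¹ • q) • ρ q.out a =
        (Nat.card H : k)⁻¹ • b := by
      intro h
      rw [← Finset.smul_sum]
      congr 1
      calc ∑ q : H ⧸ A, s0 (ρ h⁻¹ b) (h⁻¹ • q) • ρ q.out a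
          = ∑ q : H ⧸ A, s0 (ρ h⁻¹ b) q • ρ (h • q).out a :=
            Fintype.sum_equiv (MulAction.toPerm h⁻¹) _ _ fun q => by simp
        _ = ρ h (∑ q : H ⧸ A, s0 (ρ h⁻¹ b) q • ρ q.out a) := by
            rw [map_sum]
            refine Finset.sum_congr rfl fun q _ => ?_
            rw [map_smul, apply_out ρ a h q]
        _ = b := by rw [← hT, hs0', ρ.self_inv_apply]
    rw [Finset.sum_congr rfl fun h _ => e h, Finset.sum_const, Finset.card_univ,
      ← Nat.card_eq_fintype_card, ← Nat.cast_smul_eq_nsmul k, smul_smul, mul_inv_cancel₀ hk0,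
      one_smul]
  have hfB : ∀ g ∈ B, ∀ q : H ⧸ A, f (g • q) = f q := by
    intro g hg q
    simp only [f]
    congr 1
    refine Fintype.sum_equiv (Equiv.mulLeft g⁻¹) _ _ fun h => ?_
    show s0 (ρ h⁻¹ b) (h⁻¹ • g • q) = s0 (ρ (g⁻¹ * h)⁻¹ b) ((g⁻¹ * h)⁻¹ • q)
    have hgb : ρ g b = b := hg
    rw [mul_inv_rev, inv_inv, map_mul, Module.End.mul_apply, hgb, smul_smul]
  set c := f (QuotientGroup.mk (1 : H)) with hc
  have hconst : ∀ q : H ⧸ A, f q = c := fun q => by
    obtain ⟨g, hg, rfl⟩ := htrans q
    exact hfB g hg _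
  refine Submodule.mem_span_singleton.2 ⟨c, ?_⟩
  rw [← hTf, hT, Finset.sum_congr rfl fun q _ => by rw [hconst q], ← Finset.smul_sum, orbitSum]
  congr!

/-- Let k be a field whose characteristic does not divide the order of the finite group H (for instance a field of characteristic zero), and ρ a k-linear representation of H on V. Let a be a vector whose H-orbit spans V. Then the space of H-fixed vectors has dimension at most 1, and every vector b whose H-orbit has size coprime to the size of the orbit of a is fixed by H. -/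
theorem result {k V H : Type*} [Field k] [AddCommGroup V] [Module k V] [Group H] [Finite H]
    (hchar : ¬ ringChar k ∣ Nat.card H) (ρ : Representation k H V) (a : V)
    (hspan : Submodule.span k {u : V | ∃ h : H, ρ h a = u} = ⊤) :
    Module.finrank k ρ.invariants ≤ 1 ∧
    ∀ b : V, (Nat.card {u : V | ∃ h : H, ρ h a = u}).Coprime (Nat.card {u : V | ∃ h : H, ρ h b = u}) → ∀ h : H, ρ h b = b := by
  
  classical
  have hk0 : (Nat.card H : k) ≠ 0 := fun h => hchar ((ringChar.spec k _).1 h)
  haveI : Fintype H := Fintype.ofFinite H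
  have main : ∀ b : V, (Nat.card {u : V | ∃ h : H, ρ h a = u}).Coprime
      (Nat.card {u : V | ∃ h : H, ρ h b = u}) → b ∈ Submodule.span k {orbitSum ρ a} :=
    fun b hb => mem_span_orbitSum ρ a hk0 hspan b hb
  have hinv : ∀ b ∈ Submodule.span k {orbitSum ρ a}, ∀ h : H, ρ h b = b := by
    intro b hb h
    obtain ⟨c, rfl⟩ := Submodule.mem_span_singleton.1 hb
    rw [map_smul, apply_orbitSum]
  refine ⟨?_, fun b hb => hinv b (main b hb)⟩
  have hle : ρ.invariants ≤ Submodule.span k {orbitSum ρ a} := by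
    intro b hb
    refine main b ?_
    have : {u : V | ∃ h : H, ρ h b = u} = {b} := by
      ext u
      simp only [Set.mem_ofPred_eq, Set.mem_singleton_iff, (Representation.mem_invariants ρ b).1 hb]
      exact ⟨fun ⟨_, e⟩ => e.symm, fun e => ⟨1, e.symm⟩⟩
    rw [this, Nat.card_coe_set_eq {b}, Set.ncard_singleton]
    exact Nat.coprime_one_right _
  refine (Submodule.finrank_mono hle).trans ?_
  exact (finrank_span_le_card {orbitSum ρ a}).trans (by simp)

end Cfsg.Agent.S4177
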