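import Cfsg.Statements.S4178
-- import your own Cfsg.Agent.* helpers here

set_option autoImplicit false
open Cfsg

namespace Cfsg.Agent.S4178

/-- Let F be a finite field with q elements, V a non-zero finite-dimensional F-space of dimension d, H a group of invertible linear maps of V, and R the subgroup of H generated by the elements of H that fix some non-zero vector (have eigenvalue 1). Then the index of R in H is at most q^d − 1; and if H leaves invariant some proper non-zero subspace, the index is at most q^(d/2) − 1. -/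
theorem result {F V : Type*} [Field F] [Fintype F] [AddCommGroup V] [Module F V] [FiniteDimensional F V] [Nontrivial V]
    (H : Subgroup (V ≃ₗ[F] V)) :
    (Subgroup.closure {h : ↥H | ∃ v : V, v ≠ 0 ∧ (h : V ≃ₗ[F] V) v = v}).index ≤ Fintype.card F ^ Module.finrank F V - 1 ∧
    ((∃ W : Submodule F V, W ≠ ⊥ ∧ W ≠ ⊤ ∧ ∀ h ∈ H, ∀ w ∈ W, h w ∈ W) →
      ((Subgroup.closure {h : ↥H | ∃ v : V, v ≠ 0 ∧ (h : V ≃ₗ[F] V) v = v}).index : ℝ) ≤ Real.sqrt ((Fintype.card F : ℝ) ^ Module.finrank F V) - 1) := by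
  
  classical
  haveI : Finite V := Module.finite_of_finite F
  haveI : Fintype V := Fintype.ofFinite V
  set R := Subgroup.closure {h : ↥H | ∃ v : V, v ≠ 0 ∧ (h : V ≃ₗ[F] V) v = v} with hR
  have key : ∀ {T : Type _} [Finite T] (φ : H → T),
      (∀ h₁ h₂, φ h₁ = φ h₂ → h₁⁻¹ * h₂ ∈ R) → R.index ≤ Nat.card T := by
    intro T _ φ hφ
    refine Nat.card_le_card_of_injective (fun q : H ⧸ R => φ q.out) fun q₁ q₂ h => ?_
    rw [← QuotientGroup.out_eq' q₁, ← QuotientGroup.out_eq' q₂]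
    exact QuotientGroup.eq.2 (hφ _ _ h)
  have hfix : ∀ (v : V), v ≠ 0 → ∀ h₁ h₂ : H, (h₁ : V ≃ₗ[F] V) v = (h₂ : V ≃ₗ[F] V) v →
      h₁⁻¹ * h₂ ∈ R := by
    intro v hv h₁ h₂ h
    refine Subgroup.subset_closure ⟨v, hv, ?_⟩
    rw [Subgroup.coe_mul, Subgroup.coe_inv, LinearEquiv.mul_apply, ← h]
    exact LinearEquiv.symm_apply_apply _ v
  have hcard : Nat.card V = Fintype.card F ^ Module.finrank F V := by
    rw [Module.natCard_eq_pow_finrank (K := F), Nat.card_eq_fintype_card]
  refine ⟨?_, ?_⟩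
  · obtain ⟨v, hv⟩ := exists_ne (0 : V)
    have h := key (T := {w : V // w ≠ 0}) (fun h => ⟨(h : V ≃ₗ[F] V) v,
      fun e => hv ((h : V ≃ₗ[F] V).map_eq_zero_iff.1 e)⟩)
      (fun h₁ h₂ e => hfix v hv h₁ h₂ (congrArg Subtype.val e))
    rwa [Nat.card_eq_fintype_card, Fintype.card_subtype_compl, Fintype.card_subtype_eq,
      ← Nat.card_eq_fintype_card, hcard] at h
  · rintro ⟨W, hW1, hW2, hW⟩
    obtain ⟨v, hvW, hv⟩ := Submodule.exists_mem_ne_zero_of_ne_bot hW1
    obtain ⟨u, -, hu⟩ := SetLike.exists_of_lt (lt_top_iff_ne_top.2 hW2)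
    have a : R.index + 1 ≤ Nat.card W := by
      have h := key (T := {w : W // w ≠ 0}) (fun h => ⟨⟨(h : V ≃ₗ[F] V) v, hW _ h.2 v hvW⟩,
        fun e => hv ((h : V ≃ₗ[F] V).map_eq_zero_iff.1 (congrArg Subtype.val e))⟩)
        (fun h₁ h₂ e => hfix v hv h₁ h₂ (congrArg (fun z : {w : W // w ≠ 0} => (z.1 : V)) e))
      rw [Nat.card_eq_fintype_card, Fintype.card_subtype_compl, Fintype.card_subtype_eq] at h
      have : 0 < Fintype.card W := Fintype.card_pos
      rw [Nat.card_eq_fintype_card]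
      omega
    have hinvW : ∀ h : H, ∀ w ∈ W, (h : V ≃ₗ[F] V).symm w ∈ W := fun h w hw =>
      hW _ (H.inv_mem h.2) w hw
    have hquot : ∀ h₁ h₂ : H, (h₁ : V ≃ₗ[F] V) u - (h₂ : V ≃ₗ[F] V) u ∈ W →
        h₁⁻¹ * h₂ ∈ R := by
      intro h₁ h₂ hd
      set g := h₁⁻¹ * h₂ with hg
      have hgu : (g : V ≃ₗ[F] V) u - u ∈ W := by
        have h3 := W.neg_mem (hinvW h₁ _ hd)
        rw [map_sub, LinearEquiv.symm_apply_apply, neg_sub] at h3
        exact h3
      by_contra hnot
      -- `g - 1` is injective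
      have hinj : ∀ w : V, (g : V ≃ₗ[F] V) w = w → w = 0 := fun w hw => by
        by_contra hw0
        exact hnot (Subgroup.subset_closure ⟨w, hw0, hw⟩)
      let D : W → W := fun w => ⟨(g : V ≃ₗ[F] V) (w : V) - (w : V),
        W.sub_mem (hW _ g.2 w w.2) w.2⟩
      have hD : Function.Injective D := fun w w' e => by
        have e' : (g : V ≃ₗ[F] V) (w : V) - (w : V) = (g : V ≃ₗ[F] V) (w' : V) - (w' : V) :=
          congrArg Subtype.val e
        refine Subtype.ext (sub_eq_zero.1 (hinj _ ?_))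
        rw [map_sub]
        exact sub_eq_sub_iff_sub_eq_sub.1 e'
      obtain ⟨w, hw⟩ := (Finite.injective_iff_surjective.1 hD) ⟨_, hgu⟩
      have e' : (g : V ≃ₗ[F] V) (w : V) - (w : V) = (g : V ≃ₗ[F] V) u - u :=
        congrArg Subtype.val hw
      have h0 := hinj (u - (w : V)) (by
        rw [map_sub]
        exact sub_eq_sub_iff_sub_eq_sub.1 e'.symm)
      exact hu (sub_eq_zero.1 h0 ▸ w.2)
    haveI : Fintype (V ⧸ W) := Fintype.ofFinite _
    have b : R.index + 1 ≤ Nat.card (V ⧸ W) := by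
      have h := key (T := {x : V ⧸ W // x ≠ 0})
        (fun h => ⟨Submodule.Quotient.mk ((h : V ≃ₗ[F] V) u), fun e => hu (by
          have := hinvW h _ ((Submodule.Quotient.mk_eq_zero W).1 e)
          rwa [LinearEquiv.symm_apply_apply] at this)⟩)
        (fun h₁ h₂ e => hquot h₁ h₂
          ((Submodule.Quotient.eq W).1 (congrArg Subtype.val e)))
      rw [Nat.card_eq_fintype_card, Fintype.card_subtype_compl, Fintype.card_subtype_eq] at h
      have : 0 < Fintype.card (V ⧸ W) := Fintype.card_pos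
      rw [Nat.card_eq_fintype_card]
      omega
    have hprod : Nat.card W * Nat.card (V ⧸ W) = Nat.card V := by
      exact (Submodule.card_eq_card_quotient_mul_card W).symm
    have hsq : ((R.index : ℝ) + 1) ^ 2 ≤ (Fintype.card F : ℝ) ^ Module.finrank F V := by
      rw [pow_two]
      exact_mod_cast hcard ▸ hprod ▸ Nat.mul_le_mul a b
    have := Real.le_sqrt_of_sq_le hsq
    linarith

end Cfsg.Agent.S4178
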