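import Cfsg.Statements.S4181
import Cfsg.Agent.SylowCount.FixRatio

set_option autoImplicit false
open Cfsg

namespace Cfsg.Agent.S4181

open CfsgLib.SylowCount in
open scoped Classical Pointwise in
/-- Let p be a prime and G a finite group generated by its elements of p-power order, and let H be a proper subgroup of G containing a Sylow p-subgroup of G. Then 2p − 1 times the number of Sylow p-subgroups of H is at most p − 1 times the number of Sylow p-subgroups of G. -/
theorem result {G : Type*} [Group G] [Finite G] (p : ℕ) [Fact p.Prime] (hgen : Subgroup.closure {g : G | ∃ k : ℕ, orderOf g = p ^ k} = ⊤)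
    (H : Subgroup G) (hH : H ≠ ⊤) (P : Sylow p G) (hP : (P : Subgroup G) ≤ H) :
    (2 * p - 1) * Nat.card (Sylow p ↥H) ≤ (p - 1) * Nat.card (Sylow p G) := by
  haveI : Fintype (G ⧸ H) := Fintype.ofFinite _
  haveI : Fintype (Sylow p G) := Fintype.ofFinite _
  have hmoved : ∀ x : G ⧸ H, MulAction.stabilizer G x ≠ ⊤ := by
    intro x hx
    refine hH (top_le_iff.mp fun g _ => ?_)
    obtain ⟨a, rfl⟩ := QuotientGroup.mk_surjective x
    have h := MulAction.mem_stabilizer_iff.mp (hx ▸ Subgroup.mem_top (a * g * a⁻¹))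
    rw [MulAction.Quotient.smul_mk, smul_eq_mul] at h
    have h2 := QuotientGroup.eq.mp h
    simpa using inv_mem (by simpa [mul_assoc] using h2 : g⁻¹ ∈ H)
  set f := (Finset.univ.filter (fun x : G ⧸ H => (P : Subgroup G) ≤ MulAction.stabilizer G x)).card
    with hf
  have key : (2 * p - 1) * f ≤ (p - 1) * Fintype.card (G ⧸ H) := fix_ratio hgen hmoved P
  let T : G ⧸ H → Finset (Sylow p G) := fun x =>
    Finset.univ.filter (fun R : Sylow p G => (R : Subgroup G) ≤ MulAction.stabilizer G x)
  have hcount : ∑ x : G ⧸ H, (T x).card = Fintype.card (Sylow p G) * f := by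
    simp only [T, Finset.card_filter]
    rw [Finset.sum_comm, Finset.sum_congr rfl (fun R _ => ?_), Finset.sum_const, Finset.card_univ,
      smul_eq_mul]
    rw [hf, ← Finset.card_filter]
    obtain ⟨m, rfl⟩ := MulAction.exists_smul_eq G P R
    refine Finset.card_nbij' (fun x => m⁻¹ • x) (fun x => m • x) ?_ ?_
      (fun x _ => smul_inv_smul m x) (fun x _ => inv_smul_smul m x)
    · intro x hx
      simp only [Finset.coe_filter, Finset.mem_univ, true_and, Set.mem_ofPred_eq] at hx ⊢
      intro g hg
      have hmem : m * g * m⁻¹ ∈ ((m • P : Sylow p G) : Subgroup G) := by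
        rw [Sylow.coe_subgroup_smul, Subgroup.pointwise_smul_def]
        exact ⟨g, hg, rfl⟩
      have h3 := MulAction.mem_stabilizer_iff.mp (hx hmem)
      rw [MulAction.mem_stabilizer_iff, ← mul_smul]
      rw [mul_smul, mul_smul, smul_eq_iff_eq_inv_smul] at h3
      rw [mul_smul, h3]
    · intro x hx
      simp only [Finset.coe_filter, Finset.mem_univ, true_and, Set.mem_ofPred_eq] at hx ⊢
      rw [Sylow.coe_subgroup_smul, Subgroup.pointwise_smul_def,
        MulAction.stabilizer_smul_eq_stabilizer_map_conj]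
      exact Subgroup.map_mono hx
  have hlow : ∀ x : G ⧸ H, Nat.card (Sylow p ↥H) ≤ (T x).card := by
    intro x
    obtain ⟨a, rfl⟩ := QuotientGroup.mk_surjective x
    have hR : ∀ Q : Sylow p ↥H, ∃ R : Sylow p G, (R : Subgroup G) = (Q : Subgroup ↥H).map H.subtype := by
      intro Q
      obtain ⟨R, hR⟩ := (Q.isPGroup'.map H.subtype).exists_le_sylow
      refine ⟨R, (Subgroup.eq_of_le_of_card_ge hR (le_of_eq ?_)).symm⟩
      rw [Subgroup.card_map_of_injective H.subtype_injective,
        Nat.card_congr (Sylow.equiv R P).toEquiv, Nat.card_congr (Sylow.equiv Q (P.subtype hP)).toEquiv]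
      exact (Nat.card_congr (Subgroup.subgroupOfEquivOfLe hP).toEquiv).symm
    choose R hR using hR
    haveI : Fintype (Sylow p ↥H) := Fintype.ofFinite _
    rw [Nat.card_eq_fintype_card]
    refine Finset.card_le_card_of_injOn (fun Q => a • R Q) (fun Q _ => ?_) ?_
    · simp only [T, Finset.coe_filter, Finset.mem_univ, true_and, Set.mem_ofPred_eq]
      rw [Sylow.coe_subgroup_smul, Subgroup.pointwise_smul_def, hR]
      rintro _ ⟨_, ⟨q, hq, rfl⟩, rfl⟩
      rw [MulAction.mem_stabilizer_iff, MulAction.Quotient.smul_mk]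
      refine QuotientGroup.eq.mpr ?_
      show (a * (q : G) * a⁻¹ * a)⁻¹ * a ∈ H
      simp [mul_assoc]
    · intro Q _ Q' _ h
      have h' : R Q = R Q' := MulAction.injective a h
      refine Sylow.ext (Subgroup.map_injective H.subtype_injective ?_)
      rw [← hR Q, ← hR Q', h']
  have hsum : Fintype.card (G ⧸ H) * Nat.card (Sylow p ↥H) ≤ Fintype.card (Sylow p G) * f := by
    rw [← hcount, ← Finset.card_univ]
    simpa using Finset.card_nsmul_le_sum Finset.univ (fun x => (T x).card) _ (fun x _ => hlow x)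
  rw [Nat.card_eq_fintype_card (α := Sylow p G)]
  refine Nat.le_of_mul_le_mul_left ?_ (Fintype.card_pos (α := G ⧸ H))
  calc Fintype.card (G ⧸ H) * ((2 * p - 1) * Nat.card (Sylow p ↥H))
      ≤ (2 * p - 1) * (Fintype.card (Sylow p G) * f) := by
        rw [Nat.mul_left_comm]; exact Nat.mul_le_mul_left _ hsum
    _ = Fintype.card (Sylow p G) * ((2 * p - 1) * f) := by ring
    _ ≤ Fintype.card (Sylow p G) * ((p - 1) * Fintype.card (G ⧸ H)) := Nat.mul_le_mul_left _ key
    _ = Fintype.card (G ⧸ H) * ((p - 1) * Fintype.card (Sylow p G)) := by ring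

end Cfsg.Agent.S4181
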