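import Cfsg.Statements.S4182

set_option autoImplicit false
open Cfsg

namespace Cfsg.Agent.S4182

theorem gen_map {G : Type*} [Group G] {p : ℕ} (S : Subgroup G) (g : G)
    (hS : Subgroup.closure {x : S | ∃ k : ℕ, orderOf x = p ^ k} = ⊤) :
    Subgroup.closure {x : S.map (MulAut.conj g).toMonoidHom | ∃ k : ℕ, orderOf x = p ^ k} = ⊤ := by
  let e : S ≃* S.map (MulAut.conj g).toMonoidHom :=
    S.equivMapOfInjective (MulAut.conj g).toMonoidHom (MulAut.conj g).injective
  rw [eq_top_iff]
  intro y _
  obtain ⟨x, rfl⟩ := e.surjective y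
  have hx : x ∈ Subgroup.closure {x : S | ∃ k : ℕ, orderOf x = p ^ k} := hS ▸ Subgroup.mem_top x
  induction hx using Subgroup.closure_induction with
  | mem z hz =>
    obtain ⟨k, hk⟩ := hz
    exact Subgroup.subset_closure ⟨k, (MulEquiv.orderOf_eq e z).trans hk⟩
  | one => rw [map_one]; exact one_mem _
  | mul a b _ _ ha hb => rw [map_mul]; exact mul_mem (ha trivial) (hb trivial)
  | inv a _ ha => rw [map_inv]; exact inv_mem (ha trivial)

theorem map_conj_ne_top {G : Type*} [Group G] {S : Subgroup G} (g : G) (hS : S ≠ ⊤) :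
    S.map (MulAut.conj g).toMonoidHom ≠ ⊤ := fun h =>
  hS (Subgroup.map_injective (f := (MulAut.conj g).toMonoidHom) (MulAut.conj g).injective
    (h.trans (Subgroup.map_top_of_surjective _ (MulAut.conj g).surjective).symm))

theorem covered_bound {p : ℕ} [Fact p.Prime] {ι : Type*} [Fintype ι] (c : ℕ) :
    ∀ (G : Type*) [Group G] [Finite G], Nat.card G = c →
      Subgroup.closure {g : G | ∃ k : ℕ, orderOf g = p ^ k} = ⊤ →
      ∀ K : ι → Subgroup G, (∀ i, K i ≠ ⊤) →
      (∀ g : G, (∃ k : ℕ, orderOf g = p ^ k) → ∃ i, g ∈ K i) → p + 1 ≤ Fintype.card ι := by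
  induction c using Nat.strong_induction_on with
  | _ c ih =>
  intro G _ _ hc hgen K hK hcov
  classical
  by_contra hlt
  have hp := (Fact.out : p.Prime)
  have hle : Fintype.card ι ≤ p := by omega
  -- a proper subgroup generated by `p`-elements lies in one of the given ones
  have hin : ∀ H : Subgroup G, H ≠ ⊤ →
      Subgroup.closure {g : H | ∃ k : ℕ, orderOf g = p ^ k} = ⊤ → ∃ i, H ≤ K i := by
    intro H hH hHgen
    by_contra hno
    push Not at hno
    have hcard : Nat.card H < c := hc ▸ lt_of_le_of_ne (Subgroup.card_le_card_group H)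
      fun he => hH (Subgroup.eq_top_of_card_eq H he)
    refine hlt (ih _ hcard H rfl hHgen (fun i => (K i).subgroupOf H) (fun i he => ?_) fun g hg => ?_)
    · exact hno i (Subgroup.subgroupOf_eq_top.mp he)
    · obtain ⟨k, hk⟩ := hg
      exact hcov g ⟨k, by rw [Subgroup.orderOf_coe, hk]⟩
  -- the subgroup generated by the `p`-elements of `K i`
  let M : ι → Subgroup G := fun i => Subgroup.closure {g : G | g ∈ K i ∧ ∃ k : ℕ, orderOf g = p ^ k}
  have hMK : ∀ i, M i ≤ K i := fun i => (Subgroup.closure_le _).mpr fun g hg => hg.1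
  have hMgen : ∀ i, Subgroup.closure {g : M i | ∃ k : ℕ, orderOf g = p ^ k} = ⊤ := by
    intro i
    rw [eq_top_iff]
    rintro ⟨x, hx⟩ -
    induction hx using Subgroup.closure_induction with
    | mem g hg =>
      obtain ⟨-, k, hk⟩ := id hg
      exact Subgroup.subset_closure ⟨k, by rw [← hk, ← Subgroup.orderOf_coe]⟩
    | one => exact one_mem _
    | mul a b _ _ ha hb => exact mul_mem ha hb
    | inv a _ ha => exact inv_mem ha
  -- a maximal one through a Sylow subgroup
  obtain ⟨P⟩ : Nonempty (Sylow p G) := inferInstance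
  have hsub : ∀ Q : Sylow p G, ∀ g ∈ (Q : Subgroup G), ∃ k : ℕ, orderOf g = p ^ k := by
    intro Q g hg
    obtain ⟨k, hk⟩ := IsPGroup.iff_orderOf.mp Q.2 ⟨g, hg⟩
    exact ⟨k, by rw [← hk, ← Subgroup.orderOf_coe]⟩
  have hPgen : Subgroup.closure {g : (P : Subgroup G) | ∃ k : ℕ, orderOf g = p ^ k} = ⊤ := by
    rw [eq_top_iff]
    intro g _
    exact Subgroup.subset_closure (IsPGroup.iff_orderOf.mp P.2 g)
  -- the group is not a `p`-group
  have hPtop : (P : Subgroup G) ≠ ⊤ := by
    intro htop
    have hG : IsPGroup p G := fun g => by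
      obtain ⟨k, hk⟩ := hsub P g (htop ▸ Subgroup.mem_top g)
      exact ⟨k, by rw [← hk, pow_orderOf_eq_one]⟩
    obtain ⟨n, hn⟩ := IsPGroup.iff_card.mp hG
    -- each proper subgroup has index at least `p`
    have hbound : ∀ i, p * Nat.card (K i) ≤ Nat.card G := by
      intro i
      obtain ⟨j, hj⟩ := hG.index (K i)
      rw [← (K i).card_mul_index, mul_comm, hj]
      refine Nat.mul_le_mul_left _ ?_
      refine Nat.le_of_dvd (pow_pos hp.pos j) (dvd_pow_self p ?_)
      rintro rfl
      exact hK i (Subgroup.index_eq_one.mp (by rw [hj, pow_zero]))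
    letI : Fintype G := Fintype.ofFinite G
    have hcover : (Finset.univ : Finset G).erase 1 ⊆
        Finset.univ.biUnion fun i => (Finset.univ.filter fun g => g ∈ K i).erase 1 := by
      intro g hg
      obtain ⟨i, hi⟩ := hcov g (hsub P g (htop ▸ Subgroup.mem_top g))
      simp only [Finset.mem_biUnion, Finset.mem_univ, Finset.mem_erase, true_and]
      exact ⟨i, Finset.ne_of_mem_erase hg, Finset.mem_filter.mpr ⟨Finset.mem_univ g, hi⟩⟩
    have h1 := (Finset.card_le_card hcover).trans Finset.card_biUnion_le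
    rw [Finset.card_erase_of_mem (Finset.mem_univ _), Finset.card_univ, ← Nat.card_eq_fintype_card] at h1
    have h2 : ∀ i : ι, ((Finset.univ.filter fun g => g ∈ K i).erase (1 : G)).card = Nat.card (K i) - 1 := by
      intro i
      rw [Finset.card_erase_of_mem (by simp [one_mem]), ← Fintype.card_subtype, ← Nat.card_eq_fintype_card]
    simp only [h2] at h1
    have h3 : p * ∑ i, (Nat.card (K i) - 1) ≤ Fintype.card ι * (Nat.card G - p) := by
      rw [Finset.mul_sum, ← smul_eq_mul, ← Finset.card_univ, ← Finset.sum_const]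
      refine Finset.sum_le_sum fun i _ => ?_
      rw [Nat.mul_sub, mul_one]
      exact Nat.sub_le_sub_right (hbound i) p
    have h4 : p * (Nat.card G - 1) ≤ p * (Nat.card G - p) :=
      (Nat.mul_le_mul_left p h1).trans (h3.trans (Nat.mul_le_mul_right _ hle))
    have h5 := Nat.le_of_mul_le_mul_left h4 hp.pos
    have := hp.two_le
    obtain ⟨i, -⟩ := hcov 1 ⟨0, by simp⟩
    have h6 := hbound i
    have h7 := (Nat.card_pos : 0 < Nat.card (K i))
    have h8 : p ≤ Nat.card G := le_trans (Nat.le_mul_of_pos_right p h7) h6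
    omega
  obtain ⟨i₁, hi₁⟩ := hin _ hPtop hPgen
  have hne : ({i | (P : Subgroup G) ≤ M i} : Set ι).Nonempty := ⟨i₁, fun g hg =>
    Subgroup.subset_closure ⟨hi₁ hg, hsub P g hg⟩⟩
  obtain ⟨i₀, hi₀, hmax⟩ := Set.exists_max_image {i | (P : Subgroup G) ≤ M i}
    (fun i => Nat.card (M i)) (Set.toFinite _) hne
  -- conjugates of a maximal one are among the `M i`
  have hconjM : ∀ g : G, ∃ j, (M i₀).map (MulAut.conj g).toMonoidHom = M j := by
    intro g
    set H := (M i₀).map (MulAut.conj g).toMonoidHom with hH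
    have hMne : M i₀ ≠ ⊤ := fun h => hK i₀ (top_le_iff.mp (h ▸ hMK i₀))
    have hHne : H ≠ ⊤ := map_conj_ne_top g hMne
    have hHgen : Subgroup.closure {x : H | ∃ k : ℕ, orderOf x = p ^ k} = ⊤ := gen_map _ g (hMgen i₀)
    obtain ⟨j, hj⟩ := hin H hHne hHgen
    have hle' : H ≤ M j := by
      intro x hx
      have hx' : (⟨x, hx⟩ : H) ∈ Subgroup.closure {x : H | ∃ k : ℕ, orderOf x = p ^ k} :=
        hHgen ▸ Subgroup.mem_top _
      have hle2 : (Subgroup.closure {x : H | ∃ k : ℕ, orderOf x = p ^ k}).map H.subtype ≤ M j := by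
        rw [MonoidHom.map_closure, Subgroup.closure_le]
        rintro _ ⟨y, ⟨k, hk⟩, rfl⟩
        exact Subgroup.subset_closure ⟨hj y.2, k, hk ▸ Subgroup.orderOf_coe y⟩
      exact hle2 ⟨_, hx', rfl⟩
    refine ⟨j, Subgroup.eq_of_le_of_card_ge hle' ?_⟩
    rw [hH, Subgroup.card_map_of_injective (f := (MulAut.conj g).toMonoidHom) (MulAut.conj g).injective]
    -- pull `M j` back so that it contains `P`
    set H' := (M j).map (MulAut.conj g⁻¹).toMonoidHom with hH'
    have hPH : (P : Subgroup G) ≤ H' := by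
      intro x hx
      refine ⟨(MulAut.conj g) x, hle' ⟨x, hi₀ hx, rfl⟩, ?_⟩
      simp [mul_assoc]
    have hH'ne : H' ≠ ⊤ := map_conj_ne_top g⁻¹ fun h => hK j (top_le_iff.mp (h ▸ hMK j))
    have hH'gen : Subgroup.closure {x : H' | ∃ k : ℕ, orderOf x = p ^ k} = ⊤ := gen_map _ g⁻¹ (hMgen j)
    obtain ⟨l, hl⟩ := hin H' hH'ne hH'gen
    have hH'M : H' ≤ M l := by
      rw [hH', Subgroup.map_le_iff_le_comap, Subgroup.closure_le]
      rintro y ⟨hy, k, hk⟩
      rw [SetLike.mem_coe, Subgroup.mem_comap]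
      exact Subgroup.subset_closure ⟨hl ⟨y, Subgroup.subset_closure ⟨hy, k, hk⟩, rfl⟩, k,
        (MulEquiv.orderOf_eq (MulAut.conj g⁻¹) y).trans hk⟩
    have h := hmax l (hPH.trans hH'M)
    have h' := Subgroup.card_le_of_le hH'M
    rw [hH', Subgroup.card_map_of_injective (f := (MulAut.conj g⁻¹).toMonoidHom) (MulAut.conj g⁻¹).injective] at h'
    -- all cardinalities agree
    calc Nat.card (M j) ≤ Nat.card (M l) := h'
      _ ≤ Nat.card (M i₀) := h
  -- so the normalizer has small index
  set N := Subgroup.normalizer (M i₀ : Set G) with hN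
  have hMN : M i₀ ≤ N := Subgroup.le_normalizer
  have hNle : N.index ≤ Fintype.card ι := by
    rw [Subgroup.index_eq_card, ← Nat.card_eq_fintype_card (α := ι)]
    choose f hf using hconjM
    refine Nat.card_le_card_of_injective (fun q : G ⧸ N => f q.out) fun a b hab => ?_
    have h := (hf a.out).trans ((congrArg M hab).trans (hf b.out).symm)
    refine (QuotientGroup.out_eq' a).symm.trans (Eq.trans ?_ (QuotientGroup.out_eq' b))
    rw [QuotientGroup.eq]
    refine Subgroup.mem_normalizer_iff_map_conj_eq.mpr ?_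
    apply Subgroup.map_injective (f := (MulAut.conj a.out).toMonoidHom) (MulAut.conj a.out).injective
    rw [Subgroup.map_map, h]
    congr 1
    ext x
    simp [mul_assoc]
  have hcop : ¬ p ∣ N.index := fun h =>
    P.not_dvd_index (h.trans (Subgroup.index_dvd_of_le (hi₀.trans hMN)))
  have hlt' : N.index < p := by
    rcases Nat.lt_or_ge N.index p with h | h
    · exact h
    · exact absurd (dvd_of_eq (le_antisymm (hNle.trans hle) h).symm) hcop
  -- every Sylow subgroup normalizes it
  have hall : N = ⊤ := by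
    refine top_le_iff.mp (hgen ▸ (Subgroup.closure_le N).mpr ?_)
    rintro y ⟨k, hy⟩
    have hZ : IsPGroup p (Subgroup.zpowers y) := IsPGroup.of_card (n := k) (by rw [Nat.card_zpowers, hy])
    have hfix : ∀ q : G ⧸ N, (⟨y, Subgroup.mem_zpowers y⟩ : Subgroup.zpowers y) • q = q := by
      intro q
      have horb := hZ.card_orbit q
      obtain ⟨j, hj⟩ := horb
      have hj0 : j = 0 := by
        by_contra hj0
        have h1 : Nat.card (MulAction.orbit (Subgroup.zpowers y) q) ≤ N.index := by
          rw [Nat.card_coe_set_eq, Subgroup.index_eq_card, ← Set.ncard_univ]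
          exact Set.ncard_le_ncard (Set.subset_univ _)
        rw [hj] at h1
        have := Nat.le_of_dvd (pow_pos hp.pos j) (dvd_pow_self p hj0)
        omega
      rw [hj0, pow_zero, Nat.card_coe_set_eq, Set.ncard_eq_one] at hj
      obtain ⟨r, hr⟩ := hj
      have h1 : (⟨y, Subgroup.mem_zpowers y⟩ : Subgroup.zpowers y) • q ∈ ({r} : Set (G ⧸ N)) :=
        hr ▸ MulAction.mem_orbit q _
      have h2 : q ∈ ({r} : Set (G ⧸ N)) := hr ▸ MulAction.mem_orbit_self q
      exact h1.trans h2.symm
    have h := hfix (QuotientGroup.mk 1)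
    have h' : (QuotientGroup.mk (y * 1) : G ⧸ N) = QuotientGroup.mk 1 := h
    rw [mul_one, QuotientGroup.eq] at h'
    simpa using inv_mem h'
  -- then it contains all Sylow subgroups
  have hnorm : (M i₀).Normal := Subgroup.normalizer_eq_top_iff.mp hall
  have htop : M i₀ = ⊤ := by
    refine top_le_iff.mp (hgen ▸ (Subgroup.closure_le (M i₀)).mpr ?_)
    rintro y ⟨k, hy⟩
    have hZ : IsPGroup p (Subgroup.zpowers y) := IsPGroup.of_card (n := k) (by rw [Nat.card_zpowers, hy])
    obtain ⟨Q, hQ⟩ := hZ.exists_le_sylow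
    obtain ⟨g, hg⟩ := MulAction.exists_smul_eq G P Q
    have hy' : y ∈ (Q : Subgroup G) := hQ (Subgroup.mem_zpowers y)
    rw [← hg, Sylow.coe_subgroup_smul, Subgroup.mem_pointwise_smul_iff_inv_smul_mem] at hy'
    have := hnorm.conj_mem _ (hi₀ hy') g
    simpa [MulAut.smul_def, mul_assoc] using this
  exact hK i₀ (top_le_iff.mp (htop ▸ hMK i₀))


/-- Let p be a prime and G a finite group generated by its p-elements. If a finite family of proper subgroups of G covers the set of p-elements of G (every element of p-power order lies in one of them), then the family has at least p + 1 members. -/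
theorem result {G : Type*} [Group G] [Finite G] (p : ℕ) [Fact p.Prime] (hgen : Subgroup.closure {g : G | ∃ k : ℕ, orderOf g = p ^ k} = ⊤)
    {ι : Type*} [Fintype ι] (K : ι → Subgroup G) (hK : ∀ i, K i ≠ ⊤)
    (hcov : ∀ g : G, (∃ k : ℕ, orderOf g = p ^ k) → ∃ i, g ∈ K i) :
    p + 1 ≤ Fintype.card ι := by
  exact covered_bound (Nat.card G) G rfl hgen K hK hcov

end Cfsg.Agent.S4182
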