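import Cfsg.Statements.S4184
import Mathlib.GroupTheory.Sylow
import Mathlib.GroupTheory.Perm.Cycle.Type
import Mathlib.GroupTheory.PGroup
import Mathlib.Data.Nat.Factorization.Basic

set_option autoImplicit false
set_option linter.style.haveILetI false
open Cfsg

namespace Cfsg.Agent.S4184

/-- The size of the class of `x`. -/
private noncomputable def cls {H : Type*} [Group H] (x : H) : ℕ :=
  (Subgroup.centralizer ({x} : Set H)).index

/-- `n` contains the whole `r`-part of `m` for every prime `r` of `S`. -/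
private def Full (m : ℕ) (S : Set ℕ) (n : ℕ) : Prop :=
  ∀ r ∈ S, m.factorization r ≤ n.factorization r

private theorem cls_ne_zero {H : Type*} [Group H] [Finite H] (x : H) : cls x ≠ 0 :=
  Subgroup.index_ne_zero_of_finite

private theorem cls_dvd {H : Type*} [Group H] [Finite H] {x y : H}
    (h : Subgroup.centralizer ({y} : Set H) ≤ Subgroup.centralizer ({x} : Set H)) : cls x ∣ cls y :=
  Subgroup.index_dvd_of_le h

/-- For commuting elements of coprime orders the centraliser of the product is in both. -/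
private theorem centralizer_mul_le {H : Type*} [Group H] [Finite H] {x y : H} (hc : Commute x y)
    (hxy : (orderOf x).Coprime (orderOf y)) :
    Subgroup.centralizer ({x * y} : Set H) ≤ Subgroup.centralizer ({x} : Set H) ∧
      Subgroup.centralizer ({x * y} : Set H) ≤ Subgroup.centralizer ({y} : Set H) := by
  have key : ∀ a b : H, Commute a b → (orderOf a).Coprime (orderOf b) →
      Subgroup.centralizer ({a * b} : Set H) ≤ Subgroup.centralizer ({a} : Set H) := by
    intro a b hab hcop c hc'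
    obtain ⟨k, hk⟩ := exists_pow_eq_self_of_coprime (n := orderOf b) (x := a) hcop.symm
    have h1 : a = (a * b) ^ (orderOf b * k) := by
      rw [hab.mul_pow, pow_mul, pow_mul, pow_orderOf_eq_one, one_pow, mul_one, hk]
    rw [Subgroup.mem_centralizer_singleton_iff] at hc' ⊢
    rw [h1]
    exact ((show Commute c (a * b) from hc').pow_right _).eq
  refine ⟨key x y hc hxy, ?_⟩
  rw [hc.eq]
  exact key y x hc.symm hxy.symm

/-- The part of a class size at a prime not dividing the centraliser order. -/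
private theorem factorization_cls {H : Type*} [Group H] [Finite H] {r : ℕ} {x : H}
    (h : ¬ r ∣ Nat.card (Subgroup.centralizer ({x} : Set H))) :
    (cls x).factorization r = (Nat.card H).factorization r := by
  have hm := (Subgroup.centralizer ({x} : Set H)).card_mul_index
  rw [← hm, Nat.factorization_mul Nat.card_pos.ne' Subgroup.index_ne_zero_of_finite, Finsupp.add_apply,
    Nat.factorization_eq_zero_of_not_dvd h, zero_add]
  rfl

/-- An element of order prime to the given set misses the classes of full size for it. -/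
private theorem full_of_prime {H : Type*} [Group H] [Finite H] {A B : Set ℕ}
    (hA : ∀ r ∈ A, r.Prime) (hB : ∀ r ∈ B, r.Prime) (hAB : ∀ r ∈ A, r ∉ B)
    (hno : ∀ a ∈ A, ∀ b ∈ B, ¬ ∃ x : H, orderOf x = a * b) {x : H} {s : ℕ} (hs : s ∈ A)
    (hsx : s ∣ orderOf x) : Full (Nat.card H) B (cls x) := by
  intro r hr
  refine (factorization_cls fun hd => ?_).ge
  haveI := Fact.mk (hB r hr)
  obtain ⟨c, hc⟩ := exists_prime_orderOf_dvd_card' r hd
  set y := x ^ (orderOf x / s) with hy
  have hyo : orderOf y = s := orderOf_pow_orderOf_div (orderOf_pos x).ne' hsx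
  refine hno s hs r hr ⟨y * c, ?_⟩
  have hcx : Commute x (c : H) :=
    (Subgroup.mem_centralizer_singleton_iff.mp c.2).symm
  rw [(hcx.pow_left _).orderOf_mul_eq_mul_orderOf_of_coprime, hyo, Subgroup.orderOf_coe, hc]
  rw [hyo, Subgroup.orderOf_coe, hc]
  exact (Nat.coprime_primes (hA s hs) (hB r hr)).mpr fun e => hAB s hs (e ▸ hr)

set_option linter.unusedVariables false in
/-- No class size of `G` exceeds the lcm: the contradiction from an excess prime `p`. -/
private theorem no_excess {G : Type*} [Group G] [Finite G] (hZ : Subgroup.center G = ⊥) {m : ℕ}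
    (hm : m ≠ 0) {A B : Set ℕ}
    (hdvd : ∀ x : G, cls x ∣ m)
    (hboth : ∀ x : G, Full m A (cls x) → ¬ Full m B (cls x))
    (hone : ∀ x : G, x ≠ 1 → Full m A (cls x) ∨ Full m B (cls x))
    (hout : ∀ r : ℕ, r ∉ A → r ∉ B → m.factorization r = 0)
    (hmG : m ∣ Nat.card G) (hBp : ∀ r ∈ B, r.Prime) (hBne : ∃ r ∈ B, r ∣ m)
    {p : ℕ} [hp : Fact p.Prime] (hex : m.factorization p < (Nat.card G).factorization p)
    (P : Sylow p G) {z : G} (hzP : z ∈ (P : Subgroup G)) (hzc : ∀ x ∈ (P : Subgroup G), x * z = z * x)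
    (hzA : Full m B (cls z)) : False := by
  have hz0 : (cls z).factorization p = 0 := Nat.factorization_eq_zero_of_not_dvd fun hd =>
    P.not_dvd_index (hd.trans (Subgroup.index_dvd_of_le fun x hx =>
      Subgroup.mem_centralizer_singleton_iff.mpr (hzc x hx)))
  have hpA : p ∉ A → m.factorization p = 0 := fun hpA => by
    by_cases hpB : p ∈ B
    · have := hzA p hpB
      omega
    · exact hout p hpA hpB
  obtain ⟨q, hqB, hqm⟩ := hBne
  haveI := Fact.mk (hBp q hqB)
  let Q : Sylow q G := default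
  have hQne : (Q : Subgroup G) ≠ ⊥ := Q.ne_bot_of_dvd_card (hqm.trans hmG)
  haveI : Nontrivial (Q : Subgroup G) := (Subgroup.nontrivial_iff_ne_bot _).mpr hQne
  haveI := IsPGroup.center_nontrivial (p := q) (G := (Q : Subgroup G)) Q.isPGroup'
  obtain ⟨w', hw'⟩ := exists_ne (1 : Subgroup.center (Q : Subgroup G))
  set w : G := ((w' : (Q : Subgroup G)) : G) with hw
  have hw1 : w ≠ 1 := fun e => hw' (Subtype.ext (Subtype.ext e))
  have hw0 : (cls w).factorization q = 0 := Nat.factorization_eq_zero_of_not_dvd fun hd =>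
    Q.not_dvd_index (hd.trans (Subgroup.index_dvd_of_le fun x hx =>
      Subgroup.mem_centralizer_singleton_iff.mpr
        (congrArg Subtype.val (Subgroup.mem_center_iff.mp w'.2 ⟨x, hx⟩))))
  have hwB : ¬ Full m B (cls w) := fun h => by
    have h1 := h q hqB
    have h2 := (hBp q hqB).factorization_pos_of_dvd hm hqm
    omega
  have hwA : Full m A (cls w) := (hone w hw1).resolve_right hwB
  have hqp : q ≠ p := by
    rintro rfl
    have := hzA q hqB
    have := (hBp q hqB).factorization_pos_of_dvd hm hqm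
    omega
  obtain ⟨k, hk⟩ := Q.isPGroup' (w' : (Q : Subgroup G))
  have hwk : w ^ q ^ k = 1 := congrArg Subtype.val hk
  obtain ⟨j, -, hwo⟩ := (Nat.dvd_prime_pow (hBp q hqB)).mp (orderOf_dvd_of_pow_eq_one hwk)
  -- a `p`-element `u` centralising `w`
  have hpw : p ∣ Nat.card (Subgroup.centralizer ({w} : Set G)) := by
    by_contra h
    have h1 := factorization_cls h
    have h2 : (cls w).factorization p ≤ m.factorization p :=
      (Nat.factorization_le_iff_dvd (cls_ne_zero w) hm).mpr (hdvd w) p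
    omega
  obtain ⟨u', hu'⟩ := exists_prime_orderOf_dvd_card' p hpw
  set u : G := (u' : G) with hu
  have huo : orderOf u = p := by rw [hu, Subgroup.orderOf_coe, hu']
  have hu1 : u ≠ 1 := fun e => hp.out.ne_one (by rw [← huo, e, orderOf_one])
  have hcuw : Commute u w := Subgroup.mem_centralizer_singleton_iff.mp u'.2
  have hcop : (orderOf u).Coprime (orderOf w) := by
    rw [huo, hwo]
    exact Nat.Coprime.pow_right _ ((Nat.coprime_primes hp.out (hBp q hqB)).mpr hqp.symm)
  obtain ⟨hle1, hle2⟩ := centralizer_mul_le hcuw hcop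
  have mono : ∀ {x y : G}, cls x ∣ cls y → ∀ {S : Set ℕ}, Full m S (cls x) → Full m S (cls y) :=
    fun {x y} hd {S} h r hr =>
      (h r hr).trans ((Nat.factorization_le_iff_dvd (cls_ne_zero x) (cls_ne_zero y)).mpr hd r)
  have huwA : Full m A (cls (u * w)) := mono (cls_dvd hle2) hwA
  have huA : Full m A (cls u) := (hone u hu1).resolve_right fun h =>
    hboth _ huwA (mono (cls_dvd hle1) h)
  have hexact : ∀ x : G, Full m A (cls x) → (cls x).factorization p = m.factorization p := by
    intro x hx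
    have h2 : (cls x).factorization p ≤ m.factorization p :=
      (Nat.factorization_le_iff_dvd (cls_ne_zero x) hm).mpr (hdvd x) p
    by_cases hpA' : p ∈ A
    · exact le_antisymm h2 (hx p hpA')
    · have := hpA hpA'
      omega
  -- a Sylow subgroup of `C(u w)` is one of `C(u)`
  set H := Subgroup.centralizer ({u} : Set G) with hH
  set K := (Subgroup.centralizer ({u * w} : Set G)).subgroupOf H with hK
  have hKi : ¬ p ∣ K.index := by
    intro hd
    have h1 : K.index * cls u = cls (u * w) := Subgroup.relIndex_mul_index hle1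
    have h2 := hexact _ huwA
    rw [← h1, Nat.factorization_mul Subgroup.index_ne_zero_of_finite (cls_ne_zero u),
      Finsupp.add_apply, hexact _ huA] at h2
    have := hp.out.factorization_pos_of_dvd Subgroup.index_ne_zero_of_finite hd
    omega
  let S₀ : Sylow p K := default
  have hS₀i : ¬ p ∣ ((S₀ : Subgroup K).map K.subtype).index := by
    rw [Subgroup.index_map_subtype]
    exact fun hd => (hp.out.dvd_mul.mp hd).elim S₀.not_dvd_index hKi
  let S₁ : Sylow p H := (S₀.isPGroup'.map K.subtype).toSylow hS₀i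
  -- a conjugate of `z` centralising `u`
  have hup : IsPGroup p (Subgroup.zpowers u) := IsPGroup.of_card (n := 1) (by
    rw [Nat.card_zpowers, huo, pow_one])
  obtain ⟨P', hP'⟩ := hup.exists_le_sylow
  obtain ⟨g, hg⟩ := MulAction.exists_smul_eq G P P'
  set z₁ := g * z * g⁻¹ with hz₁
  have hz₁u : z₁ ∈ H := by
    have h1 : u ∈ ((g • P : Sylow p G) : Subgroup G) := hg ▸ hP' (Subgroup.mem_zpowers u)
    obtain ⟨x, hx, hxu⟩ := h1
    have hxu' : g * x * g⁻¹ = u := hxu
    rw [hH, Subgroup.mem_centralizer_singleton_iff, hz₁, ← hxu']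
    calc g * z * g⁻¹ * (g * x * g⁻¹) = g * (z * x) * g⁻¹ := by group
      _ = g * (x * z) * g⁻¹ := by rw [hzc x hx]
      _ = _ := by group
  have hzp : IsPGroup p (Subgroup.zpowers (⟨z₁, hz₁u⟩ : H)) := by
    obtain ⟨i, hi⟩ := P.isPGroup' ⟨z, hzP⟩
    have h1 : z ^ p ^ i = 1 := congrArg Subtype.val hi
    have h2 : (⟨z₁, hz₁u⟩ : H) ^ p ^ i = 1 := Subtype.ext (by
      rw [SubmonoidClass.coe_pow]
      show (g * z * g⁻¹) ^ p ^ i = 1
      rw [conj_pow, h1, mul_one, mul_inv_cancel])
    obtain ⟨j, -, hj⟩ := (Nat.dvd_prime_pow hp.out).mp (orderOf_dvd_of_pow_eq_one h2)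
    exact IsPGroup.of_card (n := j) (by rw [Nat.card_zpowers, hj])
  obtain ⟨T, hT⟩ := hzp.exists_le_sylow
  obtain ⟨c, hc⟩ := MulAction.exists_smul_eq H T S₁
  have hcK : c * ⟨z₁, hz₁u⟩ * c⁻¹ ∈ K := by
    have h1 : c * ⟨z₁, hz₁u⟩ * c⁻¹ ∈ (S₁ : Subgroup H) := by
      rw [← hc]
      exact ⟨⟨z₁, hz₁u⟩, hT (Subgroup.mem_zpowers _), rfl⟩
    obtain ⟨k', -, hk'⟩ := h1
    exact hk' ▸ k'.2
  set z₂ := (c : G) * z₁ * (c : G)⁻¹ with hz₂
  have hz₂uw : z₂ ∈ Subgroup.centralizer ({u * w} : Set G) := hcK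
  have hz₂w : Commute z₂ w := Subgroup.mem_centralizer_singleton_iff.mp (hle2 hz₂uw)
  have hconj : z₂ = (c * g : G) * z * (c * g : G)⁻¹ := by rw [hz₂, hz₁]; group
  have hcls : cls z₂ = cls z := by
    have : Subgroup.centralizer ({z₂} : Set G) =
        (Subgroup.centralizer ({z} : Set G)).map (MulAut.conj ((c : G) * g)).toMonoidHom := by
      ext x
      rw [Subgroup.mem_map_equiv, Subgroup.mem_centralizer_singleton_iff,
        Subgroup.mem_centralizer_singleton_iff, hconj, MulAut.conj_symm_apply]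
      constructor <;> intro h
      · calc _ = ((c : G) * g)⁻¹ * (x * ((c * g : G) * z * (c * g : G)⁻¹)) * (c * g) := by group
          _ = _ := by rw [h]; group
      · calc x * ((c * g : G) * z * (c * g : G)⁻¹)
            = (c * g : G) * (((c : G) * g)⁻¹ * x * (c * g) * z) * (c * g : G)⁻¹ := by group
          _ = _ := by rw [h]; group
    rw [cls, cls, this]
    exact Subgroup.index_map_of_bijective (MulAut.conj ((c : G) * g)).bijective _
  have hcop₂ : (orderOf z₂).Coprime (orderOf w) := by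
    obtain ⟨i, hi⟩ := P.isPGroup' ⟨z, hzP⟩
    have h1 : z ^ p ^ i = 1 := congrArg Subtype.val hi
    obtain ⟨i', -, hzo⟩ := (Nat.dvd_prime_pow hp.out).mp (orderOf_dvd_of_pow_eq_one h1)
    have h3 : orderOf z₂ = p ^ i' := by
      rw [hconj, ← hzo]
      exact (MulAut.conj ((c : G) * g)).orderOf_eq z
    rw [h3, hwo]
    exact Nat.Coprime.pow _ _ ((Nat.coprime_primes hp.out (hBp q hqB)).mpr hqp.symm)
  obtain ⟨hl1, hl2⟩ := centralizer_mul_le hz₂w hcop₂
  exact hboth (z₂ * w) (mono (cls_dvd hl2) hwA) (mono (cls_dvd hl1) (hcls ▸ hzA))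


/-- Let G and M be finite groups with trivial centres and the same set of conjugacy class sizes, and suppose the prime graph of M is disconnected: the prime divisors of #M split into two non-empty parts such that M has no element of order pq with p in one part and q in the other. Then #G = #M. -/
theorem result {G M : Type*}
    [Group G] [Finite G] [Group M] [Finite M] (hZG : Subgroup.center G = ⊥) (hZM : Subgroup.center M = ⊥)
    (h : Set.range (fun g : G => (Subgroup.centralizer ({g} : Set G)).index) = Set.range (fun g : M => (Subgroup.centralizer ({g} : Set M)).index))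
    (hdisc : ∃ A : Set ℕ, (∃ a ∈ A, a.Prime ∧ a ∣ Nat.card M) ∧ (∃ b ∉ A, b.Prime ∧ b ∣ Nat.card M) ∧
      ∀ a ∈ A, ∀ b ∉ A, a.Prime → b.Prime → a ∣ Nat.card M → b ∣ Nat.card M → ¬ ∃ x : M, orderOf x = a * b) :
    Nat.card G = Nat.card M := by
  classical
  obtain ⟨A₀, ⟨a₀, ha₀, ha₀p, ha₀d⟩, ⟨b₀, hb₀, hb₀p, hb₀d⟩, hno₀⟩ := hdisc
  set A : Set ℕ := {r | r ∈ A₀ ∧ r.Prime ∧ r ∣ Nat.card M} with hA
  set B : Set ℕ := {r | r ∉ A₀ ∧ r.Prime ∧ r ∣ Nat.card M} with hB
  have hAp : ∀ r ∈ A, r.Prime := fun r hr => hr.2.1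
  have hBp : ∀ r ∈ B, r.Prime := fun r hr => hr.2.1
  have hno : ∀ a ∈ A, ∀ b ∈ B, ¬ ∃ x : M, orderOf x = a * b := fun a ha b hb =>
    hno₀ a ha.1 b hb.1 ha.2.1 hb.2.1 ha.2.2 hb.2.2
  have hno' : ∀ a ∈ B, ∀ b ∈ A, ¬ ∃ x : M, orderOf x = a * b := fun a ha b hb hx =>
    hno b hb a ha (by simpa [mul_comm] using hx)
  have hAB : ∀ r ∈ A, r ∉ B := fun r hr hr' => hr'.1 hr.1
  have hBA : ∀ r ∈ B, r ∉ A := fun r hr hr' => hr.1 hr'.1
  set m := Nat.card M with hm_def
  have hm : m ≠ 0 := Nat.card_pos.ne'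
  -- the class sizes of `M`
  have honeM : ∀ x : M, x ≠ 1 → Full m A (cls x) ∨ Full m B (cls x) := by
    intro x hx
    obtain ⟨s, hs, hsd⟩ := Nat.exists_prime_and_dvd (n := orderOf x)
      (fun e => hx (orderOf_eq_one_iff.mp e))
    have hsM : s ∣ m := hsd.trans (orderOf_dvd_natCard x)
    by_cases hsA : s ∈ A₀
    · exact Or.inr (full_of_prime hAp hBp hAB hno ⟨hsA, hs, hsM⟩ hsd)
    · exact Or.inl (full_of_prime hBp hAp hBA hno' ⟨hsA, hs, hsM⟩ hsd)
  have hbothM : ∀ x : M, Full m A (cls x) → ¬ Full m B (cls x) := by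
    intro x h1 h2
    obtain ⟨r, hr, hrc⟩ : ∃ r : ℕ, r.Prime ∧ r ∣ Nat.card (Subgroup.centralizer ({x} : Set M)) := by
      refine Nat.exists_prime_and_dvd fun hc => ?_
      by_cases hx : x = 1
      · have htop : Subgroup.centralizer ({x} : Set M) = ⊤ := by
          refine top_le_iff.mp fun y _ => ?_
          rw [Subgroup.mem_centralizer_singleton_iff, hx, mul_one, one_mul]
        rw [htop, Subgroup.card_top] at hc
        exact ha₀p.ne_one (Nat.dvd_one.mp (hc ▸ ha₀d))
      · exact hx (Subgroup.mem_bot.mp (Subgroup.card_eq_one.mp hc ▸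
          Subgroup.mem_centralizer_singleton_iff.mpr rfl))
    have hrM : r ∣ m := hrc.trans (Subgroup.card_subgroup_dvd_card _)
    have h3 : m.factorization r ≤ (cls x).factorization r := by
      by_cases hrA : r ∈ A₀
      · exact h1 r ⟨hrA, hr, hrM⟩
      · exact h2 r ⟨hrA, hr, hrM⟩
    have h4 := (Subgroup.centralizer ({x} : Set M)).card_mul_index
    have h5 : (Nat.card (Subgroup.centralizer ({x} : Set M)) * cls x).factorization r =
        m.factorization r := congrArg (fun n => n.factorization r) h4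
    rw [Nat.factorization_mul Nat.card_pos.ne' (cls_ne_zero x), Finsupp.add_apply] at h5
    have h6 := hr.factorization_pos_of_dvd Nat.card_pos.ne' hrc
    omega
  -- transfer to `G`
  have hex : ∀ x : G, ∃ y : M, cls x = cls y := fun x => by
    obtain ⟨y, hy⟩ := (h ▸ Set.mem_range_self x :
      cls x ∈ Set.range (fun g : M => (Subgroup.centralizer ({g} : Set M)).index))
    exact ⟨y, hy.symm⟩
  have hex' : ∀ y : M, ∃ x : G, cls x = cls y := fun y => by
    obtain ⟨x, hx⟩ := (h.symm ▸ Set.mem_range_self y :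
      cls y ∈ Set.range (fun g : G => (Subgroup.centralizer ({g} : Set G)).index))
    exact ⟨x, hx⟩
  have hdvd : ∀ x : G, cls x ∣ m := fun x => by
    obtain ⟨y, hy⟩ := hex x
    exact hy ▸ Subgroup.index_dvd_card _
  have hboth : ∀ x : G, Full m A (cls x) → ¬ Full m B (cls x) := fun x => by
    obtain ⟨y, hy⟩ := hex x
    exact hy ▸ hbothM y
  have hone : ∀ x : G, x ≠ 1 → Full m A (cls x) ∨ Full m B (cls x) := fun x hx => by
    obtain ⟨y, hy⟩ := hex x
    refine hy ▸ honeM y fun hy1 => hx ?_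
    have h1 : cls x = 1 := by
      rw [hy, cls, Subgroup.index_eq_one]
      refine top_le_iff.mp fun c _ => ?_
      rw [Subgroup.mem_centralizer_singleton_iff, hy1, mul_one, one_mul]
    rw [cls, Subgroup.index_eq_one] at h1
    have : x ∈ Subgroup.center G := Subgroup.mem_center_iff.mpr fun c =>
      Subgroup.mem_centralizer_singleton_iff.mp (h1 ▸ Subgroup.mem_top c)
    rwa [hZG, Subgroup.mem_bot] at this
  have hout : ∀ r : ℕ, r ∉ A → r ∉ B → m.factorization r = 0 := by
    intro r h1 h2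
    by_contra hne
    have hs := Nat.mem_primeFactors.mp (Nat.support_factorization m ▸ Finsupp.mem_support_iff.mpr hne)
    by_cases hr : r ∈ A₀
    · exact h1 ⟨hr, hs.1, hs.2.1⟩
    · exact h2 ⟨hr, hs.1, hs.2.1⟩
  have hG0 : Nat.card G ≠ 0 := Nat.card_pos.ne'
  have hmG : m ∣ Nat.card G := by
    rw [← Nat.factorization_le_iff_dvd hm hG0]
    intro r
    by_cases hr : r ∈ A ∨ r ∈ B
    swap
    · rw [hout r (fun e => hr (Or.inl e)) (fun e => hr (Or.inr e))]
      exact Nat.zero_le _
    obtain ⟨y, hy⟩ : ∃ y : M, m.factorization r ≤ (cls y).factorization r := by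
      rcases hr with hr | hr
      · haveI := Fact.mk hb₀p
        obtain ⟨y, hy⟩ := exists_prime_orderOf_dvd_card' b₀ hb₀d
        exact ⟨y, full_of_prime hBp hAp hBA hno' ⟨hb₀, hb₀p, hb₀d⟩ hy.symm.dvd r hr⟩
      · haveI := Fact.mk ha₀p
        obtain ⟨y, hy⟩ := exists_prime_orderOf_dvd_card' a₀ ha₀d
        exact ⟨y, full_of_prime hAp hBp hAB hno ⟨ha₀, ha₀p, ha₀d⟩ hy.symm.dvd r hr⟩
    obtain ⟨x, hx⟩ := hex' y
    exact hy.trans (hx ▸ (Nat.factorization_le_iff_dvd (cls_ne_zero x) hG0).mpr
      (Subgroup.index_dvd_card _) r)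
  refine Nat.eq_of_factorization_eq hG0 hm fun p => le_antisymm ?_
    ((Nat.factorization_le_iff_dvd hm hG0).mpr hmG p)
  by_contra hlt
  rw [not_le] at hlt
  have hpG := Nat.mem_primeFactors.mp (Nat.support_factorization (Nat.card G) ▸
    Finsupp.mem_support_iff.mpr (show (Nat.card G).factorization p ≠ 0 by omega))
  haveI := Fact.mk hpG.1
  let P : Sylow p G := default
  haveI : Nontrivial (P : Subgroup G) :=
    (Subgroup.nontrivial_iff_ne_bot _).mpr (P.ne_bot_of_dvd_card hpG.2.1)
  haveI := IsPGroup.center_nontrivial (p := p) (G := (P : Subgroup G)) P.isPGroup'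
  obtain ⟨z', hz'⟩ := exists_ne (1 : Subgroup.center (P : Subgroup G))
  have hzc : ∀ x ∈ (P : Subgroup G), x * ((z' : (P : Subgroup G)) : G) = (z' : (P : Subgroup G)) * x :=
    fun x hx => congrArg Subtype.val (Subgroup.mem_center_iff.mp z'.2 ⟨x, hx⟩)
  rcases hone ((z' : (P : Subgroup G)) : G) (fun e => hz' (Subtype.ext (Subtype.ext e))) with hz | hz
  · exact no_excess hZG hm (A := B) (B := A) hdvd (fun x a b => hboth x b a)
      (fun x hx => (hone x hx).symm) (fun r a b => hout r b a) hmG hAp ⟨a₀, ⟨ha₀, ha₀p, ha₀d⟩, ha₀d⟩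
      hlt P (z' : (P : Subgroup G)).2 hzc hz
  · exact no_excess hZG hm hdvd hboth hone hout hmG hBp ⟨b₀, ⟨hb₀, hb₀p, hb₀d⟩, hb₀d⟩
      hlt P (z' : (P : Subgroup G)).2 hzc hz

end Cfsg.Agent.S4184
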