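import Cfsg.Statements.S4186
-- import your own Cfsg.Agent.* helpers here

set_option autoImplicit false
open Cfsg

namespace Cfsg.Agent.S4186

/-- Let T and X be subgroups of a group with T a finite 2-group normalizing X but not centralizing it. Then some element of T inverts some non-identity element of X under conjugation. -/
theorem result {G : Type*} [Group G] (T X : Subgroup G) [Finite ↥T] (hT : IsPGroup 2 ↥T) (hTN : T ≤ Subgroup.normalizer (X : Set G)) (hTC : ¬ T ≤ Subgroup.centralizer (X : Set G)) : ∃ t ∈ T, ∃ x ∈ X, x ≠ 1 ∧ t * x * t⁻¹ = x⁻¹ := by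
  
  obtain ⟨t, ht, htC⟩ := SetLike.not_le_iff_exists.1 hTC
  have hex : ∃ k : ℕ, t ^ 2 ^ k ∈ Subgroup.centralizer (X : Set G) := by
    obtain ⟨k, hk⟩ := hT ⟨t, ht⟩
    refine ⟨k, ?_⟩
    have e : t ^ 2 ^ k = 1 := congrArg Subtype.val hk
    rw [e]
    exact one_mem _
  classical
  have hk := Nat.find_spec hex
  obtain ⟨j, hj⟩ : ∃ j, Nat.find hex = j + 1 := by
    rcases Nat.eq_zero_or_eq_succ_pred (Nat.find hex) with h0 | h0
    · rw [h0] at hk; simp at hk; exact absurd hk htC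
    · exact ⟨_, h0⟩
  have hnot := Nat.find_min hex (m := j) (by omega)
  rw [hj, pow_succ, pow_mul] at hk
  set s := t ^ 2 ^ j with hs
  have hsT : s ∈ T := T.pow_mem ht _
  rw [Subgroup.mem_centralizer_iff] at hnot
  simp only [not_forall] at hnot
  obtain ⟨x, hx, hne⟩ := hnot
  refine ⟨s, hsT, (s * x * s⁻¹)⁻¹ * x, ?_, ?_, ?_⟩
  · exact X.mul_mem (X.inv_mem ((Subgroup.mem_normalizer_iff.1 (hTN hsT) x).1 hx)) hx
  · intro h
    rw [inv_mul_eq_one, mul_inv_eq_iff_eq_mul] at h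
    exact hne h.symm
  · have e : s ^ 2 * x * (s ^ 2)⁻¹ = x := by
      rw [mul_inv_eq_iff_eq_mul]
      exact (Subgroup.mem_centralizer_iff.1 hk x hx).symm
    calc s * ((s * x * s⁻¹)⁻¹ * x) * s⁻¹ = (s ^ 2 * x * (s ^ 2)⁻¹)⁻¹ * (s * x * s⁻¹) := by simp only [pow_two, mul_inv_rev, inv_inv, mul_assoc, inv_mul_cancel_left, mul_inv_cancel_left]
      _ = x⁻¹ * (s * x * s⁻¹) := by rw [e]
      _ = ((s * x * s⁻¹)⁻¹ * x)⁻¹ := by group

end Cfsg.Agent.S4186
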