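import Cfsg.Statements.S4188
import Cfsg.Agent.PGroup.Abelian
import Cfsg.Agent.PGroup.Frattini
import Cfsg.Agent.TwoGroup.UniqueInvolution
import Mathlib.Tactic.Group
import Mathlib.Tactic.NormNum.Prime

set_option autoImplicit false
open Cfsg

namespace Cfsg.Agent.S4188


universe u v

/-- The subgroup generated by the squares. -/
def sqr (P : Type*) [Group P] : Subgroup P := Subgroup.closure (Set.range fun x : P => x * x)

theorem sqr_map {P Q : Type*} [Group P] [Group Q] (f : P →* Q) : (sqr P).map f ≤ sqr Q := by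
  rw [sqr, MonoidHom.map_closure]
  exact Subgroup.closure_mono (by rintro _ ⟨_, ⟨x, rfl⟩, rfl⟩; exact ⟨f x, (map_mul f x x).symm⟩)

instance sqr_normal (P : Type*) [Group P] : (sqr P).Normal := ⟨fun n hn g => by
  have h : n ∈ (sqr P).comap (MulAut.conj g).toMonoidHom :=
    Subgroup.map_le_iff_le_comap.1 (sqr_map _) hn
  exact h⟩

/-- The size of the largest elementary abelian quotient. -/
noncomputable def gens (P : Type*) [Group P] : ℕ := (sqr P).index

theorem gens_dvd (P : Type*) [Group P] : gens P ∣ Nat.card P := Subgroup.index_dvd_card _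

theorem gens_le_card (P : Type*) [Group P] [Finite P] : gens P ≤ Nat.card P :=
  Nat.le_of_dvd Nat.card_pos (gens_dvd P)

theorem gens_mul {P Q : Type*} [Group P] [Finite P] [Group Q] (f : P →* Q) :
    gens P ≤ gens f.range * gens f.ker := by
  have : Finite f.range := Finite.of_surjective _ f.rangeRestrict_surjective
  unfold gens
  have hle : sqr P ≤ sqr P ⊔ f.ker := le_sup_left
  rw [← Subgroup.relIndex_mul_index hle, mul_comm (sqr f.range).index, sup_comm,
    ← Subgroup.relIndex_sup_right (K := sqr P) (H := f.ker) |>.symm]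
  refine Nat.mul_le_mul ?_ ?_
  · exact Nat.le_of_dvd (Nat.pos_of_ne_zero Subgroup.index_ne_zero_of_finite)
      (Subgroup.index_dvd_of_le (Subgroup.map_le_iff_le_comap.1 (sqr_map f.ker.subtype)))
  · have h1 : (sqr f.range) ≤ (sqr P).map f.rangeRestrict := by
      rw [sqr, Subgroup.closure_le]
      rintro _ ⟨y, rfl⟩
      obtain ⟨x, rfl⟩ := f.rangeRestrict_surjective y
      exact ⟨x * x, Subgroup.subset_closure ⟨x, rfl⟩, map_mul _ _ _⟩
    refine Nat.le_of_dvd (Nat.pos_of_ne_zero Subgroup.index_ne_zero_of_finite) ?_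
    refine dvd_trans ?_ (Subgroup.index_dvd_of_le h1)
    rw [Subgroup.index_map, MonoidHom.range_eq_top.2 f.rangeRestrict_surjective, Subgroup.index_top, mul_one, f.ker_rangeRestrict, sup_comm]

theorem gens_le_two_mul {P : Type*} [Group P] [Finite P] {M : Subgroup P} (hM : M.index = 2) :
    gens P ≤ 2 * gens M := by
  have h1 : (sqr P).index ∣ (sqr P ⊓ M).index := Subgroup.index_dvd_of_le inf_le_left
  have h2 : (sqr P ⊓ M).index = (sqr P).relIndex M * 2 := by
    rw [← Subgroup.relIndex_mul_index (inf_le_right : sqr P ⊓ M ≤ M), Subgroup.inf_relIndex_right, hM]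
  have h3 : (sqr P).relIndex M ∣ gens M :=
    Subgroup.index_dvd_of_le (Subgroup.map_le_iff_le_comap.1 (sqr_map M.subtype))
  exact Nat.le_of_dvd (Nat.mul_pos two_pos (Nat.pos_of_ne_zero Subgroup.index_ne_zero_of_finite))
    (h1.trans (by rw [h2, mul_comm]; exact mul_dvd_mul_left 2 h3))

theorem gens_le_sqrt {P : Type*} [Group P] [Finite P] (hc : ∀ a b : P, a * b = b * a) :
    gens P ≤ Nat.card {x : P // x * x = 1} := by
  let sq : P →* P :=
    { toFun := fun g => g * g
      map_one' := one_mul 1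
      map_mul' := fun a b => (Commute.mul_mul_mul_comm (hc b a) a b).symm ▸ rfl }
  have h1 : gens P ∣ sq.range.index :=
    Subgroup.index_dvd_of_le (by rintro _ ⟨x, rfl⟩; exact Subgroup.subset_closure ⟨x, rfl⟩)
  have h2 := sq.range.card_mul_index
  have h3 := sq.ker.card_mul_index
  rw [Subgroup.index_ker] at h3
  rw [← h3, mul_comm] at h2
  have h4 : sq.range.index = Nat.card sq.ker := Nat.eq_of_mul_eq_mul_right Nat.card_pos h2
  exact (Nat.le_of_dvd Nat.card_pos (h4 ▸ h1)).trans
    (le_of_eq (Nat.card_congr (Equiv.subtypeEquivRight (p := fun x : P => x ∈ sq.ker) (q := fun x : P => x * x = 1) fun x => MonoidHom.mem_ker)))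

theorem card_le_of_injective {P : Type*} [Group P] [Finite P] {X : Type*} [Finite X] (f : P → X)
    (hf : Function.Injective f) : Nat.card P ≤ Nat.card X := Nat.card_le_card_of_injective f hf

/-- Square roots of the identity automorphism of a cyclic 2-group. -/
theorem sqrt_one_aut_cyclic {C : Type*} [Group C] [Finite C] [IsCyclic C] (h2 : IsPGroup 2 C) :
    Nat.card {σ : MulAut C // σ * σ = 1} ≤ 4 := by
  classical
  obtain ⟨a, ha⟩ := IsCyclic.exists_generator (α := C)
  obtain ⟨n, hn⟩ := IsPGroup.iff_card.1 h2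
  have hord : orderOf a = 2 ^ n := (orderOf_eq_card_of_forall_mem_zpowers ha).trans hn
  let z : C := a ^ (2 ^ (n - 1))
  have hinv : ∀ x : C, x * x = 1 → x = 1 ∨ x = z := fun x hx => by
    obtain ⟨k, rfl⟩ := Subgroup.mem_zpowers_iff.1 (ha x)
    rw [← zpow_add, ← orderOf_dvd_iff_zpow_eq_one, hord] at hx
    rcases Nat.eq_zero_or_pos n with h0 | h0
    · left; rw [← orderOf_dvd_iff_zpow_eq_one, hord, h0]; simp
    obtain ⟨d, hd⟩ : ((2:ℤ) ^ (n - 1)) ∣ k := by
      have h1 : (2:ℤ) * 2 ^ (n - 1) ∣ 2 * k := by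
        rw [← pow_succ', Nat.sub_add_cancel h0, two_mul]
        exact_mod_cast hx
      exact (mul_dvd_mul_iff_left (two_ne_zero)).1 h1
    rcases Int.even_or_odd' d with ⟨e, he | he⟩
    · left
      rw [← orderOf_dvd_iff_zpow_eq_one, hord]
      refine ⟨e, ?_⟩
      rw [hd, he]; push_cast
      rw [← mul_assoc, ← pow_succ, Nat.sub_add_cancel h0]
    · right
      show a ^ k = a ^ (2 ^ (n-1))
      rw [← zpow_natCast a (2 ^ (n-1)), ← mul_inv_eq_one, ← zpow_neg, ← zpow_add,
        ← orderOf_dvd_iff_zpow_eq_one, hord]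
      refine ⟨e, ?_⟩
      rw [hd, he]; push_cast
      have : (2:ℤ) ^ n = 2 ^ (n-1) * 2 := by rw [← pow_succ, Nat.sub_add_cancel h0]
      rw [this]; ring
  have hmem : ∀ σ : MulAut C, σ * σ = 1 → σ a ∈ ({a, a⁻¹, a * z, a⁻¹ * z} : Finset C) := by
    intro σ hσ
    obtain ⟨i, hi⟩ := Subgroup.mem_zpowers_iff.1 (ha (σ a))
    have h1 : (2:ℤ) ^ n ∣ (i - 1) * (i + 1) := by
      have h2 : σ (σ a) = a := by rw [← MulAut.mul_apply, hσ, MulAut.one_apply]
      rw [← hi, map_zpow, ← hi, ← zpow_mul] at h2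
      have h3 : a ^ (i * i - 1) = 1 := by rw [zpow_sub, h2, zpow_one, mul_inv_cancel]
      rw [← orderOf_dvd_iff_zpow_eq_one, hord] at h3
      convert h3 using 1 <;> [norm_num; ring]
    have hkey : ∀ j : ℤ, (2:ℤ) ^ n ∣ 2 * j → a ^ j = 1 ∨ a ^ j = z := fun j hj => by
      refine hinv _ ?_
      rw [← zpow_add, ← orderOf_dvd_iff_zpow_eq_one, hord, ← two_mul]
      exact_mod_cast hj
    simp only [Finset.mem_insert, Finset.mem_singleton]
    rw [← hi]
    have hp2 : Prime (2:ℤ) := Int.prime_two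
    rcases Int.even_or_odd' i with ⟨e, he | he⟩
    · rcases Nat.eq_zero_or_pos n with h0 | h0
      · left
        have hone : ∀ x : C, x = 1 := fun x => by
          have : Nat.card C = 1 := by rw [hn, h0, pow_zero]
          exact @Subsingleton.elim _ (Nat.card_eq_one_iff_unique.1 this).1 x 1
        rw [hone a, one_zpow]
      · exfalso
        have h4 := (dvd_pow_self (2:ℤ) h0.ne').trans h1
        rcases hp2.dvd_mul.1 h4 with h5 | h5 <;> omega
    rcases Int.even_or_odd' e with ⟨f, hf | hf⟩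
    · have h5 : (2:ℤ) ^ n ∣ 2 * (i - 1) := by
        have hco : IsCoprime ((2:ℤ) ^ n) (2 * f + 1) := IsCoprime.pow_left ⟨-f, 1, by ring⟩
        refine hco.dvd_of_dvd_mul_right ?_
        have e0 : (i - 1) * (i + 1) = 2 * (i - 1) * (2 * f + 1) := by rw [he, hf]; ring
        exact e0 ▸ h1
      rcases hkey _ h5 with h6 | h6
      · left; rw [zpow_sub, zpow_one, mul_inv_eq_one] at h6; exact h6
      · right; right; left
        rw [← h6, ← zpow_one_add]; congr 1; ring
    · have h5 : (2:ℤ) ^ n ∣ 2 * (i + 1) := by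
        have hco : IsCoprime ((2:ℤ) ^ n) (2 * f + 1) := IsCoprime.pow_left ⟨-f, 1, by ring⟩
        refine hco.dvd_of_dvd_mul_right ?_
        have e0 : (i - 1) * (i + 1) = 2 * (i + 1) * (2 * f + 1) := by rw [he, hf]; ring
        exact e0 ▸ h1
      rcases hkey _ h5 with h6 | h6
      · right; left; rw [zpow_add_one] at h6; exact mul_eq_one_iff_eq_inv.1 h6
      · right; right; right
        rw [← h6, ← zpow_neg_one, ← zpow_add]; congr 1; ring
  refine (Nat.card_le_card_of_injective (β := ({a, a⁻¹, a * z, a⁻¹ * z} : Finset C))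
    (fun σ => ⟨σ.1 a, hmem σ.1 σ.2⟩) ?_).trans ?_
  · intro σ τ h
    refine Subtype.ext (MulEquiv.ext fun x => ?_)
    obtain ⟨k, rfl⟩ := Subgroup.mem_zpowers_iff.1 (ha x)
    rw [map_zpow, map_zpow, show σ.1 a = τ.1 a from congrArg Subtype.val h]
  · rw [Nat.card_eq_fintype_card, Fintype.card_coe]
    exact Finset.card_le_four

section
variable {V : Type u} [CommGroup V] [Finite V]

/-- Restriction to an invariant subgroup. -/
noncomputable def restr (H : Subgroup (MulAut V)) (U : Subgroup V) (hU : ∀ σ ∈ H, ∀ x ∈ U, σ x ∈ U) :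
    H →* MulAut U where
  toFun σ :=
    { toFun := fun x => ⟨σ.1 x, hU σ σ.2 x x.2⟩
      invFun := fun x => ⟨(σ⁻¹ : H).1 x, hU _ (σ⁻¹ : H).2 x x.2⟩
      left_inv := fun x => Subtype.ext (by simp)
      right_inv := fun x => Subtype.ext (by simp)
      map_mul' := fun x y => Subtype.ext (map_mul σ.1 x.1 y.1) }
  map_one' := MulEquiv.ext fun _ => Subtype.ext rfl
  map_mul' _ _ := MulEquiv.ext fun _ => Subtype.ext rfl

/-- The action on the quotient by an invariant subgroup. -/
noncomputable def quotAct (H : Subgroup (MulAut V)) (U : Subgroup V) (hU : ∀ σ ∈ H, ∀ x ∈ U, σ x ∈ U) :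
    H →* MulAut (V ⧸ U) where
  toFun σ := QuotientGroup.congr U U σ.1 (Subgroup.eq_of_le_of_card_ge
    (by rintro _ ⟨x, hx, rfl⟩; exact hU _ σ.2 x hx) (Subgroup.card_map_of_injective σ.1.injective).ge)
  map_one' := MulEquiv.ext fun x => QuotientGroup.induction_on x fun _ => rfl
  map_mul' _ _ := MulEquiv.ext fun x => QuotientGroup.induction_on x fun _ => rfl

theorem restr_ker {H : Subgroup (MulAut V)} {U : Subgroup V} {hU : ∀ σ ∈ H, ∀ x ∈ U, σ x ∈ U} {σ : H}
    (h : σ ∈ (restr H U hU).ker) : ∀ x ∈ U, σ.1 x = x := fun x hx => by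
  have := congrArg (fun f : MulAut U => ((f ⟨x, hx⟩ : U) : V)) (MonoidHom.mem_ker.1 h)
  exact this

theorem eq_one_of_sq_one_odd (hodd : Odd (Nat.card V)) {x : V} (h : x * x = 1) : x = 1 := by
  rw [← orderOf_eq_one_iff]
  exact Nat.eq_one_of_dvd_coprimes (Nat.Coprime.symm hodd.coprime_two_right)
    (orderOf_dvd_of_pow_eq_one (by rw [pow_two]; exact h)) (orderOf_dvd_natCard x)

/-- A 2-element centralising `U` and `V/U` is trivial. -/
theorem stab_trivial (hodd : Odd (Nat.card V)) {σ : MulAut V} (hσ : ∃ k, σ ^ (2 ^ k) = 1)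
    {U : Subgroup V} (h1 : ∀ x ∈ U, σ x = x) (h2 : ∀ x, x⁻¹ * σ x ∈ U) : σ = 1 := by
  obtain ⟨k, hk⟩ := hσ
  refine MulEquiv.ext fun x => ?_
  have key : ∀ j : ℕ, (σ ^ j) x = x * (x⁻¹ * σ x) ^ j := by
    intro j
    induction j with
    | zero => simp
    | succ j ih =>
      rw [pow_succ', MulAut.mul_apply, ih, map_mul, map_pow, h1 _ (h2 x), pow_succ', ← mul_assoc,
        mul_inv_cancel_left]
  have h3 := key (2 ^ k)
  rw [hk, MulAut.one_apply, eq_comm, mul_eq_left] at h3
  have h4 : x⁻¹ * σ x = 1 := by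
    rw [← orderOf_eq_one_iff]
    exact Nat.eq_one_of_dvd_coprimes (Nat.Coprime.pow_left k (hodd.coprime_two_left)) (orderOf_dvd_of_pow_eq_one h3)
      (orderOf_dvd_natCard _)
  rw [MulAut.one_apply]
  exact (inv_mul_eq_one.1 h4).symm

end

theorem prod_bound {m a b : ℕ} (hm : m = a * b) (ha : 1 < a) (hb : 1 < b) {D A B : ℕ} (hD : D ≤ A * B)
    (hA : A ≤ a ∧ (a ≠ 1 → a ≠ 3 → 2 * A ≤ a) ∧ (a = 3 → A ≤ 2))
    (hB : B ≤ b ∧ (b ≠ 1 → b ≠ 3 → 2 * B ≤ b) ∧ (b = 3 → B ≤ 2)) :
    D ≤ m ∧ (m ≠ 1 → m ≠ 3 → 2 * D ≤ m) ∧ (m = 3 → D ≤ 2) := by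
  subst hm
  have h4 : 4 ≤ a * b := Nat.mul_le_mul ha hb
  suffices h : 2 * D ≤ a * b by exact ⟨by omega, fun _ _ => h, by omega⟩
  by_cases ha3 : a = 3
  · by_cases hb3 : b = 3
    · have := Nat.mul_le_mul (hA.2.2 ha3) (hB.2.2 hb3); subst ha3 hb3; omega
    · have := hB.2.1 (by omega) hb3
      have := Nat.mul_le_mul (hA.2.2 ha3) (le_refl B); subst ha3; omega
  · have h1 := hA.2.1 (by omega) ha3
    have h2 := Nat.mul_le_mul h1 hB.1
    nlinarith

theorem key : ∀ (m : ℕ) (V : Type u) [CommGroup V] [Finite V], Nat.card V = m → Odd m →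
    ∀ P : Subgroup (MulAut V), IsPGroup 2 P →
      gens P ≤ m ∧ (m ≠ 1 → m ≠ 3 → 2 * gens P ≤ m) ∧ (m = 3 → gens P ≤ 2) := by
  classical
  intro m
  induction m using Nat.strong_induction_on with
  | _ m ih =>
  intro V _ _ hVm hodd P hP
  subst hVm
  have h2k : ∀ σ : P, ∃ k, σ.1 ^ (2 ^ k) = 1 := fun σ => by
    obtain ⟨k, hk⟩ := hP σ
    exact ⟨k, by rw [← SubgroupClass.coe_pow, hk, OneMemClass.coe_one]⟩
  have hrange : ∀ {X : Type u} [Group X] (M : Subgroup P) (f : M →* X), IsPGroup 2 f.range := fun M f =>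
    (hP.to_subgroup M).of_surjective f.rangeRestrict f.rangeRestrict_surjective
  by_cases h1 : Nat.card V = 1
  · have hsub : Subsingleton V := (Nat.card_eq_one_iff_unique.1 h1).1
    have : Subsingleton P := ⟨fun a b => Subtype.ext (MulEquiv.ext fun x => Subsingleton.elim _ _)⟩
    have := (gens_le_card P).trans (Nat.card_of_subsingleton (1 : P)).le
    omega
  by_cases hred : ∃ U : Subgroup V, U ≠ ⊥ ∧ U ≠ ⊤ ∧ ∀ σ ∈ P, ∀ x ∈ U, σ x ∈ U
  · obtain ⟨U, hUb, hUt, hU⟩ := hred
    let r := restr P U hU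
    let K : Subgroup (MulAut V) := r.ker.map P.subtype
    have hKP : K ≤ P := Subgroup.map_subtype_le _
    let s := quotAct K U (fun σ hσ => hU σ (hKP hσ))
    have hs : Function.Injective s := by
      refine (injective_iff_map_eq_one s).2 fun σ hσ => Subtype.ext ?_
      obtain ⟨σ, τ, hτ, rfl⟩ := σ
      refine stab_trivial hodd (h2k τ) (restr_ker (H := P) (hU := hU) hτ) fun x => ?_
      exact QuotientGroup.eq.1 (DFunLike.congr_fun hσ (x : V ⧸ U)).symm
    let t : r.ker →* MulAut (V ⧸ U) := s.comp (r.ker.equivMapOfInjective P.subtype P.subtype_injective).toMonoidHom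
    have ht : Function.Injective t := hs.comp (MulEquiv.injective _)
    have hcard : Nat.card V = Nat.card U * Nat.card (V ⧸ U) := by
      rw [← Subgroup.index_eq_card, Subgroup.card_mul_index]
    have ha : 1 < Nat.card U := (Subgroup.one_lt_card_iff_ne_bot U).2 hUb
    have hb : 1 < Nat.card (V ⧸ U) := by
      rw [← Subgroup.index_eq_card]; exact Subgroup.one_lt_index_of_ne_top hUt
    have hr : IsPGroup 2 r.range := hP.of_surjective r.rangeRestrict r.rangeRestrict_surjective
    have hA := ih (Nat.card U) (by rw [hcard]; exact lt_mul_of_one_lt_right (by omega) hb) U rfl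
      (Odd.of_dvd_nat hodd (hcard ▸ dvd_mul_right _ _)) r.range hr
    have hB := ih (Nat.card (V ⧸ U)) (by rw [hcard]; exact lt_mul_of_one_lt_left (by omega) ha) (V ⧸ U) rfl
      (Odd.of_dvd_nat hodd (hcard ▸ dvd_mul_left _ _)) t.range (hrange _ t)
    refine prod_bound hcard ha hb ((gens_mul r).trans (Nat.mul_le_mul le_rfl ?_)) hA hB
    have := gens_mul t
    have hbot : gens t.ker ≤ 1 := (gens_le_card _).trans
      (by rw [(MonoidHom.ker_eq_bot_iff t).2 ht, Subgroup.card_bot])
    exact this.trans (by simpa using Nat.mul_le_mul (le_refl (gens t.range)) hbot)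
  push Not at hred
  have hirr : ∀ U : Subgroup V, (∀ σ ∈ P, ∀ x ∈ U, σ x ∈ U) → U = ⊥ ∨ U = ⊤ := fun U hU => by
    by_contra hc
    push Not at hc
    obtain ⟨σ, hσ, x, hx, hn⟩ := hred U hc.1 hc.2
    exact hn (hU σ hσ x hx)
  -- central involutions are inversions
  have hcinv : ∀ t : P, t * t = 1 → t ∈ Subgroup.center P → t = 1 ∨ ∀ x : V, t.1 x = x⁻¹ := by
    intro t htt htc
    have hmm : ∀ x, t.1 (t.1 x) = x := fun x => by
      have := DFunLike.congr_fun (congrArg Subtype.val htt) x
      exact this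
    let U : Subgroup V := t.1.toMonoidHom.eqLocus (MonoidHom.id V)
    rcases hirr U fun σ hσ x (hx : t.1 x = x) => by
      have := DFunLike.congr_fun (congrArg Subtype.val (Subgroup.mem_center_iff.1 htc ⟨σ, hσ⟩)) x
      show t.1 (σ x) = σ x
      exact this.symm.trans (congrArg σ hx) with hU | hU
    · right
      intro x
      have h2 : x * t.1 x ∈ U := by
        show t.1 (x * t.1 x) = x * t.1 x
        rw [map_mul, hmm, mul_comm]
      rw [hU, Subgroup.mem_bot] at h2
      exact (mul_eq_one_iff_eq_inv'.1 h2)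
    · left
      exact Subtype.ext (MulEquiv.ext fun x => (hU ▸ Subgroup.mem_top x : x ∈ U))
  have huniq : ∀ s t : P, s * s = 1 → t * t = 1 → s ≠ 1 → t ≠ 1 → s ∈ Subgroup.center P →
      t ∈ Subgroup.center P → s = t := by
    intro s t hs ht hs1 ht1 hsc htc
    refine Subtype.ext (MulEquiv.ext fun x => ?_)
    rw [(hcinv s hs hsc).resolve_left hs1, (hcinv t ht htc).resolve_left ht1]
  have hsqrt : (∀ a b : P, a * b = b * a) → Nat.card {x : P // x * x = 1} ≤ 2 := by
    intro hc
    by_cases hz : ∃ z : P, z * z = 1 ∧ z ≠ 1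
    · obtain ⟨z, hz, hz1⟩ := hz
      have : Function.Injective (fun x : {x : P // x * x = 1} => decide (x.1 = 1)) := by
        intro x y hxy
        simp only [decide_eq_decide] at hxy
        by_cases hx : x.1 = 1
        · exact Subtype.ext (hx.trans (hxy.1 hx).symm)
        · exact Subtype.ext (huniq _ _ x.2 y.2 hx (fun h => hx (hxy.2 h))
            (Subgroup.mem_center_iff.2 fun g => hc g _) (Subgroup.mem_center_iff.2 fun g => hc g _))
      exact (Nat.card_le_card_of_injective _ this).trans (by simp)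
    · push Not at hz
      have : Subsingleton {x : P // x * x = 1} := ⟨fun x y => Subtype.ext ((hz _ x.2).trans (hz _ y.2).symm)⟩
      exact (Finite.card_le_one_iff_subsingleton.2 this).trans one_le_two
  by_cases hpr : (Nat.card V).Prime
  · have := Fact.mk hpr
    have hcyc : IsCyclic V := isCyclic_of_prime_card rfl
    have hc : ∀ a b : P, a * b = b * a := fun a b => Subtype.ext
      ((IsCyclic.mulAutMulEquiv V).injective (by rw [Subgroup.coe_mul, Subgroup.coe_mul, map_mul, map_mul, mul_comm]))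
    have := (gens_le_sqrt hc).trans (hsqrt hc)
    refine ⟨by have := hpr.two_le; omega, fun _ h3 => ?_, fun _ => this⟩
    have h4 : Nat.card V ≠ 2 := fun h => by rw [h] at hodd; exact absurd hodd (by decide)
    have h5 : Nat.card V ≠ 4 := fun h => by rw [h] at hodd; exact absurd hodd (by decide)
    have := hpr.two_le
    omega
  have h9 : 9 ≤ Nat.card V := by
    by_contra hlt
    have hpos : 0 < Nat.card V := Nat.card_pos
    obtain ⟨k, hk⟩ := hodd
    have h12 : Nat.card V = 3 ∨ Nat.card V = 5 ∨ Nat.card V = 7 := by omega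
    rcases h12 with h | h | h <;> exact hpr (by rw [h]; norm_num)
  suffices h : 2 * gens P ≤ Nat.card V from ⟨by omega, fun _ _ => h, by omega⟩
  by_cases hblk : ∃ M : Subgroup P, M.index = 2 ∧ ∃ U : Subgroup V, U ≠ ⊥ ∧ U ≠ ⊤ ∧ ∀ σ ∈ M, ∀ x ∈ U, σ.1 x ∈ U
  · obtain ⟨M, hM, U, hUb, hUt, hU⟩ := hblk
    obtain ⟨g, hg⟩ : ∃ g : P, g ∉ M := by
      by_contra hc
      push Not at hc
      rw [(Subgroup.eq_top_iff' M).2 hc, Subgroup.index_top] at hM
      omega
    have hMn : M.Normal := Subgroup.normal_of_index_eq_two hM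
    let W : Subgroup V := U.map g.1.toMonoidHom
    have hW : ∀ σ ∈ M, ∀ x ∈ W, σ.1 x ∈ W := by
      rintro σ hσ _ ⟨x, hx, rfl⟩
      refine ⟨(g⁻¹ * σ * g).1 x, hU _ (by simpa using hMn.conj_mem σ hσ g⁻¹) x hx, ?_⟩
      show (g * (g⁻¹ * σ * g)).1 x = (σ * g).1 x
      rw [mul_assoc, mul_inv_cancel_left]
    have hgW : ∀ x ∈ W, g.1 x ∈ U := by
      rintro _ ⟨x, hx, rfl⟩
      exact hU (g * g) ((Subgroup.mul_mem_iff_of_index_two hM).2 Iff.rfl) x hx
    have hgen : ∀ X : Subgroup V, (∀ σ ∈ M, ∀ x ∈ X, σ.1 x ∈ X) → (∀ x ∈ X, g.1 x ∈ X) →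
        ∀ σ ∈ P, ∀ x ∈ X, σ x ∈ X := by
      intro X hX hgX σ hσ x hx
      by_cases hσM : (⟨σ, hσ⟩ : P) ∈ M
      · exact hX _ hσM x hx
      · have h3 : g⁻¹ * ⟨σ, hσ⟩ ∈ M :=
          (Subgroup.mul_mem_iff_of_index_two hM).2 (by simp [hg, hσM])
        have h4 := hgX _ (hX _ h3 x hx)
        have h5 : (g * (g⁻¹ * ⟨σ, hσ⟩)).1 x = σ x := by rw [mul_inv_cancel_left]
        exact h5 ▸ h4
    have hinf : U ⊓ W = ⊥ := (hirr (U ⊓ W) (hgen (U ⊓ W) (fun σ hσ x hx => ⟨hU σ hσ x hx.1, hW σ hσ x hx.2⟩)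
      (fun x hx => ⟨hgW x hx.2, ⟨x, hx.1, rfl⟩⟩))).resolve_right
        fun h => hUt (top_le_iff.1 (h ▸ inf_le_left))
    have hsup : U ⊔ W = ⊤ := (hirr (U ⊔ W) (hgen (U ⊔ W) (fun σ hσ x hx => by
        obtain ⟨y, hy, z, hz, rfl⟩ := Subgroup.mem_sup.1 hx
        rw [map_mul]
        exact Subgroup.mul_mem_sup (hU σ hσ y hy) (hW σ hσ z hz))
      (fun x hx => by
        obtain ⟨y, hy, z, hz, rfl⟩ := Subgroup.mem_sup.1 hx
        rw [map_mul, mul_comm (g.1 y)]
        exact Subgroup.mul_mem_sup (hgW z hz) ⟨y, hy, rfl⟩))).resolve_left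
        fun h => hUb (le_bot_iff.1 (h ▸ le_sup_left))
    have hcW : Nat.card W = Nat.card U := Subgroup.card_map_of_injective g.1.injective
    have hcard : Nat.card V = Nat.card U * Nat.card U := by
      conv_rhs => arg 2; rw [← hcW]
      rw [← Nat.card_prod]
      refine (Nat.card_eq_of_bijective _ ⟨Subgroup.mul_injective_of_disjoint (disjoint_iff.2 hinf), fun x => ?_⟩).symm
      obtain ⟨y, hy, z, hz, rfl⟩ := Subgroup.mem_sup.1 (hsup ▸ Subgroup.mem_top x : x ∈ U ⊔ W)
      exact ⟨(⟨y, hy⟩, ⟨z, hz⟩), rfl⟩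
    have ha : 1 < Nat.card U := (Subgroup.one_lt_card_iff_ne_bot U).2 hUb
    let M' : Subgroup (MulAut V) := M.map P.subtype
    let e : M ≃* M' := M.equivMapOfInjective P.subtype P.subtype_injective
    let r : M →* MulAut U := (restr M' U (by rintro _ ⟨τ, hτ, rfl⟩ x hx; exact hU τ hτ x hx)).comp e.toMonoidHom
    let s : r.ker →* MulAut W :=
      ((restr M' W (by rintro _ ⟨τ, hτ, rfl⟩ x hx; exact hW τ hτ x hx)).comp e.toMonoidHom).comp r.ker.subtype
    have hs : Function.Injective s := by
      refine (injective_iff_map_eq_one s).2 fun σ hσ => ?_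
      refine Subtype.ext (Subtype.ext (Subtype.ext (MulEquiv.ext fun x => ?_)))
      obtain ⟨y, hy, z, hz, rfl⟩ := Subgroup.mem_sup.1 (hsup ▸ Subgroup.mem_top x : x ∈ U ⊔ W)
      have h3 : σ.1.1.1 y = y := congrArg (fun f : MulAut U => ((f ⟨y, hy⟩ : U) : V)) (MonoidHom.mem_ker.1 σ.2)
      have h4 : σ.1.1.1 z = z := congrArg (fun f : MulAut W => ((f ⟨z, hz⟩ : W) : V)) hσ
      show σ.1.1.1 (y * z) = y * z
      rw [map_mul, h3, h4]
    have hsr : IsPGroup 2 s.range := ((hP.to_subgroup M).to_subgroup r.ker).of_surjective _ s.rangeRestrict_surjective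
    have hlt : Nat.card U < Nat.card V := hcard ▸ lt_mul_of_one_lt_right (by omega) ha
    have hoddU : Odd (Nat.card U) := Odd.of_dvd_nat hodd (hcard ▸ dvd_mul_right _ _)
    have hA := ih _ hlt U rfl hoddU r.range (hrange M r)
    have hB := ih _ hlt W hcW hoddU s.range hsr
    have hbot : gens s.ker ≤ 1 := (gens_le_card _).trans
      (by rw [(MonoidHom.ker_eq_bot_iff s).2 hs, Subgroup.card_bot])
    have hK : gens r.ker ≤ gens s.range :=
      (gens_mul s).trans (by simpa using Nat.mul_le_mul (le_refl (gens s.range)) hbot)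
    have hD : gens P ≤ 2 * (gens r.range * gens s.range) := (gens_le_two_mul hM).trans
      (Nat.mul_le_mul le_rfl ((gens_mul r).trans (Nat.mul_le_mul le_rfl hK)))
    by_cases h3 : Nat.card U = 3
    · have := Fact.mk Nat.prime_three
      have hcU : IsCyclic U := isCyclic_of_prime_card h3
      have hcW' : IsCyclic W := isCyclic_of_prime_card (hcW.trans h3)
      have hA2 : Nat.card (MulAut U) = 2 := by rw [IsCyclic.card_mulAut, h3]; decide
      have hB2 : Nat.card (MulAut W) = 2 := by rw [IsCyclic.card_mulAut, hcW, h3]; decide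
      have h5 : Nat.card r.range ≤ 2 := hA2 ▸ Subgroup.card_le_card_group _
      have h6 : Nat.card r.ker ≤ 2 := hB2 ▸ Nat.card_le_card_of_injective _ hs
      have h7 : Nat.card M ≤ 4 := by
        rw [← r.ker.card_mul_index, Subgroup.index_ker]
        exact Nat.mul_le_mul h6 h5
      have h8 : Nat.card P ≤ 8 := by
        rw [← M.card_mul_index, hM]; omega
      rw [hcard, h3]
      by_contra hgt
      obtain ⟨k, hk⟩ := IsPGroup.iff_card.1 hP
      obtain ⟨j, hjk, hj⟩ := (Nat.dvd_prime_pow Nat.prime_two).1 (hk ▸ gens_dvd P)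
      have hj3 : j = 3 := by
        have hge : 2 ^ 2 < 2 ^ j := by rw [← hj]; omega
        have hle : 2 ^ j ≤ 2 ^ 3 := by rw [← hj]; exact (gens_le_card P).trans h8
        have := (Nat.pow_lt_pow_iff_right (by norm_num)).1 hge
        have := (Nat.pow_le_pow_iff_right (by norm_num)).1 hle
        omega
      rw [hj3] at hj
      have hP8 : Nat.card P = 8 := le_antisymm h8 (by rw [← show gens P = 8 by simpa using hj]; exact gens_le_card P)
      have hbot2 : sqr P = ⊥ := by
        refine Subgroup.eq_bot_of_card_eq _ ?_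
        have h9' := (sqr P).card_mul_index
        have : (sqr P).index = 8 := by simpa [gens] using hj
        rw [this, hP8] at h9'
        omega
      have hsq : ∀ x : P, x * x = 1 := fun x => by
        rw [← Subgroup.mem_bot, ← hbot2]; exact Subgroup.subset_closure ⟨x, rfl⟩
      have hc : ∀ a b : P, a * b = b * a := fun a b => by
        have h := hsq (a * b)
        rw [eq_inv_of_mul_eq_one_left h, mul_inv_rev, ← eq_inv_of_mul_eq_one_left (hsq a),
          ← eq_inv_of_mul_eq_one_left (hsq b)]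
      have h10 := hsqrt hc
      rw [Nat.card_congr (Equiv.subtypeUnivEquiv hsq), hP8] at h10
      omega
    · have h5 := hA.2.1 (by omega) h3
      have h6 := hB.2.1 (by omega) h3
      have := Nat.mul_le_mul h5 h6
      rw [hcard]
      nlinarith
  -- every normal abelian subgroup is cyclic
  push Not at hblk
  obtain ⟨A, hAn, hAab, hAC⟩ := CfsgLib.PGroup.exists_normal_abelian_self_centralizing (p := 2) hP
  have hAc : ∀ a ∈ A, ∀ b ∈ A, a * b = b * a := fun a ha b hb =>
    congrArg Subtype.val (isMulCommutative_iff.1 hAab ⟨a, ha⟩ ⟨b, hb⟩)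
  have hAcyc : IsCyclic A := by
    refine CfsgLib.TwoGroup.isCyclic_of_comm_atMostOneInvolution (hP.to_subgroup A)
      (fun a b => Subtype.ext (hAc a a.2 b b.2)) fun x y hx hy => ?_
    by_contra hxy
    let E : Subgroup P :=
      { carrier := {a | a ∈ A ∧ a * a = 1}
        mul_mem' := fun {a b} ha hb => ⟨A.mul_mem ha.1 hb.1, by
          rw [mul_assoc a, ← mul_assoc b a, hAc b hb.1 a ha.1, mul_assoc a b b, hb.2, mul_one, ha.2]⟩
        one_mem' := ⟨A.one_mem, one_mul 1⟩
        inv_mem' := fun {a} ha => ⟨A.inv_mem ha.1, by rw [← mul_inv_rev, ha.2, inv_one]⟩ }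
    have hEn : E.Normal := ⟨fun a ha g => ⟨hAn.conj_mem a ha.1 g, by
      calc g * a * g⁻¹ * (g * a * g⁻¹) = g * (a * a) * g⁻¹ := by group
        _ = 1 := by rw [ha.2, mul_one, mul_inv_cancel]⟩⟩
    have hEne : E ≠ ⊥ := fun h => by
      have h3 : (x : P) ∈ E := ⟨x.2, by
        have := pow_orderOf_eq_one x
        rw [hx, pow_two] at this
        exact congrArg Subtype.val this⟩
      rw [h, Subgroup.mem_bot] at h3
      rw [show x = 1 from Subtype.ext h3, orderOf_one] at hx
      omega
    obtain ⟨n, hn⟩ := IsPGroup.iff_card.1 (hP.to_subgroup E)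
    have hn2 : 2 ≤ n := by
      by_contra hlt
      have h3 : Nat.card E ≤ 2 := by rw [hn]; interval_cases n <;> norm_num
      have hmem : ∀ w : A, orderOf w = 2 → (w : P) ∈ E := fun w hw => ⟨w.2, by
        have := pow_orderOf_eq_one w
        rw [hw, pow_two] at this
        exact congrArg Subtype.val this⟩
      have hne1 : ∀ w : A, orderOf w = 2 → (w : P) ≠ 1 := fun w hw h => by
        rw [show w = 1 from Subtype.ext h, orderOf_one] at hw; omega
      have h5 : ({1, (x : P), (y : P)} : Set P).ncard = 3 := Set.ncard_eq_three.2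
        ⟨_, _, _, (hne1 x hx).symm, (hne1 y hy).symm, fun h => hxy (Subtype.ext h), rfl⟩
      have h6 : ({1, (x : P), (y : P)} : Set P).ncard ≤ Nat.card E :=
        Set.ncard_le_ncard (by
          rintro w (rfl | rfl | rfl)
          · exact E.one_mem
          · exact hmem x hx
          · exact hmem y hy) (Set.toFinite _)
      omega
    obtain ⟨K, hKn, hKE, hK⟩ := CfsgLib.PGroup.exists_normal_card_pow hP E (k := 2) (hn ▸ pow_dvd_pow 2 hn2)
    have hKne : K ≠ ⊥ := fun h => by rw [h, Subgroup.card_bot] at hK; norm_num at hK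
    obtain ⟨z, hz, hz1⟩ := (Subgroup.bot_or_exists_ne_one _).resolve_left (CfsgLib.PGroup.inf_center_ne_bot hP K hKne)
    obtain ⟨t, htK, htz⟩ : ∃ t ∈ K, t ∉ Subgroup.center P := by
      by_contra hc
      push Not at hc
      have : Function.Injective (fun w : K => decide (w.1 = 1)) := by
        intro v w hvw
        simp only [decide_eq_decide] at hvw
        by_cases hv : v.1 = 1
        · exact Subtype.ext (hv.trans (hvw.1 hv).symm)
        · exact Subtype.ext (huniq _ _ (hKE v.2).2 (hKE w.2).2 hv (fun h => hv (hvw.2 h)) (hc _ v.2) (hc _ w.2))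
      have h4 := Nat.card_le_card_of_injective _ this
      rw [hK] at h4
      simp at h4
    let M := Subgroup.centralizer ({t} : Set P)
    have hM : M.index = 2 := by
      obtain ⟨g, hg⟩ : ∃ g, g ∉ M := by
        by_contra hc
        push Not at hc
        exact htz (Subgroup.mem_center_iff.2 fun g => Subgroup.mem_centralizer_singleton_iff.1 (hc g))
      have hzc : ∀ y, y * z = z * y := fun y => Subgroup.mem_center_iff.1 hz.2 y
      have hzz : z * z = 1 := (hKE hz.1).2
      have ht1 : t ≠ 1 := fun h => htz (h ▸ one_mem _)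
      have htz' : t ≠ z := fun h => htz (h ▸ hz.2)
      have hS : ({1, z, t, t * z} : Set P) = (K : Set P) := by
        refine Set.eq_of_subset_of_ncard_le ?_ ?_ (Set.toFinite _)
        · rintro w (rfl | rfl | rfl | rfl)
          exacts [K.one_mem, hz.1, htK, K.mul_mem htK hz.1]
        · have h4 : ({z, t, t * z} : Set P).ncard = 3 := Set.ncard_eq_three.2
            ⟨_, _, _, Ne.symm htz', fun h => ht1 (mul_eq_right.1 h.symm), fun h => hz1 (mul_eq_left.1 h.symm), rfl⟩
          have h5 : (1 : P) ∉ ({z, t, t * z} : Set P) := by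
            rintro (h | h | h)
            · exact hz1 h.symm
            · exact ht1 h.symm
            · exact htz (by rw [eq_inv_of_mul_eq_one_left h.symm]; exact inv_mem hz.2)
          rw [Set.ncard_insert_of_notMem h5 (Set.toFinite _), h4, show (K : Set P).ncard = Nat.card K from rfl, hK]
          norm_num
      have hconj : ∀ b, b ∉ M → b * t * b⁻¹ = t * z := by
        intro b hb
        have hmem : b * t * b⁻¹ ∈ ({1, z, t, t * z} : Set P) := hS.symm ▸ hKn.conj_mem t htK b
        rcases hmem with h | h | h | h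
        · exact absurd (conj_eq_one_iff.1 h) ht1
        · refine absurd ?_ htz'
          calc t = b⁻¹ * (b * t * b⁻¹) * b := by group
            _ = b⁻¹ * (z * b) := by rw [h, mul_assoc]
            _ = z := by rw [← hzc, inv_mul_cancel_left]
        · exact absurd (Subgroup.mem_centralizer_singleton_iff.2 (mul_inv_eq_iff_eq_mul.1 h)) hb
        · exact h
      refine Subgroup.index_eq_two_iff.2 ⟨g, fun b => ?_⟩
      by_cases hb : b ∈ M
      · exact Or.inr ⟨hb, fun h => hg ((M.mul_mem_cancel_left hb).1 h)⟩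
      · refine Or.inl ⟨Subgroup.mem_centralizer_singleton_iff.2 (mul_inv_eq_iff_eq_mul.1 ?_), hb⟩
        calc (b * g) * t * (b * g)⁻¹ = b * (g * t * g⁻¹) * b⁻¹ := by group
          _ = b * (t * z) * b⁻¹ := by rw [hconj g hg]
          _ = (b * t * b⁻¹) * (b * z * b⁻¹) := by group
          _ = t * (z * z) := by rw [hconj b hb, hzc b, mul_inv_cancel_right, mul_assoc]
          _ = t := by rw [hzz, mul_one]
    have htt : t * t = 1 := (hKE htK).2
    have hmm : ∀ x, t.1 (t.1 x) = x := fun x => DFunLike.congr_fun (congrArg Subtype.val htt) x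
    let U : Subgroup V := t.1.toMonoidHom.eqLocus (MonoidHom.id V)
    obtain ⟨σ, hσ, x, hx, hn'⟩ := hblk M hM U (fun hU => htz (by
        refine Subgroup.mem_center_iff.2 fun g => Subtype.ext (MulEquiv.ext fun x => ?_)
        have hinv : ∀ x, t.1 x = x⁻¹ := fun x => by
          have h2 : x * t.1 x ∈ U := by
            show t.1 (x * t.1 x) = x * t.1 x
            rw [map_mul, hmm, mul_comm]
          rw [hU, Subgroup.mem_bot] at h2
          exact (mul_eq_one_iff_eq_inv'.1 h2)
        show g.1 (t.1 x) = t.1 (g.1 x)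
        rw [hinv, hinv, map_inv]))
      (fun hU => htz (by
        rw [show t = 1 from Subtype.ext (MulEquiv.ext fun x => (hU ▸ Subgroup.mem_top x : x ∈ U))]
        exact one_mem _))
    apply hn'
    have := DFunLike.congr_fun (congrArg Subtype.val (Subgroup.mem_centralizer_singleton_iff.1 hσ)) x
    show t.1 (σ.1 x) = σ.1 x
    exact this.symm.trans (congrArg σ.1 hx)
  let c : P →* MulAut A := MulAut.conjNormal
  have hker : c.ker = A := by
    refine le_antisymm (fun g hg => ?_) fun g hg => ?_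
    · rw [← hAC, Subgroup.mem_centralizer_iff]
      intro a ha
      have := congrArg Subtype.val (DFunLike.congr_fun (MonoidHom.mem_ker.1 hg) ⟨a, ha⟩)
      simp only [c, MulAut.conjNormal_apply, MulAut.one_apply] at this
      exact (mul_inv_eq_iff_eq_mul.1 this).symm
    · refine MonoidHom.mem_ker.2 (MulEquiv.ext fun a => Subtype.ext ?_)
      simp only [c, MulAut.conjNormal_apply, MulAut.one_apply]
      rw [hAc g hg a a.2, mul_inv_cancel_right]
  have hgA : gens c.ker ≤ 2 := by
    rw [hker]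
    refine (gens_le_sqrt (P := A) fun a b => Subtype.ext (hAc a a.2 b b.2)).trans ?_
    by_contra hgt
    have := Fintype.ofFinite A
    have : (Finset.univ.filter fun a : A => a ^ 2 = 1).card ≤ 2 := IsCyclic.card_pow_eq_one_le (by norm_num)
    rw [Nat.card_eq_fintype_card, Fintype.card_subtype] at hgt
    simp only [pow_two] at this
    exact hgt this
  have hrc : ∀ a b : c.range, a * b = b * a := fun a b => Subtype.ext
    ((IsCyclic.mulAutMulEquiv A).injective (by simp only [Subgroup.coe_mul, map_mul, mul_comm]))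
  have hg4 : gens c.range ≤ 4 := by
    refine (gens_le_sqrt hrc).trans (le_trans ?_ (sqrt_one_aut_cyclic (hP.to_subgroup A)))
    exact Nat.card_le_card_of_injective (fun x => ⟨x.1.1, congrArg Subtype.val x.2⟩)
      (fun x y h => Subtype.ext (Subtype.ext (congrArg (fun w : {σ : MulAut A // σ * σ = 1} => w.1) h :)))
  have hD : gens P ≤ gens c.range * 2 := (gens_mul c).trans (Nat.mul_le_mul le_rfl hgA)
  by_cases h16 : 16 ≤ Nat.card V
  · omega
  suffices hr2 : gens c.range ≤ 2 by omega
  -- now `V` has order nine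
  obtain ⟨v, hv⟩ : ∃ v : V, v ≠ 1 := by
    have : Nontrivial V := Finite.one_lt_card_iff_nontrivial.1 (by omega)
    exact exists_ne 1
  let q := (Nat.card V).minFac
  have hq : q.Prime := Nat.minFac_prime (by omega)
  have := Fact.mk hq
  obtain ⟨w, hw⟩ := exists_prime_orderOf_dvd_card' q (Nat.minFac_dvd (Nat.card V))
  let T : Subgroup V := (powMonoidHom q : V →* V).ker
  have hTt : T = ⊤ := (hirr T fun σ _ x (hx : x ^ q = 1) => show (σ x) ^ q = 1 by
    rw [← map_pow, hx, map_one]).resolve_left fun h => by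
      have : w ∈ T := show w ^ q = 1 from hw ▸ pow_orderOf_eq_one w
      rw [h, Subgroup.mem_bot] at this
      rw [this, orderOf_one] at hw
      exact hq.ne_one hw.symm
  have hVq : IsPGroup q V := fun x => ⟨1, by rw [pow_one]; exact (hTt ▸ Subgroup.mem_top x : x ∈ T)⟩
  have h9' : Nat.card V = 9 := by
    obtain ⟨k, hk⟩ := IsPGroup.iff_card.1 hVq
    obtain ⟨j, hj⟩ := hodd
    have : Nat.card V = 9 ∨ Nat.card V = 11 ∨ Nat.card V = 13 ∨ Nat.card V = 15 := by omega
    rcases this with h | h | h | h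
    · exact h
    · exact absurd (by rw [h]; norm_num) hpr
    · exact absurd (by rw [h]; norm_num) hpr
    · exfalso
      have h3 : q = 3 := by show (Nat.card V).minFac = 3; rw [h]; norm_num
      rw [h3, h] at hk
      have : 5 ∣ 3 ^ k := hk ▸ (by norm_num)
      have := (Nat.prime_dvd_prime_iff_eq (by norm_num) Nat.prime_three).1 ((by norm_num : Nat.Prime 5).dvd_of_dvd_pow this)
      omega
  have hP16 : Nat.card P ≤ 16 := by
    let S : Subgroup P := MulAction.stabilizer P v
    have horb : Nat.card (MulAction.orbit P v) ≤ 8 := by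
      have hsub : MulAction.orbit P v ⊆ ({1}ᶜ : Set V) := by
        rintro _ ⟨σ, rfl⟩ h
        exact hv (σ.1.injective (h.trans (map_one σ.1).symm))
      calc Nat.card (MulAction.orbit P v) ≤ ({1}ᶜ : Set V).ncard := Set.ncard_le_ncard hsub
        _ = 8 := by rw [Set.ncard_compl, Set.ncard_singleton, h9']
    let U : Subgroup V := Subgroup.zpowers v
    have hvo : orderOf v = 3 := by
      have h3 : q = 3 := by show (Nat.card V).minFac = 3; rw [h9']; norm_num
      have := Fact.mk Nat.prime_three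
      exact orderOf_eq_prime (h3 ▸ (hTt ▸ Subgroup.mem_top v : v ∈ T)) hv
    have hfix : ∀ σ ∈ S.map P.subtype, ∀ x ∈ U, σ x = x := by
      rintro _ ⟨τ, hτ, rfl⟩ x hx
      obtain ⟨k, rfl⟩ := Subgroup.mem_zpowers_iff.1 hx
      rw [map_zpow]
      exact congrArg (· ^ k) (MulAction.mem_stabilizer_iff.1 hτ)
    let s := quotAct (S.map P.subtype) U (fun σ hσ x hx => (hfix σ hσ x hx).symm ▸ hx)
    have hs : Function.Injective s := by
      refine (injective_iff_map_eq_one s).2 fun σ hσ => Subtype.ext ?_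
      obtain ⟨σ, hσ'⟩ := σ
      obtain ⟨τ, hτ, rfl⟩ := hσ'
      refine stab_trivial (h9' ▸ hodd) (h2k τ) (hfix _ ⟨τ, hτ, rfl⟩) fun x => ?_
      exact QuotientGroup.eq.1 (DFunLike.congr_fun hσ (x : V ⧸ U)).symm
    have hQ : Nat.card (V ⧸ U) = 3 := by
      have h5 := U.card_mul_index
      rw [Nat.card_zpowers, hvo, h9', Subgroup.index_eq_card] at h5
      omega
    have := Fact.mk Nat.prime_three
    have hcQ : IsCyclic (V ⧸ U) := isCyclic_of_prime_card hQ
    have hA2 : Nat.card (MulAut (V ⧸ U)) = 2 := by rw [IsCyclic.card_mulAut, hQ]; decide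
    have hS : Nat.card S ≤ 2 := by
      rw [← Subgroup.card_map_of_injective P.subtype_injective]
      exact hA2 ▸ Nat.card_le_card_of_injective _ hs
    calc Nat.card P = Nat.card (MulAction.orbit P v) * Nat.card S := by
          rw [← Nat.card_prod]; exact Nat.card_congr (MulAction.orbitProdStabilizerEquivGroup P v).symm
      _ ≤ 8 * 2 := Nat.mul_le_mul horb hS
  obtain ⟨k, hk⟩ := IsPGroup.iff_card.1 (hP.to_subgroup A)
  refine (gens_le_card _).trans ?_
  by_cases hk3 : k ≤ 2
  · refine le_trans (Subgroup.card_le_card_group _) ?_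
    rw [IsCyclic.card_mulAut, hk]
    interval_cases k <;> decide
  · have h5 := c.ker.card_mul_index
    rw [Subgroup.index_ker, hker, hk] at h5
    have h6 : 2 ^ 3 ≤ 2 ^ k := Nat.pow_le_pow_right two_pos (by omega)
    nlinarith


/-- Let G be a finite group that is the semidirect product of a normal abelian subgroup N of odd order by a 2-subgroup P, and suppose N is the unique minimal normal subgroup of G. Then the index of the Frattini subgroup of P in P is at most #N − 1. -/
theorem result {G : Type*} [Group G] [Finite G] (N P : Subgroup G) (hN : N.Normal) (hNab : IsMulCommutative ↥N) (hNodd : Odd (Nat.card ↥N)) (hP : IsPGroup 2 ↥P) (hdisj : N ⊓ P = ⊥) (hprod : N ⊔ P = ⊤) (hmin : N ≠ ⊥ ∧ ∀ M : Subgroup G, M.Normal → M ≠ ⊥ → N ≤ M) : (frattini ↥P).index ≤ Nat.card ↥N - 1 := by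

  classical
  have := Fact.mk Nat.prime_two
  have hcN : ∀ a ∈ N, ∀ b ∈ N, a * b = b * a := fun a ha b hb =>
    congrArg Subtype.val (isMulCommutative_iff.1 hNab ⟨a, ha⟩ ⟨b, hb⟩)
  let _ : CommGroup N := { (inferInstance : Group N) with mul_comm := fun a b => Subtype.ext (hcN a a.2 b b.2) }
  let f : P →* MulAut N := (MulAut.conjNormal : G →* MulAut N).comp P.subtype
  have hf : Function.Injective f := by
    refine (injective_iff_map_eq_one f).2 fun a ha => ?_
    by_contra hne
    let C : Subgroup G := P ⊓ Subgroup.centralizer (N : Set G)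
    have haC : (a : G) ∈ C := ⟨a.2, Subgroup.mem_centralizer_iff.2 fun n hn => by
      have := congrArg Subtype.val (DFunLike.congr_fun ha ⟨n, hn⟩)
      simp only [f, MonoidHom.comp_apply, Subgroup.coe_subtype, MulAut.conjNormal_apply, MulAut.one_apply] at this
      exact (mul_inv_eq_iff_eq_mul.1 this).symm⟩
    have hCn : C.Normal := by
      refine Subgroup.normalizer_eq_top_iff.1 (top_le_iff.1 (hprod ▸ sup_le (fun n hn => ?_) (fun p hp => ?_)))
      · rw [Subgroup.mem_normalizer_iff]
        intro c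
        constructor
        · intro hc
          have h1 := Subgroup.mem_centralizer_iff.1 hc.2 n hn
          rwa [h1, mul_inv_cancel_right]
        · intro hc
          have h1 := Subgroup.mem_centralizer_iff.1 hc.2 n hn
          have : c = n * c * n⁻¹ := by
            calc c = n⁻¹ * (n * c * n⁻¹ * n) := by group
              _ = n⁻¹ * (n * (n * c * n⁻¹)) := by rw [h1]
              _ = n * c * n⁻¹ := by group
          exact this ▸ hc
      · have h1 : P ≤ Subgroup.normalizer ((Subgroup.centralizer (N : Set G)) : Set G) :=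
          le_top.trans (Subgroup.normalizer_eq_top_iff.2 (Subgroup.normal_centralizer (H := N))).ge
        rw [Subgroup.mem_normalizer_iff]
        intro c
        exact and_congr (Subgroup.mem_normalizer_iff.1 (Subgroup.le_normalizer hp) c)
          (Subgroup.mem_normalizer_iff.1 (h1 hp) c)
    have hle := hmin.2 C hCn (fun h => hne (Subtype.ext (Subgroup.mem_bot.1 (h ▸ haC))))
    exact hmin.1 (le_bot_iff.1 (hdisj ▸ le_inf le_rfl (hle.trans inf_le_left)))
  have hr : IsPGroup 2 f.range := hP.of_surjective f.rangeRestrict f.rangeRestrict_surjective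
  have h := (key (Nat.card N) N rfl hNodd f.range hr).1
  have h0 : gens P ≤ gens f.range := by
    refine (gens_mul f).trans ?_
    have h1 : gens f.ker ≤ 1 := (gens_le_card _).trans
      (by rw [(MonoidHom.ker_eq_bot_iff f).2 hf, Subgroup.card_bot])
    simpa using Nat.mul_le_mul (le_refl (gens f.range)) h1
  have h1 : (frattini P).index ≤ gens P := by
    refine Nat.le_of_dvd (Nat.pos_of_ne_zero Subgroup.index_ne_zero_of_finite) (Subgroup.index_dvd_of_le ?_)
    rw [sqr, Subgroup.closure_le]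
    rintro _ ⟨x, rfl⟩
    show x * x ∈ frattini P
    have h2 := CfsgLib.PGroup.frattini_quotient_pow hP (QuotientGroup.mk x : P ⧸ frattini P)
    rw [pow_two] at h2
    exact (QuotientGroup.eq_one_iff _).1 h2
  have h2 : gens P ≠ Nat.card N := fun he => by
    obtain ⟨k, hk⟩ := IsPGroup.iff_card.1 hP
    obtain ⟨j, -, hj⟩ := (Nat.dvd_prime_pow Nat.prime_two).1 (hk ▸ gens_dvd P)
    rw [he] at hj
    rcases Nat.eq_zero_or_pos j with h3 | h3
    · rw [h3, pow_zero] at hj
      exact hmin.1 (Subgroup.eq_bot_of_card_eq N hj)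
    · rw [hj] at hNodd
      exact (Nat.not_even_iff_odd.2 hNodd) (Nat.even_pow.2 ⟨even_two, h3.ne'⟩)
  omega

end Cfsg.Agent.S4188
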