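import Cfsg.Statements.S4194
import Cfsg.Agent.CenterConj.Group

set_option autoImplicit false
open Cfsg

namespace Cfsg.Agent.S4194

/-- A finite group G has commutative Sylow 2-subgroups if and only if every 2-element of G (element of order a power of 2) is 2-central, that is, its centralizer contains a Sylow 2-subgroup of G. -/
theorem result {G : Type*} [Group G] [Finite G] (P : Sylow 2 G) :
    IsMulCommutative (P : Subgroup G) ↔ ∀ x : G, (∃ k : ℕ, orderOf x = 2 ^ k) → (∃ Q : Sylow 2 G, (Q : Subgroup G) ≤ Subgroup.centralizer ({x} : Set G)) := by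
  have : Fact (Nat.Prime 2) := ⟨Nat.prime_two⟩
  constructor
  · intro hP x hx
    obtain ⟨k, hk⟩ := hx
    obtain ⟨Q, hQ⟩ := (IsPGroup.of_card (G := Subgroup.zpowers x) (n := k)
      (by rw [Nat.card_zpowers, hk])).exists_le_sylow
    have hQc : IsMulCommutative (Q : Subgroup G) :=
      ⟨⟨fun a b => (P.equiv Q).symm.injective (by
        rw [map_mul, map_mul]; exact hP.is_comm.comm _ _)⟩⟩
    refine ⟨Q, fun q hq y hy => ?_⟩
    rw [Set.mem_singleton_iff.1 hy]
    exact congrArg Subtype.val
      (hQc.is_comm.comm ⟨x, hQ (Subgroup.mem_zpowers x)⟩ ⟨q, hq⟩)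
  · intro h
    exact ⟨⟨(CfsgLib.CenterConj.fused_of_group P h).comm P.isPGroup'⟩⟩

end Cfsg.Agent.S4194
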