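import Cfsg.Statements.S4195
import Cfsg.Agent.ClassSizes.ConjRange
-- import your own Cfsg.Agent.* helpers here

set_option autoImplicit false
open Cfsg

namespace Cfsg.Agent.S4195

/-- Let x be a non-identity element of a finite group G whose centralizer contains a Sylow 2-subgroup of G. If x is conjugate to its inverse, then x has order 2. -/
theorem result {G : Type*} [Group G] [Finite G] (x : G) (hx : x ≠ 1) (P : Sylow 2 G) (hP : (P : Subgroup G) ≤ Subgroup.centralizer ({x} : Set G)) (hreal : IsConj x x⁻¹) : orderOf x = 2 := by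
  
  obtain ⟨g, hg⟩ := isConj_iff.1 hreal
  set C := Subgroup.centralizer ({x} : Set G) with hC
  have hodd : ¬ 2 ∣ C.index := fun h => P.not_dvd_index (h.trans (Subgroup.index_dvd_of_le hP))
  have hgN : g ∈ Subgroup.normalizer (C : Set G) :=
    Subgroup.mem_normalizer_iff_map_conj_eq.2 (Subgroup.eq_of_le_of_card_ge
      (by
        rintro y ⟨c, hc, rfl⟩
        exact CfsgLib.ClassSizes.conj_mem_centralizer_of_inverts hg hc)
      (Subgroup.card_map_of_injective (MulAut.conj g).injective).ge)
  set N := Subgroup.normalizer (C : Set G)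
  haveI : (C.subgroupOf N).Normal := Subgroup.normal_in_normalizer
  have h1 : g ^ (C.relIndex N) ∈ C := by
    have := Subgroup.pow_index_mem (C.subgroupOf N) (⟨g, hgN⟩ : N)
    simpa [Subgroup.mem_subgroupOf, Subgroup.relIndex] using this
  have h2 : g ^ 2 ∈ C := by
    rw [hC, Subgroup.mem_centralizer_singleton_iff, ← mul_inv_eq_iff_eq_mul]
    calc g ^ 2 * x * (g ^ 2)⁻¹ = g * (g * x * g⁻¹) * g⁻¹ := by rw [pow_two]; group
      _ = g * x⁻¹ * g⁻¹ := by rw [hg]
      _ = (g * x * g⁻¹)⁻¹ := by group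
      _ = x := by rw [hg, inv_inv]
  have hrel : ¬ 2 ∣ C.relIndex N := fun h =>
    hodd (h.trans (Subgroup.relIndex_dvd_index_of_le Subgroup.le_normalizer))
  obtain ⟨k, hk⟩ : ∃ k, C.relIndex N = 2 * k + 1 := ⟨C.relIndex N / 2, by omega⟩
  have hgC : g ∈ C := by
    rw [hk, pow_succ, pow_mul] at h1
    exact (Subgroup.mul_mem_cancel_left C (Subgroup.pow_mem C h2 k)).1 h1
  have hcomm : g * x = x * g := Subgroup.mem_centralizer_singleton_iff.1 hgC
  have hxx : x = x⁻¹ := by
    rw [← hg, hcomm, mul_inv_cancel_right]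
  refine orderOf_eq_prime ?_ hx
  rw [pow_two]
  nth_rewrite 2 [hxx]
  exact mul_inv_cancel x

end Cfsg.Agent.S4195
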