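import Cfsg.Statements.S4196
import Cfsg.Agent.S4195
-- import your own Cfsg.Agent.* helpers here

set_option autoImplicit false
open Cfsg

namespace Cfsg.Agent.S4196

/-- A finite group G has elementary abelian Sylow 2-subgroups (commutative with every element squaring to the identity) if and only if every 2-element of G has a Sylow 2-subgroup in its centralizer and is conjugate to its inverse. -/
theorem result {G : Type*} [Group G] [Finite G] (P : Sylow 2 G) :
    (IsMulCommutative (P : Subgroup G) ∧ ∀ x ∈ (P : Subgroup G), x ^ 2 = 1) ↔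
      ∀ x : G, (∃ k : ℕ, orderOf x = 2 ^ k) → (∃ Q : Sylow 2 G, (Q : Subgroup G) ≤ Subgroup.centralizer ({x} : Set G)) ∧ IsConj x x⁻¹ := by
  
  constructor
  · rintro ⟨hab, hsq⟩ x ⟨k, hk⟩
    have hpx : IsPGroup 2 (Subgroup.zpowers x) :=
      IsPGroup.of_card ((Nat.card_zpowers x).trans hk)
    obtain ⟨Q, hQ⟩ := hpx.exists_le_sylow
    have hxQ : x ∈ (Q : Subgroup G) := hQ (Subgroup.mem_zpowers x)
    obtain ⟨g, rfl⟩ := MulAction.exists_smul_eq G P Q
    rw [Sylow.coe_subgroup_smul, Subgroup.pointwise_smul_def] at hxQ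
    obtain ⟨a, ha, rfl⟩ := hxQ
    refine ⟨⟨g • P, ?_⟩, ?_⟩
    · intro y hy
      rw [Sylow.coe_subgroup_smul, Subgroup.pointwise_smul_def] at hy
      obtain ⟨b, hb, rfl⟩ := hy
      rw [Subgroup.mem_centralizer_singleton_iff]
      show MulAut.conj g b * MulAut.conj g a = MulAut.conj g a * MulAut.conj g b
      rw [← map_mul, ← map_mul]
      exact congrArg _ (congrArg Subtype.val (hab.is_comm.comm ⟨b, hb⟩ ⟨a, ha⟩))
    · have e : a⁻¹ = a := inv_eq_of_mul_eq_one_left (by rw [← pow_two]; exact hsq a ha)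
      show IsConj (MulAut.conj g a) (MulAut.conj g a)⁻¹
      rw [← map_inv, e]
  · intro h
    have hsq : ∀ x ∈ (P : Subgroup G), x ^ 2 = 1 := by
      intro x hx
      rcases eq_or_ne x 1 with rfl | hne
      · exact one_pow 2
      · obtain ⟨k, hk⟩ : ∃ k, orderOf (⟨x, hx⟩ : (P : Subgroup G)) = 2 ^ k := IsPGroup.iff_orderOf.1 P.isPGroup' _
        rw [← Subgroup.orderOf_coe] at hk
        obtain ⟨⟨Q, hQ⟩, hr⟩ := h x ⟨k, hk⟩
        have := Cfsg.Agent.S4195.result x hne Q hQ hr
        rw [← this]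
        exact pow_orderOf_eq_one x
    refine ⟨⟨⟨fun a b => Subtype.ext ?_⟩⟩, hsq⟩
    have ha := hsq _ a.2
    have hb := hsq _ b.2
    have hab := hsq _ (Subgroup.mul_mem _ a.2 b.2)
    rw [pow_two] at ha hb hab
    show (a : G) * b = b * a
    calc (a : G) * b = ((a : G) * b)⁻¹ := (inv_eq_of_mul_eq_one_left hab).symm
      _ = b * a := by rw [mul_inv_rev, inv_eq_of_mul_eq_one_left ha, inv_eq_of_mul_eq_one_left hb]

end Cfsg.Agent.S4196
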