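import Cfsg.Statements.S4236
import Mathlib

set_option autoImplicit false
open Cfsg

namespace Cfsg.Agent.S4236

open MulAction

/-- An automorphism of order coprime to `24` of an abelian 2-group with at most 4 elements killed
by 2 is trivial. -/
theorem aut_eq_one {S : Type*} [Group S] [Finite S] (hcomm : ∀ s t : S, s * t = t * s)
    (hS : IsPGroup 2 S) (hT : Nat.card {s : S // s ^ 2 = 1} ≤ 4) (σ : MulAut S)
    (hσ : (orderOf σ).Coprime 24) : σ = 1 := by
  classical
  let τ : Equiv.Perm {s : S // s ^ 2 = 1} :=
    Equiv.Perm.subtypePerm σ.toEquiv fun s => by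
      change (σ s) ^ 2 = 1 ↔ s ^ 2 = 1
      rw [← map_pow, MulEquiv.map_eq_one_iff]
  have hτ : ∀ (n : ℕ) t, ((τ ^ n) t : S) = (σ ^ n) t := by
    intro n
    induction n with
    | zero => intro t; simp
    | succ n ih =>
      intro t
      rw [pow_succ, pow_succ, Equiv.Perm.mul_apply, MulAut.mul_apply, ih (τ t)]
      rfl
  have hfix : ∀ s : S, s ^ 2 = 1 → σ s = s := by
    have h1 : orderOf τ ∣ orderOf σ :=
      orderOf_dvd_of_pow_eq_one (Equiv.ext fun t => Subtype.ext (by
        rw [hτ, pow_orderOf_eq_one]; rfl))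
    have h2 : orderOf τ ∣ 24 := by
      refine (orderOf_dvd_natCard τ).trans ?_
      rw [Nat.card_perm]
      exact Nat.factorial_dvd_factorial hT
    have h3 : τ = 1 := orderOf_eq_one_iff.1
      (Nat.eq_one_of_dvd_one (hσ ▸ Nat.dvd_gcd h1 h2))
    intro s hs
    have h4 := hτ 1 ⟨s, hs⟩
    rw [pow_one, pow_one, h3] at h4
    exact h4.symm
  have hall : ∀ (i : ℕ) (s : S), s ^ 2 ^ i = 1 → σ s = s := by
    intro i
    induction i with
    | zero =>
      intro s hs
      rw [pow_zero, pow_one] at hs
      rw [hs, map_one]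
    | succ i ih =>
      intro s hs
      have h1 : σ (s ^ 2) = s ^ 2 := ih _ (by rwa [← pow_mul, ← pow_succ'])
      set w := s⁻¹ * σ s with hw
      have hsw : σ s = s * w := by rw [hw, mul_inv_cancel_left]
      have hw2 : w ^ 2 = 1 := by
        have h2 : (s * w) ^ 2 = s ^ 2 * w ^ 2 := Commute.mul_pow (hcomm s w) 2
        rw [← hsw, ← map_pow, h1] at h2
        exact left_eq_mul.1 h2
      have hfw := hfix w hw2
      have hpow : ∀ k : ℕ, (σ ^ k) s = s * w ^ k := by
        intro k
        induction k with
        | zero => simp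
        | succ k ihk =>
          rw [pow_succ', MulAut.mul_apply, ihk, map_mul, map_pow, hfw, hsw, mul_assoc,
            ← pow_succ']
      have h3 := hpow (orderOf σ)
      rw [pow_orderOf_eq_one, MulAut.one_apply, left_eq_mul] at h3
      have hw1 : w = 1 := orderOf_eq_one_iff.1 (Nat.eq_one_of_dvd_one
        ((Nat.Coprime.coprime_dvd_right (by norm_num : 2 ∣ 24) hσ) ▸ Nat.dvd_gcd
          (orderOf_dvd_of_pow_eq_one h3) (orderOf_dvd_of_pow_eq_one hw2)))
      rw [hsw, hw1, mul_one]
  ext s
  obtain ⟨i, hi⟩ := hS s
  exact hall i s hi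

theorem core {Ω : Type*} [Finite Ω] (hΩ : Nat.card Ω = 35) (X : Subgroup (Equiv.Perm Ω))
    (hX : IsPreprimitive X Ω) (Q : Sylow 17 X) (ω : Ω)
    (hQω : (Q : Subgroup X) ≤ stabilizer X ω)
    (hN : stabilizer X ω ≤ Subgroup.normalizer ((Q : Subgroup X) : Set X))
    (huniq : ∀ b : Ω, (∀ q ∈ (Q : Subgroup X), q • b = b) → b = ω) : False := by
  classical
  haveI := Fact.mk (show Nat.Prime 17 by norm_num)
  haveI := Fintype.ofFinite Ω
  haveI : IsPretransitive X Ω := hX.toIsPretransitive
  set Qs : Subgroup X := (Q : Subgroup X) with hQs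
  have hnorm : ∀ g : X, g ∈ Subgroup.normalizer (Qs : Set X) → g • ω = ω := by
    intro g hg
    refine huniq _ fun q hq => ?_
    have h := hQω ((Subgroup.mem_normalizer_iff''.1 hg q).1 hq)
    rw [mem_stabilizer_iff, mul_smul, mul_smul, inv_smul_eq_iff] at h
    exact h
  -- orbits of Q off ω have size 17
  have horb : ∀ b : Ω, b ≠ ω → Nat.card (orbit Qs b) = 17 := by
    intro b hb
    obtain ⟨n, hn⟩ := Q.2.card_orbit b
    have hle : Nat.card (orbit Qs b) ≤ 35 :=
      hΩ ▸ Nat.card_le_card_of_injective Subtype.val Subtype.val_injective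
    rw [hn] at hle ⊢
    match n, hn, hle with
    | 0, hn, _ =>
      exfalso
      obtain ⟨hs, -⟩ := Nat.card_eq_one_iff_unique.1 hn
      exact hb (huniq b fun q hq => congrArg Subtype.val
        (hs.elim ⟨q • b, ⟨⟨q, hq⟩, rfl⟩⟩ ⟨b, mem_orbit_self b⟩))
    | 1, _, _ => norm_num
    | n + 2, _, hle =>
      have : 17 ^ 2 ≤ 17 ^ (n + 2) := Nat.pow_le_pow_right (by norm_num) (by omega)
      omega
  obtain ⟨a, ha⟩ : ∃ a : Ω, a ≠ ω := by
    by_contra h
    push Not at h
    haveI : Subsingleton Ω := ⟨fun u v => (h u).trans (h v).symm⟩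
    have := Nat.card_of_subsingleton ω
    omega
  have horba := horb a ha
  have hidx : (stabilizer Qs a).index = 17 := by
    rw [index_stabilizer, ← Nat.card_coe_set_eq, horba]
  have hωorb : ω ∉ orbit Qs a := by
    rintro ⟨⟨q, hq⟩, h⟩
    have h2 : q • ω = ω := hQω hq
    exact ha (smul_left_cancel q ((show q • a = ω from h).trans h2.symm))
  obtain ⟨m, hm⟩ := IsPGroup.iff_card.1 Q.2
  rcases Nat.lt_or_ge 17 (Nat.card Qs) with hbig | hsmall
  · -- a 17-cycle
    have hdvd : 17 ∣ Nat.card (stabilizer Qs a) := by
      rw [← (stabilizer Qs a).card_mul_index, hidx] at hbig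
      have hm' : m ≠ 0 := by
        rintro rfl
        rw [← (stabilizer Qs a).card_mul_index, hidx, pow_zero] at hm
        omega
      obtain ⟨j, hj⟩ := IsPGroup.iff_card.1 (Q.2.to_subgroup (stabilizer Qs a))
      rw [hj] at hbig ⊢
      cases j with
      | zero => norm_num at hbig
      | succ j => exact dvd_pow_self _ (by omega)
    obtain ⟨x, hx⟩ := exists_prime_orderOf_dvd_card' (G := stabilizer Qs a) 17 hdvd
    have hnormal : (stabilizer Qs a).Normal := by
      refine Subgroup.normal_of_index_eq_minFac_card ?_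
      rw [hidx, hm, Nat.pow_minFac (by rintro rfl; rw [hm, pow_zero] at hbig; omega),
        Nat.Prime.minFac_eq (by norm_num)]
    set g : Equiv.Perm Ω := ((x : Qs) : X).1 with hg
    have hgord : orderOf g = 17 := by
      rw [hg, Subgroup.orderOf_coe, Subgroup.orderOf_coe, Subgroup.orderOf_coe, hx]
    have hfix : ∀ b ∈ insert ω (orbit Qs a), g b = b := by
      intro b hb
      rcases Set.mem_insert_iff.1 hb with rfl | ⟨q, rfl⟩
      · exact hQω (x : Qs).2
      · have h1 := hnormal.conj_mem _ x.2 q⁻¹
        rw [inv_inv, mem_stabilizer_iff, mul_smul, mul_smul, inv_smul_eq_iff] at h1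
        exact h1
    have hsupp : g.support.card ≤ 17 := by
      have hsub : g.support ⊆ (insert ω (orbit Qs a))ᶜ.toFinset := by
        intro b hb
        rw [Set.mem_toFinset]
        exact fun hb' => (Equiv.Perm.mem_support.1 hb) (hfix b hb')
      refine (Finset.card_le_card hsub).trans ?_
      rw [← Set.ncard_eq_toFinset_card', Set.ncard_compl, Set.ncard_insert_of_notMem hωorb,
        ← Nat.card_coe_set_eq, horba, hΩ]
    have hcyc : g.IsCycle :=
      Equiv.Perm.isCycle_of_prime_order (by rw [hgord]; norm_num) (by omega)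
    have hs17 : g.support.card = 17 := by rw [← hcyc.orderOf, hgord]
    set s : Set Ω := (g.support : Set Ω)ᶜ with hs
    have hsn : s.ncard = 17 + 1 := by
      rw [hs, Set.ncard_compl, Set.ncard_coe_finset, hs17, hΩ]
    haveI htr := Equiv.Perm.isPretransitive_of_isCycle_mem hcyc ((x : Qs) : X).2
    have hprim : IsPreprimitive (fixingSubgroup X s) (SubMulAction.ofFixingSubgroup X s) := by
      haveI : IsPretransitive (fixingSubgroup X s) (SubMulAction.ofFixingSubgroup X s) := htr
      refine IsPreprimitive.of_prime_card ?_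
      have : Nat.card (SubMulAction.ofFixingSubgroup X s) = 17 := by
        change Nat.card ↥sᶜ = 17
        rw [hs, compl_compl, Nat.card_coe_set_eq, Set.ncard_coe_finset, hs17]
      rw [this]; norm_num
    have h19 := hX.isMultiplyPreprimitive hsn (by omega) hprim
    have h3 : IsMultiplyPretransitive X Ω 3 := by
      haveI := h19.isMultiplyPretransitive
      exact MulAction.isMultiplyPretransitive_of_le (by norm_num : 3 ≤ 17 + 2) (by omega)
    obtain ⟨b, hb, hba⟩ : ∃ b ∈ orbit Qs a, b ≠ a := by
      have h1 : 1 < (orbit Qs a).ncard := by rw [← Nat.card_coe_set_eq, horba]; norm_num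
      exact Set.exists_ne_of_one_lt_ncard h1 a
    obtain ⟨c, hc⟩ : ∃ c, c ∉ insert ω (orbit Qs a) := by
      by_contra h
      push Not at h
      have h1 : (insert ω (orbit Qs a)).ncard = 35 := by
        rw [Set.eq_univ_of_forall h, Set.ncard_univ, hΩ]
      rw [Set.ncard_insert_of_notMem hωorb, ← Nat.card_coe_set_eq, horba] at h1
      omega
    rw [Set.mem_insert_iff, not_or] at hc
    have hbω : b ≠ ω := fun h => hωorb (h ▸ hb)
    have hca : c ≠ a := by rintro rfl; exact hc.2 (mem_orbit_self c)
    have i1 : Function.Injective ![ω, a, b] := by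
      intro i j; fin_cases i <;> fin_cases j <;>
        simp [ha, hba, hbω, ha.symm, hba.symm, hbω.symm]
    have i2 : Function.Injective ![ω, a, c] := by
      intro i j; fin_cases i <;> fin_cases j <;>
        simp [ha, hca, hc.1, ha.symm, hca.symm, Ne.symm hc.1]
    obtain ⟨t, ht⟩ := h3.exists_smul_eq ⟨![ω, a, b], i1⟩ ⟨![ω, a, c], i2⟩
    have t0 : t • ω = ω := congrArg (fun e : Fin 3 ↪ Ω => e 0) ht
    have t1 : t • a = a := congrArg (fun e : Fin 3 ↪ Ω => e 1) ht
    have t2 : t • b = c := congrArg (fun e : Fin 3 ↪ Ω => e 2) ht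
    obtain ⟨⟨q, hq⟩, rfl⟩ := hb
    refine hc.2 ⟨⟨t * q * t⁻¹, (Subgroup.mem_normalizer_iff.1 (hN t0) q).1 hq⟩, ?_⟩
    change (t * q * t⁻¹) • a = c
    rw [mul_smul, mul_smul, inv_smul_eq_iff.2 t1.symm]
    exact t2
  · -- Q has order 17
    have hQ17 : Nat.card Qs = 17 := by
      have h := (stabilizer Qs a).card_mul_index
      rw [hidx] at h
      have : 0 < Nat.card (stabilizer Qs a) := Nat.card_pos
      omega
    have hfree : ∀ q : Qs, q • a = a → q = 1 := by
      intro q hq
      have h := (stabilizer Qs a).card_mul_index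
      rw [hidx, hQ17] at h
      have h1 : Nat.card (stabilizer Qs a) = 1 := by omega
      rw [Subgroup.card_eq_one] at h1
      simpa [h1] using (show q ∈ stabilizer Qs a from hq)
    set C : Subgroup X := Subgroup.centralizer (Qs : Set X) with hC
    have hCN : C ≤ Subgroup.normalizer (Qs : Set X) := Subgroup.centralizer_le_normalizer _
    haveI : IsCyclic Qs := isCyclic_of_prime_card hQ17
    have hQC : Qs ≤ C := by
      intro q hq
      rw [hC, Subgroup.mem_centralizer_iff]
      intro h hh
      exact congrArg Subtype.val (IsMulCommutative.is_comm.comm (⟨h, hh⟩ : Qs) ⟨q, hq⟩)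
    have hCa : ∀ c ∈ C, c • a = a → c = 1 := by
      intro c hc hca
      have hcω : c • ω = ω := hnorm c (hCN hc)
      have hc' : ∀ q : Qs, (q : X) * c = c * q := fun q => Subgroup.mem_centralizer_iff.1 hc q q.2
      have hO : ∀ b ∈ insert ω (orbit Qs a), c • b = b := by
        intro b hb
        rcases Set.mem_insert_iff.1 hb with rfl | ⟨q, rfl⟩
        · exact hcω
        · change c • (q : X) • a = (q : X) • a
          rw [smul_smul, ← hc' q, mul_smul, hca]
      have hrest : ∀ b, b ∉ insert ω (orbit Qs a) → c • b ∈ orbit Qs b := by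
        intro b hb
        rw [Set.mem_insert_iff, not_or] at hb
        have hb' : ω ∉ orbit Qs b := by
          rintro ⟨⟨q, hq⟩, h⟩
          have h2 : q • ω = ω := hQω hq
          exact hb.1 (smul_left_cancel q ((show q • b = ω from h).trans h2.symm))
        have hdis : Disjoint (insert ω (orbit Qs a)) (orbit Qs b) := by
          rw [Set.disjoint_left]
          intro z hz hz'
          rcases Set.mem_insert_iff.1 hz with rfl | hz
          · exact hb' hz'
          · rw [← orbit_eq_iff.2 hz, orbit_eq_iff.2 hz'] at hb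
            exact hb.2 (mem_orbit_self b)
        have huniv : insert ω (orbit Qs a) ∪ orbit Qs b = Set.univ := by
          rw [Set.eq_univ_iff_ncard, Set.ncard_union_eq hdis,
            Set.ncard_insert_of_notMem hωorb, ← Nat.card_coe_set_eq, horba,
            ← Nat.card_coe_set_eq, horb b hb.1, hΩ]
        have : c • b ∈ insert ω (orbit Qs a) ∪ orbit Qs b := huniv ▸ Set.mem_univ _
        rcases this with h | h
        · have := hO _ h
          rw [smul_left_cancel_iff] at this
          rw [this] at h
          exact absurd h (by rw [Set.mem_insert_iff, not_or]; exact hb)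
        · exact h
      have hc17 : c ^ 17 = 1 := by
        refine Subtype.ext (Equiv.ext fun b => ?_)
        change c ^ 17 • b = b
        by_cases hb : b ∈ insert ω (orbit Qs a)
        · exact smul_eq_self_of_mem_zpowers (Subgroup.npow_mem_zpowers c 17) (hO b hb)
        · obtain ⟨q, hq⟩ := hrest b hb
          have hk : ∀ k : ℕ, c ^ k • b = (q : X) ^ k • b := by
            intro k
            induction k with
            | zero => simp
            | succ k ih =>
              rw [pow_succ', mul_smul, ih, smul_smul,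
                ← (Commute.pow_left (hc' q : Commute (q : X) c) k).eq, mul_smul,
                pow_succ, mul_smul]
              exact congrArg _ hq.symm
          have hq17 : (q : X) ^ 17 = 1 := by
            rw [← hQ17]
            exact congrArg Subtype.val (pow_card_eq_one' (x := q))
          rw [hk, hq17, one_smul]
      have hp : IsPGroup 17 (Subgroup.zpowers c) := by
        rintro ⟨y, hy⟩
        obtain ⟨i, rfl⟩ := Subgroup.mem_zpowers_iff.1 hy
        refine ⟨1, Subtype.ext ?_⟩
        change (c ^ i) ^ (17 ^ 1) = 1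
        rw [pow_one, ← zpow_natCast, ← zpow_mul, mul_comm, zpow_mul, zpow_natCast, hc17, one_zpow]
      have hle : Subgroup.zpowers c ≤ Qs := by
        have h := hp.inf_normalizer_sylow Q
        exact (inf_eq_left.1 ((inf_eq_left.2 ((Subgroup.zpowers_le (H := Subgroup.normalizer
          (Qs : Set X))).2 (hCN hc))).symm.trans h).symm)
      exact congrArg Subtype.val (hfree ⟨c, hle (Subgroup.mem_zpowers c)⟩ hca)
    have hC34 : Nat.card C = 17 ∨ Nat.card C = 34 := by
      have h1 : Nat.card C ≤ 34 := by
        have h2 : Nat.card C ≤ Nat.card ↥({ω}ᶜ : Set Ω) := by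
          refine Nat.card_le_card_of_injective
            (fun c => ⟨(c : X) • a, fun h => ha (smul_left_cancel (c : X)
              (h.trans (hnorm _ (hCN c.2)).symm))⟩) ?_
          intro c d h
          have h3 : (d : X)⁻¹ * c = 1 := by
            refine hCa _ (mul_mem (inv_mem d.2) c.2) ?_
            rw [mul_smul, show (c : X) • a = (d : X) • a from congrArg Subtype.val h,
              inv_smul_smul]
          exact Subtype.ext (inv_mul_eq_one.1 h3).symm
        rw [Nat.card_coe_set_eq, Set.ncard_compl, Set.ncard_singleton, hΩ] at h2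
        exact h2
      obtain ⟨t, ht⟩ := hQ17 ▸ Subgroup.card_dvd_of_le hQC
      have : 0 < Nat.card C := Nat.card_pos
      omega
    -- the point stabilizer
    set N := stabilizer X ω with hNdef
    let f : N →* MulAut Qs :=
      Qs.normalizerMonoidHom.comp (Subgroup.inclusion hN)
    have hker : ∀ g : N, g ∈ f.ker ↔ (g : X) ∈ C := by
      intro g
      rw [MonoidHom.mem_ker, MonoidHom.comp_apply, ← MonoidHom.mem_ker,
        Subgroup.normalizerMonoidHom_ker, Subgroup.mem_subgroupOf]
      rfl
    have hkercard : Nat.card f.ker = Nat.card C :=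
      Nat.card_congr ⟨fun g => ⟨g.1.1, (hker g.1).1 g.2⟩,
        fun c => ⟨⟨c.1, hnorm _ (hCN c.2)⟩, (hker _).2 c.2⟩, fun _ => rfl, fun _ => rfl⟩
    have haut : Nat.card (MulAut Qs) = 16 := by
      rw [IsCyclic.card_mulAut, hQ17, Nat.totient_prime (by norm_num)]
    haveI : IsCyclic (MulAut Qs) := by
      haveI : IsCyclic (ZMod (Nat.card Qs))ˣ := by
        rw [hQ17]; exact ZMod.isCyclic_units_prime (by norm_num)
      exact isCyclic_of_surjective _ (IsCyclic.mulAutMulEquiv Qs).symm.surjective
    have hN544 : Nat.card N ∣ 17 * 32 := by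
      rw [Subgroup.card_eq_card_quotient_mul_card_subgroup f.ker, hkercard,
        Nat.card_congr (QuotientGroup.quotientKerEquivRange f).toEquiv]
      have h1 : Nat.card f.range ∣ 16 := haut ▸ Subgroup.card_subgroup_dvd_card _
      have h2 : Nat.card C ∣ 34 := by rcases hC34 with h | h <;> rw [h] <;> norm_num
      exact (mul_dvd_mul h1 h2).trans (by norm_num)
    obtain ⟨d, hd⟩ := hQ17 ▸ Subgroup.card_dvd_of_le hQω
    obtain ⟨e, -, rfl⟩ : ∃ e ≤ 5, d = 2 ^ e :=
      (Nat.dvd_prime_pow Nat.prime_two).1 (show d ∣ 2 ^ 5 from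
        Nat.dvd_of_mul_dvd_mul_left (by norm_num) (hd ▸ hN544))
    have hXcard : Nat.card X = 595 * 2 ^ e := by
      rw [← N.card_mul_index, index_stabilizer_of_transitive, hΩ, hd]
      ring
    -- a Sylow 2-subgroup inside N
    haveI := Fact.mk Nat.prime_two
    obtain ⟨S₀, hS₀⟩ := Sylow.exists_subgroup_card_pow_prime 2 (G := N) (n := e)
      (hd ▸ dvd_mul_left _ _)
    have hScard : Nat.card (S₀.map N.subtype) = 2 ^ e := by
      rw [Subgroup.card_map_of_injective N.subtype_injective, hS₀]
    let S : Sylow 2 X := Sylow.ofCard (S₀.map N.subtype) (by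
      rw [hScard, hXcard, Nat.factorization_mul (by norm_num) (by positivity), Finsupp.add_apply,
        Nat.factorization_eq_zero_of_not_dvd (by norm_num : ¬ 2 ∣ 595), zero_add,
        Nat.Prime.factorization_pow Nat.prime_two, Finsupp.single_eq_same])
    have hSN : (S : Subgroup X) ≤ N := Subgroup.map_subtype_le S₀
    have hScard' : Nat.card S = 2 ^ e := hScard
    have hSindex : (S : Subgroup X).index = 595 := by
      have h := (S : Subgroup X).card_mul_index
      rw [show Nat.card (S : Subgroup X) = 2 ^ e from hScard, hXcard, mul_comm 595] at h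
      exact Nat.eq_of_mul_eq_mul_left (by positivity) h
    let fS : (S : Subgroup X) →* MulAut Qs := f.comp (Subgroup.inclusion hSN)
    have hkS : Nat.card fS.ker ≤ 2 := by
      have h1 : Nat.card fS.ker ∣ Nat.card C :=
        Subgroup.card_dvd_of_injective
          ({ toFun := fun g => ⟨(g.1 : X), (hker _).1 g.2⟩
             map_one' := rfl
             map_mul' := fun _ _ => rfl } : fS.ker →* C)
          (fun g h hgh => Subtype.ext (Subtype.ext (congrArg (fun c : C => (c : X)) hgh)))
      have h2 : Nat.card fS.ker ∣ 2 ^ e := hScard' ▸ Subgroup.card_subgroup_dvd_card _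
      have h3 : Nat.card fS.ker ∣ Nat.gcd (2 * 17) (2 ^ e) :=
        Nat.dvd_gcd (h1.trans (by rcases hC34 with h | h <;> rw [h] <;> norm_num)) h2
      have h4 : Nat.gcd (2 * 17) (2 ^ e) ∣ 2 := by
        rw [Nat.Coprime.gcd_mul_right_cancel 2 (Nat.Coprime.pow_right _ (by norm_num))]
        exact Nat.gcd_dvd_left _ _
      exact Nat.le_of_dvd two_pos (h3.trans h4)
    have hcenter : fS.ker ≤ Subgroup.center (S : Subgroup X) := by
      intro c hc
      rw [Subgroup.mem_center_iff]
      intro g
      by_cases hc1 : c = 1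
      · rw [hc1, mul_one, one_mul]
      by_contra hne
      have hmem : g * c * g⁻¹ ∈ fS.ker := (inferInstance : fS.ker.Normal).conj_mem c hc g
      have hinj : Function.Injective
          (![⟨1, one_mem _⟩, ⟨c, hc⟩, ⟨g * c * g⁻¹, hmem⟩] : Fin 3 → fS.ker) := by
        have h1 : g * c * g⁻¹ ≠ c := fun h => hne (mul_inv_eq_iff_eq_mul.1 h)
        have h2 : g * c * g⁻¹ ≠ 1 := fun h => hc1 (conj_eq_one_iff.1 h)
        intro i j
        fin_cases i <;> fin_cases j <;>
          simp [h1, h2, hc1, h1.symm, h2.symm, Ne.symm hc1, -conj_eq_one_iff]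
      have := Nat.card_le_card_of_injective _ hinj
      rw [Nat.card_fin] at this
      omega
    have hScomm : ∀ s t : (S : Subgroup X), s * t = t * s :=
      fun s t => commutative_of_cyclic_center_quotient fS hcenter s t
    have hT : Nat.card {s : (S : Subgroup X) // s ^ 2 = 1} ≤ 4 := by
      let T : Subgroup (S : Subgroup X) :=
        { carrier := {s | s ^ 2 = 1}
          one_mem' := one_pow 2
          mul_mem' := fun {s t} hs ht => by
            rw [Set.mem_setOf_eq, Commute.mul_pow (hScomm s t), hs, ht, mul_one]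
          inv_mem' := fun {s} hs => by
            rw [Set.mem_setOf_eq, inv_pow, hs, inv_one] }
      change Nat.card T ≤ 4
      let fT := fS.comp T.subtype
      rw [Subgroup.card_eq_card_quotient_mul_card_subgroup fT.ker,
        Nat.card_congr (QuotientGroup.quotientKerEquivRange fT).toEquiv]
      have h1 : Nat.card fT.ker ≤ 2 := le_trans (Nat.card_le_card_of_injective
        (fun g : fT.ker => (⟨g.1.1, g.2⟩ : fS.ker))
        (fun g h hgh => Subtype.ext (Subtype.ext (congrArg Subtype.val hgh :)))) hkS
      have h2 : Nat.card fT.range ≤ 2 := by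
        haveI := Fintype.ofFinite (MulAut Qs)
        refine le_trans ?_ (IsCyclic.card_pow_eq_one_le (α := MulAut Qs) two_pos)
        rw [← SetLike.coe_sort_coe, Nat.card_coe_set_eq, Set.ncard_eq_toFinset_card']
        refine Finset.card_le_card fun w hw => ?_
        rw [Set.mem_toFinset] at hw
        obtain ⟨t, rfl⟩ := MonoidHom.mem_range.1 hw
        rw [Finset.mem_filter]
        refine ⟨Finset.mem_univ _, ?_⟩
        rw [MonoidHom.comp_apply, ← map_pow, show T.subtype t ^ 2 = 1 from t.2, map_one]
      exact le_trans (Nat.mul_le_mul h2 h1) le_rfl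
    have hburn : Subgroup.normalizer ((S : Subgroup X) : Set X) ≤
        Subgroup.centralizer ((S : Subgroup X) : Set X) := by
      intro g hg
      set φ := (S : Subgroup X).normalizerMonoidHom with hφ
      have hσ : orderOf (φ ⟨g, hg⟩) ∣ 595 := by
        have h1 : orderOf (φ ⟨g, hg⟩) ∣ Nat.card φ.range := by
          have := orderOf_dvd_natCard (⟨φ ⟨g, hg⟩, ⟨_, rfl⟩⟩ : φ.range)
          rwa [← Subgroup.orderOf_coe] at this
        have h2 : φ.ker.index ∣ ((S : Subgroup X).subgroupOf
            (Subgroup.normalizer ((S : Subgroup X) : Set X))).index := by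
          refine Subgroup.index_dvd_of_le ?_
          intro s hs
          rw [hφ, Subgroup.normalizerMonoidHom_ker, Subgroup.mem_subgroupOf,
            Subgroup.mem_centralizer_iff]
          intro t ht
          exact congrArg Subtype.val (hScomm ⟨t, ht⟩ ⟨_, Subgroup.mem_subgroupOf.1 hs⟩)
        rw [Subgroup.index_ker] at h2
        refine (h1.trans h2).trans ?_
        rw [← hSindex, ← Subgroup.relIndex,
          ← Subgroup.relIndex_mul_index (Subgroup.le_normalizer (H := (S : Subgroup X)))]
        exact dvd_mul_right _ _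
      have h1 : φ ⟨g, hg⟩ = 1 :=
        aut_eq_one hScomm S.2 hT _ ((by norm_num : Nat.Coprime 595 24).coprime_dvd_left hσ)
      have h2 : (⟨g, hg⟩ : Subgroup.normalizer ((S : Subgroup X) : Set X)) ∈ φ.ker := h1
      rw [hφ, Subgroup.normalizerMonoidHom_ker] at h2
      exact h2
    set K := (MonoidHom.transferSylow S hburn).ker with hK
    have hKcard : Nat.card K = 595 := by
      have h := (MonoidHom.ker_transferSylow_isComplement' S hburn).card_mul
      rw [← hK, show Nat.card (S : Subgroup X) = 2 ^ e from hScard, hXcard] at h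
      exact Nat.eq_of_mul_eq_mul_right (by positivity) h
    haveI := Fact.mk (show Nat.Prime 5 by norm_num)
    let F : Sylow 5 K := default
    have hFindex : Nat.card (F : Subgroup K) = 5 ∧ (F : Subgroup K).index = 119 := by
      have h := (F : Subgroup K).card_mul_index
      rw [hKcard] at h
      obtain ⟨k, hk⟩ := IsPGroup.iff_card.1 F.2
      have hni := F.not_dvd_index
      rw [hk] at h ⊢
      match k, h with
      | 0, h => exact absurd (by rw [pow_zero, one_mul] at h; rw [h]; norm_num) hni
      | 1, h => exact ⟨pow_one 5, by omega⟩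
      | k + 2, h =>
        exfalso
        have : 5 ^ 2 ∣ 595 := h ▸ Dvd.dvd.mul_right (pow_dvd_pow 5 (by omega)) _
        norm_num at this
    have hone : Nat.card (Sylow 5 K) = 1 := by
      have h1 := card_sylow_modEq_one 5 K
      have h2 : Nat.card (Sylow 5 K) ∈ Nat.divisors 119 :=
        Nat.mem_divisors.2 ⟨hFindex.2 ▸ F.card_dvd_index, by norm_num⟩
      rw [show Nat.divisors 119 = {1, 7, 17, 119} by decide] at h2
      simp only [Finset.mem_insert, Finset.mem_singleton] at h2
      rcases h2 with h | h | h | h <;> rw [h] at h1 <;> first | exact h | (exact absurd h1 (by decide))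
    haveI : (F : Subgroup K).Normal := by
      haveI : Subsingleton (Sylow 5 K) := (Nat.card_eq_one_iff_unique.1 hone).1
      exact Sylow.normal_of_subsingleton F
    haveI := Sylow.characteristic_of_normal F inferInstance
    set F' : Subgroup X := (F : Subgroup K).map K.subtype with hF'
    haveI hF'n : F'.Normal := ConjAct.normal_of_characteristic_of_normal
    have hF5 : Nat.card F' = 5 := by
      rw [hF', Subgroup.card_map_of_injective K.subtype_injective]
      exact hFindex.1
    have hQF : ∀ q ∈ Qs, q ∈ Subgroup.centralizer (F' : Set X) := by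
      intro q hq
      haveI : IsCyclic F' := isCyclic_of_prime_card hF5
      have hn : q ∈ Subgroup.normalizer (F' : Set X) := by
        rw [Subgroup.normalizer_eq_top F']; exact Subgroup.mem_top q
      have h1 : F'.normalizerMonoidHom ⟨q, hn⟩ = 1 := by
        refine orderOf_eq_one_iff.1 (Nat.eq_one_of_dvd_one
          ((by norm_num : Nat.Coprime 17 4) ▸ Nat.dvd_gcd ?_ ?_))
        · refine orderOf_dvd_of_pow_eq_one ?_
          have : (⟨q, hn⟩ : Subgroup.normalizer (F' : Set X)) ^ 17 = 1 := by
            refine Subtype.ext ?_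
            change q ^ 17 = 1
            rw [← hQ17]
            exact congrArg Subtype.val (pow_card_eq_one' (x := (⟨q, hq⟩ : Qs)))
          rw [← map_pow, this, map_one]
        · refine (orderOf_dvd_natCard _).trans ?_
          rw [IsCyclic.card_mulAut, hF5, Nat.totient_prime (by norm_num)]
      rw [← MonoidHom.mem_ker, Subgroup.normalizerMonoidHom_ker] at h1
      exact h1
    have hFω : ∀ f ∈ F', f • ω = ω := by
      intro f hf
      refine huniq _ fun q hq => ?_
      rw [smul_smul, ← Subgroup.mem_centralizer_iff.1 (hQF q hq) f hf, mul_smul,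
        show q • ω = ω from hQω hq]
    have hbot : F' = ⊥ := by
      rw [Subgroup.eq_bot_iff_forall]
      intro f hf
      refine Subtype.ext (Equiv.ext fun b => ?_)
      change f • b = b
      obtain ⟨g, rfl⟩ := MulAction.exists_smul_eq X ω b
      have := hFω _ (hF'n.conj_mem f hf g⁻¹)
      rw [inv_inv, mul_smul, mul_smul, inv_smul_eq_iff] at this
      exact this
    rw [hbot, Subgroup.card_bot] at hF5
    omega


/-- No finite group has exactly 35 Sylow 17-subgroups. -/
theorem result {G : Type*} [Group G] [Finite G] : Nat.card (Sylow 17 G) ≠ 35 := by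
  classical
  intro hcard
  haveI := Fact.mk (show Nat.Prime 17 by norm_num)
  haveI : Nontrivial (Sylow 17 G) := Finite.one_lt_card_iff_nontrivial.1 (by omega)
  let P : Sylow 17 G := default
  have hprim : MulAction.IsPreprimitive G (Sylow 17 G) := by
    rw [← MulAction.isCoatom_stabilizer_iff_preprimitive G P]
    have hidx : (MulAction.stabilizer G P).index = 35 := by
      rw [MulAction.index_stabilizer_of_transitive, hcard]
    refine ⟨fun h => by rw [h, Subgroup.index_top] at hidx; omega, fun H hH => ?_⟩
    rw [Sylow.stabilizer_eq_normalizer] at hH hidx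
    by_contra hne
    have hPH : (P : Subgroup G) ≤ H := Subgroup.le_normalizer.trans hH.le
    have h1 := Subgroup.relIndex_mul_index hH.le
    rw [hidx] at h1
    have h2 : Nat.card (Sylow 17 H) =
        (Subgroup.normalizer (P : Set G)).relIndex H := by
      rw [Sylow.card_eq_index_normalizer (P.subtype hPH), Subgroup.relIndex]
      exact congrArg Subgroup.index
        (Subgroup.subgroupOf_normalizer_eq (H := (P : Subgroup G)) hPH).symm
    have h3 := card_sylow_modEq_one 17 H
    rw [h2] at h3
    have h4 : (Subgroup.normalizer (P : Set G)).relIndex H ∈ Nat.divisors 35 :=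
      Nat.mem_divisors.2 ⟨Dvd.intro _ h1, by norm_num⟩
    rw [show Nat.divisors 35 = {1, 5, 7, 35} by decide] at h4
    simp only [Finset.mem_insert, Finset.mem_singleton] at h4
    rcases h4 with h | h | h | h
    · exact hH.not_ge (Subgroup.relIndex_eq_one.1 h)
    · rw [h] at h3; exact absurd h3 (by decide)
    · rw [h] at h3; exact absurd h3 (by decide)
    · rw [h] at h1
      exact hne (Subgroup.index_eq_one.1 (by omega))
  let φ := MulAction.toPermHom G (Sylow 17 G)
  let f : Sylow 17 G →ₑ[φ.rangeRestrict] Sylow 17 G :=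
    { toFun := id, map_smul' := fun _ _ => rfl }
  have hX : MulAction.IsPreprimitive φ.range (Sylow 17 G) :=
    haveI := hprim
    MulAction.IsPreprimitive.of_surjective (f := f) Function.surjective_id
  refine core hcard φ.range hX (P.mapSurjective φ.rangeRestrict_surjective) P ?_ ?_ ?_
  · rintro _ ⟨p, hp, rfl⟩
    change p • P = P
    rw [Sylow.smul_eq_iff_mem_normalizer]
    exact Subgroup.le_normalizer hp
  · intro y hy
    obtain ⟨g, rfl⟩ := φ.rangeRestrict_surjective y
    have hg : g ∈ Subgroup.normalizer (P : Set G) :=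
      Sylow.smul_eq_iff_mem_normalizer.1 (show g • P = P from hy)
    exact Subgroup.le_normalizer_map φ.rangeRestrict ⟨g, hg, rfl⟩
  · intro R hR
    have hle : (P : Subgroup G) ≤ Subgroup.normalizer (R : Set G) := by
      intro p hp
      exact Sylow.smul_eq_iff_mem_normalizer.1
        (show p • R = R from hR _ ⟨p, hp, rfl⟩)
    have h := P.2.inf_normalizer_sylow R
    rw [inf_eq_left.2 hle] at h
    exact Sylow.ext (P.3 R.2 (inf_eq_left.1 h.symm))

end Cfsg.Agent.S4236
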