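import Cfsg.Statements.S4237
import Cfsg.Agent.PGroup.HallCount

set_option autoImplicit false
open Cfsg

namespace Cfsg.Agent.S4237


/-- Let G be a finite group, p a prime and a a natural number such that p^(a+1) divides the order of G. Then the number of subgroups of G of order p^a is congruent to 1 or to 1 + p modulo p². -/
theorem result {G : Type*} [Group G] [Finite G] (p a : ℕ) (hp : p.Prime) (hdvd : p ^ (a + 1) ∣ Nat.card G) :
    Nat.card {H : Subgroup G // Nat.card H = p ^ a} ≡ 1 [MOD p ^ 2] ∨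
      Nat.card {H : Subgroup G // Nat.card H = p ^ a} ≡ 1 + p [MOD p ^ 2] := by
  haveI : Fact p.Prime := ⟨hp⟩
  obtain ⟨P⟩ := (inferInstance : Nonempty (Sylow p G))
  have h := CfsgLib.PGroup.numSub_modEq_sylow P hdvd
  set b := (Nat.card G).factorization p
  have hb : a + 1 ≤ b := CfsgLib.PGroup.card_sylow_pos hdvd
  have hPc : Nat.card (P : Subgroup G) = p ^ b := P.card_eq_multiplicity
  rcases Nat.eq_zero_or_pos a with rfl | ha
  · left
    refine congrArg (· % p ^ 2) (Nat.card_eq_one_iff_exists.2 ⟨⟨⊥, by simp⟩, fun H => Subtype.ext ?_⟩)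
    exact Subgroup.card_eq_one.1 (by simpa using H.2)
  by_cases hc : IsCyclic (P : Subgroup G)
  · left
    exact h.trans (congrArg (· % p ^ 2)
      (CfsgLib.PGroup.numSub_of_isCyclic (hPc ▸ pow_dvd_pow p (show a ≤ b by omega))))
  by_cases hp2 : p = 2
  · subst hp2
    have h2 := CfsgLib.PGroup.numSub_modEq_two b hPc hc a ha (by omega)
    by_cases hcase : a + 2 ≤ b ∧ (commutator (P : Subgroup G)).index = 4
    · exact Or.inl (h.trans (h2.1 hcase))
    · exact Or.inr (h.trans (h2.2 hcase))
  · exact Or.inr (h.trans (CfsgLib.PGroup.numSub_modEq_of_odd hp2 b hPc hc a ha (by omega)))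

end Cfsg.Agent.S4237
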