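import Cfsg.Statements.S4238
import Cfsg.Agent.Transfer.Frobenius
import Cfsg.Agent.Constrained.Basic
import Cfsg.Agent.Coprime.Stabilizer
import Cfsg.Agent.Frobenius57.ElementOrder

set_option autoImplicit false
open Cfsg

namespace Cfsg.Agent.S4238

theorem no_section {G : Type*} [Group G] [Finite G] {p : ℕ} [Fact p.Prime]
    (hnot : ¬ Cfsg.HasNormalPComplement p G)
    (hsec : ∀ (H : Subgroup G) (N : Subgroup H) [N.Normal], Cfsg.pPrimeCore p (H ⧸ N) = ⊥ →
        ∃ k : H ⧸ N, orderOf k = Monoid.exponent (H ⧸ N)) : False := by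
  classical
  have hp : p.Prime := Fact.out
  let Bad : Subgroup G → Prop := fun Q => IsPGroup p Q ∧ ∃ q k : ℕ, q.Prime ∧ q ≠ p ∧
      ∃ g ∈ Subgroup.normalizer (Q : Set G), orderOf g = q ^ k ∧ g ∉ Subgroup.centralizer (Q : Set G)
  obtain ⟨Q₀, hQ₀⟩ := CfsgLib.Transfer.exists_of_not_hasNormalPComplement hnot
  obtain ⟨Q, -, hmin⟩ := exists_minimal_le_of_wellFoundedLT Bad Q₀ hQ₀
  obtain ⟨hQp, q, k, hq, hqp, g₀, hg₀n, hg₀o, hg₀c⟩ := hmin.1
  haveI := Fact.mk hq
  -- the last power of `g₀` not centralizing `Q`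
  have hex : ∃ j, g₀ ^ q ^ j ∈ Subgroup.centralizer (Q : Set G) :=
    ⟨k, by rw [← hg₀o, pow_orderOf_eq_one]; exact one_mem _⟩
  obtain ⟨j, hj⟩ : ∃ j, Nat.find hex = j + 1 := by
    refine ⟨Nat.find hex - 1, ?_⟩
    rcases Nat.eq_zero_or_pos (Nat.find hex) with h | h
    · exact absurd (by simpa [h] using Nat.find_spec hex) hg₀c
    · omega
  set g := g₀ ^ q ^ j with hg
  have hgc : g ∉ Subgroup.centralizer (Q : Set G) := Nat.find_min hex (by omega)
  have hgq : g ^ q ∈ Subgroup.centralizer (Q : Set G) := by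
    rw [hg, ← pow_mul, ← pow_succ, ← hj]; exact Nat.find_spec hex
  have hgn : g ∈ Subgroup.normalizer (Q : Set G) := pow_mem hg₀n _
  obtain ⟨m, -, hgo⟩ := (Nat.dvd_prime_pow hq).mp (hg₀o ▸ orderOf_pow_dvd (x := g₀) (q ^ j))
  have hcop : ∀ y ∈ Q, (orderOf g).Coprime (orderOf y) := by
    intro y hy
    obtain ⟨l, hl⟩ := hQp ⟨y, hy⟩
    refine Nat.Coprime.coprime_dvd_right (orderOf_dvd_of_pow_eq_one (congrArg Subtype.val hl)) ?_
    rw [hgo]
    exact ((Nat.coprime_primes hq hp).mpr hqp).pow m l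
  -- proper invariant subgroups are centralized
  have hprop : ∀ R : Subgroup G, R < Q → g ∈ Subgroup.normalizer (R : Set G) →
      g ∈ Subgroup.centralizer (R : Set G) := by
    intro R hR hgR
    by_contra hc
    exact hR.not_ge (hmin.2 ⟨hQp.to_le hR.le, q, m, hq, hqp, g, hgR, hgo, hc⟩ hR.le)
  -- the automorphism induced by `g` and its fixed points
  let σ : MulAut Q :=
    { toFun := fun x => ⟨g * x * g⁻¹, (Subgroup.mem_normalizer_iff.mp hgn x).mp x.2⟩
      invFun := fun x => ⟨g⁻¹ * x * g, by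
        have := (Subgroup.mem_normalizer_iff.mp (inv_mem hgn) x).mp x.2
        simpa using this⟩
      left_inv := fun x => Subtype.ext (by simp [mul_assoc])
      right_inv := fun x => Subtype.ext (by simp [mul_assoc])
      map_mul' := fun x y => Subtype.ext (by simp [mul_assoc]) }
  let Z : Subgroup Q := MonoidHom.eqLocus σ.toMonoidHom (MonoidHom.id Q)
  have hZmem : ∀ x : Q, x ∈ Z ↔ g * (x : G) * g⁻¹ = x := fun x => Subtype.ext_iff
  have hσ : ∀ i : ℕ, ∀ x : Q, ((σ ^ i) x : G) = g ^ i * x * (g ^ i)⁻¹ := by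
    intro i
    induction i with
    | zero => simp
    | succ i ih =>
        intro x
        rw [pow_succ, MulAut.mul_apply, ih]
        show g ^ i * (g * x * g⁻¹) * (g ^ i)⁻¹ = _
        rw [pow_succ]; group
  have hσq : σ ^ q ^ 1 = 1 := MulEquiv.ext fun x => Subtype.ext (by
    rw [pow_one, hσ, MulAut.one_apply]
    rw [← Subgroup.mem_centralizer_iff.mp hgq x x.2]; group)
  have hσ1 : σ ≠ 1 := by
    intro h
    refine hgc (Subgroup.mem_centralizer_iff.mpr fun y hy => ?_)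
    have h1 : g * y * g⁻¹ = y := congrArg Subtype.val (DFunLike.congr_fun h (⟨y, hy⟩ : Q))
    calc y * g = g * y * g⁻¹ * g := by rw [h1]
      _ = g * y := by group
  -- an invariant subgroup of `Q` not in `Z` is everything
  have hinv : ∀ R : Subgroup Q, (∀ x ∈ R, σ x ∈ R) → ¬ R ≤ Z → R = ⊤ := by
    intro R hR hRZ
    by_contra hne
    apply hRZ
    have hlt : R.map Q.subtype < Q := lt_of_le_of_ne (Subgroup.map_subtype_le R) fun h => hne (by
      apply Subgroup.map_injective Q.subtype_injective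
      rw [h, ← MonoidHom.range_eq_map, Subgroup.range_subtype])
    have hc := hprop _ hlt (by
      have hfwd : ∀ y ∈ R.map Q.subtype, g * y * g⁻¹ ∈ R.map Q.subtype := by
        rintro _ ⟨x, hx, rfl⟩
        exact ⟨σ x, hR x hx, rfl⟩
      exact Subgroup.mem_normalizer_fintype hfwd)
    intro x hx
    rw [hZmem]
    rw [← Subgroup.mem_centralizer_iff.mp hc x ⟨x, hx, rfl⟩]
    group
  have hΦ : frattini Q ≤ Z := by
    by_contra h
    have hnt : (frattini Q : Subgroup Q) ≠ ⊤ := by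
      intro htop
      have h2 : (⊥ : Subgroup Q) = ⊤ := frattini_nongenerating (by rw [htop]; simp)
      exact hσ1 (MulEquiv.ext fun x => by
        have hx : x ∈ (⊥ : Subgroup Q) := h2 ▸ Subgroup.mem_top x
        rw [Subgroup.mem_bot.mp hx, map_one, map_one])
    exact hnt (hinv _ (fun x hx => by
      have := (Subgroup.characteristic_iff_map_eq.mp (frattini_characteristic (G := Q)) σ)
      exact this ▸ Subgroup.mem_map_of_mem σ.toMonoidHom hx) h)
  have hZn : Z.Normal := ⟨fun z hz x => by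
    have h1 : x * z * x⁻¹ = (x * z * x⁻¹ * z⁻¹) * z := by group
    rw [h1]
    exact mul_mem (hΦ (CfsgLib.Frobenius57.pow_mem_frattini hQp x z).2) hz⟩
  -- `g` has no fixed point on `Q / Z`
  have hfpf : ∀ x : Q, x⁻¹ * σ x ∈ Z → x ∈ Z := by
    intro x hx
    let R : Subgroup Q :=
      { carrier := {y | y⁻¹ * σ y ∈ Z}
        one_mem' := by simp
        mul_mem' := fun {a b} ha hb => by
          show (a * b)⁻¹ * σ (a * b) ∈ Z
          have : (a * b)⁻¹ * σ (a * b) = b⁻¹ * (a⁻¹ * σ a) * (b⁻¹)⁻¹ * (b⁻¹ * σ b) := by rw [map_mul]; group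
          rw [this]
          exact mul_mem (hZn.conj_mem _ ha _) hb
        inv_mem' := fun {a} ha => by
          show a⁻¹⁻¹ * σ a⁻¹ ∈ Z
          have : a⁻¹⁻¹ * σ a⁻¹ = a * (a⁻¹ * σ a)⁻¹ * a⁻¹ := by rw [map_inv]; group
          rw [this]
          exact hZn.conj_mem _ (inv_mem ha) _ }
    by_contra hxZ
    have hR : R = ⊤ := hinv R (fun y hy => by
      show (σ y)⁻¹ * σ (σ y) ∈ Z
      rw [← map_inv, ← map_mul]
      show σ (y⁻¹ * σ y) ∈ Z
      have h1 : σ (y⁻¹ * σ y) = y⁻¹ * σ y := hy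
      rw [h1]; exact hy) (fun h => hxZ (h hx))
    apply hσ1
    refine MulEquiv.ext fun y => Subtype.ext ?_
    show g * (y : G) * g⁻¹ = y
    have hy : y * (y⁻¹ * σ y) * y⁻¹ ∈ Z := hZn.conj_mem _ (hR ▸ Subgroup.mem_top y : y ∈ R) y
    have hy' : g * ((g * y * g⁻¹ * (y : G)⁻¹)) * g⁻¹ = g * y * g⁻¹ * (y : G)⁻¹ := by
      have h1 := (hZmem _).mp hy
      simpa [σ, mul_assoc] using h1
    have := CfsgLib.Coprime.commute_of_commute_commutator (a := g) (x := (y : G)) (by
      calc g * (g * y * g⁻¹ * (y : G)⁻¹) = g * (g * y * g⁻¹ * (y : G)⁻¹) * g⁻¹ * g := by group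
        _ = g * y * g⁻¹ * (y : G)⁻¹ * g := by rw [hy'])
      (hcop _ (mul_mem ((Subgroup.mem_normalizer_iff.mp hgn _).mp y.2) (inv_mem y.2)))
    rw [this]; group
  -- the section
  let C := Subgroup.zpowers g
  let H := Q ⊔ C
  have hCn : C ≤ Subgroup.normalizer (Q : Set G) := Subgroup.zpowers_le.mpr hgn
  let N₀ : Subgroup G := Z.map Q.subtype ⊔ Subgroup.zpowers (g ^ q)
  have hdec : ∀ y ∈ H, ∃ a ∈ Q, ∃ i : ℤ, y = a * g ^ i := by
    intro y hy
    rw [show H = Q ⊔ C from rfl, ← SetLike.mem_coe,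
      Subgroup.coe_mul_of_right_le_normalizer_left Q C hCn] at hy
    obtain ⟨a, ha, b, ⟨i, rfl⟩, (rfl : a * _ = y)⟩ := hy
    exact ⟨a, ha, i, rfl⟩
  have hgqQ : ∀ a ∈ Q, Commute (g ^ q) a := fun a ha => (Subgroup.mem_centralizer_iff.mp hgq a ha).symm
  haveI hN : (N₀.subgroupOf H).Normal := by
    have hH : H ≤ Subgroup.normalizer (N₀ : Set G) := by
      refine sup_le (fun a ha => Subgroup.mem_normalizer_fintype ?_) (Subgroup.zpowers_le.mpr
        (Subgroup.mem_normalizer_fintype ?_))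
      · intro y hy
        refine (show N₀ ≤ N₀.comap (MulAut.conj a).toMonoidHom from sup_le ?_ ?_) hy
        · rintro _ ⟨z, hz, rfl⟩
          exact Subgroup.mem_sup_left ⟨⟨a, ha⟩ * z * ⟨a, ha⟩⁻¹, hZn.conj_mem z hz _, rfl⟩
        · rw [Subgroup.zpowers_le, Subgroup.mem_comap]
          show a * g ^ q * a⁻¹ ∈ N₀
          rw [← (hgqQ a ha).eq, mul_inv_cancel_right]
          exact Subgroup.mem_sup_right (Subgroup.mem_zpowers _)
      · intro y hy
        refine (show N₀ ≤ N₀.comap (MulAut.conj g).toMonoidHom from sup_le ?_ ?_) hy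
        · rintro _ ⟨z, hz, rfl⟩
          show g * (z : G) * g⁻¹ ∈ N₀
          rw [(hZmem z).mp hz]
          exact Subgroup.mem_sup_left ⟨z, hz, rfl⟩
        · rw [Subgroup.zpowers_le, Subgroup.mem_comap]
          show g * g ^ q * g⁻¹ ∈ N₀
          rw [← pow_succ', pow_succ, mul_inv_cancel_right]
          exact Subgroup.mem_sup_right (Subgroup.mem_zpowers _)
    exact Subgroup.normal_subgroupOf_of_le_normalizer hH
  let π : H →* H ⧸ N₀.subgroupOf H := QuotientGroup.mk' _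
  let gb := π ⟨g, Subgroup.mem_sup_right (Subgroup.mem_zpowers g)⟩
  let V : Subgroup (H ⧸ N₀.subgroupOf H) := (Q.subgroupOf H).map π
  have hVp : IsPGroup p V := (hQp.comap_of_injective _ (Subgroup.subtype_injective _)).map π
  have hN₀ : ∀ y ∈ N₀, ∃ z ∈ Z, ∃ i : ℤ, y = (z : G) * (g ^ q) ^ i := by
    intro y hy
    rw [show N₀ = Z.map Q.subtype ⊔ Subgroup.zpowers (g ^ q) from rfl, ← SetLike.mem_coe,
      Subgroup.coe_mul_of_right_le_normalizer_left _ _ (Subgroup.zpowers_le.mpr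
        (Subgroup.mem_normalizer_fintype (by
          rintro _ ⟨z, hz, rfl⟩
          refine ⟨z, hz, ?_⟩
          show (z : G) = g ^ q * z * (g ^ q)⁻¹
          rw [(hgqQ z z.2).eq, mul_inv_cancel_right])))] at hy
    obtain ⟨_, ⟨z, hz, rfl⟩, b, ⟨i, rfl⟩, (rfl : _ * _ = y)⟩ := hy
    exact ⟨z, hz, i, rfl⟩
  have hQN : ∀ x : Q, (x : G) ∈ N₀ → x ∈ Z := by
    intro x hx
    obtain ⟨z, hz, i, hi⟩ := hN₀ _ hx
    have h2 : ((z : G)⁻¹ * x) = (g ^ q) ^ i := by rw [hi]; group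
    have h3 : orderOf ((z : G)⁻¹ * x) = 1 := by
      refine Nat.eq_one_of_dvd_coprimes (hcop _ (mul_mem (inv_mem z.2) x.2)) ?_ dvd_rfl
      rw [h2, ← zpow_natCast, ← zpow_mul]
      exact orderOf_dvd_of_mem_zpowers ⟨_, rfl⟩
    have h4 : x = z := Subtype.ext (inv_mul_eq_one.mp (orderOf_eq_one_iff.mp h3)).symm
    rw [h4]; exact hz
  -- `gb` fixes no nontrivial element of `V`
  have hfix : ∀ v ∈ V, gb * v = v * gb → v = 1 := by
    rintro _ ⟨x, hx, rfl⟩ hv
    have hmem : ((x : G)⁻¹ * (g * x * g⁻¹)) ∈ N₀ := by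
      have h1 : π (x⁻¹ * (⟨g, Subgroup.mem_sup_right (Subgroup.mem_zpowers g)⟩ * x *
          (⟨g, Subgroup.mem_sup_right (Subgroup.mem_zpowers g)⟩ : H)⁻¹)) = 1 := by
        rw [map_mul, map_mul, map_mul, map_inv, map_inv]
        show (π x)⁻¹ * (gb * π x * gb⁻¹) = 1
        rw [hv]; group
      exact (QuotientGroup.eq_one_iff (N := N₀.subgroupOf H) _).mp h1
    have h2 := hfpf ⟨x, hx⟩ (hQN (⟨x, hx⟩⁻¹ * σ ⟨x, hx⟩) hmem)
    exact (QuotientGroup.eq_one_iff _).mpr
      (show (x : G) ∈ N₀ from Subgroup.mem_sup_left ⟨_, h2, rfl⟩)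
  have hgbq : gb ^ q = 1 := by
    rw [← map_pow]
    exact (QuotientGroup.eq_one_iff _).mpr (show g ^ q ∈ N₀ from Subgroup.mem_sup_right (Subgroup.mem_zpowers _))
  have hdecK : ∀ y : H ⧸ N₀.subgroupOf H, ∃ v ∈ V, ∃ i : ℕ, y = v * gb ^ i := by
    intro y
    obtain ⟨⟨y, hy⟩, rfl⟩ := QuotientGroup.mk_surjective y
    obtain ⟨a, ha, i, rfl⟩ := hdec y hy
    refine ⟨π ⟨a, Subgroup.mem_sup_left ha⟩, ⟨_, ha, rfl⟩, (i % (q : ℤ)).toNat, ?_⟩
    have h1 : (⟨a * g ^ i, hy⟩ : H) = ⟨a, Subgroup.mem_sup_left ha⟩ * ⟨g, Subgroup.mem_sup_right (Subgroup.mem_zpowers g)⟩ ^ i :=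
      Subtype.ext (by simp)
    show π ⟨a * g ^ i, hy⟩ = _
    rw [h1, map_mul, map_zpow, ← zpow_natCast,
      Int.toNat_of_nonneg (Int.emod_nonneg _ (by exact_mod_cast hq.ne_zero))]
    congr 1
    exact zpow_eq_zpow_emod' i hgbq
  have hVn : V.Normal := by
    refine ⟨fun v hv y => ?_⟩
    obtain ⟨a, ha, i, rfl⟩ := hdecK y
    have hg' : ∀ n : ℕ, gb ^ n * v * (gb ^ n)⁻¹ ∈ V := by
      intro n
      induction n with
      | zero => simpa using hv
      | succ n ih =>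
          obtain ⟨x, hx, hx'⟩ := ih
          have : gb ^ (n + 1) * v * (gb ^ (n + 1))⁻¹ = gb * (gb ^ n * v * (gb ^ n)⁻¹) * gb⁻¹ := by
            rw [pow_succ' gb n]; group
          rw [this, ← hx']
          refine ⟨⟨g * x * g⁻¹, mul_mem (mul_mem (Subgroup.mem_sup_right (Subgroup.mem_zpowers g)) x.2)
            (inv_mem (Subgroup.mem_sup_right (Subgroup.mem_zpowers g)))⟩,
            (Subgroup.mem_normalizer_iff.mp hgn _).mp hx, ?_⟩
          show π (⟨g, Subgroup.mem_sup_right (Subgroup.mem_zpowers g)⟩ * x *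
            (⟨g, Subgroup.mem_sup_right (Subgroup.mem_zpowers g)⟩ : H)⁻¹) = _
          rw [map_mul, map_mul, map_inv]
    have : a * gb ^ i * v * (a * gb ^ i)⁻¹ = a * (gb ^ i * v * (gb ^ i)⁻¹) * a⁻¹ := by group
    rw [this]
    exact mul_mem (mul_mem ha (hg' i)) (inv_mem ha)
  -- the two classes of elements
  have hVne : ∃ v ∈ V, v ≠ 1 := by
    obtain ⟨x, hx⟩ : ∃ x : Q, x ∉ Z := by
      by_contra hall
      push_neg at hall
      exact hσ1 (MulEquiv.ext fun x => hall x)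
    refine ⟨π ⟨x, Subgroup.mem_sup_left x.2⟩, ⟨_, x.2, rfl⟩, fun h => hx (hQN x ?_)⟩
    exact (QuotientGroup.eq_one_iff (N := N₀.subgroupOf H) _).mp h
  obtain ⟨v₀, hv₀, hv₀1⟩ := hVne
  have hgb1 : gb ≠ 1 := fun h => hv₀1 (hfix v₀ hv₀ (by rw [h]; group))
  have hVpow : ∀ v ∈ V, ∃ l, v ^ p ^ l = 1 := fun v hv => by
    obtain ⟨l, hl⟩ := hVp ⟨v, hv⟩
    exact ⟨l, congrArg Subtype.val hl⟩
  have hout : ∀ v ∈ V, ∀ i : ℕ, ¬ q ∣ i → ∀ w ∈ V, Commute (v * gb ^ i) w → w = 1 := by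
    intro v hv i hi w hw hcm
    -- `V` is abelian
    have hab : Commute v w := by
      obtain ⟨a, ha, rfl⟩ := hv
      obtain ⟨b, hb, rfl⟩ := hw
      have h1 : (a : G) * b * (a : G)⁻¹ * (b : G)⁻¹ ∈ N₀ := by
        have h2 := hΦ (CfsgLib.Frobenius57.pow_mem_frattini hQp (⟨a, ha⟩ : Q) ⟨b, hb⟩).2
        exact Subgroup.mem_sup_left ⟨_, h2, rfl⟩
      have h3 : π (a * b * a⁻¹ * b⁻¹) = 1 := (QuotientGroup.eq_one_iff _).mpr h1
      rw [map_mul, map_mul, map_mul, map_inv, map_inv] at h3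
      exact commutatorElement_eq_one_iff_mul_comm.mp (by simpa [commutatorElement_def] using h3)
    have h1 : Commute (gb ^ i) w := by
      have := (hab.inv_left).mul_left hcm
      simpa using this
    obtain ⟨t, -, ht⟩ := Nat.exists_mul_mod_eq_one_of_coprime (hq.coprime_iff_not_dvd.mpr hi).symm hq.one_lt
    have h2 := h1.pow_left t
    rw [← pow_mul, ← Nat.mod_add_div (i * t) q, ht, pow_add, pow_mul, hgbq, one_pow, mul_one,
      pow_one] at h2
    exact hfix w hw h2.eq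
  have hmemV : ∀ v ∈ V, ∀ i : ℕ, q ∣ i → v * gb ^ i ∈ V := fun v hv i ⟨t, ht⟩ => by
    rw [ht, pow_mul, hgbq, one_pow, mul_one]; exact hv
  -- `O_{p'}` of the section is trivial
  have hcore : Cfsg.pPrimeCore p (H ⧸ N₀.subgroupOf H) = ⊥ := by
    set R := Cfsg.pPrimeCore p (H ⧸ N₀.subgroupOf H)
    have hRc : ¬ p ∣ Nat.card R := CfsgLib.Constrained.pPrimeCore_not_dvd
    haveI hRn : R.Normal := CfsgLib.Constrained.instNormalPPrimeCore p
    rw [Subgroup.eq_bot_iff_forall]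
    intro y hy
    obtain ⟨v, hv, i, rfl⟩ := hdecK y
    by_cases hi : q ∣ i
    · obtain ⟨l, hl⟩ := hVpow _ (hmemV v hv i hi)
      exact orderOf_eq_one_iff.mp (Nat.eq_one_of_dvd_coprimes
        ((hp.coprime_iff_not_dvd.mpr hRc).pow_left l) (orderOf_dvd_of_pow_eq_one hl)
        (Subgroup.orderOf_dvd_natCard _ hy))
    · exfalso
      refine hv₀1 (hout v hv i hi v₀ hv₀ ?_)
      obtain ⟨l, hl⟩ := hVpow v₀ hv₀
      have hd : Disjoint R V := by
        obtain ⟨n, hn⟩ := hVp.exists_card_eq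
        refine disjoint_iff.mpr (Subgroup.inf_eq_bot_of_coprime ?_)
        rw [hn]
        exact ((hp.coprime_iff_not_dvd.mpr hRc).pow_left n).symm
      exact Subgroup.commute_of_normal_of_disjoint R V hRn hVn hd _ _ hy hv₀
  obtain ⟨x, hx⟩ := hsec H (N₀.subgroupOf H) hcore
  have hpE : p ∣ Monoid.exponent (H ⧸ N₀.subgroupOf H) := by
    obtain ⟨l, hl⟩ := hVpow v₀ hv₀
    obtain ⟨l', -, hl'⟩ := (Nat.dvd_prime_pow hp).mp (orderOf_dvd_of_pow_eq_one hl)
    refine dvd_trans ?_ (Monoid.order_dvd_exponent v₀)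
    rcases Nat.eq_zero_or_pos l' with h0 | h0
    · exact absurd (orderOf_eq_one_iff.mp (by rw [hl', h0, pow_zero])) hv₀1
    · rw [hl']; exact dvd_pow_self p h0.ne'
  have hqE : q ∣ Monoid.exponent (H ⧸ N₀.subgroupOf H) := by
    rw [← orderOf_eq_prime hgbq hgb1]; exact Monoid.order_dvd_exponent gb
  rw [← hx] at hpE hqE
  obtain ⟨v, hv, i, rfl⟩ := hdecK x
  by_cases hi : q ∣ i
  · obtain ⟨l, hl⟩ := hVpow _ (hmemV v hv i hi)
    exact hqp ((Nat.prime_dvd_prime_iff_eq hq hp).mp (hq.dvd_of_dvd_pow (hqE.trans (orderOf_dvd_of_pow_eq_one hl))))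
  · set x := v * gb ^ i with hxdef
    set w := x ^ (orderOf x / p) with hw
    have hwo : orderOf w = p := orderOf_pow_orderOf_div (orderOf_pos x).ne' hpE
    -- a `p`-element lies in `V`
    have hwV : w ∈ V := by
      obtain ⟨a, ha, n, hn⟩ := hdecK w
      by_cases hn' : q ∣ n
      · rw [hn]; exact hmemV a ha n hn'
      · exfalso
        have h3 : QuotientGroup.mk' V w ^ p = 1 := by rw [← map_pow, ← hwo, pow_orderOf_eq_one, map_one]
        have ha1 : QuotientGroup.mk' V a = 1 := (QuotientGroup.eq_one_iff a).mpr ha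
        rw [hn, map_mul, ha1, one_mul] at h3
        have h4 : QuotientGroup.mk' V (gb ^ n) ^ q = 1 := by
          rw [← map_pow, ← pow_mul, mul_comm, pow_mul, hgbq, one_pow, map_one]
        have h5 : gb ^ n ∈ V := (QuotientGroup.eq_one_iff _).mp (orderOf_eq_one_iff.mp
          (Nat.eq_one_of_dvd_coprimes ((Nat.coprime_primes hp hq).mpr hqp.symm)
            (orderOf_dvd_of_pow_eq_one h3) (orderOf_dvd_of_pow_eq_one h4)))
        obtain ⟨l, hl⟩ := hVpow _ h5
        have h6 : gb ^ n = 1 := orderOf_eq_one_iff.mp (Nat.eq_one_of_dvd_coprimes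
          (((Nat.coprime_primes hp hq).mpr hqp.symm).pow_left l)
          (orderOf_dvd_of_pow_eq_one hl)
          (orderOf_dvd_of_pow_eq_one (by rw [← pow_mul, mul_comm, pow_mul, hgbq, one_pow])))
        exact hn' (orderOf_eq_prime hgbq hgb1 ▸ orderOf_dvd_of_pow_eq_one h6)
    have hw1 : w = 1 := hout v hv i hi w hwV (Commute.self_pow x _)
    rw [hw1, orderOf_one] at hwo
    exact hp.one_lt.ne hwo


/-- Let G be a finite group and p a prime. Then G has a normal p-complement if and only if every section K = H/N of G (N a normal subgroup of a subgroup H) whose largest normal subgroup of order prime to p is trivial contains an element whose order equals the exponent of K. -/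
theorem result {G : Type*} [Group G] [Finite G] (p : ℕ) [Fact p.Prime] :
    Cfsg.HasNormalPComplement p G ↔
      ∀ (H : Subgroup G) (N : Subgroup H) [N.Normal], Cfsg.pPrimeCore p (H ⧸ N) = ⊥ →
        ∃ k : H ⧸ N, orderOf k = Monoid.exponent (H ⧸ N) := by
  have hp : p.Prime := Fact.out
  constructor
  · intro h H N _ hcore
    have hK : Cfsg.HasNormalPComplement p (H ⧸ N) :=
      CfsgLib.Transfer.hasNormalPComplement_quotient (CfsgLib.Transfer.hasNormalPComplement_subgroup h H) N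
    obtain ⟨M, hM, hMc, k, hk⟩ := CfsgLib.Transfer.hasNormalPComplement_iff_exists.mp hK
    have hM1 : M = ⊥ := by
      have h1 := CfsgLib.Constrained.le_pPrimeCore hM hMc
      rwa [hcore, le_bot_iff] at h1
    rw [hM1, Subgroup.index_bot] at hk
    obtain ⟨x, hx⟩ := hp.exists_orderOf_eq_pow_factorization_exponent (H ⧸ N)
    refine ⟨x, ?_⟩
    have hE : Monoid.exponent (H ⧸ N) ∣ p ^ k := hk ▸ Group.exponent_dvd_nat_card
    obtain ⟨e, -, he⟩ := (Nat.dvd_prime_pow hp).mp hE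
    rw [hx, he, hp.factorization_pow, Finsupp.single_eq_same]
  · intro hsec
    by_contra hnot
    exact no_section hnot (fun H N _ h => hsec H N h)

end Cfsg.Agent.S4238
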