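import Cfsg.Statements.S4242
import Cfsg.Agent.Hughes.Kegel
import Cfsg.Agent.Transfer.Frobenius
import Cfsg.Agent.Coprime44.InvariantSylow

set_option autoImplicit false
open Cfsg

namespace Cfsg.Agent.S4242

theorem exists_coatom_ge {G : Type*} [Group G] [Finite G] {H : Subgroup G} (h : H ≠ ⊤) :
    ∃ M : Subgroup G, IsCoatom M ∧ H ≤ M :=
  (eq_top_or_exists_le_coatom H).resolve_left h

theorem commute_of_nilpotent {G : Type*} [Group G] [Finite G] [Group.IsNilpotent G] {p r : ℕ}
    [Fact p.Prime] [Fact r.Prime] (hpr : p ≠ r) {A B : Subgroup G} (hA : IsPGroup p A)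
    (hB : IsPGroup r B) {a b : G} (ha : a ∈ A) (hb : b ∈ B) : a * b = b * a := by
  obtain ⟨P, hP⟩ := hA.exists_le_sylow
  obtain ⟨R, hR⟩ := hB.exists_le_sylow
  have h := (Group.isNilpotent_of_finite_tfae (G := G)).out 0 3 rfl rfl
  exact Subgroup.commute_of_normal_of_disjoint _ _ (h.mp inferInstance p inferInstance P)
    (h.mp inferInstance r inferInstance R)
    (IsPGroup.disjoint_of_ne p r hpr _ _ P.2 R.2) a b (hP ha) (hR hb)

theorem case_product {G : Type*} [Group G] [Finite G] {p : ℕ} [Fact p.Prime] {M Z K : Subgroup G}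
    [Z.Normal] [K.Normal] (hM : IsCoatom M) (hd : p ∣ Nat.card M) (hinf : Z ⊓ K = ⊥) (hsup : Z ⊔ K = ⊤)
    (hcard : Nat.card Z = p) (hmin : Cfsg.IsMinimalNonNilpotent K) (hpK : ¬ p ∣ Nat.card K) :
    Group.IsNilpotent M := by
  have hcomm : ∀ z ∈ Z, ∀ k ∈ K, z * k = k * z := fun z hz k hk =>
    Subgroup.commute_of_normal_of_disjoint Z K inferInstance inferInstance
      (disjoint_iff.mpr hinf) z k hz hk
  obtain ⟨x, hx⟩ := exists_prime_orderOf_dvd_card' p hd
  obtain ⟨z, hz, k, hk, hzk⟩ := Subgroup.mem_sup_of_normal_right.mp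
    (show (x : G) ∈ Z ⊔ K from hsup ▸ Subgroup.mem_top _)
  have hz1 : z ^ p = 1 := by
    have := congrArg Subtype.val (pow_card_eq_one' (x := (⟨z, hz⟩ : Z)))
    simpa [hcard] using this
  have hk1 : k ^ p = 1 := by
    have h : (x : G) ^ p = 1 := by rw [← hx, ← Subgroup.orderOf_coe]; exact pow_orderOf_eq_one _
    rwa [← hzk, (show Commute z k from hcomm z hz k hk).mul_pow, hz1, one_mul] at h
  have hk0 : k = 1 := orderOf_eq_one_iff.mp (Nat.eq_one_of_dvd_coprimes
    ((Fact.out : p.Prime).coprime_iff_not_dvd.mpr hpK) (orderOf_dvd_of_pow_eq_one hk1)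
    (Subgroup.orderOf_dvd_natCard _ hk))
  rw [hk0, mul_one] at hzk
  have hZM : Z ≤ M := by
    intro y hy
    have hne : (⟨z, hz⟩ : Z) ≠ 1 := by
      intro h
      rw [show z = 1 from congrArg Subtype.val h] at hzk
      rw [← Subgroup.orderOf_coe, ← hzk, orderOf_one] at hx
      exact (Fact.out : p.Prime).one_lt.ne hx
    have := mem_zpowers_of_prime_card hcard (g' := (⟨y, hy⟩ : Z)) hne
    obtain ⟨i, hi⟩ := this
    have e : z ^ i = y := congrArg Subtype.val hi
    rw [← e, hzk]
    exact zpow_mem x.2 i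
  -- `M = Z * (M ⊓ K)`
  let L : Subgroup K := M.subgroupOf K
  have hL : L ≠ ⊤ := fun h => hM.1 (eq_top_iff.mpr (hsup ▸ sup_le hZM (Subgroup.subgroupOf_eq_top.mp h)))
  haveI : Group.IsNilpotent L := hmin.2 L hL
  haveI : Group.IsNilpotent Z := IsPGroup.isNilpotent (p := p) (IsPGroup.of_card (n := 1) (by rw [pow_one, hcard]))
  let f : Z × L →* M :=
    { toFun := fun a => ⟨(a.1 : G) * ((a.2 : K) : G), mul_mem (hZM a.1.2) a.2.2⟩
      map_one' := Subtype.ext (by simp)
      map_mul' := fun a b => Subtype.ext (by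
        simp only [Prod.fst_mul, Prod.snd_mul, Subgroup.coe_mul]
        have h := hcomm (b.1 : G) b.1.2 ((a.2 : K) : G) (a.2 : K).2
        rw [mul_assoc, mul_assoc, ← mul_assoc (b.1 : G), h, mul_assoc]) }
  refine Group.nilpotent_of_surjective f fun m => ?_
  obtain ⟨a, ha, b, hb, hab⟩ := Subgroup.mem_sup_of_normal_right.mp
    (show (m : G) ∈ Z ⊔ K from hsup ▸ Subgroup.mem_top _)
  have hbM : b ∈ M := by
    have : b = a⁻¹ * (m : G) := by rw [← hab]; group
    rw [this]; exact mul_mem (inv_mem (hZM ha)) m.2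
  exact ⟨(⟨a, ha⟩, ⟨⟨b, hb⟩, hbM⟩), Subtype.ext hab⟩

theorem case_normal {G : Type*} [Group G] [Finite G] {p : ℕ} [Fact p.Prime] (hnil : ¬ Group.IsNilpotent G)
    (hsub : ∀ H : Subgroup G, H ≠ ⊤ → p ∣ Nat.card H → Group.IsNilpotent H)
    (hX : ∃ X : Subgroup G, X.Normal ∧ X ≠ ⊥ ∧ IsPGroup p X) :
    Cfsg.IsMinimalNonNilpotent G ∨
      ∃ Z K : Subgroup G, Z.Normal ∧ K.Normal ∧ Z ⊓ K = ⊥ ∧ Z ⊔ K = ⊤ ∧ Nat.card Z = p ∧
        Cfsg.IsMinimalNonNilpotent K ∧ ¬ p ∣ Nat.card K := by
  classical
  by_cases hall : ∀ M : Subgroup G, IsCoatom M → p ∣ Nat.card M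
  · refine Or.inl ⟨hnil, fun H hH => ?_⟩
    obtain ⟨M, hMc, hle⟩ := exists_coatom_ge hH
    haveI := hsub M hMc.1 (hall M hMc)
    exact Group.nilpotent_of_mulEquiv (Subgroup.subgroupOfEquivOfLe hle)
  push_neg at hall
  obtain ⟨M, hMc, hMp⟩ := hall
  obtain ⟨X0, hX0n, hX0b, hX0p⟩ := hX
  obtain ⟨X, hXle, hXmin⟩ := exists_le_minimal hX0n hX0b hX0p
  obtain ⟨hXn, hXb, hXp⟩ := hXmin.1
  haveI := hXn
  have hXM : Disjoint X M := by
    obtain ⟨k, hk⟩ := hXp.exists_card_eq
    refine disjoint_iff.mpr (Subgroup.inf_eq_bot_of_coprime ?_)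
    rw [hk]
    exact Nat.Coprime.pow_left _ ((Fact.out : p.Prime).coprime_iff_not_dvd.mpr hMp)
  have htop : X ⊔ M = ⊤ := by
    refine hMc.2 _ (lt_of_le_of_ne le_sup_right fun h => hXb ?_)
    have hle : X ≤ M := h ▸ le_sup_left
    rw [← inf_eq_left.mpr hle]
    exact hXM.eq_bot
  have hXd : p ∣ Nat.card X := by
    obtain ⟨k, hk⟩ := hXp.exists_card_eq
    rcases Nat.eq_zero_or_pos k with h0 | h0
    · exact absurd (Subgroup.card_eq_one.mp (by rw [hk, h0, pow_zero])) hXb
    · rw [hk]; exact dvd_pow_self p h0.ne'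
  -- proper subgroups of `M` centralize `X`
  have hcent : ∀ H : Subgroup G, H < M → ∀ h ∈ H, ∀ x ∈ X, h * x = x * h := by
    intro H hH
    have hne : X ⊔ H ≠ ⊤ := by
      intro h
      refine hH.not_ge fun m hm => ?_
      obtain ⟨a, ha, b, hb, hab⟩ := Subgroup.mem_sup_of_normal_left.mp (show m ∈ X ⊔ H from h ▸ Subgroup.mem_top m)
      have haM : a ∈ M := by
        have : a = m * b⁻¹ := by rw [← hab]; group
        rw [this]; exact mul_mem hm (inv_mem (hH.le hb))
      have : a = 1 := Subgroup.disjoint_def.mp hXM ha haM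
      rw [← hab, this, one_mul]; exact hb
    haveI := hsub _ hne (hXd.trans (Subgroup.card_dvd_of_le le_sup_left))
    intro h hh x hx
    induction hh' : orderOf h using Nat.recOnPosPrimePosCoprime generalizing h with
    | zero => exact absurd hh' (orderOf_pos h).ne'
    | one => rw [orderOf_eq_one_iff.mp hh']; simp
    | prime_pow r n hr hn =>
        haveI := Fact.mk hr
        have hrp : p ≠ r := by
          rintro rfl
          exact hMp ((dvd_pow_self p hn.ne').trans (hh' ▸ Subgroup.orderOf_dvd_natCard M (hH.le hh)))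
        have hA : IsPGroup p ↥(X.subgroupOf (X ⊔ H)) :=
          hXp.comap_of_injective _ (Subgroup.subtype_injective _)
        have hB : IsPGroup r ↥(Subgroup.zpowers (⟨h, Subgroup.mem_sup_right hh⟩ : ↥(X ⊔ H))) :=
          IsPGroup.of_card (n := n) (by rw [Nat.card_zpowers, ← Subgroup.orderOf_coe]; exact hh')
        exact (congrArg Subtype.val (commute_of_nilpotent hrp hA hB
          (a := (⟨x, Subgroup.mem_sup_left hx⟩ : ↥(X ⊔ H))) hx (Subgroup.mem_zpowers _))).symm
    | coprime a b ha hb hab iha ihb =>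
        have h1 : orderOf (h ^ b) = a := by
          rw [orderOf_pow' _ (by omega), hh', Nat.gcd_mul_left_left, Nat.mul_div_cancel _ (by omega)]
        have h2 : orderOf (h ^ a) = b := by
          rw [orderOf_pow' _ (by omega), hh', Nat.gcd_mul_right_left, Nat.mul_div_cancel_left _ (by omega)]
        have c1 : Commute (h ^ b) x := iha _ (pow_mem hh b) h1
        have c2 : Commute (h ^ a) x := ihb _ (pow_mem hh a) h2
        obtain ⟨s, t, hst⟩ : ∃ s t : ℤ, (b : ℤ) * s + (a : ℤ) * t = 1 :=
          ⟨Nat.gcdA b a, Nat.gcdB b a, by rw [← Nat.gcd_eq_gcd_ab]; simpa using Nat.Coprime.symm hab⟩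
        have e : h = (h ^ b) ^ s * (h ^ a) ^ t := by
          rw [← zpow_natCast, ← zpow_natCast, ← zpow_mul, ← zpow_mul, ← zpow_add, hst, zpow_one]
        rw [e]
        exact ((c1.zpow_left s).mul_left (c2.zpow_left t)).eq
  by_cases hXMc : ∀ m ∈ M, ∀ x ∈ X, m * x = x * m
  · -- direct product
    haveI hMn : M.Normal := by
      refine Subgroup.normalizer_eq_top_iff.mp (eq_top_iff.mpr (htop ▸ sup_le (fun x hx => ?_) Subgroup.le_normalizer))
      exact Subgroup.mem_normalizer_iff.mpr fun m =>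
        ⟨fun hm => by rw [← hXMc m hm x hx]; simpa using hm, fun hm => by
          have := hXMc _ hm x hx
          have e : x * m * x⁻¹ = m := by
            have h2 : x⁻¹ * (x * m * x⁻¹) * x = x * m * x⁻¹ := by rw [mul_assoc, this]; group
            calc x * m * x⁻¹ = x⁻¹ * (x * m * x⁻¹) * x := h2.symm
              _ = m := by group
          rwa [e] at hm⟩
    have hXcard : Nat.card X = p := by
      obtain ⟨x, hx⟩ := exists_prime_orderOf_dvd_card' p hXd
      have hcentral : ∀ g : G, Commute (x : G) g := by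
        intro g
        obtain ⟨a, ha, b, hb, rfl⟩ := Subgroup.mem_sup_of_normal_left.mp (show g ∈ X ⊔ M from htop ▸ Subgroup.mem_top g)
        refine Commute.mul_right ?_ (hXMc b hb x x.2).symm
        by_contra hnc
        -- the centre of `X` is a nontrivial normal subgroup inside `X`
        haveI : Nontrivial X := (Subgroup.nontrivial_iff_ne_bot X).mpr hXb
        have hZ : (Subgroup.center X).map X.subtype = X := by
          haveI := hXp.center_nontrivial
          refine le_antisymm (Subgroup.map_subtype_le _) (hXmin.2 ⟨inferInstance, ?_, ?_⟩ (Subgroup.map_subtype_le _))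
          · rw [Ne, Subgroup.map_eq_bot_iff_of_injective _ X.subtype_injective]
            exact (Subgroup.nontrivial_iff_ne_bot _).mp inferInstance
          · exact hXp.to_le (Subgroup.map_subtype_le _)
        obtain ⟨y, hy, hya⟩ := (show (x : G) ∈ (Subgroup.center X).map X.subtype from hZ.symm ▸ x.2)
        apply hnc
        have hyx : y = x := Subtype.ext hya
        subst hyx
        exact (congrArg Subtype.val (Subgroup.mem_center_iff.mp hy ⟨a, ha⟩)).symm
      have hord : orderOf (x : G) = p := by rw [Subgroup.orderOf_coe, hx]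
      have hnorm : (Subgroup.zpowers (x : G)).Normal := ⟨fun y hy g => by
        obtain ⟨i, rfl⟩ := hy
        rw [((hcentral g).zpow_left i).symm.eq, mul_inv_cancel_right]
        exact ⟨i, rfl⟩⟩
      have hle : Subgroup.zpowers (x : G) ≤ X := Subgroup.zpowers_le.mpr x.2
      have := hXmin.2 ⟨hnorm, by
        rw [Ne, Subgroup.zpowers_eq_bot]; intro h; rw [h, orderOf_one] at hord
        exact (Fact.out : p.Prime).one_lt.ne hord, hXp.to_le hle⟩ hle
      rw [le_antisymm this hle, Nat.card_zpowers, hord]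
    refine Or.inr ⟨X, M, inferInstance, hMn, hXM.eq_bot, htop, hXcard, ⟨?_, ?_⟩, hMp⟩
    · intro hMnil
      haveI := hMnil
      haveI : Group.IsNilpotent X := hXp.isNilpotent
      let f : X × M →* G :=
        { toFun := fun a => (a.1 : G) * (a.2 : G)
          map_one' := by simp
          map_mul' := fun a b => by
            simp only [Prod.fst_mul, Prod.snd_mul, Subgroup.coe_mul]
            rw [mul_assoc, mul_assoc, ← mul_assoc (b.1 : G), ← hXMc _ a.2.2 _ b.1.2, mul_assoc] }
      refine hnil (Group.nilpotent_of_surjective f fun g => ?_)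
      obtain ⟨a, ha, b, hb, rfl⟩ := Subgroup.mem_sup_of_normal_left.mp (show g ∈ X ⊔ M from htop ▸ Subgroup.mem_top g)
      exact ⟨(⟨a, ha⟩, ⟨b, hb⟩), rfl⟩
    · intro H hH
      have hlt : H.map M.subtype < M := lt_of_le_of_ne (Subgroup.map_subtype_le H) fun h => hH (by
        apply Subgroup.map_injective M.subtype_injective
        rw [h, ← MonoidHom.range_eq_map, Subgroup.range_subtype])
      haveI : Group.IsNilpotent ↥(X ⊔ H.map M.subtype) := by
        refine hsub _ (fun h => hlt.not_ge fun m hm => ?_) (hXd.trans (Subgroup.card_dvd_of_le le_sup_left))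
        obtain ⟨a, ha, b, hb, hab⟩ := Subgroup.mem_sup_of_normal_left.mp
          (show m ∈ X ⊔ H.map M.subtype from h ▸ Subgroup.mem_top m)
        have haM : a ∈ M := by
          have : a = m * b⁻¹ := by rw [← hab]; group
          rw [this]; exact mul_mem hm (inv_mem (hlt.le hb))
        have : a = 1 := Subgroup.disjoint_def.mp hXM ha haM
        rw [← hab, this, one_mul]; exact hb
      haveI : Group.IsNilpotent ↥(H.map M.subtype) :=
        Group.nilpotent_of_mulEquiv (Subgroup.subgroupOfEquivOfLe (le_sup_right : H.map M.subtype ≤ X ⊔ H.map M.subtype))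
      exact Group.nilpotent_of_mulEquiv (H.equivMapOfInjective M.subtype M.subtype_injective).symm
  · -- `M` is cyclic
    push_neg at hXMc
    obtain ⟨m, hm, x, hx, hmx⟩ := hXMc
    have hMcyc : M = Subgroup.zpowers m := by
      by_contra hne
      exact hmx (hcent _ (lt_of_le_of_ne (Subgroup.zpowers_le.mpr hm) (Ne.symm hne)) m
        (Subgroup.mem_zpowers m) x hx)
    refine Or.inl ⟨hnil, fun H hH => ?_⟩
    by_cases hd : p ∣ Nat.card H
    · exact hsub H hH hd
    · obtain ⟨N, hNc, hHN⟩ := exists_coatom_ge hH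
      by_cases hNd : p ∣ Nat.card N
      · haveI := hsub N hNc.1 hNd
        exact Group.nilpotent_of_mulEquiv (Subgroup.subgroupOfEquivOfLe hHN)
      · -- `N` maps injectively into the cyclic group `G ⧸ X`
        haveI : IsCyclic M := by rw [hMcyc]; infer_instance
        haveI : IsCyclic (G ⧸ X) := isCyclic_of_surjective
          ((QuotientGroup.mk' X).comp M.subtype) (by
            intro y
            obtain ⟨g, rfl⟩ := QuotientGroup.mk_surjective y
            obtain ⟨a, ha, b, hb, rfl⟩ := Subgroup.mem_sup_of_normal_left.mp (show g ∈ X ⊔ M from htop ▸ Subgroup.mem_top g)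
            exact ⟨⟨b, hb⟩, by simp [(QuotientGroup.eq_one_iff a).mpr ha]⟩)
        haveI : Group.IsNilpotent (G ⧸ X) :=
          letI := IsCyclic.commGroup (α := G ⧸ X)
          CommGroup.isNilpotent
        refine Subgroup.isNilpotent_of_ker_le_center ((QuotientGroup.mk' X).comp H.subtype) ?_
        intro y hy
        have hyX : (y : G) ∈ X := (QuotientGroup.eq_one_iff _).mp hy
        have hy1 : (y : G) = 1 := by
          obtain ⟨k, hk⟩ := hXp ⟨y, hyX⟩
          exact orderOf_eq_one_iff.mp (Nat.eq_one_of_dvd_coprimes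
            (((Fact.out : p.Prime).coprime_iff_not_dvd.mpr hd).pow_left k)
            (orderOf_dvd_of_pow_eq_one (congrArg Subtype.val hk)) (Subgroup.orderOf_dvd_natCard H y.2))
        rw [show y = 1 from Subtype.ext hy1]
        exact one_mem _
where
  exists_le_minimal {G : Type _} [Group G] [Finite G] {p : ℕ} {X : Subgroup G} (h1 : X.Normal)
      (h2 : X ≠ ⊥) (h3 : IsPGroup p X) :
      ∃ Y : Subgroup G, Y ≤ X ∧ Minimal (fun Z : Subgroup G => Z.Normal ∧ Z ≠ ⊥ ∧ IsPGroup p Z) Y :=
    exists_minimal_le_of_wellFoundedLT _ X ⟨h1, h2, h3⟩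

theorem case_no_normal {G : Type*} [Group G] [Finite G] {p : ℕ} [Fact p.Prime] (hnil : ¬ Group.IsNilpotent G)
    (hsub : ∀ H : Subgroup G, H ≠ ⊤ → p ∣ Nat.card H → Group.IsNilpotent H) (hpG : p ∣ Nat.card G)
    (hX : ¬ ∃ X : Subgroup G, X.Normal ∧ X ≠ ⊥ ∧ IsPGroup p X) :
    Cfsg.IsMinimalNonNilpotent G ∨
      ∃ Z K : Subgroup G, Z.Normal ∧ K.Normal ∧ Z ⊓ K = ⊥ ∧ Z ⊔ K = ⊤ ∧ Nat.card Z = p ∧
        Cfsg.IsMinimalNonNilpotent K ∧ ¬ p ∣ Nat.card K := by
  classical
  push_neg at hX
  have hdvd : ∀ Q : Subgroup G, IsPGroup p Q → Q ≠ ⊥ → p ∣ Nat.card Q := fun Q hQ hQb => by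
    obtain ⟨k, hk⟩ := hQ.exists_card_eq
    rcases Nat.eq_zero_or_pos k with h0 | h0
    · exact absurd (Subgroup.card_eq_one.mp (by rw [hk, h0, pow_zero])) hQb
    · rw [hk]; exact dvd_pow_self p h0.ne'
  have hnorm : ∀ Q : Subgroup G, IsPGroup p Q → Q ≠ ⊥ → Subgroup.normalizer (Q : Set G) ≠ ⊤ :=
    fun Q hQ hQb h => hX Q (Subgroup.normalizer_eq_top_iff.mp h) hQb hQ
  have hnpc : Cfsg.HasNormalPComplement p G :=
    CfsgLib.Transfer.hasNormalPComplement_of_normalizers fun Q hQ hQb =>
      CfsgLib.Hughes.hasNormalPComplement_of_isNilpotent (hsub _ (hnorm Q hQ hQb)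
        ((hdvd Q hQ hQb).trans (Subgroup.card_dvd_of_le Subgroup.le_normalizer)))
  obtain ⟨P⟩ : Nonempty (Sylow p G) := inferInstance
  obtain ⟨K, hKn, hKP⟩ := CfsgLib.Transfer.exists_isComplement' hnpc P
  haveI := hKn
  have hKc : ¬ p ∣ Nat.card K := hKP.index_eq_card ▸ P.not_dvd_index
  have hKtop : K ≠ ⊤ := fun h => hKc (by rw [h, Subgroup.card_top]; exact hpG)
  have hPb : (P : Subgroup G) ≠ ⊥ := P.ne_bot_of_dvd_card hpG
  -- `K` is nilpotent
  have hKnil : Group.IsNilpotent K := by
    by_contra hKnot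
    have hcentr : (P : Subgroup G) ≤ Subgroup.centralizer (K : Set G) := by
      intro x hx
      suffices h : K ≤ Subgroup.centralizer ({x} : Set G) by
        exact Subgroup.mem_centralizer_iff.mpr fun y hy =>
          Subgroup.mem_centralizer_singleton_iff.mp (h hy)
      suffices h : ((Subgroup.centralizer ({x} : Set G)).subgroupOf K) = ⊤ from
        Subgroup.subgroupOf_eq_top.mp h
      refine Subgroup.eq_top_of_card_eq _ (Nat.dvd_antisymm (Subgroup.card_subgroup_dvd_card _) ?_)
      refine Nat.dvd_iff_prime_pow_dvd_dvd _ _ |>.mpr fun r k hr hrk => ?_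
      haveI := Fact.mk hr
      obtain ⟨R, hR⟩ := CfsgLib.Coprime44.exists_invariant_sylow P.2 hKc Subgroup.le_normalizer_of_normal r
      rcases Nat.eq_zero_or_pos k with rfl | hk0
      · simp
      have hrp : p ≠ r := fun h => hKc (h ▸ (dvd_pow_self r hk0.ne').trans hrk)
      set RG := (R : Subgroup K).map K.subtype with hRG
      have hne : (P : Subgroup G) ⊔ RG ≠ ⊤ := by
        intro h
        apply hKnot
        refine IsPGroup.isNilpotent (p := r) ?_
        have hle : K ≤ RG := fun y hy => by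
          have hy' : y ∈ RG ⊔ (P : Subgroup G) := sup_comm (P : Subgroup G) RG ▸ h ▸ Subgroup.mem_top y
          rw [← SetLike.mem_coe, Subgroup.coe_mul_of_right_le_normalizer_left RG (P : Subgroup G) hR] at hy'
          obtain ⟨a, ha, b, hb, (hab : a * b = y)⟩ := hy'
          have hbK : b ∈ K := by
            have : b = a⁻¹ * y := by rw [← hab]; group
            rw [this]; exact mul_mem (inv_mem (Subgroup.map_subtype_le _ ha)) hy
          have : b = 1 := Subgroup.disjoint_def.mp hKP.disjoint hbK hb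
          rw [← hab, this, mul_one]; exact ha
        exact ((R.2.map K.subtype).to_le hle)
      haveI := hsub _ hne ((hdvd _ P.2 hPb).trans (Subgroup.card_dvd_of_le le_sup_left))
      have hRC : (R : Subgroup K) ≤ (Subgroup.centralizer ({x} : Set G)).subgroupOf K := by
        intro y hy
        refine Subgroup.mem_centralizer_singleton_iff.mpr ?_
        have := commute_of_nilpotent hrp (A := (P : Subgroup G).subgroupOf ((P : Subgroup G) ⊔ RG))
          (B := RG.subgroupOf ((P : Subgroup G) ⊔ RG))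
          (P.2.comap_of_injective _ (Subgroup.subtype_injective _))
          ((R.2.map K.subtype).comap_of_injective _ (Subgroup.subtype_injective _))
          (a := ⟨x, Subgroup.mem_sup_left hx⟩) (b := ⟨y, Subgroup.mem_sup_right ⟨y, hy, rfl⟩⟩) hx ⟨y, hy, rfl⟩
        exact (congrArg Subtype.val this).symm
      refine dvd_trans ?_ (Subgroup.card_dvd_of_le hRC)
      rw [R.card_eq_multiplicity]
      exact pow_dvd_pow r ((hr.pow_dvd_iff_le_factorization Nat.card_pos.ne').mp hrk)
    -- then `P` is normal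
    apply hnorm _ P.2 hPb
    rw [eq_top_iff, ← hKP.sup_eq_top, sup_le_iff]
    refine ⟨fun y hy => Subgroup.mem_normalizer_iff.mpr fun z => ?_, Subgroup.le_normalizer⟩
    constructor
    · intro hz
      have := Subgroup.mem_centralizer_iff.mp (hcentr hz) y hy
      rw [this]; simpa using hz
    · intro hz
      have := Subgroup.mem_centralizer_iff.mp (hcentr hz) y hy
      have e : z = y * z * y⁻¹ :=
        calc z = y⁻¹ * (y * z * y⁻¹ * y) := by group
          _ = y⁻¹ * (y * (y * z * y⁻¹)) := by rw [this]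
          _ = y * z * y⁻¹ := by group
      rw [e]; exact hz
  refine Or.inl ⟨hnil, fun H hH => ?_⟩
  obtain ⟨M, hMc, hHM⟩ := exists_coatom_ge hH
  have hMnil : Group.IsNilpotent M := by
    by_cases hd : p ∣ Nat.card M
    · exact hsub M hMc.1 hd
    · have hMK : M ≤ K := by
        intro m hm
        refine (CfsgLib.Transfer.mem_iff_coprime_of_pPower_index
          (CfsgLib.Transfer.coprime_of_not_dvd hKc) ((hKP.symm.index_eq_card).trans (Classical.choose_spec P.2.exists_card_eq)) m).mpr ?_
        exact CfsgLib.Transfer.coprime_of_not_dvd fun h => hd (h.trans (Subgroup.orderOf_dvd_natCard M hm))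
      haveI := hKnil
      exact Group.nilpotent_of_mulEquiv (Subgroup.subgroupOfEquivOfLe hMK)
  haveI := hMnil
  exact Group.nilpotent_of_mulEquiv (Subgroup.subgroupOfEquivOfLe hHM)


/-- Let G be a finite group and p a prime dividing its order. Every maximal subgroup of G of order divisible by p is nilpotent if and only if G is nilpotent, or G is a minimal non-nilpotent group, or G is the internal direct product of a normal subgroup of order p and a normal minimal non-nilpotent subgroup of order prime to p. -/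
theorem result {G : Type*} [Group G] [Finite G] (p : ℕ) (hp : p.Prime) (hpG : p ∣ Nat.card G) :
    (∀ M : Subgroup G, IsCoatom M → p ∣ Nat.card M → Group.IsNilpotent M) ↔
      (Group.IsNilpotent G ∨ Cfsg.IsMinimalNonNilpotent G ∨
        ∃ Z K : Subgroup G, Z.Normal ∧ K.Normal ∧ Z ⊓ K = ⊥ ∧ Z ⊔ K = ⊤ ∧ Nat.card Z = p ∧
          Cfsg.IsMinimalNonNilpotent K ∧ ¬ p ∣ Nat.card K) := by
  haveI := Fact.mk hp
  constructor
  · intro hM
    by_cases hnil : Group.IsNilpotent G
    · exact Or.inl hnil
    refine Or.inr ?_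
    -- every proper subgroup of order divisible by `p` is nilpotent
    have hsub : ∀ H : Subgroup G, H ≠ ⊤ → p ∣ Nat.card H → Group.IsNilpotent H := fun H hH hd => by
      obtain ⟨M, hMc, hle⟩ := exists_coatom_ge hH
      haveI := hM M hMc (hd.trans (Subgroup.card_dvd_of_le hle))
      exact Group.nilpotent_of_mulEquiv (Subgroup.subgroupOfEquivOfLe hle)
    by_cases hX : ∃ X : Subgroup G, X.Normal ∧ X ≠ ⊥ ∧ IsPGroup p X
    · exact case_normal hnil hsub hX
    · exact case_no_normal hnil hsub hpG hX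
  · rintro (h | h | ⟨Z, K, hZ, hK, hinf, hsup, hcard, hmin, hpK⟩) M hM hd
    · exact inferInstance
    · exact h.2 M hM.1
    · exact case_product hM hd hinf hsup hcard hmin hpK

end Cfsg.Agent.S4242
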