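import Cfsg.Statements.S4245
import Cfsg.Agent.Chars.Apps.Burnside

set_option autoImplicit false
open Cfsg

namespace Cfsg.Agent.S4245

universe u

/-- Cyclic by cyclic 2-group. -/
def CycTwo (A : Type u) [Group A] : Prop :=
  ∃ (B : Subgroup A) (_ : B.Normal), IsCyclic B ∧ IsCyclic (A ⧸ B) ∧ IsPGroup 2 (A ⧸ B)

theorem CycTwo.of_injective {A A' : Type u} [Group A] [Group A'] (f : A' →* A)
    (hf : Function.Injective f) (h : CycTwo A) : CycTwo A' := by
  obtain ⟨B, hB, hc, hq, h2⟩ := h
  have : (B.comap f).Normal := inferInstance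
  let g : A' ⧸ B.comap f →* A ⧸ B := QuotientGroup.map _ _ f le_rfl
  have hg : Function.Injective g := by
    rw [← MonoidHom.ker_eq_bot_iff, QuotientGroup.ker_map, QuotientGroup.map_mk'_self]
  refine ⟨B.comap f, this, ?_, isCyclic_of_injective g hg, IsPGroup.of_injective h2 g hg⟩
  exact isCyclic_of_injective (f.subgroupComap B)
    (fun x y e => Subtype.ext (hf (congrArg Subtype.val e)))

theorem CycTwo.of_surjective {A A' : Type u} [Group A] [Group A'] (f : A →* A')
    (hf : Function.Surjective f) (h : CycTwo A) : CycTwo A' := by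
  obtain ⟨B, hB, hc, hq, h2⟩ := h
  have : (B.map f).Normal := hB.map f hf
  let g : A ⧸ B →* A' ⧸ B.map f := QuotientGroup.map _ _ f (Subgroup.le_comap_map f B)
  have hg : Function.Surjective g := by
    intro y
    refine QuotientGroup.induction_on y fun a' => ?_
    obtain ⟨a, rfl⟩ := hf a'
    exact ⟨QuotientGroup.mk a, rfl⟩
  exact ⟨B.map f, this, isCyclic_of_surjective (f.subgroupMap B) (f.subgroupMap_surjective B),
    isCyclic_of_surjective g hg, h2.of_surjective g hg⟩

theorem relIndex_eq_of_normal {G : Type u} [Group G] [Finite G] (A N : Subgroup G) [N.Normal] :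
    A.relIndex N = A.relIndex (A ⊔ N) := by
  have h1 := Subgroup.relIndex_mul_relIndex ⊥ (A ⊓ N) N bot_le inf_le_right
  have h2 := Subgroup.relIndex_mul_relIndex ⊥ (A ⊓ N) A bot_le inf_le_left
  have h3 := Subgroup.relIndex_mul_relIndex ⊥ A (A ⊔ N) bot_le le_sup_left
  have h4 := Subgroup.relIndex_mul_relIndex ⊥ N (A ⊔ N) bot_le le_sup_right
  have e : N.relIndex (A ⊔ N) = N.relIndex A := by rw [sup_comm, Subgroup.relIndex_sup_left]
  rw [Subgroup.inf_relIndex_right] at h1
  rw [Subgroup.inf_relIndex_left] at h2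
  rw [e, ← h1, ← h3] at h4
  have hA : (⊥ : Subgroup G).relIndex A ≠ 0 := by
    rw [Subgroup.relIndex_bot_left]; exact Nat.card_pos.ne'
  rw [← h2] at h4 hA
  have hne : (⊥ : Subgroup G).relIndex (A ⊓ N) * N.relIndex A ≠ 0 := hA
  exact mul_left_cancel₀ hne (by linarith)

theorem main (n : ℕ) : ∀ (K : Type u) [Group K] [Finite K], Nat.card K = n →
    ∀ (p : ℕ), p.Prime → ∀ (A : Subgroup K), (∃ s, A.index = p ^ s) → CycTwo A →
      Group.IsSolvable K := by
  induction n using Nat.strong_induction_on with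
  | _ n ih =>
  intro K _ _ hcard p hp A hA hC
  subst hcard
  have : Fact p.Prime := ⟨hp⟩
  obtain ⟨s, hs⟩ := hA
  by_cases hex : ∃ N : Subgroup K, N.Normal ∧ N ≠ ⊥ ∧ N ≠ ⊤
  · obtain ⟨N, hN, hb, ht⟩ := hex
    have hprod : Nat.card K = Nat.card (K ⧸ N) * Nat.card N := N.card_eq_card_quotient_mul_card_subgroup
    have h1 : 1 < Nat.card N := (Subgroup.one_lt_card_iff_ne_bot N).mpr hb
    have h2 : 1 < Nat.card (K ⧸ N) := by
      have h0 : N.index ≠ 1 := fun h => ht (Subgroup.index_eq_one.mp h)
      have h0' : N.index ≠ 0 := N.index_ne_zero_of_finite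
      rw [← Subgroup.index_eq_card]
      omega
    have hNs : Group.IsSolvable N := by
      refine ih _ (by rw [hprod]; nlinarith) N rfl p hp (A.subgroupOf N) ?_ ?_
      · have hd : A.relIndex N ∣ p ^ s := by
          rw [relIndex_eq_of_normal, ← hs, ← Subgroup.relIndex_top_right,
            ← Subgroup.relIndex_mul_relIndex A (A ⊔ N) ⊤ le_sup_left le_top]
          exact dvd_mul_right _ _
        obtain ⟨t, -, ht⟩ := (Nat.dvd_prime_pow hp).mp hd
        exact ⟨t, ht⟩
      · let f : A.subgroupOf N →* A :=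
          { toFun := fun x => ⟨x.1.1, x.2⟩, map_one' := rfl, map_mul' := fun _ _ => rfl }
        exact hC.of_injective f fun x y e => Subtype.ext (Subtype.ext (congrArg Subtype.val e :))
    have hQs : Group.IsSolvable (K ⧸ N) := by
      refine ih _ (by rw [hprod]; nlinarith) (K ⧸ N) rfl p hp (A.map (QuotientGroup.mk' N)) ?_ ?_
      · have hd : (A.map (QuotientGroup.mk' N)).index ∣ p ^ s :=
          hs ▸ A.index_map_dvd (QuotientGroup.mk'_surjective N)
        obtain ⟨t, -, ht⟩ := (Nat.dvd_prime_pow hp).mp hd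
        exact ⟨t, ht⟩
      · exact hC.of_surjective _ ((QuotientGroup.mk' N).subgroupMap_surjective A)
    exact Group.isSolvable_of_ker_le_range N.subtype (QuotientGroup.mk' N)
      (by rw [QuotientGroup.ker_mk', Subgroup.range_subtype])
  push Not at hex
  by_cases hab : IsMulCommutative K
  · exact Group.isSolvable_of_comm fun a b => mul_comm' a b
  by_contra hns
  have : Nontrivial K := by
    by_contra hn
    rw [not_nontrivial_iff_subsingleton] at hn
    exact hab ⟨⟨fun a b => Subsingleton.elim _ _⟩⟩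
  have : IsSimpleGroup K := ⟨fun N hN => or_iff_not_imp_left.mpr fun hb => hex N hN hb⟩
  have hburn : ∀ (q k : ℕ), q.Prime → ∀ g : K, g ≠ 1 → ∀ H : Subgroup K,
      (∀ x ∈ H, x * g = g * x) → H.index = q ^ k → False := by
    intro q k hq g hg H hH hidx
    have hle : H ≤ Subgroup.centralizer ({g} : Set K) := fun x hx =>
      Subgroup.mem_centralizer_singleton_iff.mpr (hH x hx)
    obtain ⟨t, -, ht⟩ := (Nat.dvd_prime_pow hq).mp (hidx ▸ Subgroup.index_dvd_of_le hle)
    exact CfsgLib.Chars.Apps.not_prime_pow_index_centralizer_of_isSimpleGroup hab hq g hg ht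
  have hpgrp : ∀ q m : ℕ, q.Prime → Nat.card K = q ^ m → False := by
    intro q m hq hm
    have : Fact q.Prime := ⟨hq⟩
    have := (IsPGroup.of_card hm).isNilpotent
    exact hns inferInstance
  -- the centre of `A` is trivial
  have hZ : ∀ z ∈ A, (∀ x ∈ A, x * z = z * x) → z = 1 := by
    intro z hz hc
    by_contra h
    exact hburn p s hp z h A hc hs
  obtain ⟨B, hBn, hBc, hQc, hQ2⟩ := hC
  have hBabel : ∀ x ∈ B, ∀ y ∈ B, x * y = y * x := by
    intro x hx y hy
    exact congrArg Subtype.val (IsCyclic.commGroup.mul_comm (⟨x, hx⟩ : B) ⟨y, hy⟩)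
  obtain ⟨r, hr⟩ := IsPGroup.iff_card.mp hQ2
  by_cases hBbot : B = ⊥
  · have hcA : ∀ x y : A, x * y = y * x := by
      intro x y
      have e : (QuotientGroup.mk x : A ⧸ B) * QuotientGroup.mk y = QuotientGroup.mk y * QuotientGroup.mk x :=
        IsCyclic.commGroup.mul_comm _ _
      rw [← QuotientGroup.mk_mul, ← QuotientGroup.mk_mul, QuotientGroup.eq, hBbot, Subgroup.mem_bot,
        inv_mul_eq_one] at e
      exact e
    have hAbot : A = ⊥ := by
      rw [eq_bot_iff]
      intro z hz
      exact Subgroup.mem_bot.mpr (hZ z hz fun x hx => congrArg Subtype.val (hcA ⟨x, hx⟩ ⟨z, hz⟩))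
    exact hpgrp p s hp (by rw [← hs, hAbot, Subgroup.index_bot])
  obtain ⟨⟨b, hbB⟩, hb1⟩ :=
    Subgroup.ne_bot_iff_exists_ne_one.mp hBbot
  have hb1' : ((b : A) : K) ≠ 1 := fun e => hb1 (Subtype.ext (Subtype.ext e))
  by_cases hp2 : p = 2
  · subst hp2
    refine hburn 2 (s + r) Nat.prime_two (b : K) hb1' (B.map A.subtype) ?_ ?_
    · rintro _ ⟨x, hx, rfl⟩
      exact congrArg Subtype.val (hBabel x hx b hbB)
    · rw [Subgroup.index_map_subtype, hs, Subgroup.index_eq_card, hr, pow_add, mul_comm]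
  -- `B` has odd order
  have hBodd : ¬ 2 ∣ Nat.card B := by
    intro hd
    have : Fact (Nat.Prime 2) := ⟨Nat.prime_two⟩
    obtain ⟨t, ht⟩ := exists_prime_orderOf_dvd_card' 2 hd
    have ht1 : t ≠ 1 := fun e => by rw [e, orderOf_one] at ht; norm_num at ht
    have huniq : ∀ u : B, orderOf u = 2 → u = t := by
      intro u hu
      classical
      have := Fintype.ofFinite B
      by_contra hne
      have hu1 : u ≠ 1 := fun e => by rw [e, orderOf_one] at hu; norm_num at hu
      have h3 : ({1, t, u} : Finset B).card = 3 :=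
        Finset.card_eq_three.mpr ⟨1, t, u, ht1.symm, hu1.symm, fun e => hne e.symm, rfl⟩
      have hsub : ({1, t, u} : Finset B) ⊆ Finset.univ.filter (fun a : B => a ^ 2 = 1) := by
        intro a ha
        simp only [Finset.mem_insert, Finset.mem_singleton] at ha
        refine Finset.mem_filter.mpr ⟨Finset.mem_univ a, ?_⟩
        rcases ha with rfl | rfl | rfl
        · exact one_pow 2
        · exact ht ▸ pow_orderOf_eq_one a
        · exact hu ▸ pow_orderOf_eq_one a
      have h4 := (Finset.card_le_card hsub).trans (IsCyclic.card_pow_eq_one_le (α := B) (by norm_num))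
      omega
    refine ht1 (Subtype.ext (Subtype.ext (hZ ((t : A) : K) (t : A).2 ?_)))
    intro x hx
    let u : B := ⟨⟨x, hx⟩ * (t : A) * ⟨x, hx⟩⁻¹, hBn.conj_mem _ t.2 _⟩
    have hu : orderOf u = 2 := by
      rw [← Subgroup.orderOf_coe, ← ht, ← Subgroup.orderOf_coe t]
      exact orderOf_injective (MulAut.conj (⟨x, hx⟩ : A)).toMonoidHom
        (MulAut.conj (⟨x, hx⟩ : A)).injective (t : A)
    have := congrArg (fun v : B => ((v : A) : K)) (huniq u hu)
    simp only [u, Subgroup.coe_mul, InvMemClass.coe_inv] at this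
    exact mul_inv_eq_iff_eq_mul.mp this
  have : Fact (Nat.Prime 2) := ⟨Nat.prime_two⟩
  obtain ⟨P⟩ : Nonempty (Sylow 2 A) := inferInstance
  have hPcyc : IsCyclic (P : Subgroup A) := by
    refine isCyclic_of_injective ((QuotientGroup.mk' B).comp (P : Subgroup A).subtype) ?_
    rw [← MonoidHom.ker_eq_bot_iff, eq_bot_iff]
    intro x hx
    rw [MonoidHom.mem_ker, MonoidHom.comp_apply, QuotientGroup.mk'_apply,
      QuotientGroup.eq_one_iff] at hx
    obtain ⟨j, hj⟩ := IsPGroup.iff_orderOf.mp P.isPGroup' x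
    have hxB : orderOf (x : A) ∣ Nat.card B := by
      rw [← Subgroup.orderOf_mk (x : A) hx]; exact orderOf_dvd_natCard _
    rw [Subgroup.orderOf_coe, hj] at hxB
    rcases j with - | j
    · exact Subgroup.mem_bot.mpr (orderOf_eq_one_iff.mp (by simpa using hj))
    · exact absurd ((dvd_pow_self 2 j.succ_ne_zero).trans hxB) hBodd
  have h2idx : ¬ 2 ∣ A.index := by
    rw [hs]
    intro h
    exact hp2 ((Nat.prime_dvd_prime_iff_eq Nat.prime_two hp).mp (Nat.prime_two.dvd_of_dvd_pow h)).symm
  let S : Sylow 2 K := IsPGroup.toSylow (P.isPGroup'.map A.subtype) (by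
    rw [Subgroup.index_map_subtype]
    exact fun h => (Nat.prime_two.dvd_mul.mp h).elim P.not_dvd_index h2idx)
  have hScyc : IsCyclic (S : Subgroup K) :=
    isCyclic_of_surjective _ (A.subtype.subgroupMap_surjective (P : Subgroup A))
  have hScomm : IsMulCommutative (S : Subgroup K) := ⟨⟨IsCyclic.commGroup.mul_comm⟩⟩
  by_cases h2 : 2 ∣ Nat.card K
  · have hmin : (Nat.card K).minFac = 2 :=
      le_antisymm (Nat.minFac_le_of_dvd le_rfl h2) (Nat.minFac_prime (Finite.one_lt_card).ne').two_le
    have hK := MonoidHom.ker_transferSylow_isComplement' S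
      (IsCyclic.normalizer_le_centralizer hmin hScyc)
    rcases (MonoidHom.transferSylow S (IsCyclic.normalizer_le_centralizer hmin hScyc)).normal_ker.eq_bot_or_eq_top with h | h
    · rw [h] at hK
      exact hab ⟨⟨fun a b => by
        have htop : (S : Subgroup K) = ⊤ := Subgroup.isComplement'_bot_left.mp hK
        exact congrArg Subtype.val (hScomm.is_comm.comm (⟨a, htop ▸ Subgroup.mem_top a⟩ : (S : Subgroup K))
          ⟨b, htop ▸ Subgroup.mem_top b⟩)⟩⟩
    · rw [h] at hK
      exact (S.ne_bot_of_dvd_card h2) (Subgroup.isComplement'_top_left.mp hK)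
  · -- `A = B` is abelian
    have hr0 : r = 0 := by
      by_contra h0
      refine h2 (Dvd.dvd.trans ?_ (A.card_subgroup_dvd_card))
      rw [Subgroup.card_eq_card_quotient_mul_card_subgroup B, hr]
      exact (dvd_pow_self 2 h0).mul_right _
    have htop : B = ⊤ := Subgroup.index_eq_one.mp (by rw [Subgroup.index_eq_card, hr, hr0, pow_zero])
    exact hb1' (hZ _ (b : A).2 fun x hx =>
      congrArg Subtype.val (hBabel ⟨x, hx⟩ (htop ▸ Subgroup.mem_top _) b hbB))

/-- Let G be a finite group with a subgroup A of prime-power index. Suppose A has a normal cyclic subgroup B such that A/B is cyclic of order a power of 2. Then G is solvable. -/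
theorem result {G : Type*} [Group G] [Finite G] (A : Subgroup G) (p s : ℕ) (hp : p.Prime) (hA : A.index = p ^ s)
    (B : Subgroup A) [B.Normal] (hB : IsCyclic B) (hAB : IsCyclic (A ⧸ B)) (r : ℕ) (hr : Nat.card (A ⧸ B) = 2 ^ r) :
    Group.IsSolvable G :=
  main _ G rfl p hp A ⟨s, hA⟩ ⟨B, inferInstance, hB, hAB, IsPGroup.of_card hr⟩

end Cfsg.Agent.S4245
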