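import Cfsg.Statements.S4250
import Cfsg.Agent.Alperin.Induction
import Mathlib.GroupTheory.Focal

set_option autoImplicit false
open Cfsg
open scoped commutatorElement

namespace Cfsg.Agent.S4250

/-- Let P be a Sylow p-subgroup of a finite group G. Call an intersection H = P ∩ Q with a Sylow p-subgroup Q tame when N_P(H) and N_Q(H) are Sylow p-subgroups of N_G(H). Then P ∩ G′ is generated by [P, N_G(P)] together with the commutator subgroups [P ∩ Q, ⟨x⟩] for all tame intersections P ∩ Q and all p-elements x of N_G(P ∩ Q). -/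
theorem result {G : Type*} [Group G] [Finite G] (p : ℕ) [Fact p.Prime] (P : Sylow p G) :
    (P : Subgroup G) ⊓ commutator G =
      ⁅(P : Subgroup G), Subgroup.normalizer ((P : Subgroup G) : Set G)⁆ ⊔
        ⨆ (Q : Sylow p G) (_ : (¬ p ∣ ((P : Subgroup G) ⊓ Subgroup.normalizer (((P : Subgroup G) ⊓ (Q : Subgroup G) : Subgroup G) : Set G)).relIndex (Subgroup.normalizer (((P : Subgroup G) ⊓ (Q : Subgroup G) : Subgroup G) : Set G)) ∧ ¬ p ∣ ((Q : Subgroup G) ⊓ Subgroup.normalizer (((P : Subgroup G) ⊓ (Q : Subgroup G) : Subgroup G) : Set G)).relIndex (Subgroup.normalizer (((P : Subgroup G) ⊓ (Q : Subgroup G) : Subgroup G) : Set G))))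
          (x : G) (_ : x ∈ Subgroup.normalizer (((P : Subgroup G) ⊓ (Q : Subgroup G) : Subgroup G) : Set G) ∧ ∃ k : ℕ, orderOf x = p ^ k),
          ⁅(P : Subgroup G) ⊓ (Q : Subgroup G), Subgroup.zpowers x⁆ := by
  refine le_antisymm ?_ ?_
  · rw [inf_comm, Subgroup.commutator_inf_eq_focalSubgroup P, Subgroup.focalSubgroup_def, Subgroup.closure_le]
    rintro _ ⟨hg, a, ha, u, rfl⟩
    set F := ⁅(P : Subgroup G), Subgroup.normalizer ((P : Subgroup G) : Set G)⁆ ⊔
        ⨆ (Q : Sylow p G) (_ : (¬ p ∣ ((P : Subgroup G) ⊓ Subgroup.normalizer (((P : Subgroup G) ⊓ (Q : Subgroup G) : Subgroup G) : Set G)).relIndex (Subgroup.normalizer (((P : Subgroup G) ⊓ (Q : Subgroup G) : Subgroup G) : Set G)) ∧ ¬ p ∣ ((Q : Subgroup G) ⊓ Subgroup.normalizer (((P : Subgroup G) ⊓ (Q : Subgroup G) : Subgroup G) : Set G)).relIndex (Subgroup.normalizer (((P : Subgroup G) ⊓ (Q : Subgroup G) : Subgroup G) : Set G))))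
          (x : G) (_ : x ∈ Subgroup.normalizer (((P : Subgroup G) ⊓ (Q : Subgroup G) : Subgroup G) : Set G) ∧ ∃ k : ℕ, orderOf x = p ^ k),
          ⁅(P : Subgroup G) ⊓ (Q : Subgroup G), Subgroup.zpowers x⁆ with hF
    have key := CfsgLib.Alperin.tame_induction P (fun H k => ∀ b ∈ H, ⁅b, k⁆ ∈ F)
      (fun H K k hHK _ _ hK b hb => hK b (hHK hb))
      (fun H g k _ _ _ h1 h2 b hb => by
        have h3 := F.mul_mem (h1 b hb) (h2 _ (CfsgLib.Alperin.conj_mem_conj_map g hb))
        rw [show ⁅b, k * g⁆ = ⁅b, g⁆ * ⁅g * b * g⁻¹, k⁆ by simp only [commutatorElement_def]; group]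
        exact h3)
      (fun U T hT hU hTU n hn hk b hb => by
        rcases hk with hk | hk
        · have hUP : U = (P : Subgroup G) := by rw [← hT, hk, inf_idem]
          rw [hUP] at hn hb
          exact Subgroup.mem_sup_left (Subgroup.commutator_mem_commutator hb hn)
        · subst hT
          refine Subgroup.mem_sup_right ?_
          refine Subgroup.mem_iSup_of_mem T (Subgroup.mem_iSup_of_mem ⟨hU, hTU⟩
            (Subgroup.mem_iSup_of_mem n (Subgroup.mem_iSup_of_mem ⟨hn, hk⟩ ?_)))
          exact Subgroup.commutator_mem_commutator hb (Subgroup.mem_zpowers n))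
      (Subgroup.zpowers a) u (Subgroup.zpowers_le.2 ha)
      (by
        rw [MonoidHom.map_zpowers, Subgroup.zpowers_le]
        have : u * a * u⁻¹ = (a⁻¹ * ⁅a, u⁆)⁻¹ := by simp only [commutatorElement_def]; group
        show u * a * u⁻¹ ∈ _
        rw [this]
        exact Subgroup.inv_mem _ (Subgroup.mul_mem _ (Subgroup.inv_mem _ ha) hg))
      a (Subgroup.mem_zpowers a)
    exact key
  · refine sup_le ?_ ?_
    · refine le_inf ?_ ?_
      · rw [Subgroup.commutator_le]
        intro a ha n hn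
        have h1 := ((Subgroup.mem_normalizer_iff).1 hn a⁻¹).1 (Subgroup.inv_mem _ ha)
        rw [show ⁅a, n⁆ = a * (n * a⁻¹ * n⁻¹) by simp only [commutatorElement_def]; group]
        exact Subgroup.mul_mem _ ha h1
      · rw [commutator_def]; exact Subgroup.commutator_mono le_top le_top
    · refine iSup₂_le fun Q _ => iSup₂_le fun x hx => le_inf ?_ ?_
      · rw [Subgroup.commutator_le]
        intro a ha n hn
        have hn' := (Subgroup.zpowers_le.2 hx.1) hn
        have h1 := ((Subgroup.mem_normalizer_iff).1 hn' a⁻¹).1 (Subgroup.inv_mem _ ha)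
        rw [show ⁅a, n⁆ = a * (n * a⁻¹ * n⁻¹) by simp only [commutatorElement_def]; group]
        exact (Subgroup.mul_mem _ ha h1).1
      · rw [commutator_def]; exact Subgroup.commutator_mono le_top le_top

end Cfsg.Agent.S4250
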