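import Cfsg.Statements.S4251
import Cfsg.Agent.Alperin.Induction
import Cfsg.Agent.Transfer.Frobenius

set_option autoImplicit false
open Cfsg

namespace Cfsg.Agent.S4251

/-- Let P be a Sylow p-subgroup of a finite group G. Call an intersection H = P ∩ Q with a Sylow p-subgroup Q tame when N_P(H) and N_Q(H) are Sylow p-subgroups of N_G(H). If N_G(H)/C_G(H) is a p-group for every nontrivial tame intersection H = P ∩ Q, then G has a normal p-complement. -/
theorem result {G : Type*} [Group G] [Finite G] (p : ℕ) [Fact p.Prime] (P : Sylow p G)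
    (h : ∀ Q : Sylow p G, (P : Subgroup G) ⊓ (Q : Subgroup G) ≠ ⊥ → (¬ p ∣ ((P : Subgroup G) ⊓ Subgroup.normalizer (((P : Subgroup G) ⊓ (Q : Subgroup G) : Subgroup G) : Set G)).relIndex (Subgroup.normalizer (((P : Subgroup G) ⊓ (Q : Subgroup G) : Subgroup G) : Set G)) ∧ ¬ p ∣ ((Q : Subgroup G) ⊓ Subgroup.normalizer (((P : Subgroup G) ⊓ (Q : Subgroup G) : Subgroup G) : Set G)).relIndex (Subgroup.normalizer (((P : Subgroup G) ⊓ (Q : Subgroup G) : Subgroup G) : Set G))) →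
      IsPGroup p (Subgroup.normalizer (((P : Subgroup G) ⊓ (Q : Subgroup G) : Subgroup G) : Set G) ⧸
        (Subgroup.centralizer (((P : Subgroup G) ⊓ (Q : Subgroup G) : Subgroup G) : Set G)).subgroupOf
          (Subgroup.normalizer (((P : Subgroup G) ⊓ (Q : Subgroup G) : Subgroup G) : Set G)))) :
    Cfsg.HasNormalPComplement p G := by
  let Φ : Subgroup G → G → Prop := fun H g => ∃ s ∈ (P : Subgroup G), ∀ x ∈ H, g * x * g⁻¹ = s * x * s⁻¹
  have key := CfsgLib.Alperin.tame_induction P Φ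
    (fun H K g hHK _ _ ⟨s, hs, he⟩ => ⟨s, hs, fun x hx => he x (hHK hx)⟩)
    (fun H g k _ _ _ ⟨s, hs, he⟩ ⟨t, ht, he'⟩ => ⟨t * s, Subgroup.mul_mem _ ht hs, fun x hx => by
      have h1 := he' _ (CfsgLib.Alperin.conj_mem_conj_map g hx)
      calc k * g * x * (k * g)⁻¹ = k * (g * x * g⁻¹) * k⁻¹ := by group
        _ = t * (g * x * g⁻¹) * t⁻¹ := h1
        _ = t * s * x * (t * s)⁻¹ := by rw [he x hx]; group⟩) ?_
  · refine CfsgLib.Transfer.hasNormalPComplement_of_pLocal_centralizes fun Q hQ g hg hgc => ?_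
    obtain ⟨R, hR⟩ := hQ.exists_le_sylow
    obtain ⟨x, hx⟩ := MulAction.exists_smul_eq G R P
    have hQP : Q.map (MulAut.conj x).toMonoidHom ≤ (P : Subgroup G) := by
      rw [← hx]; exact Subgroup.map_mono hR
    have hg' : x * g * x⁻¹ ∈ Subgroup.normalizer ((Q.map (MulAut.conj x).toMonoidHom : Subgroup G) : Set G) :=
      Subgroup.le_normalizer_map _ (Subgroup.mem_map.mpr ⟨g, hg, rfl⟩)
    obtain ⟨s, hs, he⟩ := key _ (x * g * x⁻¹) hQP
      (by rw [CfsgLib.Alperin.conj_map_eq_of_mem_normalizer hg']; exact hQP)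
    have hpow : ∀ (k : ℕ) (a : G), a ∈ Q.map (MulAut.conj x).toMonoidHom →
        (x * g * x⁻¹) ^ k * a * ((x * g * x⁻¹) ^ k)⁻¹ = s ^ k * a * (s ^ k)⁻¹ := by
      intro k
      induction k with
      | zero => intro a _; simp
      | succ k ih =>
        intro a ha
        have h1 : (x * g * x⁻¹) * a * (x * g * x⁻¹)⁻¹ ∈ Q.map (MulAut.conj x).toMonoidHom :=
          (Subgroup.mem_normalizer_iff.mp hg' a).mp ha
        calc (x * g * x⁻¹) ^ (k + 1) * a * ((x * g * x⁻¹) ^ (k + 1))⁻¹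
            = (x * g * x⁻¹) ^ k * ((x * g * x⁻¹) * a * (x * g * x⁻¹)⁻¹) * ((x * g * x⁻¹) ^ k)⁻¹ := by
              rw [pow_succ]; group
          _ = s ^ k * ((x * g * x⁻¹) * a * (x * g * x⁻¹)⁻¹) * (s ^ k)⁻¹ := ih _ h1
          _ = s ^ (k + 1) * a * (s ^ (k + 1))⁻¹ := by rw [he a ha, pow_succ]; group
    obtain ⟨m, hm⟩ := P.2 ⟨s, hs⟩
    have hm' : s ^ p ^ m = 1 := by simpa using congrArg Subtype.val hm
    obtain ⟨j, hj⟩ := exists_pow_eq_self_of_coprime (hgc.symm.pow_left m)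
    rw [Subgroup.mem_centralizer_iff]
    intro a ha
    have h1 := hpow (p ^ m) _ (CfsgLib.Alperin.conj_mem_conj_map x ha)
    rw [hm', conj_pow] at h1
    have h2 : g ^ p ^ m * a * (g ^ p ^ m)⁻¹ = a := by
      calc g ^ p ^ m * a * (g ^ p ^ m)⁻¹
          = x⁻¹ * (x * g ^ p ^ m * x⁻¹ * (x * a * x⁻¹) * (x * g ^ p ^ m * x⁻¹)⁻¹) * x := by group
        _ = a := by rw [h1]; group
    have hc : Commute (g ^ p ^ m) a := mul_inv_eq_iff_eq_mul.mp h2
    have hc' := hc.pow_left j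
    rw [hj] at hc'
    exact hc'.eq.symm
  intro U T hT hFN hTN n hn _
  by_cases hne : U = ⊥
  · subst hne
    exact ⟨1, Subgroup.one_mem _, fun x hx => by rw [Subgroup.mem_bot.mp hx]; group⟩
  subst hT
  have hp := h T hne ⟨hFN, hTN⟩
  set U := (P : Subgroup G) ⊓ (T : Subgroup G) with hU
  set N := Subgroup.normalizer (U : Set G) with hN
  set C := Subgroup.centralizer (U : Set G) with hC
  have hCN : C ≤ N := Subgroup.centralizer_le_normalizer _
  haveI hCn : (C.subgroupOf N).Normal := by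
    rw [← Subgroup.normalizerMonoidHom_ker]
    exact MonoidHom.normal_ker _
  obtain ⟨a, ha⟩ := IsPGroup.iff_card.mp hp
  have htop : C.subgroupOf N ⊔ ((P : Subgroup G) ⊓ N).subgroupOf N = ⊤ := by
    rw [← Subgroup.index_eq_one]
    refine Nat.eq_one_of_dvd_coprimes ((((Fact.out : p.Prime).coprime_iff_not_dvd).mpr hFN).symm.pow_right a) ?_ ?_
    · exact Subgroup.index_dvd_of_le le_sup_right
    · rw [← ha]
      exact Subgroup.index_dvd_of_le le_sup_left
  have hmem : (⟨n, hn⟩ : ↥N) ∈ C.subgroupOf N ⊔ ((P : Subgroup G) ⊓ N).subgroupOf N := by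
    rw [htop]; trivial
  obtain ⟨c, hc, s, hs, hcs⟩ := Subgroup.mem_sup_of_normal_left.mp hmem
  refine ⟨s, hs.1, fun x hx => ?_⟩
  have hx' : (s : G) * x * (s : G)⁻¹ ∈ U := (Subgroup.mem_normalizer_iff.mp s.2 x).mp hx
  have e : n = (c : G) * s := (congrArg Subtype.val hcs).symm
  calc n * x * n⁻¹ = (c : G) * ((s : G) * x * (s : G)⁻¹) * (c : G)⁻¹ := by rw [e]; group
    _ = (s : G) * x * (s : G)⁻¹ := by
      rw [show (c : G) * ((s : G) * x * (s : G)⁻¹) = (s : G) * x * (s : G)⁻¹ * (c : G) from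
        (Subgroup.mem_centralizer_iff.mp hc _ hx').symm]
      group

end Cfsg.Agent.S4251
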