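import Cfsg.Statements.S4260

set_option autoImplicit false
open Cfsg

namespace Cfsg.Agent.S4260


/-- Let H be a Hall subgroup of a finite group G (the order of H is coprime to its index) such that x^[G : H] lies in H for every x in G. Then H is normal in G. -/
theorem result {G : Type*} [Group G] [Finite G] (H : Subgroup G) (hHall : (Nat.card H).Coprime H.index)
    (hexp : ∀ x : G, x ^ H.index ∈ H) : H.Normal := by
  refine ⟨fun h hh g => ?_⟩
  have h1 : (g * h * g⁻¹) ^ Nat.card H = 1 := by
    rw [conj_pow]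
    have : h ^ Nat.card H = 1 := by
      have h2 : (⟨h, hh⟩ : H) ^ Nat.card H = 1 := pow_card_eq_one'
      exact congrArg (fun x : H => (x : G)) h2
    rw [this, mul_one, mul_inv_cancel]
  obtain ⟨u, v, huv⟩ : ∃ u v : ℤ, (Nat.card H : ℤ) * u + (H.index : ℤ) * v = 1 := by
    refine ⟨Nat.gcdA (Nat.card H) H.index, Nat.gcdB (Nat.card H) H.index, ?_⟩
    have := Nat.gcd_eq_gcd_ab (Nat.card H) H.index
    rw [hHall.gcd_eq_one] at this
    simpa using this.symm
  have h3 : g * h * g⁻¹ = ((g * h * g⁻¹) ^ H.index) ^ v := by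
    conv_lhs => rw [← zpow_one (g * h * g⁻¹), ← huv, zpow_add, zpow_mul, zpow_mul, zpow_natCast,
      h1, one_zpow, one_mul, zpow_natCast]
  rw [h3]
  exact H.zpow_mem (hexp _) v

end Cfsg.Agent.S4260
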