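import Cfsg.Statements.S4262
import Cfsg.Agent.Perm.CentralizerMaximal

set_option autoImplicit false
open Cfsg

namespace Cfsg.Agent.S4262

open MulAction

section Helpers

variable {G : Type*} [Group G]

/-- The centraliser of one element. -/
abbrev cz (x : G) : Subgroup G := Subgroup.centralizer ({x} : Set G)

theorem card_eq_toFinset (M : Subgroup G) [Fintype ↑(M : Set G)] :
    Nat.card M = (M : Set G).toFinset.card := by
  rw [← Set.ncard_eq_toFinset_card', ← Nat.card_coe_set_eq]
  rfl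

theorem mem_cz {x y : G} : y ∈ cz x ↔ Commute y x := Subgroup.mem_centralizer_singleton_iff

theorem self_mem (x : G) : x ∈ cz x := mem_cz.2 (Commute.refl x)

theorem center_le (x : G) : Subgroup.center G ≤ cz x := fun z hz =>
  mem_cz.2 (Subgroup.mem_center_iff.1 hz x).symm

theorem cz_conj (g x : G) : cz (g * x * g⁻¹) = (cz x).map (MulAut.conj g).toMonoidHom := by
  ext y
  constructor
  · intro hy
    refine ⟨g⁻¹ * y * g, mem_cz.2 ?_, by simp [mul_assoc]⟩
    have := (mem_cz.1 hy).eq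
    show g⁻¹ * y * g * x = x * (g⁻¹ * y * g)
    calc g⁻¹ * y * g * x = g⁻¹ * (y * (g * x * g⁻¹)) * g := by group
      _ = g⁻¹ * ((g * x * g⁻¹) * y) * g := by rw [this]
      _ = x * (g⁻¹ * y * g) := by group
  · rintro ⟨z, hz, rfl⟩
    exact mem_cz.2 ((mem_cz.1 hz).map (MulAut.conj g).toMonoidHom)

theorem not_center_conj {g x : G} (hx : x ∉ Subgroup.center G) : g * x * g⁻¹ ∉ Subgroup.center G :=
  fun h => hx (by
    have := (inferInstance : (Subgroup.center G).Normal).conj_mem _ h g⁻¹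
    simpa [mul_assoc] using this)

variable (h : ∀ g : G, g ∉ Subgroup.center G → IsCoatom (cz g))
include h

theorem cz_eq_of_le {t x : G} (ht : t ∉ Subgroup.center G) (hx : x ∉ Subgroup.center G)
    (hle : cz t ≤ cz x) : cz x = cz t :=
  ((h t ht).le_iff.1 hle).resolve_left (h x hx).1

theorem cz_pow {t : G} (n : ℕ) (hn : t ^ n ∉ Subgroup.center G) : cz (t ^ n) = cz t :=
  cz_eq_of_le h (fun e => hn (Subgroup.pow_mem _ e n)) hn
    fun _ hy => mem_cz.2 ((mem_cz.1 hy).pow_right n)

theorem cz_eq_of_coprime {t v : G} {p q a b : ℕ} (hp : p.Prime) (hq : q.Prime) (hpq : p ≠ q)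
    (ht : orderOf t = p ^ a) (hv : orderOf v = q ^ b) (ht' : t ∉ Subgroup.center G)
    (hv' : v ∉ Subgroup.center G) (hc : Commute t v) : cz t = cz v := by
  have e1 : (t * v) ^ (q ^ b) = t ^ (q ^ b) := by
    rw [hc.mul_pow, ← hv, pow_orderOf_eq_one, mul_one]
  have e2 : (t * v) ^ (p ^ a) = v ^ (p ^ a) := by
    rw [hc.mul_pow, ← ht, pow_orderOf_eq_one, one_mul]
  have hcop : Nat.Coprime (q ^ b) (p ^ a) := Nat.Coprime.pow _ _ ((Nat.coprime_primes hq hp).2 hpq.symm)
  have h1 : t ^ (q ^ b) ∉ Subgroup.center G := fun e => ht' (by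
    obtain ⟨m, hm⟩ := exists_pow_eq_self_of_coprime (ht.symm ▸ hcop : Nat.Coprime (q ^ b) (orderOf t))
    exact hm ▸ Subgroup.pow_mem _ e m)
  have h2 : v ^ (p ^ a) ∉ Subgroup.center G := fun e => hv' (by
    obtain ⟨m, hm⟩ := exists_pow_eq_self_of_coprime
      (hv.symm ▸ hcop.symm : Nat.Coprime (p ^ a) (orderOf v))
    exact hm ▸ Subgroup.pow_mem _ e m)
  rw [← cz_pow h _ h1, ← e1, cz_pow h _ (e1 ▸ h1), ← cz_pow h _ h2, ← e2, cz_pow h _ (e2 ▸ h2)]

omit h

theorem eq_one_mk_iff {x : G} : (x : G ⧸ Subgroup.center G) = 1 ↔ x ∈ Subgroup.center G :=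
  QuotientGroup.eq_one_iff x

/-- The `p`-part of an element whose image modulo the centre has order divisible by `p`. -/
theorem exists_part_of [Finite G] (x : G) {p : ℕ} (hp : p.Prime)
    (hpd : p ∣ orderOf (x : G ⧸ Subgroup.center G)) :
    ∃ n a : ℕ, x ^ n ∉ Subgroup.center G ∧ orderOf (x ^ n) = p ^ a := by
  refine ⟨orderOf x / p ^ (orderOf x).factorization p, (orderOf x).factorization p, fun e => ?_,
    orderOf_pow_orderOf_div (orderOf_pos x).ne' (Nat.ordProj_dvd _ _)⟩
  refine Nat.not_dvd_ordCompl hp (orderOf_pos x).ne' (hpd.trans (orderOf_dvd_of_pow_eq_one ?_))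
  rw [← QuotientGroup.mk_pow]
  exact eq_one_mk_iff.2 e

theorem exists_part [Finite G] {x : G} (hx : x ∉ Subgroup.center G) :
    ∃ p n a : ℕ, p.Prime ∧ x ^ n ∉ Subgroup.center G ∧ orderOf (x ^ n) = p ^ a := by
  obtain ⟨p, hp, hpd⟩ := Nat.exists_prime_and_dvd
    (fun e => hx (eq_one_mk_iff.1 (orderOf_eq_one_iff.1 e)) : orderOf (x : G ⧸ Subgroup.center G) ≠ 1)
  obtain ⟨n, a, h1, h2⟩ := exists_part_of x hp hpd
  exact ⟨p, n, a, hp, h1, h2⟩

include h

theorem cz_abelian_or_pMod [Finite G] {t : G} {p a : ℕ} (hp : p.Prime) (ht : t ∉ Subgroup.center G)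
    (hta : orderOf t = p ^ a) :
    (∀ x ∈ cz t, ∀ y ∈ cz t, x * y = y * x) ∨
      ∀ x ∈ cz t, ∃ k : ℕ, x ^ (p ^ k) ∈ Subgroup.center G := by
  by_cases hall : ∀ x ∈ cz t, ∀ q : ℕ, q.Prime → q ∣ orderOf (x : G ⧸ Subgroup.center G) → q = p
  · refine Or.inr fun x hx => ?_
    have hpow := Nat.eq_prime_pow_of_unique_prime_dvd (orderOf_pos (x : G ⧸ Subgroup.center G)).ne'
      fun {d} hd hdd => hall x hx d hd hdd
    refine ⟨(orderOf (x : G ⧸ Subgroup.center G)).primeFactorsList.length, ?_⟩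
    rw [← eq_one_mk_iff]
    rw [QuotientGroup.mk_pow, ← hpow, pow_orderOf_eq_one]
  refine Or.inl ?_
  push Not at hall
  obtain ⟨w, hw, q, hq, hqd, hqp⟩ := hall
  obtain ⟨n, b, hv, hvb⟩ := exists_part_of w hq hqd
  have hvt : Commute t (w ^ n) := ((mem_cz.1 hw).symm).pow_right n
  have htv := cz_eq_of_coprime h hp hq hqp.symm hta hvb ht hv hvt
  generalize w ^ n = v at hv hvb htv hvt
  have hmax : ∀ x ∈ cz t, x ∉ Subgroup.center G → cz x = cz t := by
    intro x hx hxZ
    obtain ⟨r, m, c, hr, hxm, hxc⟩ := exists_part hxZ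
    rw [← cz_pow h m hxm]
    by_cases hrp : r = p
    · rw [htv, cz_eq_of_coprime h hq hr (hrp ▸ hqp) hvb hxc hv hxm
        ((mem_cz.1 (htv ▸ hx : x ∈ cz v)).symm.pow_right m)]
    · rw [cz_eq_of_coprime h hp hr (Ne.symm hrp) hta hxc ht hxm ((mem_cz.1 hx).symm.pow_right m)]
  intro x hx y hy
  by_cases hyZ : y ∈ Subgroup.center G
  · exact Subgroup.mem_center_iff.1 hyZ x
  · exact (mem_cz.1 ((hmax y hy hyZ).symm ▸ hx : x ∈ cz y)).eq

/-- A normal centraliser forces solvability. -/
theorem isSolvable_of_normal [Finite G] {x : G} (hx : x ∉ Subgroup.center G) (hn : (cz x).Normal) :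
    Group.IsSolvable G := by
  obtain ⟨p, n, a, hp, ht, hta⟩ := exists_part hx
  rw [← cz_pow h n ht] at hn
  generalize x ^ n = t at ht hta hn
  clear hx
  haveI := hn
  haveI : Fact p.Prime := ⟨hp⟩
  have hq : Group.IsSolvable (G ⧸ cz t) := by
    obtain ⟨g, -, hg⟩ := SetLike.exists_of_lt (lt_top_iff_ne_top.2 (h t ht).1)
    have htop : (Subgroup.zpowers (g : G ⧸ cz t)).comap (QuotientGroup.mk' (cz t)) = ⊤ := by
      refine ((h t ht).le_iff.1 ?_).resolve_right fun e => hg ?_
      · intro y hy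
        show (y : G ⧸ cz t) ∈ Subgroup.zpowers (g : G ⧸ cz t)
        rw [(QuotientGroup.eq_one_iff y).2 hy]
        exact Subgroup.one_mem _
      · exact e ▸ Subgroup.mem_zpowers (g : G ⧸ cz t)
    refine Group.isSolvable_of_comm fun u v => ?_
    obtain ⟨u, rfl⟩ := QuotientGroup.mk_surjective u
    obtain ⟨v, rfl⟩ := QuotientGroup.mk_surjective v
    obtain ⟨i, hi⟩ := Subgroup.mem_zpowers_iff.1 (htop.ge (Subgroup.mem_top u))
    obtain ⟨j, hj⟩ := Subgroup.mem_zpowers_iff.1 (htop.ge (Subgroup.mem_top v))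
    have hi' : (g : G ⧸ cz t) ^ i = (u : G ⧸ cz t) := hi
    have hj' : (g : G ⧸ cz t) ^ j = (v : G ⧸ cz t) := hj
    rw [← hi', ← hj']
    exact (Commute.zpow_zpow_self _ i j).eq
  have hX : Group.IsSolvable (cz t) := by
    rcases cz_abelian_or_pMod h hp ht hta with hab | hpm
    · exact Group.isSolvable_of_comm fun u v => Subtype.ext (hab u u.2 v v.2)
    · let f := (QuotientGroup.mk' (Subgroup.center G)).comp (cz t).subtype
      have hfp : IsPGroup p f.range := by
        rintro ⟨_, y, rfl⟩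
        obtain ⟨k, hk⟩ := hpm y y.2
        refine ⟨k, Subtype.ext ?_⟩
        show (f y) ^ (p ^ k) = 1
        rw [← map_pow]
        exact eq_one_mk_iff.2 hk
      haveI : Group.IsNilpotent f.range := hfp.isNilpotent
      haveI : Group.IsSolvable (Subgroup.center G) := Group.isSolvable_of_comm fun u v =>
        Subtype.ext (Subgroup.mem_center_iff.1 v.2 u)
      exact Group.isSolvable_of_ker_le_range (Subgroup.inclusion (center_le t)) f.rangeRestrict
        fun y hy => by
          have : f y = 1 := congrArg Subtype.val hy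
          exact ⟨⟨y, eq_one_mk_iff.1 this⟩, rfl⟩
  exact (Group.isSolvable_iff_subgroup_quotient (cz t)).2 ⟨hX, hq⟩

variable (hN : ∀ x : G, x ∉ Subgroup.center G → ¬ (cz x).Normal)
include hN

theorem mem_of_normalizes {x : G} (hx : x ∉ Subgroup.center G) {n : G}
    (hn : n ∈ Subgroup.normalizer (cz x : Set G)) : n ∈ cz x := by
  rcases (h x hx).le_iff.1 Subgroup.le_normalizer with e | e
  · exact absurd (Subgroup.normalizer_eq_top_iff.1 e) (hN x hx)
  · exact e ▸ hn

theorem mem_of_conj_eq {x g : G} (hx : x ∉ Subgroup.center G) (e : cz (g * x * g⁻¹) = cz x) :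
    g ∈ cz x := by
  refine mem_of_normalizes h hN hx (Subgroup.mem_normalizer_iff.2 fun y => ?_)
  rw [cz_conj] at e
  refine ⟨fun hy => e ▸ ⟨y, hy, rfl⟩, fun hy => ?_⟩
  rw [← e] at hy
  obtain ⟨z, hz, hzy⟩ := hy
  rwa [← (MulAut.conj g).injective (show MulAut.conj g z = MulAut.conj g y from hzy)]

/-- An abelian centraliser forces all centralisers to be abelian. -/
theorem abelian_all [Finite G] {t : G} {p a : ℕ} (hp : p.Prime) (ht : t ∉ Subgroup.center G)
    (hta : orderOf t = p ^ a) (hab : ∀ x ∈ cz t, ∀ y ∈ cz t, x * y = y * x) {w : G}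
    (hw : w ∉ Subgroup.center G) : ∀ x ∈ cz w, ∀ y ∈ cz w, x * y = y * x := by
  obtain ⟨q, n, b, hq, hy, hyb⟩ := exists_part hw
  rw [← cz_pow h n hy]
  generalize w ^ n = y at hy hyb
  rcases cz_abelian_or_pMod h hq hy hyb with h' | hqm
  · exact h'
  have hall : ∀ x ∈ cz t, x ∉ Subgroup.center G → cz x = cz t := fun x hx hxZ =>
    cz_eq_of_le h ht hxZ fun u hu => mem_cz.2 (hab u hu x hx)
  haveI := Fact.mk hp
  obtain ⟨P, hP⟩ := (show IsPGroup p (Subgroup.zpowers t) from
    IsPGroup.of_card (n := a) (by rw [Nat.card_zpowers, hta])).exists_le_sylow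
  have htP : t ∈ (P : Subgroup G) := hP (Subgroup.mem_zpowers t)
  have hkey : ∀ g : G, g * t * g⁻¹ ∈ cz t → g ∈ cz t := fun g hg =>
    mem_of_conj_eq h hN ht (hall _ hg (not_center_conj ht))
  have hPX : (P : Subgroup G) ≤ cz t := inf_eq_left.1
    (CfsgLib.Perm.CentMax.eq_sylow_of_self_normalizing P (inf_le_left : (P : Subgroup G) ⊓ cz t ≤ _)
      fun g hgP hg => ⟨hgP, hkey g (hg t ⟨htP, self_mem t⟩).2⟩)
  have hPC : Subgroup.normalizer ((P : Subgroup G) : Set G) ≤
      Subgroup.centralizer ((P : Subgroup G) : Set G) := fun g hg => by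
    have hgX : g ∈ cz t := hkey g (hPX ((Subgroup.mem_normalizer_iff.1 hg t).1 htP))
    exact Subgroup.mem_centralizer_iff.2 fun u hu => hab u (hPX hu) g hgX
  have hK := MonoidHom.ker_transferSylow_isComplement' P hPC
  have hKp := MonoidHom.not_dvd_card_ker_transferSylow P hPC
  haveI hKn : (MonoidHom.transferSylow P hPC).ker.Normal := MonoidHom.normal_ker _
  generalize (MonoidHom.transferSylow P hPC).ker = K at hK hKp hKn
  by_cases hqp : q = p
  · -- `y` is conjugate into the abelian centraliser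
    subst hqp
    obtain ⟨Q, hQ⟩ := (show IsPGroup q (Subgroup.zpowers y) from
      IsPGroup.of_card (n := b) (by rw [Nat.card_zpowers, hyb])).exists_le_sylow
    obtain ⟨g, hg⟩ := exists_smul_eq G Q P
    have hgy : g * y * g⁻¹ ∈ cz t := by
      apply hPX
      rw [← hg]
      exact ⟨y, hQ (Subgroup.mem_zpowers y), rfl⟩
    have hmap : ∀ u ∈ cz y, g * u * g⁻¹ ∈ cz t := fun u hu => by
      rw [← hall _ hgy (not_center_conj hy), cz_conj]
      exact ⟨u, hu, rfl⟩
    intro u hu v hv
    have := hab _ (hmap u hu) _ (hmap v hv)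
    exact (MulAut.conj g).injective (by rw [map_mul, map_mul]; exact this)
  exfalso
  haveI := Fact.mk hq
  let L : Subgroup G := K ⊔ Subgroup.center G
  haveI : L.Normal := Subgroup.sup_normal K (Subgroup.center G)
  have hLtop : L ≠ ⊤ := by
    intro e
    have h1 : ((t : G) : G ⧸ Subgroup.center G) ∈ K.map (QuotientGroup.mk' (Subgroup.center G)) := by
      have : t ∈ L := e ▸ Subgroup.mem_top t
      rw [← SetLike.mem_coe, Subgroup.normal_mul] at this
      obtain ⟨k, hk, z, hz, hkz⟩ := this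
      refine ⟨k, hk, ?_⟩
      show (k : G ⧸ Subgroup.center G) = t
      rw [← hkz]
      show (k : G ⧸ Subgroup.center G) = ((k * z : G) : G ⧸ Subgroup.center G)
      rw [QuotientGroup.mk_mul, eq_one_mk_iff.2 hz, mul_one]
    have h2 : orderOf ((t : G) : G ⧸ Subgroup.center G) ∣ Nat.card K := by
      obtain ⟨k, hk, hk'⟩ := h1
      rw [← hk']
      exact (orderOf_map_dvd _ k).trans (Subgroup.orderOf_dvd_natCard K hk)
    obtain ⟨c, -, hc⟩ := (Nat.dvd_prime_pow hp).1
      (hta ▸ orderOf_map_dvd (QuotientGroup.mk' (Subgroup.center G)) t)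
    have hc' : orderOf ((t : G) : G ⧸ Subgroup.center G) = p ^ c := hc
    rcases Nat.eq_zero_or_pos c with rfl | hcpos
    · exact ht (eq_one_mk_iff.1 (orderOf_eq_one_iff.1 (by simpa using hc')))
    · exact hKp ((dvd_pow_self p hcpos.ne').trans (hc' ▸ h2))
  have hLidx : ∃ k : ℕ, L.index = p ^ k := by
    obtain ⟨k, hk⟩ := IsPGroup.iff_card.1 P.2
    obtain ⟨i, -, hi⟩ := (Nat.dvd_prime_pow hp).1
      ((Subgroup.index_dvd_of_le (le_sup_left : K ≤ L)).trans (by rw [hK.symm.index_eq_card, hk]))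
    exact ⟨i, hi⟩
  obtain ⟨k, hk⟩ := hLidx
  have hYL : cz y ≤ L := by
    intro u hu
    obtain ⟨i, hi⟩ := hqm u hu
    rw [← QuotientGroup.eq_one_iff u, ← orderOf_eq_one_iff]
    refine Nat.eq_one_of_dvd_coprimes (Nat.Coprime.pow i k ((Nat.coprime_primes hq hp).2 hqp)) ?_ ?_
    · refine orderOf_dvd_of_pow_eq_one ?_
      rw [← QuotientGroup.mk_pow, QuotientGroup.eq_one_iff]
      exact Subgroup.mem_sup_right hi
    · rw [← hk]
      exact orderOf_dvd_natCard _
  -- Frattini argument modulo the centre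
  let mk' := QuotientGroup.mk' (Subgroup.center G)
  have hsurj : Function.Surjective mk' := QuotientGroup.mk'_surjective _
  have hcomap : ∀ M : Subgroup G, Subgroup.center G ≤ M → (M.map mk').comap mk' = M := fun M hM =>
    Subgroup.comap_map_eq_self (by rwa [QuotientGroup.ker_mk'])
  have hYp : IsPGroup q ((cz y).map mk') := by
    rintro ⟨_, u, hu, rfl⟩
    obtain ⟨i, hi⟩ := hqm u hu
    refine ⟨i, Subtype.ext ?_⟩
    show (mk' u) ^ (q ^ i) = 1
    rw [← map_pow]
    exact eq_one_mk_iff.2 hi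
  have hYn : Subgroup.normalizer ((((cz y).map mk') : Subgroup (G ⧸ Subgroup.center G)) : Set (G ⧸ Subgroup.center G)) ≤ (cz y).map mk' := by
    intro n hn
    obtain ⟨n, rfl⟩ := hsurj n
    refine ⟨n, mem_of_normalizes h hN hy (Subgroup.mem_normalizer_iff.2 fun u => ?_), rfl⟩
    have := Subgroup.mem_normalizer_iff.1 hn (mk' u)
    rw [← map_inv, ← map_mul, ← map_mul] at this
    conv_lhs => rw [← hcomap _ (center_le y)]
    conv_rhs => rw [← hcomap _ (center_le y)]
    exact this
  obtain ⟨Q, hQ⟩ := hYp.exists_le_sylow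
  have hQe : (cz y).map mk' = (Q : Subgroup _) :=
    CfsgLib.Perm.CentMax.eq_sylow_of_self_normalizing Q hQ fun n _ hn => by
      refine hYn (Subgroup.mem_normalizer_iff.2 fun u => ⟨hn u, fun hu => ?_⟩)
      have hsur : Function.Surjective fun u : (cz y).map mk' =>
          (⟨n * u * n⁻¹, hn u u.2⟩ : (cz y).map mk') :=
        Finite.surjective_of_injective fun u v e => Subtype.ext (by simpa using congrArg Subtype.val e)
      obtain ⟨v, hv⟩ := hsur ⟨_, hu⟩
      have hv' : n * (v : G ⧸ Subgroup.center G) * n⁻¹ = n * u * n⁻¹ := congrArg Subtype.val hv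
      rw [mul_left_inj, mul_right_inj] at hv'
      exact hv' ▸ v.2
  haveI : (L.map mk').Normal := Subgroup.Normal.map inferInstance _ hsurj
  have hfr := Sylow.normalizer_sup_eq_top' (N := L.map mk') Q (hQe ▸ Subgroup.map_mono hYL)
  have hQn : Subgroup.normalizer ((Q : Subgroup (G ⧸ Subgroup.center G)) : Set (G ⧸ Subgroup.center G)) ≤ L.map mk' := by
    rw [← hQe]
    exact hYn.trans (Subgroup.map_mono hYL)
  have hfr' : L.map mk' = ⊤ := top_le_iff.1 (hfr.ge.trans (sup_le hQn le_rfl))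
  apply hLtop
  rw [← hcomap L le_sup_right, hfr', Subgroup.comap_top]

theorem false_of_all_abelian [Finite G] (hne : Subgroup.center G ≠ ⊤)
    (hab : ∀ w : G, w ∉ Subgroup.center G → ∀ x ∈ cz w, ∀ y ∈ cz w, x * y = y * x) : False := by
  classical
  haveI := Fintype.ofFinite G
  set Z := Subgroup.center G with hZ
  have hall : ∀ w x : G, w ∉ Z → x ∉ Z → x ∈ cz w → cz x = cz w := fun w x hw hx hxw =>
    cz_eq_of_le h hw hx fun u hu => mem_cz.2 (hab w hw u hu x hxw)
  let U : G → Finset G := fun t =>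
    Finset.univ.filter fun x => x ∉ Z ∧ ∃ g : G, x ∈ cz (g * t * g⁻¹)
  have hcard : ∀ t : G, t ∉ Z →
      (U t).card + (cz t).index * Nat.card Z = Nat.card G ∧
      2 * ((cz t).index * Nat.card Z) ≤ Nat.card G ∧ 1 < (cz t).index := by
    intro t ht
    let B : G ⧸ cz t → Finset G := fun c =>
      Finset.univ.filter fun x => x ∈ cz (c.out * t * c.out⁻¹) ∧ x ∉ Z
    haveI := Fintype.ofFinite (G ⧸ cz t)
    have hU : U t = Finset.univ.biUnion B := by
      ext x
      simp only [U, B, Finset.mem_filter, Finset.mem_univ, true_and, Finset.mem_biUnion]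
      constructor
      · rintro ⟨hx, g, hg⟩
        obtain ⟨⟨u, hu⟩, e⟩ := QuotientGroup.mk_out_eq_mul (cz t) g
        refine ⟨(g : G ⧸ cz t), ?_, hx⟩
        have e' : g * u * t * (g * u)⁻¹ = g * t * g⁻¹ := by
          have hut := (mem_cz.1 hu).eq
          calc g * u * t * (g * u)⁻¹ = g * (u * t) * u⁻¹ * g⁻¹ := by group
            _ = g * (t * u) * u⁻¹ * g⁻¹ := by rw [hut]
            _ = g * t * g⁻¹ := by group
        rw [e, e']
        exact hg
      · rintro ⟨c, hc, hx⟩
        exact ⟨hx, c.out, hc⟩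
    have hdisj : ((Finset.univ : Finset (G ⧸ cz t)) : Set (G ⧸ cz t)).PairwiseDisjoint B := by
      intro c _ d _ hcd
      rw [Function.onFun, Finset.disjoint_left]
      intro x hxc hxd
      simp only [B, Finset.mem_filter, Finset.mem_univ, true_and] at hxc hxd
      apply hcd
      have e1 := hall _ x (not_center_conj ht) hxc.2 hxc.1
      have e2 := hall _ x (not_center_conj ht) hxd.2 hxd.1
      rw [← c.out_eq', ← d.out_eq', QuotientGroup.eq]
      refine mem_of_conj_eq h hN ht ?_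
      rw [show c.out⁻¹ * d.out * t * (c.out⁻¹ * d.out)⁻¹ = c.out⁻¹ * (d.out * t * d.out⁻¹) * c.out⁻¹⁻¹
        by group, cz_conj, ← e2, e1, ← cz_conj]
      congr 1
      group
    have hB : ∀ c, (B c).card + Nat.card Z = Nat.card (cz t) := by
      intro c
      have h1 : Nat.card (cz (c.out * t * c.out⁻¹)) = Nat.card (cz t) := by
        rw [cz_conj]; exact Subgroup.card_map_of_injective (MulAut.conj _).injective
      have h2 : B c = (cz (c.out * t * c.out⁻¹) : Set G).toFinset \ (Z : Set G).toFinset := by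
        ext x; simp [B]
      rw [h2, ← h1, card_eq_toFinset, card_eq_toFinset]
      exact Finset.card_sdiff_add_card_eq_card
        (Set.toFinset_subset_toFinset.2 (center_le (c.out * t * c.out⁻¹)))
    have hU' : (U t).card + (cz t).index * Nat.card Z = Nat.card G := by
      rw [hU, Finset.card_biUnion hdisj, ← Subgroup.index_mul_card (cz t)]
      have : ∑ c : G ⧸ cz t, ((B c).card + Nat.card Z) = ∑ c : G ⧸ cz t, Nat.card (cz t) :=
        Finset.sum_congr rfl fun c _ => hB c
      rw [Finset.sum_add_distrib, Finset.sum_const, Finset.sum_const, Finset.card_univ, smul_eq_mul,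
        smul_eq_mul, ← Nat.card_eq_fintype_card] at this
      exact this
    refine ⟨hU', ?_, ?_⟩
    · have h2 : 2 * Nat.card Z ≤ Nat.card (cz t) := by
        obtain ⟨m, hm⟩ := Subgroup.card_dvd_of_le (center_le t)
        have hm1 : m ≠ 1 := by
          rintro rfl
          rw [mul_one] at hm
          have e := Subgroup.eq_of_le_of_card_ge (center_le t) hm.le
          exact ht (hZ ▸ e ▸ self_mem t)
        have hm0 : m ≠ 0 := by
          rintro rfl
          rw [mul_zero] at hm
          exact Nat.card_pos.ne' hm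
        rw [hm, mul_comm]
        exact Nat.mul_le_mul_left _ (by omega)
      rw [← Subgroup.index_mul_card (cz t), mul_left_comm]
      exact Nat.mul_le_mul_left _ h2
    · exact Subgroup.one_lt_index_of_ne_top (h t ht).1
  have hUle : ∀ s : Finset G, (∀ x ∈ s, x ∉ Z) → s.card + Nat.card Z ≤ Nat.card G := by
    intro s hs
    rw [card_eq_toFinset Z, Nat.card_eq_fintype_card (α := G), ← Finset.card_union_of_disjoint]
    · exact Finset.card_le_univ _
    · rw [Finset.disjoint_left]
      exact fun x hx hx' => hs x hx (Set.mem_toFinset.1 hx')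
  obtain ⟨t, -, ht⟩ := SetLike.exists_of_lt (lt_top_iff_ne_top.2 hne)
  obtain ⟨h1, h2, h3⟩ := hcard t ht
  have hZpos : 0 < Nat.card Z := Nat.card_pos
  obtain ⟨w, hw, hwU⟩ : ∃ w, w ∉ Z ∧ w ∉ U t := by
    by_contra hc
    push Not at hc
    have : (Finset.univ.filter fun x => x ∉ Z) ⊆ U t := fun x hx => hc x (Finset.mem_filter.1 hx).2
    have h4 := Finset.card_le_card this
    have h5 : (Finset.univ.filter fun x => x ∈ Z).card + (Finset.univ.filter fun x => x ∉ Z).card
        = Nat.card G := by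
      rw [Finset.card_filter_add_card_filter_not, Finset.card_univ, Nat.card_eq_fintype_card]
    have h6 : (Finset.univ.filter fun x => x ∈ Z).card = Nat.card Z := by
      rw [Nat.card_eq_fintype_card, Fintype.card_subtype]
    have h7 : 2 * Nat.card Z ≤ (cz t).index * Nat.card Z := Nat.mul_le_mul_right _ h3
    omega
  obtain ⟨k1, k2, -⟩ := hcard w hw
  have hd : Disjoint (U t) (U w) := by
    rw [Finset.disjoint_left]
    intro x hxt hxw
    simp only [U, Finset.mem_filter, Finset.mem_univ, true_and] at hxt hxw hwU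
    obtain ⟨hx, g, hg⟩ := hxt
    obtain ⟨-, g', hg'⟩ := hxw
    apply hwU
    refine ⟨hw, g'⁻¹ * g, ?_⟩
    have e1 := hall _ x (not_center_conj ht) hx hg
    have e2 := hall _ x (not_center_conj hw) hx hg'
    rw [show g'⁻¹ * g * t * (g'⁻¹ * g)⁻¹ = g'⁻¹ * (g * t * g⁻¹) * g'⁻¹⁻¹ by group, cz_conj, ← e1,
      e2, ← cz_conj]
    have : g'⁻¹ * (g' * w * g'⁻¹) * g'⁻¹⁻¹ = w := by group
    rw [this]
    exact self_mem w
  have hle := hUle (U t ∪ U w) fun x hx => by
    rcases Finset.mem_union.1 hx with hx | hx <;> exact (Finset.mem_filter.1 hx).2.1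
  rw [Finset.card_union_of_disjoint hd] at hle
  omega

theorem false_of_none_abelian [Finite G] (hne : Subgroup.center G ≠ ⊤)
    (hna : ∀ w : G, w ∉ Subgroup.center G → ¬ ∀ x ∈ cz w, ∀ y ∈ cz w, x * y = y * x) : False := by
  classical
  haveI := Fintype.ofFinite G
  let Z := Subgroup.center G
  let Gb := G ⧸ Subgroup.center G
  let mk' : G →* Gb := QuotientGroup.mk' (Subgroup.center G)
  have hsurj : Function.Surjective mk' := QuotientGroup.mk'_surjective _
  have hcomap : ∀ M : Subgroup G, Z ≤ M → (M.map mk').comap mk' = M := fun M hM =>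
    Subgroup.comap_map_eq_self (by rwa [QuotientGroup.ker_mk'])
  have hsyl : ∀ t : G, t ∉ Z → ∀ p a : ℕ, p.Prime → orderOf t = p ^ a →
      ∃ Q : Sylow p Gb, (Q : Subgroup Gb).comap mk' = cz t ∧
        Subgroup.normalizer ((Q : Subgroup Gb) : Set Gb) = (Q : Subgroup Gb) ∧
        IsPGroup p ((cz t).map mk') := by
    intro t ht p a hp hta
    haveI := Fact.mk hp
    have hpm := (cz_abelian_or_pMod h hp ht hta).resolve_left (hna t ht)
    have hYp : IsPGroup p ((cz t).map mk') := by
      rintro ⟨_, u, hu, rfl⟩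
      obtain ⟨i, hi⟩ := hpm u hu
      refine ⟨i, Subtype.ext ?_⟩
      show (mk' u) ^ (p ^ i) = 1
      rw [← map_pow]
      exact eq_one_mk_iff.2 hi
    have hYn : ∀ n : Gb, (∀ u ∈ (cz t).map mk', n * u * n⁻¹ ∈ (cz t).map mk') →
        n ∈ (cz t).map mk' := by
      intro n hn
      obtain ⟨n, rfl⟩ := hsurj n
      have hfwd : ∀ u ∈ cz t, n * u * n⁻¹ ∈ cz t := fun u hu => by
        rw [← hcomap _ (center_le t), Subgroup.mem_comap, map_mul, map_mul, map_inv]
        exact hn _ ⟨u, hu, rfl⟩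
      refine ⟨n, mem_of_normalizes h hN ht (Subgroup.mem_normalizer_iff.2 fun u => ⟨hfwd u, fun hu => ?_⟩), rfl⟩
      have hsur : Function.Surjective fun u : cz t => (⟨n * u * n⁻¹, hfwd u u.2⟩ : cz t) :=
        Finite.surjective_of_injective fun u v e => Subtype.ext (by simpa using congrArg Subtype.val e)
      obtain ⟨v, hv⟩ := hsur ⟨_, hu⟩
      have hv' : n * (v : G) * n⁻¹ = n * u * n⁻¹ := congrArg Subtype.val hv
      rw [mul_left_inj, mul_right_inj] at hv'
      exact hv' ▸ v.2
    obtain ⟨Q, hQ⟩ := hYp.exists_le_sylow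
    have e : (cz t).map mk' = (Q : Subgroup Gb) :=
      CfsgLib.Perm.CentMax.eq_sylow_of_self_normalizing Q hQ fun n _ hn => hYn n hn
    refine ⟨Q, e ▸ hcomap _ (center_le t), le_antisymm (fun n hn => ?_) Subgroup.le_normalizer, hYp⟩
    rw [← e] at hn ⊢
    exact hYn n fun u hu => (Subgroup.mem_normalizer_iff.1 hn u).1 hu
  let W : Subgroup Gb → Subgroup G := fun Q =>
    (Subgroup.center (Q.comap mk')).map (Q.comap mk').subtype
  let C : ℕ → Finset G := fun p =>
    Finset.univ.filter fun x => x ∉ Z ∧ ∃ Q : Sylow p Gb, x ∈ W (Q : Subgroup Gb)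
  have hmem : ∀ x : G, x ∉ Z → ∃ p ∈ (Nat.card Gb).primeFactors, x ∈ C p := by
    intro x hx
    obtain ⟨p, hp, hpd⟩ := Nat.exists_prime_and_dvd
      (fun e => hx (eq_one_mk_iff.1 (orderOf_eq_one_iff.1 e)) : orderOf (x : Gb) ≠ 1)
    obtain ⟨n, a, ht, hta⟩ := exists_part_of x hp hpd
    refine ⟨p, Nat.mem_primeFactors.2 ⟨hp, hpd.trans (orderOf_dvd_natCard _), Nat.card_pos.ne'⟩, ?_⟩
    obtain ⟨Q, hQ, -⟩ := hsyl _ ht p a hp hta
    refine Finset.mem_filter.2 ⟨Finset.mem_univ _, hx, Q, ?_⟩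
    rw [cz_pow h n ht] at hQ
    refine ⟨⟨x, hQ.symm ▸ self_mem x⟩, Subgroup.mem_center_iff.2 fun u => Subtype.ext ?_, rfl⟩
    exact (mem_cz.1 (hQ ▸ u.2 : (u : G) ∈ cz x)).eq
  have hGb : Nat.card Gb * Nat.card Z = Nat.card G :=
    (Subgroup.card_eq_card_quotient_mul_card_subgroup Z).symm
  have hbound : ∀ p ∈ (Nat.card Gb).primeFactors,
      ((C p).card : ℚ) < (Nat.card G : ℚ) * (1 / (p : ℚ) ^ 2) := by
    intro p hp
    obtain ⟨hp, hpd, -⟩ := Nat.mem_primeFactors.1 hp
    haveI := Fact.mk hp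
    obtain ⟨g, hg⟩ := exists_prime_orderOf_dvd_card' p hpd
    obtain ⟨g, rfl⟩ := hsurj g
    obtain ⟨n, a, ht, hta⟩ := exists_part_of g hp (hg ▸ dvd_rfl : p ∣ orderOf (g : Gb))
    obtain ⟨Q₀, hQ₀, hQn, hYp⟩ := hsyl _ ht p a hp hta
    generalize g ^ n = t at ht hta hQ₀ hYp
    have hcardW : ∀ Q : Sylow p Gb, Nat.card (W (Q : Subgroup Gb)) = Nat.card (Subgroup.center (cz t)) := by
      intro Q
      rw [Subgroup.card_map_of_injective (Subgroup.subtype_injective _)]
      obtain ⟨c, hc⟩ := exists_smul_eq Gb Q₀ Q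
      obtain ⟨c, rfl⟩ := hsurj c
      have e : (Q : Subgroup Gb).comap mk' = (cz t).map (MulAut.conj c).toMonoidHom := by
        rw [← hQ₀]
        ext x
        rw [← hc, Sylow.coe_subgroup_smul, Subgroup.mem_comap,
          Subgroup.mem_pointwise_smul_iff_inv_smul_mem]
        constructor
        · intro hx
          refine ⟨c⁻¹ * x * c, ?_, by simp [mul_assoc]⟩
          show mk' (c⁻¹ * x * c) ∈ (Q₀ : Subgroup Gb)
          simpa [MulAut.smul_def, map_mul, map_inv] using hx
        · rintro ⟨y, hy, rfl⟩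
          have hy' : mk' y ∈ (Q₀ : Subgroup Gb) := hy
          simpa [MulAut.smul_def, map_mul, map_inv, mul_assoc] using hy'
      exact Nat.card_congr (Subgroup.centerCongr ((MulEquiv.subgroupCongr e).trans
        ((cz t).equivMapOfInjective _ (MulAut.conj c).injective).symm)).toEquiv
    have hzle : Nat.card (Subgroup.center (cz t)) * p ^ 2 ≤ Nat.card (cz t) := by
      rw [← Subgroup.card_mul_index (Subgroup.center (cz t))]
      apply Nat.mul_le_mul_left
      obtain ⟨k, hk⟩ : ∃ k, (Subgroup.center (cz t)).index = p ^ k := by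
        have hle : (Z.subgroupOf (cz t)) ≤ Subgroup.center (cz t) := fun u hu =>
          Subgroup.mem_center_iff.2 fun v => Subtype.ext (Subgroup.mem_center_iff.1 hu v)
        have hidx : (Z.subgroupOf (cz t)).index = Nat.card ((cz t).map mk') := by
          rw [← Subgroup.relIndex_ker, QuotientGroup.ker_mk']
          rfl
        obtain ⟨j, hj⟩ := IsPGroup.iff_card.1 hYp
        obtain ⟨i, -, hi⟩ := (Nat.dvd_prime_pow hp).1 (hj ▸ hidx ▸ Subgroup.index_dvd_of_le hle)
        exact ⟨i, hi⟩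
      rw [hk]
      refine Nat.pow_le_pow_right hp.pos ?_
      by_contra hlt
      have hc : IsCyclic (cz t ⧸ Subgroup.center (cz t)) := by
        have hc : Nat.card (cz t ⧸ Subgroup.center (cz t)) = p ^ k := hk
        rcases (show k = 0 ∨ k = 1 by omega) with rfl | rfl
        · haveI : Subsingleton (cz t ⧸ Subgroup.center (cz t)) :=
            (Nat.card_eq_one_iff_unique.1 (by simpa using hc)).1
          infer_instance
        · exact isCyclic_of_prime_card (by simpa using hc)
      exact hna t ht fun x hx y hy => congrArg Subtype.val (commutative_of_cyclic_center_quotient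
        (QuotientGroup.mk' (Subgroup.center (cz t))) (by rw [QuotientGroup.ker_mk']) ⟨x, hx⟩ ⟨y, hy⟩)
    have hn : Nat.card (Sylow p Gb) * Nat.card (cz t) = Nat.card G := by
      have e : Nat.card (Sylow p Gb) = (cz t).index := by
        rw [Q₀.card_eq_index_normalizer, ← hQ₀, Subgroup.index_comap_of_surjective _ hsurj]
        exact congrArg Subgroup.index hQn
      rw [e, Subgroup.index_mul_card]
    have hC : (C p).card ≤ Nat.card (Sylow p Gb) * (Nat.card (Subgroup.center (cz t)) - 1) := by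
      have hsub : C p ⊆ (Finset.univ : Finset (Sylow p Gb)).biUnion fun Q =>
          ((W (Q : Subgroup Gb) : Set G).toFinset).erase 1 := by
        intro x hx
        obtain ⟨-, hxZ, Q, hxQ⟩ := Finset.mem_filter.1 hx
        exact Finset.mem_biUnion.2 ⟨Q, Finset.mem_univ _, Finset.mem_erase.2
          ⟨fun e => hxZ (e ▸ Z.one_mem), Set.mem_toFinset.2 hxQ⟩⟩
      refine (Finset.card_le_card hsub).trans (Finset.card_biUnion_le.trans ?_)
      refine (Finset.sum_le_card_nsmul _ _ (Nat.card (Subgroup.center (cz t)) - 1) fun Q _ => ?_).trans ?_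
      · rw [Finset.card_erase_of_mem (Set.mem_toFinset.2 (W (Q : Subgroup Gb)).one_mem),
          ← card_eq_toFinset]
        exact le_of_eq (congrArg (· - 1) (hcardW Q))
      · rw [Finset.card_univ, ← Nat.card_eq_fintype_card, smul_eq_mul]
    have hlt : (C p).card * p ^ 2 < Nat.card G := by
      calc (C p).card * p ^ 2
          ≤ Nat.card (Sylow p Gb) * (Nat.card (Subgroup.center (cz t)) - 1) * p ^ 2 :=
            Nat.mul_le_mul_right _ hC
        _ < Nat.card (Sylow p Gb) * Nat.card (Subgroup.center (cz t)) * p ^ 2 :=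
            Nat.mul_lt_mul_of_pos_right (Nat.mul_lt_mul_of_pos_left
              (by have := Nat.card_pos (α := Subgroup.center (cz t)); omega) Nat.card_pos)
              (pow_pos hp.pos 2)
        _ ≤ Nat.card (Sylow p Gb) * Nat.card (cz t) := by
            rw [mul_assoc]; exact Nat.mul_le_mul_left _ hzle
        _ = Nat.card G := hn
    rw [mul_one_div, lt_div_iff₀ (by have := hp.pos; positivity)]
    exact_mod_cast hlt
  obtain ⟨t₀, -, ht₀⟩ := SetLike.exists_of_lt (lt_top_iff_ne_top.2 hne)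
  obtain ⟨p₀, hp₀, -⟩ := hmem t₀ ht₀
  have hsub : (Finset.univ.filter fun x => x ∉ Z) ⊆ (Nat.card Gb).primeFactors.biUnion C := fun x hx => by
    obtain ⟨p, hp, hxp⟩ := hmem x (Finset.mem_filter.1 hx).2
    exact Finset.mem_biUnion.2 ⟨p, hp, hxp⟩
  have h1 := (Finset.card_le_card hsub).trans Finset.card_biUnion_le
  have h5 : (Finset.univ.filter fun x => x ∉ Z).card + Nat.card Z = Nat.card G := by
    rw [Nat.card_eq_fintype_card (α := G), Nat.card_eq_fintype_card, Fintype.card_subtype, add_comm,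
      Finset.card_filter_add_card_filter_not, Finset.card_univ]
  have hpos : (0 : ℚ) < Nat.card Gb := by exact_mod_cast Nat.card_pos
  have h2 : ((Finset.univ.filter fun x => x ∉ Z).card : ℚ) < (Nat.card G : ℚ) *
      ∑ p ∈ (Nat.card Gb).primeFactors, 1 / (p : ℚ) ^ 2 := by
    calc ((Finset.univ.filter fun x => x ∉ Z).card : ℚ)
        ≤ ∑ p ∈ (Nat.card Gb).primeFactors, ((C p).card : ℚ) := by exact_mod_cast h1
      _ < _ := by rw [Finset.mul_sum]; exact Finset.sum_lt_sum_of_nonempty ⟨p₀, hp₀⟩ hbound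
  have h3 : ∑ p ∈ (Nat.card Gb).primeFactors, 1 / (p : ℚ) ^ 2 ≤ 1 - 1 / (Nat.card Gb : ℚ) :=
    le_trans (Finset.sum_le_sum_of_subset_of_nonneg
      (fun p hp => Finset.mem_Icc.2 ⟨(Nat.prime_of_mem_primeFactors hp).two_le,
        Nat.le_of_mem_primeFactors hp⟩) fun _ _ _ => by positivity)
      (CfsgLib.Perm.CentMax.sum_inv_sq_le _ Nat.card_pos)
  have h4 : (Nat.card G : ℚ) * (1 - 1 / (Nat.card Gb : ℚ)) =
      ((Finset.univ.filter fun x => x ∉ Z).card : ℚ) := by
    have e1 : (Nat.card G : ℚ) = (Nat.card Gb : ℚ) * (Nat.card Z : ℚ) := by exact_mod_cast hGb.symm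
    have e2 : ((Finset.univ.filter fun x => x ∉ Z).card : ℚ) + (Nat.card Z : ℚ) = (Nat.card G : ℚ) := by
      exact_mod_cast h5
    rw [e1] at e2 ⊢
    rw [mul_sub, mul_one, show (Nat.card Gb : ℚ) * (Nat.card Z : ℚ) * (1 / (Nat.card Gb : ℚ)) =
      (Nat.card Z : ℚ) by field_simp]
    linarith
  have h6 := h2.trans_le (mul_le_mul_of_nonneg_left h3 (Nat.cast_nonneg _))
  exact absurd h6 (by rw [h4]; exact lt_irrefl _)

end Helpers


/-- Let G be a finite group in which the centralizer of every non-central element is a maximal subgroup of G. Then G is solvable. -/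
theorem result {G : Type*} [Group G] [Finite G]
    (h : ∀ g : G, g ∉ Subgroup.center G → IsCoatom (Subgroup.centralizer ({g} : Set G))) :
    Group.IsSolvable G := by
  by_cases hne : Subgroup.center G = ⊤
  · exact Group.isSolvable_of_comm fun a b => Subgroup.mem_center_iff.1 (hne ▸ Subgroup.mem_top b) a
  by_contra hsol
  have hN : ∀ x : G, x ∉ Subgroup.center G → ¬ (cz x).Normal := fun x hx hn =>
    hsol (isSolvable_of_normal h hx hn)
  by_cases hab : ∃ w : G, w ∉ Subgroup.center G ∧ ∀ x ∈ cz w, ∀ y ∈ cz w, x * y = y * x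
  · obtain ⟨w, hw, hwab⟩ := hab
    obtain ⟨p, n, a, hp, ht, hta⟩ := exists_part hw
    rw [← cz_pow h n ht] at hwab
    exact false_of_all_abelian h hN hne fun u hu => abelian_all h hN hp ht hta hwab hu
  · push Not at hab
    exact false_of_none_abelian h hN hne fun w hw hall =>
      (hab w hw).elim fun x hx => hx.2.elim fun y hy => hy.2 (hall x hx.1 y hy.1)

end Cfsg.Agent.S4262
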