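import Cfsg.Statements.S4263
import Cfsg.Agent.Fitting.Join

set_option autoImplicit false
open Cfsg

namespace Cfsg.Agent.S4263


/-- Let G be a finite group. An element x lies in the Fitting subgroup F(G) if and only if, for every subgroup H of G, the power x^[G : H] lies in H. -/
theorem result {G : Type*} [Group G] [Finite G] (x : G) :
    x ∈ Cfsg.fittingSubgroup G ↔ ∀ H : Subgroup G, x ^ H.index ∈ H := by
  haveI hFn : (Cfsg.fittingSubgroup G).Normal := CfsgLib.Fitting.fittingSubgroup_normal G
  set F := Cfsg.fittingSubgroup G with hF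
  constructor
  · intro hx H
    haveI : Group.IsNilpotent F := CfsgLib.Fitting.fittingSubgroup_isNilpotent G
    have h1 := CfsgLib.Fitting.pow_index_mem_of_isSubnormal
      (CfsgLib.Fitting.isSubnormal_of_isNilpotent (H.subgroupOf F)) ⟨x, hx⟩
    rw [Subgroup.mem_subgroupOf] at h1
    simp only [SubmonoidClass.coe_pow] at h1
    have hd : (H.subgroupOf F).index ∣ H.index := CfsgLib.Fitting.relIndex_dvd_index' F H
    obtain ⟨c, hc⟩ := hd
    rw [hc, pow_mul]
    exact H.pow_mem h1 c
  · intro h
    rw [← QuotientGroup.eq_one_iff (N := F) x, ← orderOf_eq_one_iff]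
    by_contra hne
    obtain ⟨p, hp, hpd⟩ := Nat.exists_prime_and_dvd hne
    haveI : Fact p.Prime := ⟨hp⟩
    obtain ⟨P₀⟩ : Nonempty (Sylow p G) := inferInstance
    have hcore : x ^ P₀.1.index ∈ P₀.1.normalCore := by
      intro b
      have h1 := h ((b⁻¹ • P₀ : Sylow p G) : Subgroup G)
      have h2 : ((b⁻¹ • P₀ : Sylow p G) : Subgroup G).index = P₀.1.index := by
        have e : Nat.card ((b⁻¹ • P₀ : Sylow p G) : Subgroup G) = Nat.card (P₀ : Subgroup G) :=
          (Sylow.card_eq_multiplicity _).trans (Sylow.card_eq_multiplicity _).symm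
        have e2 := ((b⁻¹ • P₀ : Sylow p G) : Subgroup G).card_mul_index
        rw [e, ← (P₀ : Subgroup G).card_mul_index] at e2
        exact Nat.eq_of_mul_eq_mul_left Nat.card_pos e2
      rw [h2, Sylow.coe_subgroup_smul, Subgroup.mem_pointwise_smul_iff_inv_smul_mem] at h1
      simpa using h1
    have hle : P₀.1.normalCore ≤ F :=
      CfsgLib.Fitting.pGroup_le_fittingSubgroup (p := p) (Subgroup.normalCore_normal _)
        (P₀.2.to_le (Subgroup.normalCore_le _))
    have h3 : (x : G ⧸ F) ^ P₀.1.index = 1 := by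
      rw [← QuotientGroup.mk_pow, QuotientGroup.eq_one_iff]
      exact hle hcore
    exact P₀.not_dvd_index (hpd.trans (orderOf_dvd_of_pow_eq_one h3))

end Cfsg.Agent.S4263
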