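import Cfsg.Statements.S4269
import Mathlib
import Cfsg.Agent.Eq.Def_HallClasses
-- import your own Cfsg.Agent.* helpers here

set_option autoImplicit false
open Cfsg
open scoped commutatorElement

namespace Cfsg.Agent.S4269

/-- Let G be a finite group, V an abelian normal subgroup and H a subgroup with HV = G. Then H is pronormal in G (H and gHg⁻¹ are conjugate inside the subgroup they generate, for every g) if and only if every H-invariant subgroup U of V satisfies U = N_U(H)·[H, U], that is, U is the join of U ∩ N_G(H) and the commutator subgroup [H, U]. -/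
theorem result {G : Type*} [Group G] [Finite G]
    (V : Subgroup G) [V.Normal] (hV : IsMulCommutative ↥V) (H : Subgroup G) (hHV : H ⊔ V = ⊤) :
    Cfsg.IsPronormal H ↔
      ∀ U : Subgroup G, U ≤ V → (∀ h ∈ H, U.map (MulAut.conj h).toMonoidHom = U) →
        U = (U ⊓ Subgroup.normalizer (H : Set G)) ⊔ ⁅H, U⁆ := by
  have hc : ∀ a ∈ V, ∀ b ∈ V, a * b = b * a := fun a ha b hb =>
    congrArg Subtype.val (hV.is_comm.comm (⟨a, ha⟩ : V) ⟨b, hb⟩)
  have hmap : ∀ (g : G) (x : G), x ∈ H.map (MulAut.conj g).toMonoidHom ↔ g⁻¹ * x * g ∈ H := by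
    intro g x
    constructor
    · rintro ⟨h, hh, rfl⟩
      simpa [mul_assoc] using hh
    · intro h
      exact ⟨_, h, by simp [mul_assoc]⟩
  have hnorm : ∀ n ∈ Subgroup.normalizer (H : Set G), H.map (MulAut.conj n).toMonoidHom = H := by
    intro n hn
    ext x
    rw [hmap, Subgroup.mem_normalizer_iff'' ] at *
    exact (hn x).symm
  have hmul : ∀ a b : G, H.map (MulAut.conj (a * b)).toMonoidHom =
      (H.map (MulAut.conj b).toMonoidHom).map (MulAut.conj a).toMonoidHom := by
    intro a b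
    rw [Subgroup.map_map]
    congr 1
    ext x
    simp [mul_assoc]
  have hinH : ∀ h ∈ H, H.map (MulAut.conj h).toMonoidHom = H := fun h hh =>
    hnorm h (Subgroup.le_normalizer hh)
  constructor
  · intro hpro U hUV hUH
    have hUH' : ∀ h ∈ H, ∀ u ∈ U, h * u * h⁻¹ ∈ U := fun h hh u hu => by
      have := (hUH h hh).le ⟨u, hu, rfl⟩
      simpa using this
    have hCU : ⁅H, U⁆ ≤ U := Subgroup.commutator_le.2 fun h hh u hu => by
      rw [commutatorElement_def]
      exact mul_mem (hUH' h hh u hu) (inv_mem hu)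
    refine le_antisymm (fun u hu => ?_) (sup_le inf_le_left hCU)
    obtain ⟨x, hx, hxe⟩ := hpro u
    -- the generated subgroup lies in `[H, U] H`
    have hCH : ∀ h ∈ H, ∀ c ∈ ⁅H, U⁆, h * c * h⁻¹ ∈ ⁅H, U⁆ := by
      intro h hh c hc'
      induction hc' using Subgroup.closure_induction with
      | mem c hc' =>
        obtain ⟨a, ha, b, hb, rfl⟩ := hc'
        rw [show h * ⁅a, b⁆ * h⁻¹ = ⁅h * a * h⁻¹, h * b * h⁻¹⁆ by
          simp only [commutatorElement_def]; group]
        exact Subgroup.commutator_mem_commutator (mul_mem (mul_mem hh ha) (inv_mem hh))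
          (hUH' h hh b hb)
      | one => simp
      | mul a b _ _ iha ihb =>
        rw [show h * (a * b) * h⁻¹ = h * a * h⁻¹ * (h * b * h⁻¹) by group]
        exact mul_mem iha ihb
      | inv a _ iha =>
        rw [show h * a⁻¹ * h⁻¹ = (h * a * h⁻¹)⁻¹ by group]
        exact inv_mem iha
    have hdec : ∀ y ∈ H ⊔ H.map (MulAut.conj u).toMonoidHom, ∃ c ∈ ⁅H, U⁆, ∃ h ∈ H, y = c * h := by
      intro y hy
      let S : Subgroup G :=
        { carrier := {y | ∃ c ∈ ⁅H, U⁆, ∃ h ∈ H, y = c * h}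
          one_mem' := ⟨1, one_mem _, 1, one_mem _, (one_mul 1).symm⟩
          mul_mem' := by
            rintro _ _ ⟨c, hc1, h, hh, rfl⟩ ⟨d, hd, k, hk, rfl⟩
            exact ⟨c * (h * d * h⁻¹), mul_mem hc1 (hCH h hh d hd), h * k, mul_mem hh hk, by group⟩
          inv_mem' := by
            rintro _ ⟨c, hc1, h, hh, rfl⟩
            exact ⟨h⁻¹ * c⁻¹ * h, by simpa using hCH h⁻¹ (inv_mem hh) c⁻¹ (inv_mem hc1), h⁻¹,
              inv_mem hh, by group⟩ }
      refine (sup_le (a := H) (c := S) (fun h hh => ⟨1, one_mem _, h, hh, (one_mul h).symm⟩) ?_) hy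
      rintro _ ⟨h, hh, rfl⟩
      refine ⟨⁅h, u⁆⁻¹, inv_mem (Subgroup.commutator_mem_commutator hh hu), h, hh, ?_⟩
      simp [commutatorElement_def, mul_assoc]
    obtain ⟨c, hc', h, hh, rfl⟩ := hdec x hx
    rw [hmul c h, hinH h hh] at hxe
    have hn : c⁻¹ * u ∈ Subgroup.normalizer (H : Set G) := by
      have h1 : H.map (MulAut.conj (c⁻¹ * u)).toMonoidHom = H := by
        rw [hmul, hxe, ← hmul, inv_mul_cancel]
        exact hinH 1 (one_mem _)
      rw [Subgroup.mem_normalizer_iff'']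
      intro x
      have := hmap (c⁻¹ * u) x
      rwa [h1] at this
    rw [show u = (c⁻¹ * u) * c by
      rw [hc _ (hUV (mul_mem (inv_mem (hCU hc')) hu)) _ (hUV (hCU hc')), mul_inv_cancel_left]]
    have hmem : c⁻¹ * u ∈ U ⊓ Subgroup.normalizer (H : Set G) :=
      Subgroup.mem_inf.2 ⟨mul_mem (inv_mem (hCU hc')) hu, hn⟩
    exact mul_mem (Subgroup.mem_sup_left hmem) (Subgroup.mem_sup_right hc')
  · intro hU g
    obtain ⟨v, hv, h, hh, rfl⟩ : ∃ v ∈ V, ∃ h ∈ H, g = v * h := by
      obtain ⟨a, ha, b, hb, e⟩ := Subgroup.mem_sup_of_normal_right.1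
        (hHV.ge (Subgroup.mem_top g⁻¹))
      exact ⟨b⁻¹, inv_mem hb, a⁻¹, inv_mem ha, by rw [← mul_inv_rev, e, inv_inv]⟩
    rw [hmul, hinH h hh]
    let U : Subgroup G := Subgroup.closure {z | ∃ k ∈ H, z = k * v * k⁻¹}
    have hUV : U ≤ V := by
      refine (Subgroup.closure_le V).2 ?_
      rintro _ ⟨k, hk, rfl⟩
      exact Subgroup.Normal.conj_mem inferInstance v hv k
    have hinv : ∀ k ∈ H, U.map (MulAut.conj k).toMonoidHom = U := by
      have hle : ∀ k ∈ H, U.map (MulAut.conj k).toMonoidHom ≤ U := by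
        intro k hk
        rw [MonoidHom.map_closure, Subgroup.closure_le]
        rintro _ ⟨_, ⟨l, hl, rfl⟩, rfl⟩
        exact Subgroup.subset_closure ⟨k * l, mul_mem hk hl, by simp [mul_assoc]⟩
      intro k hk
      refine le_antisymm (hle k hk) fun z hz => ?_
      exact ⟨_, hle k⁻¹ (inv_mem hk) ⟨z, hz, rfl⟩, by simp [mul_assoc]⟩
    have hmemv : v ∈ U := Subgroup.subset_closure ⟨1, one_mem _, by simp⟩
    rw [hU U hUV hinv] at hmemv
    have hJ : ∀ k ∈ H, ∀ z ∈ U, ⁅k, z⁆ ∈ H ⊔ H.map (MulAut.conj v).toMonoidHom := by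
      intro k hk z hz
      induction hz using Subgroup.closure_induction generalizing k with
      | mem z hz =>
        obtain ⟨l, hl, rfl⟩ := hz
        rw [show ⁅k, l * v * l⁻¹⁆ = l * ((l⁻¹ * k * l) * (v * (l⁻¹ * k * l)⁻¹ * v⁻¹)) * l⁻¹ by
          simp only [commutatorElement_def]; group]
        refine mul_mem (mul_mem (Subgroup.mem_sup_left hl) (mul_mem ?_ ?_))
          (inv_mem (Subgroup.mem_sup_left hl))
        · exact Subgroup.mem_sup_left (mul_mem (mul_mem (inv_mem hl) hk) hl)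
        · exact Subgroup.mem_sup_right
            ⟨_, inv_mem (mul_mem (mul_mem (inv_mem hl) hk) hl), rfl⟩
      | one => simp
      | mul a b ha hb iha ihb =>
        have hb' : ⁅k, b⁆ ∈ V := by
          rw [commutatorElement_def]
          exact mul_mem (Subgroup.Normal.conj_mem inferInstance b (hUV hb) k) (inv_mem (hUV hb))
        rw [show ⁅k, a * b⁆ = ⁅k, a⁆ * (a * ⁅k, b⁆ * a⁻¹) by
          simp only [commutatorElement_def]; group, hc a (hUV ha) _ hb', mul_inv_cancel_right]
        exact mul_mem (iha k hk) (ihb k hk)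
      | inv a ha iha =>
        have ha' : ⁅k, a⁆ ∈ V := by
          rw [commutatorElement_def]
          exact mul_mem (Subgroup.Normal.conj_mem inferInstance a (hUV ha) k) (inv_mem (hUV ha))
        rw [show ⁅k, a⁻¹⁆ = a⁻¹ * ⁅k, a⁆⁻¹ * a by simp only [commutatorElement_def]; group,
          hc a⁻¹ (inv_mem (hUV ha)) _ (inv_mem ha'), inv_mul_cancel_right]
        exact inv_mem (iha k hk)
    haveI : ((U ⊓ Subgroup.normalizer (H : Set G)).subgroupOf U).Normal :=
      ⟨fun a ha b => by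
        rw [Subgroup.mem_subgroupOf] at ha ⊢
        rw [Subgroup.coe_mul, Subgroup.coe_mul, hc _ (hUV b.2) _ (hUV a.2), Subgroup.coe_inv,
          mul_inv_cancel_right]
        exact ha⟩
    have hdec : ∀ z ∈ (U ⊓ Subgroup.normalizer (H : Set G)) ⊔ ⁅H, U⁆,
        ∃ n ∈ U ⊓ Subgroup.normalizer (H : Set G), ∃ c ∈ ⁅H, U⁆, z = c * n := by
      have hCU : ⁅H, U⁆ ≤ U := Subgroup.commutator_le.2 fun k hk u hu => by
        rw [commutatorElement_def]
        refine mul_mem ?_ (inv_mem hu)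
        have := (hinv k hk).le ⟨u, hu, rfl⟩
        simpa using this
      let S : Subgroup G :=
        { carrier := {z | ∃ n ∈ U ⊓ Subgroup.normalizer (H : Set G), ∃ c ∈ ⁅H, U⁆, z = c * n}
          one_mem' := ⟨1, one_mem _, 1, one_mem _, (one_mul 1).symm⟩
          mul_mem' := by
            rintro _ _ ⟨n, hn, c, hc1, rfl⟩ ⟨m, hm, d, hd, rfl⟩
            refine ⟨n * m, mul_mem hn hm, c * d, mul_mem hc1 hd, ?_⟩
            rw [mul_assoc, mul_assoc, ← mul_assoc n d, hc n (hUV hn.1) d (hUV (hCU hd)), mul_assoc]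
          inv_mem' := by
            rintro _ ⟨n, hn, c, hc1, rfl⟩
            refine ⟨n⁻¹, inv_mem hn, c⁻¹, inv_mem hc1, ?_⟩
            rw [mul_inv_rev, hc _ (inv_mem (hUV hn.1)) _ (inv_mem (hUV (hCU hc1)))] }
      exact fun z hz => (sup_le (a := U ⊓ Subgroup.normalizer (H : Set G)) (c := S)
        (fun n hn => ⟨n, hn, 1, one_mem _, (one_mul n).symm⟩)
        (fun c hc1 => ⟨1, one_mem _, c, hc1, (mul_one c).symm⟩)) hz
    obtain ⟨n, hn, c, hc1, hvc⟩ := hdec v hmemv
    refine ⟨c, ?_, by rw [hvc, hmul, hnorm n hn.2]⟩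
    exact Subgroup.commutator_le.2 (fun k hk z hz => hJ k hk z hz) hc1

end Cfsg.Agent.S4269
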