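import Cfsg.Statements.S4279
import Cfsg.Agent.G2Oct.CentralizerCard
-- import your own Cfsg.Agent.* helpers here

set_option autoImplicit false
open Cfsg

namespace Cfsg.Agent.S4279

/-- In the Chevalley group G of type G₂ over a finite field F of odd order q, the centralizer of an involution t has order q²(q² − 1)² and contains two elementwise commuting subgroups, each isomorphic to SL(2, F), which meet exactly in the subgroup generated by t and whose join has index 2 in the centralizer. -/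
theorem result {F : Type*} [Field F] [Fintype F] (hF : Odd (Fintype.card F)) (t : ↥(Cfsg.Lie.chevG2.group F)) (ht : orderOf t = 2) : Nat.card (Subgroup.centralizer ({t} : Set ↥(Cfsg.Lie.chevG2.group F))) = Fintype.card F ^ 2 * (Fintype.card F ^ 2 - 1) ^ 2 ∧ ∃ L₁ L₂ : Subgroup ↥(Cfsg.Lie.chevG2.group F), Nonempty (L₁ ≃* Matrix.SpecialLinearGroup (Fin 2) F) ∧ Nonempty (L₂ ≃* Matrix.SpecialLinearGroup (Fin 2) F) ∧ (∀ x ∈ L₁, ∀ y ∈ L₂, x * y = y * x) ∧ L₁ ⊓ L₂ = Subgroup.zpowers t ∧ L₁ ⊔ L₂ ≤ Subgroup.centralizer ({t} : Set ↥(Cfsg.Lie.chevG2.group F)) ∧ (L₁ ⊔ L₂).relIndex (Subgroup.centralizer ({t} : Set ↥(Cfsg.Lie.chevG2.group F))) = 2 := by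
  classical
  let E := CfsgLib.G2Oct.chevIso F
  obtain ⟨t', rfl⟩ := E.surjective t
  rw [MulEquiv.orderOf_eq] at ht
  have h2 := CfsgLib.G2Oct.two_ne_zero_of_odd hF
  have h0 : orderOf (CfsgLib.G2Oct.t0 F) = 2 := by
    refine orderOf_eq_prime ?_ (CfsgLib.G2Oct.t0_ne_one h2)
    rw [sq, CfsgLib.G2Oct.t0, ← map_mul]
    refine CfsgLib.G2Oct.toG2_scalar (a := 1) ?_ ?_
    · show ((1 * 1 : GL (Fin 2) F) : Matrix (Fin 2) (Fin 2) F) = _
      rw [one_mul, Units.val_one, one_smul]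
    · show ((-1 * -1 : GL (Fin 2) F) : Matrix (Fin 2) (Fin 2) F) = _
      rw [neg_mul_neg, one_mul, Units.val_one, one_smul]
  obtain ⟨k, hk⟩ := isConj_iff.1
    ((CfsgLib.G2Oct.isConj_stdInv hF h0).trans (CfsgLib.G2Oct.isConj_stdInv hF ht).symm)
  let Φ := (MulAut.conj k).trans E
  have hΦ : Φ (CfsgLib.G2Oct.t0 F) = E t' := by
    show E (k * _ * k⁻¹) = _
    rw [hk]
  rw [← hΦ]
  obtain ⟨hcard, L₁, L₂, ⟨e₁⟩, ⟨e₂⟩, hcomm, hinf, hle, hidx⟩ :=
    CfsgLib.G2Oct.centralizer_t0_structure hF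
  have hC : Subgroup.centralizer ({Φ (CfsgLib.G2Oct.t0 F)} : Set ↥(Cfsg.Lie.chevG2.group F)) =
      (Subgroup.centralizer ({CfsgLib.G2Oct.t0 F} : Set ↥(Cfsg.Lie.G2 F))).map Φ.toMonoidHom := by
    ext x
    obtain ⟨y, rfl⟩ := Φ.surjective x
    rw [Subgroup.mem_centralizer_singleton_iff, ← map_mul, ← map_mul, Φ.injective.eq_iff]
    constructor
    · exact fun h => ⟨y, Subgroup.mem_centralizer_singleton_iff.2 h, rfl⟩
    · rintro ⟨z, hz, hzy⟩
      obtain rfl := Φ.injective hzy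
      exact Subgroup.mem_centralizer_singleton_iff.1 hz
  rw [hC]
  refine ⟨?_, L₁.map Φ.toMonoidHom, L₂.map Φ.toMonoidHom,
    ⟨(L₁.equivMapOfInjective _ Φ.injective).symm.trans e₁⟩,
    ⟨(L₂.equivMapOfInjective _ Φ.injective).symm.trans e₂⟩, ?_, ?_, ?_, ?_⟩
  · rw [← Nat.card_congr (Subgroup.equivMapOfInjective _ _ Φ.injective).toEquiv]; exact hcard
  · rintro _ ⟨x, hx, rfl⟩ _ ⟨y, hy, rfl⟩
    rw [← map_mul, ← map_mul, hcomm x hx y hy]
  · rw [← Subgroup.map_inf _ _ _ Φ.injective, hinf, MonoidHom.map_zpowers]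
    rfl
  · rw [← Subgroup.map_sup]; exact Subgroup.map_mono hle
  · rw [← Subgroup.map_sup, Subgroup.relIndex_map_map_of_injective _ _ Φ.injective]; exact hidx

end Cfsg.Agent.S4279
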