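import Cfsg.Statements.S4341
import Cfsg.Agent.GlaubermanZJ.SylowNormal

set_option autoImplicit false
open Cfsg
open scoped Pointwise

namespace Cfsg.Agent.S4341

theorem card_sylow_eq {H : Type*} [Group H] [Finite H] {p : ℕ} [Fact p.Prime] (P : Sylow p H) :
    Nat.card (Sylow p H) = (Subgroup.normalizer ((P : Subgroup H) : Set H)).index :=
  P.card_eq_index_normalizer

theorem relIndex_eq_of_mul {G : Type*} [Group G] [Finite G] {X K L : Subgroup G} (hKL : K ≤ L)
    (h : ∀ l ∈ L, ∃ k ∈ K, k⁻¹ * l ∈ X) : X.relIndex K = X.relIndex L := by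
  unfold Subgroup.relIndex Subgroup.index
  refine Nat.card_eq_of_bijective (Subgroup.quotientSubgroupOfEmbeddingOfLE X hKL)
    ⟨(Subgroup.quotientSubgroupOfEmbeddingOfLE X hKL).injective, fun q => ?_⟩
  obtain ⟨l, rfl⟩ := QuotientGroup.mk_surjective q
  obtain ⟨k, hk, hkl⟩ := h l l.2
  refine ⟨QuotientGroup.mk ⟨k, hk⟩, ?_⟩
  exact QuotientGroup.eq.mpr (Subgroup.mem_subgroupOf.mpr hkl)


/-- Let K be a normal subgroup of a finite group G, p a prime and P a Sylow p-subgroup of G; let N be the normalizer of P ∩ K inside the subgroup PK. Then the number of Sylow p-subgroups of G equals the product of the numbers of Sylow p-subgroups of G/K, of K, and of N/(P ∩ K). (The normality of P ∩ K in N, which always holds, is assumed as a hypothesis so that the quotient can be formed.) -/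
theorem result {G : Type*} [Group G] [Finite G]
    (p : ℕ) [Fact p.Prime] (K : Subgroup G) [K.Normal] (P : Sylow p G) (N : Subgroup G)
    (hN : N = ((P : Subgroup G) ⊔ K) ⊓ Subgroup.normalizer (((P : Subgroup G) ⊓ K : Subgroup G) : Set G))
    [hn : (((P : Subgroup G) ⊓ K).subgroupOf N).Normal] :
    Nat.card (Sylow p G) =
      Nat.card (Sylow p (G ⧸ K)) * Nat.card (Sylow p K) * Nat.card (Sylow p (N ⧸ ((P : Subgroup G) ⊓ K).subgroupOf N)) := by
  subst hN
  obtain ⟨Q, hQ⟩ := CfsgLib.GlaubermanZJ.exists_sylow_map_eq_inf P K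
  set L := (P : Subgroup G) ⊔ K with hL
  set A := Subgroup.normalizer ((P : Subgroup G) : Set G) with hA
  set B := Subgroup.normalizer (((P : Subgroup G) ⊓ K : Subgroup G) : Set G) with hB
  set M := Subgroup.normalizer (L : Set G) with hM
  have hconj : ∀ g ∈ A, ∀ x : G, x ∈ (P : Subgroup G) ↔ g * x * g⁻¹ ∈ (P : Subgroup G) :=
    fun g hg => Subgroup.mem_normalizer_iff.mp hg
  have hKconj : ∀ g x : G, x ∈ K ↔ g * x * g⁻¹ ∈ K := fun g x =>
    ⟨fun h => (inferInstance : K.Normal).conj_mem x h g, fun h => by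
      simpa [mul_assoc] using (inferInstance : K.Normal).conj_mem _ h g⁻¹⟩
  have hAB : A ≤ B := fun g hg => Subgroup.mem_normalizer_iff.mpr fun x =>
    and_congr (hconj g hg x) (hKconj g x)
  have hAM : A ≤ M := by
    intro g hg
    refine Subgroup.mem_normalizer_iff.mpr ?_
    have key : ∀ g ∈ A, ∀ x ∈ L, g * x * g⁻¹ ∈ L := fun g hg x hx => by
      rw [hL] at hx ⊢
      obtain ⟨u, hu, v, hv, rfl⟩ := Subgroup.mem_sup_of_normal_right.mp hx
      have h1 := Subgroup.mul_mem _ (Subgroup.mem_sup_left (T := K) ((hconj g hg u).mp hu))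
        (Subgroup.mem_sup_right (S := (P : Subgroup G)) ((hKconj g v).mp hv))
      simpa [mul_assoc] using h1
    exact fun x => ⟨key g hg x, fun h => by simpa [mul_assoc] using key g⁻¹ (inv_mem hg) _ h⟩
  have hPA : (P : Subgroup G) ≤ A := Subgroup.le_normalizer
  have e1 : Nat.card (Sylow p (G ⧸ K)) = M.index := by
    rw [card_sylow_eq (P.mapSurjective (QuotientGroup.mk'_surjective K)),
      ← Subgroup.index_comap_of_surjective _ (QuotientGroup.mk'_surjective K)]
    congr 1
    rw [Subgroup.comap_normalizer_eq_of_surjective _ (QuotientGroup.mk'_surjective K)]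
    show Subgroup.normalizer ((((P : Subgroup G).map (QuotientGroup.mk' K)).comap
      (QuotientGroup.mk' K) : Subgroup G) : Set G) = M
    rw [Subgroup.comap_map_eq, QuotientGroup.ker_mk']
  have e2 : Nat.card (Sylow p K) = B.relIndex L := by
    rw [card_sylow_eq Q]
    have h1 : ((P : Subgroup G) ⊓ K).subgroupOf K = (Q : Subgroup K) := by
      rw [← hQ, Subgroup.subgroupOf, Subgroup.comap_map_eq_self_of_injective K.subtype_injective]
    rw [← h1, ← Subgroup.subgroupOf_normalizer_eq inf_le_right, ← hB]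
    refine relIndex_eq_of_mul (le_sup_right : K ≤ L) fun l hl => ?_
    rw [hL] at hl
    obtain ⟨u, hu, v, hv, rfl⟩ := Subgroup.mem_sup_of_normal_right.mp hl
    refine ⟨u * v * u⁻¹, (hKconj u v).mp hv, ?_⟩
    have : (u * v * u⁻¹)⁻¹ * (u * v) = u := by group
    rw [this]
    exact hAB (hPA hu)
  have hPN : (P : Subgroup G) ≤ L ⊓ B := le_inf le_sup_left (hPA.trans hAB)
  have e3 : Nat.card (Sylow p (↥(L ⊓ B) ⧸ ((P : Subgroup G) ⊓ K).subgroupOf (L ⊓ B))) =
      A.relIndex (L ⊓ B) := by
    set R := ((P : Subgroup G) ⊓ K).subgroupOf (L ⊓ B) with hR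
    rw [card_sylow_eq ((P.subtype hPN).mapSurjective (QuotientGroup.mk'_surjective R)),
      ← Subgroup.index_comap_of_surjective _ (QuotientGroup.mk'_surjective R)]
    unfold Subgroup.relIndex
    congr 1
    rw [Subgroup.comap_normalizer_eq_of_surjective _ (QuotientGroup.mk'_surjective R)]
    show Subgroup.normalizer (((((P.subtype hPN : Sylow p ↥(L ⊓ B)) : Subgroup ↥(L ⊓ B)).map
      (QuotientGroup.mk' R)).comap (QuotientGroup.mk' R) : Subgroup ↥(L ⊓ B)) : Set ↥(L ⊓ B)) = _
    rw [Subgroup.comap_map_eq, QuotientGroup.ker_mk', Sylow.coe_subtype,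
      sup_eq_left.mpr (show R ≤ (P : Subgroup G).subgroupOf (L ⊓ B) from
        fun x hx => (Subgroup.mem_subgroupOf.mp hx).1)]
    exact (Subgroup.subgroupOf_normalizer_eq hPN).symm
  have f1 : B.relIndex L * A.relIndex (L ⊓ B) = A.relIndex L := by
    rw [show B.relIndex L = (L ⊓ B).relIndex L from (Subgroup.inf_relIndex_left L B).symm,
      show A.relIndex (L ⊓ B) = (L ⊓ A).relIndex (L ⊓ B) by
        rw [← Subgroup.inf_relIndex_right A (L ⊓ B), ← Subgroup.inf_relIndex_right (L ⊓ A) (L ⊓ B)]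
        congr 1
        ext x
        simp only [Subgroup.mem_inf]
        tauto,
      mul_comm, Subgroup.relIndex_mul_relIndex _ _ _ (inf_le_inf_left L hAB) inf_le_left,
      Subgroup.inf_relIndex_left]
  have f2 : A.relIndex L = A.relIndex M := by
    refine relIndex_eq_of_mul Subgroup.le_normalizer fun l hl => ?_
    have hlP : ((l • P : Sylow p G) : Subgroup G) ≤ L := by
      rintro _ ⟨u, hu, rfl⟩
      exact (Subgroup.mem_normalizer_iff.mp hl u).mp (Subgroup.mem_sup_left hu)
    obtain ⟨c, hc⟩ := MulAction.exists_smul_eq L (P.subtype (le_sup_left : _ ≤ L))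
      ((l • P).subtype hlP)
    rw [Sylow.smul_subtype] at hc
    have hc' : (c : G) • P = l • P := Sylow.subtype_injective hc
    exact ⟨c, c.2, Sylow.smul_eq_iff_mem_normalizer.mp (by rw [mul_smul, ← hc', inv_smul_smul])⟩
  rw [card_sylow_eq P, e1, e2, e3, mul_assoc, f1, f2, mul_comm,
    Subgroup.relIndex_mul_index hAM]

end Cfsg.Agent.S4341
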