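import Cfsg.Statements.S4303
import Cfsg.Agent.S4341
import Cfsg.Agent.Coprime.Sylow
import Mathlib

set_option autoImplicit false
set_option linter.style.haveILetI false
open Cfsg

universe u

namespace Cfsg.Agent.S4303

open Subgroup

/-- The number `n` is a product of admissible factors. -/
def Good.{v} (p n : ℕ) : Prop :=
  ∃ l : List ℕ, l.prod = n ∧
      ∀ m ∈ l, (IsPrimePow m ∧ m % p = 1) ∨
        ∃ (S : Type v) (_ : Group S) (_ : Finite S), IsSimpleGroup S ∧ m = Nat.card (Sylow p S)

theorem good_mul {p a b : ℕ} (ha : Good.{u} p a) (hb : Good.{u} p b) : Good.{u} p (a * b) := by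
  obtain ⟨l, rfl, hl⟩ := ha
  obtain ⟨l', rfl, hl'⟩ := hb
  exact ⟨l ++ l', List.prod_append, fun m hm => (List.mem_append.mp hm).elim (hl m) (hl' m)⟩

variable {G : Type*} [Group G] [Finite G] {p : ℕ} [hp : Fact p.Prime]

/-- For coprime action of a `p`-group `A` on `K`, each prime part of `|K : C_K(A)|` is 1 mod `p`. -/
theorem modEq_prime_part {A K : Subgroup G} (hA : IsPGroup p A) (hAK : A ≤ normalizer (K : Set G))
    (hK : ¬ p ∣ Nat.card K) (r : ℕ) [hr : Fact r.Prime] :
    r ^ (Nat.card K).factorization r ≡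
      r ^ (Nat.card (K ⊓ centralizer (A : Set G) : Subgroup G)).factorization r [MOD p] := by
  obtain ⟨k, hk⟩ := IsPGroup.iff_card.mp hA
  have hcop : (Nat.card A).Coprime (Nat.card K) := by
    rw [hk]; exact (hp.out.coprime_iff_not_dvd.mpr hK).pow_left k
  have hsol : Group.IsSolvable A ∨ Group.IsSolvable K := .inl (CfsgLib.Coprime.isSolvable_of_isPGroup hA)
  set C := K ⊓ centralizer (A : Set G) with hC
  obtain ⟨R0⟩ : Nonempty (Sylow r C) := inferInstance
  set U := (R0 : Subgroup C).map C.subtype with hU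
  have hUC : U ≤ C := map_subtype_le _
  have hAU : A ≤ normalizer (U : Set G) := CfsgLib.Coprime.le_normalizer_of_conj_mem fun a ha u hu => by
    rwa [mem_centralizer_iff.mp (mem_inf.mp (hUC hu)).2 a ha, mul_inv_cancel_right]
  obtain ⟨R, hAR, hUR⟩ := CfsgLib.Coprime.le_invariant_sylow (p := r) hAK hcop hsol U
    (hUC.trans inf_le_left) (R0.isPGroup'.map _) hAU
  set R' := (R : Subgroup K).map K.subtype with hR'
  have hRcard : Nat.card R' = r ^ (Nat.card K).factorization r := by
    rw [card_map_of_injective K.subtype_injective]; exact R.card_eq_multiplicity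
  have hUcard : Nat.card U = r ^ (Nat.card C).factorization r := by
    rw [card_map_of_injective C.subtype_injective]; exact R0.card_eq_multiplicity
  -- the fixed points of `A` on the invariant Sylow subgroup are exactly `U`
  have hfix : R' ⊓ centralizer (A : Set G) = U := by
    refine le_antisymm ?_ (le_inf hUR (hUC.trans inf_le_right))
    have hle : R' ⊓ centralizer (A : Set G) ≤ C := inf_le_inf_right _ (map_subtype_le _)
    have hp' : IsPGroup r ((R' ⊓ centralizer (A : Set G)).subgroupOf C) :=
      ((R.isPGroup'.map _).to_le inf_le_left).comap_of_injective C.subtype C.subtype_injective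
    have heq := R0.3 hp' fun y hy =>
      mem_inf.mpr ⟨hUR ⟨y, hy, rfl⟩, (mem_inf.mp (hUC ⟨y, hy, rfl⟩)).2⟩
    exact fun y hy => ⟨⟨y, hle hy⟩, heq.le hy, rfl⟩
  letI : MulAction A R' :=
    { smul := fun a x => ⟨(a : G) * x * (a : G)⁻¹, (mem_normalizer_iff.mp (hAR a.2) x).mp x.2⟩
      one_smul := fun x => Subtype.ext (show ((1 : A) : G) * x * ((1 : A) : G)⁻¹ = x by simp)
      mul_smul := fun a b x => Subtype.ext (show ((a * b : A) : G) * x * ((a * b : A) : G)⁻¹ =
        (a : G) * ((b : G) * x * (b : G)⁻¹) * (a : G)⁻¹ by simp [mul_assoc]) }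
  have hmod := hA.card_modEq_card_fixedPoints R'
  have hcard : Nat.card (MulAction.fixedPoints A R') = Nat.card U := by
    rw [← hfix]
    exact Nat.card_congr
      { toFun := fun x => ⟨(x : R'), mem_inf.mpr ⟨(x : R').2, mem_centralizer_iff.mpr fun a ha => by
          have h1 : a * ((x : R') : G) * a⁻¹ = (x : R') := congrArg Subtype.val (x.2 ⟨a, ha⟩)
          exact mul_inv_eq_iff_eq_mul.mp h1⟩⟩
        invFun := fun y => ⟨⟨y, (mem_inf.mp y.2).1⟩, fun a => Subtype.ext <|
          mul_inv_eq_iff_eq_mul.mpr (mem_centralizer_iff.mp (mem_inf.mp y.2).2 a a.2)⟩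
        left_inv := fun _ => rfl
        right_inv := fun _ => rfl }
  rwa [hcard, hRcard, hUcard] at hmod

theorem good_index {A K : Subgroup G} (hA : IsPGroup p A) (hAK : A ≤ normalizer (K : Set G))
    (hK : ¬ p ∣ Nat.card K) {n : ℕ} (hn : n * Nat.card (K ⊓ centralizer (A : Set G) : Subgroup G) = Nat.card K) :
    Good.{u} p n := by
  have hn0 : n ≠ 0 := by
    rintro rfl
    rw [zero_mul] at hn
    exact (Nat.card_pos (α := K)).ne hn
  refine ⟨n.primeFactors.toList.map fun r => r ^ n.factorization r, ?_, ?_⟩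
  · rw [Finset.prod_map_toList]
    exact (Nat.prod_factorization_eq_prod_primeFactors (f := fun r k => r ^ k)).symm.trans
      (Nat.prod_factorization_pow_eq_self hn0)
  intro m hm
  simp only [List.mem_map, Finset.mem_toList] at hm
  obtain ⟨r, hr, rfl⟩ := hm
  have hrp : r.Prime := Nat.prime_of_mem_primeFactors hr
  have hpos : 0 < n.factorization r :=
    hrp.factorization_pos_of_dvd hn0 (Nat.dvd_of_mem_primeFactors hr)
  refine .inl ⟨hrp.isPrimePow.pow hpos.ne', ?_⟩
  haveI : Fact r.Prime := ⟨hrp⟩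
  have h := modEq_prime_part hA hAK hK r
  have hadd : (Nat.card K).factorization r = n.factorization r +
      (Nat.card (K ⊓ centralizer (A : Set G) : Subgroup G)).factorization r := by
    rw [← hn, Nat.factorization_mul hn0 Nat.card_pos.ne', Finsupp.add_apply]
  rw [hadd, pow_add] at h
  have hne : r ≠ p := by
    rintro rfl
    exact hK ((Nat.dvd_of_mem_primeFactors hr).trans (hn ▸ dvd_mul_right n _))
  have hc : Nat.Coprime p
      (r ^ (Nat.card (K ⊓ centralizer (A : Set G) : Subgroup G)).factorization r) :=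
    ((Nat.coprime_primes hp.out hrp).mpr hne.symm).pow_right _
  have h1 : r ^ n.factorization r ≡ 1 [MOD p] :=
    Nat.ModEq.cancel_right_of_coprime (c := r ^ _) hc.gcd_eq_one (by rw [one_mul]; exact h)
  unfold Nat.ModEq at h1
  rwa [Nat.one_mod_eq_one.mpr hp.out.ne_one] at h1

/-- The case of a normal `p'`-complement. -/
theorem good_card_sylow (K : Subgroup G) [K.Normal] (P : Sylow p G) (htop : (P : Subgroup G) ⊔ K = ⊤)
    (hK : ¬ p ∣ Nat.card K) : Good.{u} p (Nat.card (Sylow p G)) := by
  refine good_index (A := (P : Subgroup G)) (K := K) P.isPGroup' ?_ hK ?_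
  · intro g _
    exact mem_normalizer_iff.mpr fun x =>
      ⟨fun hx => (inferInstance : K.Normal).conj_mem x hx g, fun hx => by
        simpa [mul_assoc] using (inferInstance : K.Normal).conj_mem _ hx g⁻¹⟩
  have hdisj : (P : Subgroup G) ⊓ K = ⊥ := by
    obtain ⟨k, hk⟩ := IsPGroup.iff_card.mp P.isPGroup'
    exact (disjoint_of_coprime_natCard (by rw [hk]; exact (hp.out.coprime_iff_not_dvd.mpr hK).pow_left k)).eq_bot
  have hNC : K ⊓ centralizer ((P : Subgroup G) : Set G) = K ⊓ normalizer ((P : Subgroup G) : Set G) := by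
    refine le_antisymm (inf_le_inf_left _ (centralizer_le_normalizer _)) (le_inf inf_le_left ?_)
    intro k hk
    obtain ⟨hkK, hkN⟩ := mem_inf.mp hk
    refine mem_centralizer_iff.mpr fun a ha => ?_
    have h1 : a * k * a⁻¹ * k⁻¹ ∈ (P : Subgroup G) ⊓ K := by
      refine mem_inf.mpr ⟨?_, mul_mem ((inferInstance : K.Normal).conj_mem k hkK a) (inv_mem hkK)⟩
      rw [mul_assoc, mul_assoc, ← mul_assoc k]
      exact mul_mem ha ((mem_normalizer_iff.mp hkN _).mp (inv_mem ha))
    rw [hdisj, mem_bot, mul_inv_eq_one, mul_inv_eq_iff_eq_mul] at h1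
    exact h1
  rw [hNC]
  have hN : normalizer ((P : Subgroup G) : Set G) ⊔ K = ⊤ :=
    eq_top_iff.mpr (htop ▸ sup_le_sup_right le_normalizer K)
  have h1 := relIndex_mul_relIndex (⊥ : Subgroup G) (K ⊓ normalizer ((P : Subgroup G) : Set G))
    (normalizer ((P : Subgroup G) : Set G)) bot_le inf_le_right
  rw [relIndex_bot_left, relIndex_bot_left, inf_relIndex_right] at h1
  have h2 : K.relIndex (normalizer ((P : Subgroup G) : Set G)) = K.index := by
    rw [← relIndex_sup_right, hN, relIndex_top_right]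
  have h3 : Nat.card (Sylow p G) = (normalizer ((P : Subgroup G) : Set G)).index :=
    P.card_eq_index_normalizer
  have h4 := (normalizer ((P : Subgroup G) : Set G)).index_mul_card
  rw [← h3, ← h1, h2, ← K.card_mul_index, ← mul_assoc] at h4
  exact Nat.eq_of_mul_eq_mul_right (Nat.pos_of_ne_zero index_ne_zero_of_finite) h4

theorem main (N : ℕ) : ∀ (G : Type u) [Group G] [Finite G], Nat.card G = N →
    Good.{u} p (Nat.card (Sylow p G)) := by
  induction N using Nat.strong_induction_on with
  | _ N ih =>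
    intro G _ _ hN
    by_cases hs : IsSimpleGroup G
    · exact ⟨[Nat.card (Sylow p G)], by simp, fun m hm => .inr ⟨G, inferInstance, inferInstance, hs,
        List.mem_singleton.mp hm⟩⟩
    rcases subsingleton_or_nontrivial G with hG | hG
    · refine ⟨[], ?_, by simp⟩
      haveI : Subsingleton (Sylow p G) := ⟨fun P Q => Sylow.ext (Subsingleton.elim _ _)⟩
      rw [List.prod_nil, Nat.card_unique]
    obtain ⟨K, hKn, hKb, hKt⟩ : ∃ K : Subgroup G, K.Normal ∧ K ≠ ⊥ ∧ K ≠ ⊤ := by
      by_contra hc
      push Not at hc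
      exact hs ⟨fun H hH => (em (H = ⊥)).imp id (hc H hH)⟩
    obtain ⟨P⟩ := (inferInstance : Nonempty (Sylow p G))
    set L := ((P : Subgroup G) ⊔ K) ⊓ normalizer (((P : Subgroup G) ⊓ K : Subgroup G) : Set G) with hL
    haveI hn : (((P : Subgroup G) ⊓ K).subgroupOf L).Normal :=
      (normal_subgroupOf_iff_le_normalizer (le_inf (inf_le_left.trans le_sup_left) le_normalizer)).mpr
        inf_le_right
    have hmulK := K.card_eq_card_quotient_mul_card_subgroup
    have hKlt : Nat.card K < N := hN ▸ lt_of_le_of_ne (card_le_card_group K)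
      fun h => hKt (eq_top_of_card_eq K h)
    have hKone : 1 < Nat.card K := one_lt_card_iff_ne_bot _ |>.mpr hKb
    have hQlt : Nat.card (G ⧸ K) < N := by
      have : 0 < Nat.card (G ⧸ K) := Nat.card_pos
      rw [← hN, hmulK]; exact lt_mul_of_one_lt_right this hKone
    by_cases hM : Nat.card (L ⧸ ((P : Subgroup G) ⊓ K).subgroupOf L) < N
    · rw [Cfsg.Agent.S4341.result p K P L hL]
      exact good_mul (good_mul (ih _ hQlt _ rfl) (ih _ hKlt _ rfl)) (ih _ hM _ rfl)
    have hmulL := (((P : Subgroup G) ⊓ K).subgroupOf L).card_eq_card_quotient_mul_card_subgroup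
    have hLle : Nat.card L ≤ N := hN ▸ card_le_card_group L
    have hone : Nat.card (((P : Subgroup G) ⊓ K).subgroupOf L) = 1 := by
      by_contra hne
      have h0 : 0 < Nat.card (((P : Subgroup G) ⊓ K).subgroupOf L) := Nat.card_pos
      have h00 : 0 < Nat.card (L ⧸ ((P : Subgroup G) ⊓ K).subgroupOf L) := Nat.card_pos
      have := lt_mul_of_one_lt_right h00 (by omega : 1 < Nat.card (((P : Subgroup G) ⊓ K).subgroupOf L))
      rw [← hmulL] at this
      omega
    rw [hone, mul_one] at hmulL
    have hLtop : L = ⊤ := eq_top_of_card_eq L (by omega)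
    have htop : (P : Subgroup G) ⊔ K = ⊤ := eq_top_iff.mpr (hLtop ▸ inf_le_left)
    refine good_card_sylow K P htop fun hpK => ?_
    obtain ⟨Q, hQ⟩ := CfsgLib.GlaubermanZJ.exists_sylow_map_eq_inf P K
    refine Q.ne_bot_of_dvd_card hpK ?_
    have hbot : (P : Subgroup G) ⊓ K = ⊥ := by
      rw [card_eq_one, subgroupOf_eq_bot, hLtop] at hone
      exact disjoint_top.mp hone
    rw [← hQ, map_eq_bot_iff_of_injective _ K.subtype_injective] at hbot
    exact hbot

/-- For a finite group `G` and a prime `p`, the number of Sylow `p`-subgroups of `G` is a product of natural numbers each of which is either a prime power congruent to 1 modulo `p` or the number of Sylow `p`-subgroups of some finite simple group. -/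
theorem result {G : Type u} [Group G] [Finite G]
    (p : ℕ) [Fact p.Prime] :
    ∃ l : List ℕ, l.prod = Nat.card (Sylow p G) ∧
      ∀ m ∈ l, (IsPrimePow m ∧ m % p = 1) ∨
        ∃ (S : Type u) (_ : Group S) (_ : Finite S), IsSimpleGroup S ∧ m = Nat.card (Sylow p S) :=
  main (p := p) _ G rfl

end Cfsg.Agent.S4303
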