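import Cfsg.Statements.S4330
import Cfsg.Agent.MovedVector.Reduction
import Cfsg.Agent.LocalCharP.Residual

set_option autoImplicit false
open Pointwise
open Cfsg

namespace Cfsg.Agent.S4330


set_option linter.style.haveILetI false
open scoped Pointwise

universe u

/-- Subnormality in the join passes to a quotient. -/
theorem subnormal_map {G H : Type*} [Group G] [Group H] (f : G →* H) {A X : Subgroup G} (hAX : A ≤ X)
    (h : (A.subgroupOf X).IsSubnormal) : ((A.map f).subgroupOf (X.map f)).IsSubnormal := by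
  have h1 := h.map (f.subgroupMap_surjective X)
  have e : (A.subgroupOf X).map (f.subgroupMap X) = (A.map f).subgroupOf (X.map f) := by
    ext ⟨y, hy⟩
    constructor
    · rintro ⟨x, hx, he⟩
      exact ⟨(x : G), hx, congrArg Subtype.val he⟩
    · rintro ⟨x, hx, he⟩
      exact ⟨⟨x, hAX hx⟩, hx, Subtype.ext he⟩
  exact e ▸ h1

theorem le_pCore_aux (N : ℕ) : ∀ (G : Type u) [Group G] [Finite G], Nat.card G ≤ N → Group.IsSolvable G →
    ∀ (p : ℕ) [Fact p.Prime], p ≠ 2 → ∀ A : Subgroup G, IsPGroup p A →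
    (∀ c : G, ∃ g : G, IsConj c g ∧ (A.subgroupOf (A ⊔ MulAut.conj g • A)).IsSubnormal) →
    A ≤ Cfsg.pCore p G := by
  induction N with
  | zero =>
    intro G _ _ hN
    have : 0 < Nat.card G := Nat.card_pos
    omega
  | succ N ih =>
    intro G _ _ hN hG p _ hp A hA h
    rcases subsingleton_or_nontrivial G with hs | hn
    · exact fun x _ => (Subsingleton.elim 1 x) ▸ one_mem _
    haveI := hG
    obtain ⟨M, q, k, hMn, hM1, -, hMc, hq, -, hMcard, hMe⟩ :=
      CfsgLib.Solvable.exists_minimal_normal_of_solvable (G := G)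
    haveI := hMn
    haveI := Fact.mk hq
    have hlt : Nat.card (G ⧸ M) ≤ N := by
      have := CfsgLib.Solvable.card_quotient_lt M hM1
      omega
    have hbar : A.map (QuotientGroup.mk' M) ≤ Cfsg.pCore p (G ⧸ M) := by
      refine ih (G ⧸ M) hlt inferInstance p hp _ (hA.map _) fun c => ?_
      obtain ⟨c, rfl⟩ := QuotientGroup.mk'_surjective M c
      obtain ⟨g, hcg, hsn⟩ := h c
      refine ⟨QuotientGroup.mk' M g, MonoidHom.map_isConj _ hcg, ?_⟩
      have h1 := subnormal_map (QuotientGroup.mk' M) (le_sup_left : A ≤ A ⊔ MulAut.conj g • A) hsn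
      have e : (A ⊔ MulAut.conj g • A).map (QuotientGroup.mk' M) =
          A.map (QuotientGroup.mk' M) ⊔ MulAut.conj (QuotientGroup.mk' M g) • A.map (QuotientGroup.mk' M) := by
        rw [Subgroup.map_sup]
        congr 1
        ext x
        constructor
        · rintro ⟨_, ⟨y, hy, rfl⟩, rfl⟩
          exact ⟨QuotientGroup.mk' M y, ⟨y, hy, rfl⟩, rfl⟩
        · rintro ⟨_, ⟨y, hy, rfl⟩, rfl⟩
          exact ⟨g * y * g⁻¹, ⟨y, hy, rfl⟩, rfl⟩
      rwa [e] at h1
    intro a ha
    have haL : (a : G ⧸ M) ∈ Cfsg.pCore p (G ⧸ M) := hbar ⟨a, ha, rfl⟩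
    by_contra hnot
    have hpq : p ≠ q := fun e => hnot (CfsgLib.MovedVector.mem_pCore_of_quotient M
      (IsPGroup.of_card (n := k) (e ▸ hMcard)) haL)
    obtain ⟨j, hj⟩ := hA ⟨a, ha⟩
    have haj : a ^ p ^ j = 1 := congrArg Subtype.val hj
    obtain ⟨m, hm, hmove⟩ := CfsgLib.MovedVector.exists_moved_conjNormal M hMc hMe hp hpq ⟨j, haj⟩ haL hnot
    obtain ⟨g, hmg, hsn⟩ := h m
    obtain ⟨t, rfl⟩ := isConj_iff.mp hmg
    set g := t * m * t⁻¹
    have hgM : g ∈ M := hMn.conj_mem m hm t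
    set X := A ⊔ MulAut.conj g • A with hX
    have haX : a ∈ X := (le_sup_left : A ≤ X) ha
    have hO : A.subgroupOf X ≤ Cfsg.pCore p X :=
      CfsgLib.LocalCharP.le_pCore_of_isSubnormal hsn (hA.comap_of_injective X.subtype X.subtype_injective)
    set u := g * a * g⁻¹ * a⁻¹ with hu
    have huX : u ∈ X := mul_mem ((le_sup_right : MulAut.conj g • A ≤ X) ⟨a, ha, rfl⟩) (inv_mem haX)
    have huM : u ∈ M := by
      rw [hu, mul_assoc, mul_assoc]
      refine mul_mem hgM ?_
      rw [← mul_assoc]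
      exact hMn.conj_mem _ (inv_mem hgM) a
    -- `a` centralises `u`
    have hau : a * u * a⁻¹ * u⁻¹ = 1 := by
      set O := Cfsg.pCore p X
      have hw : (⟨a, haX⟩ : X) * ⟨u, huX⟩ * (⟨a, haX⟩ : X)⁻¹ * (⟨u, huX⟩ : X)⁻¹ ∈ O := by
        have h1 : (⟨u, huX⟩ : X) * (⟨a, haX⟩ : X)⁻¹ * (⟨u, huX⟩ : X)⁻¹ ∈ O :=
          (inferInstance : O.Normal).conj_mem _ (inv_mem (hO ha)) _
        have h2 := mul_mem (hO ha : (⟨a, haX⟩ : X) ∈ O) h1
        rwa [← mul_assoc, ← mul_assoc] at h2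
      have hwM : a * u * a⁻¹ * u⁻¹ ∈ M := mul_mem (hMn.conj_mem u huM a) (inv_mem huM)
      obtain ⟨i, hi⟩ := CfsgLib.Constrained.isPGroup_pCore (p := p) (G := X) ⟨_, hw⟩
      have h1 : (a * u * a⁻¹ * u⁻¹) ^ p ^ i = 1 := congrArg (fun y : O => ((y : X) : G)) hi
      have h2 := pow_gcd_eq_one.mpr ⟨h1, hMe _ hwM⟩
      rwa [((Nat.coprime_primes (Fact.out : p.Prime) hq).mpr hpq |>.pow_left i).gcd_eq_one, pow_one] at h2
    have hcomm : ∀ x ∈ M, ∀ y ∈ M, x * y = y * x := fun x hx y hy =>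
      congrArg Subtype.val (hMc.is_comm.comm (⟨x, hx⟩ : M) ⟨y, hy⟩)
    set d := a * g * a⁻¹ * g⁻¹ with hd
    have hdM : d ∈ M := mul_mem (hMn.conj_mem g hgM a) (inv_mem hgM)
    have hdu : d = u⁻¹ := by rw [hd, hu]; group
    have had : a * d * a⁻¹ = d := by
      rw [hdu]
      have h1 : a * u * a⁻¹ = u := mul_inv_eq_one.mp hau
      conv_rhs => rw [← h1]
      group
    have hpow : ∀ n : ℕ, a ^ n * g * (a ^ n)⁻¹ = d ^ n * g := by
      intro n
      induction n with
      | zero => simp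
      | succ n ih =>
        have h1 : a * d ^ n * a⁻¹ = d ^ n := by rw [← conj_pow, had]
        calc a ^ (n + 1) * g * (a ^ (n + 1))⁻¹ = a * (a ^ n * g * (a ^ n)⁻¹) * a⁻¹ := by
              rw [pow_succ']; group
          _ = (a * d ^ n * a⁻¹) * (a * g * a⁻¹) := by rw [ih]; group
          _ = d ^ n * (d * g) := by rw [h1, hd]; group
          _ = d ^ (n + 1) * g := by rw [← mul_assoc, pow_succ]
    have hd1 : d = 1 := by
      have h1 := hpow (p ^ j)
      rw [haj, one_mul, inv_one, mul_one] at h1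
      have h2 : d ^ p ^ j = 1 := right_eq_mul.mp h1
      have h3 := pow_gcd_eq_one.mpr ⟨h2, hMe _ hdM⟩
      rwa [((Nat.coprime_primes (Fact.out : p.Prime) hq).mpr hpq |>.pow_left j).gcd_eq_one, pow_one] at h3
    refine hmove t⁻¹ ?_
    have h1 : a * g * a⁻¹ = g := mul_inv_eq_one.mp hd1
    calc t⁻¹ * a * t⁻¹⁻¹ * m * (t⁻¹ * a * t⁻¹⁻¹)⁻¹ = t⁻¹ * (a * g * a⁻¹) * t := by
          simp only [g]; group
      _ = m := by rw [h1]; simp only [g]; group


/-- Let G be a finite solvable group, p an odd prime and A a p-subgroup of G such that every conjugacy class of G contains an element g for which A is subnormal in the subgroup generated by A and its conjugate by g. Then A is contained in O_p(G). (The hypothesis that p is odd is needed.) -/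
theorem result {G : Type*} [Group G] [Finite G]
    (hG : Group.IsSolvable G) (p : ℕ) [Fact p.Prime] (hp : p ≠ 2) (A : Subgroup G) (hA : IsPGroup p A)
    (h : ∀ c : G, ∃ g : G, IsConj c g ∧ (A.subgroupOf (A ⊔ MulAut.conj g • A)).IsSubnormal) :
    A ≤ Cfsg.pCore p G := by
  exact le_pCore_aux (Nat.card G) G le_rfl hG p hp A hA h

end Cfsg.Agent.S4330
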