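import Cfsg.Statements.S4331
import Mathlib
import Cfsg.Agent.LargeExtraspecial.Basic
import Cfsg.Agent.Subnormal.Basic

set_option autoImplicit false
open Cfsg

namespace Cfsg.Agent.S4331

/-- The plane over the field of three elements. -/
abbrev Pl := ZMod 3 × ZMod 3

/-- Multiplication by a generator of the multiplicative group of the field of nine elements. -/
def om (v : Pl) : Pl := (v.2, v.1 + v.2)

/-- The Frobenius map. -/
def fr (v : Pl) : Pl := (v.1 + v.2, 2 * v.2)

/-- The semilinear group of the line over the field of nine elements. -/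
structure Semi where
  /-- Exponent of the generator. -/
  k : ZMod 8
  /-- Frobenius exponent. -/
  s : ZMod 2
deriving DecidableEq, Fintype

/-- The affine semilinear group. -/
structure Aff where
  /-- Linear part. -/
  h : Semi
  /-- Translation part. -/
  v : Pl
deriving DecidableEq, Fintype

/-- Action. -/
def act (h : Semi) (v : Pl) : Pl := om^[h.k.val] (fr^[h.s.val] v)

instance : Mul Semi := ⟨fun a b => ⟨a.k + (if a.s = 0 then b.k else 3 * b.k), a.s + b.s⟩⟩
instance : One Semi := ⟨⟨0, 0⟩⟩
instance : Inv Semi := ⟨fun a => ⟨if a.s = 0 then -a.k else -(3 * a.k), a.s⟩⟩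

theorem semi_assoc : ∀ a b c : Semi, a * b * c = a * (b * c) := by decide +kernel
theorem semi_one : ∀ a : Semi, 1 * a = a := by decide +kernel
theorem semi_inv : ∀ a : Semi, a⁻¹ * a = 1 := by decide +kernel

instance : Group Semi := Group.ofLeftAxioms semi_assoc semi_one semi_inv

theorem act_mul : ∀ (a b : Semi) (v : Pl), act (a * b) v = act a (act b v) := by decide +kernel
theorem act_add : ∀ (a : Semi) (v w : Pl), act a (v + w) = act a v + act a w := by decide +kernel
theorem act_one : ∀ v : Pl, act 1 v = v := by decide +kernel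

instance : Mul Aff := ⟨fun a b => ⟨a.h * b.h, a.v + act a.h b.v⟩⟩
instance : One Aff := ⟨⟨1, 0⟩⟩
instance : Inv Aff := ⟨fun a => ⟨a.h⁻¹, -act a.h⁻¹ a.v⟩⟩

theorem aff_assoc (a b c : Aff) : a * b * c = a * (b * c) := by
  show (⟨a.h * b.h * c.h, a.v + act a.h b.v + act (a.h * b.h) c.v⟩ : Aff) =
    ⟨a.h * (b.h * c.h), a.v + act a.h (b.v + act b.h c.v)⟩
  rw [mul_assoc, act_add, act_mul, add_assoc]

instance : Group Aff := Group.ofLeftAxioms aff_assoc
  (fun a => by
    show (⟨1 * a.h, 0 + act 1 a.v⟩ : Aff) = a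
    rw [one_mul, act_one, zero_add])
  (fun a => by
    show (⟨a.h⁻¹ * a.h, -act a.h⁻¹ a.v + act a.h⁻¹ a.v⟩ : Aff) = ⟨1, 0⟩
    rw [inv_mul_cancel, neg_add_cancel])

/-- The linear part. -/
def lin : Aff →* Semi := MonoidHom.mk' Aff.h fun _ _ => rfl

/-- The reflection. -/
def refl : Aff := ⟨⟨0, 1⟩, 0⟩

/-- The linear elements. -/
def linSub : Subgroup Aff where
  carrier := {g | g.v = 0}
  one_mem' := rfl
  mul_mem' {a b} ha hb := by
    show a.v + act a.h b.v = 0
    have h0 : ∀ h : Semi, act h 0 = 0 := by decide +kernel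
    rw [show a.v = 0 from ha, show b.v = 0 from hb, h0, add_zero]
  inv_mem' {a} ha := by
    show -act a.h⁻¹ a.v = 0
    have h0 : ∀ h : Semi, act h 0 = 0 := by decide +kernel
    rw [show a.v = 0 from ha, h0, neg_zero]

theorem class_witness : ∀ c : Aff, ∃ d : Aff,
    (d * c * d⁻¹).v = 0 ∨ d * c * d⁻¹ * refl = refl * (d * c * d⁻¹) := by decide +kernel

/-- There is a finite solvable group G with a subgroup A of order 2 such that every conjugacy class of G contains an element g for which A is subnormal in the subgroup generated by A and g, and yet A is not contained in O_2(G). (So the corresponding criteria for odd primes fail at the prime 2, even for solvable groups.) -/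
theorem result :
    ∃ (G : Type) (_ : Group G) (_ : Finite G) (A : Subgroup G), Group.IsSolvable G ∧ Nat.card A = 2 ∧
      (∀ c : G, ∃ g : G, IsConj c g ∧ (A.subgroupOf (A ⊔ Subgroup.zpowers g)).IsSubnormal) ∧
      ¬ A ≤ Cfsg.pCore 2 G := by
  haveI : Fact (Nat.Prime 2) := ⟨Nat.prime_two⟩
  have hord : orderOf refl = 2 := orderOf_eq_prime (by decide +kernel) (by decide +kernel)
  refine ⟨Aff, inferInstance, inferInstance, Subgroup.zpowers refl, ?_, by rw [Nat.card_zpowers, hord], fun c => ?_, fun hle => ?_⟩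
  · have hk : Group.IsSolvable lin.ker := Group.isSolvable_of_comm (fun a b => Subtype.ext (by
      obtain ⟨⟨ha, va⟩, hka⟩ := a
      obtain ⟨⟨hb, vb⟩, hkb⟩ := b
      obtain rfl : ha = 1 := hka
      obtain rfl : hb = 1 := hkb
      show (⟨1 * 1, va + act 1 vb⟩ : Aff) = ⟨1 * 1, vb + act 1 va⟩
      rw [act_one, act_one, add_comm]))
    have hp : IsPGroup 2 Semi := IsPGroup.of_card (n := 4) (by
      rw [Nat.card_eq_fintype_card]; decide +kernel)
    haveI := hp.isNilpotent
    exact Group.isSolvable_of_ker_le_range (lin.ker.subtype) lin (by simp)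
  · obtain ⟨d, hd⟩ := class_witness c
    refine ⟨d * c * d⁻¹, isConj_iff.2 ⟨d, rfl⟩, ?_⟩
    set g := d * c * d⁻¹
    rcases hd with hd | hd
    · have hle : Subgroup.zpowers refl ⊔ Subgroup.zpowers g ≤ linSub :=
        sup_le (Subgroup.zpowers_le.2 rfl) (Subgroup.zpowers_le.2 hd)
      have hp : IsPGroup 2 ↥linSub := IsPGroup.of_card (n := 4) (by
        rw [show Nat.card ↥linSub = Nat.card {g : Aff // g.v = 0} from rfl, Nat.card_eq_fintype_card]
        decide +kernel)
      haveI := (hp.to_le hle).isNilpotent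
      exact CfsgLib.Subnormal.isSubnormal_of_isNilpotent _
    · refine Subgroup.Normal.isSubnormal ⟨?_⟩
      rintro ⟨x, hx⟩ hxA ⟨y, hy⟩
      have hcy : y ∈ Subgroup.centralizer (Subgroup.zpowers refl : Set Aff) := by
        refine (sup_le ?_ ?_ : Subgroup.zpowers refl ⊔ Subgroup.zpowers g ≤ _) hy
        · exact Subgroup.le_centralizer _
        · rw [Subgroup.zpowers_le, Subgroup.mem_centralizer_iff]
          rintro _ ⟨m, rfl⟩
          exact ((Commute.zpow_left (hd.symm : Commute refl g)) m).eq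
      show y * x * y⁻¹ ∈ Subgroup.zpowers refl
      rw [← Subgroup.mem_centralizer_iff.1 hcy x hxA, mul_inv_cancel_right]
      exact hxA
  · have hmem := hle (Subgroup.mem_zpowers refl)
    obtain ⟨w, h3, hne⟩ : ∃ w : Aff, (w * refl * w⁻¹ * refl) ^ 3 = 1 ∧ w * refl * w⁻¹ * refl ≠ 1 :=
      ⟨⟨1, (0, 1)⟩, by decide +kernel, by decide +kernel⟩
    have ht : w * refl * w⁻¹ * refl ∈ Cfsg.pCore 2 Aff :=
      mul_mem ((Cfsg.pCore_normal 2 Aff).conj_mem _ hmem w) hmem
    have ho : orderOf (w * refl * w⁻¹ * refl) = 3 :=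
      haveI : Fact (Nat.Prime 3) := ⟨Nat.prime_three⟩; orderOf_eq_prime h3 hne
    obtain ⟨k, hk⟩ := (CfsgLib.LargeExtraspecial.isPGroup_pCore (G := Aff) 2) ⟨_, ht⟩
    have := orderOf_dvd_of_pow_eq_one (congrArg Subtype.val hk)
    rw [ho] at this
    exact absurd (Nat.prime_three.dvd_of_dvd_pow this) (by norm_num)

end Cfsg.Agent.S4331
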