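import Cfsg.Statements.S4332
import Cfsg.Agent.Eq.Def_Solvable
import Mathlib

set_option autoImplicit false
set_option linter.unusedSimpArgs false
open Pointwise
open Cfsg

namespace Cfsg.Agent.S4332

open Equiv

theorem rotate {α : Type*} [DecidableEq α] {a b d : α} (hab : a ≠ b) (had : a ≠ d) (hbd : b ≠ d) :
    swap a b * swap b d = swap b d * swap d a := by
  refine Equiv.ext fun x => ?_
  rcases eq_or_ne x a with rfl | hxa
  · simp [swap_apply_of_ne_of_ne, hab, had, hbd, hab.symm, had.symm, hbd.symm]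
  rcases eq_or_ne x b with rfl | hxb
  · simp [swap_apply_of_ne_of_ne, hab, had, hbd, hab.symm, had.symm, hbd.symm]
  rcases eq_or_ne x d with rfl | hxd
  · simp [swap_apply_of_ne_of_ne, hab, had, hbd, hab.symm, had.symm, hbd.symm]
  simp [swap_apply_of_ne_of_ne, hxa, hxb, hxd]

theorem conj_pair {α : Type*} [DecidableEq α] (c : Perm α) (a b d : α) :
    c * (swap a b * swap b d) * c⁻¹ = swap (c a) (c b) * swap (c b) (c d) := by
  rw [swap_apply_apply, swap_apply_apply]
  group

/-- For every permutation of eight points some 3-cycle commutes with its conjugate. -/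
theorem exists_commuting_conjugate (c : Perm (Fin 8)) :
    ∃ t : Perm (Fin 8), t.IsThreeCycle ∧ Commute (c * t * c⁻¹) t := by
  have h3 : ∀ a b d : Fin 8, a ≠ b → a ≠ d → b ≠ d → (swap a b * swap b d).IsThreeCycle := by
    intro a b d hab had hbd
    rw [swap_comm a b]
    exact Perm.isThreeCycle_swap_mul_swap_same hab.symm hbd had
  by_cases hcyc : ∃ x, c x ≠ x ∧ c (c x) ≠ x ∧ c (c (c x)) = x
  · obtain ⟨x, h1, h2, h3'⟩ := hcyc
    have h12 : c x ≠ c (c x) := fun h => h1 (c.injective h).symm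
    refine ⟨_, h3 x (c x) (c (c x)) h1.symm h2.symm h12, ?_⟩
    rw [conj_pair, h3', ← rotate h1.symm h2.symm h12]
  by_cases hfix : 2 < (Finset.univ.filter fun x => c x = x).card
  · obtain ⟨a, b, d, ha, hb, hd, hab, had, hbd⟩ := Finset.two_lt_card_iff.mp hfix
    refine ⟨_, h3 a b d hab had hbd, ?_⟩
    simp only [Finset.mem_filter, Finset.mem_univ, true_and] at ha hb hd
    rw [conj_pair, ha, hb, hd]
  push Not at hfix hcyc
  set M := Finset.univ.filter fun x => c x ≠ x with hM
  have hMcard : 6 ≤ M.card := by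
    have := Finset.card_filter_add_card_filter_not (s := (Finset.univ : Finset (Fin 8))) (fun x => c x = x)
    simp only [Finset.card_univ, Fintype.card_fin] at this
    change (Finset.univ.filter fun x => c x = x).card + M.card = 8 at this
    omega
  have pick : ∀ E : Finset (Fin 8), E.card ≤ 5 → ∃ x, c x ≠ x ∧ x ∉ E := by
    intro E hE
    obtain ⟨x, hx, hxE⟩ := Finset.exists_mem_notMem_of_card_lt_card (s := E) (t := M) (by omega)
    exact ⟨x, (Finset.mem_filter.mp hx).2, hxE⟩
  have build : ∀ a b d : Fin 8, c a ≠ a → c b ≠ b → c d ≠ d → a ≠ b → c a ≠ b → c b ≠ a → a ≠ d →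
      c a ≠ d → c d ≠ a → b ≠ d → c b ≠ d → c d ≠ b →
      ∃ t : Perm (Fin 8), t.IsThreeCycle ∧ Commute (c * t * c⁻¹) t := by
    intro a b d ha hb hd hab hca hcb had hcad hcda hbd hcbd hcdb
    refine ⟨_, h3 a b d hab had hbd, ?_⟩
    rw [conj_pair]
    refine Perm.Disjoint.commute fun x => ?_
    by_cases hx : x = a ∨ x = b ∨ x = d
    · left
      rcases hx with rfl | rfl | rfl <;>
        simp [swap_apply_of_ne_of_ne, ha.symm, hb.symm, hd.symm, hca.symm, hcb.symm, hcad.symm,
          hcda.symm, hcbd.symm, hcdb.symm]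
    · right
      push Not at hx
      simp [swap_apply_of_ne_of_ne, hx.1, hx.2.1, hx.2.2]
  obtain ⟨a, ha, -⟩ := pick ∅ (by simp)
  by_cases h2 : c (c a) = a
  · obtain ⟨b, hb, hbE⟩ := pick {a, c a} (Finset.card_le_two.trans (by norm_num))
    simp only [Finset.mem_insert, Finset.mem_singleton, not_or] at hbE
    obtain ⟨d, hd, hdE⟩ := pick {a, c a, b, c b, c⁻¹ b} Finset.card_le_five
    simp only [Finset.mem_insert, Finset.mem_singleton, not_or] at hdE
    refine build a b d ha hb hd (Ne.symm hbE.1) (Ne.symm hbE.2) ?_ (Ne.symm hdE.1) (Ne.symm hdE.2.1) ?_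
      (Ne.symm hdE.2.2.1) (Ne.symm hdE.2.2.2.1) ?_
    · intro h; exact hbE.2 (c.injective (h.trans h2.symm))
    · intro h; exact hdE.2.1 (c.injective (h.trans h2.symm))
    · intro h; exact hdE.2.2.2.2 (Perm.eq_inv_iff_eq.mpr h)
  · have h3' := hcyc a ha h2
    have hb : c (c (c a)) ≠ c (c a) := fun h => ha (c.injective (c.injective h))
    obtain ⟨d, hd, hdE⟩ := pick {a, c a, c⁻¹ a, c (c a), c (c (c a))} Finset.card_le_five
    simp only [Finset.mem_insert, Finset.mem_singleton, not_or] at hdE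
    refine build a (c (c a)) d ha hb hd (Ne.symm h2) (fun h => ha (c.injective h).symm) h3'
      (Ne.symm hdE.1) (Ne.symm hdE.2.1) ?_ (Ne.symm hdE.2.2.2.1) (Ne.symm hdE.2.2.2.2) ?_
    · intro h; exact hdE.2.2.1 (Perm.eq_inv_iff_eq.mpr h)
    · intro h; exact hdE.2.1 (c.injective h)

theorem pCore_three_eq_bot : Cfsg.pCore 3 (Perm (Fin 8)) = ⊥ := by
  rw [Cfsg.pCore, sSup_eq_bot]
  rintro N ⟨hN, hp⟩
  have : Fact (Nat.Prime 3) := ⟨Nat.prime_three⟩
  have hle : N ≤ alternatingGroup (Fin 8) := by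
    intro x hx
    obtain ⟨k, hk⟩ := hp ⟨x, hx⟩
    have hk' : x ^ 3 ^ k = 1 := congrArg Subtype.val hk
    rw [Perm.mem_alternatingGroup]
    rcases Int.units_eq_one_or (Perm.sign x) with h | h
    · exact h
    · have := congrArg Perm.sign hk'
      rw [map_pow, map_one, h, Odd.neg_one_pow (Odd.pow (by decide))] at this
      exact absurd this (by decide)
  have hn : (N.subgroupOf (alternatingGroup (Fin 8))).Normal := hN.subgroupOf _
  rcases alternatingGroup.normal_subgroup_eq_bot_or_eq_top (α := Fin 8)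
    (N := N.subgroupOf (alternatingGroup (Fin 8))) (by simp) with h | h
  · rw [Subgroup.subgroupOf_eq_bot] at h
    exact eq_bot_iff.mpr fun x hx => h.le_bot ⟨hx, hle hx⟩
  · exfalso
    rw [Subgroup.subgroupOf_eq_top] at h
    obtain ⟨k, hk⟩ := IsPGroup.iff_card.mp (hp.to_le h)
    have hA : 2 * Nat.card (alternatingGroup (Fin 8)) = Nat.card (Perm (Fin 8)) := by
      rw [Nat.card_eq_fintype_card, Nat.card_eq_fintype_card, two_mul_card_alternatingGroup]
    rw [hk, Nat.card_perm, Nat.card_fin] at hA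
    have h7 : 7 ∣ 2 * 3 ^ k := hA ▸ (by decide)
    have h7p : Nat.Prime 7 := by norm_num
    rcases h7p.dvd_mul.mp h7 with h' | h'
    · omega
    · have := h7p.dvd_of_dvd_pow h'
      omega

/-- In the symmetric group of degree 8, let A be the subgroup generated by a 3-cycle. Then every conjugacy class contains an element g for which A is subnormal in the subgroup generated by A and its conjugate by g, although O_3 of the symmetric group of degree 8 is trivial. -/
theorem result
    (σ : Equiv.Perm (Fin 8)) (hσ : σ.IsThreeCycle) :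
    (∀ c : Equiv.Perm (Fin 8), ∃ g : Equiv.Perm (Fin 8), IsConj c g ∧
      ((Subgroup.zpowers σ).subgroupOf (Subgroup.zpowers σ ⊔ MulAut.conj g • Subgroup.zpowers σ)).IsSubnormal) ∧
    Cfsg.pCore 3 (Equiv.Perm (Fin 8)) = ⊥ := by
  refine ⟨fun c => ?_, pCore_three_eq_bot⟩
  obtain ⟨t, ht, hcomm⟩ := exists_commuting_conjugate c
  have hconj : IsConj t σ := Perm.isConj_iff_cycleType_eq.mpr (ht.trans hσ.symm)
  obtain ⟨h, hh⟩ := isConj_iff.mp hconj
  refine ⟨h * c * h⁻¹, isConj_iff.mpr ⟨h, rfl⟩, ?_⟩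
  have hgσ : Commute ((h * c * h⁻¹) * σ * (h * c * h⁻¹)⁻¹) σ := by
    rw [← hh, show (h * c * h⁻¹) * (h * t * h⁻¹) * (h * c * h⁻¹)⁻¹ = h * (c * t * c⁻¹) * h⁻¹ by group]
    exact SemiconjBy.conj_iff.mpr hcomm
  set g := h * c * h⁻¹ with hg
  have hJ : Subgroup.zpowers σ ⊔ MulAut.conj g • Subgroup.zpowers σ ≤ Subgroup.centralizer {σ} := by
    refine sup_le (Subgroup.zpowers_le.mpr (Subgroup.mem_centralizer_singleton_iff.mpr rfl)) ?_
    intro y hy
    obtain ⟨z, hz, rfl⟩ := Subgroup.mem_smul_pointwise_iff_exists _ _ _ |>.mp hy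
    obtain ⟨k, rfl⟩ := Subgroup.mem_zpowers_iff.mp hz
    rw [Subgroup.mem_centralizer_singleton_iff, MulAut.smul_def, MulAut.conj_apply, ← conj_zpow]
    exact (hgσ.zpow_left k).eq
  refine Subgroup.Normal.isSubnormal ⟨fun n hn y => ?_⟩
  rw [Subgroup.mem_subgroupOf] at hn ⊢
  obtain ⟨k, hk⟩ := Subgroup.mem_zpowers_iff.mp hn
  refine Subgroup.mem_zpowers_iff.mpr ⟨k, ?_⟩
  have hy : Commute (y : Perm (Fin 8)) σ := Subgroup.mem_centralizer_singleton_iff.mp (hJ y.2)
  push_cast
  rw [← hk, (hy.zpow_right k).eq, mul_inv_cancel_right]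

end Cfsg.Agent.S4332
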