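import Cfsg.Statements.S4333
import Cfsg.Agent.Subnormal.Zipper
import Mathlib

set_option autoImplicit false
open Pointwise
open Cfsg

namespace Cfsg.Agent.S4333

open CfsgLib.Subnormal

theorem main.{v} (n : ℕ) (G : Type v) [Group G] [Finite G] (hn : Nat.card G ≤ n) (A : Subgroup G)
    (h : ∀ a ∈ A, ∀ g : G, (A.subgroupOf (A ⊔ MulAut.conj (g⁻¹ * a * g) • A)).IsSubnormal) :
    A.IsSubnormal := by
  induction n using Nat.strong_induction_on generalizing G with
  | _ n ih =>
  have hprop : ∀ H : Subgroup G, H ≠ ⊤ → A ≤ H → (A.subgroupOf H).IsSubnormal := by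
    intro H hH hAH
    have hcard : Nat.card H < n :=
      lt_of_lt_of_le (lt_of_le_of_ne (Subgroup.card_le_card_group H)
        fun e => hH (Subgroup.eq_top_of_card_eq H e)) hn
    refine ih _ hcard H le_rfl (A.subgroupOf H) fun a ha g => ?_
    set x : H := g⁻¹ * a * g with hx
    have hle : MulAut.conj (x : G) • A ≤ H :=
      le_of_le_of_eq (Subgroup.pointwise_smul_le_pointwise_smul_iff.2 hAH)
        (Subgroup.conj_smul_eq_self_of_mem x.2)
    have h2 : (MulAut.conj (x : G) • A).subgroupOf H = MulAut.conj x • A.subgroupOf H := by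
      ext y
      simp only [Subgroup.mem_subgroupOf, Subgroup.mem_pointwise_smul_iff_inv_smul_mem]
      rfl
    rw [← h2, ← Subgroup.subgroupOf_sup hAH hle]
    let e : ((A ⊔ MulAut.conj (x : G) • A).subgroupOf H) ≃*
        ((A ⊔ MulAut.conj (x : G) • A : Subgroup G)) :=
      Subgroup.subgroupOfEquivOfLe (sup_le hAH hle)
    have hxx : (x : G) = (g : G)⁻¹ * (a : G) * (g : G) := rfl
    have h3 := (h a ha g)
    rw [← hxx] at h3
    have h4 := h3.comap e.toMonoidHom
    convert h4 using 1
    ext y
    rfl
  by_contra hns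
  obtain ⟨M, ⟨hM, hAM⟩, huniq⟩ := existsUnique_coatom_of_not_isSubnormal hprop hns
  have hall : ∀ a ∈ A, ∀ g : G, g⁻¹ * a * g ∈ M := by
    intro a ha g
    set x := g⁻¹ * a * g with hx
    have h1 : MulAut.conj x • A ≤ M := by
      rcases eq_top_or_exists_le_coatom (A ⊔ MulAut.conj x • A) with htop | ⟨X, hX, hle⟩
      · exfalso
        have h5 := h a ha g
        rw [← hx, htop] at h5
        exact hns (trans_of_le le_top h5 Subgroup.IsSubnormal.top)
      · exact huniq X ⟨hX, le_sup_left.trans hle⟩ ▸ le_sup_right.trans hle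
    have h2 : A ≤ MulAut.conj x⁻¹ • M := by
      rw [map_inv]
      exact Subgroup.pointwise_smul_subset_iff.1 h1
    have h3 : x⁻¹ ∈ Subgroup.normalizer (M : Set G) := by
      refine mem_normalizer_of_conj_le ?_
      rcases eq_top_or_exists_le_coatom (MulAut.conj x⁻¹ • M) with htop | ⟨X, hX, hle⟩
      · refine absurd ?_ hM.1
        rw [← inv_smul_smul (MulAut.conj x⁻¹) M, htop]
        exact Subgroup.map_top_of_surjective _ (MulEquiv.surjective _)
      · exact huniq X ⟨hX, h2.trans hle⟩ ▸ hle
    have hNM : Subgroup.normalizer (M : Set G) = M := by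
      refine ((hM.le_iff).mp Subgroup.le_normalizer).resolve_left fun htop => ?_
      exact hns (trans_of_le hAM (hprop M hM.1 hAM) (Subgroup.normalizer_eq_top_iff.1 htop).isSubnormal)
    rw [hNM] at h3
    exact inv_mem_iff.mp h3
  set N : Subgroup G := Subgroup.normalClosure (A : Set G) with hN
  have hNM : N ≤ M := by
    rw [hN, Subgroup.normalClosure, Subgroup.closure_le]
    intro x hx
    obtain ⟨y, hy, hxy⟩ := Group.mem_conjugatesOfSet_iff.1 hx
    obtain ⟨g, rfl⟩ := isConj_iff.1 hxy
    have := hall y hy g⁻¹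
    rwa [inv_inv] at this
  have hNne : N ≠ ⊤ := fun e => hM.1 (top_le_iff.1 (e ▸ hNM))
  exact hns (trans_of_le Subgroup.le_normalClosure (hprop N hNne Subgroup.le_normalClosure)
    Subgroup.normalClosure_normal.isSubnormal)

/-- Let A be a subgroup of a finite group G. If A is subnormal in the subgroup generated by A and its conjugate by g⁻¹ a g, for every a ∈ A and every g ∈ G, then A is subnormal in G. (A sharpening of Wielandt's subnormality criterion: only conjugates of A by conjugates of elements of A are needed.) -/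
theorem result {G : Type*} [Group G] [Finite G]
    (A : Subgroup G)
    (h : ∀ a ∈ A, ∀ g : G, (A.subgroupOf (A ⊔ MulAut.conj (g⁻¹ * a * g) • A)).IsSubnormal) :
    A.IsSubnormal :=
  main (Nat.card G) G le_rfl A h

end Cfsg.Agent.S4333
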