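import Cfsg.Statements.S4334
import Cfsg.Agent.Eq.Def_HallClasses
import Cfsg.Agent.Eq.Def_OddOrderLocal
import Cfsg.Agent.Transfer.Frobenius
import Cfsg.Agent.Transfer.NilpotentHall
import Mathlib

set_option autoImplicit false
set_option linter.style.haveILetI false
open Cfsg

namespace Cfsg.Agent.S4334

open Pointwise Subgroup

variable {G : Type*} [Group G] [Finite G]

omit [Finite G] in
theorem commute_conj_sup {P K : Subgroup G} (hPK : ∀ x ∈ P, ∀ k ∈ K, x * k = k * x) {p : ℕ} (hP : IsPGroup p P)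
    (hp : p.Prime) (hcop : ∀ k ∈ K, (orderOf k).Coprime p) {g a b : G}
    (ha : a ∈ MulAut.conj g • (P ⊔ K)) (hb : b ∈ MulAut.conj g • (P ⊔ K))
    {i : ℕ} (ha' : a ^ p ^ i = 1) (hb' : (orderOf b).Coprime p) : a * b = b * a := by
  rw [mem_pointwise_smul_iff_inv_smul_mem, ← map_inv, MulAut.smul_def, MulAut.conj_apply, inv_inv] at ha hb
  have hle : P ≤ normalizer (K : Set G) := fun x hx => mem_normalizer_iff.mpr fun k => by
    constructor
    · intro hk; rwa [hPK x hx k hk, mul_inv_cancel_right]
    · intro hk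
      have h1 := hPK x hx _ hk
      have h2 : x * k * x⁻¹ = k := by
        calc x * k * x⁻¹ = x⁻¹ * (x * (x * k * x⁻¹)) := by group
          _ = x⁻¹ * ((x * k * x⁻¹) * x) := by rw [h1]
          _ = k := by group
      rwa [h2] at hk
  have hdec : ∀ c : G, c ∈ P ⊔ K → ∃ x ∈ P, ∃ k ∈ K, c = x * k := fun c hc => by
    have h1 : c ∈ ((P ⊔ K : Subgroup G) : Set G) := hc
    rw [coe_mul_of_left_le_normalizer_right P K hle] at h1
    obtain ⟨x, hx, k, hk, rfl⟩ := h1
    exact ⟨x, hx, k, hk, rfl⟩
  obtain ⟨x, hx, k, hk, hxk⟩ := hdec _ ha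
  obtain ⟨y, hy, l, hl, hyl⟩ := hdec _ hb
  have hPelt : ∀ z ∈ P, ∃ j : ℕ, z ^ p ^ j = 1 := fun z hz => by
    obtain ⟨j, hj⟩ := hP ⟨z, hz⟩
    exact ⟨j, congrArg Subtype.val hj⟩
  have hk1 : k = 1 := by
    obtain ⟨j, hj⟩ := hPelt x hx
    have hpow : (x * k) ^ p ^ i = 1 := by
      rw [← hxk]
      have := congrArg (fun t => g⁻¹ * t * g) ha'
      simp only [mul_one, inv_mul_cancel] at this
      rw [show g⁻¹ * a ^ p ^ i * g = (g⁻¹ * a * g) ^ p ^ i by
        simpa using (conj_pow (a := g⁻¹) (b := a) (i := p ^ i)).symm] at this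
      exact this
    rw [Commute.mul_pow (hPK x hx k hk)] at hpow
    have h2 : k ^ p ^ (i + j) = 1 := by
      rw [pow_add, pow_mul, show k ^ p ^ i = (x ^ p ^ i)⁻¹ from (inv_eq_of_mul_eq_one_right hpow).symm,
        inv_pow, ← pow_mul, mul_comm, pow_mul, hj, one_pow, inv_one]
    exact orderOf_eq_one_iff.mp (Nat.Coprime.eq_one_of_dvd ((hcop k hk).pow_right _)
      (orderOf_dvd_of_pow_eq_one h2))
  have hy1 : y = 1 := by
    have ho : orderOf (g⁻¹ * b * g) = orderOf b := by
      have := orderOf_injective (MulAut.conj g⁻¹).toMonoidHom (MulAut.conj g⁻¹).injective b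
      simpa using this
    rw [hyl] at ho
    have hpow : (y * l) ^ orderOf b = 1 := ho ▸ pow_orderOf_eq_one _
    rw [Commute.mul_pow (hPK y hy l hl)] at hpow
    obtain ⟨j, hj⟩ := hPelt y hy
    have hmem : y ^ orderOf b ∈ K := by
      rw [eq_inv_of_mul_eq_one_left hpow]; exact inv_mem (pow_mem hl _)
    have h2 : y ^ orderOf b = 1 := by
      refine orderOf_eq_one_iff.mp (Nat.Coprime.eq_one_of_dvd ((hcop _ hmem).pow_right j)
        (orderOf_dvd_of_pow_eq_one ?_))
      rw [← pow_mul, mul_comm, pow_mul, hj, one_pow]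
    exact orderOf_eq_one_iff.mp (Nat.Coprime.eq_one_of_dvd
      (Nat.Coprime.coprime_dvd_left (orderOf_dvd_of_pow_eq_one hj) ((hb'.symm).pow_left j))
      (orderOf_dvd_of_pow_eq_one h2))
  rw [hk1, mul_one] at hxk
  rw [hy1, one_mul] at hyl
  have h := hPK x hx l hl
  rw [← hxk, ← hyl] at h
  calc a * b = g * ((g⁻¹ * a * g) * (g⁻¹ * b * g)) * g⁻¹ := by group
    _ = g * ((g⁻¹ * b * g) * (g⁻¹ * a * g)) * g⁻¹ := by rw [h]
    _ = b * a := by group

omit [Finite G] in
theorem smul_le_centralizer {P K A : Subgroup G} (hPK : ∀ x ∈ P, ∀ k ∈ K, x * k = k * x) {g : G}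
    (hA : A ≤ MulAut.conj g • K) : MulAut.conj g • P ≤ centralizer (A : Set G) := by
  intro x hx
  rw [mem_centralizer_iff]
  intro a ha
  have ha' := hA ha
  rw [mem_pointwise_smul_iff_inv_smul_mem, ← map_inv, MulAut.smul_def, MulAut.conj_apply, inv_inv] at hx ha'
  have h := hPK _ hx _ ha'
  calc a * x = g * ((g⁻¹ * a * g) * (g⁻¹ * x * g)) * g⁻¹ := by group
    _ = g * ((g⁻¹ * x * g) * (g⁻¹ * a * g)) * g⁻¹ := by rw [h]
    _ = x * a := by group

/-- If the centralizer of `A` contains `L`, an element normalizing `A` of order prime to `L.index` centralizes `A`. -/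
theorem mem_centralizer_of_coprime {A L : Subgroup G} (hL : L ≤ centralizer (A : Set G)) {g : G}
    (hg : g ∈ normalizer (A : Set G)) (hcop : (orderOf g).Coprime L.index) :
    g ∈ centralizer (A : Set G) := by
  set C := centralizer (A : Set G)
  set N := normalizer (A : Set G)
  have hCN : C ≤ N := centralizer_le_normalizer _
  haveI : (C.subgroupOf N).Normal := (normal_subgroupOf_iff_le_normalizer hCN).mpr fun n hn =>
    mem_normalizer_iff.mpr fun c => by
      have key : ∀ n ∈ N, ∀ c ∈ C, n * c * n⁻¹ ∈ C := fun n hn c hc => mem_centralizer_iff.mpr fun a ha => by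
        have h1 : n⁻¹ * a * n ∈ (A : Subgroup G) := by
          have := (mem_normalizer_iff.mp (inv_mem hn) a).mp ha
          rwa [inv_inv] at this
        have h2 := mem_centralizer_iff.mp hc _ h1
        calc a * (n * c * n⁻¹) = n * ((n⁻¹ * a * n) * c) * n⁻¹ := by group
          _ = n * (c * (n⁻¹ * a * n)) * n⁻¹ := by rw [h2]
          _ = n * c * n⁻¹ * a := by group
      exact ⟨key n hn c, fun h => by simpa [mul_assoc] using key n⁻¹ (inv_mem hn) _ h⟩
  have hdvd : C.relIndex N ∣ L.index :=
    (dvd_mul_left _ (L.relIndex C)).trans (relIndex_mul_relIndex L C N hL hCN ▸ relIndex_dvd_index_of_le (hL.trans hCN))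
  have h1 : orderOf (QuotientGroup.mk' (C.subgroupOf N) ⟨g, hg⟩) ∣ orderOf g :=
    (orderOf_map_dvd _ _).trans (orderOf_mk g hg).dvd
  have h2 : orderOf (QuotientGroup.mk' (C.subgroupOf N) ⟨g, hg⟩) ∣ C.relIndex N := orderOf_dvd_natCard _
  have h3 := Nat.eq_one_of_dvd_coprimes hcop h1 (h2.trans hdvd)
  rw [orderOf_eq_one_iff, QuotientGroup.mk'_apply, QuotientGroup.eq_one_iff, mem_subgroupOf] at h3
  exact h3

/-- One step: adjoining a prime whose Sylow subgroup centralizes the Hall subgroup. -/
theorem step {p : ℕ} [Fact p.Prime] {ρ : Set ℕ} (hp : p ∉ ρ) (P : Sylow p G) (K : Subgroup G)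
    (hK : IsPiSubgroup ρ K) (hKi : ∀ q : ℕ, q.Prime → q ∈ ρ → ¬ q ∣ K.index)
    (hPK : ∀ x ∈ (P : Subgroup G), ∀ k ∈ K, x * k = k * x)
    (hD : ∀ Y : Subgroup G, IsPiSubgroup ρ Y → ∃ g : G, Y ≤ MulAut.conj g • K) :
    ∀ X : Subgroup G, IsPiSubgroup (insert p ρ) X → ∃ g : G, X ≤ MulAut.conj g • ((P : Subgroup G) ⊔ K) := by
  suffices H : ∀ (n : ℕ) (X : Subgroup G), Nat.card X = n → IsPiSubgroup (insert p ρ) X →
      ∃ g : G, X ≤ MulAut.conj g • ((P : Subgroup G) ⊔ K) from fun X hX => H _ X rfl hX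
  intro n
  induction n using Nat.strong_induction_on with
  | _ n ih =>
  intro X hn hX
  have hpp : p.Prime := Fact.out
  have hKp : ∀ k ∈ K, (orderOf k).Coprime p := fun k hk => by
    refine ((hpp.coprime_iff_not_dvd).mpr fun h => ?_).symm
    exact hp (hK p hpp (h.trans (orderOf_dvd_natCard K hk)))
  -- p-elements commute with p'-elements in every proper subgroup
  have hprop : ∀ Y : Subgroup G, Y ≤ X → Y ≠ X → ∀ a ∈ Y, ∀ b ∈ Y, ∀ i : ℕ, a ^ p ^ i = 1 →
      (orderOf b).Coprime p → a * b = b * a := by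
    intro Y hY hne a ha b hb i ha' hb'
    have hlt : Nat.card Y < n := hn ▸ lt_of_le_of_ne (card_le_of_le hY)
      (fun e => hne (eq_of_le_of_card_ge hY e.ge))
    obtain ⟨g, hg⟩ := ih _ hlt Y rfl fun q hq hd => hX q hq (hd.trans (card_dvd_of_le hY))
    exact commute_conj_sup hPK P.isPGroup' hpp hKp (hg ha) (hg hb) ha' hb'
  have hρ : ∀ q : ℕ, q.Prime → q ∣ Nat.card X → q ≠ p → q ∈ ρ := fun q hq hd hne =>
    (hX q hq hd).resolve_left hne
  have hpX : Cfsg.HasNormalPComplement p X := by
    by_contra hnpc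
    obtain ⟨Q, hQ, q, k, hq, hqp, g, hgN, hgo, hgC⟩ :=
      CfsgLib.Transfer.exists_of_not_hasNormalPComplement hnpc
    set A := Q.map X.subtype with hA
    have hAX : A ≤ X := map_subtype_le _
    obtain ⟨a, ha, hga⟩ : ∃ a ∈ A, (g : G) * a ≠ a * g := by
      by_contra hall
      push Not at hall
      exact hgC (mem_centralizer_iff.mpr fun y hy => Subtype.ext (hall y ⟨y, hy, rfl⟩).symm)
    have hgN' : (g : G) ∈ normalizer (A : Set G) := le_normalizer_map X.subtype ⟨g, hgN, rfl⟩
    have hgq : orderOf (g : G) = q ^ k := by rw [orderOf_coe]; exact hgo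
    obtain ⟨T, hT⟩ := (hQ.map X.subtype).exists_le_sylow
    obtain ⟨c, rfl⟩ := MulAction.exists_smul_eq G P T
    have hKC : MulAut.conj c • K ≤ centralizer (A : Set G) := by
      refine smul_le_centralizer (P := K) (K := (P : Subgroup G)) (fun x hx y hy => (hPK y hy x hx).symm) ?_
      exact hT
    have hqρ : k ≠ 0 → q ∈ ρ := fun hk => hρ q hq
      ((dvd_pow_self q hk).trans (hgq ▸ orderOf_dvd_natCard X g.2)) hqp
    have hind : (MulAut.conj c • K).index = K.index := by
      exact index_map_of_bijective (MulEquiv.bijective _) K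
    refine hga ((mem_centralizer_iff.mp (mem_centralizer_of_coprime hKC hgN' ?_) a ha).symm)
    rw [hgq, hind]
    rcases eq_or_ne k 0 with rfl | hk
    · simp
    · exact (hq.coprime_iff_not_dvd.mpr (hKi q hq (hqρ hk))).pow_left k
  obtain ⟨P1, N, hN, hc⟩ := hpX
  have hNp : ¬ p ∣ Nat.card N := by
    have h1 := hc.index_eq_card
    rw [← h1]
    exact P1.not_dvd_index
  set N' := N.map X.subtype with hN'
  set P1' := (P1 : Subgroup X).map X.subtype with hP1'
  have hNρ : IsPiSubgroup ρ N' := fun q hq hd => by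
    rw [hN', card_map_of_injective X.subtype_injective] at hd
    exact hρ q hq (hd.trans (card_subgroup_dvd_card N)) (fun e => hNp (e ▸ hd))
  obtain ⟨g, hg⟩ := hD N' hNρ
  -- `P1'` centralizes `N'`
  have hcent : P1' ≤ centralizer (N' : Set G) := by
    set C := centralizer ((P1 : Subgroup X) : Set X) ⊓ N with hC
    suffices hCN : C = N by
      rintro _ ⟨x, hx, rfl⟩
      rw [mem_centralizer_iff]
      rintro _ ⟨y, hy, rfl⟩
      have h1 : y ∈ centralizer ((P1 : Subgroup X) : Set X) := (mem_inf.mp (hCN.ge hy)).1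
      exact congrArg Subtype.val (mem_centralizer_iff.mp h1 x hx).symm
    refine eq_of_le_of_card_ge inf_le_right ?_
    refine Nat.le_of_dvd Nat.card_pos ((Nat.dvd_iff_prime_pow_dvd_dvd _ _).mpr fun r j hr hrj => ?_)
    haveI : Fact r.Prime := ⟨hr⟩
    obtain ⟨R⟩ : Nonempty (Sylow r N) := inferInstance
    -- a Sylow subgroup of `N` centralized by `P1`
    suffices hR : ∃ n : X, (MulAut.conj n • ((R : Subgroup N).map N.subtype)) ≤ C by
      obtain ⟨n, hn'⟩ := hR
      refine dvd_trans ?_ (card_dvd_of_le hn')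
      rw [Nat.card_congr (equivSMul (MulAut.conj n) _).symm.toEquiv, card_map_of_injective N.subtype_injective,
        R.card_eq_multiplicity]
      exact pow_dvd_pow r ((hr.pow_dvd_iff_le_factorization Nat.card_pos.ne').mp hrj)
    set RX := (R : Subgroup N).map N.subtype with hRX
    have hRXN : RX ≤ N := map_subtype_le _
    have hfr : normalizer (RX : Set X) ⊔ N = ⊤ := R.normalizer_sup_eq_top
    by_cases hr1 : RX = ⊥
    · refine ⟨1, ?_⟩
      rw [hr1]; simp
    have hrN : r ∣ Nat.card N := by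
      by_contra hno
      apply hr1
      have hcard1 : Nat.card RX = 1 := by
        rw [card_map_of_injective N.subtype_injective, R.card_eq_multiplicity,
          Nat.factorization_eq_zero_of_not_dvd hno, pow_zero]
      exact card_eq_one.mp hcard1
    have hrρ : r ∈ ρ := hρ r hr (hrN.trans (card_subgroup_dvd_card N)) (fun e => hNp (e ▸ hrN))
    by_cases hNR : normalizer (RX : Set X) = ⊤
    · refine ⟨1, ?_⟩
      rw [map_one, one_smul]
      have hnR : RX.Normal := normalizer_eq_top_iff.mp hNR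
      refine le_inf (fun z hz => mem_centralizer_iff.mpr fun x hx => ?_) hRXN
      obtain ⟨i, hi⟩ := P1.isPGroup' ⟨x, hx⟩
      have hi' : (x : G) ^ p ^ i = 1 := by exact congrArg (fun t : (P1 : Subgroup X) => ((t : X) : G)) hi
      have hz' : (orderOf (z : G)).Coprime p := by
        rw [orderOf_coe]
        refine ((hpp.coprime_iff_not_dvd).mpr fun hd => hNp ?_).symm
        exact hd.trans (orderOf_dvd_natCard N (hRXN hz))
      set W := ((P1 : Subgroup X) ⊔ RX).map X.subtype with hW
      by_cases hWX : W = X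
      · -- `X = R P1`
        set A := RX.map X.subtype with hA
        have hAρ : IsPiSubgroup ρ A := fun s hs hd => hNρ s hs (hd.trans (card_dvd_of_le (map_mono hRXN)))
        obtain ⟨c, hc'⟩ := hD A hAρ
        have hxN : (x : G) ∈ normalizer (A : Set G) :=
          le_normalizer_map X.subtype ⟨x, hNR ▸ mem_top x, rfl⟩
        have hxC := mem_centralizer_of_coprime (smul_le_centralizer hPK hc') hxN ?_
        · exact Subtype.ext (mem_centralizer_iff.mp hxC z ⟨z, hz, rfl⟩).symm
        · have hind : (MulAut.conj c • (P : Subgroup G)).index = (P : Subgroup G).index :=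
            index_map_of_bijective (MulEquiv.bijective _) _
          rw [hind]
          exact Nat.Coprime.coprime_dvd_left (orderOf_dvd_of_pow_eq_one hi')
            ((hpp.coprime_iff_not_dvd.mpr P.not_dvd_index).pow_left i)
      · exact Subtype.ext (hprop W (map_subtype_le _) hWX _ ⟨x, mem_sup_left hx, rfl⟩ _
          ⟨z, mem_sup_right hz, rfl⟩ i hi' hz')
    · set W := (normalizer (RX : Set X)).map X.subtype with hW
      have hWX : W ≠ X := fun e => hNR (by
        apply map_injective X.subtype_injective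
        rw [← hW, e, ← MonoidHom.range_eq_map, range_subtype])
      obtain ⟨S⟩ : Nonempty (Sylow p (normalizer (RX : Set X))) := inferInstance
      set S' := (S : Subgroup _).map (normalizer (RX : Set X)).subtype with hS'
      have hS'P : IsPGroup p S' := S.isPGroup'.map _
      obtain ⟨T, hT⟩ := hS'P.exists_le_sylow
      have hcardS : Nat.card (T : Subgroup X) ≤ Nat.card S' := by
        rw [T.card_eq_multiplicity, card_map_of_injective (subtype_injective _), S.card_eq_multiplicity]
        refine Nat.pow_le_pow_right hpp.pos ?_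
        refine (hpp.pow_dvd_iff_le_factorization Nat.card_pos.ne').mp ?_
        have hh := relIndex_sup_right (K := N) (H := normalizer (RX : Set X))
        rw [hfr, relIndex_top_right, hc.symm.index_eq_card] at hh
        exact (P1.card_eq_multiplicity ▸ hh.dvd).trans (relIndex_dvd_card _ _)
      obtain ⟨n', hn'⟩ := MulAction.exists_smul_eq X T P1
      refine ⟨n', le_inf ?_ ?_⟩
      · intro z hz
        rw [mem_centralizer_iff]
        intro x hx
        rw [mem_pointwise_smul_iff_inv_smul_mem, ← map_inv, MulAut.smul_def, MulAut.conj_apply, inv_inv] at hz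
        rw [← hn', Sylow.coe_subgroup_smul, SetLike.mem_coe, mem_pointwise_smul_iff_inv_smul_mem, ← map_inv,
          MulAut.smul_def, MulAut.conj_apply, inv_inv] at hx
        rw [← eq_of_le_of_card_ge hT hcardS] at hx
        obtain ⟨i, hi⟩ := hS'P ⟨_, hx⟩
        have hz' : (orderOf ((n'⁻¹ * z * n' : X) : G)).Coprime p := by
          rw [orderOf_coe]
          refine ((hpp.coprime_iff_not_dvd).mpr fun hd => hNp ?_).symm
          exact hd.trans (orderOf_dvd_natCard N (hRXN hz))
        have h1 := hprop W (map_subtype_le _) hWX _ ⟨_, map_subtype_le _ hx, rfl⟩ _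
          ⟨_, le_normalizer hz, rfl⟩ i (by exact congrArg (fun t : S' => ((t : X) : G)) hi) hz'
        have h2 : (n'⁻¹ * x * n') * (n'⁻¹ * z * n') = (n'⁻¹ * z * n') * (n'⁻¹ * x * n') := Subtype.ext h1
        calc x * z = n' * ((n'⁻¹ * x * n') * (n'⁻¹ * z * n')) * n'⁻¹ := by group
          _ = n' * ((n'⁻¹ * z * n') * (n'⁻¹ * x * n')) * n'⁻¹ := by rw [h2]
          _ = z * x := by group
      · exact (pointwise_smul_le_pointwise_smul_iff.mpr hRXN).trans
          (by rw [Subgroup.Normal.conj_smul_eq_self])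
  -- conclusion: inside the centralizer of `N'`
  have hPC : ((MulAut.conj g • P : Sylow p G) : Subgroup G) ≤ centralizer (N' : Set G) :=
    smul_le_centralizer hPK hg
  have hP1C : IsPGroup p (P1'.subgroupOf (centralizer (N' : Set G))) :=
    (P1.isPGroup'.map _).comap_of_injective _ (subtype_injective _)
  obtain ⟨T, hT⟩ := hP1C.exists_le_sylow
  obtain ⟨c, rfl⟩ := MulAction.exists_smul_eq (centralizer (N' : Set G)) ((MulAut.conj g • P : Sylow p G).subtype hPC) T
  refine ⟨(c : G) * g, ?_⟩
  have hX' : X = N' ⊔ P1' := by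
    rw [hN', hP1', ← Subgroup.map_sup, hc.sup_eq_top, ← MonoidHom.range_eq_map, range_subtype]
  have h1 : P1' ≤ MulAut.conj ((c : G) * g) • (P : Subgroup G) := fun x hx => by
    have h2 := hT (show (⟨x, hcent hx⟩ : centralizer (N' : Set G)) ∈ P1'.subgroupOf _ from hx)
    rw [Sylow.coe_subgroup_smul, mem_pointwise_smul_iff_inv_smul_mem] at h2
    rw [map_mul, mul_smul, mem_pointwise_smul_iff_inv_smul_mem]
    exact h2
  have h2 : N' ≤ MulAut.conj ((c : G) * g) • K := fun x hx => by
    rw [map_mul, mul_smul, mem_pointwise_smul_iff_inv_smul_mem, ← map_inv, MulAut.smul_def, MulAut.conj_apply,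
      inv_inv, mul_assoc, mem_centralizer_iff.mp c.2 x hx, inv_mul_cancel_left]
    exact hg hx
  rw [hX']
  exact sup_le (h2.trans (pointwise_smul_le_pointwise_smul_iff.mpr le_sup_right))
    (h1.trans (pointwise_smul_le_pointwise_smul_iff.mpr le_sup_left))

/-- Let σ and τ be disjoint sets of primes with union π. Suppose a finite group G has a Hall π-subgroup H which is the direct product of a nilpotent σ-subgroup and a τ-subgroup (two elementwise-commuting subgroups generating H), and that the maximal τ-subgroups of G are pairwise conjugate. Then the maximal π-subgroups of G are pairwise conjugate. -/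
theorem result {G : Type*} [Group G] [Finite G]
    (σ τ π : Set ℕ) (hπ : π = σ ∪ τ) (hd : Disjoint σ τ) (H Hs Ht : Subgroup G) (hH : Cfsg.IsPiHall π H)
    (hs : Cfsg.IsPiSubgroup σ Hs) (ht : Cfsg.IsPiSubgroup τ Ht) (hsn : Group.IsNilpotent Hs)
    (hjoin : Hs ⊔ Ht = H) (hcomm : ∀ a ∈ Hs, ∀ b ∈ Ht, a * b = b * a) (hD : Cfsg.IsDPiGroup τ G) :
    Cfsg.IsDPiGroup π G := by
  subst hπ
  have hsH : Hs ≤ H := hjoin ▸ le_sup_left
  have htH : Ht ≤ H := hjoin ▸ le_sup_right
  have hcard : Nat.card Hs * Nat.card Ht = Nat.card H := by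
    have hdisj : Disjoint Hs Ht := by
      refine disjoint_of_coprime_natCard (Nat.coprime_of_dvd fun q hq h1 h2 => ?_)
      exact Set.disjoint_left.mp hd (hs q hq h1) (ht q hq h2)
    haveI : (Ht.subgroupOf H).Normal := (normal_subgroupOf_iff_le_normalizer htH).mpr (hjoin ▸ sup_le
      (fun x hx => mem_normalizer_iff.mpr fun y => ⟨fun hy => by rwa [hcomm x hx y hy, mul_inv_cancel_right],
        fun hy => by
          have h1 := hcomm x hx _ hy
          have h2 : x * y * x⁻¹ = y := by
            calc x * y * x⁻¹ = x⁻¹ * (x * (x * y * x⁻¹)) := by group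
              _ = x⁻¹ * ((x * y * x⁻¹) * x) := by rw [h1]
              _ = y := by group
          rwa [h2] at hy⟩) le_normalizer)
    have h := Subgroup.IsComplement'.card_mul_card (isComplement'_of_disjoint_and_mul_eq_univ
      (H := Hs.subgroupOf H) (K := Ht.subgroupOf H) (by
        rw [disjoint_iff]; simp only [subgroupOf]; rw [← comap_inf, hdisj.eq_bot, ← subgroupOf, bot_subgroupOf]) ?_)
    · rwa [Nat.card_congr (subgroupOfEquivOfLe hsH).toEquiv,
        Nat.card_congr (subgroupOfEquivOfLe htH).toEquiv] at h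
    rw [← Subgroup.mul_normal, ← subgroupOf_sup hsH htH, hjoin, subgroupOf_self]
    rfl
  have hHi := H.card_mul_index
  have htauHall : ∀ q : ℕ, q.Prime → q ∈ τ → ¬ q ∣ Ht.index := by
    intro q hq hqτ hd'
    have h : q ∣ Nat.card Hs * H.index := by
      have h2 := Ht.card_mul_index
      rw [← hHi, ← hcard, mul_comm (Nat.card Hs), mul_assoc] at h2
      rwa [Nat.eq_of_mul_eq_mul_left Nat.card_pos h2] at hd'
    rcases hq.dvd_mul.mp h with h | h
    · exact Set.disjoint_left.mp hd (hs q hq h) hqτ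
    · exact hH.2 q hq (.inr hqτ) h
  have hbase : ∀ Y : Subgroup G, IsPiSubgroup τ Y → ∃ g : G, Y ≤ MulAut.conj g • Ht := by
    intro Y hY
    obtain ⟨M, hYM, hM⟩ := Finite.exists_le_maximal (p := IsPiSubgroup τ) hY
    have hmax : Maximal (IsPiSubgroup τ) Ht := ⟨ht, fun L hL hle => by
      refine (eq_of_le_of_card_ge hle (Nat.le_of_dvd Nat.card_pos ?_)).ge
      have h1 := relIndex_mul_relIndex (⊥ : Subgroup G) Ht L bot_le hle
      rw [relIndex_bot_left, relIndex_bot_left] at h1
      have : Ht.relIndex L = 1 := Nat.eq_one_iff_not_exists_prime_dvd.mpr fun q hq hd' =>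
        htauHall q hq (hL q hq (hd'.trans (relIndex_dvd_card _ _))) (hd'.trans (relIndex_dvd_index_of_le hle))
      rw [this, mul_one] at h1
      exact h1.symm.dvd⟩
    obtain ⟨g, rfl⟩ := hD Ht M hmax hM
    exact ⟨g, hYM⟩
  -- adjoin the primes of `σ` one at a time
  have hrec : ∀ s : Finset ℕ, s ⊆ (Nat.card Hs).primeFactors →
      ∃ K : Subgroup G, IsPiSubgroup (τ ∪ ↑s) K ∧ K ≤ H ∧
        (∀ q : ℕ, q.Prime → q ∈ τ ∪ ↑s → ¬ q ∣ K.index) ∧
        (∀ p : ℕ, p.Prime → p ∈ (Nat.card Hs).primeFactors → p ∉ s → ∀ a ∈ Hs, (∃ i : ℕ, a ^ p ^ i = 1) →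
          ∀ k ∈ K, a * k = k * a) ∧
        ∀ Y : Subgroup G, IsPiSubgroup (τ ∪ ↑s) Y → ∃ g : G, Y ≤ MulAut.conj g • K := by
    intro s
    induction s using Finset.induction_on with
    | empty =>
      intro _
      refine ⟨Ht, by simpa using ht, htH, by simpa using htauHall,
        fun _ _ _ _ a ha _ k hk => hcomm a ha k hk, by simpa using hbase⟩
    | insert p s hps ihs =>
      intro hsub
      obtain ⟨K, hK, hKH, hKi, hKc, hKD⟩ := ihs ((Finset.subset_insert p s).trans hsub)
      have hpHs := hsub (Finset.mem_insert_self p s)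
      have hpp : p.Prime := Nat.prime_of_mem_primeFactors hpHs
      haveI : Fact p.Prime := ⟨hpp⟩
      have hpσ : p ∈ σ := hs p hpp (Nat.dvd_of_mem_primeFactors hpHs)
      have hpρ : p ∉ τ ∪ ↑s := fun h => h.elim (Set.disjoint_left.mp hd hpσ) hps
      obtain ⟨S⟩ : Nonempty (Sylow p Hs) := inferInstance
      set S' := (S : Subgroup Hs).map Hs.subtype with hS'
      obtain ⟨P, hP⟩ := (S.isPGroup'.map Hs.subtype).exists_le_sylow
      have hPS : S' = (P : Subgroup G) := by
        refine eq_of_le_of_card_ge hP ?_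
        rw [P.card_eq_multiplicity, card_map_of_injective Hs.subtype_injective, S.card_eq_multiplicity]
        refine Nat.pow_le_pow_right hpp.pos ?_
        rw [← hHi, ← hcard, mul_assoc, Nat.factorization_mul Nat.card_pos.ne'
          (mul_ne_zero Nat.card_pos.ne' index_ne_zero_of_finite), Finsupp.add_apply]
        have h0 : (Nat.card Ht * H.index).factorization p = 0 := by
          refine Nat.factorization_eq_zero_of_not_dvd fun h => ?_
          rcases hpp.dvd_mul.mp h with h | h
          · exact Set.disjoint_left.mp hd hpσ (ht p hpp h)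
          · exact hH.2 p hpp (.inl hpσ) h
        omega
      have hPHs : (P : Subgroup G) ≤ Hs := hPS ▸ map_subtype_le _
      have hPK : ∀ x ∈ (P : Subgroup G), ∀ k ∈ K, x * k = k * x := fun x hx k hk => by
        obtain ⟨i, hi⟩ := P.isPGroup' ⟨x, hx⟩
        exact hKc p hpp hpHs hps x (hPHs hx) ⟨i, congrArg Subtype.val hi⟩ k hk
      have hset : τ ∪ ↑(insert p s) = insert p (τ ∪ ↑s) := by rw [Finset.coe_insert, Set.union_insert]
      have hcs : (P : Subgroup G) ≤ normalizer (K : Set G) := fun x hx => mem_normalizer_iff.mpr fun y =>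
        ⟨fun hy => by rwa [hPK x hx y hy, mul_inv_cancel_right], fun hy => by
          have h1 := hPK x hx _ hy
          have h2 : x * y * x⁻¹ = y := by
            calc x * y * x⁻¹ = x⁻¹ * (x * (x * y * x⁻¹)) := by group
              _ = x⁻¹ * ((x * y * x⁻¹) * x) := by rw [h1]
              _ = y := by group
          rwa [h2] at hy⟩
      refine ⟨(P : Subgroup G) ⊔ K, ?_, sup_le (hPHs.trans hsH) hKH, ?_, ?_, ?_⟩
      · rw [hset]
        intro q hq hdq
        have hdvd : Nat.card ((P : Subgroup G) ⊔ K : Subgroup G) ∣ Nat.card (P : Subgroup G) * Nat.card K := by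
          rw [sup_comm]
          haveI : (K.subgroupOf (K ⊔ (P : Subgroup G))).Normal :=
            (normal_subgroupOf_iff_le_normalizer le_sup_left).mpr (sup_le le_normalizer hcs)
          have h1 := relIndex_mul_relIndex (⊥ : Subgroup G) K (K ⊔ (P : Subgroup G)) bot_le le_sup_left
          rw [relIndex_bot_left, relIndex_bot_left] at h1
          rw [← h1, mul_comm]
          refine Nat.mul_dvd_mul_right ?_ _
          rw [sup_comm]
          have key : Nat.card (((P : Subgroup G) ⊔ K : Subgroup G) ⧸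
              K.subgroupOf ((P : Subgroup G) ⊔ K)) ∣ Nat.card (P : Subgroup G) := by
            haveI := normal_subgroupOf_of_le_normalizer hcs
            haveI := normal_subgroupOf_sup_of_le_normalizer hcs
            exact (Nat.card_congr (QuotientGroup.quotientInfEquivProdNormalizerQuotient
              (P : Subgroup G) K hcs).toEquiv).symm.dvd.trans (index_dvd_card _)
          exact key
        rcases hq.dvd_mul.mp (hdq.trans hdvd) with h | h
        · obtain ⟨k, hk⟩ := IsPGroup.iff_card.mp P.isPGroup'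
          rw [hk] at h
          exact .inl ((Nat.prime_dvd_prime_iff_eq hq hpp).mp (hq.dvd_of_dvd_pow h))
        · exact .inr (hK q hq h)
      · rw [hset]
        intro q hq hqm hdq
        rcases hqm with rfl | hqm
        · exact P.not_dvd_index (hdq.trans (index_dvd_of_le le_sup_left))
        · exact hKi q hq hqm (hdq.trans (index_dvd_of_le le_sup_right))
      · intro r hr hrHs hrs a ha ⟨i, hi⟩ k hk
        simp only [Finset.mem_insert, not_or] at hrs
        have hle : (P : Subgroup G) ⊔ K ≤ centralizer ({a} : Set G) := by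
          refine sup_le (fun x hx => mem_centralizer_singleton_iff.mpr ?_) fun x hx =>
            mem_centralizer_singleton_iff.mpr (hKc r hr hrHs hrs.2 a ha ⟨i, hi⟩ x hx).symm
          obtain ⟨j, hj⟩ := P.isPGroup' ⟨x, hx⟩
          have h1 : (orderOf (⟨x, hPHs hx⟩ : Hs)).Coprime (orderOf (⟨a, ha⟩ : Hs)) := by
            rw [orderOf_mk, orderOf_mk]
            exact Nat.Coprime.coprime_dvd_left (orderOf_dvd_of_pow_eq_one (congrArg Subtype.val hj))
              (Nat.Coprime.coprime_dvd_right (orderOf_dvd_of_pow_eq_one hi)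
                (((Nat.coprime_primes hpp hr).mpr (Ne.symm hrs.1)).pow j i))
          exact congrArg Subtype.val (CfsgLib.Transfer.commute_of_coprime_of_isNilpotent h1).eq
        exact (mem_centralizer_singleton_iff.mp (hle hk)).symm
      · rw [hset]
        exact step hpρ P K hK hKi hPK hKD
  obtain ⟨K, -, hKH, -, -, hKD⟩ := hrec _ subset_rfl
  have hall : ∀ X : Subgroup G, IsPiSubgroup (σ ∪ τ) X → ∃ g : G, X ≤ MulAut.conj g • H := by
    intro X hX
    obtain ⟨g, hg⟩ := hKD X fun q hq hd' => by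
      rcases hX q hq hd' with hqσ | hqτ
      · refine .inr (Nat.mem_primeFactors.mpr ⟨hq, ?_, Nat.card_pos.ne'⟩)
        have h := hd'.trans (card_subgroup_dvd_card X)
        rw [← hHi, ← hcard] at h
        rcases hq.dvd_mul.mp h with h | h
        · exact (hq.dvd_mul.mp h).resolve_right fun h' => Set.disjoint_left.mp hd hqσ (ht q hq h')
        · exact absurd h (hH.2 q hq (.inl hqσ))
      · exact .inl hqτ
    exact ⟨g, hg.trans (pointwise_smul_le_pointwise_smul_iff.mpr hKH)⟩
  intro A B hA hB
  have key : ∀ M : Subgroup G, Maximal (IsPiSubgroup (σ ∪ τ)) M → ∃ g : G, M = MulAut.conj g • H := by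
    intro M hM
    obtain ⟨g, hg⟩ := hall M hM.1
    refine ⟨g, le_antisymm hg (hM.2 ?_ hg)⟩
    intro q hq hd'
    rw [Nat.card_congr (equivSMul (MulAut.conj g) H).symm.toEquiv] at hd'
    exact hH.1 q hq hd'
  obtain ⟨g, rfl⟩ := key A hA
  obtain ⟨g', rfl⟩ := key B hB
  refine ⟨g' * g⁻¹, ?_⟩
  change MulAut.conj g' • H = MulAut.conj (g' * g⁻¹) • (MulAut.conj g • H)
  rw [smul_smul, ← map_mul, inv_mul_cancel_right]

end Cfsg.Agent.S4334
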