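import Cfsg.Statements.S4343
import Mathlib

set_option autoImplicit false
open Cfsg

namespace Cfsg.Agent.S4343

/-- Let S be a finite non-abelian simple group and p a prime dividing its order. If S has fewer than p² Sylow p-subgroups, then its Sylow p-subgroups have order p. -/
theorem result {S : Type*} [Group S] [Finite S]
    [IsSimpleGroup S] (hS : ¬ IsMulCommutative S) (p : ℕ) [Fact p.Prime] (hp : p ∣ Nat.card S)
    (hn : Nat.card (Sylow p S) < p ^ 2) (P : Sylow p S) : Nat.card P = p := by
  classical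
  have hpp : p.Prime := Fact.out
  have hidx : ∀ R Q : Sylow p S, Q ≠ R → (Q : Subgroup S).relIndex R = p := by
    intro R Q hQR
    have horb : Nat.card (MulAction.orbit R Q) = (Q : Subgroup S).relIndex R := by
      rw [Nat.card_coe_set_eq, ← MulAction.index_stabilizer]
      have : MulAction.stabilizer R Q = (Q : Subgroup S).subgroupOf (R : Subgroup S) := by
        ext ⟨g, hg⟩
        rw [MulAction.mem_stabilizer_iff, Subgroup.mem_subgroupOf, Subgroup.smul_def,
          Sylow.smul_eq_iff_mem_normalizer]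
        constructor
        · intro hn
          have h : g ∈ Subgroup.normalizer ((Q : Subgroup S) : Set S) ⊓ (R : Subgroup S) := ⟨hn, hg⟩
          rw [inf_comm] at h
          exact ((R.isPGroup'.inf_normalizer_sylow Q).le h).2
        · exact fun h => Subgroup.le_normalizer h
      rw [this]; rfl
    obtain ⟨j, hj⟩ := R.isPGroup'.card_orbit Q
    rw [hj] at horb
    have hle : p ^ j < p ^ 2 := by
      rw [← hj]
      exact lt_of_le_of_lt (Nat.card_le_card_of_injective _ Subtype.val_injective) hn
    have hj2 : j < 2 := (Nat.pow_lt_pow_iff_right hpp.one_lt).mp hle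
    interval_cases j
    · exfalso
      rw [pow_zero, eq_comm, Subgroup.relIndex_eq_one] at horb
      exact hQR (Sylow.ext (R.is_maximal' Q.isPGroup' horb))
    · rw [← horb, pow_one]
  let I : Subgroup S := ⨅ R : Sylow p S, (R : Subgroup S)
  have hI : I = ⊥ := by
    have hn : I.Normal := by
      constructor
      intro a ha g
      rw [Subgroup.mem_iInf] at ha ⊢
      intro R
      have := ha (g⁻¹ • R)
      rw [Sylow.coe_subgroup_smul, Subgroup.mem_pointwise_smul_iff_inv_smul_mem] at this
      simpa using this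
    rcases IsSimpleGroup.eq_bot_or_eq_top_of_normal I hn with h | h
    · exact h
    exfalso
    apply hS
    have hPtop : (P : Subgroup S) = ⊤ := top_le_iff.mp (h ▸ iInf_le _ P)
    have hS' : IsPGroup p S := P.isPGroup'.of_equiv ((MulEquiv.subgroupCongr hPtop).trans Subgroup.topEquiv)
    have hnt : Nontrivial S := IsSimpleGroup.toNontrivial
    have := hS'.center_nontrivial
    rcases IsSimpleGroup.eq_bot_or_eq_top_of_normal (Subgroup.center S) inferInstance with h' | h'
    · exact absurd h' ((Subgroup.nontrivial_iff_ne_bot _).mp this)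
    · exact ⟨⟨fun a b => (Subgroup.mem_center_iff.mp (h' ▸ Subgroup.mem_top b : b ∈ Subgroup.center S)) a⟩⟩
  have habel : ∀ R : Sylow p S, ∀ a ∈ R, ∀ b ∈ R, a * b = b * a := by
    intro R a ha b hb
    have hmem : a * b * a⁻¹ * b⁻¹ ∈ I := by
      rw [Subgroup.mem_iInf]
      intro Q
      by_cases hQ : Q = R
      · subst hQ
        exact mul_mem (mul_mem (mul_mem ha hb) (inv_mem ha)) (inv_mem hb)
      have hi : ((Q : Subgroup S).subgroupOf (R : Subgroup S)).index = p := hidx R Q hQ
      have hnorm : ((Q : Subgroup S).subgroupOf (R : Subgroup S)).Normal := by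
        apply Subgroup.normal_of_index_eq_minFac_card
        obtain ⟨n, hn'⟩ := IsPGroup.iff_card.mp R.isPGroup'
        rw [hi, hn', Nat.pow_minFac, hpp.minFac_eq]
        rintro rfl
        have hd := Subgroup.index_dvd_card ((Q : Subgroup S).subgroupOf (R : Subgroup S))
        rw [hi, hn'] at hd
        exact absurd (Nat.le_of_dvd (by norm_num) hd) (by simpa using hpp.one_lt)
      have hcomm : IsCyclic ((R : Subgroup S) ⧸ (Q : Subgroup S).subgroupOf (R : Subgroup S)) :=
        isCyclic_of_prime_card (p := p) hi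
      let cg := hcomm.commGroup
      have : ((⟨a, ha⟩ * ⟨b, hb⟩ * ⟨a, ha⟩⁻¹ * ⟨b, hb⟩⁻¹ : (R : Subgroup S)) :
          (R : Subgroup S) ⧸ (Q : Subgroup S).subgroupOf (R : Subgroup S)) = 1 := by
        simp only [QuotientGroup.mk_mul, QuotientGroup.mk_inv]
        rw [cg.mul_comm (⟨a, ha⟩ : (R : Subgroup S)) (⟨b, hb⟩ : (R : Subgroup S))]
        group
      rw [QuotientGroup.eq_one_iff] at this
      exact this
    rw [hI, Subgroup.mem_bot] at hmem
    calc a * b = (a * b * a⁻¹ * b⁻¹) * (b * a) := by group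
      _ = b * a := by rw [hmem, one_mul]
  -- Brodkey
  obtain ⟨⟨A, B⟩, hmin⟩ := Finite.exists_min
    (fun x : Sylow p S × Sylow p S => Nat.card ((x.1 : Subgroup S) ⊓ (x.2 : Subgroup S) : Subgroup S))
  have hD : ((A : Subgroup S) ⊓ (B : Subgroup S)) ≤ I := by
    refine le_iInf fun R => ?_
    let D : Subgroup S := (A : Subgroup S) ⊓ (B : Subgroup S)
    let C : Subgroup S := Subgroup.centralizer (D : Set S)
    have hAC : (A : Subgroup S) ≤ C := fun a ha => Subgroup.mem_centralizer_iff.mpr
      fun d hd => habel A d hd.1 a ha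
    have hBC : (B : Subgroup S) ≤ C := fun a ha => Subgroup.mem_centralizer_iff.mpr
      fun d hd => habel B d hd.2 a ha
    obtain ⟨T, hT⟩ := (R.isPGroup'.comap_subtype (K := C)).exists_le_sylow
    obtain ⟨c, hc⟩ := MulAction.exists_smul_eq C T (A.subtype hAC)
    have hcon : ∀ y ∈ (R : Subgroup S) ⊓ C, (c : S) * y * (c : S)⁻¹ ∈ (A : Subgroup S) := by
      rintro y ⟨hy1, hy2⟩
      have hy : (⟨y, hy2⟩ : C) ∈ (T : Subgroup C) := hT hy1
      have h := Subgroup.smul_mem_pointwise_smul _ (MulAut.conj c) _ hy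
      rw [← Sylow.coe_subgroup_smul, hc] at h
      exact h
    let R' : Sylow p S := (c : S) • R
    have hR' : ∀ y, y ∈ (R' : Subgroup S) ↔ (c : S)⁻¹ * y * c ∈ (R : Subgroup S) := by
      intro y
      rw [Sylow.coe_subgroup_smul, Subgroup.mem_pointwise_smul_iff_inv_smul_mem]
      simp [MulAut.smul_def]
    have hle : (R' : Subgroup S) ⊓ (B : Subgroup S) ≤ D := by
      rintro y ⟨hy1, hy2⟩
      refine ⟨?_, hy2⟩
      have := hcon ((c : S)⁻¹ * y * c) ⟨(hR' y).mp hy1,
        C.mul_mem (C.mul_mem (C.inv_mem c.2) (hBC hy2)) c.2⟩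
      have e : (c : S) * ((c : S)⁻¹ * y * c) * (c : S)⁻¹ = y := by group
      rwa [e] at this
    have heq := Subgroup.eq_of_le_of_card_ge hle (hmin (R', B))
    intro d hd
    have hd' : d ∈ (R' : Subgroup S) := by
      have : d ∈ (R' : Subgroup S) ⊓ (B : Subgroup S) := by rw [heq]; exact hd
      exact this.1
    have := (hR' d).mp hd'
    rwa [show (c : S)⁻¹ * d * c = d by
      rw [mul_assoc, Subgroup.mem_centralizer_iff.mp c.2 d hd, inv_mul_cancel_left]] at this
  rw [hI, le_bot_iff] at hD
  have hne : B ≠ A := by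
    intro h
    rw [h, inf_idem] at hD
    exact A.ne_bot_of_dvd_card hp hD
  have := hidx A B hne
  rw [← Subgroup.inf_relIndex_left, hD, Subgroup.relIndex_bot_left] at this
  refine Eq.trans ?_ this
  obtain ⟨g, hg⟩ := MulAction.exists_smul_eq S A P
  rw [← hg]
  exact (Nat.card_congr (Sylow.equivSMul A g).toEquiv).symm

end Cfsg.Agent.S4343
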