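import Cfsg.Statements.S4342
import Mathlib

set_option autoImplicit false
open Cfsg

namespace Cfsg.Agent.S4342

/-- Let H be a normal subgroup of a finite group G and p a prime not dividing the index of H. Then the number of Sylow p-subgroups of H/Z(H) equals the number of Sylow p-subgroups of G. -/
theorem result {G : Type*} [Group G] [Finite G]
    (p : ℕ) [Fact p.Prime] (H : Subgroup G) [H.Normal] (hp : ¬ p ∣ H.index) :
    Nat.card (Sylow p (H ⧸ Subgroup.center H)) = Nat.card (Sylow p G) := by
  have hle : ∀ P : Sylow p G, (P : Subgroup G) ≤ H := fun P => by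
    intro x hx
    have h1 : orderOf (x : G ⧸ H) ∣ H.index := orderOf_dvd_natCard _
    obtain ⟨k, hk⟩ := P.isPGroup' ⟨x, hx⟩
    have h2 : orderOf (x : G ⧸ H) ∣ p ^ k := by
      apply orderOf_dvd_of_pow_eq_one
      rw [← QuotientGroup.mk_pow]
      have : x ^ p ^ k = 1 := by simpa [Subtype.ext_iff] using hk
      rw [this]; rfl
    have hcop : Nat.Coprime (p ^ k) H.index :=
      Nat.Coprime.pow_left k ((Nat.Prime.coprime_iff_not_dvd (Fact.out : p.Prime)).mpr hp)
    have := Nat.dvd_one.mp (hcop ▸ Nat.dvd_gcd h2 h1)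
    rwa [orderOf_eq_one_iff, QuotientGroup.eq_one_iff] at this
  have e1 : Nat.card (Sylow p G) = Nat.card (Sylow p H) := by
    apply Nat.card_congr
    refine Equiv.ofBijective (fun P => P.subtype (hle P)) ⟨fun P Q h => Sylow.subtype_injective h, fun R => ?_⟩
    obtain ⟨Q, hQ⟩ := R.exists_comap_subtype_eq
    exact ⟨Q, Sylow.ext hQ⟩
  rw [e1]
  symm
  apply Nat.card_congr
  refine Equiv.ofBijective (Sylow.mapSurjective (QuotientGroup.mk'_surjective (Subgroup.center H))) ⟨?_, Sylow.mapSurjective_surjective _ p⟩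
  intro P Q h
  have h' : (P : Subgroup H).map (QuotientGroup.mk' (Subgroup.center H)) = (Q : Subgroup H).map (QuotientGroup.mk' (Subgroup.center H)) :=
    congrArg Sylow.toSubgroup h
  have hn : (Q : Subgroup H) ≤ Subgroup.normalizer ((P : Subgroup H) : Set H) := by
    intro y hy
    obtain ⟨x, hx, hxy⟩ := (h'.symm ▸ Subgroup.mem_map_of_mem (QuotientGroup.mk' (Subgroup.center H)) hy :
      QuotientGroup.mk' (Subgroup.center H) y ∈ (P : Subgroup H).map (QuotientGroup.mk' (Subgroup.center H)))
    have hz : x⁻¹ * y ∈ Subgroup.center H := QuotientGroup.eq.mp hxy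
    have : y = x * (x⁻¹ * y) := by group
    rw [this]
    exact mul_mem (Subgroup.le_normalizer hx) (Subgroup.center_le_normalizer _ hz)
  have hsup := IsPGroup.to_sup_of_normal_right' Q.isPGroup' P.isPGroup' hn
  have h1 := P.is_maximal' hsup le_sup_right
  exact (Sylow.ext (Q.is_maximal' P.isPGroup' (le_sup_left.trans h1.le))).trans rfl

end Cfsg.Agent.S4342
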