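import Cfsg.Statements.S4344
import Mathlib

set_option autoImplicit false
open Cfsg

namespace Cfsg.Agent.S4344

/-- Let S be a finite non-abelian simple group, M a maximal subgroup of S and C a cyclic normal subgroup of M. If a Sylow p-subgroup P of S (for a prime p dividing the order of S) is contained in C, then the number of Sylow p-subgroups of S equals the index of M. -/
theorem result {S : Type*} [Group S] [Finite S]
    [IsSimpleGroup S] (hS : ¬ IsMulCommutative S) (p : ℕ) [Fact p.Prime] (hp : p ∣ Nat.card S)
    (M : Subgroup S) (hM : IsCoatom M) (C : Subgroup S) (hCM : C ≤ M) (hCn : (C.subgroupOf M).Normal)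
    (hC : IsCyclic C) (P : Sylow p S) (hP : (P : Subgroup S) ≤ C) :
    Nat.card (Sylow p S) = M.index := by
  have := hC
  have hne : (P : Subgroup S) ≠ ⊥ := P.ne_bot_of_dvd_card hp
  have htop : (P : Subgroup S) ≠ ⊤ := by
    intro hh
    apply hS
    have hC' : C = ⊤ := top_le_iff.mp (hh ▸ hP)
    subst hC'
    exact absurd hM.1 (by rw [top_le_iff.mp hCM]; simp)
  have hN : Subgroup.normalizer ((P : Subgroup S) : Set S) ≠ ⊤ := by
    intro hh
    have hn : (P : Subgroup S).Normal := Subgroup.normalizer_eq_top_iff.mp hh
    rcases IsSimpleGroup.eq_bot_or_eq_top_of_normal _ hn with h | h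
    · exact hne h
    · exact htop h
  have hle : M ≤ Subgroup.normalizer ((P : Subgroup S) : Set S) := by
    intro m hm
    have hmap : ((P : Subgroup S).map (MulAut.conj m).toMonoidHom) = (P : Subgroup S) := by
      have hsub : (P : Subgroup S).map (MulAut.conj m).toMonoidHom ≤ C := by
        rintro _ ⟨y, hy, rfl⟩
        have := hCn.conj_mem ⟨y, hCM (hP hy)⟩ (hP hy) ⟨m, hm⟩
        exact this
      have hcard : Nat.card ((P : Subgroup S).map (MulAut.conj m).toMonoidHom) = Nat.card (P : Subgroup S) :=
        Subgroup.card_map_of_injective (MulAut.conj m).injective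
      have hnorm : (P : Subgroup S).map (MulAut.conj m).toMonoidHom ≤ Subgroup.normalizer ((P : Subgroup S) : Set S) := by
        intro c hc
        rw [Subgroup.mem_normalizer_iff]
        intro y
        have hcomm : ∀ a ∈ C, ∀ b ∈ C, a * b = b * a := fun a ha b hb => by
          have := IsCyclic.commGroup (α := C) |>.mul_comm ⟨a, ha⟩ ⟨b, hb⟩
          exact congrArg Subtype.val this
        constructor
        · intro hy
          rwa [hcomm c (hsub hc) y (hP hy), mul_inv_cancel_right]
        · intro hy
          have h' := hcomm c (hsub hc) _ (hP hy)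
          have hy' : c⁻¹ * (c * y * c⁻¹) * c = c * y * c⁻¹ := by
            rw [mul_assoc, ← h']; group
          have : y = c * y * c⁻¹ := by
            calc y = c⁻¹ * (c * y * c⁻¹) * c := by group
              _ = _ := hy'
          rwa [this]
      have hsup := IsPGroup.to_sup_of_normal_right' (P.isPGroup'.map (MulAut.conj m).toMonoidHom) P.isPGroup' hnorm
      have h3 : _ = (P : Subgroup S) := P.is_maximal' hsup le_sup_right
      exact Subgroup.eq_of_le_of_card_ge (le_sup_left.trans h3.le) (le_of_eq hcard.symm)
    exact Subgroup.mem_normalizer_iff_map_conj_eq.mpr hmap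
  rw [Sylow.card_eq_index_normalizer P]
  rcases hM.le_iff.mp hle with h | h
  · exact absurd h hN
  · exact congrArg Subgroup.index h

end Cfsg.Agent.S4344
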