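import Cfsg.Statements.S4345
import Cfsg.Agent.Solvable.MinNormal

set_option autoImplicit false
open Cfsg

namespace Cfsg.Agent.S4345

universe u

open scoped Pointwise

theorem card_sylow_quotient_mul {G : Type u} [Group G] [Finite G] (p : ℕ) [Fact p.Prime]
    (N : Subgroup G) [N.Normal] :
    ∃ d : ℕ, Nat.card (Sylow p G) = Nat.card (Sylow p (G ⧸ N)) * d ∧ d ∣ Nat.card N := by
  obtain ⟨P⟩ := (inferInstance : Nonempty (Sylow p G))
  set f := QuotientGroup.mk' N with hf'
  have hf : Function.Surjective f := QuotientGroup.mk'_surjective N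
  set Pb := P.mapSurjective hf with hPb
  set M := (Subgroup.normalizer ((Pb : Subgroup (G ⧸ N)) : Set (G ⧸ N))).comap f with hM
  have hK : (Pb : Subgroup (G ⧸ N)).comap f = (P : Subgroup G) ⊔ N := by
    rw [hPb, Sylow.coe_mapSurjective, Subgroup.comap_map_eq, QuotientGroup.ker_mk']
  have hNM : Subgroup.normalizer ((P : Subgroup G) : Set G) ⊔ N = M := by
    apply le_antisymm
    · refine sup_le (fun g hg => Subgroup.le_normalizer_map f ⟨g, hg, rfl⟩) (fun g hg => ?_)
      rw [hM, Subgroup.mem_comap, show f g = 1 from (QuotientGroup.eq_one_iff g).2 hg]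
      exact one_mem _
    · intro g hg
      have hle : (P : Subgroup G) ≤ (P : Subgroup G) ⊔ N := le_sup_left
      have hQ : ((g • P : Sylow p G) : Subgroup G) ≤ (P : Subgroup G) ⊔ N := by
        rw [← hK, ← Subgroup.map_le_iff_le_comap]
        have hg' := Subgroup.mem_normalizer_iff.1 hg
        rintro _ ⟨x, hx, rfl⟩
        rw [Sylow.coe_subgroup_smul, SetLike.mem_coe, Subgroup.mem_pointwise_smul_iff_inv_smul_mem] at hx
        have hx' : f (g⁻¹ * x * g) ∈ (Pb : Subgroup (G ⧸ N)) := ⟨g⁻¹ * x * g, show g⁻¹ * x * g ∈ (P : Subgroup G) by simpa using hx, rfl⟩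
        have := (hg' _).1 hx'
        simpa [mul_assoc] using this
      obtain ⟨k, hk⟩ := MulAction.exists_smul_eq ↥((P : Subgroup G) ⊔ N) ((g • P).subtype hQ) (P.subtype hle)
      rw [Sylow.smul_subtype] at hk
      have hk' : ((k : G) * g) • P = P := by
        rw [mul_smul]
        exact Sylow.subtype_injective hk
      have h1 : (k : G) * g ∈ Subgroup.normalizer ((P : Subgroup G) : Set G) :=
        Sylow.smul_eq_iff_mem_normalizer.1 hk'
      have hk2 : (k : G) ∈ Subgroup.normalizer ((P : Subgroup G) : Set G) ⊔ N :=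
        sup_le_sup_right Subgroup.le_normalizer N k.2
      have := Subgroup.mul_mem _ (Subgroup.inv_mem _ hk2) (Subgroup.mem_sup_left (T := N) h1)
      simpa using this
  refine ⟨(Subgroup.normalizer ((P : Subgroup G) : Set G)).relIndex M, ?_, ?_⟩
  · rw [Sylow.card_eq_index_normalizer P, Sylow.card_eq_index_normalizer Pb,
      ← Subgroup.index_comap_of_surjective _ hf, mul_comm]
    exact (Subgroup.relIndex_mul_index (show Subgroup.normalizer ((P : Subgroup G) : Set G) ≤ M from hNM ▸ le_sup_left)).symm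
  · rw [← hNM]
    set H := Subgroup.normalizer ((P : Subgroup G) : Set G)
    refine ⟨Nat.card (H ⊓ N : Subgroup G), ?_⟩
    have c : ∀ A B : Subgroup G, A ≤ B → A.relIndex B * Nat.card A = Nat.card B := fun A B h => by
      rw [← Subgroup.relIndex_bot_left A, ← Subgroup.relIndex_bot_left B, mul_comm]
      exact Subgroup.relIndex_mul_relIndex _ _ _ bot_le h
    have e1 := c H (H ⊔ N) le_sup_left
    have e2 := c N (H ⊔ N) le_sup_right
    have e3 := c (H ⊓ N) H inf_le_left
    rw [Subgroup.relIndex_sup_right] at e2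
    rw [inf_comm, Subgroup.inf_relIndex_right, inf_comm] at e3
    refine Nat.eq_of_mul_eq_mul_left (Nat.pos_of_ne_zero (Subgroup.index_ne_zero_of_finite (H := N.subgroupOf H))) ?_
    calc N.relIndex H * Nat.card N = H.relIndex (H ⊔ N) * Nat.card H := by rw [e2, e1]
      _ = H.relIndex (H ⊔ N) * (N.relIndex H * Nat.card (H ⊓ N : Subgroup G)) := by rw [e3]
      _ = _ := by unfold Subgroup.relIndex; ring

theorem main : ∀ (n : ℕ) (G : Type u) [Group G] [Finite G], Nat.card G ≤ n → Group.IsSolvable G →
    ∀ (p l : ℕ) [Fact p.Prime], l.Prime →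
      l ^ (Nat.card (Sylow p G)).factorization l ≡ 1 [MOD p] := by
  intro n
  induction n with
  | zero => intro G _ _ h; exact absurd h (Nat.not_le.2 Nat.card_pos)
  | succ n ih =>
    intro G _ _ hn hG p l _ hl
    rcases subsingleton_or_nontrivial G with hs | hs
    · have : Subsingleton (Sylow p G) := ⟨fun A B => Sylow.ext (Subsingleton.elim _ _)⟩
      rw [Nat.card_of_subsingleton (Classical.arbitrary (Sylow p G))]
      simp [Nat.ModEq.refl]
    obtain ⟨N, -, hN, hN1, hmin⟩ :=
      CfsgLib.Solvable.exists_minimal_normal_le (⊤ : Subgroup G) top_ne_bot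
    have hsolv : Group.IsSolvable N := inferInstance
    obtain ⟨-, q, hq, -, k, -, hk⟩ := CfsgLib.Solvable.minimal_normal_elementary N hsolv hN1 hmin
    obtain ⟨d, hd, hdN⟩ := card_sylow_quotient_mul p N
    have hlt : Nat.card (G ⧸ N) ≤ n := by
      have h1 := N.card_eq_card_quotient_mul_card_subgroup
      have h2 : 1 < Nat.card N := (Subgroup.one_lt_card_iff_ne_bot _).2 hN1
      have h3 : Nat.card (G ⧸ N) < Nat.card G := by
        rw [h1]; exact lt_mul_of_one_lt_right Nat.card_pos h2
      omega
    haveI : Group.IsSolvable (G ⧸ N) := inferInstance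
    have hind := ih (G ⧸ N) hlt inferInstance p l hl
    have hd0 : d ≠ 0 := fun h => by simp [h, Nat.card_pos.ne'] at hdN
    rw [hd, Nat.factorization_mul Nat.card_pos.ne' hd0, Finsupp.add_apply, pow_add]
    rw [show (1 : ℕ) = 1 * 1 from rfl]
    refine Nat.ModEq.mul hind ?_
    obtain ⟨i, -, rfl⟩ := (Nat.dvd_prime_pow hq).1 (hk ▸ hdN)
    have hmod : q ^ i ≡ 1 [MOD p] := by
      have h1 := card_sylow_modEq_one p G
      rw [hd] at h1
      have h2 := (card_sylow_modEq_one p (G ⧸ N)).mul_right (q ^ i)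
      rw [one_mul] at h2
      exact h2.symm.trans h1
    by_cases hlq : l = q
    · subst hlq
      rw [hl.factorization_pow, Finsupp.single_eq_same]
      exact hmod
    · rw [hq.factorization_pow, Finsupp.single_eq_of_ne (by omega), pow_zero]

/-- Let G be a finite solvable group and p, ℓ primes. Then the largest power of ℓ dividing the number of Sylow p-subgroups of G is congruent to 1 modulo p. -/
theorem result {G : Type*} [Group G] [Finite G]
    (hG : Group.IsSolvable G) (p ℓ : ℕ) [Fact p.Prime] (hℓ : ℓ.Prime) :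
    ℓ ^ (Nat.card (Sylow p G)).factorization ℓ ≡ 1 [MOD p] := by
  exact main _ G le_rfl hG p ℓ hℓ

end Cfsg.Agent.S4345
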