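import Cfsg.Statements.S4346
import Cfsg.Agent.SylowToolkit
import Cfsg.Agent.SylowToolkit.Classes
import Cfsg.Agent.Sylow22.Order
import Mathlib

set_option autoImplicit false
open Cfsg

namespace Cfsg.Agent.S4346

open CfsgLib.SylowToolkit CfsgLib.Sylow22 Subgroup MulAction

local instance fact_three' : Fact (Nat.Prime 3) := ⟨Nat.prime_three⟩
local instance fact_seven'' : Fact (Nat.Prime 7) := ⟨by norm_num⟩
local instance fact_eleven : Fact (Nat.Prime 11) := ⟨by norm_num⟩

/-- A 3'-group of permutations of seven points whose order is a multiple of 7 has order 7, 14 or 56. -/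
theorem card_perm_seven {α : Type*} [Finite α] (hα : Nat.card α = 7) (K : Subgroup (Equiv.Perm α))
    (h3 : ¬ 3 ∣ Nat.card K) (h7 : 7 ∣ Nat.card K) :
    Nat.card K ∣ 14 ∨ Nat.card K = 56 := by
  classical
  have := Fintype.ofFinite α
  have hF : Fintype.card α = 7 := by rw [← Nat.card_eq_fintype_card]; exact hα
  have hdiv : Nat.card K ∣ 5040 := by
    have := card_subgroup_dvd_card K
    rwa [Nat.card_perm, hα, show (7 : ℕ).factorial = 5040 by decide] at this
  obtain ⟨x, hx⟩ := exists_prime_orderOf_dvd_card' (G := K) 7 h7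
  have hxo : orderOf (x : Equiv.Perm α) = 7 := by rw [orderOf_coe]; exact hx
  have hcyc : (x : Equiv.Perm α).IsCycle :=
    Equiv.Perm.isCycle_of_prime_order' (by rw [hxo]; norm_num) (by rw [hxo, hF]; norm_num)
  have hsupp : (x : Equiv.Perm α).support = Finset.univ :=
    Finset.eq_univ_of_card _ (by rw [← hcyc.orderOf, hxo, hF])
  -- the centralizer of a 7-cycle
  have hcent : ∀ g : Equiv.Perm α, g * x = x * g → g ∈ zpowers (x : Equiv.Perm α) := by
    intro g hg
    obtain ⟨a⟩ : Nonempty α := (Nat.card_pos_iff.mp (by omega)).1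
    obtain ⟨k, hk⟩ := hcyc.exists_zpow_eq (Equiv.Perm.mem_support.mp (hsupp ▸ Finset.mem_univ a))
      (Equiv.Perm.mem_support.mp (hsupp ▸ Finset.mem_univ (g a)))
    refine mem_zpowers_iff.mpr ⟨k, Equiv.ext fun b => ?_⟩
    obtain ⟨j, rfl⟩ := hcyc.exists_zpow_eq (Equiv.Perm.mem_support.mp (hsupp ▸ Finset.mem_univ a))
      (Equiv.Perm.mem_support.mp (hsupp ▸ Finset.mem_univ b))
    have hc : g * (x : Equiv.Perm α) ^ j = (x : Equiv.Perm α) ^ j * g :=
      (Commute.zpow_right hg j).eq
    calc ((x : Equiv.Perm α) ^ k) (((x : Equiv.Perm α) ^ j) a)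
        = ((x : Equiv.Perm α) ^ j) (((x : Equiv.Perm α) ^ k) a) := by
          rw [← Equiv.Perm.mul_apply, ← Equiv.Perm.mul_apply, ← zpow_add, ← zpow_add, add_comm]
      _ = g (((x : Equiv.Perm α) ^ j) a) := by
          rw [hk, ← Equiv.Perm.mul_apply, ← hc, Equiv.Perm.mul_apply]
  obtain ⟨m, hm⟩ := h7
  have h49 : ¬ 7 ∣ m := fun h => by
    have := (Nat.mul_dvd_mul_left 7 h).trans (hm ▸ hdiv)
    norm_num at this
  obtain ⟨R, hR⟩ := (IsPGroup.of_card (n := 1) (show Nat.card (zpowers x) = 7 ^ 1 by
    rw [Nat.card_zpowers, hx, pow_one])).exists_le_sylow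
  have hR7 : Nat.card (R : Subgroup K) = 7 := by
    simpa using card_sylow_subgroup_eq (k := 1) (show Nat.card K = 7 ^ 1 * m by rw [pow_one]; exact hm) h49 R
  have hRx : zpowers x = (R : Subgroup K) := zpowers_eq_of_card hR7 (hR (mem_zpowers x))
    (fun h => by rw [h, orderOf_one] at hx; norm_num at hx)
  have hC : Nat.card (centralizer ((R : Subgroup K) : Set K)) ≤ 7 := by
    refine le_trans (card_le_of_le (fun g hg => ?_)) hR7.le
    rw [← hRx]
    have h := mem_centralizer_iff.mp hg x (hR (mem_zpowers x))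
    obtain ⟨k, hk⟩ := mem_zpowers_iff.mp (hcent g (congrArg Subtype.val h.symm))
    exact mem_zpowers_iff.mpr ⟨k, Subtype.ext hk⟩
  have hN := card_normalizer_mul R
  have hidx := relIndex_centralizer_dvd_sub_one R hR7
  have hNC := relIndex_mul_relIndex _ _ _ (bot_le : ⊥ ≤ centralizer ((R : Subgroup K) : Set K))
    (centralizer_le_normalizer _)
  simp only [relIndex_bot_left] at hNC
  have hC7 : Nat.card (centralizer ((R : Subgroup K) : Set K)) = 7 := by
    refine le_antisymm hC ?_
    have hcycR : IsCyclic (R : Subgroup K) := isCyclic_of_prime_card hR7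
    refine hR7.ge.trans (card_le_of_le fun y hy => mem_centralizer_iff.mpr fun z hz => ?_)
    exact congrArg Subtype.val (hcycR.commGroup.mul_comm ⟨z, hz⟩ ⟨y, hy⟩)
  rw [hC7] at hNC
  have hnmem := card_sylow_mem_candidates (p := 7) (k := 1) (show Nat.card K = 7 ^ 1 * m by rw [pow_one]; exact hm) h49
  have hm720 : m ∈ (720 : ℕ).divisors :=
    Nat.mem_divisors.mpr ⟨Nat.dvd_of_mul_dvd_mul_left (by norm_num : 0 < 7) (hm ▸ hdiv), by norm_num⟩
  generalize hn : Nat.card (Sylow 7 K) = n at hN hnmem
  generalize he : (centralizer ((R : Subgroup K) : Set K)).relIndex (normalizer ((R : Subgroup K) : Set K)) = e at hidx hNC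
  rw [← hNC, hm] at hN
  have hme : m = e * n := by
    rw [mul_assoc] at hN
    exact (Nat.eq_of_mul_eq_mul_left (by norm_num) hN).symm
  have h3m : ¬ 3 ∣ m := fun h => h3 (hm ▸ dvd_mul_of_dvd_right h 7)
  have hn18 : n = 1 ∨ n = 8 := by
    have key : ∀ m ∈ (720 : ℕ).divisors, ¬ 3 ∣ m → ∀ n ∈ m.divisors.filter (fun n => n % 7 = 1), n = 1 ∨ n = 8 := by
      decide +kernel
    exact key m hm720 h3m n hnmem
  have he12 : e = 1 ∨ e = 2 := by
    have key : ∀ e ∈ (6 : ℕ).divisors, ¬ 3 ∣ e → e = 1 ∨ e = 2 := by decide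
    exact key e (Nat.mem_divisors.mpr ⟨hidx, by norm_num⟩) fun h => h3m (hme ▸ dvd_mul_of_dvd_left h n)
  rcases he12 with rfl | rfl <;> rcases hn18 with rfl | rfl
  · left; rw [hm, hme]; norm_num
  · right; rw [hm, hme]
  · left; rw [hm, hme]
  · exfalso
    -- order 112: contains a swap, hence everything
    have hK : Nat.card K = 112 := by rw [hm, hme]
    have : Fact (Nat.Prime 2) := ⟨Nat.prime_two⟩
    have h112 : 2 ^ 4 ∣ Nat.card K := by rw [hK]; norm_num
    obtain ⟨S2, hS2⟩ := Sylow.exists_subgroup_card_pow_prime 2 h112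
    let SS : Sylow 2 (Equiv.Perm α) := Sylow.ofCard (S2.map K.subtype) (by
      rw [card_map_of_injective K.subtype_injective, hS2, Nat.card_perm, hα,
        show (7 : ℕ).factorial = 2 ^ 4 * 315 by decide, Nat.factorization_mul (by norm_num) (by norm_num),
        Finsupp.add_apply, Nat.factorization_pow_self Nat.prime_two,
        Nat.factorization_eq_zero_of_not_dvd (show ¬ 2 ∣ 315 by norm_num)])
    obtain ⟨a, b, hab⟩ : ∃ a b : α, a ≠ b := by
      have : Nontrivial α := Finite.one_lt_card_iff_nontrivial.mp (by omega)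
      exact exists_pair_ne _
    obtain ⟨A, hA⟩ := (IsPGroup.of_card (n := 1) (show Nat.card (zpowers (Equiv.swap a b)) = 2 ^ 1 by
      rw [Nat.card_zpowers, pow_one]
      exact orderOf_eq_prime (by rw [sq, Equiv.swap_mul_self]) (fun h1 => hab (Equiv.swap_eq_one_iff.mp h1)))).exists_le_sylow
    obtain ⟨g, hg⟩ := exists_smul_eq (Equiv.Perm α) A SS
    have hsw : g * Equiv.swap a b * g⁻¹ ∈ S2.map K.subtype := by
      have := smul_mem_pointwise_smul _ (MulAut.conj g) (A : Subgroup (Equiv.Perm α)) (hA (mem_zpowers _))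
      rw [← Sylow.coe_subgroup_smul, hg] at this
      exact this
    have hswK : g * Equiv.swap a b * g⁻¹ ∈ K := map_subtype_le _ hsw
    have hIs : (g * Equiv.swap a b * g⁻¹).IsSwap := by
      rw [← Equiv.swap_apply_apply]
      exact ⟨g a, g b, fun h => hab (g.injective h), rfl⟩
    have htop : closure ({(x : Equiv.Perm α), g * Equiv.swap a b * g⁻¹} : Set (Equiv.Perm α)) = ⊤ :=
      Equiv.Perm.closure_prime_cycle_swap (by rw [hF]; norm_num) hcyc (by rw [hsupp]) hIs
    have hle : (⊤ : Subgroup (Equiv.Perm α)) ≤ K := by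
      rw [← htop, closure_le]
      rintro y (rfl | rfl)
      · exact x.2
      · exact hswK
    rw [top_le_iff.mp hle, card_top, Nat.card_perm, hα, show (7 : ℕ).factorial = 5040 by decide] at hK
    norm_num at hK

variable {G : Type*} [Group G] [Finite G]

/-- A group with 22 Sylow 3-subgroups permuted faithfully. -/
def Bad (G : Type*) [Group G] : Prop :=
  Nat.card (Sylow 3 G) = 22 ∧ FaithfulSylow 3 G

theorem card_other (h : Bad G) (P : Sylow 3 G) : Nat.card (OtherClasses P) = 7 := by
  have := card_sylow_eq_classes (card_sylow_three h.1 h.2 P)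
  rw [h.1] at this
  omega

/-- `|C(P)| = 3 d` with `d ∣ 560`, and `d` small when `7 ∣ d`. -/
theorem centralizer_card (h : Bad G) (P : Sylow 3 G) :
    ∃ d, Nat.card (centralizer ((P : Subgroup G) : Set G)) = 3 * d ∧ d ∣ 560 ∧
      (7 ∣ d → d ∣ 14 ∨ d = 56) := by
  have hP := card_sylow_three h.1 h.2 P
  have heq := card_centralizer_eq_mul_range h.2 hP
  refine ⟨_, heq, ?_⟩
  set K := ((otherClassPerm P).comp
        (inclusion (centralizer_le_normalizer ((P : Subgroup G) : Set G)))).range with hKdef
  have h3 : ¬ 3 ∣ Nat.card K := by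
    intro h3
    have h9 : 3 * 3 ∣ Nat.card G :=
      ((Nat.mul_dvd_mul_left 3 h3).trans heq.symm.dvd).trans (card_subgroup_dvd_card _)
    have := Subgroup.card_mul_index (P : Subgroup G)
    rw [hP] at this
    rw [← this] at h9
    exact P.not_dvd_index (Nat.dvd_of_mul_dvd_mul_left (by norm_num) h9)
  have hdiv : Nat.card K ∣ 5040 := by
    have := card_subgroup_dvd_card K
    rwa [Nat.card_perm, card_other h P, show (7 : ℕ).factorial = 5040 by decide] at this
  refine ⟨?_, fun h7 => card_perm_seven (card_other h P) K h3 h7⟩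
  have hc : Nat.Coprime (Nat.card K) 9 :=
    Nat.Coprime.pow_right 2 ((Nat.prime_three.coprime_iff_not_dvd.mpr h3).symm)
  exact hc.dvd_of_dvd_mul_left (show Nat.card K ∣ 9 * 560 from hdiv)

theorem card_normalizer_dvd (h : Bad G) (P : Sylow 3 G) :
    Nat.card (normalizer ((P : Subgroup G) : Set G)) ∣ 3 * 560 * 2 := by
  obtain ⟨d, hd, hd560, -⟩ := centralizer_card h P
  have h1 := relIndex_mul_relIndex _ _ _ (bot_le : ⊥ ≤ centralizer ((P : Subgroup G) : Set G))
    (centralizer_le_normalizer _)
  simp only [relIndex_bot_left] at h1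
  rw [← h1, hd]
  exact Nat.mul_dvd_mul (Nat.mul_dvd_mul_left 3 hd560)
    (relIndex_centralizer_dvd_sub_one P (card_sylow_three h.1 h.2 P))

/-- No element of order 11 fixes a point. -/
theorem fixCount_eleven (h : Bad G) {x : G} (hx : orderOf x = 11) (Q : Sylow 3 G) : x • Q ≠ Q := by
  intro hQ
  have hd : orderOf x ∣ Nat.card (normalizer ((Q : Subgroup G) : Set G)) :=
    Subgroup.orderOf_dvd_natCard (s := normalizer ((Q : Subgroup G) : Set G)) (Sylow.smul_eq_iff_mem_normalizer.mp hQ)
  have := hd.trans (card_normalizer_dvd h Q)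
  rw [hx] at this
  norm_num at this

/-- Orbits of an element of order 11 have size 11. -/
theorem pow_eleven_ne (h : Bad G) {x : G} (hx : orderOf x = 11) (Q : Sylow 3 G) {y : G}
    (hy : y ∈ zpowers x) (hy1 : y ≠ 1) : y • Q ≠ Q := by
  intro hQ
  apply fixCount_eleven h (x := y) ?_ Q hQ
  have hd := Subgroup.orderOf_dvd_natCard (s := zpowers x) hy
  rw [Nat.card_zpowers, hx] at hd
  exact ((Fact.out : Nat.Prime 11).eq_one_or_self_of_dvd _ hd).resolve_left
    fun h1 => hy1 (orderOf_eq_one_iff.mp h1)

theorem not_bad_of_simple [IsSimpleGroup G] (h : Bad G) : False := by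
  classical
  have := Fintype.ofFinite G
  have := Fintype.ofFinite (Sylow 3 G)
  have : Fact (Nat.Prime 2) := ⟨Nat.prime_two⟩
  have : Fact (Nat.Prime 5) := ⟨by norm_num⟩
  obtain ⟨P⟩ := (inferInstance : Nonempty (Sylow 3 G))
  have hP := card_sylow_three h.1 h.2 P
  have h3G : 3 ∣ Nat.card G := hP ▸ card_subgroup_dvd_card _
  have hmulN := card_normalizer_mul P
  rw [h.1] at hmulN
  have hc : ¬ IsMulCommutative G := not_isMulCommutative_of_not_prime fun hp => by
    have h22 : 2 ∣ Nat.card G := hmulN ▸ dvd_mul_of_dvd_right (by norm_num) _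
    have h1 := (Nat.prime_dvd_prime_iff_eq Nat.prime_three hp).mp h3G
    have h2 := (Nat.prime_dvd_prime_iff_eq Nat.prime_two hp).mp h22
    omega
  obtain ⟨d, hd, hd560, hd7⟩ := centralizer_card h P
  have hNC := relIndex_mul_relIndex _ _ _ (bot_le : ⊥ ≤ centralizer ((P : Subgroup G) : Set G))
    (centralizer_le_normalizer _)
  simp only [relIndex_bot_left] at hNC
  have hne1 : (centralizer ((P : Subgroup G) : Set G)).relIndex (normalizer ((P : Subgroup G) : Set G)) = 2 :=
    (Nat.prime_two.eq_one_or_self_of_dvd _ (relIndex_centralizer_dvd_sub_one P hP)).resolve_left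
      fun h1 => not_normalizer_le_centralizer hc h3G P (relIndex_eq_one.mp h1)
  rw [hne1, hd] at hNC
  rw [← hNC] at hmulN
  have hG : Nat.card G = 11 * (12 * d) := by rw [← hmulN]; ring
  have hd0 : d ∈ (560 : ℕ).divisors := Nat.mem_divisors.mpr ⟨hd560, by norm_num⟩
  have hd11 : ¬ 11 ∣ 12 * d := by
    intro h11
    have := h11.trans (Nat.mul_dvd_mul_left 12 hd560)
    norm_num at this
  -- the centralizer of an element of order 11
  obtain ⟨R⟩ := (inferInstance : Nonempty (Sylow 11 G))
  have hR : Nat.card (R : Subgroup G) = 11 := by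
    simpa using card_sylow_subgroup_eq (k := 1) (show Nat.card G = 11 ^ 1 * (12 * d) by rw [pow_one]; exact hG) hd11 R
  have heven : ∀ [DecidableEq (Sylow 3 G)] [Fintype (Sylow 3 G)] (g : G),
      Equiv.Perm.sign (toPermHom G (Sylow 3 G) g) = 1 := fun g => sign_eq_one hc _ g
  obtain ⟨x, hxR, hx1⟩ := (Subgroup.bot_or_exists_ne_one (R : Subgroup G)).resolve_left
    (R.ne_bot_of_dvd_card (hG ▸ dvd_mul_right 11 _))
  have hxR' : zpowers x = (R : Subgroup G) := zpowers_eq_of_card hR hxR hx1
  have hxo : orderOf x = 11 := by rw [← Nat.card_zpowers, hxR', hR]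
  have hC : Nat.card (centralizer ((R : Subgroup G) : Set G)) = 11 := by
    set C := centralizer ((R : Subgroup G) : Set G) with hCdef
    have hRC : (R : Subgroup G) ≤ C := by
      have hcyc : IsCyclic (R : Subgroup G) := isCyclic_of_prime_card hR
      exact fun a ha => mem_centralizer_iff.mpr fun b hb =>
        congrArg Subtype.val (hcyc.commGroup.mul_comm ⟨b, hb⟩ ⟨a, ha⟩)
    -- the centralizer is semiregular
    have hfree : ∀ z ∈ C, ∀ Q : Sylow 3 G, z • Q = Q → z = 1 := by
      intro z hz Q hQ
      have hzx : ∀ k : ℕ, z * x ^ k = x ^ k * z := fun k =>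
        (mem_centralizer_iff.mp hz _ (pow_mem hxR k)).symm
      have hQk : ∀ k : ℕ, z • x ^ k • Q = x ^ k • Q := fun k => by
        rw [smul_smul, hzx, ← smul_smul, hQ]
      let orb : Fin 11 → Sylow 3 G := fun k => x ^ (k : ℕ) • Q
      have hinj : ∀ A : Sylow 3 G, Function.Injective fun k : Fin 11 => x ^ (k : ℕ) • A := by
        intro A a b hab
        simp only at hab
        by_contra hne
        have hne' : (a : ℕ) ≠ b := fun e => hne (Fin.ext e)
        rcases lt_or_gt_of_ne hne' with hlt | hlt
        · have h1 : x ^ ((b : ℕ) - a) ≠ 1 := fun h1 => by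
            have := Nat.le_of_dvd (by omega) (orderOf_dvd_of_pow_eq_one h1)
            omega
          refine pow_eleven_ne h hxo A (pow_mem (mem_zpowers x) _) h1
            (MulAction.injective (x ^ (a : ℕ)) ?_)
          change x ^ (a : ℕ) • x ^ ((b : ℕ) - a) • A = x ^ (a : ℕ) • A
          rw [smul_smul, ← pow_add, show (a : ℕ) + ((b : ℕ) - a) = b by omega]
          exact hab.symm
        · have h1 : x ^ ((a : ℕ) - b) ≠ 1 := fun h1 => by
            have := Nat.le_of_dvd (by omega) (orderOf_dvd_of_pow_eq_one h1)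
            omega
          refine pow_eleven_ne h hxo A (pow_mem (mem_zpowers x) _) h1
            (MulAction.injective (x ^ (b : ℕ)) ?_)
          change x ^ (b : ℕ) • x ^ ((a : ℕ) - b) • A = x ^ (b : ℕ) • A
          rw [smul_smul, ← pow_add, show (b : ℕ) + ((a : ℕ) - b) = a by omega]
          exact hab
      by_cases hall : ∀ A : Sylow 3 G, z • A = A
      · exact h.2.eq_one hall
      obtain ⟨A, hA⟩ := not_forall.mp hall
      -- the other orbit
      have hAk : ∀ k : Fin 11, z • x ^ (k : ℕ) • A ≠ x ^ (k : ℕ) • A := fun k hh => hA (by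
        rw [smul_smul, hzx, ← smul_smul] at hh
        exact MulAction.injective (x ^ (k : ℕ)) hh)
      have hzA : ∀ k : Fin 11, z • A ≠ x ^ (k : ℕ) • Q := fun k hh => hA (by
        have h2 := hQk k
        rw [← hh] at h2
        exact MulAction.injective z h2)
      have hdisj : Function.Injective (Sum.elim orb fun k : Fin 11 => x ^ (k : ℕ) • A) := by
        refine Function.Injective.sumElim (hinj Q) (hinj A) fun a b hab => hAk b ?_
        rw [← hab]
        exact hQk a
      have hsurj := ((Nat.bijective_iff_injective_and_card _).mpr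
        ⟨hdisj, by rw [Nat.card_sum, Nat.card_fin, h.1]⟩).2
      obtain ⟨s, hs⟩ := hsurj (z • A)
      rcases s with k | k
      · exact absurd hs.symm (hzA k)
      have hzk : ∀ n : ℕ, z ^ n • A = (x ^ (k : ℕ)) ^ n • A := by
        intro n
        induction n with
        | zero => simp
        | succ n ih =>
          have h1 : z * (x ^ (k : ℕ)) ^ n = (x ^ (k : ℕ)) ^ n * z := by
            rw [← pow_mul]; exact hzx _
          have hs' : x ^ (k : ℕ) • A = z • A := hs
          rw [pow_succ', mul_smul, ih, smul_smul, h1, ← smul_smul, ← hs', smul_smul, ← pow_succ]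
      have hz11 : z ^ 11 = 1 := by
        refine h.2.eq_one fun B => ?_
        have hx11 : (x ^ (k : ℕ)) ^ 11 = 1 := by
          rw [← pow_mul, mul_comm, pow_mul, show x ^ 11 = 1 from hxo ▸ pow_orderOf_eq_one x, one_pow]
        have hz11x : ∀ j : ℕ, z ^ 11 * x ^ j = x ^ j * z ^ 11 := fun j =>
          ((show Commute z (x ^ j) from hzx j).pow_left 11).eq
        obtain ⟨s, rfl⟩ := hsurj B
        rcases s with j | j
        · change z ^ 11 • x ^ (j : ℕ) • Q = x ^ (j : ℕ) • Q
          rw [smul_smul, hz11x, ← smul_smul]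
          exact congrArg _ ((stabilizer G Q).pow_mem hQ 11)
        · change z ^ 11 • x ^ (j : ℕ) • A = x ^ (j : ℕ) • A
          rw [smul_smul, hz11x, ← smul_smul, hzk, hx11, one_smul]
      by_contra hz1
      exact fixCount_eleven h (orderOf_eq_prime hz11 hz1) Q hQ
    obtain ⟨Q⟩ := (inferInstance : Nonempty (Sylow 3 G))
    have hle22 : Nat.card C ≤ 22 := by
      rw [← h.1]
      refine Nat.card_le_card_of_injective (fun z : C => (z : G) • Q) fun a b hab => ?_
      have := hfree ((b⁻¹ * a : C) : G) (b⁻¹ * a).2 Q (by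
        change ((b : G)⁻¹ * (a : G)) • Q = Q
        rw [mul_smul, show (a : G) • Q = (b : G) • Q from hab, inv_smul_smul])
      exact (inv_mul_eq_one.mp (Subtype.ext this)).symm
    obtain ⟨m, hm⟩ : 11 ∣ Nat.card C := hR ▸ card_dvd_of_le hRC
    have hm12 : m = 1 ∨ m = 2 := by
      have : 0 < Nat.card C := Nat.card_pos
      omega
    rcases hm12 with rfl | rfl
    · simpa using hm
    exfalso
    obtain ⟨t, ht⟩ := exists_prime_orderOf_dvd_card' (G := C) 2 (hm ▸ by norm_num)
    have htG : orderOf (t : G) = 2 := by rw [orderOf_coe]; exact ht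
    have hmod := fixCount_involution_modEq h.2 heven htG
    have h0 : fixCount 3 (t : G) = 0 := by
      rw [fixCount, Nat.card_eq_zero]
      refine Or.inl ⟨fun ⟨A, hA⟩ => ?_⟩
      have := hfree t t.2 A hA
      rw [this, orderOf_one] at htG
      norm_num at htG
    rw [h0, h.1] at hmod
    exact absurd hmod (by decide)
  -- counting Sylow 11-subgroups
  have hmul11 := card_normalizer_mul R
  have hne11 := relIndex_centralizer_dvd_sub_one R hR
  have hNC11 := relIndex_mul_relIndex _ _ _ (bot_le : ⊥ ≤ centralizer ((R : Subgroup G) : Set G))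
    (centralizer_le_normalizer _)
  simp only [relIndex_bot_left] at hNC11
  generalize he : (centralizer ((R : Subgroup G) : Set G)).relIndex (normalizer ((R : Subgroup G) : Set G)) = e at hne11 hNC11
  have he1 : e ≠ 1 := fun h1 => by
    subst h1
    exact not_normalizer_le_centralizer hc (hG ▸ dvd_mul_right 11 _) R (relIndex_eq_one.mp he)
  rw [hC] at hNC11
  have h11mem := card_sylow_mem_candidates (p := 11) (k := 1)
    (show Nat.card G = 11 ^ 1 * (12 * d) by rw [pow_one]; exact hG) hd11
  rw [← hNC11, hG] at hmul11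
  generalize hn11 : Nat.card (Sylow 11 G) = n at hmul11 h11mem
  have hen : e * n = 12 * d := by
    rw [mul_assoc] at hmul11
    exact Nat.eq_of_mul_eq_mul_left (by norm_num) hmul11
  have hcases : (d = 2 ∧ n = 12 ∧ e = 2) ∨ (d = 5 ∧ n = 12 ∧ e = 5) ∨ (d = 10 ∧ n = 12 ∧ e = 10) := by
    have key : ∀ d ∈ (560 : ℕ).divisors, (7 ∣ d → d ∣ 14 ∨ d = 56) → ∀ e ∈ (10 : ℕ).divisors, e ≠ 1 →
        e ∣ 12 * d → (12 * d / e) % 11 = 1 →
        (d = 2 ∧ 12 * d / e = 12 ∧ e = 2) ∨ (d = 5 ∧ 12 * d / e = 12 ∧ e = 5) ∨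
          (d = 10 ∧ 12 * d / e = 12 ∧ e = 10) := by decide +kernel
    have hn' : 12 * d / e = n := by
      rw [← hen, Nat.mul_div_cancel_left _ (Nat.pos_of_dvd_of_pos hne11 (by norm_num))]
    have := key d hd0 hd7 e (Nat.mem_divisors.mpr ⟨hne11, by norm_num⟩) he1 ⟨n, hen.symm⟩
      (hn' ▸ (Finset.mem_filter.mp h11mem).2)
    rwa [hn'] at this
  have hn12 : Nat.card (Sylow 11 G) = 12 := by rcases hcases with h' | h' | h' <;> exact hn11.trans h'.2.1
  have hf11 : FaithfulSylow 11 G := toPermHom_sylow_injective hc (hG ▸ dvd_mul_right 11 _)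
  by_cases hev : 2 ∣ e
  · -- an inverting involution would be odd
    have hN2 : 2 ∣ Nat.card (normalizer ((R : Subgroup G) : Set G)) := hNC11 ▸ dvd_mul_of_dvd_right hev _
    obtain ⟨w, hw⟩ := exists_prime_orderOf_dvd_card' (G := normalizer ((R : Subgroup G) : Set G)) 2 hN2
    have hwG : orderOf (w : G) = 2 := by rw [orderOf_coe]; exact hw
    have heven11 : ∀ [DecidableEq (Sylow 11 G)] [Fintype (Sylow 11 G)] (g : G),
        Equiv.Perm.sign (toPermHom G (Sylow 11 G) g) = 1 := fun g => sign_eq_one hc _ g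
    have hmod := fixCount_involution_modEq hf11 heven11 hwG
    have hww : (w : G) * w = 1 := by rw [← sq, ← hwG, pow_orderOf_eq_one]
    have hwC : (w : G) ∉ centralizer ((R : Subgroup G) : Set G) := fun hh => by
      have := Subgroup.orderOf_dvd_natCard (s := centralizer ((R : Subgroup G) : Set G)) hh
      rw [hwG, hC] at this
      norm_num at this
    have hwx : (w : G) * x * (w : G)⁻¹ = x⁻¹ := by
      have hm : (w : G) * x * (w : G)⁻¹ ∈ zpowers x := by
        rw [hxR']; exact (mem_normalizer_iff.mp w.2 x).mp hxR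
      obtain ⟨k, hk⟩ := mem_zpowers_iff.mp hm
      have hkk : x ^ (k * k) = x := by
        rw [zpow_mul, hk, conj_zpow, hk]
        calc (w : G) * ((w : G) * x * (w : G)⁻¹) * (w : G)⁻¹
            = ((w : G) * w) * x * ((w : G) * w)⁻¹ := by group
          _ = x := by rw [hww]; group
      have hdvd : (11 : ℤ) ∣ (k * k - 1) := by
        have := orderOf_dvd_iff_zpow_eq_one.mpr (show x ^ (k * k - 1) = 1 by rw [zpow_sub_one, hkk, mul_inv_cancel])
        rwa [hxo] at this
      have hor : (11 : ℤ) ∣ (k - 1) ∨ (11 : ℤ) ∣ (k + 1) := by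
        apply Int.Prime.dvd_mul' (show Nat.Prime 11 by norm_num)
        rw [show (k - 1) * (k + 1) = k * k - 1 by ring]
        exact hdvd
      rcases hor with hk1 | hk1
      · exfalso
        apply hwC
        have hwx' : (w : G) * x * (w : G)⁻¹ = x := by
          rw [← hk, ← sub_add_cancel k 1, zpow_add_one, orderOf_dvd_iff_zpow_eq_one.mp (hxo ▸ hk1), one_mul]
        rw [mem_centralizer_iff]
        intro y hy
        rw [← hxR'] at hy
        obtain ⟨j, rfl⟩ := mem_zpowers_iff.mp hy
        have hc' : Commute x (w : G) := by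
          change x * w = w * x
          conv_lhs => rw [← hwx']
          group
        exact (hc'.zpow_left j).eq
      · rw [← hk]
        refine eq_inv_of_mul_eq_one_left ?_
        rw [← zpow_add_one]
        exact orderOf_dvd_iff_zpow_eq_one.mp (hxo ▸ hk1)
    have hinv : ∀ y ∈ (R : Subgroup G), (w : G) * y * (w : G)⁻¹ = y⁻¹ := fun y hy => by
      rw [← hxR'] at hy
      obtain ⟨j, rfl⟩ := mem_zpowers_iff.mp hy
      rw [← conj_zpow, hwx, inv_zpow]
    have hle := fixCount_le_of_inverts hR (by norm_num) hww hinv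
    have hcl := card_sylow_eq_classes hR
    rw [hn12] at hcl
    have hcls : Nat.card (SylowClasses R) = 2 := by
      have : Fintype (SylowClasses R) := Fintype.ofFinite _
      have h2 : Nat.card (OtherClasses R) = Nat.card (SylowClasses R) - 1 := by
        rw [Nat.card_eq_fintype_card, Nat.card_eq_fintype_card, Fintype.card_subtype_compl, Fintype.card_subtype_eq]
      omega
    have hpos : 0 < fixCount 11 (w : G) :=
      Nat.card_pos_iff.mpr ⟨⟨⟨R, Sylow.smul_eq_iff_mem_normalizer.mpr w.2⟩⟩, inferInstance⟩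
    rw [hn12] at hmod
    unfold Nat.ModEq at hmod
    omega
  · -- order 660
    obtain ⟨rfl, -, rfl⟩ : d = 5 ∧ n = 12 ∧ e = 5 := by
      rcases hcases with h' | h' | h'
      · exact absurd h'.2.2.symm.dvd hev
      · exact h'
      · exact absurd (by rw [h'.2.2]; norm_num) hev
    have hG' : Nat.card G = 5 * 132 := by rw [hG]
    -- a Sylow 5-subgroup centralizing `P`
    obtain ⟨y, hy⟩ := exists_prime_orderOf_dvd_card' (G := centralizer ((P : Subgroup G) : Set G)) 5
      (hd ▸ dvd_mul_left 5 3)
    have hyG : orderOf (y : G) = 5 := by rw [orderOf_coe]; exact hy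
    obtain ⟨Y, hY⟩ := (IsPGroup.of_card (n := 1) (show Nat.card (zpowers (y : G)) = 5 ^ 1 by
      rw [Nat.card_zpowers, hyG, pow_one])).exists_le_sylow
    have hY5 : Nat.card (Y : Subgroup G) = 5 := by
      simpa using card_sylow_subgroup_eq (k := 1) (show Nat.card G = 5 ^ 1 * 132 by rw [pow_one]; exact hG')
        (by norm_num) Y
    have hYy : zpowers (y : G) = (Y : Subgroup G) := eq_of_le_of_card_ge hY (by rw [hY5, Nat.card_zpowers, hyG])
    obtain ⟨z, hzP, hz1⟩ := (Subgroup.bot_or_exists_ne_one (P : Subgroup G)).resolve_left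
      (P.ne_bot_of_dvd_card h3G)
    have hzo : orderOf z = 3 := by rw [← Nat.card_zpowers, zpowers_eq_of_card hP hzP hz1, hP]
    have hzC : z ∈ centralizer ((Y : Subgroup G) : Set G) := by
      rw [mem_centralizer_iff]
      intro a ha
      rw [← hYy] at ha
      obtain ⟨j, rfl⟩ := mem_zpowers_iff.mp ha
      exact ((show Commute (y : G) z from (mem_centralizer_iff.mp y.2 z hzP).symm).zpow_left j).eq
    have hf5 : FaithfulSylow 5 G := toPermHom_sylow_injective hc (hG' ▸ dvd_mul_right 5 _)
    have h5mem := card_sylow_mem_candidates (p := 5) (k := 1)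
      (show Nat.card G = 5 ^ 1 * 132 by rw [pow_one]; exact hG') (by norm_num)
    have h5ne := one_lt_card_sylow (p := 5) hc (hG' ▸ dvd_mul_right 5 _)
    have h3N : 3 ∣ Nat.card (normalizer ((Y : Subgroup G) : Set G)) :=
      hzo ▸ Subgroup.orderOf_dvd_natCard (s := normalizer ((Y : Subgroup G) : Set G)) (centralizer_le_normalizer _ hzC)
    have hmul5 := card_normalizer_mul Y
    have hn5 : Nat.card (Sylow 5 G) = 11 := by
      obtain ⟨q, hq⟩ := h3N
      rw [hq, hG'] at hmul5
      have key : ∀ n ∈ (132 : ℕ).divisors.filter (fun n => n % 5 = 1), 1 < n → 3 * n ∣ 660 → n ∣ 220 → n = 11 := by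
        decide +kernel
      refine key _ h5mem h5ne ⟨q, by linarith⟩ ⟨q, ?_⟩
      linarith
    have hcl := card_sylow_eq_classes hY5
    rw [hn5] at hcl
    -- `z` fixes both classes
    have hfix : otherClassPerm Y ⟨z, centralizer_le_normalizer _ hzC⟩ = 1 := by
      rw [← orderOf_eq_one_iff]
      refine Nat.eq_one_of_dvd_coprimes (show Nat.Coprime 3 2 by norm_num)
        ((orderOf_map_dvd _ _).trans (dvd_of_eq ?_)) ?_
      · rw [← orderOf_coe]; exact hzo
      · have := orderOf_dvd_natCard (otherClassPerm Y ⟨z, centralizer_le_normalizer _ hzC⟩)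
        rwa [Nat.card_perm, show Nat.card (OtherClasses Y) = 2 by omega, Nat.factorial_two] at this
    have hzY := mem_of_centralize_of_classes hf5 hY5 (g := ⟨z, centralizer_le_normalizer _ hzC⟩) hzC
      (classPerm_eq_one hfix)
    have hd' := Subgroup.orderOf_dvd_natCard (s := (Y : Subgroup G)) hzY
    rw [hY5, show orderOf ((⟨z, centralizer_le_normalizer _ hzC⟩ : normalizer ((Y : Subgroup G) : Set G)) : G) = 3 from hzo] at hd'
    norm_num at hd'

theorem not_bad.{u} : ∀ (N : ℕ) (G : Type u) [Group G] [Finite G], Nat.card G = N → ¬ Bad G := by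
  intro N
  induction N using Nat.strong_induction_on with
  | _ N ih =>
    intro G _ _ hN h
    have : Nontrivial G := by
      rw [← Finite.one_lt_card_iff_nontrivial]
      obtain ⟨P⟩ := (inferInstance : Nonempty (Sylow 3 G))
      have h1 := card_sylow_three h.1 h.2 P
      have h2 := Subgroup.card_le_card_group (P : Subgroup G)
      omega
    suffices IsSimpleGroup G from not_bad_of_simple h
    refine ⟨fun H hH => ?_⟩
    by_cases hbot : H = ⊥
    · exact Or.inl hbot
    right
    by_contra htop
    obtain ⟨P⟩ := (inferInstance : Nonempty (Sylow 3 G))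
    have hP := card_sylow_three h.1 h.2 P
    have hsmall : Nat.card H < N := by
      rw [← hN]
      exact lt_of_le_of_ne (Subgroup.card_le_card_group H) fun he => htop (eq_top_of_card_eq H he)
    have hmulN := card_normalizer_mul P
    rw [h.1] at hmulN
    have h9 : ¬ 9 ∣ Nat.card G := by
      intro h9
      rw [← (P : Subgroup G).card_mul_index, hP] at h9
      exact P.not_dvd_index (Nat.dvd_of_mul_dvd_mul_left (by norm_num) (show 3 * 3 ∣ _ from h9))
    by_cases h3 : 3 ∣ Nat.card H
    · have hidx : ¬ 3 ∣ H.index := fun h3' => h9 (by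
        rw [← H.card_mul_index]; exact Nat.mul_dvd_mul h3 h3')
      exact ih _ hsmall H rfl ⟨(card_sylow_normal H hidx).trans h.1, faithfulSylow_normal H hidx h.2⟩
    · have hprim : IsPreprimitive G (Sylow 3 G) := by
        refine isPreprimitive_sylow (by rw [h.1]; norm_num) fun d hd hd1 => ?_
        rw [h.1] at hd ⊢
        have key : ∀ d ∈ (22 : ℕ).divisors, d % 3 = 1 → d = 1 ∨ d = 22 := by decide
        exact key d (Nat.mem_divisors.mpr ⟨hd, by norm_num⟩) hd1
      have htr : IsPretransitive H (Sylow 3 G) := by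
        apply MulAction.IsQuasiPreprimitive.isPretransitive_of_normal
        intro hfix
        apply hbot
        rw [eq_bot_iff]
        intro g hg
        rw [mem_bot]
        refine h.2.eq_one fun Q => ?_
        have : Q ∈ fixedPoints H (Sylow 3 G) := by rw [hfix]; trivial
        exact this ⟨g, hg⟩
      have h22 : 22 ∣ Nat.card H := by
        rw [← h.1, ← index_stabilizer_of_transitive H P]
        exact index_dvd_card _
      obtain ⟨m, hm⟩ : 11 ∣ Nat.card H := dvd_trans (by norm_num) h22
      have hHd : Nat.card H ∣ 3 * 560 * 2 * 22 :=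
        ((card_subgroup_dvd_card H).trans hmulN.symm.dvd).trans
          (Nat.mul_dvd_mul_right (card_normalizer_dvd h P) 22)
      have hm11 : ¬ 11 ∣ m := by
        intro h11
        have : 11 * 11 ∣ 3 * 560 * 2 * 22 := (Nat.mul_dvd_mul_left 11 h11).trans (hm ▸ hHd)
        norm_num at this
      obtain ⟨R⟩ := (inferInstance : Nonempty (Sylow 11 H))
      set RG := (R : Subgroup H).map H.subtype with hRG
      have hR : Nat.card RG = 11 := by
        rw [card_map_of_injective H.subtype_injective]
        simpa using card_sylow_subgroup_eq (G := H) (k := 1) (show Nat.card H = 11 ^ 1 * m by rw [pow_one]; exact hm) hm11 R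
      have hfr : normalizer (RG : Set G) ⊔ H = ⊤ := R.normalizer_sup_eq_top
      have h3N : 3 ∣ Nat.card (normalizer (RG : Set G)) := by
        have hh := relIndex_sup_right (K := H) (H := normalizer (RG : Set G))
        rw [hfr, relIndex_top_right] at hh
        have hidx : 3 ∣ H.index := by
          have h3G : 3 ∣ Nat.card H * H.index := by
            rw [H.card_mul_index]; exact hP ▸ card_subgroup_dvd_card _
          exact (Nat.prime_three.dvd_mul.mp h3G).resolve_left h3
        rw [hh] at hidx
        exact hidx.trans (relIndex_dvd_card _ _)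
      obtain ⟨z, hz⟩ := exists_prime_orderOf_dvd_card' (G := normalizer (RG : Set G)) 3 h3N
      have hzG : orderOf (z : G) = 3 := by rw [orderOf_coe]; exact hz
      have hcycR : IsCyclic RG := isCyclic_of_prime_card hR
      have hzc : RG.normalizerMonoidHom z = 1 := by
        rw [← orderOf_eq_one_iff]
        have hR' := IsCyclic.card_mulAut (G := RG)
        rw [hR, Nat.totient_prime (by norm_num)] at hR'
        exact Nat.eq_one_of_dvd_coprimes (by norm_num : Nat.Coprime 3 10) (hz ▸ orderOf_map_dvd _ z)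
          ((orderOf_dvd_natCard (RG.normalizerMonoidHom z)).trans hR'.dvd)
      have hzP : Nat.card (zpowers (z : G)) = 3 ^ 1 := by rw [Nat.card_zpowers, hzG, pow_one]
      obtain ⟨Q, hQ⟩ := (IsPGroup.of_card hzP).exists_le_sylow
      have hQeq : zpowers (z : G) = (Q : Subgroup G) :=
        eq_of_le_of_card_ge hQ (by rw [card_sylow_three h.1 h.2 Q, hzP, pow_one])
      have hRle : RG ≤ normalizer ((Q : Subgroup G) : Set G) := by
        refine le_trans ?_ (centralizer_le_normalizer _)
        intro r hr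
        rw [← hQeq, mem_centralizer_iff]
        intro y hy
        have h1 : (z : G) * r * (z : G)⁻¹ = r := congrArg Subtype.val (DFunLike.congr_fun hzc (⟨r, hr⟩ : RG))
        have hcomm : Commute (z : G) r := by
          change (z : G) * r = r * z
          conv_rhs => rw [← h1]
          group
        obtain ⟨n, rfl⟩ := mem_zpowers_iff.mp hy
        exact (hcomm.zpow_left n).eq
      have := (card_dvd_of_le hRle).trans (card_normalizer_dvd h Q)
      rw [hR] at this
      norm_num at this

/-- No finite group has exactly 22 Sylow 3-subgroups. -/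
theorem result {G : Type*} [Group G] [Finite G] : Nat.card (Sylow 3 G) ≠ 22 := by
  intro h
  exact not_bad _ _ rfl ⟨card_sylow_range_toPermHom.trans h, faithfulSylow_range⟩

end Cfsg.Agent.S4346
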