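import Cfsg.Statements.S4354
import Cfsg.Agent.Transfer.PElementClassSize

set_option autoImplicit false
open Cfsg

namespace Cfsg.Agent.S4354

/-- Let G be a finite group and p a prime such that the Sylow p-subgroups of G are non-abelian while every element of p-power order has conjugacy class size prime to p, and suppose no nontrivial proper normal subgroup N of G has this property and no quotient G/N by such an N has it. Then G is simple. -/
theorem result {G : Type*} [Group G] [Finite G]
    (p : ℕ) [Fact p.Prime] (h : ((∃ P : Sylow p G, ¬ IsMulCommutative P) ∧ ∀ x : G, (∃ k : ℕ, orderOf x = p ^ k) → ¬ p ∣ (Subgroup.centralizer ({x} : Set G)).index))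
    (hmin : ∀ (N : Subgroup G) [N.Normal], N ≠ ⊥ → N ≠ ⊤ →
      ¬ ((∃ P : Sylow p N, ¬ IsMulCommutative P) ∧ ∀ x : N, (∃ k : ℕ, orderOf x = p ^ k) → ¬ p ∣ (Subgroup.centralizer ({x} : Set N)).index) ∧
      ¬ ((∃ P : Sylow p (G ⧸ N), ¬ IsMulCommutative P) ∧ ∀ x : (G ⧸ N), (∃ k : ℕ, orderOf x = p ^ k) → ¬ p ∣ (Subgroup.centralizer ({x} : Set (G ⧸ N))).index)) :
    IsSimpleGroup G := by
  
  have hC := CfsgLib.PElementClassSize.centralizesSylow_of_index h.2
  obtain ⟨P, hP⟩ := h.1
  have hnt : Nontrivial G := by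
    rcases subsingleton_or_nontrivial G with hs | hs
    · exact absurd ⟨⟨fun a b => Subsingleton.elim _ _⟩⟩ hP
    · exact hs
  refine ⟨fun N hN => ?_⟩
  by_contra hne
  push_neg at hne
  obtain ⟨h1, h2⟩ := hmin N hne.1 hne.2
  have hN' : ∀ R : Sylow p N, IsMulCommutative R := fun R => by
    by_contra hR
    exact h1 ⟨⟨R, hR⟩, CfsgLib.PElementClassSize.index_of_centralizesSylow
      (CfsgLib.PElementClassSize.normal_subgroup hC N)⟩
  have hQ' : ∀ R : Sylow p (G ⧸ N), IsMulCommutative R := fun R => by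
    by_contra hR
    exact h2 ⟨⟨R, hR⟩, CfsgLib.PElementClassSize.index_of_centralizesSylow
      (CfsgLib.PElementClassSize.quotient hC N)⟩
  exact hP (CfsgLib.PElementClassSize.sylow_comm_of_extension hC N
    (CfsgLib.PElementClassSize.pSubgroupsAbelian_of_sylow hN')
    (CfsgLib.PElementClassSize.pSubgroupsAbelian_of_sylow hQ') P)


end Cfsg.Agent.S4354
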