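import Cfsg.Statements.S4355
import Cfsg.Agent.CenterConj.Group

set_option autoImplicit false
open Cfsg

namespace Cfsg.Agent.S4355

/-- If every element of 2-power order of a finite group has a conjugacy class of odd size, then the Sylow 2-subgroups of the group are abelian. -/
theorem result {G : Type*} [Group G] [Finite G]
    (h : ∀ x : G, (∃ k : ℕ, orderOf x = 2 ^ k) → ¬ 2 ∣ (Subgroup.centralizer ({x} : Set G)).index) (P : Sylow 2 G) :
    IsMulCommutative P := by
  have : Fact (Nat.Prime 2) := ⟨Nat.prime_two⟩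
  refine ⟨⟨(CfsgLib.CenterConj.fused_of_group P fun x hx => ?_).comm P.isPGroup'⟩⟩
  set C := Subgroup.centralizer ({x} : Set G)
  obtain ⟨Q⟩ : Nonempty (Sylow 2 C) := inferInstance
  have h2 : ¬ 2 ∣ ((Q : Subgroup C).map C.subtype).index := by
    rw [Subgroup.index_map_subtype]
    exact Nat.Prime.not_dvd_mul Nat.prime_two Q.not_dvd_index (h x hx)
  refine ⟨(Q.isPGroup'.map C.subtype).toSylow h2, ?_⟩
  rintro _ ⟨q, -, rfl⟩
  exact q.2

end Cfsg.Agent.S4355
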