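import Cfsg.Statements.S4359
import Cfsg.Agent.GlauChain.Basic
-- import your own Cfsg.Agent.* helpers here

set_option autoImplicit false
open Pointwise
open Cfsg

namespace Cfsg.Agent.S4359

/-- Let P be a subgroup of a finite group G and g an element such that P ∩ g⁻¹Pg is a normal subgroup of prime index p in g⁻¹Pg. Let n ≥ 1 and let K be the subgroup generated by P and its conjugates g⁻ⁱPgⁱ for i ≤ n. Suppose that g normalizes no non-identity normal subgroup of P and that P meets the center of K trivially. Then the order of P is pᵗ for some t with 1 ≤ t ≤ 3n and t ≠ 3n - 1. -/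
theorem result {G : Type*} [Group G] [Finite G]
    (P : Subgroup G) (g : G) (p : ℕ) (hp : p.Prime)
    (hN : ((P ⊓ MulAut.conj g⁻¹ • P).subgroupOf (MulAut.conj g⁻¹ • P)).Normal)
    (hidx : (P ⊓ MulAut.conj g⁻¹ • P).relIndex (MulAut.conj g⁻¹ • P) = p)
    (n : ℕ) (hn : 1 ≤ n) (K : Subgroup G) (hK : K = ⨆ i ∈ Finset.range (n + 1), MulAut.conj (g ^ i)⁻¹ • P)
    (h1 : ∀ Q : Subgroup G, Q ≤ P → (Q.subgroupOf P).Normal → MulAut.conj g • Q = Q → Q = ⊥)
    (h2 : P ⊓ (Subgroup.center K).map K.subtype = ⊥) :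
    ∃ t : ℕ, Nat.card P = p ^ t ∧ 1 ≤ t ∧ t ≤ 3 * n ∧ t ≠ 3 * n - 1 := by
  classical
  haveI : Fact p.Prime := ⟨hp⟩
  obtain ⟨x, t, ht, H, hP, hcard⟩ := CfsgLib.GlauChain.exists_chain hN hidx h1
  have hshift : ∀ i : ℕ, MulAut.conj (g ^ i)⁻¹ • P =
      CfsgLib.GlauChain.spn g x (-(i : ℤ)) ((t : ℤ) - 1 - i) := by
    intro i
    show P.map (MulAut.conj (g ^ i)⁻¹).toMonoidHom = _
    rw [← hP, show (g ^ i)⁻¹ = g ^ (-(i : ℤ)) by rw [zpow_neg, zpow_natCast], CfsgLib.GlauChain.spn_map]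
    congr 1 <;> omega
  obtain ⟨h3, h4⟩ := CfsgLib.GlauChain.order_bound H hn (n := n) fun i hi0 hit => by
    by_contra hcon
    push Not at hcon
    have hiP : CfsgLib.GlauChain.cj g x i ∈ P := hP ▸ CfsgLib.GlauChain.cj_mem hi0 (by omega)
    have hiK : CfsgLib.GlauChain.cj g x i ∈ K := by
      rw [hK]
      refine Subgroup.mem_iSup_of_mem 0 (Subgroup.mem_iSup_of_mem (by simp) ?_)
      rw [hshift]
      exact CfsgLib.GlauChain.cj_mem (by omega) (by omega)
    have hle : K ≤ Subgroup.centralizer ({CfsgLib.GlauChain.cj g x i} : Set G) := by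
      rw [hK]
      refine iSup₂_le fun m hm => ?_
      rw [hshift, CfsgLib.GlauChain.spn_le_iff]
      intro j hj1 hj2
      rw [Finset.mem_range] at hm
      exact Subgroup.mem_centralizer_singleton_iff.mpr (hcon j (by omega) (by omega)).symm.eq
    have hmem : CfsgLib.GlauChain.cj g x i ∈ P ⊓ (Subgroup.center K).map K.subtype := by
      refine ⟨hiP, ⟨_, hiK⟩, Subgroup.mem_center_iff.mpr fun y => Subtype.ext ?_, rfl⟩
      exact Subgroup.mem_centralizer_singleton_iff.mp (hle y.2)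
    rw [h2, Subgroup.mem_bot] at hmem
    have hc := H.card_zpowers ht i
    rw [hmem, Subgroup.zpowers_one_eq_bot, Subgroup.card_bot] at hc
    exact hp.one_lt.ne hc
  exact ⟨t, hcard, ht, h3, h4⟩

end Cfsg.Agent.S4359
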