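import Cfsg.Statements.S4364
import Cfsg.Agent.PrimePowerClass.Main
import Cfsg.Agent.Constrained.Basic
import Cfsg.Agent.S1264

set_option autoImplicit false
open Cfsg

namespace Cfsg.Agent.S4364

universe u in
theorem commute_conj {Q : Type u} [Group Q] [Finite Q] {p : ℕ} [Fact p.Prime]
    (hbot : Cfsg.pCore p Q = ⊥) (y : Q)
    (hy : ∃ b : ℕ, (Subgroup.centralizer ({y} : Set Q)).index = p ^ b) (u v : Q) :
    Commute (u * y * u⁻¹) (v * y * v⁻¹) := by
  have hp : p.Prime := Fact.out
  obtain ⟨b, hb⟩ := hy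
  set K := Subgroup.normalClosure ({y} : Set Q) with hK
  set F := Cfsg.fittingSubgroup Q with hF
  have hFn : F.Normal := CfsgLib.Fitting.fittingSubgroup_normal _
  have : Group.IsNilpotent F := CfsgLib.Fitting.fittingSubgroup_isNilpotent _
  have hFp : ¬ p ∣ Nat.card F := by
    intro h
    obtain ⟨P⟩ : Nonempty (Sylow p F) := inferInstance
    have : (P : Subgroup F).Normal :=
      Sylow.normal_of_normalizerCondition Group.normalizerCondition_of_isNilpotent P
    have := P.characteristic_of_normal inferInstance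
    have hle : (P : Subgroup F).map F.subtype ≤ Cfsg.pCore p Q :=
      le_sSup ⟨ConjAct.normal_of_characteristic_of_normal, P.isPGroup'.map _⟩
    rw [hbot, le_bot_iff, Subgroup.map_eq_bot_iff_of_injective _ F.subtype_injective] at hle
    exact (P.not_dvd_index) (by rw [hle, Subgroup.index_bot]; exact h)
  have hKF : K ≤ Subgroup.centralizer (F : Set Q) := by
    refine Subgroup.normalClosure_le_normal (Set.singleton_subset_iff.mpr ?_)
    have h1 : (Subgroup.centralizer ({y} : Set Q)).relIndex F = 1 :=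
      Nat.eq_one_of_dvd_coprimes (Nat.Coprime.pow_left b
        ((Nat.Prime.coprime_iff_not_dvd hp).mpr hFp))
        (hb ▸ CfsgLib.Fitting.relIndex_dvd_index' F _) (Subgroup.relIndex_dvd_card _ _)
    rw [SetLike.mem_coe, Subgroup.mem_centralizer_iff]
    intro z hz
    exact Subgroup.mem_centralizer_singleton_iff.mp ((Subgroup.relIndex_eq_one.mp h1) hz)
  have hKnorm : Subgroup.centralizer (F : Set Q) ≤ Subgroup.normalizer (K : Set Q) := by
    rw [Subgroup.normalizer_eq_top]
    exact le_top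
  have hZ := Cfsg.Agent.S1264.result K hKF hKnorm
    (CfsgLib.PrimePowerClass.normalClosure_isSolvable hp y ⟨b, hb⟩)
  have hmem : ∀ w : Q, w * y * w⁻¹ ∈ K := fun w =>
    Subgroup.normalClosure_normal.conj_mem y
      (Subgroup.subset_normalClosure (Set.mem_singleton y)) w
  obtain ⟨c, hc, hc'⟩ := hZ (hmem u)
  obtain ⟨d, -, hd'⟩ := hZ (hmem v)
  show u * y * u⁻¹ * (v * y * v⁻¹) = v * y * v⁻¹ * (u * y * u⁻¹)
  rw [← hc', ← hd', ← map_mul, ← map_mul, Subgroup.mem_center_iff.mp hc d]

/-- Let G be a finite group, p a prime and x an element whose conjugacy class has p-power size. Then for any two conjugates y and z of x, the commutator y z y⁻¹ z⁻¹ lies in O_p(G), the largest normal p-subgroup of G. -/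
theorem result {G : Type*} [Group G] [Finite G] (p : ℕ) [Fact p.Prime]
    (x : G) (hx : ∃ a : ℕ, (Subgroup.centralizer ({x} : Set G)).index = p ^ a) (g h : G) :
    (g * x * g⁻¹) * (h * x * h⁻¹) * (g * x * g⁻¹)⁻¹ * (h * x * h⁻¹)⁻¹ ∈ Cfsg.pCore p G := by
  obtain ⟨a, ha⟩ := hx
  have hn : (Cfsg.pCore p G).Normal := Subgroup.sSup_normal _ fun _ h => h.1
  obtain ⟨b, -, hb⟩ := (Nat.dvd_prime_pow (Fact.out : p.Prime)).mp
    (ha ▸ CfsgLib.PrimePowerClass.index_map_centralizer_dvd (QuotientGroup.mk' (Cfsg.pCore p G))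
      (QuotientGroup.mk'_surjective _) x)
  have hc := commute_conj CfsgLib.Constrained.pCore_quotient_pCore
    (QuotientGroup.mk' (Cfsg.pCore p G) x) ⟨b, hb⟩
    (QuotientGroup.mk' _ g) (QuotientGroup.mk' _ h)
  rw [← map_inv, ← map_inv, ← map_mul, ← map_mul, ← map_mul, ← map_mul] at hc
  rw [← QuotientGroup.ker_mk' (Cfsg.pCore p G), MonoidHom.mem_ker, map_mul, map_mul, map_inv,
    map_inv, map_mul _ (g * x * g⁻¹) (h * x * h⁻¹), hc.eq, mul_inv_cancel_right, mul_inv_cancel]

end Cfsg.Agent.S4364
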