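import Cfsg.Statements.S4365


set_option autoImplicit false
open Cfsg

namespace Cfsg.Agent.S4365

theorem prod_val_eq {M : Type*} [CommMonoid M] {p : ℕ} [NeZero p] (F : ℕ → M) :
    ∏ k : ZMod p, F k.val = ∏ k ∈ Finset.range p, F k := by
  refine Finset.prod_bij (fun k _ => k.val) (fun k _ => Finset.mem_range.2 (ZMod.val_lt k))
    (fun _ _ _ _ h => ZMod.val_injective p h)
    (fun k hk => ⟨(k : ZMod p), Finset.mem_univ _, ZMod.val_cast_of_lt (Finset.mem_range.1 hk)⟩)
    (fun _ _ => rfl)

/-- The lines through the origin of the plane over `ZMod p`, multiplied out. -/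
theorem lines_identity {M : Type*} [CommMonoid M] (p : ℕ) [Fact p.Prime]
    (φ : ZMod p → ZMod p → M) :
    (∏ i : ZMod p, ∏ k : ZMod p, φ (i * k) k) * ∏ j : ZMod p, φ j 0 =
      φ 0 0 ^ p * ∏ k : ZMod p, ∏ j : ZMod p, φ j k := by
  rw [Finset.prod_comm]
  rw [← Finset.mul_prod_erase Finset.univ (fun k => ∏ i : ZMod p, φ (i * k) k) (Finset.mem_univ 0),
    ← Finset.mul_prod_erase Finset.univ (fun k => ∏ j : ZMod p, φ j k) (Finset.mem_univ 0)]
  have h0 : (∏ i : ZMod p, φ (i * 0) 0) = φ 0 0 ^ p := by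
    simp [ZMod.card]
  have h1 : ∀ k ∈ Finset.univ.erase (0 : ZMod p),
      (∏ i : ZMod p, φ (i * k) k) = ∏ j : ZMod p, φ j k := fun k hk =>
    Fintype.prod_equiv (Equiv.mulRight₀ k (Finset.ne_of_mem_erase hk)) _ _ (fun _ => rfl)
  rw [h0, Finset.prod_congr rfl h1]
  ac_rfl


/-- Let P be a finite p-group whose conjugacy class sizes are exactly 1 and pᵃ for some a ≥ 1. Then every element of P has its p-th power in the center of P (P/Z(P) has exponent p). -/
theorem result {P : Type*} [Group P] [Finite P] (p : ℕ) [Fact p.Prime]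
    (hP : IsPGroup p P) (a : ℕ) (ha : 1 ≤ a)
    (hcs : {k : ℕ | ∃ x : P, (Subgroup.centralizer ({x} : Set P)).index = k} = {1, p ^ a}) (x : P) :
    x ^ p ∈ Subgroup.center P := by
  classical
  have hp : p.Prime := Fact.out
  haveI : NeZero p := ⟨hp.ne_zero⟩
  set Z := Subgroup.center P with hZ
  by_contra hx
  let C : P → Subgroup P := fun g => Subgroup.centralizer ({g} : Set P)
  have memC : ∀ {g h : P}, h ∈ C g ↔ h * g = g * h :=
    fun {g h} => Subgroup.mem_centralizer_singleton_iff
  have hidx : ∀ g, g ∉ Z → (C g).index = p ^ a := by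
    intro g hg
    have h := hcs.le (show (C g).index ∈ {k : ℕ | ∃ x : P,
      (Subgroup.centralizer ({x} : Set P)).index = k} from ⟨g, rfl⟩)
    rcases h with h | h
    · exact absurd (Subgroup.mem_center_iff.2 fun b => memC.1 ((Subgroup.index_eq_one.1 h) ▸
        Subgroup.mem_top b)) hg
    · exact h
  have hcard : ∀ g, g ∉ Z → Nat.card (C g) * p ^ a = Nat.card P := fun g hg => by
    rw [← hidx g hg, Subgroup.card_mul_index]
  have heq : ∀ g h, g ∉ Z → h ∉ Z → C g ≤ C h → C g = C h := by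
    intro g h hg hh hle
    refine Subgroup.eq_of_le_of_card_ge hle (le_of_eq ?_)
    exact Nat.eq_of_mul_eq_mul_right (pow_pos hp.pos a) ((hcard h hh).trans (hcard g hg).symm)
  have hCpow : ∀ g : P, g ^ p ∉ Z → C g = C (g ^ p) := fun g hg =>
    heq _ _ (fun h => hg (pow_mem h p)) hg fun b hb => memC.2 ((Commute.pow_right (memC.1 hb) p).eq)
  -- `C g` is commutative when `g ^ p` is not central
  have hab : ∀ g : P, g ^ p ∉ Z → ∀ b ∈ C g, ∀ c ∈ C g, Commute b c := by
    intro g hg
    have hg1 : g ∉ Z := fun h => hg (pow_mem h p)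
    suffices h : ∀ (k : ℕ) (b : P), b ∈ C g → b ^ p ^ k ∈ Z → ∀ c ∈ C g, Commute b c by
      intro b hb c hc
      obtain ⟨k, hk⟩ := hP b
      exact h k b hb (hk ▸ one_mem _) c hc
    intro k
    induction k with
    | zero =>
      intro b _ hb c _
      rw [pow_zero, pow_one] at hb
      exact (Subgroup.mem_center_iff.1 hb c).symm
    | succ k ih =>
      intro b hb hbk c hc
      by_cases hbp : b ^ p ∈ Z
      · -- `g * b` has the same centralizer as `g`
        have hgb : (g * b) ^ p ∉ Z := by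
          rw [(show Commute g b from (memC.1 hb).symm).mul_pow]
          intro h
          exact hg (by simpa using mul_mem h (inv_mem hbp))
        have h1 : C (g * b) = C g := by
          rw [hCpow _ hgb, hCpow g hg]
          ext u
          rw [memC, memC, (show Commute g b from (memC.1 hb).symm).mul_pow]
          have hcen := Subgroup.mem_center_iff.1 hbp
          constructor
          · intro h
            apply mul_right_cancel (b := b ^ p)
            rw [mul_assoc, h, mul_assoc, ← hcen u, mul_assoc]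
          · intro h
            rw [← mul_assoc, h, mul_assoc, hcen u, ← mul_assoc]
        have h2 : Commute c (g * b) := memC.1 (h1.symm ▸ hc : c ∈ C (g * b))
        have h3 : Commute c g := memC.1 hc
        have := h3.inv_right.mul_right h2
        rw [inv_mul_cancel_left] at this
        exact this.symm
      · have h1 : ∀ d ∈ C g, Commute (b ^ p) d :=
          ih (b ^ p) (pow_mem hb p) (by rw [← pow_mul, ← pow_succ']; exact hbk)
        have h2 : C g = C (b ^ p) := heq _ _ hg1 hbp fun d hd => memC.2 (h1 d hd).symm.eq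
        rw [← hCpow b hbp] at h2
        exact (memC.1 (h2 ▸ hc : c ∈ C b)).symm
  have hx1 : x ∉ Z := fun h => hx (pow_mem h p)
  set A := C x with hA
  have hxA : x ∈ A := memC.2 rfl
  have hZA : Z ≤ A := fun z hz => memC.2 (Subgroup.mem_center_iff.1 hz x).symm
  have hCA : ∀ b ∈ A, b ∉ Z → C b = A := fun b hb hb1 =>
    (heq _ _ hx1 hb1 fun d hd => memC.2 (hab x hx d hd b hb)).symm
  -- an element of the second centre
  haveI : Nontrivial (P ⧸ Z) := ⟨QuotientGroup.mk x, 1, fun h => hx1 ((QuotientGroup.eq_one_iff x).1 h)⟩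
  haveI := (hP.to_quotient Z).center_nontrivial
  obtain ⟨qw, hqw⟩ := exists_prime_orderOf_dvd_card' (G := Subgroup.center (P ⧸ Z)) p
    (((hP.to_quotient Z).to_subgroup _).card_eq_or_dvd.resolve_left Finite.one_lt_card.ne')
  obtain ⟨w, hw⟩ := QuotientGroup.mk_surjective (qw : P ⧸ Z)
  have hw1 : w ∉ Z := fun h => by
    rw [← Subgroup.orderOf_coe, ← hw, (QuotientGroup.eq_one_iff w).2 h, orderOf_one] at hqw
    exact hp.ne_one hqw.symm
  have hwp : w ^ p ∈ Z := by
    rw [← QuotientGroup.eq_one_iff, QuotientGroup.mk_pow, hw, ← Subgroup.coe_pow, ← hqw,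
      pow_orderOf_eq_one, Subgroup.coe_one]
  have hχmem : ∀ g : P, g * w * g⁻¹ * w⁻¹ ∈ Z := fun g => by
    rw [← QuotientGroup.eq_one_iff, QuotientGroup.mk_mul, QuotientGroup.mk_mul, QuotientGroup.mk_mul,
      QuotientGroup.mk_inv, QuotientGroup.mk_inv, hw, Subgroup.mem_center_iff.1 qw.2]
    simp
  let χ : P →* P :=
    { toFun := fun g => g * w * g⁻¹ * w⁻¹
      map_one' := by simp
      map_mul' := fun g h => by
        have hc := Subgroup.mem_center_iff.1 (hχmem h)
        calc g * h * w * (g * h)⁻¹ * w⁻¹ = g * (h * w * h⁻¹ * w⁻¹) * (w * g⁻¹ * w⁻¹) := by group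
          _ = (h * w * h⁻¹ * w⁻¹) * g * (w * g⁻¹ * w⁻¹) := by rw [hc g]
          _ = (h * w * h⁻¹ * w⁻¹) * (g * w * g⁻¹ * w⁻¹) := by group
          _ = (g * w * g⁻¹ * w⁻¹) * (h * w * h⁻¹ * w⁻¹) := (hc _).symm }
  have hχker : ∀ g, χ g = 1 ↔ g ∈ C w := fun g => by
    change g * w * g⁻¹ * w⁻¹ = 1 ↔ _
    rw [memC, mul_inv_eq_one, mul_inv_eq_iff_eq_mul]
  have hχp : ∀ g, χ (g ^ p) = 1 := by
    intro g
    have hc : Commute (χ g) w := (Subgroup.mem_center_iff.1 (hχmem g) w).symm
    have h1 : χ g * w = g * w * g⁻¹ := inv_mul_cancel_right _ _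
    have h2 := congrArg (· ^ p) h1
    simp only [hc.mul_pow, conj_pow] at h2
    rw [show g * w ^ p * g⁻¹ = w ^ p by
      rw [Subgroup.mem_center_iff.1 hwp g, mul_inv_cancel_right]] at h2
    rw [map_pow]
    simpa using h2
  have hwA : w ∈ A := by
    have : w ∈ C (x ^ p) := memC.2 (memC.1 ((hχker _).1 (hχp x))).symm
    rwa [← hCpow x hx] at this
  have hAw : C w = A := hCA w hwA hw1
  have hAmem : ∀ g, g ∈ A ↔ χ g = 1 := fun g => by rw [hχker, hAw]
  haveI hAn : A.Normal := by
    have : A = χ.ker := Subgroup.ext fun g => by rw [MonoidHom.mem_ker, hAmem]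
    rw [this]; infer_instance
  have hout : ∀ g : P, g ∉ A → g ^ p ∈ Z := by
    intro g hg
    by_contra hgp
    have hwg : w ∈ C (g ^ p) := memC.2 (memC.1 ((hχker _).1 (hχp g))).symm
    rw [← hCpow g hgp] at hwg
    exact hg (hAw ▸ memC.2 (memC.1 hwg).symm)
  let π := QuotientGroup.mk' A
  have hπc : ∀ g h, Commute (π g) (π h) := by
    intro g h
    change π g * π h = π h * π g
    rw [← map_mul, ← map_mul]
    refine (QuotientGroup.eq (s := A)).2 ((hAmem _).2 ?_)
    rw [map_mul, map_inv, map_mul, map_mul,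
      show χ g * χ h = χ h * χ g from (Subgroup.mem_center_iff.1 (hχmem h) _)]
    simp
  have hπp : ∀ g, π g ^ p = 1 := fun g => by
    rw [← map_pow]
    exact (QuotientGroup.eq_one_iff _).2 ((hAmem _).2 (hχp g))
  -- two independent elements outside `A`
  obtain ⟨y, hy⟩ : ∃ y, y ∉ A := by
    by_contra h
    push Not at h
    exact hx1 (Subgroup.mem_center_iff.2 fun b => memC.1 (h b))
  obtain ⟨z, hz⟩ : ∃ z, π z ∉ Subgroup.zpowers (π y) := by
    by_contra h
    push Not at h
    have hy1 : y ∉ Z := fun hh => hy (hZA hh)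
    -- then `A / Z` has order `p`
    let f : C y →* P ⧸ A := π.comp (C y).subtype
    have hf : Function.Surjective f := by
      intro q
      obtain ⟨g, rfl⟩ := QuotientGroup.mk'_surjective A q
      obtain ⟨i, hi⟩ := Subgroup.mem_zpowers_iff.1 (h g)
      exact ⟨⟨y ^ i, zpow_mem (memC.2 rfl) i⟩, (map_zpow π y i).trans hi⟩
    have hord : orderOf (π y) = p :=
      orderOf_eq_prime (hπp y) fun hh => hy ((QuotientGroup.eq_one_iff y).1 hh)
    have hquot : Nat.card (P ⧸ A) = p := by
      have htop : Subgroup.zpowers (π y) = ⊤ := eq_top_iff.2 fun q _ => by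
        obtain ⟨g, rfl⟩ := QuotientGroup.mk'_surjective A q
        exact h g
      rw [← hord, ← Nat.card_zpowers, htop, Subgroup.card_top]
    have hker : Nat.card f.ker = Nat.card Z := by
      refine Nat.card_congr
        { toFun := fun g => ⟨((g : C y) : P), ?_⟩
          invFun := fun g => ⟨⟨(g : P), memC.2 (Subgroup.mem_center_iff.1 g.2 y).symm⟩,
            (QuotientGroup.eq_one_iff _).2 (hZA g.2)⟩
          left_inv := fun g => rfl
          right_inv := fun g => rfl }
      have hgA : ((g : C y) : P) ∈ A := (QuotientGroup.eq_one_iff _).1 g.2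
      by_contra hgZ
      exact hy (hCA _ hgA hgZ ▸ memC.2 (memC.1 (g : C y).2).symm)
    have hAZ : Z.relIndex A = p := by
      have e1 := f.ker.card_mul_index
      rw [Subgroup.index_ker, MonoidHom.range_eq_top.2 hf, Subgroup.card_top, hquot, hker] at e1
      have e2 : Nat.card (C y) = Nat.card A :=
        Nat.eq_of_mul_eq_mul_right (pow_pos hp.pos a) ((hcard y hy1).trans (hcard x hx1).symm)
      have e3 := (Z.subgroupOf A).card_mul_index
      rw [Nat.card_congr (Subgroup.subgroupOfEquivOfLe hZA).toEquiv] at e3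
      rw [Subgroup.relIndex]
      exact Nat.eq_of_mul_eq_mul_left Nat.card_pos (by rw [e3, e1, e2])
    apply hx
    have := (Z.subgroupOf A).pow_index_mem ⟨x, hxA⟩
    rwa [← Subgroup.relIndex, hAZ] at this
  -- conjugation on `A`
  letI : CommGroup A := { mul_comm := fun b c => Subtype.ext (hab x hx b b.2 c c.2).eq }
  let cj : P → A → A := fun g b => ⟨g * b * g⁻¹, hAn.conj_mem b b.2 g⟩
  have cj_mul : ∀ g h b, cj (g * h) b = cj g (cj h b) := fun g h b => Subtype.ext (by
    change g * h * (b : P) * (g * h)⁻¹ = g * (h * b * h⁻¹) * g⁻¹; group)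
  have cj_congr : ∀ g h b, π g = π h → cj g b = cj h b := by
    intro g h b hgh
    have hm : g⁻¹ * h ∈ A := (QuotientGroup.eq (s := A)).1 hgh
    have e : cj (g⁻¹ * h) b = b := Subtype.ext (mul_inv_eq_iff_eq_mul.2 (hab x hx _ hm _ b.2).eq)
    rw [show h = g * (g⁻¹ * h) by group, cj_mul, e]
  let xA : A := ⟨x, hxA⟩
  have hN : ∀ g, g ∉ A → ((∏ k : ZMod p, cj (g ^ k.val) xA : A) : P) ∈ Z := by
    intro g hg
    have key : ∀ n : ℕ, (x * g) ^ n =
        ((∏ k ∈ Finset.range n, cj (g ^ k) xA : A) : P) * g ^ n := by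
      intro n
      induction n with
      | zero => simp
      | succ n ih =>
        rw [pow_succ, ih, Finset.prod_range_succ, Subgroup.coe_mul, pow_succ g n]
        change _ = _ * (g ^ n * x * (g ^ n)⁻¹) * (g ^ n * g)
        group
    rw [prod_val_eq (fun k => cj (g ^ k) xA)]
    have h1 := key p
    have hxg : x * g ∉ A := fun hh => hg (by simpa using A.mul_mem (A.inv_mem hxA) hh)
    have h2 : (x * g) ^ p * (g ^ p)⁻¹ ∈ Z := mul_mem (hout _ hxg) (inv_mem (hout g hg))
    rwa [h1, mul_inv_cancel_right] at h2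
  let φ : ZMod p → ZMod p → A := fun j k => cj (y ^ j.val * z ^ k.val) xA
  have hpow : ∀ (g : P) (n : ℕ), π g ^ n = π g ^ (n % p) := fun g n => pow_eq_pow_mod n (hπp g)
  have hline : ∀ i k : ZMod p, cj ((y ^ i.val * z) ^ k.val) xA = φ (i * k) k := by
    intro i k
    refine cj_congr _ _ _ ?_
    rw [map_pow, map_mul, map_pow, ((hπc y z).pow_left _).mul_pow, ← pow_mul, hpow y (i.val * k.val),
      ← ZMod.val_mul, map_mul, map_pow, map_pow]
  have hline0 : ∀ j : ZMod p, cj (y ^ j.val) xA = φ j 0 := fun j => by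
    simp [φ]
  have houtline : ∀ i : ZMod p, y ^ i.val * z ∉ A := fun i hh => hz (by
    have h1 : π (y ^ i.val * z) = 1 := (QuotientGroup.eq_one_iff _).2 hh
    rw [map_mul, map_pow, mul_eq_one_iff_inv_eq] at h1
    rw [← h1]
    exact inv_mem (pow_mem (Subgroup.mem_zpowers _) _))
  have hL : (((∏ i : ZMod p, ∏ k : ZMod p, φ (i * k) k) * ∏ j : ZMod p, φ j 0 : A) : P) ∈ Z := by
    have hz' : ∀ b : ZMod p → A, (∀ i, (b i : P) ∈ Z) → ((∏ i, b i : A) : P) ∈ Z := fun b hb =>
      Subgroup.mem_subgroupOf.1 (Subgroup.prod_mem (Z.subgroupOf A) fun i _ => Subgroup.mem_subgroupOf.2 (hb i))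
    rw [Subgroup.coe_mul]
    refine mul_mem (hz' _ fun i => ?_) ?_
    · rw [← Finset.prod_congr rfl fun k _ => hline i k]
      exact hN _ (houtline i)
    · rw [← Finset.prod_congr rfl fun j _ => hline0 j]
      exact hN _ hy
  rw [lines_identity p φ, Subgroup.coe_mul] at hL
  have hz1 : z ∉ A := fun hh => hz ((show π z = 1 from (QuotientGroup.eq_one_iff z).2 hh) ▸ one_mem _)
  have hE : ((∏ k : ZMod p, ∏ j : ZMod p, φ j k : A) : P) ∈ Z := by
    rw [Finset.prod_comm]
    refine Subgroup.mem_subgroupOf.1 (Subgroup.prod_mem (Z.subgroupOf A) fun j _ =>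
      Subgroup.mem_subgroupOf.2 ?_)
    let cjh : A →* A := MonoidHom.mk' (cj (y ^ j.val)) fun b c => Subtype.ext (by
      change y ^ j.val * ((b : P) * c) * (y ^ j.val)⁻¹ = _ * _ * _ * (_ * _ * _); group)
    have e : (∏ k : ZMod p, φ j k) = cjh (∏ k : ZMod p, cj (z ^ k.val) xA) := by
      rw [map_prod]
      exact Finset.prod_congr rfl fun k _ => cj_mul _ _ _
    rw [e]
    change y ^ j.val * _ * (y ^ j.val)⁻¹ ∈ Z
    exact (inferInstance : Z.Normal).conj_mem _ (hN z hz1) _
  have h00 : φ 0 0 = xA := Subtype.ext (by simp [φ, cj, xA])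
  have := mul_mem hL (inv_mem hE)
  rw [mul_inv_cancel_right, h00, Subgroup.coe_pow] at this
  exact hx this

end Cfsg.Agent.S4365
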