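import Cfsg.Statements.S4370
import Cfsg.Agent.TwoGroup.UniqueInvolution
import Cfsg.Agent.TwoGroup.MaximalClass
import Cfsg.Agent.PGroup.UniqueOrderP
import Cfsg.Agent.SolvableStructure.Schmidt

set_option autoImplicit false
open Cfsg

namespace Cfsg.Agent.S4370

/-- In `ZMod (2 * n)` the only solutions of `x + x = 0` are `0` and `n`. -/
theorem add_self_zero {n : ℕ} [NeZero n] {x : ZMod (2 * n)} (hx : x + x = 0) :
    x = 0 ∨ x = (n : ZMod (2 * n)) := by
  have h1 : ((2 * x.val : ℕ) : ZMod (2 * n)) = 0 := by
    rw [Nat.cast_mul, ZMod.natCast_zmod_val, Nat.cast_ofNat]; exact (two_mul x).trans hx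
  rw [ZMod.natCast_eq_zero_iff, Nat.mul_dvd_mul_iff_left two_pos] at h1
  obtain ⟨c, hc⟩ := h1
  have hlt := x.val_lt
  rcases c with _ | _ | c
  · exact Or.inl ((ZMod.val_eq_zero x).1 (by simpa using hc))
  · refine Or.inr ?_
    rw [← ZMod.natCast_zmod_val x, hc]; simp
  · exfalso; nlinarith

/-- Centralisers of non-central elements of a quaternion group are cyclic. -/
theorem quaternion_centralizer {n : ℕ} [NeZero n] (q : QuaternionGroup n)
    (hq : q ∉ Subgroup.center (QuaternionGroup n)) :
    IsCyclic (Subgroup.centralizer ({q} : Set (QuaternionGroup n))) := by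
  suffices h : ∃ w, Subgroup.centralizer ({q} : Set (QuaternionGroup n)) ≤ Subgroup.zpowers w by
    obtain ⟨w, hw⟩ := h
    exact isCyclic_of_injective (Subgroup.inclusion hw) (Subgroup.inclusion_injective hw)
  cases q with
  | a i =>
    refine ⟨QuaternionGroup.a 1, ?_⟩
    rintro (j | j) hj
    · have hpow : QuaternionGroup.a (1 : ZMod (2 * n)) ^ j.val = QuaternionGroup.a j := by
        rw [QuaternionGroup.a_one_pow, ZMod.natCast_zmod_val]
      exact hpow ▸ Subgroup.pow_mem _ (Subgroup.mem_zpowers _) _
    · exfalso
      rw [Subgroup.mem_centralizer_singleton_iff, QuaternionGroup.xa_mul_a, QuaternionGroup.a_mul_xa,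
        QuaternionGroup.xa.injEq] at hj
      refine hq (Subgroup.mem_center_iff.2 ?_)
      rintro (k | k)
      · rw [QuaternionGroup.a_mul_a, QuaternionGroup.a_mul_a, add_comm]
      · rw [QuaternionGroup.xa_mul_a, QuaternionGroup.a_mul_xa, QuaternionGroup.xa.injEq]
        linear_combination hj
  | xa i =>
    refine ⟨QuaternionGroup.xa i, ?_⟩
    have hsq : QuaternionGroup.a (n : ZMod (2 * n)) ∈ Subgroup.zpowers (QuaternionGroup.xa i) := by
      have := Subgroup.pow_mem _ (Subgroup.mem_zpowers (QuaternionGroup.xa i)) 2
      rwa [QuaternionGroup.xa_sq] at this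
    rintro (j | j) hj
    · rw [Subgroup.mem_centralizer_singleton_iff, QuaternionGroup.xa_mul_a, QuaternionGroup.a_mul_xa,
        QuaternionGroup.xa.injEq] at hj
      rcases add_self_zero (n := n) (x := j) (by linear_combination -hj) with rfl | rfl
      · rw [← QuaternionGroup.one_def]; exact one_mem _
      · exact hsq
    · rw [Subgroup.mem_centralizer_singleton_iff, QuaternionGroup.xa_mul_xa, QuaternionGroup.xa_mul_xa,
        QuaternionGroup.a.injEq] at hj
      rcases add_self_zero (n := n) (x := j - i) (by linear_combination -hj) with h | h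
      · rw [sub_eq_zero.1 h]; exact Subgroup.mem_zpowers _
      · have := mul_mem (Subgroup.mem_zpowers (QuaternionGroup.xa i)) hsq
        rwa [QuaternionGroup.xa_mul_a, ← h, add_sub_cancel] at this


/-- Let G be a finite non-abelian nilpotent group. Then the centralizer of every non-central element of G is cyclic if and only if G is isomorphic to the direct product of a generalized quaternion group and a cyclic group of odd order. -/
theorem result {G : Type*} [Group G] [Finite G] (hG : Group.IsNilpotent G)
    (hna : ¬ IsMulCommutative G) :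
    (∀ x : G, x ∉ Subgroup.center G → IsCyclic (Subgroup.centralizer ({x} : Set G))) ↔
      ∃ (k m : ℕ), 1 ≤ k ∧ Odd m ∧ Nonempty (G ≃* QuaternionGroup (2 ^ k) × Multiplicative (ZMod m)) := by
  constructor
  · intro h
    -- every abelian subgroup is cyclic
    have hab : ∀ B : Subgroup G, (∀ a ∈ B, ∀ b ∈ B, a * b = b * a) → IsCyclic B := by
      intro B hB
      obtain ⟨x, hx, hBx⟩ : ∃ x : G, x ∉ Subgroup.center G ∧ B ≤ Subgroup.centralizer ({x} : Set G) := by
        by_cases hBc : B ≤ Subgroup.center G
        · obtain ⟨x, hx⟩ : ∃ x : G, x ∉ Subgroup.center G := by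
            by_contra hall
            rw [not_exists] at hall
            exact hna (isMulCommutative_iff.2 fun a b =>
              Subgroup.mem_center_iff.1 (not_not.1 (hall b)) a)
          exact ⟨x, hx, fun b hb => Subgroup.mem_centralizer_singleton_iff.2
            (Subgroup.mem_center_iff.1 (hBc hb) x).symm⟩
        · obtain ⟨x, hxB, hx⟩ := SetLike.not_le_iff_exists.1 hBc
          exact ⟨x, hx, fun b hb => Subgroup.mem_centralizer_singleton_iff.2 (hB b hb x hxB)⟩
      have := h x hx
      exact isCyclic_of_injective (Subgroup.inclusion hBx) (Subgroup.inclusion_injective hBx)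
    have hnormal : ∀ {p : ℕ} [Fact p.Prime] (P : Sylow p G), (P : Subgroup G).Normal := fun P =>
      Sylow.normal_of_normalizerCondition Group.normalizerCondition_of_isNilpotent P
    have hodd : ∀ (p : ℕ) [Fact p.Prime], p ≠ 2 → ∀ P : Sylow p G, IsCyclic (P : Subgroup G) := by
      intro p _ hp P
      by_contra hnc
      obtain ⟨E, -, hE, hEc⟩ := CfsgLib.PGroup.exists_normal_elementary_sq hp P.2 hnc
      haveI := hab (E.map (P : Subgroup G).subtype) (by
        rintro _ ⟨a, ha, rfl⟩ _ ⟨b, hb, rfl⟩
        rw [← map_mul, ← map_mul]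
        exact congrArg _ (congrArg Subtype.val (isMulCommutative_iff.1 hE.1 ⟨a, ha⟩ ⟨b, hb⟩)))
      haveI : IsCyclic E := isCyclic_of_injective
        (E.equivMapOfInjective _ (P : Subgroup G).subtype_injective).toMonoidHom (MulEquiv.injective _)
      have hd := Monoid.exponent_dvd_of_forall_pow_eq_one (G := E) (n := p)
        fun a => Subtype.ext (by simpa using hE.2 a a.2)
      rw [IsCyclic.exponent_eq_card, hEc] at hd
      have := Nat.le_of_dvd (Fact.out : p.Prime).pos hd
      nlinarith [(Fact.out : p.Prime).two_le]
    have : Fact (Nat.Prime 2) := ⟨Nat.prime_two⟩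
    obtain ⟨P⟩ : Nonempty (Sylow 2 G) := inferInstance
    obtain ⟨K, hKn, hKP⟩ := CfsgLib.Transfer.exists_isComplement'
      (CfsgLib.Schmidt.hasNormalPComplement_of_nilpotent (G := G) 2) P
    haveI := hnormal P
    have hcomm : ∀ k ∈ K, ∀ a ∈ (P : Subgroup G), a * k = k * a := fun k hk a ha =>
      Subgroup.commute_of_normal_of_disjoint _ _ (hnormal P) hKn hKP.symm.disjoint a k ha hk
    have hKodd : Odd (Nat.card K) := by
      have hKi : Nat.card K = (P : Subgroup G).index := by
        first | exact hKP.index_eq_card.symm | exact hKP.symm.index_eq_card.symm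
      rw [hKi, Nat.odd_iff, ← Nat.two_dvd_ne_zero]
      exact P.not_dvd_index
    let e0 : ↥(P : Subgroup G) × ↥K ≃* G :=
      MulEquiv.ofBijective
        ({ toFun := fun z => (z.1 : G) * z.2
           map_one' := by simp
           map_mul' := fun z w => by
             show (z.1 : G) * w.1 * (z.2 * w.2) = z.1 * z.2 * (w.1 * w.2)
             rw [mul_assoc (z.1 : G) w.1, ← mul_assoc (w.1 : G) z.2, hcomm _ z.2.2 _ w.1.2]
             group } : ↥(P : Subgroup G) × ↥K →* G) hKP.symm
    have hKab : ∀ a ∈ K, ∀ b ∈ K, a * b = b * a := by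
      haveI : Group.IsNilpotent K := Subgroup.isNilpotent K
      intro a ha b hb
      have hn : ∀ {p : ℕ} [Fact p.Prime] (Q : Sylow p K), (Q : Subgroup K).Normal := fun Q =>
        Sylow.normal_of_normalizerCondition Group.normalizerCondition_of_isNilpotent Q
      have hK : ∀ x y : K, x * y = y * x := by
        intro x y
        let e := Sylow.directProductOfNormal hn
        obtain ⟨x, rfl⟩ := e.surjective x
        obtain ⟨y, rfl⟩ := e.surjective y
        rw [← map_mul, ← map_mul]
        refine congrArg e (funext fun p => funext fun Q => ?_)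
        haveI : Fact (p : ℕ).Prime := ⟨(Nat.mem_primeFactors.1 p.2).1⟩
        have hp2 : (p : ℕ) ≠ 2 := fun he => by
          have := (Nat.mem_primeFactors.1 p.2).2.1
          rw [he] at this
          exact (Nat.odd_iff.1 hKodd).symm.trans_ne (by omega) rfl
        obtain ⟨R, hR⟩ := (Q.2.map K.subtype).exists_le_sylow
        haveI := hodd p hp2 R
        haveI : IsCyclic (Q : Subgroup K) := by
          haveI : IsCyclic ((Q : Subgroup K).map K.subtype) :=
            isCyclic_of_injective (Subgroup.inclusion hR) (Subgroup.inclusion_injective hR)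
          exact isCyclic_of_injective ((Q : Subgroup K).equivMapOfInjective _ K.subtype_injective).toMonoidHom
            (MulEquiv.injective _)
        exact (IsCyclic.commGroup (α := (Q : Subgroup K))).mul_comm _ _
      exact congrArg Subtype.val (hK ⟨a, ha⟩ ⟨b, hb⟩)
    haveI hKc : IsCyclic K := hab K hKab
    have hPnc : ¬ IsMulCommutative (P : Subgroup G) := fun hc => hna (isMulCommutative_iff.2 fun x y => by
      obtain ⟨x, rfl⟩ := e0.surjective x
      obtain ⟨y, rfl⟩ := e0.surjective y
      rw [← map_mul, ← map_mul]
      exact congrArg e0 (Prod.ext (hc.is_comm.comm _ _) ((IsCyclic.commGroup (α := K)).mul_comm _ _)))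
    have hu : CfsgLib.TwoGroup.AtMostOneInvolution (P : Subgroup G) := by
      obtain ⟨z, -, hzc, hz⟩ := CfsgLib.TwoGroup.exists_central_involution_commutator P.2 hPnc
      have key : ∀ x : (P : Subgroup G), orderOf x = 2 → x = z := by
        intro x hx
        set B := Subgroup.closure ({(x : G), (z : G)} : Set G)
        have hxz : (x : G) * z = z * x := congrArg Subtype.val (Subgroup.mem_center_iff.1 hzc x)
        have hBc := Subgroup.isMulCommutative_closure (k := ({(x : G), (z : G)} : Set G)) (by
          rintro a (rfl | rfl) c (rfl | rfl) <;> first | rfl | exact hxz | exact hxz.symm)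
        haveI := hab B fun a ha b hb => congrArg Subtype.val (hBc.is_comm.comm ⟨a, ha⟩ ⟨b, hb⟩)
        classical
        letI : Fintype B := Fintype.ofFinite _
        set x' : B := ⟨(x : G), Subgroup.subset_closure (Set.mem_insert _ _)⟩
        set z' : B := ⟨(z : G), Subgroup.subset_closure (Set.mem_insert_of_mem _ rfl)⟩
        have hx' : orderOf x' = 2 := by rw [← Subgroup.orderOf_coe]; exact (Subgroup.orderOf_coe x).trans hx
        have hz' : orderOf z' = 2 := by rw [← Subgroup.orderOf_coe]; exact (Subgroup.orderOf_coe z).trans hz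
        have hone := IsCyclic.card_orderOf_eq_totient (α := B) (d := 2)
          (by rw [← hx']; exact orderOf_dvd_card)
        rw [Nat.totient_two, Finset.card_eq_one] at hone
        obtain ⟨c, hc⟩ := hone
        have hmem : ∀ w : B, orderOf w = 2 → w = c := fun w hw => by
          have : w ∈ Finset.univ.filter (fun w : B => orderOf w = 2) := by simp [hw]
          rw [hc] at this
          simpa using this
        exact Subtype.ext (congrArg (fun w : B => (w : G)) ((hmem x' hx').trans (hmem z' hz').symm))
      exact fun x y hx hy => (key x hx).trans (key y hy).symm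
    rcases CfsgLib.TwoGroup.cyclic_or_quaternion_frame P.2 hu with hc | ⟨n, hn, -, ⟨F⟩⟩
    · exact absurd (isMulCommutative_iff.2 fun a b => (IsCyclic.commGroup (α := (P : Subgroup G))).mul_comm a b) hPnc
    · obtain ⟨eP⟩ := F.nonempty_mulEquiv_quaternion_two_pow (by omega)
      refine ⟨n - 1, Nat.card K, by omega, hKodd, ⟨e0.symm.trans (MulEquiv.prodCongr eP ?_)⟩⟩
      exact (zmodCyclicMulEquiv hKc).symm
  · rintro ⟨k, m, hk, hm, ⟨e⟩⟩ x hx
    haveI : NeZero m := ⟨by rintro rfl; simp at hm⟩
    set C := Subgroup.centralizer ({x} : Set G)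
    set Cq := Subgroup.centralizer ({(e x).1} : Set (QuaternionGroup (2 ^ k)))
    have hq : (e x).1 ∉ Subgroup.center (QuaternionGroup (2 ^ k)) := by
      intro hc
      refine hx (Subgroup.mem_center_iff.2 fun g => e.injective ?_)
      rw [map_mul, map_mul]
      exact Prod.ext (Subgroup.mem_center_iff.1 hc _) (mul_comm _ _)
    haveI := quaternion_centralizer _ hq
    let f : C →* Cq × Multiplicative (ZMod m) :=
      { toFun := fun c => (⟨(e c).1, Subgroup.mem_centralizer_singleton_iff.2 (by
          have := congrArg (fun g => (e g).1) (Subgroup.mem_centralizer_singleton_iff.1 c.2)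
          simpa using this)⟩, (e c).2)
        map_one' := by simp
        map_mul' := fun a b => by simp }
    have hf : Function.Injective f := fun a b hab => by
      have h1 : ((e a).1 : QuaternionGroup (2 ^ k)) = (e b).1 := congrArg (fun z => (z.1 : QuaternionGroup (2 ^ k))) hab
      have h2 : (e a).2 = (e b).2 := congrArg (fun z : Cq × Multiplicative (ZMod m) => z.2) hab
      exact Subtype.ext (e.injective (Prod.ext h1 h2))
    haveI : IsCyclic (Cq × Multiplicative (ZMod m)) := by
      refine Group.isCyclic_prod_iff.2 ⟨inferInstance, inferInstance, ?_⟩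
      rw [Nat.card_eq_fintype_card (α := Multiplicative (ZMod m)), Fintype.card_multiplicative, ZMod.card]
      refine Nat.Coprime.coprime_dvd_left (Subgroup.card_subgroup_dvd_card Cq) ?_
      rw [Nat.card_eq_fintype_card, QuaternionGroup.card, show 4 * 2 ^ k = 2 ^ (k + 2) by ring]
      exact (Nat.coprime_two_left.2 hm).pow_left _
    exact isCyclic_of_injective f hf

end Cfsg.Agent.S4370
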