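import Cfsg.Statements.S4372
import Cfsg.Agent.CoprimePair.Final


set_option autoImplicit false
open Cfsg

namespace Cfsg.Agent.S4372

/-- Let the finite solvable group A act faithfully by automorphisms on the finite group K with the orders of A and K coprime. Then there are two elements x, y of K such that only the identity of A fixes both. -/
theorem result {A K : Type*} [Group A] [Finite A] [Group K] [Finite K]
    [MulDistribMulAction A K] [FaithfulSMul A K] (hA : Group.IsSolvable A) (hcop : (Nat.card A).Coprime (Nat.card K)) :
    ∃ x y : K, ∀ a : A, a • x = x → a • y = y → a = 1 := by
  exact CfsgLib.CoprimePair.exists_two_points hA hcop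

end Cfsg.Agent.S4372
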