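import Cfsg.Statements.S4381
import Cfsg.Agent.SolvableStructure.Maschke
import Cfsg.Agent.Coprime.External
import Cfsg.Agent.Constrained.Fitting


set_option autoImplicit false
open Pointwise
open Cfsg
open scoped Pointwise

namespace Cfsg.Agent.S4381

/-- Let the finite group A act by automorphisms on the finite group G with the orders of A and G coprime, and assume that A or G is solvable. Call a proper A-invariant subgroup of G maximal A-invariant when no A-invariant subgroup lies strictly between it and G. Then all maximal A-invariant subgroups of G are conjugate under elements of the fixed-point subgroup C_G(A) if and only if G is a p-group for some prime p and A leaves invariant no subgroup strictly between the Frattini subgroup of G and G. In that case, if G is nontrivial, the Frattini subgroup is the only maximal A-invariant subgroup (a trivial G has none). -/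
theorem result {A G : Type*} [Group A] [Finite A]
    [Group G] [Finite G] [MulDistribMulAction A G] (hcop : (Nat.card A).Coprime (Nat.card G)) (hsol : Group.IsSolvable A ∨ Group.IsSolvable G) :
    ((∀ M N : Subgroup G, (M ≠ ⊤ ∧ (∀ a : A, ∀ x ∈ M, a • x ∈ M) ∧ ∀ L : Subgroup G, M < L → (∀ a : A, ∀ x ∈ L, a • x ∈ L) → L = ⊤) → (N ≠ ⊤ ∧ (∀ a : A, ∀ x ∈ N, a • x ∈ N) ∧ ∀ L : Subgroup G, N < L → (∀ a : A, ∀ x ∈ L, a • x ∈ L) → L = ⊤) →
        ∃ c : G, (∀ a : A, a • c = c) ∧ N = MulAut.conj c • M) ↔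
      ((∃ p : ℕ, p.Prime ∧ IsPGroup p G) ∧ ∀ L : Subgroup G, frattini G < L → (∀ a : A, ∀ x ∈ L, a • x ∈ L) → L = ⊤)) ∧
    (((∃ p : ℕ, p.Prime ∧ IsPGroup p G) ∧ ∀ L : Subgroup G, frattini G < L → (∀ a : A, ∀ x ∈ L, a • x ∈ L) → L = ⊤) →
      ∀ M : Subgroup G, (M ≠ ⊤ ∧ (∀ a : A, ∀ x ∈ M, a • x ∈ M) ∧ ∀ L : Subgroup G, M < L → (∀ a : A, ∀ x ∈ L, a • x ∈ L) → L = ⊤) ↔ (M = frattini G ∧ M ≠ ⊤)) := by
  let φ : A →* MulAut G := MulDistribMulAction.toMulAut A G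
  have hφ : ∀ (a : A) (x : G), φ a x = a • x := fun a x => rfl
  have hΦinv : ∀ a : A, ∀ x ∈ frattini G, a • x ∈ frattini G := fun a x hx => by
    have := (Subgroup.characteristic_iff_map_eq.1 (frattini_characteristic (G := G)) (φ a))
    exact this ▸ ⟨x, hx, rfl⟩
  have hex : ∀ L : Subgroup G, L ≠ ⊤ → (∀ a : A, ∀ x ∈ L, a • x ∈ L) → ∃ M : Subgroup G, L ≤ M ∧
      (M ≠ ⊤ ∧ (∀ a : A, ∀ x ∈ M, a • x ∈ M) ∧ ∀ L : Subgroup G, M < L → (∀ a : A, ∀ x ∈ L, a • x ∈ L) → L = ⊤) := by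
    intro L hL hLi
    obtain ⟨M, hLM, hM⟩ := Finite.exists_le_maximal
      (p := fun M : Subgroup G => M ≠ ⊤ ∧ ∀ a : A, ∀ x ∈ M, a • x ∈ M) (a := L) ⟨hL, hLi⟩
    exact ⟨M, hLM, hM.1.1, hM.1.2, fun K hK hKi => of_not_not fun h => hK.not_ge (hM.2 ⟨h, hKi⟩ hK.le)⟩
  have hsupinv : ∀ M : Subgroup G, (∀ a : A, ∀ x ∈ M, a • x ∈ M) → ∀ a : A, ∀ x ∈ M ⊔ frattini G, a • x ∈ M ⊔ frattini G := by
    intro M hM a x hx
    have : (M ⊔ frattini G).map (φ a).toMonoidHom ≤ M ⊔ frattini G := by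
      rw [Subgroup.map_sup]
      refine sup_le_sup ?_ ?_
      · rintro _ ⟨y, hy, rfl⟩; exact hM a y hy
      · rintro _ ⟨y, hy, rfl⟩; exact hΦinv a y hy
    exact this ⟨x, hx, rfl⟩
  have hΦM : ∀ M : Subgroup G, M ≠ ⊤ → (∀ a : A, ∀ x ∈ M, a • x ∈ M) →
      (∀ L : Subgroup G, M < L → (∀ a : A, ∀ x ∈ L, a • x ∈ L) → L = ⊤) → frattini G ≤ M := by
    intro M h1 h2 h3
    by_contra hne
    exact h1 (frattini_nongenerating (h3 _ (lt_of_le_of_ne le_sup_left fun e => hne (e ▸ le_sup_right)) (hsupinv M h2)))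
  have key : ((∃ p : ℕ, p.Prime ∧ IsPGroup p G) ∧ ∀ L : Subgroup G, frattini G < L → (∀ a : A, ∀ x ∈ L, a • x ∈ L) → L = ⊤) →
      ∀ M : Subgroup G, (M ≠ ⊤ ∧ (∀ a : A, ∀ x ∈ M, a • x ∈ M) ∧ ∀ L : Subgroup G, M < L → (∀ a : A, ∀ x ∈ L, a • x ∈ L) → L = ⊤) ↔ (M = frattini G ∧ M ≠ ⊤) := by
    rintro ⟨-, hc⟩ M
    refine ⟨fun ⟨h1, h2, h3⟩ => ⟨?_, h1⟩, fun ⟨h1, h2⟩ => ⟨h2, h1 ▸ hΦinv, h1 ▸ hc⟩⟩
    by_contra hne
    exact h1 (hc M (lt_of_le_of_ne (hΦM M h1 h2 h3) (Ne.symm hne)) h2)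
  refine ⟨⟨fun h => ?_, fun hc M N hM hN => ⟨1, fun a => smul_one a, ?_⟩⟩, key⟩
  swap
  · rw [((key hc M).1 hM).1, ((key hc N).1 hN).1, map_one, one_smul]
  rcases subsingleton_or_nontrivial G with hsub | hnt
  · refine ⟨⟨2, Nat.prime_two, fun x => ⟨0, Subsingleton.elim _ _⟩⟩, fun L hL _ => ?_⟩
    exact absurd (Subsingleton.elim _ _) hL.ne
  obtain ⟨M0, -, hM0⟩ := hex ⊥ bot_ne_top (fun a x hx => by
    rw [Subgroup.mem_bot] at hx ⊢; rw [hx, smul_one])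
  obtain ⟨p, hp, hG⟩ : ∃ p : ℕ, p.Prime ∧ IsPGroup p G := by
    by_contra hcon
    push Not at hcon
    apply hM0.1
    refine CfsgLib.Constrained.eq_top_of_forall_sylow_le M0 fun q hq => ?_
    have := Fact.mk hq
    obtain ⟨P, hP⟩ := CfsgLib.Coprime.exists_invariant_sylow_action φ (p := q) hcop hsol
    have hPt : (P : Subgroup G) ≠ ⊤ := fun ht =>
      hcon q hq (P.2.of_equiv ((MulEquiv.subgroupCongr ht).trans Subgroup.topEquiv))
    obtain ⟨M, hPM, hM⟩ := hex _ hPt hP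
    obtain ⟨c, -, hc⟩ := h M M0 hM hM0
    refine ⟨c • P, ?_⟩
    rw [Sylow.coe_subgroup_smul, hc]
    exact Subgroup.pointwise_smul_le_pointwise_smul_iff.2 hPM
  refine ⟨⟨p, hp, hG⟩, fun L hL hLi => ?_⟩
  by_contra hLt
  obtain ⟨M, hLM, hM⟩ := hex L hLt hLi
  have := Fact.mk hp
  have hpA : ¬ p ∣ Nat.card A := by
    intro hd
    obtain ⟨k, hk⟩ := IsPGroup.iff_card.1 hG
    have hk0 : k ≠ 0 := by rintro rfl; exact absurd hk (by rw [pow_zero]; exact (Finite.one_lt_card (α := G)).ne')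
    exact hp.ne_one (Nat.eq_one_of_dvd_coprimes hcop hd (hk ▸ dvd_pow_self p hk0))
  obtain ⟨K, hK, hKi, hKinf⟩ := CfsgLib.Averaging.exists_invariant_frattini_compl hG φ hpA M
    (hΦM M hM.1 hM.2.1 hM.2.2) hM.2.1 hM.1
  have hKt : K ≠ ⊤ := fun e => (hL.trans_le hLM).ne (by rw [← hKinf, e, inf_top_eq])
  obtain ⟨M', hKM', hM'⟩ := hex K hKt hKi
  obtain ⟨c, -, hc⟩ := h M M' hM hM'
  have hMn : M.Normal := by
    refine ⟨fun m hm g => ?_⟩
    have h1 : g * m * g⁻¹ * m⁻¹ ∈ frattini G := CfsgLib.PGroup.commutatorElement_mem_frattini hG g m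
    have h2 := mul_mem (hΦM M hM.1 hM.2.1 hM.2.2 h1) hm
    rwa [inv_mul_cancel_right] at h2
  rw [hc, Subgroup.Normal.conj_smul_eq_self] at hKM'
  exact hK.ne (by rw [← hKinf, inf_eq_right.2 hKM'])

end Cfsg.Agent.S4381
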