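import Cfsg.Statements.S4387


set_option autoImplicit false
open Pointwise
open Cfsg

namespace Cfsg.Agent.S4387

/-- Let G be a non-trivial finite group in which any two maximal subgroups are conjugate. Then G is cyclic of prime-power order. -/
theorem result {G : Type*} [Group G] [Finite G] [Nontrivial G]
    (h : ∀ M N : Subgroup G, IsCoatom M → IsCoatom N → ∃ g : G, N = MulAut.conj g • M) :
    IsCyclic G ∧ IsPrimePow (Nat.card G) := by
  have hcov : ∃ x : G, ∀ M : Subgroup G, IsCoatom M → x ∉ M := by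
    obtain ⟨M₀, hM₀, -⟩ := (eq_top_or_exists_le_coatom (⊥ : Subgroup G)).resolve_left bot_ne_top
    by_contra hc
    push Not at hc
    have hsurj : Function.Surjective (fun z : (G ⧸ M₀) × M₀ => z.1.out * (z.2 : G) * z.1.out⁻¹) := by
      intro x
      obtain ⟨M, hM, hx⟩ := hc x
      obtain ⟨g, rfl⟩ := h M₀ M hM₀ hM
      obtain ⟨m, hm, rfl⟩ := hx
      obtain ⟨k, hk⟩ := QuotientGroup.mk_out_eq_mul M₀ g
      refine ⟨(QuotientGroup.mk g, ⟨(k : G)⁻¹ * m * k, mul_mem (mul_mem (inv_mem k.2) hm) k.2⟩), ?_⟩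
      change (QuotientGroup.mk g : G ⧸ M₀).out * ((k : G)⁻¹ * m * k) * (QuotientGroup.mk g : G ⧸ M₀).out⁻¹ = g * m * g⁻¹
      rw [hk]; group
    have hcard : Nat.card ((G ⧸ M₀) × M₀) = Nat.card G := by
      rw [Nat.card_prod, ← Subgroup.index_eq_card, Subgroup.index_mul_card]
    have hinj := ((Nat.bijective_iff_surjective_and_card _).2 ⟨hsurj, hcard⟩).1
    obtain ⟨g, hg⟩ : ∃ g, g ∉ M₀ := by
      by_contra hall; push Not at hall
      exact hM₀.1 (eq_top_iff.2 fun a _ => hall a)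
    have := @hinj (QuotientGroup.mk g, 1) (QuotientGroup.mk 1, 1) (by simp)
    exact hg (by simpa [QuotientGroup.eq] using congrArg Prod.fst this)
  obtain ⟨x, hx⟩ := hcov
  have htop : Subgroup.zpowers x = ⊤ := by
    refine (eq_top_or_exists_le_coatom _).resolve_right ?_
    rintro ⟨M, hM, hxM⟩
    exact hx M hM (hxM (Subgroup.mem_zpowers x))
  have hcyc : IsCyclic G := ⟨⟨x, fun a => Subgroup.mem_zpowers_iff.1 (by rw [htop]; exact Subgroup.mem_top a)⟩⟩
  refine ⟨hcyc, ?_⟩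
  obtain ⟨p, hp, hpd⟩ := Nat.exists_prime_and_dvd (Finite.one_lt_card (α := G)).ne'
  refine isPrimePow_iff_unique_prime_dvd.2 ⟨p, ⟨hp, hpd⟩, ?_⟩
  rintro q ⟨hq, hqd⟩
  by_contra hne
  have hox : orderOf x = Nat.card G := by rw [← Nat.card_zpowers, htop, Subgroup.card_top]
  have proper : ∀ r : ℕ, r.Prime → r ∣ Nat.card G → Subgroup.zpowers (x ^ r) ≠ ⊤ := by
    intro r hr hrd he
    have : Nat.card (Subgroup.zpowers (x ^ r)) = Nat.card G := by rw [he, Subgroup.card_top]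
    rw [Nat.card_zpowers, orderOf_pow_of_dvd hr.ne_zero (hox ▸ hrd), hox] at this
    exact absurd this (Nat.div_lt_self Nat.card_pos hr.one_lt).ne
  obtain ⟨M, hM, hMp⟩ := (eq_top_or_exists_le_coatom _).resolve_left (proper p hp hpd)
  obtain ⟨M', hM', hMq⟩ := (eq_top_or_exists_le_coatom _).resolve_left (proper q hq hqd)
  obtain ⟨g, rfl⟩ := h M' M hM' hM
  have hxx : ∀ a : G, MulAut.conj g • M' = M' := fun _ => by
    letI := hcyc.commGroup
    ext a
    constructor
    · rintro ⟨b, hb, rfl⟩; simpa [MulAut.conj_apply] using hb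
    · intro ha; exact ⟨a, ha, by simp [MulAut.conj_apply]⟩
  rw [hxx x] at hMp
  obtain ⟨a, b, hab⟩ := (Nat.isCoprime_iff_coprime.2 ((Nat.coprime_primes hp hq).2 (Ne.symm hne)))
  refine hx M' hM' ?_
  have : x = (x ^ p) ^ a * (x ^ q) ^ b := by
    rw [← zpow_natCast x p, ← zpow_natCast x q, ← zpow_mul, ← zpow_mul, ← zpow_add, mul_comm (p:ℤ), mul_comm (q:ℤ), hab, zpow_one]
  rw [this]
  exact mul_mem (zpow_mem (hMp (Subgroup.mem_zpowers _)) a) (zpow_mem (hMq (Subgroup.mem_zpowers _)) b)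

end Cfsg.Agent.S4387
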