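import Cfsg.Statements.S4396
import Cfsg.Agent.Frobenius48.FreeModule
import Cfsg.Agent.Frobenius.Basic
import Cfsg.Agent.Eq.Def_Solvable
import Mathlib

set_option autoImplicit false
open Cfsg

namespace Cfsg.Agent.S4396

/-- Let the finite group A act faithfully and linearly on a finite-dimensional vector space V over a field k, and suppose A is a Frobenius group with nilpotent kernel F (every Frobenius kernel is nilpotent) and complement H such that F fixes no nonzero vector. Then V is free as a module for H: there is a subspace W with V the direct sum of the translates hW, h ∈ H. (No assumption on the characteristic of k.) -/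
theorem result {k V A : Type*} [Field k] [AddCommGroup V] [Module k V] [FiniteDimensional k V] [Group A] [Finite A] [DecidableEq A]
    (ρ : Representation k A V) (hρ : Function.Injective ρ)
    (Fk Hc : Subgroup A) [Fk.Normal] (hHc : Cfsg.IsFrobeniusComplement Hc) (hker : Cfsg.frobeniusKernel Hc = (Fk : Set A)) (hnil : Group.IsNilpotent ↥Fk)
    (hCF : ∀ v : V, (∀ f ∈ Fk, ρ f v = v) → v = 0) :
    ∃ W : Submodule k V, DirectSum.IsInternal (fun h : ↥Hc => W.map (ρ (h : A))) := by
  classical
  let φ : ↥Hc →* MulAut ↥Fk := (MulAut.conjNormal (H := Fk)).comp Hc.subtype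
  have hφ : ∀ h : ↥Hc, h ≠ 1 → ∀ f : ↥Fk, φ h f = f → f = 1 := by
    intro h hh f hf
    have hf' : (h : A) * (f : A) * (h : A)⁻¹ = f := by
      have := congrArg Subtype.val hf
      simpa [φ, MulAut.conjNormal_apply] using this
    exact Subtype.ext (CfsgLib.Frobenius.kernel_fpf hHc hker.symm h.2
      (fun e => hh (Subtype.ext e)) f.2 hf')
  haveI := hnil
  obtain ⟨n, e, he⟩ := CfsgLib.FrobFree.isFree_aux (k := k) (H := ↥Hc) (Nat.card ↥Fk) φ hφ
    (ρ.comp Hc.subtype) (ρ.comp Fk.subtype) (fun h f v => by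
      show ρ (h : A) (ρ (f : A) v) = ρ ((φ h f : ↥Fk) : A) (ρ (h : A) v)
      rw [← Module.End.mul_apply, ← map_mul, ← Module.End.mul_apply, ← map_mul]
      simp [φ, MulAut.conjNormal_apply, mul_assoc])
    (fun v hv => hCF v fun f hf => hv ⟨f, hf⟩) le_rfl
  have he' : ∀ (g x : ↥Hc) v, e (ρ (g : A) v) x = e v (g⁻¹ * x) := fun g x v => congrFun (he g v) x
  refine ⟨LinearMap.range (e.symm.toLinearMap ∘ₗ LinearMap.single k (fun _ : ↥Hc => Fin n → k) 1), ?_⟩
  set W := LinearMap.range (e.symm.toLinearMap ∘ₗ LinearMap.single k (fun _ : ↥Hc => Fin n → k) 1)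
    with hW
  have mem : ∀ (h : ↥Hc) (v : V), v ∈ W.map (ρ (h : A)) ↔ ∀ x, x ≠ h → e v x = 0 := by
    intro h v
    constructor
    · rintro ⟨w, ⟨u, rfl⟩, rfl⟩ x hx
      rw [he', LinearMap.comp_apply, LinearMap.single_apply, LinearEquiv.coe_coe, LinearEquiv.apply_symm_apply,
        Pi.single_eq_of_ne]
      exact fun hc => hx (inv_mul_eq_one.mp hc).symm
    · intro hv
      refine ⟨e.symm (Pi.single 1 (e v h)), ⟨e v h, rfl⟩, e.injective (funext fun x => ?_)⟩
      rw [he', LinearEquiv.apply_symm_apply]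
      by_cases hx : x = h
      · subst hx; rw [inv_mul_cancel, Pi.single_eq_same]
      · rw [Pi.single_eq_of_ne (fun hc => hx (inv_mul_eq_one.mp hc).symm), hv x hx]
  refine DirectSum.isInternal_submodule_of_iSupIndep_of_iSup_eq_top ?_ ?_
  · intro g
    rw [disjoint_iff, Submodule.eq_bot_iff]
    rintro v ⟨h1, h2⟩
    have h3 : e v g = 0 := by
      have hle : (⨆ h, ⨆ (_ : h ≠ g), W.map (ρ ((h : ↥Hc) : A))) ≤
          LinearMap.ker (LinearMap.proj g ∘ₗ e.toLinearMap) :=
        iSup₂_le fun h hh v hv => (mem h v).mp hv g (Ne.symm hh)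
      exact hle h2
    apply e.injective
    rw [map_zero]
    funext x
    by_cases hx : x = g
    · rw [hx]; exact h3
    · exact (mem g v).mp h1 x hx
  · rw [Submodule.eq_top_iff']
    intro v
    haveI := Fintype.ofFinite ↥Hc
    have : v = ∑ h : ↥Hc, e.symm (Pi.single h (e v h)) := by
      rw [← map_sum, Finset.univ_sum_single, LinearEquiv.symm_apply_apply]
    rw [this]
    refine Submodule.sum_mem _ fun h _ => Submodule.mem_iSup_of_mem h ((mem h _).mpr fun x hx => ?_)
    rw [LinearEquiv.apply_symm_apply, Pi.single_eq_of_ne hx]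

end Cfsg.Agent.S4396
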