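import Cfsg.Statements.S4398
import Cfsg.Agent.TwoGroup.SectionalRankTwo

set_option autoImplicit false
open Cfsg

namespace Cfsg.Agent.S4398

/-- Let S be a finite 2-group of sectional 2-rank at most 2 that contains a subgroup isomorphic to the dihedral group of order 8 or to the quaternion group of order 8. Then S is dihedral of order at least 8, semidihedral of order at least 16 (order 2^(k+4) with an element a of order 2^(k+3) and an involution b with b a b⁻¹ = a^(2^(k+2)−1)), or generalized quaternion of order at least 8. -/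
theorem result {S : Type*} [Group S] [Finite S] (h2 : IsPGroup 2 S) (hr : Cfsg.SectionalPRankLE 2 2 S)
    (hsub : ∃ H : Subgroup S, Nonempty (↥H ≃* DihedralGroup 4) ∨ Nonempty (↥H ≃* QuaternionGroup 2)) :
    ((∃ k : ℕ, Nonempty (S ≃* DihedralGroup (2 ^ (k + 2)))) ∨
      (∃ k : ℕ, Nat.card S = 2 ^ (k + 4) ∧ ∃ a b : S, orderOf a = 2 ^ (k + 3) ∧ orderOf b = 2 ∧ b * a * b⁻¹ = a ^ (2 ^ (k + 2) - 1)) ∨
      (∃ k : ℕ, Nonempty (S ≃* QuaternionGroup (2 ^ (k + 1))))) := by
  obtain ⟨H, hH⟩ := hsub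
  have h8 : Nat.card H = 8 ∧ ¬ IsMulCommutative H := by
    rcases hH with ⟨⟨e⟩⟩ | ⟨⟨e⟩⟩
    · refine ⟨by rw [Nat.card_congr e.toEquiv, DihedralGroup.nat_card], fun hc => ?_⟩
      have h1 := congrArg e (hc.is_comm.comm (e.symm (DihedralGroup.r 1)) (e.symm (DihedralGroup.sr 0)))
      simp only [map_mul, MulEquiv.apply_symm_apply] at h1
      revert h1; decide
    · refine ⟨by rw [Nat.card_congr e.toEquiv, Nat.card_eq_fintype_card, QuaternionGroup.card], fun hc => ?_⟩
      have h1 := congrArg e (hc.is_comm.comm (e.symm (QuaternionGroup.a 1)) (e.symm (QuaternionGroup.xa 0)))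
      simp only [map_mul, MulEquiv.apply_symm_apply] at h1
      revert h1; decide
  rcases (CfsgLib.TwoGroup.isMaxClassType_of_sectional h2 hr H h8.1 h8.2).dihedral_or_quaternion_or_quasiDihedral
    with h | h | ⟨n, hn, hc, a, b, ha, hb, hab⟩
  · exact Or.inl h
  · exact Or.inr (Or.inr h)
  · obtain ⟨k, rfl⟩ : ∃ k, n = k + 3 := ⟨n - 3, by omega⟩
    exact Or.inr (Or.inl ⟨k, hc, a, b, ha, hb, hab⟩)

end Cfsg.Agent.S4398
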