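import Cfsg.Statements.S4401
import Cfsg.Agent.Eq.Def_CaseTheorems
import Cfsg.Agent.S4400

set_option autoImplicit false
open Cfsg

namespace Cfsg.Agent.S4401

open scoped Pointwise commutatorElement

theorem sectional_of_injective {G H : Type*} [Group G] [Group H] {p k : ℕ} (f : H →* G)
    (hf : Function.Injective f) (h : Cfsg.SectionalPRankLE p k G) : Cfsg.SectionalPRankLE p k H := by
  intro U N hN A hA hA2
  let e : U ≃* U.map f := U.equivMapOfInjective f hf
  haveI : (N.map (e : U →* U.map f)).Normal := hN.map _ e.surjective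
  let g : (U ⧸ N) ≃* (U.map f ⧸ N.map (e : U →* U.map f)) := QuotientGroup.congr N _ e rfl
  have h1 := h (U.map f) (N.map (e : U →* U.map f)) (A.map g.toMonoidHom) (by
      refine ⟨⟨fun a b => Subtype.ext ?_⟩⟩
      obtain ⟨a', ha', hae⟩ := a.2
      obtain ⟨b', hb', hbe⟩ := b.2
      rw [Subgroup.coe_mul, Subgroup.coe_mul, ← hae, ← hbe, ← map_mul, ← map_mul]
      exact congrArg _ (congrArg Subtype.val (hA.is_comm.comm (⟨a', ha'⟩ : A) ⟨b', hb'⟩))) (by
      rintro _ ⟨a, ha, rfl⟩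
      rw [← map_pow, hA2 a ha, map_one])
  rwa [← Nat.card_congr (A.equivMapOfInjective g.toMonoidHom g.injective).toEquiv] at h1

theorem sectional_of_square {P : Type*} [Group P] (h : Cfsg.SectionalPRankLE 2 4 (P × P)) :
    Cfsg.SectionalPRankLE 2 2 P := by
  intro U N hN A hA hA2
  let π := QuotientGroup.mk' N
  let φ : U.prod U →* (U ⧸ N) × (U ⧸ N) :=
    ((π.prodMap π).comp (Subgroup.prodEquiv U U).toMonoidHom)
  have hφ : Function.Surjective φ := by
    rintro ⟨a, b⟩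
    obtain ⟨a, rfl⟩ := QuotientGroup.mk'_surjective N a
    obtain ⟨b, rfl⟩ := QuotientGroup.mk'_surjective N b
    exact ⟨(Subgroup.prodEquiv U U).symm (a, b), by simp [φ, π]⟩
  let g := QuotientGroup.quotientKerEquivOfSurjective φ hφ
  let A' : Subgroup ((U.prod U) ⧸ φ.ker) := (A.prod A).comap g.toMonoidHom
  have h1 := h (U.prod U) φ.ker A' (by
      refine ⟨⟨fun a b => Subtype.ext (g.injective ?_)⟩⟩
      rw [Subgroup.coe_mul, Subgroup.coe_mul, map_mul, map_mul]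
      exact Prod.ext (congrArg Subtype.val (hA.is_comm.comm (⟨_, a.2.1⟩ : A) ⟨_, b.2.1⟩))
        (congrArg Subtype.val (hA.is_comm.comm (⟨_, a.2.2⟩ : A) ⟨_, b.2.2⟩))) (by
      intro a ha
      apply g.injective
      rw [map_pow, map_one]
      exact Prod.ext (hA2 _ ha.1) (hA2 _ ha.2))
  have e : Nat.card A' = Nat.card A * Nat.card A := by
    rw [← Nat.card_prod]
    exact Nat.card_congr ((Equiv.subtypeEquiv g.toEquiv (fun a => Iff.rfl)).trans
      (Subgroup.prodEquiv A A).toEquiv)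
  rw [e] at h1
  nlinarith

theorem conj_eq_iff_commute {S : Type*} [Group S] (u z : S) : u * z * u⁻¹ = z ↔ u * z = z * u :=
  mul_inv_eq_iff_eq_mul

theorem center_map_conj {S : Type*} [Group S] (P : Subgroup S) (g : S) :
    Nat.card ↥(Subgroup.center ↥(P.map (MulAut.conj g).toMonoidHom)) =
      Nat.card ↥(Subgroup.center ↥P) := by
  let e : P ≃* P.map (MulAut.conj g).toMonoidHom :=
    P.equivMapOfInjective _ (MulAut.conj g).injective
  exact (Nat.card_congr (Subgroup.centerCongr e).toEquiv).symm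

theorem pair {S : Type*} [Group S] [Finite S] (h2 : IsPGroup 2 S)
    (hr : Cfsg.SectionalPRankLE 2 4 S) (S₀ P : Subgroup S) (hPS : P ≤ S₀)
    (hPn : ∀ s ∈ S₀, ∀ x ∈ P, s * x * s⁻¹ ∈ P) (hP : ¬ IsMulCommutative ↥P)
    (hZP : Nat.card ↥(Subgroup.center ↥P) = 2) (z : S) (hzP : z ∈ P) (hzc : ∀ x ∈ P, x * z = z * x)
    (hz1 : z ≠ 1) (a b : S) (ha : ∀ u, u ∈ S₀ ↔ a * u * a⁻¹ ∈ S₀) (hb : ∀ u, u ∈ S₀ ↔ b * u * b⁻¹ ∈ S₀)
    (hne : a * z * a⁻¹ ≠ b * z * b⁻¹) :
    (∀ x ∈ P, ∀ y ∈ P, Commute (a * x * a⁻¹) (b * y * b⁻¹)) ∧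
      (∀ x ∈ P, ∀ y ∈ P, a * x * a⁻¹ = b * y * b⁻¹ → a * x * a⁻¹ = 1) ∧
      ∀ d ∈ S₀, (∀ x ∈ P, Commute d (a * x * a⁻¹)) → (∀ y ∈ P, Commute d (b * y * b⁻¹)) →
        ∃ x ∈ P, ∃ y ∈ P, d = a * x * a⁻¹ * (b * y * b⁻¹) := by
  let A : Subgroup S := P.map (MulAut.conj a).toMonoidHom
  let B : Subgroup S := P.map (MulAut.conj b).toMonoidHom
  have hconjS : ∀ g : S, (∀ u, u ∈ S₀ ↔ g * u * g⁻¹ ∈ S₀) →
      P.map (MulAut.conj g).toMonoidHom ≤ S₀ ∧
      ((P.map (MulAut.conj g).toMonoidHom).subgroupOf S₀).Normal := by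
    intro g hg
    refine ⟨?_, ⟨fun x hx w => ?_⟩⟩
    · rintro _ ⟨x, hx, rfl⟩; exact (hg x).1 (hPS hx)
    · obtain ⟨y, hy, hyx⟩ := hx
      have hw : g⁻¹ * (w : S) * g ∈ S₀ := (hg _).2 (by simpa [mul_assoc] using w.2)
      refine ⟨g⁻¹ * (w : S) * g * y * (g⁻¹ * (w : S) * g)⁻¹, hPn _ hw y hy, ?_⟩
      change g * (g⁻¹ * (w : S) * g * y * (g⁻¹ * (w : S) * g)⁻¹) * g⁻¹ = (w : S) * x * (w : S)⁻¹
      rw [show g * (g⁻¹ * (w : S) * g * y * (g⁻¹ * (w : S) * g)⁻¹) * g⁻¹ =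
        (w : S) * (g * y * g⁻¹) * (w : S)⁻¹ by group]
      change g * y * g⁻¹ = (x : S) at hyx
      rw [hyx]
  obtain ⟨hAS, hAn⟩ := hconjS a ha
  obtain ⟨hBS, hBn⟩ := hconjS b hb
  have hnc : ∀ g : S, P.map (MulAut.conj g).toMonoidHom ≤ S₀ →
      ¬ IsMulCommutative ↥((P.map (MulAut.conj g).toMonoidHom).subgroupOf S₀) ∧
      Nat.card ↥(Subgroup.center ↥((P.map (MulAut.conj g).toMonoidHom).subgroupOf S₀)) = 2 ∧
      ∃ w : S₀, (w : S) = g * z * g⁻¹ ∧
        w ∈ (Subgroup.center ↥((P.map (MulAut.conj g).toMonoidHom).subgroupOf S₀)).map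
          ((P.map (MulAut.conj g).toMonoidHom).subgroupOf S₀).subtype := by
    intro g hg
    let e := (Subgroup.subgroupOfEquivOfLe hg).trans
      (P.equivMapOfInjective (MulAut.conj g).toMonoidHom (MulAut.conj g).injective).symm
    refine ⟨fun h => hP ⟨⟨fun x y => e.symm.injective (by
      rw [map_mul, map_mul]; exact h.is_comm.comm _ _)⟩⟩,
      (Nat.card_congr (Subgroup.centerCongr e).toEquiv).trans hZP, ?_⟩
    refine ⟨⟨g * z * g⁻¹, hg ⟨z, hzP, rfl⟩⟩, rfl,
      ⟨⟨g * z * g⁻¹, hg ⟨z, hzP, rfl⟩⟩, ⟨z, hzP, rfl⟩⟩, Subgroup.mem_center_iff.2 fun x => ?_, rfl⟩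
    obtain ⟨y, hy, hyx⟩ := x.2
    apply Subtype.ext; apply Subtype.ext
    change ((x : S₀) : S) * (g * z * g⁻¹) = g * z * g⁻¹ * ((x : S₀) : S)
    change g * y * g⁻¹ = ((x : S₀) : S) at hyx
    rw [← hyx]
    calc g * y * g⁻¹ * (g * z * g⁻¹) = g * (y * z) * g⁻¹ := by group
      _ = g * (z * y) * g⁻¹ := by rw [hzc y hy]
      _ = _ := by group
  obtain ⟨hA1, hA2, wa, hwa, hwa'⟩ := hnc a hAS
  obtain ⟨hB1, hB2, wb, hwb, hwb'⟩ := hnc b hBS
  have hneq : (Subgroup.center ↥(A.subgroupOf S₀)).map (A.subgroupOf S₀).subtype ≠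
      (Subgroup.center ↥(B.subgroupOf S₀)).map (B.subgroupOf S₀).subtype := by
    intro h
    rw [h] at hwa'
    obtain ⟨u, hu, hua⟩ := hwa'
    obtain ⟨v, hv, hvb⟩ := hwb'
    have one_of : ∀ g : S, g * z * g⁻¹ ≠ 1 := fun g h0 => hz1 (conj_eq_one_iff.1 h0)
    obtain ⟨w, -, hw⟩ := (Nat.card_eq_two_iff' (1 : Subgroup.center ↥(B.subgroupOf S₀))).1 hB2
    have e1 := hw ⟨u, hu⟩ (fun h0 => one_of a (by
      rw [← hwa, ← hua, show u = 1 from congrArg Subtype.val h0]; rfl))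
    have e2 := hw ⟨v, hv⟩ (fun h0 => one_of b (by
      rw [← hwb, ← hvb, show v = 1 from congrArg Subtype.val h0]; rfl))
    have : wa = wb := by
      rw [← hua, ← hvb, show u = v from congrArg Subtype.val (e1.trans e2.symm)]
    exact hne (by rw [← hwa, ← hwb, this])
  haveI := hAn
  haveI := hBn
  obtain ⟨r1, r2, r3⟩ := Cfsg.Agent.S4400.result (h2.to_subgroup S₀)
    (sectional_of_injective S₀.subtype S₀.subtype_injective hr)
    (A.subgroupOf S₀) (B.subgroupOf S₀) hA1 hB1 hA2 hB2 hneq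
  have hcomm : ∀ x ∈ P, ∀ y ∈ P, Commute (a * x * a⁻¹) (b * y * b⁻¹) := by
    intro x hx y hy
    have := Subgroup.mem_bot.1 (r1 ▸ Subgroup.commutator_mem_commutator
      (show (⟨a * x * a⁻¹, hAS ⟨x, hx, rfl⟩⟩ : S₀) ∈ A.subgroupOf S₀ from ⟨x, hx, rfl⟩)
      (show (⟨b * y * b⁻¹, hBS ⟨y, hy, rfl⟩⟩ : S₀) ∈ B.subgroupOf S₀ from ⟨y, hy, rfl⟩))
    exact congrArg Subtype.val (commutatorElement_eq_one_iff_mul_comm.1 this)
  refine ⟨hcomm, fun x hx y hy h => ?_, fun d hd hda hdb => ?_⟩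
  · have hm : (⟨a * x * a⁻¹, hAS ⟨x, hx, rfl⟩⟩ : S₀) ∈ A.subgroupOf S₀ ⊓ B.subgroupOf S₀ :=
      ⟨⟨x, hx, rfl⟩, ⟨y, hy, h.symm⟩⟩
    rw [r2, Subgroup.mem_bot] at hm
    exact congrArg Subtype.val hm
  · have hd' : (⟨d, hd⟩ : S₀) ∈ Subgroup.centralizer
        ((A.subgroupOf S₀ ⊔ B.subgroupOf S₀ : Subgroup S₀) : Set S₀) := by
      have hle : A.subgroupOf S₀ ⊔ B.subgroupOf S₀ ≤ Subgroup.centralizer ({⟨d, hd⟩} : Set S₀) :=
        sup_le (fun w ⟨x, hx, hxw⟩ => Subgroup.mem_centralizer_singleton_iff.2 (Subtype.ext (by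
            rw [Subgroup.coe_mul, Subgroup.coe_mul]
            exact ((show (w : S) = a * x * a⁻¹ from hxw.symm) ▸ hda x hx).symm)))
          (fun w ⟨x, hx, hxw⟩ => Subgroup.mem_centralizer_singleton_iff.2 (Subtype.ext (by
            rw [Subgroup.coe_mul, Subgroup.coe_mul]
            exact ((show (w : S) = b * x * b⁻¹ from hxw.symm) ▸ hdb x hx).symm)))
      rw [Subgroup.mem_centralizer_iff]
      intro w hw
      exact Subgroup.mem_centralizer_singleton_iff.1 (hle hw)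
    obtain ⟨⟨x', hx'⟩, hxa, ⟨y', hy'⟩, hyb, hxy⟩ := Subgroup.mem_sup_of_normal_left.1 (r3 hd')
    obtain ⟨x, hx, rfl⟩ := hxa
    obtain ⟨y, hy, rfl⟩ := hyb
    exact ⟨x, hx, y, hy, (congrArg Subtype.val hxy).symm⟩


/-- Let S be a finite 2-group of sectional 2-rank at most 4 and P a proper non-abelian subgroup whose centre has order 2. Let S₀ be the centralizer in S of Z(P) and suppose P is normal in S₀. Then either S₀ = S, or P has sectional 2-rank at most 2 and S₀ has index 2 in S. -/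
theorem result {S : Type*} [Group S] [Finite S] (h2 : IsPGroup 2 S) (hr : Cfsg.SectionalPRankLE 2 4 S)
    (P : Subgroup S) (hPlt : P ≠ ⊤) (hP : ¬ IsMulCommutative ↥P) (hZP : Nat.card ↥(Subgroup.center ↥P) = 2)
    (S₀ : Subgroup S) (hS₀ : S₀ = Subgroup.centralizer (((Subgroup.center ↥P).map P.subtype : Subgroup S) : Set S))
    (hPn : ∀ s ∈ S₀, ∀ x ∈ P, s * x * s⁻¹ ∈ P) :
    S₀ = ⊤ ∨ (Cfsg.SectionalPRankLE 2 2 ↥P ∧ S₀.index = 2) := by
  classical
  haveI : Fact (Nat.Prime 2) := ⟨Nat.prime_two⟩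
  obtain ⟨zz, hzz1, hzuniq⟩ := (Nat.card_eq_two_iff' (1 : Subgroup.center ↥P)).1 hZP
  set z : S := ((zz : P) : S) with hz
  have hzP : z ∈ P := (zz : P).2
  have hz1 : z ≠ 1 := fun h => hzz1 (Subtype.ext (Subtype.ext h))
  have hzc : ∀ x ∈ P, x * z = z * x := fun x hx =>
    congrArg Subtype.val (Subgroup.mem_center_iff.1 zz.2 ⟨x, hx⟩)
  have hzonly : ∀ x ∈ P, (∀ y ∈ P, y * x = x * y) → x = 1 ∨ x = z := by
    intro x hx hc
    by_cases h1 : x = 1
    · exact Or.inl h1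
    · right
      have := hzuniq ⟨⟨x, hx⟩, Subgroup.mem_center_iff.2 fun y => Subtype.ext (hc y y.2)⟩
        (fun h => h1 (congrArg (fun w : Subgroup.center ↥P => ((w : P) : S)) h))
      exact congrArg (fun w : Subgroup.center ↥P => ((w : P) : S)) this
  have memS₀ : ∀ u, u ∈ S₀ ↔ u * z = z * u := by
    intro u
    rw [hS₀, Subgroup.mem_centralizer_iff]
    constructor
    · intro h; exact (h z ⟨zz, zz.2, rfl⟩).symm
    · rintro h _ ⟨w, hw, rfl⟩
      rcases hzonly w w.2 (fun y hy => congrArg Subtype.val (Subgroup.mem_center_iff.1 hw ⟨y, hy⟩))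
        with h1 | h1
      · simp [h1]
      · rw [Subgroup.subtype_apply, h1]; exact h.symm
  have hPS : P ≤ S₀ := fun x hx => (memS₀ x).2 (hzc x hx)
  by_cases htop : S₀ = ⊤
  · exact Or.inl htop
  right
  set N := Subgroup.normalizer (S₀ : Set S) with hN
  have hnorm : ∀ {g : S}, g ∈ N → ∀ u, u ∈ S₀ ↔ g * u * g⁻¹ ∈ S₀ := fun hg u =>
    Subgroup.mem_normalizer_iff.1 hg u
  haveI := h2.isNilpotent
  obtain ⟨s, hsN, hs⟩ := SetLike.exists_of_lt
    (Group.normalizerCondition_of_isNilpotent S₀ (lt_top_iff_ne_top.2 htop))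
  set z' := s * z * s⁻¹ with hz'
  have hzz' : z' ≠ z := fun h => hs ((memS₀ s).2 (mul_inv_eq_iff_eq_mul.1 h))
  have hconjz : ∀ {g h : S}, g * z * g⁻¹ = h * z * h⁻¹ → h⁻¹ * g ∈ S₀ := by
    intro g h e
    rw [memS₀]
    calc h⁻¹ * g * z = h⁻¹ * (g * z * g⁻¹) * g := by group
      _ = h⁻¹ * (h * z * h⁻¹) * g := by rw [e]
      _ = z * (h⁻¹ * g) := by group
  have hone : (1 : S) ∈ N := one_mem _
  obtain ⟨hcPQ, hdPQ, hcenPQ⟩ := pair h2 hr S₀ P hPS hPn hP hZP z hzP hzc hz1 1 s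
    (hnorm hone) (hnorm hsN) (by simpa using hzz'.symm)
  simp only [one_mul, inv_one, mul_one] at hcPQ hdPQ hcenPQ
  -- only two conjugates of `z` inside the normalizer
  have htwo : ∀ t ∈ N, t * z * t⁻¹ = z ∨ t * z * t⁻¹ = z' := by
    intro t ht
    by_contra h
    push Not at h
    obtain ⟨hcPR, -, -⟩ := pair h2 hr S₀ P hPS hPn hP hZP z hzP hzc hz1 1 t
      (hnorm hone) (hnorm ht) (by simpa using h.1.symm)
    obtain ⟨hcQR, -, -⟩ := pair h2 hr S₀ P hPS hPn hP hZP z hzP hzc hz1 s t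
      (hnorm hsN) (hnorm ht) h.2.symm
    simp only [one_mul, inv_one, mul_one] at hcPR
    refine hP ⟨⟨fun u v => Subtype.ext ?_⟩⟩
    obtain ⟨x, hx, y, hy, he⟩ := hcenPQ (t * (u : S) * t⁻¹) ((hnorm ht _).1 (hPS u.2))
      (fun w hw => (hcPR w hw u u.2).symm) (fun w hw => (hcQR w hw u u.2).symm)
    have hcm : Commute (t * (u : S) * t⁻¹) (t * (v : S) * t⁻¹) := by
      rw [he]
      exact (hcPR x hx v v.2).mul_left (hcQR y hy v v.2)
    change (u : S) * v = v * u
    have := hcm.eq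
    calc (u : S) * v = t⁻¹ * (t * (u : S) * t⁻¹ * (t * (v : S) * t⁻¹)) * t := by group
      _ = t⁻¹ * (t * (v : S) * t⁻¹ * (t * (u : S) * t⁻¹)) * t := by rw [this]
      _ = v * u := by group
  have hmul : ∀ {a b : S}, a ∈ N → b ∈ N → a ∉ S₀ → b ∉ S₀ → a * b ∈ S₀ := by
    intro a b ha hb ha' hb'
    have e1 : a⁻¹ * z * a⁻¹⁻¹ = z' := (htwo _ (inv_mem ha)).resolve_left fun e =>
      ha' (inv_mem_iff.1 ((memS₀ _).2 (mul_inv_eq_iff_eq_mul.1 e)))
    have e2 : b * z * b⁻¹ = z' := (htwo _ hb).resolve_left fun e =>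
      hb' ((memS₀ _).2 (mul_inv_eq_iff_eq_mul.1 e))
    simpa using hconjz (e2.trans e1.symm)
  have hrank : Cfsg.SectionalPRankLE 2 2 ↥P := by
    refine sectional_of_square ?_
    let g : P →* S := (MulAut.conj s).toMonoidHom.comp P.subtype
    let f : P × P →* S := MonoidHom.noncommCoprod P.subtype g (fun x y => hcPQ x x.2 y y.2)
    have hf : Function.Injective f := by
      rw [injective_iff_map_eq_one]
      rintro ⟨x, y⟩ hxy
      change (x : S) * (s * (y : S) * s⁻¹) = 1 at hxy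
      have e : (x : S)⁻¹ = s * (y : S) * s⁻¹ := inv_eq_of_mul_eq_one_right hxy
      have e1 := hdPQ _ (P.inv_mem x.2) _ y.2 e
      rw [e1] at e
      exact Prod.ext (Subtype.ext (inv_eq_one.1 e1)) (Subtype.ext (conj_eq_one_iff.1 e.symm))
    exact sectional_of_injective f hf hr
  refine ⟨hrank, ?_⟩
  have hNtop : N = ⊤ := by
    by_contra hNt
    obtain ⟨t, htN, ht⟩ := SetLike.exists_of_lt
      (Group.normalizerCondition_of_isNilpotent N (lt_top_iff_ne_top.2 hNt))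
    have htnorm : ∀ u, u ∈ N ↔ t * u * t⁻¹ ∈ N := fun u => Subgroup.mem_normalizer_iff.1 htN u
    set d := t * z * t⁻¹ with hd
    have memS' : ∀ u, t⁻¹ * u * t ∈ S₀ ↔ u * d = d * u := by
      intro u
      rw [memS₀]
      constructor
      · intro h
        calc u * d = t * (t⁻¹ * u * t * z) * t⁻¹ := by rw [hd]; group
          _ = t * (z * (t⁻¹ * u * t)) * t⁻¹ := by rw [h]
          _ = d * u := by rw [hd]; group
      · intro h
        calc t⁻¹ * u * t * z = t⁻¹ * (u * d) * t := by rw [hd]; group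
          _ = t⁻¹ * (d * u) * t := by rw [h]
          _ = z * (t⁻¹ * u * t) := by rw [hd]; group
    have hS₀N : S₀ ≤ N := Subgroup.le_normalizer
    have hdN : d ∈ N := (htnorm z).1 (hS₀N (hPS hzP))
    have htN' : ∀ u ∈ N, t⁻¹ * u * t ∈ N := fun u hu =>
      (htnorm _).2 (by simpa [mul_assoc] using hu)
    have hmul' : ∀ {a b : S}, a ∈ N → b ∈ N → a * d ≠ d * a → b * d ≠ d * b →
        (a * b) * d = d * (a * b) := by
      intro a b ha hb ha' hb'
      rw [← memS']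
      have := hmul (htN' a ha) (htN' b hb) (fun h => ha' ((memS' a).1 h)) (fun h => hb' ((memS' b).1 h))
      simpa [mul_assoc] using this
    by_cases hdS : d ∈ S₀
    · -- an element centralizing `d` that moves `z`
      obtain ⟨s', hs'N, hs'd, hs'⟩ : ∃ s', s' ∈ N ∧ s' * d = d * s' ∧ s' ∉ S₀ := by
        by_contra h
        push Not at h
        have hle : MulAut.conj t • S₀ ≤ S₀ := by
          rintro _ ⟨u, hu, rfl⟩
          change t * u * t⁻¹ ∈ S₀
          exact h _ ((htnorm u).1 (hS₀N hu)) ((memS' _).1 (by simpa [mul_assoc] using hu))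
        have heq : MulAut.conj t • S₀ = S₀ := Subgroup.eq_of_le_of_card_ge hle
          (Nat.card_congr (Subgroup.equivSMul (MulAut.conj t) S₀).toEquiv).le
        refine ht (Subgroup.mem_normalizer_iff.2 fun u => ⟨fun hu => hle ⟨u, hu, rfl⟩, fun hu => ?_⟩)
        rw [← heq] at hu
        obtain ⟨w, hw, hwu⟩ := hu
        have : w = u := (MulAut.conj t).injective hwu
        exact this ▸ hw
      have hs'z : s' * z * s'⁻¹ = z' := (htwo _ hs'N).resolve_left fun e =>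
        hs' ((memS₀ _).2 (mul_inv_eq_iff_eq_mul.1 e))
      have hs'P : ∀ x ∈ P, ∃ y ∈ P, s' * x * s'⁻¹ = s * y * s⁻¹ := by
        intro x hx
        refine ⟨(s⁻¹ * s') * x * (s⁻¹ * s')⁻¹, hPn _ (hconjz hs'z) x hx, ?_⟩
        group
      have hdP : ∀ x ∈ P, Commute d x := by
        intro x hx
        by_cases hxd : x * d = d * x
        · exact hxd.symm
        exfalso
        obtain ⟨y, hy, hxy⟩ := hs'P x hx
        have hq : s' * x * s'⁻¹ * d ≠ d * (s' * x * s'⁻¹) := by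
          intro h
          apply hxd
          have hc : Commute s' d := hs'd
          calc x * d = s'⁻¹ * (s' * x * s'⁻¹ * (s' * d)) := by group
            _ = s'⁻¹ * (s' * x * s'⁻¹ * d * s') := by rw [hc.eq]; group
            _ = s'⁻¹ * (d * (s' * x * s'⁻¹) * s') := by rw [h]
            _ = (s'⁻¹ * d) * s' * x := by group
            _ = d * s'⁻¹ * s' * x := by rw [(hc.inv_left).eq]
            _ = d * x := by group
        have hpq := hmul' (hS₀N (hPS hx))
          (N.mul_mem (N.mul_mem hs'N (hS₀N (hPS hx))) (N.inv_mem hs'N)) hxd hq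
        rw [hxy] at hpq
        set q := s * y * s⁻¹ with hqdef
        have hxd' : d * x * d⁻¹ ∈ P := hPn d hdS x hx
        have hqd : ∃ y' ∈ P, d * q * d⁻¹ = s * y' * s⁻¹ := by
          refine ⟨(s⁻¹ * d * s) * y * (s⁻¹ * d * s)⁻¹, hPn _ ((hnorm hsN _).2 ?_) y hy, ?_⟩
          · simpa [mul_assoc] using hdS
          · rw [hqdef]; group
        obtain ⟨y', hy', hy'e⟩ := hqd
        have e : (x⁻¹ * (d * x * d⁻¹)) = s * (y * y'⁻¹) * s⁻¹ := by
          have h1 : (d * x * d⁻¹) * (d * q * d⁻¹) = x * q := by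
            calc (d * x * d⁻¹) * (d * q * d⁻¹) = d * (x * q) * d⁻¹ := by group
              _ = x * q := by rw [← hpq, mul_inv_cancel_right]
          rw [hy'e] at h1
          calc x⁻¹ * (d * x * d⁻¹) = x⁻¹ * ((d * x * d⁻¹) * (s * y' * s⁻¹)) * (s * y' * s⁻¹)⁻¹ := by
                group
            _ = x⁻¹ * (x * q) * (s * y' * s⁻¹)⁻¹ := by rw [h1]
            _ = _ := by rw [hqdef]; group
        have h1 := hdPQ _ (P.mul_mem (P.inv_mem hx) hxd') _ (P.mul_mem hy (P.inv_mem hy')) e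
        rw [inv_mul_eq_one] at h1
        exact hxd (mul_inv_eq_iff_eq_mul.1 h1.symm).symm
      have hdQ : ∀ y ∈ P, Commute d (s * y * s⁻¹) := by
        intro y hy
        have hu : (s⁻¹ * s')⁻¹ * y * (s⁻¹ * s') ∈ P := by
          simpa using hPn _ (S₀.inv_mem (hconjz hs'z)) y hy
        have := hdP _ hu
        have hc : Commute d s' := (show Commute s' d from hs'd).symm
        rw [show s * y * s⁻¹ = s' * ((s⁻¹ * s')⁻¹ * y * (s⁻¹ * s')) * s'⁻¹ by group]
        exact (hc.mul_right this).mul_right hc.inv_right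
      obtain ⟨x, hx, y, hy, he⟩ := hcenPQ d hdS hdP hdQ
      have hxZ : x = 1 ∨ x = z := hzonly x hx fun w hw => by
        have h1 : Commute (x * (s * y * s⁻¹)) w := he ▸ hdP w hw
        have h2 : Commute (s * y * s⁻¹) w := (hcPQ w hw y hy).symm
        have h3 := h1.mul_left h2.inv_left
        simp only [mul_inv_cancel_right] at h3
        exact h3.symm
      have hyZ : s * y * s⁻¹ = 1 ∨ s * y * s⁻¹ = z' := by
        refine (hzonly y hy fun w hw => ?_).imp (fun h => by simp [h]) (fun h => by rw [h])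
        have h1 : Commute (x * (s * y * s⁻¹)) (s * w * s⁻¹) := he ▸ hdQ w hw
        have h3 := ((hcPQ x hx w hw).inv_left).mul_left h1
        simp only [inv_mul_cancel_left] at h3
        calc w * y = s⁻¹ * ((s * w * s⁻¹) * (s * y * s⁻¹)) * s := by group
          _ = s⁻¹ * ((s * y * s⁻¹) * (s * w * s⁻¹)) * s := by rw [h3.eq]
          _ = y * w := by group
      have hd1 : d ≠ 1 := fun h => hz1 (conj_eq_one_iff.1 h)
      have hs'zz : s' * z' * s'⁻¹ = z := by
        have h2 : s' * s' ∈ S₀ := hmul hs'N hs'N hs' hs'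
        rw [← hs'z]
        calc s' * (s' * z * s'⁻¹) * s'⁻¹ = (s' * s') * z * (s' * s')⁻¹ := by group
          _ = z := mul_inv_eq_iff_eq_mul.2 ((memS₀ _).1 h2)
      have hfix : s' * d * s'⁻¹ = d := mul_inv_eq_iff_eq_mul.2 hs'd
      have hdzz : d = z * z' := by
        rcases hxZ with hx0 | hx0 <;> rcases hyZ with hy0 | hy0 <;> rw [hx0, hy0] at he
        · exact absurd (by simpa using he) hd1
        · exfalso; rw [one_mul] at he
          rw [he, hs'zz] at hfix; exact hzz' hfix.symm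
        · exfalso; rw [mul_one] at he
          rw [he, hs'z] at hfix; exact hzz' hfix
        · exact he
      -- `d` is centralized by the whole of `N`
      have hall : ∀ w ∈ N, w * d = d * w := by
        intro w hw
        have hzz'c : z * z' = z' * z := (hcPQ z hzP z hzP).eq
        by_cases hwS : w ∈ S₀
        · have h1 : w * z * w⁻¹ = z := mul_inv_eq_iff_eq_mul.2 ((memS₀ w).1 hwS)
          have h2 : w * z' * w⁻¹ = z' := by
            have hw' : s⁻¹ * w * s ∈ S₀ := (hnorm hsN _).2 (by simpa [mul_assoc] using hwS)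
            calc w * z' * w⁻¹ = s * ((s⁻¹ * w * s) * z * (s⁻¹ * w * s)⁻¹) * s⁻¹ := by rw [hz']; group
              _ = z' := by rw [mul_inv_eq_iff_eq_mul.2 ((memS₀ _).1 hw'), hz']
          rw [← mul_inv_eq_iff_eq_mul, hdzz]
          calc w * (z * z') * w⁻¹ = (w * z * w⁻¹) * (w * z' * w⁻¹) := by group
            _ = z * z' := by rw [h1, h2]
        · have h1 : w * z * w⁻¹ = z' := (htwo w hw).resolve_left fun e =>
            hwS ((memS₀ _).2 (mul_inv_eq_iff_eq_mul.1 e))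
          have h2 : w * z' * w⁻¹ = z := by
            have h3 := hmul hw hw hwS hwS
            rw [← h1]
            calc w * (w * z * w⁻¹) * w⁻¹ = (w * w) * z * (w * w)⁻¹ := by group
              _ = z := mul_inv_eq_iff_eq_mul.2 ((memS₀ _).1 h3)
          rw [← mul_inv_eq_iff_eq_mul, hdzz]
          calc w * (z * z') * w⁻¹ = (w * z * w⁻¹) * (w * z' * w⁻¹) := by group
            _ = z * z' := by rw [h1, h2, hzz'c]
      have := hall (t * s * t⁻¹) ((htnorm s).1 hsN)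
      exact hs (by simpa [mul_assoc] using (memS' _).2 this)
    · -- `d` exchanges the two conjugates
      have hdz : d * z * d⁻¹ = z' := (htwo d hdN).resolve_left fun e =>
        hdS ((memS₀ _).2 (mul_inv_eq_iff_eq_mul.1 e))
      have hfix : ∀ x ∈ P, x * d = d * x → x = 1 := by
        intro x hx h
        have hu := hPn _ (hconjz hdz) x hx
        refine hdPQ x hx _ hu ?_
        rw [show s * (s⁻¹ * d * x * (s⁻¹ * d)⁻¹) * s⁻¹ = d * x * d⁻¹ by group, ← h,
          mul_inv_cancel_right]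
      refine hP ⟨⟨fun u v => Subtype.ext ?_⟩⟩
      change (u : S) * v = v * u
      by_cases hu : (u : S) = 1
      · simp [hu]
      by_cases hv : (v : S) = 1
      · simp [hv]
      have hu' : (u : S) * d ≠ d * u := fun h => hu (hfix _ u.2 h)
      have hv' : (v : S) * d ≠ d * v := fun h => hv (hfix _ v.2 h)
      have e1 := hfix _ (P.mul_mem u.2 v.2) (hmul' (hS₀N (hPS u.2)) (hS₀N (hPS v.2)) hu' hv')
      have e2 := hfix _ (P.mul_mem v.2 u.2) (hmul' (hS₀N (hPS v.2)) (hS₀N (hPS u.2)) hv' hu')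
      rw [e1, e2]
  rw [Subgroup.index_eq_two_iff]
  refine ⟨s⁻¹, fun b => ?_⟩
  have hbN : b ∈ N := hNtop ▸ Subgroup.mem_top b
  have hs1 : s⁻¹ ∉ S₀ := fun h => hs (inv_mem_iff.1 h)
  by_cases hb : b ∈ S₀
  · exact Or.inr ⟨hb, fun h => hs1 (by simpa using S₀.mul_mem (S₀.inv_mem hb) h)⟩
  · exact Or.inl ⟨hmul hbN (inv_mem hsN) hb hs1, hb⟩

end Cfsg.Agent.S4401
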