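import Cfsg.Statements.S4402
import Cfsg.Agent.DihedralWreath.Normalizer

set_option autoImplicit false
open Cfsg

namespace Cfsg.Agent.S4402

/-- Let S be a finite 2-group of sectional 2-rank at most 4 and P a proper subgroup isomorphic to the wreath product of the dihedral group of order 8 by a group of order 2 (equivalently, to a Sylow 2-subgroup of the symmetric group of degree 8; order 128). Then Z(S) = Z(P) has order 2, P has index 2 in its normalizer N_S(P), N_S(P)/Z(S) is again isomorphic to that wreath product, and every elementary abelian subgroup V of order 16 that is normal in P satisfies N_S(V) = P. -/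
theorem result {S : Type*} [Group S] [Finite S] (h2 : IsPGroup 2 S) (hr : Cfsg.SectionalPRankLE 2 4 S)
    (P : Subgroup S) (hPlt : P ≠ ⊤) (hP : ∃ T : Sylow 2 (Equiv.Perm (Fin 8)), Nonempty (↥P ≃* ↥(T : Subgroup (Equiv.Perm (Fin 8))))) :
    Subgroup.center S = (Subgroup.center ↥P).map P.subtype ∧ Nat.card ↥(Subgroup.center S) = 2 ∧
    P.relIndex (Subgroup.normalizer (P : Set S)) = 2 ∧
    (∃ (_ : ((Subgroup.center S).subgroupOf (Subgroup.normalizer (P : Set S))).Normal) (T : Sylow 2 (Equiv.Perm (Fin 8))),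
      Nonempty (↥(Subgroup.normalizer (P : Set S)) ⧸ (Subgroup.center S).subgroupOf (Subgroup.normalizer (P : Set S)) ≃*
        ↥(T : Subgroup (Equiv.Perm (Fin 8))))) ∧
    ∀ V : Subgroup S, V ≤ P → (∀ g ∈ P, ∀ v ∈ V, g * v * g⁻¹ ∈ V) → Cfsg.IsElementaryAbelian 2 V → Nat.card ↥V = 16 →
      Subgroup.normalizer (V : Set S) = P := by
  obtain ⟨T, ⟨eT⟩⟩ := hP
  obtain ⟨eM⟩ := CfsgLib.DihedralWreath.nonempty_equiv_sylow T
  let e : CfsgLib.DihedralWreath.M ≃* ↥P := eM.trans eT.symm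
  obtain ⟨ι, hι, rfl⟩ : ∃ ι : CfsgLib.DihedralWreath.M →* S,
      Function.Injective ι ∧ ι.range = P := by
    refine ⟨P.subtype.comp e.toMonoidHom, P.subtype_injective.comp e.injective, ?_⟩
    ext x
    exact ⟨by rintro ⟨m, rfl⟩; exact (e m).2,
      fun hx => ⟨e.symm ⟨x, hx⟩, congrArg Subtype.val (e.apply_symm_apply ⟨x, hx⟩)⟩⟩
  obtain ⟨hc1, hc2, -⟩ := CfsgLib.DihedralWreath.center_eq hι h2 hr
  obtain ⟨hn, ⟨q⟩⟩ := CfsgLib.DihedralWreath.nonempty_quotient_equiv hι h2 hr hPlt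
  exact ⟨hc1, hc2, CfsgLib.DihedralWreath.relIndex_eq_two hι h2 hr hPlt, ⟨hn, T, ⟨q.trans eM⟩⟩,
    fun V hV hVn hVe hVc =>
      CfsgLib.DihedralWreath.normalizer_va_le hι h2 hr V hV hVn hVe hVc⟩

end Cfsg.Agent.S4402
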