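import Cfsg.Statements.S4403
import Cfsg.Agent.Eq.Def_Solvable
import Cfsg.Agent.Eq.Def_Local
import Cfsg.Agent.Constrained.Fitting
import Cfsg.Agent.MinNormal.Structure
import Cfsg.Agent.Cores.Layer
import Cfsg.Agent.Cores.GenFitting

set_option autoImplicit false
open Cfsg

namespace Cfsg.Agent.S4403

/-- An element normalizing a cyclic Sylow subgroup and fixing a nontrivial element centralizes it. -/
theorem fix_lemma {K : Type*} [Group K] [Finite K] {p : ℕ} [Fact p.Prime] (P : Sylow p K)
    (hP : IsCyclic ↥(P : Subgroup K)) {g y : K}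
    (hg : g ∈ Subgroup.normalizer ((P : Subgroup K) : Set K)) (hy : y ∈ P) (hy1 : y ≠ 1)
    (hgy : g * y = y * g) : g ∈ Subgroup.centralizer ((P : Subgroup K) : Set K) := by
  have hp : p.Prime := Fact.out
  obtain ⟨⟨a, ha⟩, hgen⟩ := hP.exists_generator
  have hmem : ∀ x ∈ P, ∃ i : ℤ, a ^ i = x := fun x hx => by
    obtain ⟨i, hi⟩ := Subgroup.mem_zpowers_iff.1 (hgen ⟨x, hx⟩)
    exact ⟨i, congrArg Subtype.val hi⟩
  obtain ⟨j, hj⟩ := hmem _ ((Subgroup.mem_normalizer_iff.1 hg a).1 ha)
  obtain ⟨n, hn⟩ := IsPGroup.iff_orderOf.1 P.2 ⟨a, ha⟩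
  rw [Subgroup.orderOf_mk] at hn
  obtain ⟨i, rfl⟩ := hmem y hy
  have hconj : ∀ i : ℤ, g * a ^ i * g⁻¹ = a ^ (j * i) := fun i => by
    rw [← conj_zpow, ← hj, ← zpow_mul]
  have h1 : a ^ (j * i) = a ^ i := by rw [← hconj, hgy, mul_inv_cancel_right]
  have hdvd : ((p : ℤ) ^ n) ∣ (j - 1) * i := by
    have : a ^ ((j - 1) * i) = 1 := by rw [sub_mul, one_mul, zpow_sub, h1, mul_inv_cancel]
    have := orderOf_dvd_iff_zpow_eq_one.2 this
    rwa [hn, Nat.cast_pow] at this
  have hpj : (p : ℤ) ∣ j - 1 := by
    by_contra hnd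
    apply hy1
    have : ((p : ℤ) ^ n) ∣ i :=
      ((((Nat.prime_iff_prime_int.1 hp).coprime_iff_not_dvd).2 hnd).pow_left).dvd_of_dvd_mul_left hdvd
    apply orderOf_dvd_iff_zpow_eq_one.1
    rwa [hn, Nat.cast_pow]
  have hiter : ∀ t : ℕ, g ^ t * a * (g ^ t)⁻¹ = a ^ (j ^ t) := by
    intro t
    induction t with
    | zero => simp
    | succ t ih =>
      calc g ^ (t + 1) * a * (g ^ (t + 1))⁻¹ = g * (g ^ t * a * (g ^ t)⁻¹) * g⁻¹ := by
            rw [pow_succ']; group
        _ = a ^ (j ^ (t + 1)) := by rw [ih, hconj, pow_succ']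
  have hp1 : g ^ (p ^ n) * a * (g ^ (p ^ n))⁻¹ = a := by
    rw [hiter]
    have h2 : ((p : ℤ) ^ (n + 1)) ∣ j ^ p ^ n - 1 := by simpa using dvd_sub_pow_of_dvd_sub hpj n
    have h3 : a ^ (j ^ p ^ n - 1) = 1 := by
      apply orderOf_dvd_iff_zpow_eq_one.1
      rw [hn, Nat.cast_pow]
      exact (pow_dvd_pow _ n.le_succ).trans h2
    rwa [zpow_sub, zpow_one, mul_inv_eq_one] at h3
  obtain ⟨c, m, hm, hcm⟩ := Nat.exists_eq_pow_mul_and_not_dvd (orderOf_pos g).ne' p hp.ne_one
  have hgm : g ^ m ∈ P := by
    have hpg : IsPGroup p (Subgroup.zpowers (g ^ m)) := by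
      refine IsPGroup.of_card_dvd_pow (n := c) ?_
      rw [Nat.card_zpowers]
      refine orderOf_dvd_of_pow_eq_one ?_
      rw [← pow_mul, mul_comm, ← hcm, pow_orderOf_eq_one]
    have := hpg.inf_normalizer_sylow P
    have h4 : g ^ m ∈ Subgroup.zpowers (g ^ m) ⊓ Subgroup.normalizer ((P : Subgroup K) : Set K) :=
      ⟨Subgroup.mem_zpowers _, pow_mem hg m⟩
    exact (this.le h4).2
  have hm1 : Commute (g ^ m) a := by
    obtain ⟨l, hl⟩ := hmem _ hgm
    rw [← hl]
    exact (Commute.refl a).zpow_left l
  have hp2 : Commute (g ^ (p ^ n)) a := mul_inv_eq_iff_eq_mul.1 hp1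
  have hco : Nat.Coprime (p ^ n) m := Nat.Coprime.pow_left n (hp.coprime_iff_not_dvd.2 hm)
  obtain ⟨u, v, huv⟩ := Nat.isCoprime_iff_coprime.2 hco
  have hga : Commute g a := by
    have e : g = (g ^ (p ^ n)) ^ u * (g ^ m) ^ v := by
      rw [← zpow_natCast g (p ^ n), ← zpow_natCast g m, ← zpow_mul, ← zpow_mul, ← zpow_add,
        mul_comm _ u, mul_comm _ v, huv, zpow_one]
    rw [e]
    exact (hp2.zpow_left u).mul_left (hm1.zpow_left v)
  rw [Subgroup.mem_centralizer_iff]
  intro x hx
  obtain ⟨l, rfl⟩ := hmem x hx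
  exact ((hga.zpow_right l).eq).symm

theorem cyclic_mulAut_of_prime {G : Type*} [Group G] [Finite G] {p : ℕ} [Fact p.Prime]
    (h : Nat.card G = p) : IsCyclic (MulAut G) ∧ Nat.card (MulAut G) = p - 1 := by
  haveI : IsCyclic G := isCyclic_of_prime_card h
  refine ⟨?_, by rw [IsCyclic.card_mulAut, h, Nat.totient_prime Fact.out]⟩
  have e : MulAut G ≃* (ZMod p)ˣ := h ▸ IsCyclic.mulAutMulEquiv G
  exact isCyclic_of_injective e.toMonoidHom e.injective


/-- Let K be a finite group, p a prime dividing its order with O_{p'}(K) = 1 (no nontrivial normal subgroup of order prime to p), and P a cyclic Sylow p-subgroup of K. Then either P is normal and self-centralizing in K with K/P cyclic of order dividing p − 1 (so K is the semidirect product of P by a group of automorphisms of P of order dividing p − 1), or the generalized Fitting subgroup F*(K) is a non-abelian simple group and p does not divide the index of F*(K) in K. -/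
theorem result {K : Type*} [Group K] [Finite K] (p : ℕ) [Fact p.Prime] (hp : p ∣ Nat.card K) (hO : Cfsg.pPrimeCore p K = ⊥)
    (P : Sylow p K) (hP : IsCyclic ↥(P : Subgroup K)) :
    ((P : Subgroup K).Normal ∧ Subgroup.centralizer ((P : Subgroup K) : Set K) = (P : Subgroup K) ∧
      (∀ (_ : (P : Subgroup K).Normal), IsCyclic (K ⧸ (P : Subgroup K))) ∧ (P : Subgroup K).index ∣ p - 1) ∨
    (IsSimpleGroup ↥(Cfsg.generalizedFittingSubgroup K) ∧ ¬ IsMulCommutative ↥(Cfsg.generalizedFittingSubgroup K) ∧
      ¬ p ∣ (Cfsg.generalizedFittingSubgroup K).index) := by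
  classical
  have hpp : p.Prime := Fact.out
  have hPab : ∀ x ∈ P, ∀ y ∈ P, x * y = y * x := fun x hx y hy => by
    letI := hP.commGroup
    exact congrArg Subtype.val (mul_comm (⟨x, hx⟩ : (P : Subgroup K)) ⟨y, hy⟩)
  have hPc : (P : Subgroup K) ≤ Subgroup.centralizer ((P : Subgroup K) : Set K) := fun x hx =>
    Subgroup.mem_centralizer_iff.2 fun y hy => hPab y hy x hx
  have hcomp_bot : ∀ (T : Subgroup K), T.Normal → ¬ p ∣ Nat.card T → T = ⊥ := fun T hT hd =>
    le_bot_iff.1 ((CfsgLib.Constrained.le_pPrimeCore_of_not_dvd hT hd).trans hO.le)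
  by_cases hOp : Cfsg.pCore p K = ⊥
  · right
    haveI : Nontrivial K := by
      rcases subsingleton_or_nontrivial K with h | h
      · rw [Nat.card_unique] at hp; exact absurd hp hpp.not_dvd_one
      · exact h
    obtain ⟨N, hN⟩ := CfsgLib.MinNormal.exists_isMinNormal (G := K)
    haveI := hN.normal
    have hNp : ¬ IsPGroup p N := fun h => hN.ne_bot
      (le_bot_iff.1 ((CfsgLib.Constrained.le_pCore hN.normal h).trans hOp.le))
    -- the Sylow subgroup lies in every minimal normal subgroup
    have key : ∀ M : Subgroup K, M.Normal → M ≠ ⊥ → (P : Subgroup K) ≤ M := by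
      intro M hMn hM1
      haveI := hMn
      set M' := M ⊔ (P : Subgroup K) with hM'
      set P' : Sylow p M' := P.subtype le_sup_right with hP'
      by_cases hnc : Subgroup.normalizer ((P' : Subgroup M') : Set M') ≤
          Subgroup.centralizer ((P' : Subgroup M') : Set M')
      · exfalso
        let T := (MonoidHom.transferSylow P' hnc).ker
        have hT : ¬ p ∣ Nat.card T := MonoidHom.not_dvd_card_ker_transferSylow P' hnc
        -- `M ∩ T` is normal in `K`
        let φ : M →* P' := (MonoidHom.transferSylow P' hnc).comp (Subgroup.inclusion le_sup_left)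
        have hker : ¬ p ∣ Nat.card φ.ker := fun hd => hT (hd.trans
          (Subgroup.card_dvd_of_injective
            (((Subgroup.inclusion (le_sup_left : M ≤ M')).comp φ.ker.subtype).codRestrict T
              (fun x => x.2))
            (fun x y hxy => by
              have := congrArg (fun t : T => ((t : M') : K)) hxy
              exact Subtype.ext (Subtype.ext this))))
        have hle : φ.ker ≤ Cfsg.pPrimeCore p M :=
          CfsgLib.Constrained.le_pPrimeCore_of_not_dvd inferInstance hker
        have h2 := (Subgroup.map_mono (f := M.subtype) hle).trans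
          (CfsgLib.Constrained.map_pPrimeCore_subgroup_le M)
        rw [hO, le_bot_iff, Subgroup.map_eq_bot_iff_of_injective _ M.subtype_injective] at h2
        have hinj : Function.Injective φ := (MonoidHom.ker_eq_bot_iff φ).1 h2
        have hpg : IsPGroup p M := (IsPGroup.of_injective P'.2 φ hinj)
        exact hM1 (le_bot_iff.1 ((CfsgLib.Constrained.le_pCore hMn hpg).trans hOp.le))
      · obtain ⟨g, hgN, hgC⟩ := SetLike.not_le_iff_exists.1 hnc
        obtain ⟨n, hn, y, hy, hny⟩ := Subgroup.mem_sup_of_normal_left.1 g.2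
        have memP' : ∀ w : M', w ∈ P' ↔ (w : K) ∈ P := fun w => Iff.rfl
        have hnN : n ∈ Subgroup.normalizer ((P : Subgroup K) : Set K) := by
          have hg' : (g : K) ∈ Subgroup.normalizer ((P : Subgroup K) : Set K) := by
            rw [Subgroup.mem_normalizer_iff]
            intro x
            constructor
            · intro hx
              exact (Subgroup.mem_normalizer_iff.1 hgN ⟨x, le_sup_right (a := M) hx⟩).1 hx
            · intro hx
              have hx' : x ∈ M' := by
                have := M'.mul_mem (M'.mul_mem (M'.inv_mem g.2) (le_sup_right (a := M) hx)) g.2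
                simpa [mul_assoc] using this
              exact (Subgroup.mem_normalizer_iff.1 hgN ⟨x, hx'⟩).2 hx
          rw [show n = (g : K) * y⁻¹ by rw [← hny]; group]
          exact mul_mem hg' (Subgroup.le_normalizer ((P : Subgroup K).inv_mem hy))
        have hnC : n ∉ Subgroup.centralizer ((P : Subgroup K) : Set K) := fun h => hgC (by
          rw [Subgroup.mem_centralizer_iff]
          intro x hx
          apply Subtype.ext
          have hgc : (g : K) ∈ Subgroup.centralizer ((P : Subgroup K) : Set K) :=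
            hny ▸ mul_mem h (hPc hy)
          exact Subgroup.mem_centralizer_iff.1 hgc (x : K) hx)
        let ψ : (P : Subgroup K) →* (P : Subgroup K) :=
          { toFun := fun x => ⟨n * x * n⁻¹ * (x : K)⁻¹,
              (P : Subgroup K).mul_mem ((Subgroup.mem_normalizer_iff.1 hnN x).1 x.2)
                ((P : Subgroup K).inv_mem x.2)⟩
            map_one' := by apply Subtype.ext; simp
            map_mul' := fun x z => by
              apply Subtype.ext
              change n * ((x : K) * z) * n⁻¹ * ((x : K) * z)⁻¹ =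
                (n * x * n⁻¹ * (x : K)⁻¹) * (n * z * n⁻¹ * (z : K)⁻¹)
              have hc := hPab _ ((P : Subgroup K).mul_mem ((Subgroup.mem_normalizer_iff.1 hnN z).1 z.2)
                ((P : Subgroup K).inv_mem z.2)) _ ((P : Subgroup K).inv_mem x.2)
              calc n * ((x : K) * z) * n⁻¹ * ((x : K) * z)⁻¹
                  = (n * x * n⁻¹) * ((n * z * n⁻¹ * (z : K)⁻¹) * (x : K)⁻¹) := by group
                _ = _ := by rw [hc]; group }
        have hinj : Function.Injective ψ := by
          rw [injective_iff_map_eq_one]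
          intro x hx
          by_contra hx1
          apply hnC
          refine fix_lemma P hP hnN x.2 (fun h => hx1 (Subtype.ext h)) ?_
          exact mul_inv_eq_iff_eq_mul.1 (mul_inv_eq_one.1 (congrArg Subtype.val hx))
        intro x hx
        obtain ⟨w, hw⟩ := (Finite.injective_iff_surjective.1 hinj) ⟨x, hx⟩
        rw [show x = n * (w : K) * n⁻¹ * (w : K)⁻¹ from (congrArg Subtype.val hw).symm]
        rw [show n * (w : K) * n⁻¹ * (w : K)⁻¹ = n * ((w : K) * n⁻¹ * (w : K)⁻¹) by group]
        exact M.mul_mem hn (hMn.conj_mem _ (M.inv_mem hn) w)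
    have hPN := key N hN.normal hN.ne_bot
    have hP1 : (P : Subgroup K) ≠ ⊥ := P.ne_bot_of_dvd_card hp
    have hcent : Subgroup.centralizer (N : Set K) = ⊥ := by
      by_contra hne
      have h1 := key _ inferInstance hne
      rcases hN.le_or_inf_eq_bot (inferInstance : (Subgroup.centralizer (N : Set K)).Normal) with h | h
      · have hab : IsMulCommutative N :=
          ⟨⟨fun a b => Subtype.ext (Subgroup.mem_centralizer_iff.1 (h b.2) a a.2)⟩⟩
        obtain ⟨q, hq, hqe⟩ := hN.exists_prime_pow_eq_one hab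
        have hqp : q = p := by
          obtain ⟨x, hx, hx1⟩ := (Subgroup.bot_or_exists_ne_one (P : Subgroup K)).resolve_left hP1
          obtain ⟨c, hc⟩ := IsPGroup.iff_orderOf.1 P.2 ⟨x, hx⟩
          rw [Subgroup.orderOf_mk] at hc
          have hox : orderOf x ∣ q := orderOf_dvd_of_pow_eq_one (hqe x (hPN hx))
          rcases c with _ | c
          · exact absurd (orderOf_eq_one_iff.1 hc) hx1
          · exact ((Nat.prime_dvd_prime_iff_eq hpp hq).1
              ((hc ▸ dvd_pow_self p c.succ_ne_zero : p ∣ orderOf x).trans hox)).symm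
        subst hqp
        exact hNp fun x => ⟨1, Subtype.ext (by simpa using hqe x x.2)⟩
      · exact hP1 (le_bot_iff.1 (h ▸ le_inf hPN h1))
    have hNc : ¬ IsMulCommutative N := fun hab => hN.ne_bot (le_bot_iff.1 (hcent ▸ fun x hx =>
      Subgroup.mem_centralizer_iff.2 fun y hy =>
        congrArg Subtype.val (hab.is_comm.comm (⟨y, hy⟩ : N) ⟨x, hx⟩)))
    -- simplicity
    have hsimple : IsSimpleGroup N := by
      haveI : Nontrivial N := (Subgroup.nontrivial_iff_ne_bot N).2 hN.ne_bot
      have hOM : Cfsg.pPrimeCore p N = ⊥ := by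
        have h2 := CfsgLib.Constrained.map_pPrimeCore_subgroup_le (p := p) N
        rwa [hO, le_bot_iff, Subgroup.map_eq_bot_iff_of_injective _ N.subtype_injective] at h2
      set P₁ : Sylow p N := P.subtype hPN
      have meet : ∀ S : Subgroup N, S.Normal → S ≠ ⊥ → ∃ x ∈ P₁, x ∈ S ∧ x ≠ 1 := by
        intro S hS hS1
        by_contra h
        push Not at h
        apply hS1
        haveI := hS
        rw [eq_bot_iff, ← hOM]
        refine CfsgLib.Constrained.le_pPrimeCore_of_not_dvd hS fun hd => ?_
        obtain ⟨s, hs⟩ := exists_prime_orderOf_dvd_card' (G := S) p hd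
        obtain ⟨R, hR⟩ := (IsPGroup.of_card (G := Subgroup.zpowers (s : N)) (p := p) (n := 1)
          (by rw [Nat.card_zpowers, Subgroup.orderOf_coe, hs, pow_one])).exists_le_sylow
        obtain ⟨u, hu⟩ := MulAction.exists_smul_eq N R P₁
        have h1 : u * (s : N) * u⁻¹ ∈ P₁ := hu ▸ ⟨_, hR (Subgroup.mem_zpowers _), rfl⟩
        have h2 := h _ h1 (hS.conj_mem _ s.2 u)
        rw [conj_eq_one_iff] at h2
        rw [← Subgroup.orderOf_coe, h2, orderOf_one] at hs
        exact hpp.ne_one hs.symm
      have meets : ∀ S S' : Subgroup N, S.Normal → S'.Normal → S ≠ ⊥ → S' ≠ ⊥ → S ⊓ S' ≠ ⊥ := by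
        intro S S' hS hS' h1 h2 hbot
        obtain ⟨x, hx, hxS, hx1⟩ := meet S hS h1
        obtain ⟨y, hy, hyS, hy1⟩ := meet S' hS' h2
        -- the subgroups of a cyclic `p`-group form a chain
        obtain ⟨⟨a, ha⟩, hgen⟩ := hP.exists_generator
        obtain ⟨i, hi⟩ := Subgroup.mem_zpowers_iff.1 (hgen ⟨(x : K), hx⟩)
        obtain ⟨l, hl⟩ := Subgroup.mem_zpowers_iff.1 (hgen ⟨(y : K), hy⟩)
        obtain ⟨c, hc⟩ := IsPGroup.iff_orderOf.1 P.2 ⟨a, ha⟩
        have hi' : a ^ i = (x : K) := congrArg Subtype.val hi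
        have hl' : a ^ l = (y : K) := congrArg Subtype.val hl
        rw [Subgroup.orderOf_mk] at hc
        have hco : ∀ i : ℤ, a ^ i ≠ 1 → ∃ e : ℕ, e < c ∧
            a ^ (p ^ e) ∈ Subgroup.zpowers (a ^ i) ∧ a ^ i ∈ Subgroup.zpowers (a ^ (p ^ e)) := by
          intro i hi0
          obtain ⟨e, he1, he2⟩ := (Nat.dvd_prime_pow hpp).1 (Int.gcd_dvd_natAbs_right i (p ^ c : ℕ))
          refine ⟨e, lt_of_le_of_ne he1 fun hec => hi0 ?_, ?_, ?_⟩
          · apply orderOf_dvd_iff_zpow_eq_one.1
            rw [hc, ← hec, ← he2]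
            exact Int.gcd_dvd_left i _
          · refine Subgroup.mem_zpowers_iff.2 ⟨Int.gcdA i (p ^ c : ℕ), ?_⟩
            rw [← zpow_mul, ← zpow_natCast a (p ^ e), ← he2, Int.gcd_eq_gcd_ab, zpow_add, zpow_mul a
              (p ^ c : ℕ), zpow_natCast a (p ^ c), ← hc, pow_orderOf_eq_one, one_zpow, mul_one]
          · obtain ⟨d, hd⟩ := Int.gcd_dvd_left i (p ^ c : ℕ)
            refine Subgroup.mem_zpowers_iff.2 ⟨d, ?_⟩
            rw [← zpow_natCast a (p ^ e), ← he2, ← zpow_mul, ← hd]
        obtain ⟨e1, he1, hm1, -⟩ := hco i (hi' ▸ fun h => hx1 (Subtype.ext h))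
        obtain ⟨e2, he2, hm2, -⟩ := hco l (hl' ▸ fun h => hy1 (Subtype.ext h))
        have hz : a ^ (p ^ (max e1 e2)) ≠ 1 := fun h => by
          have := orderOf_dvd_of_pow_eq_one h
          rw [hc] at this
          exact absurd ((Nat.pow_dvd_pow_iff_le_right hpp.one_lt).1 this) (by omega)
        have ha1 : a ^ (p ^ (max e1 e2)) ∈ Subgroup.zpowers (x : K) := by
          rw [← hi', show p ^ (max e1 e2) = p ^ e1 * p ^ (max e1 e2 - e1) by rw [← pow_add]; congr 1; omega,
            pow_mul]
          exact pow_mem hm1 _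
        have ha2 : a ^ (p ^ (max e1 e2)) ∈ Subgroup.zpowers (y : K) := by
          rw [← hl', show p ^ (max e1 e2) = p ^ e2 * p ^ (max e1 e2 - e2) by rw [← pow_add]; congr 1; omega,
            pow_mul]
          exact pow_mem hm2 _
        obtain ⟨u, hu⟩ := Subgroup.mem_zpowers_iff.1 ha1
        obtain ⟨v, hv⟩ := Subgroup.mem_zpowers_iff.1 ha2
        have h3 : x ^ u = y ^ v := Subtype.ext (by
          rw [Subgroup.coe_zpow, Subgroup.coe_zpow, hu, hv])
        have h4 : x ^ u ∈ S ⊓ S' := ⟨zpow_mem hxS u, h3 ▸ zpow_mem hyS v⟩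
        rw [hbot, Subgroup.mem_bot] at h4
        exact hz (by rw [← hu, ← Subgroup.coe_zpow, h4]; rfl)
      obtain ⟨S, hS⟩ := CfsgLib.MinNormal.exists_isMinNormal (G := N)
      have huniq : ∀ S' : Subgroup N, S'.Normal → S' ≠ ⊥ → S ≤ S' := fun S' h' h1 =>
        (hS.le_or_inf_eq_bot h').resolve_right (meets S S' hS.normal h' hS.ne_bot h1)
      have hSn : (S.map N.subtype).Normal := by
        refine ⟨?_⟩
        rintro _ ⟨w, hw, rfl⟩ g
        let e : MulAut N := MulAut.conjNormal g
        have hmapn : (S.map e.toMonoidHom).Normal := hS.normal.map _ e.surjective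
        have hmap1 : S.map e.toMonoidHom ≠ ⊥ := fun h =>
          hS.ne_bot ((Subgroup.map_eq_bot_iff_of_injective _ e.injective).1 h)
        have := Subgroup.eq_of_le_of_card_ge (huniq _ hmapn hmap1)
          (Nat.card_congr (S.equivMapOfInjective e.toMonoidHom e.injective).toEquiv).ge
        exact ⟨e w, this ▸ ⟨w, hw, rfl⟩, rfl⟩
      have hStop : S = ⊤ := by
        have h1 : S.map N.subtype = N := hN.eq_of_le hSn
          (fun h => hS.ne_bot ((Subgroup.map_eq_bot_iff_of_injective _ N.subtype_injective).1 h))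
          (Subgroup.map_subtype_le S)
        apply Subgroup.map_injective N.subtype_injective
        rw [h1, ← MonoidHom.range_eq_map, Subgroup.range_subtype]
      exact CfsgLib.MinNormal.isMinNormal_top_iff.1 (hStop ▸ hS)
    -- the generalized Fitting subgroup
    have hcomp : Cfsg.IsComponent N := by
      refine ⟨(inferInstance : N.Normal).isSubnormal, ?_, ?_⟩
      · exact ⟨(hsimple.eq_bot_or_eq_top_of_normal (commutator N) inferInstance).resolve_left
          fun h => hNc ⟨⟨fun a b => commutatorElement_eq_one_iff_mul_comm.1 (Subgroup.mem_bot.1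
            (h ▸ Subgroup.commutator_mem_commutator (Subgroup.mem_top a) (Subgroup.mem_top b)))⟩⟩⟩
      · have hc : Subgroup.center N = ⊥ :=
          (hsimple.eq_bot_or_eq_top_of_normal _ inferInstance).resolve_right fun h => hNc
            ⟨⟨fun a b => Subgroup.mem_center_iff.1 (h ▸ Subgroup.mem_top b) a⟩⟩
        exact CfsgLib.MinNormal.isSimpleGroup_congr
          ((QuotientGroup.quotientMulEquivOfEq hc).trans QuotientGroup.quotientBot).symm hsimple
    have hlayer : Cfsg.layer K = N := by
      refine le_antisymm (CfsgLib.Cores.layer_le fun L hL => ?_) (CfsgLib.Cores.le_layer hcomp)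
      rcases CfsgLib.Cores.component_le_or_commutes hL (inferInstance : N.Normal).isSubnormal with h | h
      · exact h
      · rw [Subgroup.commutator_eq_bot_iff_le_centralizer, hcent, le_bot_iff] at h
        exact absurd h (CfsgLib.Cores.ne_bot_of_isComponent hL)
    have hF : Cfsg.generalizedFittingSubgroup K = N := by
      rw [Cfsg.generalizedFittingSubgroup, hlayer, CfsgLib.Constrained.fitting_eq_pCore hO, hOp,
        sup_bot_eq]
    rw [hF]
    exact ⟨hsimple, hNc, fun hd => P.not_dvd_index (hd.trans (Subgroup.index_dvd_of_le hPN))⟩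
  · left
    set Q := Cfsg.pCore p K with hQ
    haveI : Q.Normal := Cfsg.pCore_normal p K
    obtain ⟨R, hR⟩ := (CfsgLib.Constrained.isPGroup_pCore (p := p) (G := K)).exists_le_sylow
    have hQP : Q ≤ (P : Subgroup K) := by
      obtain ⟨u, hu⟩ := MulAction.exists_smul_eq K R P
      intro x hx
      rw [← hu]
      exact ⟨u⁻¹ * x * u, hR (by simpa using (inferInstance : Q.Normal).conj_mem x hx u⁻¹),
        by simp [MulAut.conj_apply, mul_assoc]⟩
    obtain ⟨y, hyQ, hy1⟩ := (Subgroup.bot_or_exists_ne_one Q).resolve_left hOp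
    set L := Subgroup.centralizer (Q : Set K) with hL
    have hPL : (P : Subgroup K) ≤ L := fun x hx =>
      Subgroup.mem_centralizer_iff.2 fun w hw => hPab w (hQP hw) x hx
    set P' : Sylow p L := P.subtype hPL
    have hnc : Subgroup.normalizer ((P' : Subgroup L) : Set L) ≤
        Subgroup.centralizer ((P' : Subgroup L) : Set L) := by
      intro g hg
      have hg' : (g : K) ∈ Subgroup.normalizer ((P : Subgroup K) : Set K) := by
        rw [Subgroup.mem_normalizer_iff]
        intro x
        constructor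
        · intro hx
          exact (Subgroup.mem_normalizer_iff.1 hg ⟨x, hPL hx⟩).1 hx
        · intro hx
          have hx' : x ∈ L := by
            have := L.mul_mem (L.mul_mem (L.inv_mem g.2) (hPL hx)) g.2
            simpa [mul_assoc] using this
          exact (Subgroup.mem_normalizer_iff.1 hg ⟨x, hx'⟩).2 hx
      have hgy : (g : K) * y = y * g := (Subgroup.mem_centralizer_iff.1 g.2 y hyQ).symm
      have := fix_lemma P hP hg' (hQP hyQ) hy1 hgy
      rw [Subgroup.mem_centralizer_iff]
      intro x hx
      exact Subtype.ext (Subgroup.mem_centralizer_iff.1 this (x : K) hx)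
    let T := (MonoidHom.transferSylow P' hnc).ker
    have hTbot : T = ⊥ := by
      have hle : T ≤ Cfsg.pPrimeCore p L := CfsgLib.Constrained.le_pPrimeCore_of_not_dvd inferInstance
        (MonoidHom.not_dvd_card_ker_transferSylow P' hnc)
      have h2 := (Subgroup.map_mono (f := L.subtype) hle).trans
        (CfsgLib.Constrained.map_pPrimeCore_subgroup_le L)
      rwa [hO, le_bot_iff, Subgroup.map_eq_bot_iff_of_injective _ L.subtype_injective] at h2
    have hLP : L = (P : Subgroup K) := by
      refine le_antisymm (fun x hx => ?_) hPL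
      have hc := MonoidHom.ker_transferSylow_isComplement' P' hnc
      obtain ⟨t, ht, w, hw, e⟩ := Subgroup.mem_sup_of_normal_left.1
        (hc.sup_eq_top.symm ▸ Subgroup.mem_top (⟨x, hx⟩ : L))
      rw [show t = 1 from Subgroup.mem_bot.1 (hTbot ▸ ht), one_mul] at e
      rw [e] at hw
      exact hw
    have hPn : (P : Subgroup K).Normal := hLP ▸ (inferInstance : L.Normal)
    haveI := hPn
    have hPC : Subgroup.centralizer ((P : Subgroup K) : Set K) = (P : Subgroup K) :=
      le_antisymm ((Subgroup.centralizer_le (SetLike.coe_subset_coe.2 hQP)).trans hLP.le) hPc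
    refine ⟨hPn, hPC, ?_⟩
    -- action on a subgroup of order `p`
    obtain ⟨z, hz⟩ := exists_prime_orderOf_dvd_card' (G := (P : Subgroup K)) p
      (P.dvd_card_of_dvd_card hp)
    set Z := (Subgroup.zpowers z).map (P : Subgroup K).subtype with hZ
    haveI : (Subgroup.zpowers z).Characteristic := by
      haveI := hP
      rw [Subgroup.characteristic_iff_map_le]
      intro φ
      obtain ⟨k, hk⟩ := MonoidHom.map_cyclic φ.toMonoidHom
      rintro _ ⟨w, hw, rfl⟩
      rw [hk]
      exact zpow_mem hw k
    haveI hZn : Z.Normal := inferInstanceAs ((Subgroup.zpowers z).map (P : Subgroup K).subtype).Normal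
    have hZcard : Nat.card Z = p := by
      rw [hZ, ← Nat.card_congr ((Subgroup.zpowers z).equivMapOfInjective _
        (P : Subgroup K).subtype_injective).toEquiv, Nat.card_zpowers, hz]
    obtain ⟨hcyc, hcardAut⟩ := cyclic_mulAut_of_prime hZcard
    let ψ : K →* MulAut Z := MulAut.conjNormal
    have hker : ψ.ker = (P : Subgroup K) := by
      apply le_antisymm
      · intro g hg
        have hgz : g * (z : K) * g⁻¹ = z := by
          have := congrArg Subtype.val (DFunLike.congr_fun hg ⟨(z : K), z, Subgroup.mem_zpowers z, rfl⟩)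
          simpa [ψ] using this
        rw [← hPC]
        refine fix_lemma P hP ?_ z.2 (fun h => ?_) (mul_inv_eq_iff_eq_mul.1 hgz)
        · rw [Subgroup.normalizer_eq_top_iff.2 hPn]; trivial
        · rw [show z = 1 from Subtype.ext h, orderOf_one] at hz
          exact hpp.ne_one hz.symm
      · intro g hg
        rw [MonoidHom.mem_ker]
        ext w
        obtain ⟨v, -, hv⟩ := w.2
        change g * (w : K) * g⁻¹ = w
        rw [← hv, Subgroup.subtype_apply, hPab g hg v v.2, mul_inv_cancel_right]
    refine ⟨fun _ => ?_, ?_⟩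
    · haveI := hcyc
      let f := (QuotientGroup.quotientKerEquivRange ψ).toMonoidHom
      let e := QuotientGroup.quotientMulEquivOfEq hker.symm
      exact isCyclic_of_injective ((f.comp e.toMonoidHom))
        ((QuotientGroup.quotientKerEquivRange ψ).injective.comp e.injective)
    · rw [← hcardAut, ← hker, Subgroup.index_ker]
      exact Subgroup.card_subgroup_dvd_card _

end Cfsg.Agent.S4403
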