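import Cfsg.Statements.S4406


set_option autoImplicit false
open Cfsg

namespace Cfsg.Agent.S4406

/-- Abbreviation for the alternating group on four letters. -/
abbrev A4 := ↥(alternatingGroup (Fin 4))

/-- The nontrivial involutions. -/
def invs : Finset A4 := Finset.univ.filter fun a => a * a = 1 ∧ a ≠ 1

/-- The elements of order three. -/
def thirds : Finset A4 := Finset.univ.filter fun a => a * (a * a) = 1 ∧ a ≠ 1

/-- Conjugation by `u` maps `x` into the four-element set spanned by `b` and `c`. -/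
def inSpan (u x b c : A4 × A4) : Bool :=
  let y := u * x * u⁻¹
  decide (y = b ∨ y = c ∨ y = b * c)

theorem check : ∀ b₁ ∈ invs, ∀ b₂ ∈ invs, ∀ c₁ ∈ invs, ∀ c₂ ∈ invs, b₁ ≠ c₁ → b₂ ≠ c₂ →
    ∀ s ∈ thirds, ∀ t ∈ thirds,
    (inSpan (s, t) (b₁, b₂) (b₁, b₂) (c₁, c₂) && inSpan (s, t) (c₁, c₂) (b₁, b₂) (c₁, c₂)) ||
    (inSpan (s, t⁻¹) (b₁, b₂) (b₁, b₂) (c₁, c₂) && inSpan (s, t⁻¹) (c₁, c₂) (b₁, b₂) (c₁, c₂)) := by
  decide +kernel

theorem sq_of_four : ∀ a : A4, a * a * (a * a) = 1 → a * a = 1 := by decide +kernel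

theorem exists_four : ∀ a : A4, a ^ 16 = 1 → a * a = 1 := by decide +kernel

theorem cube_of_nine : ∀ a : A4, a ^ 9 = 1 → a * (a * a) = 1 := by decide +kernel

theorem three_pow_card (S : Subgroup A4) (h : IsPGroup 3 S) : Nat.card S ≤ 3 := by
  obtain ⟨k, hk⟩ := IsPGroup.iff_card.1 h
  have hd := Subgroup.card_subgroup_dvd_card S
  have h12 : Nat.card A4 = 12 := by rw [Nat.card_eq_fintype_card]; decide +kernel
  rw [hk, h12] at hd
  rcases k with _ | _ | k
  · omega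
  · omega
  · exact absurd ((pow_dvd_pow 3 (show 2 ≤ k + 2 by omega)).trans hd) (by norm_num)


/-- In the direct product P = A₄ × A₄, let X be the Sylow 2-subgroup, X₁ and X₂ its intersections with the two direct factors, Q a Sylow 3-subgroup and Q₁, Q₂ its intersections with the two factors. Then every subgroup B of X of order 4 either meets X₁ or X₂ nontrivially, or is normalized by one of the two subgroups of Q of order 3 other than Q₁ and Q₂. -/
theorem result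
    (X : Sylow 2 (↥(alternatingGroup (Fin 4)) × ↥(alternatingGroup (Fin 4))))
    (Q : Sylow 3 (↥(alternatingGroup (Fin 4)) × ↥(alternatingGroup (Fin 4))))
    (B : Subgroup (↥(alternatingGroup (Fin 4)) × ↥(alternatingGroup (Fin 4)))) (hBX : B ≤ (X : Subgroup _)) (hB4 : Nat.card ↥B = 4) :
    B ⊓ ((X : Subgroup _) ⊓ Subgroup.prod ⊤ ⊥) ≠ ⊥ ∨ B ⊓ ((X : Subgroup _) ⊓ Subgroup.prod ⊥ ⊤) ≠ ⊥ ∨
      ∃ R : Subgroup (↥(alternatingGroup (Fin 4)) × ↥(alternatingGroup (Fin 4))), R ≤ (Q : Subgroup _) ∧ Nat.card ↥R = 3 ∧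
        R ≠ (Q : Subgroup _) ⊓ Subgroup.prod ⊤ ⊥ ∧ R ≠ (Q : Subgroup _) ⊓ Subgroup.prod ⊥ ⊤ ∧ R ≤ Subgroup.normalizer (B : Set _) := by
  haveI : Fact (Nat.Prime 2) := ⟨Nat.prime_two⟩
  haveI : Fact (Nat.Prime 3) := ⟨Nat.prime_three⟩
  have h144 : Nat.card (A4 × A4) = 144 := by rw [Nat.card_eq_fintype_card]; decide +kernel
  have hX2 : ∀ x ∈ (X : Subgroup (A4 × A4)), x.1 * x.1 = 1 ∧ x.2 * x.2 = 1 := by
    intro x hx
    have hc : Nat.card (X : Subgroup (A4 × A4)) = 16 := by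
      rw [X.card_eq_multiplicity, h144, show (144 : ℕ) = 2 ^ 4 * 3 ^ 2 by norm_num,
        Nat.factorization_mul (by norm_num) (by norm_num), Nat.Prime.factorization_pow Nat.prime_two,
        Nat.Prime.factorization_pow Nat.prime_three]
      simp
    have h16 : x ^ 16 = 1 := by
      have := pow_card_eq_one' (x := (⟨x, hx⟩ : (X : Subgroup (A4 × A4))))
      rw [hc] at this
      exact congrArg Subtype.val this
    exact ⟨exists_four _ (congrArg Prod.fst h16), exists_four _ (congrArg Prod.snd h16)⟩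
  by_cases hB1 : B ⊓ ((X : Subgroup _) ⊓ Subgroup.prod ⊤ ⊥) ≠ ⊥
  · exact Or.inl hB1
  by_cases hB2 : B ⊓ ((X : Subgroup _) ⊓ Subgroup.prod ⊥ ⊤) ≠ ⊥
  · exact Or.inr (Or.inl hB2)
  push Not at hB1 hB2
  refine Or.inr (Or.inr ?_)
  have hsnd : ∀ x ∈ B, x.2 = 1 → x = 1 := fun x hx h =>
    Subgroup.mem_bot.1 (hB1 ▸ ⟨hx, hBX hx, ⟨Subgroup.mem_top _, Subgroup.mem_bot.2 h⟩⟩)
  have hfst : ∀ x ∈ B, x.1 = 1 → x = 1 := fun x hx h =>
    Subgroup.mem_bot.1 (hB2 ▸ ⟨hx, hBX hx, ⟨Subgroup.mem_bot.2 h, Subgroup.mem_top _⟩⟩)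
  obtain ⟨b, hb, hb1⟩ := (Subgroup.bot_or_exists_ne_one B).resolve_left
    (fun h => by rw [h, Subgroup.card_bot] at hB4; norm_num at hB4)
  obtain ⟨c, hc, hcb⟩ : ∃ c ∈ B, c ∉ Subgroup.zpowers b := by
    by_contra h
    push Not at h
    have h2 := Subgroup.card_le_of_le (H := B) (K := Subgroup.zpowers b) h
    rw [hB4, Nat.card_zpowers] at h2
    have h3 : orderOf b ≤ 2 := Nat.le_of_dvd (by norm_num) (orderOf_dvd_of_pow_eq_one (by
      rw [sq]; exact Prod.ext (hX2 b (hBX hb)).1 (hX2 b (hBX hb)).2))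
    omega
  have hc1 : c ≠ 1 := fun h => hcb (h ▸ one_mem _)
  have hcb' : c ≠ b := fun h => hcb (h ▸ Subgroup.mem_zpowers b)
  have hinv : ∀ x ∈ B, x⁻¹ = x := fun x hx => inv_eq_of_mul_eq_one_right
    (Prod.ext (hX2 x (hBX hx)).1 (hX2 x (hBX hx)).2)
  have hne1 : b.1 ≠ c.1 := fun h => hcb' (by
    have := hfst (b⁻¹ * c) (B.mul_mem (B.inv_mem hb) hc) (by simp [h])
    exact (inv_mul_eq_one.1 this).symm)
  have hne2 : b.2 ≠ c.2 := fun h => hcb' (by
    have := hsnd (b⁻¹ * c) (B.mul_mem (B.inv_mem hb) hc) (by simp [h])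
    exact (inv_mul_eq_one.1 this).symm)
  have memI : ∀ x ∈ B, x ≠ 1 → x.1 ∈ invs ∧ x.2 ∈ invs := by
    intro x hx hx1
    simp only [invs, Finset.mem_filter, Finset.mem_univ, true_and]
    exact ⟨⟨(hX2 x (hBX hx)).1, fun h => hx1 (hfst x hx h)⟩,
      ⟨(hX2 x (hBX hx)).2, fun h => hx1 (hsnd x hx h)⟩⟩
  -- the two factors of `Q`
  have hQ9 : Nat.card (Q : Subgroup (A4 × A4)) = 9 := by
    rw [Q.card_eq_multiplicity, h144, show (144 : ℕ) = 2 ^ 4 * 3 ^ 2 by norm_num,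
      Nat.factorization_mul (by norm_num) (by norm_num), Nat.Prime.factorization_pow Nat.prime_two,
      Nat.Prime.factorization_pow Nat.prime_three]
    simp
  set Q₁ := (Q : Subgroup (A4 × A4)).map (MonoidHom.fst A4 A4)
  set Q₂ := (Q : Subgroup (A4 × A4)).map (MonoidHom.snd A4 A4)
  have hle : (Q : Subgroup (A4 × A4)) ≤ Q₁.prod Q₂ := fun x hx => ⟨⟨x, hx, rfl⟩, ⟨x, hx, rfl⟩⟩
  have hprod : Nat.card (Q₁.prod Q₂) = Nat.card Q₁ * Nat.card Q₂ := by
    rw [Nat.card_congr (Subgroup.prodEquiv Q₁ Q₂).toEquiv, Nat.card_prod]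
  have l1 := three_pow_card Q₁ (Q.2.map _)
  have l2 := three_pow_card Q₂ (Q.2.map _)
  have h9 : 9 ≤ Nat.card Q₁ * Nat.card Q₂ := hprod ▸ hQ9 ▸ Subgroup.card_le_of_le hle
  have heq : (Q : Subgroup (A4 × A4)) = Q₁.prod Q₂ :=
    Subgroup.eq_of_le_of_card_ge hle (by rw [hprod, hQ9]; nlinarith)
  have hQ1 : Nat.card Q₁ = 3 := by nlinarith
  have hQ2 : Nat.card Q₂ = 3 := by nlinarith
  obtain ⟨s, hs, hs1⟩ := (Subgroup.bot_or_exists_ne_one Q₁).resolve_left
    (fun h => by rw [h, Subgroup.card_bot] at hQ1; norm_num at hQ1)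
  obtain ⟨t, ht, ht1⟩ := (Subgroup.bot_or_exists_ne_one Q₂).resolve_left
    (fun h => by rw [h, Subgroup.card_bot] at hQ2; norm_num at hQ2)
  have cube : ∀ (S : Subgroup A4), Nat.card S = 3 → ∀ a ∈ S, a * (a * a) = 1 := by
    intro S hS a ha
    have := pow_card_eq_one' (x := (⟨a, ha⟩ : S))
    rw [hS] at this
    apply cube_of_nine
    rw [show (9 : ℕ) = 3 * 3 by norm_num, pow_mul]
    exact (congrArg (fun w : S => (w : A4) ^ 3) this).trans (one_pow 3)
  have hs3 : s ∈ thirds := by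
    simp only [thirds, Finset.mem_filter, Finset.mem_univ, true_and]; exact ⟨cube _ hQ1 s hs, hs1⟩
  have ht3 : t ∈ thirds := by
    simp only [thirds, Finset.mem_filter, Finset.mem_univ, true_and]; exact ⟨cube _ hQ2 t ht, ht1⟩
  obtain ⟨t', ht', ht'1, hsp⟩ : ∃ t', t' ∈ Q₂ ∧ t' ≠ 1 ∧
      (inSpan (s, t') b b c && inSpan (s, t') c b c) = true := by
    have := check _ (memI b hb hb1).1 _ (memI b hb hb1).2 _ (memI c hc hc1).1 _ (memI c hc hc1).2
      hne1 hne2 s hs3 t ht3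
    rw [Bool.or_eq_true] at this
    rcases this with h | h
    · exact ⟨t, ht, ht1, h⟩
    · exact ⟨t⁻¹, Q₂.inv_mem ht, fun h' => ht1 (inv_eq_one.1 h'), h⟩
  have hu : orderOf ((s, t') : A4 × A4) = 3 := by
    refine orderOf_eq_prime ?_ fun h => hs1 (congrArg Prod.fst h)
    have c1 := cube _ hQ1 s hs
    have c2 := cube _ hQ2 t' ht'
    rw [pow_succ', pow_two]
    exact Prod.ext c1 c2
  have huR : ((s, t') : A4 × A4) ∈ Subgroup.zpowers ((s, t') : A4 × A4) := Subgroup.mem_zpowers _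
  refine ⟨Subgroup.zpowers (s, t'), ?_, by rw [Nat.card_zpowers, hu], ?_, ?_, ?_⟩
  · rw [Subgroup.zpowers_le, heq]; exact ⟨hs, ht'⟩
  · intro h
    exact ht'1 (Subgroup.mem_bot.1 (h.le huR).2.2)
  · intro h
    exact hs1 (Subgroup.mem_bot.1 (h.le huR).2.1)
  · rw [Subgroup.zpowers_le]
    simp only [inSpan, Bool.and_eq_true, decide_eq_true_eq] at hsp
    have hin : ∀ y : A4 × A4, y = b ∨ y = c ∨ y = b * c → y ∈ B := by
      rintro y (rfl | rfl | rfl)
      · exact hb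
      · exact hc
      · exact B.mul_mem hb hc
    set u : A4 × A4 := (s, t')
    have hmap : B.map (MulAut.conj u).toMonoidHom ≤ B := by
      have hgen : B = Subgroup.closure {b, c} := by
        refine (Subgroup.eq_of_le_of_card_ge ((Subgroup.closure_le B).2 (by
          rintro x (rfl | rfl); exacts [hb, hc])) ?_).symm
        have hb' : b ∈ Subgroup.closure ({b, c} : Set (A4 × A4)) := Subgroup.subset_closure (Or.inl rfl)
        have hc' : c ∈ Subgroup.closure ({b, c} : Set (A4 × A4)) := Subgroup.subset_closure (Or.inr rfl)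
        have hlt : Subgroup.zpowers b < Subgroup.closure ({b, c} : Set (A4 × A4)) :=
          lt_of_le_of_ne (Subgroup.zpowers_le.2 hb') fun h => hcb (h ▸ hc')
        have h2b : Nat.card (Subgroup.zpowers b) = 2 := by
          rw [Nat.card_zpowers]
          refine orderOf_eq_prime ?_ hb1
          rw [sq]; exact Prod.ext (hX2 b (hBX hb)).1 (hX2 b (hBX hb)).2
        obtain ⟨k, hk⟩ := Subgroup.card_dvd_of_le hlt.le
        rw [hB4, hk, h2b]
        rcases k with _ | _ | k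
        · simp [Nat.card_pos.ne'] at hk
        · exact absurd (Subgroup.eq_of_le_of_card_ge hlt.le (by rw [hk]; simp)) hlt.ne
        · omega
      conv_lhs => rw [hgen, MonoidHom.map_closure]
      rw [Subgroup.closure_le]
      rintro _ ⟨x, rfl | rfl, rfl⟩
      · exact hin _ hsp.1
      · exact hin _ hsp.2
    have heqB : B.map (MulAut.conj u).toMonoidHom = B := Subgroup.eq_of_le_of_card_ge hmap
      (Nat.card_congr (B.equivMapOfInjective _ (MulAut.conj u).injective).toEquiv).le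
    rw [Subgroup.mem_normalizer_iff]
    intro x
    refine ⟨fun hx => hmap ⟨x, hx, rfl⟩, fun hx => ?_⟩
    rw [← heqB] at hx
    obtain ⟨w, hw, hwx⟩ := hx
    exact (MulAut.conj u).injective hwx ▸ hw

end Cfsg.Agent.S4406
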