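import Cfsg.Statements.S4408
import Cfsg.Agent.Eq.Def_Transfer
import Cfsg.Agent.Constrained.Fitting
import Mathlib.GroupTheory.NoncommCoprod

set_option autoImplicit false
open Cfsg

namespace Cfsg.Agent.S4408

section Helpers

variable {S : Type*} [Group S] [Finite S]

omit [Finite S] in
theorem sq_eq_one_of_odd {D : Subgroup S} (hD : Odd (Nat.card D)) {x : S} (hx : x ∈ D)
    (h2 : x ^ 2 = 1) : x = 1 := by
  obtain ⟨k, hk⟩ := hD
  have : x ^ Nat.card D = 1 := congrArg Subtype.val (pow_card_eq_one' (G := D) (x := ⟨x, hx⟩))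
  rwa [hk, pow_add, pow_mul, h2, one_pow, one_mul, pow_one] at this

omit [Finite S] in
/-- Square roots in a subgroup of odd order. -/
theorem pow_half {D : Subgroup S} (hD : Odd (Nat.card D)) {x : S} (hx : x ∈ D) :
    (x ^ ((Nat.card D + 1) / 2)) ^ 2 = x := by
  obtain ⟨k, hk⟩ := hD
  have : x ^ Nat.card D = 1 := congrArg Subtype.val (pow_card_eq_one' (G := D) (x := ⟨x, hx⟩))
  rw [← pow_mul, show (Nat.card D + 1) / 2 * 2 = Nat.card D + 1 by omega, pow_add, this,
    one_mul, pow_one]

omit [Finite S] in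
/-- An automorphism of order two of a group of odd order: fixed times inverted. -/
theorem exists_fixed_mul_inverted {D : Subgroup S} (hD : Odd (Nat.card D)) (φ : S →* S)
    (hφD : ∀ x ∈ D, φ x ∈ D) (hφ2 : ∀ x, φ (φ x) = x) {x : S} (hx : x ∈ D) :
    ∃ c ∈ D, ∃ v ∈ D, φ c = c ∧ φ v = v⁻¹ ∧ x = c * v := by
  set u := (φ x)⁻¹ * x with hu
  have huD : u ∈ D := D.mul_mem (D.inv_mem (hφD x hx)) hx
  have hφu : φ u = u⁻¹ := by rw [hu, map_mul, map_inv, hφ2, mul_inv_rev, inv_inv]
  set v := u ^ ((Nat.card D + 1) / 2) with hv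
  have hvD : v ∈ D := D.pow_mem huD _
  have hv2 : v ^ 2 = u := pow_half hD huD
  have hφv : φ v = v⁻¹ := by rw [hv, map_pow, hφu, inv_pow]
  refine ⟨x * v⁻¹, D.mul_mem hx (D.inv_mem hvD), v, hvD, ?_, hφv, by group⟩
  have h1 : φ x = x * (v ^ 2)⁻¹ := by rw [hv2, hu]; group
  rw [map_mul, map_inv, hφv, inv_inv, h1]
  group

omit [Finite S] in
/-- If two commuting involutory automorphisms `φ, ψ` are given on a group of odd order and
`φ` is trivial on the fixed points of `ψ` and of `φψ`, then `φ` is trivial. -/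
theorem fixed_of_fixed_klein {D : Subgroup S} (hD : Odd (Nat.card D)) (φ ψ : S →* S)
    (hφD : ∀ x ∈ D, φ x ∈ D) (hψD : ∀ x ∈ D, ψ x ∈ D) (hφ2 : ∀ x, φ (φ x) = x)
    (hψ2 : ∀ x, ψ (ψ x) = x) (hc : ∀ x, φ (ψ x) = ψ (φ x))
    (h1 : ∀ x ∈ D, ψ x = x → φ x = x) (h2 : ∀ x ∈ D, ψ x = φ x → φ x = x) :
    ∀ x ∈ D, φ x = x := by
  intro x hx
  obtain ⟨c, hcD, v, hvD, hc', hv', rfl⟩ := exists_fixed_mul_inverted hD ψ hψD hψ2 hx
  rw [map_mul, h1 c hcD hc']
  congr 1
  obtain ⟨e, heD, j, hjD, he', hj', hev⟩ := exists_fixed_mul_inverted hD (φ.comp ψ)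
    (fun y hy => hφD _ (hψD y hy))
    (fun y => by simp only [MonoidHom.comp_apply]; rw [← hc, hφ2, hψ2]) hvD
  simp only [MonoidHom.comp_apply] at he' hj'
  have heψ : ψ e = φ e := by
    conv_rhs => rw [← he', hφ2]
  have heφ : φ e = e := h2 e heD heψ
  have hψe : ψ e = e := heψ.trans heφ
  -- the action on `v`
  have a1 : φ v = j * e⁻¹ := by
    have : φ (ψ v) = e * j⁻¹ := by rw [hev, map_mul, map_mul, hj', he']
    rw [hv', map_inv] at this
    rw [← inv_inv (φ v), this, mul_inv_rev, inv_inv]
  have a2 : φ j = e⁻¹ * j * e⁻¹ := by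
    rw [mul_assoc, ← a1, hev, map_mul, heφ, inv_mul_cancel_left]
  have a3 : ψ (φ (φ j)) = φ (ψ (φ j)) := (hc _).symm
  have a4 : φ (ψ (φ j)) = e⁻¹ * j⁻¹ * e⁻¹ := by
    rw [a2, map_mul, map_mul, map_mul, map_mul, map_inv, map_inv, hψe, hj', heφ]
  have a5 : φ (ψ (φ j)) = (φ j)⁻¹ := by
    rw [← hc j, hj', map_inv]
  rw [a4, a2] at a5
  have a6 : e⁻¹ * j⁻¹ * e⁻¹ = e * j⁻¹ * e := by rw [a5]; group
  have a7 : j * (e ^ 2) * j⁻¹ = (e ^ 2)⁻¹ := by
    have : j⁻¹ = e ^ 2 * j⁻¹ * e ^ 2 := by
      calc j⁻¹ = e * (e⁻¹ * j⁻¹ * e⁻¹) * e := by group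
        _ = _ := by rw [a6]; simp only [sq, mul_assoc]
    calc j * e ^ 2 * j⁻¹ = j * (e ^ 2 * j⁻¹ * e ^ 2) * (e ^ 2)⁻¹ := by group
      _ = _ := by rw [← this]; group
  have a8 : Commute (j ^ 2) (e ^ 2) := by
    have : j ^ 2 * e ^ 2 * (j ^ 2)⁻¹ = e ^ 2 := by
      calc j ^ 2 * e ^ 2 * (j ^ 2)⁻¹ = j * (j * e ^ 2 * j⁻¹) * j⁻¹ := by
            simp only [sq, mul_inv_rev, mul_assoc]
        _ = (j * e ^ 2 * j⁻¹)⁻¹ := by rw [a7, ← conj_inv, a7]
        _ = _ := by rw [a7, inv_inv]
    exact mul_inv_eq_iff_eq_mul.1 this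
  have a9 : Commute j (e ^ 2) := by
    have := a8.pow_left ((Nat.card D + 1) / 2)
    rwa [← pow_mul, mul_comm, pow_mul, pow_half hD hjD] at this
  rw [a9.eq, mul_inv_cancel_right] at a7
  have he2 : e ^ 2 = 1 := by
    apply sq_eq_one_of_odd hD (D.pow_mem heD 2)
    rw [sq]
    nth_rw 2 [a7]
    exact mul_inv_cancel _
  have he1 : e = 1 := sq_eq_one_of_odd hD heD he2
  rw [a1, hev, he1]
  group

/-- A joint eigen-element: for an elementary abelian `2`-group `I` acting on `D` of odd order and
`t ∈ I` acting non-trivially there is an element of prime order inverted by `t` and mapped to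
itself or its inverse by every element of `I`. -/
theorem exists_eigen {D : Subgroup S} (hD : Odd (Nat.card D)) (I : Subgroup S)
    (hI : Cfsg.IsElementaryAbelian 2 I) (hID : I ≤ Subgroup.normalizer (D : Set S))
    {t : S} (ht : t ∈ I) (hnt : ¬ ∀ x ∈ D, t * x * t⁻¹ = x) :
    ∃ a ∈ D, (orderOf a).Prime ∧ t * a * t⁻¹ = a⁻¹ ∧
      ∀ s ∈ I, s * a * s⁻¹ = a ∨ s * a * s⁻¹ = a⁻¹ := by
  classical
  have hmem : ∀ s ∈ I, ∀ x ∈ D, s * x * s⁻¹ ∈ D := fun s hs x hx =>
    (Subgroup.mem_normalizer_iff.1 (hID hs) x).1 hx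
  let φ : S → (S →* S) := fun s => (MulAut.conj s).toMonoidHom
  have hφ : ∀ s x, φ s x = s * x * s⁻¹ := fun s x => rfl
  have hinvol : ∀ s ∈ I, ∀ x, φ s (φ s x) = x := by
    intro s hs x
    have : s * s = 1 := by have := hI.2 s hs; rwa [sq] at this
    rw [hφ, hφ, ← mul_assoc, ← mul_assoc, this, one_mul, mul_assoc, ← mul_inv_rev, this,
      inv_one, mul_one]
  have hcomm : ∀ s ∈ I, ∀ r ∈ I, ∀ x, φ s (φ r x) = φ r (φ s x) := by
    intro s hs r hr x
    have : s * r = r * s := congrArg Subtype.val (hI.1.1.1 (⟨s, hs⟩ : I) ⟨r, hr⟩)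
    simp only [hφ]
    calc _ = (s * r) * x * (s * r)⁻¹ := by group
      _ = (r * s) * x * (r * s)⁻¹ := by rw [this]
      _ = _ := by group
  -- shrink `D`
  have step : ∀ L : Finset I, ∃ D' : Subgroup S, D' ≤ D ∧ (∀ s ∈ I, ∀ x ∈ D', φ s x ∈ D') ∧
      (¬ ∀ x ∈ D', φ t x = x) ∧
      ∀ s ∈ L, (∀ x ∈ D', φ (s : S) x = x) ∨ ∀ x ∈ D', φ (s : S) x = φ t x := by
    intro L
    induction L using Finset.induction with
    | empty => exact ⟨D, le_rfl, hmem, hnt, by simp⟩
    | @insert r L _ ih =>
      obtain ⟨D', hle, hinv, hnt', hL⟩ := ih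
      have hodd : Odd (Nat.card D') := hD.of_dvd_nat (Subgroup.card_dvd_of_le hle)
      let C1 : Subgroup S := D' ⊓ (φ r).eqLocus (MonoidHom.id S)
      let C2 : Subgroup S := D' ⊓ (φ r).eqLocus (φ t)
      by_cases h1 : ∀ x ∈ C1, φ t x = x
      · have h2 : ¬ ∀ x ∈ C2, φ t x = x := by
          intro h2
          exact hnt' (fixed_of_fixed_klein hodd (φ t) (φ r) (hinv t ht) (hinv r r.2)
            (hinvol t ht) (hinvol r r.2) (hcomm t ht r r.2)
            (fun x hx hx' => h1 x ⟨hx, hx'⟩) (fun x hx hx' => h2 x ⟨hx, hx'⟩))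
        refine ⟨C2, inf_le_left.trans hle, fun s hs x hx => ⟨hinv s hs x hx.1, ?_⟩, h2, ?_⟩
        · show φ r (φ s x) = φ t (φ s x)
          rw [hcomm r r.2 s hs, hcomm t ht s hs]
          exact congrArg (φ s) hx.2
        · intro s hs
          rcases Finset.mem_insert.1 hs with rfl | hs
          · exact Or.inr fun x hx => hx.2
          · rcases hL s hs with h | h
            · exact Or.inl fun x hx => h x hx.1
            · exact Or.inr fun x hx => h x hx.1
      · refine ⟨C1, inf_le_left.trans hle, fun s hs x hx => ⟨hinv s hs x hx.1, ?_⟩, h1, ?_⟩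
        · show φ r (φ s x) = φ s x
          rw [hcomm r r.2 s hs]
          exact congrArg (φ s) hx.2
        · intro s hs
          rcases Finset.mem_insert.1 hs with rfl | hs
          · exact Or.inl fun x hx => hx.2
          · rcases hL s hs with h | h
            · exact Or.inl fun x hx => h x hx.1
            · exact Or.inr fun x hx => h x hx.1
  have : Fintype I := Fintype.ofFinite I
  obtain ⟨D', hle, hinv, hnt', hL⟩ := step Finset.univ
  have hodd : Odd (Nat.card D') := hD.of_dvd_nat (Subgroup.card_dvd_of_le hle)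
  push Not at hnt'
  obtain ⟨x, hx, hne⟩ := hnt'
  obtain ⟨c, hc, v, hv, hc', hv', rfl⟩ := exists_fixed_mul_inverted hodd (φ t) (hinv t ht)
    (hinvol t ht) hx
  have hv1 : v ≠ 1 := by
    rintro rfl
    rw [mul_one] at hne
    exact hne hc'
  obtain ⟨q, hq, hqd⟩ := Nat.exists_prime_and_dvd (mt orderOf_eq_one_iff.1 hv1)
  refine ⟨v ^ (orderOf v / q), hle (D'.pow_mem hv _), ?_, ?_, ?_⟩
  · rwa [orderOf_pow_orderOf_div (orderOf_pos v).ne' hqd]
  · rw [← hφ, map_pow, hv', inv_pow]
  · intro s hs
    rcases hL ⟨s, hs⟩ (Finset.mem_univ _) with h | h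
    · exact Or.inl (h _ (D'.pow_mem hv _))
    · right
      rw [← hφ, show φ s (v ^ (orderOf v / q)) = φ t (v ^ (orderOf v / q)) from
        h _ (D'.pow_mem hv _), map_pow, hv', inv_pow]

/-- An element of order two fixing a subgroup `B` containing its centraliser in a nilpotent
group `F` of odd order fixes `F`. -/
theorem fixed_of_fixed_selfcentralizing {F : Subgroup S} [hF : Group.IsNilpotent F]
    (hodd : Odd (Nat.card F)) {t : S} (ht : t * t = 1)
    (htF : ∀ x ∈ F, t * x * t⁻¹ ∈ F) :
    ∀ (m : ℕ) (B : Subgroup S), Nat.card F - Nat.card B ≤ m → B ≤ F →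
      F ⊓ Subgroup.centralizer (B : Set S) ≤ B → (∀ b ∈ B, t * b * t⁻¹ = b) →
      ∀ x ∈ F, t * x * t⁻¹ = x := by
  intro m
  induction m with
  | zero =>
    intro B hm hBF _ hfix x hx
    exact hfix x (by rw [Subgroup.eq_of_le_of_card_ge hBF (by omega)]; exact hx)
  | succ m ih =>
    intro B hm hBF hcen hfix
    rcases eq_or_lt_of_le hBF with h | h
    · rw [← h]; exact hfix
    set B' : Subgroup S := F ⊓ Subgroup.normalizer (B : Set S) with hB'
    have hle : B ≤ B' := le_inf hBF Subgroup.le_normalizer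
    have hlt : B < B' := by
      refine lt_of_le_of_ne hle fun hEq => ?_
      have hlt' : B.subgroupOf F < ⊤ := lt_top_iff_ne_top.2 fun h' =>
        (ne_of_lt h) (le_antisymm hBF (Subgroup.subgroupOf_eq_top.1 h'))
      have h2 := Group.normalizerCondition_of_isNilpotent (B.subgroupOf F) hlt'
      obtain ⟨y, hy, hy'⟩ := SetLike.exists_of_lt h2
      apply hy'
      rw [Subgroup.mem_subgroupOf, hEq]
      refine ⟨y.2, Subgroup.mem_normalizer_iff.2 fun z => ?_⟩
      constructor
      · intro hz
        exact (Subgroup.mem_normalizer_iff.1 hy ⟨z, hBF hz⟩).1 hz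
      · intro hz
        have hzF : z ∈ F := by
          have := F.mul_mem (F.mul_mem (F.inv_mem y.2) (hBF hz)) y.2
          simpa [mul_assoc] using this
        exact (Subgroup.mem_normalizer_iff.1 hy ⟨z, hzF⟩).2 hz
    refine ih B' ?_ inf_le_left ?_ ?_
    · have hcard : Nat.card B < Nat.card B' :=
        lt_of_le_of_ne (Subgroup.card_le_of_le hle) fun h' =>
          (ne_of_lt hlt) (Subgroup.eq_of_le_of_card_ge hle h'.ge)
      have := Subgroup.card_le_of_le (inf_le_left : B' ≤ F)
      omega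
    · exact le_trans (inf_le_inf_left _ (Subgroup.centralizer_le hle)) (hcen.trans hle)
    · rintro y ⟨hyF, hyN⟩
      set z := y⁻¹ * (t * y * t⁻¹) with hz
      have hzF : z ∈ F := F.mul_mem (F.inv_mem hyF) (htF y hyF)
      have hzB : z ∈ B := by
        refine hcen ⟨hzF, Subgroup.mem_centralizer_iff.2 fun b hb => ?_⟩
        have hyb : y * b * y⁻¹ ∈ B := (Subgroup.mem_normalizer_iff.1 hyN b).1 hb
        have h1 := hfix _ hyb
        have h2 := hfix b hb
        have h3 : (t * y * t⁻¹) * b * (t * y * t⁻¹)⁻¹ = y * b * y⁻¹ := by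
          calc _ = (t * y * t⁻¹) * (t * b * t⁻¹) * (t * y * t⁻¹)⁻¹ := by rw [h2]
            _ = t * (y * b * y⁻¹) * t⁻¹ := by group
            _ = _ := h1
        calc b * z = y⁻¹ * (y * b * y⁻¹) * (t * y * t⁻¹) := by rw [hz]; group
          _ = _ := by rw [← h3, hz]; group
      have htinv : t⁻¹ = t := inv_eq_of_mul_eq_one_left ht
      have h4 : z ^ 2 = 1 := by
        have e1 : t * y * t⁻¹ = y * z := by rw [hz]; group
        have e2 : t * z * t⁻¹ = z := hfix z hzB
        have e3 : y = y * z * z := by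
          calc y = (t * t) * y * (t * t)⁻¹ := by rw [ht]; group
            _ = t * (t * y * t⁻¹) * t⁻¹ := by group
            _ = t * (y * z) * t⁻¹ := by rw [e1]
            _ = (t * y * t⁻¹) * (t * z * t⁻¹) := by group
            _ = _ := by rw [e1, e2]
        rw [mul_assoc, left_eq_mul] at e3
        rw [sq, e3]
      have := sq_eq_one_of_odd hodd hzF h4
      rw [hz, inv_mul_eq_one] at this
      exact this.symm

end Helpers


/-- Let S be a finite solvable group whose Fitting subgroup F(S) has odd order, and let I be an elementary abelian 2-subgroup of S of order 2ⁿ with n ≥ 1. Then F(S) contains subgroups A₁, …, Aₙ of prime order, each normalized by I, pairwise commuting and generating a subgroup A of order |A₁|⋯|Aₙ| (their internal direct product), such that no non-identity element of I centralizes A. -/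
theorem result {S : Type*} [Group S] [Finite S]
    [Group.IsSolvable S] (hF : Odd (Nat.card ↥(Cfsg.fittingSubgroup S)))
    (I : Subgroup S) (hI : Cfsg.IsElementaryAbelian 2 I) (n : ℕ) (hn : 1 ≤ n) (hIn : Nat.card ↥I = 2 ^ n) :
    ∃ f : Fin n → Subgroup S, (∀ i, (Nat.card ↥(f i)).Prime) ∧ (∀ i, f i ≤ Cfsg.fittingSubgroup S) ∧
      (∀ i, I ≤ Subgroup.normalizer ((f i) : Set S)) ∧ (∀ i j, i ≠ j → ∀ a ∈ f i, ∀ b ∈ f j, a * b = b * a) ∧
      Nat.card ↥(⨆ i, f i) = ∏ i, Nat.card ↥(f i) ∧ I ⊓ Subgroup.centralizer ((⨆ i, f i : Subgroup S) : Set S) = ⊥ := by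
  classical
  set F := Cfsg.fittingSubgroup S with hFdef
  have hFn : Group.IsNilpotent F := CfsgLib.Constrained.isNilpotent_fitting
  have hFN : F.Normal := CfsgLib.Constrained.instNormalFitting
  have hCF : Subgroup.centralizer (F : Set S) ≤ F := CfsgLib.Constrained.centralizer_fitting_le
  -- the construction by steps
  have key : ∀ k : ℕ, k ≤ n → ∃ f : Fin k → Subgroup S, (∀ i, (Nat.card ↥(f i)).Prime) ∧
      (∀ i, f i ≤ F) ∧ (∀ i, I ≤ Subgroup.normalizer ((f i) : Set S)) ∧
      (∀ i j, i ≠ j → ∀ a ∈ f i, ∀ b ∈ f j, a * b = b * a) ∧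
      Nat.card ↥(⨆ i, f i) = ∏ i, Nat.card ↥(f i) ∧
      Nat.card ↥(I ⊓ Subgroup.centralizer ((⨆ i, f i : Subgroup S) : Set S)) = 2 ^ (n - k) := by
    intro k
    induction k with
    | zero =>
      intro _
      refine ⟨Fin.elim0, fun i => i.elim0, fun i => i.elim0, fun i => i.elim0,
        fun i => i.elim0, ?_, ?_⟩
      · simp
      · rw [Nat.sub_zero, ← hIn, inf_eq_left.2]
        intro x _
        rw [Subgroup.mem_centralizer_iff]
        intro y hy
        simp only [iSup_of_empty, SetLike.mem_coe, Subgroup.mem_bot] at hy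
        simp [hy]
    | succ k ih =>
      intro hk
      obtain ⟨f, hfp, hfF, hfN, hfc, hfcard, hfJ⟩ := ih (by omega)
      set A : Subgroup S := ⨆ i, f i with hA
      set J : Subgroup S := I ⊓ Subgroup.centralizer (A : Set S) with hJ
      have hAF : A ≤ F := iSup_le hfF
      have hIA : ∀ s ∈ I, ∀ x ∈ A, s * x * s⁻¹ ∈ A := by
        intro s hs x hx
        have hle : A ≤ A.comap (MulAut.conj s).toMonoidHom := iSup_le fun i y hy =>
          le_iSup f i ((Subgroup.mem_normalizer_iff.1 (hfN i hs) y).1 hy)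
        exact hle hx
      have hsq : ∀ s ∈ I, s * s = 1 := fun s hs => by rw [← sq]; exact hI.2 s hs
      have hinv : ∀ s ∈ I, s⁻¹ = s := fun s hs => inv_eq_of_mul_eq_one_left (hsq s hs)
      obtain ⟨t, htJ, ht1⟩ : ∃ t ∈ J, t ≠ 1 := by
        by_contra hno
        push Not at hno
        have : J = ⊥ := (Subgroup.eq_bot_iff_forall J).2 hno
        rw [this, Subgroup.card_bot] at hfJ
        exact absurd hfJ.symm (Nat.one_lt_two_pow (by omega)).ne'
      set D : Subgroup S := F ⊓ Subgroup.centralizer (A : Set S) with hD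
      have hDodd : Odd (Nat.card D) := hF.of_dvd_nat (Subgroup.card_dvd_of_le inf_le_left)
      have hfix : ∀ x ∈ A, t * x * t⁻¹ = x := fun x hx => by
        rw [← Subgroup.mem_centralizer_iff.1 htJ.2 x hx, mul_inv_cancel_right]
      have hnt : ¬ ∀ x ∈ D, t * x * t⁻¹ = x := by
        intro h
        apply ht1
        have hB : ∀ b ∈ A ⊔ D, t * b * t⁻¹ = b := by
          have hle : A ⊔ D ≤ (MulAut.conj t).toMonoidHom.eqLocus (MonoidHom.id S) :=
            sup_le hfix h
          exact hle
        have htF : ∀ x ∈ F, t * x * t⁻¹ = x :=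
          fixed_of_fixed_selfcentralizing hF (hsq t htJ.1) (fun x hx => hFN.conj_mem x hx t)
            _ (A ⊔ D) le_rfl (sup_le hAF inf_le_left)
            (le_trans (inf_le_inf_left _ (Subgroup.centralizer_le (SetLike.coe_subset_coe.2 (le_sup_left : A ≤ A ⊔ D))))
              le_sup_right) hB
        have htF' : t ∈ F := hCF (Subgroup.mem_centralizer_iff.2 fun x hx =>
          (mul_inv_eq_iff_eq_mul.1 (htF x hx)).symm)
        exact sq_eq_one_of_odd hF htF' (hI.2 t htJ.1)
      have hID : I ≤ Subgroup.normalizer (D : Set S) := by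
        have hone : ∀ s ∈ I, ∀ x ∈ D, s * x * s⁻¹ ∈ D := by
          intro s hs x hx
          refine ⟨hFN.conj_mem x hx.1 s, Subgroup.mem_centralizer_iff.2 fun y hy => ?_⟩
          have hy' : s⁻¹ * y * s ∈ A := by
            simpa using hIA s⁻¹ (I.inv_mem hs) y hy
          have := Subgroup.mem_centralizer_iff.1 hx.2 _ hy'
          calc y * (s * x * s⁻¹) = s * ((s⁻¹ * y * s) * x) * s⁻¹ := by group
            _ = _ := by rw [this]; group
        intro s hs
        refine Subgroup.mem_normalizer_iff.2 fun x => ⟨hone s hs x, fun h => ?_⟩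
        have := hone s⁻¹ (I.inv_mem hs) _ h
        simpa [mul_assoc] using this
      obtain ⟨a, haD, hap, hta, heig⟩ := exists_eigen hDodd I hI hID htJ.1 hnt
      have haA : ∀ x ∈ A, x * a = a * x := Subgroup.mem_centralizer_iff.1 haD.2
      have hcomm : ∀ i, ∀ x ∈ f i, ∀ y ∈ Subgroup.zpowers a, x * y = y * x := by
        intro i x hx y hy
        obtain ⟨j, rfl⟩ := Subgroup.mem_zpowers_iff.1 hy
        exact (Commute.zpow_right (haA x (le_iSup f i hx)) j).eq
      have hsup : (⨆ i, (Fin.cons (Subgroup.zpowers a) f : Fin (k + 1) → Subgroup S) i) =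
          Subgroup.zpowers a ⊔ A := by
        refine le_antisymm (iSup_le fun i => ?_) (sup_le ?_ (iSup_le fun i => ?_))
        · refine Fin.cases ?_ ?_ i
          · simp
          · intro j; simp only [Fin.cons_succ]; exact le_sup_of_le_right (le_iSup f j)
        · exact le_iSup_of_le 0 (by simp)
        · exact le_iSup_of_le i.succ (by simp)
      refine ⟨Fin.cons (Subgroup.zpowers a) f, ?_, ?_, ?_, ?_, ?_, ?_⟩
      · refine Fin.cases ?_ ?_
        · simpa [Nat.card_zpowers] using hap
        · simpa using hfp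
      · refine Fin.cases ?_ ?_
        · simpa [Subgroup.zpowers_le] using haD.1
        · simpa using hfF
      · refine Fin.cases ?_ ?_
        · intro s hs
          have hone : ∀ r ∈ I, ∀ x ∈ Subgroup.zpowers a, r * x * r⁻¹ ∈ Subgroup.zpowers a := by
            intro r hr x hx
            obtain ⟨j, rfl⟩ := Subgroup.mem_zpowers_iff.1 hx
            rw [← conj_zpow]
            rcases heig r hr with h | h <;> rw [h]
            · exact Subgroup.zpow_mem _ (Subgroup.mem_zpowers a) j
            · exact Subgroup.zpow_mem _ (Subgroup.inv_mem _ (Subgroup.mem_zpowers a)) j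
          simp only [Fin.cons_zero]
          refine Subgroup.mem_normalizer_iff.2 fun x => ⟨hone s hs x, fun h => ?_⟩
          have := hone s⁻¹ (I.inv_mem hs) _ h
          simpa [mul_assoc] using this
        · simpa using hfN
      · intro i
        refine Fin.cases ?_ ?_ i
        · intro j
          refine Fin.cases ?_ ?_ j
          · exact fun h => absurd rfl h
          · intro j _ x hx y hy
            simp only [Fin.cons_zero, Fin.cons_succ] at hx hy
            exact (hcomm j y hy x hx).symm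
        · intro i j
          refine Fin.cases ?_ ?_ j
          · intro _ x hx y hy
            simp only [Fin.cons_zero, Fin.cons_succ] at hx hy
            exact hcomm i x hx y hy
          · intro j hij x hx y hy
            simp only [Fin.cons_succ] at hx hy
            exact hfc i j (fun h => hij (h ▸ rfl)) x hx y hy
      · rw [hsup, Fin.prod_univ_succ]
        simp only [Fin.cons_zero, Fin.cons_succ]
        rw [← hfcard]
        have hc : ∀ (m : Subgroup.zpowers a) (x : A),
            Commute ((Subgroup.zpowers a).subtype m) (A.subtype x) := by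
          intro m x
          obtain ⟨j, hj⟩ := Subgroup.mem_zpowers_iff.1 m.2
          show Commute (m : S) (x : S)
          rw [← hj]
          exact (Commute.zpow_left (haA x x.2).symm j)
        have hdisj : Disjoint (Subgroup.zpowers a) A := by
          rw [disjoint_iff_inf_le]
          rintro y ⟨hy1, hy2⟩
          rw [Subgroup.mem_bot]
          obtain ⟨j, rfl⟩ := Subgroup.mem_zpowers_iff.1 hy1
          have h1 := hfix _ hy2
          rw [← conj_zpow, hta, inv_zpow] at h1
          exact sq_eq_one_of_odd hF (hAF hy2) (by rw [sq]; nth_rw 1 [← h1]; rw [inv_mul_cancel])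
        have hinj : Function.Injective
            (MonoidHom.noncommCoprod (Subgroup.zpowers a).subtype A.subtype hc) := by
          rw [MonoidHom.noncommCoprod_injective]
          exact ⟨Subtype.val_injective, Subtype.val_injective, by simpa using hdisj⟩
        rw [← Nat.card_prod, Nat.card_congr (MonoidHom.ofInjective hinj).toEquiv,
          MonoidHom.noncommCoprod_range]
        simp
      · rw [hsup]
        set J' : Subgroup S := I ⊓ Subgroup.centralizer
          ((Subgroup.zpowers a ⊔ A : Subgroup S) : Set S) with hJ'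
        have hle : J' ≤ J := inf_le_inf_left _ (Subgroup.centralizer_le (SetLike.coe_subset_coe.2 (le_sup_right : A ≤ Subgroup.zpowers a ⊔ A)))
        have hiff : ∀ s ∈ J, s ∈ J' ↔ s * a * s⁻¹ = a := by
          intro s hs
          constructor
          · intro h
            rw [← Subgroup.mem_centralizer_iff.1 h.2 a
              (Subgroup.mem_sup_left (Subgroup.mem_zpowers a)), mul_inv_cancel_right]
          · intro h
            refine ⟨hs.1, Subgroup.le_centralizer_iff.1 ?_ (Subgroup.mem_zpowers s)⟩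
            refine sup_le (Subgroup.zpowers_le.2 ?_) ?_
            · rw [Subgroup.mem_centralizer_iff]
              intro y hy
              obtain ⟨j, rfl⟩ := Subgroup.mem_zpowers_iff.1 hy
              exact (Commute.zpow_left (show Commute s a from mul_inv_eq_iff_eq_mul.1 h) j).eq
            · exact Subgroup.le_centralizer_iff.1 (Subgroup.zpowers_le.2 hs.2)
        have hflip : ∀ s ∈ I, s * a * s⁻¹ = a⁻¹ → s * a⁻¹ * s⁻¹ = a := by
          intro s _ h
          rw [← conj_inv, h, inv_inv]
        have htJ' : t ∉ J' := by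
          intro h
          have h1 := (hiff t htJ).1 h
          rw [hta] at h1
          exact hap.ne_one (orderOf_eq_one_iff.2
            (sq_eq_one_of_odd hF haD.1 (by rw [sq]; nth_rw 1 [← h1]; rw [inv_mul_cancel])))
        have hidx : J'.relIndex J = 2 := by
          rw [Subgroup.relIndex, Subgroup.index_eq_two_iff]
          refine ⟨⟨t, htJ⟩, fun s => ?_⟩
          simp only [Subgroup.mem_subgroupOf, Subgroup.coe_mul]
          have hst : (s : S) * t ∈ J := J.mul_mem s.2 htJ
          rw [hiff _ hst, hiff _ s.2]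
          have hs' : (s : S) * t * a * ((s : S) * t)⁻¹ = (s : S) * a⁻¹ * (s : S)⁻¹ := by
            rw [← hta]; group
          have hane : a⁻¹ ≠ a := fun h1 => hap.ne_one (orderOf_eq_one_iff.2
            (sq_eq_one_of_odd hF haD.1 (by rw [sq]; nth_rw 1 [← h1]; rw [inv_mul_cancel])))
          rw [hs']
          rcases heig s s.2.1 with h | h
          · right
            refine ⟨h, ?_⟩
            rw [← conj_inv, h]
            exact hane
          · left
            exact ⟨hflip s s.2.1 h, by rw [h]; exact hane⟩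
        have hmul : J'.relIndex J * Nat.card J' = Nat.card J := by
          rw [Subgroup.relIndex, ← Nat.card_congr (Subgroup.subgroupOfEquivOfLe hle).toEquiv,
            mul_comm]
          exact Subgroup.card_mul_index _
        rw [hidx, hfJ, show n - k = n - (k + 1) + 1 by omega, pow_succ] at hmul
        omega
  obtain ⟨f, h1, h2, h3, h4, h5, h6⟩ := key n le_rfl
  rw [Nat.sub_self, pow_zero] at h6
  exact ⟨f, h1, h2, h3, h4, h5, Subgroup.eq_bot_of_card_eq _ h6⟩

end Cfsg.Agent.S4408
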