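import Cfsg.Statements.S4409
import Cfsg.Agent.Eq.Def_Solvable
import Cfsg.Agent.Eq.Def_Transfer
import Cfsg.Agent.NoAbEight.Normal
import Cfsg.Agent.NoAbEight.SmallFrattini
import Cfsg.Agent.Constrained.Fitting
import Cfsg.Agent.Solvable.Hall

set_option autoImplicit false
open Cfsg

namespace Cfsg.Agent.S4409

/-- Let S be a finite solvable group with O_{2'}(S) = 1 that contains a non-cyclic abelian subgroup of order 8, while no proper subgroup of S of 2-power index contains one. Then a Sylow 2-subgroup X of S is normal in S, and one of the following holds: X is abelian; X is extraspecial of order at least 32; X has a generalized quaternion subgroup X₀ of index 2 with X = X₀·C_X(X₀); or X is special with centre of order 4. -/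
theorem result {S : Type*} [Group S] [Finite S]
    [Group.IsSolvable S] (hO : Cfsg.pPrimeCore 2 S = ⊥)
    (h8 : ∃ A : Subgroup S, IsMulCommutative ↥A ∧ ¬ IsCyclic ↥A ∧ Nat.card ↥A = 8)
    (hmin : ∀ R : Subgroup S, R ≠ ⊤ → (∃ k : ℕ, R.index = 2 ^ k) →
      ¬ ∃ A : Subgroup S, A ≤ R ∧ IsMulCommutative ↥A ∧ ¬ IsCyclic ↥A ∧ Nat.card ↥A = 8)
    (X : Sylow 2 S) :
    (X : Subgroup S).Normal ∧
      (IsMulCommutative ↥X ∨
        (Cfsg.IsExtraspecial 2 ↥X ∧ 32 ≤ Nat.card ↥X) ∨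
        (∃ (X₀ : Subgroup S) (k : ℕ), X₀ ≤ (X : Subgroup S) ∧ X₀.relIndex (X : Subgroup S) = 2 ∧
          Nonempty (↥X₀ ≃* QuaternionGroup (2 ^ (k + 1))) ∧ X₀ ⊔ ((X : Subgroup S) ⊓ Subgroup.centralizer (X₀ : Set S)) = (X : Subgroup S)) ∨
        (Cfsg.IsSpecial 2 ↥X ∧ Nat.card ↥(Subgroup.center ↥X) = 4)) := by
  haveI : Fact (Nat.Prime 2) := ⟨Nat.prime_two⟩
  set T := Cfsg.pCore 2 S with hTd
  haveI hTn : T.Normal := Subgroup.sSup_normal _ fun _ h => h.1
  have hT2 : IsPGroup 2 T := Sylow.sSup_of_normal _ (fun _ h => h.2) (fun _ h => h.1)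
  have hC : Subgroup.centralizer (T : Set S) ≤ T := by
    rw [hTd, ← CfsgLib.Constrained.fitting_eq_pCore hO]
    exact CfsgLib.Constrained.centralizer_fitting_le
  obtain ⟨a, m, hm2, ham⟩ := Nat.exists_eq_pow_mul_and_not_dvd (Nat.card_pos (α := S)).ne' 2
    (by norm_num)
  have hmc : m.Coprime 2 := ((Nat.Prime.coprime_iff_not_dvd Nat.prime_two).2 hm2).symm
  obtain ⟨H, hH⟩ := CfsgLib.Solvable.exists_subgroup_card_eq_of_coprime (G := S) m (2 ^ a)
    (by rw [ham, mul_comm]) (hmc.pow_right a)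
  have hXc : Nat.card (X : Subgroup S) = 2 ^ a := by
    rw [X.card_eq_multiplicity, ham]
    congr 1
    rw [Nat.factorization_mul (pow_ne_zero a two_ne_zero) (by rintro rfl; exact hm2 (dvd_zero 2)),
      Finsupp.add_apply, Nat.Prime.factorization_pow Nat.prime_two, Finsupp.single_eq_same,
      Nat.factorization_eq_zero_of_not_dvd hm2, add_zero]
  have hTX : T ≤ (X : Subgroup S) := IsPGroup.le_sylow_of_normal hT2 X
  have hle : ∀ N : Subgroup S, IsPGroup 2 N → Nat.card N ∣ 2 ^ a := fun N hN => by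
    obtain ⟨P, hP⟩ := hN.exists_le_sylow
    refine (Subgroup.card_dvd_of_le hP).trans ?_
    rw [← hXc, P.card_eq_multiplicity, X.card_eq_multiplicity]
  -- small normal subgroups
  have hsmall : ∀ N : Subgroup S, N.Normal → IsPGroup 2 N → Nat.card N < 2 ^ a →
      CfsgLib.NoAbEight.Small N := by
    intro N hNn hN hlt B hBN hBc hB8
    by_contra hBnc
    haveI := hNn
    have hcop : (Nat.card H).Coprime (Nat.card N) := by
      rw [hH]
      exact (hmc.pow_right a).coprime_dvd_right (hle N hN)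
    have hRc : Nat.card (N ⊔ H : Subgroup S) = Nat.card N * m := by
      have hdisj : N ⊓ H = ⊥ := Subgroup.inf_eq_bot_of_coprime hcop.symm
      have h1 := Subgroup.card_mul_index ((N.subgroupOf (N ⊔ H)))
      rw [Nat.card_congr (Subgroup.subgroupOfEquivOfLe (le_sup_left : N ≤ N ⊔ H)).toEquiv] at h1
      rw [← h1]
      congr 1
      show N.relIndex (N ⊔ H) = m
      rw [sup_comm, Subgroup.relIndex_sup_right, ← Subgroup.inf_relIndex_right, hdisj,
        Subgroup.relIndex_bot_left, hH]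
    have hidx := (N ⊔ H).card_mul_index
    rw [hRc, ham] at hidx
    have hidx' : Nat.card N * (N ⊔ H).index = 2 ^ a := by
      apply Nat.eq_of_mul_eq_mul_right (Nat.pos_of_ne_zero (fun h => hm2 (h ▸ dvd_zero 2)) : 0 < m)
      rw [← hidx]; ring
    refine hmin (N ⊔ H) (fun htop => ?_) ?_
      ⟨B, hBN.trans le_sup_left, hBc, hBnc, hB8⟩
    · rw [htop, Subgroup.index_top, mul_one] at hidx'
      omega
    · obtain ⟨k, -, hk⟩ := (Nat.dvd_prime_pow Nat.prime_two).1
        (show (N ⊔ H).index ∣ 2 ^ a from Dvd.intro_left _ hidx')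
      exact ⟨k, hk⟩
  obtain ⟨A, hAc, hAn, hA8⟩ := h8
  have hA2 : IsPGroup 2 A := IsPGroup.of_card (n := 3) hA8
  -- an element of `H` moving `T`, unless `H` is trivial
  have hmove : H ≠ ⊥ → ∃ d ∈ H, ∃ t ∈ T, d * t ≠ t * d := by
    intro hne
    by_contra hcon
    push Not at hcon
    refine hne ?_
    rw [eq_bot_iff]
    intro h hh
    have hhT : h ∈ T := hC (Subgroup.mem_centralizer_iff.2 fun t ht => (hcon h hh t ht).symm)
    rw [Subgroup.mem_bot, ← orderOf_eq_one_iff]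
    refine Nat.eq_one_of_dvd_coprimes (hmc.pow_right a) ?_
      ((T.orderOf_dvd_natCard hhT).trans (hle T hT2))
    rw [← hH]
    exact H.orderOf_dvd_natCard hh
  -- the core is a Sylow subgroup
  have hTc : Nat.card T = 2 ^ a := by
    by_contra hne
    have hlt : Nat.card T < 2 ^ a :=
      lt_of_le_of_ne (Nat.le_of_dvd (by positivity) (hle T hT2)) hne
    by_cases hHb : H = ⊥
    · have hm1 : m = 1 := by rw [← hH, hHb, Subgroup.card_bot]
      have hS2 : IsPGroup 2 S := IsPGroup.of_card (n := a) (by rw [ham, hm1, mul_one])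
      have htop : (⊤ : Subgroup S) ≤ T :=
        le_sSup ⟨inferInstance, hS2.to_subgroup ⊤⟩
      have h1 := Subgroup.card_dvd_of_le htop
      rw [Subgroup.card_top, ham, hm1, mul_one] at h1
      have := Nat.le_of_dvd Nat.card_pos h1
      omega
    obtain ⟨d, hdH, hd⟩ := hmove hHb
    obtain ⟨g, hg⟩ : ∃ P : Sylow 2 S, A ≤ (P : Subgroup S) := hA2.exists_le_sylow
    exact CfsgLib.NoAbEight.core_false hT2 (hsmall T hTn hT2 hlt) hC
      ((hH ▸ hmc : (Nat.card H).Coprime 2).coprime_dvd_left (H.orderOf_dvd_natCard hdH)) hd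
      g.2 (IsPGroup.le_sylow_of_normal hT2 g) hg hAc hAn hA8
  have hXT : (X : Subgroup S) = T :=
    (Subgroup.eq_of_le_of_card_ge hTX (by rw [hXc, hTc])).symm
  refine ⟨hXT ▸ hTn, ?_⟩
  show IsMulCommutative ↥(X : Subgroup S) ∨
    (Cfsg.IsExtraspecial 2 ↥(X : Subgroup S) ∧ 32 ≤ Nat.card ↥(X : Subgroup S)) ∨
    (∃ (X₀ : Subgroup S) (k : ℕ), X₀ ≤ (X : Subgroup S) ∧ X₀.relIndex (X : Subgroup S) = 2 ∧
      Nonempty (↥X₀ ≃* QuaternionGroup (2 ^ (k + 1))) ∧
      X₀ ⊔ ((X : Subgroup S) ⊓ Subgroup.centralizer (X₀ : Set S)) = (X : Subgroup S)) ∨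
    (Cfsg.IsSpecial 2 ↥(X : Subgroup S) ∧ Nat.card ↥(Subgroup.center ↥(X : Subgroup S)) = 4)
  rw [hXT]
  by_cases hcomm : IsMulCommutative T
  · exact Or.inl hcomm
  right
  have hAT : A ≤ T := by
    obtain ⟨P, hP⟩ := hA2.exists_le_sylow
    have h1 : (P : Subgroup S) = T := (Subgroup.eq_of_le_of_card_ge
      (IsPGroup.le_sylow_of_normal hT2 P) (by
        rw [hTc, ← hXc, P.card_eq_multiplicity, X.card_eq_multiplicity])).symm
    exact h1 ▸ hP
  have hAne : A ≠ T := fun h => hcomm (h ▸ hAc)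
  have hHb : H ≠ ⊥ := by
    intro hHb
    have hm1 : m = 1 := by rw [← hH, hHb, Subgroup.card_bot]
    have hidx := A.card_mul_index
    rw [hA8, ham, hm1, mul_one] at hidx
    refine hmin A (fun h => hAne (le_antisymm hAT (h ▸ le_top))) ?_ ⟨A, le_rfl, hAc, hAn, hA8⟩
    obtain ⟨k, -, hk⟩ := (Nat.dvd_prime_pow Nat.prime_two).1
      (show A.index ∣ 2 ^ a from Dvd.intro_left _ hidx)
    exact ⟨k, hk⟩
  obtain ⟨d, hdH, hd⟩ := hmove hHb
  have hHc : (Nat.card H).Coprime 2 := hH ▸ hmc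
  have ho : (orderOf d).Coprime 2 := hHc.coprime_dvd_left (H.orderOf_dvd_natCard hdH)
  have hsm : ∀ N : Subgroup S, N.Normal → N ≤ T → N ≠ T → CfsgLib.NoAbEight.Small N := by
    intro N hNn hNT hne
    refine hsmall N hNn (hT2.to_le hNT) ?_
    rw [← hTc]
    exact lt_of_not_ge fun h => hne (Subgroup.eq_of_le_of_card_ge hNT h)
  have h16 : 16 ≤ Nat.card T := by
    have h1 := Subgroup.card_dvd_of_le hAT
    rw [hA8, hTc] at h1
    have h3 : 3 ≤ a := (Nat.pow_dvd_pow_iff_le_right (by norm_num)).1 (show 2 ^ 3 ∣ 2 ^ a from h1)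
    have h4 : a ≠ 3 := fun h => hAne (Subgroup.eq_of_le_of_card_ge hAT (by
      rw [hA8, hTc, h]; norm_num))
    rw [hTc]
    exact le_trans (by norm_num) (Nat.pow_le_pow_right two_pos (show 4 ≤ a by omega))
  rcases Nat.lt_or_ge (Nat.card (CfsgLib.NoAbEight.fr T)) 4 with hf | hf
  · have hTH : T ⊔ H = ⊤ := by
      refine Subgroup.eq_top_of_card_eq _ (Nat.dvd_antisymm (Subgroup.card_subgroup_dvd_card _) ?_)
      rw [ham]
      refine Nat.Coprime.mul_dvd_of_dvd_of_dvd ((hmc.pow_right a).symm) ?_ ?_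
      · exact hTc ▸ Subgroup.card_dvd_of_le le_sup_left
      · exact hH ▸ Subgroup.card_dvd_of_le le_sup_right
    rcases CfsgLib.NoAbEight.small_frattini hT2 hsm h16 hcomm hHc hTH hdH hd hf with h | h
    · exact Or.inl h
    · exact Or.inr (Or.inl h)
  · exact Or.inr (Or.inr (CfsgLib.NoAbEight.big_frattini hT2 hsm h16 hcomm ho hd hf))

end Cfsg.Agent.S4409
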