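import Cfsg.Statements.S4410
import Cfsg.Agent.Eq.Def_Solvable
import Mathlib

set_option autoImplicit false
open Cfsg

namespace Cfsg.Agent.S4410

/-- In a solvable group with trivial `2`-core, an involution moves some odd nilpotent normal
subgroup. -/
theorem exists_moved {G : Type*} [Group G] [Finite G] [Group.IsSolvable G]
    (hO : Cfsg.pCore 2 G = ⊥) (t : G) (ht : t ^ 2 = 1) (ht1 : t ≠ 1) :
    ∃ N : Subgroup G, N.Normal ∧ Group.IsNilpotent N ∧ Odd (Nat.card N) ∧
      ∃ x ∈ N, t * x ≠ x * t := by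
  classical
  let K : Subgroup G := ⨅ N : {N : Subgroup G // N.Normal ∧ Group.IsNilpotent N},
    Subgroup.centralizer (N.1 : Set G)
  have hKn : K.Normal := Subgroup.normal_iInf_normal fun N => by
    haveI := N.2.1
    infer_instance
  have hF : K ≤ sSup {N : Subgroup G | N.Normal ∧ Group.IsNilpotent N} := by
    by_contra hle
    obtain ⟨M, ⟨hMn, hMK, hMF⟩, hmin⟩ := (Set.toFinite {M : Subgroup G | M.Normal ∧ M ≤ K ∧
      ¬ M ≤ sSup {N : Subgroup G | N.Normal ∧ Group.IsNilpotent N}}).exists_minimal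
      ⟨K, hKn, le_rfl, hle⟩
    haveI := hMn
    have hne : M ≠ ⊥ := fun h => hMF (h ▸ bot_le)
    have hlt : ⁅M, M⁆ < M := Group.IsSolvable.commutator_lt_of_ne_bot hne
    have hder : ⁅M, M⁆ ≤ sSup {N : Subgroup G | N.Normal ∧ Group.IsNilpotent N} := by
      by_contra hcon
      exact absurd (hmin ⟨inferInstance, hlt.le.trans hMK, hcon⟩ hlt.le) (not_le_of_gt hlt)
    have hnil : Group.IsNilpotent ↥M := by
      refine Subgroup.isNilpotent_of_ker_le_center (Abelianization.of (G := ↥M)) ?_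
      rw [Abelianization.ker_of]
      intro a ha
      rw [Subgroup.mem_center_iff]
      intro b
      have haR := hder ((Subgroup.map_subtype_commutator M) ▸ Subgroup.mem_map_of_mem M.subtype ha)
      have hle2 : sSup {N : Subgroup G | N.Normal ∧ Group.IsNilpotent N} ≤
          Subgroup.centralizer ({(b : G)} : Set G) := by
        refine sSup_le fun N hN n hn => Subgroup.mem_centralizer_iff.2 ?_
        rintro _ rfl
        exact (Subgroup.mem_centralizer_iff.1 (iInf_le (fun N : {N : Subgroup G //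
          N.Normal ∧ Group.IsNilpotent N} => Subgroup.centralizer (N.1 : Set G)) ⟨N, hN⟩
          (hMK b.2)) n hn).symm
      exact Subtype.ext (Subgroup.mem_centralizer_iff.1 (hle2 haR) b rfl)
    exact hMF (le_sSup ⟨hMn, hnil⟩)
  have hKc : ∀ a ∈ K, ∀ b ∈ K, a * b = b * a := by
    intro a ha b hb
    have hle2 : sSup {N : Subgroup G | N.Normal ∧ Group.IsNilpotent N} ≤
        Subgroup.centralizer ({b} : Set G) := by
      refine sSup_le fun N hN n hn => Subgroup.mem_centralizer_iff.2 ?_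
      rintro _ rfl
      exact (Subgroup.mem_centralizer_iff.1 (iInf_le (fun N : {N : Subgroup G //
        N.Normal ∧ Group.IsNilpotent N} => Subgroup.centralizer (N.1 : Set G)) ⟨N, hN⟩ hb)
        n hn).symm
    exact (Subgroup.mem_centralizer_iff.1 (hle2 (hF ha)) b rfl).symm
  -- a normal nilpotent subgroup has odd order
  have hodd : ∀ N : Subgroup G, N.Normal → Group.IsNilpotent N → Odd (Nat.card N) := by
    intro N hN hNn
    haveI : Fact (Nat.Prime 2) := ⟨Nat.prime_two⟩
    rw [Nat.odd_iff, ← Nat.two_dvd_ne_zero]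
    intro hd
    haveI := hN
    haveI := hNn
    obtain ⟨Q⟩ : Nonempty (Sylow 2 N) := inferInstance
    haveI : (Q : Subgroup N).Characteristic := Sylow.characteristic_of_normal Q inferInstance
    have hle : (Q : Subgroup N).map N.subtype ≤ Cfsg.pCore 2 G :=
      le_sSup ⟨inferInstance, Q.2.map _⟩
    rw [hO, le_bot_iff, Subgroup.map_eq_bot_iff_of_injective _ N.subtype_injective] at hle
    exact Q.ne_bot_of_dvd_card hd hle
  by_contra hall
  push Not at hall
  have htK : t ∈ K := Subgroup.mem_iInf.2 fun N => Subgroup.mem_centralizer_iff.2 fun n hn =>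
    (hall N.1 N.2.1 N.2.2 (hodd _ N.2.1 N.2.2) n hn).symm
  haveI := hKn
  have hKnil : Group.IsNilpotent K := by
    letI : CommGroup K := { (inferInstance : Group K) with
      mul_comm := fun a b => Subtype.ext (hKc a a.2 b b.2) }
    infer_instance
  have h2 : orderOf t = 2 := orderOf_eq_prime ht ht1
  have := (hodd K hKn hKnil).of_dvd_nat
    (h2 ▸ (Subgroup.orderOf_mk (H := K) t htK ▸ orderOf_dvd_natCard (⟨t, htK⟩ : K)))
  exact absurd this (by decide)

section
variable {V : Type*} [AddCommGroup V] [Module (ZMod 2) V]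

theorem add_self_zero (v : V) : v + v = 0 := by
  rw [← two_smul (ZMod 2) v, show (2 : ZMod 2) = 0 from rfl, zero_smul]

/-- The automorphisms acting trivially modulo `W`. -/
def trivMod (W : Submodule (ZMod 2) V) : Subgroup (V ≃ₗ[ZMod 2] V) where
  carrier := {x | ∀ v, x v - v ∈ W}
  one_mem' v := by simp [W.zero_mem]
  mul_mem' {x y} hx hy v := by
    have := W.add_mem (hx (y v)) (hy v)
    simpa using this
  inv_mem' {x} hx v := by
    have := W.neg_mem (hx (x⁻¹ v))
    have hxx : x (x⁻¹ v) = v := by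
      rw [← LinearEquiv.mul_apply, mul_inv_cancel, LinearEquiv.coe_one, id_eq]
    rwa [hxx, neg_sub] at this

theorem trivMod_maps {W : Submodule (ZMod 2) V} {x : V ≃ₗ[ZMod 2] V} (hx : x ∈ trivMod W)
    {w : V} (hw : w ∈ W) : x w ∈ W := by
  simpa using W.add_mem (hx w) hw

/-- An element of odd order trivial modulo `W` and on `W` is trivial. -/
theorem eq_one_of_trivial {W : Submodule (ZMod 2) V} {x : V ≃ₗ[ZMod 2] V}
    (hx : x ∈ trivMod W) (hW : ∀ w ∈ W, x w = w) (hodd : Odd (orderOf x)) : x = 1 := by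
  have h2 : x ^ 2 = 1 := by
    refine LinearEquiv.ext fun v => ?_
    have h3 : x (x v - v) = x v - v := hW _ (hx v)
    rw [map_sub] at h3
    have h4 : x (x v) = (x v - v) + x v := by rw [← h3]; abel
    rw [pow_two, LinearEquiv.mul_apply, h4]
    calc x v - v + x v = (x v + x v) - v := by abel
      _ = -v := by rw [add_self_zero, zero_sub]
      _ = v := neg_eq_of_add_eq_zero_left (add_self_zero v)
  have := Nat.dvd_gcd (orderOf_dvd_of_pow_eq_one h2) (dvd_refl (orderOf x))
  rw [(Nat.coprime_two_left.2 hodd).gcd_eq_one, Nat.dvd_one] at this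
  exact orderOf_eq_one_iff.1 this

/-- Odd order groups of automorphisms trivial modulo `W` embed in the automorphisms of `W`. -/
theorem card_dvd_of_trivMod [Finite V] {W : Submodule (ZMod 2) V}
    (H : Subgroup (V ≃ₗ[ZMod 2] V)) (hH : H ≤ trivMod W) (hodd : Odd (Nat.card H)) :
    Nat.card H ∣ Nat.card (GL (Fin (Module.finrank (ZMod 2) W)) (ZMod 2)) := by
  let b := Module.finBasis (ZMod 2) W
  let r : H →* Module.End (ZMod 2) W :=
    { toFun := fun x => ((x.1 : V ≃ₗ[ZMod 2] V).toLinearMap).restrict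
        (fun w hw => trivMod_maps (hH x.2) hw)
      map_one' := LinearMap.ext fun w => Subtype.ext (by simp)
      map_mul' := fun x y => LinearMap.ext fun w => Subtype.ext (by simp) }
  let f : H →* GL (Fin (Module.finrank (ZMod 2) W)) (ZMod 2) :=
    ((LinearMap.toMatrixAlgEquiv b).toAlgHom.toRingHom.toMonoidHom.comp r).toHomUnits
  refine Subgroup.card_dvd_of_injective f ((injective_iff_map_eq_one f).2 fun x hx => ?_)
  have h1 : r x = 1 := (LinearMap.toMatrixAlgEquiv b).injective (by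
    rw [map_one]; exact congrArg Units.val hx)
  apply Subtype.ext
  refine eq_one_of_trivial (hH x.2) (fun w hw => ?_) ?_
  · exact congrArg Subtype.val (LinearMap.congr_fun h1 ⟨w, hw⟩)
  · rw [Subgroup.orderOf_coe]
    exact hodd.of_dvd_nat (orderOf_dvd_natCard x)

theorem card_GL_small (d : ℕ) (hd : d ≤ 3) :
    Nat.card (GL (Fin d) (ZMod 2)) = [1, 1, 6, 168][d]! := by
  rw [Matrix.card_GL_field]
  interval_cases d <;> simp [Fin.prod_univ_succ, Finset.prod_range_succ]

end

variable {V : Type*} [AddCommGroup V] [Module (ZMod 2) V] [Finite V]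

/-- Elements of odd order inverted by a transvection. -/
theorem inverted (t : V ≃ₗ[ZMod 2] V) (htt : t * t = 1) (a : V)
    (ht : ∀ v, t v - v ∈ Submodule.span (ZMod 2) {a})
    (y : V ≃ₗ[ZMod 2] V) (hy : Odd (orderOf y)) (hinv : t * y * t = y⁻¹) :
    y ^ 3 = 1 ∧ y ∈ trivMod (Submodule.span (ZMod 2) ({a, y⁻¹ a} : Set V)) := by
  classical
  set W := Submodule.span (ZMod 2) ({a, y⁻¹ a} : Set V) with hWdef
  have ha : Submodule.span (ZMod 2) {a} ≤ W := Submodule.span_mono (by simp)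
  have htW : t ∈ trivMod W := fun v => ha (ht v)
  have ht2 : y⁻¹ * t * y ∈ trivMod W := by
    intro v
    obtain ⟨c, hc⟩ := Submodule.mem_span_singleton.1 (ht (y v))
    have hyy : y⁻¹ (y v) = v := by
      rw [← LinearEquiv.mul_apply, inv_mul_cancel, LinearEquiv.coe_one, id_eq]
    have h2 : y⁻¹ (t (y v)) - v = y⁻¹ (t (y v) - y v) := by rw [map_sub, hyy]
    rw [LinearEquiv.mul_apply, LinearEquiv.mul_apply, h2, ← hc, map_smul]
    exact W.smul_mem c (Submodule.subset_span (by simp))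
  have hti : t * y⁻¹ * t = y := by
    rw [← hinv]
    calc t * (t * y * t) * t = (t * t) * y * (t * t) := by group
      _ = y := by rw [htt, one_mul, mul_one]
  have hy2 : y * y ∈ trivMod W := by
    have h := mul_mem htW ht2
    rwa [show t * (y⁻¹ * t * y) = (t * y⁻¹ * t) * y by group, hti] at h
  have hyW : y ∈ trivMod W := by
    obtain ⟨m, hm⟩ := hy
    have h1 := pow_mem hy2 (m + 1)
    rwa [← pow_two, ← pow_mul, show 2 * (m + 1) = orderOf y + 1 by omega, pow_succ,
      pow_orderOf_eq_one, one_mul] at h1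
  refine ⟨?_, hyW⟩
  have hfin : Module.finrank (ZMod 2) W ≤ 2 := by
    have := finrank_span_finset_le_card (R := ZMod 2) ({a, y⁻¹ a} : Finset V)
    rw [Finset.coe_insert, Finset.coe_singleton] at this
    exact le_trans this (Finset.card_insert_le _ _)
  have hoddH : Odd (Nat.card (Subgroup.zpowers y)) := by rwa [Nat.card_zpowers]
  have hdvd := card_dvd_of_trivMod (Subgroup.zpowers y) (Subgroup.zpowers_le.2 hyW) hoddH
  rw [card_GL_small _ (by omega), Nat.card_zpowers] at hdvd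
  have h6 : orderOf y ∣ 2 * 3 := by
    have : ∀ d, d ≤ 2 → [1, 1, 6, 168][d]! ∣ 2 * 3 := by decide
    exact hdvd.trans (this _ hfin)
  exact orderOf_dvd_iff_pow_eq_one.1
    ((Nat.Coprime.dvd_mul_left (Nat.coprime_two_right.2 hy)).1 h6)

theorem result {V : Type*} [AddCommGroup V] [Module (ZMod 2) V] [Finite V]
    (S : Subgroup (V ≃ₗ[ZMod 2] V)) (hS : Group.IsSolvable ↥S) (hO2 : Cfsg.pCore 2 ↥S = ⊥)
    (P : V ≃ₗ[ZMod 2] V) (hPS : P ∈ S) (hP4 : orderOf P = 4)
    (hcub : ((P : V →ₗ[ZMod 2] V) - LinearMap.id) ^ 3 = 0) :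
    4 ≤ Nat.card ↥(LinearMap.range (((P : V →ₗ[ZMod 2] V) - LinearMap.id) ^ 2)) := by
  classical
  set R := LinearMap.range (((P : V →ₗ[ZMod 2] V) - LinearMap.id) ^ 2) with hR
  by_contra hlt
  push Not at hlt
  haveI : Finite (V ≃ₗ[ZMod 2] V) := Finite.of_injective _ DFunLike.coe_injective
  set t : V ≃ₗ[ZMod 2] V := P ^ 2 with ht
  have htt : t * t = 1 := by rw [ht, ← pow_add, ← pow_orderOf_eq_one P, hP4]
  have ht1 : t ≠ 1 := fun h => by
    have := orderOf_dvd_of_pow_eq_one (ht ▸ h)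
    rw [hP4] at this
    norm_num at this
  have htR : ∀ v, t v - v ∈ R := by
    intro v
    refine ⟨v, ?_⟩
    have h2 : ((((P : V →ₗ[ZMod 2] V) - LinearMap.id) ^ 2 : V →ₗ[ZMod 2] V)) v =
        P (P v) - P v - (P v - v) := by
      rw [pow_two, Module.End.mul_apply]
      simp
    rw [h2, ht, pow_two, LinearEquiv.mul_apply]
    calc P (P v) - P v - (P v - v) = P (P v) + v - (P v + P v) := by abel
      _ = P (P v) + v := by rw [add_self_zero, sub_zero]
      _ = P (P v) - v := by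
        rw [sub_eq_add_neg, neg_eq_of_add_eq_zero_left (add_self_zero v)]
  obtain ⟨a, haR⟩ : ∃ a, R ≤ Submodule.span (ZMod 2) {a} := by
    have hfr : Module.finrank (ZMod 2) R ≤ 1 := by
      by_contra h
      have hc := Module.natCard_eq_pow_finrank (K := ZMod 2) (V := R)
      rw [Nat.card_zmod] at hc
      have : 2 ^ 2 ≤ 2 ^ Module.finrank (ZMod 2) R := Nat.pow_le_pow_right (by norm_num) (by omega)
      omega
    obtain ⟨a, ha⟩ := finrank_le_one_iff.1 hfr
    refine ⟨a.1, fun v hv => ?_⟩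
    obtain ⟨c, hc⟩ := ha ⟨v, hv⟩
    exact Submodule.mem_span_singleton.2 ⟨c, congrArg Subtype.val hc⟩
  have hta : ∀ v, t v - v ∈ Submodule.span (ZMod 2) {a} := fun v => haR (htR v)
  haveI := hS
  obtain ⟨N, hN, hNn, hNodd, x, hx, hxt⟩ := exists_moved hO2 (⟨t, ht ▸ pow_mem hPS 2⟩ : S)
    (Subtype.ext (by rw [pow_two]; exact htt)) (fun h => ht1 (congrArg Subtype.val h))
  -- an inverted element of `N`
  set T : S := ⟨t, ht ▸ pow_mem hPS 2⟩ with hT
  have hTT : T * T = 1 := Subtype.ext htt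
  have hTi : T⁻¹ = T := inv_eq_of_mul_eq_one_right hTT
  set Y : S := x⁻¹ * (T * x * T) with hY
  have hYN : Y ∈ N := mul_mem (inv_mem hx) (by simpa [hTi] using hN.conj_mem x hx T)
  have hYinv : T * Y * T = Y⁻¹ := by
    calc T * Y * T = (T * x⁻¹ * T) * x * (T * T) := by rw [hY]; group
      _ = T⁻¹ * x⁻¹ * T⁻¹ * x := by rw [hTT, mul_one, hTi]
      _ = Y⁻¹ := by rw [hY]; group
  have hY1 : Y ≠ 1 := fun h => hxt (by
    have h2 : T * x * T = x := by
      calc T * x * T = x * Y := by rw [hY]; group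
        _ = x := by rw [h, mul_one]
    calc T * x = T * x * (T * T) := by rw [hTT, mul_one]
      _ = (T * x * T) * T := by group
      _ = x * T := by rw [h2])
  set Q : S := ⟨P, hPS⟩ with hQ
  have hQT : Q * T = T * Q := Subtype.ext ((ht ▸ (Commute.refl P).pow_right 2 : Commute P t).eq)
  set Z : S := Q * Y * Q⁻¹ with hZ
  have hZN : Z ∈ N := hN.conj_mem Y hYN Q
  have hQT' : Q⁻¹ * T = T * Q⁻¹ := ((show Commute Q T from hQT).inv_left).eq
  have hZinv : T * Z * T = Z⁻¹ := by
    calc T * Z * T = (T * Q) * Y * (Q⁻¹ * T) := by rw [hZ]; group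
      _ = (Q * T) * Y * (T * Q⁻¹) := by rw [hQT, hQT']
      _ = Q * (T * Y * T) * Q⁻¹ := by group
      _ = Z⁻¹ := by rw [hYinv, hZ]; group
  have hod : ∀ u ∈ N, Odd (orderOf ((u : S) : V ≃ₗ[ZMod 2] V)) := by
    intro u hu
    rw [Subgroup.orderOf_coe]
    exact hNodd.of_dvd_nat (Subgroup.orderOf_mk (H := N) u hu ▸ orderOf_dvd_natCard (⟨u, hu⟩ : N))
  obtain ⟨hy3, hyW⟩ := inverted t htt a hta Y (hod Y hYN) (congrArg Subtype.val hYinv)
  obtain ⟨hz3, hzW⟩ := inverted t htt a hta Z (hod Z hZN) (congrArg Subtype.val hZinv)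
  set W := Submodule.span (ZMod 2) ({a, (Y : V ≃ₗ[ZMod 2] V)⁻¹ a, (Z : V ≃ₗ[ZMod 2] V)⁻¹ a} : Set V)
    with hW
  have hmono : ∀ s : Set V, s ⊆ {a, (Y : V ≃ₗ[ZMod 2] V)⁻¹ a, (Z : V ≃ₗ[ZMod 2] V)⁻¹ a} →
      ∀ u, u ∈ trivMod (Submodule.span (ZMod 2) s) → u ∈ trivMod W :=
    fun s hs u hu v => Submodule.span_mono hs (hu v)
  have hyW' := hmono _ (by intro u; simp; tauto) _ hyW
  have hzW' := hmono _ (by intro u; simp; tauto) _ hzW
  set H : Subgroup (V ≃ₗ[ZMod 2] V) :=
    Subgroup.closure {(Y : V ≃ₗ[ZMod 2] V), (Z : V ≃ₗ[ZMod 2] V)} with hH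
  have hHW : H ≤ trivMod W := (Subgroup.closure_le _).2 (by
    rintro u (rfl | rfl)
    · exact hyW'
    · exact hzW')
  -- both lie in the Sylow `3`-subgroup of `N`
  have hHp : IsPGroup 3 H := by
    haveI : Fact (Nat.Prime 3) := ⟨Nat.prime_three⟩
    haveI := hNn
    obtain ⟨Q₃⟩ : Nonempty (Sylow 3 N) := inferInstance
    haveI : (Q₃ : Subgroup N).Normal := inferInstance
    have hmem : ∀ u : N, u ^ 3 = 1 → u ∈ (Q₃ : Subgroup N) := by
      intro u hu
      have hp : IsPGroup 3 (Subgroup.zpowers u) := by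
        intro w
        refine ⟨1, ?_⟩
        obtain ⟨i, hi⟩ := Subgroup.mem_zpowers_iff.1 w.2
        apply Subtype.ext
        rw [Subgroup.coe_pow, ← hi, pow_one, ← zpow_natCast, ← zpow_mul, mul_comm, zpow_mul,
          zpow_natCast, hu, one_zpow, Subgroup.coe_one]
      obtain ⟨R, hR⟩ := hp.exists_le_sylow
      haveI := Sylow.unique_of_normal Q₃ inferInstance
      have : R = Q₃ := Subsingleton.elim _ _
      exact this ▸ hR (Subgroup.mem_zpowers u)
    refine ((Q₃.2.map N.subtype).map S.subtype).to_le ((Subgroup.closure_le _).2 ?_)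
    rintro u (rfl | rfl)
    · exact ⟨Y, ⟨⟨Y, hYN⟩, hmem _ (Subtype.ext (Subtype.ext hy3)), rfl⟩, rfl⟩
    · exact ⟨Z, ⟨⟨Z, hZN⟩, hmem _ (Subtype.ext (Subtype.ext hz3)), rfl⟩, rfl⟩
  haveI : Fact (Nat.Prime 3) := ⟨Nat.prime_three⟩
  obtain ⟨k, hk⟩ := IsPGroup.iff_card.1 hHp
  have hHodd : Odd (Nat.card H) := by rw [hk]; exact (by decide : Odd 3).pow
  have hfin : Module.finrank (ZMod 2) W ≤ 3 := by
    have := finrank_span_finset_le_card (R := ZMod 2)
      ({a, (Y : V ≃ₗ[ZMod 2] V)⁻¹ a, (Z : V ≃ₗ[ZMod 2] V)⁻¹ a} : Finset V)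
    simp only [Finset.coe_insert, Finset.coe_singleton] at this
    exact le_trans this (le_trans (Finset.card_insert_le _ _)
      (Nat.succ_le_succ (Finset.card_insert_le _ _)))
  have hdvd := card_dvd_of_trivMod H hHW hHodd
  rw [card_GL_small _ hfin] at hdvd
  have h168 : Nat.card H ∣ 2 ^ 3 * 21 := by
    have : ∀ d, d ≤ 3 → [1, 1, 6, 168][d]! ∣ 2 ^ 3 * 21 := by decide
    exact hdvd.trans (this _ hfin)
  have hle : Nat.card H ≤ 3 := by
    rw [hk] at h168 ⊢
    have h21 := ((Nat.Coprime.pow k 3 (by norm_num : Nat.Coprime 3 2)).dvd_mul_left).1 h168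
    rcases Nat.lt_or_ge k 2 with h | h
    · interval_cases k <;> norm_num
    · exact absurd ((pow_dvd_pow 3 h).trans h21) (by norm_num)
  -- so `Z` lies in the cyclic group generated by `Y`
  have hYH : Subgroup.zpowers (Y : V ≃ₗ[ZMod 2] V) = H := by
    refine Subgroup.eq_of_le_of_card_ge (Subgroup.zpowers_le.2 (Subgroup.subset_closure (by simp))) ?_
    rw [Nat.card_zpowers, orderOf_eq_prime hy3 (fun h => hY1 (Subtype.ext h))]
    exact hle
  have hZH : (Z : V ≃ₗ[ZMod 2] V) ∈ H := Subgroup.subset_closure (by simp)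
  rw [← hYH, mem_zpowers_iff_mem_range_orderOf,
    orderOf_eq_prime hy3 (fun h => hY1 (Subtype.ext h))] at hZH
  obtain ⟨i, hi, hiZ⟩ := Finset.mem_image.1 hZH
  rw [Finset.mem_range] at hi
  -- hence `T` centralises `Y`
  have hZY : Z = Y ^ i := Subtype.ext hiZ.symm
  have hconj : ∀ j : ℕ, Q * Y ^ j * Q⁻¹ = Y ^ (i * j) := by
    intro j
    rw [← conj_pow, ← hZ, hZY, pow_mul]
  have h2 : T * Y * T⁻¹ = Y ^ (i * i) := by
    have hTQ : T = Q * Q := Subtype.ext (show t = P * P by rw [ht, pow_two])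
    rw [hTQ, ← hconj i, ← hZY, hZ]
    group
  have hi0 : i ≠ 0 := by
    rintro rfl
    apply hY1
    rw [pow_zero] at hZY
    exact conj_eq_one_iff.1 hZY
  have hY3 : Y ^ 3 = 1 := Subtype.ext hy3
  have h3 : T * Y * T⁻¹ = Y := by
    rw [h2]
    obtain rfl | rfl : i = 1 ∨ i = 2 := by omega
    · simp
    · rw [show (2 * 2 : ℕ) = 3 + 1 from rfl, pow_succ, hY3, one_mul]
  rw [hTi, hYinv] at h3
  apply hY1
  have hY2 : Y ^ 2 = 1 := by rw [pow_two]; exact mul_eq_one_iff_inv_eq.2 h3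
  calc Y = Y ^ 3 * (Y ^ 2)⁻¹ := by group
    _ = 1 := by rw [hY3, hY2, inv_one, one_mul]

end Cfsg.Agent.S4410
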