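import Cfsg.Statements.S4412
import Cfsg.Agent.Coprime.External
import Cfsg.Agent.FpfAut.OrderFour
import Mathlib

set_option autoImplicit false
open Cfsg

namespace Cfsg.Agent.S4412

theorem le_of_fixed {G A : Type*} [Group G] [Group A] [Finite G] [Finite A] (φ : A →* MulAut G)
    (hA : ∀ a b : A, a * b = b * a) (hnc : ¬ IsCyclic A) (hcop : (Nat.card A).Coprime (Nat.card G))
    (H K : Subgroup G) (hH : ∀ a, ∀ x ∈ H, φ a x ∈ H)
    (h : ∀ a, a ≠ 1 → ∀ x ∈ H, φ a x = x → x ∈ K) : H ≤ K := by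
  haveI := CfsgLib.Coprime.finite_semidirect φ
  have key : H.map (SemidirectProduct.inl (φ := φ)) ≤ K.map SemidirectProduct.inl := by
    refine CfsgLib.Coprime.le_of_centralizers (A := (SemidirectProduct.inr (φ := φ)).range) ?_ ?_
      (CfsgLib.Coprime.inr_le_normalizer_map_inl φ hH) ?_ ?_
    · refine ⟨⟨?_⟩⟩
      rintro ⟨_, a, rfl⟩ ⟨_, b, rfl⟩
      ext1
      show SemidirectProduct.inr a * SemidirectProduct.inr b = _
      rw [← map_mul, hA, map_mul]; rfl
    · intro hc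
      exact hnc ((MonoidHom.ofInjective (SemidirectProduct.inr_injective (φ := φ))).isCyclic.mpr hc)
    · rw [CfsgLib.Coprime.card_range_inr, CfsgLib.Coprime.card_map_inl]
      exact hcop.coprime_dvd_right (Subgroup.card_subgroup_dvd_card H)
    · rintro _ ⟨a, rfl⟩ ha y hy
      obtain ⟨⟨x, hx, rfl⟩, hy2⟩ := Subgroup.mem_inf.mp hy
      refine ⟨x, h a (fun e => ha (by rw [e, map_one])) x hx ?_, rfl⟩
      apply SemidirectProduct.inl_injective (φ := φ)
      rw [SemidirectProduct.inl_aut, ← (Subgroup.mem_centralizer_singleton_iff.mp hy2), map_inv,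
        mul_inv_cancel_right]
  intro x hx
  obtain ⟨y, hy, he⟩ := key ⟨x, hx, rfl⟩
  exact SemidirectProduct.inl_injective he ▸ hy

variable {P : Type*} [Group P]

theorem mem_zpowers_two {G : Type*} [Group G] {v : G} (hv : v * v = 1) {z : G}
    (hz : z ∈ Subgroup.zpowers v) : z = 1 ∨ z = v := by
  obtain ⟨n, rfl⟩ := Subgroup.mem_zpowers_iff.mp hz
  rcases Int.even_or_odd n with ⟨k, rfl⟩ | ⟨k, rfl⟩
  · left; rw [← two_mul, zpow_mul, zpow_two, hv, one_zpow]
  · right; rw [zpow_add, zpow_mul, zpow_two, hv, one_zpow, one_mul, zpow_one]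

/-- Generation by the fixed points of a four-group of automorphisms of an odd `p`-group. -/
theorem le_of_four [Finite P] {p : ℕ} (hp : p.Prime) (hp2 : p ≠ 2) (hP : IsPGroup p P)
    {v w : MulAut P} (hv : v * v = 1) (hw : w * w = 1) (hvw : Commute v w) (hv1 : v ≠ 1) (hw1 : w ≠ 1)
    (H K : Subgroup P) (hHv : ∀ x ∈ H, v x ∈ H) (hHw : ∀ x ∈ H, w x ∈ H)
    (h1 : ∀ x ∈ H, v x = x → x ∈ K) (h2 : ∀ x ∈ H, w x = x → x ∈ K)
    (h3 : ∀ x ∈ H, (v * w) x = x → x ∈ K) : H ≤ K := by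
  haveI : Fact p.Prime := ⟨hp⟩
  have cv : Nat.card (Subgroup.zpowers v) = 2 := by
    rw [Nat.card_zpowers]; exact orderOf_eq_prime (by rw [pow_two, hv]) hv1
  have cw : Nat.card (Subgroup.zpowers w) = 2 := by
    rw [Nat.card_zpowers]; exact orderOf_eq_prime (by rw [pow_two, hw]) hw1
  let φ : Subgroup.zpowers v × Subgroup.zpowers w →* MulAut P :=
    MonoidHom.noncommCoprod (Subgroup.zpowers v).subtype (Subgroup.zpowers w).subtype (by
      rintro ⟨a, ha⟩ ⟨b, hb⟩
      rcases mem_zpowers_two hv ha with rfl | rfl <;> rcases mem_zpowers_two hw hb with rfl | rfl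
      · exact Commute.one_left _
      · exact Commute.one_left _
      · exact Commute.one_right _
      · exact hvw)
  have cases4 : ∀ a, φ a = 1 ∧ a = 1 ∨ φ a = v ∨ φ a = w ∨ φ a = v * w := by
    rintro ⟨⟨a, ha⟩, ⟨b, hb⟩⟩
    simp only [φ, MonoidHom.noncommCoprod_apply, Subgroup.coe_subtype]
    rcases mem_zpowers_two hv ha with rfl | rfl <;> rcases mem_zpowers_two hw hb with rfl | rfl <;>
      simp
  refine le_of_fixed φ (fun a b => Prod.ext
      (Subtype.ext (setLike_mul_comm a.1.2 b.1.2)) (Subtype.ext (setLike_mul_comm a.2.2 b.2.2)))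
    ?_ ?_ H K ?_ ?_
  · intro hc
    have := coprime_card_of_isCyclic_prod (Subgroup.zpowers v) (Subgroup.zpowers w)
    rw [cv, cw] at this
    norm_num at this
  · obtain ⟨n, hn⟩ := IsPGroup.iff_card.mp hP
    rw [Nat.card_prod, cv, cw, hn]
    exact Nat.Coprime.pow_right _ ((Nat.coprime_pow_left_iff (n := 2) (by norm_num) 2 p).mpr
      ((Nat.coprime_primes Nat.prime_two hp).mpr (Ne.symm hp2)))
  · intro a x hx
    rcases cases4 a with ⟨e, -⟩ | e | e | e <;> rw [e]
    · exact hx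
    · exact hHv x hx
    · exact hHw x hx
    · exact hHv _ (hHw x hx)
  · intro a ha x hx hfix
    rcases cases4 a with ⟨-, e⟩ | e | e | e
    · exact absurd e ha
    · exact h1 x hx (e ▸ hfix)
    · exact h2 x hx (e ▸ hfix)
    · exact h3 x hx (e ▸ hfix)

theorem eq_one_of_sq [Finite P] {p : ℕ} (hp : p.Prime) (hp2 : p ≠ 2) (hP : IsPGroup p P)
    {x : P} (h : x * x = 1) : x = 1 := by
  obtain ⟨k, hk⟩ := hP x
  have h2 : orderOf x ∣ 2 := orderOf_dvd_of_pow_eq_one (by rw [pow_two, h])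
  have hpk : orderOf x ∣ p ^ k := orderOf_dvd_of_pow_eq_one hk
  exact orderOf_eq_one_iff.mp (Nat.dvd_one.mp
    ((((Nat.coprime_primes Nat.prime_two hp).mpr (Ne.symm hp2)).pow_right k).gcd_eq_one ▸
      Nat.dvd_gcd h2 hpk))

theorem exists_order_p [Finite P] {p : ℕ} (hp : p.Prime) (hP : IsPGroup p P) {x : P} (hx : x ≠ 1) :
    ∃ n : ℕ, orderOf (x ^ n) = p := by
  haveI : Fact p.Prime := ⟨hp⟩
  obtain ⟨k, hk⟩ := IsPGroup.iff_orderOf.mp hP x
  cases k with
  | zero => exact absurd (orderOf_eq_one_iff.mp (by simpa using hk)) hx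
  | succ k =>
    refine ⟨p ^ k, ?_⟩
    rw [orderOf_pow' _ (pow_ne_zero k hp.ne_zero), hk,
      Nat.gcd_eq_right (pow_dvd_pow p (Nat.le_succ k)), pow_succ,
      Nat.mul_div_cancel_left _ (pow_pos hp.pos k)]

theorem eq_one_of_fixed_inverted [Finite P] {p : ℕ} (hp : p.Prime) (hp2 : p ≠ 2) (hP : IsPGroup p P)
    (T : MulAut P) {h x y : P} (hx : x ∈ Subgroup.zpowers h) (hy : y ∈ Subgroup.zpowers h)
    (hTx : T x = x) (hTy : T y = y⁻¹) : x = 1 ∨ y = 1 := by
  classical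
  by_contra hc
  push Not at hc
  obtain ⟨m, hm⟩ := exists_order_p hp hP hc.1
  obtain ⟨n, hn⟩ := exists_order_p hp hP hc.2
  let C := Subgroup.zpowers h
  haveI : Fintype C := Fintype.ofFinite _
  let a : C := ⟨x ^ m, pow_mem hx m⟩
  let b : C := ⟨y ^ n, pow_mem hy n⟩
  have hb : b ∈ Subgroup.zpowers a := by
    have hle := IsCyclic.card_pow_eq_one_le (α := C) (n := p) hp.pos
    let S : Finset C := (Subgroup.zpowers a : Set C).toFinite.toFinset
    have hS : S ⊆ Finset.univ.filter (fun z : C => z ^ p = 1) := by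
      intro z hz
      simp only [S, Set.Finite.mem_toFinset, SetLike.mem_coe] at hz
      simp only [Finset.mem_filter, Finset.mem_univ, true_and]
      obtain ⟨i, rfl⟩ := Subgroup.mem_zpowers_iff.mp hz
      have : a ^ p = 1 := Subtype.ext (by simp [a, ← hm, pow_orderOf_eq_one])
      rw [← zpow_natCast, ← zpow_mul, mul_comm, zpow_mul, zpow_natCast, this, one_zpow]
    have hcard : S.card = p := by
      rw [← Set.ncard_eq_toFinset_card]
      show Nat.card (Subgroup.zpowers a) = p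
      rw [Nat.card_zpowers, ← hm, ← Subgroup.orderOf_coe]
    have := Finset.eq_of_subset_of_card_le hS (by omega)
    have hbm : b ∈ S := by
      rw [this]
      simp only [Finset.mem_filter, Finset.mem_univ, true_and]
      exact Subtype.ext (by simp [b, ← hn, pow_orderOf_eq_one])
    simpa [S] using hbm
  obtain ⟨i, hi⟩ := Subgroup.mem_zpowers_iff.mp hb
  have hi' : (x ^ m) ^ i = y ^ n := by simpa [a, b] using congrArg Subtype.val hi
  have e1 : T (y ^ n) = y ^ n := by rw [← hi', map_zpow, map_pow, hTx]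
  rw [map_pow, hTy, inv_pow] at e1
  have := eq_one_of_sq hp hp2 hP (x := y ^ n) (by nth_rw 1 [← e1]; rw [inv_mul_cancel])
  rw [this, orderOf_one] at hn
  exact hp.ne_one hn.symm

theorem fixed_or_inverted [Finite P] {p : ℕ} (hp : p.Prime) (hp2 : p ≠ 2) (hP : IsPGroup p P)
    (T : MulAut P) (hT : T * T = 1) {g : P} (hg : T g ∈ Subgroup.zpowers g) : T g = g ∨ T g = g⁻¹ := by
  have hTT : T (T g) = g := by rw [← MulAut.mul_apply, hT, MulAut.one_apply]
  have hcomm : T g * g = g * T g :=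
    setLike_mul_comm hg (Subgroup.mem_zpowers g)
  rcases eq_one_of_fixed_inverted hp hp2 hP T (h := g) (x := T g * g) (y := T g * g⁻¹)
      (mul_mem hg (Subgroup.mem_zpowers g)) (mul_mem hg (inv_mem (Subgroup.mem_zpowers g)))
      (by rw [map_mul, hTT, hcomm]) (by rw [map_mul, map_inv, hTT, mul_inv_rev, inv_inv]) with h | h
  · right; exact eq_inv_of_mul_eq_one_left h
  · left; exact mul_inv_eq_one.mp h

theorem ext_of_gens {ι : Type*} (g : ι → P) (hg : Subgroup.closure (Set.range g) = ⊤) {S T : MulAut P}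
    (h : ∀ i, S (g i) = T (g i)) : S = T := by
  have : S.toMonoidHom = T.toMonoidHom :=
    MonoidHom.eq_of_eqOn_dense hg (by rintro _ ⟨i, rfl⟩; exact h i)
  exact MulEquiv.ext fun x => DFunLike.congr_fun this x

theorem card_three [Finite P] {p : ℕ} (hp : p.Prime) (hp2 : p ≠ 2) (hP : IsPGroup p P)
    (hc : ∀ x y : P, x * y = y * x) (g : Fin 3 → P) (e : Fin 3 → MulAut P) (hg : ∀ i, g i ≠ 1)
    (he : ∀ i j, e i (g j) = if i = j then (g j)⁻¹ else g j) :
    ¬ ∃ a b : P, Subgroup.closure {a, b} = ⊤ := by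
  rintro ⟨a, b, hab⟩
  letI : CommGroup P := { (inferInstance : Group P) with mul_comm := hc }
  choose n hn using fun i => exists_order_p hp hP (hg i)
  let z : Fin 3 → P := fun i => g i ^ n i
  have hz : ∀ i j, e i (z j) = if i = j then (z j)⁻¹ else z j := by
    intro i j
    by_cases h : i = j <;> simp [z, map_pow, he, h]
  have zord : ∀ i, orderOf (z i) = p := hn
  let f := powMonoidHom (α := P) p
  let ψ : (Fin p × Fin p × Fin p) → f.ker := fun c =>
    ⟨z 0 ^ (c.1 : ℕ) * z 1 ^ (c.2.1 : ℕ) * z 2 ^ (c.2.2 : ℕ), by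
      have h0 : ∀ i, z i ^ p = 1 := fun i => by rw [← zord i, pow_orderOf_eq_one]
      simp only [f, MonoidHom.mem_ker, powMonoidHom_apply, mul_pow, ← pow_mul, mul_comm _ p]
      simp only [pow_mul, h0, one_pow, mul_one]⟩
  have hinj : Function.Injective ψ := by
    rintro ⟨a0, a1, a2⟩ ⟨b0, b1, b2⟩ h
    have h' : z 0 ^ (a0 : ℕ) * z 1 ^ (a1 : ℕ) * z 2 ^ (a2 : ℕ)
        = z 0 ^ (b0 : ℕ) * z 1 ^ (b1 : ℕ) * z 2 ^ (b2 : ℕ) := congrArg Subtype.val h
    have key : ∀ u r u' r' : P, u * r = u' * r' → u⁻¹ * r = u'⁻¹ * r' → u = u' := by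
      intro u r u' r' e1 e2
      have : (u * u'⁻¹) * (u * u'⁻¹) = 1 := by
        have e3 : (u * r) / (u⁻¹ * r) = (u' * r') / (u'⁻¹ * r') := by rw [e1, e2]
        simp only [mul_div_mul_right_eq_div, div_inv_eq_mul] at e3
        rw [mul_mul_mul_comm, ← mul_inv, e3, mul_inv_cancel]
      exact mul_inv_eq_one.mp (eq_one_of_sq hp hp2 hP this)
    have fin : ∀ i (u v : Fin p), z i ^ (u : ℕ) = z i ^ (v : ℕ) → u = v := by
      intro i u v huv
      have := pow_eq_pow_iff_modEq.mp huv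
      rw [zord i] at this
      exact Fin.ext (Nat.ModEq.eq_of_lt_of_lt this u.2 v.2)
    have k0 := congrArg (e 0) h'
    have k1 := congrArg (e 1) h'
    have k2 := congrArg (e 2) h'
    simp only [map_mul, map_pow, hz, Fin.reduceEq, ite_true, ite_false, inv_pow, mul_assoc] at k0 k1 k2
    rw [mul_assoc, mul_assoc] at h'
    have E0 := key _ _ _ _ h' k0
    have E1 := key (z 1 ^ (a1:ℕ)) (z 0 ^ (a0:ℕ) * z 2 ^ (a2:ℕ)) (z 1 ^ (b1:ℕ)) (z 0 ^ (b0:ℕ) * z 2 ^ (b2:ℕ))
      (by simpa [mul_left_comm] using h') (by simpa [mul_left_comm] using k1)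
    have E2 := key (z 2 ^ (a2:ℕ)) (z 0 ^ (a0:ℕ) * z 1 ^ (a1:ℕ)) (z 2 ^ (b2:ℕ)) (z 0 ^ (b0:ℕ) * z 1 ^ (b1:ℕ))
      (by rw [mul_comm (z 2 ^ (a2:ℕ)), mul_comm (z 2 ^ (b2:ℕ)), mul_assoc, mul_assoc]; exact h')
      (by rw [mul_comm _ (z 0 ^ (a0:ℕ) * z 1 ^ (a1:ℕ)), mul_comm _ (z 0 ^ (b0:ℕ) * z 1 ^ (b1:ℕ)), mul_assoc, mul_assoc]; exact k2)
    rw [fin 0 _ _ E0, fin 1 _ _ E1, fin 2 _ _ E2]
  have hker : p * (p * p) ≤ Nat.card f.ker := by
    refine le_trans (le_of_eq ?_) (Nat.card_le_card_of_injective ψ hinj)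
    simp
  have hidx : Nat.card f.ker = f.range.index := by
    have h1 := f.ker.card_mul_index
    rw [Subgroup.index_ker, ← f.range.index_mul_card] at h1
    exact Nat.eq_of_mul_eq_mul_right Nat.card_pos h1
  have hle : f.range.index ≤ p * p := by
    let q := QuotientGroup.mk' f.range
    have hq : ∀ x : P, (q x) ^ p = 1 := fun x => by
      rw [← map_pow]
      exact (QuotientGroup.eq_one_iff _).mpr ⟨x, rfl⟩
    refine le_trans (Nat.card_le_card_of_surjective
      (fun c : Fin p × Fin p => q a ^ (c.1 : ℕ) * q b ^ (c.2 : ℕ)) ?_) (by simp)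
    intro y
    obtain ⟨x, rfl⟩ := QuotientGroup.mk'_surjective f.range y
    have hx : x ∈ Subgroup.closure ({a, b} : Set P) := by rw [hab]; trivial
    obtain ⟨m, n, rfl⟩ := Subgroup.mem_closure_pair.mp hx
    have red : ∀ (u : P) (m : ℤ), ∃ c : Fin p, q u ^ (c : ℕ) = q u ^ m := by
      intro u m
      have hp0 : (p : ℤ) ≠ 0 := by exact_mod_cast hp.ne_zero
      refine ⟨⟨(m % p).toNat, ?_⟩, ?_⟩
      · have := Int.emod_lt_of_pos m (by exact_mod_cast hp.pos : (0 : ℤ) < p)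
        omega
      · rw [← zpow_natCast, Int.toNat_of_nonneg (Int.emod_nonneg _ hp0)]
        exact (zpow_eq_zpow_emod' m (hq u)).symm
    obtain ⟨c, hc'⟩ := red a m
    obtain ⟨d, hd⟩ := red b n
    exact ⟨(c, d), by simp only [hc', hd, map_mul, map_zpow]; rfl⟩
  have : p * (p * p) ≤ 1 * (p * p) := by omega
  have := Nat.le_of_mul_le_mul_right this (Nat.mul_pos hp.pos hp.pos)
  have := hp.two_le
  omega

/-- A four-subgroup without broad elements. -/
theorem exists_four {G : Type*} [Group G] (I I₀ : Subgroup G) (B : G → Prop)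
    (hI : ∀ T ∈ I, T * T = 1) (hI8 : Nat.card I = 8)
    (hI₀ : I₀ ≤ I) (hB : ∀ T, B T → T ∈ I ∧ T ≠ 1) (hdis : ∀ T ∈ I₀, ¬ B T)
    (hprod : ∀ T T', B T → B T' → T * T' ∈ I₀) :
    ∃ v w, v ∈ I ∧ w ∈ I ∧ v ≠ 1 ∧ w ≠ 1 ∧ v ≠ w ∧ ¬ B v ∧ ¬ B w ∧ ¬ B (v * w) := by
  have hinv : ∀ T ∈ I, T⁻¹ = T := fun T hT => inv_eq_of_mul_eq_one_right (hI T hT)
  by_cases h : ∃ b b', ∀ T, B T → T = b ∨ T = b'
  · obtain ⟨b, b', hbb⟩ := h
    have hc : (I : Set G).ncard = 8 := hI8
    obtain ⟨v, hv, hv'⟩ := Set.exists_mem_notMem_of_ncard_lt_ncard (s := ({1, b, b'} : Set G))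
      (t := (I : Set G)) (by
        have := Set.ncard_insert_le (1:G) {b, b'}
        have := Set.ncard_insert_le b ({b'} : Set G)
        simp only [Set.ncard_singleton] at *
        omega) (Set.toFinite _)
    obtain ⟨w, hw, hw'⟩ := Set.exists_mem_notMem_of_ncard_lt_ncard
      (s := ({1, v, b, b', v * b, v * b'} : Set G)) (t := (I : Set G)) (by
        have := Set.ncard_insert_le (1:G) {v, b, b', v * b, v * b'}
        have := Set.ncard_insert_le v ({b, b', v * b, v * b'} : Set G)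
        have := Set.ncard_insert_le b ({b', v * b, v * b'} : Set G)
        have := Set.ncard_insert_le b' ({v * b, v * b'} : Set G)
        have := Set.ncard_insert_le (v * b) ({v * b'} : Set G)
        simp only [Set.ncard_singleton] at *
        omega) (Set.toFinite _)
    simp only [Set.mem_insert_iff, Set.mem_singleton_iff, not_or] at hv' hw'
    obtain ⟨v1, vb, vb'⟩ := hv'
    obtain ⟨w1, wv, wb, wb', wvb, wvb'⟩ := hw'
    refine ⟨v, w, hv, hw, v1, w1, Ne.symm wv, fun hh => (hbb v hh).elim vb vb',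
      fun hh => (hbb w hh).elim wb wb', fun hh => ?_⟩
    have hvvw : v * (v * w) = w := by rw [← mul_assoc, hI v hv, one_mul]
    rcases hbb _ hh with h' | h'
    · exact wvb (by rw [← hvvw, h'])
    · exact wvb' (by rw [← hvvw, h'])
  · push Not at h
    obtain ⟨b₁, hb₁, -, -⟩ := h 1 1
    obtain ⟨b₂, hb₂, n21, -⟩ := h b₁ b₁
    obtain ⟨b₃, hb₃, n31, n32⟩ := h b₁ b₂
    have i1 := (hB _ hb₁).1
    have e : b₁ * b₂ * (b₁ * b₃) = b₂ * b₃ := by
      have : b₁ * b₂ = b₂ * b₁ := by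
        have := hinv _ (mul_mem i1 (hB _ hb₂).1)
        rw [mul_inv_rev, hinv _ i1, hinv _ (hB _ hb₂).1] at this
        exact this.symm
      rw [this, mul_assoc, ← mul_assoc b₁ b₁, hI _ i1, one_mul]
    have ne1 : ∀ b, B b → b ≠ b₁ → b₁ * b ≠ 1 := fun b hb hne h1 =>
      hne ((eq_inv_of_mul_eq_one_right h1).trans (hinv _ i1))
    exact ⟨b₁ * b₂, b₁ * b₃, hI₀ (hprod _ _ hb₁ hb₂), hI₀ (hprod _ _ hb₁ hb₃), ne1 _ hb₂ n21,
      ne1 _ hb₃ n31, fun h' => n32 (mul_left_cancel h').symm, hdis _ (hprod _ _ hb₁ hb₂),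
      hdis _ (hprod _ _ hb₁ hb₃), e ▸ hdis _ (hprod _ _ hb₂ hb₃)⟩

set_option maxHeartbeats 1000000 in
/-- Let p be an odd prime, P a finite p-group and I an elementary abelian subgroup of order 8 of Aut(P). Call T ∈ I, T ≠ 1, broad when its fixed-point subgroup C_P(T) is not cyclic. Suppose I has a proper subgroup I₀ containing no broad element such that the product of any two broad elements lies in I₀. Then P is abelian of rank exactly 3 (generated by three elements but not by two), there are exactly three broad elements and they generate I, and I₀ is exactly the set of products of two broad elements. -/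
theorem result
    {P : Type*} [Group P] [Finite P] (p : ℕ) (hp : p.Prime) (hp2 : p ≠ 2) (hP : IsPGroup p P)
    (I : Subgroup (MulAut P)) (hI : Cfsg.IsElementaryAbelian 2 I) (hI8 : Nat.card ↥I = 8)
    (I₀ : Subgroup (MulAut P)) (hI₀ : I₀ < I)
    (hdisj : ∀ T ∈ I₀, T ≠ 1 → ∃ g : P, ∀ x : P, (T x = x ↔ x ∈ Subgroup.zpowers g))
    (hprod : ∀ T ∈ I, ∀ T' ∈ I, T ≠ 1 → T' ≠ 1 → (¬ ∃ g : P, ∀ x : P, (T x = x ↔ x ∈ Subgroup.zpowers g)) →
      (¬ ∃ g : P, ∀ x : P, (T' x = x ↔ x ∈ Subgroup.zpowers g)) → T * T' ∈ I₀) :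
    IsMulCommutative P ∧ (∃ a b c : P, Subgroup.closure {a, b, c} = ⊤) ∧ (¬ ∃ a b : P, Subgroup.closure {a, b} = ⊤) ∧
      Nat.card {T : MulAut P // T ∈ I ∧ T ≠ 1 ∧ ¬ ∃ g : P, ∀ x : P, (T x = x ↔ x ∈ Subgroup.zpowers g)} = 3 ∧
      Subgroup.closure {T : MulAut P | T ∈ I ∧ T ≠ 1 ∧ ¬ ∃ g : P, ∀ x : P, (T x = x ↔ x ∈ Subgroup.zpowers g)} = I ∧
      (I₀ : Set (MulAut P)) = {S : MulAut P | ∃ T T' : MulAut P, T ∈ I ∧ T' ∈ I ∧ T ≠ 1 ∧ T' ≠ 1 ∧
        (¬ ∃ g : P, ∀ x : P, (T x = x ↔ x ∈ Subgroup.zpowers g)) ∧ (¬ ∃ g : P, ∀ x : P, (T' x = x ↔ x ∈ Subgroup.zpowers g)) ∧ S = T * T'} := by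
  classical
  haveI : Fact p.Prime := ⟨hp⟩
  let NB : MulAut P → Prop := fun T => ∃ g : P, ∀ x : P, (T x = x ↔ x ∈ Subgroup.zpowers g)
  let B : MulAut P → Prop := fun T => T ∈ I ∧ T ≠ 1 ∧ ¬ NB T
  have sqI : ∀ T ∈ I, T * T = 1 := fun T hT => by rw [← pow_two]; exact hI.2 T hT
  have comI : ∀ S ∈ I, ∀ T ∈ I, S * T = T * S := fun S hS T hT =>
    congrArg Subtype.val (hI.1.1.comm ⟨S, hS⟩ ⟨T, hT⟩)
  have hdis : ∀ T ∈ I₀, ¬ B T := fun T hT hB => hB.2.2 (hdisj T hT hB.2.1)
  have hpr : ∀ T T', B T → B T' → T * T' ∈ I₀ := fun T T' h h' =>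
    hprod T h.1 T' h'.1 h.2.1 h'.2.1 h.2.2 h'.2.2
  obtain ⟨v, w, hv, hw, v1, w1, vw, bv, bw, bvw⟩ :=
    exists_four I I₀ B sqI hI8 hI₀.le (fun T h => ⟨h.1, h.2.1⟩) hdis hpr
  have vw1 : v * w ≠ 1 := fun h => vw ((eq_inv_of_mul_eq_one_left h).trans
    (inv_eq_of_mul_eq_one_right (sqI w hw)))
  have nb : ∀ T ∈ I, T ≠ 1 → ¬ B T → NB T := fun T hT h1 hb => not_not.mp fun h => hb ⟨hT, h1, h⟩
  obtain ⟨g0, h0⟩ := nb v hv v1 bv
  obtain ⟨g1, h1⟩ := nb w hw w1 bw
  obtain ⟨g2, h2⟩ := nb (v * w) (mul_mem hv hw) vw1 bvw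
  let g : Fin 3 → P := ![g0, g1, g2]
  let V : Fin 3 → MulAut P := ![v, w, v * w]
  have hV : ∀ i, V i ∈ I ∧ ∀ x, V i x = x ↔ x ∈ Subgroup.zpowers (g i) := by
    intro i; fin_cases i
    · exact ⟨hv, h0⟩
    · exact ⟨hw, h1⟩
    · exact ⟨mul_mem hv hw, h2⟩
  have hgen : Subgroup.closure (Set.range g) = ⊤ := by
    have hm : ∀ i x, V i x = x → x ∈ Subgroup.closure (Set.range g) := fun i x hx => by
      obtain ⟨k, rfl⟩ := Subgroup.mem_zpowers_iff.mp (((hV i).2 x).mp hx)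
      exact zpow_mem (Subgroup.subset_closure (Set.mem_range_self i)) k
    exact top_unique (le_of_four hp hp2 hP (sqI v hv) (sqI w hw) (comI v hv w hw) v1 w1 ⊤ _
      (fun _ _ => trivial) (fun _ _ => trivial) (fun x _ => hm 0 x) (fun x _ => hm 1 x)
      (fun x _ => hm 2 x))
  have sgn : ∀ T ∈ I, ∀ i, T (g i) = g i ∨ T (g i) = (g i)⁻¹ := by
    intro T hT i
    refine fixed_or_inverted hp hp2 hP T (sqI T hT) (((hV i).2 _).mp ?_)
    rw [← MulAut.mul_apply, comI _ (hV i).1 T hT, MulAut.mul_apply,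
      ((hV i).2 _).mpr (Subgroup.mem_zpowers _)]
  let f : I → Fin 3 → Bool := fun T i => decide ((T : MulAut P) (g i) = g i)
  have hinj : Function.Injective f := by
    rintro ⟨S, hS⟩ ⟨T, hT⟩ h
    refine Subtype.ext (ext_of_gens g hgen fun i => ?_)
    have hi : (S (g i) = g i) ↔ (T (g i) = g i) := by simpa [f] using congrFun h i
    rcases sgn S hS i with e | e <;> rcases sgn T hT i with e' | e'
    · rw [e, e']
    · rw [e, hi.mp e]
    · rw [hi.mpr e', e']
    · rw [e, e']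
  have hbij : Function.Bijective f :=
    (Nat.bijective_iff_injective_and_card f).mpr ⟨hinj, by simp [hI8]⟩
  have pick : ∀ s : Fin 3 → Bool, ∃ T ∈ I, ∀ i, T (g i) = if s i then g i else (g i)⁻¹ := by
    intro s
    obtain ⟨⟨T, hT⟩, hs⟩ := hbij.2 s
    refine ⟨T, hT, fun i => ?_⟩
    have hi : s i = decide (T (g i) = g i) := (congrFun hs i).symm
    rcases sgn T hT i with e | e
    · simp [hi, e]
    · by_cases h : T (g i) = g i
      · simp [hi, h]
      · rw [hi, decide_eq_false h]; simp [e]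
  have gne : ∀ i, g i ≠ 1 := by
    intro i hi
    obtain ⟨⟨T, hT⟩, hs⟩ := hbij.2 (fun _ => false)
    have := congrFun hs i
    simp [f, hi] at this
  choose e heI hes using fun i : Fin 3 => pick (fun j => decide (j ≠ i))
  have he : ∀ i j, e i (g j) = if i = j then (g j)⁻¹ else g j := by
    intro i j
    rw [hes i j]
    by_cases h : i = j
    · subst h; simp
    · simp [h, Ne.symm h]
  have inv_ne : ∀ i, (g i)⁻¹ ≠ g i := fun i h =>
    gne i (eq_one_of_sq hp hp2 hP (by nth_rw 1 [← h]; rw [inv_mul_cancel]))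
  have e_ne : ∀ i, e i ≠ 1 := fun i h => inv_ne i (by
    have := he i i
    rw [h, MulAut.one_apply, if_pos rfl] at this
    exact this.symm)
  have e_inj : Function.Injective e := fun i j h => by
    by_contra hne
    have := he i i
    rw [h, he j i, if_pos rfl, if_neg (Ne.symm hne)] at this
    exact inv_ne i this.symm
  have eB : ∀ i, B (e i) := by
    intro i
    refine ⟨heI i, e_ne i, ?_⟩
    rintro ⟨h, hh⟩
    obtain ⟨j, k, hij, hik, hjk⟩ : ∃ j k : Fin 3, i ≠ j ∧ i ≠ k ∧ j ≠ k := by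
      fin_cases i <;> decide
    have mj := (hh (g j)).mp (by rw [he, if_neg hij])
    have mk := (hh (g k)).mp (by rw [he, if_neg hik])
    rcases eq_one_of_fixed_inverted hp hp2 hP (e k) mj mk
      (by rw [he, if_neg (Ne.symm hjk)]) (by rw [he, if_pos rfl]) with h' | h'
    · exact gne j h'
    · exact gne k h'
  have eI0 : ∀ i j, e i * e j ∈ I₀ := fun i j => hpr _ _ (eB i) (eB j)
  have he2 : ∀ i j k, (e i * e j) (g k) =
      if i = k then (if j = k then g k else (g k)⁻¹) else (if j = k then (g k)⁻¹ else g k) := by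
    intro i j k
    rw [MulAut.mul_apply, he]
    by_cases h : j = k <;> by_cases h' : i = k <;> simp [h, h', he]
  let E := e 0 * e 1 * e 2
  have hEI : E ∈ I := mul_mem (mul_mem (heI 0) (heI 1)) (heI 2)
  have hE : ∀ k, E (g k) = (g k)⁻¹ := by
    intro k
    simp only [E, MulAut.mul_apply]
    fin_cases k <;> simp [he]
  have ee_ne : ∀ i j, i ≠ j → e i * e j ≠ 1 := fun i j hij h => inv_ne i (by
    have := he2 i j i
    rw [h, MulAut.one_apply, if_pos rfl, if_neg (Ne.symm hij)] at this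
    exact this.symm)
  have hfpf : ∀ x : P, E x = x → x = 1 := by
    have hQ : E.toMonoidHom.eqLocus (MonoidHom.id P) ≤ ⊥ := by
      have small : ∀ i j k : Fin 3, i ≠ k → j ≠ k → i ≠ j → ∀ x, E x = x → (e i * e j) x = x → x = 1 := by
        intro i j k hik hjk hij x hEx hx
        obtain ⟨h, hh⟩ := hdisj _ (eI0 i j) (ee_ne i j hij)
        exact (eq_one_of_fixed_inverted hp hp2 hP E ((hh x).mp hx)
          ((hh (g k)).mp (by rw [he2, if_neg hik, if_neg hjk])) hEx (hE k)).resolve_right (gne k)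
      have hinv : ∀ T ∈ I, ∀ x, E x = x → E (T x) = T x := fun T hT x hx => by
        rw [← MulAut.mul_apply, comI E hEI T hT, MulAut.mul_apply, hx]
      have e12 : (e 0 * e 1) * (e 0 * e 2) = e 1 * e 2 := by
        rw [comI _ (heI 0) _ (heI 1), mul_assoc, ← mul_assoc (e 0) (e 0), sqI _ (heI 0), one_mul]
      exact le_of_four hp hp2 hP (sqI _ (mul_mem (heI 0) (heI 1))) (sqI _ (mul_mem (heI 0) (heI 2)))
        (comI _ (mul_mem (heI 0) (heI 1)) _ (mul_mem (heI 0) (heI 2)))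
        (ee_ne 0 1 (by decide)) (ee_ne 0 2 (by decide)) _ ⊥
        (fun x hx => hinv _ (mul_mem (heI 0) (heI 1)) x hx)
        (fun x hx => hinv _ (mul_mem (heI 0) (heI 2)) x hx)
        (fun x hx h => small 0 1 2 (by decide) (by decide) (by decide) x hx h)
        (fun x hx h => small 0 2 1 (by decide) (by decide) (by decide) x hx h)
        (fun x hx h => small 1 2 0 (by decide) (by decide) (by decide) x hx (e12 ▸ h))
    exact fun x hx => Subgroup.mem_bot.mp (hQ hx)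
  have Einv : ∀ x : P, E x = x⁻¹ := CfsgLib.FpfAut.apply_eq_inv E
    (fun x => by rw [← MulAut.mul_apply, sqI E hEI, MulAut.one_apply]) hfpf
  have comm : ∀ x y : P, x * y = y * x := fun x y => by
    apply inv_injective
    rw [← Einv (x * y), map_mul, Einv, Einv, mul_inv_rev]
  have hEnb : ¬ B E := fun h => h.2.2 ⟨1, fun x => by
    rw [Subgroup.zpowers_one_eq_bot, Subgroup.mem_bot]
    exact ⟨hfpf x, fun hx => by rw [hx, map_one]⟩⟩
  have classify : ∀ T ∈ I, T = 1 ∨ (∃ i, T = e i) ∨ (∃ i j, i ≠ j ∧ T = e i * e j) ∨ T = E := by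
    intro T hT
    rcases sgn T hT 0 with a | a <;> rcases sgn T hT 1 with b | b <;> rcases sgn T hT 2 with c | c
    · left; exact ext_of_gens g hgen fun k => by fin_cases k <;> simp [he, he2, hE, a, b, c]
    · right; left; exact ⟨2, ext_of_gens g hgen fun k => by fin_cases k <;> simp [he, he2, hE, a, b, c]⟩
    · right; left; exact ⟨1, ext_of_gens g hgen fun k => by fin_cases k <;> simp [he, he2, hE, a, b, c]⟩
    · right; right; left
      exact ⟨1, 2, by decide, ext_of_gens g hgen fun k => by fin_cases k <;> simp [he, he2, hE, a, b, c]⟩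
    · right; left; exact ⟨0, ext_of_gens g hgen fun k => by fin_cases k <;> simp [he, he2, hE, a, b, c]⟩
    · right; right; left
      exact ⟨0, 2, by decide, ext_of_gens g hgen fun k => by fin_cases k <;> simp [he, he2, hE, a, b, c]⟩
    · right; right; left
      exact ⟨0, 1, by decide, ext_of_gens g hgen fun k => by fin_cases k <;> simp [he, he2, hE, a, b, c]⟩
    · right; right; right; exact ext_of_gens g hgen fun k => by fin_cases k <;> simp [he, he2, hE, a, b, c]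
  have hBset : ∀ T, B T ↔ ∃ i, e i = T := by
    refine fun T => ⟨fun hT => ?_, fun ⟨i, hi⟩ => hi ▸ eB i⟩
    rcases classify T hT.1 with rfl | ⟨i, rfl⟩ | ⟨i, j, -, rfl⟩ | rfl
    · exact absurd rfl hT.2.1
    · exact ⟨i, rfl⟩
    · exact absurd hT (hdis _ (eI0 i j))
    · exact absurd hT hEnb
  refine ⟨⟨⟨comm⟩⟩, ⟨g0, g1, g2, top_unique (hgen ▸ (Subgroup.closure_le _).mpr ?_)⟩,
    card_three hp hp2 hP comm g e gne he, ?_, ?_, ?_⟩
  · rintro _ ⟨i, rfl⟩
    apply Subgroup.subset_closure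
    fin_cases i <;> simp [g]
  · show Nat.card {T : MulAut P // B T} = 3
    rw [Nat.card_congr (Equiv.subtypeEquivRight hBset)]
    show Nat.card (Set.range e) = 3
    rw [Nat.card_range_of_injective e_inj, Nat.card_fin]
  · refine le_antisymm ((Subgroup.closure_le _).mpr fun T hT => hT.1) fun T hT => ?_
    have m : ∀ i, e i ∈ Subgroup.closure {T : MulAut P | B T} := fun i => Subgroup.subset_closure (eB i)
    rcases classify T hT with rfl | ⟨i, rfl⟩ | ⟨i, j, -, rfl⟩ | rfl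
    · exact one_mem _
    · exact m i
    · exact mul_mem (m i) (m j)
    · exact mul_mem (mul_mem (m 0) (m 1)) (m 2)
  · apply Set.eq_of_subset_of_subset
    · intro S hS
      have hSI := hI₀.le hS
      have wit : ∀ i j, ∃ T T', T ∈ I ∧ T' ∈ I ∧ T ≠ 1 ∧ T' ≠ 1 ∧ ¬ NB T ∧ ¬ NB T' ∧ e i * e j = T * T' :=
        fun i j => ⟨e i, e j, heI i, heI j, e_ne i, e_ne j, (eB i).2.2, (eB j).2.2, rfl⟩
      rcases classify S hSI with rfl | ⟨i, rfl⟩ | ⟨i, j, -, rfl⟩ | rfl
      · have := wit 0 0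
        rwa [sqI _ (heI 0)] at this
      · exact absurd (eB i) (hdis _ hS)
      · exact wit i j
      · refine absurd (eB 2) (hdis _ ?_)
        have := mul_mem (inv_mem (eI0 0 1)) hS
        simpa [E, ← mul_assoc] using this
    · rintro S ⟨T, T', hT, hT', n, n', b, b', rfl⟩
      exact hpr T T' ⟨hT, n, b⟩ ⟨hT', n', b'⟩

end Cfsg.Agent.S4412
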