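import Cfsg.Statements.S4413
import Cfsg.Agent.Eq.Def_Transfer
import Cfsg.Agent.ExtraspecialTwo.Rank
import Cfsg.Agent.ExtraspecialTwo.MinusFour
-- import your own Cfsg.Agent.* helpers here

set_option autoImplicit false
open Cfsg CfsgLib.ExtraspecialTwo CfsgLib.F2Forms

namespace Cfsg.Agent.S4413

/-- Let P be an extraspecial 2-group of order 32 with no elementary abelian subgroup of order 8 (the central product of a dihedral and a quaternion group of order 8). Then the inner automorphism group of P has order 16 and the outer automorphism group Aut(P)/Inn(P) is isomorphic to the symmetric group of degree 5; in particular Aut(P) has order 1920. -/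
theorem result {P : Type*} [Group P] [Finite P]
    (hex : Cfsg.IsExtraspecial 2 P) (h32 : Nat.card P = 32)
    (hminus : ∀ A : Subgroup P, Cfsg.IsElementaryAbelian 2 A → Nat.card ↥A ≤ 4)
    [(MulAut.conj : P →* MulAut P).range.Normal] :
    Nat.card ↥(MulAut.conj : P →* MulAut P).range = 16 ∧ Nat.card (MulAut P) = 1920 ∧
      Nonempty ((MulAut P ⧸ (MulAut.conj : P →* MulAut P).range) ≃* Equiv.Perm (Fin 5)) := by
  classical
  obtain ⟨n, w, π, c, hn, e⟩ := exists_coord hex
  obtain rfl : n = 2 := by
    have := Nat.pow_right_injective (le_refl 2) (e.symm.trans (h32.trans (show 32 = 2 ^ 5 by norm_num)))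
    omega
  have hw : quadFormPlus 2 (ZMod 2) w = 1 := (ne_zero_iff _).1 fun hw => by
    obtain ⟨A, hA, hAc⟩ := (c.exists_max_elementary hn).1 hw
    have := hminus A hA
    omega
  obtain ⟨g, hg⟩ := (form_minus_iff 1 w).2 hw
  obtain ⟨φ⟩ := c.nonempty_out_equiv hex
  obtain ⟨ψ⟩ := nonempty_isometryGroup_equiv g hg
  obtain ⟨χ⟩ := MinusFour.nonempty_perm_equiv
  have hinn : Nat.card ↥(MulAut.conj : P →* MulAut P).range = 16 := by
    have hker : (MulAut.conj : P →* MulAut P).ker = Subgroup.center P := by
      ext x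
      rw [MonoidHom.mem_ker, Subgroup.mem_center_iff, MulEquiv.ext_iff]
      simp only [MulAut.conj_apply, MulAut.one_apply, mul_inv_eq_iff_eq_mul]
      exact forall_congr' fun y => eq_comm
    have h1 := (MulAut.conj : P →* MulAut P).ker.card_mul_index
    rw [Subgroup.index_ker, hker, hex.2, h32] at h1
    omega
  refine ⟨hinn, ?_, ⟨(φ.trans ψ).trans χ⟩⟩
  rw [Subgroup.card_eq_card_quotient_mul_card_subgroup (MulAut.conj : P →* MulAut P).range, hinn,
    Nat.card_congr ((φ.trans ψ).trans χ).toEquiv, Nat.card_perm, Nat.card_fin]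
  rfl

end Cfsg.Agent.S4413
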