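import Cfsg.Statements.S4414
import Cfsg.Agent.FixedPointBound.Orbit
import Mathlib.Algebra.CharP.Algebra
import Mathlib.LinearAlgebra.Dimension.Constructions

set_option autoImplicit false
open Cfsg

namespace Cfsg.Agent.S4414

/-- Let S be a finite solvable group whose order is divisible only by the primes 2, p, q (p, q distinct odd primes), with a Sylow system S₂, S_p, S_q (pairwise permutable Sylow subgroups) such that: S_p is a minimal normal subgroup of S of order p or p²; S_q has order q and [S_p, S_q] = S_p; and O₂(S) = 1. Let E be an irreducible module for S over the field with two elements on which S_p acts faithfully, and E₀ the subspace of fixed points of S₂. Then either E₀ has at least 8 elements, or E₀ has exactly 4 elements and S_q does not leave E₀ invariant. -/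
theorem result {S : Type*} [Group S] [Finite S]
    [Group.IsSolvable S] (p q : ℕ) (hp : p.Prime) (hq : q.Prime) (hp2 : p ≠ 2) (hq2 : q ≠ 2) (hpq : p ≠ q)
    (hπ : ∀ r : ℕ, r.Prime → r ∣ Nat.card S → r = 2 ∨ r = p ∨ r = q)
    (S₂ : Sylow 2 S) (Sp : Sylow p S) (Sq : Sylow q S)
    (h2q : Nat.card ↥((S₂ : Subgroup S) ⊔ (Sq : Subgroup S)) = Nat.card ↥S₂ * Nat.card ↥Sq)
    (h2p : Nat.card ↥((S₂ : Subgroup S) ⊔ (Sp : Subgroup S)) = Nat.card ↥S₂ * Nat.card ↥Sp)
    (hpq' : Nat.card ↥((Sp : Subgroup S) ⊔ (Sq : Subgroup S)) = Nat.card ↥Sp * Nat.card ↥Sq)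
    (hSpN : (Sp : Subgroup S).Normal) (hSpmin : ∀ N : Subgroup S, N.Normal → N ≤ (Sp : Subgroup S) → N = ⊥ ∨ N = (Sp : Subgroup S))
    (hSpcard : Nat.card ↥Sp = p ∨ Nat.card ↥Sp = p ^ 2)
    (hSq : Nat.card ↥Sq = q) (hcomm : ⁅(Sp : Subgroup S), (Sq : Subgroup S)⁆ = (Sp : Subgroup S))
    (hO2 : Cfsg.pCore 2 S = ⊥)
    {E : Type*} [AddCommGroup E] [Module (ZMod 2) E] [Finite E] (ρ : Representation (ZMod 2) S E) (hE : Nontrivial E)
    (hirr : ∀ N : Submodule (ZMod 2) E, (∀ s : S, ∀ m ∈ N, ρ s m ∈ N) → N = ⊥ ∨ N = ⊤)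
    (hfaith : ∀ x ∈ (Sp : Subgroup S), ρ x = 1 → x = 1) :
    8 ≤ Nat.card {v : E // ∀ s ∈ (S₂ : Subgroup S), ρ s v = v} ∨
      (Nat.card {v : E // ∀ s ∈ (S₂ : Subgroup S), ρ s v = v} = 4 ∧
        ∃ x ∈ (Sq : Subgroup S), ∃ v : E, (∀ s ∈ (S₂ : Subgroup S), ρ s v = v) ∧ ¬ ∀ s ∈ (S₂ : Subgroup S), ρ s (ρ x v) = ρ x v) := by
  classical
  replace hSq : Nat.card ↥(Sq : Subgroup S) = q := hSq
  replace hSpcard : Nat.card ↥(Sp : Subgroup S) = p ∨ Nat.card ↥(Sp : Subgroup S) = p ^ 2 := hSpcard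
  replace h2q : Nat.card ↥((S₂ : Subgroup S) ⊔ (Sq : Subgroup S)) =
      Nat.card ↥(S₂ : Subgroup S) * Nat.card ↥(Sq : Subgroup S) := h2q
  have hinj : ∀ g : S, Function.Injective (ρ g) := fun g a b e => by
    have := congrArg (ρ g⁻¹) e
    simpa [← Module.End.mul_apply, ← map_mul] using this
  haveI : Fact p.Prime := ⟨hp⟩
  haveI : Fact q.Prime := ⟨hq⟩
  haveI : Fact (Nat.Prime 2) := ⟨Nat.prime_two⟩
  haveI := hSpN
  haveI : FiniteDimensional (ZMod 2) E := Module.Finite.of_finite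
  let k := AlgebraicClosure (ZMod 2)
  haveI : CharP k 2 := charP_of_injective_algebraMap (algebraMap (ZMod 2) k).injective 2
  let R := CfsgLib.FixedPointBound.extRep k ρ
  set A : Subgroup S := (Sp : Subgroup S) with hAdef
  set D : Subgroup S := (S₂ : Subgroup S) with hDdef
  have hA : ∀ a ∈ A, ∀ b ∈ A, a * b = b * a := by
    intro a ha b hb
    haveI : IsMulCommutative A := by
      rcases hSpcard with h | h
      · haveI := isCyclic_of_prime_card h
        infer_instance
      · exact IsPGroup.isMulCommutative_of_card_eq_prime_sq h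
    exact congrArg Subtype.val (mul_comm' (⟨a, ha⟩ : A) ⟨b, hb⟩)
  -- a generator of the Sylow q-subgroup
  obtain ⟨x, hxSq, hx1⟩ : ∃ x ∈ (Sq : Subgroup S), x ≠ 1 :=
    (Subgroup.bot_or_exists_ne_one _).resolve_left fun h => hq.one_lt.ne' (by rw [← hSq, h, Subgroup.card_bot])
  have hx : orderOf x = q := by
    rcases (Nat.dvd_prime hq).1 (hSq ▸ Subgroup.orderOf_dvd_natCard _ hxSq) with h | h
    · exact absurd (orderOf_eq_one_iff.1 h) hx1
    · exact h
  have hzx : Subgroup.zpowers x = (Sq : Subgroup S) :=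
    Subgroup.eq_of_le_of_card_ge (Subgroup.zpowers_le.2 hxSq) (by rw [hSq, Nat.card_zpowers, hx])
  have hK : Nat.card ↥(D ⊔ Subgroup.zpowers x) = Nat.card D * q := by rw [hzx, h2q, hSq]
  have hfix : ∀ z : TensorProduct (ZMod 2) k E, (∀ a ∈ A, R a z = z) → z = 0 := by
    intro z hz
    by_contra hz0
    obtain ⟨φ, hφ⟩ := CfsgLib.FixedPointBound.exists_coordMap_ne_zero hz0
    let N : Submodule (ZMod 2) E :=
      { carrier := {v | ∀ a ∈ A, ρ a v = v}
        add_mem' := fun {u v} hu hv a ha => by rw [map_add, hu a ha, hv a ha]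
        zero_mem' := fun a _ => map_zero _
        smul_mem' := fun c v hv a ha => by rw [map_smul, hv a ha] }
    rcases hirr N (fun s v hv a ha => by
      have h1 := hv (s⁻¹ * a * s) (by simpa using hSpN.conj_mem a ha s⁻¹)
      calc ρ a (ρ s v) = ρ s (ρ (s⁻¹ * a * s) v) := by
            rw [← Module.End.mul_apply, ← Module.End.mul_apply, ← map_mul, ← map_mul]
            congr 2; group
        _ = ρ s v := by rw [h1]) with h | h
    · have hmem : CfsgLib.FixedPointBound.coordMap k φ z ∈ N := fun a ha => by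
        rw [← CfsgLib.FixedPointBound.coordMap_extRep, hz a ha]
      rw [h, Submodule.mem_bot] at hmem
      exact hφ hmem
    · obtain ⟨a, ha, ha1⟩ : ∃ a ∈ A, a ≠ 1 := (Subgroup.bot_or_exists_ne_one _).resolve_left fun e => by

        rw [e, Subgroup.card_bot] at hSpcard
        rcases hSpcard with h' | h' <;> nlinarith [hp.two_le]
      refine ha1 (hfaith a ha (LinearMap.ext fun v => ?_))
      have hv : v ∈ N := h ▸ Submodule.mem_top
      exact hv a ha
  haveI : Nontrivial (TensorProduct (ZMod 2) k E) := by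
    refine Module.nontrivial_of_finrank_pos (R := k) ?_
    rw [Module.finrank_baseChange]
    exact Module.finrank_pos
  obtain ⟨⟨u, hu0, hu⟩, v, hv, hxv⟩ := CfsgLib.FixedPointBound.exists_fixed_orbit_sums R A D hA S₂.2 x q
    hq hq2 hx hK (by rw [hzx]; exact hcomm) hfix
  obtain ⟨φ, hφ⟩ := CfsgLib.FixedPointBound.exists_coordMap_ne_zero hu0
  obtain ⟨ψ, hψ⟩ := CfsgLib.FixedPointBound.exists_coordMap_ne_zero (sub_ne_zero.2 hxv)
  set u' := CfsgLib.FixedPointBound.coordMap k φ u
  set v' := CfsgLib.FixedPointBound.coordMap k ψ v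
  have hu' : ∀ g ∈ D ⊔ Subgroup.zpowers x, ρ g u' = u' := fun g hg => by
    rw [← CfsgLib.FixedPointBound.coordMap_extRep, hu g hg]
  have hv' : ∀ g ∈ D, ρ g v' = v' := fun g hg => by
    rw [← CfsgLib.FixedPointBound.coordMap_extRep, hv g hg]
  have hxv' : ρ x v' ≠ v' := fun h => hψ (by
    rw [map_sub, CfsgLib.FixedPointBound.coordMap_extRep, h, sub_self])
  have hxu : ρ x u' = u' := hu' x (Subgroup.mem_sup_right (Subgroup.mem_zpowers x))
  let F0 : Submodule (ZMod 2) E :=
    { carrier := {w | ∀ g ∈ D, ρ g w = w}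
      add_mem' := fun {a b} ha hb g hg => by rw [map_add, ha g hg, hb g hg]
      zero_mem' := fun g _ => map_zero _
      smul_mem' := fun c w hw g hg => by rw [map_smul, hw g hg] }
  show 8 ≤ Nat.card F0 ∨ (Nat.card F0 = 4 ∧ ∃ x ∈ (Sq : Subgroup S), ∃ w : E, w ∈ F0 ∧ ¬ ρ x w ∈ F0)
  have huF : u' ∈ F0 := fun g hg => hu' g (Subgroup.mem_sup_left hg)
  have hvF : v' ∈ F0 := hv'
  have h2v : ∀ w : E, w + w = 0 := fun w => by
    rw [← two_nsmul, ← Nat.cast_smul_eq_nsmul (ZMod 2)]
    rw [show ((2 : ℕ) : ZMod 2) = 0 from rfl, zero_smul]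
  have hv0 : v' ≠ 0 := fun h => hxv' (by rw [h, map_zero])
  have hvu : v' ≠ u' := fun h => hxv' (by rw [h, hxu])
  have hsub : ({0, u', v', u' + v'} : Set E) ⊆ (F0 : Set E) := by
    rintro w (rfl | rfl | rfl | rfl)
    exacts [zero_mem _, huF, hvF, add_mem huF hvF]
  have h4 : ({0, u', v', u' + v'} : Set E).ncard = 4 := by
    have e1 : (0 : E) ≠ u' + v' := fun h => hvu (by
      calc v' = (u' + u') + v' := by rw [h2v, zero_add]
        _ = u' + (u' + v') := add_assoc _ _ _
        _ = u' := by rw [← h, add_zero])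
    rw [Set.ncard_insert_of_notMem (by simp [Ne.symm hφ, Ne.symm hv0, e1]) (Set.toFinite _),
      Set.ncard_insert_of_notMem (by simp [Ne.symm hvu, hv0]) (Set.toFinite _),
      Set.ncard_pair (by simpa using hφ)]
  have hge : 4 ≤ Nat.card F0 := by
    rw [← h4]
    exact (Set.ncard_le_ncard hsub (Set.toFinite _)).trans (Nat.card_coe_set_eq _).symm.le
  by_cases h8 : 8 ≤ Nat.card F0
  · exact Or.inl h8
  refine Or.inr ?_
  have hcard : Nat.card F0 = 4 := by
    obtain ⟨n, hn⟩ : ∃ n, Nat.card F0 = 2 ^ n :=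
      ⟨_, (Module.natCard_eq_pow_finrank (K := ZMod 2) (V := F0)).trans (by rw [Nat.card_zmod])⟩
    have : n < 3 := (Nat.pow_lt_pow_iff_right (a := 2) (by norm_num)).1 (by omega)
    interval_cases n <;> omega
  refine ⟨hcard, x, hxSq, v', hvF, fun hmem => ?_⟩
  have hset : (F0 : Set E) = {0, u', v', u' + v'} :=
    (Set.eq_of_subset_of_ncard_le hsub (by rw [h4, ← hcard]; exact (Nat.card_coe_set_eq _).symm.le)
      (Set.toFinite _)).symm
  have hx2 : ρ x (ρ x v') = v' := by
    rcases (hset ▸ hmem : ρ x v' ∈ ({0, u', v', u' + v'} : Set E)) with h | h | h | h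
    · exact absurd (hinj x (h.trans (map_zero _).symm)) hv0
    · exact absurd (hinj x (h.trans hxu.symm)) hvu
    · exact absurd h hxv'
    · rw [Set.mem_singleton_iff] at h
      rw [h, map_add, hxu, h, ← add_assoc, h2v, zero_add]
  have hpow : ∀ n : ℕ, ρ (x ^ (2 * n)) v' = v' := by
    intro n
    induction n with
    | zero => simp
    | succ n ih => rw [mul_add, mul_one, pow_add, map_mul, Module.End.mul_apply, pow_two, map_mul,
        Module.End.mul_apply, hx2, ih]
  obtain ⟨m, hm⟩ : Odd q := hq.odd_of_ne_two hq2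
  have h1 : ρ (x ^ q) v' = v' := by rw [← hx, pow_orderOf_eq_one, map_one]; rfl
  rw [hm, pow_succ', map_mul, Module.End.mul_apply, hpow] at h1
  exact hxv' h1

end Cfsg.Agent.S4414
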