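import Cfsg.Statements.S4415
import Cfsg.Agent.Eq.Def_Solvable
import Cfsg.Agent.Eq.Def_Transfer
import Cfsg.Agent.CubicThree.Main
-- import your own Cfsg.Agent.* helpers here

set_option autoImplicit false
open Cfsg

namespace Cfsg.Agent.S4415

/-- Let S be a finite solvable group acting faithfully on a finite-dimensional space E over the field with three elements, with O₃(S) = 1. Let B ≤ S have order 3 and suppose: E = E₀ ⊕ E₁ with B fixing E₁ pointwise, E₀ B-invariant of order 27 and indecomposable under B (a generator of B has a single Jordan block on E₀); B normalizes but does not centralize some subgroup Q of S that is elementary abelian of order 4; and B is the centre of a Sylow 3-subgroup of S. Put R = [O_{3'}(S), B]. Then R is elementary abelian of order 4 or extraspecial of order 32 containing an elementary abelian subgroup of order 8 (a central product of two quaternion groups), and E is the direct sum of a subspace fixed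 pointwise by R and an RB-invariant subspace on which the subgroup RB acts faithfully and irreducibly. -/
theorem result {S : Type*} [Group S] [Finite S]
    [Group.IsSolvable S] {E : Type*} [AddCommGroup E] [Module (ZMod 3) E] [Finite E] (ρ : Representation (ZMod 3) S E)
    (hfaith : Function.Injective ρ) (hO3 : Cfsg.pCore 3 S = ⊥)
    (B : Subgroup S) (hB : Nat.card ↥B = 3) (b : S) (hb : Subgroup.zpowers b = B)
    (E₀ E₁ : Submodule (ZMod 3) E) (hE01 : E₀ ⊓ E₁ = ⊥) (hE01' : E₀ ⊔ E₁ = ⊤)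
    (hE1 : ∀ v ∈ E₁, ρ b v = v) (hE0inv : ∀ v ∈ E₀, ρ b v ∈ E₀) (hE0 : Nat.card ↥E₀ = 27)
    (hind : ∃ v ∈ E₀, ρ b (ρ b v - v) - (ρ b v - v) ≠ 0)
    (Q : Subgroup S) (hQ : Cfsg.IsElementaryAbelian 2 Q) (hQ4 : Nat.card ↥Q = 4)
    (hBQ : B ≤ Subgroup.normalizer (Q : Set S)) (hBQ' : ¬ B ≤ Subgroup.centralizer (Q : Set S))
    (P : Sylow 3 S) (hBZ : (Subgroup.center ↥(P : Subgroup S)).map (P : Subgroup S).subtype = B) :
    ((Cfsg.IsElementaryAbelian 2 ⁅Cfsg.pPrimeCore 3 S, B⁆ ∧ Nat.card ↥⁅Cfsg.pPrimeCore 3 S, B⁆ = 4) ∨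
      (Cfsg.IsExtraspecial 2 ↥⁅Cfsg.pPrimeCore 3 S, B⁆ ∧ Nat.card ↥⁅Cfsg.pPrimeCore 3 S, B⁆ = 32 ∧
        ∃ A : Subgroup S, A ≤ ⁅Cfsg.pPrimeCore 3 S, B⁆ ∧ Cfsg.IsElementaryAbelian 2 A ∧ Nat.card ↥A = 8)) ∧
    ∃ F₀ F₁ : Submodule (ZMod 3) E, F₀ ⊓ F₁ = ⊥ ∧ F₀ ⊔ F₁ = ⊤ ∧
      (∀ r ∈ ⁅Cfsg.pPrimeCore 3 S, B⁆, ∀ v ∈ F₁, ρ r v = v) ∧ (∀ r ∈ ⁅Cfsg.pPrimeCore 3 S, B⁆ ⊔ B, ∀ v ∈ F₀, ρ r v ∈ F₀) ∧
      (∀ r ∈ ⁅Cfsg.pPrimeCore 3 S, B⁆ ⊔ B, (∀ v ∈ F₀, ρ r v = v) → r = 1) ∧
      (∀ N : Submodule (ZMod 3) E, N ≤ F₀ → (∀ r ∈ ⁅Cfsg.pPrimeCore 3 S, B⁆ ⊔ B, ∀ v ∈ N, ρ r v ∈ N) → N = ⊥ ∨ N = F₀) := by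
  haveI : Fact (Nat.Prime 2) := ⟨Nat.prime_two⟩
  have hb3 : orderOf b = 3 := by rw [← Nat.card_zpowers, hb, hB]
  have hcub : CfsgLib.CubicThree.Cubic ρ b :=
    CfsgLib.CubicThree.cubic_of_block hb3 E₀ E₁ hE01' hE1 hE0inv hE0 hind
  have hbB : b ∈ B := hb ▸ Subgroup.mem_zpowers b
  have hbQ : ∀ x ∈ Q, b * x * b⁻¹ ∈ Q := fun x hx =>
    (Subgroup.mem_normalizer_iff.1 (hBQ hbB) x).1 hx
  have hbQ' : ∃ x ∈ Q, b * x ≠ x * b := by
    by_contra hcon
    push Not at hcon
    apply hBQ'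
    rw [← hb, Subgroup.zpowers_le]
    exact Subgroup.mem_centralizer_iff.2 fun x hx => (hcon x hx).symm
  have hbc : b ∈ (Subgroup.center ↥(P : Subgroup S)).map (P : Subgroup S).subtype := by
    rw [hBZ]; exact hbB
  obtain ⟨⟨b', hb'P⟩, hb'c, rfl⟩ := hbc
  obtain ⟨U, hR, hU, hUne, hU2, hQU, hQm, hQne⟩ := CfsgLib.CubicThree.main hcub hfaith hO3
    hQ.1 (fun a ha => by rw [← pow_two]; exact hQ.2 a ha) hQ4 hbQ hbQ' P hb'P
    (fun x hx => congrArg Subtype.val (Subgroup.mem_center_iff.1 hb'c ⟨x, hx⟩))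
  rw [← hb, hR]
  have hQc : ∀ x ∈ Q, ∀ y ∈ Q, x * y = y * x := fun x hx y hy =>
    congrArg Subtype.val (hQ.1.is_comm.comm ⟨x, hx⟩ ⟨y, hy⟩)
  have hN : ∀ r ∈ U ⊔ Subgroup.zpowers b', r ∈ Subgroup.normalizer (U : Set S) := fun r hr =>
    (sup_le Subgroup.le_normalizer (Subgroup.zpowers_le.2 hU.normalizer) :
      U ⊔ Subgroup.zpowers b' ≤ Subgroup.normalizer (U : Set S)) hr
  refine ⟨?_, CfsgLib.CubicThree.Com ρ U, CfsgLib.CubicThree.Fix ρ U, ?_, ?_, ?_, ?_, ?_, ?_⟩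
  · by_cases hab : ∀ x ∈ U, ∀ y ∈ U, x * y = y * x
    · left
      obtain ⟨l, d⟩ := hcub.exists_abData hfaith hU hUne hab
      rcases d.card hcub hfaith hU hUne hab hU2 with ⟨h4, hsq, -⟩ | ⟨-, h13⟩
      · exact ⟨⟨⟨⟨fun x y => Subtype.ext (hab x x.2 y y.2)⟩⟩,
          fun a ha => by rw [pow_two]; exact hsq a ha⟩, h4⟩
      · exact absurd h13 (by norm_num)
    right
    have hn : CfsgLib.CubicThree.NonAb U := by push Not at hab; exact hab
    obtain ⟨z, D⟩ := hU.exists_exData hcub hfaith hU2 hn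
    have hQZ : ∀ a ∈ Q, a ∈ CfsgLib.CubicThree.Zc U → a = 1 := fun a ha haZ =>
      hQm.fixed_eq_one hcub.ord hQc ha (hU.center_fixed hcub hfaith hn haZ)
    have hzQ : z ∉ Q := fun h => D.ne (hQZ z h D.mem)
    have hA : ∃ A : Subgroup S, A ≤ U ∧ Cfsg.IsElementaryAbelian 2 A ∧ Nat.card ↥A = 8 := by
      obtain ⟨A, hAU, hAc, hQA, hzA, hAcard, hAmem⟩ :=
        CfsgLib.NoAbEight.double (Y := Q ⊔ Subgroup.zpowers z) (W := Q) le_sup_left
          (fun a ha => Subgroup.mem_centralizer_iff.2 fun y hy => by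
            have h1 : Q ⊔ Subgroup.zpowers z ≤ Subgroup.centralizer {a} :=
              sup_le (fun x hx => Subgroup.mem_centralizer_iff.2 fun v hv => by
                  rw [Set.mem_singleton_iff.1 hv]; exact hQc a ha x hx)
                (Subgroup.zpowers_le.2 (Subgroup.mem_centralizer_iff.2 fun v hv => by
                  rw [Set.mem_singleton_iff.1 hv]
                  exact (CfsgLib.CubicThree.mem_Zc.1 D.mem).2 a (hQU ha)))
            exact (Subgroup.mem_centralizer_iff.1 (h1 hy) a rfl).symm)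
          (le_sup_right (a := Q) (Subgroup.mem_zpowers z)) hzQ
          (by rw [pow_two, D.sq]; exact one_mem Q)
      refine ⟨A, hAU.trans (sup_le hQU (Subgroup.zpowers_le.2 D.mem.1)), ⟨hAc, fun a ha => ?_⟩,
        by rw [hAcard, hQ4]⟩
      rcases hAmem a ha with h | h
      · exact hQ.2 a h
      · have hcz : Commute z (z * a) :=
          ((CfsgLib.CubicThree.mem_Zc.1 D.mem).2 (z * a) (hQU h)).symm
        calc a ^ 2 = (z * (z * a)) ^ 2 := by rw [← mul_assoc, D.sq, one_mul]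
          _ = 1 := by rw [hcz.mul_pow, hQ.2 _ h, pow_two, D.sq, one_mul]
    refine ⟨D.extraspecial hU2 hn, ?_, hA⟩
    obtain ⟨A, hAU, hAe, hA8⟩ := hA
    rcases D.card hcub hfaith hU hU2 hn with h8 | h32
    · exfalso
      have hAe' : A = U := Subgroup.eq_of_le_of_card_ge hAU (by rw [h8, hA8])
      obtain ⟨x, hx, y, hy, hxy⟩ := hn
      subst hAe'
      exact hxy (congrArg Subtype.val (hAe.1.is_comm.comm ⟨x, hx⟩ ⟨y, hy⟩))
    · exact h32
  · rw [inf_comm]; exact CfsgLib.CubicThree.Fix_inf_Com ρ hU.cop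
  · rw [sup_comm]; exact CfsgLib.CubicThree.Fix_sup_Com ρ hU.cop
  · exact fun r hr v hv => hv r hr
  · exact fun r hr v hv => CfsgLib.CubicThree.rho_mem_Com ρ (hN r hr) hv
  · intro r hr hfix
    refine CfsgLib.CubicThree.eq_one_of_fix ρ hfaith hU.cop (fun v hv => ?_) hfix
    let L : Subgroup S :=
      { carrier := {g | ρ g v = v}
        one_mem' := CfsgLib.CubicThree.rho_one ρ v
        mul_mem' := fun {g g'} (hg : ρ g v = v) (hg' : ρ g' v = v) => by
          show ρ (g * g') v = v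
          rw [CfsgLib.CubicThree.rho_mul, hg', hg]
        inv_mem' := fun {g} (hg : ρ g v = v) => CfsgLib.CubicThree.rho_inv_fix ρ hg }
    have hle : U ⊔ Subgroup.zpowers b' ≤ L := sup_le (fun x hx => hv x hx)
      (Subgroup.zpowers_le.2 (hcub.fix_trivial hfaith hU hUne v hv))
    exact hle hr
  · intro N hN hinv
    have hinvU : ∀ g ∈ U, ∀ v ∈ N, ρ g v ∈ N := fun g hg =>
      hinv g (Subgroup.mem_sup_left hg)
    have hinvb : ∀ v ∈ N, ρ b' v ∈ N :=
      hinv b' (Subgroup.mem_sup_right (Subgroup.mem_zpowers b'))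
    by_cases h0 : N = ⊥
    · exact Or.inl h0
    by_cases hab : ∀ x ∈ U, ∀ y ∈ U, x * y = y * x
    · obtain ⟨l, d⟩ := hcub.exists_abData hfaith hU hUne hab
      exact Or.inr (d.irreducible hcub hU hab hN hinvU hinvb h0)
    have hn : CfsgLib.CubicThree.NonAb U := by push Not at hab; exact hab
    obtain ⟨z, D⟩ := hU.exists_exData hcub hfaith hU2 hn
    obtain ⟨a, ha, ha1⟩ := (Subgroup.bot_or_exists_ne_one Q).resolve_left hQne
    have haZ : a ∉ CfsgLib.CubicThree.Zc U := fun h =>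
      ha1 (hQm.fixed_eq_one hcub.ord hQc ha (hU.center_fixed hcub hfaith hn h))
    have h32 : Nat.card U = 32 := by
      rcases D.card hcub hfaith hU hU2 hn with h8 | h32
      · exfalso
        set Z := CfsgLib.CubicThree.Zc U with hZd
        have hdisj : Q ⊓ Z = ⊥ := by
          rw [eq_bot_iff]
          exact fun x hx => (Subgroup.mem_bot).2
            (hQm.fixed_eq_one hcub.ord hQc hx.1 (hU.center_fixed hcub hfaith hn hx.2))
        have hQN : Q ≤ Subgroup.centralizer (Z : Set S) := fun x hx =>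
          Subgroup.mem_centralizer_iff.2 fun c hc =>
            ((CfsgLib.CubicThree.mem_Zc.1 hc).2 x (hQU hx)).symm
        let g : Q × Z → U := fun p => ⟨p.1 * p.2, mul_mem (hQU p.1.2) p.2.2.1⟩
        have hg : Function.Injective g := by
          rintro ⟨x, c⟩ ⟨x', c'⟩ h
          have h1 : (x : S) * c = x' * c' := congrArg Subtype.val h
          have h2 : (x' : S)⁻¹ * x = c' * (c : S)⁻¹ := by
            rw [← mul_right_inj (x' : S), mul_inv_cancel_left, ← mul_assoc, ← h1,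
              mul_inv_cancel_right]
          have h3 : (x' : S)⁻¹ * x = 1 := by
            rw [← Subgroup.mem_bot, ← hdisj]
            exact ⟨Subgroup.mul_mem _ (Subgroup.inv_mem _ x'.2) x.2, h2 ▸ Subgroup.mul_mem _ c'.2 (Subgroup.inv_mem _ c.2)⟩
          have h4 : (c : S) = c' := by rw [h3, eq_comm, mul_inv_eq_one] at h2; exact h2.symm
          exact Prod.ext (Subtype.ext (inv_mul_eq_one.1 h3).symm) (Subtype.ext h4)
        have hbij := hg.bijective_of_nat_card_le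
          (by rw [Nat.card_prod, hQ4, hZd, D.card_center, h8])
        obtain ⟨x, hx, y, hy, hxy⟩ := hn
        apply hxy
        obtain ⟨⟨p, c⟩, hp⟩ := hbij.2 ⟨x, hx⟩
        obtain ⟨⟨p', c'⟩, hp'⟩ := hbij.2 ⟨y, hy⟩
        rw [← show (p : S) * c = x from congrArg Subtype.val hp,
          ← show (p' : S) * c' = y from congrArg Subtype.val hp']
        have cp : Commute (p : S) p' := hQc p p.2 p' p'.2
        have cc : ∀ (q : Q) (w : Z), Commute (q : S) w := fun q w =>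
          (Subgroup.mem_centralizer_iff.1 (hQN q.2) w w.2).symm
        have ccc : Commute (c : S) c' :=
          ((CfsgLib.CubicThree.mem_Zc.1 c'.2).2 c c.2.1)
        exact ((cp.mul_right (cc p c')).mul_left (((cc p' c).symm).mul_right ccc)).eq
      · exact h32
    exact D.irreducible hcub hfaith hU hU2 hn h32 (hQU ha) haZ
      (by rw [← pow_two]; exact hQ.2 a ha) hN hinvU

end Cfsg.Agent.S4415
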