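import Cfsg.Statements.S4417
import Mathlib

set_option autoImplicit false
open Cfsg

namespace Cfsg.Agent.S4417

/-- In a `p`-group, a subgroup of index at most `p ^ j` contains the `j`-th derived subgroup. -/
theorem derived_le_of_index_le (p : ℕ) [Fact p.Prime] (j : ℕ) :
    ∀ {P : Type*} [Group P] [Finite P], IsPGroup p P → ∀ H : Subgroup P, H.index ≤ p ^ j →
      derivedSeries P j ≤ H := by
  induction j with
  | zero =>
    intro P _ _ _ H hH
    have h0 : H.index ≠ 0 := Subgroup.index_ne_zero_of_finite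
    have : H = ⊤ := Subgroup.index_eq_one.1 (by rw [pow_zero] at hH; omega)
    simp [this]
  | succ j ih =>
    intro P _ _ hP H hH
    by_cases hT : H = ⊤
    · simp [hT]
    obtain ⟨M, hMT, hHM⟩ := (eq_top_or_exists_le_coatom H).resolve_left hT
    haveI : Group.IsNilpotent P := hP.isNilpotent
    haveI hMn : M.Normal := by
      exact Subgroup.NormalizerCondition.normal_of_coatom M
        Group.normalizerCondition_of_isNilpotent hMT
    obtain ⟨k, hk⟩ := hP.index M
    have hk0 : k ≠ 0 := fun h => hMT.1 (Subgroup.index_eq_one.1 (by rw [hk, h, pow_zero]))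
    -- the quotient by a maximal normal subgroup has no proper nontrivial subgroup
    have hsimple : ∀ K : Subgroup (P ⧸ M), K = ⊥ ∨ K = ⊤ := by
      intro K
      have hle : M ≤ K.comap (QuotientGroup.mk' M) := by
        intro x hx
        simp [Subgroup.mem_comap, (QuotientGroup.eq_one_iff x).2 hx]
      have hsur := QuotientGroup.mk'_surjective M
      rcases hMT.le_iff.1 hle with h | h
      · exact Or.inr (by rw [← Subgroup.map_comap_eq_self_of_surjective hsur K, h,
          Subgroup.map_top_of_surjective _ hsur])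
      · exact Or.inl (by rw [← Subgroup.map_comap_eq_self_of_surjective hsur K, h,
          QuotientGroup.map_mk'_self])
    obtain ⟨x, hx⟩ := exists_prime_orderOf_dvd_card' (G := P ⧸ M) p
      (by rw [← Subgroup.index_eq_card, hk]; exact dvd_pow_self p hk0)
    have hxtop : Subgroup.zpowers x = ⊤ := (hsimple _).resolve_left fun h => by
      have : x = 1 := Subgroup.mem_bot.1 (h ▸ Subgroup.mem_zpowers x)
      rw [this, orderOf_one] at hx
      exact (Fact.out : p.Prime).one_lt.ne hx
    have hMidx : M.index = p := by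
      rw [Subgroup.index_eq_card, ← hx, ← Nat.card_zpowers, hxtop, Subgroup.card_top]
    have hcomm : commutator P ≤ M := by
      apply Subgroup.Normal.commutator_le_of_self_sup_commutative_eq_top (H := Subgroup.zpowers
        (x.out : P))
      · rw [eq_top_iff]
        intro g _
        obtain ⟨i, hi⟩ := Subgroup.mem_zpowers_iff.1 (hxtop ▸ Subgroup.mem_top (g : P ⧸ M))
        have hg : g * ((x.out : P) ^ i)⁻¹ ∈ M := by
          rw [← QuotientGroup.eq_one_iff]
          simp [hi, QuotientGroup.out_eq']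
        have h2 := mul_mem (Subgroup.mem_sup_left hg : g * ((x.out : P) ^ i)⁻¹ ∈ M ⊔ _)
          (Subgroup.mem_sup_right (T := Subgroup.zpowers (x.out : P)) (S := M)
            (Subgroup.zpow_mem_zpowers _ i))
        simpa using h2
      · infer_instance
    have hidx : (H.subgroupOf M).index ≤ p ^ j := by
      have h1 := Subgroup.relIndex_mul_index hHM
      rw [hMidx] at h1
      have h2 : H.relIndex M * p ≤ p ^ j * p := by rw [h1, ← pow_succ]; exact hH
      exact Nat.le_of_mul_le_mul_right h2 (Fact.out : p.Prime).pos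
    have hih := ih (hP.to_subgroup M) (H.subgroupOf M) hidx
    have hmap : ∀ i : ℕ, derivedSeries P (i + 1) ≤ (derivedSeries M i).map M.subtype := by
      intro i
      induction i with
      | zero =>
        rw [derivedSeries_succ, derivedSeries_zero, derivedSeries_zero, ← MonoidHom.range_eq_map,
          Subgroup.range_subtype]
        exact hcomm
      | succ i hi =>
        rw [derivedSeries_succ P, derivedSeries_succ M, Subgroup.map_commutator]
        exact Subgroup.commutator_mono hi hi
    refine (hmap j).trans ((Subgroup.map_mono hih).trans ?_)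
    rw [Subgroup.subgroupOf_map_subtype]
    exact inf_le_left

/-- A finite `p`-group has a normal abelian subgroup containing its centralizer. -/
theorem exists_selfcentralizing {P : Type*} [Group P] [Finite P] (p : ℕ) [Fact p.Prime]
    (hP : IsPGroup p P) : ∃ A : Subgroup P, A.Normal ∧ (∀ a ∈ A, ∀ b ∈ A, a * b = b * a) ∧
      ∀ g : P, (∀ a ∈ A, g * a = a * g) → g ∈ A := by
  obtain ⟨A, ⟨hAn, hAc⟩, hmax⟩ := Set.Finite.exists_maximal (s := {A : Subgroup P | A.Normal ∧
    ∀ a ∈ A, ∀ b ∈ A, a * b = b * a}) (Set.toFinite _) ⟨⊥, Subgroup.normal_bot, by simp⟩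
  refine ⟨A, hAn, hAc, ?_⟩
  let C := Subgroup.centralizer (A : Set P)
  haveI : C.Normal := by
    constructor
    intro c hc g
    rw [Subgroup.mem_centralizer_iff] at hc ⊢
    intro a ha
    have h1 : g⁻¹ * a * g ∈ A := by simpa using hAn.conj_mem a ha g⁻¹
    have h2 := hc _ h1
    calc a * (g * c * g⁻¹) = g * ((g⁻¹ * a * g) * c) * g⁻¹ := by group
      _ = g * (c * (g⁻¹ * a * g)) * g⁻¹ := by rw [h2]
      _ = _ := by group
  let N := C.map (QuotientGroup.mk' A)
  haveI : N.Normal := Subgroup.Normal.map inferInstance _ (QuotientGroup.mk'_surjective A)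
  intro g hg
  by_contra hgA
  have hgC : g ∈ C := Subgroup.mem_centralizer_iff.2 fun a ha => (hg a ha).symm
  -- a normal subgroup of a `p`-group meets the centre
  have hfix : ∃ z : N, z ≠ 1 ∧ (z : P ⧸ A) ∈ Subgroup.center (P ⧸ A) := by
    have hQ := hP.to_quotient A
    have hN : p ∣ Nat.card N := by
      have hne : (⟨_, Subgroup.mem_map_of_mem _ hgC⟩ : N) ≠ 1 := fun h =>
        hgA ((QuotientGroup.eq_one_iff g).1 (congrArg Subtype.val h))
      haveI : Nontrivial N := ⟨_, _, hne⟩
      obtain ⟨n, hn⟩ := IsPGroup.iff_card.1 (hQ.to_subgroup N)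
      have : 1 < Nat.card N := Finite.one_lt_card
      rw [hn] at this ⊢
      refine dvd_pow_self p ?_
      rintro rfl
      simp at this
    have hC : IsPGroup p (ConjAct (P ⧸ A)) := hQ
    have h1 : (1 : N) ∈ MulAction.fixedPoints (ConjAct (P ⧸ A)) N := fun q => Subtype.ext (by simp)
    obtain ⟨z, hz, hz1⟩ := hC.exists_fixed_point_of_prime_dvd_card_of_fixed_point N hN h1
    refine ⟨z, hz1.symm, Subgroup.mem_center_iff.2 fun q => ?_⟩
    have h2 := congrArg Subtype.val (hz (ConjAct.toConjAct q))
    simp only [ConjAct.Subgroup.val_conj_smul, ConjAct.toConjAct_smul] at h2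
    exact mul_inv_eq_iff_eq_mul.1 h2
  obtain ⟨⟨_, z, hzC, rfl⟩, hz1, hzc⟩ := hfix
  have hzA : z ∉ A := fun h => hz1 (Subtype.ext ((QuotientGroup.eq_one_iff z).2 h))
  let B := A ⊔ Subgroup.zpowers z
  have hconjz : ∀ q : P, q * z * q⁻¹ ∈ B := by
    intro q
    have h1 : ((q * z * q⁻¹ * z⁻¹ : P) : P ⧸ A) = 1 := by
      have := Subgroup.mem_center_iff.1 hzc (q : P ⧸ A)
      simp only [QuotientGroup.mk'_apply] at this
      simp only [QuotientGroup.mk_mul, QuotientGroup.mk_inv, this]
      group
    have h2 := mul_mem (Subgroup.mem_sup_left (T := Subgroup.zpowers z)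
      ((QuotientGroup.eq_one_iff _).1 h1)) (Subgroup.mem_sup_right (Subgroup.mem_zpowers z))
    simpa using h2
  have hBn : B.Normal := by
    constructor
    intro b hb q
    have hle : B ≤ B.comap (MulAut.conj q).toMonoidHom :=
      sup_le (fun a ha => Subgroup.mem_sup_left (hAn.conj_mem a ha q))
        (Subgroup.zpowers_le.2 (hconjz q))
    exact hle hb
  have hBc : ∀ a ∈ B, ∀ b ∈ B, a * b = b * a := by
    have key : B ≤ Subgroup.centralizer ((A : Set P) ∪ {z}) := by
      refine sup_le (fun a ha => Subgroup.mem_centralizer_iff.2 ?_) (Subgroup.zpowers_le.2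
        (Subgroup.mem_centralizer_iff.2 ?_))
      · rintro x (hx | hx)
        · exact hAc x hx a ha
        · rw [Set.mem_singleton_iff.1 hx]
          exact (Subgroup.mem_centralizer_iff.1 hzC a ha).symm
      · rintro x (hx | hx)
        · exact Subgroup.mem_centralizer_iff.1 hzC x hx
        · rw [Set.mem_singleton_iff.1 hx]
    have key2 : ∀ x ∈ B, B ≤ Subgroup.centralizer ({x} : Set P) := by
      intro x hx
      refine sup_le (fun a ha => Subgroup.mem_centralizer_iff.2 ?_) (Subgroup.zpowers_le.2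
        (Subgroup.mem_centralizer_iff.2 ?_))
      · rintro y hy
        rw [Set.mem_singleton_iff.1 hy]
        exact (Subgroup.mem_centralizer_iff.1 (key hx) a (Or.inl ha)).symm
      · rintro y hy
        rw [Set.mem_singleton_iff.1 hy]
        exact (Subgroup.mem_centralizer_iff.1 (key hx) z (Or.inr rfl)).symm
    intro a ha b hb
    exact Subgroup.mem_centralizer_iff.1 (key2 a ha hb) a rfl
  exact hzA (hmax ⟨hBn, hBc⟩ le_sup_left (Subgroup.mem_sup_right (Subgroup.mem_zpowers z)))

section
variable {E : Type*} [Field E] {n : ℕ} {A : Type*} [CommGroup A]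

/-- `lam` is a weight of the representation `φ`. -/
def IsWeight (φ : A →* Module.End E (Fin n → E)) (lam : A → E) : Prop :=
  ∃ v : Fin n → E, v ≠ 0 ∧ ∀ a, φ a v = lam a • v

theorem weights_finite (φ : A →* Module.End E (Fin n → E)) :
    {lam | IsWeight φ lam}.Finite ∧ Nat.card {lam // IsWeight φ lam} ≤ n := by
  classical
  choose v hv0 hv using fun w : {lam // IsWeight φ lam} => w.2
  have hli : LinearIndependent E v := by
    rw [linearIndependent_iff']
    intro s
    induction s using Finset.induction_on with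
    | empty => simp
    | @insert w s hw ih =>
      intro c hc
      rw [Finset.sum_insert hw] at hc
      have hs : ∀ u ∈ s, c u = 0 := by
        intro u hu
        obtain ⟨a, ha⟩ := Function.ne_iff.1
          (show u.1 ≠ w.1 from fun h => hw (Subtype.ext h ▸ hu))
        have hsum : ∑ i ∈ s, (c i * (i.1 a - w.1 a)) • v i = 0 := by
          have h1 := congrArg (φ a) hc
          rw [map_add, map_smul, map_sum, map_zero, hv] at h1
          simp only [map_smul, hv] at h1
          have h2 := congrArg (w.1 a • ·) hc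
          simp only [smul_add, smul_zero, Finset.smul_sum, smul_smul] at h1 h2
          rw [mul_comm (w.1 a) (c w)] at h2
          have h3 := congrArg₂ (· - ·) h1 h2
          simp only [sub_zero, add_sub_add_left_eq_sub, ← Finset.sum_sub_distrib, ← sub_smul] at h3
          rw [← h3]
          refine Finset.sum_congr rfl fun i _ => ?_
          congr 1
          ring
        exact (mul_eq_zero.1 (ih _ hsum u hu)).resolve_right (sub_ne_zero.2 ha)
      intro i hi
      rcases Finset.mem_insert.1 hi with rfl | hi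
      · rw [Finset.sum_eq_zero (fun u hu => by rw [hs u hu, zero_smul]), add_zero] at hc
        exact (smul_eq_zero.1 hc).resolve_right (hv0 i)
      · exact hs i hi
  haveI := hli.finite
  refine ⟨Set.finite_coe_iff.1 (inferInstance : Finite {lam // IsWeight φ lam}), ?_⟩
  haveI := Fintype.ofFinite {lam // IsWeight φ lam}
  rw [Nat.card_eq_fintype_card]
  simpa using hli.fintype_card_le_finrank

theorem weight_mul (φ : A →* Module.End E (Fin n → E)) {lam : A → E} (h : IsWeight φ lam)
    (a b : A) : lam (a * b) = lam a * lam b := by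
  obtain ⟨v, hv0, hv⟩ := h
  have h1 := hv (a * b)
  rw [map_mul, Module.End.mul_apply, hv, map_smul, hv, smul_smul] at h1
  rw [← sub_eq_zero, mul_comm (lam a)]
  by_contra hne
  exact hne ((smul_eq_zero.1 (by rw [sub_smul, h1, sub_self] :
    (lam (a * b) - lam b * lam a) • v = 0)).resolve_right hv0)

theorem weight_one (φ : A →* Module.End E (Fin n → E)) {lam : A → E} (h : IsWeight φ lam) :
    lam 1 = 1 := by
  obtain ⟨v, hv0, hv⟩ := h
  have h1 := hv 1
  rw [map_one, Module.End.one_apply] at h1
  rw [← sub_eq_zero]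
  by_contra hne
  exact hne ((smul_eq_zero.1 (by rw [sub_smul, ← h1, one_smul, sub_self] :
    (lam 1 - 1) • v = 0)).resolve_right hv0)

theorem weight_pow (φ : A →* Module.End E (Fin n → E)) {lam : A → E} (h : IsWeight φ lam)
    (a : A) (k : ℕ) : lam (a ^ k) = lam a ^ k := by
  induction k with
  | zero => simpa using weight_one φ h
  | succ k ih => rw [pow_succ, pow_succ, weight_mul φ h, ih]

variable [IsAlgClosed E]

theorem exists_common_eigenvector {V : Type*} [AddCommGroup V] [Module E V] (s : Finset A)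
    (φ : A →* Module.End E V) (W : Submodule E V) [FiniteDimensional E W] :
    W ≠ ⊥ → (∀ a, ∀ x ∈ W, φ a x ∈ W) →
      ∃ v ∈ W, v ≠ 0 ∧ ∀ a ∈ s, ∃ c : E, φ a v = c • v := by
  classical
  induction s using Finset.induction_on generalizing W with
  | empty =>
    intro hW _
    obtain ⟨v, hv, hv0⟩ := Submodule.exists_mem_ne_zero_of_ne_bot hW
    exact ⟨v, hv, hv0, by simp⟩
  | @insert a s has ih =>
    intro hW hinv
    haveI : Nontrivial W := Submodule.nontrivial_iff_ne_bot.2 hW
    obtain ⟨c, hc⟩ := Module.End.exists_eigenvalue ((φ a).restrict (hinv a))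
    obtain ⟨w, hw⟩ := hc.exists_hasEigenvector
    let W' := W ⊓ (φ a).eigenspace c
    haveI : FiniteDimensional E W' := Submodule.finiteDimensional_of_le inf_le_left
    have hW' : W' ≠ ⊥ := by
      refine (Submodule.ne_bot_iff _).2 ⟨w, ⟨w.2, Module.End.mem_eigenspace_iff.2 ?_⟩,
        fun h => hw.2 (Subtype.ext h)⟩
      exact congrArg Subtype.val hw.apply_eq_smul
    obtain ⟨v, hv, hv0, hvs⟩ := ih W' hW' fun b x hx => ⟨hinv b x hx.1,
      Module.End.mem_eigenspace_iff.2 (by
        rw [← Module.End.mul_apply, ← map_mul, mul_comm, map_mul, Module.End.mul_apply,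
          Module.End.mem_eigenspace_iff.1 hx.2, map_smul])⟩
    refine ⟨v, hv.1, hv0, fun b hb => ?_⟩
    rcases Finset.mem_insert.1 hb with rfl | hb
    · exact ⟨c, Module.End.mem_eigenspace_iff.1 hv.2⟩
    · exact hvs b hb

/-- Weights separate the elements of a finite abelian group of invertible order. -/
theorem weights_separate [Finite A] (hA : (Nat.card A : E) ≠ 0)
    (φ : A →* Module.End E (Fin n → E)) (hφ : Function.Injective φ) (a : A) (ha : a ≠ 1) :
    ∃ lam, IsWeight φ lam ∧ lam a ≠ 1 := by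
  classical
  haveI := Fintype.ofFinite A
  -- some eigenvalue of `φ a` differs from `1`
  obtain ⟨c, hc1, hc⟩ : ∃ c : E, c ≠ 1 ∧ (φ a).HasEigenvalue c := by
    by_contra hall
    push Not at hall
    have h1 : (φ a).maxGenEigenspace 1 = ⊤ := by
      rw [eq_top_iff, ← Module.End.iSup_maxGenEigenspace_eq_top (φ a)]
      refine iSup_le fun μ => ?_
      by_cases hμ : μ = 1
      · rw [hμ]
      · intro x hx
        by_cases hx0 : x = 0
        · simp [hx0]
        exfalso
        obtain ⟨k, hk⟩ := (Module.End.mem_maxGenEigenspace _ _ _).1 hx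
        exact hall μ hμ (Module.End.hasEigenvalue_of_hasGenEigenvalue (k := k)
          ((Submodule.ne_bot_iff _).2 ⟨x, by
            simpa [Module.End.genEigenspace_nat] using hk, hx0⟩))
    have hnil : IsNilpotent (φ a - 1) := by
      refine ⟨n, LinearMap.ext fun x => ?_⟩
      have hx : x ∈ (φ a).maxGenEigenspace 1 := h1 ▸ Submodule.mem_top
      rw [Module.End.maxGenEigenspace_eq_genEigenspace_finrank] at hx
      simpa [Module.End.genEigenspace_nat] using hx
    obtain ⟨N, hN⟩ : ∃ N, N = φ a - 1 := ⟨_, rfl⟩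
    rw [← hN] at hnil
    have hpow : (1 + N) ^ Nat.card A = 1 := by
      rw [hN, add_sub_cancel, ← map_pow, pow_card_eq_one', map_one]
    have hcomm : Commute (∑ i ∈ Finset.range (Nat.card A), (1 + N) ^ i) N := by
      refine Commute.sum_left _ _ _ fun i _ => ?_
      exact ((Commute.one_left N).add_left (Commute.refl N)).pow_left i
    have hgeom : (∑ i ∈ Finset.range (Nat.card A), (1 + N) ^ i) * N = 0 := by
      have := geom_sum_mul (1 + N) (Nat.card A)
      rwa [add_sub_cancel_left, hpow, sub_self] at this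
    have hunit : IsUnit (∑ i ∈ Finset.range (Nat.card A), (1 + N) ^ i) := by
      have hN1 : ∀ i : ℕ, ∃ Q, (1 + N) ^ i = 1 + Q * N ∧ Commute Q N := by
        intro i
        induction i with
        | zero => exact ⟨0, by simp, Commute.zero_left N⟩
        | succ i ih =>
          obtain ⟨Q, hQ, hQc⟩ := ih
          refine ⟨Q + 1 + Q * N, ?_, ((hQc.add_left (Commute.one_left N)).add_left
            (hQc.mul_left (Commute.refl N)))⟩
          rw [pow_succ, hQ, mul_add, mul_one, add_mul, one_mul]
          simp only [add_mul, one_mul]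
          abel
      choose Q hQ hQc using hN1
      rw [Finset.sum_congr rfl fun i _ => hQ i, Finset.sum_add_distrib, Finset.sum_const,
        Finset.card_range, ← Finset.sum_mul, nsmul_one]
      have hS : Commute (∑ i ∈ Finset.range (Nat.card A), Q i) N :=
        Commute.sum_left _ _ _ fun i _ => hQc i
      have hu : IsUnit ((Nat.card A : ℕ) : Module.End E (Fin n → E)) := by
        have := (isUnit_iff_ne_zero.2 hA).map (algebraMap E (Module.End E (Fin n → E)))
        rwa [map_natCast] at this
      exact (hS.isNilpotent_mul_left hnil).isUnit_add_left_of_commute hu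
        (Nat.cast_commute _ _).symm
    have hN0 : N = 0 := hunit.mul_right_eq_zero.1 hgeom
    apply ha
    apply hφ
    rw [map_one, ← sub_eq_zero, ← hN, hN0]
  obtain ⟨v, hv, hv0, hev⟩ := exists_common_eigenvector Finset.univ φ ((φ a).eigenspace c) hc
    fun b x hx => Module.End.mem_eigenspace_iff.2 (by
      rw [← Module.End.mul_apply, ← map_mul, mul_comm, map_mul, Module.End.mul_apply,
        Module.End.mem_eigenspace_iff.1 hx, map_smul])
  choose lam hlam using fun b => hev b (Finset.mem_univ b)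
  refine ⟨lam, ⟨v, hv0, hlam⟩, fun h => hc1 ?_⟩
  have h2 := (hlam a).symm.trans (Module.End.mem_eigenspace_iff.1 hv)
  rw [h] at h2
  by_contra hne
  exact sub_ne_zero.2 hne ((smul_eq_zero.1 (by rw [sub_smul, ← h2, one_smul, sub_self] :
    (c - 1) • v = 0)).resolve_right hv0)

end

/-- Combinatorial core: weights on which a `p`-group acts compatibly with a power map. -/
theorem core (p q n : ℕ) [Fact p.Prime] {E : Type*} [Field E] (hE : (p : E) ≠ 0)
    {P : Type*} [Group P] [Finite P] (hP : IsPGroup p P) (A : Subgroup P) [A.Normal]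
    (hAc : ∀ g : P, (∀ a ∈ A, g * a = a * g) → g ∈ A)
    (W : Set (A → E)) (hWfin : W.Finite) (hWn : Nat.card W ≤ n)
    (hq : ¬ p ∣ q) (hpow : ∀ w ∈ W, (fun a => w a ^ q) ∈ W)
    (hconj : ∀ g : P, ∀ w ∈ W, (fun a : A =>
      w ⟨g⁻¹ * a * g, by simpa using (inferInstance : A.Normal).conj_mem a a.2 g⁻¹⟩) ∈ W)
    (hord : ∀ w ∈ W, ∀ a, ∃ k, w a ^ p ^ k = 1)
    (hmul : ∀ w ∈ W, ∀ a b, w (a * b) = w a * w b) (h1 : ∀ w ∈ W, w 1 = 1)
    (hsep : ∀ a : A, a ≠ 1 → ∃ w ∈ W, w a ≠ 1)
    (e : ℕ) (he : e = orderOf (q : ZMod p)) :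
    derivedSeries P (Nat.log 2 (n / e)) ≤ A := by
  classical
  let W₀ : Set (A → E) := {w | w ∈ W ∧ ∃ a, w a ≠ 1}
  haveI : Finite W₀ := (hWfin.subset fun w hw => hw.1).to_subtype
  haveI : Finite W := hWfin.to_subtype
  have hW₀n : Nat.card W₀ ≤ n :=
    (Nat.card_mono hWfin fun w hw => hw.1).trans hWn
  let cj : P → A → A := fun g a =>
    ⟨g⁻¹ * a * g, by simpa using (inferInstance : A.Normal).conj_mem a a.2 g⁻¹⟩
  -- nontrivial values survive coprime powers
  have hsurv : ∀ w ∈ W, ∀ a, w a ^ q = 1 → w a = 1 := by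
    intro w hw a h
    obtain ⟨k, hk⟩ := hord w hw a
    have := pow_gcd_eq_one.2 ⟨h, hk⟩
    rwa [((Nat.Coprime.pow_right k) (((Fact.out : p.Prime).coprime_iff_not_dvd.2 hq).symm)),
      pow_one] at this
  have hF : ∀ w : W₀, (fun a => (w.1 a) ^ q) ∈ W₀ := fun w =>
    ⟨hpow _ w.2.1, let ⟨a, ha⟩ := w.2.2; ⟨a, fun h => ha (hsurv _ w.2.1 a h)⟩⟩
  let fr : W₀ → W₀ := fun w => ⟨_, hF w⟩
  have hfrinj : Function.Injective fr := by
    intro w w' h
    apply Subtype.ext
    funext a
    have h' : w.1 a ^ q = w'.1 a ^ q := congrFun (congrArg Subtype.val h) a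
    obtain ⟨k, hk⟩ := hord _ w.2.1 a
    obtain ⟨k', hk'⟩ := hord _ w'.2.1 a
    have hw'0 : w'.1 a ≠ 0 := fun h0 => by
      rw [h0, zero_pow (pow_ne_zero _ (Fact.out : p.Prime).ne_zero)] at hk'
      exact zero_ne_one hk'
    have hx1 : (w.1 a / w'.1 a) ^ q = 1 := by
      rw [div_pow, h', div_self (pow_ne_zero _ hw'0)]
    have hx2 : (w.1 a / w'.1 a) ^ p ^ (k + k') = 1 := by
      rw [div_pow, pow_add, pow_mul, hk, one_pow, mul_comm, pow_mul, hk', one_pow, div_one]
    have := pow_gcd_eq_one.2 ⟨hx1, hx2⟩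
    rw [((Nat.Coprime.pow_right (k + k')) (((Fact.out : p.Prime).coprime_iff_not_dvd.2 hq).symm)),
      pow_one, div_eq_one_iff_eq hw'0] at this
    exact this
  let σ : Equiv.Perm W₀ := Equiv.ofBijective fr (Finite.injective_iff_bijective.1 hfrinj)
  obtain ⟨k, m, hm, hσo⟩ := Nat.exists_eq_pow_mul_and_not_dvd
    (orderOf_pos σ).ne' p (Fact.out : p.Prime).ne_one
  let τ : Equiv.Perm W₀ := σ ^ p ^ k
  have hτm : τ ^ m = 1 := by rw [← pow_mul, ← hσo, pow_orderOf_eq_one]
  have hσval : ∀ i : ℕ, ∀ w : W₀, ((σ ^ i) w).1 = fun a => w.1 a ^ q ^ i := by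
    intro i
    induction i with
    | zero => intro w; simp
    | succ i ih =>
      intro w
      rw [pow_succ', Equiv.Perm.mul_apply]
      funext a
      show ((σ ^ i) w).1 a ^ q = _
      rw [ih, ← pow_mul, pow_succ]
  -- the action of `P`
  have hG : ∀ (g : P) (w : W₀), (fun a => w.1 (cj g a)) ∈ W₀ := by
    intro g w
    refine ⟨hconj g _ w.2.1, ?_⟩
    obtain ⟨a, ha⟩ := w.2.2
    refine ⟨cj g⁻¹ a, ?_⟩
    have : cj g (cj g⁻¹ a) = a := Subtype.ext (by simp [cj, mul_assoc])
    simpa [this] using ha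
  letI act : MulAction P W₀ :=
    { smul := fun g w => ⟨_, hG g w⟩
      one_smul := fun w => Subtype.ext (funext fun a => congrArg w.1 (Subtype.ext (by simp [cj])))
      mul_smul := fun g h w => Subtype.ext (funext fun a =>
        congrArg w.1 (Subtype.ext (by simp [cj, mul_assoc]))) }
  have hcommσ : ∀ (i : ℕ) (g : P) (w : W₀), g • (σ ^ i) w = (σ ^ i) (g • w) := by
    intro i g w
    apply Subtype.ext
    rw [hσval]
    show (fun a => ((σ ^ i) w).1 (cj g a)) = _
    rw [hσval]
    rfl
  have hcommτ : ∀ (i : ℕ) (g : P) (w : W₀), g • (τ ^ i) w = (τ ^ i) (g • w) := by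
    intro i g w
    simp only [τ, ← pow_mul, hcommσ]
  let S : Setoid W₀ := MulAction.orbitRel (Subgroup.zpowers τ) W₀
  have hS : ∀ w w' : W₀, S.r w w' ↔ ∃ i : ℕ, (τ ^ i) w' = w := by
    intro w w'
    rw [MulAction.orbitRel_apply, MulAction.mem_orbit_iff]
    constructor
    · rintro ⟨⟨t, ht⟩, rfl⟩
      obtain ⟨i, rfl⟩ := (mem_powers_iff_mem_zpowers.2 ht)
      exact ⟨i, rfl⟩
    · rintro ⟨i, rfl⟩
      exact ⟨⟨τ ^ i, Subgroup.npow_mem_zpowers τ i⟩, rfl⟩
  letI actQ : MulAction P (Quotient S) :=
    { smul := fun g => Quotient.map (g • ·) fun w w' h => by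
        obtain ⟨i, hi⟩ := (hS w w').1 h
        exact (hS _ _).2 ⟨i, by rw [← hcommτ, hi]⟩
      one_smul := fun x => Quotient.inductionOn x fun w => by
        show Quotient.mk S ((1 : P) • w) = Quotient.mk S w
        rw [one_smul]
      mul_smul := fun g h x => Quotient.inductionOn x fun w => by
        show Quotient.mk S ((g * h) • w) = Quotient.mk S (g • h • w)
        rw [mul_smul] }
  -- every class has at least `e` elements
  have hclass : Nat.card (Quotient S) * e ≤ Nat.card W₀ := by
    let f : Quotient S × Fin e → W₀ := fun x => (τ ^ (x.2 : ℕ)) x.1.out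
    have hf : Function.Injective f := by
      rintro ⟨x, i⟩ ⟨y, j⟩ h
      have hxy : x = y := by
        rw [← Quotient.out_eq x, ← Quotient.out_eq y]
        have hx : Quotient.mk S ((τ ^ (i : ℕ)) x.out) = Quotient.mk S x.out :=
          Quotient.sound ((hS _ _).2 ⟨i, rfl⟩)
        have hy : Quotient.mk S ((τ ^ (j : ℕ)) y.out) = Quotient.mk S y.out :=
          Quotient.sound ((hS _ _).2 ⟨j, rfl⟩)
        rw [← hx, ← hy]
        exact congrArg _ h
      subst hxy
      obtain ⟨a, ha⟩ := x.out.2.2
      have h' : x.out.1 a ^ q ^ (p ^ k * i) = x.out.1 a ^ q ^ (p ^ k * j) := by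
        have := congrFun (congrArg Subtype.val h) a
        simpa [f, τ, ← pow_mul, hσval] using this
      have hne : x.out.1 a ≠ 0 := fun h0 => by
        obtain ⟨l, hl⟩ := hord _ x.out.2.1 a
        rw [h0, zero_pow (pow_ne_zero _ (Fact.out : p.Prime).ne_zero)] at hl
        exact zero_ne_one hl
      have hdvd : p ∣ orderOf (x.out.1 a) := by
        obtain ⟨l, hl⟩ := hord _ x.out.2.1 a
        obtain ⟨l', hl', hl''⟩ := (Nat.dvd_prime_pow (Fact.out : p.Prime)).1
          (orderOf_dvd_of_pow_eq_one hl)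
        rw [hl'']
        refine dvd_pow_self p ?_
        rintro rfl
        exact ha (orderOf_eq_one_iff.1 (by simpa using hl''))
      have hmod : q ^ (p ^ k * i) ≡ q ^ (p ^ k * j) [MOD orderOf (x.out.1 a)] := by
        have h2 : (Units.mk0 _ hne) ^ q ^ (p ^ k * i) = (Units.mk0 _ hne) ^ q ^ (p ^ k * j) :=
          Units.ext (by simpa using h')
        have h3 := pow_eq_pow_iff_modEq.1 h2
        rwa [← orderOf_units, Units.val_mk0] at h3
      have hmod' : ((q : ZMod p)) ^ (p ^ k * i) = (q : ZMod p) ^ (p ^ k * j) := by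
        exact_mod_cast (ZMod.natCast_eq_natCast_iff _ _ _).2 (hmod.of_dvd hdvd)
      have hq0 : (q : ZMod p) ≠ 0 := fun h0 => hq ((ZMod.natCast_eq_zero_iff _ _).1 h0)
      have hmod'' : p ^ k * i ≡ p ^ k * j [MOD e] := by
        have h2 : (Units.mk0 _ hq0) ^ (p ^ k * (i : ℕ)) = (Units.mk0 _ hq0) ^ (p ^ k * (j : ℕ)) :=
          Units.ext (by simpa using hmod')
        have h3 := pow_eq_pow_iff_modEq.1 h2
        rwa [← orderOf_units, Units.val_mk0, ← he] at h3
      have hcop : e.Coprime (p ^ k) := by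
        apply Nat.Coprime.pow_right
        rw [Nat.coprime_comm, (Fact.out : p.Prime).coprime_iff_not_dvd]
        intro hpe
        have h3 : e ∣ p - 1 := he ▸ ZMod.orderOf_dvd_card_sub_one hq0
        have h4 := Nat.le_of_dvd (by have := (Fact.out : p.Prime).two_le; omega) (hpe.trans h3)
        have := (Fact.out : p.Prime).pos
        omega
      have hij := Nat.ModEq.cancel_left_of_coprime hcop hmod''
      exact Prod.ext rfl (Fin.ext (Nat.ModEq.eq_of_lt_of_lt hij i.2 j.2))
    simpa [Nat.card_prod] using Nat.card_le_card_of_injective f hf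
  have he0 : 0 < e := by
    rw [he]
    have hq0 : (q : ZMod p) ≠ 0 := fun h0 => hq ((ZMod.natCast_eq_zero_iff _ _).1 h0)
    rw [← Units.val_mk0 hq0, orderOf_units]
    exact orderOf_pos _
  have hQn : Nat.card (Quotient S) ≤ n / e :=
    (Nat.le_div_iff_mul_le he0).2 (hclass.trans hW₀n)
  -- every class is fixed by the derived subgroup in question
  intro g hg
  apply hAc
  intro a ha
  by_contra hne
  let a' : A := ⟨a, ha⟩
  have hb : cj g a' * a'⁻¹ ≠ 1 := by
    intro h
    rw [mul_inv_eq_one] at h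
    apply hne
    have h2 : g⁻¹ * a * g = a := congrArg Subtype.val h
    calc g * a = g * (g⁻¹ * a * g) := by rw [h2]
      _ = a * g := by group
  obtain ⟨w, hw, hwb⟩ := hsep _ hb
  let w₀ : W₀ := ⟨w, hw, _, hwb⟩
  obtain ⟨j, hj⟩ := hP.index (MulAction.stabilizer P (Quotient.mk S w₀))
  have hidx : p ^ j ≤ n / e := by
    rw [← hj, MulAction.index_stabilizer]
    exact le_trans (Set.ncard_le_card _) hQn
  have hjlog : j ≤ Nat.log 2 (n / e) :=
    Nat.le_log_of_pow_le (by norm_num)
      (le_trans (Nat.pow_le_pow_left (Fact.out : p.Prime).two_le j) hidx)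
  have hfix := derived_le_of_index_le p j hP _ hj.le (derivedSeries_antitone P hjlog hg)
  obtain ⟨i, hi'⟩ := (hS _ _).1 (Quotient.exact (MulAction.mem_stabilizer_iff.1 hfix))
  have hi : (τ ^ i) w₀ = g • w₀ := hi'
  -- a `p`-element permuting a class of `p'`-size fixes it pointwise
  have hpowg : ∀ l : ℕ, (g ^ l) • w₀ = (τ ^ (i * l)) w₀ := by
    intro l
    induction l with
    | zero => simp
    | succ l ih =>
      rw [pow_succ, mul_smul, ← hi, hcommτ, ih, ← Equiv.Perm.mul_apply, ← pow_add]
      congr 2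
      ring
  obtain ⟨l, hl⟩ := hP g
  have h2 : (τ ^ (i * p ^ l)) w₀ = w₀ := by rw [← hpowg, hl, one_smul]
  have h3 : τ ^ i ∈ MulAction.stabilizer (Equiv.Perm W₀) w₀ := by
    have hc : Nat.Coprime (p ^ l) m :=
      Nat.Coprime.pow_left l ((Fact.out : p.Prime).coprime_iff_not_dvd.2 hm)
    obtain ⟨x, hx⟩ : ∃ x, (τ ^ i) = ((τ ^ i) ^ p ^ l) ^ x := by
      obtain ⟨x, hx⟩ := exists_pow_eq_self_of_coprime (x := τ ^ i) (n := p ^ l)
        (hc.coprime_dvd_right (orderOf_dvd_of_pow_eq_one
          (by rw [← pow_mul, mul_comm, pow_mul, hτm, one_pow])))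
      exact ⟨x, hx.symm⟩
    rw [hx, ← pow_mul τ]
    exact pow_mem h2 x
  have h4 : g • w₀ = w₀ := hi.symm.trans h3
  apply hwb
  have h5 : w (cj g a') = w a' := congrFun (congrArg Subtype.val h4) a'
  rw [hmul w hw, h5, ← hmul w hw, mul_inv_cancel, h1 w hw]

theorem result {F : Type*} [Field F] [Fintype F] (q : ℕ) (hF : Fintype.card F = q) (p : ℕ) [Fact p.Prime] (hpq : ¬ p ∣ q) (n e : ℕ) (he : e = orderOf (q : ZMod p)) (hen : e ≤ n) (P : Subgroup (GL (Fin n) F)) (hP : IsPGroup p P) : derivedSeries ↥P (Nat.log 2 (n / e) + 1) = ⊥ := by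
  classical
  haveI : Finite P := inferInstance
  obtain ⟨A, hAn, hAcomm, hAc⟩ := exists_selfcentralizing p hP
  let E := AlgebraicClosure F
  let ψ : P →* Module.End E (Fin n → E) :=
    ((Matrix.toLinAlgEquiv' : Matrix (Fin n) (Fin n) E ≃ₐ[E] _).toAlgHom.toRingHom.toMonoidHom.comp
      ((algebraMap F E).mapMatrix.toMonoidHom.comp ((Units.coeHom _).comp P.subtype)))
  have hψinj : Function.Injective ψ := by
    intro x y h
    have h1 : ((x : GL (Fin n) F) : Matrix (Fin n) (Fin n) F).map (algebraMap F E) =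
        ((y : GL (Fin n) F) : Matrix (Fin n) (Fin n) F).map (algebraMap F E) :=
      Matrix.toLinAlgEquiv'.injective h
    exact Subtype.ext (Units.ext (Matrix.map_injective (algebraMap F E).injective h1))
  letI : CommGroup A :=
    { (inferInstance : Group A) with mul_comm := fun a b => Subtype.ext (hAcomm a a.2 b b.2) }
  let φ : A →* Module.End E (Fin n → E) := ψ.comp A.subtype
  obtain ⟨hfin, hcard⟩ := weights_finite φ
  have hpE : (p : E) ≠ 0 := by
    intro h
    obtain ⟨ℓ, hℓ⟩ := CharP.exists F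
    haveI := hℓ
    obtain ⟨f, hℓp, hqf⟩ := FiniteField.card F ℓ
    haveI : CharP E ℓ := charP_of_injective_algebraMap (algebraMap F E).injective ℓ
    have h2 := (CharP.cast_eq_zero_iff E ℓ p).1 h
    have h3 := (Nat.prime_dvd_prime_iff_eq hℓp (Fact.out : p.Prime)).1 h2
    apply hpq
    rw [← hF, hqf, h3]
    exact dvd_pow_self p f.ne_zero
  obtain ⟨s, hs⟩ := IsPGroup.iff_card.1 (hP.to_subgroup A)
  have hle := core p q n hpE hP A hAc {lam | IsWeight φ lam} hfin hcard hpq
    ?_ ?_ ?_ (fun w hw => weight_mul φ hw) (fun w hw => weight_one φ hw) ?_ e he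
  · rw [eq_bot_iff, derivedSeries_succ, Subgroup.commutator_le]
    intro x hx y hy
    rw [Subgroup.mem_bot, commutatorElement_eq_one_iff_mul_comm]
    exact hAcomm x (hle hx) y (hle hy)
  · -- Galois conjugate weights
    rintro w ⟨v, hv0, hv⟩
    let fr : E →ₐ[F] E := FiniteField.frobeniusAlgHom F E
    have hfr : ∀ x : E, fr x = x ^ q := fun x => by
      rw [← hF]; rfl
    refine ⟨fun i => fr (v i), fun h => hv0 (funext fun i => fr.toRingHom.injective
      (by simpa using congrFun h i)), fun a => funext fun i => ?_⟩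
    have h1 := congrArg fr (congrFun (hv a) i)
    simp only [φ, ψ] at h1 ⊢
    simp only [MonoidHom.coe_comp, Function.comp_apply] at h1 ⊢
    change fr (((((a : P) : GL (Fin n) F) : Matrix (Fin n) (Fin n) F).map (algebraMap F E)).mulVec v i)
      = fr ((w a • v) i) at h1
    show ((((a : P) : GL (Fin n) F) : Matrix (Fin n) (Fin n) F).map (algebraMap F E)).mulVec
      (fun i => fr (v i)) i = _
    simp only [Matrix.mulVec, dotProduct, Matrix.map_apply, map_sum, map_mul, AlgHom.commutes,
      Pi.smul_apply, smul_eq_mul] at h1 ⊢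
    rw [h1, hfr (w a)]
  · -- conjugate weights
    rintro g w ⟨v, hv0, hv⟩
    refine ⟨ψ g v, fun h => hv0 ?_, fun a => ?_⟩
    · have h2 := congrArg (ψ g⁻¹) h
      rwa [← Module.End.mul_apply, ← map_mul, inv_mul_cancel, map_one, Module.End.one_apply,
        map_zero] at h2
    · have h2 := hv ⟨g⁻¹ * a * g, by simpa using hAn.conj_mem a a.2 g⁻¹⟩
      have h3 := congrArg (ψ g) h2
      simp only [φ, MonoidHom.coe_comp, Function.comp_apply, Subgroup.coe_subtype, map_smul] at h3 ⊢
      rw [← Module.End.mul_apply, ← map_mul] at h3 ⊢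
      rw [← h3]
      congr 2
      group
  · -- values are roots of unity of `p`-power order
    intro w hw a
    exact ⟨s, by rw [← weight_pow φ hw, ← hs, pow_card_eq_one', weight_one φ hw]⟩
  · intro a ha
    exact weights_separate (by rw [hs, Nat.cast_pow]; exact pow_ne_zero _ hpE) φ
      (hψinj.comp A.subtype_injective) a ha

end Cfsg.Agent.S4417
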