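import Cfsg.Statements.S4420
-- import your own Cfsg.Agent.* helpers here

set_option autoImplicit false
open Cfsg

namespace Cfsg.Agent.S4420

/-- Structure of groups in which every element outside some proper subgroup has square 1. Let H be a finite group with a proper subgroup A such that every element outside A has square 1. Then H has an abelian normal subgroup B of index 2 such that every element outside B is an involution inverting every element of B; and if H is not an elementary abelian 2-group, B is the only abelian normal subgroup of index 2 with this property. -/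
theorem result {H : Type*} [Group H] [Finite H] (A : Subgroup H) (hA : A ≠ ⊤) (hD : ∀ x : H, x ∉ A → x ^ 2 = 1) :
    ∃ B : Subgroup H, B.Normal ∧ IsMulCommutative ↥B ∧ B.index = 2 ∧
      (∀ x : H, x ∉ B → x ^ 2 = 1 ∧ ∀ b ∈ B, x * b * x⁻¹ = b⁻¹) ∧
      (¬ (IsMulCommutative H ∧ ∀ x : H, x ^ 2 = 1) →
        ∀ B' : Subgroup H, B'.Normal → IsMulCommutative ↥B' → B'.index = 2 →
          (∀ x : H, x ∉ B' → x ^ 2 = 1 ∧ ∀ b ∈ B', x * b * x⁻¹ = b⁻¹) → B' = B) := by
  have hsq' : ∀ c : H, c ^ 2 = 1 → c⁻¹ = c := fun c h => by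
    rw [pow_two] at h
    exact inv_eq_of_mul_eq_one_right h
  -- every element outside `A` is an involution inverting `A`
  have inv : ∀ x : H, x ∉ A → ∀ a ∈ A, x * a * x⁻¹ = a⁻¹ := by
    intro x hx a ha
    have hxa : x * a ∉ A := fun h => hx ((Subgroup.mul_mem_cancel_right A ha).1 h)
    have h1 := hsq' _ (hD _ hxa)
    have hx2 := hsq' _ (hD _ hx)
    rw [mul_inv_rev, hx2] at h1
    rw [hx2, ← h1]
    have : x * x = 1 := by rw [← pow_two]; exact hD _ hx
    rw [mul_assoc, this, mul_one]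
  obtain ⟨x₀, hx₀⟩ : ∃ x : H, x ∉ A := by
    by_contra h
    push Not at h
    exact hA (eq_top_iff.2 fun x _ => h x)
  have comm : ∀ a ∈ A, ∀ b ∈ A, a * b = b * a := by
    intro a ha b hb
    have h1 := inv x₀ hx₀ (a * b) (mul_mem ha hb)
    have h2 : x₀ * (a * b) * x₀⁻¹ = (x₀ * a * x₀⁻¹) * (x₀ * b * x₀⁻¹) := by group
    rw [h2, inv x₀ hx₀ a ha, inv x₀ hx₀ b hb, ← mul_inv_rev, inv_inj] at h1
    exact h1.symm
  have uniq : ∀ B B' : Subgroup H, IsMulCommutative ↥B → B.index = 2 → B'.index = 2 →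
      (∀ x : H, x ∉ B → x ^ 2 = 1 ∧ ∀ b ∈ B, x * b * x⁻¹ = b⁻¹) →
      (∀ x : H, x ∉ B' → x ^ 2 = 1 ∧ ∀ b ∈ B', x * b * x⁻¹ = b⁻¹) →
      ¬ (IsMulCommutative H ∧ ∀ x : H, x ^ 2 = 1) → B' = B := by
    intro B B' hBc hB2 hB'2 hB hB' hne
    by_contra hBB
    apply hne
    have hsq : ∀ x : H, x ^ 2 = 1 := by
      intro x
      by_cases hx : x ∈ B
      · by_cases hx' : x ∈ B'
        · obtain ⟨z, hz, hz'⟩ : ∃ z, z ∈ B ∧ z ∉ B' := by
            by_contra h
            push Not at h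
            have hle : B ≤ B' := fun z hz => h z hz
            apply hBB
            refine le_antisymm (Subgroup.relIndex_eq_one.1 ?_) hle
            have := Subgroup.relIndex_mul_index hle
            rw [hB2, hB'2] at this
            omega
          have h1 := (hB' z hz').2 x hx'
          have hc : z * x = x * z :=
            congrArg Subtype.val (hBc.is_comm.comm (⟨z, hz⟩ : B) ⟨x, hx⟩)
          rw [hc, mul_inv_cancel_right] at h1
          rw [pow_two]
          exact mul_eq_one_iff_eq_inv.2 h1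
        · exact (hB' x hx').1
      · exact (hB x hx).1
    exact ⟨⟨⟨fun a b => by
      rw [← hsq' _ (hsq (a * b)), mul_inv_rev, hsq' _ (hsq a), hsq' _ (hsq b)]⟩⟩, hsq⟩
  by_cases h2 : A.index = 2
  · have hAc : IsMulCommutative ↥A := ⟨⟨fun a b => Subtype.ext (comm a a.2 b b.2)⟩⟩
    have hAp : ∀ x : H, x ∉ A → x ^ 2 = 1 ∧ ∀ b ∈ A, x * b * x⁻¹ = b⁻¹ :=
      fun x hx => ⟨hD x hx, inv x hx⟩
    exact ⟨A, Subgroup.normal_of_index_eq_two h2, hAc, h2, hAp,
      fun hne B' _ _ hB'2 hB' => uniq A B' hAc h2 hB'2 hAp hB' hne⟩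
  · -- two nontrivial cosets force exponent two
    obtain ⟨y, hy, hxy⟩ : ∃ y, y ∉ A ∧ x₀ * y ∉ A := by
      by_contra h
      push Not at h
      apply h2
      rw [Subgroup.index_eq_two_iff]
      refine ⟨x₀, fun b => ?_⟩
      by_cases hb : b ∈ A
      · exact Or.inr ⟨hb, fun hc => hx₀ ((Subgroup.mul_mem_cancel_left A hb).1 hc)⟩
      · refine Or.inl ⟨?_, hb⟩
        have hbi : b * x₀ = (x₀ * b)⁻¹ := by
          rw [mul_inv_rev, hsq' _ (hD b hb), hsq' _ (hD x₀ hx₀)]
        rw [hbi]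
        exact inv_mem (h b hb)
    have hsq : ∀ x : H, x ^ 2 = 1 := by
      intro a
      by_cases ha : a ∈ A
      · have h3 := inv _ hxy a ha
        have h4 : x₀ * y * a * (x₀ * y)⁻¹ = x₀ * (y * a * y⁻¹) * x₀⁻¹ := by group
        rw [h4, inv y hy a ha, inv x₀ hx₀ _ (inv_mem ha), inv_inv] at h3
        rw [pow_two]
        exact mul_eq_one_iff_eq_inv.2 h3
      · exact hD a ha
    have hcomm : IsMulCommutative H := ⟨⟨fun a b => by
      rw [← hsq' _ (hsq (a * b)), mul_inv_rev, hsq' _ (hsq a), hsq' _ (hsq b)]⟩⟩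
    obtain ⟨B, hB⟩ : ∃ B : Subgroup H, B.index = 2 := by
      have hdiv : 2 ∣ Nat.card H := by
        have : orderOf x₀ = 2 := orderOf_eq_prime (hsq x₀) (fun h => hx₀ (h ▸ one_mem A))
        rw [← this]
        exact orderOf_dvd_natCard x₀
      haveI : Fact (Nat.Prime 2) := ⟨Nat.prime_two⟩
      obtain ⟨n, hn⟩ := IsPGroup.iff_card.1
        (show IsPGroup 2 H from fun g => ⟨1, by rw [pow_one]; exact hsq g⟩)
      have hn0 : n ≠ 0 := by
        rintro rfl
        rw [hn] at hdiv
        norm_num at hdiv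
      obtain ⟨B, hB⟩ := Sylow.exists_subgroup_card_pow_prime 2 (n := n - 1)
        (by rw [hn]; exact pow_dvd_pow 2 (Nat.sub_le n 1))
      refine ⟨B, ?_⟩
      have := B.card_mul_index
      rw [hB, hn] at this
      have e : 2 ^ n = 2 ^ (n - 1) * 2 := by rw [← pow_succ, Nat.sub_add_cancel (by omega)]
      rw [e] at this
      exact Nat.eq_of_mul_eq_mul_left (Nat.two_pow_pos _) this
    exact ⟨B, Subgroup.normal_of_index_eq_two hB,
      ⟨⟨fun a b => Subtype.ext (hcomm.is_comm.comm _ _)⟩⟩, hB,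
      fun x _ => ⟨hsq x, fun b _ => by
        rw [hcomm.is_comm.comm x b, mul_inv_cancel_right, hsq' _ (hsq b)]⟩,
      fun hne => absurd ⟨hcomm, hsq⟩ hne⟩

end Cfsg.Agent.S4420
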