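import Cfsg.Statements.S4466
import Cfsg.Agent.S4441
import Cfsg.Agent.Blocks.Orth.Blocks
import Cfsg.Agent.Chars.Basic
import Cfsg.Agent.Chars.Basic.Restrict
import Cfsg.Agent.Chars.Apps.RootSums
import Cfsg.Agent.Chars.Induced.Clifford

set_option autoImplicit false
open Cfsg

namespace Cfsg.Agent.S4466

open CfsgLib.Chars CfsgLib.Chars.Induced
open scoped commutatorElement

/-- In a simple group, a prime degree is the order of the Sylow subgroup. -/
theorem card_sylow_eq {G : Type*} [Group G] [Finite G] [IsSimpleGroup G]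
    (hab : ∃ a b : G, a * b ≠ b * a) (χ : IrrCharacter G) {r : ℕ} [hr : Fact r.Prime]
    (hd : charDegree (χ : G → ℂ) = r) (P : Sylow r G) : Nat.card (P : Subgroup G) = r := by
  classical
  haveI := Fintype.ofFinite G
  have hcenter : Subgroup.center G = ⊥ := by
    rcases IsSimpleGroup.eq_bot_or_eq_top_of_normal (Subgroup.center G) inferInstance with h | h
    · exact h
    · obtain ⟨a, b, hne⟩ := hab
      exact absurd (Subgroup.mem_center_iff.1 (h ▸ Subgroup.mem_top a : a ∈ Subgroup.center G) b).symm hne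
  obtain ⟨n, ρ, hρ, hχ⟩ := χ.2
  have hr1 : (χ : G → ℂ) 1 = r := by rw [← coe_charDegree, hd]
  have hn : n = r := by
    have h := hr1
    rw [← hχ, Representation.char_one] at h
    simpa using h
  have hinj : ∀ g, ρ g = 1 → g = 1 := by
    intro g hg
    rcases IsSimpleGroup.eq_bot_or_eq_top_of_normal ρ.ker inferInstance with h | h
    · exact Subgroup.mem_bot.1 (h ▸ (MonoidHom.mem_ker.2 hg))
    · exfalso
      obtain ⟨a, b, hne⟩ := hab
      have hall : ∀ x : G, (χ : G → ℂ) x = (χ : G → ℂ) 1 := fun x => by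
        have hx : ρ x = 1 := MonoidHom.mem_ker.1 (h ▸ Subgroup.mem_top x)
        rw [← hχ]; simp only [Representation.character, hx, map_one]
      have h1 := classInner_irr_self χ
      simp only [classInner, hall, hr1, map_natCast, Finset.sum_const, nsmul_eq_mul,
        Finset.card_univ, ← Nat.card_eq_fintype_card] at h1
      rw [← mul_assoc, inv_mul_cancel₀ (natCard_ne_zero (G := G)), one_mul] at h1
      have : r * r = 1 := by exact_mod_cast h1
      exact hr.out.ne_one (Nat.eq_one_of_mul_eq_one_right this)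
  have hcenZ : ∀ x : G, x ∈ (P : Subgroup G) → (∀ y ∈ (P : Subgroup G), y * x = x * y) → x ≠ 1 →
      (χ : G → ℂ) x = 0 := by
    intro x hx hxc hx1
    set m := (Subgroup.centralizer ({x} : Set G)).index with hm
    have hPC : (P : Subgroup G) ≤ Subgroup.centralizer ({x} : Set G) :=
      fun y hy => Subgroup.mem_centralizer_singleton_iff.2 (by rw [hxc y hy])
    have hcop : m.Coprime r := (Nat.coprime_comm.1 ((Nat.Prime.coprime_iff_not_dvd hr.out).2
      fun h => P.not_dvd_index (h.trans (Subgroup.index_dvd_of_le hPC))))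
    have hint : IsIntegral ℤ ((χ : G → ℂ) x / (r : ℂ)) := by
      refine CfsgLib.Chars.Apps.isIntegral_div_of_coprime (isIntegral_apply (isCharacter_coe χ) x)
        hcop ?_
      have h := isIntegral_centralChar χ x
      rw [centralChar, hr1] at h
      exact h
    subst hn
    rcases CfsgLib.Chars.Apps.char_eq_zero_or_norm_eq ρ x (by rw [hχ]; exact hint) with h | h
    · rwa [hχ] at h
    · obtain ⟨c, hc⟩ := CfsgLib.Chars.Apps.exists_smul_of_norm_char_eq ρ x h
      refine absurd ?_ hx1
      have : x ∈ Subgroup.center G := by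
        refine Subgroup.mem_center_iff.2 fun g => ?_
        refine mul_inv_eq_one.1 (hinj _ ?_)
        have e : ρ g * ρ x = ρ x * ρ g := by rw [hc]; simp
        rw [map_mul, map_mul, e, ← map_mul, ← map_mul, mul_inv_cancel, map_one]
      rw [hcenter] at this
      exact Subgroup.mem_bot.1 this
  have hdvd : r ∣ Nat.card G := hd ▸ charDegree_dvd_card χ
  haveI : Nontrivial (P : Subgroup G) :=
    (Subgroup.nontrivial_iff_ne_bot _).2 (P.ne_bot_of_dvd_card hdvd)
  -- the centre of `P`
  let Z : Subgroup G := (Subgroup.center (P : Subgroup G)).map (P : Subgroup G).subtype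
  have hZ : ∀ z ∈ Z, z ∈ (P : Subgroup G) ∧ ∀ y ∈ (P : Subgroup G), y * z = z * y := by
    rintro z ⟨w, hw, rfl⟩
    exact ⟨w.2, fun y hy => congrArg Subtype.val (Subgroup.mem_center_iff.1 hw ⟨y, hy⟩)⟩
  have hZr : Nat.card Z = r := by
    haveI : Fintype Z := Fintype.ofFinite _
    obtain ⟨k, hk⟩ := exists_classInner_eq_natCast (isCharacter_restrict (isCharacter_coe χ) Z)
      (oneChar Z)
    have hsum : classInner (fun z : Z => (χ : G → ℂ) z) (oneChar Z : Z → ℂ) =
        (Nat.card Z : ℂ)⁻¹ * r := by
      simp only [classInner, oneChar_apply, map_one, mul_one]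
      congr 1
      rw [Finset.sum_eq_single (1 : Z) (fun z _ hz => hcenZ z (hZ z z.2).1 (hZ z z.2).2
        fun e => hz (Subtype.ext e)) (fun h => absurd (Finset.mem_univ _) h)]
      exact hr1
    rw [hsum, inv_mul_eq_iff_eq_mul₀ (Nat.cast_ne_zero.2 Nat.card_pos.ne')] at hk
    have hk' : r = Nat.card Z * k := by exact_mod_cast hk
    refine ((Nat.dvd_prime hr.out).1 ⟨k, hk'⟩).resolve_left fun h1 => ?_
    have hb : Z = ⊥ := Subgroup.card_eq_one.1 h1
    haveI := P.isPGroup'.center_nontrivial
    obtain ⟨w, hw⟩ := exists_ne (1 : Subgroup.center (P : Subgroup G))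
    refine hw (Subtype.ext (Subtype.ext ?_))
    have : ((w : (P : Subgroup G)) : G) ∈ Z := ⟨_, w.2, rfl⟩
    rw [hb] at this
    exact Subgroup.mem_bot.1 this
  -- the restriction to `P` has only linear constituents
  haveI : Fintype (P : Subgroup G) := Fintype.ofFinite _
  obtain ⟨c, -, hc, hdeg⟩ := CfsgLib.Chars.exists_restrict_coeff χ (P : Subgroup G)
  rw [hd] at hdeg
  obtain ⟨z, hz, hz1⟩ : ∃ z ∈ Z, z ≠ 1 := by
    by_contra hcon
    push Not at hcon
    have : Z = ⊥ := (Subgroup.eq_bot_iff_forall _).2 hcon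
    rw [this, Subgroup.card_bot] at hZr
    exact hr.out.ne_one hZr.symm
  have hlin : ∀ θ : IrrCharacter (P : Subgroup G), c θ ≠ 0 →
      (θ : ↥(P : Subgroup G) → ℂ) 1 = 1 := by
    intro θ hθ
    by_contra hne
    obtain ⟨j, -, hj⟩ := (Nat.dvd_prime_pow hr.out).1
      ((charDegree_dvd_card θ).trans (dvd_of_eq (IsPGroup.iff_card.1 P.isPGroup').choose_spec))
    have hle : c θ * charDegree (θ : ↥(P : Subgroup G) → ℂ) ≤ r :=
      (Finset.single_le_sum (f := fun η => c η * charDegree (η : ↥(P : Subgroup G) → ℂ))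
        (fun _ _ => Nat.zero_le _) (Finset.mem_univ θ)).trans_eq hdeg.symm
    have hj1 : j = 1 := by
      rcases j with _ | _ | j
      · exact absurd ((charDegree_eq_one_iff θ).1 (by rw [hj, pow_zero])) hne
      · rfl
      · exfalso
        have h1 : r ^ 2 ≤ r ^ (j + 2) := Nat.pow_le_pow_right hr.out.pos (by omega)
        have h2 : r < r ^ 2 := by nlinarith [hr.out.two_le]
        have h3 : r ^ (j + 2) ≤ c θ * r ^ (j + 2) := Nat.le_mul_of_pos_left _ (Nat.pos_of_ne_zero hθ)
        have h4 : c θ * r ^ (j + 2) ≤ r := by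
          refine le_trans (le_of_eq ?_) hle
          rw [hj]
        omega
    rw [hj1, pow_one] at hj
    have hcθ : c θ = 1 := by
      rw [hj] at hle
      have := Nat.le_of_mul_le_mul_right (hle.trans_eq (one_mul r).symm) hr.out.pos
      omega
    have hrest : ∀ η, η ≠ θ → c η = 0 := by
      intro η hη
      have h2 := Finset.add_le_sum (f := fun η => c η * charDegree (η : ↥(P : Subgroup G) → ℂ))
        (fun _ _ => Nat.zero_le _) (Finset.mem_univ η) (Finset.mem_univ θ) hη
      rw [← hdeg] at h2
      simp only [hcθ, hj, one_mul] at h2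
      have h3 : c η * charDegree (η : ↥(P : Subgroup G) → ℂ) = 0 := by omega
      exact (mul_eq_zero.1 h3).resolve_right (charDegree_pos η).ne'
    have hz0 := congrFun hc ⟨z, (hZ z hz).1⟩
    rw [Finset.sum_apply, Finset.sum_eq_single θ (fun η _ h => by simp [hrest η h])
      (fun h => absurd (Finset.mem_univ _) h), Pi.smul_apply, hcθ, Nat.cast_one, one_smul] at hz0
    simp only [hcenZ z (hZ z hz).1 (hZ z hz).2 hz1] at hz0
    have hnorm := norm_map_of_mem_center θ (z := ⟨z, (hZ z hz).1⟩)
      (Subgroup.mem_center_iff.2 fun y => Subtype.ext ((hZ z hz).2 y y.2))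
    rw [← hz0, norm_zero] at hnorm
    exact map_one_ne_zero θ (norm_eq_zero.1 hnorm.symm)
  have hPc : ∀ a ∈ (P : Subgroup G), ∀ b ∈ (P : Subgroup G), a * b = b * a := by
    intro a ha b hb
    refine commutatorElement_eq_one_iff_mul_comm.1 (hinj _ (rep_eq_one_of_character_eq ρ ?_))
    rw [hχ]
    have hmem : ⁅a, b⁆ ∈ (P : Subgroup G) :=
      mul_mem (mul_mem (mul_mem ha hb) (inv_mem ha)) (inv_mem hb)
    have h1 := congrFun hc ⟨⁅a, b⁆, hmem⟩
    have h2 := congrFun hc 1
    simp only [Finset.sum_apply, Pi.smul_apply, OneMemClass.coe_one] at h1 h2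
    rw [h1, h2]
    refine Finset.sum_congr rfl fun θ _ => ?_
    rcases eq_or_ne (c θ) 0 with h0 | h0
    · simp [h0]
    · obtain ⟨l, hl⟩ := exists_linChar_eq θ (hlin θ h0)
      congr 1
      rw [← hl, linChar_apply, linChar_apply, map_one]
      rw [show (⟨⁅a, b⁆, hmem⟩ : (P : Subgroup G)) = ⁅(⟨a, ha⟩ : (P : Subgroup G)), ⟨b, hb⟩⁆ from
        Subtype.ext rfl, map_commutatorElement, commutatorElement_eq_one_iff_commute.2 (Commute.all _ _)]
  have hZP : Z = (P : Subgroup G) := le_antisymm (fun z hz => (hZ z hz).1) fun y hy =>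
    ⟨⟨y, hy⟩, Subgroup.mem_center_iff.2 fun w => Subtype.ext (hPc w w.2 y hy), rfl⟩
  rwa [hZP] at hZr

/-- A Sylow subgroup centralised by its normaliser forbids simplicity. -/
theorem false_of_normalizer_le {G : Type*} [Group G] [Finite G] [IsSimpleGroup G]
    (hab : ∃ a b : G, a * b ≠ b * a) {r : ℕ} [hr : Fact r.Prime] (P : Sylow r G)
    (hd : r ∣ Nat.card G) (hP : Nat.card (P : Subgroup G) = r)
    (hN : Subgroup.normalizer ((P : Subgroup G) : Set G) ≤
      Subgroup.centralizer ((P : Subgroup G) : Set G)) : False := by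
  have hco := MonoidHom.ker_transferSylow_isComplement' P hN
  rcases IsSimpleGroup.eq_bot_or_eq_top_of_normal (MonoidHom.transferSylow P hN).ker inferInstance
    with h | h
  · rw [h] at hco
    have hPtop : (P : Subgroup G) = ⊤ := Subgroup.isComplement'_bot_left.1 hco
    rw [hPtop, Subgroup.card_top] at hP
    haveI := isCyclic_of_prime_card hP
    obtain ⟨a, b, hne⟩ := hab
    exact hne (IsMulCommutative.is_comm.comm a b)
  · rw [h] at hco
    exact P.ne_bot_of_dvd_card hd (Subgroup.isComplement'_top_left.1 hco)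

theorem false_of_isSimpleGroup {G : Type*} [Group G] [Finite G] [IsSimpleGroup G]
    (hab : ∃ a b : G, a * b ≠ b * a)
    (h : ∀ χ : IrrCharacter G, charDegree (χ : G → ℂ) ≠ 1 →
      (charDegree (χ : G → ℂ)).Prime) : False := by
  classical
  haveI := Fintype.ofFinite G
  have hperf : commutator G = ⊤ :=
    (IsSimpleGroup.eq_bot_or_eq_top_of_normal (commutator G) inferInstance).resolve_left fun e => by
      obtain ⟨a, b, hne⟩ := hab
      exact hne (commutatorElement_eq_one_iff_mul_comm.1 (Subgroup.mem_bot.1 (e ▸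
        Subgroup.commutator_mem_commutator (Subgroup.mem_top a) (Subgroup.mem_top b))))
  have hone : ∀ χ : IrrCharacter G, charDegree (χ : G → ℂ) = 1 → χ = oneChar G := by
    intro χ hχ
    obtain ⟨l, rfl⟩ := exists_linChar_eq χ ((charDegree_eq_one_iff χ).1 hχ)
    refine (linChar_eq_oneChar_iff l).2 ?_
    have hker : commutator G ≤ l.ker := Abelianization.commutator_subset_ker l
    rw [hperf] at hker
    exact MonoidHom.ext fun g => hker (Subgroup.mem_top g)
  -- some degree is not one
  obtain ⟨χ₀, hχ₀⟩ : ∃ χ : IrrCharacter G, charDegree (χ : G → ℂ) ≠ 1 := by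
    by_contra hcon
    push Not at hcon
    have h1 := sum_charDegree_sq (G := G)
    haveI : Subsingleton (IrrCharacter G) :=
      ⟨fun a b => (hone a (hcon a)).trans (hone b (hcon b)).symm⟩
    obtain ⟨a, b, hne⟩ := hab
    have : Nat.card G = 1 := by
      rw [← h1, Fintype.sum_subsingleton _ (oneChar G), hcon, one_pow]
    haveI := (Nat.card_eq_one_iff_unique.1 this).1
    exact hne (Subsingleton.elim _ _)
  -- no degree two
  have htwo : ∀ χ : IrrCharacter G, charDegree (χ : G → ℂ) ≠ 2 := by
    intro χ hχ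
    have hd : 2 ∣ Nat.card G := hχ ▸ charDegree_dvd_card χ
    have hmin : (Nat.card G).minFac = 2 := (Nat.minFac_eq_two_iff _).2 hd
    haveI := Fact.mk Nat.prime_two
    obtain ⟨P⟩ : Nonempty (Sylow 2 G) := inferInstance
    have hP := card_sylow_eq hab χ hχ P
    haveI : IsCyclic (P : Subgroup G) := isCyclic_of_prime_card hP
    exact false_of_normalizer_le hab P hd hP (IsCyclic.normalizer_le_centralizer hmin (P := P) inferInstance)
  obtain ⟨χ₁, hχ₁, hmax⟩ := Finset.exists_max_image
    (Finset.univ.filter fun χ : IrrCharacter G => charDegree (χ : G → ℂ) ≠ 1)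
    (fun χ => charDegree (χ : G → ℂ)) ⟨χ₀, by simp [hχ₀]⟩
  set p := charDegree (χ₁ : G → ℂ) with hp
  have hp' : p.Prime := h χ₁ (Finset.mem_filter.1 hχ₁).2
  haveI := Fact.mk hp'
  obtain ⟨P⟩ : Nonempty (Sylow p G) := inferInstance
  have hP := card_sylow_eq hab χ₁ rfl P
  have hd : p ∣ Nat.card G := charDegree_dvd_card χ₁
  obtain ⟨M, hM⟩ := CfsgLib.Blocks.exists_isPModular p hp'
  obtain ⟨X, Y, -, -, hX, -, εX, ε, hεX, -⟩ := Cfsg.Agent.S4441.result p M hM (htwo χ₁) P hP _ rfl
  have hsub : X ⊆ {oneChar G} := by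
    intro χ hχ
    obtain ⟨hs, hcong, -⟩ := hεX χ hχ
    by_contra hne
    have hd1 : charDegree (χ : G → ℂ) ≠ 1 := fun e => hne (hone χ e)
    have hq := h χ hd1
    have hle : charDegree (χ : G → ℂ) ≤ p := hmax χ (by simp [hd1])
    have hodd : Odd (charDegree (χ : G → ℂ)) := hq.odd_of_ne_two (htwo χ)
    have hoddp : Odd p := hp'.odd_of_ne_two (htwo χ₁)
    have h2 := Int.modEq_iff_dvd.1 hcong
    rcases hle.eq_or_lt with heq | hlt
    · rw [heq] at h2
      have h3 : (p : ℤ) ∣ εX χ := by
        have := dvd_add h2 (dvd_refl (p : ℤ))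
        simpa using this
      rcases hs with hs | hs <;> rw [hs] at h3
      · exact hp'.ne_one (by exact_mod_cast Int.eq_one_of_dvd_one (by positivity) h3)
      · exact hp'.ne_one (by exact_mod_cast Int.eq_one_of_dvd_one (by positivity) (dvd_neg.1 h3))
    · obtain ⟨a, ha⟩ := hodd
      obtain ⟨b, hb⟩ := hoddp
      have := hq.two_le
      rcases hs with hs | hs <;> rw [hs] at h2
      · obtain ⟨k, hk⟩ := h2
        have h4 : k = 0 := by
          by_contra hk0
          rcases lt_or_gt_of_ne hk0 with h5 | h5 <;> nlinarith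
        subst h4
        omega
      · obtain ⟨k, hk⟩ := h2
        have h4 : k = -1 := by
          by_contra hk0
          rcases lt_or_gt_of_ne hk0 with h5 | h5 <;> nlinarith
        subst h4
        omega
  have hcard : Nat.card X ≤ 1 := by
    have := Nat.card_mono (Set.finite_singleton (oneChar G)) hsub
    simpa using this
  rw [hX] at hcard
  have he : (Subgroup.centralizer ((P : Subgroup G) : Set G)).relIndex
      (Subgroup.normalizer ((P : Subgroup G) : Set G)) = 1 :=
    le_antisymm hcard (Nat.one_le_iff_ne_zero.2 Subgroup.index_ne_zero_of_finite)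
  exact false_of_normalizer_le hab P hd hP (Subgroup.relIndex_eq_one.1 he)


/-- If every irreducible character of the finite group G of degree greater than one has prime degree, then G is solvable. -/
theorem result {G : Type*} [Group G] [Finite G] (h : ∀ χ : Cfsg.IrrCharacter G, Cfsg.charDegree (χ : G → ℂ) ≠ 1 → (Cfsg.charDegree (χ : G → ℂ)).Prime) : Group.IsSolvable G := by
  induction hn : Nat.card G using Nat.strong_induction_on generalizing G with
  | _ n ih =>
  classical
  haveI := Fintype.ofFinite G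
  by_cases hex : ∃ N : Subgroup G, N.Normal ∧ N ≠ ⊥ ∧ N ≠ ⊤
  · obtain ⟨N, hN, hbot, htop⟩ := hex
    haveI := hN
    haveI : Fintype N := Fintype.ofFinite _
    have hNs : Group.IsSolvable N := by
      refine ih (Nat.card N) ?_ ?_ rfl
      · subst hn
        exact lt_of_le_of_ne (Subgroup.card_le_card_group N) fun e => htop (Subgroup.eq_top_of_card_eq N e)
      · intro θ hθ
        have hne : indFun N (θ : N → ℂ) ≠ 0 := fun e => by
          have h1 := congrFun e 1
          rw [Induced.indFun_one_apply] at h1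
          simp [CfsgLib.Chars.map_one_ne_zero, Subgroup.index_ne_zero_of_finite] at h1
        obtain ⟨χ, hχ⟩ := exists_mult_ne_zero (isCharacter_indFun N (isCharacter_coe θ)) hne
        rw [mult_indFun_irr] at hχ
        have h1 := clifford_one χ θ hχ
        rw [← coe_charDegree, ← coe_charDegree] at h1
        have h2 : charDegree (θ : N → ℂ) ∣ charDegree (χ : G → ℂ) := by
          refine ⟨mult (fun k : N => (χ : G → ℂ) k) θ * (inertia N (θ : N → ℂ)).index,
            Nat.cast_injective (R := ℂ) ?_⟩
          rw [h1]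
          push_cast
          ring
        have hχ1 : charDegree (χ : G → ℂ) ≠ 1 := fun e => hθ (Nat.dvd_one.1 (e ▸ h2))
        rw [((Nat.dvd_prime (h χ hχ1)).1 h2).resolve_left hθ]
        exact h χ hχ1
    have hQs : Group.IsSolvable (G ⧸ N) := by
      refine ih (Nat.card (G ⧸ N)) ?_ ?_ rfl
      · subst hn
        rw [Subgroup.card_eq_card_quotient_mul_card_subgroup N]
        exact lt_mul_of_one_lt_right Nat.card_pos (Subgroup.one_lt_card_iff_ne_bot _ |>.2 hbot)
      · intro θ hθ
        have h1 := h (inflate N θ) (by rw [charDegree_inflate]; exact hθ)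
        rwa [charDegree_inflate] at h1
    exact Group.isSolvable_of_ker_le_range (Subgroup.subtype N) (QuotientGroup.mk' N) (by simp)
  · push Not at hex
    by_contra hns
    have hab : ∃ a b : G, a * b ≠ b * a := by
      by_contra hc
      push Not at hc
      exact hns (Group.isSolvable_of_comm hc)
    haveI : Nontrivial G := by
      obtain ⟨a, b, hne⟩ := hab
      exact ⟨a * b, b * a, hne⟩
    haveI : IsSimpleGroup G := ⟨fun N hN => or_iff_not_imp_left.2 (hex N hN)⟩
    exact false_of_isSimpleGroup hab h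

end Cfsg.Agent.S4466
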