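import Cfsg.Statements.S4517
import Cfsg.Agent.Blocks.Orth.PrincipalGalois
import Cfsg.Agent.Blocks.Orth.Blocks
import Cfsg.Agent.Blocks.Subsection.Major
import Cfsg.Agent.Blocks.HeightZero.MinMax
import Cfsg.Agent.Chars.Basic.Values
import Cfsg.Agent.Eq.Def_Blocks

set_option autoImplicit false
open Cfsg

namespace Cfsg.Agent.S4517

/-- A real element other than an involution has centraliser of even index. -/
theorem even_index_centralizer {G : Type*} [Group G] {g t : G} (hg : g⁻¹ ≠ g)
    (ht : t * g * t⁻¹ = g⁻¹) : 2 ∣ (Subgroup.centralizer ({g} : Set G)).index := by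
  have hC : ∀ x : G, x ∈ Subgroup.centralizer ({g} : Set G) ↔ x * g * x⁻¹ = g := fun x => by
    rw [Subgroup.mem_centralizer_singleton_iff]
    constructor
    · intro h; rw [h, mul_inv_cancel_right]
    · intro h; calc x * g = x * g * x⁻¹ * x := by group
        _ = g * x := by rw [h]
  have hinv : ∀ x : G, x * g * x⁻¹ = g → x * g⁻¹ * x⁻¹ = g⁻¹ := fun x h => by
    calc x * g⁻¹ * x⁻¹ = (x * g * x⁻¹)⁻¹ := by group
      _ = g⁻¹ := by rw [h]
  have hinv' : ∀ x : G, x * g * x⁻¹ = g⁻¹ → x * g⁻¹ * x⁻¹ = g := fun x h => by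
    calc x * g⁻¹ * x⁻¹ = (x * g * x⁻¹)⁻¹ := by group
      _ = g := by rw [h, inv_inv]
  have hmul : ∀ x y : G, ∀ z : G, x * y * z * (x * y)⁻¹ = x * (y * z * y⁻¹) * x⁻¹ := fun x y z => by
    group
  let S : Subgroup G :=
    { carrier := {x | x * g * x⁻¹ = g ∨ x * g * x⁻¹ = g⁻¹}
      one_mem' := Or.inl (by simp)
      mul_mem' := fun {x y} hx hy => by
        show _ ∨ _
        rw [hmul x y g]
        rcases hy with hy | hy <;> rw [hy] <;> rcases hx with hx | hx
        · exact Or.inl hx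
        · exact Or.inr hx
        · exact Or.inr (hinv x hx)
        · exact Or.inl (hinv' x hx)
      inv_mem' := fun {x} hx => by
        show _ ∨ _
        rcases hx with hx | hx
        · refine Or.inl ?_
          calc x⁻¹ * g * x⁻¹⁻¹ = x⁻¹ * (x * g * x⁻¹) * x := by rw [hx, inv_inv]
            _ = g := by group
        · refine Or.inr ?_
          calc x⁻¹ * g * x⁻¹⁻¹ = x⁻¹ * (x * g⁻¹ * x⁻¹) * x := by rw [hinv' x hx, inv_inv]
            _ = g⁻¹ := by group }
  have hle : Subgroup.centralizer ({g} : Set G) ≤ S := fun x hx => Or.inl ((hC x).1 hx)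
  have h2 : (Subgroup.centralizer ({g} : Set G)).relIndex S = 2 := by
    rw [Subgroup.relIndex, Subgroup.index_eq_two_iff]
    refine ⟨⟨t, Or.inr ht⟩, fun b => ?_⟩
    simp only [Subgroup.mem_subgroupOf, Subgroup.coe_mul, hC, hmul, ht]
    rcases b.2 with hb | hb
    · rw [hinv _ hb, hb]; exact Or.inr ⟨rfl, hg⟩
    · rw [hinv' _ hb, hb]; exact Or.inl ⟨rfl, hg⟩
  rw [← Subgroup.relIndex_mul_index hle, h2]
  exact dvd_mul_right 2 _


/-- Let G be a finite group, M a maximal ideal of the algebraic integers containing 2, and k a natural number coprime to the order of G with g ^ k = g⁻¹ for every element g of odd order (so that g ↦ g ^ k induces a field automorphism of the character values inverting the roots of unity of odd order). If B is a 2-block of full defect (its defect equals the exponent of 2 in the order of G) that is stable under χ ↦ χ ∘ (· ^ k), then B is the principal 2-block. -/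
theorem result {G : Type*} [Group G] [Finite G] (M : Ideal Cfsg.AlgInt) (hM : Cfsg.IsPModular 2 M) (k : ℕ) (hk : Nat.Coprime k (Nat.card G)) (hk₂ : ∀ g : G, Odd (orderOf g) → g ^ k = g⁻¹) (B : Set (Cfsg.IrrCharacter G)) (hB : Cfsg.IsPBlock M B) (hdef : Cfsg.blockDefect 2 B = (Nat.card G).factorization 2) (hstab : ∀ χ ∈ B, ∃ ψ ∈ B, ∀ g : G, (ψ : G → ℂ) g = (χ : G → ℂ) (g ^ k)) : B = Cfsg.principalBlock M G := by
  haveI := hM.2.1
  haveI := CfsgLib.Blocks.charP_kres hM
  classical
  haveI := Fintype.ofFinite G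
  haveI : Fintype (ConjClasses G) := Fintype.ofFinite _
  haveI : Fact (Nat.Prime 2) := ⟨Nat.prime_two⟩
  open CfsgLib.Blocks in
  obtain ⟨χ, hχ⟩ := nonempty_of_isPBlock hB
  open CfsgLib.Blocks in
  obtain ⟨D, hD⟩ := HeightZero.exists_defectGroup hM hB
  open CfsgLib.Blocks in
  have hD2 : Nat.card D = 2 ^ (Nat.card G).factorization 2 := by
    rw [Contrib.natCard_defectGroup hM hB hD, hdef]
  open CfsgLib.Blocks in
  have hlocC : ∀ (φ : Cfsg.IrrCharacter G) (g : G), Cfsg.MemLocalRing M (Cfsg.centralChar (φ : G → ℂ) g) :=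
    fun φ g => memLocalRing_centralChar φ g
  let ψ := CfsgLib.Blocks.Orth.powIrr hk
  have hψB : ∀ φ ∈ B, ψ φ ∈ B := fun φ hφ => by
    obtain ⟨φ', h1, h2⟩ := hstab φ hφ
    rwa [show ψ φ = φ' from Subtype.ext (funext fun g => (h2 g).symm)]
  have hsurj : ∀ φ ∈ B, ∃ φ' ∈ B, ψ φ' = φ := fun φ hφ => by
    have : ψ '' B = B := Set.eq_of_subset_of_ncard_le (Set.image_subset_iff.2 hψB)
      (le_of_eq (Set.ncard_image_of_injective B (CfsgLib.Blocks.Orth.powIrr_injective hk)).symm)
      B.toFinite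
    rwa [← this] at hφ
  have hcinv : ∀ g : G, Odd (orderOf g) → ∀ φ : Cfsg.IrrCharacter G,
      Cfsg.centralChar (φ : G → ℂ) g⁻¹ = Cfsg.centralChar (ψ φ : G → ℂ) g := by
    intro g hg φ
    have h1 : Subgroup.centralizer ({g⁻¹} : Set G) = Subgroup.centralizer ({g} : Set G) := by
      rw [← hk₂ g hg]; exact CfsgLib.Blocks.Orth.centralizer_pow_coprime hk g
    simp only [Cfsg.centralChar, h1, ψ, CfsgLib.Blocks.Orth.powIrr_apply, hk₂ g hg, one_pow]
  have hcoeff : ∀ g : G, Odd (orderOf g) → Cfsg.blockCoeff B g⁻¹ = Cfsg.blockCoeff B g := by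
    intro g hg
    simp only [Cfsg.blockCoeff]
    congr 1
    refine finsum_mem_eq_of_bijOn ψ ⟨hψB, (CfsgLib.Blocks.Orth.powIrr_injective hk).injOn, hsurj⟩ fun φ _ => ?_
    simp only [ψ, CfsgLib.Blocks.Orth.powIrr_apply, hk₂ g hg, one_pow]
  let f : Cfsg.IrrCharacter G → ConjClasses G → CfsgLib.Blocks.kres M := fun φ C =>
    CfsgLib.Blocks.redC M (Cfsg.blockCoeff B C.out * Cfsg.centralChar (φ : G → ℂ) C.out)
  have hfmem : ∀ (φ : Cfsg.IrrCharacter G) (g : G), Cfsg.MemLocalRing M (Cfsg.blockCoeff B g * Cfsg.centralChar (φ : G → ℂ) g) :=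
    fun φ g => (CfsgLib.Blocks.localRing M).mul_mem (CfsgLib.Blocks.memLocalRing_blockCoeff hB g) (hlocC φ g)
  have hone : ∀ φ : Cfsg.IrrCharacter G, CfsgLib.Blocks.redC M
      (CfsgLib.Blocks.omega (φ : G → ℂ) (CfsgLib.Blocks.setIdem B)) =
      ∑ C : ConjClasses G, CfsgLib.Blocks.redC M (Cfsg.blockCoeff B C.out * Cfsg.centralChar (φ : G → ℂ) C.out) := by
    intro φ
    have hm : ∀ C : ConjClasses G, Cfsg.MemLocalRing M (Cfsg.blockCoeff B C.out * Cfsg.centralChar (φ : G → ℂ) C.out) :=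
      fun C => (CfsgLib.Blocks.localRing M).mul_mem (CfsgLib.Blocks.memLocalRing_blockCoeff hB _) (hlocC φ _)
    rw [CfsgLib.Blocks.omega_eq_sum_classes (CfsgLib.Blocks.isCentralElt_setIdem B)
      (CfsgLib.Chars.isClassFunction_coe φ)]
    simp only [CfsgLib.Blocks.setIdem, CfsgLib.Blocks.coeff_ofFun]
    rw [CfsgLib.Blocks.redC_of_mem (Subring.sum_mem (CfsgLib.Blocks.localRing M) fun C _ => hm C),
      Finset.sum_congr rfl (fun C _ => CfsgLib.Blocks.redC_of_mem (hm C)), ← map_sum]
    congr 1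
    apply Subtype.ext
    rw [AddSubmonoidClass.coe_finset_sum]
  have hclass : ∀ (φ : G → ℂ), Cfsg.IsClassFunction G φ → ∀ g : G,
      Cfsg.centralChar φ (ConjClasses.mk g).out = Cfsg.centralChar φ g := by
    intro φ hφ g
    rw [CfsgLib.Blocks.centralChar_eq_omega hφ, CfsgLib.Blocks.centralChar_eq_omega hφ]
    congr 1
    have hc : IsConj (ConjClasses.mk g).out g :=
      ConjClasses.mk_eq_mk_iff_isConj.1 (Quotient.out_eq (ConjClasses.mk g))
    refine CfsgLib.Blocks.ga_ext fun x => ?_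
    rw [CfsgLib.Blocks.coeff_classSum, CfsgLib.Blocks.coeff_classSum]
    have hiff : IsConj (ConjClasses.mk g).out x ↔ IsConj g x :=
      ⟨fun h => hc.symm.trans h, fun h => hc.trans h⟩
    revert hiff
    generalize (ConjClasses.mk g).out = y
    intro hiff
    by_cases h : IsConj g x <;> simp only [h, hiff, if_true, if_false]
  have hbc : ∀ g : G, Cfsg.blockCoeff B (ConjClasses.mk g).out = Cfsg.blockCoeff B g := fun g => by
    obtain ⟨c, hc⟩ := isConj_iff.1 (ConjClasses.mk_eq_mk_iff_isConj.1 (Quotient.out_eq (ConjClasses.mk g)))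
    have := (CfsgLib.Blocks.isCentralElt_setIdem B) (ConjClasses.mk g).out c
    rw [show c * (ConjClasses.mk g).out * c⁻¹ = g from hc] at this
    simpa [CfsgLib.Blocks.setIdem] using this.symm
  -- only the identity class survives
  have hsum : ∀ φ : Cfsg.IrrCharacter G,
      (∀ g : G, CfsgLib.Blocks.Congr M (Cfsg.centralChar (ψ φ : G → ℂ) g) (Cfsg.centralChar (φ : G → ℂ) g)) →
      (∀ g : G, g⁻¹ ≠ g → (∃ t : G, t * g * t⁻¹ = g⁻¹) → Cfsg.MemLocalIdeal M (Cfsg.centralChar (φ : G → ℂ) g)) →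
      ∑ C : ConjClasses G, f φ C = f φ (ConjClasses.mk 1) := by
    intro φ hφinv hφreal
    rw [← Finset.add_sum_erase _ _ (Finset.mem_univ (ConjClasses.mk (1 : G))), add_eq_left]
    let inv : ConjClasses G → ConjClasses G := fun C => ConjClasses.mk C.out⁻¹
    have hinvmk : ∀ g : G, inv (ConjClasses.mk g) = ConjClasses.mk g⁻¹ := fun g => by
      refine ConjClasses.mk_eq_mk_iff_isConj.2 ?_
      obtain ⟨c, hc⟩ := isConj_iff.1 (ConjClasses.mk_eq_mk_iff_isConj.1 (Quotient.out_eq (ConjClasses.mk g)))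
      exact isConj_iff.2 ⟨c, by
        calc c * (ConjClasses.mk g).out⁻¹ * c⁻¹ = (c * (ConjClasses.mk g).out * c⁻¹)⁻¹ := by group
          _ = g⁻¹ := congrArg _ hc⟩
    have hsing : ∀ C : ConjClasses G, 2 ∣ orderOf C.out → f φ C = 0 := fun C h => by
      simp only [f, CfsgLib.Blocks.blockCoeff_eq_zero_of_singular hM hB h, zero_mul, CfsgLib.Blocks.redC_zero]
    have hfinv : ∀ C : ConjClasses G, Odd (orderOf C.out) → f φ (inv C) = f φ C := fun C hC => by
      have hcc : Cfsg.blockCoeff B (inv C).out = Cfsg.blockCoeff B C.out := by rw [hbc, hcoeff _ hC]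
      simp only [f, hcc]
      rw [hclass _ (CfsgLib.Chars.isClassFunction_coe φ), hcinv _ hC,
        CfsgLib.Blocks.redC_eq_redC_iff ((CfsgLib.Blocks.localRing M).mul_mem
          (CfsgLib.Blocks.memLocalRing_blockCoeff hB _) (hlocC _ _)) (hfmem φ _), ← mul_sub]
      exact CfsgLib.Blocks.memLocalIdeal_mul_left (CfsgLib.Blocks.memLocalRing_blockCoeff hB _)
        (hφinv _)
    refine Finset.sum_involution (fun C _ => inv C) (fun C hC => ?_) (fun C hC hne => ?_) (fun C hC => ?_)
      (fun C _ => ?_)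
    · show f φ C + f φ (inv C) = 0
      rcases Nat.even_or_odd (orderOf C.out) with h | h
      · rw [hsing C (even_iff_two_dvd.1 h), zero_add]
        refine hsing _ ?_
        obtain ⟨c, hc⟩ := isConj_iff.1 (ConjClasses.mk_eq_mk_iff_isConj.1 (Quotient.out_eq (inv C)))
        have h2 : orderOf (inv C).out = orderOf C.out⁻¹ := by
          rw [← hc]
          exact (orderOf_injective (MulAut.conj c).toMonoidHom (MulAut.conj c).injective _).symm
        rw [h2, orderOf_inv]
        exact even_iff_two_dvd.1 h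
      · rw [hfinv C h, CharTwo.add_self_eq_zero]
    · intro heq
      have hodd : Odd (orderOf C.out) := Nat.not_even_iff_odd.1 fun h => hne (hsing C (even_iff_two_dvd.1 h))
      have hCne : C.out ≠ 1 := fun h => (Finset.mem_erase.1 hC).1 (by
        rw [← h]; exact (Quotient.out_eq C).symm)
      obtain ⟨t, ht⟩ := isConj_iff.1 (ConjClasses.mk_eq_mk_iff_isConj.1
        (show ConjClasses.mk C.out = ConjClasses.mk C.out⁻¹ from (Quotient.out_eq C).trans heq.symm))
      have hg : C.out⁻¹ ≠ C.out := fun h => by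
        have h2 : orderOf C.out ∣ 2 := orderOf_dvd_of_pow_eq_one (by
          rw [pow_two, mul_eq_one_iff_eq_inv, h])
        rcases (Nat.dvd_prime Nat.prime_two).1 h2 with h3 | h3
        · exact hCne (orderOf_eq_one_iff.1 h3)
        · rw [h3] at hodd; exact absurd hodd (by decide)
      exact hne (by
        simp only [f]
        rw [CfsgLib.Blocks.redC_eq_zero_iff (hfmem φ _)]
        exact CfsgLib.Blocks.memLocalIdeal_mul_left (CfsgLib.Blocks.memLocalRing_blockCoeff hB _)
          (hφreal _ hg ⟨t, ht⟩))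
    · refine Finset.mem_erase.2 ⟨fun h => (Finset.mem_erase.1 hC).1 ?_, Finset.mem_univ _⟩
      have h1 := congrArg inv (show ConjClasses.mk C.out⁻¹ = ConjClasses.mk 1 from h)
      rw [hinvmk, hinvmk, inv_inv, inv_one] at h1
      exact (Quotient.out_eq C).symm.trans h1
    · show inv (ConjClasses.mk C.out⁻¹) = C
      rw [hinvmk, inv_inv]
      exact Quotient.out_eq C
  have hχreal : ∀ g : G, g⁻¹ ≠ g → (∃ t : G, t * g * t⁻¹ = g⁻¹) →
      Cfsg.MemLocalIdeal M (Cfsg.centralChar (χ : G → ℂ) g) := by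
    intro g hg ⟨t, ht⟩
    by_contra hω
    obtain ⟨x, hx⟩ := CfsgLib.Blocks.HeightZero.exists_conj_le_centralizer hM hB hχ hω hD
    have hle : D ≤ Subgroup.centralizer ({x * g * x⁻¹} : Set G) := fun d hd =>
      Subgroup.mem_centralizer_singleton_iff.2 (Subgroup.mem_centralizer_iff.1 hx d hd)
    have h2 : 2 ∣ (Subgroup.centralizer ({x * g * x⁻¹} : Set G)).index :=
      even_index_centralizer (g := x * g * x⁻¹) (t := x * t * x⁻¹)
        (fun h => hg (by
          have := congrArg (fun y => x⁻¹ * y * x) h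
          simpa [mul_assoc] using this))
        (by calc x * t * x⁻¹ * (x * g * x⁻¹) * (x * t * x⁻¹)⁻¹
              = x * (t * g * t⁻¹) * x⁻¹ := by group
            _ = (x * g * x⁻¹)⁻¹ := by rw [ht]; group)
    have h3 : D.index.factorization 2 = 0 := by
      have h4 : (Nat.card D * D.index).factorization 2 = (Nat.card G).factorization 2 := by
        rw [D.card_mul_index]
      rw [Nat.factorization_mul Nat.card_pos.ne' Subgroup.index_ne_zero_of_finite,
        Finsupp.add_apply, hD2, Nat.factorization_pow_self Nat.prime_two] at h4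
      omega
    rw [Nat.factorization_eq_zero_iff] at h3
    rcases h3 with h3 | h3 | h3
    · exact h3 Nat.prime_two
    · exact h3 (h2.trans (Subgroup.index_dvd_of_le hle))
    · exact Subgroup.index_ne_zero_of_finite h3
  have h1 : f χ (ConjClasses.mk 1) = 1 := by
    rw [← hsum χ (fun g => CfsgLib.Blocks.sameBlock_of_mem hB (hψB χ hχ) hχ g) hχreal]
    show ∑ C : ConjClasses G, CfsgLib.Blocks.redC M (_ * _) = 1
    rw [← hone χ, CfsgLib.Blocks.omega_setIdem, if_pos hχ, CfsgLib.Blocks.redC_one]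
  have hB1 : CfsgLib.Chars.oneChar G ∈ B := by
    by_contra hnot
    have h0 := hone (CfsgLib.Chars.oneChar G)
    rw [CfsgLib.Blocks.omega_setIdem, if_neg hnot, CfsgLib.Blocks.redC_zero] at h0
    have hrest := hsum (CfsgLib.Chars.oneChar G)
      (fun g => by
        show CfsgLib.Blocks.Congr M _ _
        simp only [Cfsg.centralChar, ψ, CfsgLib.Blocks.Orth.powIrr_apply, CfsgLib.Chars.oneChar_coe]
        exact CfsgLib.Blocks.congr_refl _)
      (fun g hg ⟨t, ht⟩ => by
        simp only [Cfsg.centralChar, CfsgLib.Chars.oneChar_coe, mul_one, div_one]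
        exact (CfsgLib.Blocks.memLocalIdeal_natCast_iff hM _).2 (even_index_centralizer hg ht))
    have h2 : f (CfsgLib.Chars.oneChar G) (ConjClasses.mk 1) = f χ (ConjClasses.mk 1) := by
      simp only [f, hclass _ (CfsgLib.Chars.isClassFunction_coe _)]
      congr 2
      simp [Cfsg.centralChar, CfsgLib.Chars.map_one_ne_zero]
    apply one_ne_zero (α := CfsgLib.Blocks.kres M)
    rw [← h1, ← h2, ← hrest]
    exact h0.symm
  rw [CfsgLib.Blocks.eq_blockOf_of_mem hB hB1, CfsgLib.Chars.oneChar_coe]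
  rfl

end Cfsg.Agent.S4517
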