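import Cfsg.Statements.S4490
import Cfsg.Agent.S4517
import Cfsg.Agent.Blocks.Subsection.Major
import Cfsg.Agent.Blocks.Defect.Principal
import Cfsg.Agent.Eq.Def_Blocks

set_option autoImplicit false
open Cfsg

namespace Cfsg.Agent.S4490

/-- Let G be a finite group and M a maximal ideal of the algebraic integers containing 2. Every 2-block B of G whose defect groups are the Sylow 2-subgroups of G (a block of full defect) and which is not the principal block is different from its complex-conjugate block, the block formed by the complex conjugates of the members of B. -/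
theorem result {G : Type*} [Group G] [Finite G] (M : Ideal Cfsg.AlgInt) (hM : Cfsg.IsPModular 2 M) (B : Set (Cfsg.IrrCharacter G)) (hB : Cfsg.IsPBlock M B) (P : Sylow 2 G) (hfull : Cfsg.IsDefectGroup 2 M B (P : Subgroup G)) (hnp : B ≠ Cfsg.principalBlock M G) : {ψ : Cfsg.IrrCharacter G | ∃ χ ∈ B, (ψ : G → ℂ) = fun g => (starRingEnd ℂ) ((χ : G → ℂ) g)} ≠ B := by
  haveI := hM.2.1
  classical
  haveI := Fintype.ofFinite G
  intro hB'
  apply hnp
  have hn : 0 < Nat.card G := Nat.card_pos
  have hk : Nat.Coprime (Nat.card G - 1) (Nat.card G) :=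
    (Nat.coprime_self_sub_left hn).2 (Nat.coprime_one_left _)
  have hkinv : ∀ g : G, g ^ (Nat.card G - 1) = g⁻¹ := fun g => eq_inv_of_mul_eq_one_left (by
    rw [← pow_succ, Nat.sub_add_cancel hn, pow_card_eq_one'])
  have hdef : Cfsg.blockDefect 2 B = (Nat.card G).factorization 2 := by
    have h := CfsgLib.Blocks.Contrib.natCard_defectGroup hM hB hfull
    rw [P.card_eq_multiplicity] at h
    exact (Nat.pow_right_injective le_rfl h).symm
  refine Cfsg.Agent.S4517.result M hM _ hk (fun g _ => hkinv g) B hB hdef fun χ hχ => ?_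
  have hc := CfsgLib.Chars.isCharacter_coe χ
  let ψ : Cfsg.IrrCharacter G := ⟨fun g => (χ : G → ℂ) g⁻¹,
    by
      have h := (CfsgLib.Blocks.Orth.powIrr hk χ).2
      rwa [show (CfsgLib.Blocks.Orth.powIrr hk χ : G → ℂ) = fun g => (χ : G → ℂ) g⁻¹ from
        funext fun g => by rw [CfsgLib.Blocks.Orth.powIrr_apply, hkinv]] at h⟩
  refine ⟨ψ, ?_, fun g => by rw [hkinv]⟩
  rw [← hB']
  exact ⟨χ, hχ, funext fun g => CfsgLib.Chars.map_inv_eq_conj hc g⟩

end Cfsg.Agent.S4490
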