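import Cfsg.Statements.S4518
import Cfsg.Agent.Chars.Induced.Clifford
import Cfsg.Agent.Chars.GaloisHom.Basic
import Mathlib.GroupTheory.Perm.Cycle.Type
-- import your own Cfsg.Agent.* helpers here

set_option autoImplicit false
open Cfsg

namespace Cfsg.Agent.S4518

/-- Let N be a normal subgroup of the finite group G whose index is not divisible by the prime p, and let k be coprime to the order of G with k ^ (p ^ e) ≡ 1 modulo the order of G for some e (so g ↦ g ^ k induces a field automorphism of p-power order on character values). If an irreducible character χ of G satisfies χ (g ^ k) = χ g for all g, then every irreducible constituent θ of the restriction of χ to N satisfies θ (n ^ k) = θ n for all n. -/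
theorem result {G : Type*} [Group G] [Fintype G] (p : ℕ) [Fact p.Prime] (N : Subgroup G) [N.Normal] [Fintype N] (hidx : ¬ p ∣ N.index) (k e : ℕ) (hk : Nat.Coprime k (Nat.card G)) (hke : k ^ (p ^ e) ≡ 1 [MOD Nat.card G]) (χ : Cfsg.IrrCharacter G) (hχ : ∀ g : G, (χ : G → ℂ) (g ^ k) = (χ : G → ℂ) g) (θ : Cfsg.IrrCharacter N) (hθ : Cfsg.classInner (fun n : N => (χ : G → ℂ) n) (θ : N → ℂ) ≠ 0) : ∀ n : N, (θ : N → ℂ) (n ^ k) = (θ : N → ℂ) n := by
  classical
  have hm : 0 < Nat.card G := Nat.card_pos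
  obtain ⟨σ, hσ⟩ := CfsgLib.GaloisHom.exists_ringHom_char hm hk
  have hord : ∀ n : N, orderOf n ∣ Nat.card G := fun n =>
    (orderOf_dvd_natCard n).trans (Subgroup.card_subgroup_dvd_card N)
  let f : Cfsg.IrrCharacter N → Cfsg.IrrCharacter N := fun η =>
    ⟨fun n => σ ((η : N → ℂ) n), CfsgLib.Chars.isIrrCharacter_ringHom η.2 σ⟩
  have hf : ∀ (η : Cfsg.IrrCharacter N) (n : N), (f η : N → ℂ) n = (η : N → ℂ) (n ^ k) :=
    fun η n => hσ (CfsgLib.Chars.isCharacter_coe η) n (hord n)
  set r : N → ℂ := fun n => (χ : G → ℂ) n with hr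
  have hrc : Cfsg.IsCharacter N r :=
    CfsgLib.Chars.isCharacter_restrict (CfsgLib.Chars.isCharacter_coe χ) N
  have hmult : ∀ η : Cfsg.IrrCharacter N, CfsgLib.Chars.Induced.mult r η ≠ 0 →
      CfsgLib.Chars.Induced.mult r (f η) ≠ 0 := by
    intro η hη
    rw [CfsgLib.Chars.Induced.mult_ne_zero_iff hrc] at hη ⊢
    rw [CfsgLib.Chars.classInner_eq_sum_map_inv r (CfsgLib.Chars.isCharacter_coe η)] at hη
    rw [CfsgLib.Chars.classInner_eq_sum_map_inv r (CfsgLib.Chars.isCharacter_coe (f η))]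
    intro h0
    apply hη
    apply σ.injective
    rw [map_zero, map_mul, map_inv₀, map_natCast, map_sum, ← h0]
    congr 1
    refine Finset.sum_congr rfl fun n _ => ?_
    rw [map_mul, hr]
    congr 1
    exact (hσ (CfsgLib.Chars.isCharacter_coe χ) (n : G) (orderOf_dvd_natCard _)).trans (hχ n)
  have hθ' : CfsgLib.Chars.Induced.mult r θ ≠ 0 :=
    (CfsgLib.Chars.Induced.mult_ne_zero_iff hrc θ).2 hθ
  set O : Set (Cfsg.IrrCharacter N) := CfsgLib.Chars.Induced.conjOrbit θ
  have hO : ∀ η ∈ O, f η ∈ O := by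
    rintro η ⟨x, rfl⟩
    refine CfsgLib.Chars.Induced.mem_conjOrbit_of_mult_ne_zero χ θ _ hθ' (hmult _ ?_)
    rw [hr, CfsgLib.Chars.Induced.mult_restrict_conjIrr (CfsgLib.Chars.isClassFunction_coe χ)]
    exact hθ'
  have hcomm : ∀ (x : G) (η : Cfsg.IrrCharacter N),
      f (CfsgLib.Chars.Induced.conjIrr x η) = CfsgLib.Chars.Induced.conjIrr x (f η) :=
    fun x η => Subtype.ext (funext fun n => by
      show σ _ = σ _
      rfl)
  let F : Function.End O := fun η => ⟨f η.1, hO _ η.2⟩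
  have hFp : F ^ p ^ e = 1 := by
    have key : ∀ (j : ℕ) (η : O) (n : N),
        (((F ^ j) η).1 : N → ℂ) n = (η.1 : N → ℂ) (n ^ k ^ j) := by
      intro j
      induction j with
      | zero => intro η n; simp; rfl
      | succ j ih =>
        intro η n
        rw [pow_succ', pow_succ]
        show (f ((F ^ j) η).1 : N → ℂ) n = _
        rw [hf, ih, ← pow_mul, mul_comm k]
    refine funext fun η => Subtype.ext (Subtype.ext (funext fun n => ?_))
    rw [key]
    show (η.1 : N → ℂ) (n ^ k ^ p ^ e) = (η.1 : N → ℂ) n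
    rw [pow_eq_pow_iff_modEq.2 (hke.of_dvd (hord n)), pow_one]
  have hcard : ¬ p ∣ Nat.card O := fun h => hidx (h.trans (by
    rw [CfsgLib.Chars.Induced.card_conjOrbit]
    exact Subgroup.index_dvd_of_le
      (CfsgLib.Chars.Induced.le_inertia (CfsgLib.Chars.isClassFunction_coe θ))))
  have hfix := Equiv.Perm.card_fixedPoints_modEq hFp
  obtain ⟨⟨η, hη⟩⟩ : Nonempty F.fixedPoints := by
    rcases isEmpty_or_nonempty F.fixedPoints with h | h
    · exfalso
      simp only [← Nat.card_eq_fintype_card] at hfix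
      rw [Nat.card_eq_zero.2 (Or.inl h)] at hfix
      exact hcard (Nat.modEq_zero_iff_dvd.1 hfix)
    · exact h
  obtain ⟨⟨η', hη'⟩, rfl⟩ : ∃ η' : O, η' = η := ⟨η, rfl⟩
  have hff : f η' = η' := congrArg Subtype.val hη
  obtain ⟨x, rfl⟩ := hη'
  intro n
  have h1 : f θ = θ := by
    have h2 := congrArg (CfsgLib.Chars.Induced.conjIrr x⁻¹) hff
    rwa [hcomm, ← CfsgLib.Chars.Induced.conjIrr_mul, ← CfsgLib.Chars.Induced.conjIrr_mul,
      inv_mul_cancel, CfsgLib.Chars.Induced.conjIrr_one, CfsgLib.Chars.Induced.conjIrr_one] at h2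
  rw [← hf, h1]

end Cfsg.Agent.S4518
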