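import Cfsg.Statements.S4519
import Cfsg.Agent.Glauberman.FixedOdd

set_option autoImplicit false
open Cfsg

namespace Cfsg.Agent.S4519

/-- Let N be a normal subgroup of odd index in the finite group G, and let k be coprime to the order of G with k ^ (2 ^ e) ≡ 1 modulo the order of G for some e and g ^ k = g⁻¹ for every element g of odd order (so g ↦ g ^ k induces a field automorphism of 2-power order inverting the roots of unity of odd order). If an irreducible character θ of N satisfies θ (n ^ k) = θ n for all n, then there is exactly one irreducible character χ of G with θ a constituent of its restriction to N and χ (g ^ k) = χ g for all g; moreover, if θ is invariant under conjugation by G, that χ restricts to θ. -/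
theorem result {G : Type*} [Group G] [Fintype G] (N : Subgroup G) [hN : N.Normal] [Fintype N] (hidx : Odd N.index) (k e : ℕ) (hk : Nat.Coprime k (Nat.card G)) (hke : k ^ (2 ^ e) ≡ 1 [MOD Nat.card G]) (hk₂ : ∀ g : G, Odd (orderOf g) → g ^ k = g⁻¹) (θ : Cfsg.IrrCharacter N) (hθ : ∀ n : N, (θ : N → ℂ) (n ^ k) = (θ : N → ℂ) n) : ∃ χ : Cfsg.IrrCharacter G, (Cfsg.classInner (fun n : N => (χ : G → ℂ) n) (θ : N → ℂ) ≠ 0 ∧ (∀ g : G, (χ : G → ℂ) (g ^ k) = (χ : G → ℂ) g) ∧ ((∀ g : G, ∀ n : N, (θ : N → ℂ) ⟨g * n * g⁻¹, hN.conj_mem n n.2 g⟩ = (θ : N → ℂ) n) → ∀ n : N, (χ : G → ℂ) n = (θ : N → ℂ) n)) ∧ ∀ χ' : Cfsg.IrrCharacter G, Cfsg.classInner (fun n : N => (χ' : G → ℂ) n) (θ : N → ℂ) ≠ 0 → (∀ g : G, (χ' : G → ℂ) (g ^ k) = (χ' : G → ℂ) g) → χ' = χ := by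
  classical
  obtain ⟨χ, ⟨hχ, hfix⟩, huniq⟩ := CfsgLib.Glauberman.existsUnique_fixed_over hidx hk hk₂ θ hθ
  have hiff : ∀ ψ : Cfsg.IrrCharacter G,
      CfsgLib.Chars.Induced.mult (fun n : N => (ψ : G → ℂ) n) (θ : N → ℂ) ≠ 0 ↔
        Cfsg.classInner (fun n : N => (ψ : G → ℂ) n) (θ : N → ℂ) ≠ 0 := fun ψ =>
    CfsgLib.Chars.Induced.mult_ne_zero_iff
      (CfsgLib.Chars.isCharacter_restrict (CfsgLib.Chars.isCharacter_coe ψ) N) θ
  refine ⟨χ, ⟨(hiff χ).1 hχ, hfix, fun hinv => ?_⟩, fun χ' h1 h2 => huniq χ' ⟨(hiff χ').2 h1, h2⟩⟩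
  obtain ⟨χ', h1, h2⟩ := CfsgLib.Glauberman.exists_fixed_extension N hidx hk hke hk₂ θ hθ hinv
  rw [← huniq χ' ⟨by rw [funext h1, CfsgLib.Chars.Induced.mult_irr, if_pos rfl]; exact one_ne_zero, h2⟩]
  exact h1


end Cfsg.Agent.S4519
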