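import Cfsg.Statements.S4520
import Cfsg.Agent.S4517
import Cfsg.Agent.Blocks.Defect.Covered
import Cfsg.Agent.Blocks.Defect.Principal
import Cfsg.Agent.Blocks.Covering.Basic
import Cfsg.Agent.Eq.Def_Blocks

set_option autoImplicit false
open Cfsg

namespace Cfsg.Agent.S4520

/-- Let N be a normal subgroup of odd index in the finite group G, M a maximal ideal of the algebraic integers containing 2, and k coprime to the order of G with k ^ (2 ^ e) ≡ 1 modulo the order of G for some e and g ^ k = g⁻¹ for every element g of odd order. Let θ be an irreducible character of N and χ an irreducible character of G over θ, both unchanged by composing with g ↦ g ^ k. Then χ lies in the principal 2-block of G if and only if θ lies in the principal 2-block of N. -/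
theorem result {G : Type*} [Group G] [Fintype G] (M : Ideal Cfsg.AlgInt) (hM : Cfsg.IsPModular 2 M) (N : Subgroup G) [N.Normal] [Fintype N] (hidx : Odd N.index) (k e : ℕ) (hk : Nat.Coprime k (Nat.card G)) (hke : k ^ (2 ^ e) ≡ 1 [MOD Nat.card G]) (hk₂ : ∀ g : G, Odd (orderOf g) → g ^ k = g⁻¹) (θ : Cfsg.IrrCharacter N) (hθ : ∀ n : N, (θ : N → ℂ) (n ^ k) = (θ : N → ℂ) n) (χ : Cfsg.IrrCharacter G) (hχ : ∀ g : G, (χ : G → ℂ) (g ^ k) = (χ : G → ℂ) g) (hover : Cfsg.classInner (fun n : N => (χ : G → ℂ) n) (θ : N → ℂ) ≠ 0) : χ ∈ Cfsg.principalBlock M G ↔ θ ∈ Cfsg.principalBlock M N := by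
  haveI := hM.2.1
  haveI := CfsgLib.Blocks.charP_kres hM
  classical
  haveI : Fact (Nat.Prime 2) := ⟨Nat.prime_two⟩
  have hover' := (CfsgLib.BlocksCover.constituent_iff_centralChar χ θ).1 hover
  constructor
  · intro hχP
    -- constituents of the principal character are principal
    have h1 : Cfsg.classInner (fun n : N => (CfsgLib.Chars.oneChar G : G → ℂ) n)
        (CfsgLib.Chars.oneChar N : N → ℂ) ≠ 0 := by
      rw [show (fun n : N => (CfsgLib.Chars.oneChar G : G → ℂ) n) = (CfsgLib.Chars.oneChar N : N → ℂ) by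
        simp [CfsgLib.Chars.oneChar_coe], CfsgLib.Chars.classInner_self]
      exact one_ne_zero
    have h2 := (CfsgLib.BlocksCover.constituent_iff_centralChar _ _).1 h1
    have hone := CfsgLib.Blocks.oneChar_mem_principalBlock_of_finite (M := M) G
    obtain ⟨x, hx⟩ := CfsgLib.BlocksCover.exists_sameBlock_conj (θ := θ) (ψ := CfsgLib.Chars.oneChar N)
      fun n => by
        rw [← hover' n, ← h2 n]
        exact CfsgLib.Blocks.sameBlock_of_mem (CfsgLib.Blocks.isPBlock_principalBlock_of_finite G)
          hχP hone _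
    rw [CfsgLib.Chars.Induced.conjIrr_coe, CfsgLib.Chars.oneChar_coe] at hx
    exact fun n => CfsgLib.Blocks.Congr.symm (hx n)
  · intro hθP
    set B := Cfsg.blockOf M (χ : G → ℂ) with hBdef
    have hB : Cfsg.IsPBlock M B := ⟨χ, rfl⟩
    have hb := CfsgLib.Blocks.isPBlock_principalBlock_of_finite (M := M) N
    have hne := CfsgLib.Blocks.topEl_mul_subEl_ne_zero hB hb (CfsgLib.Blocks.self_mem_blockOf χ) hθP hover
    obtain ⟨S⟩ : Nonempty (Sylow 2 N) := inferInstance
    have hSD := (CfsgLib.Blocks.isDefectGroup_iff (f := N.subtype) N.subtype_injective hb (S : Subgroup N)).1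
      ((CfsgLib.Blocks.isDefectGroup_principalBlock_iff _).2 ⟨S, rfl⟩)
    rw [Subgroup.range_subtype] at hSD
    obtain ⟨P, hP, hPN⟩ := CfsgLib.Blocks.exists_defectGroup_inf_eq
      (CfsgLib.Blocks.isBlockIdem_topEl hB) (CfsgLib.Blocks.isBlockIdem_subEl hb) hSD hne
    have hPD := (CfsgLib.Blocks.isDefectGroup_topEl_iff hB P).2 hP
    have hcard : (Nat.card G).factorization 2 ≤ Cfsg.blockDefect 2 B := by
      have h1 := CfsgLib.Blocks.Contrib.natCard_defectGroup hM hB hPD
      have h2 : Nat.card (S : Subgroup N) ∣ Nat.card P := by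
        rw [← Subgroup.card_map_of_injective N.subtype_injective, ← hPN]
        exact Subgroup.card_dvd_of_le inf_le_left
      rw [S.card_eq_multiplicity, h1, Nat.pow_dvd_pow_iff_le_right one_lt_two] at h2
      rw [← N.card_mul_index, Nat.factorization_mul Nat.card_pos.ne' Subgroup.index_ne_zero_of_finite,
        Finsupp.add_apply, Nat.factorization_eq_zero_of_not_dvd hidx.not_two_dvd_nat, add_zero]
      exact h2
    have hdef : Cfsg.blockDefect 2 B = (Nat.card G).factorization 2 :=
      le_antisymm (Nat.sub_le _ _) hcard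
    have hfix : CfsgLib.Blocks.Orth.powIrr hk χ = χ := Subtype.ext (funext hχ)
    have hpc : ∀ (φ : Cfsg.IrrCharacter G) (g : G),
        Cfsg.centralChar (CfsgLib.Blocks.Orth.powIrr hk φ : G → ℂ) g =
          Cfsg.centralChar (φ : G → ℂ) (g ^ k) := fun φ g => by
      simp only [Cfsg.centralChar, CfsgLib.Blocks.Orth.centralizer_pow_coprime hk g,
        CfsgLib.Blocks.Orth.powIrr_apply, one_pow]
    have hBP := Cfsg.Agent.S4517.result M hM k hk hk₂ B hB hdef fun φ hφ =>
      ⟨CfsgLib.Blocks.Orth.powIrr hk φ, CfsgLib.Blocks.mem_of_sameBlock hB (CfsgLib.Blocks.self_mem_blockOf χ)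
        (fun g => by
          rw [hpc, ← hfix, hpc]
          exact CfsgLib.Blocks.sameBlock_of_mem hB (CfsgLib.Blocks.self_mem_blockOf χ) hφ _), fun g => rfl⟩
    rw [← hBP]
    exact CfsgLib.Blocks.self_mem_blockOf χ

end Cfsg.Agent.S4520
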