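import Cfsg.Statements.S4521
import Cfsg.Agent.Blocks.PrincipalLinear
import Cfsg.Agent.Blocks.Basic.Omega
import Cfsg.Agent.Blocks.Basic.Local
import Cfsg.Agent.Chars.Induced.Clifford
import Cfsg.Agent.Chars.Basic
import Cfsg.Agent.Blocks.Orth.Schur

set_option autoImplicit false
open Cfsg

namespace Cfsg.Agent.S4521

open CfsgLib CfsgLib.Blocks

universe u

variable {U : Type u} [Group U]

/-- If `u z` is conjugate to `u` for all `z` in a central subgroup `S`, the class of `u` is a union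
of `S`-cosets and the central character divided by `|S|` stays integral. -/
theorem exists_card_class_eq_mul [Fintype U] (S : Subgroup U) (hS : S ≤ Subgroup.center U) (u : U)
    (hu : ∀ z ∈ S, IsConj u (u * z)) :
    ∃ m : ℕ, Nat.card {x : U // IsConj u x} = Nat.card S * m ∧
      ∀ ψ : IrrCharacter U, IsIntegral ℤ ((m : ℂ) * ((ψ : U → ℂ) u / (ψ : U → ℂ) 1)) := by
  haveI hn : S.Normal := ⟨fun z hz g => by
    rw [Subgroup.mem_center_iff.mp (hS hz) g, mul_inv_cancel_right]; exact hz⟩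
  set ub : U ⧸ S := (u : U ⧸ S)
  refine ⟨Nat.card {y : U ⧸ S // IsConj ub y}, ?_, ?_⟩
  · have e : {x : U // IsConj u x} ≃ (QuotientGroup.mk ⁻¹' {y : U ⧸ S | IsConj ub y} : Set U) := by
      refine Equiv.subtypeEquivRight fun x => ⟨fun h => ?_, fun h => ?_⟩
      · exact (QuotientGroup.mk' S).map_isConj h
      · obtain ⟨c, hc⟩ := isConj_iff.mp (show IsConj ub (x : U ⧸ S) from h)
        obtain ⟨g, rfl⟩ := QuotientGroup.mk_surjective c
        have h2 : ((g * u * g⁻¹ : U) : U ⧸ S) = (x : U ⧸ S) := by simpa [ub] using hc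
        rw [QuotientGroup.eq] at h2
        have h3 : IsConj (g * u * g⁻¹) (g * (u * ((g * u * g⁻¹)⁻¹ * x)) * g⁻¹) :=
          (isConj_iff.mpr ⟨g⁻¹, by group⟩ : IsConj (g * u * g⁻¹) u).trans
            ((hu _ h2).trans (isConj_iff.mpr ⟨g, rfl⟩))
        have hc2 := Subgroup.mem_center_iff.mp (hS h2) g⁻¹
        have h4 : g * (u * ((g * u * g⁻¹)⁻¹ * x)) * g⁻¹ = x := by
          calc g * (u * ((g * u * g⁻¹)⁻¹ * x)) * g⁻¹
              = g * u * (((g * u * g⁻¹)⁻¹ * x) * g⁻¹) := by group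
            _ = g * u * (g⁻¹ * ((g * u * g⁻¹)⁻¹ * x)) := by rw [hc2]
            _ = x := by group
        rw [h4] at h3
        exact (isConj_iff.mpr ⟨g, rfl⟩ : IsConj u (g * u * g⁻¹)).trans h3
    rw [Nat.card_congr e, Nat.card_congr (QuotientGroup.preimageMkEquivSubgroupProdSet S _),
      Nat.card_prod]
    rfl
  · intro ψ
    by_cases h0 : (ψ : U → ℂ) u = 0
    · simp [h0, isIntegral_zero]
    have hker : S ≤ Chars.charKer (ψ : U → ℂ) := by
      intro z hz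
      rw [Chars.mem_charKer_iff (Chars.isCharacter_coe ψ)]
      have h1 := Chars.map_mul_of_mem_center ψ (hS hz) u
      rw [← Subgroup.mem_center_iff.mp (hS hz) u,
        ← Chars.eq_of_isConj (Chars.isClassFunction_coe ψ) (hu z hz)] at h1
      have h2 : (ψ : U → ℂ) z / (ψ : U → ℂ) 1 = 1 :=
        mul_right_cancel₀ h0 (by rw [← h1, one_mul])
      rwa [div_eq_one_iff_eq (Chars.map_one_ne_zero ψ)] at h2
    obtain ⟨φ, hφ⟩ := Chars.exists_inflate_eq S ψ hker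
    haveI := Fintype.ofFinite (U ⧸ S)
    have h1 := centralChar_isIntegral φ.2 ub
    rw [centralChar, ← card_conjugates, mul_div_assoc] at h1
    rw [← hφ, Chars.inflate_apply, Chars.inflate_apply]
    simpa [ub] using h1

variable {G : Type u} [Group G]

theorem exists_mul_eq {U₁ U₂ : Subgroup G} [U₁.Normal] (hgen : U₁ ⊔ U₂ = ⊤) (g : G) :
    ∃ a ∈ U₁, ∃ b ∈ U₂, a * b = g :=
  Subgroup.mem_sup_of_normal_left.mp (hgen ▸ Subgroup.mem_top g)

theorem normal_of_comm {U₁ U₂ : Subgroup G} (hcomm : ∀ u ∈ U₁, ∀ v ∈ U₂, u * v = v * u)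
    (hgen : U₁ ⊔ U₂ = ⊤) : U₁.Normal := by
  rw [← Subgroup.normalizer_eq_top_iff, eq_top_iff, ← hgen, sup_le_iff]
  refine ⟨Subgroup.le_normalizer, fun v hv => ?_⟩
  rw [Subgroup.mem_normalizer_iff]
  intro x
  constructor
  · intro hx
    rwa [← hcomm x hx v hv, mul_inv_cancel_right]
  · intro hx
    have h := hcomm _ hx v hv
    have e : v * x * v⁻¹ = x := by
      calc v * x * v⁻¹ = v⁻¹ * (v * (v * x * v⁻¹)) := by group
        _ = v⁻¹ * (v * x * v⁻¹ * v) := by rw [h]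
        _ = x := by group
    rwa [e] at hx

/-- A constituent of the restriction to a factor of a central product carries all ratios. -/
theorem ratio_eq [Fintype G] {U₁ U₂ : Subgroup G} [Fintype U₁]
    (hcomm : ∀ u ∈ U₁, ∀ v ∈ U₂, u * v = v * u) (hgen : U₁ ⊔ U₂ = ⊤) (χ : IrrCharacter G)
    (ψ : IrrCharacter U₁)
    (h : classInner (fun u : U₁ => (χ : G → ℂ) u) (ψ : U₁ → ℂ) ≠ 0) (u : U₁) :
    (χ : G → ℂ) u / (χ : G → ℂ) 1 = (ψ : U₁ → ℂ) u / (ψ : U₁ → ℂ) 1 := by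
  classical
  haveI := normal_of_comm hcomm hgen
  have hθ : Chars.Induced.mult (fun n : U₁ => (χ : G → ℂ) n) ψ ≠ 0 := by
    obtain ⟨n, hn⟩ := Chars.Induced.exists_classInner_eq_natCast
      (Chars.isCharacter_restrict (Chars.isCharacter_coe χ) U₁) ψ
    rw [Chars.Induced.mult, hn]
    rw [hn] at h
    simpa using h
  have hinv : ∀ x : G, Chars.Induced.conjIrr x ψ = ψ := by
    intro x
    obtain ⟨a, ha, b, hb, rfl⟩ := exists_mul_eq hgen x
    apply Subtype.ext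
    rw [Chars.Induced.conjIrr_coe]
    show a * b ∈ Chars.Induced.inertia U₁ (ψ : U₁ → ℂ)
    refine Subgroup.mul_mem _
      (Chars.Induced.le_inertia (Chars.isClassFunction_coe ψ) ha) ?_
    rw [Chars.Induced.mem_inertia_iff_forall]
    intro n n' hn
    have : n' = n := by
      apply Subtype.ext
      rw [hn, ← hcomm n n.2 b hb, mul_inv_cancel_right]
    rw [this]
  have hc := Chars.Induced.clifford χ ψ hθ
  have hr : (Set.finite_range fun x : G => Chars.Induced.conjIrr x ψ).toFinset = {ψ} := by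
    ext η
    simp [hinv, eq_comm]
  rw [hr, Finset.sum_singleton] at hc
  have e1 := congrFun hc u
  have e2 := congrFun hc 1
  simp only [Pi.smul_apply, smul_eq_mul, Subgroup.coe_one] at e1 e2
  rw [e1, e2, mul_div_mul_left _ _ (fun h0 => hθ (by exact_mod_cast h0))]

theorem map_mul_eq [Fintype G] {U₁ U₂ : Subgroup G}
    (hcomm : ∀ u ∈ U₁, ∀ v ∈ U₂, u * v = v * u) (hgen : U₁ ⊔ U₂ = ⊤) (χ : IrrCharacter G)
    (x : U₁) (y : U₂) :
    (χ : G → ℂ) (x * y : G) = (χ : G → ℂ) x * (χ : G → ℂ) y / (χ : G → ℂ) 1 := by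
  haveI := normal_of_comm hcomm hgen
  have h := sum_irrCharacter_conj_mul χ (y : G) (x : G)
  have hconst : ∀ a : G, (χ : G → ℂ) (a * x * a⁻¹ * y) = (χ : G → ℂ) (x * y : G) := by
    intro g
    obtain ⟨a, ha, b, hb, rfl⟩ := exists_mul_eq hgen g
    have e1 : a * b * x * (a * b)⁻¹ * y = a * (x * y) * a⁻¹ := by
      have hxb : b * (x : G) * b⁻¹ = x := by rw [← hcomm x x.2 b hb, mul_inv_cancel_right]
      calc a * b * x * (a * b)⁻¹ * y = a * (b * x * b⁻¹) * a⁻¹ * y := by group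
        _ = a * x * (a⁻¹ * y) := by rw [hxb]; group
        _ = a * x * (y * a⁻¹) := by rw [hcomm a⁻¹ (inv_mem ha) y y.2]
        _ = a * (x * y) * a⁻¹ := by group
    rw [e1]
    exact Chars.isClassFunction_coe χ _ _
  simp only [hconst, Finset.sum_const, Finset.card_univ, nsmul_eq_mul,
    ← Nat.card_eq_fintype_card] at h
  rw [mul_assoc, mul_div_assoc] at h
  exact mul_left_cancel₀ (Nat.cast_ne_zero.mpr Nat.card_pos.ne') h

/-- Class sizes in a central product. -/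
theorem class_data [Finite G] {U₁ U₂ : Subgroup G}
    (hcomm : ∀ u ∈ U₁, ∀ v ∈ U₂, u * v = v * u) (hgen : U₁ ⊔ U₂ = ⊤) (x : U₁) (y : U₂) :
    ∃ S : Subgroup G, ∃ _ : S ≤ U₁ ⊓ U₂,
      (∀ z : U₁, (z : G) ∈ S → IsConj x (x * z)) ∧ (∀ z : U₂, (z : G) ∈ S → IsConj y (y * z)) ∧
      Nat.card {g : G // IsConj ((x : G) * y) g} * Nat.card S =
        Nat.card {a : U₁ // IsConj x a} * Nat.card {b : U₂ // IsConj y b} := by
  classical
  haveI := normal_of_comm hcomm hgen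
  let car : Set G := {z | ∃ (h1 : z ∈ U₁) (h2 : z ∈ U₂),
    IsConj x (x * ⟨z, h1⟩) ∧ IsConj y (y * ⟨z, h2⟩)}
  have hZ1 : ∀ {z : G} (h1 : z ∈ U₁), z ∈ U₂ → ∀ a : U₁, a * ⟨z, h1⟩ = ⟨z, h1⟩ * a :=
    fun _ h2 a => Subtype.ext (hcomm a a.2 _ h2)
  have hZ2 : ∀ {z : G} (h2 : z ∈ U₂), z ∈ U₁ → ∀ a : U₂, a * ⟨z, h2⟩ = ⟨z, h2⟩ * a :=
    fun _ h1 a => Subtype.ext (hcomm _ h1 a a.2).symm
  have conjMul : ∀ {W : Type u} [Group W] {u z : W}, (∀ a : W, a * z = z * a) →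
      ∀ {v : W}, IsConj u v → IsConj (u * z) (v * z) := by
    intro W _ u z hz v huv
    obtain ⟨c, hc⟩ := isConj_iff.mp huv
    refine isConj_iff.mpr ⟨c, ?_⟩
    rw [← hc]
    calc c * (u * z) * c⁻¹ = c * u * (z * c⁻¹) := by group
      _ = c * u * (c⁻¹ * z) := by rw [hz]
      _ = c * u * c⁻¹ * z := by group
  let S : Subgroup G :=
    { carrier := car
      one_mem' := ⟨U₁.one_mem, U₂.one_mem, by
        rw [show (⟨1, _⟩ : U₁) = 1 from rfl, mul_one], by
        rw [show (⟨1, _⟩ : U₂) = 1 from rfl, mul_one]⟩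
      mul_mem' := by
        rintro z w ⟨a1, a2, a3, a4⟩ ⟨b1, b2, b3, b4⟩
        refine ⟨mul_mem a1 b1, mul_mem a2 b2, ?_, ?_⟩
        · have := b3.trans (conjMul (hZ1 b1 b2) a3)
          rwa [mul_assoc] at this
        · have := b4.trans (conjMul (hZ2 b2 b1) a4)
          rwa [mul_assoc] at this
      inv_mem' := by
        rintro z ⟨a1, a2, a3, a4⟩
        refine ⟨inv_mem a1, inv_mem a2, ?_, ?_⟩
        · have := (conjMul (hZ1 (inv_mem a1) (inv_mem a2)) a3).symm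
          rwa [mul_assoc, show (⟨z, a1⟩ : U₁) * ⟨z⁻¹, inv_mem a1⟩ = 1 from
            Subtype.ext (mul_inv_cancel z), mul_one] at this
        · have := (conjMul (hZ2 (inv_mem a2) (inv_mem a1)) a4).symm
          rwa [mul_assoc, show (⟨z, a2⟩ : U₂) * ⟨z⁻¹, inv_mem a2⟩ = 1 from
            Subtype.ext (mul_inv_cancel z), mul_one] at this }
  refine ⟨S, fun z hz => ⟨hz.1, hz.2.1⟩, fun z hz => hz.2.2.1, fun z hz => hz.2.2.2, ?_⟩
  have prod_conj : ∀ (a : U₁) (b : U₂), IsConj x a → IsConj y b →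
      IsConj ((x : G) * y) (a * b) := by
    intro a b ha hb
    obtain ⟨c, rfl⟩ := isConj_iff.mp ha
    obtain ⟨d, rfl⟩ := isConj_iff.mp hb
    refine isConj_iff.mpr ⟨c * d, ?_⟩
    simp only [Subgroup.coe_mul, Subgroup.coe_inv]
    calc (c : G) * d * (x * y) * (c * d : G)⁻¹ = c * (d * x) * y * (d : G)⁻¹ * (c : G)⁻¹ := by group
      _ = c * x * ((d * y * (d : G)⁻¹) * (c : G)⁻¹) := by rw [← hcomm x x.2 d d.2]; group
      _ = c * x * ((c : G)⁻¹ * (d * y * (d : G)⁻¹)) := by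
          rw [← hcomm _ (inv_mem c.2) _ (mul_mem (mul_mem d.2 y.2) (inv_mem d.2))]
      _ = c * x * (c : G)⁻¹ * (d * y * (d : G)⁻¹) := by group
  have split : ∀ g : {g : G // IsConj ((x : G) * y) g},
      ∃ p : {a : U₁ // IsConj x a} × {b : U₂ // IsConj y b}, (p.1.1 : G) * p.2.1 = g.1 := by
    rintro ⟨g, hg⟩
    obtain ⟨w, rfl⟩ := isConj_iff.mp hg
    obtain ⟨c, hc, d, hd, rfl⟩ := exists_mul_eq hgen w
    refine ⟨(⟨⟨c, hc⟩ * x * ⟨c, hc⟩⁻¹, isConj_iff.mpr ⟨_, rfl⟩⟩,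
      ⟨⟨d, hd⟩ * y * ⟨d, hd⟩⁻¹, isConj_iff.mpr ⟨_, rfl⟩⟩), ?_⟩
    simp only [Subgroup.coe_mul, Subgroup.coe_inv]
    calc c * (x : G) * c⁻¹ * (d * y * d⁻¹) = c * x * (c⁻¹ * (d * y * d⁻¹)) := by group
      _ = c * x * ((d * y * d⁻¹) * c⁻¹) := by
          rw [hcomm _ (inv_mem hc) _ (mul_mem (mul_mem hd y.2) (inv_mem hd))]
      _ = c * (x * d) * y * d⁻¹ * c⁻¹ := by group
      _ = c * d * (x * y) * (c * d)⁻¹ := by rw [hcomm x x.2 d hd]; group
  choose f hf using split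
  let F : {g : G // IsConj ((x : G) * y) g} × S →
      {a : U₁ // IsConj x a} × {b : U₂ // IsConj y b} := fun q =>
    (⟨(f q.1).1.1 * ⟨q.2, q.2.2.1⟩,
        q.2.2.2.2.1.trans (conjMul (hZ1 q.2.2.1 q.2.2.2.1) (f q.1).1.2)⟩,
      ⟨(f q.1).2.1 * ⟨(q.2 : G)⁻¹, inv_mem q.2.2.2.1⟩,
        (S.inv_mem q.2.2).2.2.2.trans (conjMul
          (hZ2 (inv_mem q.2.2.2.1) (inv_mem q.2.2.1)) (f q.1).2.2)⟩)
  have hF : ∀ q, ((F q).1.1 : G) * (F q).2.1 = q.1.1 := by
    rintro ⟨g, z⟩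
    show ((f g).1.1 : G) * z * ((f g).2.1 * (z : G)⁻¹) = g
    rw [hcomm _ (f g).1.1.2 _ z.2.2.1]
    calc (z : G) * (f g).1.1 * ((f g).2.1 * (z : G)⁻¹)
        = z * ((f g).1.1 * (f g).2.1) * (z : G)⁻¹ := by group
      _ = g := by
        rw [hf, Subtype.coe_mk]
        obtain ⟨a, ha, b, hb, he⟩ := exists_mul_eq hgen g.1
        rw [← he]
        calc (z : G) * (a * b) * (z : G)⁻¹ = (z * a) * b * (z : G)⁻¹ := by group
          _ = a * (z * b) * (z : G)⁻¹ := by rw [← hcomm a ha z z.2.2.1]; group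
          _ = a * (b * z) * (z : G)⁻¹ := by rw [hcomm z z.2.1 b hb]
          _ = a * b := by group
  rw [← Nat.card_prod, ← Nat.card_prod]
  refine Nat.card_eq_of_bijective F ⟨?_, ?_⟩
  · rintro ⟨g, z⟩ ⟨g', z'⟩ h
    have hg : g = g' := Subtype.ext (by rw [← hF (g, z), h, hF (g', z')])
    subst hg
    have h2 := congrArg (fun p => ((p.1.1 : U₁) : G)) h
    simp only [F, Subgroup.coe_mul, mul_right_inj] at h2
    exact Prod.ext rfl (Subtype.ext h2)
  · rintro ⟨⟨a, ha⟩, ⟨b, hb⟩⟩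
    set g : {g : G // IsConj ((x : G) * y) g} := ⟨(a : G) * b, prod_conj a b ha hb⟩
    have he : ((f g).1.1 : G) * (f g).2.1 = a * b := hf g
    have hz1 : ((f g).1.1 : G)⁻¹ * a ∈ U₁ := mul_mem (inv_mem (f g).1.1.2) a.2
    have hz2' : ((f g).1.1 : G)⁻¹ * a = (f g).2.1 * (b : G)⁻¹ := by
      rw [eq_mul_inv_iff_mul_eq, mul_assoc, ← he, inv_mul_cancel_left]
    have hz2 : ((f g).1.1 : G)⁻¹ * a ∈ U₂ := hz2' ▸ mul_mem (f g).2.1.2 (inv_mem b.2)
    have hxa : IsConj x (x * ⟨_, hz1⟩) := by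
      have h := conjMul (hZ1 hz1 hz2) (f g).1.2
      refine IsConj.trans ?_ h.symm
      convert ha using 1
      exact Subtype.ext (by simp)
    have hyb : IsConj y (y * ⟨_, hz2⟩) := by
      have h1 := conjMul (hZ2 hz2 hz1) hb
      refine IsConj.trans ?_ h1.symm
      have : b * ⟨_, hz2⟩ = (f g).2.1 := by
        rw [hZ2 hz2 hz1]
        exact Subtype.ext (by simp [hz2'])
      rw [this]
      exact (f g).2.2
    refine ⟨(g, ⟨_, hz1, hz2, hxa, hyb⟩), Prod.ext (Subtype.ext (Subtype.ext ?_))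
      (Subtype.ext (Subtype.ext ?_))⟩
    · simp [F]
    · have hcm := hcomm _ hz1 (f g).2.1 (f g).2.1.2
      show ((f g).2.1 : G) * (((f g).1.1 : G)⁻¹ * a)⁻¹ = b
      rw [← eq_mul_inv_iff_mul_eq, inv_inv, ← hcomm _ hz1 b b.2, hz2', inv_mul_cancel_right]

/-- Let the finite group G be generated by subgroups U₁ and U₂ that commute elementwise and whose intersection is a p-group, and let M be a maximal ideal of the algebraic integers containing the prime p. If the irreducible character χ of G has the irreducible constituents ψ₁ on U₁ and ψ₂ on U₂, then χ lies in the principal block of G if and only if ψ₁ and ψ₂ lie in the principal blocks of U₁ and U₂. -/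
theorem result {G : Type*} [Group G] [Fintype G] (p : ℕ) [Fact p.Prime] (M : Ideal Cfsg.AlgInt) (hM : Cfsg.IsPModular p M) (U₁ U₂ : Subgroup G) [Fintype U₁] [Fintype U₂] (hcomm : ∀ u ∈ U₁, ∀ v ∈ U₂, u * v = v * u) (hgen : U₁ ⊔ U₂ = ⊤) (hZ : IsPGroup p ↥(U₁ ⊓ U₂)) (χ : Cfsg.IrrCharacter G) (ψ₁ : Cfsg.IrrCharacter U₁) (ψ₂ : Cfsg.IrrCharacter U₂) (h₁ : Cfsg.classInner (fun u : U₁ => (χ : G → ℂ) u) (ψ₁ : U₁ → ℂ) ≠ 0) (h₂ : Cfsg.classInner (fun u : U₂ => (χ : G → ℂ) u) (ψ₂ : U₂ → ℂ) ≠ 0) : χ ∈ Cfsg.principalBlock M G ↔ (ψ₁ ∈ Cfsg.principalBlock M U₁ ∧ ψ₂ ∈ Cfsg.principalBlock M U₂) := by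
  classical
  haveI := hM.2.1
  haveI hn1 := normal_of_comm hcomm hgen
  have hcomm' : ∀ u ∈ U₂, ∀ v ∈ U₁, u * v = v * u := fun u hu v hv => (hcomm v hv u hu).symm
  have hgen' : U₂ ⊔ U₁ = ⊤ := sup_comm U₁ U₂ ▸ hgen
  have hr1 := ratio_eq hcomm hgen χ ψ₁ h₁
  have hr2 := ratio_eq hcomm' hgen' χ ψ₂ h₂
  have one_cc : ∀ {W : Type _} [Group W] [Finite W] (g : W),
      centralChar (fun _ : W => (1 : ℂ)) g = (Nat.card {a : W // IsConj g a} : ℂ) := by
    intro W _ _ g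
    rw [card_conjugates]
    simp [centralChar]
  have cc : ∀ {W : Type _} [Group W] [Finite W] (f : W → ℂ) (g : W),
      centralChar f g = (Nat.card {a : W // IsConj g a} : ℂ) * (f g / f 1) := by
    intro W _ _ f g
    rw [card_conjugates, centralChar, mul_div_assoc]
  have natLoc : ∀ n : ℕ, MemLocalRing M (n : ℂ) := fun n =>
    memLocalRing_of_isIntegral (isIntegral_algebraMap (x := (n : ℤ)))
  have hclass : ∀ (V W : Subgroup G), V ⊔ W = ⊤ → (∀ u ∈ V, ∀ v ∈ W, u * v = v * u) → ∀ v : V,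
      Nat.card {g : G // IsConj (v : G) g} = Nat.card {a : V // IsConj v a} := by
    intro V W hVW hc v
    haveI := normal_of_comm hc hVW
    refine (Nat.card_eq_of_bijective (fun a => ⟨(a.1 : G), V.subtype.map_isConj a.2⟩) ⟨?_, ?_⟩).symm
    · intro a b h
      exact Subtype.ext (Subtype.ext (congrArg Subtype.val h :))
    · rintro ⟨g, hg⟩
      obtain ⟨w, rfl⟩ := isConj_iff.mp hg
      obtain ⟨a, ha, b, hb, rfl⟩ := exists_mul_eq hVW w
      refine ⟨⟨⟨a, ha⟩ * v * ⟨a, ha⟩⁻¹, isConj_iff.mpr ⟨_, rfl⟩⟩, Subtype.ext ?_⟩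
      have hvb : b * (v : G) * b⁻¹ = v := by rw [← hc v v.2 b hb, mul_inv_cancel_right]
      simp only [Subgroup.coe_mul, Subgroup.coe_inv]
      calc a * (v : G) * a⁻¹ = a * (b * v * b⁻¹) * a⁻¹ := by rw [hvb]
        _ = a * b * v * (a * b)⁻¹ := by group
  constructor
  · intro h
    refine ⟨fun v => ?_, fun v => ?_⟩
    · have := h (v : G)
      rw [one_cc, cc, hclass U₁ U₂ hgen hcomm v] at this
      rw [one_cc, cc, ← hr1]
      exact this
    · have := h (v : G)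
      rw [one_cc, cc, hclass U₂ U₁ hgen' hcomm' v] at this
      rw [one_cc, cc, ← hr2]
      exact this
  · rintro ⟨b1, b2⟩ g
    obtain ⟨x', hx, y', hy, rfl⟩ := exists_mul_eq hgen g
    obtain ⟨x, rfl⟩ : ∃ x : U₁, (x : G) = x' := ⟨⟨x', hx⟩, rfl⟩
    obtain ⟨y, rfl⟩ : ∃ y : U₂, (y : G) = y' := ⟨⟨y', hy⟩, rfl⟩
    rw [one_cc, cc]
    obtain ⟨S, hS, hS1, hS2, hcard⟩ := class_data hcomm hgen x y
    set r1 := (ψ₁ : U₁ → ℂ) x / (ψ₁ : U₁ → ℂ) 1
    set r2 := (ψ₂ : U₂ → ℂ) y / (ψ₂ : U₂ → ℂ) 1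
    have hval : (χ : G → ℂ) ((x : G) * y) / (χ : G → ℂ) 1 = r1 * r2 := by
      rw [map_mul_eq hcomm hgen χ x y]
      simp only [r1, r2, ← hr1, ← hr2]
      ring
    rw [hval]
    set K := Nat.card {g : G // IsConj ((x : G) * y) g}
    set K1 := Nat.card {a : U₁ // IsConj x a}
    set K2 := Nat.card {b : U₂ // IsConj y b}
    have c1 : Congr M (K1 : ℂ) ((K1 : ℂ) * r1) := by
      have := b1 x; rwa [one_cc, cc] at this
    have c2 : Congr M (K2 : ℂ) ((K2 : ℂ) * r2) := by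
      have := b2 y; rwa [one_cc, cc] at this
    change Congr M (K : ℂ) ((K : ℂ) * (r1 * r2))
    by_cases hS1' : Nat.card S = 1
    · rw [hS1', mul_one] at hcard
      rw [hcard, Nat.cast_mul, show (K1 : ℂ) * K2 * (r1 * r2) = (K1 * r1) * (K2 * r2) by ring]
      have hloc : MemLocalRing M ((K1 : ℂ) * r1) := by
        have := memLocalRing_of_isIntegral (M := M) (centralChar_isIntegral ψ₁.2 x)
        rwa [cc] at this
      exact c1.mul c2 hloc (natLoc K2)
    · have hSp : IsPGroup p S := hZ.to_le hS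
      have hpS : p ∣ Nat.card S := by
        obtain ⟨k, hk⟩ := hSp.exists_card_eq
        rcases k with _ | k
        · exact absurd (by simpa using hk) hS1'
        · exact hk ▸ dvd_pow_self p k.succ_ne_zero
      have e1 : Nat.card (S.subgroupOf U₁) = Nat.card S :=
        Nat.card_congr (Subgroup.subgroupOfEquivOfLe (hS.trans inf_le_left)).toEquiv
      have e2 : Nat.card (S.subgroupOf U₂) = Nat.card S :=
        Nat.card_congr (Subgroup.subgroupOfEquivOfLe (hS.trans inf_le_right)).toEquiv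
      obtain ⟨m, hm, hmi⟩ := exists_card_class_eq_mul (S.subgroupOf U₁) (fun z hz => by
        rw [Subgroup.mem_center_iff]
        intro a
        exact Subtype.ext (hcomm a a.2 _ (hS (Subgroup.mem_subgroupOf.mp hz)).2)) x
        (fun z hz => hS1 z (Subgroup.mem_subgroupOf.mp hz))
      obtain ⟨m2, hm2, -⟩ := exists_card_class_eq_mul (S.subgroupOf U₂) (fun z hz => by
        rw [Subgroup.mem_center_iff]
        intro a
        exact Subtype.ext (hcomm' a a.2 _ (hS (Subgroup.mem_subgroupOf.mp hz)).1)) y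
        (fun z hz => hS2 z (Subgroup.mem_subgroupOf.mp hz))
      rw [e1] at hm
      rw [e2] at hm2
      have hK : K = m * K2 := by
        refine Nat.eq_of_mul_eq_mul_right (Nat.card_pos (α := S)) ?_
        rw [hcard, show K1 = Nat.card S * m from hm]
        ring
      have hK2 : MemLocalIdeal M (K2 : ℂ) :=
        (memLocalIdeal_natCast_iff hM K2).mpr ((show K2 = Nat.card S * m2 from hm2) ▸ hpS.mul_right _)
      have hK2r : MemLocalIdeal M ((K2 : ℂ) * r2) := c2.mem_iff.mp hK2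
      have hK' : MemLocalIdeal M ((K : ℂ) * (r1 * r2)) := by
        rw [hK, Nat.cast_mul, show (m : ℂ) * K2 * (r1 * r2) = (m * r1) * (K2 * r2) by ring]
        exact memLocalIdeal_mul_left (memLocalRing_of_isIntegral (hmi ψ₁)) hK2r
      refine memLocalIdeal_sub ?_ hK'
      rw [hK, Nat.cast_mul]
      exact memLocalIdeal_mul_left (natLoc m) hK2

end Cfsg.Agent.S4521
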