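import Cfsg.Statements.S4530
import Cfsg.Agent.Eq.Def_Blocks
import Cfsg.Agent.Eq.Def_BlockRank
import Cfsg.Agent.Blocks.TwoGen.Main

set_option autoImplicit false
open Cfsg

namespace Cfsg.Agent.S4530

/-- Let B be a 2-block of the finite group G (relative to a maximal ideal M of the algebraic integers containing 2) whose defect group D is generalized quaternion of order 2 ^ n, n ≥ 3. Then its 2-regular rank l is between 1 and 3, the number of irreducible characters in B is l + 2 ^ (n - 2) + 2, exactly four members have height zero, and every other member has height one or height n - 2; when n ≥ 4 exactly 2 ^ (n - 2) - 1 members have height one. -/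
theorem result {G : Type*} [Group G] [Finite G] (M : Ideal Cfsg.AlgInt) (hM : Cfsg.IsPModular 2 M) (B : Set (Cfsg.IrrCharacter G)) (hB : Cfsg.IsPBlock M B) (D : Subgroup G) (hD : Cfsg.IsDefectGroup 2 M B D) (n : ℕ) (hn : 3 ≤ n) (hq : Nonempty (D ≃* QuaternionGroup (2 ^ (n - 2)))) : 1 ≤ Cfsg.blockRank 2 B ∧ Cfsg.blockRank 2 B ≤ 3 ∧ Nat.card B = Cfsg.blockRank 2 B + 2 ^ (n - 2) + 2 ∧ Nat.card {χ : Cfsg.IrrCharacter G // χ ∈ B ∧ Cfsg.blockHeight 2 B (χ : G → ℂ) = 0} = 4 ∧ (∀ χ ∈ B, Cfsg.blockHeight 2 B (χ : G → ℂ) = 0 ∨ Cfsg.blockHeight 2 B (χ : G → ℂ) = 1 ∨ Cfsg.blockHeight 2 B (χ : G → ℂ) = n - 2) ∧ (4 ≤ n → Nat.card {χ : Cfsg.IrrCharacter G // χ ∈ B ∧ Cfsg.blockHeight 2 B (χ : G → ℂ) = 1} = 2 ^ (n - 2) - 1) := by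
  haveI := Fintype.ofFinite G
  haveI : M.IsMaximal := CfsgLib.Blocks.isMaximal_of_isPModular hM
  haveI : Fact (Nat.Prime 2) := ⟨Nat.prime_two⟩
  haveI : CharP (CfsgLib.Blocks.kres M) 2 := CfsgLib.Blocks.charP_kres hM
  obtain ⟨e⟩ := hq
  exact CfsgLib.Blocks.TwoGen.quaternion_invariants hM hB hD hn e


end Cfsg.Agent.S4530
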