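import Cfsg.Statements.S4531
import Cfsg.Agent.Eq.Def_Blocks
import Cfsg.Agent.Eq.Def_CaseTheorems
import Cfsg.Agent.Blocks.TameRankThree.Dihedral
import Cfsg.Agent.Blocks.TameRankThree.Semidihedral
import Cfsg.Agent.Blocks.TwoGen.Main

set_option autoImplicit false
open Cfsg

namespace Cfsg.Agent.S4531

/-- Let the finite group G have a 2-block B (relative to a maximal ideal M of the algebraic integers containing 2) of 2-regular rank three (three irreducible Brauer characters) whose defect group D is dihedral of order 2 ^ n with n ≥ 3 or semidihedral. Then the centre of G has odd order and G is not solvable. -/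
theorem result {G : Type*} [Group G] [Finite G] (M : Ideal Cfsg.AlgInt) (hM : Cfsg.IsPModular 2 M) (B : Set (Cfsg.IrrCharacter G)) (hB : Cfsg.IsPBlock M B) (D : Subgroup G) (hD : Cfsg.IsDefectGroup 2 M B D) (hD' : (∃ n : ℕ, 3 ≤ n ∧ Nonempty (D ≃* DihedralGroup (2 ^ (n - 1)))) ∨ Cfsg.IsQuasiDihedral D) (hl : Cfsg.blockRank 2 B = 3) : Odd (Nat.card (Subgroup.center G)) ∧ ¬ Group.IsSolvable G := by
  haveI := Fintype.ofFinite G
  haveI : M.IsMaximal := CfsgLib.Blocks.isMaximal_of_isPModular hM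
  haveI : Fact (Nat.Prime 2) := ⟨Nat.prime_two⟩
  haveI : CharP (CfsgLib.Blocks.kres M) 2 := CfsgLib.Blocks.charP_kres hM
  rcases hD' with ⟨n, hn, ⟨e⟩⟩ | hsd
  · obtain ⟨m, x, y, z, hm, hgen, hxz, hz2, hconj⟩ :=
      CfsgLib.Blocks.TameRankThree.dihedral_fusion hM hB hD hn e hl
    have hz1 : z ≠ 1 := by
      rintro rfl
      rw [orderOf_one] at hz2
      norm_num at hz2
    have hy : IsConj z y := by simpa using hconj 0
    have hxy : IsConj z (x * y) := by simpa using hconj 1
    refine ⟨?_, CfsgLib.Blocks.TameRankThree.not_isSolvable_dihedral hm hz1 hxz hgen.rel hy hxy⟩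
    exact CfsgLib.Blocks.TameRankThree.odd_center hM hB hD hgen hm hxz hy
  · obtain ⟨n, hcard⟩ : ∃ n, Nat.card D = 2 ^ n := by
      obtain ⟨k, -, hc, -⟩ := hsd
      exact ⟨k + 1, hc⟩
    obtain ⟨x, y, hn, hgen, hy⟩ := CfsgLib.Blocks.TwoGen.isGen_of_semidihedral hcard hsd
    have hfus : IsConj y (x ^ 2 ^ (n - 1 - 1)) := by
      by_contra hnc
      have := CfsgLib.Blocks.TwoGen.semidihedral_rank_le_two hM hB hD hgen (by omega) hy hnc
      omega
    have hy1 : y ≠ 1 := fun e => hgen.y_not_mem (e ▸ one_mem _)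
    refine CfsgLib.Blocks.TameRankThree.semidihedral_conclusion hD (n := n - 1) (by omega) hgen.card
      hgen.x_mem hgen.y_mem hgen.ox (orderOf_eq_prime (by rw [pow_two, hy]) hy1) ?_ hfus.symm
    rw [hgen.rel, ← zpow_natCast, Nat.cast_sub Nat.one_le_two_pow, show n - 1 - 1 = n - 2 by omega]
    push_cast
    rfl

end Cfsg.Agent.S4531
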