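import Cfsg.Statements.S4538
import Cfsg.Agent.SlBlocks.Count
-- import your own Cfsg.Agent.* helpers here

set_option autoImplicit false
open Cfsg

namespace Cfsg.Agent.S4538

/-- Let F be a finite field of characteristic p and n ≥ 2. Relative to a maximal ideal M of the algebraic integers containing p, the group SL(n, F) has exactly one p-block of defect zero, and every other p-block has full defect (its defect equals the exponent of p in the order of the group, so its defect groups are Sylow p-subgroups). -/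
theorem result {F : Type*} [Field F] [Fintype F] (n : ℕ) (hn : 2 ≤ n) (p : ℕ) [Fact p.Prime] [CharP F p] (M : Ideal Cfsg.AlgInt) (hM : Cfsg.IsPModular p M) : Nat.card {B : Set (Cfsg.IrrCharacter (Matrix.SpecialLinearGroup (Fin n) F)) // Cfsg.IsPBlock M B ∧ Cfsg.blockDefect p B = 0} = 1 ∧ ∀ B : Set (Cfsg.IrrCharacter (Matrix.SpecialLinearGroup (Fin n) F)), Cfsg.IsPBlock M B → Cfsg.blockDefect p B = 0 ∨ Cfsg.blockDefect p B = (Nat.card (Matrix.SpecialLinearGroup (Fin n) F)).factorization p := by
  obtain ⟨m, rfl⟩ : ∃ m, n = m + 1 := ⟨n - 1, by omega⟩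
  have hm : 0 < m := by omega
  haveI := hM.2.1
  open CfsgLib.SlBlocks in
  refine ⟨?_, fun B hB => ?_⟩
  · rw [Nat.card_eq_one_iff_unique]
    refine ⟨⟨fun a b => Subtype.ext ?_⟩, ⟨⟨{stIrr m F}, isPBlock_st hM, blockDefect_st⟩⟩⟩
    have key : ∀ B : Set (IrrCharacter (SLG m F)), IsPBlock M B → blockDefect p B = 0 →
        B = {stIrr m F} := fun B hB h0 => by
      by_contra hne
      rw [blockDefect_of_ne hM hm hB hne] at h0
      exact (factorization_pos (p := p) (F := F) hm).ne' h0
    rw [key a.1 a.2.1 a.2.2, key b.1 b.2.1 b.2.2]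
  · by_cases h : B = {CfsgLib.SlBlocks.stIrr m F}
    · exact Or.inl (h ▸ CfsgLib.SlBlocks.blockDefect_st)
    · exact Or.inr (CfsgLib.SlBlocks.blockDefect_of_ne hM hm hB h)

end Cfsg.Agent.S4538
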