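import Cfsg.Statements.S4540
import Cfsg.Agent.Blocks.Subsection.Major

set_option autoImplicit false
open Cfsg

namespace Cfsg.Agent.S4540

/-- Let B be a 2-block of the finite group G (relative to a maximal ideal M of the algebraic integers containing 2) of defect d with defect group D. Let z be an element of D commuting with every element of D, and let b be a block of the centralizer C of z with defect group D that induces B (a major subsection (z, b)). If b has 2-regular rank at most three, then 3·k(B) ≤ 3·k₀(B) + 2·Σ 2 ^ h(χ), where k(B) is the number of members of B, k₀(B) the number of members of height zero, and the sum runs over the members χ of B of positive height h(χ); this bound is at most 3·2 ^ d, so in particular B contains at most 2 ^ d irreducible characters. -/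
theorem result {G : Type*} [Group G] [Finite G] (M : Ideal Cfsg.AlgInt) (hM : Cfsg.IsPModular 2 M) (B : Set (Cfsg.IrrCharacter G)) (hB : Cfsg.IsPBlock M B) (D : Subgroup G) (hD : Cfsg.IsDefectGroup 2 M B D) (z : G) (hzD : z ∈ D) (hzc : ∀ d ∈ D, d * z = z * d) (b : Set (Cfsg.IrrCharacter ↥(Subgroup.centralizer ({z} : Set G)))) (hb : Cfsg.IsInducedBlock M (Subgroup.centralizer ({z} : Set G)) b B) (hbD : Cfsg.IsDefectGroup 2 M b (D.subgroupOf (Subgroup.centralizer ({z} : Set G)))) (hl : Cfsg.blockRank 2 b ≤ 3) : 3 * Nat.card B ≤ 3 * Nat.card {χ : Cfsg.IrrCharacter G // χ ∈ B ∧ Cfsg.blockHeight 2 B (χ : G → ℂ) = 0} + 2 * (∑ᶠ χ ∈ {χ : Cfsg.IrrCharacter G | χ ∈ B ∧ 1 ≤ Cfsg.blockHeight 2 B (χ : G → ℂ)}, 2 ^ Cfsg.blockHeight 2 B (χ : G → ℂ)) ∧ 3 * Nat.card {χ : Cfsg.IrrCharacter G // χ ∈ B ∧ Cfsg.blockHeight 2 B (χ : G → ℂ) = 0} + 2 * (∑ᶠ χ ∈ {χ : Cfsg.IrrCharacter G | χ ∈ B ∧ 1 ≤ Cfsg.blockHeight 2 B (χ : G → ℂ)}, 2 ^ Cfsg.blockHeight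 2 B (χ : G → ℂ)) ≤ 3 * 2 ^ Cfsg.blockDefect 2 B := by
  classical
  haveI := Fintype.ofFinite G
  haveI := Fintype.ofFinite ↥(Subgroup.centralizer ({z} : Set G))
  haveI := CfsgLib.Blocks.isMaximal_of_isPModular hM
  have hDcard := CfsgLib.Blocks.Contrib.natCard_defectGroup hM hB hD
  have hle : D ≤ Subgroup.centralizer ({z} : Set G) := fun d hd => by
    rw [Subgroup.mem_centralizer_singleton_iff]
    exact hzc d hd
  have hmaj : blockDefect 2 b = blockDefect 2 B := by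
    have h := CfsgLib.Blocks.Contrib.natCard_defectGroup hM hb.1 hbD
    rw [Nat.card_congr (Subgroup.subgroupOfEquivOfLe hle).toEquiv, hDcard] at h
    exact (Nat.pow_right_injective le_rfl h).symm
  have hz : z ^ 2 ^ (blockDefect 2 B + 1) = 1 := by
    have h := pow_card_eq_one' (x := (⟨z, hzD⟩ : D))
    rw [hDcard] at h
    have h' : z ^ 2 ^ blockDefect 2 B = 1 := by simpa using congrArg Subtype.val h
    rw [pow_succ, pow_mul, h', one_pow]
  obtain ⟨a, hrow, hpos, hsum, -, -⟩ :=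
    CfsgLib.Blocks.Contrib.major_two hM (u := z) rfl hz hb hmaj
  set d := blockDefect 2 B with hd
  set T := B.toFinite.toFinset with hT
  set h : IrrCharacter G → ℕ := fun χ => blockHeight 2 B (χ : G → ℂ) with hh
  set S₀ := T.filter fun χ => h χ = 0 with hS₀
  set S₁ := T.filter fun χ => ¬ h χ = 0 with hS₁
  have hcard : Nat.card B = S₀.card + S₁.card := by
    rw [hS₀, hS₁, Finset.card_filter_add_card_filter_not, hT, Nat.card_coe_set_eq,
      Set.ncard_eq_toFinset_card B B.toFinite]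
  have hk₀ : Nat.card {χ : IrrCharacter G // χ ∈ B ∧ blockHeight 2 B (χ : G → ℂ) = 0} = S₀.card := by
    rw [Nat.card_eq_fintype_card, Fintype.card_subtype]
    congr 1
    ext χ
    simp [hS₀, hT, hh]
  have hsig : (∑ᶠ χ ∈ {χ : IrrCharacter G | χ ∈ B ∧ 1 ≤ blockHeight 2 B (χ : G → ℂ)},
      2 ^ blockHeight 2 B (χ : G → ℂ)) = ∑ χ ∈ S₁, 2 ^ h χ := by
    rw [finsum_mem_eq_finite_toFinset_sum _ (Set.toFinite _)]
    refine Finset.sum_congr ?_ fun χ _ => rfl
    ext χ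
    simp [hS₁, hT, hh, Nat.one_le_iff_ne_zero]
  rw [hk₀, hsig, hcard]
  constructor
  · have h2 : 2 * S₁.card ≤ ∑ χ ∈ S₁, 2 ^ h χ := by
      rw [mul_comm, ← smul_eq_mul]
      exact S₁.card_nsmul_le_sum _ 2 fun χ hχ =>
        le_self_pow (by norm_num) (Finset.mem_filter.1 hχ).2
    omega
  · have hmem : ∀ χ ∈ T, χ ∈ B := fun χ hχ => (Set.Finite.mem_toFinset _).1 hχ
    have hsplit : ∀ f : IrrCharacter G → ℤ, ∑ χ ∈ T, f χ = ∑ χ ∈ S₀, f χ + ∑ χ ∈ S₁, f χ :=
      fun f => (Finset.sum_filter_add_sum_filter_not _ _ _).symm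
    have hS1 : 2 * ∑ χ ∈ S₁, (2 : ℤ) ^ h χ ≤ ∑ χ ∈ S₁, a χ := by
      rw [Finset.mul_sum]
      refine Finset.sum_le_sum fun χ hχ => ?_
      have := hpos χ (hmem χ (Finset.mem_filter.1 hχ).1) (Finset.mem_filter.1 hχ).2
      rwa [pow_succ'] at this
    zify
    push_cast
    by_cases hone : ∃ χ ∈ S₀, a χ ≤ 1
    · obtain ⟨χ, hχ, h1⟩ := hone
      obtain ⟨-, hle'⟩ := hrow χ (hmem χ (Finset.mem_filter.1 hχ).1) (Finset.mem_filter.1 hχ).2
      have h4 : ∑ χ ∈ T, (4 : ℤ) ^ h χ ≤ 2 ^ d * 1 :=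
        hle'.trans (mul_le_mul_of_nonneg_left h1 (by positivity))
      rw [hsplit] at h4
      have h5 : (S₀.card : ℤ) ≤ ∑ χ ∈ S₀, (4 : ℤ) ^ h χ := by
        simpa using S₀.card_nsmul_le_sum (fun χ => (4 : ℤ) ^ h χ) 1 fun χ _ => one_le_pow₀ (by norm_num)
      have h6 : ∑ χ ∈ S₁, (2 : ℤ) ^ h χ ≤ ∑ χ ∈ S₁, (4 : ℤ) ^ h χ :=
        Finset.sum_le_sum fun χ _ => pow_le_pow_left₀ (by norm_num) (by norm_num) _
      have h7 : (0 : ℤ) ≤ ∑ χ ∈ S₁, (4 : ℤ) ^ h χ := Finset.sum_nonneg fun χ _ => by positivity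
      linarith
    · push_neg at hone
      have h5 : (S₀.card : ℤ) * 3 ≤ ∑ χ ∈ S₀, a χ := by
        simpa using S₀.card_nsmul_le_sum a 3 fun χ hχ => by
          obtain ⟨i, hi⟩ := (hrow χ (hmem χ (Finset.mem_filter.1 hχ).1) (Finset.mem_filter.1 hχ).2).1
          have := hone χ hχ
          omega
      have h6 : (2 : ℤ) ^ d * (blockRank 2 b : ℤ) ≤ 2 ^ d * 3 :=
        mul_le_mul_of_nonneg_left (by exact_mod_cast hl) (by positivity)
      have h7 := hsplit a
      linarith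

end Cfsg.Agent.S4540
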