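import Cfsg.Statements.S4541
import Cfsg.Agent.Blocks.Subsection.TwoBound

set_option autoImplicit false
open Cfsg

namespace Cfsg.Agent.S4541

/-- Let B be a 2-block of the finite group G (relative to a maximal ideal M of the algebraic integers containing 2), u a 2-element, and b a block of the centralizer of u inducing B (a subsection (u, b)), of defect q and 2-regular rank l; write s for the integer square root of l and k₀(B) for the number of members of B of height zero. If s is odd then k₀(B) ≤ s·2 ^ q, and otherwise (s + 1)·k₀(B) ≤ l·2 ^ q; in particular k₀(B) ≤ 2 ^ q when l ≤ 3. -/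
theorem result {G : Type*} [Group G] [Finite G] (M : Ideal Cfsg.AlgInt) (hM : Cfsg.IsPModular 2 M) (B : Set (Cfsg.IrrCharacter G)) (hB : Cfsg.IsPBlock M B) (u : G) (hu : ∃ j : ℕ, orderOf u = 2 ^ j) (b : Set (Cfsg.IrrCharacter ↥(Subgroup.centralizer ({u} : Set G)))) (hb : Cfsg.IsInducedBlock M (Subgroup.centralizer ({u} : Set G)) b B) : (Odd (Nat.sqrt (Cfsg.blockRank 2 b)) → Nat.card {χ : Cfsg.IrrCharacter G // χ ∈ B ∧ Cfsg.blockHeight 2 B (χ : G → ℂ) = 0} ≤ Nat.sqrt (Cfsg.blockRank 2 b) * 2 ^ Cfsg.blockDefect 2 b) ∧ (¬ Odd (Nat.sqrt (Cfsg.blockRank 2 b)) → (Nat.sqrt (Cfsg.blockRank 2 b) + 1) * Nat.card {χ : Cfsg.IrrCharacter G // χ ∈ B ∧ Cfsg.blockHeight 2 B (χ : G → ℂ) = 0} ≤ Cfsg.blockRank 2 b * 2 ^ Cfsg.blockDefect 2 b) ∧ (Cfsg.blockRank 2 b ≤ 3 → Nat.card {χ : Cfsg.IrrCharacter G // χ ∈ B ∧ Cfsg.blockHeight 2 B (χ : G → ℂ) = 0} ≤ 2 ^ Cfsg.blockDefect 2 b) := by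
  classical
  haveI := Fintype.ofFinite G
  haveI := Fintype.ofFinite ↥(Subgroup.centralizer ({u} : Set G))
  obtain ⟨j, hj⟩ := hu
  have hu' : u ^ 2 ^ (j + 1) = 1 := by
    rw [pow_succ, pow_mul, ← hj, pow_orderOf_eq_one, one_pow]
  set S : Finset (IrrCharacter G) :=
    Finset.univ.filter fun χ => χ ∈ B ∧ blockHeight 2 B (χ : G → ℂ) = 0 with hSdef
  have hS : ∀ χ ∈ S, χ ∈ B ∧ blockHeight 2 B (χ : G → ℂ) = 0 :=
    fun χ hχ => (Finset.mem_filter.1 hχ).2
  obtain ⟨a, ha, hsum⟩ := CfsgLib.Blocks.Contrib.exists_odd_means hM (u := u) rfl hu' hb S hS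
  rw [Nat.card_eq_fintype_card, Fintype.card_subtype, ← hSdef]
  set l := blockRank 2 b with hl
  set q := blockDefect 2 b with hq
  set c := S.card with hc
  set s := Nat.sqrt l with hs
  have hls : (l : ℤ) ≤ (s : ℤ) * (s + 2) := by
    have := Nat.lt_succ_sqrt' l
    rw [← hs] at this
    have h' : (l : ℤ) < ((s : ℤ) + 1) ^ 2 := by exact_mod_cast this
    nlinarith
  have hsl : (s : ℤ) * s ≤ l := by exact_mod_cast Nat.sqrt_le l
  have hq0 : (0 : ℤ) < 2 ^ q := pow_pos two_pos q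
  have lower : ∀ m : ℤ, (∀ χ ∈ S, m ≤ a χ) → (c : ℤ) * m ≤ 2 ^ q * l := fun m hm =>
    le_trans (by simpa using S.card_nsmul_le_sum a m hm) hsum
  have h1 : Odd s → c ≤ s * 2 ^ q := by
    intro hodd
    by_contra hlt
    have hlt' : (s : ℤ) * 2 ^ q < c := by exact_mod_cast not_le.1 hlt
    have h := lower (s + 2) fun χ hχ => by
      obtain ⟨ho, hle⟩ := ha χ hχ
      have : (s : ℤ) < a χ := lt_of_mul_lt_mul_left (by linarith) hq0.le
      obtain ⟨i, hi⟩ := ho
      obtain ⟨i', hi'⟩ := hodd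
      omega
    nlinarith
  have h2 : ¬ Odd s → (s + 1) * c ≤ l * 2 ^ q := by
    intro heven
    by_cases hall : ∀ χ ∈ S, (s : ℤ) + 1 ≤ a χ
    · have := lower _ hall
      zify
      linarith
    · push_neg at hall
      obtain ⟨χ, hχ, hlt⟩ := hall
      obtain ⟨⟨i, hi⟩, hle⟩ := ha χ hχ
      obtain ⟨i', hi'⟩ := Nat.not_odd_iff_even.1 heven
      have : a χ ≤ (s : ℤ) - 1 := by omega
      zify
      nlinarith [mul_le_mul_of_nonneg_left this hq0.le]
  refine ⟨h1, h2, fun h3 => ?_⟩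
  have : s ≤ 1 := by
    by_contra h
    have : 2 * 2 ≤ s * s := Nat.mul_le_mul (not_le.1 h) (not_le.1 h)
    have := Nat.sqrt_le l
    omega
  interval_cases hsv : s
  · have hl0 : l = 0 := Nat.sqrt_eq_zero.1 hs.symm
    have := h2 (by decide)
    rw [hl0] at this
    simp only [zero_mul, Nat.zero_add, one_mul, nonpos_iff_eq_zero] at this
    rw [this]
    exact Nat.zero_le _
  · simpa using h1 odd_one

end Cfsg.Agent.S4541
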