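import Cfsg.Statements.S4549
import Cfsg.Agent.Eq.Def_Blocks
import Cfsg.Agent.Eq.Def_Transfer
import Cfsg.Agent.Blocks.PrincipalLinear
import Cfsg.Agent.Blocks.Orth.DegreeSquares
import Cfsg.Agent.Blocks.Orth.PrincipalGalois
import Cfsg.Agent.PGroup.Frattini

set_option autoImplicit false
open Cfsg

namespace Cfsg.Agent.S4549

open CfsgLib CfsgLib.Blocks

universe u

/-- A sum invariant under a permutation of two-power order is congruent to its fixed part. -/
theorem sum_eq_sum_fixed {α : Type*} [DecidableEq α] (e : ℕ) (σ : α → α) (F : α → ZMod 2) :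
    ∀ s : Finset α, (∀ x ∈ s, σ x ∈ s) → (∀ x ∈ s, σ^[2 ^ e] x = x) →
      (∀ x ∈ s, F (σ x) = F x) → ∑ x ∈ s, F x = ∑ x ∈ s.filter (fun x => σ x = x), F x := by
  induction e with
  | zero =>
    intro s _ hs _
    rw [Finset.filter_true_of_mem fun x hx => by simpa using hs x hx]
  | succ e ih =>
    intro s hmem hs hF
    set τ := σ^[2 ^ e] with hτ
    have hτmem : ∀ n, ∀ x ∈ s, σ^[n] x ∈ s ∧ F (σ^[n] x) = F x := by
      intro n
      induction n with
      | zero => exact fun x hx => ⟨hx, rfl⟩
      | succ n ihn =>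
        intro x hx
        rw [Function.iterate_succ_apply']
        exact ⟨hmem _ (ihn x hx).1, (hF _ (ihn x hx).1).trans (ihn x hx).2⟩
    have hττ : ∀ x ∈ s, τ (τ x) = x := fun x hx => by
      rw [hτ, ← Function.iterate_add_apply, ← two_mul, ← pow_succ']
      exact hs x hx
    have h0 : ∑ x ∈ s.filter (fun x => ¬ τ x = x), F x = 0 := by
      refine Finset.sum_involution (fun x _ => τ x) (fun x hx => ?_) (fun x hx _ => ?_)
        (fun x hx => ?_) (fun x hx => ?_)
      · rw [(hτmem _ x (Finset.mem_filter.1 hx).1).2]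
        exact CharTwo.add_self_eq_zero _
      · exact (Finset.mem_filter.1 hx).2
      · obtain ⟨hxs, hne⟩ := Finset.mem_filter.1 hx
        exact Finset.mem_filter.2 ⟨(hτmem _ x hxs).1, fun h => hne (by rw [hττ x hxs] at h; exact h.symm)⟩
      · exact hττ x (Finset.mem_filter.1 hx).1
    rw [← Finset.sum_filter_add_sum_filter_not s (fun x => τ x = x), h0, add_zero,
      ih (s.filter fun x => τ x = x) (fun x hx => ?_) (fun x hx => (Finset.mem_filter.1 hx).2)
        (fun x hx => hF x (Finset.mem_filter.1 hx).1), Finset.filter_filter]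
    · refine Finset.sum_congr (Finset.filter_congr fun x _ => ⟨fun h => h.2, fun h => ⟨?_, h⟩⟩)
        fun _ _ => rfl
      exact Function.iterate_fixed h _
    · obtain ⟨hxs, hfx⟩ := Finset.mem_filter.1 hx
      refine Finset.mem_filter.2 ⟨hmem x hxs, ?_⟩
      rw [hτ, ← Function.iterate_succ_apply, Function.iterate_succ_apply', ← hτ, hfx]

/-- Iterating the power map: after `2 ^ a` steps every element is fixed. -/
theorem pow_iterate_eq {G : Type u} [Group G] [Finite G] {k a : ℕ}
    (ha : (Nat.card G).factorization 2 = a)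
    (hk₁ : ∀ g : G, (∃ j : ℕ, orderOf g = 2 ^ j) → g ^ k = g ^ 3)
    (hk₂ : ∀ g : G, Odd (orderOf g) → g ^ k = g) (g : G) : g ^ k ^ 2 ^ a = g := by
  obtain ⟨u, s, hg, hc, ⟨c, hc'⟩, hs⟩ := exists_isPPart (p := 2) (G := G) Nat.prime_two g
  have hsodd : Odd (orderOf s) := Nat.not_even_iff_odd.1 fun h => hs h.two_dvd
  have h1 : ∀ j, s ^ k ^ j = s := by
    intro j
    induction j with
    | zero => simp
    | succ j ih => rw [pow_succ, pow_mul, ih, hk₂ s hsodd]
  have h2 : ∀ j, u ^ k ^ j = u ^ 3 ^ j := by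
    intro j
    induction j with
    | zero => simp
    | succ j ih =>
      rw [pow_succ, pow_mul, ih, hk₁ (u ^ 3 ^ j) ?_, ← pow_mul, pow_succ]
      obtain ⟨i, -, hi⟩ := (Nat.dvd_prime_pow Nat.prime_two).1
        ((orderOf_pow_dvd (x := u) (3 ^ j)).trans (dvd_of_eq hc'))
      exact ⟨i, hi⟩
  have hca : c ≤ a := by
    rw [← ha, ← Nat.prime_two.pow_dvd_iff_le_factorization Nat.card_pos.ne', ← hc']
    exact orderOf_dvd_natCard u
  have h3 : u ^ 3 ^ 2 ^ a = u := by
    conv_rhs => rw [← pow_one u]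
    rw [pow_eq_pow_iff_modEq, hc']
    have htot : Nat.totient (2 ^ c) ∣ 2 ^ a := by
      rcases Nat.eq_zero_or_pos c with rfl | hc0
      · simp
      · rw [Nat.totient_prime_pow Nat.prime_two hc0, Nat.add_one_sub_one, mul_one]
        exact pow_dvd_pow 2 (by omega)
    obtain ⟨q, hq⟩ := htot
    rw [hq, pow_mul]
    simpa using (Nat.ModEq.pow_totient ((Nat.coprime_primes Nat.prime_three Nat.prime_two).2
      (by norm_num) |>.pow_right c)).pow q
  rw [← hg, hc.mul_pow, h1, h2, h3]

/-- Let G be a finite group and M a maximal ideal of the algebraic integers containing 2. Let k be a natural number with g ^ k = g ^ 3 for every 2-element g and g ^ k = g for every element g of odd order (such k exist); an irreducible character χ is unchanged by g ↦ g ^ k exactly when it is fixed by the field automorphism that cubes the 2-power roots of unity and fixes the roots of unity of odd order. Then G has a normal 2-complement if and only if every member χ of the principal 2-block of odd degree with χ (g ^ k)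 = χ g for all g has degree one. -/
theorem result {G : Type*} [Group G] [Finite G] (M : Ideal Cfsg.AlgInt) (hM : Cfsg.IsPModular 2 M) (k : ℕ) (hk₁ : ∀ g : G, (∃ j : ℕ, orderOf g = 2 ^ j) → g ^ k = g ^ 3) (hk₂ : ∀ g : G, Odd (orderOf g) → g ^ k = g) : Cfsg.HasNormalPComplement 2 G ↔ ∀ χ ∈ Cfsg.principalBlock M G, Odd (Cfsg.charDegree (χ : G → ℂ)) → (∀ g : G, (χ : G → ℂ) (g ^ k) = (χ : G → ℂ) g) → Cfsg.charDegree (χ : G → ℂ) = 1 := by
  classical
  have hp2 : Fact (Nat.Prime 2) := ⟨Nat.prime_two⟩
  have := isMaximal_of_isPModular hM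
  have : Fintype G := Fintype.ofFinite G
  constructor
  · exact fun hG χ hχ hodd _ => PrincipalLinear.degree_eq_one_of_complement hM hG hχ
      fun h => Nat.not_even_iff_odd.2 hodd (even_iff_two_dvd.2 h)
  intro hlin
  let P : Sylow 2 G := default
  refine PrincipalLinear.hasNormalPComplement P fun x hx => ?_
  by_contra hxf
  rw [CfsgLib.PGroup.mem_frattini_iff] at hxf
  push Not at hxf
  obtain ⟨K, hK, hxK⟩ := hxf
  have hKi := CfsgLib.PGroup.index_of_coatom P.2 hK
  -- a linear character of order two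
  let μ : (P : Subgroup G) →* ℂˣ :=
    { toFun := fun y => if y ∈ K then 1 else -1
      map_one' := if_pos K.one_mem
      map_mul' := fun y z => by
        have h := Subgroup.mul_mem_iff_of_index_two hKi (a := y) (b := z)
        by_cases hy : y ∈ K <;> by_cases hz : z ∈ K <;> simp [h, hy, hz] }
  have hμx : μ x = -1 := if_neg hxK
  have hμk : ∀ y, μ (y ^ k) = μ y := by
    intro y
    have hy : y ^ k = y ^ 3 := Subtype.ext (by
      rw [SubgroupClass.coe_pow, SubgroupClass.coe_pow]
      obtain ⟨j, hj⟩ := IsPGroup.iff_orderOf.1 P.2 y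
      exact hk₁ _ ⟨j, (Subgroup.orderOf_coe y).trans hj⟩)
    rw [hy, map_pow]
    show (if y ∈ K then (1 : ℂˣ) else -1) ^ 3 = if y ∈ K then 1 else -1
    split_ifs
    · simp
    · ext; norm_num
  have hcop : Nat.Coprime k (Nat.card G) := by
    refine Nat.coprime_of_dvd fun r hr hrk hrG => ?_
    have : Fact r.Prime := ⟨hr⟩
    obtain ⟨g, hg⟩ := exists_prime_orderOf_dvd_card' r hrG
    have hk0 : g ^ k = 1 := orderOf_dvd_iff_pow_eq_one.1 (hg ▸ hrk)
    rcases eq_or_ne r 2 with rfl | hr2
    · have h := hk₁ g ⟨1, by rw [hg, pow_one]⟩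
      rw [hk0, eq_comm, ← orderOf_dvd_iff_pow_eq_one, hg] at h
      norm_num at h
    · have h := hk₂ g (hg ▸ hr.odd_of_ne_two hr2)
      rw [hk0] at h
      rw [← h, orderOf_one] at hg
      exact hr.ne_one hg.symm
  set S := (principalBlock M G).toFinite.toFinset with hSdef
  have hex : ∀ χ : IrrCharacter G, ∃ c : ℕ,
      classInner (fun y : (P : Subgroup G) => (χ : G → ℂ) y)
        (Chars.linChar μ : ↥(P : Subgroup G) → ℂ) = c :=
    fun χ => Chars.exists_nat_classInner
      (Chars.isCharacter_restrict (Chars.isCharacter_coe χ) _) (Chars.linChar μ)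
  choose c hc using hex
  -- the weighted sum is odd
  have hsum : (∑ χ ∈ S, charDegree (χ : G → ℂ) * c χ) * Nat.card (P : Subgroup G) =
      ∑ χ ∈ S, charDegree (χ : G → ℂ) ^ 2 := by
    have e : ((∑ χ ∈ S, charDegree (χ : G → ℂ) * c χ : ℕ) : ℂ) =
        (Nat.card (P : Subgroup G) : ℂ)⁻¹ * ((∑ χ ∈ S, charDegree (χ : G → ℂ) ^ 2 : ℕ) : ℂ) := by
      push_cast
      simp only [← hc, classInner, Chars.coe_charDegree, Finset.mul_sum]
      rw [Finset.sum_comm, Finset.sum_eq_single (1 : (P : Subgroup G))]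
      · refine Finset.sum_congr rfl fun χ _ => ?_
        simp
        ring
      · intro y _ hy
        have hdvd : 2 ∣ orderOf (y : G) := by
          obtain ⟨n, hn⟩ := IsPGroup.iff_orderOf.1 P.2 y
          rw [Subgroup.orderOf_coe, hn]
          rcases Nat.eq_zero_or_pos n with rfl | hn0
          · simp [hy] at hn
          · exact dvd_pow_self 2 hn0.ne'
        have h0 := finsum_block_one_mul_singular hM (PrincipalLinear.isPBlock_principal (G := G) M) hdvd
        rw [finsum_block_eq_sum] at h0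
        calc _ = (Nat.card (P : Subgroup G) : ℂ)⁻¹ *
              starRingEnd ℂ ((Chars.linChar μ : ↥(P : Subgroup G) → ℂ) y) *
              ∑ χ ∈ S, (χ : G → ℂ) 1 * (χ : G → ℂ) y := by
              rw [Finset.mul_sum]
              exact Finset.sum_congr rfl fun χ _ => by ring
          _ = 0 := by rw [h0, mul_zero]
      · simp
    rw [inv_mul_eq_div, eq_div_iff (Nat.cast_ne_zero.2 Nat.card_pos.ne')] at e
    exact_mod_cast e
  obtain ⟨hne0, hfac⟩ := factorization_sum_degree_sq (G := G) hM isPBlock_principalBlock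
  have hmin : HeightZero.minExp 2 (principalBlock M G) = 0 := by
    have h := HeightZero.minExp_le (p := 2) (B := principalBlock M G) (oneChar_mem_principalBlock (G := G))
    have h1 : charDegree (Chars.oneChar G : G → ℂ) = 1 := by
      rw [← Nat.cast_inj (R := ℂ), Chars.coe_charDegree, Chars.oneChar_apply, Nat.cast_one]
    rw [h1] at h
    simpa using h
  have hT : ¬ 2 ∣ ∑ χ ∈ S, charDegree (χ : G → ℂ) * c χ := by
    intro hd
    rw [← hSdef, ← hsum] at hne0 hfac
    rw [Nat.factorization_mul (left_ne_zero_of_mul hne0) Nat.card_pos.ne', Finsupp.add_apply,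
      P.card_eq_multiplicity, Nat.Prime.factorization_pow Nat.prime_two, Finsupp.single_eq_same,
      hmin] at hfac
    have h := (Nat.prime_two).factorization_pos_of_dvd (left_ne_zero_of_mul hne0) hd
    omega
  -- Galois parity
  obtain ⟨a, ha⟩ : ∃ a, (Nat.card G).factorization 2 = a := ⟨_, rfl⟩
  have hiter : ∀ n (χ : IrrCharacter G) (g : G),
      ((Orth.powIrr hcop)^[n] χ : G → ℂ) g = (χ : G → ℂ) (g ^ k ^ n) := by
    intro n
    induction n with
    | zero => simp
    | succ n ih =>
      intro χ g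
      rw [Function.iterate_succ_apply', Orth.powIrr_apply, ih, ← pow_mul, ← pow_succ']
  have hFinv : ∀ χ ∈ S, ((charDegree (Orth.powIrr hcop χ : G → ℂ) * c (Orth.powIrr hcop χ) : ℕ) : ZMod 2) =
      ((charDegree (χ : G → ℂ) * c χ : ℕ) : ZMod 2) := by
    intro χ _
    have h1 : charDegree (Orth.powIrr hcop χ : G → ℂ) = charDegree (χ : G → ℂ) := by
      rw [← Nat.cast_inj (R := ℂ), Chars.coe_charDegree, Chars.coe_charDegree, Orth.powIrr_apply,
        one_pow]
    have h2 : c (Orth.powIrr hcop χ) = c χ := by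
      rw [← Nat.cast_inj (R := ℂ), ← hc, ← hc, classInner, classInner]
      refine congrArg _ (Fintype.sum_equiv (powCoprime (G := (P : Subgroup G))
        (Nat.Coprime.symm (hcop.coprime_dvd_right (Subgroup.card_subgroup_dvd_card _)))) _ _
        fun y => ?_)
      simp only [powCoprime_apply, Orth.powIrr_apply, SubgroupClass.coe_pow, Chars.linChar_apply,
        hμk]
    rw [h1, h2]
  have hpar := sum_eq_sum_fixed a (Orth.powIrr hcop)
    (fun χ => ((charDegree (χ : G → ℂ) * c χ : ℕ) : ZMod 2)) S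
    (fun χ hχ => by
      rw [hSdef, Set.Finite.mem_toFinset] at hχ ⊢
      exact Orth.powIrr_mem_principalBlock hcop hχ)
    (fun χ _ => Subtype.ext (funext fun g => by rw [hiter, pow_iterate_eq ha hk₁ hk₂]))
    hFinv
  obtain ⟨χ, hχS, hχ0⟩ : ∃ χ ∈ S.filter (fun χ => Orth.powIrr hcop χ = χ),
      ((charDegree (χ : G → ℂ) * c χ : ℕ) : ZMod 2) ≠ 0 := by
    refine Finset.exists_ne_zero_of_sum_ne_zero ?_
    rw [← hpar, ← Nat.cast_sum, Ne, CharP.cast_eq_zero_iff (ZMod 2) 2]
    exact hT
  obtain ⟨hχB, hχfix⟩ := Finset.mem_filter.1 hχS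
  rw [hSdef, Set.Finite.mem_toFinset] at hχB
  rw [Ne, CharP.cast_eq_zero_iff (ZMod 2) 2] at hχ0
  have hdeg := hlin χ hχB (Nat.not_even_iff_odd.1 fun h => hχ0 (h.two_dvd.mul_right _))
    fun g => by rw [← Orth.powIrr_apply hcop, hχfix]
  obtain ⟨l, rfl⟩ := Chars.exists_linChar_eq χ (by rw [← Chars.coe_charDegree, hdeg]; simp)
  have he := hc (Chars.linChar l)
  rw [show (fun y : (P : Subgroup G) => (Chars.linChar l : G → ℂ) y) =
    (Chars.linChar (l.comp (P : Subgroup G).subtype) : ↥(P : Subgroup G) → ℂ) from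
      funext fun y => by simp, Chars.classInner_irr] at he
  split_ifs at he with h
  · have h1 := DFunLike.congr_fun (Chars.linChar_injective h) x
    rw [MonoidHom.comp_apply, Subgroup.coe_subtype, hμx,
      MonoidHom.mem_ker.1 (Abelianization.commutator_subset_ker l hx)] at h1
    exact absurd (congrArg Units.val h1) (by norm_num)
  · have h0 : c (Chars.linChar l) = 0 := by exact_mod_cast he.symm
    exact hχ0 (by rw [h0, mul_zero]; exact dvd_zero 2)

end Cfsg.Agent.S4549
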