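import Cfsg.Statements.S4550
import Cfsg.Agent.Blocks.Basic.Principal
import Cfsg.Agent.Blocks.Orth.SecondMain
import Cfsg.Agent.Chars.Basic.Galois
import Cfsg.Agent.Chars.Basic.Columns
import Cfsg.Agent.Chars.GaloisHom.Basic
import Mathlib.GroupTheory.PGroup
import Cfsg.Agent.Eq.Def_Characters
import Cfsg.Agent.Eq.Def_Blocks

set_option autoImplicit false
open Cfsg

namespace Cfsg.Agent.S4550

open CfsgLib.Chars

theorem two_pow_dvd : ∀ a : ℕ, 2 ^ (a + 1) ∣ 3 ^ 2 ^ a - 1
  | 0 => by norm_num
  | a + 1 => by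
    obtain ⟨q, hq⟩ := two_pow_dvd a
    have h1 := Nat.one_le_pow (2 ^ a) 3 (by norm_num)
    have h2 : 3 ^ 2 ^ (a + 1) = 2 ^ (a + 2) * (2 ^ a * q * q + q) + 1 := by
      rw [pow_succ 2 a, pow_mul, pow_two, show 3 ^ 2 ^ a = 2 ^ (a + 1) * q + 1 by omega]
      ring
    exact ⟨2 ^ a * q * q + q, by rw [h2, Nat.add_sub_cancel]⟩

/-- Let G be a finite group of even order and M a maximal ideal of the algebraic integers containing 2. Let k be a natural number with g ^ k = g ^ 3 for every 2-element g and g ^ k = g for every element g of odd order (such k exist); an irreducible character χ is unchanged by g ↦ g ^ k exactly when it is fixed by the field automorphism that cubes the 2-power roots of unity and fixes the roots of unity of odd order. Then the number of members χ of the principal 2-block of odd degree with χ (g ^ k) = χ g for all g is even. -/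
theorem result {G : Type*} [Group G] [Finite G] (M : Ideal Cfsg.AlgInt) (hM : Cfsg.IsPModular 2 M) (hev : Even (Nat.card G)) (k : ℕ) (hk₁ : ∀ g : G, (∃ j : ℕ, orderOf g = 2 ^ j) → g ^ k = g ^ 3) (hk₂ : ∀ g : G, Odd (orderOf g) → g ^ k = g) : Even (Nat.card {χ : Cfsg.IrrCharacter G // χ ∈ Cfsg.principalBlock M G ∧ Odd (Cfsg.charDegree (χ : G → ℂ)) ∧ ∀ g : G, (χ : G → ℂ) (g ^ k) = (χ : G → ℂ) g}) := by
  classical
  have := hM.2.1
  let _ := Fintype.ofFinite G
  have hcop : Nat.Coprime k (Nat.card G) := by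
    refine Nat.coprime_of_dvd fun r hr hrk hrG => ?_
    have : Fact r.Prime := ⟨hr⟩
    obtain ⟨g, hg⟩ := exists_prime_orderOf_dvd_card' r hrG
    have hk0 : g ^ k = 1 := orderOf_dvd_iff_pow_eq_one.1 (hg ▸ hrk)
    rcases hr.eq_two_or_odd' with rfl | hr2
    · have h := hk₁ g ⟨1, by rw [hg, pow_one]⟩
      rw [hk0, eq_comm, ← orderOf_dvd_iff_pow_eq_one, hg] at h
      omega
    · have h := hk₂ g (hg ▸ hr2)
      rw [hk0] at h
      rw [← h, orderOf_one] at hg
      exact hr.ne_one hg.symm
  -- the permutation of the characters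
  obtain ⟨σ, hσ⟩ := CfsgLib.GaloisHom.exists_ringHom_char (Nat.card_pos (α := G)) hcop
  have hirr : ∀ χ : IrrCharacter G, IsIrrCharacter G (fun g => (χ : G → ℂ) (g ^ k)) := fun χ => by
    convert isIrrCharacter_ringHom χ.2 σ using 1
    exact funext fun g => (hσ (isCharacter_coe χ) g (orderOf_dvd_natCard g)).symm
  let F : IrrCharacter G → IrrCharacter G := fun χ => ⟨_, hirr χ⟩
  have hbij : Function.Bijective (fun g : G => g ^ k) := (powCoprime hcop.symm).bijective
  have hFinj : Function.Injective F := fun χ ψ h => Subtype.ext (funext fun g => by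
    obtain ⟨x, rfl⟩ := hbij.2 g
    exact congrFun (congrArg Subtype.val h) x)
  let S : Set (IrrCharacter G) :=
    {χ | χ ∈ principalBlock M G ∧ Odd (charDegree (χ : G → ℂ))}
  have hcent : ∀ g : G, Subgroup.centralizer ({g ^ k} : Set G) = Subgroup.centralizer ({g} : Set G) := by
    intro g
    obtain ⟨j, hj⟩ := exists_pow_eq_self_of_coprime
      (hcop.coprime_dvd_right (orderOf_dvd_natCard g))
    ext x
    simp only [Subgroup.mem_centralizer_singleton_iff]
    constructor
    · intro hx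
      rw [← hj]
      exact (Commute.pow_right (show Commute x (g ^ k) from hx) j)
    · intro hx
      exact (Commute.pow_right (show Commute x g from hx) k)
  have hFS : ∀ χ ∈ S, F χ ∈ S := by
    intro χ hχ
    refine ⟨fun g => ?_, ?_⟩
    · have h := hχ.1 (g ^ k)
      rw [centralChar, centralChar, hcent g] at h
      simp only [centralChar, F, one_pow]
      exact h
    · show Odd (charDegree (fun g => (χ : G → ℂ) (g ^ k)))
      rw [show charDegree (fun g => (χ : G → ℂ) (g ^ k)) = charDegree (χ : G → ℂ) by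
        simp [charDegree]]
      exact hχ.2
  let e : Equiv.Perm S := Equiv.ofBijective (fun χ => ⟨F χ, hFS χ χ.2⟩)
    (Finite.injective_iff_bijective.1 fun χ ψ h => Subtype.ext (hFinj (congrArg Subtype.val h)))
  -- it has two-power order
  have hiter : ∀ (j : ℕ) (χ : S) (g : G),
      (((e ^ j) χ : S) : G → ℂ) g = ((χ : IrrCharacter G) : G → ℂ) (g ^ k ^ j) := by
    intro j
    induction j with
    | zero => intro χ g; simp
    | succ j ih =>
      intro χ g
      rw [pow_succ, Equiv.Perm.mul_apply, ih]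
      show ((χ : IrrCharacter G) : G → ℂ) ((g ^ k ^ j) ^ k) = _
      rw [← pow_mul, ← pow_succ]
  set a := (Nat.card G).factorization 2
  have hN : ∀ g : G, g ^ k ^ 2 ^ a = g := by
    intro g
    obtain ⟨u, w, hwg, hcomm, ⟨i, hi⟩, hodd⟩ := CfsgLib.Blocks.exists_isPPart Nat.prime_two g
    have hu : ∀ j : ℕ, u ^ k ^ j = u ^ 3 ^ j := by
      intro j
      induction j with
      | zero => simp
      | succ j ih =>
        rw [pow_succ, pow_mul, ih, pow_succ, pow_mul]
        refine hk₁ _ ?_
        have hd : orderOf (u ^ 3 ^ j) ∣ 2 ^ i := hi ▸ orderOf_pow_dvd _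
        obtain ⟨l, -, hl⟩ := (Nat.dvd_prime_pow Nat.prime_two).1 hd
        exact ⟨l, hl⟩
    have hw : ∀ j : ℕ, w ^ k ^ j = w := by
      intro j
      induction j with
      | zero => simp
      | succ j ih =>
        rw [pow_succ, pow_mul, ih]
        exact hk₂ w (Nat.not_even_iff_odd.1 fun h => hodd (even_iff_two_dvd.1 h))
    have hu1 : u ^ 3 ^ 2 ^ a = u := by
      have hia : i ≤ a := (Nat.Prime.pow_dvd_iff_le_factorization Nat.prime_two
        Nat.card_pos.ne').1 (hi ▸ orderOf_dvd_natCard u)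
      have h3 : 2 ^ i ∣ 3 ^ 2 ^ a - 1 := (pow_dvd_pow 2 (hia.trans (Nat.le_succ a))).trans (two_pow_dvd a)
      obtain ⟨q, hq⟩ := h3
      rw [show 3 ^ 2 ^ a = 2 ^ i * q + 1 by have := Nat.one_le_pow (2 ^ a) 3 (by norm_num); omega,
        pow_succ, pow_mul, ← hi, pow_orderOf_eq_one, one_pow, one_mul]
    rw [← hwg, hcomm.mul_pow, hu, hw, hu1]
  have he1 : e ^ 2 ^ a = 1 := Equiv.ext fun χ => Subtype.ext (Subtype.ext (funext fun g => by
    rw [hiter, hN]; rfl))
  have hfix : Nat.card (MulAction.fixedPoints (Subgroup.zpowers e) S) =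
      Nat.card {χ : IrrCharacter G // χ ∈ principalBlock M G ∧ Odd (charDegree (χ : G → ℂ)) ∧
        ∀ g : G, (χ : G → ℂ) (g ^ k) = (χ : G → ℂ) g} := by
    refine Nat.card_congr
      { toFun := fun x => ⟨x.1.1, x.1.2.1, x.1.2.2, fun g => congrFun (congrArg
          (fun y : S => ((y : IrrCharacter G) : G → ℂ))
          (x.2 ⟨e, Subgroup.mem_zpowers e⟩)) g⟩
        invFun := fun χ => ⟨⟨χ.1, χ.2.1, χ.2.2.1⟩, fun ⟨f, hf⟩ => by
          have he : e ∈ MulAction.stabilizer (Equiv.Perm S) (⟨χ.1, χ.2.1, χ.2.2.1⟩ : S) :=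
            Subtype.ext (Subtype.ext (funext χ.2.2.2))
          exact Subgroup.zpowers_le.2 he hf⟩
        left_inv := fun x => rfl
        right_inv := fun χ => rfl }
  have : Fact (Nat.Prime 2) := ⟨Nat.prime_two⟩
  have hpg : IsPGroup 2 (Subgroup.zpowers e) := by
    obtain ⟨l, -, hl⟩ := (Nat.dvd_prime_pow Nat.prime_two).1 (orderOf_dvd_of_pow_eq_one he1)
    exact IsPGroup.of_card ((Nat.card_zpowers e).trans hl)
  rw [← hfix, even_iff_two_dvd]
  refine (Nat.ModEq.dvd_iff (hpg.card_modEq_card_fixedPoints S) (dvd_refl 2)).1 ?_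
  -- the block has evenly many characters of odd degree
  have hcoeff : MemLocalIdeal M (∑ᶠ χ ∈ principalBlock M G,
      (χ : G → ℂ) 1 * (starRingEnd ℂ) ((χ : G → ℂ) 1)) := by
    have h := CfsgLib.Blocks.memLocalRing_blockCoeff (M := M)
      CfsgLib.Blocks.isPBlock_principalBlock (1 : G)
    rw [blockCoeff] at h
    have h2 := CfsgLib.Blocks.memLocalIdeal_mul_right
      ((CfsgLib.Blocks.memLocalIdeal_natCast_iff hM (Nat.card G)).2 hev.two_dvd) h
    rwa [← mul_assoc, mul_inv_cancel₀ natCard_ne_zero, one_mul] at h2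
  set T := (Finset.univ : Finset (IrrCharacter G)).filter (· ∈ principalBlock M G)
  have hsum : 2 ∣ ∑ χ ∈ T, charDegree (χ : G → ℂ) ^ 2 := by
    rw [← CfsgLib.Blocks.memLocalIdeal_natCast_iff hM]
    convert hcoeff using 1
    rw [finsum_mem_eq_finite_toFinset_sum _ (Set.toFinite _), Nat.cast_sum]
    refine Finset.sum_congr (by ext; simp [T]) fun χ _ => ?_
    rw [conj_map_one (isCharacter_coe χ), ← charDegree_cast (isCharacter_coe χ), Nat.cast_pow,
      pow_two]
  have hcard : Nat.card S = (T.filter fun χ : IrrCharacter G => Odd (charDegree (χ : G → ℂ))).card := by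
    rw [Nat.card_coe_set_eq, Set.ncard_eq_toFinset_card']
    refine congrArg Finset.card (Finset.ext fun χ => ?_)
    simp [S, T]
  rw [hcard]
  have hmod : (∑ χ ∈ T, charDegree (χ : G → ℂ) ^ 2) % 2 =
      (T.filter fun χ : IrrCharacter G => Odd (charDegree (χ : G → ℂ))).card % 2 := by
    rw [Finset.sum_nat_mod, Finset.card_filter]
    refine congrArg (· % 2) (Finset.sum_congr rfl fun χ _ => ?_)
    rcases Nat.even_or_odd (charDegree (χ : G → ℂ)) with h | h
    · rw [if_neg (Nat.not_odd_iff_even.2 h), Nat.pow_mod, Nat.even_iff.1 h]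
    · rw [if_pos h, Nat.pow_mod, Nat.odd_iff.1 h]
  omega

end Cfsg.Agent.S4550
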