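import Cfsg.Statements.S4552
import Cfsg.Agent.Blocks.InertiaFixed.Orbits
import Cfsg.Agent.Blocks.RankTwoHomocyclic.Action
import Cfsg.Agent.Blocks.Basic.Residue
import Cfsg.Agent.Eq.Def_Blocks
import Cfsg.Agent.Eq.Def_BlockRank
import Cfsg.Agent.Eq.Def_BlockLocal
import Cfsg.Agent.Blocks.AbelianFree.Small

set_option autoImplicit false
open Cfsg CfsgLib CfsgLib.Blocks

namespace Cfsg.Agent.S4552

/-- Let B be a 2-block of the finite group G (relative to a maximal ideal M of the algebraic integers containing 2) whose defect group D is the direct product of two cyclic groups of the same order 2 ^ m, m ≥ 2. Then either B has 2-regular rank one and exactly 4 ^ m irreducible characters, or B has 2-regular rank three and exactly (4 ^ m + 8) / 3 irreducible characters. -/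
theorem result {G : Type*} [Group G] [Finite G] (M : Ideal Cfsg.AlgInt) (hM : Cfsg.IsPModular 2 M) (B : Set (Cfsg.IrrCharacter G)) (hB : Cfsg.IsPBlock M B) (D : Subgroup G) (hD : Cfsg.IsDefectGroup 2 M B D) (m : ℕ) (hm : 2 ≤ m) (hiso : Nonempty (D ≃* Multiplicative (ZMod (2 ^ m) × ZMod (2 ^ m)))) : (Cfsg.blockRank 2 B = 1 ∧ Nat.card B = 4 ^ m) ∨ (Cfsg.blockRank 2 B = 3 ∧ 3 * Nat.card B = 4 ^ m + 8) := by
  classical
  haveI : Fact (Nat.Prime 2) := ⟨Nat.prime_two⟩
  haveI : M.IsMaximal := hM.2.1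
  haveI : CharP (kres M) 2 := charP_kres hM
  obtain ⟨e₀⟩ := hiso
  have hab : ∀ x ∈ D, ∀ y ∈ D, x * y = y * x := fun x hx y hy => by
    have h : (⟨x, hx⟩ * ⟨y, hy⟩ : D) = ⟨y, hy⟩ * ⟨x, hx⟩ :=
      e₀.injective (by rw [map_mul, map_mul, mul_comm])
    exact congrArg Subtype.val h
  obtain ⟨g, hmax⟩ := KleinFour.exists_maxPair (M := M) hB hD
  have hgC := hmax.1.1.2.2
  rw [top_inf_eq] at hgC
  obtain ⟨c, hc, hce⟩ := exists_subEl_eq (M := M) hgC
  have hind : IsInducedBlock M (Subgroup.centralizer (D : Set G)) c B :=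
    (isInducedBlock_iff_brOver hM hmax.1.1.1 (KleinFour.le_centralizer_of_abelian hab le_rfl) le_rfl
      (Subgroup.centralizer_le_normalizer _) hc hB).2 (by rw [hce]; exact hmax.1.2)
  set T := pairStab ⊤ D g with hTd
  have hT : ∀ t : G, t ∈ T ↔ (t ∈ Subgroup.normalizer (D : Set G) ∧
      StabilizesBlock (Subgroup.centralizer (D : Set G)) c t) := fun t => by
    rw [hTd, mem_pairStab, stabilizesBlock_iff hc, hce]
    exact ⟨fun h => ⟨h.1.2, normalizer_le_normalizer_centralizer _ h.1.2, h.2⟩,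
      fun h => ⟨⟨trivial, h.1⟩, h.2.2⟩⟩
  have h2 : ∀ x ∈ D, ∃ j : ℕ, x ^ 2 ^ j = 1 := fun x hx => by
    obtain ⟨j, hj⟩ := hmax.1.1.1 ⟨x, hx⟩
    exact ⟨j, congrArg Subtype.val hj⟩
  obtain ⟨he, hfree, hcomm⟩ := RankTwoHomocyclic.odd_action hab h2
    (RankTwoHomocyclic.card_involutions (by omega) e₀) (pairStab_le_normalizer _ _ _)
    (centralizer_le_pairStab hmax.1.1)
    (InertiaFixed.not_dvd_relIndex (isBlockIdem_topEl hB) hmax hab)
  have hcard : Nat.card D = 4 ^ m := by
    haveI : NeZero (2 ^ m) := ⟨pow_ne_zero _ two_ne_zero⟩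
    rw [Nat.card_congr e₀.toEquiv, Nat.card_congr Multiplicative.toAdd, Nat.card_prod, Nat.card_zmod,
      ← mul_pow]; norm_num
  have h16 : 16 ≤ 4 ^ m := (Nat.pow_le_pow_right (by norm_num) hm : 4 ^ 2 ≤ 4 ^ m)
  have hD1 : D ≠ ⊥ := fun h => by
    rw [h, Subgroup.card_bot] at hcard
    omega
  haveI : Fintype G := Fintype.ofFinite G
  obtain ⟨hS, hTf⟩ := AbelianFree.Setting.of_block hM hB hD hab hind hT hfree
  set f := subEl M (Subgroup.centralizer (D : Set G)) c with hf
  have hidx : Nat.card (AbelianFree.aut D f) = 1 ∨ Nat.card (AbelianFree.aut D f) = 3 := by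
    rw [AbelianFree.natCard_aut, ← hTf]
    exact he
  have hnp : ¬ (Nat.card D).Prime := by
    rw [hcard]
    exact Nat.Prime.not_prime_pow (by omega)
  have hl : blockRank 2 B = Nat.card (AbelianFree.aut D f) :=
    hS.blockRank_eq_of_le_three hD1 (by omega) (fun hp => absurd hp hnp)
  have hk := hS.natCard_eq_rank_add
  have horb := hS.card_orb
  rw [hcard] at horb
  rw [hl] at hk ⊢
  rcases hidx with h | h
  · left
    rw [h] at hk horb ⊢
    exact ⟨rfl, by omega⟩
  · right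
    rw [h] at hk horb ⊢
    exact ⟨rfl, by omega⟩

end Cfsg.Agent.S4552
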