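import Cfsg.Statements.S4553
import Cfsg.Agent.IsoBlocks.Basic
import Cfsg.Agent.S0887
import Cfsg.Agent.Blocks.Covering.Basic
import Cfsg.Agent.Blocks.Orth.Subsection
import Cfsg.Agent.Chars.Induced.Covering
import Cfsg.Agent.Chars.Induced.Det
import Cfsg.Agent.Chars.Basic.Galois
import Cfsg.Agent.Chars.GaloisHom.Basic
import Cfsg.Agent.LocalCharP.Residual
import Mathlib.GroupTheory.FiniteAbelian.Duality
import Cfsg.Agent.Eq.Def_Characters
import Cfsg.Agent.Eq.Def_Blocks

set_option autoImplicit false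

namespace Cfsg.Agent.S4553.Apps

open CfsgLib.Chars

universe u

/-- The determinant of a Galois conjugate. -/
theorem detChar_ringHom {G : Type u} [Group G] [Finite G] {χ : G → ℂ} (h : IsIrrCharacter G χ)
    (σ : ℂ →+* ℂ) (g : G) : detChar (fun x => σ (χ x)) g = σ (detChar χ g) := by
  obtain ⟨n, ρ, hρ, hρχ⟩ := id h
  let f : G →* Matrix (Fin n) (Fin n) ℂ :=
    ((σ.mapMatrix : Matrix (Fin n) (Fin n) ℂ →+* Matrix (Fin n) (Fin n) ℂ).toMonoidHom).comp
      ((LinearMap.toMatrixAlgEquiv' (R := ℂ) (n := Fin n)).toMulEquiv.toMonoidHom.comp ρ)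
  let ρ' : Representation ℂ G (Fin n → ℂ) :=
    (Matrix.toLinAlgEquiv' (R := ℂ) (n := Fin n)).toMulEquiv.toMonoidHom.comp f
  have hchar : ρ'.character = fun x => σ (χ x) := by
    subst hρχ
    funext x
    rw [Representation.character, LinearMap.trace_eq_matrix_trace ℂ (Pi.basisFun ℂ (Fin n))]
    show _ = σ (LinearMap.trace ℂ _ (ρ x))
    rw [LinearMap.trace_eq_matrix_trace ℂ (Pi.basisFun ℂ (Fin n)) (ρ x), AddMonoidHom.map_trace σ]
    exact congrArg Matrix.trace (LinearMap.toMatrixAlgEquiv'_toLinAlgEquiv' (f x))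
  rw [Induced.detChar_eq_of_rep (isIrrCharacter_ringHom h σ) ρ' hchar,
    Induced.detChar_eq_of_rep h ρ hρχ]
  show LinearMap.det (Matrix.toLin' (f g)) = _
  rw [LinearMap.det_toLin', ← LinearMap.det_toMatrix' (ρ g)]
  exact (RingHom.map_det σ _).symm

/-- A character of degree prime to `p` stays irreducible on a normal subgroup of `p`-power index. -/
theorem restrict_eq_of_index_pow {G : Type u} [Group G] [Fintype G] {N : Subgroup G} [N.Normal]
    [Fintype N] {p a : ℕ} (hp : p.Prime) (hidx : N.index = p ^ a) (χ : IrrCharacter G)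
    (hχ : ¬ p ∣ charDegree (χ : G → ℂ)) (θ : IrrCharacter N)
    (hθ : classInner (fun n : N => (χ : G → ℂ) n) (θ : N → ℂ) ≠ 0) :
    (fun n : N => (χ : G → ℂ) n) = (θ : N → ℂ) := by
  have hc := isCharacter_restrict (isCharacter_coe χ) N
  obtain ⟨ψ, hψ⟩ := exists_add_of_classInner_ne_zero hc θ hθ
  obtain ⟨hψc, he⟩ := hψ
  obtain ⟨e, he'⟩ := Cfsg.Agent.S0887.result N (χ : G → ℂ) χ.2 (θ : N → ℂ) θ.2 hθ
    (charDegree (χ : G → ℂ)) (charDegree (θ : N → ℂ)) (charDegree_cast (isCharacter_coe χ)).symm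
    (charDegree_cast (isCharacter_coe θ)).symm
  have h1 : charDegree (χ : G → ℂ) / charDegree (θ : N → ℂ) = 1 := by
    refine Nat.eq_one_of_dvd_coprimes ?_ (dvd_of_eq rfl |>.trans (hidx ▸ he'))
      (Nat.div_dvd_of_dvd e)
    exact (hp.coprime_iff_not_dvd.2 hχ).pow_left a
  have h2 : charDegree (χ : G → ℂ) = charDegree (θ : N → ℂ) := by
    rw [← Nat.div_mul_cancel e, h1, one_mul]
  have h3 : ψ 1 = 0 := by
    have h4 := congrFun he 1
    simp only [Pi.add_apply, OneMemClass.coe_one, ← charDegree_cast (isCharacter_coe χ), h2,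
      charDegree_cast (isCharacter_coe θ)] at h4
    linear_combination -h4
  rw [he, eq_zero_of_map_one_eq_zero hψc h3, add_zero]

theorem linChar_injective' {G : Type u} [Group G] {l l' : G →* ℂˣ} (h : linChar l = linChar l') :
    l = l' :=
  MonoidHom.ext fun g => Units.ext (congrFun (congrArg Subtype.val h) g)

end Cfsg.Agent.S4553.Apps
open Cfsg

namespace Cfsg.Agent.S4553

open CfsgLib.Chars

/-- Let G be a finite group, p a prime, P a Sylow p-subgroup, N the p-residual of G (the subgroup generated by the elements of order prime to p, the smallest normal subgroup with G/N a p-group), and M a maximal ideal of the algebraic integers containing p; suppose G/N is cyclic and nontrivial. Let k be a natural number with g ^ k = g ^ (1 + p) for every p-element g and g ^ k = g for every element g of order prime to p (so that χ (g ^ k) is the image of χ g under the field automorphism that raises p-power roots of unity to the power 1 + p and fixes the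 roots of unity of order prime to p). Then the number of members χ of the principal block of G of degree prime to p with χ (g ^ k) = χ g for all g equals p times the number of members θ of the principal block of N of degree prime to p that are invariant under conjugation by P and satisfy θ (n ^ k) = θ n for all n. -/
theorem result {G : Type*} [Group G] [Finite G] (p : ℕ) [Fact p.Prime] (M : Ideal Cfsg.AlgInt) (hM : Cfsg.IsPModular p M) (P : Sylow p G) (N : Subgroup G) [hN : N.Normal] (hNres : N = Cfsg.pResidual p G) (hcyc : IsCyclic (G ⧸ N)) (hnt : N ≠ ⊤) (k : ℕ) (hk₁ : ∀ g : G, (∃ j : ℕ, orderOf g = p ^ j) → g ^ k = g ^ (1 + p)) (hk₂ : ∀ g : G, Nat.Coprime (orderOf g) p → g ^ k = g) : Nat.card {χ : Cfsg.IrrCharacter G // χ ∈ Cfsg.principalBlock M G ∧ ¬ p ∣ Cfsg.charDegree (χ : G → ℂ) ∧ ∀ g : G, (χ : G → ℂ) (g ^ k) = (χ : G → ℂ) g} = p * Nat.card {θ : Cfsg.IrrCharacter ↥N // θ ∈ Cfsg.principalBlock M ↥N ∧ ¬ p ∣ Cfsg.charDegree (θ : ↥N → ℂ) ∧ (∀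 x ∈ (P : Subgroup G), ∀ n : ↥N, (θ : ↥N → ℂ) ⟨x * n * x⁻¹, hN.conj_mem n n.2 x⟩ = (θ : ↥N → ℂ) n) ∧ ∀ n : ↥N, (θ : ↥N → ℂ) (n ^ k) = (θ : ↥N → ℂ) n} := by
  classical
  have hp : p.Prime := Fact.out
  have := hM.2.1
  let _ := Fintype.ofFinite G
  let _ := Fintype.ofFinite N
  have hQp : IsPGroup p (G ⧸ N) := by subst hNres; exact CfsgLib.LocalCharP.isPGroup_quotient_pResidual
  obtain ⟨a, ha⟩ := IsPGroup.iff_card.1 hQp
  have hidx : N.index = p ^ a := ha
  have hreg : ∀ g : G, ¬ p ∣ orderOf g → g ∈ N :=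
    CfsgLib.BlocksCover.mem_of_index_prime_pow hp N hidx
  have ha0 : a ≠ 0 := fun h => hnt (Subgroup.index_eq_one.1 (by rw [hidx, h, pow_zero]))
  have hNP : N ⊔ (P : Subgroup G) = ⊤ := by
    rw [← Subgroup.index_eq_one]
    refine Nat.eq_one_of_dvd_coprimes (a := p ^ a) (b := (P : Subgroup G).index) ?_
      (by rw [← hidx]; exact Subgroup.index_dvd_of_le (le_sup_left : N ≤ N ⊔ (P : Subgroup G)))
      (Subgroup.index_dvd_of_le (le_sup_right : (P : Subgroup G) ≤ N ⊔ (P : Subgroup G)))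
    exact (hp.coprime_iff_not_dvd.2 P.not_dvd_index).pow_left a
  -- the Galois automorphism
  have hcop : Nat.Coprime k (Nat.card G) := by
    refine Nat.coprime_of_dvd fun r hr hrk hrG => ?_
    have : Fact r.Prime := ⟨hr⟩
    obtain ⟨g, hg⟩ := exists_prime_orderOf_dvd_card' r hrG
    have hk0 : g ^ k = 1 := orderOf_dvd_iff_pow_eq_one.1 (hg ▸ hrk)
    rcases eq_or_ne r p with rfl | hrp
    · have h := hk₁ g ⟨1, by rw [hg, pow_one]⟩
      rw [hk0, eq_comm, ← orderOf_dvd_iff_pow_eq_one, hg, ← Nat.dvd_add_iff_left (dvd_refl r)] at h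
      exact hr.not_dvd_one h
    · have h := hk₂ g (hg ▸ (Nat.coprime_primes hr hp).2 hrp)
      rw [hk0] at h
      rw [← h, orderOf_one] at hg
      exact hr.ne_one hg.symm
  obtain ⟨σ, hσ⟩ := CfsgLib.GaloisHom.exists_ringHom_char (Nat.card_pos (α := G)) hcop
  -- homomorphisms trivial on `N`
  obtain ⟨c, hc⟩ := CfsgLib.Blocks.exists_pow_eq_isPPart (G := G) hp
  have hcN : ∀ δ : G →* ℂˣ, ∀ n ∈ N, (δ ^ c) n = 1 := by
    intro δ n hn
    have : N ≤ (δ ^ c).ker := by
      rw [hNres]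
      refine CfsgLib.LocalCharP.pResidual_le fun x hx => ?_
      obtain ⟨u, hu⟩ := CfsgLib.Blocks.exists_isPPart hp x
      have hu1 : u = 1 := CfsgLib.Blocks.isPPart_unique hp hu ⟨x, one_mul x, Commute.one_left x,
        ⟨0, by rw [orderOf_one, pow_zero]⟩, (hp.coprime_iff_not_dvd).1 hx.symm⟩
      rw [MonoidHom.mem_ker, MonoidHom.pow_apply, ← map_pow, hc x u hu, hu1, map_one]
    exact this hn
  have hcN' : ∀ δ : G →* ℂˣ, ∀ g : G, (δ g) ^ k = δ g * ((δ ^ c) g) ^ p := by
    intro δ g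
    obtain ⟨u, hu⟩ := CfsgLib.Blocks.exists_isPPart hp g
    have hcu := hc g u hu
    obtain ⟨w, hw, hcomm, hup, hwp⟩ := hu
    rw [MonoidHom.pow_apply, ← map_pow, ← map_pow, hcu, ← map_pow, ← map_mul]
    congr 1
    rw [← hw, hcomm.mul_pow, hk₁ u hup, hk₂ w ((hp.coprime_iff_not_dvd).2 hwp).symm, pow_add,
      pow_one, mul_assoc, (hcomm.pow_left p).eq, mul_assoc]
  have hlinN : ∀ l : G →* ℂˣ, (∀ n ∈ N, l n = 1) → ∀ g : G, (l g) ^ k = (l g) ^ (1 + p) := by
    intro l hl g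
    obtain ⟨u, hu⟩ := CfsgLib.Blocks.exists_isPPart hp g
    have hcu := hc g u hu
    rw [hcN' l g, MonoidHom.pow_apply, ← map_pow, hcu, pow_add, pow_one]
    obtain ⟨w, hw, hcomm, hup, hwp⟩ := hu
    congr 2
    rw [← hw, map_mul, hl w (hreg w hwp), mul_one]
  -- the fibres
  let L := {χ : IrrCharacter G // χ ∈ principalBlock M G ∧ ¬ p ∣ charDegree (χ : G → ℂ) ∧
    ∀ g : G, (χ : G → ℂ) (g ^ k) = (χ : G → ℂ) g}
  let R := {θ : IrrCharacter N // θ ∈ principalBlock M N ∧ ¬ p ∣ charDegree (θ : N → ℂ) ∧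
    (∀ x ∈ (P : Subgroup G), ∀ n : N, (θ : N → ℂ) ⟨x * n * x⁻¹, hN.conj_mem n n.2 x⟩ = (θ : N → ℂ) n) ∧
    ∀ n : N, (θ : N → ℂ) (n ^ k) = (θ : N → ℂ) n}
  show Nat.card L = p * Nat.card R
  have hres : ∀ χ : L, ∃ θ : R, ∀ n : N, ((χ : IrrCharacter G) : G → ℂ) n = (θ : IrrCharacter N).1 n := by
    rintro ⟨χ, hχB, hχd, hχk⟩
    obtain ⟨θ, hθ⟩ := CfsgLib.BlocksCover.exists_constituent χ N
    have hθB := CfsgLib.IsoBlocks.mem_principalBlock_of_over N hM hχB hθ
    have hirr : (fun n : N => (χ : G → ℂ) n) = (θ : N → ℂ) := by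
      refine Apps.restrict_eq_of_index_pow hp hidx χ hχd θ hθ
    refine ⟨⟨θ, hθB, ?_, fun x _ n => ?_, fun n => ?_⟩, congrFun hirr⟩
    · have : charDegree (θ : N → ℂ) = charDegree (χ : G → ℂ) := by
        rw [← hirr]; simp [charDegree]
      rwa [this]
    · rw [← hirr]
      exact isClassFunction_coe χ (n : G) x
    · rw [← hirr]
      exact hχk n
  choose f hf using hres
  have hfib : ∀ θ : R, Nat.card {χ : L // f χ = θ} = p := by
    rintro ⟨θ, hθB, hθd, hθP, hθk⟩
    have hinv : ∀ g : G, Induced.conjFun N g (θ : N → ℂ) = θ := by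
      refine Induced.conjFun_eq_of_forall fun g => ?_
      have hg : g ∈ N ⊔ (P : Subgroup G) := hNP ▸ Subgroup.mem_top g
      rw [← SetLike.mem_coe, Subgroup.normal_mul] at hg
      obtain ⟨m, hm, x, hx, rfl⟩ := hg
      intro n
      have h1 := isClassFunction_coe θ ⟨x * n * x⁻¹, hN.conj_mem n n.2 x⟩ ⟨m, hm⟩
      rw [hθP x hx n] at h1
      rw [← h1]
      refine congrArg _ (Subtype.ext ?_)
      show m * x * n * (m * x)⁻¹ = m * (x * n * x⁻¹) * m⁻¹
      group
    obtain ⟨χ₀, hχ₀⟩ := Induced.exists_extension_of_isCyclic θ hinv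
    let _ := IsCyclic.commGroup (α := G ⧸ N)
    set d := charDegree (θ : N → ℂ)
    have hd : (χ₀ : G → ℂ) 1 = d := by
      rw [← OneMemClass.coe_one N, hχ₀, charDegree_cast (isCharacter_coe θ)]
    have htw : ∀ ψ : IrrCharacter G, (∀ n : N, (ψ : G → ℂ) n = (θ : N → ℂ) n) →
        ∀ ξ : IrrCharacter G, (∀ n : N, (ξ : G → ℂ) n = (θ : N → ℂ) n) →
        ∃ l : G →* ℂˣ, (∀ n ∈ N, l n = 1) ∧ (ξ : G → ℂ) = fun g => (l g : ℂ) * (ψ : G → ℂ) g := by
      intro ψ hψ ξ hξ
      obtain ⟨β, hβ⟩ := Induced.gallagher_exists ψ θ hψ ξ (by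
        rw [show (fun n : N => (ξ : G → ℂ) n) = (θ : N → ℂ) from funext hξ,
          Induced.mult_ne_zero_iff (isCharacter_coe θ), Induced.classInner_irr_self]
        exact one_ne_zero)
      obtain ⟨l, rfl⟩ := exists_linChar_eq β (map_one_eq_one_of_isMulCommutative β)
      refine ⟨l.comp (QuotientGroup.mk' N), fun n hn => ?_, ?_⟩
      · rw [MonoidHom.comp_apply, QuotientGroup.mk'_apply, (QuotientGroup.eq_one_iff n).2 hn, map_one]
      · rw [hβ]; funext g; simp [mul_comm]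
    have hmul : ∀ (l : G →* ℂˣ), (∀ n ∈ N, l n = 1) → ∀ n : N,
        (l (n : G) : ℂ) * (χ₀ : G → ℂ) n = (θ : N → ℂ) n := fun l hl n => by
      rw [hl n n.2, Units.val_one, one_mul, hχ₀]
    -- a fixed extension
    obtain ⟨χ₁, hχ₁, hχ₁k⟩ : ∃ χ₁ : IrrCharacter G, (∀ n : N, (χ₁ : G → ℂ) n = (θ : N → ℂ) n) ∧
        ∀ g : G, (χ₁ : G → ℂ) (g ^ k) = (χ₁ : G → ℂ) g := by
      have hσeq : (fun g => σ ((χ₀ : G → ℂ) g)) = fun g => (χ₀ : G → ℂ) (g ^ k) :=
        funext fun g => hσ (isCharacter_coe χ₀) g (orderOf_dvd_natCard g)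
      let χσ : IrrCharacter G := ⟨fun g => (χ₀ : G → ℂ) (g ^ k), hσeq ▸ isIrrCharacter_ringHom χ₀.2 σ⟩
      obtain ⟨μ, hμN, hμ⟩ := htw χ₀ hχ₀ χσ fun n => by
        show (χ₀ : G → ℂ) ((n : G) ^ k) = _
        rw [← Subgroup.coe_pow, hχ₀, hθk]
      set δ := Induced.detHom (isCharacter_coe χ₀)
      have hdet : ∀ g, (μ g) ^ d = (δ ^ c) g ^ p := by
        intro g
        refine mul_left_cancel (a := δ g) ?_
        rw [← hcN' δ g, mul_comm]
        refine Units.ext ?_
        rw [Units.val_mul, Units.val_pow_eq_pow_val, Units.val_pow_eq_pow_val,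
          Induced.detHom_apply, ← Induced.detChar_linear_mul χ₀.2 μ hd g, ← hμ]
        have h2 := Apps.detChar_ringHom χ₀.2 σ g
        rw [hσeq] at h2
        rw [show (χσ : G → ℂ) = fun g => (χ₀ : G → ℂ) (g ^ k) from rfl, h2,
          ← Induced.detHom_apply (isCharacter_coe χ₀), ← Units.val_pow_eq_pow_val, ← map_pow]
        have h3 := hσ (isCharacter_coe (linChar δ)) g (orderOf_dvd_natCard g)
        rw [linChar_apply, linChar_apply] at h3
        exact h3
      obtain ⟨e, -, he⟩ := Nat.exists_mul_mod_eq_one_of_coprime (k := p ^ a)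
        ((hp.coprime_iff_not_dvd.2 hθd).symm.pow_right a) (Nat.one_lt_pow ha0 hp.one_lt)
      set η : G →* ℂˣ := (δ ^ c) ^ e
      have hηN : ∀ n ∈ N, η n = 1 := fun n hn => by
        rw [MonoidHom.pow_apply, hcN δ n hn, one_pow]
      have hμη : ∀ g, μ g = η g ^ p := by
        intro g
        have h1 : μ g ^ p ^ a = 1 := by
          rw [← map_pow, ← hidx]; exact hμN _ (N.pow_index_mem g)
        have h2 : μ g ^ (d * e) = μ g := by
          rw [← Nat.div_add_mod (d * e) (p ^ a), he, pow_add, pow_mul, h1, one_pow, one_mul, pow_one]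
        have h3 : η g = (δ ^ c) g ^ e := MonoidHom.pow_apply _ _ _
        rw [← h2, pow_mul, hdet, h3, ← pow_mul, ← pow_mul, mul_comm]
      refine ⟨⟨fun g => (η⁻¹ g : ℂ) * (χ₀ : G → ℂ) g, isIrrCharacter_linear_mul χ₀.2 _⟩,
        hmul η⁻¹ fun n hn => by rw [MonoidHom.inv_apply, hηN n hn, inv_one], fun g => ?_⟩
      show (η⁻¹ (g ^ k) : ℂ) * (χ₀ : G → ℂ) (g ^ k) = (η⁻¹ g : ℂ) * (χ₀ : G → ℂ) g
      rw [show (χ₀ : G → ℂ) (g ^ k) = (μ g : ℂ) * (χ₀ : G → ℂ) g from congrFun hμ g, ← mul_assoc,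
        ← Units.val_mul]
      congr 2
      rw [map_pow, MonoidHom.inv_apply, inv_pow, hlinN η hηN g, hμη, pow_add, pow_one, mul_inv,
        mul_assoc, inv_mul_cancel, mul_one]
    have hχ₁B : ∀ ξ : IrrCharacter G, (∀ n : N, (ξ : G → ℂ) n = (θ : N → ℂ) n) →
        ξ ∈ principalBlock M G := by
      intro ξ hξ
      obtain ⟨χ', hχ'B, hχ'⟩ := CfsgLib.IsoBlocks.exists_over N hM hθB
      have h1 := (CfsgLib.BlocksCover.constituent_iff_centralChar χ' θ).1 hχ'
      have h2 := (CfsgLib.BlocksCover.constituent_iff_centralChar ξ θ).1 (by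
        rw [show (fun n : N => (ξ : G → ℂ) n) = (θ : N → ℂ) from funext hξ,
          Induced.classInner_irr_self]
        exact one_ne_zero)
      exact CfsgLib.Blocks.sameBlock_trans hχ'B (CfsgLib.BlocksCover.sameBlock_of_congr_on_regular
        hM N hreg χ' ξ fun n => by rw [h1, h2]; exact CfsgLib.Blocks.congr_refl _)
    have hd₁ : ∀ ξ : IrrCharacter G, (∀ n : N, (ξ : G → ℂ) n = (θ : N → ℂ) n) →
        ¬ p ∣ charDegree (ξ : G → ℂ) := fun ξ hξ => by
      rw [show charDegree (ξ : G → ℂ) = charDegree (θ : N → ℂ) by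
        simp [charDegree, ← hξ]]
      exact hθd
    let K : Subgroup ((G ⧸ N) →* ℂˣ) := (powMonoidHom p).ker
    have hK : Nat.card K = p := by
      have : NeZero (Monoid.exponent (G ⧸ N)) := ⟨Monoid.exponent_ne_zero_of_finite⟩
      let E := (CommGroup.monoidHom_mulEquiv_of_hasEnoughRootsOfUnity (G ⧸ N) ℂ).some
      have : IsCyclic ((G ⧸ N) →* ℂˣ) :=
        isCyclic_of_surjective E.symm.toMonoidHom E.symm.surjective
      have : Finite ((G ⧸ N) →* ℂˣ) := Finite.of_equiv _ E.symm.toEquiv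
      refine (IsCyclic.card_powMonoidHom_ker (G := (G ⧸ N) →* ℂˣ) p).trans ?_
      rw [Nat.card_congr E.toEquiv, ha]
      exact Nat.gcd_eq_right (dvd_pow_self p ha0)
    refine Eq.trans ?_ hK
    symm
    refine Nat.card_congr (Equiv.ofBijective
      (fun l => ⟨⟨⟨fun g => ((l : (G ⧸ N) →* ℂˣ) g : ℂ) * (χ₁ : G → ℂ) g,
        isIrrCharacter_linear_mul χ₁.2 ((l : (G ⧸ N) →* ℂˣ).comp (QuotientGroup.mk' N))⟩,
        hχ₁B _ (fun n => by simp [(QuotientGroup.eq_one_iff (n : G)).2 n.2, hχ₁]),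
        hd₁ _ (fun n => by simp [(QuotientGroup.eq_one_iff (n : G)).2 n.2, hχ₁]),
        fun g => ?_⟩, ?_⟩) ⟨?_, ?_⟩)
    · show (((l : (G ⧸ N) →* ℂˣ) ((g ^ k : G) : G ⧸ N)) : ℂ) * _ = _
      rw [hχ₁k]
      congr 2
      have h1 := hlinN ((l : (G ⧸ N) →* ℂˣ).comp (QuotientGroup.mk' N)) (fun n hn => by
        rw [MonoidHom.comp_apply, QuotientGroup.mk'_apply, (QuotientGroup.eq_one_iff n).2 hn,
          map_one]) g
      have h2 : ((l : (G ⧸ N) →* ℂˣ) (g : G ⧸ N)) ^ p = 1 := congr($(l.2) (g : G ⧸ N))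
      rw [QuotientGroup.mk_pow, map_pow]
      exact h1.trans (by rw [pow_add, pow_one]; exact (congrArg _ h2).trans (mul_one _))
    · refine Subtype.ext (Subtype.ext (funext fun n => ?_))
      rw [← hf _ n]
      simp [(QuotientGroup.eq_one_iff (n : G)).2 n.2, hχ₁]
    · intro l l' hll
      have h1 := congrArg (fun x => ((x.1 : L) : IrrCharacter G).1) hll
      refine Subtype.ext (Apps.linChar_injective' (Induced.gallagher_injective χ₁ θ hχ₁
        (linChar (l : (G ⧸ N) →* ℂˣ)) (linChar (l' : (G ⧸ N) →* ℂˣ)) fun g => ?_))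
      have h2 := congrFun h1 g
      simp only at h2
      rw [linChar_apply, linChar_apply, mul_comm, h2, mul_comm]
    · rintro ⟨⟨ξ, hξB, hξd, hξk⟩, hξ⟩
      have hξN : ∀ n : N, (ξ : G → ℂ) n = (θ : N → ℂ) n := fun n => by
        have := hf ⟨ξ, hξB, hξd, hξk⟩ n
        rw [hξ] at this
        exact this
      obtain ⟨β, hβ⟩ := Induced.gallagher_exists χ₁ θ hχ₁ ξ (by
        rw [show (fun n : N => (ξ : G → ℂ) n) = (θ : N → ℂ) from funext hξN,
          Induced.mult_ne_zero_iff (isCharacter_coe θ), Induced.classInner_irr_self]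
        exact one_ne_zero)
      obtain ⟨l, rfl⟩ := exists_linChar_eq β (map_one_eq_one_of_isMulCommutative β)
      refine ⟨⟨l, ?_⟩, Subtype.ext (Subtype.ext (Subtype.ext (funext fun g => ?_)))⟩
      · have he : ∀ g : G, (χ₁ : G → ℂ) g * (linChar (l ^ (1 + p)) : G ⧸ N → ℂ) g =
            (χ₁ : G → ℂ) g * (linChar l : G ⧸ N → ℂ) g := by
          intro g
          have h1 := hξk g
          rw [hβ] at h1
          simp only [hχ₁k, linChar_apply] at h1
          rw [linChar_apply, linChar_apply, MonoidHom.pow_apply, ← h1]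
          congr 2
          have h2 := hlinN (l.comp (QuotientGroup.mk' N)) (fun n hn => by
            rw [MonoidHom.comp_apply, QuotientGroup.mk'_apply, (QuotientGroup.eq_one_iff n).2 hn,
              map_one]) g
          rw [QuotientGroup.mk_pow, map_pow]
          exact h2.symm
        have h2 := Apps.linChar_injective' (Induced.gallagher_injective χ₁ θ hχ₁ _ _ he)
        refine MonoidHom.ext fun g => ?_
        have h3 : (l g) ^ (1 + p) = l g := congr($h2 g)
        rw [pow_add, pow_one] at h3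
        exact mul_eq_left.1 h3
      · show (l (g : G ⧸ N) : ℂ) * _ = _
        rw [hβ, mul_comm]
        rfl
  let _ := Fintype.ofFinite R
  rw [← Nat.card_congr (Equiv.sigmaFiberEquiv f), Nat.card_sigma, Finset.sum_congr rfl
    fun θ _ => hfib θ, Finset.sum_const, Finset.card_univ, smul_eq_mul, Nat.card_eq_fintype_card,
    mul_comm]

end Cfsg.Agent.S4553
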