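import Cfsg.Statements.S4561
import Cfsg.Agent.SolvableEmbed.Central
import Mathlib.Data.Nat.Squarefree

set_option autoImplicit false
universe u
open Cfsg

namespace Cfsg.Agent.S4561

/-- For every finite solvable group G there is a finite group H with a faithful irreducible character χ whose degree squared equals the index of the centre Z(H) (so χ is fully ramified over the centre), such that G is isomorphic to a subgroup of H/Z(H), the primes dividing the orders of H, of Z(H) and of G are the same, and the order of Z(H) is squarefree. -/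
theorem result {G : Type u} [Group G] [Finite G] (hsolv : Group.IsSolvable G) : ∃ (H : Type u) (_ : Group H) (_ : Finite H) (χ : Cfsg.IrrCharacter H), (∀ h : H, (χ : H → ℂ) h = (χ : H → ℂ) 1 → h = 1) ∧ (Cfsg.charDegree (χ : H → ℂ)) ^ 2 = (Subgroup.center H).index ∧ (∃ f : G →* H ⧸ Subgroup.center H, Function.Injective f) ∧ (∀ p : ℕ, p.Prime → ((p ∣ Nat.card H ↔ p ∣ Nat.card G) ∧ (p ∣ Nat.card (Subgroup.center H) ↔ p ∣ Nat.card G))) ∧ Squarefree (Nat.card (Subgroup.center H)) := by
  classical
  let n := ∏ q ∈ (Nat.card G).primeFactors, q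
  have hn : Squarefree n := by
    refine Finset.squarefree_prod_of_pairwise_isCoprime (fun _ ha _ hb hab => ?_)
      fun _ ha => (Nat.prime_of_mem_primeFactors ha).squarefree
    simp only [← Nat.coprime_iff_isRelPrime]
    exact (Nat.coprime_primes (Nat.prime_of_mem_primeFactors ha)
      (Nat.prime_of_mem_primeFactors hb)).mpr hab
  haveI : NeZero n := ⟨hn.ne_zero⟩
  have hdvd : ∀ q, q.Prime → (q ∣ n ↔ q ∣ Nat.card G) := by
    intro q hq
    constructor
    · exact fun h => h.trans (Nat.prod_primeFactors_dvd _)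
    · exact fun h => Finset.dvd_prod_of_mem _ (Nat.mem_primeFactors.2 ⟨hq, h, Nat.card_pos.ne'⟩)
  obtain ⟨M, gM, fM, hM, f, hf⟩ := CfsgLib.SolvableEmbed.exists_embedding
    (fun m M _ => CfsgLib.SolvableEmbed.Ram m M) n (CfsgLib.SolvableEmbed.ram_punit n)
    (fun M _ _ p hp hpn hM => by
      haveI := Fact.mk hp
      exact CfsgLib.SolvableEmbed.ram_step M hpn hM)
    G hsolv (fun q hq h => (hdvd q hq).2 h)
  obtain ⟨H, gH, fH, χ, h1, h2, h3, h4, f', hf'⟩ :=
    CfsgLib.SolvableEmbed.exists_fully_ramified_of_ram hM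
  have hc : Nat.card (Subgroup.center H) = n := h3.trans (Complex.card_rootsOfUnity n)
  refine ⟨H, gH, fH, χ, h1, h2, ⟨f'.comp f, hf'.comp hf⟩, fun q hq => ⟨⟨fun h => ?_, fun h => ?_⟩,
    ?_⟩, hc ▸ hn⟩
  · exact (hdvd q hq).1 (h4 q hq h)
  · exact ((hc ▸ (hdvd q hq).2 h : q ∣ Nat.card (Subgroup.center H))).trans
      (Subgroup.card_subgroup_dvd_card _)
  · rw [hc]; exact hdvd q hq

end Cfsg.Agent.S4561
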