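import Cfsg.Statements.S4563
import Cfsg.Agent.Eq.Def_Characters
import Cfsg.Agent.Chars.Apps.FullyRamifiedSylow
import Cfsg.Agent.S0006

set_option autoImplicit false
open Cfsg CfsgLib.Chars CfsgLib.Chars.Induced

namespace Cfsg.Agent.S4563

/-- Let χ be an irreducible character of the finite group H that is fully ramified over the normal subgroup Z: the restriction of χ to Z is e times an irreducible character of Z with e ^ 2 equal to the index of Z. If K is a proper normal subgroup of H containing Z and χ is induced from a character of K, then H/K is solvable; in particular, if K is solvable then so is H. -/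
theorem result {H : Type*} [Group H] [Fintype H] (Z : Subgroup H) [Z.Normal] (χ : Cfsg.IrrCharacter H) (hfr : ∃ (θ : Cfsg.IrrCharacter ↥Z) (e : ℕ), e ^ 2 = Z.index ∧ ∀ z : ↥Z, (χ : H → ℂ) z = (e : ℂ) * (θ : ↥Z → ℂ) z) (K : Subgroup H) [K.Normal] [Fintype K] (hZK : Z ≤ K) (hK : K ≠ ⊤) (φ : ↥K → ℂ) (hφ : Cfsg.IsCharacter ↥K φ) (hind : Cfsg.indFun K φ = (χ : H → ℂ)) : Group.IsSolvable (H ⧸ K) ∧ (Group.IsSolvable ↥K → Group.IsSolvable H) := by
  classical
  obtain ⟨θ, e, he2, hres⟩ := hfr
  have he0 : e ≠ 0 := fun h => Subgroup.index_ne_zero_of_finite (H := Z) (by rw [← he2, h]; simp)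
  -- the constituents of `φ` on `Z`
  have hθ : ∀ ξ : IrrCharacter K, mult φ ξ ≠ 0 → ∀ ζ : IrrCharacter Z,
      mult (fun z : Z => (ξ : K → ℂ) (Subgroup.inclusion hZK z)) ζ ≠ 0 → ζ = θ := by
    intro ξ hξ ζ hζ
    obtain ⟨η, hη⟩ := exists_mult_ne_zero (isCharacter_indFun K (isCharacter_coe ξ)) fun h0 => by
      have h1 := congrFun h0 1
      rw [indFun_one_apply, Pi.zero_apply] at h1
      rcases mul_eq_zero.1 h1 with h2 | h2
      · exact Subgroup.index_ne_zero_of_finite (Nat.cast_eq_zero.1 h2)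
      · exact map_one_ne_zero ξ h2
    rw [mult_indFun_irr] at hη
    have h3 : mult (indFun K φ) η ≠ 0 := by
      obtain ⟨s, hmem, hs⟩ := exists_eq_sum_mult hφ
      intro h0
      have h1 := mult_indFun K hφ η
      rw [h0, Nat.cast_zero, hs, Induced.classInner_sum_left] at h1
      have h2 : (∑ c ∈ s, mult φ c * mult (fun k : K => (η : H → ℂ) k) c) = 0 := by
        apply Nat.cast_injective (R := ℂ)
        rw [Nat.cast_zero, h1, Nat.cast_sum]
        exact Finset.sum_congr rfl fun c _ => by
          rw [Induced.classInner_smul_left,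
            classInner_irr_left_eq_mult (isCharacter_restrict (isCharacter_coe η) K), Nat.cast_mul]
      exact Nat.mul_ne_zero hξ hη (Finset.sum_eq_zero_iff.1 h2 ξ ((hmem ξ).2 hξ))
    rw [hind, mult_irr] at h3
    obtain rfl : χ = η := by
      by_contra hne
      exact h3 (if_neg (fun h => hne (by first | exact h | exact h.symm)))
    have hle := mult_mul_mult_le_restrict (Subgroup.inclusion hZK)
      (isCharacter_restrict (isCharacter_coe χ) K) ξ ζ
    have h4 : mult (fun z : Z => (χ : H → ℂ) z) ζ ≠ 0 :=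
      fun h => Nat.mul_ne_zero hη hζ (Nat.eq_zero_of_le_zero (hle.trans_eq h))
    by_contra hne
    refine h4 (Nat.cast_injective (R := ℂ) ?_)
    rw [← classInner_eq_mult (isCharacter_restrict (isCharacter_coe χ) Z),
      show (fun z : Z => (χ : H → ℂ) z) = (e : ℂ) • (θ : Z → ℂ) from funext hres,
      Induced.classInner_smul_left, classInner_irr_of_ne (Ne.symm hne), mul_zero, Nat.cast_zero]
  set φZ : Z → ℂ := fun z => φ (Subgroup.inclusion hZK z)
  set f := mult φZ θ
  have hφZ : IsCharacter Z φZ := isCharacter_comp hφ (Subgroup.inclusion hZK)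
  have hfres : φZ = (f : ℂ) • (θ : Z → ℂ) := by
    obtain ⟨s, hmem, hs⟩ := exists_eq_sum_mult hφZ
    have hsub : s ⊆ {θ} := fun ζ hζ => by
      obtain ⟨ξ, hξ, hξζ⟩ := exists_constituent_over (Subgroup.inclusion hZK) hφ ζ ((hmem ζ).1 hζ)
      exact Finset.mem_singleton.2 (hθ ξ hξ ζ hξζ)
    rw [Finset.sum_subset hsub fun ζ _ hζ => by
      rw [not_not.1 (mt (hmem ζ).2 hζ), Nat.cast_zero, zero_smul], Finset.sum_singleton] at hs
    exact hs
  have hfe : f * K.index = e := by
    apply Nat.cast_injective (R := ℂ)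
    refine mul_right_cancel₀ (map_one_ne_zero θ) ?_
    have h1 := congrFun hfres 1
    have h2 : φ 1 = (f : ℂ) * (θ : Z → ℂ) 1 := by
      rw [← smul_eq_mul, ← Pi.smul_apply, ← h1]
      exact congrArg φ (map_one _).symm
    have h3 := congrFun hind 1
    rw [indFun_one_apply, h2, show (χ : H → ℂ) 1 = (χ : H → ℂ) ((1 : Z) : H) from rfl, hres] at h3
    push_cast
    linear_combination h3
  have hsol : Group.IsSolvable (H ⧸ K) := by
    refine Cfsg.Agent.S0006.result fun p hp => ?_
    have : Fact p.Prime := ⟨hp⟩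
    exact CfsgLib.Chars.Apps.exists_subgroup_index_eq Z θ χ he2 hres K hZK p
      (Or.inr ⟨f, φ, hφ, fun h => he0 (by rw [← hfe, h, zero_mul]), fun z => congrFun hfres z,
        dvd_of_eq hfe⟩)
  exact ⟨hsol, fun hKs => Group.isSolvable_of_ker_le_range K.subtype (QuotientGroup.mk' K)
    (by simp)⟩

end Cfsg.Agent.S4563
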