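import Cfsg.Statements.S4564
import Cfsg.Agent.Eq.Def_Characters
import Cfsg.Agent.Chars.Apps.FullyRamifiedSylow

set_option autoImplicit false
open Cfsg

namespace Cfsg.Agent.S4564

/-- Let χ be an irreducible character of the finite group H that is fully ramified over the normal subgroup Z: the restriction of χ to Z is e times an irreducible character of Z with e ^ 2 equal to the index of Z. Let K be a normal subgroup of H containing Z and P a cyclic Sylow p-subgroup of H/K. Then P has a complement in H/K: a subgroup meeting P trivially whose product with P is the whole group. -/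
theorem result {H : Type*} [Group H] [Finite H] (Z : Subgroup H) [Z.Normal] (χ : Cfsg.IrrCharacter H) (hfr : ∃ (θ : Cfsg.IrrCharacter ↥Z) (e : ℕ), e ^ 2 = Z.index ∧ ∀ z : ↥Z, (χ : H → ℂ) z = (e : ℂ) * (θ : ↥Z → ℂ) z) (K : Subgroup H) [K.Normal] (hZK : Z ≤ K) (p : ℕ) [Fact p.Prime] (P : Sylow p (H ⧸ K)) (hcyc : IsCyclic P) : ∃ M : Subgroup (H ⧸ K), M.IsComplement' (P : Subgroup (H ⧸ K)) := by
  classical
  let _ := Fintype.ofFinite H
  obtain ⟨θ, e, he2, hres⟩ := hfr
  have hp : p.Prime := Fact.out
  obtain ⟨A, hA⟩ := CfsgLib.Chars.Apps.exists_subgroup_index_eq Z θ χ he2 hres K hZK p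
    (Or.inl fun P' => isCyclic_of_surjective (P.equiv P').toMonoidHom (P.equiv P').surjective)
  have hP : Nat.card P = A.index := by rw [hA, P.card_eq_multiplicity]; rfl
  have hcard : Nat.card A * Nat.card P = Nat.card (H ⧸ K) := by rw [hP, A.card_mul_index]
  refine ⟨A, Subgroup.isComplement'_of_coprime hcard ?_⟩
  have h1 : Nat.card A = P.index := by
    apply Nat.eq_of_mul_eq_mul_left (Nat.card_pos (α := P))
    rw [mul_comm, hcard, Subgroup.card_mul_index]
  rw [h1, P.card_eq_multiplicity]
  exact ((hp.coprime_iff_not_dvd.2 P.not_dvd_index).symm).pow_right _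

end Cfsg.Agent.S4564
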