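import Cfsg.Statements.S4565
import Cfsg.Agent.Chars.Induced.Covering
import Cfsg.Agent.Chars.Induced.Relative
import Cfsg.Agent.Chars.Induced.Gallagher
import Cfsg.Agent.Glauberman.Corr
import Cfsg.Agent.Eq.Def_Characters

set_option autoImplicit false
set_option maxHeartbeats 1000000
open Cfsg
open scoped ComplexConjugate

namespace Cfsg.Agent.S4565

open CfsgLib.Chars CfsgLib.Chars.Induced

/-- Let χ be an irreducible character of the finite group H that is fully ramified over the normal subgroup Z: the restriction of χ to Z is e times an irreducible character of Z with e ^ 2 equal to the index of Z. If Z ≠ H, then H/Z has no cyclic subgroup that is its own centralizer. -/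
theorem result {H : Type*} [Group H] [Finite H] (Z : Subgroup H) [Z.Normal] (χ : Cfsg.IrrCharacter H) (hfr : ∃ (θ : Cfsg.IrrCharacter ↥Z) (e : ℕ), e ^ 2 = Z.index ∧ ∀ z : ↥Z, (χ : H → ℂ) z = (e : ℂ) * (θ : ↥Z → ℂ) z) (hZ : Z ≠ ⊤) (C : Subgroup (H ⧸ Z)) (hC : IsCyclic C) : Subgroup.centralizer (C : Set (H ⧸ Z)) ≠ C := by
  classical
  cases nonempty_fintype H
  intro hCC
  obtain ⟨θ, e, he, hres⟩ := hfr
  have hresf : (fun n : Z => (χ : H → ℂ) n) = (e : ℂ) • (θ : Z → ℂ) := funext hres
  have he0 : (e : ℂ) ≠ 0 := by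
    intro h
    apply map_one_ne_zero χ
    have := hres 1
    rw [h, zero_mul] at this
    exact this
  have hmult : mult (fun n : Z => (χ : H → ℂ) n) θ ≠ 0 := by
    rw [← Nat.cast_ne_zero (R := ℂ),
      ← classInner_eq_mult (isCharacter_restrict (isCharacter_coe χ) Z), hresf,
      CfsgLib.Chars.classInner_smul_left, classInner_irr_self, mul_one]
    exact he0
  obtain ⟨hinv, huniq⟩ := (fully_ramified_iff χ θ hmult).2.1 ⟨e, hresf, he⟩
  obtain ⟨⟨c, hc⟩, hgen⟩ := IsCyclic.exists_generator (α := C)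
  obtain ⟨g, rfl⟩ := QuotientGroup.mk'_surjective Z c
  set π := QuotientGroup.mk' Z
  set T : Subgroup H := C.comap π
  have hgT : g ∈ T := hc
  have hZT : Z ≤ T := fun z hz => by
    show π z ∈ C
    rw [show π z = 1 from (QuotientGroup.eq_one_iff z).2 hz]
    exact one_mem C
  have hpow : ∀ t ∈ C, ∃ i : ℤ, π g ^ i = t := fun t ht => by
    obtain ⟨i, hi⟩ := Subgroup.mem_zpowers_iff.1 (hgen ⟨t, ht⟩)
    exact ⟨i, congrArg Subtype.val hi⟩
  -- the generator is not trivial
  have hg1 : g ∉ Z := by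
    intro hg
    apply hZ
    have hCbot : C = ⊥ := (Subgroup.eq_bot_iff_forall C).2 fun t ht => by
      obtain ⟨i, hi⟩ := hpow t ht
      rw [← hi, show π g = 1 from (QuotientGroup.eq_one_iff g).2 hg, one_zpow]
    rw [eq_top_iff]
    intro x _
    have hx : π x ∈ Subgroup.centralizer (C : Set (H ⧸ Z)) :=
      Subgroup.mem_centralizer_iff.2 fun t ht => by
        rw [hCbot, SetLike.mem_coe, Subgroup.mem_bot] at ht
        simp [ht]
    rw [hCC, hCbot, Subgroup.mem_bot] at hx
    exact (QuotientGroup.eq_one_iff x).1 hx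
  -- the intermediate group and an extension
  set Z' : Subgroup T := Z.subgroupOf T
  have hZ'n : Z'.Normal := Subgroup.Normal.comap inferInstance _
  set eq : Z' ≃* Z := Subgroup.subgroupOfEquivOfLe hZT
  set θ' : IrrCharacter Z' := CfsgLib.Glauberman.irrPull eq θ
  have hinv' : ∀ t : T, conjFun Z' t (θ' : Z' → ℂ) = θ' := fun t =>
    mem_inertia.1 (mem_inertia_iff_forall.2 fun n n' hn =>
      mem_inertia_iff_forall.1 (mem_inertia.2 (hinv (t : H))) (eq n) (eq n')
        (congrArg Subtype.val hn))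
  have hQc : ∀ q : T ⧸ Z', q ∈ Subgroup.zpowers ((⟨g, hgT⟩ : T) : T ⧸ Z') := by
    intro q
    obtain ⟨t, rfl⟩ := QuotientGroup.mk_surjective q
    obtain ⟨i, hi⟩ := hpow (π t) t.2
    refine Subgroup.mem_zpowers_iff.2 ⟨i, ?_⟩
    rw [← QuotientGroup.mk_zpow, QuotientGroup.eq]
    refine Subgroup.mem_subgroupOf.2 ((QuotientGroup.eq_one_iff _).1 ?_)
    show π (((⟨g, hgT⟩ : T) ^ i)⁻¹ * t : T) = 1
    push_cast
    rw [map_mul, map_inv, map_zpow, hi, inv_mul_cancel]
  have hcycQ : IsCyclic (T ⧸ Z') := ⟨⟨((⟨g, hgT⟩ : T) : T ⧸ Z'), hQc⟩⟩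
  obtain ⟨ξ, hξ⟩ := exists_extension_of_isCyclic θ' hinv'
  -- all twists induce to the same function
  let tw : IrrCharacter (T ⧸ Z') → IrrCharacter T := fun β =>
    ⟨_, gallagher_isIrrCharacter ξ θ' hξ β⟩
  have hlin : ∀ β : IrrCharacter (T ⧸ Z'), (β : T ⧸ Z' → ℂ) 1 = 1 := fun β => by
    letI := IsCyclic.commGroup (α := T ⧸ Z')
    exact map_one_eq_one_of_isMulCommutative β
  have hZval : ∀ (β : IrrCharacter (T ⧸ Z')) (n : Z'), (tw β : T → ℂ) n = (θ' : Z' → ℂ) n :=
    fun β n => by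
    show (ξ : T → ℂ) n * (β : T ⧸ Z' → ℂ) ((n : T) : T ⧸ Z') = _
    rw [(QuotientGroup.eq_one_iff _).2 n.2, hlin, mul_one, hξ]
  have hind : ∀ β : IrrCharacter (T ⧸ Z'), ∀ x : H,
      indFun T (tw β : T → ℂ) x =
        (T.index : ℂ) * (θ : Z → ℂ) 1 / (χ : H → ℂ) 1 * (χ : H → ℂ) x := by
    intro β
    have hc := isCharacter_indFun T (isCharacter_coe (tw β))
    obtain ⟨s, hmem, hs⟩ := exists_eq_sum_mult hc
    have hall : ∀ η ∈ s, η = χ := by
      intro η hη
      refine huniq η ?_
      have h1 := (hmem η).1 hη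
      rw [mult_indFun_irr] at h1
      have hle := mult_mul_mult_le_restrict (Subgroup.inclusion hZT)
        (isCharacter_restrict (isCharacter_coe η) T) (tw β) θ
      have h2 : mult (fun z : Z => (tw β : T → ℂ) (Subgroup.inclusion hZT z)) θ ≠ 0 := by
        rw [show (fun z : Z => (tw β : T → ℂ) (Subgroup.inclusion hZT z)) = (θ : Z → ℂ) from
          funext fun z => by
            rw [show Subgroup.inclusion hZT z = ((eq.symm z : Z') : T) from Subtype.ext rfl,
              hZval β, CfsgLib.Glauberman.irrPull_apply, MulEquiv.apply_symm_apply],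
          ← Nat.cast_ne_zero (R := ℂ), ← classInner_eq_mult (isCharacter_coe _),
          classInner_irr_self]
        exact one_ne_zero
      exact fun h0 => Nat.mul_ne_zero h1 h2 (Nat.eq_zero_of_le_zero (hle.trans_eq h0))
    have hval : ∀ x, indFun T (tw β : T → ℂ) x =
        (∑ η ∈ s, (mult (indFun T (tw β : T → ℂ)) η : ℂ)) * (χ : H → ℂ) x := by
      intro x
      conv_lhs => rw [hs]
      rw [Finset.sum_apply, Finset.sum_mul]
      exact Finset.sum_congr rfl fun η hη => by rw [Pi.smul_apply, smul_eq_mul, hall η hη]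
    intro x
    have h1 := hval 1
    rw [indFun_one_apply,
      show (tw β : T → ℂ) 1 = (θ : Z → ℂ) 1 from (hZval β 1).trans (by
        rw [CfsgLib.Glauberman.irrPull_apply, map_one])] at h1
    rw [hval x, h1, mul_div_assoc, div_self (map_one_ne_zero χ), mul_one]
  -- evaluate at a lift of the generator, weighting by the twists
  have hfix : ∀ z : Z, (ξ : T → ℂ) ((eq.symm z : Z') * ⟨g, hgT⟩) = 0 := by
    intro z
    set y : T := (eq.symm z : Z') * ⟨g, hgT⟩
    set q : T ⧸ Z' := (y : T ⧸ Z')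
    have hq : q = ((⟨g, hgT⟩ : T) : T ⧸ Z') := by
      show ((((eq.symm z : Z') : T) * ⟨g, hgT⟩ : T) : T ⧸ Z') = _
      rw [QuotientGroup.mk_mul, (QuotientGroup.eq_one_iff _).2 (eq.symm z).2, one_mul]
    have hq1 : q ≠ 1 := by
      rw [hq, Ne, QuotientGroup.eq_one_iff]
      exact hg1
    have hsum0 : ∑ β : IrrCharacter (T ⧸ Z'), conj ((β : T ⧸ Z' → ℂ) q) = 0 := by
      have h1 := sum_irr_map_one_mul q
      rw [if_neg hq1] at h1
      simp only [hlin, one_mul] at h1
      rw [← map_sum, h1, map_zero]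
    have hkey : ∑ β : IrrCharacter (T ⧸ Z'),
        conj ((β : T ⧸ Z' → ℂ) q) * indFun T (tw β : T → ℂ) (y : H) = 0 := by
      simp only [hind, ← Finset.sum_mul, hsum0, zero_mul]
    simp only [indFun] at hkey
    have hterm : ∀ x : H, ∑ β : IrrCharacter (T ⧸ Z'),
        conj ((β : T ⧸ Z' → ℂ) q) * extendByZero T (tw β : T → ℂ) (x⁻¹ * (y : H) * x) =
        if x ∈ T then (Nat.card (T ⧸ Z') : ℂ) * (ξ : T → ℂ) y else 0 := by
      intro x
      by_cases hxy : x⁻¹ * (y : H) * x ∈ T
      · simp only [extendByZero_mem _ hxy]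
        have h2 := sum_irr_mul_conj ((⟨_, hxy⟩ : T) : T ⧸ Z') q
        letI := IsCyclic.commGroup (α := T ⧸ Z')
        have hcen : Nat.card (Subgroup.centralizer ({((⟨_, hxy⟩ : T) : T ⧸ Z')} : Set (T ⧸ Z'))) =
            Nat.card (T ⧸ Z') :=
          (congrArg (fun S : Subgroup (T ⧸ Z') => Nat.card S) (eq_top_iff.2 fun t _ =>
            Subgroup.mem_centralizer_singleton_iff.2 (mul_comm _ _))).trans Subgroup.card_top
        rw [hcen] at h2
        have h3 : ∑ β : IrrCharacter (T ⧸ Z'),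
            conj ((β : T ⧸ Z' → ℂ) q) * (tw β : T → ℂ) ⟨_, hxy⟩ =
            (ξ : T → ℂ) ⟨_, hxy⟩ * ∑ β : IrrCharacter (T ⧸ Z'),
              (β : T ⧸ Z' → ℂ) ((⟨_, hxy⟩ : T) : T ⧸ Z') * conj ((β : T ⧸ Z' → ℂ) q) := by
          rw [Finset.mul_sum]
          refine Finset.sum_congr rfl fun β _ => ?_
          show conj _ * ((ξ : T → ℂ) _ * _) = _
          ring
        rw [h3, h2]
        by_cases hx : x ∈ T
        · rw [if_pos hx]
          have hcy : (ξ : T → ℂ) ⟨_, hxy⟩ = (ξ : T → ℂ) y := eq_of_isConj (isClassFunction_coe ξ)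
            (isConj_iff.2 ⟨⟨x, hx⟩, Subtype.ext (by simp [mul_assoc])⟩)
          rw [if_pos (isConj_iff.2 ⟨1, ?_⟩), hcy, mul_comm]
          rw [one_mul, inv_one, mul_one,
            show (⟨_, hxy⟩ : T) = (⟨x, hx⟩ : T)⁻¹ * y * ⟨x, hx⟩ from Subtype.ext rfl,
            QuotientGroup.mk_mul, QuotientGroup.mk_mul, QuotientGroup.mk_inv, mul_comm (_⁻¹) q,
            inv_mul_cancel_right]
        · rw [if_neg hx, if_neg, mul_zero]
          rintro hcon
          apply hx
          obtain ⟨w, hw⟩ := isConj_iff.1 hcon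
          rw [mul_comm w, mul_inv_cancel_right, hq, QuotientGroup.eq, Subgroup.mem_subgroupOf] at hw
          have h4 : π (x⁻¹ * (y : H) * x) = π g := by
            have h5 : π ((((⟨_, hxy⟩ : T))⁻¹ * ⟨g, hgT⟩ : T) : H) = 1 :=
              (QuotientGroup.eq_one_iff _).2 hw
            push_cast at h5
            rw [map_mul, map_inv, inv_mul_eq_one] at h5
            exact h5
          have hyg : π (y : H) = π g := by
            show π (((eq.symm z : Z') : T) * ⟨g, hgT⟩ : T) = _
            rw [Subgroup.coe_mul, map_mul, show π (((eq.symm z : Z') : T) : H) = 1 from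
              (QuotientGroup.eq_one_iff _).2 z.2, one_mul]
          have hcomm : Commute (π g) (π x) := by
            rw [map_mul, map_mul, map_inv, hyg, mul_assoc, inv_mul_eq_iff_eq_mul] at h4
            exact h4
          have hx' : π x ∈ Subgroup.centralizer (C : Set (H ⧸ Z)) :=
            Subgroup.mem_centralizer_iff.2 fun t ht => by
              obtain ⟨i, rfl⟩ := hpow t ht
              exact (hcomm.zpow_left i).eq
          rw [hCC] at hx'
          exact hx'
      · rw [if_neg fun hx => hxy (mul_mem (mul_mem (inv_mem hx) y.2) hx)]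
        exact Finset.sum_eq_zero fun β _ => by rw [extendByZero_notMem _ hxy, mul_zero]
    have h4 : (Nat.card T : ℂ)⁻¹ * ∑ x : H,
        (if x ∈ T then (Nat.card (T ⧸ Z') : ℂ) * (ξ : T → ℂ) y else 0) = 0 := by
      rw [← Finset.sum_congr rfl fun x _ => hterm x, Finset.sum_comm, Finset.mul_sum]
      refine Eq.trans (Finset.sum_congr rfl fun β _ => ?_) hkey
      rw [← Finset.mul_sum]
      ring
    rw [← Finset.sum_filter, Finset.sum_const, nsmul_eq_mul] at h4
    have hne : ((Finset.univ.filter (· ∈ T)).card : ℂ) ≠ 0 :=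
      Nat.cast_ne_zero.2 (Finset.card_ne_zero.2 ⟨g, by simpa using hgT⟩)
    simp only [mul_eq_zero, inv_eq_zero, hne, Nat.cast_eq_zero, Nat.card_pos.ne', false_or] at h4
    exact h4
  have h1 := avg_norm_sq ξ θ' hξ (⟨g, hgT⟩ : T)
  rw [Finset.sum_eq_zero fun n _ => ?_, mul_zero] at h1
  · exact zero_ne_one h1
  · have := hfix (eq n)
    rw [MulEquiv.symm_apply_apply] at this
    rw [this, zero_mul]

end Cfsg.Agent.S4565
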