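import Cfsg.Statements.S4566
import Cfsg.Agent.Eq.Def_Characters
import Mathlib.Analysis.Complex.Polynomial.Basic
-- import your own Cfsg.Agent.* helpers here

set_option autoImplicit false
open Cfsg

namespace Cfsg.Agent.S4566

open scoped ComplexConjugate

theorem central_scalar {G : Type*} [Group G] {n : ℕ} (ρ : Representation ℂ G (Fin n → ℂ))
    [ρ.IsIrreducible] {z : G} (hz : z ∈ Subgroup.center G) : ∃ c : ℂ, ρ z = c • LinearMap.id := by
  let f : Representation.IntertwiningMap ρ ρ := ⟨ρ z, fun g => by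
    rw [← Module.End.mul_eq_comp, ← Module.End.mul_eq_comp, ← map_mul, ← map_mul,
      Subgroup.mem_center_iff.mp hz g]⟩
  obtain ⟨c, hc⟩ := (Representation.IsIrreducible.algebraMap_intertwiningMap_bijective_of_isAlgClosed (ρ := ρ)).2 f
  refine ⟨c, LinearMap.ext fun v => ?_⟩
  have := congrArg (fun F : Representation.IntertwiningMap ρ ρ => F v) hc
  have h2 := this.symm; simp at h2; exact h2

/-- Let N be a central subgroup of the finite group G, ψ a faithful irreducible (hence degree-one) character of N, and χ an irreducible character of G whose restriction to N contains ψ. If g ∈ G and some x ∈ G has commutator x⁻¹ g⁻¹ x g in N but different from 1, then χ g = 0. -/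
theorem result {G : Type*} [Group G] [Fintype G] (N : Subgroup G) [Fintype N] (hN : N ≤ Subgroup.center G) (ψ : Cfsg.IrrCharacter ↥N) (hfaith : ∀ n : ↥N, (ψ : ↥N → ℂ) n = (ψ : ↥N → ℂ) 1 → n = 1) (χ : Cfsg.IrrCharacter G) (hover : Cfsg.classInner (fun n : ↥N => (χ : G → ℂ) n) (ψ : ↥N → ℂ) ≠ 0) (g x : G) (hcomm : x⁻¹ * g⁻¹ * x * g ∈ N) (hne : x⁻¹ * g⁻¹ * x * g ≠ 1) : (χ : G → ℂ) g = 0 := by
  classical
  obtain ⟨n, ρ, hρ, hχ⟩ := χ.2
  obtain ⟨m, σ, hσ, hψ⟩ := ψ.2
  have hab : IsMulCommutative N := ⟨⟨fun a b => Subtype.ext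
    (Subgroup.mem_center_iff.mp (hN b.2) a)⟩⟩
  have hm : m = 1 := by
    have := Representation.IsIrreducible.finrank_eq_one_of_isMulCommutative σ
    simpa using this
  have hψ1 : (ψ : N → ℂ) 1 = 1 := by
    rw [← hψ, Representation.char_one]; simp [hm]
  have hψmul : ∀ a b : N, (ψ : N → ℂ) (a * b) = (ψ : N → ℂ) a * (ψ : N → ℂ) b := by
    intro a b
    have hc : ∀ a : N, a ∈ Subgroup.center N := fun a => Subgroup.mem_center_iff.mpr
      fun b => mul_comm' b a
    obtain ⟨c, hca⟩ := central_scalar σ (hc a)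
    rw [← hψ]
    simp only [Representation.character, map_mul, hca]
    subst hm
    simp [Module.End.mul_eq_comp]
  set y : G := x⁻¹ * g⁻¹ * x * g with hy
  obtain ⟨c, hc⟩ := central_scalar ρ (hN hcomm)
  have hshift : ∀ a : G, (χ : G → ℂ) (a * y) = c * (χ : G → ℂ) a := by
    intro a
    rw [← hχ]
    simp [Representation.character, map_mul, hc, Module.End.mul_eq_comp]
  -- the value at a conjugate
  have hconj : (χ : G → ℂ) g = c * (χ : G → ℂ) g := by
    rw [← hshift g]
    have e3 : g * y⁻¹ = x⁻¹ * g * x := by rw [hy]; group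
    have e4 : (χ : G → ℂ) (g * y⁻¹) = (χ : G → ℂ) g := by
      rw [e3, ← hχ]
      simpa using ρ.char_conj g x⁻¹
    calc (χ : G → ℂ) g = (χ : G → ℂ) (g * y⁻¹ * y) := by rw [inv_mul_cancel_right]
      _ = c * (χ : G → ℂ) (g * y⁻¹) := hshift _
      _ = c * (χ : G → ℂ) g := by rw [e4]
      _ = _ := (hshift g).symm
  have hc1 : c ≠ 1 := by
    intro hc1
    have hne' : (ψ : N → ℂ) ⟨y, hcomm⟩ ≠ 1 := fun h =>
      hne (congrArg Subtype.val (hfaith ⟨y, hcomm⟩ (by rw [h, hψ1])))
    apply hover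
    unfold Cfsg.classInner
    set S := ∑ a : N, (χ : G → ℂ) a * conj ((ψ : N → ℂ) a) with hS
    have : S = conj ((ψ : N → ℂ) ⟨y, hcomm⟩) * S := by
      conv_lhs => rw [hS, ← Equiv.sum_comp (Equiv.mulRight (⟨y, hcomm⟩ : N))]
      rw [hS, Finset.mul_sum]
      refine Finset.sum_congr rfl fun a _ => ?_
      simp only [Equiv.coe_mulRight, Subgroup.coe_mul, hshift, hc1, hψmul, map_mul]
      ring
    have h2 : (1 - conj ((ψ : N → ℂ) ⟨y, hcomm⟩)) * S = 0 := by rw [sub_mul, one_mul, ← this, sub_self]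
    rcases mul_eq_zero.mp h2 with h3 | h3
    · exfalso
      apply hne'
      have := congrArg conj (sub_eq_zero.mp h3)
      simpa using this.symm
    · rw [h3, mul_zero]
  exact by
    have : (1 - c) * (χ : G → ℂ) g = 0 := by rw [sub_mul, one_mul, ← hconj, sub_self]
    exact (mul_eq_zero.mp this).resolve_left (sub_ne_zero.mpr (Ne.symm hc1))

end Cfsg.Agent.S4566
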