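import Cfsg.Statements.S4567
import Cfsg.Agent.Chars.Basic.Columns
import Cfsg.Agent.Chars.Basic.Linear
import Cfsg.Agent.Chars.Basic.Kernel

set_option autoImplicit false
open Cfsg

namespace Cfsg.Agent.S4567

/-- Let N be a central subgroup of the finite group G and ψ a faithful irreducible (hence degree-one) character of N. Call a coset g N special when every x ∈ G whose commutator x⁻¹ g⁻¹ x g lies in N actually commutes with g (this depends only on the coset). Then the number of irreducible characters of G whose restriction to N contains ψ equals the number of conjugacy classes of G/N consisting of special cosets. -/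
theorem result {G : Type*} [Group G] [Fintype G] (N : Subgroup G) [N.Normal] [Fintype N] (hN : N ≤ Subgroup.center G) (ψ : Cfsg.IrrCharacter ↥N) (hfaith : ∀ n : ↥N, (ψ : ↥N → ℂ) n = (ψ : ↥N → ℂ) 1 → n = 1) : Nat.card {χ : Cfsg.IrrCharacter G // Cfsg.classInner (fun n : ↥N => (χ : G → ℂ) n) (ψ : ↥N → ℂ) ≠ 0} = Nat.card {C : ConjClasses (G ⧸ N) // ∃ g : G, ConjClasses.mk (g : G ⧸ N) = C ∧ ∀ x : G, x⁻¹ * g⁻¹ * x * g ∈ N → x * g = g * x} := by
  classical
  haveI hcommN : IsMulCommutative N := ⟨⟨fun a b => Subtype.ext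
    (Subgroup.mem_center_iff.1 (hN b.2) a.1)⟩⟩
  obtain ⟨l, rfl⟩ := CfsgLib.Chars.exists_linChar_eq ψ
    (CfsgLib.Chars.map_one_eq_one_of_isMulCommutative ψ)
  have hinj : ∀ n : N, l n = 1 → n = 1 := fun n hn => hfaith n (by simp [hn])
  have hconjl : ∀ n : N, starRingEnd ℂ ((l n : ℂˣ) : ℂ) = ((l n⁻¹ : ℂˣ) : ℂ) := fun n =>
    CfsgLib.Chars.conj_eq_map_inv (CfsgLib.Chars.isCharacter_coe (CfsgLib.Chars.linChar l)) n
  set P : G → Prop := fun g => ∀ x : G, x⁻¹ * g⁻¹ * x * g ∈ N → x * g = g * x with hP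
  set S := Finset.univ.filter (fun χ : Cfsg.IrrCharacter G =>
    Cfsg.classInner (fun n : N => (χ : G → ℂ) n) (CfsgLib.Chars.linChar l : N → ℂ) ≠ 0) with hS
  have hNc : (Nat.card N : ℂ) ≠ 0 := Nat.cast_ne_zero.2 Nat.card_pos.ne'
  have hconv : ∀ (χ : Cfsg.IrrCharacter G) (g : G),
      ∑ n : N, starRingEnd ℂ ((l n : ℂˣ) : ℂ) * (χ : G → ℂ) ((n : G) * g) =
        if χ ∈ S then (Nat.card N : ℂ) * (χ : G → ℂ) g else 0 := by
    intro χ g
    set I := Cfsg.classInner (fun n : N => (χ : G → ℂ) n) (CfsgLib.Chars.linChar l : N → ℂ) with hI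
    have h1 : ∑ n : N, starRingEnd ℂ ((l n : ℂˣ) : ℂ) * (χ : G → ℂ) ((n : G) * g) =
        (Nat.card N : ℂ) * I / (χ : G → ℂ) 1 * (χ : G → ℂ) g := by
      rw [hI, Cfsg.classInner, ← mul_assoc, mul_inv_cancel₀ hNc, one_mul, Finset.sum_div,
        Finset.sum_mul]
      refine Finset.sum_congr rfl fun n _ => ?_
      rw [CfsgLib.Chars.map_mul_of_mem_center χ (hN n.2), CfsgLib.Chars.linChar_apply]
      ring
    rw [h1]
    by_cases h : I = 0
    · rw [h, if_neg (by simp [hS, ← hI, h])]; simp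
    · rw [if_pos (by simp [hS, ← hI, h])]
      congr 1
      -- the scalar on `N` is `l`
      have hχ1 := CfsgLib.Chars.map_one_ne_zero χ
      have hl : ∀ n : N, (χ : G → ℂ) n = ((l n : ℂˣ) : ℂ) * (χ : G → ℂ) 1 := by
        intro n
        have hshift : I = (χ : G → ℂ) n / (χ : G → ℂ) 1 * starRingEnd ℂ ((l n : ℂˣ) : ℂ) * I := by
          conv_lhs => rw [hI, Cfsg.classInner, ← Equiv.sum_comp (Equiv.mulLeft n)]
          conv_rhs => rw [hI, Cfsg.classInner]
          simp only [Finset.mul_sum]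
          refine Finset.sum_congr rfl fun y _ => ?_
          simp only [Equiv.coe_mulLeft, Subgroup.coe_mul, CfsgLib.Chars.linChar_apply, map_mul,
            Units.val_mul]
          rw [CfsgLib.Chars.map_mul_of_mem_center χ (hN n.2)]
          ring
        have h2 := (mul_eq_right₀ h).1 hshift.symm
        rw [hconjl] at h2
        have h3 : ((l n⁻¹ : ℂˣ) : ℂ) * ((l n : ℂˣ) : ℂ) = 1 := by
          rw [← Units.val_mul, ← map_mul, inv_mul_cancel, map_one, Units.val_one]
        field_simp at h2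
        linear_combination ((l n : ℂˣ) : ℂ) * h2 - (χ : G → ℂ) n * h3
      have hIeq : I = (χ : G → ℂ) 1 := by
        rw [hI, Cfsg.classInner]
        simp only [hl, CfsgLib.Chars.linChar_apply]
        rw [Finset.sum_congr rfl (g := fun _ => (χ : G → ℂ) 1) fun n _ => by
          rw [hconjl, mul_comm ((l n : ℂˣ) : ℂ), mul_assoc, ← Units.val_mul, ← map_mul,
            mul_inv_cancel, map_one, Units.val_one, mul_one]]
        simp only [Finset.sum_const, Finset.card_univ, nsmul_eq_mul, ← Nat.card_eq_fintype_card]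
        field_simp
      rw [hIeq, mul_div_assoc, div_self hχ1, mul_one]
  have hcol : ∀ g : G, ∑ χ ∈ S, (χ : G → ℂ) g * starRingEnd ℂ ((χ : G → ℂ) g) =
      if P g then (Nat.card (Subgroup.centralizer ({g} : Set G)) : ℂ) / (Nat.card N : ℂ) else 0 := by
    intro g
    have h1 : ∑ χ : Cfsg.IrrCharacter G, (∑ n : N, starRingEnd ℂ ((l n : ℂˣ) : ℂ) *
        (χ : G → ℂ) ((n : G) * g)) * starRingEnd ℂ ((χ : G → ℂ) g) =
        (Nat.card N : ℂ) * ∑ χ ∈ S, (χ : G → ℂ) g * starRingEnd ℂ ((χ : G → ℂ) g) := by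
      simp only [hconv, ite_mul, zero_mul, Finset.mul_sum, mul_assoc]
      rw [← Finset.sum_filter, Finset.filter_mem_eq_inter, Finset.univ_inter]
    have h2 : ∑ χ : Cfsg.IrrCharacter G, (∑ n : N, starRingEnd ℂ ((l n : ℂˣ) : ℂ) *
        (χ : G → ℂ) ((n : G) * g)) * starRingEnd ℂ ((χ : G → ℂ) g) =
        ∑ n : N, if IsConj ((n : G) * g) g then starRingEnd ℂ ((l n : ℂˣ) : ℂ) *
          (Nat.card (Subgroup.centralizer ({g} : Set G)) : ℂ) else 0 := by
      simp only [Finset.sum_mul, mul_assoc]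
      rw [Finset.sum_comm]
      refine Finset.sum_congr rfl fun n _ => ?_
      rw [← Finset.mul_sum, CfsgLib.Chars.sum_irr_mul_conj]
      by_cases hc : IsConj ((n : G) * g) g
      · rw [if_pos hc, if_pos hc]
        congr 2
        obtain ⟨x, hx⟩ := isConj_iff.1 hc.symm
        have hce : Subgroup.centralizer ({(n : G) * g} : Set G) =
            Subgroup.centralizer ({g} : Set G) := by
          ext y
          simp only [Subgroup.mem_centralizer_singleton_iff]
          rw [← mul_assoc, Subgroup.mem_center_iff.1 (hN n.2) y, mul_assoc, mul_assoc,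
            mul_right_inj]
        rw [hce]
      · rw [if_neg hc, if_neg hc, mul_zero]
    rw [h1] at h2
    have h3 := (eq_div_iff hNc).2 ((mul_comm _ _).trans h2)
    rw [h3]
    by_cases hg : P g
    · rw [if_pos hg, Finset.sum_eq_single (1 : N)]
      · rw [if_pos (by rw [OneMemClass.coe_one, one_mul]), map_one, Units.val_one, map_one, one_mul]
      · intro n _ hn
        rw [if_neg]
        intro hc
        obtain ⟨x, hx⟩ := isConj_iff.1 hc
        apply hn
        have hxg : x * g * x⁻¹ = (n : G)⁻¹ * g := by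
          rw [eq_inv_mul_iff_mul_eq, ← mul_assoc, ← mul_assoc,
            ← Subgroup.mem_center_iff.1 (hN n.2) x]
          calc x * (n : G) * g * x⁻¹ = x * ((n : G) * g) * x⁻¹ := by group
            _ = g := hx
        have hxe : x⁻¹⁻¹ * g⁻¹ * x⁻¹ * g ∈ N := by
          rw [show x⁻¹⁻¹ * g⁻¹ * x⁻¹ * g = (x * g * x⁻¹)⁻¹ * g by group, hxg,
            show ((n : G)⁻¹ * g)⁻¹ * g = g⁻¹ * ((n : G) * g) by group,
            ← Subgroup.mem_center_iff.1 (hN n.2) g, inv_mul_cancel_left]
          exact n.2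
        have hcm := hg x⁻¹ hxe
        have h4 : x * g * x⁻¹ = g := by rw [mul_assoc, ← hcm]; group
        rw [hxg, mul_eq_right, inv_eq_one] at h4
        exact Subtype.ext h4
      · simp
    · rw [if_neg hg, div_eq_zero_iff]
      left
      simp only [P] at hg
      push Not at hg
      obtain ⟨x, hxN, hxg⟩ := hg
      let n₀ : N := ⟨_, hxN⟩
      have hshift : ∀ n : N, IsConj (((n₀ * n : N) : G) * g) g ↔ IsConj ((n : G) * g) g := by
        intro n
        have hx' : x * g * x⁻¹ = g * (n₀ : G) := by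
          have e : x * (n₀ : G) * x⁻¹ = (n₀ : G) := by
            rw [Subgroup.mem_center_iff.1 (hN n₀.2) x, mul_inv_cancel_right]
          rw [← e]
          simp only [n₀]
          group
        have hconj : IsConj (((n₀ * n : N) : G) * g) ((n : G) * g) := by
          refine (isConj_iff.2 ⟨x, ?_⟩).symm
          rw [Subgroup.coe_mul, show x * ((n : G) * g) * x⁻¹ = (x * (n : G)) * g * x⁻¹ by group,
            Subgroup.mem_center_iff.1 (hN n.2) x, mul_assoc (n : G), mul_assoc (n : G), hx',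
            Subgroup.mem_center_iff.1 (hN n₀.2) g, ← mul_assoc,
            Subgroup.mem_center_iff.1 (hN n₀.2) (n : G)]
        exact ⟨fun h => hconj.symm.trans h, fun h => hconj.trans h⟩
      have hne : l n₀ ≠ 1 := fun h => hxg (by
        have h5 : x⁻¹ * g⁻¹ * x * g = 1 := congrArg Subtype.val (hinj n₀ h)
        calc x * g = g * x * (x⁻¹ * g⁻¹ * x * g) := by group
          _ = g * x := by rw [h5, mul_one])
      set T := ∑ n : N, if IsConj ((n : G) * g) g then starRingEnd ℂ ((l n : ℂˣ) : ℂ) *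
          (Nat.card (Subgroup.centralizer ({g} : Set G)) : ℂ) else 0 with hT
      have h6 : ((l n₀⁻¹ : ℂˣ) : ℂ) * T = T := by
        conv_rhs => rw [hT, ← Equiv.sum_comp (Equiv.mulLeft n₀)]
        rw [hT, Finset.mul_sum]
        refine Finset.sum_congr rfl fun n _ => ?_
        simp only [Equiv.coe_mulLeft, hshift n, mul_ite, mul_zero]
        split_ifs
        · rw [map_mul l n₀ n, Units.val_mul, map_mul, hconjl, hconjl, mul_assoc]
        · rfl
      by_contra hT0
      apply hne
      have h7 := Units.val_eq_one.1 ((mul_eq_right₀ hT0).1 h6)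
      rwa [map_inv, inv_eq_one] at h7
  -- counting
  have hcount : (Nat.card G : ℂ) * (S.card : ℂ) = ∑ g : G,
      if P g then (Nat.card (Subgroup.centralizer ({g} : Set G)) : ℂ) / (Nat.card N : ℂ) else 0 := by
    simp only [← hcol]
    rw [Finset.sum_comm, Finset.sum_congr rfl (g := fun _ => (Nat.card G : ℂ)) fun χ _ => ?_,
      Finset.sum_const, nsmul_eq_mul, mul_comm]
    have h := CfsgLib.Chars.classInner_self χ
    rw [Cfsg.classInner, inv_mul_eq_one₀ (Nat.cast_ne_zero.2 Nat.card_pos.ne')] at h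
    exact h.symm
  let Q : G ⧸ N → Prop := fun q => ∃ g : G, (g : G ⧸ N) = q ∧ P g
  have hPc : ∀ (g : G) (n : N), P g → P ((n : G) * g) := by
    intro g n hg x hx
    have e := Subgroup.mem_center_iff.1 (hN n.2)
    have h1 : x⁻¹ * ((n : G) * g)⁻¹ * x * ((n : G) * g) = x⁻¹ * g⁻¹ * x * g := by
      have e1 : (n : G)⁻¹ * x = x * (n : G)⁻¹ :=
        (Subgroup.mem_center_iff.1 (inv_mem (hN n.2)) x).symm
      calc x⁻¹ * ((n : G) * g)⁻¹ * x * ((n : G) * g)
          = x⁻¹ * g⁻¹ * ((n : G)⁻¹ * x) * ((n : G) * g) := by group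
        _ = _ := by rw [e1]; group
    rw [← mul_assoc, e x, mul_assoc, hg x (h1 ▸ hx), ← mul_assoc]
  have hQP : ∀ g : G, Q (g : G ⧸ N) ↔ P g := by
    refine fun g => ⟨?_, fun h => ⟨g, rfl, h⟩⟩
    rintro ⟨g', hg', hP'⟩
    have hn : g * g'⁻¹ ∈ N := by
      rw [← QuotientGroup.eq_one_iff, QuotientGroup.mk_mul, QuotientGroup.mk_inv, hg',
        mul_inv_cancel]
    have := hPc g' ⟨_, hn⟩ hP'
    simpa using this
  have hcent : ∀ g : G, P g → Nat.card (Subgroup.centralizer ({(g : G ⧸ N)} : Set (G ⧸ N))) *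
      Nat.card N = Nat.card (Subgroup.centralizer ({g} : Set G)) := by
    intro g hg
    have heq : Subgroup.centralizer ({g} : Set G) =
        (Subgroup.centralizer ({(g : G ⧸ N)} : Set (G ⧸ N))).comap (QuotientGroup.mk' N) := by
      ext y
      simp only [Subgroup.mem_comap, Subgroup.mem_centralizer_singleton_iff, QuotientGroup.mk'_apply,
        ← QuotientGroup.mk_mul]
      refine ⟨fun h => by rw [h], fun h => hg y ?_⟩
      rw [QuotientGroup.eq] at h
      have := inv_mem h
      simpa [mul_assoc] using this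
    rw [heq]
    set K := Subgroup.centralizer ({(g : G ⧸ N)} : Set (G ⧸ N))
    have h1 := (K.comap (QuotientGroup.mk' N)).card_mul_index
    rw [Subgroup.index_comap_of_surjective _ (QuotientGroup.mk'_surjective N),
      Subgroup.card_eq_card_quotient_mul_card_subgroup N, ← K.card_mul_index] at h1
    refine Nat.eq_of_mul_eq_mul_right (Nat.pos_of_ne_zero K.index_ne_zero_of_finite) ?_
    rw [h1]; ring
  haveI := Fintype.ofFinite (G ⧸ N)
  haveI := Fintype.ofFinite (ConjClasses (G ⧸ N))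
  set T := Finset.univ.filter (fun C : ConjClasses (G ⧸ N) =>
    ∃ g : G, ConjClasses.mk (g : G ⧸ N) = C ∧ P g) with hT
  have hQcl : ∀ g : G, ConjClasses.mk (g : G ⧸ N) ∈ T ↔ P g := by
    intro g
    rw [hT, Finset.mem_filter]
    refine ⟨fun h => ?_, fun h => ⟨Finset.mem_univ _, g, rfl, h⟩⟩
    obtain ⟨g', hg', hP'⟩ := h.2
    obtain ⟨c, hc⟩ := isConj_iff.1 (ConjClasses.mk_eq_mk_iff_isConj.1 hg')
    obtain ⟨c, rfl⟩ := QuotientGroup.mk_surjective c
    rw [← hQP]
    refine ⟨c * g' * c⁻¹, hc, fun y hy => ?_⟩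
    have h1 : (c⁻¹ * y * c)⁻¹ * g'⁻¹ * (c⁻¹ * y * c) * g' ∈ N := by
      have := (inferInstance : N.Normal).conj_mem _ hy c⁻¹
      convert this using 1
      group
    have h2 := hP' _ h1
    calc y * (c * g' * c⁻¹) = c * ((c⁻¹ * y * c) * g') * c⁻¹ := by group
      _ = c * (g' * (c⁻¹ * y * c)) * c⁻¹ := by rw [h2]
      _ = c * g' * c⁻¹ * y := by group
  -- sum over the quotient
  have hsum : ∀ g : G,
      (if P g then (Nat.card (Subgroup.centralizer ({g} : Set G)) : ℂ) / (Nat.card N : ℂ) else 0) =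
        if ConjClasses.mk (g : G ⧸ N) ∈ T
        then (Nat.card (Subgroup.centralizer ({(g : G ⧸ N)} : Set (G ⧸ N))) : ℂ) else 0 := by
    intro g
    by_cases hg : P g
    · rw [if_pos hg, if_pos ((hQcl g).2 hg), ← hcent g hg, Nat.cast_mul, mul_div_assoc,
        div_self hNc, mul_one]
    · rw [if_neg hg, if_neg (mt (hQcl g).1 hg)]
  rw [Finset.sum_congr rfl fun g _ => hsum g] at hcount
  set f : G ⧸ N → ℂ := fun q => if ConjClasses.mk q ∈ T
    then (Nat.card (Subgroup.centralizer ({q} : Set (G ⧸ N))) : ℂ) else 0 with hf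
  have hfib : ∑ g : G, f (g : G ⧸ N) = (Nat.card N : ℂ) * ∑ q : G ⧸ N, f q := by
    rw [← Equiv.sum_comp (Subgroup.groupEquivQuotientProdSubgroup (s := N)).symm,
      Fintype.sum_prod_type, Finset.mul_sum]
    refine Finset.sum_congr rfl fun q _ => ?_
    rw [Finset.sum_congr rfl (g := fun _ => f q) fun n _ => ?_]
    · simp [Nat.card_eq_fintype_card]
    · congr 1
      exact congrArg Prod.fst ((Subgroup.groupEquivQuotientProdSubgroup (s := N)).apply_symm_apply (q, n))
  have hQ : ∑ q : G ⧸ N, f q = (T.card : ℂ) * (Nat.card (G ⧸ N) : ℂ) := by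
    rw [← Finset.sum_fiberwise_of_maps_to (g := ConjClasses.mk) (t := Finset.univ)
      (fun q _ => Finset.mem_univ _)]
    rw [← Finset.sum_subset (Finset.subset_univ T) (fun C _ hC => Finset.sum_eq_zero fun q hq => by
      simp only [hf]
      rw [(Finset.mem_filter.1 hq).2, if_neg hC])]
    rw [Finset.sum_congr rfl (g := fun _ => (Nat.card (G ⧸ N) : ℂ)) fun C hC => ?_,
      Finset.sum_const, nsmul_eq_mul]
    obtain ⟨q, rfl⟩ := ConjClasses.exists_rep C
    rw [Finset.sum_congr rfl (g := fun _ =>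
      (Nat.card (Subgroup.centralizer ({q} : Set (G ⧸ N))) : ℂ)) fun r hr => ?_,
      Finset.sum_const, nsmul_eq_mul, ← CfsgLib.Chars.card_carrier_mul_card_centralizer q,
      Nat.cast_mul]
    · congr 1
      rw [Nat.cast_inj, Nat.card_coe_set_eq, Set.ncard_eq_toFinset_card']
      congr 1
      ext r
      simp [ConjClasses.mem_carrier_iff_mk_eq]
    · obtain ⟨-, hr⟩ := Finset.mem_filter.1 hr
      simp only [hf, hr, if_pos hC]
      have e1 := CfsgLib.Chars.card_carrier_mul_card_centralizer r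
      rw [hr, ← CfsgLib.Chars.card_carrier_mul_card_centralizer q] at e1
      haveI : Nonempty (ConjClasses.mk q).carrier := ⟨⟨q, ConjClasses.mem_carrier_mk⟩⟩
      rw [Nat.eq_of_mul_eq_mul_left Nat.card_pos e1]
  rw [show (∑ g : G, if ConjClasses.mk (g : G ⧸ N) ∈ T
        then (Nat.card (Subgroup.centralizer ({(g : G ⧸ N)} : Set (G ⧸ N))) : ℂ) else 0) =
      ∑ g : G, f (g : G ⧸ N) from rfl, hfib, hQ, Subgroup.card_eq_card_quotient_mul_card_subgroup N,
    Nat.cast_mul] at hcount
  have hQ0 : (Nat.card (G ⧸ N) : ℂ) ≠ 0 := Nat.cast_ne_zero.2 Nat.card_pos.ne'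
  have hST : (S.card : ℂ) = (T.card : ℂ) := by
    apply mul_left_cancel₀ (mul_ne_zero hQ0 hNc)
    rw [hcount]; ring
  rw [Nat.card_eq_fintype_card, Nat.card_eq_fintype_card, Fintype.card_subtype, Fintype.card_subtype]
  exact Nat.cast_inj.1 hST


end Cfsg.Agent.S4567
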