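import Cfsg.Statements.S4574
import Cfsg.Agent.Eq.Def_Characters
import Cfsg.Agent.Eq.Def_Blocks
import Mathlib.Analysis.Complex.Polynomial.Basic
import Mathlib.Analysis.SpecialFunctions.Log.Basic
import Mathlib.LinearAlgebra.Trace
import Mathlib.RingTheory.Polynomial.Cyclotomic.Roots
import Mathlib.RingTheory.Polynomial.Resultant.Basic
import Mathlib.RingTheory.RootsOfUnity.Complex
-- import your own Cfsg.Agent.* helpers here

set_option autoImplicit false
open Cfsg

namespace Cfsg.Agent.S4574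

open Polynomial
open scoped ComplexConjugate

/-- Values of a character on the powers of an element, as values of one integer polynomial. -/
theorem exists_trace_poly {n N : ℕ} (hN : 0 < N) {ζ : ℂ} (hζ : IsPrimitiveRoot ζ N)
    (f : Module.End ℂ (Fin n → ℂ)) (hf : f ^ N = 1) :
    ∃ P : ℤ[X], ∀ j : ℕ, LinearMap.trace ℂ (Fin n → ℂ) (f ^ j) = aeval (ζ ^ j) P := by
  have hζ0 : ζ ≠ 0 := hζ.ne_zero hN.ne'
  let E : ℕ → Module.End ℂ (Fin n → ℂ) := fun a =>
    (N : ℂ)⁻¹ • ∑ k ∈ Finset.range N, (ζ ^ a)⁻¹ ^ k • f ^ k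
  have hstep : ∀ a : ℕ, f * E a = (ζ ^ a) • E a := by
    intro a
    simp only [E, mul_smul_comm, Finset.mul_sum, ← pow_succ']
    rw [smul_comm (ζ ^ a)]
    congr 1
    rw [Finset.smul_sum]
    have h1 : ∀ k, (ζ ^ a)⁻¹ ^ k • f ^ (k + 1) = (ζ ^ a) • ((ζ ^ a)⁻¹ ^ (k + 1) • f ^ (k + 1)) := by
      intro k
      rw [smul_smul, pow_succ (ζ ^ a)⁻¹, mul_comm ((ζ ^ a)⁻¹ ^ k), ← mul_assoc,
        mul_inv_cancel₀ (pow_ne_zero _ hζ0), one_mul]
    rw [Finset.sum_congr rfl fun k _ => h1 k]
    have h2 := Finset.sum_range_succ' (fun k => (ζ ^ a) • ((ζ ^ a)⁻¹ ^ k • f ^ k)) N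
    rw [Finset.sum_range_succ] at h2
    have h3 : (ζ ^ a)⁻¹ ^ N = 1 := by
      rw [inv_pow, ← pow_mul, mul_comm, pow_mul, hζ.pow_eq_one, one_pow, inv_one]
    rw [h3, hf, pow_zero, pow_zero] at h2
    exact (add_right_cancel h2).symm
  have hpow : ∀ a j : ℕ, f ^ j * E a = (ζ ^ j) ^ a • E a := by
    intro a j
    induction j with
    | zero => simp
    | succ j ih =>
      rw [pow_succ', mul_assoc, ih, mul_smul_comm, hstep, smul_smul]
      congr 1
      rw [← pow_mul, ← pow_mul, ← pow_add]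
      congr 1
      ring
  have hidem : ∀ a, IsIdempotentElem (E a) := by
    intro a
    show E a * E a = E a
    conv_lhs => arg 1; simp only [E]
    rw [smul_mul_assoc, Finset.sum_mul]
    simp only [smul_mul_assoc, hpow, smul_smul]
    rw [← Finset.sum_smul, smul_smul]
    have : ∀ k ∈ Finset.range N, (ζ ^ a)⁻¹ ^ k * (ζ ^ k) ^ a = 1 := by
      intro k _
      rw [inv_pow, ← pow_mul, ← pow_mul, mul_comm a k, inv_mul_cancel₀ (pow_ne_zero _ hζ0)]
    rw [Finset.sum_congr rfl this, Finset.sum_const, Finset.card_range, nsmul_eq_mul, mul_one,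
      inv_mul_cancel₀ (Nat.cast_ne_zero.mpr hN.ne'), one_smul]
  have hsum : ∑ a ∈ Finset.range N, E a = 1 := by
    simp only [E]
    rw [← Finset.smul_sum, Finset.sum_comm, Finset.sum_eq_single 0]
    · simp only [pow_zero, one_smul, Finset.sum_const, Finset.card_range]
      rw [← Nat.cast_smul_eq_nsmul ℂ, inv_smul_smul₀ (Nat.cast_ne_zero.mpr hN.ne')]
    · intro k hk hk0
      rw [← Finset.sum_smul]
      have hne : (ζ ^ k)⁻¹ ≠ 1 := fun h => hζ.pow_ne_one_of_pos_of_lt hk0 (Finset.mem_range.mp hk)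
        (inv_eq_one.mp h)
      have : ∑ a ∈ Finset.range N, (ζ ^ a)⁻¹ ^ k = 0 := by
        have e : ∀ a, (ζ ^ a)⁻¹ ^ k = ((ζ ^ k)⁻¹) ^ a := fun a => by
          rw [inv_pow, inv_pow, ← pow_mul, ← pow_mul, mul_comm]
        simp only [e]
        rw [geom_sum_eq hne, inv_pow, ← pow_mul, mul_comm, pow_mul, hζ.pow_eq_one]
        simp
      rw [this, zero_smul]
    · intro h; simp [hN.ne'] at h
  refine ⟨∑ a ∈ Finset.range N, C (Module.finrank ℂ (E a).range : ℤ) * X ^ a, fun j => ?_⟩
  have : f ^ j = ∑ a ∈ Finset.range N, (ζ ^ j) ^ a • E a := by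
    rw [← Finset.sum_congr rfl (fun a _ => hpow a j), ← Finset.mul_sum, hsum, mul_one]
  rw [this, map_sum, map_sum]
  refine Finset.sum_congr rfl fun a _ => ?_
  rw [map_smul, LinearMap.IsProj.trace ((LinearMap.isProj_range_iff_isIdempotentElem _).mpr (hidem a))]
  simp [mul_comm]

/-- An integer polynomial nonzero at one primitive root has product of absolute values at least
one over all primitive roots. -/
theorem one_le_prod_norm {N : ℕ} (hN : 0 < N) (P : ℤ[X])
    (hP : ∀ μ ∈ primitiveRoots N ℂ, aeval μ P ≠ 0) :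
    1 ≤ ∏ μ ∈ primitiveRoots N ℂ, ‖aeval μ P‖ := by
  haveI : NeZero ((N : ℕ) : ℂ) := ⟨Nat.cast_ne_zero.mpr hN.ne'⟩
  have hdeg : (cyclotomic N ℤ).natDegree = (cyclotomic N ℂ).natDegree := by
    rw [natDegree_cyclotomic, natDegree_cyclotomic]
  have h := resultant_eq_prod_eval (cyclotomic N ℂ) (P.map (Int.castRingHom ℂ)) P.natDegree
    natDegree_map_le (IsAlgClosed.splits _)
  rw [← map_cyclotomic N (Int.castRingHom ℂ), resultant_map_map, map_cyclotomic,
    (cyclotomic.monic N ℂ).leadingCoeff, one_pow, one_mul, cyclotomic.roots_eq_primitiveRoots_val] at h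
  have heq : ((resultant (cyclotomic N ℤ) P (cyclotomic N ℂ).natDegree P.natDegree : ℤ) : ℂ) =
      ∏ μ ∈ primitiveRoots N ℂ, aeval μ P := by
    rw [eq_intCast] at h
    rw [h, Finset.prod]
    refine congrArg _ (Multiset.map_congr rfl fun μ _ => ?_)
    simp [aeval_def, eval_map]
  rw [← norm_prod, ← heq, Complex.norm_intCast]
  have hne : (resultant (cyclotomic N ℤ) P (cyclotomic N ℂ).natDegree P.natDegree : ℤ) ≠ 0 := by
    intro h0
    rw [h0, Int.cast_zero] at heq
    exact Finset.prod_ne_zero_iff.mpr hP heq.symm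
  exact_mod_cast Int.one_le_abs hne

/-- Let χ be an irreducible character of the finite group G, of degree d, and let Z(χ) be the set of elements g with |χ g| = d (the centre of χ). Then χ vanishes on at least (d ^ 2 - 1) · |Z(χ)| elements of G, with equality when every value |χ g| is 0, 1 or d. -/
theorem result {G : Type*} [Group G] [Fintype G] [DecidableEq G] (χ : G → ℂ) (hχ : Cfsg.IsIrrCharacter G χ) : (Cfsg.charDegree χ ^ 2 - 1) * (Finset.univ.filter (fun g : G => ‖χ g‖ = (Cfsg.charDegree χ : ℝ))).card ≤ (Finset.univ.filter (fun g : G => χ g = 0)).card ∧ ((∀ g : G, ‖χ g‖ = 0 ∨ ‖χ g‖ = 1 ∨ ‖χ g‖ = (Cfsg.charDegree χ : ℝ)) → (Cfsg.charDegree χ ^ 2 - 1) * (Finset.univ.filter (fun g : G => ‖χ g‖ = (Cfsg.charDegree χ : ℝ))).card = (Finset.univ.filter (fun g : G => χ g = 0)).card) := by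
  obtain ⟨n, ρ, hρ, rfl⟩ := hχ
  have hconjP : ∀ (z : ℂ) (Q : ℤ[X]), aeval (conj z) Q = conj (aeval z Q) := fun z Q =>
    aeval_algHom_apply (starRingEnd ℂ).toIntAlgHom z Q
  have hdeg : Cfsg.charDegree ρ.character = n := by simp [Cfsg.charDegree]
  rw [hdeg]
  have hn : 0 < n := by
    rcases Nat.eq_zero_or_pos n with rfl | h
    · exfalso
      haveI : Subsingleton (Fin 0 → ℂ) := inferInstance
      haveI : Subsingleton (Subrepresentation ρ) := ⟨fun a b => by
        apply Subrepresentation.toSubmodule_injective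
        exact Subsingleton.elim _ _⟩
      exact not_subsingleton (Subrepresentation ρ) inferInstance
    · exact h
  set N := Nat.card G with hNdef
  have hN : 0 < N := Nat.card_pos
  obtain ⟨ζ, hζ⟩ : ∃ ζ : ℂ, IsPrimitiveRoot ζ N := ⟨_, Complex.isPrimitiveRoot_exp N hN.ne'⟩
  have hP : ∀ g : G, ∃ P : ℤ[X], ∀ j : ℕ, ρ.character (g ^ j) = aeval (ζ ^ j) P := by
    intro g
    obtain ⟨P, hP⟩ := exists_trace_poly hN hζ (ρ g) (by rw [← map_pow, pow_card_eq_one', map_one])
    exact ⟨P, fun j => by rw [← hP j, Representation.character, map_pow]⟩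
  choose P hP using hP
  have hP1 : ∀ g, ρ.character g = aeval ζ (P g) := fun g => by simpa using hP g 1
  have hζ0 : ζ ≠ 0 := hζ.ne_zero hN.ne'
  have hinv : ∀ g : G, ρ.character g⁻¹ = conj (ρ.character g) := by
    intro g
    have e : g⁻¹ = g ^ (N - 1) := by
      apply inv_eq_of_mul_eq_one_right
      rw [← pow_succ', Nat.sub_add_cancel hN, pow_card_eq_one']
    have e2 : ζ ^ (N - 1) = conj ζ := by
      rw [← Complex.inv_eq_conj (hζ.norm'_eq_one hN.ne')]
      apply eq_inv_of_mul_eq_one_left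
      rw [← pow_succ, Nat.sub_add_cancel hN, hζ.pow_eq_one]
    rw [e, hP g, e2, hP1 g]
    exact hconjP ζ (P g)
  have hsq : ∑ g : G, ‖ρ.character g‖ ^ 2 = (N : ℝ) := by
    haveI : Invertible (Nat.card G : ℂ) := invertibleOfNonzero (Nat.cast_ne_zero.mpr hN.ne')
    have h := Representation.char_orthonormal ρ ρ
    rw [if_pos ⟨Representation.Equiv.refl ρ⟩] at h
    have h' : ∑ g : G, ρ.character g * ρ.character g⁻¹ = (N : ℂ) := by
      rw [inv_mul_eq_one₀ (Nat.cast_ne_zero.mpr hN.ne')] at h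
      exact h.symm
    have h2 : ((∑ g : G, ‖ρ.character g‖ ^ 2 : ℝ) : ℂ) = ((N : ℝ) : ℂ) := by
      push_cast
      rw [← h']
      exact Finset.sum_congr rfl fun g _ => by rw [hinv, Complex.mul_conj']
    exact_mod_cast h2
  set A := Finset.univ.filter (fun g : G => ‖ρ.character g‖ = (n : ℝ)) with hA
  set B := Finset.univ.filter (fun g : G => ρ.character g = 0) with hB
  set Z := Finset.univ.filter (fun g : G => ρ.character g ≠ 0 ∧ ‖ρ.character g‖ ≠ (n : ℝ)) with hZ
  have hsplit : ∀ φ : G → ℝ, ∑ g : G, φ g = ∑ g ∈ A, φ g + ∑ g ∈ B, φ g + ∑ g ∈ Z, φ g := by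
    intro φ
    rw [← Finset.sum_filter_add_sum_filter_not Finset.univ (fun g : G => ‖ρ.character g‖ = (n : ℝ)),
      ← Finset.sum_filter_add_sum_filter_not
        (Finset.univ.filter fun g : G => ¬ ‖ρ.character g‖ = (n : ℝ))
        (fun g : G => ρ.character g = 0), ← add_assoc]
    congr 1
    · congr 1
      refine Finset.sum_congr ?_ fun _ _ => rfl
      ext g
      simp only [hB, Finset.mem_filter, Finset.mem_univ, true_and]
      constructor
      · exact fun h => h.2
      · intro h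
        refine ⟨fun h' => ?_, h⟩
        rw [h, norm_zero] at h'
        exact hn.ne (by exact_mod_cast h')
    · refine Finset.sum_congr ?_ fun _ _ => rfl
      ext g
      simp only [hZ, Finset.mem_filter, Finset.mem_univ, true_and]
      tauto
  have hnorm2 : ∑ g ∈ A, ‖ρ.character g‖ ^ 2 = (n : ℝ) ^ 2 * A.card ∧
      ∑ g ∈ B, ‖ρ.character g‖ ^ 2 = 0 := by
    refine ⟨?_, Finset.sum_eq_zero fun g hg => ?_⟩
    · rw [Finset.sum_congr rfl (g := fun _ => (n : ℝ) ^ 2) fun g hg => by
        rw [(Finset.mem_filter.mp hg).2]]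
      rw [Finset.sum_const, nsmul_eq_mul, mul_comm]
    · rw [(Finset.mem_filter.mp hg).2]; simp
  have hcount : (N : ℝ) = (A.card : ℝ) + B.card + Z.card := by
    have := hsplit (fun _ => 1)
    simp only [Finset.sum_const, Finset.card_univ, nsmul_eq_mul, mul_one] at this
    rw [hNdef, Nat.card_eq_fintype_card]; exact this
  have hkey : (n : ℝ) ^ 2 * A.card + ∑ g ∈ Z, ‖ρ.character g‖ ^ 2 = (N : ℝ) := by
    rw [← hsq, hsplit, hnorm2.1, hnorm2.2]; ring
  have hn1 : 1 ≤ n ^ 2 := Nat.one_le_pow _ _ hn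
  constructor
  · have hprod : 1 ≤ ∏ g ∈ Z, ‖ρ.character g‖ ^ 2 := by
      have htr : ∀ g ∈ Z, ∀ μ ∈ primitiveRoots N ℂ, aeval μ (P g) ≠ 0 ∧
          ‖aeval μ (P g)‖ ≠ (n : ℝ) := by
        intro g hg μ hμ
        rw [mem_primitiveRoots hN] at hμ
        obtain ⟨-, h0, hd⟩ := Finset.mem_filter.mp hg
        have hmin : minpoly ℤ μ = minpoly ℤ ζ := by
          rw [← cyclotomic_eq_minpoly hμ hN, ← cyclotomic_eq_minpoly hζ hN]
        have hiff : ∀ Q : ℤ[X], aeval μ Q = 0 → aeval ζ Q = 0 := fun Q hQ => by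
          have := minpoly.isIntegrallyClosed_dvd (hμ.isIntegral hN) hQ
          rw [hmin] at this
          exact aeval_eq_zero_of_dvd_aeval_eq_zero this (minpoly.aeval ℤ ζ)
        refine ⟨fun h => h0 (by rw [hP1]; exact hiff _ h), fun h => hd ?_⟩
        let Q : ℤ[X] := P g * (P g).comp (X ^ (N - 1)) - C ((n : ℤ) ^ 2)
        have hQ : ∀ ν : ℂ, IsPrimitiveRoot ν N →
            aeval ν Q = aeval ν (P g) * conj (aeval ν (P g)) - (n : ℂ) ^ 2 := by
          intro ν hν
          have e2 : ν ^ (N - 1) = conj ν := by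
            rw [← Complex.inv_eq_conj (hν.norm'_eq_one hN.ne')]
            apply eq_inv_of_mul_eq_one_left
            rw [← pow_succ, Nat.sub_add_cancel hN, hν.pow_eq_one]
          simp only [Q, map_sub, map_mul, aeval_comp, map_pow, aeval_X, aeval_C, e2]
          rw [hconjP]
          simp
        have hμ0 : aeval μ Q = 0 := by
          rw [hQ μ hμ, Complex.mul_conj', h]; simp
        have := hQ ζ hζ
        rw [hiff _ hμ0, Complex.mul_conj', ← hP1, eq_comm, sub_eq_zero] at this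
        have h2 : ‖ρ.character g‖ ^ 2 = (n : ℝ) ^ 2 := by exact_mod_cast this
        exact (sq_eq_sq₀ (norm_nonneg _) (Nat.cast_nonneg _)).mp h2
      have hperm : ∀ μ ∈ primitiveRoots N ℂ,
          ∏ g ∈ Z, ‖aeval μ (P g)‖ = ∏ g ∈ Z, ‖ρ.character g‖ := by
        intro μ hμ
        have hμ' := (mem_primitiveRoots hN).mp hμ
        obtain ⟨j, -, hj⟩ := hζ.eq_pow_of_pow_eq_one hμ'.pow_eq_one
        have hcop : (Nat.card G).Coprime j := by
          rw [← hj] at hμ'
          exact ((hζ.pow_iff_coprime hN j).mp hμ').symm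
        have hmem : ∀ g ∈ Z, g ^ j ∈ Z := fun g hg => by
          have := htr g hg μ hμ
          simp only [hZ, Finset.mem_filter, Finset.mem_univ, true_and, hP g j, hj]
          exact this
        have hinj : Function.Injective (fun g : G => g ^ j) := (powCoprime hcop).injective
        have himg : Z.image (fun g : G => g ^ j) = Z :=
          Finset.eq_of_subset_of_card_le (fun y hy => by
            obtain ⟨g, hg, rfl⟩ := Finset.mem_image.mp hy
            exact hmem g hg) (by rw [Finset.card_image_of_injective _ hinj])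
        conv_rhs => rw [← himg, Finset.prod_image (fun a _ b _ h => hinj h)]
        exact Finset.prod_congr rfl fun g _ => by rw [hP g j, hj]
      have h1 : 1 ≤ (∏ g ∈ Z, ‖ρ.character g‖) ^ (primitiveRoots N ℂ).card := by
        rw [← Finset.prod_const, ← Finset.prod_congr rfl hperm, Finset.prod_comm]
        exact Finset.one_le_prod fun g hg => one_le_prod_norm hN (P g) fun μ hμ => (htr g hg μ hμ).1
      have h2 : 1 ≤ ∏ g ∈ Z, ‖ρ.character g‖ :=
        (one_le_pow_iff_of_nonneg (Finset.prod_nonneg fun g _ => norm_nonneg _)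
          (Finset.card_pos.mpr ⟨ζ, (mem_primitiveRoots hN).mpr hζ⟩).ne').mp h1
      rw [Finset.prod_pow]
      exact one_le_pow₀ h2
    have hZsum : (Z.card : ℝ) ≤ ∑ g ∈ Z, ‖ρ.character g‖ ^ 2 := by
      have hpos : ∀ g ∈ Z, 0 < ‖ρ.character g‖ ^ 2 := fun g hg =>
        pow_pos (norm_pos_iff.mpr (Finset.mem_filter.mp hg).2.1) 2
      have h1 : ∑ g ∈ Z, Real.log (‖ρ.character g‖ ^ 2) ≤ ∑ g ∈ Z, (‖ρ.character g‖ ^ 2 - 1) :=
        Finset.sum_le_sum fun g hg => Real.log_le_sub_one_of_pos (hpos g hg)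
      rw [← Real.log_prod fun g hg => (hpos g hg).ne'] at h1
      have h2 := Real.log_nonneg hprod
      rw [Finset.sum_sub_distrib, Finset.sum_const, nsmul_eq_mul, mul_one] at h1
      linarith
    have : (((n ^ 2 - 1) * A.card : ℕ) : ℝ) ≤ (B.card : ℝ) := by
      rw [Nat.cast_mul, Nat.cast_sub hn1, Nat.cast_pow, Nat.cast_one]
      linarith
    exact_mod_cast this
  · intro h
    have hZ1 : ∑ g ∈ Z, ‖ρ.character g‖ ^ 2 = (Z.card : ℝ) := by
      rw [Finset.sum_congr rfl (g := fun _ => (1 : ℝ)) fun g hg => by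
        obtain ⟨-, h0, hd⟩ := Finset.mem_filter.mp hg
        rcases h g with h1 | h1 | h1
        · exact absurd (norm_eq_zero.mp h1) h0
        · rw [h1, one_pow]
        · exact absurd h1 hd]
      simp
    have : (((n ^ 2 - 1) * A.card : ℕ) : ℝ) = (B.card : ℝ) := by
      rw [Nat.cast_mul, Nat.cast_sub hn1, Nat.cast_pow, Nat.cast_one]
      linarith
    exact_mod_cast this

end Cfsg.Agent.S4574
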