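import Cfsg.Statements.S4575
import Cfsg.Agent.Blocks.Subsection.Major
import Cfsg.Agent.S4733

set_option autoImplicit false
open Cfsg

namespace Cfsg.Agent.S4575

/-- Let B be a 2-block of the finite group G (relative to a maximal ideal M of the algebraic integers containing 2) of defect d with defect group D. Let z be an element of D commuting with every element of D, and let b be a block of the centralizer of z with defect group D that induces B (a major subsection (z, b)). If the number of irreducible characters in B exceeds the 2-regular rank of b by at most three, then B contains at most 2 ^ d irreducible characters. -/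
theorem result {G : Type*} [Group G] [Finite G] (M : Ideal Cfsg.AlgInt) (hM : Cfsg.IsPModular 2 M) (B : Set (Cfsg.IrrCharacter G)) (hB : Cfsg.IsPBlock M B) (D : Subgroup G) (hD : Cfsg.IsDefectGroup 2 M B D) (z : G) (hzD : z ∈ D) (hzc : ∀ d ∈ D, d * z = z * d) (b : Set (Cfsg.IrrCharacter ↥(Subgroup.centralizer ({z} : Set G)))) (hb : Cfsg.IsInducedBlock M (Subgroup.centralizer ({z} : Set G)) b B) (hbD : Cfsg.IsDefectGroup 2 M b (D.subgroupOf (Subgroup.centralizer ({z} : Set G)))) (h : Nat.card B ≤ Cfsg.blockRank 2 b + 3) : Nat.card B ≤ 2 ^ Cfsg.blockDefect 2 B := by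
  classical
  haveI := Fintype.ofFinite G
  haveI := Fintype.ofFinite ↥(Subgroup.centralizer ({z} : Set G))
  haveI := CfsgLib.Blocks.isMaximal_of_isPModular hM
  have hDcard := CfsgLib.Blocks.Contrib.natCard_defectGroup hM hB hD
  have hle : D ≤ Subgroup.centralizer ({z} : Set G) := fun d hd => by
    rw [Subgroup.mem_centralizer_singleton_iff]
    exact hzc d hd
  have hmaj : blockDefect 2 b = blockDefect 2 B := by
    have h := CfsgLib.Blocks.Contrib.natCard_defectGroup hM hb.1 hbD
    rw [Nat.card_congr (Subgroup.subgroupOfEquivOfLe hle).toEquiv, hDcard] at h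
    exact (Nat.pow_right_injective le_rfl h).symm
  have hz : z ^ 2 ^ (blockDefect 2 B + 1) = 1 := by
    have h := pow_card_eq_one' (x := (⟨z, hzD⟩ : D))
    rw [hDcard] at h
    have h' : z ^ 2 ^ blockDefect 2 B = 1 := by simpa using congrArg Subtype.val h
    rw [pow_succ, pow_mul, h', one_pow]
  obtain ⟨a, hrow, hpos, hsum, hA, hB'⟩ :=
    CfsgLib.Blocks.Contrib.major_two hM (u := z) rfl hz hb hmaj
  set d := blockDefect 2 B with hd
  set T := B.toFinite.toFinset with hT
  have hmem : ∀ χ ∈ T, χ ∈ B := fun χ hχ => (Set.Finite.mem_toFinset _).1 hχ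
  have hTcard : Nat.card B = T.card := by
    rw [Nat.card_coe_set_eq, hT, Set.ncard_eq_toFinset_card B B.toFinite]
  rcases eq_or_ne d 0 with hd0 | hd0
  · haveI : Fact (Nat.Prime 2) := ⟨Nat.prime_two⟩
    have h1 := ((Cfsg.Agent.S4733.result 2 M hM B hB).2.1.1 (hd.symm.trans hd0)).1
    rw [h1]
    exact Nat.one_le_two_pow
  obtain ⟨e, he⟩ : ∃ e, d = e + 1 := Nat.exists_eq_succ_of_ne_zero hd0
  have heven : (2 : ℤ) ^ d = 2 * 2 ^ e := by rw [he, pow_succ']
  rw [hTcard] at h ⊢
  by_cases hone : ∃ χ ∈ T, blockHeight 2 B (χ : G → ℂ) = 0 ∧ 2 ^ d ≤ a χ + 1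
  · obtain ⟨χ, hχ, h0, h1⟩ := hone
    have h2 := hA hd0 χ (hmem χ hχ) h0
    have h3 : (2 : ℤ) ^ d * (2 ^ d - a χ) ≤ 2 ^ d * 1 :=
      mul_le_mul_of_nonneg_left (by linarith) (by positivity)
    have h4 : ((T.erase χ).card : ℤ) ≤
        ∑ ψ ∈ T.erase χ, (4 : ℤ) ^ blockHeight 2 B (ψ : G → ℂ) := by
      simpa using (T.erase χ).card_nsmul_le_sum (fun ψ => (4 : ℤ) ^ blockHeight 2 B (ψ : G → ℂ)) 1
        fun ψ _ => one_le_pow₀ (by norm_num)
    rw [Finset.card_erase_of_mem hχ,
      Nat.cast_sub (Finset.card_pos.2 ⟨χ, hχ⟩ : 1 ≤ T.card)] at h4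
    zify
    push_cast at h4 ⊢
    linarith
  · push Not at hone
    have h5 : (T.card : ℤ) * 3 ≤ ∑ χ ∈ T, (2 ^ d - a χ) := by
      simpa using T.card_nsmul_le_sum (fun χ => 2 ^ d - a χ) 3 fun χ hχ => by
        rcases eq_or_ne (blockHeight 2 B (χ : G → ℂ)) 0 with h0 | h0
        · obtain ⟨i, hi⟩ := (hrow χ (hmem χ hχ) h0).1
          have := hone χ hχ h0
          rw [heven, hi] at this ⊢
          omega
        · have h6 := hB' χ (hmem χ hχ) h0
          have h7 : (2 : ℤ) ^ 2 ≤ 2 ^ (blockHeight 2 B (χ : G → ℂ) + 1) :=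
            pow_le_pow_right₀ (by norm_num) (by omega)
          linarith
    rw [Finset.sum_sub_distrib, hsum, Finset.sum_const, nsmul_eq_mul] at h5
    have h8 : (T.card : ℤ) ≤ (blockRank 2 b : ℤ) + 3 := by exact_mod_cast h
    have h9 : (2 : ℤ) ^ d * ((T.card : ℤ) - blockRank 2 b) ≤ 2 ^ d * 3 :=
      mul_le_mul_of_nonneg_left (by linarith) (by positivity)
    zify
    linarith

end Cfsg.Agent.S4575
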