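import Cfsg.Statements.S4580
import Cfsg.Agent.Eq.Def_Characters
import Cfsg.Agent.Eq.Def_Blocks
import Cfsg.Agent.Eq.Def_BlockRank
import Cfsg.Agent.Blocks.Orth.Blocks
import Cfsg.Agent.Chars.Basic
import Cfsg.Agent.Chars.Induced.Gallagher
-- import your own Cfsg.Agent.* helpers here

set_option autoImplicit false
open Cfsg

namespace Cfsg.Agent.S4580

open CfsgLib.Chars
open scoped ComplexConjugate

/-- An odd degree character which is real modulo `M` lies in the principal 2-block. -/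
theorem mem_principalBlock_of_real_mod {G : Type*} [Group G] [Finite G] (M : Ideal Cfsg.AlgInt)
    (hM : Cfsg.IsPModular 2 M) (η : Cfsg.IrrCharacter G)
    (hodd : Odd (Cfsg.charDegree (η : G → ℂ)))
    (hreal : ∀ g : G, ∀ a b : Cfsg.AlgInt, (a : ℂ) = (η : G → ℂ) g → (b : ℂ) = (η : G → ℂ) g⁻¹ →
      Ideal.Quotient.mk M a = Ideal.Quotient.mk M b) :
    η ∈ Cfsg.principalBlock M G := by
  classical
  haveI := Fintype.ofFinite G
  haveI : M.IsMaximal := hM.2.1
  by_contra hη
  have hB : Cfsg.IsPBlock M (Cfsg.principalBlock M G) := ⟨⟨_, isIrrCharacter_one⟩, rfl⟩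
  have hone : (⟨_, isIrrCharacter_one⟩ : Cfsg.IrrCharacter G) ∈ Cfsg.principalBlock M G :=
    CfsgLib.Blocks.sameBlock_refl _
  have h0 := CfsgLib.Blocks.classInner_pRegularPart_eq_zero hM hB hone hη
  let f : G → Cfsg.AlgInt := fun g => ⟨(η : G → ℂ) g, isIntegral_apply (isCharacter_coe η) g⟩
  set S := Finset.univ.filter (fun g : G => Cfsg.IsPRegular 2 g) with hS
  have hsum : (∑ g ∈ S, f g : Cfsg.AlgInt) = 0 := by
    apply Subtype.val_injective
    have hne : (Nat.card G : ℂ)⁻¹ ≠ 0 := inv_ne_zero (Nat.cast_ne_zero.mpr Nat.card_pos.ne')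
    rw [Cfsg.classInner] at h0
    have h1 := (mul_eq_zero.mp h0).resolve_left hne
    simp only [Cfsg.pRegularPart, map_one, mul_one] at h1
    rw [← Finset.sum_filter] at h1
    rw [AddSubmonoidClass.coe_finsetSum, ZeroMemClass.coe_zero]
    exact h1
  have h1S : (1 : G) ∈ S := by simp [hS, Cfsg.IsPRegular]
  have hpair : ∑ g ∈ S.erase 1, Ideal.Quotient.mk M (f g) = 0 := by
    refine Finset.sum_involution (fun g _ => g⁻¹) (fun g hg => ?_) (fun g hg _ => ?_) (fun g hg => ?_)
      (fun g _ => inv_inv g)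
    · rw [← hreal g (f g) (f g⁻¹) rfl rfl, ← two_mul]
      have : (2 : Cfsg.AlgInt ⧸ M) = 0 := by
        have := Ideal.Quotient.eq_zero_iff_mem.mpr hM.2.2
        rwa [map_natCast, Nat.cast_ofNat] at this
      rw [this, zero_mul]
    · intro h
      obtain ⟨hne, hgS⟩ := Finset.mem_erase.mp hg
      have hreg : ¬ 2 ∣ orderOf g := (Finset.mem_filter.mp hgS).2
      have h2 : g ^ 2 = 1 := by rw [pow_two]; nth_rw 2 [← h]; exact mul_inv_cancel g
      rcases (Nat.dvd_prime Nat.prime_two).mp (orderOf_dvd_of_pow_eq_one h2) with h3 | h3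
      · exact hne (orderOf_eq_one_iff.mp h3)
      · exact hreg (h3 ▸ dvd_rfl)
    · obtain ⟨hne, hgS⟩ := Finset.mem_erase.mp hg
      refine Finset.mem_erase.mpr ⟨by simpa using hne, ?_⟩
      simpa [hS, Cfsg.IsPRegular] using (Finset.mem_filter.mp hgS).2
  have h1 : Ideal.Quotient.mk M (f 1) = 0 := by
    have := congrArg (Ideal.Quotient.mk M) hsum
    rw [map_sum, map_zero, ← Finset.add_sum_erase _ _ h1S, hpair, add_zero] at this
    exact this
  obtain ⟨d, hd⟩ := hodd
  have hf1 : f 1 = ((2 * d + 1 : ℕ) : Cfsg.AlgInt) := by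
    apply Subtype.val_injective
    show (η : G → ℂ) 1 = _
    rw [← coe_charDegree η, hd]
    push_cast
    rfl
  rw [hf1, map_natCast] at h1
  have : (2 : Cfsg.AlgInt ⧸ M) = 0 := by
    have := Ideal.Quotient.eq_zero_iff_mem.mpr hM.2.2
    rwa [map_natCast, Nat.cast_ofNat] at this
  push_cast at h1
  rw [this, zero_mul, zero_add] at h1
  exact one_ne_zero h1

/-- Let N be a normal subgroup of the finite group G, M a maximal ideal of the algebraic integers containing 2, and θ a real-valued irreducible character of N of odd degree that extends to G (some irreducible character of G restricts to θ). Then θ has an extension to G lying in the principal 2-block of G. -/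
theorem result {G : Type*} [Group G] [Finite G] (N : Subgroup G) [N.Normal] (M : Ideal Cfsg.AlgInt) (hM : Cfsg.IsPModular 2 M) (θ : Cfsg.IrrCharacter N) (hreal : ∀ n : N, ((θ : N → ℂ) n).im = 0) (hodd : Odd (Cfsg.charDegree (θ : N → ℂ))) (hext : ∃ η : Cfsg.IrrCharacter G, ∀ n : N, (η : G → ℂ) n = (θ : N → ℂ) n) :
    ∃ η : Cfsg.IrrCharacter G, (∀ n : N, (η : G → ℂ) n = (θ : N → ℂ) n) ∧ η ∈ Cfsg.principalBlock M G := by
  classical
  haveI := Fintype.ofFinite G
  haveI := Fintype.ofFinite N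
  haveI : M.IsMaximal := hM.2.1
  obtain ⟨η₀, hη₀⟩ := hext
  let η₁ : Cfsg.IrrCharacter G := ⟨fun g => conj ((η₀ : G → ℂ) g),
    isIrrCharacter_of_classInner_self (isCharacter_conj (isCharacter_coe η₀)) (by
      have h := classInner_self η₀
      have := congrArg conj h
      rw [map_one] at this
      rw [← this]
      simp [Cfsg.classInner, map_sum])⟩
  have hη₁ : ∀ n : N, (η₁ : G → ℂ) n = (θ : N → ℂ) n := fun n => by
    show conj ((η₀ : G → ℂ) n) = _
    rw [hη₀]; exact Complex.conj_eq_iff_im.mpr (hreal n)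
  obtain ⟨β, hβ⟩ := CfsgLib.Chars.Induced.gallagher_exists η₀ θ hη₀ η₁ (by
    intro h
    have h1 : Cfsg.classInner (fun n : N => (η₁ : G → ℂ) n) (θ : N → ℂ) = 0 := by
      rw [CfsgLib.Chars.Induced.classInner_eq_mult (isCharacter_restrict (isCharacter_coe η₁) N), h,
        Nat.cast_zero]
    simp only [hη₁] at h1
    exact one_ne_zero ((classInner_self θ).symm.trans h1))
  have hβ1 : (β : G ⧸ N → ℂ) 1 = 1 := by
    have h := congrFun hβ 1
    have e : (η₁ : G → ℂ) 1 = (η₀ : G → ℂ) 1 := by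
      simpa using (hη₁ 1).trans (hη₀ 1).symm
    rw [e, QuotientGroup.mk_one] at h
    exact (mul_eq_left₀ (map_one_ne_zero η₀)).mp h.symm
  obtain ⟨l, hl⟩ := exists_linChar_eq β hβ1
  let m : G →* ℂˣ := l.comp (QuotientGroup.mk' N)
  have hm : ∀ g, conj ((η₀ : G → ℂ) g) = (η₀ : G → ℂ) g * (m g : ℂ) := by
    intro g
    have h := congrFun hβ g
    rw [← hl] at h
    simpa [m] using h
  -- adjust so that the correcting character has 2-power order
  obtain ⟨a, b, hb2, hab⟩ := Nat.exists_eq_two_pow_mul_odd (Nat.card_pos (α := G)).ne'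
  obtain ⟨c, hc⟩ := hb2
  let ν : G →* ℂˣ := m ^ (c + 1)
  let η : Cfsg.IrrCharacter G := ⟨_, isIrrCharacter_linear_mul η₀.2 ν⟩
  have hν : ∀ n : N, (ν n : ℂ) = 1 := fun n => by
    have : m (n : G) = 1 := by
      show l (QuotientGroup.mk' N (n : G)) = 1
      rw [QuotientGroup.mk'_apply, (QuotientGroup.eq_one_iff (n : G)).mpr n.2, map_one]
    simp [ν, this]
  have hηN : ∀ n : N, (η : G → ℂ) n = (θ : N → ℂ) n := fun n => by
    show (ν n : ℂ) * (η₀ : G → ℂ) n = _
    rw [hν, one_mul, hη₀]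
  refine ⟨η, hηN, mem_principalBlock_of_real_mod M hM η ?_ ?_⟩
  · have e : (η : G → ℂ) 1 = (θ : N → ℂ) 1 := by simpa using hηN 1
    rwa [show Cfsg.charDegree (η : G → ℂ) = Cfsg.charDegree (θ : N → ℂ) by
      simp [Cfsg.charDegree, e]]
  · intro g u v hu hv
    have hmN : (m g) ^ Nat.card G = 1 := by rw [← map_pow, pow_card_eq_one', map_one]
    have hm0 : (m g : ℂ) ≠ 0 := Units.ne_zero _
    have hmN' : (m g : ℂ) ^ Nat.card G = 1 := by
      rw [← Units.val_pow_eq_pow_val, hmN, Units.val_one]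
    have hconj : conj (m g : ℂ) = (m g : ℂ)⁻¹ :=
      (Complex.inv_eq_conj (Complex.norm_eq_one_of_pow_eq_one hmN' Nat.card_pos.ne')).symm
    have hinv : (η : G → ℂ) g⁻¹ = conj ((η : G → ℂ) g) := map_inv_eq_conj (isCharacter_coe η) g
    -- `conj η = η * r` with `r` a root of unity of 2-power order
    set r : ℂ := ((m g : ℂ) ^ (2 * c + 1))⁻¹ with hr
    have hvu : (v : ℂ) = (u : ℂ) * r := by
      rw [hv, hinv, hu]
      show conj ((ν g : ℂ) * (η₀ : G → ℂ) g) = (ν g : ℂ) * (η₀ : G → ℂ) g * r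
      simp only [ν, MonoidHom.pow_apply, Units.val_pow_eq_pow_val, map_mul, map_pow, hm, hconj, hr,
        inv_pow]
      field_simp
      ring
    have hr2 : r ^ 2 ^ a = 1 := by
      rw [hr, inv_pow, ← pow_mul, mul_comm (2 * c + 1), ← hc, ← hab]
      exact inv_eq_one.mpr hmN'
    let r' : Cfsg.AlgInt := ⟨r, IsIntegral.of_pow (n := 2 ^ a) (by positivity)
      (hr2 ▸ isIntegral_one)⟩
    have hr' : r' ^ 2 ^ a = 1 := Subtype.ext (by simpa using hr2)
    haveI : Fact (Nat.Prime 2) := ⟨Nat.prime_two⟩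
    haveI : CharP (Cfsg.AlgInt ⧸ M) 2 := by
      refine (CharP.charP_iff_prime_eq_zero Nat.prime_two).mpr ?_
      rw [← map_natCast (Ideal.Quotient.mk M)]
      exact Ideal.Quotient.eq_zero_iff_mem.mpr hM.2.2
    have hr1 : Ideal.Quotient.mk M r' = 1 := by
      have h1 : (Ideal.Quotient.mk M r' - 1) ^ 2 ^ a = 0 := by
        rw [sub_pow_char_pow, ← map_pow, hr', map_one, one_pow, sub_self]
      exact sub_eq_zero.mp (eq_zero_of_pow_eq_zero h1)
    have hv' : v = u * r' := Subtype.ext hvu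
    rw [hv', map_mul, hr1, mul_one]

end Cfsg.Agent.S4580
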