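import Cfsg.Statements.S4581
import Cfsg.Agent.Eq.Def_Characters
import Cfsg.Agent.Chars.RealOddSolvable.Main
import Cfsg.Agent.PGroup.Frattini

set_option autoImplicit false
open Cfsg CfsgLib.Chars CfsgLib.Chars.RealOddSolvable
open scoped commutatorElement

namespace Cfsg.Agent.S4581

universe u

theorem hyp_iff {G : Type u} [Group G] [Finite G] (P : Sylow 2 G) :
    Hyp (P : Subgroup G) ↔ (commutator (P : Subgroup G) = frattini (P : Subgroup G) ∧
      Subgroup.normalizer ((P : Subgroup G) : Set G) = (P : Subgroup G)) := by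
  constructor
  · rintro ⟨hN, hμ⟩
    refine ⟨le_antisymm (CfsgLib.PGroup.commutator_le_frattini (p := 2) P.isPGroup') ?_, hN⟩
    refine CfsgLib.PGroup.frattini_le_of_elementary (p := 2)
      (fun a b => Subgroup.commutator_mem_commutator (Subgroup.mem_top a) (Subgroup.mem_top b))
      fun a => ?_
    by_contra ha
    obtain ⟨l, hl⟩ := exists_linChar_ne_one ha
    exact hl (by rw [map_pow]; exact hμ l a)
  · rintro ⟨hf, hN⟩
    refine ⟨hN, fun μ x => ?_⟩
    rw [← map_pow]
    exact Abelianization.commutator_subset_ker μ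
      (hf.symm ▸ CfsgLib.PGroup.pow_prime_mem_frattini (p := 2) P.isPGroup' x)

/-- Let G be a finite solvable group, P a Sylow 2-subgroup and N its normalizer. Then G and N have the same number of real-valued irreducible characters of odd degree; and every odd-degree irreducible character of G is real-valued exactly when the derived subgroup of P equals the Frattini subgroup of P and P is its own normalizer in G. -/
theorem result {G : Type*} [Group G] [Finite G] [Group.IsSolvable G] (P : Sylow 2 G) :
    Nat.card {χ : Cfsg.IrrCharacter G // (∀ g : G, ((χ : G → ℂ) g).im = 0) ∧ Odd (Cfsg.charDegree (χ : G → ℂ))} =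
      Nat.card {ψ : Cfsg.IrrCharacter (Subgroup.normalizer ((P : Subgroup G) : Set G)) // (∀ g, ((ψ : Subgroup.normalizer ((P : Subgroup G) : Set G) → ℂ) g).im = 0) ∧ Odd (Cfsg.charDegree (ψ : Subgroup.normalizer ((P : Subgroup G) : Set G) → ℂ))} ∧
    ((∀ χ : Cfsg.IrrCharacter G, Odd (Cfsg.charDegree (χ : G → ℂ)) → ∀ g : G, ((χ : G → ℂ) g).im = 0) ↔
      (commutator (P : Subgroup G) = frattini (P : Subgroup G) ∧ Subgroup.normalizer ((P : Subgroup G) : Set G) = (P : Subgroup G))) := by
  refine ⟨realOddCount_eq_normalizer P, ?_⟩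
  rw [← hyp_iff]
  refine ⟨fun h => ?_, fun h χ hχ => real_of_hyp P h χ hχ⟩
  by_contra hP
  obtain ⟨χ, hχ, g, hg⟩ := exists_nonreal_of_not_hyp P hP
  exact hg (h χ hχ g)

end Cfsg.Agent.S4581
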