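import Cfsg.Statements.S4582
import Mathlib.GroupTheory.Transfer
import Mathlib.GroupTheory.PGroup

set_option autoImplicit false
open Cfsg

namespace Cfsg.Agent.S4582

open scoped Pointwise

universe u v

/-- The value of the transfer from `P` to `A` at an element of `P`, when there is a transversal
inside a normal subgroup `N`. -/
theorem transfer_sq_eq {H : Type u} [Group H] {A : Type v} [CommGroup A] (N P : Subgroup H)
    [N.Normal] [P.FiniteIndex] (ψ : P →* A)
    (hsup : ∀ h : H, ∃ n ∈ N, h⁻¹ * n ∈ P)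
    (hQ : ∀ q : P, (q : H) ∈ N → ψ q ^ 2 = 1) (x : P) :
    MonoidHom.transfer ψ (x : H) ^ 2 = ψ x ^ (2 * P.index) := by
  classical
  let f : H ⧸ P → H := fun q => Classical.choose (hsup q.out)
  have hfN : ∀ q, f q ∈ N := fun q => (Classical.choose_spec (hsup q.out)).1
  have hf : ∀ q, (↑(f q) : H ⧸ P) = q := fun q => by
    conv_rhs => rw [← q.out_eq]
    exact (QuotientGroup.eq.mpr (Classical.choose_spec (hsup q.out)).2).symm
  let T : P.LeftTransversal := ⟨Set.range f, Subgroup.isComplement_range_left hf⟩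
  have hT : ∀ q, ((T.2.leftQuotientEquiv q : Set.range f) : H) = f q :=
    fun q => Subgroup.IsComplement.leftQuotientEquiv_apply hf q
  let _ := P.fintypeQuotientOfFiniteIndex
  rw [MonoidHom.transfer_def ψ T (x : H)]
  unfold Subgroup.leftTransversals.diff
  rw [← Finset.prod_pow, Subgroup.index_eq_card, Nat.card_eq_fintype_card]
  rw [pow_mul, ← Finset.card_univ, ← Finset.prod_const]
  refine Finset.prod_congr rfl fun q _ => ?_
  set y : P := ⟨(T.2.leftQuotientEquiv q : H)⁻¹ * ((x : H) • T).2.leftQuotientEquiv q, _⟩ with hy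
  have hyval : (y : H) = (f q)⁻¹ * ((x : H) * f ((x : H)⁻¹ • q)) := by
    simp only [hy, hT]
    rw [Subgroup.smul_apply_eq_smul_apply_inv_smul, hT]
    rfl
  have hq : ((y * x⁻¹ : P) : H) ∈ N := by
    rw [Subgroup.coe_mul, hyval, Subgroup.coe_inv, mul_assoc]
    exact N.mul_mem (N.inv_mem (hfN q)) (Subgroup.Normal.conj_mem ‹_› _ (hfN _) _)
  have := hQ _ hq
  rw [map_mul, mul_pow, map_inv, inv_pow, mul_inv_eq_one] at this
  exact this

/-- The core of the argument, in a group equal to `N P`. -/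
theorem core {H : Type u} [Group H] [Finite H] {A : Type v} [CommGroup A] [Finite A]
    (hA : IsPGroup 2 A) (N P : Subgroup H) [N.Normal] (ψ : P →* A)
    (hsup : ∀ h : H, ∃ n ∈ N, h⁻¹ * n ∈ P)
    (hQ : ∀ q : P, (q : H) ∈ N → ψ q ^ 2 = 1)
    (hodd : Odd (Nat.card (Abelianization N))) (hidx : Odd P.index)
    (x : P) (hx : ∀ V : H →* A, (∀ n ∈ N, V n = 1) → V (x : H) ^ 2 = 1) : ψ x ^ 2 = 1 := by
  let V := MonoidHom.transfer ψ
  have hcop : Nat.Coprime (Nat.card (Abelianization N)) (Nat.card A) := by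
    obtain ⟨k, hk⟩ := IsPGroup.iff_card.mp hA
    rw [hk]
    exact (Nat.coprime_two_right.mpr hodd).pow_right k
  have hVN : ∀ n ∈ N, V n = 1 := by
    intro n hn
    let φ := Abelianization.lift (V.comp N.subtype)
    have h1 : orderOf (φ (Abelianization.of ⟨n, hn⟩)) ∣ Nat.card (Abelianization N) :=
      (orderOf_map_dvd φ _).trans (orderOf_dvd_natCard _)
    have h2 : orderOf (φ (Abelianization.of ⟨n, hn⟩)) ∣ Nat.card A := orderOf_dvd_natCard _
    simpa [φ] using orderOf_eq_one_iff.mp
      (Nat.dvd_one.mp (hcop ▸ Nat.dvd_gcd h1 h2))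
  have h1 := transfer_sq_eq N P ψ hsup hQ x
  rw [hx V hVN, pow_mul] at h1
  obtain ⟨k, hk⟩ := hA (ψ x ^ 2)
  have hc : Nat.Coprime P.index (2 ^ k) := (Nat.coprime_two_right.mpr hidx).pow_right k
  exact orderOf_eq_one_iff.mp (Nat.dvd_one.mp (hc ▸ Nat.dvd_gcd
    (orderOf_dvd_of_pow_eq_one h1.symm) (orderOf_dvd_of_pow_eq_one hk)))

/-- Let N be a normal subgroup of the finite group G, P a Sylow 2-subgroup of G and Q = P ∩ N. Suppose that P/QP' and Q/Q' are elementary abelian (every square of an element of P lies in the subgroup generated by Q and the derived subgroup of P, and every square of an element of Q lies in the derived subgroup of Q), and that the commutator factor group N/N' has odd order. Then P/P' is elementary abelian. -/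
theorem result {G : Type*} [Group G] [Finite G] (N : Subgroup G) [N.Normal] (P : Sylow 2 G)
    (hP : ∀ x ∈ (P : Subgroup G), x ^ 2 ∈ ((P : Subgroup G) ⊓ N) ⊔ ⁅(P : Subgroup G), (P : Subgroup G)⁆)
    (hQ : ∀ x ∈ (P : Subgroup G) ⊓ N, x ^ 2 ∈ ⁅(P : Subgroup G) ⊓ N, (P : Subgroup G) ⊓ N⁆)
    (hodd : Odd (Nat.card (Abelianization N))) :
    ∀ x ∈ (P : Subgroup G), x ^ 2 ∈ ⁅(P : Subgroup G), (P : Subgroup G)⁆ := by
  classical
  intro x hx
  let H : Subgroup G := N ⊔ (P : Subgroup G)
  let N' : Subgroup H := N.subgroupOf H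
  let P' : Subgroup H := (P : Subgroup G).subgroupOf H
  let e : P' ≃* (P : Subgroup G) := Subgroup.subgroupOfEquivOfLe le_sup_right
  let ψ : P' →* Abelianization (P : Subgroup G) := Abelianization.of.comp e.toMonoidHom
  have hA : IsPGroup 2 (Abelianization (P : Subgroup G)) :=
    P.isPGroup'.of_surjective Abelianization.of (fun a => QuotientGroup.mk_surjective a)
  have hsup : ∀ h : H, ∃ n ∈ N', h⁻¹ * n ∈ P' := by
    intro h
    obtain ⟨n, hn, p, hp, hnp⟩ := Subgroup.mem_sup_of_normal_left.mp h.2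
    refine ⟨⟨n, Subgroup.mem_sup_left hn⟩, hn, ?_⟩
    show (h : G)⁻¹ * n ∈ (P : Subgroup G)
    rw [← hnp]
    simpa using hp
  have hQ' : ∀ q : P', (q : H) ∈ N' → ψ q ^ 2 = 1 := by
    intro q hq
    rw [← map_pow]
    show Abelianization.of (e (q ^ 2)) = 1
    rw [← MonoidHom.mem_ker, Abelianization.ker_of]
    have h2 : ((q : H) : G) ^ 2 ∈ ⁅(P : Subgroup G), (P : Subgroup G)⁆ :=
      Subgroup.commutator_mono inf_le_left inf_le_left (hQ _ ⟨q.2, hq⟩)
    rw [← Subgroup.map_subtype_commutator] at h2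
    obtain ⟨c, hc, hceq⟩ := h2
    have : c = e (q ^ 2) := Subtype.ext hceq
    exact this ▸ hc
  have hN' : Odd (Nat.card (Abelianization N')) := by
    rw [Nat.card_congr (Subgroup.subgroupOfEquivOfLe
      (le_sup_left : N ≤ H)).abelianizationCongr.toEquiv]
    exact hodd
  have hidx : Odd P'.index := by
    have h1 : P'.index ∣ (P : Subgroup G).index :=
      ⟨H.index, (Subgroup.relIndex_mul_index le_sup_right).symm⟩
    exact Nat.not_even_iff_odd.mp fun h =>
      P.not_dvd_index (dvd_trans (even_iff_two_dvd.mp h) h1)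
  haveI : Finite (Abelianization (P : Subgroup G)) :=
    Finite.of_surjective Abelianization.of (fun a => QuotientGroup.mk_surjective a)
  let x' : P' := ⟨⟨x, Subgroup.mem_sup_right hx⟩, hx⟩
  have hxV : ∀ V : H →* Abelianization (P : Subgroup G), (∀ n ∈ N', V n = 1) →
      V (x' : H) ^ 2 = 1 := by
    intro V hV
    let W : (P : Subgroup G) →* Abelianization (P : Subgroup G) :=
      V.comp (Subgroup.inclusion le_sup_right)
    have hK : ((P : Subgroup G) ⊓ N) ⊔ ⁅(P : Subgroup G), (P : Subgroup G)⁆ ≤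
        W.ker.map (P : Subgroup G).subtype := by
      refine sup_le ?_ ?_
      · rintro y ⟨hyP, hyN⟩
        exact ⟨⟨y, hyP⟩, hV ⟨y, Subgroup.mem_sup_left hyN⟩ hyN, rfl⟩
      · rw [← Subgroup.map_subtype_commutator]
        exact Subgroup.map_mono (Abelianization.commutator_subset_ker W)
    obtain ⟨y, hy, hyx⟩ := hK (hP x hx)
    have : y = ⟨x, hx⟩ ^ 2 := Subtype.ext hyx
    subst this
    rw [← map_pow]
    exact hy
  have := core hA N' P' ψ hsup hQ' hN' hidx x' hxV
  rw [← map_pow] at this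
  have h3 : e (x' ^ 2) ∈ commutator (P : Subgroup G) := by
    rw [← Abelianization.ker_of]; exact this
  rw [← Subgroup.map_subtype_commutator]
  exact ⟨_, h3, rfl⟩

end Cfsg.Agent.S4582
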