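import Cfsg.Statements.S4583
import Cfsg.Agent.Eq.Def_Blocks
import Cfsg.Agent.Blocks.Defect.PrincipalCentralizer

set_option autoImplicit false
open Cfsg

namespace Cfsg.Agent.S4583

/-- Let N be a normal subgroup of the finite group G, p a prime, M a maximal ideal of the algebraic integers containing p, and P a Sylow p-subgroup of G. Let θ be an irreducible character of N of degree prime to p lying in the principal p-block of N, and suppose θ extends to the subgroup NP (some irreducible character of NP restricts to θ). Then some irreducible character χ of G of degree prime to p in the principal p-block of G lies over θ (θ is a constituent of the restriction of χ to N). -/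
theorem result {G : Type*} [Group G] [Finite G] (N : Subgroup G) [N.Normal] (p : ℕ) [Fact p.Prime] (M : Ideal Cfsg.AlgInt) (hM : Cfsg.IsPModular p M) (P : Sylow p G)
    (θ : Cfsg.IrrCharacter N) (hθ : θ ∈ Cfsg.principalBlock M N) (hdeg : ¬ p ∣ Cfsg.charDegree (θ : N → ℂ))
    (hext : ∃ η : Cfsg.IrrCharacter ↥(N ⊔ (P : Subgroup G)), ∀ n : N, (η : ↥(N ⊔ (P : Subgroup G)) → ℂ) (Subgroup.inclusion le_sup_left n) = (θ : N → ℂ) n) :
    ∃ χ : Cfsg.IrrCharacter G, χ ∈ Cfsg.principalBlock M G ∧ ¬ p ∣ Cfsg.charDegree (χ : G → ℂ) ∧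
      haveI := Fintype.ofFinite N; Cfsg.classInner (fun n : N => (χ : G → ℂ) n) (θ : N → ℂ) ≠ 0 := by
  classical
  haveI := hM.2.1
  haveI := CfsgLib.Blocks.charP_kres hM
  letI := Fintype.ofFinite G
  letI := Fintype.ofFinite N
  set U : Subgroup G := N ⊔ (P : Subgroup G) with hU
  obtain ⟨η, hη⟩ := hext
  letI := Fintype.ofFinite U
  have hnat : ∀ n : ℕ, Cfsg.MemLocalRing M (n : ℂ) := fun n => by
    simpa using CfsgLib.Blocks.memLocalRing_coe (M := M) (n : Cfsg.AlgInt)
  set B := Cfsg.principalBlock M G with hBdef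
  have hB : Cfsg.IsPBlock M B := CfsgLib.Blocks.isPBlock_principalBlock_of_finite G
  set bc : G → ℂ := Cfsg.blockCoeff B with hbc
  have hbcloc : ∀ g, CfsgLib.Blocks.localRing M |>.carrier (bc g) := fun g =>
    CfsgLib.Blocks.memLocalRing_blockCoeff hB g
  -- the restriction to `N` of the coefficients is a central local element of `N`
  have hcl : IsClassFunction G bc := by
    intro x y
    simp only [hbc, Cfsg.blockCoeff]
    congr 1
    refine finsum_mem_congr rfl fun χ _ => ?_
    rw [CfsgLib.Chars.isClassFunction_coe χ x y]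
  set zN : CfsgLib.Blocks.GA N := CfsgLib.Blocks.ofFun (fun n : N => bc n) with hzN
  have hzmem : zN ∈ CfsgLib.Blocks.centerO M N :=
    CfsgLib.Blocks.mem_centerO.2 ⟨CfsgLib.Blocks.isCentralElt_ofFun fun x y => hcl x y,
      fun n => by rw [hzN, CfsgLib.Blocks.coeff_ofFun]; exact hbcloc _⟩
  have hsame : Cfsg.SameBlock M ((CfsgLib.Chars.oneChar N : Cfsg.IrrCharacter N) : N → ℂ)
      (θ : N → ℂ) := by
    rw [CfsgLib.Chars.oneChar_coe]; exact hθ
  have hcongr := CfsgLib.Blocks.congr_omega_of_sameBlock hzmem hsame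
  have hone : ¬ Cfsg.MemLocalIdeal M (∑ n : N, bc n) := by
    intro h
    apply CfsgLib.Blocks.PrincipalCentralizer.sum_coeff_normal_ne_zero (p := p) P
      (CfsgLib.Blocks.isPrincipalIdem_topEl (M := M) (G := G)) N
    have hc : ∀ x : G, (CfsgLib.Blocks.topEl M B).coeff x = CfsgLib.Blocks.redC M (bc x) := fun x =>
      CfsgLib.Blocks.coeff_blockEl_apply (f := MonoidHom.id G) Function.injective_id B x
    rw [Finset.sum_congr rfl fun x _ => hc x]
    have hs : ∀ s : Finset G, ∑ x ∈ s, CfsgLib.Blocks.redC M (bc x) =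
        CfsgLib.Blocks.res M (∑ x ∈ s, (⟨bc x, hbcloc x⟩ : CfsgLib.Blocks.localRing M)) := fun s => by
      rw [map_sum]
      exact Finset.sum_congr rfl fun x _ => CfsgLib.Blocks.redC_of_mem _
    rw [hs, CfsgLib.Blocks.res_eq_zero_iff, AddSubmonoidClass.coe_finset_sum]
    rwa [Finset.sum_subtype (p := fun x => x ∈ N) _ (by simp) fun x => bc x]
  have hθne : ¬ Cfsg.MemLocalIdeal M (∑ n : N, bc n * (θ : N → ℂ) n) := by
    intro h
    apply hone
    rw [hzN, CfsgLib.Blocks.omega_ofFun, CfsgLib.Blocks.omega_ofFun,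
      CfsgLib.Chars.oneChar_coe] at hcongr
    simp only [mul_one, div_one] at hcongr
    rw [← Finset.sum_div] at hcongr
    have h2 : Cfsg.MemLocalIdeal M ((∑ n : N, bc n * (θ : N → ℂ) n) / (θ : N → ℂ) 1) := by
      rw [div_eq_mul_inv, ← CfsgLib.Chars.coe_charDegree]
      exact CfsgLib.Blocks.memLocalIdeal_mul_right h
        (CfsgLib.Blocks.memLocalRing_inv (hnat _)
          fun hc => hdeg ((CfsgLib.Blocks.memLocalIdeal_natCast_iff hM _).1 hc))
    have h3 := CfsgLib.Blocks.memLocalIdeal_add hcongr h2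
    rwa [sub_add_cancel] at h3
  -- the degree-weighted multiplicity
  have hex : ∀ χ : Cfsg.IrrCharacter G, ∃ m : ℕ,
      Cfsg.classInner (fun y : U => (χ : G → ℂ) y) (η : U → ℂ) = m := fun χ =>
    CfsgLib.Chars.exists_nat_classInner (CfsgLib.Chars.isCharacter_restrict
      (CfsgLib.Chars.isCharacter_coe χ) U) η
  choose m hm using hex
  set S : ℕ := ∑ χ ∈ B.toFinite.toFinset, Cfsg.charDegree (χ : G → ℂ) * m χ with hS
  have hdvd : ¬ p ∣ S := by
    intro hd
    apply hθne
    -- the support of the coefficients in `U` lies in `N`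
    have hSval : (S : ℂ) = (Nat.card U : ℂ)⁻¹ * ((Nat.card G : ℂ) *
        ∑ y : U, starRingEnd ℂ (bc y * (η : U → ℂ) y)) := by
      rw [hS]
      push_cast
      simp only [← hm, Cfsg.classInner, CfsgLib.Chars.coe_charDegree, Finset.mul_sum]
      rw [Finset.sum_comm]
      refine Finset.sum_congr rfl fun y _ => ?_
      rw [hbc, Cfsg.blockCoeff, CfsgLib.Blocks.finsum_block_eq_sum]
      simp only [map_mul, map_inv₀, map_natCast, map_sum, Complex.conj_conj, Finset.mul_sum,
        Finset.sum_mul]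
      refine Finset.sum_congr rfl fun χ _ => ?_
      rw [CfsgLib.Chars.conj_map_one (CfsgLib.Chars.isCharacter_coe χ)]
      have hne : (Nat.card G : ℂ) ≠ 0 := CfsgLib.Chars.natCard_ne_zero
      field_simp
    have hsum : ∑ y : U, bc y * (η : U → ℂ) y = ∑ n : N, bc n * (θ : N → ℂ) n := by
      refine (Finset.sum_bij_ne_zero (fun (n : N) _ _ => Subgroup.inclusion le_sup_left n)
        (fun _ _ _ => Finset.mem_univ _) (fun a _ _ b _ _ h => Subgroup.inclusion_injective _ h)
        (fun y _ hy => ?_) (fun n _ _ => by rw [hη]; rfl)).symm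
      have hreg : ¬ p ∣ orderOf (y : G) := fun h => hy (by
        rw [hbc, CfsgLib.Blocks.blockCoeff_eq_zero_of_singular hM hB h, zero_mul])
      have hyN : (y : G) ∈ N := by
        have hmem : (y : G) ∈ (P : Subgroup G) ⊔ N := by rw [sup_comm]; exact y.2
        obtain ⟨a, ha, b, hb, hab⟩ := Subgroup.mem_sup_of_normal_right.1 hmem
        rw [← QuotientGroup.eq_one_iff, ← orderOf_eq_one_iff]
        have h1 : orderOf ((y : G) : G ⧸ N) ∣ orderOf (y : G) :=
          orderOf_map_dvd (QuotientGroup.mk' N) (y : G)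
        obtain ⟨k, hk⟩ := IsPGroup.iff_orderOf.1 P.2 ⟨a, ha⟩
        rw [Subgroup.orderOf_mk] at hk
        have h2 : orderOf ((y : G) : G ⧸ N) ∣ p ^ k := by
          rw [← hab, QuotientGroup.mk_mul, (QuotientGroup.eq_one_iff b).2 hb, mul_one, ← hk]
          exact orderOf_map_dvd (QuotientGroup.mk' N) a
        exact Nat.eq_one_of_dvd_coprimes
          (((Fact.out : p.Prime).coprime_iff_not_dvd.2 hreg).pow_left k) h2 h1
      refine ⟨⟨y, hyN⟩, Finset.mem_univ _, ?_, Subtype.ext rfl⟩
      intro h0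
      apply hy
      rw [← h0, ← hη]
      rfl
    rw [← map_sum, hsum] at hSval
    set T := ∑ n : N, bc n * (θ : N → ℂ) n with hT
    have hreal : starRingEnd ℂ T = T := by
      have h1 := congrArg (starRingEnd ℂ) hSval
      simp only [map_mul, map_inv₀, map_natCast, Complex.conj_conj] at h1
      rw [hSval] at h1
      have hne : (Nat.card U : ℂ)⁻¹ ≠ 0 := inv_ne_zero CfsgLib.Chars.natCard_ne_zero
      exact mul_left_cancel₀ CfsgLib.Chars.natCard_ne_zero (mul_left_cancel₀ hne h1)
    rw [hreal] at hSval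
    have hidx : T = (S : ℂ) * ((U.index : ℂ))⁻¹ := by
      have h1 : (Nat.card G : ℂ) = (Nat.card U : ℂ) * (U.index : ℂ) := by
        exact_mod_cast (U.card_mul_index).symm
      have h2 : (Nat.card U : ℂ) ≠ 0 := CfsgLib.Chars.natCard_ne_zero
      have h3 : (U.index : ℂ) ≠ 0 := by exact_mod_cast Subgroup.index_ne_zero_of_finite
      rw [hSval, h1]
      field_simp
    rw [hidx]
    refine CfsgLib.Blocks.memLocalIdeal_mul_right ((CfsgLib.Blocks.memLocalIdeal_natCast_iff hM _).2 hd)
      (CfsgLib.Blocks.memLocalRing_inv (hnat _) fun hc => ?_)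
    exact P.not_dvd_index (((CfsgLib.Blocks.memLocalIdeal_natCast_iff hM _).1 hc).trans
      (Subgroup.index_dvd_of_le le_sup_right))
  obtain ⟨χ, hχ, hχd⟩ : ∃ χ ∈ B.toFinite.toFinset, ¬ p ∣ Cfsg.charDegree (χ : G → ℂ) * m χ := by
    by_contra! h
    exact hdvd (Finset.dvd_sum h)
  refine ⟨χ, (Set.Finite.mem_toFinset _).1 hχ, fun h => hχd (h.trans (Dvd.intro _ rfl)), ?_⟩
  have hm0 : Cfsg.classInner (fun y : U => (χ : G → ℂ) y) (η : U → ℂ) ≠ 0 := by
    rw [hm χ, Nat.cast_ne_zero]
    exact fun h => hχd (by rw [h, mul_zero]; exact dvd_zero p)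
  obtain ⟨φ, hφ, hres⟩ := CfsgLib.Chars.exists_add_of_classInner_ne_zero
    (CfsgLib.Chars.isCharacter_restrict (CfsgLib.Chars.isCharacter_coe χ) U) η hm0
  have hφN : Cfsg.IsCharacter N (fun n : N => φ (Subgroup.inclusion le_sup_left n)) :=
    CfsgLib.Chars.isCharacter_comp hφ (Subgroup.inclusion (le_sup_left : N ≤ U))
  obtain ⟨r, hr⟩ := CfsgLib.Chars.exists_nat_classInner hφN θ
  have heq : (fun n : N => (χ : G → ℂ) n) =
      (θ : N → ℂ) + fun n : N => φ (Subgroup.inclusion le_sup_left n) := by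
    funext n
    have := congrFun hres (Subgroup.inclusion le_sup_left n)
    rw [Pi.add_apply, hη] at this
    exact this
  show Cfsg.classInner (fun n : N => (χ : G → ℂ) n) (θ : N → ℂ) ≠ 0
  rw [heq, CfsgLib.Chars.classInner_add_left, CfsgLib.Chars.classInner_self, hr, ← Nat.cast_one,
    ← Nat.cast_add, Nat.cast_ne_zero]
  omega

end Cfsg.Agent.S4583
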