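import Cfsg.Statements.S4584
import Mathlib.GroupTheory.IndexNormal
import Mathlib.GroupTheory.PGroup
import Mathlib.GroupTheory.Nilpotent
import Mathlib.Tactic
-- import your own Cfsg.Agent.* helpers here

set_option autoImplicit false
open Cfsg
open scoped commutatorElement

namespace Cfsg.Agent.S4584

theorem three_gen {P : Type*} [Group P] [Finite P] {p : ℕ} [Fact p.Prime]
    (hP : Nat.card P = p ^ 4) (H : Subgroup P) (x y : P) (hH : p ^ 2 ≤ Nat.card H)
    (hx : x ∉ H) (hy : y ∉ H ⊔ Subgroup.zpowers x) :
    H ⊔ Subgroup.zpowers x ⊔ Subgroup.zpowers y = ⊤ ∧ Nat.card H = p ^ 2 := by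
  have hp : p.Prime := Fact.out
  have hdiv : ∀ K : Subgroup P, ∃ i, i ≤ 4 ∧ Nat.card K = p ^ i := fun K =>
    (Nat.dvd_prime_pow hp).mp (hP ▸ Subgroup.card_subgroup_dvd_card K)
  obtain ⟨i, hi, hHc⟩ := hdiv H
  obtain ⟨j, hj, hKc⟩ := hdiv (H ⊔ Subgroup.zpowers x)
  obtain ⟨k, hk, hLc⟩ := hdiv (H ⊔ Subgroup.zpowers x ⊔ Subgroup.zpowers y)
  have hlt : ∀ (A B : Subgroup P) (a b : ℕ), A < B → Nat.card A = p ^ a → Nat.card B = p ^ b → a < b := by
    intro A B a b hAB ha hb
    by_contra hc
    have := Subgroup.eq_of_le_of_card_ge hAB.le
      (by rw [ha, hb]; exact Nat.pow_le_pow_right hp.pos (not_lt.mp hc))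
    exact hAB.ne this
  have e1 : H < H ⊔ Subgroup.zpowers x := left_lt_sup.mpr (by simpa using hx)
  have e2 : H ⊔ Subgroup.zpowers x < H ⊔ Subgroup.zpowers x ⊔ Subgroup.zpowers y :=
    left_lt_sup.mpr (by simpa using hy)
  have h1 : i < j := hlt _ _ _ _ e1 hHc hKc
  have h2 : j < k := hlt _ _ _ _ e2 hKc hLc
  have hi2 : 2 ≤ i := by
    rw [hHc] at hH
    exact (Nat.pow_le_pow_iff_right hp.one_lt).mp hH
  refine ⟨?_, ?_⟩
  · apply Subgroup.eq_top_of_card_eq
    rw [hLc, hP, show k = 4 by omega]
  · rw [hHc, show i = 2 by omega]

theorem central_index {P : Type*} [Group P] [Finite P] {p : ℕ} [Fact p.Prime]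
    (hnc : ¬ IsMulCommutative P) (hP : IsPGroup p P) :
    p ^ 2 ≤ (Subgroup.center P).index := by
  have hp : p.Prime := Fact.out
  obtain ⟨n, hn⟩ := hP.index (Subgroup.center P)
  rcases le_or_gt 2 n with h | h
  · exact hn ▸ Nat.pow_le_pow_right hp.pos h
  · exfalso
    apply hnc
    have hcyc : IsCyclic (P ⧸ Subgroup.center P) := by
      interval_cases n
      · have : Subsingleton (P ⧸ Subgroup.center P) :=
          (Nat.card_eq_one_iff_unique.mp (by rw [← Subgroup.index_eq_card, hn, pow_zero])).1
        infer_instance
      · exact isCyclic_of_prime_card (p := p) (by rw [← Subgroup.index_eq_card, hn, pow_one])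
    exact ⟨⟨commutative_of_cyclic_center_quotient (QuotientGroup.mk' _)
      (le_of_eq (QuotientGroup.ker_mk' _))⟩⟩

theorem commutator_ne_bot {P : Type*} [Group P] (hnc : ¬ IsMulCommutative P) :
    ∃ x y : P, ¬ Commute x y := by
  by_contra h
  push Not at h
  exact hnc ⟨⟨fun a b => h a b⟩⟩


/-- Let p be a prime and P a group of order p^4. Then the derived subgroup P' has order p if and only if the centre Z(P) has index p^2 in P. -/
theorem result {P : Type*} [Group P] [Finite P] (p : ℕ) [Fact p.Prime] (hP : Nat.card P = p ^ 4) :
    Nat.card (commutator P) = p ↔ (Subgroup.center P).index = p ^ 2 := by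
  have hp : p.Prime := Fact.out
  have hPg : IsPGroup p P := IsPGroup.of_card hP
  constructor
  · intro hc
    have hnc : ¬ IsMulCommutative P := by
      intro hcomm
      have hb : commutator P = ⊥ := by
        rw [commutator_def, Subgroup.commutator_eq_bot_iff_le_centralizer]
        intro a _
        rw [Subgroup.mem_centralizer_iff]
        intro b _
        exact hcomm.is_comm.comm b a
      rw [hb, Subgroup.card_bot] at hc
      exact hp.one_lt.ne hc
    have hge := central_index hnc hPg
    obtain ⟨x, y, hxy⟩ := commutator_ne_bot hnc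
    have hidx : ∀ a : P, (Subgroup.centralizer ({a} : Set P)).index ≤ p := by
      intro a
      have hinj : ∀ g h : P, g * a * g⁻¹ * a⁻¹ = h * a * h⁻¹ * a⁻¹ →
          g⁻¹ * h ∈ Subgroup.centralizer ({a} : Set P) := by
        intro g h e
        rw [Subgroup.mem_centralizer_singleton_iff]
        have e' : g * a * g⁻¹ = h * a * h⁻¹ := mul_right_cancel e
        symm
        calc a * (g⁻¹ * h) = g⁻¹ * (g * a * g⁻¹) * h := by simp [mul_assoc]
          _ = g⁻¹ * (h * a * h⁻¹) * h := by rw [e']
          _ = g⁻¹ * h * a := by simp [mul_assoc]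
      rw [Subgroup.index_eq_card, ← hc]
      refine Nat.card_le_card_of_injective
        (Quotient.lift (fun g => (⟨⁅g, a⁆, Subgroup.commutator_mem_commutator
          (Subgroup.mem_top g) (Subgroup.mem_top a)⟩ : commutator P)) ?_) ?_
      · intro g h e
        replace e := QuotientGroup.leftRel_apply.mp e
        rw [Subgroup.mem_centralizer_singleton_iff] at e
        apply Subtype.ext
        simp only [commutatorElement_def]
        congr 1
        have : g * a * g⁻¹ * h = h * a := by
          calc g * a * g⁻¹ * h = g * (a * (g⁻¹ * h)) := by simp [mul_assoc]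
            _ = g * (g⁻¹ * h * a) := by rw [← e]
            _ = h * a := by simp [mul_assoc]
        rw [← this]; simp [mul_assoc]
      · intro g h
        induction g using Quotient.inductionOn
        induction h using Quotient.inductionOn
        intro e
        apply QuotientGroup.eq.mpr
        exact hinj _ _ (congrArg Subtype.val e)
    set H := Subgroup.centralizer ({x} : Set P) ⊓ Subgroup.centralizer ({y} : Set P) with hH
    have hHi : H.index ≤ p ^ 2 := by
      refine Subgroup.index_inf_le.trans ?_
      rw [pow_two]
      exact Nat.mul_le_mul (hidx x) (hidx y)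
    have hHcard : p ^ 2 ≤ Nat.card H := by
      have := H.card_mul_index
      rw [hP] at this
      by_contra hlt
      have h' : Nat.card H * H.index < p ^ 2 * p ^ 2 :=
        Nat.mul_lt_mul_of_lt_of_le (not_le.mp hlt) hHi (pow_pos hp.pos 2)
      rw [← pow_add, this] at h'
      exact lt_irrefl _ h' 
    obtain ⟨htop, hH2⟩ := three_gen hP H x y hHcard
      (fun h => hxy (Subgroup.mem_centralizer_singleton_iff.mp h.2))
      (fun h => hxy (by
        have : H ⊔ Subgroup.zpowers x ≤ Subgroup.centralizer ({x} : Set P) :=
          sup_le inf_le_left (Subgroup.zpowers_le.mpr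
            (Subgroup.mem_centralizer_singleton_iff.mpr rfl))
        exact (Subgroup.mem_centralizer_singleton_iff.mp (this h)).symm))
    have hle : H ≤ Subgroup.center P := by
      intro h hh
      have hcm : IsMulCommutative H := IsPGroup.isMulCommutative_of_card_eq_prime_sq hH2
      rw [← Subgroup.centralizer_univ, ← Subgroup.coe_top, ← htop]
      rw [Subgroup.mem_centralizer_iff]
      intro a ha
      have : H ⊔ Subgroup.zpowers x ⊔ Subgroup.zpowers y ≤ Subgroup.centralizer ({h} : Set P) := by
        refine sup_le (sup_le ?_ ?_) ?_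
        · intro b hb
          rw [Subgroup.mem_centralizer_singleton_iff]
          exact (congrArg Subtype.val (hcm.is_comm.comm (⟨h, hh⟩ : H) ⟨b, hb⟩)).symm
        · rw [Subgroup.zpowers_le, Subgroup.mem_centralizer_singleton_iff]
          exact (Subgroup.mem_centralizer_singleton_iff.mp hh.1).symm
        · rw [Subgroup.zpowers_le, Subgroup.mem_centralizer_singleton_iff]
          exact (Subgroup.mem_centralizer_singleton_iff.mp hh.2).symm
      exact (Subgroup.mem_centralizer_singleton_iff.mp (this ha))
    refine le_antisymm ?_ hge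
    exact (Nat.le_of_dvd (Nat.pos_of_ne_zero Subgroup.index_ne_zero_of_finite)
      (Subgroup.index_dvd_of_le hle)).trans hHi
  · intro hZ
    have hnc : ¬ IsMulCommutative P := by
      intro hcomm
      have : Subgroup.center P = ⊤ := by
        rw [eq_top_iff]
        intro a _
        exact Subgroup.mem_center_iff.mpr fun b => hcomm.is_comm.comm b a
      rw [this, Subgroup.index_top] at hZ
      exact (Nat.one_lt_pow two_ne_zero hp.one_lt).ne hZ
    have hZcard : Nat.card (Subgroup.center P) = p ^ 2 := by
      have := (Subgroup.center P).card_mul_index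
      rw [hZ, hP, show (4 : ℕ) = 2 + 2 from rfl, pow_add] at this
      exact Nat.eq_of_mul_eq_mul_right (pow_pos hp.pos 2) this
    obtain ⟨x, y, hxy⟩ := commutator_ne_bot hnc
    have hx : x ∉ Subgroup.center P := fun h => hxy ((Subgroup.mem_center_iff.mp h y).symm)
    have hy : y ∉ Subgroup.center P ⊔ Subgroup.zpowers x := fun h => hxy (by
      have : Subgroup.center P ⊔ Subgroup.zpowers x ≤ Subgroup.centralizer ({x} : Set P) :=
        sup_le (Subgroup.center_le_centralizer _) (Subgroup.zpowers_le.mpr
          (Subgroup.mem_centralizer_singleton_iff.mpr rfl))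
      exact (Subgroup.mem_centralizer_singleton_iff.mp (this h)).symm)
    obtain ⟨htop, -⟩ := three_gen hP _ x y hZcard.ge hx hy
    have hcomm_central : ∀ a b : P, ⁅a, b⁆ ∈ Subgroup.center P := by
      intro a b
      have hq : IsMulCommutative (P ⧸ Subgroup.center P) :=
        IsPGroup.isMulCommutative_of_card_eq_prime_sq (by rw [← Subgroup.index_eq_card, hZ])
      rw [← QuotientGroup.eq_one_iff, ← QuotientGroup.mk'_apply, map_commutatorElement,
        commutatorElement_eq_one_iff_mul_comm]
      exact hq.is_comm.comm _ _
    set c := ⁅x, y⁆ with hcdef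
    have hCn : (Subgroup.zpowers c).Normal := ⟨fun a ha g => by
      have hac : a ∈ Subgroup.center P := Subgroup.zpowers_le.mpr (hcomm_central x y) ha
      rw [Subgroup.mem_center_iff.mp hac g, mul_inv_cancel_right]
      exact ha⟩
    have hgen : ∀ a b : P, ⁅a, b⁆ ∈ Subgroup.zpowers c := by
      let π := QuotientGroup.mk' (Subgroup.zpowers c)
      have key : ∀ a b : P, Commute (π a) (π b) := by
        have hxy' : Commute (π x) (π y) := by
          rw [← commutatorElement_eq_one_iff_commute, ← map_commutatorElement]
          exact (QuotientGroup.eq_one_iff _).mpr (Subgroup.mem_zpowers c)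
        have hmem : ∀ a : P, a ∈ Subgroup.center P ⊔ Subgroup.zpowers x ⊔ Subgroup.zpowers y := by
          simp [htop]
        have base : ∀ b : P, Commute (π x) (π b) ∧ Commute (π y) (π b) := by
          intro b
          have : Subgroup.center P ⊔ Subgroup.zpowers x ⊔ Subgroup.zpowers y ≤
              (Subgroup.centralizer ({π x, π y} : Set _)).comap π := by
            refine sup_le (sup_le ?_ ?_) ?_
            · intro z hz
              rw [Subgroup.mem_comap, Subgroup.mem_centralizer_iff]
              intro u hu
              obtain ⟨u', rfl⟩ := QuotientGroup.mk'_surjective _ u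
              rw [← map_mul, ← map_mul, Subgroup.mem_center_iff.mp hz u']
            · rw [Subgroup.zpowers_le, Subgroup.mem_comap, Subgroup.mem_centralizer_iff]
              rintro u (rfl | rfl)
              · rfl
              · exact hxy'.symm
            · rw [Subgroup.zpowers_le, Subgroup.mem_comap, Subgroup.mem_centralizer_iff]
              rintro u (rfl | rfl)
              · exact hxy'
              · rfl
          have hb := Subgroup.mem_centralizer_iff.mp (Subgroup.mem_comap.mp (this (hmem b)))
          exact ⟨hb _ (Or.inl rfl), hb _ (Or.inr rfl)⟩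
        intro a b
        have : Subgroup.center P ⊔ Subgroup.zpowers x ⊔ Subgroup.zpowers y ≤
            (Subgroup.centralizer ({π b} : Set _)).comap π := by
          refine sup_le (sup_le ?_ ?_) ?_
          · intro z hz
            rw [Subgroup.mem_comap, Subgroup.mem_centralizer_singleton_iff,
              ← map_mul, ← map_mul, Subgroup.mem_center_iff.mp hz b]
          · rw [Subgroup.zpowers_le, Subgroup.mem_comap, Subgroup.mem_centralizer_singleton_iff]
            exact (base b).1.eq
          · rw [Subgroup.zpowers_le, Subgroup.mem_comap, Subgroup.mem_centralizer_singleton_iff]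
            exact (base b).2.eq
        exact (Subgroup.mem_centralizer_singleton_iff.mp (this (hmem a)))
      intro a b
      rw [← QuotientGroup.eq_one_iff, ← QuotientGroup.mk'_apply, map_commutatorElement,
        commutatorElement_eq_one_iff_commute]
      exact key a b
    have hC : commutator P = Subgroup.zpowers c := by
      refine le_antisymm ?_ (Subgroup.zpowers_le.mpr (Subgroup.commutator_mem_commutator
        (Subgroup.mem_top _) (Subgroup.mem_top _)))
      rw [commutator_def, Subgroup.commutator_le]
      exact fun a _ b _ => hgen a b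
    rw [hC, Nat.card_zpowers]
    refine orderOf_eq_prime ?_ (fun h => hxy ((commutatorElement_eq_one_iff_commute).mp h))
    have hCidx : (Subgroup.centralizer ({x} : Set P)).index = p := by
      have hle : Subgroup.center P < Subgroup.centralizer ({x} : Set P) :=
        lt_of_le_of_ne (Subgroup.center_le_centralizer _) fun h =>
          hx (h ▸ Subgroup.mem_centralizer_singleton_iff.mpr rfl)
      have hne : (Subgroup.centralizer ({x} : Set P)).index ≠ 1 := by
        rw [Ne, Subgroup.index_eq_one]
        intro h
        exact hxy (Subgroup.mem_centralizer_singleton_iff.mp (h ▸ Subgroup.mem_top y : y ∈ _)).symm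
      have hd : (Subgroup.centralizer ({x} : Set P)).index ∣ p ^ 2 :=
        hZ ▸ Subgroup.index_dvd_of_le hle.le
      obtain ⟨i, hi, hi'⟩ := (Nat.dvd_prime_pow hp).mp hd
      have h2 : i ≠ 2 := by
        rintro rfl
        have := Subgroup.index_strictAnti hle
        omega
      have h0 : i ≠ 0 := by rintro rfl; exact hne (by rw [hi', pow_zero])
      rw [hi', show i = 1 by omega, pow_one]
    have hnorm : (Subgroup.centralizer ({x} : Set P)).Normal :=
      Subgroup.normal_of_index_eq_minFac_card (by rw [hCidx, hP, hp.pow_minFac four_ne_zero])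
    have hyp : y ^ p ∈ Subgroup.centralizer ({x} : Set P) :=
      hCidx ▸ Subgroup.pow_index_mem _ y
    have hpow : ∀ n : ℕ, ⁅x, y ^ n⁆ = c ^ n := by
      intro n
      induction n with
      | zero => simp
      | succ n ih =>
        rw [pow_succ', commutatorElement_mul_right_eq_mul_conj, ih,
          mul_assoc c y (c ^ n),
          Subgroup.mem_center_iff.mp (pow_mem (hcomm_central x y) n) y, pow_succ' c, hcdef]
        simp [mul_assoc]
    rw [← hpow p, commutatorElement_eq_one_iff_commute]
    exact (Subgroup.mem_centralizer_singleton_iff.mp hyp).symm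

end Cfsg.Agent.S4584
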