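import Cfsg.Statements.S4585
import Cfsg.Agent.S4584
-- import your own Cfsg.Agent.* helpers here

set_option autoImplicit false
open Cfsg
open scoped commutatorElement

namespace Cfsg.Agent.S4585

theorem class_le_two_iff {P : Type*} [Group P] [Group.IsNilpotent P] :
    Group.nilpotencyClass P ≤ 2 ↔ commutator P ≤ Subgroup.center P := by
  rw [← Subgroup.lowerCentralSeries_eq_bot_iff_nilpotencyClass_le, Subgroup.lowerCentralSeries_succ,
    Subgroup.top_lowerCentralSeries_one, Subgroup.commutator_eq_bot_iff_le_centralizer,
    Subgroup.coe_top, Subgroup.centralizer_univ]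

theorem central_of_small {P : Type*} [Group P] [Finite P] {p : ℕ} [Fact p.Prime]
    (hP : IsPGroup p P) (N : Subgroup P) [N.Normal] (hN : Nat.card N ≤ p) :
    N ≤ Subgroup.center P := by
  intro n hn
  rw [Subgroup.mem_center_iff]
  have hp : p.Prime := Fact.out
  obtain ⟨k, hk⟩ := IsPGroup.iff_card.mp (hP.to_subgroup N)
  rcases k with _ | k
  · have : N = ⊥ := Subgroup.card_eq_one.mp (by simpa using hk)
    subst this
    simp [Subgroup.mem_bot.mp hn]
  · have hk0 : k = 0 := by
      by_contra h
      have : p ^ 1 < p ^ (k + 1) := Nat.pow_lt_pow_right hp.one_lt (by omega)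
      rw [pow_one, ← hk] at this
      omega
    subst hk0
    rw [pow_one] at hk
    have hfix : ∀ g : P, ∀ m : N, g * m * g⁻¹ = (m : P) := by
      let _ : MulAction (ConjAct P) N := inferInstance
      intro g m
      have hmod := hP.of_equiv (ConjAct.toConjAct (G := P)) |>.card_modEq_card_fixedPoints N
      have hsub : MulAction.fixedPoints (ConjAct P) N = Set.univ := by
        apply Set.eq_univ_of_forall
        by_contra hne
        push Not at hne
        obtain ⟨m₀, hm₀⟩ := hne
        have hlt : Nat.card (MulAction.fixedPoints (ConjAct P) N) < Nat.card N :=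
          Finite.card_subtype_lt hm₀
        have hone : (1 : N) ∈ MulAction.fixedPoints (ConjAct P) N := fun a => by
          apply Subtype.ext
          simp [ConjAct.smul_def]
        have hpos : 0 < Nat.card (MulAction.fixedPoints (ConjAct P) N) :=
          Nat.card_pos_iff.mpr ⟨⟨⟨1, hone⟩⟩, inferInstance⟩
        rw [hk] at hmod hlt
        have h0 : Nat.card (MulAction.fixedPoints (ConjAct P) N) % p = 0 := by
          have := hmod; unfold Nat.ModEq at this; rw [Nat.mod_self] at this; exact this.symm
        rw [Nat.mod_eq_of_lt hlt] at h0
        omega
      have hm : m ∈ MulAction.fixedPoints (ConjAct P) N := hsub ▸ Set.mem_univ m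
      have := congrArg Subtype.val (hm (ConjAct.toConjAct g))
      simpa [ConjAct.Subgroup.val_conj_smul, ConjAct.toConjAct_smul] using this
    intro g
    have h := hfix g ⟨n, hn⟩
    calc g * n = g * n * g⁻¹ * g := by simp
      _ = n * g := by rw [show g * n * g⁻¹ = n from h]

theorem isCoatom_contains {P : Type*} [Group P] [Finite P] [Group.IsNilpotent P]
    (M : Subgroup P) (hM : IsCoatom M) : M.Normal :=
  Subgroup.NormalizerCondition.normal_of_coatom M normalizerCondition_of_isNilpotent hM


/-- Let p be a prime and P a group of order p^4. Then P' has index p^2 in P if and only if P has maximal nilpotency class, that is, nilpotency class exactly 3. -/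
theorem result {P : Type*} [Group P] [Finite P] (p : ℕ) [Fact p.Prime] (hP : Nat.card P = p ^ 4) :
    (commutator P).index = p ^ 2 ↔ Group.nilpotencyClass P = 3 := by
  have hp : p.Prime := Fact.out
  have hPg : IsPGroup p P := IsPGroup.of_card hP
  have : Group.IsNilpotent P := hPg.isNilpotent
  have hmul := (commutator P).card_mul_index
  constructor
  · intro hidx
    have hc : Nat.card (commutator P) = p ^ 2 := by
      rw [hidx, hP, show (4 : ℕ) = 2 + 2 from rfl, pow_add] at hmul
      exact Nat.eq_of_mul_eq_mul_right (pow_pos hp.pos 2) hmul
    refine le_antisymm ?_ ?_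
    · rw [← Subgroup.lowerCentralSeries_eq_bot_iff_nilpotencyClass_le, Subgroup.lowerCentralSeries_succ,
        Subgroup.commutator_eq_bot_iff_le_centralizer, Subgroup.coe_top, Subgroup.centralizer_univ]
      apply central_of_small hPg
      have hlt : (⊤ : Subgroup P).lowerCentralSeries 2 < commutator P := by
        refine lt_of_le_of_ne ?_ ?_
        · rw [← Subgroup.top_lowerCentralSeries_one (G := P)]
          exact Subgroup.lowerCentralSeries_antitone _ (show (1 : ℕ) ≤ 2 by norm_num)
        · intro h
          have hstab : ∀ n, (⊤ : Subgroup P).lowerCentralSeries (n + 1) = commutator P := by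
            intro n
            induction n with
            | zero => exact Subgroup.top_lowerCentralSeries_one
            | succ n ih =>
              rw [Subgroup.lowerCentralSeries_succ, ih,
                ← Subgroup.top_lowerCentralSeries_one (G := P), ← Subgroup.lowerCentralSeries_succ]
              rw [h, Subgroup.top_lowerCentralSeries_one]
          have h1 := hstab (Group.nilpotencyClass P)
          have h2 : (⊤ : Subgroup P).lowerCentralSeries (Group.nilpotencyClass P + 1) = ⊥ :=
            Subgroup.lowerCentralSeries_eq_bot_iff_nilpotencyClass_le.mpr (Nat.le_succ _)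
          rw [← h1, h2, Subgroup.card_bot] at hc
          exact (Nat.one_lt_pow two_ne_zero hp.one_lt).ne hc
      obtain ⟨i, hi, hi'⟩ := (Nat.dvd_prime_pow hp).mp
        (hc ▸ Subgroup.card_dvd_of_le hlt.le)
      have hi2 : i ≠ 2 := by
        rintro rfl
        exact hlt.ne (Subgroup.eq_of_le_of_card_ge hlt.le (by rw [hc, hi']))
      rw [hi']
      calc p ^ i ≤ p ^ 1 := Nat.pow_le_pow_right hp.pos (by omega)
        _ = p := pow_one p
    · by_contra h
      have hle : commutator P ≤ Subgroup.center P := class_le_two_iff.mp (by omega)
      have hd : (Subgroup.center P).index ∣ p ^ 2 := hidx ▸ Subgroup.index_dvd_of_le hle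
      have hnc : ¬ IsMulCommutative P := by
        intro hcomm
        have hb : commutator P = ⊥ := by
          rw [commutator_def, Subgroup.commutator_eq_bot_iff_le_centralizer]
          intro a _
          rw [Subgroup.mem_centralizer_iff]
          intro b _
          exact hcomm.is_comm.comm b a
        rw [hb, Subgroup.card_bot] at hc
        exact (Nat.one_lt_pow two_ne_zero hp.one_lt).ne hc
      have hge := Cfsg.Agent.S4584.central_index hnc hPg
      have hc1 := (Cfsg.Agent.S4584.result p hP).mpr
        (le_antisymm (Nat.le_of_dvd (pow_pos hp.pos 2) hd) hge)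
      rw [hc] at hc1
      exact (Nat.pow_right_injective hp.two_le).ne (show (2 : ℕ) ≠ 1 by omega) (by simpa using hc1)
  · intro hcl
    have hncen : ¬ commutator P ≤ Subgroup.center P := fun h => by
      have := class_le_two_iff.mpr h
      omega
    obtain ⟨n, hn⟩ := hPg.index (commutator P)
    have hcn : commutator P ≠ ⊥ := fun h => hncen (h ▸ bot_le)
    have hn0 : n ≠ 0 := by
      rintro rfl
      rw [pow_zero, Subgroup.index_eq_one] at hn
      have hall : ∀ m, (⊤ : Subgroup P).lowerCentralSeries m = ⊤ := by
        intro m
        induction m with
        | zero => rfl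
        | succ m ih => rw [Subgroup.lowerCentralSeries_succ, ih, ← commutator_def, hn]
      have h3 : (⊤ : Subgroup P).lowerCentralSeries 3 = ⊥ :=
        Subgroup.lowerCentralSeries_eq_bot_iff_nilpotencyClass_le.mpr hcl.le
      rw [hall 3] at h3
      exact hncen (le_trans le_top (h3 ▸ bot_le))
    have hn1 : n ≠ 1 := by
      rintro rfl
      rw [pow_one] at hn
      apply hncen
      have hex : ∃ g : P, g ∉ commutator P := by
        by_contra h
        push Not at h
        rw [Subgroup.index_eq_one.mpr (eq_top_iff.mpr fun a _ => h a)] at hn
        exact hp.one_lt.ne hn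
      obtain ⟨g, hg⟩ := hex
      have hgen : Subgroup.zpowers g = ⊤ := by
        rcases eq_top_or_exists_le_coatom (Subgroup.zpowers g) with h | ⟨M, hM, hle⟩
        · exact h
        exfalso
        have := isCoatom_contains M hM
        have hcM : commutator P ≤ M := by
          by_contra hcM
          have hsup : M ⊔ commutator P = ⊤ :=
            hM.2 _ (left_lt_sup.mpr hcM)
          -- the quotient by a maximal normal subgroup is commutative
          have hsimp : IsSimpleGroup (P ⧸ M) :=
            { exists_pair_ne := by
                have : Nontrivial (P ⧸ M) := QuotientGroup.nontrivial_iff.mpr hM.1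
                exact exists_pair_ne _
              eq_bot_or_eq_top_of_normal := fun K _ => by
                have hKM : M ≤ K.comap (QuotientGroup.mk' M) := by
                  intro a ha
                  rw [Subgroup.mem_comap, QuotientGroup.mk'_apply, (QuotientGroup.eq_one_iff a).mpr ha]
                  exact K.one_mem
                rcases hKM.eq_or_lt with h | h
                · left
                  rw [← Subgroup.map_comap_eq_self_of_surjective (QuotientGroup.mk'_surjective M) K,
                    ← h, QuotientGroup.map_mk'_self]
                · right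
                  rw [← Subgroup.map_comap_eq_self_of_surjective (QuotientGroup.mk'_surjective M) K,
                    hM.2 _ h, Subgroup.map_top_of_surjective _ (QuotientGroup.mk'_surjective M)] }
          have := hsimp
          have hcomm : ∀ a b : P ⧸ M, Commute a b :=
            fun a b => IsSimpleGroup.comm_iff_isSolvable.mpr inferInstance a b
          apply hcM
          rw [commutator_def, Subgroup.commutator_le]
          intro a _ b _
          rw [← QuotientGroup.eq_one_iff, ← QuotientGroup.mk'_apply, map_commutatorElement,
            commutatorElement_eq_one_iff_commute]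
          exact hcomm _ _
        have hne : commutator P ≠ M := fun h => hg (h ▸ hle (Subgroup.mem_zpowers g))
        have hlt := Subgroup.index_strictAnti (lt_of_le_of_ne hcM hne)
        have hdv := Subgroup.index_dvd_of_le hcM
        rw [hn] at hlt hdv
        rcases hp.eq_one_or_self_of_dvd _ hdv with h | h
        · exact hM.1 (Subgroup.index_eq_one.mp h)
        · omega
      intro a _
      rw [Subgroup.mem_center_iff]
      intro b
      obtain ⟨i, rfl⟩ := Subgroup.mem_zpowers_iff.mp (hgen ▸ Subgroup.mem_top a : a ∈ Subgroup.zpowers g)
      obtain ⟨j, rfl⟩ := Subgroup.mem_zpowers_iff.mp (hgen ▸ Subgroup.mem_top b : b ∈ Subgroup.zpowers g)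
      rw [← zpow_add, ← zpow_add, add_comm]
    have hn3 : n < 3 := by
      by_contra h
      apply hncen
      apply central_of_small hPg
      have hle : Nat.card (commutator P) * p ^ 3 ≤ p * p ^ 3 := by
        calc Nat.card (commutator P) * p ^ 3 ≤ Nat.card (commutator P) * p ^ n :=
              Nat.mul_le_mul le_rfl (Nat.pow_le_pow_right hp.pos (by omega))
          _ = p * p ^ 3 := by rw [← hn, hmul, hP]; ring
      exact Nat.le_of_mul_le_mul_right hle (pow_pos hp.pos 3)
    rw [hn, show n = 2 by omega]

end Cfsg.Agent.S4585
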