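import Cfsg.Statements.S4586
import Mathlib.GroupTheory.Abelianization.Defs
import Mathlib.GroupTheory.PGroup
import Mathlib.Tactic
-- import your own Cfsg.Agent.* helpers here

set_option autoImplicit false
open Cfsg
open scoped commutatorElement

namespace Cfsg.Agent.S4586

theorem core {P : Type*} [Group P] [Finite P] (p : ℕ) [Fact p.Prime] (N : Subgroup P) [N.Normal]
    (hN : N.index = p) (x : P) (hx : x ∉ N) :
    (commutator P).index * Nat.card (commutator N) =
      p * Nat.card {n : N // x * n * x⁻¹ * (n : P)⁻¹ ∈ (commutator N).map N.subtype} := by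
  have hp : p.Prime := Fact.out
  set D := (commutator N).map N.subtype with hD
  let φ : N → N := fun n => ⟨x * n * x⁻¹ * (n : P)⁻¹,
    mul_mem (‹N.Normal›.conj_mem _ n.2 x) (inv_mem n.2)⟩
  let θ : N →* Abelianization N :=
    MonoidHom.mk' (fun n => Abelianization.of (φ n)) (by
      intro a b
      have hab : φ (a * b) = (MulAut.conjNormal x a) * (φ b) * a⁻¹ := by
        apply Subtype.ext
        simp [φ, mul_assoc]
      have ha : φ a = (MulAut.conjNormal x a) * a⁻¹ := by
        apply Subtype.ext
        simp [φ]
      rw [hab, ha]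
      simp only [map_mul, map_inv]
      exact mul_right_comm _ _ _)
  have hker : Nat.card {n : N // x * n * x⁻¹ * (n : P)⁻¹ ∈ D} = Nat.card θ.ker := by
    refine Nat.card_congr (Equiv.subtypeEquivRight fun n => ?_)
    rw [MonoidHom.mem_ker]
    change _ ↔ Abelianization.of (φ n) = 1
    rw [← MonoidHom.mem_ker, Abelianization.ker_of]
    exact (Subgroup.mem_map_iff_mem N.subtype_injective (x := φ n))
  set M : Subgroup N := θ.range.comap Abelianization.of with hM
  set S : Subgroup P := M.map N.subtype with hS
  have hφM : ∀ n : N, φ n ∈ M := fun n => ⟨n, rfl⟩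
  have hDS : D ≤ S := Subgroup.map_mono (fun a ha => by
    rw [hM, Subgroup.mem_comap]
    rw [← Abelianization.ker_of, MonoidHom.mem_ker] at ha
    rw [ha]
    exact θ.range.one_mem)
  have hDeq : D = ⁅N, N⁆ := by rw [hD, Subgroup.map_subtype_commutator]
  have hDn : D.Normal := by rw [hDeq]; infer_instance
  have hnorm_gen : N ⊔ Subgroup.zpowers x = ⊤ := by
    have hlt : N < N ⊔ Subgroup.zpowers x := left_lt_sup.mpr (by simpa using hx)
    have h1 := Subgroup.index_strictAnti hlt
    have h2 := Subgroup.index_dvd_of_le hlt.le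
    rw [hN] at h1 h2
    rcases hp.eq_one_or_self_of_dvd _ h2 with h | h
    · exact Subgroup.index_eq_one.mp h
    · omega
  have hMn : M.Normal := by
    rw [hM]
    infer_instance
  have hNnorm : ∀ n ∈ N, n ∈ Subgroup.normalizer (S : Set P) := by
    intro n hn
    rw [Subgroup.mem_normalizer_iff]
    have key : ∀ (m : N) (s : P), s ∈ S → (m : P) * s * (m : P)⁻¹ ∈ S := by
      rintro m s ⟨t, ht, rfl⟩
      exact ⟨m * t * m⁻¹, hMn.conj_mem t ht m, by simp⟩
    intro s
    refine ⟨key ⟨n, hn⟩ s, fun h => ?_⟩
    have := key ⟨n⁻¹, inv_mem hn⟩ _ h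
    simpa [mul_assoc] using this
  have hxnorm : x ∈ Subgroup.normalizer (S : Set P) := by
    have hxfor : ∀ s ∈ S, x * s * x⁻¹ ∈ S := by
      rintro s ⟨t, ht, rfl⟩
      obtain ⟨n, hn⟩ := ht
      have hd : (φ n)⁻¹ * t ∈ commutator N := by
        rw [← Abelianization.ker_of, MonoidHom.mem_ker, map_mul, map_inv]
        change (θ n)⁻¹ * _ = 1
        rw [hn, inv_mul_cancel]
      have hsplit : x * (t : P) * x⁻¹ = (φ (MulAut.conjNormal x n) : P) *
          (x * (((φ n)⁻¹ * t : N) : P) * x⁻¹) := by
        simp [φ, mul_assoc]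
      show x * (t : P) * x⁻¹ ∈ S
      rw [hsplit]
      exact mul_mem ⟨_, hφM _, rfl⟩ (hDS (hDn.conj_mem _ ⟨_, hd, rfl⟩ x))
    rw [Subgroup.mem_normalizer_iff]
    intro s
    refine ⟨hxfor s, fun h => ?_⟩
    have hfin : (fun t : S => (⟨x * t * x⁻¹, hxfor t t.2⟩ : S)).Bijective := by
      refine Finite.injective_iff_bijective.mp fun a b hab => ?_
      have := congrArg Subtype.val hab
      exact Subtype.ext (by simpa using this)
    obtain ⟨t, ht⟩ := hfin.2 ⟨_, h⟩
    have := congrArg Subtype.val ht
    simp only [mul_left_inj, mul_right_inj] at this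
    exact this ▸ t.2
  have hSn : S.Normal := by
    rw [← Subgroup.normalizer_eq_top_iff, eq_top_iff, ← hnorm_gen]
    exact sup_le hNnorm (Subgroup.zpowers_le.mpr hxnorm)
  have hC : commutator P = S := by
    refine le_antisymm ?_ ?_
    · let π := QuotientGroup.mk' S
      have hNN : ∀ a ∈ N, ∀ b ∈ N, Commute (π a) (π b) := by
        intro a ha b hb
        rw [← commutatorElement_eq_one_iff_commute, ← map_commutatorElement]
        exact (QuotientGroup.eq_one_iff _).mpr
          (hDS (hDeq ▸ Subgroup.commutator_mem_commutator ha hb))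
      have hxN : ∀ a ∈ N, Commute (π x) (π a) := by
        intro a ha
        rw [← commutatorElement_eq_one_iff_commute, ← map_commutatorElement]
        exact (QuotientGroup.eq_one_iff _).mpr ⟨φ ⟨a, ha⟩, hφM _, rfl⟩
      have hall : ∀ a b : P, Commute (π a) (π b) := by
        intro a b
        have h1 : ∀ c : P, (∀ d ∈ N, Commute (π c) (π d)) → Commute (π c) (π x) →
            ∀ e : P, Commute (π c) (π e) := by
          intro c h1 h2 e
          have : N ⊔ Subgroup.zpowers x ≤ (Subgroup.centralizer {π c}).comap π :=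
            sup_le (fun d hd => Subgroup.mem_centralizer_singleton_iff.mpr (h1 d hd).symm.eq)
              (Subgroup.zpowers_le.mpr (Subgroup.mem_centralizer_singleton_iff.mpr h2.symm.eq))
          exact (Subgroup.mem_centralizer_singleton_iff.mp
            (this (hnorm_gen ▸ Subgroup.mem_top e))).symm
        refine h1 a (fun d hd => ?_) ?_ b
        · exact (h1 d (fun e he => hNN d hd e he) (hxN d hd).symm a).symm
        · exact (h1 x hxN (Commute.refl _) a).symm
      rw [commutator_def, Subgroup.commutator_le]
      intro a _ b _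
      rw [← QuotientGroup.eq_one_iff, ← QuotientGroup.mk'_apply, map_commutatorElement,
        commutatorElement_eq_one_iff_commute]
      exact hall a b
    · rintro s ⟨t, ⟨n, hn⟩, rfl⟩
      have hd : (φ n)⁻¹ * t ∈ commutator N := by
        rw [← Abelianization.ker_of, MonoidHom.mem_ker, map_mul, map_inv]
        change (θ n)⁻¹ * _ = 1
        rw [hn, inv_mul_cancel]
      have : N.subtype t = ⁅x, (n : P)⁆ * (((φ n)⁻¹ * t : N) : P) := by
        simp [φ, commutatorElement_def, mul_assoc]
      rw [this]
      refine mul_mem (Subgroup.commutator_mem_commutator (Subgroup.mem_top _) (Subgroup.mem_top _)) ?_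
      have hDle : D ≤ commutator P := hDeq ▸ Subgroup.commutator_mono le_top le_top
      exact hDle ⟨_, hd, rfl⟩
  have hcardS : Nat.card S = Nat.card θ.range * Nat.card (commutator N) := by
    rw [hS, Subgroup.card_map_of_injective N.subtype_injective]
    have hsurj : Function.Surjective (Abelianization.of (G := N)) :=
      QuotientGroup.mk_surjective
    have h1 : M.index = θ.range.index := Subgroup.index_comap_of_surjective _ hsurj
    have h2 := M.card_mul_index
    have h3 := θ.range.card_mul_index
    have h4 := (commutator N).card_mul_index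
    rw [Subgroup.index_eq_card] at h4
    change Nat.card (commutator N) * Nat.card (Abelianization N) = _ at h4
    rw [← h3, ← h2, ← h1] at h4
    refine Nat.eq_of_mul_eq_mul_right (Nat.pos_of_ne_zero M.index_ne_zero_of_finite) ?_
    rw [← h4]; ring
  rw [hker, hC]
  have h5 := S.card_mul_index
  have h6 := N.card_mul_index
  have h7 := θ.ker.card_mul_index
  rw [Subgroup.index_ker] at h7
  rw [← h6, hN, ← h7, hcardS] at h5
  haveI : Finite θ.range := Finite.of_surjective θ.rangeRestrict θ.rangeRestrict_surjective
  refine Nat.eq_of_mul_eq_mul_left (Nat.card_pos (α := θ.range)) ?_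
  calc Nat.card θ.range * (S.index * Nat.card (commutator N))
      = Nat.card θ.range * Nat.card (commutator N) * S.index := by ring
    _ = Nat.card θ.ker * Nat.card θ.range * p := h5
    _ = Nat.card θ.range * (p * Nat.card θ.ker) := by ring


/-- Let p be a prime, P a finite p-group and N a normal subgroup of P of index p. For x ∈ P write c(x) for the number of elements n of N whose commutator x n x⁻¹ n⁻¹ lies in the derived subgroup N' (so c(x)/#N' is the order of the centralizer of x acting on N/N'). Then [P : P'] = p² if and only if c(x) = p·#N' for every x ∈ P outside N, and also if and only if c(x) = p·#N' for some x ∈ P outside N. -/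
theorem result {P : Type*} [Group P] [Finite P] (p : ℕ) [Fact p.Prime] (hP : IsPGroup p P) (N : Subgroup P) [N.Normal] (hN : N.index = p) :
    ((commutator P).index = p ^ 2 ↔ ∀ x : P, x ∉ N →
        Nat.card {n : N // x * n * x⁻¹ * (n : P)⁻¹ ∈ (commutator N).map N.subtype} = p * Nat.card (commutator N)) ∧
    ((commutator P).index = p ^ 2 ↔ ∃ x : P, x ∉ N ∧
        Nat.card {n : N // x * n * x⁻¹ * (n : P)⁻¹ ∈ (commutator N).map N.subtype} = p * Nat.card (commutator N)) := by
  have hp : p.Prime := Fact.out
  have hex : ∃ x : P, x ∉ N := by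
    by_contra h
    push Not at h
    rw [Subgroup.index_eq_one.mpr (eq_top_iff.mpr fun a _ => h a)] at hN
    exact hp.one_lt.ne hN
  obtain ⟨x₀, hx₀⟩ := hex
  have key : ∀ x : P, x ∉ N → ((commutator P).index = p ^ 2 ↔
      Nat.card {n : N // x * n * x⁻¹ * (n : P)⁻¹ ∈ (commutator N).map N.subtype} =
        p * Nat.card (commutator N)) := by
    intro x hx
    have h := core p N hN x hx
    have hpos : 0 < Nat.card (commutator N) := Nat.card_pos
    constructor
    · intro hi
      rw [hi, pow_two, mul_assoc] at h
      exact (Nat.eq_of_mul_eq_mul_left hp.pos h).symm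
    · intro hc
      rw [hc, ← mul_assoc, ← pow_two] at h
      exact Nat.eq_of_mul_eq_mul_right hpos h
  exact ⟨⟨fun h x hx => (key x hx).mp h, fun h => (key x₀ hx₀).mpr (h x₀ hx₀)⟩,
    ⟨fun h => ⟨x₀, hx₀, (key x₀ hx₀).mp h⟩, fun ⟨x, hx, h⟩ => (key x hx).mpr h⟩⟩

end Cfsg.Agent.S4586
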