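import Cfsg.Statements.S4587
import Cfsg.Agent.Eq.Def_Local
import Cfsg.Agent.Constrained.Basic
import Cfsg.Agent.MinNormal.Basic
import Cfsg.Agent.PGroup.Frattini
import Cfsg.Agent.PronormalExt.Criterion
import Cfsg.Agent.Transfer.Tate

set_option autoImplicit false
open Cfsg

namespace Cfsg.Agent.S4587

section PGroupPart

open scoped commutatorElement

variable {P : Type*} [Group P] [Finite P] {p : ℕ} [Fact p.Prime]

/-- A normal subgroup covering a subgroup of index dividing `p` modulo `P'` contains `P'`. -/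
theorem commutator_le_of_index (hP : IsPGroup p P) (K : Subgroup P) [K.Normal]
    (h : (K ⊔ commutator P).index ∣ p) : commutator P ≤ K := by
  set L := K ⊔ commutator P with hL
  have hcyc : IsCyclic (P ⧸ L) := by
    rcases (Nat.dvd_prime (Fact.out : p.Prime)).1 h with h1 | h1
    · rw [Subgroup.index_eq_card] at h1
      have := (Nat.card_eq_one_iff_unique.1 h1).1
      exact isCyclic_of_subsingleton
    · rw [Subgroup.index_eq_card] at h1
      exact isCyclic_of_prime_card h1
  obtain ⟨g, hg⟩ := hcyc.exists_generator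
  obtain ⟨x, rfl⟩ := QuotientGroup.mk'_surjective L g
  have htop : K ⊔ Subgroup.zpowers x = ⊤ := by
    apply frattini_nongenerating
    rw [eq_top_iff]
    intro y _
    obtain ⟨k, hk⟩ := Subgroup.mem_zpowers_iff.1 (hg (QuotientGroup.mk' L y))
    rw [← map_zpow] at hk
    have hy : (x ^ k)⁻¹ * y ∈ L := QuotientGroup.eq.1 hk
    have hx : x ^ k ∈ K ⊔ Subgroup.zpowers x ⊔ frattini P :=
      Subgroup.mem_sup_left (Subgroup.mem_sup_right (Subgroup.zpow_mem_zpowers x k))
    have hle : L ≤ K ⊔ Subgroup.zpowers x ⊔ frattini P :=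
      sup_le (le_sup_of_le_left le_sup_left)
        (le_sup_of_le_right (CfsgLib.PGroup.commutator_le_frattini hP))
    simpa using Subgroup.mul_mem _ hx (hle hy)
  rw [commutator_def, Subgroup.commutator_le]
  intro a _ b _
  have key : ∀ y : P, ∃ k : ℤ, QuotientGroup.mk' K y = QuotientGroup.mk' K x ^ k := by
    intro y
    obtain ⟨u, hu, w, hw, rfl⟩ := Subgroup.mem_sup_of_normal_left.1
      (htop ▸ Subgroup.mem_top y)
    obtain ⟨k, rfl⟩ := Subgroup.mem_zpowers_iff.1 hw
    refine ⟨k, ?_⟩
    rw [map_mul, map_zpow, show QuotientGroup.mk' K u = 1 from (QuotientGroup.eq_one_iff u).2 hu,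
      one_mul]
  obtain ⟨i, hi⟩ := key a
  obtain ⟨j, hj⟩ := key b
  rw [← QuotientGroup.eq_one_iff]
  show QuotientGroup.mk' K ⁅a, b⁆ = 1
  rw [map_commutatorElement, hi, hj, commutatorElement_eq_one_iff_mul_comm, ← zpow_add,
    ← zpow_add, add_comm]

theorem sup_index_dvd (hP : IsPGroup p P) (hidx : (commutator P).index = p ^ 2) (K : Subgroup P)
    (hK : ¬ K ≤ commutator P) : (K ⊔ commutator P).index ∣ p := by
  have hdvd : (K ⊔ commutator P).index ∣ p ^ 2 :=
    hidx ▸ Subgroup.index_dvd_of_le le_sup_right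
  obtain ⟨k, hk, hk'⟩ := (Nat.dvd_prime_pow (Fact.out : p.Prime)).1 hdvd
  by_cases h2 : k = 2
  · exfalso
    subst h2
    have : commutator P = K ⊔ commutator P := by
      refine Subgroup.eq_of_le_of_card_ge le_sup_right ?_
      have h1 := Subgroup.card_mul_index (K ⊔ commutator P)
      have h3 := Subgroup.card_mul_index (commutator P)
      rw [hk'] at h1
      rw [hidx] at h3
      exact le_of_eq (Nat.eq_of_mul_eq_mul_right (pow_pos (Fact.out : p.Prime).pos 2)
        (h1.trans h3.symm))
    exact hK (le_sup_left.trans this.ge)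
  · rw [hk']
    exact (pow_dvd_pow p (show k ≤ 1 by omega)).trans (by rw [pow_one])

/-- Two disjoint nontrivial normal subgroups, not both inside `P'`, force `P' = 1`. -/
theorem commutator_eq_bot_of_disjoint (hP : IsPGroup p P) (hidx : (commutator P).index = p ^ 2)
    (A B : Subgroup P) [A.Normal] [B.Normal] (hA1 : A ≠ ⊥) (hB1 : B ≠ ⊥) (hAB : A ⊓ B = ⊥)
    (h : ¬ A ⊔ B ≤ commutator P) : commutator P = ⊥ := by
  have step : ∀ A B : Subgroup P, A.Normal → B.Normal → B ≠ ⊥ → A ⊓ B = ⊥ →
      ¬ A ≤ commutator P → commutator P = ⊥ := by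
    intro A B hA hB hB1 hAB hAn
    haveI := hA
    haveI := hB
    have h1 := commutator_le_of_index hP A (sup_index_dvd hP hidx A hAn)
    have hBn : ¬ B ≤ commutator P := fun hle => hB1 <| le_bot_iff.1 <| hAB ▸
      le_inf (hle.trans h1) le_rfl
    have h2 := commutator_le_of_index hP B (sup_index_dvd hP hidx B hBn)
    exact le_bot_iff.1 (hAB ▸ le_inf h1 h2)
  by_cases hA : A ≤ commutator P
  · exact step B A inferInstance inferInstance hA1 (by rw [inf_comm]; exact hAB)
      fun hB => h (sup_le hA hB)
  · exact step A B inferInstance inferInstance hB1 hAB hA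

/-- Fixed points on an abelian maximal subgroup when `|P : P'| = p²`. -/
theorem card_fixed_eq (A : Subgroup P) [A.Normal] (hAc : IsMulCommutative A) (hA : A.index = p)
    (hidx : (commutator P).index = p ^ 2) (h : P) (hh : h ∉ A) :
    Nat.card ↥(A ⊓ Subgroup.centralizer {h}) = p := by
  have hpp : p.Prime := Fact.out
  have hcomm : ∀ a ∈ A, ∀ b ∈ A, a * b = b * a := fun a ha b hb =>
    congrArg Subtype.val (hAc.is_comm.comm ⟨a, ha⟩ ⟨b, hb⟩)
  let δ : A →* P := MonoidHom.mk' (fun a => h * a * h⁻¹ * (a : P)⁻¹) fun a b => by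
    simp only [Subgroup.coe_mul, mul_inv_rev]
    have e1 := hcomm (h * b * h⁻¹ * (b : P)⁻¹)
      (A.mul_mem (Subgroup.Normal.conj_mem inferInstance _ b.2 h) (A.inv_mem b.2))
      (a : P)⁻¹ (A.inv_mem a.2)
    calc h * (↑a * ↑b) * h⁻¹ * ((↑b)⁻¹ * (↑a)⁻¹)
        = (h * a * h⁻¹) * ((h * b * h⁻¹ * (b : P)⁻¹) * (a : P)⁻¹) := by group
      _ = (h * a * h⁻¹) * ((a : P)⁻¹ * (h * b * h⁻¹ * (b : P)⁻¹)) := by rw [e1]
      _ = _ := by group
  have hRA : δ.range ≤ A := by
    rintro _ ⟨a, rfl⟩
    exact A.mul_mem (Subgroup.Normal.conj_mem inferInstance _ a.2 h) (A.inv_mem a.2)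
  have hgen : A ⊔ Subgroup.zpowers h = ⊤ := by
    have h1 : A < A ⊔ Subgroup.zpowers h := lt_of_le_of_ne le_sup_left fun e => hh <| by
      rw [e]; exact Subgroup.mem_sup_right (Subgroup.mem_zpowers h)
    exact (CfsgLib.PGroup.isCoatom_of_index_eq hA).2 _ h1
  haveI hRn : δ.range.Normal := by
    rw [← Subgroup.normalizer_eq_top_iff, eq_top_iff, ← hgen]
    refine sup_le (fun a ha => ?_) (Subgroup.zpowers_le.2 ?_)
    · refine Subgroup.mem_normalizer_iff.2 fun y => ?_
      constructor
      · intro hy
        rwa [hcomm a ha y (hRA hy), mul_inv_cancel_right]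
      · intro hy
        have hyA : y ∈ A := by
          have := A.mul_mem (A.mul_mem (A.inv_mem ha) (hRA hy)) ha
          simpa [mul_assoc] using this
        rwa [hcomm a ha y hyA, mul_inv_cancel_right] at hy
    · have hsub : ∀ y ∈ δ.range, h * y * h⁻¹ ∈ δ.range := by
        rintro _ ⟨a, rfl⟩
        refine ⟨⟨h * a * h⁻¹, Subgroup.Normal.conj_mem inferInstance _ a.2 h⟩, ?_⟩
        show h * (h * a * h⁻¹) * h⁻¹ * (h * a * h⁻¹)⁻¹ = h * (h * a * h⁻¹ * (a : P)⁻¹) * h⁻¹
        group
      refine Subgroup.mem_normalizer_iff.2 fun y => ⟨hsub y, fun hy => ?_⟩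
      obtain ⟨k, hk⟩ := (isOfFinOrder_of_finite h).mem_powers_iff_mem_zpowers.2
        ((Subgroup.zpowers h).inv_mem (Subgroup.mem_zpowers h))
      have hall : ∀ (m : ℕ) (z : P), z ∈ δ.range → h ^ m * z * (h ^ m)⁻¹ ∈ δ.range := by
        intro m
        induction m with
        | zero => intro z hz; simpa using hz
        | succ m ih =>
          intro z hz
          have := hsub _ (ih z hz)
          rw [pow_succ', mul_inv_rev]
          simpa [mul_assoc] using this
      have := hall k _ hy
      rw [show h ^ k = h⁻¹ from hk] at this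
      simpa [mul_assoc] using this
  have hcomm' : commutator P = δ.range := by
    refine le_antisymm ?_ ?_
    · set q := QuotientGroup.mk' δ.range
      rw [commutator_def, Subgroup.commutator_le]
      intro a _ b _
      rw [← QuotientGroup.eq_one_iff]
      show q ⁅a, b⁆ = 1
      have hqA : ∀ a ∈ A, Commute (q h) (q a) := by
        intro a ha
        have h0 : h * a * h⁻¹ * a⁻¹ ∈ δ.range := ⟨⟨a, ha⟩, rfl⟩
        have := (QuotientGroup.eq_one_iff _).2 h0
        have : q (h * a * h⁻¹ * a⁻¹) = 1 := this
        rw [map_mul, map_mul, map_mul, map_inv, map_inv, mul_inv_eq_one,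
          mul_inv_eq_iff_eq_mul] at this
        exact this
      have key : ∀ y : P, ∃ a ∈ A, ∃ k : ℤ, y = a * h ^ k := by
        intro y
        obtain ⟨u, hu, w, hw, rfl⟩ := Subgroup.mem_sup_of_normal_left.1
          (hgen ▸ Subgroup.mem_top y)
        obtain ⟨k, rfl⟩ := Subgroup.mem_zpowers_iff.1 hw
        exact ⟨u, hu, k, rfl⟩
      obtain ⟨u, hu, i, rfl⟩ := key a
      obtain ⟨v, hv, j, rfl⟩ := key b
      rw [map_commutatorElement, commutatorElement_eq_one_iff_commute, map_mul, map_mul,
        map_zpow, map_zpow]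
      have c1 : Commute (q u) (q v) := by
        rw [commute_iff_eq, ← map_mul, ← map_mul, hcomm u hu v hv]
      exact (c1.mul_right ((hqA u hu).zpow_left j).symm).mul_left
        (((hqA v hv).zpow_left i).mul_right ((Commute.refl _).zpow_zpow i j))
    · rintro _ ⟨a, rfl⟩
      exact Subgroup.commutator_mem_commutator (Subgroup.mem_top h) (Subgroup.mem_top (a : P))
  have hker : Nat.card δ.ker = Nat.card ↥(A ⊓ Subgroup.centralizer {h}) := by
    refine Nat.card_congr
      { toFun := fun a => ⟨a.1.1, a.1.2, Subgroup.mem_centralizer_singleton_iff.2 ?_⟩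
        invFun := fun a => ⟨⟨a.1, a.2.1⟩, ?_⟩
        left_inv := fun _ => rfl
        right_inv := fun _ => rfl }
    · have h0 : h * a.1.1 * h⁻¹ * (a.1.1)⁻¹ = 1 := a.2
      rw [mul_inv_eq_one, mul_inv_eq_iff_eq_mul] at h0
      exact h0.symm
    · show h * a.1 * h⁻¹ * (a.1)⁻¹ = 1
      rw [← Subgroup.mem_centralizer_singleton_iff.1 a.2.2, mul_inv_cancel_right, mul_inv_cancel]
  have h1 := Subgroup.card_mul_index δ.ker
  rw [Subgroup.index_ker] at h1
  have h2 := Subgroup.card_mul_index δ.range
  rw [← hcomm', hidx, hcomm', ← Subgroup.card_mul_index A, hA, ← h1, hker] at h2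
  have h3 : Nat.card δ.range * p * Nat.card ↥(A ⊓ Subgroup.centralizer {h}) =
      Nat.card δ.range * p * p := by rw [mul_assoc _ p p, ← sq, h2]; ring
  exact Nat.eq_of_mul_eq_mul_left (Nat.mul_pos Nat.card_pos hpp.pos) h3

theorem comm_of_commutator_eq_bot (h : commutator P = ⊥) (a b : P) : a * b = b * a := by
  rw [← commutatorElement_eq_one_iff_mul_comm, ← Subgroup.mem_bot, ← h]
  exact Subgroup.commutator_mem_commutator (Subgroup.mem_top a) (Subgroup.mem_top b)

end PGroupPart

section GroupPart

open scoped commutatorElement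

open CfsgLib.MinNormal

variable {G : Type*} [Group G] [Finite G] {p : ℕ} [Fact p.Prime]

theorem commutator_index_eq (H : Subgroup G) : (commutator H).index = ⁅H, H⁆.relIndex H := by
  rw [Subgroup.relIndex, ← Subgroup.map_subtype_commutator, Subgroup.subgroupOf,
    Subgroup.comap_map_eq_self_of_injective H.subtype_injective]

/-- A minimal normal subgroup meets every Sylow subgroup outside its derived group. -/
theorem inf_not_le_derived (hcore : Cfsg.pPrimeCore p G = ⊥) (P : Sylow p G)
    (hcore' : (⁅(P : Subgroup G), (P : Subgroup G)⁆).normalCore = ⊥)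
    (hidx : (commutator (P : Subgroup G)).index = p ^ 2)
    (hne : commutator (P : Subgroup G) ≠ ⊥) {M : Subgroup G} (hM : IsMinNormal M) :
    ¬ M.subgroupOf P ≤ commutator (P : Subgroup G) := by
  intro hle
  haveI := hM.normal
  have hpp : p.Prime := Fact.out
  set D := ⁅(P : Subgroup G), (P : Subgroup G)⁆ with hD
  have hMD : M ⊓ (P : Subgroup G) ≤ D := by
    intro y hy
    have := Subgroup.mem_map_of_mem (P : Subgroup G).subtype (hle (x := ⟨y, hy.2⟩) hy.1)
    rwa [Subgroup.map_subtype_commutator] at this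
  -- `M` has a normal `p`-complement
  have hΦ : M ⊓ (P : Subgroup G) ≤
      (frattini (P : Subgroup G)).map (P : Subgroup G).subtype :=
    hMD.trans (by
      rw [hD, ← Subgroup.map_subtype_commutator]
      exact Subgroup.map_mono (CfsgLib.PGroup.commutator_le_frattini P.isPGroup'))
  obtain ⟨Q, K, hKn, hKc⟩ := CfsgLib.Transfer.tate_normal_pComplement P M hΦ
  haveI := hKn
  have hKp : ¬ p ∣ Nat.card K := by
    rw [← hKc.index_eq_card]
    exact Q.not_dvd_index
  have hmem : ∀ y : M, y ∈ K ↔ (orderOf y).Coprime p := by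
    intro y
    constructor
    · intro hy
      refine Nat.Coprime.symm ((hpp.coprime_iff_not_dvd).2 fun hd => hKp (hd.trans ?_))
      rw [← Subgroup.orderOf_mk y hy]
      exact orderOf_dvd_natCard _
    · intro hy
      rw [← QuotientGroup.eq_one_iff, ← orderOf_eq_one_iff]
      obtain ⟨k, hk⟩ := IsPGroup.iff_card.1 Q.isPGroup'
      refine Nat.Coprime.eq_one_of_dvd
        (Nat.Coprime.coprime_dvd_left (orderOf_map_dvd (QuotientGroup.mk' K) y) hy |>.pow_right k) ?_
      rw [← hk, ← hKc.symm.index_eq_card, Subgroup.index_eq_card]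
      exact orderOf_dvd_natCard _
  have hK'n : (K.map M.subtype).Normal := by
    refine ⟨?_⟩
    rintro _ ⟨y, hy, rfl⟩ g
    refine ⟨⟨g * y * g⁻¹, hM.normal.conj_mem _ y.2 g⟩, (hmem _).2 ?_, rfl⟩
    rw [← Subgroup.orderOf_coe]
    show (orderOf (MulAut.conj g (y : G))).Coprime p
    rw [MulEquiv.orderOf_eq, Subgroup.orderOf_coe]
    exact (hmem y).1 hy
  have hKbot : K = ⊥ := by
    rw [← Subgroup.map_eq_bot_iff_of_injective _ M.subtype_injective, eq_bot_iff, ← hcore]
    refine CfsgLib.Constrained.le_pPrimeCore_of_not_dvd hK'n ?_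
    rwa [Subgroup.card_map_of_injective M.subtype_injective]
  have hMp : IsPGroup p M := by
    obtain ⟨k, hk⟩ := IsPGroup.iff_card.1 Q.isPGroup'
    refine IsPGroup.of_card (n := k) ?_
    rw [← hk, ← hKc.card_mul, hKbot, Subgroup.card_bot, one_mul]
  obtain ⟨P', hP'⟩ := hMp.exists_le_sylow
  obtain ⟨g, hg⟩ := MulAction.exists_smul_eq G P' P
  have hMP : M ≤ (P : Subgroup G) := by
    intro y hy
    rw [← hg]
    exact ⟨g⁻¹ * y * g, hP' (hM.normal.conj_mem' _ hy g), by simp [mul_assoc]⟩
  refine hM.ne_bot (le_bot_iff.1 ?_)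
  rw [← hcore']
  exact Subgroup.normal_le_normalCore.2 fun y hy => hMD ⟨hy, hMP hy⟩

/-- The structure of every Sylow subgroup relative to a minimal normal subgroup. -/
theorem sylow_structure (hcore : Cfsg.pPrimeCore p G = ⊥) (P : Sylow p G)
    (hcore' : (⁅(P : Subgroup G), (P : Subgroup G)⁆).normalCore = ⊥)
    (hnas : ¬ ∃ S : Subgroup G, S.Normal ∧ IsSimpleGroup S ∧ ¬ IsMulCommutative S ∧
      Subgroup.centralizer (S : Set G) = ⊥)
    (hidx : (commutator (P : Subgroup G)).index = p ^ 2)
    (hne : commutator (P : Subgroup G) ≠ ⊥) {N : Subgroup G} (hN : IsMinNormal N) :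
    IsMulCommutative (N.subgroupOf P) ∧ (N.subgroupOf P).index = p := by
  haveI := hN.normal
  have hpp : p.Prime := Fact.out
  set H : Subgroup G := (P : Subgroup G) with hH
  have hPp : IsPGroup p H := P.isPGroup'
  set Q : Subgroup H := N.subgroupOf H with hQ
  have hQD := inf_not_le_derived hcore P hcore' hidx hne hN
  have hDQ : commutator H ≤ Q := commutator_le_of_index hPp Q (sup_index_dvd hPp hidx Q hQD)
  have hQ1 : Q.index ∣ p := by
    have := sup_index_dvd hPp hidx Q hQD
    rwa [sup_eq_left.2 hDQ] at this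
  -- no other minimal normal subgroup
  have huniq : ∀ M : Subgroup G, IsMinNormal M → M = N := by
    intro M hM
    by_contra hMN
    haveI := hM.normal
    have hMD := inf_not_le_derived hcore P hcore' hidx hne hM
    refine hne (commutator_eq_bot_of_disjoint hPp hidx Q (M.subgroupOf H) ?_ ?_ ?_
      fun h => hQD (le_sup_left.trans h))
    · exact fun h => hQD (h.le.trans bot_le)
    · exact fun h => hMD (h.le.trans bot_le)
    · rw [hQ, Subgroup.subgroupOf, Subgroup.subgroupOf, ← Subgroup.comap_inf,
        hN.inf_eq_bot_of_ne hM (Ne.symm hMN), MonoidHom.comap_bot, Subgroup.ker_subtype]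
  by_cases hNab : IsMulCommutative N
  · have hQc : IsMulCommutative Q := ⟨⟨fun a b => Subtype.ext (Subtype.ext
      (show ((a : H) : G) * ((b : H) : G) = ((b : H) : G) * ((a : H) : G) from
        congrArg Subtype.val (hNab.is_comm.comm (⟨((a : H) : G), a.2⟩ : N) ⟨((b : H) : G), b.2⟩)))⟩⟩
    refine ⟨hQc, ((Nat.dvd_prime hpp).1 hQ1).resolve_left fun h1 => hne ?_⟩
    rw [Subgroup.index_eq_one] at h1
    rw [commutator_def, eq_bot_iff, Subgroup.commutator_le]
    intro a _ b _
    rw [Subgroup.mem_bot, commutatorElement_eq_one_iff_mul_comm]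
    exact congrArg Subtype.val (hQc.is_comm.comm
      ⟨a, h1 ▸ Subgroup.mem_top a⟩ ⟨b, h1 ▸ Subgroup.mem_top b⟩)
  -- the non-abelian case
  have hCN : Subgroup.centralizer (N : Set G) = ⊥ := by
    by_contra hC
    obtain ⟨M, hM, hMC⟩ := exists_isMinNormal_le (N := Subgroup.centralizer (N : Set G))
      Subgroup.normal_centralizer hC
    rw [huniq M hM] at hMC
    exact hN.ne_bot (le_bot_iff.1 (hN.inf_centralizer_eq_bot hNab ▸ le_inf le_rfl hMC))
  have hNs : ¬ IsSimpleGroup N := fun h => hnas ⟨N, hN.normal, h, hNab, hCN⟩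
  haveI : Nontrivial N := (Subgroup.nontrivial_iff_ne_bot N).2 hN.ne_bot
  obtain ⟨T₀, hT₀⟩ := exists_isMinNormal (G := N)
  have hT₀t : T₀ ≠ ⊤ := fun h => hNs (isMinNormal_top_iff.1 (h ▸ hT₀))
  set T : Subgroup G := T₀.map N.subtype with hT
  have hTN : T ≤ N := Subgroup.map_subtype_le T₀
  let c : G → Subgroup G → Subgroup G := fun g X => X.map (MulAut.conj g).toMonoidHom
  have hcmem : ∀ g X y, y ∈ c g X ↔ g⁻¹ * y * g ∈ X := by
    intro g X y
    constructor
    · rintro ⟨z, hz, rfl⟩
      show g⁻¹ * (g * z * g⁻¹) * g ∈ X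
      simpa [mul_assoc] using hz
    · intro h; exact ⟨_, h, by simp [mul_assoc]⟩
  have hccc : ∀ g k X, c g (c k X) = c (g * k) X := by
    intro g k X; ext y; simp only [hcmem, mul_inv_rev, mul_assoc]
  have hcN : ∀ g, c g T ≤ N := by
    intro g y hy
    rw [hcmem] at hy
    have := hN.normal.conj_mem _ (hTN hy) g
    simpa [mul_assoc] using this
  have hTnorm : ∀ u ∈ N, ∀ y ∈ T, u * y * u⁻¹ ∈ T := by
    rintro u hu _ ⟨y, hy, rfl⟩
    exact ⟨⟨u, hu⟩ * y * ⟨u, hu⟩⁻¹, hT₀.normal.conj_mem y hy ⟨u, hu⟩, rfl⟩
  have hTnormal : ∀ g, ∀ u ∈ N, ∀ y ∈ c g T, u * y * u⁻¹ ∈ c g T := by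
    intro g u hu y hy
    rw [hcmem] at hy ⊢
    have := hTnorm (g⁻¹ * u * g) (by simpa using hN.normal.conj_mem' u hu g) _ hy
    simpa [mul_assoc] using this
  have hTmin : ∀ g k, c g T ≠ c k T → c g T ⊓ c k T = ⊥ := by
    intro g k hne'
    by_contra hi
    have key : ∀ g k, c g T ⊓ c k T ≠ ⊥ → c g T ≤ c k T := by
      intro g k hi
      set V : Subgroup G := c g⁻¹ (c g T ⊓ c k T) with hV
      have hVT : V ≤ T := by
        intro y hy
        rw [hV, hcmem] at hy
        have := (hcmem g T _).1 hy.1
        simpa [mul_assoc] using this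
      have hVn : (V.subgroupOf N).Normal := by
        refine ⟨fun y hy u => ?_⟩
        rw [Subgroup.mem_subgroupOf, hV, hcmem] at hy ⊢
        have hu' : g * (u : G) * g⁻¹ ∈ N := hN.normal.conj_mem _ u.2 g
        have h1 := hTnormal g _ hu' _ hy.1
        have h2 := hTnormal k _ hu' _ hy.2
        refine ⟨?_, ?_⟩
        · simpa [mul_assoc] using h1
        · simpa [mul_assoc] using h2
      have hle : V.subgroupOf N ≤ T₀ := by
        intro y hy
        obtain ⟨z, hz, hzy⟩ := hVT hy
        exact (Subtype.ext hzy : z = y) ▸ hz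
      rcases hT₀.eq_or_eq _ hVn hle with h | h
      · exfalso
        apply hi
        rw [eq_bot_iff]
        intro y hy
        have hyV : g⁻¹ * y * g ∈ V := by
          rw [hV, hcmem]; simpa [mul_assoc] using hy
        have : (⟨g⁻¹ * y * g, hTN (hVT hyV)⟩ : N) ∈ V.subgroupOf N := hyV
        rw [h, Subgroup.mem_bot] at this
        have h' : g⁻¹ * y * g = 1 := congrArg Subtype.val this
        rw [Subgroup.mem_bot]
        calc y = g * (g⁻¹ * y * g) * g⁻¹ := by group
          _ = 1 := by rw [h']; group
      · intro y hy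
        rw [hcmem] at hy
        obtain ⟨z, hz, hzy⟩ := hy
        rw [← h] at hz
        have hzV : g⁻¹ * y * g ∈ V := hzy ▸ hz
        rw [hV, hcmem] at hzV
        simpa [mul_assoc] using hzV.2
    exact hne' (le_antisymm (key g k hi) (key k g (by rwa [inf_comm])))
  have hTcomm : ∀ g k, c g T ≠ c k T → ∀ a ∈ c g T, ∀ b ∈ c k T, a * b = b * a := by
    intro g k hne' a ha b hb
    rw [← commutatorElement_eq_one_iff_mul_comm, ← Subgroup.mem_bot, ← hTmin g k hne',
      commutatorElement_def]
    refine ⟨?_, (c k T).mul_mem ?_ ((c k T).inv_mem hb)⟩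
    · rw [mul_assoc, mul_assoc, ← mul_assoc b]
      exact (c g T).mul_mem ha (hTnormal g b (hcN k hb) _ ((c g T).inv_mem ha))
    · exact hTnormal k a (hcN g ha) b hb
  -- the conjugates generate `N`
  have hgenN : N ≤ ⨆ g, c g T := by
    have hn : (⨆ g, c g T).Normal := by
      refine ⟨fun y hy u => ?_⟩
      have hle : (⨆ g, c g T) ≤ (⨆ g, c g T).comap (MulAut.conj u).toMonoidHom := by
        refine iSup_le fun g z hz => ?_
        refine le_iSup (fun g => c g T) (u * g) ?_
        rw [← hccc]
        exact ⟨z, hz, rfl⟩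
      exact hle hy
    refine (hN.eq_of_le hn ?_ (iSup_le hcN)).ge
    intro h
    apply hT₀.ne_bot
    rw [← Subgroup.map_eq_bot_iff_of_injective _ N.subtype_injective, eq_bot_iff, ← h]
    refine le_trans ?_ (le_iSup (fun g => c g T) 1)
    intro y hy
    rw [hcmem, inv_one, one_mul, mul_one]
    exact hy
  -- the complement of one conjugate
  let R : G → Subgroup G := fun g => ⨆ k : {k : G // c k T ≠ c g T}, c k.1 T
  have hRN : ∀ g, R g ≤ N := fun g => iSup_le fun k => hcN k.1
  have hRc : ∀ g, ∀ a ∈ c g T, ∀ b ∈ R g, a * b = b * a := by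
    intro g a ha b hb
    have hle : R g ≤ Subgroup.centralizer {a} := iSup_le fun k y hy =>
      Subgroup.mem_centralizer_singleton_iff.2 (hTcomm k.1 g k.2 y hy a ha)
    exact (Subgroup.mem_centralizer_singleton_iff.1 (hle hb)).symm
  have hdec : ∀ g, ∀ n ∈ N, ∃ a ∈ c g T, ∃ b ∈ R g, n = a * b := by
    intro g n hn
    have hle : N ≤ c g T ⊔ R g := hgenN.trans <| iSup_le fun k => by
      by_cases hk : c k T = c g T
      · exact hk ▸ le_sup_left
      · exact le_sup_of_le_right (le_iSup (fun k : {k : G // c k T ≠ c g T} => c k.1 T) ⟨k, hk⟩)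
    have hnorm : R g ≤ Subgroup.normalizer (c g T : Set G) := fun b hb =>
      Subgroup.mem_normalizer_iff.2 fun y => by
        constructor
        · intro hy
          rwa [← hRc g y hy b hb, mul_inv_cancel_right]
        · intro hy
          have h1 := hRc g _ hy b hb
          have : b * y * b⁻¹ = y := by
            calc b * y * b⁻¹ = b⁻¹ * ((b * y * b⁻¹) * b) := by rw [h1]; group
              _ = y := by group
          rwa [this] at hy
    have := hle hn
    rw [← SetLike.mem_coe, Subgroup.coe_mul_of_right_le_normalizer_left _ _ hnorm] at this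
    obtain ⟨a, ha, b, hb, rfl⟩ := this
    exact ⟨a, ha, b, hb, rfl⟩
  -- no element lies in all factors and their complements
  have hinf : ∀ g, ∀ a ∈ c g T, a ∈ R g → a = 1 := by
    intro g a ha hb
    have : a ∈ Subgroup.centralizer (N : Set G) := by
      rw [Subgroup.mem_centralizer_iff]
      intro n hn
      obtain ⟨u, hu, v, hv, rfl⟩ := hdec g n hn
      have e1 := hRc g u hu a hb
      have e2 := hRc g a ha v hv
      calc u * v * a = u * (v * a) := mul_assoc _ _ _
        _ = u * (a * v) := by rw [e2]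
        _ = (u * a) * v := (mul_assoc _ _ _).symm
        _ = (a * u) * v := by rw [e1]
        _ = a * (u * v) := mul_assoc _ _ _
    rw [hCN, Subgroup.mem_bot] at this
    exact this
  choose π hπT ρ hρR hπρ using hdec
  have hπu : ∀ g n (hn : n ∈ N) a b, a ∈ c g T → b ∈ R g → n = a * b → π g n hn = a := by
    intro g n hn a b ha hb e
    have h1 : a⁻¹ * π g n hn = b * (ρ g n hn)⁻¹ := by
      rw [inv_mul_eq_iff_eq_mul, ← mul_assoc, ← e, eq_mul_inv_iff_mul_eq, ← hπρ]
    have h2 := hinf g _ ((c g T).mul_mem ((c g T).inv_mem ha) (hπT g n hn))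
      (h1 ▸ (R g).mul_mem hb ((R g).inv_mem (hρR g n hn)))
    rw [inv_mul_eq_one] at h2
    exact h2.symm
  have hπmul : ∀ g u (hu : u ∈ N) v (hv : v ∈ N),
      π g (u * v) (N.mul_mem hu hv) = π g u hu * π g v hv := by
    intro g u hu v hv
    refine hπu g _ _ _ (ρ g u hu * ρ g v hv) ((c g T).mul_mem (hπT _ _ _) (hπT _ _ _))
      ((R g).mul_mem (hρR _ _ _) (hρR _ _ _)) ?_
    have := hRc g _ (hπT g v hv) _ (hρR g u hu)
    calc u * v = (π g u hu * ρ g u hu) * (π g v hv * ρ g v hv) := by rw [← hπρ, ← hπρ]
      _ = π g u hu * (ρ g u hu * π g v hv) * ρ g v hv := by group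
      _ = π g u hu * (π g v hv * ρ g u hu) * ρ g v hv := by rw [this]
      _ = _ := by group
  -- a Sylow subgroup of `N` and of the factors
  obtain ⟨S, hS⟩ := CfsgLib.PronormalExt.exists_sylow_inf N P
  have hπH : ∀ g n (hn : n ∈ N), n ∈ H → π g n hn ∈ H := by
    intro g n hn hnH
    let W : Subgroup G :=
      { carrier := {a | ∃ n, ∃ hn : n ∈ N, n ∈ H ∧ π g n hn = a}
        one_mem' := ⟨1, N.one_mem, H.one_mem,
          hπu g 1 _ 1 1 (c g T).one_mem (R g).one_mem (mul_one 1).symm⟩
        mul_mem' := by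
          rintro _ _ ⟨u, hu, huH, rfl⟩ ⟨v, hv, hvH, rfl⟩
          exact ⟨u * v, N.mul_mem hu hv, H.mul_mem huH hvH, hπmul g u hu v hv⟩
        inv_mem' := by
          rintro _ ⟨u, hu, huH, rfl⟩
          refine ⟨u⁻¹, N.inv_mem hu, H.inv_mem huH, ?_⟩
          refine hπu g _ _ _ (ρ g u hu)⁻¹ ((c g T).inv_mem (hπT _ _ _))
            ((R g).inv_mem (hρR _ _ _)) ?_
          rw [← mul_inv_rev, ← hRc g _ (hπT g u hu) _ (hρR g u hu), ← hπρ] }
    have hWN : W ≤ N := by
      rintro _ ⟨u, hu, -, rfl⟩
      exact hcN g (hπT g u hu)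
    have hWp : IsPGroup p W := by
      let f : ↥(N ⊓ H) →* G := MonoidHom.mk' (fun u => π g u u.2.1)
        (fun u v => hπmul g u u.2.1 v v.2.1)
      have hf : f.range = W := by
        ext a
        constructor
        · rintro ⟨u, rfl⟩; exact ⟨u, u.2.1, u.2.2, rfl⟩
        · rintro ⟨u, hu, huH, rfl⟩; exact ⟨⟨u, hu, huH⟩, rfl⟩
      have hf' : IsPGroup p f.range :=
        (IsPGroup.to_le hPp inf_le_right : IsPGroup p ↥(N ⊓ H)).of_surjective
          f.rangeRestrict f.rangeRestrict_surjective
      rwa [hf] at hf'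
    -- `H ∩ c g T` is a Sylow subgroup of `c g T`
    haveI : ((c g T).subgroupOf N).Normal := ⟨fun y hy u => hTnormal g u u.2 y hy⟩
    obtain ⟨S₂, hS₂⟩ := CfsgLib.PronormalExt.exists_sylow_inf ((c g T).subgroupOf N) S
    have hWcT : W ≤ c g T := by
      rintro _ ⟨u, hu, -, rfl⟩
      exact hπT g u hu
    have hle : (c g T) ⊓ H ≤ W := by
      rintro y ⟨hy, hyH⟩
      exact ⟨y, hcN g hy, hyH, hπu g y _ y 1 hy (R g).one_mem (mul_one y).symm⟩
    have hcard : Nat.card ↥((c g T) ⊓ H) = Nat.card S₂ := by
      have e1 : ((S₂ : Subgroup ((c g T).subgroupOf N)).map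
          ((c g T).subgroupOf N).subtype).map N.subtype = (c g T) ⊓ H := by
        rw [hS₂, Subgroup.map_inf _ _ _ N.subtype_injective, hS,
          Subgroup.map_subgroupOf_eq_of_le (hcN g)]
        ext y
        simp only [Subgroup.mem_inf]
        exact ⟨fun h => ⟨h.2, h.1.1⟩, fun h => ⟨⟨h.2, hcN g h.1⟩, h.1⟩⟩
      rw [← e1, Subgroup.card_map_of_injective N.subtype_injective,
        Subgroup.card_map_of_injective (Subgroup.subtype_injective _)]
    have hWdvd : Nat.card W ≤ Nat.card S₂ := by
      have hp' : IsPGroup p ((W.subgroupOf N).subgroupOf ((c g T).subgroupOf N)) :=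
        (hWp.comap_of_injective N.subtype N.subtype_injective).comap_of_injective
          ((c g T).subgroupOf N).subtype (Subgroup.subtype_injective _)
      obtain ⟨S₃, hS₃⟩ := hp'.exists_le_sylow
      have h1 := Subgroup.card_le_of_le hS₃
      rw [Nat.card_congr (Subgroup.subgroupOfEquivOfLe
          (show W.subgroupOf N ≤ (c g T).subgroupOf N from fun z hz => hWcT hz)).toEquiv,
        Nat.card_congr (Subgroup.subgroupOfEquivOfLe hWN).toEquiv] at h1
      exact h1.trans (le_of_eq (Nat.card_congr (S₃.equiv S₂).toEquiv))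
    have heq := Subgroup.eq_of_le_of_card_ge hle (hWdvd.trans hcard.ge)
    have hmemW : π g n hn ∈ W := ⟨n, hn, hnH, rfl⟩
    rw [← heq] at hmemW
    exact hmemW.2
  -- the pieces are non-trivial
  have hpiece : ∀ g, c g T ⊓ H ≠ ⊥ := by
    intro g h0
    -- then every factor has order prime to `p`
    haveI : ((c g T).subgroupOf N).Normal := ⟨fun y hy u => hTnormal g u u.2 y hy⟩
    obtain ⟨S₂, hS₂⟩ := CfsgLib.PronormalExt.exists_sylow_inf ((c g T).subgroupOf N) S
    have hS₂1 : (S₂ : Subgroup ((c g T).subgroupOf N)) = ⊥ := by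
      rw [← Subgroup.map_eq_bot_iff_of_injective _ (Subgroup.subtype_injective _), hS₂, eq_bot_iff]
      intro y hy
      have h1 : (y : G) ∈ H ⊓ N := hS ▸ Subgroup.mem_map_of_mem N.subtype hy.1
      have h2 : (y : G) ∈ c g T ⊓ H := ⟨hy.2, h1.1⟩
      rw [h0, Subgroup.mem_bot] at h2
      rw [Subgroup.mem_bot]
      exact Subtype.ext h2
    have hnd : ¬ p ∣ Nat.card ((c g T).subgroupOf N) := by
      rw [← Subgroup.index_bot, ← hS₂1]
      exact S₂.not_dvd_index
    have hle := CfsgLib.Constrained.le_pPrimeCore_of_not_dvd (G := N) (N := (c g T).subgroupOf N)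
      inferInstance hnd
    haveI : (Cfsg.pPrimeCore p N).Characteristic :=
      CfsgLib.Constrained.instCharacteristicPPrimeCore p
    have hmap : (Cfsg.pPrimeCore p N).map N.subtype ≤ Cfsg.pPrimeCore p G := by
      refine CfsgLib.Constrained.le_pPrimeCore inferInstance ?_
      rw [Subgroup.card_map_of_injective N.subtype_injective]
      exact CfsgLib.Constrained.pPrimeCore_coprime
    refine hT₀.ne_bot ?_
    rw [← Subgroup.map_eq_bot_iff_of_injective _ N.subtype_injective, eq_bot_iff]
    intro y hy
    have hgy : g * y * g⁻¹ ∈ c g T := ⟨y, hy, rfl⟩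
    have := hmap ⟨⟨g * y * g⁻¹, hcN g hgy⟩, hle hgy, rfl⟩
    rw [hcore, Subgroup.mem_bot] at this
    have h' : g * y * g⁻¹ = 1 := this
    rw [Subgroup.mem_bot]
    exact conj_eq_one_iff.1 h'
  -- no factor is normalised by the Sylow subgroup
  have hmove : ∀ g, ∃ h ∈ H, c h (c g T) ≠ c g T := by
    intro g
    by_contra hno
    push Not at hno
    have hTH : ∀ h ∈ H, ∀ y ∈ c g T, h * y * h⁻¹ ∈ c g T := by
      intro h hh y hy
      rw [← hno h hh]
      exact ⟨y, hy, rfl⟩
    have hRH : ∀ h ∈ H, ∀ y ∈ R g, h * y * h⁻¹ ∈ R g := by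
      intro h hh
      have hle : R g ≤ (R g).comap (MulAut.conj h).toMonoidHom := by
        refine iSup_le fun k y hy => ?_
        have hne' : c (h * k.1) T ≠ c g T := by
          intro e
          apply k.2
          rw [← hccc] at e
          exact Subgroup.map_injective (MulAut.conj h).injective (e.trans (hno h hh).symm)
        refine le_iSup (fun k : {k : G // c k T ≠ c g T} => c k.1 T) ⟨h * k.1, hne'⟩ ?_
        show MulAut.conj h y ∈ c (h * k.1) T
        rw [← hccc]
        exact ⟨y, hy, rfl⟩
      exact fun y hy => hle hy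
    set A : Subgroup H := (c g T).subgroupOf H
    set B : Subgroup H := (R g).subgroupOf H
    haveI : A.Normal := ⟨fun y hy u => hTH u u.2 y hy⟩
    haveI : B.Normal := ⟨fun y hy u => hRH u u.2 y hy⟩
    obtain ⟨k, hk⟩ : ∃ k, c k T ≠ c g T := by
      by_contra hall
      push Not at hall
      apply hT₀t
      rw [eq_top_iff]
      intro y _
      have hle : N ≤ c g T := hgenN.trans (iSup_le fun k => (hall k).le)
      have hTeq : c g T = T := by rw [← hall 1]; ext z; rw [hcmem]; simp
      obtain ⟨z, hz, hzy⟩ := (hTeq ▸ hle y.2 : (y : G) ∈ T)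
      exact (Subtype.ext hzy : z = y) ▸ hz
    refine hne (commutator_eq_bot_of_disjoint hPp hidx A B ?_ ?_ ?_ fun h => hQD ?_)
    · intro h
      apply hpiece g
      rw [eq_bot_iff]
      intro y hy
      have : (⟨y, hy.2⟩ : H) ∈ A := hy.1
      rw [h, Subgroup.mem_bot] at this
      rw [Subgroup.mem_bot]
      exact congrArg Subtype.val this
    · intro h
      apply hpiece k
      rw [eq_bot_iff]
      intro y hy
      have : (⟨y, hy.2⟩ : H) ∈ B :=
        le_iSup (fun k : {k : G // c k T ≠ c g T} => c k.1 T) ⟨k, hk⟩ hy.1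
      rw [h, Subgroup.mem_bot] at this
      rw [Subgroup.mem_bot]
      exact congrArg Subtype.val this
    · rw [eq_bot_iff]
      intro y hy
      rw [Subgroup.mem_bot]
      exact Subtype.ext (hinf g _ hy.1 hy.2)
    · refine le_trans ?_ h
      intro y hy
      have hyN : (y : G) ∈ N := hy
      have h1 : π g y hyN ∈ H := hπH g y hyN y.2
      have h2 : ρ g y hyN ∈ H := by
        have : ρ g y hyN = (π g y hyN)⁻¹ * y := by
          rw [eq_inv_mul_iff_mul_eq, ← hπρ]
        rw [this]
        exact H.mul_mem (H.inv_mem h1) y.2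
      have : y = ⟨π g y hyN, h1⟩ * ⟨ρ g y hyN, h2⟩ := Subtype.ext (hπρ g y hyN)
      rw [this]
      exact Subgroup.mul_mem_sup (hπT g y hyN) (hρR g y hyN)
  have hQidx : Q.index = p := by
    refine ((Nat.dvd_prime hpp).1 hQ1).resolve_left fun h1 => ?_
    rw [Subgroup.index_eq_one] at h1
    obtain ⟨h, hh, hne'⟩ := hmove 1
    have hhN : (h : G) ∈ N := (h1 ▸ Subgroup.mem_top (⟨h, hh⟩ : H) : (⟨h, hh⟩ : H) ∈ Q)
    apply hne'
    refine Subgroup.eq_of_le_of_card_ge ?_ (le_of_eq ?_)
    · rintro _ ⟨y, hy, rfl⟩
      exact hTnormal 1 h hhN y hy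
    · exact (Subgroup.card_map_of_injective (MulAut.conj h).injective).symm
  refine ⟨⟨⟨fun u v => ?_⟩⟩, hQidx⟩
  -- each piece is commutative
  have hpab : ∀ g, ∀ a ∈ c g T, a ∈ H → ∀ b ∈ c g T, b ∈ H → a * b = b * a := by
    intro g
    obtain ⟨h, hh, hmv⟩ := hmove g
    set hP : H := ⟨h, hh⟩
    have hhQ : hP ∉ Q := by
      intro hq
      apply hmv
      refine Subgroup.eq_of_le_of_card_ge ?_ (le_of_eq ?_)
      · rintro _ ⟨y, hy, rfl⟩
        exact hTnormal g h hq y hy
      · exact (Subgroup.card_map_of_injective (MulAut.conj h).injective).symm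
    set K : Subgroup H := (commutator Q).map Q.subtype with hK
    haveI : K.Normal := inferInstance
    have hKD : K ≤ commutator H := by
      rw [hK, Subgroup.map_subtype_commutator, commutator_def]
      exact Subgroup.commutator_mono le_top le_top
    set q := QuotientGroup.mk' K
    set Qb : Subgroup (H ⧸ K) := Q.map q with hQb
    haveI : Qb.Normal := Subgroup.Normal.map inferInstance q (QuotientGroup.mk'_surjective K)
    have hQbc : IsMulCommutative Qb := by
      refine ⟨⟨?_⟩⟩
      rintro ⟨_, x, hx, rfl⟩ ⟨_, y, hy, rfl⟩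
      apply Subtype.ext
      show q x * q y = q y * q x
      rw [← commutatorElement_eq_one_iff_mul_comm, ← map_commutatorElement]
      refine (QuotientGroup.eq_one_iff _).2 ?_
      exact ⟨⁅(⟨x, hx⟩ : Q), ⟨y, hy⟩⁆,
        Subgroup.commutator_mem_commutator (Subgroup.mem_top _) (Subgroup.mem_top _), rfl⟩
    have hKQ : K ≤ Q := Subgroup.map_subtype_le _
    have hQbi : Qb.index = p := by
      rw [hQb, Subgroup.index_map_eq _ (QuotientGroup.mk'_surjective K)
        (by rw [QuotientGroup.ker_mk']; exact hKQ), hQidx]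
    have hbidx : (commutator (H ⧸ K)).index = p ^ 2 := by
      rw [commutator_def, ← MonoidHom.range_eq_top.2 (QuotientGroup.mk'_surjective K),
        MonoidHom.range_eq_map, ← Subgroup.map_commutator, ← commutator_def,
        Subgroup.index_map_eq _ (QuotientGroup.mk'_surjective K)
          (by rw [QuotientGroup.ker_mk']; exact hKD), hidx]
    have hhb : q hP ∉ Qb := by
      intro hm
      have : hP ∈ Qb.comap q := hm
      rw [hQb, Subgroup.comap_map_eq, QuotientGroup.ker_mk', sup_eq_left.2 hKQ] at this
      exact hhQ this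
    have hfix := card_fixed_eq Qb hQbc hQbi hbidx (q hP) hhb
    -- the piece and the norm map
    set W : Subgroup H := (c g T).subgroupOf H
    have hWQ : W ≤ Q := fun y hy => hcN g hy
    let f : ℕ → W →* Qb := fun i => MonoidHom.mk'
      (fun w => ⟨q (hP ^ i * w * (hP ^ i)⁻¹),
        Subgroup.mem_map_of_mem q ((inferInstance : Q.Normal).conj_mem _ (hWQ w.2) _)⟩)
      (fun w z => by
        apply Subtype.ext
        show q _ = q _ * q _
        rw [← map_mul]
        congr 1
        rw [Subgroup.coe_mul]
        group)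
    let n : W → Qb := fun w => ((List.range p).map (fun i => f i w)).prod
    have hcm : ∀ a b : Qb, Commute a b := hQbc.is_comm.comm
    have hnfix : ∀ w, Commute (q hP) (n w : H ⧸ K) := by
      intro w
      set qh := q hP
      have hstep : ∀ m : ℕ, qh * (((List.range m).map fun i => f i w).prod : Qb) * qh⁻¹ * (f 0 w) =
          ((((List.range m).map fun i => f i w).prod * f m w : Qb) : H ⧸ K) := by
        intro m
        induction m with
        | zero => simp
        | succ m ih =>
          simp only [List.range_succ, List.map_append, List.map_cons, List.map_nil,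
            List.prod_append, List.prod_cons, List.prod_nil, mul_one]
          set Z := ((List.range m).map fun i => f i w).prod
          have e : qh * (f m w : H ⧸ K) * qh⁻¹ = (f (m + 1) w : H ⧸ K) := by
            show q hP * q _ * (q hP)⁻¹ = q _
            rw [← map_inv, ← map_mul, ← map_mul]
            congr 1
            rw [pow_succ']
            group
          have e2 : (f (m + 1) w : H ⧸ K) * (f 0 w : H ⧸ K) = f 0 w * f (m + 1) w :=
            congrArg Subtype.val (hcm (f (m + 1) w) (f 0 w))
          calc qh * ((Z * f m w : Qb) : H ⧸ K) * qh⁻¹ * (f 0 w)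
              = (qh * Z * qh⁻¹) * ((qh * f m w * qh⁻¹) * f 0 w) := by
                rw [Subgroup.coe_mul]; group
            _ = (qh * Z * qh⁻¹) * (f 0 w * f (m + 1) w) := by rw [e, e2]
            _ = ((Z * f m w : Qb) : H ⧸ K) * f (m + 1) w := by rw [← mul_assoc, ih]
            _ = _ := (Subgroup.coe_mul _ _ _).symm
      have h1 := hstep p
      have h2 : (f p w : H ⧸ K) = f 0 w := by
        have hpQ : hP ^ p ∈ Q := by
          have : Q.Normal := inferInstance
          rw [← QuotientGroup.eq_one_iff, QuotientGroup.mk_pow, ← hQidx, Subgroup.index_eq_card]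
          exact pow_card_eq_one'
        have e2 : Commute (q (hP ^ p)) (q (w : H)) :=
          congrArg Subtype.val (hcm ⟨_, Subgroup.mem_map_of_mem q hpQ⟩
            ⟨_, Subgroup.mem_map_of_mem q (hWQ w.2)⟩)
        show q (hP ^ p * w * (hP ^ p)⁻¹) = q (hP ^ 0 * w * (hP ^ 0)⁻¹)
        rw [map_mul q _ (hP ^ p)⁻¹, map_mul, map_inv, e2.eq, mul_inv_cancel_right]
        simp
      rw [Subgroup.coe_mul, h2] at h1
      have h3 := mul_right_cancel h1
      exact mul_inv_eq_iff_eq_mul.1 h3
    -- projection to the piece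
    have hlift : ∃ φ : Qb →* Abelianization W, ∀ w, φ (n w) = Abelianization.of w := by
      let pr : Q →* W := MonoidHom.mk'
        (fun y => ⟨⟨π g y y.2, hπH g y y.2 (y : H).2⟩, hπT g y y.2⟩)
        (fun y z => Subtype.ext (Subtype.ext (hπmul g y y.2 z z.2)))
      let ψ : Q →* Abelianization W := Abelianization.of.comp pr
      let e : Q →* Qb := q.subgroupMap Q
      have hes : Function.Surjective e := q.subgroupMap_surjective Q
      have hker : e.ker ≤ ψ.ker := by
        intro y hy
        have hyK : (y : H) ∈ K := (QuotientGroup.eq_one_iff _).1 (congrArg Subtype.val hy)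
        obtain ⟨z, hz, hzy⟩ := hyK
        rw [← (Subtype.ext hzy : z = y)]
        have hc : commutator Q ≤ ψ.ker := Abelianization.commutator_subset_ker ψ
        exact hc hz
      refine ⟨MonoidHom.liftOfSurjective e hes ⟨ψ, hker⟩, fun w => ?_⟩
      have hval : ∀ i, i < p → MonoidHom.liftOfSurjective e hes ⟨ψ, hker⟩ (f i w) =
          if i = 0 then Abelianization.of w else 1 := by
        intro i hi
        have hmemQ : hP ^ i * (w : H) * (hP ^ i)⁻¹ ∈ Q :=
          (inferInstance : Q.Normal).conj_mem _ (hWQ w.2) _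
        have : f i w = e ⟨_, hmemQ⟩ := rfl
        rw [this]
        rw [show MonoidHom.liftOfSurjective e hes ⟨ψ, hker⟩ (e ⟨_, hmemQ⟩) = ψ ⟨_, hmemQ⟩ from
          MonoidHom.liftOfRightInverse_comp_apply e _ (Function.rightInverse_surjInv hes) ⟨ψ, hker⟩ _]
        have hy : (h ^ i) * (w : H) * (h ^ i)⁻¹ ∈ c (h ^ i) (c g T) := ⟨_, w.2, rfl⟩
        by_cases hi0 : i = 0
        · subst hi0
          rw [if_pos rfl]
          refine congrArg Abelianization.of (Subtype.ext (Subtype.ext ?_))
          show π g _ _ = ((w : H) : G)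
          refine hπu g _ _ _ 1 w.2 (R g).one_mem ?_
          simp
        · rw [if_neg hi0]
          have hne' : c (h ^ i * g) T ≠ c g T := by
            intro e'
            rw [← hccc] at e'
            apply hmv
            -- the stabiliser of the factor is a subgroup, and `i` is prime to `p`
            let St : Subgroup H := (Subgroup.normalizer (c g T : Set G)).subgroupOf H
            have hQSt : Q ≤ St := fun y hy => Subgroup.mem_normalizer_iff.2 fun z =>
              ⟨hTnormal g y hy z, fun hz => by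
                have := hTnormal g (y : G)⁻¹ (N.inv_mem hy) _ hz
                simpa [mul_assoc] using this⟩
            have hiSt : hP ^ i ∈ St := by
              refine Subgroup.mem_normalizer_iff.2 fun z => ?_
              constructor
              · intro hz
                show h ^ i * z * (h ^ i)⁻¹ ∈ c g T
                rw [← e']
                exact ⟨z, hz, rfl⟩
              · intro hz
                have hz' : h ^ i * z * (h ^ i)⁻¹ ∈ c g T := hz
                rw [← e', hcmem] at hz'
                simpa [mul_assoc] using hz'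
            have hSt : hP ∈ St := by
              by_contra hn
              have hQeq : Q = St := by
                refine ((CfsgLib.PGroup.isCoatom_of_index_eq hQidx).le_iff_eq ?_).1 hQSt |>.symm
                exact fun ht => hn (ht ▸ Subgroup.mem_top hP)
              rw [← hQeq, ← QuotientGroup.eq_one_iff, QuotientGroup.mk_pow] at hiSt
              have ho : orderOf (QuotientGroup.mk hP : H ⧸ Q) = p := orderOf_eq_prime
                (by rw [← hQidx, Subgroup.index_eq_card]; exact pow_card_eq_one')
                (fun h1 => hhQ ((QuotientGroup.eq_one_iff _).1 h1))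
              have := orderOf_dvd_of_pow_eq_one hiSt
              rw [ho] at this
              exact absurd (Nat.le_of_dvd (Nat.pos_of_ne_zero hi0) this) (not_le.2 hi)
            refine Subgroup.eq_of_le_of_card_ge ?_ (le_of_eq ?_)
            · rintro _ ⟨y, hy, rfl⟩
              exact (Subgroup.mem_normalizer_iff.1 hSt y).1 hy
            · exact (Subgroup.card_map_of_injective (MulAut.conj h).injective).symm
          refine (congrArg Abelianization.of (Subtype.ext (Subtype.ext ?_) :
            pr ⟨_, hmemQ⟩ = 1)).trans (map_one _)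
          show π g _ _ = (1 : G)
          refine hπu g _ _ _ _ (c g T).one_mem
            (le_iSup (fun k : {k : G // c k T ≠ c g T} => c k.1 T) ⟨h ^ i * g, hne'⟩ ?_)
            (one_mul _).symm
          show _ ∈ c (h ^ i * g) T
          rw [← hccc]
          exact hy
      set φ := MonoidHom.liftOfSurjective e hes ⟨ψ, hker⟩
      simp only [n, map_list_prod, List.map_map]
      rw [show List.map (⇑φ ∘ fun i => f i w) (List.range p) =
          List.map (fun i => if i = 0 then Abelianization.of w else 1) (List.range p) from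
        List.map_congr_left (fun i hi => hval i (List.mem_range.1 hi))]
      obtain ⟨m, hm⟩ := Nat.exists_eq_succ_of_ne_zero hpp.ne_zero
      rw [hm, List.range_succ_eq_map, List.map_cons, List.map_map, List.prod_cons, if_pos rfl,
        List.prod_eq_one, mul_one]
      intro x hx
      obtain ⟨i, -, rfl⟩ := List.mem_map.1 hx
      simp
    obtain ⟨φ, hφ⟩ := hlift
    -- so the piece has cyclic abelianisation
    have hab : Nat.card (Abelianization W) ≤ p := by
      rw [← hfix]
      let F : W → ↥(Qb ⊓ Subgroup.centralizer {q hP}) := fun w =>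
        ⟨n w, (n w).2, Subgroup.mem_centralizer_singleton_iff.2 (hnfix w).symm.eq⟩
      let back : ↥(Qb ⊓ Subgroup.centralizer {q hP}) → Abelianization W :=
        fun y => φ ⟨y.1, y.2.1⟩
      refine Nat.card_le_card_of_surjective back fun z => ?_
      obtain ⟨w, rfl⟩ := QuotientGroup.mk_surjective z
      exact ⟨F w, hφ w⟩
    have hWp : IsPGroup p W := hPp.to_subgroup W
    have hcyc : IsCyclic W := by
      refine CfsgLib.PGroup.isCyclic_of_frattini_index (p := p) ?_
      obtain ⟨k, hk⟩ := IsPGroup.iff_card.1 (hWp.to_quotient (frattini W))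
      rw [← Subgroup.index_eq_card] at hk
      have h1 : (frattini W).index ≤ p := by
        refine le_trans (Nat.le_of_dvd ?_ (Subgroup.index_dvd_of_le
          (CfsgLib.PGroup.commutator_le_frattini hWp))) hab
        exact Nat.pos_of_ne_zero Subgroup.index_ne_zero_of_finite
      rw [hk] at h1 ⊢
      refine (pow_dvd_pow p ?_).trans (by rw [pow_one])
      by_contra hk2
      exact absurd h1 (not_le.2 (lt_of_lt_of_le (by
        calc p = p ^ 1 := (pow_one p).symm
          _ < p ^ 2 := Nat.pow_lt_pow_right hpp.one_lt (by norm_num))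
        (Nat.pow_le_pow_right hpp.pos (by omega))))
    intro a ha haH b hb hbH
    have := @mul_comm W (IsCyclic.commGroup).toCommMonoid.toCommSemigroup.toCommMagma
      ⟨⟨a, haH⟩, ha⟩ ⟨⟨b, hbH⟩, hb⟩
    exact congrArg (fun z : W => ((z : H) : G)) this
  -- commutators vanish in every factor
  apply Subtype.ext
  apply Subtype.ext
  show ((u : H) : G) * ((v : H) : G) = ((v : H) : G) * ((u : H) : G)
  set a := ((u : H) : G)
  set b := ((v : H) : G)
  have haN : a ∈ N := u.2
  have hbN : b ∈ N := v.2
  have hab' : a * b * (b * a)⁻¹ ∈ Subgroup.centralizer (N : Set G) := by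
    refine Subgroup.le_centralizer_iff.1 ?_ (Subgroup.mem_zpowers _)
    refine hgenN.trans (iSup_le fun g y hy => ?_)
    rw [Subgroup.mem_centralizer_iff]
    intro z hz
    obtain ⟨k, rfl⟩ := Subgroup.mem_zpowers_iff.1 hz
    have hd : a * b * (b * a)⁻¹ ∈ R g := by
      have hn : a * b * (b * a)⁻¹ ∈ N :=
        N.mul_mem (N.mul_mem haN hbN) (N.inv_mem (N.mul_mem hbN haN))
      have e := hpab g _ (hπT g a haN) (hπH g a haN (u : H).2) _ (hπT g b hbN)
        (hπH g b hbN (v : H).2)
      have h1 := hπmul g a haN b hbN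
      have h2 := hπmul g b hbN a haN
      rw [e] at h1
      have h3 := hπmul g (a * b * (b * a)⁻¹) hn (b * a) (N.mul_mem hbN haN)
      simp only [inv_mul_cancel_right] at h3
      rw [h1, h2, eq_comm, mul_eq_right] at h3
      have h4 := hπρ g _ hn
      rw [h3, one_mul] at h4
      rw [h4]
      exact hρR g _ hn
    exact ((Commute.zpow_left (hRc g y hy _ hd).symm k)).eq
  rw [hCN, Subgroup.mem_bot, mul_inv_eq_one] at hab'
  exact hab'

end GroupPart


open scoped commutatorElement

/-- Let G be a finite group, p a prime and P a Sylow p-subgroup of order at least p². Assume that G has no nontrivial normal subgroup of order prime to p, that the derived subgroup P' of P contains no nontrivial normal subgroup of G, and that G is not almost simple (there is no non-abelian simple normal subgroup of G with trivial centralizer). Then [P : P'] = p² if and only if some p-element x of G has centralizer whose order has p-part exactly p². -/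
theorem result {G : Type*} [Group G] [Finite G] (p : ℕ) [Fact p.Prime] (P : Sylow p G) (hbig : p ^ 2 ∣ Nat.card G) (hcore : Cfsg.pPrimeCore p G = ⊥)
    (hcore' : (⁅(P : Subgroup G), (P : Subgroup G)⁆).normalCore = ⊥) (hnas : ¬ ∃ S : Subgroup G, S.Normal ∧ IsSimpleGroup S ∧ ¬ IsMulCommutative S ∧ Subgroup.centralizer (S : Set G) = ⊥) :
    (⁅(P : Subgroup G), (P : Subgroup G)⁆).relIndex (P : Subgroup G) = p ^ 2 ↔
      ∃ x : G, (∃ k : ℕ, orderOf x = p ^ k) ∧ (Nat.card (Subgroup.centralizer ({x} : Set G))).factorization p = 2 := by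
  classical
  have hpp : p.Prime := Fact.out
  set H : Subgroup G := (P : Subgroup G) with hH
  have hcard : ∀ R : Sylow p G, Nat.card R = p ^ (Nat.card G).factorization p :=
    fun R => R.card_eq_multiplicity
  have hv2 : 2 ≤ (Nat.card G).factorization p :=
    (hpp.pow_dvd_iff_le_factorization Nat.card_pos.ne').1 hbig
  have hkey : ∀ x : G, ∀ C : Subgroup G, C = Subgroup.centralizer ({x} : Set G) →
      ∀ (K : Subgroup G), IsPGroup p K → K ≤ C →
      Nat.card K ≤ p ^ (Nat.card C).factorization p := by
    intro x C _ K hK hle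
    obtain ⟨k, hk⟩ := IsPGroup.iff_card.1 hK
    rw [hk]
    refine Nat.pow_le_pow_right hpp.pos ((hpp.pow_dvd_iff_le_factorization Nat.card_pos.ne').1 ?_)
    rw [← hk]
    exact Subgroup.card_dvd_of_le hle
  rw [← commutator_index_eq]
  constructor
  · intro hidx
    by_cases hne : commutator H = ⊥
    · -- an abelian Sylow subgroup of order `p²`
      rw [hne, Subgroup.index_bot] at hidx
      have : Nontrivial H := by
        rw [← Finite.one_lt_card_iff_nontrivial, hidx]
        exact Nat.one_lt_pow (by norm_num) hpp.one_lt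
      obtain ⟨x, hx⟩ := exists_ne (1 : H)
      obtain ⟨k, hk⟩ := IsPGroup.iff_orderOf.1 P.isPGroup' x
      refine ⟨x, ⟨k, by rw [Subgroup.orderOf_coe]; exact hk⟩, le_antisymm ?_ ?_⟩
      · have h1 := hcard P
        rw [hidx] at h1
        rw [Nat.pow_right_injective hpp.two_le h1]
        exact (Nat.factorization_le_iff_dvd Nat.card_pos.ne' Nat.card_pos.ne').2
          (Subgroup.card_subgroup_dvd_card _) p
      · have hle : H ≤ Subgroup.centralizer ({(x : G)} : Set G) := fun y hy =>
          Subgroup.mem_centralizer_singleton_iff.2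
            (congrArg Subtype.val (comm_of_commutator_eq_bot hne ⟨y, hy⟩ x))
        have h1 := hkey (x : G) _ rfl H P.isPGroup' hle
        rw [hidx] at h1
        exact (Nat.pow_le_pow_iff_right hpp.one_lt).1 h1
    -- the general case
    have htriv : Nontrivial G := by
      rw [← Finite.one_lt_card_iff_nontrivial]
      calc 1 < p ^ 2 := Nat.one_lt_pow (by norm_num) hpp.one_lt
        _ ≤ Nat.card G := Nat.le_of_dvd Nat.card_pos hbig
    obtain ⟨N, hN⟩ := CfsgLib.MinNormal.exists_isMinNormal (G := G)
    haveI := hN.normal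
    -- every Sylow subgroup satisfies the same hypotheses
    have hall : ∀ R : Sylow p G, IsMulCommutative (N.subgroupOf (R : Subgroup G)) ∧
        (N.subgroupOf (R : Subgroup G)).index = p ∧
        (commutator (R : Subgroup G)).index = p ^ 2 := by
      intro R
      obtain ⟨g, rfl⟩ := MulAction.exists_smul_eq G P R
      let e : (P : Subgroup G) ≃* ((g • P : Sylow p G) : Subgroup G) := P.equiv (g • P)
      have hec : (commutator (P : Subgroup G)).map e.toMonoidHom =
          commutator ((g • P : Sylow p G) : Subgroup G) := by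
        rw [commutator_def, Subgroup.map_commutator, ← MonoidHom.range_eq_map,
          MonoidHom.range_eq_top.2 e.surjective, ← commutator_def]
      have hi : (commutator ((g • P : Sylow p G) : Subgroup G)).index = p ^ 2 := by
        rw [← hec, Subgroup.index_map_of_bijective e.bijective, hidx]
      have hn' : commutator ((g • P : Sylow p G) : Subgroup G) ≠ ⊥ := by
        rw [← hec, Ne, Subgroup.map_eq_bot_iff_of_injective _ e.injective]
        exact hne
      have hc' : (⁅((g • P : Sylow p G) : Subgroup G), ((g • P : Sylow p G) : Subgroup G)⁆).normalCore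
          = ⊥ := by
        rw [eq_bot_iff, ← hcore']
        refine Subgroup.normal_le_normalCore.2 fun y hy => ?_
        have h1 : g * y * g⁻¹ ∈ _ :=
          Subgroup.normalCore_le _ (Subgroup.normalCore_normal _ |>.conj_mem y hy g)
        rw [show ((g • P : Sylow p G) : Subgroup G) =
          (P : Subgroup G).map (MulAut.conj g).toMonoidHom from rfl,
          ← Subgroup.map_commutator] at h1
        obtain ⟨z, hz, hzy⟩ := h1
        have : z = y := (MulAut.conj g).injective hzy
        exact this ▸ hz
      obtain ⟨h1, h2⟩ := sylow_structure hcore (g • P) hc' hnas hi hn' hN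
      exact ⟨h1, h2, hi⟩
    obtain ⟨x, hxQ⟩ : ∃ x : H, x ∉ N.subgroupOf H := by
      by_contra hno
      push Not at hno
      have := (hall P).2.1
      rw [(eq_top_iff.2 fun y _ => hno y : N.subgroupOf H = ⊤), Subgroup.index_top] at this
      exact hpp.one_lt.ne this
    obtain ⟨k, hk⟩ := IsPGroup.iff_orderOf.1 P.isPGroup' x
    refine ⟨x, ⟨k, by rw [Subgroup.orderOf_coe]; exact hk⟩, ?_⟩
    -- in every Sylow subgroup containing `x` its centraliser has order `p²`
    have hCR : ∀ R : Sylow p G, (x : G) ∈ (R : Subgroup G) →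
        Nat.card ↥((R : Subgroup G) ⊓ Subgroup.centralizer ({(x : G)} : Set G)) = p ^ 2 := by
      intro R hxR
      obtain ⟨hA, hAi, hRi⟩ := hall R
      set xR : (R : Subgroup G) := ⟨x, hxR⟩
      set A := N.subgroupOf (R : Subgroup G)
      have hxA : xR ∉ A := hxQ
      have hfix := card_fixed_eq A hA hAi hRi xR hxA
      have hC : ((R : Subgroup G) ⊓ Subgroup.centralizer ({(x : G)} : Set G)).subgroupOf R =
          Subgroup.centralizer {xR} := by
        ext y
        simp only [Subgroup.mem_subgroupOf, Subgroup.mem_inf, Subgroup.mem_centralizer_singleton_iff]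
        exact ⟨fun h => Subtype.ext h.2, fun h => ⟨y.2, congrArg Subtype.val h⟩⟩
      rw [← Nat.card_congr (Subgroup.subgroupOfEquivOfLe (inf_le_left :
        (R : Subgroup G) ⊓ Subgroup.centralizer ({(x : G)} : Set G) ≤ R)).toEquiv, hC]
      set C := Subgroup.centralizer ({xR} : Set (R : Subgroup G))
      have hidxC : (A.subgroupOf C).index = p := by
        refine ((Nat.dvd_prime hpp).1 ?_).resolve_left ?_
        · exact (Subgroup.relIndex_dvd_index_of_normal A C).trans hAi.dvd
        · intro h1
          rw [Subgroup.index_eq_one, Subgroup.subgroupOf_eq_top] at h1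
          exact hxA (h1 (Subgroup.mem_centralizer_singleton_iff.2 rfl))
      rw [← Subgroup.card_mul_index (A.subgroupOf C), hidxC, sq]
      congr 1
      refine Eq.trans ?_ hfix
      exact Nat.card_congr
        { toFun := fun y => ⟨y.1.1, y.2, y.1.2⟩
          invFun := fun y => ⟨⟨y.1, y.2.2⟩, y.2.1⟩
          left_inv := fun _ => rfl
          right_inv := fun _ => rfl }
    set C := Subgroup.centralizer ({(x : G)} : Set G)
    obtain ⟨S⟩ : Nonempty (Sylow p C) := inferInstance
    have hSp : IsPGroup p ((S : Subgroup C).map C.subtype) := S.isPGroup'.map _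
    -- adjoin `x`
    have hxS : (⟨x, Subgroup.mem_centralizer_singleton_iff.2 rfl⟩ : C) ∈ (S : Subgroup C) := by
      set xC : C := ⟨x, Subgroup.mem_centralizer_singleton_iff.2 rfl⟩
      have hxp : IsPGroup p (Subgroup.zpowers xC) := by
        refine IsPGroup.of_card (n := k) ?_
        rw [Nat.card_zpowers, ← Subgroup.orderOf_coe xC, Subgroup.orderOf_coe x, hk]
      have hn : Subgroup.zpowers xC ≤ Subgroup.normalizer ((S : Subgroup C) : Set C) := by
        rw [Subgroup.zpowers_le, Subgroup.mem_normalizer_iff]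
        intro y
        have : xC * y * xC⁻¹ = y := by
          apply Subtype.ext
          show (x : G) * y * (x : G)⁻¹ = y
          rw [← Subgroup.mem_centralizer_singleton_iff.1 y.2, mul_inv_cancel_right]
        rw [this]
      have := S.3 (hxp.to_sup_of_normal_right' S.isPGroup' hn) le_sup_right
      exact this ▸ Subgroup.mem_sup_left (Subgroup.mem_zpowers xC)
    obtain ⟨R, hR⟩ := hSp.exists_le_sylow
    have hxR : (x : G) ∈ (R : Subgroup G) := hR ⟨_, hxS, rfl⟩
    have h1 := hCR R hxR
    have h2 := hkey (x : G) C rfl _ (R.isPGroup'.to_le inf_le_left) inf_le_right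
    rw [h1] at h2
    have h3 : Nat.card ((S : Subgroup C).map C.subtype) ≤ p ^ 2 := by
      rw [← h1]
      refine Subgroup.card_le_of_le (le_inf hR ?_)
      exact Subgroup.map_subtype_le _
    rw [Subgroup.card_map_of_injective C.subtype_injective, S.card_eq_multiplicity] at h3
    exact le_antisymm ((Nat.pow_le_pow_iff_right hpp.one_lt).1 h3)
      ((Nat.pow_le_pow_iff_right hpp.one_lt).1 h2)
  · rintro ⟨x, ⟨k, hk⟩, hC⟩
    -- move `x` into `P`
    have hxp : IsPGroup p (Subgroup.zpowers x) :=
      IsPGroup.of_card (n := k) (by rw [Nat.card_zpowers, hk])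
    obtain ⟨R, hR⟩ := hxp.exists_le_sylow
    obtain ⟨g, hg⟩ := MulAction.exists_smul_eq G R P
    set y : H := ⟨g * x * g⁻¹, by
      rw [hH, ← hg]; exact ⟨x, hR (Subgroup.mem_zpowers x), rfl⟩⟩ with hy
    have hmap : (Subgroup.centralizer ({x} : Set G)).map (MulAut.conj g).toMonoidHom =
        Subgroup.centralizer ({(y : G)} : Set G) := by
      ext z
      constructor
      · rintro ⟨w, hw, rfl⟩
        have hw' := Subgroup.mem_centralizer_singleton_iff.1 hw
        rw [Subgroup.mem_centralizer_singleton_iff]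
        show g * w * g⁻¹ * (g * x * g⁻¹) = g * x * g⁻¹ * (g * w * g⁻¹)
        calc _ = g * (w * x) * g⁻¹ := by group
          _ = g * (x * w) * g⁻¹ := by rw [hw']
          _ = _ := by group
      · intro hz
        have hz' : z * (g * x * g⁻¹) = g * x * g⁻¹ * z :=
          Subgroup.mem_centralizer_singleton_iff.1 hz
        refine ⟨g⁻¹ * z * g, Subgroup.mem_centralizer_singleton_iff.2 ?_, by simp [mul_assoc]⟩
        calc _ = g⁻¹ * (z * (g * x * g⁻¹)) * g := by group
          _ = g⁻¹ * (g * x * g⁻¹ * z) * g := by rw [hz']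
          _ = _ := by group
    have hCy : (Nat.card (Subgroup.centralizer ({(y : G)} : Set G))).factorization p = 2 := by
      rw [← hmap, Subgroup.card_map_of_injective (MulAut.conj g).injective, hC]
    set CH := Subgroup.centralizer ({y} : Set H) with hCH
    have hCHle : Nat.card CH ≤ p ^ 2 := by
      have h1 := hkey (y : G) _ rfl (CH.map H.subtype) ((P.isPGroup'.to_subgroup CH).map _) (by
        rintro _ ⟨w, hw, rfl⟩
        exact Subgroup.mem_centralizer_singleton_iff.2
          (congrArg Subtype.val (Subgroup.mem_centralizer_singleton_iff.1 hw)))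
      rwa [Subgroup.card_map_of_injective H.subtype_injective, hCy] at h1
    -- the class of `y` lies in a coset of `H'`
    have hcls : CH.index ≤ Nat.card (commutator H) := by
      rw [Subgroup.index_eq_card]
      let F : H ⧸ CH → commutator H := fun z => ⟨⁅z.out, y⁆,
        Subgroup.commutator_mem_commutator (Subgroup.mem_top _) (Subgroup.mem_top _)⟩
      refine Nat.card_le_card_of_injective F fun z w hzw => ?_
      have h1 : z.out * y * z.out⁻¹ * y⁻¹ = w.out * y * w.out⁻¹ * y⁻¹ := by
        simpa [F, commutatorElement_def] using congrArg Subtype.val hzw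
      have h2 := mul_right_cancel h1
      rw [← QuotientGroup.out_eq' z, ← QuotientGroup.out_eq' w, QuotientGroup.eq]
      refine Subgroup.mem_centralizer_singleton_iff.2 ?_
      calc z.out⁻¹ * w.out * y = z.out⁻¹ * (w.out * y * w.out⁻¹) * w.out := by group
        _ = z.out⁻¹ * (z.out * y * z.out⁻¹) * w.out := by rw [h2]
        _ = _ := by group
    have h1 := Subgroup.card_mul_index CH
    have h2 := Subgroup.card_mul_index (commutator H)
    have hle : (commutator H).index ≤ p ^ 2 := by
      refine Nat.le_of_mul_le_mul_left ?_ (Nat.card_pos (α := commutator H))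
      rw [h2, ← h1, mul_comm (Nat.card (commutator H)) (p ^ 2)]
      exact Nat.mul_le_mul hCHle hcls
    obtain ⟨j, hj⟩ := IsPGroup.iff_card.1 (P.isPGroup'.to_quotient (commutator H))
    rw [← Subgroup.index_eq_card] at hj
    have hj2 : j ≤ 2 := (Nat.pow_le_pow_iff_right hpp.one_lt).1 (hj ▸ hle)
    by_contra hne2
    have hj1 : j ≤ 1 := by
      by_contra hj1
      exact hne2 (by rw [hj, show j = 2 by omega])
    -- then `P` is cyclic, so abelian
    have hcyc : IsCyclic H := by
      refine CfsgLib.PGroup.isCyclic_of_frattini_index (p := p) ?_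
      refine (Subgroup.index_dvd_of_le (CfsgLib.PGroup.commutator_le_frattini P.isPGroup')).trans ?_
      rw [hj]
      exact (pow_dvd_pow p hj1).trans (by rw [pow_one])
    have hcb : commutator H = ⊥ := by
      rw [commutator_def, eq_bot_iff, Subgroup.commutator_le]
      intro a _ b _
      rw [Subgroup.mem_bot, commutatorElement_eq_one_iff_mul_comm]
      exact @mul_comm H (IsCyclic.commGroup).toCommMonoid.toCommSemigroup.toCommMagma a b
    rw [hcb, Subgroup.index_bot] at hj
    have := hcard P
    rw [hj] at this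
    have := Nat.pow_right_injective hpp.two_le this
    omega

end Cfsg.Agent.S4587
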