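import Cfsg.Statements.S4588
import Cfsg.Agent.Blocks.Subsection.SmallDefect
import Cfsg.Agent.Blocks.PrincipalLinear

set_option autoImplicit false
open Cfsg

namespace Cfsg.Agent.S4588

/-- Let G be a finite group, p a prime and M a maximal ideal of the algebraic integers containing p. If some p-element x of G (possibly x = 1) has centralizer whose order has p-part at most p², then the principal p-block of G contains at most p² irreducible characters of degree prime to p. -/
theorem result {G : Type*} [Group G] [Finite G] (p : ℕ) [Fact p.Prime] (M : Ideal Cfsg.AlgInt) (hM : Cfsg.IsPModular p M)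
    (hx : ∃ x : G, (∃ k : ℕ, orderOf x = p ^ k) ∧ (Nat.card (Subgroup.centralizer ({x} : Set G))).factorization p ≤ 2) :
    Nat.card {χ : Cfsg.IrrCharacter G // χ ∈ Cfsg.principalBlock M G ∧ ¬ p ∣ Cfsg.charDegree (χ : G → ℂ)} ≤ p ^ 2 := by
  classical
  have := CfsgLib.Blocks.isMaximal_of_isPModular hM
  have hp : p.Prime := Fact.out
  haveI := Fintype.ofFinite G
  -- the defect of a principal block is the whole exponent
  have hdef : ∀ (K : Subgroup G), blockDefect p (principalBlock M K) = (Nat.card K).factorization p := by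
    intro K
    have h : CfsgLib.Blocks.HeightZero.minExp p (principalBlock M K) ≤
        (charDegree ((CfsgLib.Chars.oneChar K : IrrCharacter K) : K → ℂ)).factorization p :=
      CfsgLib.Blocks.HeightZero.minExp_le (CfsgLib.Blocks.PrincipalLinear.one_mem hM)
    rw [CfsgLib.Chars.oneChar_coe, show charDegree (fun _ : K => (1 : ℂ)) = 1 by
      simp [charDegree], Nat.factorization_one, Finsupp.zero_apply] at h
    rw [CfsgLib.Blocks.HeightZero.blockDefect_eq]
    omega
  have hdefG : blockDefect p (principalBlock M G) = (Nat.card G).factorization p := by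
    have h : CfsgLib.Blocks.HeightZero.minExp p (principalBlock M G) ≤
        (charDegree ((CfsgLib.Chars.oneChar G : IrrCharacter G) : G → ℂ)).factorization p :=
      CfsgLib.Blocks.HeightZero.minExp_le (CfsgLib.Blocks.PrincipalLinear.one_mem hM)
    rw [CfsgLib.Chars.oneChar_coe, show charDegree (fun _ : G => (1 : ℂ)) = 1 by
      simp [charDegree], Nat.factorization_one, Finsupp.zero_apply] at h
    rw [CfsgLib.Blocks.HeightZero.blockDefect_eq]
    omega
  have hB := CfsgLib.Blocks.PrincipalLinear.isPBlock_principal (G := G) M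
  set B := principalBlock M G with hBdef
  set S₀ := B.toFinite.toFinset.filter (fun χ : IrrCharacter G => ¬ p ∣ charDegree (χ : G → ℂ))
    with hS₀
  have hcard : Nat.card {χ : IrrCharacter G // χ ∈ B ∧ ¬ p ∣ charDegree (χ : G → ℂ)} = S₀.card := by
    rw [Nat.card_eq_fintype_card, Fintype.card_subtype]
    congr 1
    ext χ
    simp [hS₀]
  rw [hcard]
  obtain ⟨x, ⟨k, hk⟩, hC⟩ := hx
  rcases Nat.eq_zero_or_pos k with rfl | hk0
  · -- `x = 1`
    rw [pow_zero, orderOf_eq_one_iff] at hk
    subst hk
    have htop : Subgroup.centralizer ({(1 : G)} : Set G) = ⊤ := by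
      ext y; simp [Subgroup.mem_centralizer_singleton_iff]
    rw [htop, Subgroup.card_top] at hC
    calc S₀.card ≤ B.toFinite.toFinset.card := Finset.card_filter_le _ _
      _ = Nat.card B := by rw [Nat.card_coe_set_eq, Set.ncard_eq_toFinset_card B B.toFinite]
      _ ≤ p ^ blockDefect p B :=
          CfsgLib.Blocks.Contrib.natCard_le_of_defect_le_two hM hB (hdefG ▸ hC)
      _ ≤ p ^ 2 := Nat.pow_le_pow_right hp.pos (hdefG ▸ hC)
  obtain ⟨n, rfl⟩ : ∃ n, k = n + 1 := ⟨k - 1, by omega⟩
  set H := Subgroup.centralizer ({x} : Set G) with hH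
  haveI := Fintype.ofFinite H
  have hxH : x ∈ H := Subgroup.mem_centralizer_singleton_iff.2 rfl
  have hu : x ^ p ^ (n + 1) = 1 := hk ▸ pow_orderOf_eq_one x
  set z : H := (⟨x, hxH⟩ : H) ^ p ^ n with hz
  have hxc : (⟨x, hxH⟩ : H) ∈ Subgroup.center H :=
    Subgroup.mem_center_iff.2 fun c => Subtype.ext (Subgroup.mem_centralizer_singleton_iff.1 c.2)
  have hzp : orderOf z = p := by
    rw [hz, orderOf_pow' _ (pow_ne_zero _ hp.ne_zero), Subgroup.orderOf_mk, hk, pow_succ,
      Nat.gcd_eq_right (dvd_mul_right _ _), Nat.mul_div_cancel_left _ (pow_pos hp.pos n)]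
  have hd1 : 1 ≤ blockDefect p (principalBlock M H) := by
    rw [hdef]
    have hdvd : p ∣ Nat.card H := hzp ▸ orderOf_dvd_natCard z
    exact (Nat.Prime.dvd_iff_one_le_factorization hp Nat.card_pos.ne').1 hdvd
  have hind := (CfsgLib.Blocks.HeightZero.isInducedBlock_principal_iff hM ⟨n + 1, hk⟩
    (CfsgLib.Blocks.PrincipalLinear.isPBlock_principal (G := H) M)).2 rfl
  have hd2 : blockDefect p (principalBlock M H) ≤ 2 := by rw [hdef]; exact hC
  refine le_trans (CfsgLib.Blocks.Contrib.card_le_of_central hM hH hu hind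
    (Subgroup.pow_mem _ hxc _) hzp hd1 hd2 S₀
    (fun χ hχ => (Set.Finite.mem_toFinset _).1 (Finset.mem_filter.1 hχ).1)
    fun χ hχ j _ _ => ?_) (Nat.pow_le_pow_right hp.pos hd2)
  obtain ⟨hχB, hχp⟩ := Finset.mem_filter.1 hχ
  rw [Set.Finite.mem_toFinset] at hχB
  have h0 : blockHeight p B (χ : G → ℂ) = 0 := by
    rw [blockHeight, Nat.factorization_eq_zero_of_not_dvd hχp, Nat.zero_sub]
  refine ⟨χ, hχB, fun h => CfsgLib.Blocks.Contrib.not_memLocalIdeal_contrib_one hM hind hχB h0 hχB h0
    ((CfsgLib.Blocks.Contrib.congr_contrib_one hM hind.1 hH hu j χ χ).mem_iff.1 ?_)⟩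
  rw [h]
  exact CfsgLib.Blocks.memLocalIdeal_zero

end Cfsg.Agent.S4588
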