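import Cfsg.Statements.S4591
import Cfsg.Agent.Chars.Apps.PPrimeDegree
import Cfsg.Agent.Transfer.Tate
import Cfsg.Agent.PGroup.Frattini
import Cfsg.Agent.Eq.Def_Characters
import Cfsg.Agent.Eq.Def_Blocks
import Cfsg.Agent.Eq.Def_CharExt
import Mathlib.GroupTheory.FiniteAbelian.Duality

set_option autoImplicit false
open Cfsg

namespace Cfsg.Agent.S4591

open CfsgLib.Chars CfsgLib.Chars.Induced CfsgLib.Chars.Apps

section aux

variable {G : Type*} [Group G] [Fintype G] {p : ℕ} [Fact p.Prime]

/-- A normal subgroup in which a Sylow subgroup has trivial centraliser has order prime to `p`. -/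
theorem not_dvd_card (P : Sylow p G) (N : Subgroup G) [N.Normal]
    (hN : N ⊓ Subgroup.centralizer ((P : Subgroup G) : Set G) = ⊥) : ¬ p ∣ Nat.card N := by
  intro hd
  obtain ⟨n, hn⟩ := exists_prime_orderOf_dvd_card' p hd
  have hpg : IsPGroup p (Subgroup.zpowers (n : G)) :=
    IsPGroup.of_card (n := 1) (by rw [Nat.card_zpowers, Subgroup.orderOf_coe, hn, pow_one])
  obtain ⟨S, hS⟩ := hpg.exists_le_sylow
  obtain ⟨g, hg⟩ := MulAction.exists_smul_eq G S P
  have hmem : g * (n : G) * g⁻¹ ∈ N ⊓ (P : Subgroup G) :=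
    ⟨Subgroup.Normal.conj_mem inferInstance _ n.2 g, by
      rw [← hg]; exact ⟨n, hS (Subgroup.mem_zpowers _), rfl⟩⟩
  have hn1 : g * (n : G) * g⁻¹ ≠ 1 := by
    intro h
    rw [mul_inv_eq_one, mul_eq_left] at h
    rw [show n = 1 from Subtype.ext h, orderOf_one] at hn
    exact (Fact.out : p.Prime).one_lt.ne hn
  set Q : Subgroup (P : Subgroup G) := N.subgroupOf (P : Subgroup G) with hQ
  have hQn : Q.Normal := Subgroup.Normal.comap inferInstance _
  have hQ' : Q ≠ ⊥ := fun h => hn1 (by
    have : (⟨_, hmem.2⟩ : (P : Subgroup G)) ∈ Q := Subgroup.mem_subgroupOf.2 hmem.1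
    rw [h, Subgroup.mem_bot] at this
    exact congrArg Subtype.val this)
  -- the centre of a finite `p`-group meets a nontrivial normal subgroup
  let _ : MulAction (P : Subgroup G) Q :=
    { smul := fun s q => ⟨s * q.1 * s⁻¹, hQn.conj_mem _ q.2 s⟩
      one_smul := fun q => Subtype.ext
        (show (1 : (P : Subgroup G)) * q.1 * (1 : (P : Subgroup G))⁻¹ = q.1 by group)
      mul_smul := fun s t q => Subtype.ext
        (show s * t * q.1 * (s * t)⁻¹ = s * (t * q.1 * t⁻¹) * s⁻¹ by group) }
  have hdvd : p ∣ Nat.card Q := by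
    obtain ⟨k, hk⟩ := IsPGroup.iff_card.1 (P.2.to_subgroup Q)
    rcases Nat.eq_zero_or_pos k with rfl | hk0
    · exact absurd (Subgroup.card_eq_one.1 (by simpa using hk)) hQ'
    · exact hk ▸ dvd_pow_self p hk0.ne'
  have hone : (1 : Q) ∈ MulAction.fixedPoints (P : Subgroup G) Q := fun s =>
    Subtype.ext (show s * ((1 : Q) : (P : Subgroup G)) * s⁻¹ = ((1 : Q) : (P : Subgroup G)) by simp)
  obtain ⟨z, hz, hz1⟩ := P.2.exists_fixed_point_of_prime_dvd_card_of_fixed_point Q hdvd hone
  refine hz1 ?_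
  have h1 : (z.1 : G) ∈ N ⊓ Subgroup.centralizer ((P : Subgroup G) : Set G) := by
    refine ⟨Subgroup.mem_subgroupOf.1 z.2, fun s hs => ?_⟩
    have h2 : s * (z.1 : G) * s⁻¹ = z.1 :=
      congrArg (fun w : Q => ((w.1 : (P : Subgroup G)) : G)) (hz ⟨s, hs⟩)
    calc s * (z.1 : G) = s * (z.1 : G) * s⁻¹ * s := by group
      _ = (z.1 : G) * s := by rw [h2]
  rw [hN, Subgroup.mem_bot] at h1
  exact Subtype.ext (Subtype.ext h1.symm)

/-- Characters of degree prime to `p` are trivial on the core of `N P'`. -/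
theorem core_le_ker (P : Sylow p G) (N : Subgroup G) [N.Normal]
    (hN : N ⊓ Subgroup.centralizer ((P : Subgroup G) : Set G) = ⊥) (χ : IrrCharacter G)
    (hχ : ¬ p ∣ charDegree (χ : G → ℂ)) :
    ∀ g ∈ (N ⊔ ⁅(P : Subgroup G), (P : Subgroup G)⁆).normalCore,
      (χ : G → ℂ) g = (χ : G → ℂ) 1 := by
  classical
  have hNp := not_dvd_card P N hN
  -- `N` is in the kernel
  have hker : ∀ n ∈ N, (χ : G → ℂ) n = (χ : G → ℂ) 1 := by
    obtain ⟨θ, hθ, hθ'⟩ := exists_invariant_constituent (N := N) (P : Subgroup G) P.2 χ hχ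
    rw [eq_oneChar_of_invariant (P : Subgroup G) P.2 hNp hN θ hθ'] at hθ
    exact eq_map_one_of_mult_oneChar N χ hθ
  have hker' : N ≤ charKer (χ : G → ℂ) := (le_charKer_iff (isCharacter_coe χ)).2 hker
  set D := ⁅(P : Subgroup G), (P : Subgroup G)⁆ with hD
  set M := (N ⊔ D).normalCore with hM
  set E : Subgroup G := M ⊓ D with hE
  have hNM : N ≤ M := Subgroup.normal_le_normalCore.2 le_sup_left
  have hDP : D ≤ (P : Subgroup G) :=
    Subgroup.commutator_le.2 fun a ha b hb => by
      rw [commutatorElement_def]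
      exact mul_mem (mul_mem (mul_mem ha hb) (inv_mem ha)) (inv_mem hb)
  have hEP : E ≤ (P : Subgroup G) := inf_le_right.trans hDP
  -- the restriction to `E` has a trivial constituent
  have hE1 : mult (fun e : E => (χ : G → ℂ) e) (oneChar E) ≠ 0 := by
    obtain ⟨l, hl⟩ := exists_linear_constituent P.2
      (isCharacter_restrict (isCharacter_coe χ) (P : Subgroup G)) (d := charDegree (χ : G → ℂ))
      (by rw [coe_charDegree χ]; rfl) hχ
    have hle := mult_mul_mult_le_restrict (Subgroup.inclusion hEP)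
      (isCharacter_restrict (isCharacter_coe χ) (P : Subgroup G)) (linChar l) (oneChar E)
    have hl1 : mult (fun e : E => (linChar l : ↥(P : Subgroup G) → ℂ) (Subgroup.inclusion hEP e))
        (oneChar E) ≠ 0 := by
      have hone : (fun e : E => (linChar l : ↥(P : Subgroup G) → ℂ) (Subgroup.inclusion hEP e)) =
          (oneChar E : E → ℂ) := by
        funext e
        rw [linChar_apply, oneChar_apply]
        have hc : Subgroup.inclusion hEP e ∈ commutator (P : Subgroup G) := by
          have he : (e : G) ∈ (commutator (P : Subgroup G)).map (P : Subgroup G).subtype := by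
            rw [Subgroup.map_subtype_commutator]
            exact e.2.2
          obtain ⟨c, hc, hce⟩ := he
          rwa [show c = Subgroup.inclusion hEP e from Subtype.ext hce] at hc
        rw [(MonoidHom.mem_ker).1 (Abelianization.commutator_subset_ker l hc)]
        rfl
      rw [hone]
      apply Nat.cast_ne_zero (R := ℂ) |>.1
      rw [← classInner_eq_mult (isCharacter_coe _), classInner_irr_self]
      exact one_ne_zero
    exact fun h0 => Nat.mul_ne_zero hl hl1 (Nat.eq_zero_of_le_zero (hle.trans_eq h0))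
  -- hence so does the restriction to `M`
  have hdisj : N ⊓ E = ⊥ := by
    refine (Subgroup.disjoint_of_coprime_natCard ?_).eq_bot
    obtain ⟨k, hk⟩ := IsPGroup.iff_card.1 (P.2.to_le hEP)
    rw [hk]
    exact Nat.Coprime.pow_right _ ((Fact.out : p.Prime).coprime_iff_not_dvd.2 hNp).symm
  let f : N × E → M := fun x => ⟨x.1 * x.2, mul_mem (hNM x.1.2) x.2.2.1⟩
  have hf : Function.Bijective f := by
    refine ⟨?_, fun m => ?_⟩
    · rintro ⟨a, b⟩ ⟨a', b'⟩ h
      have hab : (a : G) * b = a' * b' := congrArg Subtype.val h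
      have hx : (a' : G)⁻¹ * a ∈ N ⊓ E := by
        refine Subgroup.mem_inf.2 ⟨mul_mem (inv_mem a'.2) a.2, ?_⟩
        rw [show (a' : G)⁻¹ * a = b' * (b : G)⁻¹ by
          rw [eq_mul_inv_iff_mul_eq, mul_assoc, hab, inv_mul_cancel_left]]
        exact mul_mem b'.2 (inv_mem b.2)
      rw [hdisj, Subgroup.mem_bot, inv_mul_eq_one] at hx
      rw [hx] at hab
      exact Prod.ext (Subtype.ext hx.symm) (Subtype.ext (mul_left_cancel hab))
    · have hm := Subgroup.normalCore_le _ m.2
      rw [← SetLike.mem_coe, Subgroup.normal_mul] at hm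
      obtain ⟨n, hn, d, hd, hnd⟩ := hm
      have hdM : d ∈ M := by
        rw [show d = n⁻¹ * (m : G) by rw [← hnd]; simp]
        exact mul_mem (inv_mem (hNM hn)) m.2
      exact ⟨(⟨n, hn⟩, ⟨d, hdM, hd⟩), Subtype.ext hnd⟩
  have hM1 : mult (fun m : M => (χ : G → ℂ) m) (oneChar M) ≠ 0 := by
    apply Nat.cast_ne_zero (R := ℂ) |>.1
    rw [← classInner_eq_mult (isCharacter_restrict (isCharacter_coe χ) M)]
    have h1 : classInner (fun e : E => (χ : G → ℂ) e) (oneChar E : E → ℂ) ≠ 0 := by
      rw [classInner_eq_mult (isCharacter_restrict (isCharacter_coe χ) E)]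
      exact Nat.cast_ne_zero.2 hE1
    simp only [classInner, oneChar_apply, map_one, mul_one] at h1 ⊢
    rw [← Equiv.sum_comp (Equiv.ofBijective f hf), Fintype.sum_prod_type]
    have hsum : ∀ n : N, ∑ e : E, (χ : G → ℂ) (Equiv.ofBijective f hf (n, e) : G) =
        ∑ e : E, (χ : G → ℂ) e := fun n => Finset.sum_congr rfl fun e _ =>
      map_mul_of_mem_charKer (hker' n.2) _
    simp only [hsum, Finset.sum_const, Finset.card_univ, nsmul_eq_mul]
    exact mul_ne_zero (inv_ne_zero (Nat.cast_ne_zero.2 Nat.card_pos.ne'))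
      (mul_ne_zero (Nat.cast_ne_zero.2 Fintype.card_ne_zero) (right_ne_zero_of_mul h1))
  exact eq_map_one_of_mult_oneChar M χ hM1

/-- Elements of the Sylow subgroup in every kernel of degree prime to `p` are in the derived
subgroup of the Sylow subgroup. -/
theorem inf_le_commutator (P : Sylow p G) (K : Subgroup G) [K.Normal]
    (hK : ∀ χ : IrrCharacter G, ¬ p ∣ charDegree (χ : G → ℂ) → ∀ g ∈ K,
      (χ : G → ℂ) g = (χ : G → ℂ) 1) :
    K ⊓ (P : Subgroup G) ≤ (commutator (P : Subgroup G)).map (P : Subgroup G).subtype := by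
  classical
  intro x hx
  refine ⟨⟨x, hx.2⟩, ?_, rfl⟩
  by_contra hne
  obtain ⟨φ, hφ⟩ := CommGroup.exists_apply_ne_one_of_hasEnoughRootsOfUnity
    (Abelianization (P : Subgroup G)) ℂ (a := Abelianization.of ⟨x, hx.2⟩)
    (fun h => hne ((QuotientGroup.eq_one_iff _).1 h))
  set l : (P : Subgroup G) →* ℂˣ := φ.comp Abelianization.of with hl
  obtain ⟨χ, hχ, hχl⟩ := exists_not_dvd_over (p := p) (P : Subgroup G) P.not_dvd_index (linChar l)
    (by
      rw [(charDegree_eq_one_iff (linChar l)).2 (by simp [linChar_apply])]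
      exact (Fact.out : p.Prime).not_dvd_one)
  set Q : Subgroup (P : Subgroup G) := K.subgroupOf (P : Subgroup G)
  have hle := mult_mul_mult_le_restrict Q.subtype
    (isCharacter_restrict (isCharacter_coe χ) (P : Subgroup G)) (linChar l)
    (linChar (l.comp Q.subtype))
  have h1 : mult (fun q : Q => (linChar l : ↥(P : Subgroup G) → ℂ) (Q.subtype q))
      (linChar (l.comp Q.subtype)) ≠ 0 := by
    apply Nat.cast_ne_zero (R := ℂ) |>.1
    rw [show (fun q : Q => (linChar l : ↥(P : Subgroup G) → ℂ) (Q.subtype q)) =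
      (linChar (l.comp Q.subtype) : Q → ℂ) from funext fun q => by simp [linChar_apply],
      ← classInner_eq_mult (isCharacter_coe _), classInner_irr_self]
    exact one_ne_zero
  have h2 : mult (fun q : Q => (χ : G → ℂ) (Q.subtype q : (P : Subgroup G)))
      (linChar (l.comp Q.subtype)) ≠ 0 :=
    fun h0 => Nat.mul_ne_zero hχl h1 (Nat.eq_zero_of_le_zero (hle.trans_eq h0))
  apply h2
  apply Nat.cast_injective (R := ℂ)
  rw [← classInner_eq_mult (isCharacter_comp (isCharacter_restrict (isCharacter_coe χ)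
    (P : Subgroup G)) Q.subtype), Nat.cast_zero]
  have hconst : (fun q : Q => (χ : G → ℂ) (Q.subtype q : (P : Subgroup G))) =
      (χ : G → ℂ) 1 • (oneChar Q : Q → ℂ) := by
    funext q
    simp only [Pi.smul_apply, smul_eq_mul, oneChar_apply, mul_one]
    exact hK χ hχ _ q.2
  rw [hconst, CfsgLib.Chars.classInner_smul_left, classInner_irr_of_ne, mul_zero]
  intro h
  apply hφ
  have h3 := congrArg (fun ξ : IrrCharacter Q => (ξ : Q → ℂ) ⟨⟨x, hx.2⟩, hx.1⟩) h
  simp only [oneChar_apply, linChar_apply] at h3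
  exact Units.ext h3.symm

/-- A normal `p'`-subgroup in all kernels of degree prime to `p` is fixed point free. -/
theorem inf_centralizer_eq_bot (P : Sylow p G) (O : Subgroup G) [O.Normal]
    (hO : ¬ p ∣ Nat.card O)
    (hK : ∀ χ : IrrCharacter G, ¬ p ∣ charDegree (χ : G → ℂ) → ∀ g ∈ O,
      (χ : G → ℂ) g = (χ : G → ℂ) 1) :
    O ⊓ Subgroup.centralizer ((P : Subgroup G) : Set G) = ⊥ := by
  classical
  by_contra hC
  obtain ⟨θ, hθ1, hθP⟩ := exists_invariant_ne_oneChar (P : Subgroup G) P.2 hO hC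
  set H : Subgroup G := (P : Subgroup G) ⊔ O
  have hOH : O ≤ H := le_sup_right
  have hHin : H ≤ inertia O (θ : O → ℂ) :=
    sup_le hθP (le_inertia (isClassFunction_coe θ))
  set O' : Subgroup H := O.subgroupOf H
  have hO'n : O'.Normal := Subgroup.Normal.comap inferInstance _
  set e : O' ≃* O := Subgroup.subgroupOfEquivOfLe hOH
  set θ' : IrrCharacter O' := CfsgLib.Glauberman.irrPull e θ
  have hinv : ∀ h : H, conjFun O' h (θ' : O' → ℂ) = θ' := fun h =>
    mem_inertia.1 (mem_inertia_iff_forall.2 fun n n' hn =>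
      mem_inertia_iff_forall.1 (hHin h.2) (e n) (e n') (congrArg Subtype.val hn))
  have hdvd : charDegree (θ' : O' → ℂ) ∣ Nat.card O' := charDegree_dvd_card θ'
  have hcard : Nat.card O' = Nat.card O := Nat.card_congr e.toEquiv
  have hidx : ∃ k, O'.index = p ^ k := by
    obtain ⟨a, ha⟩ := IsPGroup.iff_card.1 P.2
    have h1 : O.relIndex H = O.relIndex (P : Subgroup G) :=
      Subgroup.relIndex_sup_right _ _
    have h2 : O'.index ∣ p ^ a := by
      rw [← ha]
      show O.relIndex H ∣ _
      rw [h1]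
      exact Subgroup.index_dvd_card _
    obtain ⟨k, -, hk⟩ := (Nat.dvd_prime_pow Fact.out).1 h2
    exact ⟨k, hk⟩
  obtain ⟨k, hk⟩ := hidx
  have hcop : Nat.Coprime O'.index
      (detOrder (θ' : O' → ℂ) * charDegree (θ' : O' → ℂ)) := by
    have h0 : Nat.Coprime O'.index (Nat.card O') := by
      rw [hk, hcard]
      exact Nat.Coprime.pow_left _ ((Fact.out : p.Prime).coprime_iff_not_dvd.2 hO)
    exact Nat.Coprime.mul_right (h0.coprime_dvd_right (detOrder_dvd_card (isCharacter_coe θ')))
      (h0.coprime_dvd_right hdvd)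
  obtain ⟨φ, hφ, -, -⟩ := exists_canonical_extension θ' hinv (coe_charDegree θ').symm hcop
  have hφdeg : ¬ p ∣ charDegree (φ : H → ℂ) := by
    have : charDegree (φ : H → ℂ) = charDegree (θ' : O' → ℂ) :=
      charDegree_eq_of_map_one (by rw [coe_charDegree θ']; exact hφ 1)
    rw [this]
    exact fun h => hO (hcard ▸ h.trans hdvd)
  obtain ⟨χ, hχ, hχφ⟩ := exists_not_dvd_over (p := p) H
    (fun h => P.not_dvd_index (h.trans (Subgroup.index_dvd_of_le le_sup_left))) φ hφdeg
  have hle := mult_mul_mult_le_restrict O'.subtype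
    (isCharacter_restrict (isCharacter_coe χ) H) φ θ'
  have h1 : mult (fun o : O' => (φ : H → ℂ) (O'.subtype o)) θ' ≠ 0 := by
    apply Nat.cast_ne_zero (R := ℂ) |>.1
    rw [show (fun o : O' => (φ : H → ℂ) (O'.subtype o)) = (θ' : O' → ℂ) from funext hφ,
      ← classInner_eq_mult (isCharacter_coe _), classInner_irr_self]
    exact one_ne_zero
  have h2 : mult (fun o : O' => (χ : G → ℂ) (O'.subtype o : H)) θ' ≠ 0 :=
    fun h0 => Nat.mul_ne_zero hχφ h1 (Nat.eq_zero_of_le_zero (hle.trans_eq h0))
  apply h2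
  apply Nat.cast_injective (R := ℂ)
  rw [← classInner_eq_mult (isCharacter_comp (isCharacter_restrict (isCharacter_coe χ) H)
    O'.subtype), Nat.cast_zero]
  have hconst : (fun o : O' => (χ : G → ℂ) (O'.subtype o : H)) =
      (χ : G → ℂ) 1 • (oneChar O' : O' → ℂ) := by
    funext o
    simp only [Pi.smul_apply, smul_eq_mul, oneChar_apply, mul_one]
    exact hK χ hχ _ o.2
  rw [hconst, CfsgLib.Chars.classInner_smul_left, classInner_irr_of_ne, mul_zero]
  intro h
  apply hθ1
  refine Subtype.ext (funext fun o => ?_)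
  have h3 := congrArg (fun ξ : IrrCharacter O' => (ξ : O' → ℂ) (e.symm o)) h
  simp only [oneChar_apply, θ', CfsgLib.Glauberman.irrPull_apply, MulEquiv.apply_symm_apply] at h3
  rw [oneChar_apply]
  exact h3.symm

end aux

/-- Let G be a finite group, p a prime and P a Sylow p-subgroup, and let N be the largest normal subgroup of G in which P has trivial centralizer (N is normal with C_N(P) = 1 and contains every normal subgroup with that property). Then the intersection of the kernels of the irreducible characters of G of degree prime to p is the normal core in G of the subgroup N·P' (P' the derived subgroup of P). In particular, when G has no nontrivial normal subgroup of order prime to p, that intersection is the normal core of P'. -/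
theorem result {G : Type*} [Group G] [Finite G] (p : ℕ) [Fact p.Prime] (P : Sylow p G) (N : Subgroup G) [N.Normal]
    (hN : N ⊓ Subgroup.centralizer ((P : Subgroup G) : Set G) = ⊥)
    (hmax : ∀ L : Subgroup G, L.Normal → L ⊓ Subgroup.centralizer ((P : Subgroup G) : Set G) = ⊥ → L ≤ N) :
    {g : G | ∀ χ : Cfsg.IrrCharacter G, ¬ p ∣ Cfsg.charDegree (χ : G → ℂ) → (χ : G → ℂ) g = (χ : G → ℂ) 1} =
      ((N ⊔ ⁅(P : Subgroup G), (P : Subgroup G)⁆).normalCore : Set G) := by
  classical
  cases nonempty_fintype G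
  ext g
  refine ⟨fun hg => ?_, fun hg χ hχ => core_le_ker P N hN χ hχ g hg⟩
  set K : Subgroup G := ⨅ χ : IrrCharacter G, ⨅ _ : ¬ p ∣ charDegree (χ : G → ℂ),
    charKer (χ : G → ℂ) with hKdef
  have hKn : K.Normal := Subgroup.normal_iInf_normal fun χ => Subgroup.normal_iInf_normal fun _ =>
    instNormalCharKer χ
  have hgK : g ∈ K := by
    rw [hKdef]
    simp only [Subgroup.mem_iInf]
    exact fun χ hχ => (mem_charKer_iff (isCharacter_coe χ)).2 (hg χ hχ)
  have hK : ∀ χ : IrrCharacter G, ¬ p ∣ charDegree (χ : G → ℂ) → ∀ x ∈ K,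
      (χ : G → ℂ) x = (χ : G → ℂ) 1 := by
    intro χ hχ x hx
    rw [hKdef] at hx
    simp only [Subgroup.mem_iInf] at hx
    exact map_eq_map_one_of_mem_charKer (hx χ hχ)
  have hKP : K ⊓ (P : Subgroup G) ≤ (frattini (P : Subgroup G)).map (P : Subgroup G).subtype :=
    (inf_le_commutator P K hK).trans
      (Subgroup.map_mono (CfsgLib.PGroup.commutator_le_frattini P.2))
  -- the normal `p`-complement of `K`
  set O := CfsgLib.Transfer.pPrimeGen p K with hOdef
  have hOn : O.Normal := CfsgLib.Transfer.pPrimeGen_normal K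
  have hOK : O ≤ K := CfsgLib.Transfer.pPrimeGen_le K
  have hbot : O ⊓ (P : Subgroup G) = ⊥ := by
    rw [← Subgroup.subgroupOf_map_subtype,
      CfsgLib.Transfer.pPrimeGen_inf_sylow_eq_bot P K hKP, Subgroup.map_bot]
  have hOp : ¬ p ∣ Nat.card O := fun h => by
    have : Fact p.Prime := inferInstance
    obtain ⟨x, hx⟩ := exists_prime_orderOf_dvd_card' p h
    have hpg : IsPGroup p (Subgroup.zpowers (x : G)) :=
      IsPGroup.of_card (n := 1) (by rw [Nat.card_zpowers, Subgroup.orderOf_coe, hx, pow_one])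
    obtain ⟨S, hS⟩ := hpg.exists_le_sylow
    obtain ⟨y, hy⟩ := MulAction.exists_smul_eq G S P
    have h1 : y * (x : G) * y⁻¹ ∈ O ⊓ (P : Subgroup G) :=
      ⟨hOn.conj_mem _ x.2 y, by rw [← hy]; exact ⟨x, hS (Subgroup.mem_zpowers _), rfl⟩⟩
    rw [hbot, Subgroup.mem_bot, mul_inv_eq_one, mul_eq_left] at h1
    rw [show x = 1 from Subtype.ext h1, orderOf_one] at hx
    exact (Fact.out : p.Prime).one_lt.ne hx
  have hON : O ≤ N := hmax O hOn
    (inf_centralizer_eq_bot P O hOp fun χ hχ x hx => hK χ hχ x (hOK hx))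
  -- `K` is generated by `O` and `K ⊓ P`
  have hKle : K ≤ O ⊔ (K ⊓ (P : Subgroup G)) := by
    set J := O ⊔ (K ⊓ (P : Subgroup G))
    set J' := J.subgroupOf K
    suffices J'.index = 1 by
      intro x hx
      rw [Subgroup.index_eq_one] at this
      have hmem : (⟨x, hx⟩ : K) ∈ J' := by rw [this]; trivial
      exact hmem
    have h1 : J'.index ∣ (O.subgroupOf K).index :=
      Subgroup.index_dvd_of_le fun x hx => Subgroup.mem_sup_left (S := O) hx
    have hquot : IsPGroup p (K ⧸ O.subgroupOf K) := by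
      intro t
      obtain ⟨m, rfl⟩ := QuotientGroup.mk'_surjective (O.subgroupOf K) t
      obtain ⟨a, ha⟩ := CfsgLib.Transfer.pow_mem_pPrimeGen (p := p) K m.2
      exact ⟨a, by
        rw [← map_pow]
        exact (QuotientGroup.eq_one_iff _).2 (Subgroup.mem_subgroupOf.2 (by simpa using ha))⟩
    obtain ⟨a, ha⟩ := IsPGroup.iff_card.1 hquot
    rw [← Subgroup.index_eq_card] at ha
    have h2 : J'.index ∣ ((P : Subgroup G).subgroupOf K).index :=
      Subgroup.index_dvd_of_le fun x hx => Subgroup.mem_sup_right (T := K ⊓ (P : Subgroup G))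
        ⟨x.2, hx⟩
    have h3 : ((P : Subgroup G).subgroupOf K).index ∣ (P : Subgroup G).index := by
      show (P : Subgroup G).relIndex K ∣ _
      have e1 : (P : Subgroup G).relIndex K * K.index = (K ⊓ (P : Subgroup G)).index := by
        rw [← Subgroup.relIndex_mul_index (inf_le_left : K ⊓ (P : Subgroup G) ≤ K),
          Subgroup.inf_relIndex_left]
      have e2 : K.relIndex (P : Subgroup G) * (P : Subgroup G).index =
          (K ⊓ (P : Subgroup G)).index := by
        rw [← Subgroup.relIndex_mul_index (inf_le_right : K ⊓ (P : Subgroup G) ≤ (P : Subgroup G)),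
          Subgroup.inf_relIndex_right]
      have e3 : K.relIndex (P : Subgroup G) ∣ K.index := by
        rw [← Subgroup.relIndex_sup_right (P : Subgroup G) K]
        exact Subgroup.relIndex_dvd_index_of_le le_sup_right
      obtain ⟨t, ht⟩ := e3
      refine ⟨t, Nat.eq_of_mul_eq_mul_left (show 0 < K.relIndex (P : Subgroup G) from
        Nat.pos_of_ne_zero Subgroup.index_ne_zero_of_finite) ?_⟩
      rw [e2, ← e1, ht]
      ring
    obtain ⟨b, -, hb⟩ := (Nat.dvd_prime_pow Fact.out).1 (ha ▸ h1)
    rcases Nat.eq_zero_or_pos b with rfl | hb0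
    · simpa using hb
    · exact absurd ((hb ▸ dvd_pow_self p hb0.ne').trans (h2.trans h3)) P.not_dvd_index
  have hKM : K ≤ N ⊔ ⁅(P : Subgroup G), (P : Subgroup G)⁆ :=
    hKle.trans (sup_le (hON.trans le_sup_left) (((inf_le_commutator P K hK).trans
      (by rw [Subgroup.map_subtype_commutator])).trans le_sup_right))
  exact Subgroup.normal_le_normalCore.2 hKM hgK

end Cfsg.Agent.S4591
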