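import Cfsg.Statements.S4593
import Cfsg.Agent.ZStarApps.Theorem
import Cfsg.Agent.ZStarApps.AbelianSylow

set_option autoImplicit false
open Cfsg

namespace Cfsg.Agent.S4593

/-- Let G be a finite group with trivial centre and no nontrivial normal subgroup of odd order, whose Sylow 2-subgroups are abelian, and let P be a Sylow 2-subgroup. Every automorphism of G of 2-power order that fixes P elementwise is inner. -/
theorem result {G : Type*} [Group G] [Finite G] (hZ : Subgroup.center G = ⊥) (hcore : Cfsg.pPrimeCore 2 G = ⊥) (P : Sylow 2 G) (hab : IsMulCommutative (P : Subgroup G))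
    (α : MulAut G) (h2 : ∃ j : ℕ, orderOf α = 2 ^ j) (hfix : ∀ x ∈ (P : Subgroup G), α x = x) :
    ∃ g : G, ∀ x : G, α x = g * x * g⁻¹ := CfsgLib.ZStarApps.exists_conj_eq_of_fix_sylow CfsgLib.ZStarApps.zStarShape hZ hcore P hab α h2 hfix

end Cfsg.Agent.S4593
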