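import Cfsg.Statements.S4601
import Cfsg.Agent.Constrained.PSolvable
import Cfsg.Agent.ClassSizes.NotDvdIndex
import Cfsg.Agent.Coprime.Glauberman

set_option autoImplicit false
open Cfsg

namespace Cfsg.Agent.S4601

universe u

open scoped Pointwise

theorem relIndex_sup_of_normal {G : Type u} [Group G] [Finite G] (H N : Subgroup G) [N.Normal] :
    H.relIndex (H ⊔ N) = H.relIndex N := by
  have c : ∀ A B : Subgroup G, A ≤ B → A.relIndex B * Nat.card A = Nat.card B := fun A B h => by
    rw [← Subgroup.relIndex_bot_left A, ← Subgroup.relIndex_bot_left B, mul_comm]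
    exact Subgroup.relIndex_mul_relIndex _ _ _ bot_le h
  have e1 := c H (H ⊔ N) le_sup_left
  have e2 := c N (H ⊔ N) le_sup_right
  have e3 := c (H ⊓ N) H inf_le_left
  have e4 := c (H ⊓ N) N inf_le_right
  rw [Subgroup.relIndex_sup_right] at e2
  rw [inf_comm, Subgroup.inf_relIndex_right, inf_comm] at e3
  rw [Subgroup.inf_relIndex_right] at e4
  have hpos : 0 < N.relIndex H := Nat.pos_of_ne_zero (Subgroup.index_ne_zero_of_finite (H := N.subgroupOf H))
  have hc : 0 < Nat.card (H ⊓ N : Subgroup G) := Nat.card_pos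
  refine Nat.eq_of_mul_eq_mul_right hc (Nat.eq_of_mul_eq_mul_left hpos ?_)
  rw [e4]
  calc N.relIndex H * (H.relIndex (H ⊔ N) * Nat.card (H ⊓ N : Subgroup G))
      = H.relIndex (H ⊔ N) * (N.relIndex H * Nat.card (H ⊓ N : Subgroup G)) := by ring
    _ = Nat.card (H ⊔ N : Subgroup G) := by rw [e3, e1]
    _ = _ := e2.symm

theorem card_sylow_eq_quotient_mul {G : Type u} [Group G] [Finite G] (p : ℕ) [Fact p.Prime]
    (N : Subgroup G) [N.Normal] (P : Sylow p G) :
    Nat.card (Sylow p G) = Nat.card (Sylow p (G ⧸ N)) *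
      (Subgroup.normalizer ((P : Subgroup G) : Set G)).relIndex N := by
  set f := QuotientGroup.mk' N with hf'
  have hf : Function.Surjective f := QuotientGroup.mk'_surjective N
  set Pb := P.mapSurjective hf with hPb
  set M := (Subgroup.normalizer ((Pb : Subgroup (G ⧸ N)) : Set (G ⧸ N))).comap f with hM
  have hK : (Pb : Subgroup (G ⧸ N)).comap f = (P : Subgroup G) ⊔ N := by
    rw [hPb, Sylow.coe_mapSurjective, Subgroup.comap_map_eq, QuotientGroup.ker_mk']
  have hNM : Subgroup.normalizer ((P : Subgroup G) : Set G) ⊔ N = M := by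
    apply le_antisymm
    · refine sup_le (fun g hg => Subgroup.le_normalizer_map f ⟨g, hg, rfl⟩) (fun g hg => ?_)
      rw [hM, Subgroup.mem_comap, show f g = 1 from (QuotientGroup.eq_one_iff g).2 hg]
      exact one_mem _
    · intro g hg
      have hle : (P : Subgroup G) ≤ (P : Subgroup G) ⊔ N := le_sup_left
      have hQ : ((g • P : Sylow p G) : Subgroup G) ≤ (P : Subgroup G) ⊔ N := by
        rw [← hK, ← Subgroup.map_le_iff_le_comap]
        have hg' := Subgroup.mem_normalizer_iff.1 hg
        rintro _ ⟨x, hx, rfl⟩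
        rw [Sylow.coe_subgroup_smul, SetLike.mem_coe, Subgroup.mem_pointwise_smul_iff_inv_smul_mem] at hx
        have hx' : f (g⁻¹ * x * g) ∈ (Pb : Subgroup (G ⧸ N)) := ⟨g⁻¹ * x * g, show g⁻¹ * x * g ∈ (P : Subgroup G) by simpa using hx, rfl⟩
        have := (hg' _).1 hx'
        simpa [mul_assoc] using this
      obtain ⟨k, hk⟩ := MulAction.exists_smul_eq ↥((P : Subgroup G) ⊔ N) ((g • P).subtype hQ) (P.subtype hle)
      rw [Sylow.smul_subtype] at hk
      have hk' : ((k : G) * g) • P = P := by
        rw [mul_smul]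
        exact Sylow.subtype_injective hk
      have h1 : (k : G) * g ∈ Subgroup.normalizer ((P : Subgroup G) : Set G) :=
        Sylow.smul_eq_iff_mem_normalizer.1 hk'
      have hk2 : (k : G) ∈ Subgroup.normalizer ((P : Subgroup G) : Set G) ⊔ N :=
        sup_le_sup_right Subgroup.le_normalizer N k.2
      have := Subgroup.mul_mem _ (Subgroup.inv_mem _ hk2) (Subgroup.mem_sup_left (T := N) h1)
      simpa using this
  rw [← relIndex_sup_of_normal _ N, hNM, Sylow.card_eq_index_normalizer P,
    Sylow.card_eq_index_normalizer Pb, ← Subgroup.index_comap_of_surjective _ hf, mul_comm]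
  exact (Subgroup.relIndex_mul_index (show Subgroup.normalizer ((P : Subgroup G) : Set G) ≤ M from hNM ▸ le_sup_left)).symm

theorem exists_minimal_piece {G : Type u} [Group G] [Finite G] [Nontrivial G] (p q : ℕ)
    [Fact p.Prime] [Fact q.Prime] (hpq : p ≠ q)
    (h : Cfsg.IsPSolvable p G ∨ Cfsg.IsPSolvable q G) :
    ∃ N : Subgroup G, N.Normal ∧ N ≠ ⊥ ∧ (IsPGroup p N ∨ ¬ p ∣ Nat.card N ∨ ¬ q ∣ Nat.card N) := by
  rcases h with h | h
  · rcases CfsgLib.Constrained.IsPSolvable.core_ne_bot h with h1 | h1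
    · exact ⟨Cfsg.pCore p G, inferInstance, h1, Or.inl CfsgLib.Constrained.isPGroup_pCore⟩
    · exact ⟨Cfsg.pPrimeCore p G, inferInstance, h1, Or.inr (Or.inl CfsgLib.Constrained.pPrimeCore_not_dvd)⟩
  · rcases CfsgLib.Constrained.IsPSolvable.core_ne_bot h with h1 | h1
    · refine ⟨Cfsg.pCore q G, inferInstance, h1, Or.inr (Or.inl ?_)⟩
      obtain ⟨k, hk⟩ := IsPGroup.iff_card.1 (CfsgLib.Constrained.isPGroup_pCore (p := q) (G := G))
      rw [hk]
      exact fun hd => hpq ((Nat.prime_dvd_prime_iff_eq Fact.out Fact.out).1 ((Fact.out : p.Prime).dvd_of_dvd_pow hd))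
    · exact ⟨Cfsg.pPrimeCore q G, inferInstance, h1, Or.inr (Or.inr CfsgLib.Constrained.pPrimeCore_not_dvd)⟩

theorem not_dvd_relIndex {G : Type u} [Group G] [Finite G] (p q : ℕ) [Fact p.Prime] [Fact q.Prime]
    (N : Subgroup G) [N.Normal] (Q : Sylow q G)
    (hN : IsPGroup p N ∨ ¬ p ∣ Nat.card N ∨ ¬ q ∣ Nat.card N)
    (h : ∀ y : G, (∃ k : ℕ, orderOf y = q ^ k) → ¬ p ∣ (Subgroup.centralizer ({y} : Set G)).index) :
    ¬ p ∣ (Subgroup.normalizer ((Q : Subgroup G) : Set G)).relIndex N := by
  set H := Subgroup.normalizer ((Q : Subgroup G) : Set G) with hH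
  have hyq : ∀ y ∈ (Q : Subgroup G), ∃ k : ℕ, orderOf y = q ^ k := by
    intro y hy
    obtain ⟨k, hk⟩ := IsPGroup.iff_orderOf.1 Q.isPGroup' ⟨y, hy⟩
    exact ⟨k, by rw [← hk, ← Subgroup.orderOf_coe]⟩
  have hcent : Subgroup.centralizer ((Q : Subgroup G) : Set G) ≤ H := by
    intro g hg
    rw [hH, Subgroup.mem_normalizer_iff]
    intro x
    have hg' := Subgroup.mem_centralizer_iff.1 hg
    constructor
    · intro hx; rwa [← hg' x hx, mul_inv_cancel_right]
    · intro hx
      have e := hg' _ hx
      have e2 : g * x = x * g := mul_left_cancel (a := g) (by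
        calc g * (g * x) = g * (g * x * g⁻¹) * g := by group
          _ = (g * x * g⁻¹) * g * g := by rw [e]
          _ = g * (x * g) := by group)
      rwa [e2, mul_inv_cancel_right] at hx
  rcases hN with hN | hN | hN
  · have hNH : N ≤ H := by
      refine le_trans (fun n hn => Subgroup.mem_centralizer_iff.2 fun y hy => ?_) hcent
      obtain ⟨P, hP⟩ := CfsgLib.ClassSizes.exists_sylow_le_of_not_dvd_index _ (h y (hyq y hy))
      exact (Subgroup.mem_centralizer_singleton_iff.1 (hP (hN.le_sylow_of_normal P hn))).symm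
    rw [Subgroup.relIndex_eq_one.2 hNH]
    exact (Fact.out : p.Prime).not_dvd_one
  · exact fun hd => hN (hd.trans (Subgroup.relIndex_dvd_card _ _))
  · have htr0 : ∀ s t : Sylow p N, ∃ g : N, g • s = t := MulAction.exists_smul_eq N
    letI : MulAction G (Sylow p N) := MulAction.compHom (Sylow p N) (MulAut.conjNormal (H := N))
    have htr : ∀ s t : Sylow p N, ∃ g ∈ N, g • s = t := by
      intro s t
      obtain ⟨g, hg⟩ := htr0 s t
      refine ⟨g, g.2, ?_⟩
      rw [← hg]
      refine Sylow.ext ?_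
      show (MulAut.conjNormal (g : G)) • (s : Subgroup N) = MulAut.conj g • (s : Subgroup N)
      congr 1
      ext x
      simp [MulAut.conjNormal_apply]
    obtain ⟨P0, -, hP0⟩ := CfsgLib.Coprime.exists_fixed_of_isPGroup (α := Sylow p N) Q.isPGroup' hN
      (S := Set.univ) Set.univ_nonempty (fun _ _ _ _ => trivial) (fun _ _ _ _ => trivial)
      (fun s _ t _ => htr s t)
    have key : ∀ y ∈ (Q : Subgroup G), ∀ n : N, n ∈ (P0 : Subgroup N) → (n : G) * y = y * n := by
      intro y hy
      set C := Subgroup.centralizer ({y} : Set G) with hC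
      have hidx : ¬ p ∣ (C.subgroupOf N).index := by
        intro hd
        apply h y (hyq y hy)
        rw [show (C.subgroupOf N).index = C.relIndex N from rfl, ← relIndex_sup_of_normal] at hd
        exact hd.trans (Subgroup.relIndex_mul_index (le_sup_left : C ≤ C ⊔ N) ▸ dvd_mul_right _ _)
      obtain ⟨P1, hP1⟩ := CfsgLib.ClassSizes.exists_sylow_le_of_not_dvd_index _ hidx
      set A := Subgroup.zpowers y with hA
      have hAQ : A ≤ (Q : Subgroup G) := Subgroup.zpowers_le.2 hy
      have hcop : (Nat.card A).Coprime (Nat.card N) := by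
        obtain ⟨k, hk⟩ := hyq y hy
        rw [hA, Nat.card_zpowers, hk]
        exact Nat.Coprime.pow_left _ ((Nat.Prime.coprime_iff_not_dvd Fact.out).2 hN)
      have hsol : Group.IsSolvable A := inferInstance
      have hs : ∀ a ∈ A, a • P1 = P1 := by
        intro a ha
        refine Sylow.ext ?_
        show (MulAut.conjNormal a) • (P1 : Subgroup N) = (P1 : Subgroup N)
        have hfix : ∀ x ∈ (P1 : Subgroup N), MulAut.conjNormal a x = x := by
          intro x hx
          have hyx : y ∈ Subgroup.centralizer ({(x : G)} : Set G) :=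
            Subgroup.mem_centralizer_singleton_iff.2 (Subgroup.mem_centralizer_singleton_iff.1 (hP1 hx)).symm
          have hax := Subgroup.mem_centralizer_singleton_iff.1 (Subgroup.zpowers_le.2 hyx ha)
          refine Subtype.ext ?_
          rw [MulAut.conjNormal_apply, hax, mul_inv_cancel_right]
        refine le_antisymm ?_ ?_
        · rintro _ ⟨x, hx, rfl⟩
          rw [MulDistribMulAction.toMonoidEnd_apply]
          show MulAut.conjNormal a x ∈ (P1 : Subgroup N)
          rw [hfix x hx]; exact hx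
        · intro x hx
          exact ⟨x, hx, hfix x hx⟩
      obtain ⟨g, ⟨hgN, hgA⟩, hg⟩ := CfsgLib.Coprime.exists_centralizer_smul_eq (α := Sylow p N)
        (G := N) (by rw [Subgroup.normalizer_eq_top (H := N)]; exact le_top) hcop (Or.inl hsol) hs
        (fun a ha => hP0 a (hAQ ha)) (htr P1 P0)
      intro n hn
      rw [← hg] at hn
      obtain ⟨x, hx, rfl⟩ := (hn : n ∈ (MulAut.conjNormal g) • (P1 : Subgroup N))
      have hxy := Subgroup.mem_centralizer_singleton_iff.1 (hP1 hx)
      replace hxy : (x : G) * y = y * (x : G) := hxy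
      have hgy : y * g = g * y := Subgroup.mem_centralizer_iff.1 hgA y (Subgroup.mem_zpowers y)
      show ((MulAut.conjNormal g x : N) : G) * y = y * ((MulAut.conjNormal g x : N) : G)
      rw [MulAut.conjNormal_apply]
      have hgy' : y * g⁻¹ = g⁻¹ * y := by
        calc y * g⁻¹ = g⁻¹ * (g * y) * g⁻¹ := by group
          _ = g⁻¹ * y := by rw [← hgy]; group
      calc g * (x : G) * g⁻¹ * y = g * ((x : G) * y) * g⁻¹ := by
            rw [mul_assoc (g * (x : G)), ← hgy']; group
        _ = (g * y) * (x : G) * g⁻¹ := by rw [hxy]; group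
        _ = y * (g * (x : G) * g⁻¹) := by rw [← hgy]; group
    have hle : (P0 : Subgroup N) ≤ H.subgroupOf N := fun n hn =>
      hcent (Subgroup.mem_centralizer_iff.2 fun y hy => (key y hy n hn).symm)
    exact fun hd => P0.not_dvd_index (hd.trans (Subgroup.index_dvd_of_le hle))

theorem main : ∀ (n : ℕ) (G : Type u) [Group G] [Finite G], Nat.card G ≤ n →
    ∀ (p q : ℕ) [Fact p.Prime] [Fact q.Prime], p ≠ q → (Cfsg.IsPSolvable p G ∨ Cfsg.IsPSolvable q G) →
    (∀ y : G, (∃ k : ℕ, orderOf y = q ^ k) → ¬ p ∣ (Subgroup.centralizer ({y} : Set G)).index) →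
      ¬ p ∣ Nat.card (Sylow q G) := by
  intro n
  induction n with
  | zero => intro G _ _ h; exact absurd h (Nat.not_le.2 Nat.card_pos)
  | succ n ih =>
    intro G _ _ hn p q _ _ hpq hsolv h
    rcases subsingleton_or_nontrivial G with hs | hs
    · have : Subsingleton (Sylow q G) := ⟨fun A B => Sylow.ext (Subsingleton.elim _ _)⟩
      rw [Nat.card_of_subsingleton (Classical.arbitrary (Sylow q G))]
      exact (Fact.out : p.Prime).not_dvd_one
    obtain ⟨N, hN, hN1, hNc⟩ := exists_minimal_piece p q hpq hsolv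
    obtain ⟨Q⟩ := (inferInstance : Nonempty (Sylow q G))
    rw [card_sylow_eq_quotient_mul q N Q]
    have hlt : Nat.card (G ⧸ N) ≤ n := by
      have h1 := N.card_eq_card_quotient_mul_card_subgroup
      have h2 : 1 < Nat.card N := (Subgroup.one_lt_card_iff_ne_bot _).2 hN1
      have h3 : Nat.card (G ⧸ N) < Nat.card G := by
        rw [h1]; exact lt_mul_of_one_lt_right Nat.card_pos h2
      omega
    have hq' : ¬ p ∣ Nat.card (Sylow q (G ⧸ N)) := by
      refine ih (G ⧸ N) hlt p q hpq (hsolv.imp (fun h => CfsgLib.Constrained.IsPSolvable.quotient h N)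
        (fun h => CfsgLib.Constrained.IsPSolvable.quotient h N)) ?_
      rintro y ⟨k, hk⟩ hd
      obtain ⟨x, rfl⟩ := QuotientGroup.mk'_surjective N y
      set m := orderOf x / q ^ (orderOf x).factorization q with hm
      have hmq : m.Coprime (q ^ k) :=
        Nat.Coprime.pow_right _ (Nat.coprime_ordCompl (Fact.out : q.Prime) (orderOf_pos x).ne').symm
      obtain ⟨j, hj⟩ := CfsgLib.Coprime.exists_mul_modEq_one hmq
      refine h (x ^ (j * m)) ?_ ?_
      · have hpow : (x ^ (j * m)) ^ q ^ (orderOf x).factorization q = 1 := by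
          rw [← pow_mul, mul_assoc, mul_comm m, Nat.ordProj_mul_ordCompl_eq_self, mul_comm, pow_mul,
            pow_orderOf_eq_one, one_pow]
        obtain ⟨i, -, hi⟩ := (Nat.dvd_prime_pow (Fact.out : q.Prime)).1 (orderOf_dvd_of_pow_eq_one hpow)
        exact ⟨i, hi⟩
      · have himg : QuotientGroup.mk' N (x ^ (j * m)) = QuotientGroup.mk' N x := by
          rw [map_pow]
          conv_rhs => rw [← pow_one (QuotientGroup.mk' N x)]
          rw [pow_eq_pow_iff_modEq, hk]
          exact hj
        refine hd.trans ((Subgroup.index_dvd_of_le ?_).trans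
          (Subgroup.index_map_dvd (H := Subgroup.centralizer ({x ^ (j * m)} : Set G)) (QuotientGroup.mk'_surjective N)))
        rintro _ ⟨c, hc, rfl⟩
        rw [Subgroup.mem_centralizer_singleton_iff, ← himg, ← map_mul, ← map_mul,
          Subgroup.mem_centralizer_singleton_iff.1 hc]
    exact fun hd => ((Fact.out : p.Prime).dvd_mul.1 hd).elim hq' (not_dvd_relIndex p q N Q hNc h)

/-- Let p and q be primes and G a finite group that is p-solvable or q-solvable, in which no q-element has conjugacy class size divisible by p. Then some Sylow p-subgroup of G normalizes some Sylow q-subgroup of G. -/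
theorem result {G : Type*} [Group G] [Finite G] (p q : ℕ) [Fact p.Prime] [Fact q.Prime] (hsolv : Cfsg.IsPSolvable p G ∨ Cfsg.IsPSolvable q G)
    (h : ∀ y : G, (∃ k : ℕ, orderOf y = q ^ k) → ¬ p ∣ (Subgroup.centralizer ({y} : Set G)).index) :
    ∃ (P : Sylow p G) (Q : Sylow q G), (P : Subgroup G) ≤ Subgroup.normalizer ((Q : Subgroup G) : Set G) := by
  by_cases hpq : p = q
  · subst hpq
    obtain ⟨P⟩ := (inferInstance : Nonempty (Sylow p G))
    exact ⟨P, P, Subgroup.le_normalizer⟩
  obtain ⟨Q⟩ := (inferInstance : Nonempty (Sylow q G))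
  have hmain := main _ G le_rfl p q hpq hsolv h
  rw [Sylow.card_eq_index_normalizer Q] at hmain
  obtain ⟨P, hP⟩ := CfsgLib.ClassSizes.exists_sylow_le_of_not_dvd_index _ hmain
  exact ⟨P, Q, hP⟩

end Cfsg.Agent.S4601
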