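import Cfsg.Statements.S4602
import Cfsg.Agent.Constrained.HallHigman

set_option autoImplicit false
open Cfsg

namespace Cfsg.Agent.S4602

/-- Let G be a finite p-solvable group and q a prime different from p. Some Sylow p-subgroup of G normalizes some Sylow q-subgroup of G if and only if q does not divide the order of G/O_{p'}(G), the quotient by the largest normal subgroup of order prime to p. -/
theorem result {G : Type*} [Group G] [Finite G] (p q : ℕ) [Fact p.Prime] [Fact q.Prime] (hpq : p ≠ q) (hsolv : Cfsg.IsPSolvable p G) :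
    (∃ (P : Sylow p G) (Q : Sylow q G), (P : Subgroup G) ≤ Subgroup.normalizer ((Q : Subgroup G) : Set G)) ↔ ¬ q ∣ (Cfsg.pPrimeCore p G).index := by
  constructor
  · rintro ⟨P, Q, hPQ⟩ hdvd
    set f := QuotientGroup.mk' (Cfsg.pPrimeCore p G) with hf
    set R := Cfsg.pCore p (G ⧸ Cfsg.pPrimeCore p G) with hR
    have hQp : ¬ p ∣ Nat.card ↥(Q : Subgroup G) := by
      obtain ⟨n, hn⟩ := IsPGroup.iff_card.mp Q.isPGroup'
      rw [hn]
      exact fun h => hpq ((Nat.prime_dvd_prime_iff_eq Fact.out Fact.out).mp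
        ((Fact.out : p.Prime).dvd_of_dvd_pow h))
    have hRP : R ≤ (P : Subgroup G).map f := CfsgLib.Constrained.isPGroup_pCore.le_sylow_of_normal
      (P.mapSurjective (QuotientGroup.mk'_surjective (Cfsg.pPrimeCore p G)))
    have hRQ : R ≤ Subgroup.normalizer (((Q : Subgroup G).map f : Subgroup _) :
        Set (G ⧸ Cfsg.pPrimeCore p G)) :=
      hRP.trans ((Subgroup.map_mono hPQ).trans (Subgroup.le_normalizer_map _))
    have hcent : (Q : Subgroup G).map f ≤ Subgroup.centralizer (R : Set (G ⧸ Cfsg.pPrimeCore p G)) := by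
      intro y hy
      rw [Subgroup.mem_centralizer_iff]
      intro r hr
      have h1 : y * r * y⁻¹ * r⁻¹ ∈ R ⊓ (Q : Subgroup G).map f := by
        refine ⟨R.mul_mem (Subgroup.Normal.conj_mem inferInstance r hr y) (R.inv_mem hr), ?_⟩
        show y * r * y⁻¹ * r⁻¹ ∈ (Q : Subgroup G).map f
        rw [mul_assoc, mul_assoc, ← mul_assoc r]
        exact mul_mem hy ((Subgroup.mem_normalizer_iff.mp (hRQ hr) _).mp (inv_mem hy))
      rw [CfsgLib.Constrained.disjoint_of_isPGroup_of_not_dvd CfsgLib.Constrained.isPGroup_pCore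
        (fun h => hQp (h.trans (CfsgLib.Constrained.card_map_dvd_card _ _))), Subgroup.mem_bot,
        mul_inv_eq_one, mul_inv_eq_iff_eq_mul] at h1
      exact h1.symm
    have hbot : (Q : Subgroup G).map f = ⊥ := by
      rw [eq_bot_iff, ← CfsgLib.Constrained.disjoint_of_isPGroup_of_not_dvd
        CfsgLib.Constrained.isPGroup_pCore
        (fun h => hQp (h.trans (CfsgLib.Constrained.card_map_dvd_card f (Q : Subgroup G))))]
      exact le_inf (hcent.trans (CfsgLib.Constrained.centralizer_pCore_quotient_le hsolv)) le_rfl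
    rw [Subgroup.map_eq_bot_iff, hf, QuotientGroup.ker_mk'] at hbot
    exact Q.not_dvd_index (hdvd.trans (Subgroup.index_dvd_of_le hbot))
  · intro hdvd
    set O := Cfsg.pPrimeCore p G with hO
    obtain ⟨Q₀⟩ : Nonempty (Sylow q ↥O) := inferInstance
    have hidx : ¬ q ∣ ((Q₀ : Subgroup ↥O).map O.subtype).index := by
      rw [Subgroup.index_map_subtype]
      intro h
      exact ((Fact.out : q.Prime).dvd_mul.mp h).elim Q₀.not_dvd_index hdvd
    let Q : Sylow q G := (Q₀.isPGroup'.map O.subtype).toSylow hidx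
    set N := Subgroup.normalizer ((Q : Subgroup G) : Set G) with hN
    have hsup : N ⊔ O = ⊤ := Sylow.normalizer_sup_eq_top Q₀
    obtain ⟨P₀⟩ : Nonempty (Sylow p ↥N) := inferInstance
    have hNidx : ¬ p ∣ N.index := by
      intro h
      rw [← Subgroup.relIndex_top_right, ← hsup, sup_comm] at h
      have h1 : Nat.card ↥N * N.relIndex (O ⊔ N) = Nat.card ↥(O ⊔ N) := by
        rw [← Subgroup.relIndex_bot_left N, ← Subgroup.relIndex_bot_left (O ⊔ N)]
        exact Subgroup.relIndex_mul_relIndex _ _ _ bot_le le_sup_right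
      have h2 : Nat.card ↥O * O.relIndex (O ⊔ N) = Nat.card ↥(O ⊔ N) := by
        rw [← Subgroup.relIndex_bot_left O, ← Subgroup.relIndex_bot_left (O ⊔ N)]
        exact Subgroup.relIndex_mul_relIndex _ _ _ bot_le le_sup_left
      rw [sup_comm, Subgroup.relIndex_sup_right, CfsgLib.Constrained.relIndex_eq_card_map] at h2
      rw [sup_comm N O] at h2
      have h3 : N.relIndex (O ⊔ N) ∣ Nat.card ↥O := by
        refine (Nat.mul_dvd_mul_iff_left (Nat.card_pos : 0 < Nat.card ↥N)).mp ?_
        rw [h1, ← h2, mul_comm (Nat.card ↥N)]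
        exact mul_dvd_mul_left _ (CfsgLib.Constrained.card_map_dvd_card _ _)
      exact CfsgLib.Constrained.pPrimeCore_not_dvd (h.trans h3)
    have hPidx : ¬ p ∣ ((P₀ : Subgroup ↥N).map N.subtype).index := by
      rw [Subgroup.index_map_subtype]
      intro h
      exact ((Fact.out : p.Prime).dvd_mul.mp h).elim P₀.not_dvd_index hNidx
    exact ⟨(P₀.isPGroup'.map N.subtype).toSylow hPidx, Q, Subgroup.map_subtype_le _⟩

end Cfsg.Agent.S4602
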