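import Cfsg.Statements.S4604
import Cfsg.Agent.Eq.Def_Blocks
import Cfsg.Agent.Blocks.DefectDegree
import Cfsg.Agent.Chars.Basic.Columns
import Mathlib.Algebra.CharP.Lemmas
import Mathlib.FieldTheory.Finite.Basic
import Mathlib.GroupTheory.Sylow

set_option autoImplicit false
open Cfsg
open scoped ComplexConjugate

namespace Cfsg.Agent.S4604

open CfsgLib

universe u

variable {G : Type u} [Group G] [Finite G]

/-- Frobenius congruence for a sum of algebraic integers. -/
theorem sum_pow_congr {p : ℕ} (hp : p.Prime) (a : ℕ) (s : Multiset AlgInt) :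
    ∃ γ : AlgInt, s.sum ^ p ^ a = (s.map (· ^ p ^ a)).sum + (p : AlgInt) * γ := by
  induction s using Multiset.induction with
  | empty => exact ⟨0, by simp [zero_pow (pow_ne_zero a hp.ne_zero)]⟩
  | cons z t ih =>
    obtain ⟨γ, hγ⟩ := ih
    obtain ⟨r, hr⟩ := exists_add_pow_prime_pow_eq hp z t.sum a
    refine ⟨γ + z * t.sum * r, ?_⟩
    rw [Multiset.sum_cons, Multiset.map_cons, Multiset.sum_cons, hr, hγ]
    ring

/-- `χ(g)^q` is congruent to `χ(g^q)` modulo `p` times algebraic integers. -/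
theorem value_pow_congr {χ : G → ℂ} (hχ : IsCharacter G χ) {p : ℕ} (hp : p.Prime) (a : ℕ) (g : G) :
    ∃ γ : AlgInt, χ g ^ p ^ a - χ (g ^ p ^ a) = (p : ℂ) * (γ : ℂ) := by
  obtain ⟨s, hs, -, hk⟩ := Chars.exists_roots hχ g
  have hint : ∀ z ∈ s, IsIntegral ℤ z := fun z hz =>
    IsIntegral.of_pow (orderOf_pos g) (by rw [hs z hz]; exact isIntegral_one)
  let t : Multiset AlgInt := s.attach.map fun z => ⟨z.1, hint z.1 z.2⟩
  have ht : t.map (fun x : AlgInt => (x : ℂ)) = s := by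
    simp only [t, Multiset.map_map]
    exact s.attach_map_val
  obtain ⟨γ, hγ⟩ := sum_pow_congr hp a t
  refine ⟨γ, ?_⟩
  have h1 := congrArg (fun x : AlgInt => (x : ℂ)) hγ
  simp only [AddMemClass.coe_add, MulMemClass.coe_mul, SubmonoidClass.coe_pow,
    SubringClass.coe_natCast, AddSubmonoidClass.coe_multiset_sum, Multiset.map_map] at h1
  have e1 : χ g = (t.map (fun x : AlgInt => (x : ℂ))).sum := by
    rw [ht]; simpa using hk 1
  have e2 : χ (g ^ p ^ a) = (t.map ((fun x : AlgInt => (x : ℂ)) ∘ (· ^ p ^ a))).sum := by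
    rw [hk]
    conv_lhs => rw [← ht, Multiset.map_map]
    rfl
  rw [e1, e2, h1]
  ring

omit [Finite G] in
/-- Singular elements are not conjugate to regular ones. -/
theorem eq_one_of_isConj_mul {p : ℕ} (hp : p.Prime) {g k u : G} (hk : ¬ p ∣ orderOf k)
    (hg : ¬ p ∣ orderOf g) (hcomm : Commute g u) {j : ℕ} (hu : orderOf u = p ^ j)
    (h : IsConj k (g * u)) : u = 1 := by
  obtain ⟨c, hc⟩ := isConj_iff.1 h
  have hord : orderOf k = orderOf g * p ^ j := by
    rw [← hu, ← hcomm.orderOf_mul_eq_mul_orderOf_of_coprime, ← hc]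
    · exact (SemiconjBy.orderOf_eq c (show SemiconjBy c k (c * k * c⁻¹) by
        simp [SemiconjBy])).trans rfl
    · rw [hu]
      exact Nat.Coprime.pow_right _ ((hp.coprime_iff_not_dvd.2 hg).symm)
  rcases Nat.eq_zero_or_pos j with hj | hj
  · exact orderOf_eq_one_iff.1 (by rw [hu, hj, pow_zero])
  · exact absurd (hord ▸ (dvd_pow_self p hj.ne').mul_left _) hk

/-- Characters congruent at two regular elements modulo a prime over `p`: the elements are
conjugate. -/
theorem isConj_of_congr {p : ℕ} [hp : Fact p.Prime] {g h : G} (hg : ¬ p ∣ orderOf g)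
    (hh : ¬ p ∣ orderOf h)
    (hcong : ∀ χ : IrrCharacter G, ∃ γ : AlgInt,
      (χ : G → ℂ) g - (χ : G → ℂ) h = (p : ℂ) * (γ : ℂ)) : IsConj g h := by
  classical
  have := Fintype.ofFinite G
  by_contra hne
  set C := Subgroup.centralizer ({g} : Set G) with hC
  obtain ⟨S⟩ : Nonempty (Sylow p C) := inferInstance
  let P : Subgroup G := (S : Subgroup C).map C.subtype
  have : Fintype P := Fintype.ofFinite P
  have hPcard : Nat.card P = Nat.card (S : Subgroup C) :=
    Subgroup.card_map_of_injective C.subtype_injective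
  have hPC : ∀ u ∈ P, g * u = u * g := by
    rintro u ⟨v, -, rfl⟩
    exact (Subgroup.mem_centralizer_singleton_iff.1 v.2).symm
  have hPp : ∀ u ∈ P, ∃ j, orderOf u = p ^ j := by
    intro u hu
    have hP : IsPGroup p P := S.isPGroup'.map C.subtype
    obtain ⟨j, hj⟩ := IsPGroup.iff_orderOf.1 hP ⟨u, hu⟩
    exact ⟨j, by rw [← hj, Subgroup.orderOf_mk]⟩
  choose γ hγ using hcong
  let c : IrrCharacter G → ℂ := fun χ =>
    conj ((Nat.card P : ℂ)⁻¹ * ∑ u : P, (χ : G → ℂ) (g * u))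
  have hc : ∀ χ, IsIntegral ℤ (c χ) := fun χ =>
    (Blocks.isIntegral_average (Chars.isCharacter_coe χ) P g hPC).map
      ((starRingEnd ℂ).toIntAlgHom)
  have hsum : ∀ k : G, ¬ p ∣ orderOf k → ∑ χ : IrrCharacter G, c χ * (χ : G → ℂ) k =
      (Nat.card P : ℂ)⁻¹ * if IsConj k g then
        (Nat.card (Subgroup.centralizer ({k} : Set G)) : ℂ) else 0 := by
    intro k hk
    simp only [c, map_mul, map_sum, map_inv₀, map_natCast, mul_assoc, Finset.sum_mul,
      ← Finset.mul_sum]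
    congr 1
    rw [Finset.sum_comm, Finset.sum_eq_single (1 : P)]
    · rw [OneMemClass.coe_one, mul_one, Finset.sum_congr rfl fun χ _ => mul_comm _ _]
      convert Chars.sum_irr_mul_conj k g using 1
      congr
    · intro u _ hu
      rw [Finset.sum_congr rfl fun χ _ => mul_comm _ _, Chars.sum_irr_mul_conj, if_neg]
      intro hconj
      obtain ⟨j, hj⟩ := hPp u u.2
      exact hu (Subtype.ext (eq_one_of_isConj_mul hp.out hk hg (hPC u u.2) hj hconj))
    · simp
  have hdiff : (p : ℂ) * ∑ χ : IrrCharacter G, c χ * (γ χ : ℂ) =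
      ((S : Subgroup C).index : ℂ) := by
    have e : (p : ℂ) * ∑ χ : IrrCharacter G, c χ * (γ χ : ℂ) =
        (∑ χ : IrrCharacter G, c χ * (χ : G → ℂ) g) -
          ∑ χ : IrrCharacter G, c χ * (χ : G → ℂ) h := by
      rw [Finset.mul_sum, ← Finset.sum_sub_distrib]
      exact Finset.sum_congr rfl fun χ _ => by
        rw [← mul_sub, hγ]
        ring
    rw [e, hsum g hg, hsum h hh, if_pos (IsConj.refl g), if_neg fun h' => hne h'.symm, mul_zero,
      sub_zero, ← hC, hPcard, ← (S : Subgroup C).card_mul_index, Nat.cast_mul,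
      inv_mul_cancel_left₀ (Nat.cast_ne_zero.2 Nat.card_pos.ne')]
  obtain ⟨M, hM⟩ := Blocks.exists_isPModular p hp.out
  let w : AlgInt := ∑ χ : IrrCharacter G, ⟨c χ, hc χ⟩ * γ χ
  have hw : (p : AlgInt) * w = ((S : Subgroup C).index : AlgInt) := by
    apply Subtype.ext
    simp only [MulMemClass.coe_mul, SubringClass.coe_natCast, w, AddSubmonoidClass.coe_finsetSum]
    exact hdiff
  have hmem : ((S : Subgroup C).index : AlgInt) ∈ M := hw ▸ M.mul_mem_right w hM.2.2
  have hcop : Nat.Coprime p (S : Subgroup C).index := hp.out.coprime_iff_not_dvd.2 S.not_dvd_index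
  obtain ⟨a, b, hab⟩ := (Nat.isCoprime_iff_coprime.2 hcop)
  apply hM.2.1.ne_top
  rw [Ideal.eq_top_iff_one]
  have h1 : (1 : AlgInt) = (a : AlgInt) * (p : AlgInt) + (b : AlgInt) * ((S : Subgroup C).index : AlgInt) := by
    exact_mod_cast congrArg (fun z : ℤ => (z : AlgInt)) hab.symm
  rw [h1]
  exact M.add_mem (M.mul_mem_left _ hM.2.2) (M.mul_mem_left _ hmem)

/-- `x ^ q` equals the `q`-th power of the regular part. -/
theorem pow_part {p : ℕ} [hp : Fact p.Prime] {x x' : G}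
    (hx : (∃ k : ℕ, orderOf (x * x'⁻¹) = p ^ k) ∧ Commute (x * x'⁻¹) x' ∧ ¬ p ∣ orderOf x') :
    x ^ p ^ (Nat.card G).factorization p = x' ^ p ^ (Nat.card G).factorization p := by
  obtain ⟨⟨k, hk⟩, hcomm, -⟩ := hx
  have hle : k ≤ (Nat.card G).factorization p :=
    (hp.out.pow_dvd_iff_le_factorization Nat.card_pos.ne').1 (hk ▸ orderOf_dvd_natCard _)
  have h1 : (x * x'⁻¹) ^ p ^ (Nat.card G).factorization p = 1 :=
    orderOf_dvd_iff_pow_eq_one.1 (hk ▸ pow_dvd_pow p hle)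
  calc x ^ p ^ (Nat.card G).factorization p
      = ((x * x'⁻¹) * x') ^ p ^ (Nat.card G).factorization p := by rw [inv_mul_cancel_right]
    _ = _ := by rw [hcomm.mul_pow, h1, one_mul]

theorem result {G : Type*} [Group G] [Finite G] (p : ℕ) [Fact p.Prime] (x y x' y' : G)
    (hx : (∃ k : ℕ, orderOf (x * x'⁻¹) = p ^ k) ∧ Commute (x * x'⁻¹) x' ∧ ¬ p ∣ orderOf x')
    (hy : (∃ k : ℕ, orderOf (y * y'⁻¹) = p ^ k) ∧ Commute (y * y'⁻¹) y' ∧ ¬ p ∣ orderOf y') :
    IsConj x' y' ↔ ∀ χ : Cfsg.IrrCharacter G, ∃ γ : Cfsg.AlgInt,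
      (χ : G → ℂ) x ^ (p ^ (Nat.card G).factorization p) - (χ : G → ℂ) y ^ (p ^ (Nat.card G).factorization p) = (p : ℂ) * (γ : ℂ) := by
  have hp : p.Prime := Fact.out
  set a := (Nat.card G).factorization p with ha
  have hpx : x ^ p ^ a = x' ^ p ^ a := pow_part hx
  have hpy : y ^ p ^ a = y' ^ p ^ a := pow_part hy
  constructor
  · intro hconj χ
    obtain ⟨γ₁, h₁⟩ := value_pow_congr (Chars.isCharacter_coe χ) hp a x
    obtain ⟨γ₂, h₂⟩ := value_pow_congr (Chars.isCharacter_coe χ) hp a y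
    have hpow : IsConj (x' ^ p ^ a) (y' ^ p ^ a) := by
      obtain ⟨c, hc⟩ := isConj_iff.1 hconj
      exact isConj_iff.2 ⟨c, by rw [← conj_pow, hc]⟩
    have he : (χ : G → ℂ) (x ^ p ^ a) = (χ : G → ℂ) (y ^ p ^ a) := by
      rw [hpx, hpy]
      exact Chars.eq_of_isConj (Chars.isClassFunction_coe χ) hpow
    refine ⟨γ₁ - γ₂, ?_⟩
    rw [AddSubgroupClass.coe_sub]
    linear_combination h₁ - h₂ + he
  · intro hall
    have hregx : ¬ p ∣ orderOf (x' ^ p ^ a) := fun h => hx.2.2 (h.trans (orderOf_pow_dvd _))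
    have hregy : ¬ p ∣ orderOf (y' ^ p ^ a) := fun h => hy.2.2 (h.trans (orderOf_pow_dvd _))
    have hcong : ∀ χ : IrrCharacter G, ∃ γ : AlgInt,
        (χ : G → ℂ) (x' ^ p ^ a) - (χ : G → ℂ) (y' ^ p ^ a) = (p : ℂ) * (γ : ℂ) := by
      intro χ
      obtain ⟨γ, hγ⟩ := hall χ
      obtain ⟨γ₁, h₁⟩ := value_pow_congr (Chars.isCharacter_coe χ) hp a x
      obtain ⟨γ₂, h₂⟩ := value_pow_congr (Chars.isCharacter_coe χ) hp a y
      refine ⟨γ - γ₁ + γ₂, ?_⟩
      rw [← hpx, ← hpy, AddMemClass.coe_add, AddSubgroupClass.coe_sub]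
      linear_combination hγ - h₁ + h₂
    have hconj := isConj_of_congr hregx hregy hcong
    set n := orderOf x' * orderOf y' with hn
    have hn0 : 0 < n := Nat.mul_pos (orderOf_pos x') (orderOf_pos y')
    have hcop : Nat.Coprime (p ^ a) n := (Nat.Coprime.mul_right (hp.coprime_iff_not_dvd.2 hx.2.2)
      (hp.coprime_iff_not_dvd.2 hy.2.2)).pow_left a
    have hmod : (p ^ a) ^ Nat.totient n ≡ 1 [MOD n] := Nat.ModEq.pow_totient hcop
    obtain ⟨t, ht⟩ : ∃ t, Nat.totient n = t + 1 :=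
      ⟨Nat.totient n - 1, by have := Nat.totient_pos.2 hn0; omega⟩
    have hback : ∀ z : G, orderOf z ∣ n → (z ^ p ^ a) ^ (p ^ a) ^ t = z := by
      intro z hz
      rw [← pow_mul, ← pow_succ', ← ht]
      conv_rhs => rw [← pow_one z]
      exact pow_eq_pow_iff_modEq.2 (hmod.of_dvd hz)
    obtain ⟨c, hc⟩ := isConj_iff.1 hconj
    refine isConj_iff.2 ⟨c, ?_⟩
    rw [← hback x' (Dvd.intro _ rfl), ← conj_pow, hc, hback y' (Dvd.intro_left _ rfl)]

end Cfsg.Agent.S4604
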