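import Cfsg.Statements.S4606
import Cfsg.Agent.Blocks.OneLess.Group
import Cfsg.Agent.Blocks.OneLess.Subsection
import Cfsg.Agent.Blocks.PrincipalPair
import Cfsg.Agent.Blocks.Defect.Principal
import Cfsg.Agent.Blocks.HeightZero.PrincipalSection
import Cfsg.Agent.FongBlock.Reduction
import Cfsg.Agent.FongBlock.HeightBound
-- import your own Cfsg.Agent.* helpers here

set_option autoImplicit false
set_option linter.style.haveILetI false
open Cfsg

namespace Cfsg.Agent.S4606

open CfsgLib CfsgLib.Blocks CfsgLib.Blocks.OneLess CfsgLib.FongBlock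

universe u

/-- Induction does not raise the rank. -/
theorem blockRank_le_of_indFun {G : Type u} [Group G] [Fintype G] (p : ℕ) {T : Subgroup G}
    {b : Set (IrrCharacter T)} {B : Set (IrrCharacter G)}
    (honto : ∀ η ∈ B, ∃ ψ ∈ b, indFun T (ψ : T → ℂ) = (η : G → ℂ)) :
    blockRank p B ≤ blockRank p b := by
  classical
  let Φ : (T → ℂ) →ₗ[ℂ] (G → ℂ) :=
    { toFun := indFun T
      map_add' := Chars.Induced.indFun_add T
      map_smul' := fun c θ => Chars.Induced.indFun_smul T c θ }
  have hreg : ∀ θ : T → ℂ, pRegularPart p (indFun T θ) = indFun T (pRegularPart p θ) := by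
    intro θ
    funext g
    have hord : ∀ x : G, IsPRegular p (x⁻¹ * g * x) ↔ IsPRegular p g := fun x => by
      rw [IsPRegular, IsPRegular, show x⁻¹ * g * x = MulAut.conj x⁻¹ g by simp, MulEquiv.orderOf_eq]
    have hsub : ∀ (x : G) (h : x⁻¹ * g * x ∈ T),
        IsPRegular p (⟨x⁻¹ * g * x, h⟩ : T) ↔ IsPRegular p g := fun x h => by
      rw [← hord x, IsPRegular, IsPRegular, Subgroup.orderOf_mk]
    by_cases hg : IsPRegular p g
    · simp only [pRegularPart, hg, if_true, indFun]
      congr 1
      refine Finset.sum_congr rfl fun x _ => ?_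
      by_cases hx : x⁻¹ * g * x ∈ T
      · rw [Chars.Induced.extendByZero_mem _ hx, Chars.Induced.extendByZero_mem _ hx,
          pRegularPart, if_pos ((hsub x hx).2 hg)]
      · rw [Chars.Induced.extendByZero_notMem _ hx, Chars.Induced.extendByZero_notMem _ hx]
    · simp only [pRegularPart, hg, if_false, indFun]
      rw [Finset.sum_eq_zero fun x _ => ?_, mul_zero]
      by_cases hx : x⁻¹ * g * x ∈ T
      · rw [Chars.Induced.extendByZero_mem _ hx, pRegularPart, if_neg (mt (hsub x hx).1 hg)]
      · rw [Chars.Induced.extendByZero_notMem _ hx]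
  refine le_trans (Submodule.finrank_mono ?_) (Submodule.finrank_map_le Φ _)
  rw [Submodule.map_span, Set.image_image]
  refine Submodule.span_mono ?_
  rintro _ ⟨η, hη, rfl⟩
  obtain ⟨ψ, hψ, hind⟩ := honto η hη
  exact ⟨ψ, hψ, by show indFun T _ = _; rw [← hreg, hind]⟩

/-- The `p`-solvable case. -/
theorem pSolvable_case {p : ℕ} [Fact p.Prime] {M : Ideal AlgInt} (hM : IsPModular p M) :
    ∀ (n : ℕ) (G : Type u) [Group G] [Fintype G], Nat.card G = n → IsPSolvable p G →
      ∀ B : Set (IrrCharacter G), IsPBlock M B → ∀ D : Subgroup G, IsDefectGroup p M B D →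
      Nat.card B = blockRank p B + 1 → ∀ a ∈ D, ∀ c ∈ D, a * c = c * a := by
  intro n
  induction n using Nat.strong_induction_on with
  | _ n ih =>
  intro G _ _ hn hsolv B hB D hD hk
  classical
  haveI := isMaximal_of_isPModular hM
  haveI := charP_kres hM
  set N := pPrimeCore p G with hNdef
  haveI := Fintype.ofFinite N
  have hN : ¬ p ∣ Nat.card N := Constrained.pPrimeCore_not_dvd
  obtain ⟨χ, hχ⟩ := nonempty_of_isPBlock hB
  obtain ⟨θ, hθ⟩ := BlocksCover.exists_constituent χ N
  set T := Chars.Induced.inertia N (θ : N → ℂ) with hT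
  by_cases htop : T = ⊤
  · have hinv : IsInvariant θ := fun g k =>
      Chars.Induced.mem_inertia_iff_forall.mp (show g ∈ T from htop ▸ Subgroup.mem_top g) k _ rfl
    obtain ⟨B', hB', hmem, -, honly⟩ := exists_block_of_invariant hM hsolv hNdef hinv
    have hBB : B = B' := by
      rw [eq_blockOf_of_mem hB hχ, eq_blockOf_of_mem hB' ((hmem χ).mpr hθ)]
    obtain ⟨S, rfl⟩ := honly D (hBB ▸ hD)
    exact sylow_commute_of_solvable S hsolv fun x hx hx1 y hy hy1 =>
      (one_class hM hB hD hk hx hx1).1 y hy hy1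
  · haveI := Fintype.ofFinite T
    have hNT : N ≤ T :=
      Chars.Induced.le_inertia (Blocks.isClassFunction_of_isCharacter (isCharacter_of_isIrrCharacter θ.2))
    have hlt : Nat.card T < n := by
      rw [← hn]
      refine lt_of_le_of_ne (Subgroup.card_le_card_group T) fun h => htop ?_
      exact (Subgroup.card_eq_iff_eq_top T).mp h
    obtain ⟨b, hb, hinto, honto, hdef⟩ := exists_stab_block hM hN hT hNT hB hχ hθ
    obtain ⟨x, hx, hD'⟩ := hdef D hD
    choose ind hindB hind using fun ψ : b => (hinto ψ.1 ψ.2).2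
    have hcard : Nat.card b = Nat.card B := by
      refine Nat.card_eq_of_bijective (fun ψ : b => (⟨ind ψ, hindB ψ⟩ : B)) ⟨fun ψ ψ' h => ?_, fun η => ?_⟩
      · refine Subtype.ext (Chars.Induced.indFun_inertia_injective hT hNT ψ.1 ψ'.1
          (hinto _ ψ.2).1 (hinto _ ψ'.2).1 ?_)
        rw [hind, hind]
        exact congrArg (fun η : B => ((η : IrrCharacter G) : G → ℂ)) h
      · obtain ⟨ψ, hψ, h⟩ := honto η.1 η.2
        exact ⟨⟨ψ, hψ⟩, Subtype.ext (Subtype.ext ((hind ⟨ψ, hψ⟩).symm.trans h))⟩
    have hle := blockRank_le_of_indFun p honto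
    obtain ⟨hlk, -, hzero⟩ := Cfsg.Agent.S4733.result p M hM b hb
    have key : ∀ a ∈ (D.map (MulAut.conj x).toMonoidHom).subgroupOf T,
        ∀ c ∈ (D.map (MulAut.conj x).toMonoidHom).subgroupOf T, a * c = c * a := by
      rcases (show Nat.card b = blockRank p b ∨ Nat.card b = blockRank p b + 1 by omega) with h | h
      · have h1 := Contrib.natCard_defectGroup hM hb hD'
        rw [hzero.2 h, pow_zero] at h1
        intro a ha c hc
        rw [Subgroup.card_eq_one.1 h1, Subgroup.mem_bot] at ha
        subst ha; simp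
      · exact ih _ hlt T rfl (Constrained.IsPSolvable.subgroup hsolv T) b hb _ hD' h
    intro a ha c hc
    have h1 := congrArg Subtype.val (key ⟨_, hx ⟨a, ha, rfl⟩⟩ ⟨a, ha, rfl⟩ ⟨_, hx ⟨c, hc, rfl⟩⟩ ⟨c, hc, rfl⟩)
    simp only [Subgroup.coe_mul, MulEquiv.coe_toMonoidHom, ← map_mul] at h1
    exact (MulAut.conj x).injective h1

/-- Let G be a finite group, p a prime, M a maximal ideal of the algebraic integers containing p, and B a p-block of G with defect group D. Suppose the number of irreducible characters in B exceeds the p-regular rank of B (the number of irreducible Brauer characters in B) by exactly one. If B is the principal block, or if G is p-solvable, then D is elementary abelian. -/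
theorem result {G : Type*} [Group G] [Finite G] (p : ℕ) [Fact p.Prime] (M : Ideal Cfsg.AlgInt) (hM : Cfsg.IsPModular p M) (B : Set (Cfsg.IrrCharacter G)) (hB : Cfsg.IsPBlock M B) (D : Subgroup G) (hD : Cfsg.IsDefectGroup p M B D)
    (hk : Nat.card B = Cfsg.blockRank p B + 1) (hB0 : B = Cfsg.principalBlock M G ∨ Cfsg.IsPSolvable p G) :
    Cfsg.IsElementaryAbelian p D := by
  classical
  haveI := Fintype.ofFinite G
  haveI : M.IsMaximal := hM.2.1
  haveI : CharP (kres M) p := charP_kres hM
  have hexp : ∀ v ∈ D, v ^ p = 1 := fun v hv => pow_eq_one hM hB hD hk hv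
  refine ⟨?_, hexp⟩
  suffices h : ∀ a ∈ D, ∀ c ∈ D, a * c = c * a from
    ⟨⟨fun a c => Subtype.ext (h a a.2 c c.2)⟩⟩
  rcases hB0 with rfl | hsolv
  · obtain ⟨S, rfl⟩ := (isDefectGroup_principalBlock_iff (p := p) (M := M) D).1 hD
    rcases (Fact.out : p.Prime).eq_two_or_odd' with rfl | hodd
    · intro a ha c hc
      have hinv : ∀ v ∈ (S : Subgroup G), v⁻¹ = v := fun v hv => by
        rw [inv_eq_iff_mul_eq_one, ← sq]; exact hexp v hv
      calc a * c = (a * c)⁻¹ := (hinv _ (Subgroup.mul_mem _ ha hc)).symm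
        _ = c * a := by rw [mul_inv_rev, hinv a ha, hinv c hc]
    · refine sylow_commute_of_nilpotent_centralizers S hodd
        (fun x hx hx1 y hy hy1 => (one_class hM hB hD hk hx hx1).1 y hy hy1) fun x hx hx1 => ?_
      haveI := Fintype.ofFinite (Subgroup.centralizer ({x} : Set G))
      obtain ⟨e, he⟩ := IsPGroup.iff_orderOf.1 S.isPGroup' ⟨x, hx⟩
      rw [Subgroup.orderOf_mk] at he
      exact PrincipalPair.hasNormalPComplement_of_rank_one hM ((one_class hM hB hD hk hx hx1).2 _
        ((HeightZero.isInducedBlock_principal_iff hM ⟨e, he⟩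
          (isPBlock_principalBlock_of_finite _)).2 rfl))
  · exact pSolvable_case hM _ G rfl hsolv B hB D hD hk

end Cfsg.Agent.S4606
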