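import Cfsg.Statements.S4607
import Cfsg.Agent.Blocks.TwoChars.TwoCharacters
import Cfsg.Agent.Blocks.DefectOne.Two
import Cfsg.Agent.FongBlock.PrincipalType

set_option autoImplicit false
open Cfsg
open CfsgLib.Blocks

namespace Cfsg.Agent.S4607

/-- Let G be a finite group, p a prime, M a maximal ideal of the algebraic integers containing p, and B a p-block of G with defect group D. Then B contains exactly two irreducible characters if and only if D has order 2. -/
theorem result {G : Type*} [Group G] [Finite G] (p : ℕ) [Fact p.Prime] (M : Ideal Cfsg.AlgInt) (hM : Cfsg.IsPModular p M) (B : Set (Cfsg.IrrCharacter G)) (hB : Cfsg.IsPBlock M B) (D : Subgroup G) (hD : Cfsg.IsDefectGroup p M B D) : Nat.card B = 2 ↔ Nat.card D = 2 := by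
  classical
  haveI := Fintype.ofFinite G
  haveI := isMaximal_of_isPModular hM
  haveI := charP_kres hM
  have hcard := CfsgLib.Blocks.Contrib.natCard_defectGroup hM hB hD
  constructor
  · intro h2
    obtain ⟨rfl, hd⟩ := TwoChars.eq_two_of_card_eq_two hM hB h2
    rw [hcard, hd, pow_one]
  · intro h2
    obtain rfl : p = 2 := by
      refine (Nat.prime_dvd_prime_iff_eq Nat.prime_two (Fact.out : p.Prime)).mp ?_ |>.symm
      exact Nat.prime_two.dvd_of_dvd_pow (hcard ▸ h2.symm.dvd)
    obtain ⟨x, hx⟩ : ∃ x : G, D = Subgroup.zpowers x := by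
      haveI : IsCyclic D := isCyclic_of_prime_card (p := 2) h2
      obtain ⟨x, hx⟩ := D.isCyclic_iff_exists_zpowers_eq_top.mp ‹_›
      exact ⟨x, hx.symm⟩
    subst hx
    have hxo : orderOf x = 2 := by rw [← Nat.card_zpowers, h2]
    set H := Subgroup.centralizer ({x} : Set G) with hHdef
    haveI := Fintype.ofFinite H
    have hH : H = Subgroup.centralizer ((Subgroup.zpowers x : Subgroup G) : Set G) := by
      rw [hHdef, Subgroup.zpowers_eq_closure, Subgroup.centralizer_closure]
    have hdef := (isDefectGroup_topEl_iff hB _).mp hD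
    have he := isBlockIdem_topEl hB (M := M)
    obtain ⟨f, hf, hfe⟩ := exists_isBlockIdem_mul_eq (H := H)
      (i := brTrunc (Subgroup.zpowers x) (topEl M B))
      ⟨by rw [hH]; exact isSupportedOn_brTrunc _ _,
        by rw [hH]; exact (he.1.2.mono le_top).brTrunc (Subgroup.centralizer_le_normalizer _)⟩
      (by rw [← brTrunc_mul hdef.2.1 (he.1.2.mono le_top) (he.1.2.mono le_top), he.idem])
      hdef.2.2.1
    obtain ⟨b, hb, rfl⟩ := exists_subEl_eq hf
    have hind := (CfsgLib.FongBlock.isInducedBlock_centralizer_iff hdef.2.1 hH hb hB).mpr hfe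
    obtain ⟨θ, hθ⟩ := nonempty_of_isPBlock hb
    exact (DefectOneTwo.exists_signs hM hxo hB hD hHdef hind hθ).1

end Cfsg.Agent.S4607
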