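import Cfsg.Statements.S4609
import Cfsg.Agent.Blocks.NormalDefectThree.Dominated
import Cfsg.Agent.Blocks.Cyclic.Main
import Cfsg.Agent.Blocks.Subsection.SmallDefect
-- import your own Cfsg.Agent.* helpers here

set_option autoImplicit false
open Cfsg

namespace Cfsg.Agent.S4609

/-- Let G be a finite group, p a prime, M a maximal ideal of the algebraic integers containing p, and B a p-block of G with defect group D containing exactly three irreducible characters. Suppose the number of height-zero characters of B equals the number of height-zero characters of its Brauer correspondent b, the block of N_G(D) with defect group D inducing B (as the Alperin–McKay conjecture predicts). Then D has order 3. -/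
theorem result {G : Type*} [Group G] [Finite G] (p : ℕ) [Fact p.Prime] (M : Ideal Cfsg.AlgInt) (hM : Cfsg.IsPModular p M) (B : Set (Cfsg.IrrCharacter G)) (hB : Cfsg.IsPBlock M B) (D : Subgroup G) (hD : Cfsg.IsDefectGroup p M B D) (hk : Nat.card B = 3)
    (b : Set (Cfsg.IrrCharacter (Subgroup.normalizer (D : Set G)))) (hbB : Cfsg.IsInducedBlock M (Subgroup.normalizer (D : Set G)) b B)
    (hbD : Cfsg.IsDefectGroup p M b (D.subgroupOf (Subgroup.normalizer (D : Set G))))
    (hAM : Nat.card {χ : Cfsg.IrrCharacter G // χ ∈ B ∧ Cfsg.blockHeight p B (χ : G → ℂ) = 0} =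
           Nat.card {ψ : Cfsg.IrrCharacter (Subgroup.normalizer (D : Set G)) // ψ ∈ b ∧ Cfsg.blockHeight p b (ψ : Subgroup.normalizer (D : Set G) → ℂ) = 0}) :
    Nat.card D = 3 := by
  classical
  haveI := hM.2.1
  haveI := CfsgLib.Blocks.charP_kres hM
  haveI := Fintype.ofFinite G
  haveI : Fintype (Subgroup.normalizer (D : Set G)) := Fintype.ofFinite _
  haveI hDn : (D.subgroupOf (Subgroup.normalizer (D : Set G))).Normal := Subgroup.normal_in_normalizer
  have h3 : Nat.card {ψ : Cfsg.IrrCharacter (Subgroup.normalizer (D : Set G)) // ψ ∈ b ∧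
      Cfsg.blockHeight p b (ψ : Subgroup.normalizer (D : Set G) → ℂ) = 0} ≤ 3 := by
    rw [← hAM, ← hk]
    haveI : Finite B := B.toFinite.to_subtype
    exact Nat.card_le_card_of_injective (fun χ => (⟨χ.1, χ.2.1⟩ : B))
      fun a c h => Subtype.ext (congrArg (fun q : B => q.1) h)
  have hcyc : IsCyclic D := (Subgroup.subgroupOfEquivOfLe Subgroup.le_normalizer).isCyclic.1
    (CfsgLib.Blocks.NormalDefectThree.isCyclic_of_height_zero_le_three hM hbB.1 hbD h3)
  have hD1 : D ≠ ⊥ := by
    intro h0
    have hc := CfsgLib.Blocks.Contrib.natCard_defectGroup hM hB hD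
    rw [h0, Subgroup.card_bot] at hc
    have hd : Cfsg.blockDefect p B = 0 := by
      by_contra hne
      exact absurd hc.symm (Nat.one_lt_pow hne (Fact.out : p.Prime).one_lt).ne'
    have := CfsgLib.Blocks.Contrib.natCard_le_of_defect_le_two hM hB (by omega)
    rw [hd, pow_zero, hk] at this
    omega
  obtain ⟨c, hc⟩ := CfsgLib.Blocks.Cyclic.exists_inducing hM hB hD hcyc
  let f := CfsgLib.Blocks.subEl M (Subgroup.centralizer (D : Set G)) c
  obtain ⟨hset, -, hdvd⟩ := CfsgLib.Blocks.Cyclic.setting_of_cyclic hM hB hD hD1 hcyc hc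
    (T := CfsgLib.Blocks.pairStab ⊤ D f) fun g => by
      rw [CfsgLib.Blocks.mem_pairStab, CfsgLib.Blocks.stabilizesBlock_iff hc.1]
      exact ⟨fun ⟨⟨_, h1⟩, h2⟩ => ⟨h1, CfsgLib.Blocks.normalizer_le_normalizer_centralizer D h1, h2⟩,
        fun ⟨h1, _, h2⟩ => ⟨⟨trivial, h1⟩, h2⟩⟩
  have h1 := hset.natCard_eq_rank_add
  rw [hk, CfsgLib.Blocks.Cyclic.blockRank_eq hM hB hD hD1 hcyc hc hset] at h1
  have h2 := hset.card_orb
  change 3 = Nat.card (CfsgLib.Blocks.AbelianFree.aut D f) + _ at h1
  change _ * Nat.card (CfsgLib.Blocks.AbelianFree.aut D f) + 1 = _ at h2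
  have hpos : 0 < Nat.card (CfsgLib.Blocks.AbelianFree.aut D f) := Nat.card_pos
  have hgt : 1 < Nat.card D := by
    rcases Nat.lt_or_ge 1 (Nat.card D) with h | h
    · exact h
    · exact absurd (Subgroup.eq_bot_of_card_le _ h) hD1
  have he : Nat.card (CfsgLib.Blocks.AbelianFree.aut D f) = 1 ∨
      Nat.card (CfsgLib.Blocks.AbelianFree.aut D f) = 2 ∨
      Nat.card (CfsgLib.Blocks.AbelianFree.aut D f) = 3 := by omega
  rcases he with he | he | he <;> rw [he] at h1 h2 <;> omega

end Cfsg.Agent.S4609
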