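import Cfsg.Statements.S4611
import Cfsg.Agent.Eq.Def_Blocks
import Cfsg.Agent.Eq.Def_Solvable
import Cfsg.Agent.Blocks.PrincipalSolvable
import Cfsg.Agent.Blocks.PrincipalLinear

set_option autoImplicit false
open Cfsg

namespace Cfsg.Agent.S4611

/-- Let G be a finite solvable group and π a nonempty set of primes, each dividing the order of G; fix for each p in π a maximal ideal M p of the algebraic integers containing p. Then the only irreducible character lying in the principal p-block for every p in π is the principal character if and only if G is generated by the subgroups O_{p'}(G), p in π (the largest normal subgroups of order prime to p). -/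
theorem result {G : Type*} [Group G] [Finite G] [Group.IsSolvable G] (π : Set ℕ) (hπ : ∀ p ∈ π, p.Prime ∧ p ∣ Nat.card G) (hne : π.Nonempty) (M : ℕ → Ideal Cfsg.AlgInt) (hM : ∀ p ∈ π, Cfsg.IsPModular p (M p)) :
    (∀ χ : Cfsg.IrrCharacter G, (∀ p ∈ π, χ ∈ Cfsg.principalBlock (M p) G) → (χ : G → ℂ) = fun _ => 1) ↔
      ⨆ p ∈ π, Cfsg.pPrimeCore p G = ⊤ := by
  classical
  constructor
  · intro h
    by_contra hne'
    set N := ⨆ p ∈ π, Cfsg.pPrimeCore p G with hN
    haveI : N.Normal := by
      rw [hN]; exact inferInstance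
    haveI : Nontrivial (G ⧸ N) := by
      by_contra hnt
      rw [not_nontrivial_iff_subsingleton] at hnt
      exact hne' (QuotientGroup.subgroup_eq_top_of_subsingleton N hnt)
    obtain ⟨ψ, hψ⟩ := CfsgLib.Chars.exists_not_le_charKer (G := G ⧸ N) (N := ⊤) top_ne_bot
    have h1 := h (CfsgLib.Chars.inflate N ψ) fun p hp => by
      haveI : Fact p.Prime := ⟨(hπ p hp).1⟩
      refine CfsgLib.Blocks.mem_principalBlock_of_pPrimeCore_le (hM p hp)
        CfsgLib.Constrained.isPSolvable_of_isSolvable ?_
      exact le_trans (le_iSup₂ (f := fun q (_ : q ∈ π) => Cfsg.pPrimeCore q G) p hp)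
        (CfsgLib.Chars.le_charKer_inflate N ψ)
    apply hψ
    intro x _ y
    obtain ⟨a, rfl⟩ := QuotientGroup.mk_surjective x
    obtain ⟨b, rfl⟩ := QuotientGroup.mk_surjective y
    have e1 := congrFun h1 (a * b)
    have e2 := congrFun h1 b
    simp only [CfsgLib.Chars.inflate_apply] at e1 e2
    rw [QuotientGroup.mk_mul] at e1
    rw [e1, e2]
  · intro htop χ hχ
    have hker : (⊤ : Subgroup G) ≤ CfsgLib.Chars.charKer (χ : G → ℂ) := by
      rw [← htop]
      refine iSup₂_le fun p hp => ?_
      haveI : Fact p.Prime := ⟨(hπ p hp).1⟩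
      haveI := (hM p hp).2.1
      exact CfsgLib.Blocks.PrincipalLinear.le_charKer (hM p hp) (hχ p hp) _
        CfsgLib.Constrained.pPrimeCore_not_dvd
    have hdeg : Cfsg.charDegree (χ : G → ℂ) = 1 := by
      have := CfsgLib.Chars.charDegree_dvd_index χ ⊤ hker
      simpa using this
    funext g
    rw [CfsgLib.Chars.map_eq_map_one_of_mem_charKer (hker (Subgroup.mem_top g)),
      ← CfsgLib.Chars.coe_charDegree, hdeg, Nat.cast_one]

end Cfsg.Agent.S4611
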