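import Cfsg.Statements.S4620
import Cfsg.Agent.Eq.Def_Solvable
import Cfsg.Agent.MinNormal.Structure

set_option autoImplicit false
open scoped Pointwise
open Cfsg

namespace Cfsg.Agent.S4620

open CfsgLib.MinNormal
open scoped Pointwise

theorem exists_conj_mem_sylow {H : Type*} [Group H] [Finite H] {p : ℕ} [Fact p.Prime]
    (P : Sylow p H) {x : H} (hx : ∃ k : ℕ, orderOf x = p ^ k) :
    ∃ g : H, g * x * g⁻¹ ∈ (P : Subgroup H) := by
  obtain ⟨k, hk⟩ := hx
  have hz : IsPGroup p (Subgroup.zpowers x) := IsPGroup.of_card (by rw [Nat.card_zpowers, hk])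
  obtain ⟨Q, hQ⟩ := hz.exists_le_sylow
  obtain ⟨g, rfl⟩ := MulAction.exists_smul_eq H Q P
  exact ⟨g, ⟨x, hQ (Subgroup.mem_zpowers x), rfl⟩⟩

theorem exists_le_normal_inf_sylow {H : Type*} [Group H] [Finite H] {p : ℕ} [Fact p.Prime]
    (P : Sylow p H) {K : Subgroup H} (hK : K.Normal) (hp : p ∣ Nat.card K) :
    ∃ x ∈ K ⊓ (P : Subgroup H), x ≠ 1 := by
  obtain ⟨x, hx⟩ := exists_prime_orderOf_dvd_card' p hp
  obtain ⟨g, hg⟩ := exists_conj_mem_sylow P (x := (x : H)) ⟨1, by rw [Subgroup.orderOf_coe, hx, pow_one]⟩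
  refine ⟨_, ⟨hK.conj_mem x x.2 g, hg⟩, fun e => ?_⟩
  rw [conj_eq_one_iff] at e
  rw [← Subgroup.orderOf_coe, e, orderOf_one] at hx
  exact (Fact.out : p.Prime).ne_one hx.symm


/-- Let H be a finite group with no nontrivial normal p-subgroup and no nontrivial normal subgroup of order prime to p, whose Sylow p-subgroup P is nontrivial and a trivial-intersection set (P meets its conjugates by elements outside N_H(P) trivially). Then H has a unique minimal normal subgroup N; N is non-abelian simple with trivial centralizer in H (so H embeds in Aut(N)), and a Sylow p-subgroup of N is again a nontrivial trivial-intersection set in N. -/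
theorem result {H : Type*} [Group H] [Finite H] (p : ℕ) [Fact p.Prime] (hOp : Cfsg.pCore p H = ⊥) (hOp' : Cfsg.pPrimeCore p H = ⊥) (P : Sylow p H) (hP1 : (P : Subgroup H) ≠ ⊥)
    (hTI : ∀ g : H, g ∉ Subgroup.normalizer ((P : Subgroup H) : Set H) → (P : Subgroup H) ⊓ (MulAut.conj g • (P : Subgroup H)) = ⊥) :
    ∃ N : Subgroup H, N.Normal ∧ N ≠ ⊥ ∧ (∀ K : Subgroup H, K.Normal → K ≠ ⊥ → N ≤ K) ∧
      IsSimpleGroup N ∧ ¬ IsMulCommutative N ∧ Subgroup.centralizer (N : Set H) = ⊥ ∧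
      ∀ Q : Sylow p N, (Q : Subgroup N) ≠ ⊥ ∧
        ∀ n : N, n ∉ Subgroup.normalizer ((Q : Subgroup N) : Set N) → (Q : Subgroup N) ⊓ (MulAut.conj n • (Q : Subgroup N)) = ⊥ := by
  have hp : p.Prime := Fact.out
  have hndvd : ∀ K : Subgroup H, K.Normal → K ≠ ⊥ → p ∣ Nat.card K := fun K hK hK1 => by
    by_contra h
    refine hK1 (le_bot_iff.1 (hOp' ▸ ?_))
    exact le_sSup ⟨hK, Nat.Coprime.symm (hp.coprime_iff_not_dvd.2 h)⟩
  have hnp : ∀ K : Subgroup H, K.Normal → IsPGroup p K → K = ⊥ := fun K hK hKp =>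
    le_bot_iff.1 (hOp ▸ le_sSup ⟨hK, hKp⟩)
  -- an element centralising a nontrivial element of `P` normalises `P`
  have hTI' : ∀ x ∈ (P : Subgroup H), x ≠ 1 → ∀ g : H, Commute g x →
      g ∈ Subgroup.normalizer ((P : Subgroup H) : Set H) := by
    intro x hx hx1 g hg
    by_contra hgn
    have h1 : x ∈ (P : Subgroup H) ⊓ MulAut.conj g • (P : Subgroup H) :=
      ⟨hx, ⟨x, hx, by show g * x * g⁻¹ = x; rw [hg.eq, mul_inv_cancel_right]⟩⟩
    rw [hTI g hgn, Subgroup.mem_bot] at h1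
    exact hx1 h1
  -- a simple nonabelian subgroup cannot normalise `P` and have order divisible by `p`
  have hnorm : ∀ T : Subgroup H, T ≤ Subgroup.normalizer ((P : Subgroup H) : Set H) →
      p ∣ Nat.card T → ((P : Subgroup H) ⊓ T ≠ ⊥) := by
    intro T hT hpT h
    obtain ⟨x, hx⟩ := exists_prime_orderOf_dvd_card' p hpT
    have hz : IsPGroup p (Subgroup.zpowers (x : H)) :=
      IsPGroup.of_card (n := 1) (by rw [Nat.card_zpowers, Subgroup.orderOf_coe, hx, pow_one])
    have hsup : IsPGroup p (Subgroup.zpowers (x : H) ⊔ (P : Subgroup H) : Subgroup H) :=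
      hz.to_sup_of_normal_right' P.2 ((Subgroup.zpowers_le).2 (hT x.2))
    have hxP : (x : H) ∈ (P : Subgroup H) :=
      (P.is_maximal' hsup le_sup_right) ▸ Subgroup.mem_sup_left (Subgroup.mem_zpowers (x : H))
    have h1 : (x : H) ∈ (P : Subgroup H) ⊓ T := ⟨hxP, x.2⟩
    rw [h, Subgroup.mem_bot] at h1
    rw [← Subgroup.orderOf_coe, h1, orderOf_one] at hx
    exact hp.ne_one hx.symm
  haveI : Nontrivial H := by
    by_contra h
    rw [not_nontrivial_iff_subsingleton] at h
    exact hP1 (Subsingleton.elim _ _)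
  obtain ⟨N, hN⟩ := exists_isMinNormal (G := H)
  haveI := hN.normal
  have hna : ¬ IsMulCommutative N := by
    intro hab
    obtain ⟨r, hr, hx⟩ := hN.exists_prime_pow_eq_one hab
    obtain ⟨x, hx'⟩ := exists_prime_orderOf_dvd_card' p (hndvd N hN.normal hN.ne_bot)
    have hrp : p = r := (Nat.prime_dvd_prime_iff_eq hp hr).1
      (hx' ▸ orderOf_dvd_of_pow_eq_one (Subtype.ext (by simpa using hx x x.2)))
    subst hrp
    exact hN.ne_bot (hnp N hN.normal fun x => ⟨1, Subtype.ext (by rw [pow_one]; simpa using hx x x.2)⟩)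
  -- nothing nontrivial normal centralises `N`
  have hcent : ∀ K : Subgroup H, K.Normal → K ≤ Subgroup.centralizer (N : Set H) → K = ⊥ := by
    intro K hK hKN
    by_contra hK1
    haveI := hK
    obtain ⟨x, hx, hx1⟩ := exists_le_normal_inf_sylow P hN.normal (hndvd N hN.normal hN.ne_bot)
    have hle : K ≤ Subgroup.normalizer ((P : Subgroup H) : Set H) := fun k hk =>
      hTI' x hx.2 hx1 k (Subgroup.mem_centralizer_iff.1 (hKN hk) x hx.1).symm
    -- so `P ⊓ K` is the unique Sylow subgroup of `K`, normal in `H`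
    have hKp : ((P : Subgroup H) ⊓ K).Normal := by
      have hall : ∀ g : H, ∀ y : H, y ∈ (P : Subgroup H) → y ∈ K → g * y * g⁻¹ ∈ (P : Subgroup H) := by
        intro g y hy hyK
        have hz : IsPGroup p (Subgroup.zpowers (g * y * g⁻¹)) := by
          obtain ⟨k, hk⟩ := IsPGroup.iff_orderOf.1 P.2 ⟨y, hy⟩
          refine IsPGroup.of_card (n := k) ?_
          rw [Nat.card_zpowers, ← hk, ← Subgroup.orderOf_coe]
          exact orderOf_injective (MulAut.conj g).toMonoidHom (MulAut.conj g).injective y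
        have hsup : IsPGroup p
            (Subgroup.zpowers (g * y * g⁻¹) ⊔ (P : Subgroup H) : Subgroup H) :=
          hz.to_sup_of_normal_right' P.2 (Subgroup.zpowers_le.2 (hle (hK.conj_mem y hyK g)))
        exact (P.is_maximal' hsup le_sup_right) ▸ Subgroup.mem_sup_left (Subgroup.mem_zpowers _)
      exact ⟨fun y hy g => ⟨hall g y hy.1 hy.2, hK.conj_mem y hy.2 g⟩⟩
    exact hnorm K hle (hndvd K hK hK1) (hnp _ hKp (P.2.to_le inf_le_left))
  have hC : Subgroup.centralizer (N : Set H) = ⊥ := hcent _ inferInstance le_rfl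
  -- simplicity
  obtain ⟨s, hs⟩ := hN.exists_isFactors hna
  classical
  have hfac : ∃ S ∈ s, (P : Subgroup H) ⊓ S ≠ ⊥ := by
    obtain ⟨S, hS⟩ := hs.nonempty
    obtain ⟨e⟩ := hs.mulEquiv S hS
    have hpS : p ∣ Nat.card S := by
      have h1 := hndvd N hN.normal hN.ne_bot
      rw [Nat.card_congr e.toEquiv, Nat.card_fun, Nat.card_fin] at h1
      exact hp.dvd_of_dvd_pow h1
    obtain ⟨x, hx⟩ := exists_prime_orderOf_dvd_card' p hpS
    obtain ⟨g, hg⟩ := exists_conj_mem_sylow P (x := (x : H)) ⟨1, by rw [Subgroup.orderOf_coe, hx, pow_one]⟩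
    refine ⟨_, hs.conj_mem S hS g, fun h => ?_⟩
    have h1 : g * x * g⁻¹ ∈ (P : Subgroup H) ⊓ S.map (MulAut.conj g).toMonoidHom :=
      ⟨hg, ⟨x, x.2, rfl⟩⟩
    rw [h, Subgroup.mem_bot, conj_eq_one_iff] at h1
    rw [← Subgroup.orderOf_coe, h1, orderOf_one] at hx
    exact hp.ne_one hx.symm
  have hsingle : ∀ S ∈ s, ∀ T ∈ s, (P : Subgroup H) ⊓ S ≠ ⊥ → S = T := by
    intro S hS T hT hPS
    by_contra hne
    obtain ⟨⟨x, hx⟩, hx1⟩ := (Subgroup.nontrivial_iff_exists_ne_one _).1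
      ((Subgroup.nontrivial_iff_ne_bot _).2 hPS) |> fun ⟨x, hx, hx1⟩ => (⟨⟨x, hx⟩, hx1⟩ :
        ∃ x : ((P : Subgroup H) ⊓ S : Subgroup H), (x : H) ≠ 1)
    have hle : T ≤ Subgroup.normalizer ((P : Subgroup H) : Set H) := fun t ht =>
      hTI' x hx.1 hx1 t (hs.commute S hS T hT hne x hx.2 t ht).symm
    obtain ⟨e⟩ := hs.mulEquiv T hT
    have hpT : p ∣ Nat.card T := by
      have h1 := hndvd N hN.normal hN.ne_bot
      rw [Nat.card_congr e.toEquiv, Nat.card_fun, Nat.card_fin] at h1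
      exact hp.dvd_of_dvd_pow h1
    have hPT := hnorm T hle hpT
    have hTle : T ≤ Subgroup.normalizer (((P : Subgroup H) ⊓ T : Subgroup H) : Set H) := by
      intro t ht
      rw [Subgroup.mem_normalizer_iff]
      intro y
      constructor
      · intro hy
        exact ⟨(Subgroup.mem_normalizer_iff.1 (hle ht) y).1 hy.1,
          T.mul_mem (T.mul_mem ht hy.2) (T.inv_mem ht)⟩
      · intro hy
        refine ⟨(Subgroup.mem_normalizer_iff.1 (hle ht) y).2 hy.1, ?_⟩
        have := T.mul_mem (T.mul_mem (T.inv_mem ht) hy.2) ht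
        simpa [mul_assoc] using this
    have hTP : IsPGroup p T := by
      rw [← hs.eq_of_normalized_le hT inf_le_right hPT hTle]
      exact P.2.to_le inf_le_left
    haveI := hs.simple T hT
    haveI : Nontrivial T := IsSimpleGroup.toNontrivial
    haveI := hTP.center_nontrivial
    have : Subgroup.center T = ⊤ :=
      (Subgroup.Normal.eq_bot_or_eq_top inferInstance).resolve_left
        ((Subgroup.nontrivial_iff_ne_bot _).1 inferInstance)
    exact hs.not_comm T hT ⟨⟨fun u v => Subgroup.mem_center_iff.1 (this ▸ Subgroup.mem_top v) u⟩⟩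
  obtain ⟨S, hS, hPS⟩ := hfac
  have hNS : S = N := by
    refine le_antisymm (hs.le S hS) ?_
    rw [← hs.sup_eq]
    exact Finset.sup_le fun T hT => (hsingle S hS T hT hPS).ge
  subst hNS
  refine ⟨S, hN.normal, hN.ne_bot, fun K hK hK1 => ?_, hs.simple S hS, hna, hC, fun Q => ⟨?_, ?_⟩⟩
  · rcases hN.le_or_inf_eq_bot hK with h | h
    · exact h
    · exact absurd (hcent K hK (hN.le_centralizer_of_not_le hK fun hle =>
        hN.ne_bot (by rw [← h, inf_eq_left.2 hle]))) hK1
  · exact Q.ne_bot_of_dvd_card (hndvd S hN.normal hN.ne_bot)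
  · intro n hn
    obtain ⟨P', hP'⟩ := (Q.2.map S.subtype).exists_le_sylow
    obtain ⟨g, rfl⟩ := MulAction.exists_smul_eq H P P'
    have hQ : ∀ y : S, (y : H) ∈ ((g • P : Sylow p H) : Subgroup H) → y ∈ (Q : Subgroup S) := by
      intro y hy
      have hpg : IsPGroup p (((g • P : Sylow p H) : Subgroup H).subgroupOf S) :=
        (g • P).2.comap_of_injective _ S.subtype_injective
      rw [← Q.is_maximal' hpg fun z hz => hP' ⟨z, hz, rfl⟩]
      exact hy
    by_contra hne
    obtain ⟨z, hz, hz1⟩ := (Subgroup.nontrivial_iff_exists_ne_one _).1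
      ((Subgroup.nontrivial_iff_ne_bot _).2 hne)
    obtain ⟨w, hw, hwz⟩ := hz.2
    have hzP : g⁻¹ * (z : H) * g ∈ (P : Subgroup H) := by
      obtain ⟨y, hy, hyz⟩ := hP' ⟨z, hz.1, rfl⟩
      rw [show g⁻¹ * (z : H) * g = y by rw [show (z : H) = g * y * g⁻¹ from hyz.symm]; group]
      exact hy
    have hwP : g⁻¹ * (w : H) * g ∈ (P : Subgroup H) := by
      obtain ⟨y, hy, hyz⟩ := hP' ⟨w, hw, rfl⟩
      rw [show g⁻¹ * (w : H) * g = y by rw [show (w : H) = g * y * g⁻¹ from hyz.symm]; group]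
      exact hy
    -- `n` normalises the Sylow subgroup through `Q`
    have hm : g⁻¹ * (n : H) * g ∈ Subgroup.normalizer ((P : Subgroup H) : Set H) := by
      by_contra hm
      have h1 : g⁻¹ * (z : H) * g ∈
          (P : Subgroup H) ⊓ MulAut.conj (g⁻¹ * (n : H) * g) • (P : Subgroup H) := by
        refine ⟨hzP, ⟨_, hwP, ?_⟩⟩
        show g⁻¹ * (n : H) * g * (g⁻¹ * (w : H) * g) * (g⁻¹ * (n : H) * g)⁻¹ = g⁻¹ * (z : H) * g
        rw [show (z : H) = (n : H) * w * (n : H)⁻¹ from congrArg Subtype.val hwz.symm]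
        group
      rw [hTI _ hm, Subgroup.mem_bot] at h1
      exact hz1 (Subtype.ext (by
        have : (z : H) = g * (g⁻¹ * (z : H) * g) * g⁻¹ := by group
        rw [this, h1]; simp))
    apply hn
    have hfwd : ∀ m : S, g⁻¹ * (m : H) * g ∈ Subgroup.normalizer ((P : Subgroup H) : Set H) →
        ∀ y ∈ (Q : Subgroup S), m * y * m⁻¹ ∈ (Q : Subgroup S) := by
      intro m hm y hy
      apply hQ
      obtain ⟨u, hu, huy⟩ := hP' ⟨y, hy, rfl⟩
      refine ⟨_, (Subgroup.mem_normalizer_iff.1 hm u).1 hu, ?_⟩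
      show g * (g⁻¹ * (m : H) * g * u * (g⁻¹ * (m : H) * g)⁻¹) * g⁻¹ = ((m * y * m⁻¹ : S) : H)
      rw [Subgroup.coe_mul, Subgroup.coe_mul, Subgroup.coe_inv,
        show (y : H) = g * u * g⁻¹ from huy.symm]
      group
    rw [Subgroup.mem_normalizer_iff]
    intro y
    refine ⟨hfwd n hm y, fun hy => ?_⟩
    have h2 := hfwd n⁻¹ (by
      have := Subgroup.inv_mem _ hm
      simpa [mul_assoc] using this) _ hy
    simpa [mul_assoc] using h2

end Cfsg.Agent.S4620
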