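import Cfsg.Statements.S4623
import Cfsg.Agent.SymSylow.Generated

set_option autoImplicit false
open Cfsg

namespace Cfsg.Agent.S4623

/-- In a subgroup generated by its elements of exponent `p`, `p`-th powers lie in the derived
subgroup. -/
theorem pow_mem_commutator_of_gen {G : Type*} [Group G] {p : ℕ} (H : Subgroup G)
    (h : H ≤ Subgroup.closure {g | g ∈ H ∧ g ^ p = 1}) (x : H) : x ^ p ∈ commutator H := by
  let q : H →* Abelianization H := Abelianization.of
  have key : ∀ y ∈ Subgroup.closure {g | g ∈ H ∧ g ^ p = 1}, ∀ hy : y ∈ H, q ⟨y, hy⟩ ^ p = 1 := by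
    intro y hy
    suffices ∃ hy : y ∈ H, q ⟨y, hy⟩ ^ p = 1 from fun _ => this.2
    induction hy using Subgroup.closure_induction with
    | mem z hz =>
      refine ⟨hz.1, ?_⟩
      rw [← map_pow, show (⟨z, hz.1⟩ : H) ^ p = 1 from Subtype.ext hz.2, map_one]
    | one => exact ⟨H.one_mem, by rw [show (⟨1, H.one_mem⟩ : H) = 1 from rfl, map_one, one_pow]⟩
    | mul a b _ _ ha hb =>
      obtain ⟨ha, ha'⟩ := ha
      obtain ⟨hb, hb'⟩ := hb
      exact ⟨H.mul_mem ha hb, by
        rw [show (⟨a * b, H.mul_mem ha hb⟩ : H) = ⟨a, ha⟩ * ⟨b, hb⟩ from rfl, map_mul, mul_pow, ha',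
          hb', one_mul]⟩
    | inv a _ ha =>
      obtain ⟨ha, ha'⟩ := ha
      exact ⟨H.inv_mem ha, by
        rw [show (⟨a⁻¹, H.inv_mem ha⟩ : H) = ⟨a, ha⟩⁻¹ from rfl, map_inv, inv_pow, ha', inv_one]⟩
  rw [← Abelianization.ker_of, MonoidHom.mem_ker, map_pow]
  exact key x (h x.2) x.2

/-- For every prime p and every n, a Sylow p-subgroup P of the symmetric group on n letters has P/P' elementary abelian (the p-th power of every element of P lies in the derived subgroup of P), and the same holds for a Sylow p-subgroup of the alternating group on n letters. -/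
theorem result (p : ℕ) [Fact p.Prime] (n : ℕ) (P : Sylow p (Equiv.Perm (Fin n))) (Q : Sylow p (alternatingGroup (Fin n))) :
    (∀ x : (P : Subgroup (Equiv.Perm (Fin n))), x ^ p ∈ commutator (P : Subgroup (Equiv.Perm (Fin n)))) ∧
    (∀ x : (Q : Subgroup (alternatingGroup (Fin n))), x ^ p ∈ commutator (Q : Subgroup (alternatingGroup (Fin n)))) := by
  refine ⟨pow_mem_commutator_of_gen _ (CfsgLib.SymSylow.Mono.gen_all p P).1,
    pow_mem_commutator_of_gen _ ?_⟩
  obtain ⟨P', hP'⟩ := (Q.isPGroup'.map (alternatingGroup (Fin n)).subtype).exists_le_sylow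
  have hQ : (Q : Subgroup (alternatingGroup (Fin n))) =
      (P' : Subgroup (Equiv.Perm (Fin n))).comap (alternatingGroup (Fin n)).subtype :=
    (Q.is_maximal' (P'.isPGroup'.comap_of_injective _ Subtype.coe_injective)
      (Subgroup.map_le_iff_le_comap.1 hP')).symm
  rw [← Subgroup.map_le_map_iff_of_injective (alternatingGroup (Fin n)).subtype_injective,
    MonoidHom.map_closure, hQ]
  refine le_trans ?_ (((CfsgLib.SymSylow.Mono.gen_all p P').2).trans (Subgroup.closure_mono ?_))
  · rintro _ ⟨y, hy, rfl⟩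
    exact ⟨hy, y.2⟩
  · rintro y ⟨hy, hyp⟩
    exact ⟨⟨y, hy.2⟩, ⟨hy.1, Subtype.ext hyp⟩, rfl⟩

end Cfsg.Agent.S4623
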