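import Cfsg.Statements.S4627
import Cfsg.Agent.SylowGLTwo.Three
import Cfsg.Agent.SylowGLTwo.One
import Cfsg.Agent.Classical.Linear.Card

set_option autoImplicit false
open scoped MatrixGroups
open Cfsg

namespace Cfsg.Agent.S4627

open CfsgLib.SylowGLTwo Matrix

theorem transfer {F : Type*} [Field F] [Fintype F] {β κ : Type} [Fintype β] [DecidableEq β] [Fintype κ]
    [DecidableEq κ] {n : ℕ} (e : β × κ ≃ Fin n) (W : Sylow 2 (GL (β × κ) F))
    (h : SqInDerived ((W : Subgroup (GL (β × κ) F)) ⊓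
      (Matrix.GeneralLinearGroup.det : GL (β × κ) F →* Fˣ).ker : Subgroup (GL (β × κ) F)))
    (P : Sylow 2 (Matrix.SpecialLinearGroup (Fin n) F)) :
    SqInDerived (P : Subgroup (Matrix.SpecialLinearGroup (Fin n) F)) := by
  let f : Matrix.SpecialLinearGroup (Fin n) F →* GL (β × κ) F :=
    (glEquiv e).symm.toMonoidHom.comp Matrix.SpecialLinearGroup.toGL
  have hf : Function.Injective f := (glEquiv e).symm.injective.comp Matrix.SpecialLinearGroup.toGL_injective
  have hr : f.range = (Matrix.GeneralLinearGroup.det : GL (β × κ) F →* Fˣ).ker := by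
    ext g
    rw [MonoidHom.mem_ker, ← det_glEquiv e g, ← CfsgLib.Classical.Linear.mem_range_toGL]
    constructor
    · rintro ⟨a, rfl⟩
      exact ⟨a, ((glEquiv e).apply_symm_apply _).symm⟩
    · rintro ⟨a, ha⟩
      exact ⟨a, (congrArg (glEquiv e).symm ha).trans ((glEquiv e).symm_apply_apply g)⟩
  obtain ⟨φ⟩ := sylow_of_normal f hf (hr ▸ inferInstance) W P
  rw [hr] at φ
  exact fun x => sq_mem_commutator_of_equiv φ h x

/-- Let F be a finite field of odd order q and m ≥ 1. If 4 divides q + 1, or if 4 divides q − 1 and m is a power of 2, then a Sylow 2-subgroup P of SL_{2m}(F) has P/P' elementary abelian: the square of every element of P lies in the derived subgroup of P. -/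
theorem result {F : Type*} [Field F] [Fintype F] (hF : Odd (Fintype.card F)) (m : ℕ) (hm : 1 ≤ m)
    (hq : 4 ∣ Fintype.card F + 1 ∨ (4 ∣ Fintype.card F - 1 ∧ ∃ j : ℕ, m = 2 ^ j)) (P : Sylow 2 (Matrix.SpecialLinearGroup (Fin (2 * m)) F)) :
    ∀ x : (P : Subgroup (Matrix.SpecialLinearGroup (Fin (2 * m)) F)), x ^ 2 ∈ commutator (P : Subgroup (Matrix.SpecialLinearGroup (Fin (2 * m)) F)) := by
  classical
  haveI : Fact (Nat.Prime 2) := ⟨Nat.prime_two⟩
  rcases hq with hq | ⟨hq, j, rfl⟩
  · obtain ⟨x, y, n, h⟩ := exists_sdBlock (F := F) (by omega)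
    obtain ⟨T⟩ := (inferInstance : Nonempty (Sylow 2 (Equiv.Perm (Fin m))))
    haveI : Nonempty (Fin m) := ⟨⟨0, hm⟩⟩
    obtain ⟨W, hW⟩ := h.exists_sylow_wreath m T
    exact transfer finProdFinEquiv W (hW ▸ h.sqInDerived_wreath_det T) P
  · have h1 : 1 < Fintype.card F := Fintype.one_lt_card
    have h4 : Fintype.card F % 4 = 1 := by omega
    obtain ⟨k, hk⟩ : ∃ k, padicValNat 2 (Fintype.card F - 1) = k := ⟨_, rfl⟩
    have hk2 : 2 ≤ k := hk ▸ (padicValNat_dvd_iff_le (by omega)).1 hq
    obtain ⟨a, ha⟩ : ∃ a : Fˣ, orderOf a = 2 ^ k := by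
      obtain ⟨g, hg⟩ := IsCyclic.exists_ofOrder_eq_natCard (α := Fˣ)
      refine ⟨g ^ (orderOf g / 2 ^ k), orderOf_pow_orderOf_div (orderOf_pos g).ne' ?_⟩
      rw [hg, Nat.card_units, Nat.card_eq_fintype_card, ← hk]
      exact pow_padicValNat_dvd
    let κ := Fin (j + 1) → ZMod 2
    let tr : Multiplicative κ →* Equiv.Perm κ :=
      { toFun := fun v => Equiv.addLeft v.toAdd
        map_one' := by ext x; simp
        map_mul' := fun v w => by ext x; simp [add_assoc] }
    have hE : IsPGroup 2 tr.range := by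
      refine IsPGroup.of_surjective (G := Multiplicative κ) ?_ tr.rangeRestrict tr.rangeRestrict_surjective
      refine IsPGroup.of_card (n := j + 1) ?_
      rw [Nat.card_congr Multiplicative.toAdd, Nat.card_eq_fintype_card, Fintype.card_fun, ZMod.card, Fintype.card_fin]
    obtain ⟨T, hT⟩ := hE.exists_le_sylow
    obtain ⟨W, hW⟩ := exists_sylow_monomial h4 (hk ▸ ha) T
    have htrans : ∀ i l : κ, i ≠ l → ∃ σ ∈ (T : Subgroup (Equiv.Perm κ)), σ i = l ∧ σ l = i := by
      intro i l _
      refine ⟨tr (Multiplicative.ofAdd (l + i)), hT ⟨_, rfl⟩, ?_, ?_⟩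
      · show l + i + i = l
        rw [add_assoc, CharTwo.add_self_eq_zero, add_zero]
      · show l + i + l = i
        rw [add_comm (l + i) l, ← add_assoc, CharTwo.add_self_eq_zero, zero_add]
    have hcard : Fintype.card κ = 2 * 2 ^ j := by
      rw [Fintype.card_fun, ZMod.card, Fintype.card_fin, pow_succ, mul_comm]
    exact transfer ((Equiv.uniqueProd κ (Fin 1)).trans ((Fintype.equivFin κ).trans (finCongr hcard))) W
      (hW ▸ sqInDerived_monomial hk2 ha T htrans) P

end Cfsg.Agent.S4627
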