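import Cfsg.Statements.S4628
import Cfsg.Agent.SylowGLTwo.Three

set_option autoImplicit false
open scoped MatrixGroups
open Cfsg

namespace Cfsg.Agent.S4628

open CfsgLib.SylowGLTwo Matrix

variable {F : Type*} [Field F]

/-- The matrix `diag(A, (det A)⁻¹)`. -/
def emat (k : ℕ) (A : GL (Fin k) F) : Matrix (Fin (k + 1)) (Fin (k + 1)) F :=
  (Matrix.fromBlocks (A : Matrix (Fin k) (Fin k) F) 0 0
      (Matrix.diagonal fun _ : Fin 1 => (A : Matrix (Fin k) (Fin k) F).det⁻¹)).reindex finSumFinEquiv finSumFinEquiv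

theorem emat_mul (k : ℕ) (A B : GL (Fin k) F) : emat k (A * B) = emat k A * emat k B := by
  simp only [emat, Matrix.reindex_apply, Matrix.submatrix_mul_equiv]
  congr 1
  simp [Matrix.fromBlocks_multiply, Matrix.diagonal_mul_diagonal, mul_comm]

/-- `A ↦ diag(A, (det A)⁻¹)`. -/
def embed (k : ℕ) : GL (Fin k) F →* Matrix.SpecialLinearGroup (Fin (k + 1)) F where
  toFun A := ⟨emat k A, by
    rw [emat, Matrix.det_reindex_self, Matrix.det_fromBlocks_zero₂₁, Matrix.det_diagonal]
    simp only [Finset.univ_unique, Finset.prod_singleton]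
    exact mul_inv_cancel₀ ((Matrix.isUnit_iff_isUnit_det _).1 A.isUnit).ne_zero⟩
  map_one' := by
    refine Subtype.ext ?_
    simp [emat, Matrix.fromBlocks_one]
  map_mul' A B := by
    refine Subtype.ext ?_
    exact emat_mul k A B

theorem embed_injective (k : ℕ) : Function.Injective (embed (F := F) k) := by
  intro A B h
  refine Units.ext ?_
  have h' := congrArg Subtype.val h
  simp only [embed, emat, MonoidHom.coe_mk, OneHom.coe_mk] at h'
  exact (Matrix.fromBlocks_inj.1 ((Matrix.reindex _ _).injective h')).1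

/-- Let F be a finite field of odd order q with 4 dividing q + 1, and m ≥ 1. Then a Sylow 2-subgroup P of SL_{2m+1}(F) has P/P' elementary abelian: the square of every element of P lies in the derived subgroup of P. -/
theorem result {F : Type*} [Field F] [Fintype F] (hF : Odd (Fintype.card F)) (hq : 4 ∣ Fintype.card F + 1) (m : ℕ) (hm : 1 ≤ m) (P : Sylow 2 (Matrix.SpecialLinearGroup (Fin (2 * m + 1)) F)) :
    ∀ x : (P : Subgroup (Matrix.SpecialLinearGroup (Fin (2 * m + 1)) F)), x ^ 2 ∈ commutator (P : Subgroup (Matrix.SpecialLinearGroup (Fin (2 * m + 1)) F)) := by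
  classical
  haveI : Fact (Nat.Prime 2) := ⟨Nat.prime_two⟩
  obtain ⟨x, y, n, h⟩ := exists_sdBlock (F := F) (by omega)
  obtain ⟨T⟩ := (inferInstance : Nonempty (Sylow 2 (Equiv.Perm (Fin m))))
  obtain ⟨W, hW⟩ := h.exists_sylow_wreath m T
  have hW' : SqInDerived (W : Subgroup (GL (Fin 2 × Fin m) F)) := hW ▸ h.sqInDerived_wreath T
  let f : GL (Fin 2 × Fin m) F →* Matrix.SpecialLinearGroup (Fin (2 * m + 1)) F :=
    (embed (2 * m)).comp (glEquiv finProdFinEquiv).toMonoidHom
  have hf : Function.Injective f :=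
    (embed_injective (F := F) (2 * m)).comp (glEquiv finProdFinEquiv).injective
  obtain ⟨P', hP'⟩ := exists_sylow_eq ((W : Subgroup _).map f) (by
    rw [Subgroup.card_map_of_injective hf, W.card_eq_multiplicity, Nat.factorization_def _ Nat.prime_two,
      padic_two_sl_two_mul_add_one hF,
      Nat.card_congr (glEquiv (F := F) (finProdFinEquiv (m := 2) (n := m))).toEquiv])
  exact fun a => sq_mem_commutator_of_equiv
    ((((W : Subgroup _).equivMapOfInjective f hf).trans (MulEquiv.subgroupCongr hP'.symm)).trans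
      (P'.equiv P)) (fun b => hW' b) a

end Cfsg.Agent.S4628
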