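import Cfsg.Statements.S4741
import Cfsg.Agent.Eq.Def_Blocks
import Cfsg.Agent.S0940
import Cfsg.Agent.S0908
import Cfsg.Agent.Blocks.HeightZero.MinMax
import Cfsg.Agent.Blocks.HeightZero.PrincipalSection
import Mathlib.LinearAlgebra.Matrix.NonsingularInverse

set_option autoImplicit false
open Cfsg

namespace Cfsg.Agent.S4741

open CfsgLib CfsgLib.Blocks CfsgLib.Blocks.HeightZero
open Cfsg.Agent.S0940 (pElts mem_pElts memLocalRing_sum_pElts sum_pElts_mul)
open scoped Classical ComplexConjugate

universe u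

variable {G : Type u} [Group G] [Fintype G] {p : ℕ} {M : Ideal AlgInt}

/-- The class identity behind the theorem. -/
theorem sum_pElts_class {a b : G}
    (hsep : ∀ g h : G, IsConj a g → IsConj b h → ∀ k : ℕ, 0 < k → orderOf (g * h⁻¹) ≠ p ^ k) :
    ∑ χ : IrrCharacter G, (∑ u ∈ pElts G p, (χ : G → ℂ) u) / Nat.card G *
        (χ : G → ℂ) b⁻¹ * centralChar (χ : G → ℂ) a =
      if IsConj a b then 1 else 0 := by
  have h0 : (Nat.card G : ℂ) ≠ 0 := Chars.natCard_ne_zero
  have hC0 : (Nat.card (Subgroup.centralizer ({a} : Set G)) : ℂ) ≠ 0 :=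
    Nat.cast_ne_zero.2 Nat.card_pos.ne'
  have e : ∀ χ : IrrCharacter G, (∑ u ∈ pElts G p, (χ : G → ℂ) u) / Nat.card G *
      (χ : G → ℂ) b⁻¹ * centralChar (χ : G → ℂ) a =
      ((Subgroup.centralizer ({a} : Set G)).index : ℂ) / (Nat.card G : ℂ) / (Nat.card G : ℂ) *
        ∑ u ∈ pElts G p, ∑ c : G, (χ : G → ℂ) (u * (c * a * c⁻¹)) * (χ : G → ℂ) b⁻¹ := by
    intro χ
    rw [Finset.sum_congr rfl fun u _ => (Finset.sum_mul _ _ _).symm.trans
      (congrArg (· * (χ : G → ℂ) b⁻¹) (Chars.sum_map_mul_conjugate χ u a))]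
    simp only [centralChar, Finset.mul_sum, Finset.sum_mul, Finset.sum_div]
    refine Finset.sum_congr rfl fun u _ => ?_
    field_simp [Chars.map_one_ne_zero χ]
  have hidx : ((Subgroup.centralizer ({a} : Set G)).index : ℂ) *
      Nat.card (Subgroup.centralizer ({a} : Set G)) = Nat.card G := by
    exact_mod_cast Subgroup.index_mul_card _
  rw [Finset.sum_congr rfl fun χ _ => e χ, ← Finset.mul_sum, Finset.sum_comm]
  rw [Finset.sum_congr rfl fun u _ => Finset.sum_comm]
  simp only [Chars.sum_irr_mul_map_inv]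
  rw [Finset.sum_eq_single_of_mem (1 : G) (mem_pElts.2 ⟨0, by simp⟩)]
  · by_cases hab : IsConj a b
    · have hc : ∀ c : G, IsConj (1 * (c * a * c⁻¹)) b := fun c => by
        rw [one_mul]
        exact (isConj_iff.2 ⟨c, rfl⟩ : IsConj a (c * a * c⁻¹)).symm.trans hab
      rw [if_pos hab]
      have hcard : ∀ c : G, Nat.card (Subgroup.centralizer ({1 * (c * a * c⁻¹)} : Set G)) =
          Nat.card (Subgroup.centralizer ({a} : Set G)) := fun c => by
        rw [one_mul]
        refine (Nat.card_congr ((MulAut.conj c).toEquiv.subtypeEquiv fun y => ?_)).symm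
        show y ∈ Subgroup.centralizer _ ↔ c * y * c⁻¹ ∈ Subgroup.centralizer _
        simp only [Subgroup.mem_centralizer_singleton_iff]
        constructor
        · intro h
          calc c * y * c⁻¹ * (c * a * c⁻¹) = c * (y * a) * c⁻¹ := by group
            _ = _ := by rw [h]; group
        · intro h
          calc y * a = c⁻¹ * (c * y * c⁻¹ * (c * a * c⁻¹)) * c := by group
            _ = _ := by rw [h]; group
      simp only [if_pos (hc _), hcard, Finset.sum_const, Finset.card_univ, nsmul_eq_mul,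
        ← Nat.card_eq_fintype_card]
      field_simp
      exact hidx
    · rw [if_neg hab]
      refine mul_eq_zero_of_right _ (Finset.sum_eq_zero fun c _ => if_neg fun h => hab ?_)
      rw [one_mul] at h
      exact (isConj_iff.2 ⟨c, rfl⟩ : IsConj a (c * a * c⁻¹)).trans h
  · intro u hu hu1
    obtain ⟨k, hk⟩ := mem_pElts.1 hu
    have hk0 : 0 < k := Nat.pos_of_ne_zero fun h =>
      hu1 (orderOf_eq_one_iff.1 (by rw [hk, h, pow_zero]))
    refine Finset.sum_eq_zero fun c _ => if_neg fun h => ?_
    refine hsep (c * a * c⁻¹) (u * (c * a * c⁻¹)) (isConj_iff.2 ⟨c, rfl⟩) h.symm k hk0 ?_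
    rw [mul_inv_rev, mul_inv_cancel_left, orderOf_inv, hk]

/-- Irreducible degrees over class sizes with equal `p`-parts are local units. -/
theorem isUnit_ratio (hM : IsPModular p M) {a b : ℕ} (ha : a ≠ 0) (hb : b ≠ 0)
    (h : a.factorization p = b.factorization p) :
    MemLocalRing M ((a : ℂ) / b) ∧ ¬ MemLocalIdeal M ((a : ℂ) / b) :=
  ⟨memLocalRing_natCast_div hM ha hb h.ge, not_memLocalIdeal_natCast_div hM ha hb h⟩

/-- A value at `x` through its central character. -/
theorem apply_eq_centralChar_mul (χ : IrrCharacter G) (x : G) :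
    (χ : G → ℂ) x = centralChar (χ : G → ℂ) x *
      ((charDegree (χ : G → ℂ) : ℂ) / (Subgroup.centralizer ({x} : Set G)).index) := by
  have : ((Subgroup.centralizer ({x} : Set G)).index : ℂ) ≠ 0 :=
    Nat.cast_ne_zero.2 Subgroup.index_ne_zero_of_finite
  rw [centralChar, Chars.coe_charDegree]
  field_simp [Chars.map_one_ne_zero χ]

theorem memLocalIdeal_apply_of_lt (hM : IsPModular p M) (χ : IrrCharacter G) (x : G)
    (h : (Subgroup.centralizer ({x} : Set G)).index.factorization p <
      (charDegree (χ : G → ℂ)).factorization p) :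
    MemLocalIdeal M ((χ : G → ℂ) x) := by
  have := isMaximal_of_isPModular hM
  rw [apply_eq_centralChar_mul χ x]
  refine memLocalIdeal_mul_left (memLocalRing_centralChar χ x) ?_
  obtain ⟨t, ht⟩ : p ∣ charDegree (χ : G → ℂ) := Nat.dvd_of_factorization_pos (by omega)
  have ht0 : t ≠ 0 := by rintro rfl; exact (Chars.charDegree_pos χ).ne' (by rw [ht, mul_zero])
  rw [ht, Nat.cast_mul, mul_div_assoc]
  refine memLocalIdeal_mul_right (memLocalIdeal_natCast_self hM)
    (memLocalRing_natCast_div hM ht0 Subgroup.index_ne_zero_of_finite ?_)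
  rw [ht, Nat.factorization_mul hM.1.ne_zero ht0, Finsupp.add_apply, hM.1.factorization_self] at h
  omega

/-- Let p be a prime, M a maximal ideal of the algebraic integers containing p, and D a subgroup of the finite group G. Let x₁, …, x_r be pairwise non-conjugate elements of G such that D is a Sylow p-subgroup of the centralizer of each xᵢ, and such that for any conjugates g of some xᵢ and h of some xⱼ the element g h⁻¹ is never a non-identity p-element. Then there are r distinct p-blocks B₁, …, B_r of G, each having D as a defect group, such that for every choice of characters χᵢ ∈ Bᵢ of height zero the determinant of the r × r matrix (χᵢ(xⱼ)) does not lie in the local ideal at M. -/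
theorem result {G : Type*} [Group G] [Finite G] (p : ℕ) [Fact p.Prime] (M : Ideal Cfsg.AlgInt) (hM : Cfsg.IsPModular p M) (D : Subgroup G) {r : ℕ} (x : Fin r → G) (hx : ∀ i j : Fin r, IsConj (x i) (x j) → i = j) (hD : ∀ i : Fin r, ∃ S : Sylow p ↥(Subgroup.centralizer ({x i} : Set G)), (S : Subgroup ↥(Subgroup.centralizer ({x i} : Set G))).map (Subgroup.centralizer ({x i} : Set G)).subtype = D) (hsep : ∀ i j : Fin r, ∀ g h : G, IsConj (x i) g → IsConj (x j) h → ∀ k : ℕ, 0 < k → orderOf (g * h⁻¹) ≠ p ^ k) : ∃ B : Fin r → Set (Cfsg.IrrCharacter G), Function.Injective B ∧ (∀ i : Fin r, Cfsg.IsPBlock M (B i) ∧ Cfsg.IsDefectGroup p M (B i) D) ∧ ∀ χ : Fin r → Cfsg.IrrCharacter G, (∀ i : Fin r, χ i ∈ B i ∧ Cfsg.blockHeight p (B i) (χ i : G → ℂ) = 0) → ¬ Cfsg.MemLocalIdeal M (Matrix.det (Matrix.of fun i j : Fin r => (χ i : G → ℂ) (x j))) := by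
  have := Fintype.ofFinite G
  have := isMaximal_of_isPModular hM
  set idx : Fin r → ℕ := fun i => (Subgroup.centralizer ({x i} : Set G)).index
  have hidx0 : ∀ i, idx i ≠ 0 := fun i => Subgroup.index_ne_zero_of_finite
  -- `|D| = p^d` and the class sizes
  have hcardD : ∀ i, Nat.card D =
      p ^ (Nat.card (Subgroup.centralizer ({x i} : Set G))).factorization p := by
    intro i
    obtain ⟨S, hS⟩ := hD i
    rw [← hS, Subgroup.card_map_of_injective (Subgroup.centralizer _).subtype_injective,
      S.card_eq_multiplicity]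
  have hsum : ∀ i, (idx i).factorization p +
      (Nat.card (Subgroup.centralizer ({x i} : Set G))).factorization p =
      (Nat.card G).factorization p := fun i => by
    rw [← Subgroup.index_mul_card (Subgroup.centralizer ({x i} : Set G)),
      Nat.factorization_mul (hidx0 i) Nat.card_pos.ne', Finsupp.add_apply]
  -- the vectors of reduced central characters
  set w : IrrCharacter G → Fin r → kres M := fun χ i =>
    res M ⟨_, memLocalRing_centralChar χ (x i)⟩ with hw
  have hwB : ∀ {χ ψ : IrrCharacter G}, ψ ∈ blockOf M (χ : G → ℂ) → w χ = w ψ := fun h => by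
    funext i
    exact res_eq_res_iff.2 (h (x i))
  -- a block seen on the classes and not killed there has defect group `D`
  have hmain : ∀ χ : IrrCharacter G, ¬ IsDefectGroup p M (blockOf M (χ : G → ℂ)) D →
      (∀ i, w χ i = 0) ∨ ∀ j, MemLocalIdeal M ((χ : G → ℂ) (x j)⁻¹) := by
    intro χ hnD
    by_cases hz : ∀ i, w χ i = 0
    · exact Or.inl hz
    refine Or.inr fun j => ?_
    push Not at hz
    obtain ⟨i, hi⟩ := hz
    rw [hw, Ne, res_eq_zero_iff] at hi
    have hB : IsPBlock M (blockOf M (χ : G → ℂ)) := ⟨χ, rfl⟩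
    obtain ⟨E, hE⟩ := exists_defectGroup hM hB
    obtain ⟨y, hy⟩ := exists_conj_le_centralizer hM hB (self_mem_blockOf χ) hi hE
    have hE' := isDefectGroup_conj hM hB hE y⁻¹
    have hle : E.map (MulAut.conj y⁻¹).toMonoidHom ≤
        Subgroup.centralizer ({x i} : Set G) := by
      rintro _ ⟨e, he, rfl⟩
      rw [Subgroup.mem_centralizer_singleton_iff]
      have := Subgroup.mem_centralizer_iff.1 hy e he
      show y⁻¹ * e * y⁻¹⁻¹ * x i = x i * (y⁻¹ * e * y⁻¹⁻¹)
      calc y⁻¹ * e * y⁻¹⁻¹ * x i = y⁻¹ * (e * (y * x i * y⁻¹)) * y := by group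
        _ = _ := by rw [this]; group
    have hcE := Cfsg.Agent.S0908.result p M hM _ hB _ hE'
    set E' := E.map (MulAut.conj y⁻¹).toMonoidHom
    have hEp : IsPGroup p E' := IsPGroup.of_card hcE
    obtain ⟨S, hS⟩ := hD i
    obtain ⟨S', hS'⟩ := (hEp.comap_of_injective (Subgroup.centralizer ({x i} : Set G)).subtype
      (Subgroup.centralizer _).subtype_injective).exists_le_sylow
    obtain ⟨c, hc⟩ := MulAction.exists_smul_eq (Subgroup.centralizer ({x i} : Set G)) S' S
    have hED : E'.map (MulAut.conj (c : G)).toMonoidHom ≤ D := by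
      rintro _ ⟨e, he, rfl⟩
      rw [← hS, ← hc]
      refine ⟨c * ⟨e, hle he⟩ * c⁻¹, ?_, by simp⟩
      rw [Sylow.coe_subgroup_smul]
      exact ⟨⟨e, hle he⟩, hS' he, rfl⟩
    have hdeg := minExp_le (p := p) (self_mem_blockOf (M := M) χ)
    have hmle := minExp_le_card (p := p) (self_mem_blockOf (M := M) χ)
    rw [blockDefect_eq] at hcE
    by_cases hlt : (idx j).factorization p < minExp p (blockOf M (χ : G → ℂ))
    · refine memLocalIdeal_apply_of_lt hM χ _ ?_
      rw [← centralizer_zpowers_eq, Subgroup.zpowers_inv, centralizer_zpowers_eq]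
      exact hlt.trans_le hdeg
    · refine absurd ?_ hnD
      have hDE : E'.map (MulAut.conj (c : G)).toMonoidHom = D := by
        refine Subgroup.eq_of_le_of_card_ge hED ?_
        rw [card_map_conj, hcE, hcardD j]
        have := hsum j
        exact Nat.pow_le_pow_right hM.1.pos (by omega)
      exact hDE ▸ isDefectGroup_conj hM hB hE' c
  -- the unit vectors are spanned
  set ι := {χ : IrrCharacter G // IsDefectGroup p M (blockOf M (χ : G → ℂ)) D}
  set v : ι → Fin r → kres M := fun χ => w χ.1 with hv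
  have hspan : Submodule.span (kres M) (Set.range v) = ⊤ := by
    rw [← top_le_iff, ← (Pi.basisFun (kres M) (Fin r)).span_eq, Submodule.span_le]
    rintro _ ⟨j, rfl⟩
    set z : IrrCharacter G → kres M := fun χ => res M
      ⟨(∑ u ∈ pElts G p, (χ : G → ℂ) u) / Nat.card G * (χ : G → ℂ) (x j)⁻¹,
        (localRing M).mul_mem (memLocalRing_sum_pElts hM χ)
          (memLocalRing_apply (Chars.isCharacter_coe χ) _)⟩ with hz
    have e : (Pi.basisFun (kres M) (Fin r)) j = ∑ χ : IrrCharacter G, z χ • w χ := by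
      funext i
      rw [Pi.basisFun_apply, Finset.sum_apply, Pi.single_apply]
      simp only [Pi.smul_apply, smul_eq_mul, hz, hw, ← map_mul, ← map_sum]
      have hij : (i = j) ↔ IsConj (x i) (x j) := ⟨fun h => h ▸ IsConj.refl _, hx i j⟩
      rw [show (if i = j then (1 : kres M) else 0) =
        res M (if i = j then 1 else 0) by split_ifs <;> simp]
      congr 1
      apply Subtype.ext
      push_cast
      rw [sum_pElts_class (hsep i j)]
      simp only [hij]
      split_ifs <;> simp
    rw [SetLike.mem_coe, e]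
    refine Submodule.sum_mem _ fun χ _ => ?_
    by_cases hχ : IsDefectGroup p M (blockOf M (χ : G → ℂ)) D
    · exact Submodule.smul_mem _ _ (Submodule.subset_span ⟨⟨χ, hχ⟩, rfl⟩)
    · rcases hmain χ hχ with h | h
      · rw [show w χ = 0 from funext h, smul_zero]; exact zero_mem _
      · rw [show z χ = 0 from res_eq_zero_iff.2
          (memLocalIdeal_mul_left (memLocalRing_sum_pElts hM χ) (h j)), zero_smul]
        exact zero_mem _
  -- choose `r` independent ones
  obtain ⟨κ, a, ha, hspa, hli⟩ := exists_linearIndependent' (kres M) v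
  let b := Module.Basis.mk hli (by rw [hspa, hspan])
  have : Fintype κ := FiniteDimensional.fintypeBasisIndex b
  have hcard : Fintype.card κ = Fintype.card (Fin r) := by
    rw [← Module.finrank_eq_card_basis b, Module.finrank_pi]
  let eqv := Fintype.equivOfCardEq hcard
  set sel : Fin r → IrrCharacter G := fun i => (a (eqv.symm i)).1 with hsel
  have hli' : LinearIndependent (kres M) fun i => w (sel i) := hli.comp _ eqv.symm.injective
  refine ⟨fun i => blockOf M (sel i : G → ℂ), fun i i' h => hli'.injective ?_,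
    fun i => ⟨⟨sel i, rfl⟩, (a (eqv.symm i)).2⟩, fun χ hχ => ?_⟩
  · exact hwB (show sel i' ∈ blockOf M (sel i : G → ℂ) from
      (show blockOf M (sel i : G → ℂ) = blockOf M (sel i' : G → ℂ) from h) ▸ self_mem_blockOf _)
  -- the determinant
  set W : Matrix (Fin r) (Fin r) (localRing M) :=
    Matrix.of fun i j => ⟨_, memLocalRing_centralChar (χ i) (x j)⟩ with hW
  have hWdet : ¬ MemLocalIdeal M (W.det : ℂ) := by
    rw [← res_eq_zero_iff, RingHom.map_det]
    have hrows : LinearIndependent (kres M) ((res M).mapMatrix W).row := by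
      convert hli' using 1
      funext i j
      exact (congrFun (hwB (hχ i).1) j).symm
    exact ((Matrix.isUnit_iff_isUnit_det _).1
      (Matrix.linearIndependent_rows_iff_isUnit.1 hrows)).ne_zero
  have hvd : ∀ i j, (charDegree (χ i : G → ℂ)).factorization p = (idx j).factorization p := by
    intro i j
    have h1 := (blockHeight_eq_zero_iff' (hχ i).1).1 (hχ i).2
    have h2 := Cfsg.Agent.S0908.result p M hM _ ⟨sel i, rfl⟩ D (a (eqv.symm i)).2
    rw [hcardD j, blockDefect_eq] at h2
    have h3 := Nat.pow_right_injective hM.1.two_le h2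
    have h4 := hsum j
    have h5 : minExp p (blockOf M (sel i : G → ℂ)) ≤ _ := minExp_le_card (p := p) (hχ i).1
    change _ = minExp p (blockOf M (sel i : G → ℂ)) at h1
    omega
  rcases Nat.eq_zero_or_pos r with hr | hr
  · subst hr
    rw [Matrix.det_isEmpty]
    exact not_memLocalIdeal_one
  set i₀ : Fin r := ⟨0, hr⟩
  set α : Fin r → ℂ := fun i => (charDegree (χ i : G → ℂ) : ℂ) / (idx i₀ : ℂ)
  set β : Fin r → ℂ := fun j => (idx i₀ : ℂ) / (idx j : ℂ)
  have e : Matrix.det (Matrix.of fun i j : Fin r => (χ i : G → ℂ) (x j)) =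
      (∏ i, α i) * ((∏ j, β j) * (W.det : ℂ)) := by
    rw [show (W.det : ℂ) = Matrix.det (Matrix.of fun i j => centralChar (χ i : G → ℂ) (x j)) from
      (RingHom.map_det (localRing M).subtype W), ← Matrix.det_mul_row, ← Matrix.det_mul_column]
    congr 1
    ext i j
    simp only [Matrix.of_apply, α, β]
    rw [apply_eq_centralChar_mul (χ i) (x j)]
    have : (idx i₀ : ℂ) ≠ 0 := Nat.cast_ne_zero.2 (hidx0 i₀)
    field_simp
    rfl
  rw [e]
  have hα : ∀ i, MemLocalRing M (α i) ∧ ¬ MemLocalIdeal M (α i) := fun i =>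
    isUnit_ratio hM (Chars.charDegree_pos _).ne' (hidx0 i₀) (hvd i i₀)
  have hβ : ∀ j, MemLocalRing M (β j) ∧ ¬ MemLocalIdeal M (β j) := fun j =>
    isUnit_ratio hM (hidx0 i₀) (hidx0 j) ((hvd i₀ i₀).symm.trans (hvd i₀ j))
  have hprod : ∀ f : Fin r → ℂ, (∀ i, MemLocalRing M (f i) ∧ ¬ MemLocalIdeal M (f i)) →
      MemLocalRing M (∏ i, f i) ∧ ¬ MemLocalIdeal M (∏ i, f i) := fun f hf =>
    Finset.prod_induction f (fun t => MemLocalRing M t ∧ ¬ MemLocalIdeal M t)
      (fun s t hs ht => ⟨(localRing M).mul_mem hs.1 ht.1,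
        not_memLocalIdeal_mul hs.1 ht.1 hs.2 ht.2⟩)
      ⟨(localRing M).one_mem, not_memLocalIdeal_one⟩ fun i _ => hf i
  exact not_memLocalIdeal_mul (hprod α hα).1 ((localRing M).mul_mem (hprod β hβ).1 W.det.2)
    (hprod α hα).2 (not_memLocalIdeal_mul (hprod β hβ).1 W.det.2 (hprod β hβ).2 hWdet)

end Cfsg.Agent.S4741
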