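import Cfsg.Statements.S4743
import Cfsg.Agent.Eq.Def_Blocks
import Cfsg.Agent.Eq.Def_Local
import Cfsg.Agent.Blocks.Orth.DefectZero
import Cfsg.Agent.Constrained.PSolvable

set_option autoImplicit false
open Cfsg CfsgLib.Blocks

namespace Cfsg.Agent.S4743

universe u

/-- No non-identity `p`-element commutes with a non-identity `q`-element. -/
def Separated (p q : ℕ) (G : Type u) [Group G] : Prop :=
  ∀ x y : G, (∃ i : ℕ, orderOf x = p ^ i) → (∃ j : ℕ, orderOf y = q ^ j) → Commute x y →
    x = 1 ∨ y = 1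

theorem Separated.symm {p q : ℕ} {G : Type u} [Group G] (h : Separated p q G) :
    Separated q p G := fun x y hx hy hc => (h y x hy hx hc.symm).symm

abbrev HasDefectZero (p : ℕ) (G : Type u) [Group G] : Prop :=
  ∃ χ : Cfsg.IrrCharacter G, (Cfsg.charDegree (χ : G → ℂ)).factorization p =
    (Nat.card G).factorization p

variable {G : Type u} [Group G] [Finite G]

omit [Finite G] in
theorem Separated.not_orderOf_eq {p q : ℕ} (hp : p.Prime) (hq : q.Prime) (h : Separated p q G)
    (g : G) : ¬ (p * q ∣ orderOf g ∧ orderOf g ≠ 0) := by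
  rintro ⟨hd, h0⟩
  obtain ⟨m, hm⟩ := hd
  have hm0 : m ≠ 0 := by rintro rfl; rw [mul_zero] at hm; exact h0 hm
  have h1 : orderOf (g ^ (q * m)) = p := by
    rw [orderOf_pow_of_dvd (mul_ne_zero hq.ne_zero hm0) ⟨p, by rw [hm]; ring⟩, hm, mul_assoc,
      Nat.mul_div_cancel _ (Nat.pos_of_ne_zero (mul_ne_zero hq.ne_zero hm0))]
  have h2 : orderOf (g ^ (p * m)) = q := by
    rw [orderOf_pow_of_dvd (mul_ne_zero hp.ne_zero hm0) ⟨q, by rw [hm]; ring⟩, hm,
      show p * q * m = q * (p * m) by ring,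
      Nat.mul_div_cancel _ (Nat.pos_of_ne_zero (mul_ne_zero hp.ne_zero hm0))]
  rcases h _ _ ⟨1, by rw [h1, pow_one]⟩ ⟨1, by rw [h2, pow_one]⟩
    (Commute.pow_pow_self g _ _) with h' | h'
  · rw [h', orderOf_one] at h1; exact hp.ne_one h1.symm
  · rw [h', orderOf_one] at h2; exact hq.ne_one h2.symm

theorem Separated.quotient {p q : ℕ} (hp : p.Prime) (hq : q.Prime) (hpq : p ≠ q)
    (h : Separated p q G) (N : Subgroup G) [N.Normal] : Separated p q (G ⧸ N) := by
  intro x y hx hy hc
  obtain ⟨i, hi⟩ := hx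
  obtain ⟨j, hj⟩ := hy
  by_contra hne
  push Not at hne
  have hi0 : i ≠ 0 := fun h0 => hne.1 (orderOf_eq_one_iff.1 (by rw [hi, h0, pow_zero]))
  have hj0 : j ≠ 0 := fun h0 => hne.2 (orderOf_eq_one_iff.1 (by rw [hj, h0, pow_zero]))
  obtain ⟨g, hg⟩ := QuotientGroup.mk'_surjective N (x * y)
  have hord : orderOf (x * y) = p ^ i * q ^ j := by
    rw [hc.orderOf_mul_eq_mul_orderOf_of_coprime, hi, hj]
    rw [hi, hj]
    exact Nat.Coprime.pow _ _ ((Nat.coprime_primes hp hq).2 hpq)
  refine h.not_orderOf_eq hp hq g ⟨?_, (orderOf_pos g).ne'⟩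
  refine dvd_trans ?_ (orderOf_map_dvd (QuotientGroup.mk' N) g)
  rw [hg, hord]
  exact Nat.mul_dvd_mul (dvd_pow_self p hi0) (dvd_pow_self q hj0)

/-- A normal subgroup of order prime to `q` and divisible by `p` gives `q`-defect zero. -/
theorem hasDefectZero_of_normal {p q : ℕ} [Fact p.Prime] [Fact q.Prime] (h : Separated p q G)
    (N : Subgroup G) [N.Normal] (hp : p ∣ Nat.card N) (hq : ¬ q ∣ Nat.card N) :
    HasDefectZero q G := by
  obtain ⟨z, hz⟩ := exists_prime_orderOf_dvd_card' p hp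
  rw [← Subgroup.orderOf_coe] at hz
  have hzq : ¬ q ∣ Nat.card (Subgroup.centralizer ({(z : G)} : Set G)) := fun hd => by
    obtain ⟨y, hy⟩ := exists_prime_orderOf_dvd_card' q hd
    rw [← Subgroup.orderOf_coe] at hy
    rcases h _ _ ⟨1, by rw [hz, pow_one]⟩ ⟨1, by rw [hy, pow_one]⟩
      (Subgroup.mem_centralizer_iff.1 y.2 _ rfl : Commute (z : G) (y : G)) with h' | h'
    · rw [h', orderOf_one] at hz; exact (Fact.out : p.Prime).ne_one hz.symm
    · rw [h', orderOf_one] at hy; exact (Fact.out : q.Prime).ne_one hy.symm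
  rcases exists_defect_zero_or_quotient q (z : G) hzq with h' | ⟨a, b, ha, hb, hne, k, hk⟩
  · exact h'
  exfalso
  have hmem : ∀ c : G, IsConj (z : G) c → c ∈ N := fun c hc => by
    obtain ⟨r, rfl⟩ := isConj_iff.1 hc
    exact Subgroup.Normal.conj_mem inferInstance _ z.2 r
  have hk0 : k ≠ 0 := fun h0 => hne (orderOf_eq_one_iff.1 (by rw [hk, h0, pow_zero]))
  refine hq ((dvd_pow_self q hk0).trans ?_)
  rw [← hk, ← Subgroup.orderOf_mk (a * b⁻¹) (N.mul_mem (hmem a ha) (N.inv_mem (hmem b hb)))]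
  exact orderOf_dvd_natCard _

theorem factorization_card_quotient {p : ℕ} (N : Subgroup G) [N.Normal]
    (hN : ¬ p ∣ Nat.card N) :
    (Nat.card (G ⧸ N)).factorization p = (Nat.card G).factorization p := by
  rw [Subgroup.card_eq_card_quotient_mul_card_subgroup N,
    Nat.factorization_mul Nat.card_pos.ne' Nat.card_pos.ne', Finsupp.add_apply,
    Nat.factorization_eq_zero_of_not_dvd hN, add_zero]

theorem main : ∀ (n : ℕ) (G : Type u) [Group G] [Finite G], Nat.card G ≤ n →
    ∀ (p q : ℕ) [Fact p.Prime] [Fact q.Prime], p ≠ q → Separated p q G → Cfsg.IsPSolvable p G →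
      HasDefectZero p G ∨ HasDefectZero q G := by
  intro n
  induction n with
  | zero =>
    intro G _ _ h
    exact absurd Nat.card_pos (not_lt.2 h)
  | succ n ih =>
    intro G _ _ hn p q _ _ hpq hsep hsol
    rcases subsingleton_or_nontrivial G with hs | hnt
    · refine Or.inl ⟨⟨_, CfsgLib.Chars.isIrrCharacter_one⟩, ?_⟩
      simp [Cfsg.charDegree, Nat.card_unique]
    have hp : p.Prime := Fact.out
    have hq : q.Prime := Fact.out
    -- a nontrivial normal subgroup which is a `p`-group or a `p'`-group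
    have hcase : ∃ N : Subgroup G, N.Normal ∧ N ≠ ⊥ ∧ (IsPGroup p N ∨ ¬ p ∣ Nat.card N) := by
      rcases CfsgLib.Constrained.IsPSolvable.core_ne_bot hsol with h | h
      · exact ⟨Cfsg.pCore p G, inferInstance, h, Or.inl CfsgLib.Constrained.isPGroup_pCore⟩
      · exact ⟨Cfsg.pPrimeCore p G, inferInstance, h,
          Or.inr CfsgLib.Constrained.pPrimeCore_not_dvd⟩
    obtain ⟨N, hNn, hNb, hN⟩ := hcase
    by_cases hqN : q ∣ Nat.card N
    · rcases hN with hN | hN
      · obtain ⟨k, hk⟩ := IsPGroup.iff_card.1 hN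
        rw [hk] at hqN
        exact absurd ((Nat.prime_dvd_prime_iff_eq hq hp).1 (hq.dvd_of_dvd_pow hqN)) (Ne.symm hpq)
      · exact Or.inl (hasDefectZero_of_normal hsep.symm N hqN hN)
    by_cases hpN : p ∣ Nat.card N
    · exact Or.inr (hasDefectZero_of_normal hsep N hpN hqN)
    have hlt : Nat.card (G ⧸ N) ≤ n := by
      have h1 := Subgroup.card_eq_card_quotient_mul_card_subgroup N
      have h2 : 1 < Nat.card N := Subgroup.one_lt_card_iff_ne_bot N |>.2 hNb
      have h3 : 0 < Nat.card (G ⧸ N) := Nat.card_pos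
      have h4 : Nat.card (G ⧸ N) * 2 ≤ Nat.card G := h1 ▸ Nat.mul_le_mul_left _ h2
      omega
    rcases ih (G ⧸ N) hlt p q hpq (hsep.quotient hp hq hpq N)
        (CfsgLib.Constrained.IsPSolvable.quotient hsol N) with ⟨χ, hχ⟩ | ⟨χ, hχ⟩
    · exact Or.inl ⟨CfsgLib.Chars.inflate N χ, by
        rw [CfsgLib.Chars.charDegree_inflate, hχ, factorization_card_quotient N hpN]⟩
    · exact Or.inr ⟨CfsgLib.Chars.inflate N χ, by
        rw [CfsgLib.Chars.charDegree_inflate, hχ, factorization_card_quotient N hqN]⟩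

/-- Let p ≠ q be primes dividing the order of the finite group G, suppose the centralizer of every non-identity p-element has order prime to q, and suppose G is p-solvable or q-solvable. Then G has an irreducible character of p-defect zero or an irreducible character of q-defect zero. -/
theorem result {G : Type*} [Group G] [Finite G] (p q : ℕ) [Fact p.Prime] [Fact q.Prime] (hppq : p ≠ q) (hpG : p ∣ Nat.card G) (hqG : q ∣ Nat.card G) (hC : ∀ g : G, g ≠ 1 → (∃ k : ℕ, orderOf g = p ^ k) → ¬ q ∣ Nat.card ↥(Subgroup.centralizer ({g} : Set G))) (hsolv : Cfsg.IsPSolvable p G ∨ Cfsg.IsPSolvable q G) : (∃ χ : Cfsg.IrrCharacter G, (Cfsg.charDegree (χ : G → ℂ)).factorization p = (Nat.card G).factorization p) ∨ (∃ χ : Cfsg.IrrCharacter G, (Cfsg.charDegree (χ : G → ℂ)).factorization q = (Nat.card G).factorization q) := by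
  have hsep : Separated p q G := by
    intro x y hx hy hc
    by_contra hne
    push Not at hne
    obtain ⟨j, hj⟩ := hy
    have hj0 : j ≠ 0 := fun h0 => hne.2 (orderOf_eq_one_iff.1 (by rw [hj, h0, pow_zero]))
    refine hC x hne.1 hx ((dvd_pow_self q hj0).trans ?_)
    have hmem : y ∈ Subgroup.centralizer ({x} : Set G) := by
      rw [Subgroup.mem_centralizer_iff]
      intro z hz
      rw [Set.mem_singleton_iff.1 hz]
      exact hc
    rw [← hj, ← Subgroup.orderOf_mk y hmem]
    exact orderOf_dvd_natCard _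
  rcases hsolv with h | h
  · exact main _ G le_rfl p q hppq hsep h
  · exact (main _ G le_rfl q p hppq.symm hsep.symm h).symm

end Cfsg.Agent.S4743
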