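import Cfsg.Statements.S4744
import Cfsg.Agent.Eq.Def_Blocks
import Cfsg.Agent.Blocks.Orth.DefectZero

set_option autoImplicit false
open Cfsg CfsgLib.Blocks

namespace Cfsg.Agent.S4744

/-- Let p be an odd prime and G a finite group of even order divisible by p in which the centralizer of every non-identity p-element has odd order. Then either G has an irreducible character of p-defect zero, or the normalizer of every Sylow p-subgroup P of G has even order and P is abelian. -/
theorem result {G : Type*} [Group G] [Finite G] (p : ℕ) [Fact p.Prime] (hp2 : p ≠ 2) (hpG : p ∣ Nat.card G) (h2G : 2 ∣ Nat.card G) (hC : ∀ g : G, g ≠ 1 → (∃ k : ℕ, orderOf g = p ^ k) → Odd (Nat.card ↥(Subgroup.centralizer ({g} : Set G)))) : (∃ χ : Cfsg.IrrCharacter G, (Cfsg.charDegree (χ : G → ℂ)).factorization p = (Nat.card G).factorization p) ∨ ∀ P : Sylow p G, Even (Nat.card ↥(Subgroup.normalizer ((P : Subgroup G) : Set G))) ∧ IsMulCommutative ↥(P : Subgroup G) := by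
  by_cases hdz : ∃ χ : Cfsg.IrrCharacter G,
      (Cfsg.charDegree (χ : G → ℂ)).factorization p = (Nat.card G).factorization p
  · exact Or.inl hdz
  refine Or.inr fun P => ?_
  obtain ⟨t, ht⟩ := exists_prime_orderOf_dvd_card' 2 h2G
  obtain ⟨g, hg⟩ := exists_conj_inverts_sylow p hC hdz ht P
  refine ⟨?_, isMulCommutative_of_inverted _ hg⟩
  have hord : orderOf (g * t * g⁻¹) = 2 := by
    rw [← ht]; exact orderOf_injective (MulAut.conj g).toMonoidHom (MulAut.conj g).injective t
  have hmem : g * t * g⁻¹ ∈ Subgroup.normalizer ((P : Subgroup G) : Set G) := by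
    rw [Subgroup.mem_normalizer_iff]
    intro x
    refine ⟨fun hx => by rw [hg x hx]; exact inv_mem hx, fun hx => ?_⟩
    have h2 := hg _ hx
    have hsq : (g * t * g⁻¹) * (g * t * g⁻¹) = 1 := by
      rw [← sq, ← hord]; exact pow_orderOf_eq_one _
    have h3 : x = ((g * t * g⁻¹) * x * (g * t * g⁻¹)⁻¹)⁻¹ := by
      rw [← h2]
      calc x = ((g * t * g⁻¹) * (g * t * g⁻¹)) * x * ((g * t * g⁻¹) * (g * t * g⁻¹))⁻¹ := by
            rw [hsq, inv_one, mul_one, one_mul]
        _ = _ := by group
    rw [h3]; exact inv_mem hx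
  rw [even_iff_two_dvd, ← hord, ← Subgroup.orderOf_mk _ hmem]
  exact orderOf_dvd_natCard _

end Cfsg.Agent.S4744
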