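import Cfsg.Statements.S4748
import Cfsg.Agent.TISolvable.Eigen
import Cfsg.Agent.TISolvable.Minimal
import Cfsg.Agent.Eq.Def_Characters
import Cfsg.Agent.Eq.Def_Blocks
import Cfsg.Agent.Eq.Def_Local

set_option autoImplicit false
open scoped Pointwise commutatorElement
open Cfsg

namespace Cfsg.Agent.S4748


/-- The core of the argument: a faithful representation of dimension `n` and a minimal invariant
`r`-subgroup give `|P| < n ^ 2`. -/
theorem card_lt_sq {G : Type*} [Group G] [Finite G] {r : ℕ} [Fact r.Prime] (P R : Subgroup G)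
    (hR : IsPGroup r ↥R) (hPR : P ≤ Subgroup.normalizer (R : Set G))
    (hcop : (Nat.card ↥P).Coprime (Nat.card ↥R)) (hne : ¬ R ≤ Subgroup.centralizer (P : Set G))
    (hmin : ∀ S : Subgroup G, S ≤ R → P ≤ Subgroup.normalizer (S : Set G) → S ≠ R →
      S ≤ Subgroup.centralizer (P : Set G))
    (hsemi : ∀ x ∈ P, x ≠ 1 → ∀ k ∈ R, x * k = k * x → k ∈ Subgroup.centralizer (P : Set G))
    {n : ℕ} (ρ : Representation ℂ G (Fin n → ℂ)) (hρ : ∀ g, ρ g = 1 → g = 1) :
    Nat.card ↥P < n ^ 2 := by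
  classical
  have hfix : ∀ x ∈ P, ∀ a ∈ R, a⁻¹ * (x * a * x⁻¹) ∈ Subgroup.centralizer (P : Set G) →
      x * a = a * x := by
    intro x hx a ha hc
    have hcR : a⁻¹ * (x * a * x⁻¹) ∈ R :=
      R.mul_mem (R.inv_mem ha) ((Subgroup.mem_normalizer_iff.mp (hPR hx) a).mp ha)
    refine CfsgLib.TISolvable.commute_of_commute_twist (c := a⁻¹ * (x * a * x⁻¹)) (by group)
      (Subgroup.mem_centralizer_iff.mp hc x hx) ?_
    exact (hcop.coprime_dvd_left (P.orderOf_dvd_natCard hx)).coprime_dvd_right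
      (R.orderOf_dvd_natCard hcR)
  obtain ⟨k₀, hk₀R, hk₀⟩ := SetLike.not_le_iff_exists.mp hne
  obtain ⟨x₀, hx₀, hx₀k⟩ : ∃ x ∈ P, x * k₀ ≠ k₀ * x := by
    by_contra h
    push Not at h
    exact hk₀ (Subgroup.mem_centralizer_iff.mpr h)
  have hsemi' : ∀ x ∈ P, x ≠ 1 → ∀ k ∈ R, k⁻¹ * (x * k * x⁻¹) ∈ Subgroup.centralizer (P : Set G) →
      k ∈ Subgroup.centralizer (P : Set G) :=
    fun x hx hx1 k hk h => hsemi x hx hx1 k hk (hfix x hx k hk h)
  haveI : Nontrivial ↥R := ⟨⟨⟨k₀, hk₀R⟩, 1, fun h =>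
    hk₀ (by rw [show k₀ = 1 from congrArg Subtype.val h]; exact one_mem _)⟩⟩
  have hunit : ∀ g, ρ g⁻¹ * ρ g = 1 := fun g => by rw [← map_mul, inv_mul_cancel, map_one]
  by_cases hab : ∀ a ∈ R, ∀ b ∈ R, a * b = b * a
  · -- abelian case: `|P|` eigenvectors in the space itself
    letI : CommGroup ↥R :=
      { (inferInstance : Group ↥R) with mul_comm := fun a b => Subtype.ext (hab a a.2 b b.2) }
    -- `C_R(P) = 1`
    haveI := Fintype.ofFinite ↥P
    set c : ↥P → ↥R → ↥R := fun x a =>
      ⟨(x : G) * a * (x : G)⁻¹, (Subgroup.mem_normalizer_iff.mp (hPR x.2) a).mp a.2⟩ with hc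
    have hcmul : ∀ (x : ↥P) (a b : ↥R), c x (a * b) = c x a * c x b := fun x a b =>
      Subtype.ext (by simp [hc, mul_assoc])
    have hccomp : ∀ (x y : ↥P) (a : ↥R), c x (c y a) = c (x * y) a := fun x y a =>
      Subtype.ext (by simp [hc, mul_assoc])
    let N : ↥R →* ↥R := MonoidHom.mk' (fun a => ∏ x : ↥P, c x a) (fun a b => by
      rw [← Finset.prod_mul_distrib]
      exact Finset.prod_congr rfl fun x _ => hcmul x a b)
    have hNinv : ∀ (y : ↥P) (a : ↥R), N (c y a) = N a := by
      intro y a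
      show ∏ x : ↥P, c x (c y a) = ∏ x : ↥P, c x a
      exact Fintype.prod_equiv (Equiv.mulRight y) _ _ fun x => hccomp x y a
    have hD : ∀ d ∈ R, d ∈ Subgroup.centralizer (P : Set G) → d = 1 := by
      intro d hd hdC
      by_contra hd1
      have hNd : N ⟨d, hd⟩ = (⟨d, hd⟩ : ↥R) ^ Nat.card ↥P := by
        show ∏ x : ↥P, c x ⟨d, hd⟩ = _
        have h : ∀ x : ↥P, c x ⟨d, hd⟩ = ⟨d, hd⟩ := fun x => Subtype.ext (by
          show (x : G) * d * (x : G)⁻¹ = d
          rw [Subgroup.mem_centralizer_iff.mp hdC x x.2, mul_inv_cancel_right])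
        rw [Finset.prod_congr rfl (fun x _ => h x), Finset.prod_const, Finset.card_univ,
          Nat.card_eq_fintype_card]
      have hker : N.ker.map R.subtype ≤ Subgroup.centralizer (P : Set G) := by
        refine hmin _ (Subgroup.map_subtype_le _) ?_ ?_
        · refine CfsgLib.Coprime.le_normalizer_of_conj_mem fun x hx u hu => ?_
          obtain ⟨a, ha, rfl⟩ := hu
          exact ⟨c ⟨x, hx⟩ a, (MonoidHom.mem_ker).mpr ((hNinv _ a).trans ha), rfl⟩
        · intro he
          obtain ⟨a, ha, e⟩ : d ∈ N.ker.map R.subtype := by rw [he]; exact hd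
          obtain rfl : a = ⟨d, hd⟩ := Subtype.ext e
          rw [SetLike.mem_coe, MonoidHom.mem_ker, hNd] at ha
          have hcoe : d ^ Nat.card ↥P = 1 := congrArg Subtype.val ha
          exact hd1 (orderOf_eq_one_iff.mp (Nat.eq_one_of_dvd_coprimes hcop
            (orderOf_dvd_of_pow_eq_one hcoe) (R.orderOf_dvd_natCard hd)))
      apply hx₀k
      refine hfix x₀ hx₀ k₀ hk₀R (hker ⟨(⟨k₀, hk₀R⟩ : ↥R)⁻¹ * c ⟨x₀, hx₀⟩ ⟨k₀, hk₀R⟩, ?_, rfl⟩)
      rw [SetLike.mem_coe, MonoidHom.mem_ker, map_mul, map_inv, hNinv, inv_mul_cancel]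
    have hf : ρ k₀ ≠ 1 := fun h => hk₀ (by rw [hρ k₀ h]; exact one_mem _)
    obtain ⟨θ, hθ, π, hπ, heig, -⟩ := CfsgLib.TISolvable.exists_nontrivial_eigenprojection
      (ρ.comp R.subtype) ⟨k₀, hk₀R⟩ hf
    obtain ⟨u, hu⟩ : ∃ u, π u ≠ 0 := by
      by_contra h
      push Not at h
      exact hπ (LinearMap.ext fun u => by simpa using h u)
    have hle : Nat.card ↥P ≤ n := by
      have hkey := CfsgLib.TISolvable.card_le_finrank_of_common_eigen (ι := ↥P) (J := ↥R)
        (fun a => ρ (a : G)) (fun x a => (θ (c x⁻¹ a) : ℂ)) (fun x => ρ (x : G) (π u))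
        (fun x h => hu (by
          have h2 := congrArg (ρ (x : G)⁻¹) h
          rwa [map_zero, ← Module.End.mul_apply, hunit, Module.End.one_apply] at h2))
        (fun x a => by
          have h1 := congrArg (fun T : Module.End ℂ (Fin n → ℂ) => T u) (heig (c x⁻¹ a))
          simp only [MonoidHom.comp_apply, Module.End.mul_apply, LinearMap.smul_apply] at h1
          show ρ (a : G) (ρ (x : G) (π u)) = _
          rw [← Module.End.mul_apply, ← map_mul,
            show (a : G) * x = x * (c x⁻¹ a : G) by simp [hc, mul_assoc],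
            map_mul, Module.End.mul_apply]
          erw [h1]
          rw [map_smul])
        (fun x y hxy => by
          by_contra hne'
          set z := x⁻¹ * y with hz
          have hz1 : (z : G) ≠ 1 := fun h => hne' (by
            have hz' : x⁻¹ * y = 1 := Subtype.ext h
            exact inv_mul_eq_one.mp hz')
          -- `a ↦ a⁻¹ zaz⁻¹` is bijective, and `θ` vanishes on its values
          let ψ : ↥R →* ↥R := MonoidHom.mk' (fun a => a⁻¹ * c z a) (fun a b => by
            rw [hcmul, mul_inv]; exact mul_mul_mul_comm _ _ _ _)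
          have hψi : Function.Injective ψ := by
            rw [injective_iff_map_eq_one]
            intro a ha
            have he : (a : G)⁻¹ * ((z : G) * a * (z : G)⁻¹) = 1 := congrArg Subtype.val ha
            exact Subtype.ext (hD a a.2 (hsemi' z z.2 hz1 a a.2 (by rw [he]; exact one_mem _)))
          refine hθ (MonoidHom.ext fun b => ?_)
          obtain ⟨a, rfl⟩ := Finite.surjective_of_injective hψi b
          show θ (a⁻¹ * c z a) = 1
          have h := congrFun hxy (c y a)
          simp only [hccomp, inv_mul_cancel, Units.val_inj] at h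
          rw [hz, map_mul, map_inv, h]
          have h1' : c 1 a = a := Subtype.ext (by simp [hc])
          rw [h1', inv_mul_cancel])
      rwa [Module.finrank_fin_fun] at hkey
    refine hle.trans_lt ?_
    have h2 : 1 < n := by
      refine lt_of_lt_of_le ?_ hle
      rw [Finite.one_lt_card_iff_nontrivial]
      exact ⟨⟨⟨x₀, hx₀⟩, 1, fun h => hx₀k (by
        rw [show x₀ = 1 from congrArg Subtype.val h, one_mul, mul_one])⟩⟩
    rw [sq]
    exact lt_mul_of_one_lt_left (zero_lt_one.trans h2) h2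
  · -- non-abelian case: `|P| + 1` eigenvectors among the endomorphisms
    push Not at hab
    obtain ⟨a₁, ha₁, b₁, hb₁, hab⟩ := hab
    have hDR : ⁅R, R⁆ ≤ R := Subgroup.commutator_le_self R
    have hconjR : ∀ x ∈ P, R.map (MulAut.conj x).toMonoidHom = R := fun x hx =>
      CfsgLib.Coprime.map_conj_eq_of_mem_normalizer (hPR hx)
    have hDne : ⁅R, R⁆ ≠ R := by
      intro h
      haveI := hR.isNilpotent
      have hperf : Group.IsPerfect ↥R := Subgroup.isPerfect_iff.mpr h
      exact Group.IsPerfect.not_isNilpotent (G := ↥R) inferInstance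
    have hDfix : ⁅R, R⁆ ≤ Subgroup.centralizer (P : Set G) := by
      refine hmin _ hDR (fun x hx => ?_) hDne
      rw [Subgroup.mem_normalizer_iff_map_conj_eq, Subgroup.map_commutator]
      exact congrArg₂ _ (hconjR x hx) (hconjR x hx)
    have hDcent : R ≤ Subgroup.centralizer ((⁅R, R⁆ : Subgroup G) : Set G) := by
      intro a ha
      set Cz := R ⊓ Subgroup.centralizer ((⁅R, R⁆ : Subgroup G) : Set G) with hCz
      suffices hEq : Cz = R by exact (hEq.ge ha).2
      by_contra hne'
      have hfixC : Cz ≤ Subgroup.centralizer (P : Set G) := by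
        refine hmin Cz inf_le_left ?_ hne'
        refine CfsgLib.Coprime.le_normalizer_of_conj_mem fun x hx u hu => ?_
        refine ⟨(Subgroup.mem_normalizer_iff.mp (hPR hx) u).mp hu.1, ?_⟩
        have hxc : x ∈ Subgroup.centralizer ((⁅R, R⁆ : Subgroup G) : Set G) :=
          Subgroup.mem_centralizer_iff.mpr fun d hd =>
            (Subgroup.mem_centralizer_iff.mp (hDfix hd) x hx).symm
        exact Subgroup.mul_mem _ (Subgroup.mul_mem _ hxc hu.2) (Subgroup.inv_mem _ hxc)
      refine hx₀k (hfix x₀ hx₀ k₀ hk₀R (hfixC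
        ⟨R.mul_mem (R.inv_mem hk₀R) ((Subgroup.mem_normalizer_iff.mp (hPR hx₀) k₀).mp hk₀R), ?_⟩))
      refine Subgroup.mem_centralizer_iff.mpr fun d hd => ?_
      have hd' : k₀ * d * k₀⁻¹ ∈ ⁅R, R⁆ := by
        have hnd : (k₀ * d * k₀⁻¹ * d⁻¹) * d ∈ ⁅R, R⁆ :=
          mul_mem (Subgroup.commutator_mem_commutator hk₀R (hDR hd)) hd
        rwa [inv_mul_cancel_right] at hnd
      have e1 := Subgroup.mem_centralizer_iff.mp (hDfix hd) x₀ hx₀
      have e2 := Subgroup.mem_centralizer_iff.mp (hDfix hd') x₀ hx₀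
      calc d * (k₀⁻¹ * (x₀ * k₀ * x₀⁻¹))
          = k₀⁻¹ * ((k₀ * d * k₀⁻¹) * x₀) * k₀ * x₀⁻¹ := by group
        _ = k₀⁻¹ * (x₀ * (k₀ * d * k₀⁻¹)) * k₀ * x₀⁻¹ := by rw [e2]
        _ = k₀⁻¹ * x₀ * k₀ * (d * x₀⁻¹) := by group
        _ = k₀⁻¹ * x₀ * k₀ * (x₀⁻¹ * d) := by
            rw [((Commute.inv_left (show Commute x₀ d from e1)).eq)]
        _ = k₀⁻¹ * (x₀ * k₀ * x₀⁻¹) * d := by group
    set Z : Subgroup G := ⁅R, R⁆ with hZ
    letI : CommGroup ↥Z :=
      { (inferInstance : Group ↥Z) with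
        mul_comm := fun a b => Subtype.ext (Subgroup.mem_centralizer_iff.mp (hDcent (hDR b.2)) a a.2) }
    have hf : ρ ⁅a₁, b₁⁆ ≠ 1 := fun h => hab
      (commutatorElement_eq_one_iff_mul_comm.mp (hρ _ h))
    obtain ⟨θ, hθ, π, hπ, heig, hπc⟩ := CfsgLib.TISolvable.exists_nontrivial_eigenprojection
      (ρ.comp Z.subtype) ⟨⁅a₁, b₁⁆, Subgroup.commutator_mem_commutator ha₁ hb₁⟩ hf
    have hπR : ∀ a ∈ R, Commute (ρ a) π := fun a ha => hπc _ fun z =>
      (show Commute a (z : G) from
        (Subgroup.mem_centralizer_iff.mp (hDcent ha) z z.2).symm).map ρ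
    let br : ↥R → ↥R → ↥Z := fun s a =>
      ⟨⁅(s : G), (a : G)⁆, Subgroup.commutator_mem_commutator s.2 a.2⟩
    have hbrmul : ∀ s a b : ↥R, br s (a * b) = br s a * br s b := by
      intro s a b
      apply Subtype.ext
      show ⁅(s : G), (a : G) * b⁆ = ⁅(s : G), (a : G)⁆ * ⁅(s : G), (b : G)⁆
      have e1 : ⁅(s : G), (a : G) * b⁆ = ⁅(s : G), (a : G)⁆ * ((a : G) * ⁅(s : G), (b : G)⁆ * (a : G)⁻¹) := by
        simp only [commutatorElement_def]; group
      rw [e1, ← Subgroup.mem_centralizer_iff.mp (hDcent a.2) ⁅(s : G), (b : G)⁆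
        (Subgroup.commutator_mem_commutator s.2 b.2), mul_inv_cancel_right]
    let χ : ↥R → ↥R →* ℂˣ := fun s => MonoidHom.mk' (fun a => θ (br s a))
      (fun a b => by rw [hbrmul, map_mul])
    let K : Subgroup ↥R := ⨅ s, (χ s).ker
    have hKfix : K.map R.subtype ≤ Subgroup.centralizer (P : Set G) := by
      refine hmin _ (Subgroup.map_subtype_le _) ?_ ?_
      · refine CfsgLib.Coprime.le_normalizer_of_conj_mem fun x hx u hu => ?_
        obtain ⟨a, ha, rfl⟩ := hu
        refine ⟨⟨x * a * x⁻¹, (Subgroup.mem_normalizer_iff.mp (hPR hx) a).mp a.2⟩, ?_, rfl⟩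
        rw [SetLike.mem_coe, Subgroup.mem_iInf] at ha ⊢
        intro s
        have hs : x⁻¹ * s * x ∈ R := by
          simpa using (Subgroup.mem_normalizer_iff.mp (hPR (P.inv_mem hx)) s).mp s.2
        have h := ha ⟨_, hs⟩
        rw [MonoidHom.mem_ker] at h ⊢
        refine Eq.trans ?_ h
        show θ (br s _) = θ (br ⟨_, hs⟩ a)
        congr 1
        apply Subtype.ext
        show ⁅(s : G), x * a * x⁻¹⁆ = ⁅x⁻¹ * s * x, (a : G)⁆
        have e := Subgroup.mem_centralizer_iff.mp (hDfix (Subgroup.commutator_mem_commutator hs a.2)) x hx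
        calc ⁅(s : G), x * a * x⁻¹⁆ = x * ⁅x⁻¹ * s * x, (a : G)⁆ * x⁻¹ := by
              simp only [commutatorElement_def]; group
          _ = _ := by rw [e, mul_inv_cancel_right]
      · intro hK
        apply hθ
        refine MonoidHom.ext fun z => ?_
        have hle : Z ≤ θ.ker.map Z.subtype := by
          refine Subgroup.commutator_le.mpr fun s hs a ha => ?_
          refine ⟨br ⟨s, hs⟩ ⟨a, ha⟩, ?_, rfl⟩
          obtain ⟨a', ha', e⟩ : a ∈ K.map R.subtype := by rw [hK]; exact ha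
          obtain rfl : a' = ⟨a, ha⟩ := Subtype.ext e
          exact Subgroup.mem_iInf.mp ha' ⟨s, hs⟩
        obtain ⟨z', hz', e⟩ := hle z.2
        obtain rfl : z' = z := Subtype.ext e
        exact hz'
    let w : Option ↥P → ↥R := fun o => o.elim 1 fun x =>
      ⟨(x : G) * k₀ * (x : G)⁻¹, (Subgroup.mem_normalizer_iff.mp (hPR x.2) k₀).mp hk₀R⟩
    have hwsep : Function.Injective fun o => (fun s => (χ s (w o) : ℂ)) := by
      intro o o' h
      have hmem : (((w o)⁻¹ * w o' : ↥R) : G) ∈ Subgroup.centralizer (P : Set G) := by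
        refine hKfix ⟨(w o)⁻¹ * w o', Subgroup.mem_iInf.mpr fun s => ?_, rfl⟩
        rw [MonoidHom.mem_ker, map_mul, map_inv, inv_mul_eq_one]
        exact Units.ext (congrFun h s)
      have hone : ∀ x : ↥P, (x : G) * k₀ * (x : G)⁻¹ ∉ Subgroup.centralizer (P : Set G) := by
        intro x hx
        have h1 := Subgroup.mem_centralizer_iff.mp hx x x.2
        apply hk₀
        have h2 : (x : G) * k₀ * (x : G)⁻¹ = k₀ := by
          have h3 : (x : G) * k₀ * (x : G)⁻¹ = k₀ := by
            apply mul_left_cancel (a := (x : G))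
            rw [h1, inv_mul_cancel_right]
          exact h3
        rwa [h2] at hx
      rcases o with - | x <;> rcases o' with - | y
      · rfl
      · refine absurd ?_ (hone y)
        simpa [w] using hmem
      · refine absurd ?_ (hone x)
        have h2 := inv_mem hmem
        simpa [w, mul_assoc] using h2
      · congr 1
        by_contra hxy
        apply hk₀
        refine hsemi' ((x⁻¹ * y : ↥P) : G) (x⁻¹ * y).2 ?_ k₀ hk₀R ?_
        · intro h
          have hz' : x⁻¹ * y = 1 := Subtype.ext h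
          exact hxy (inv_mul_eq_one.mp hz')
        · have hcast : ((x : G) * k₀ * (x : G)⁻¹)⁻¹ * ((y : G) * k₀ * (y : G)⁻¹) ∈
              Subgroup.centralizer (P : Set G) := hmem
          have e := Subgroup.mem_centralizer_iff.mp hcast x x.2
          have : k₀⁻¹ * (((x⁻¹ * y : ↥P) : G) * k₀ * ((x⁻¹ * y : ↥P) : G)⁻¹) =
              ((x : G) * k₀ * (x : G)⁻¹)⁻¹ * ((y : G) * k₀ * (y : G)⁻¹) := by
            rw [Subgroup.coe_mul, Subgroup.coe_inv]
            apply mul_left_cancel (a := (x : G))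
            rw [e]
            group
          rw [this]
          exact hcast
    have hkey := CfsgLib.TISolvable.card_le_finrank_of_common_eigen (ι := Option ↥P) (J := ↥R)
      (W := Module.End ℂ (Fin n → ℂ))
      (fun s => (LinearMap.mulLeft ℂ (ρ (s : G))) ∘ₗ (LinearMap.mulRight ℂ (ρ (s : G)⁻¹)))
      (fun o s => (χ s (w o) : ℂ)) (fun o => ρ (w o : G) * π)
      (fun o h => hπ (by
        have h2 := congrArg (fun T => ρ (w o : G)⁻¹ * T) h
        simpa only [mul_zero, ← mul_assoc, hunit, one_mul] using h2))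
      (fun o s => by
        show ρ (s : G) * (ρ (w o : G) * π * ρ (s : G)⁻¹) = _
        rw [mul_assoc (ρ (w o : G)), ← (hπR _ (inv_mem s.2)).eq, ← mul_assoc (ρ (w o : G)),
          ← mul_assoc, ← map_mul, ← map_mul,
          show (s : G) * ((w o : G) * (s : G)⁻¹) = (br s (w o) : G) * (w o : G) by
            simp only [br, commutatorElement_def]; group,
          map_mul, (show Commute (ρ ((br s (w o) : G))) (ρ (w o : G)) from
            (show Commute ((br s (w o) : G)) (w o : G) from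
              Subgroup.mem_centralizer_iff.mp (hDcent (w o).2) _ (br s (w o)).2).map ρ).eq, mul_assoc]
        erw [heig (br s (w o))]
        rw [Algebra.mul_smul_comm]
        rfl)
      hwsep
    rw [Finite.card_option, Module.finrank_linearMap, Module.finrank_fin_fun] at hkey
    rw [sq]
    omega

/-- Let G be a finite p-solvable group whose Sylow p-subgroup P meets each conjugate g P g⁻¹ with g outside N_G(P) trivially, and let χ be a faithful character of G (χ g = χ 1 only for g = 1) whose degree d satisfies d² ≤ |P|. Then P is normal in G. -/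
theorem result {G : Type*} [Group G] [Finite G] (p : ℕ) [Fact p.Prime] (hsolv : Cfsg.IsPSolvable p G) (P : Sylow p G) (hTI : ∀ g : G, g ∉ Subgroup.normalizer ((P : Subgroup G) : Set G) → (P : Subgroup G) ⊓ (MulAut.conj g • (P : Subgroup G)) = ⊥) (χ : G → ℂ) (hχ : Cfsg.IsCharacter G χ) (hfaith : ∀ g : G, χ g = χ 1 → g = 1) (hdeg : Cfsg.charDegree χ ^ 2 ≤ Nat.card ↥(P : Subgroup G)) : (P : Subgroup G).Normal := by
  classical
  obtain ⟨n, ρ, hρ⟩ := hχ
  have hone : χ 1 = n := by
    rw [← hρ, Representation.char_one, Module.finrank_fin_fun]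
  have hn : Cfsg.charDegree χ = n := by
    rw [Cfsg.charDegree, hone, Complex.natCast_re, Nat.floor_natCast]
  have hρf : ∀ g, ρ g = 1 → g = 1 := fun g hg => hfaith g (by
    rw [← hρ]
    simp only [Representation.character]
    rw [hg, map_one ρ])
  by_contra hPn
  -- `O_p(G) = 1`
  have hOp : Cfsg.pCore p G = ⊥ := by
    by_contra hne
    have hle : Cfsg.pCore p G ≤ (P : Subgroup G) :=
      IsPGroup.le_sylow_of_normal CfsgLib.Constrained.isPGroup_pCore P
    refine hPn (Subgroup.normalizer_eq_top_iff.mp (eq_top_iff.mpr fun g _ => ?_))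
    by_contra hg
    apply hne
    rw [← le_bot_iff, ← hTI g hg]
    refine le_inf hle fun x hx => ?_
    rw [Subgroup.mem_pointwise_smul_iff_inv_smul_mem]
    refine hle ?_
    have hmem := (CfsgLib.Constrained.instNormalPCore (G := G) p).conj_mem x hx g⁻¹
    simpa using hmem
  set K := Cfsg.pPrimeCore p G with hK
  obtain ⟨m, hm⟩ := IsPGroup.iff_card.mp P.isPGroup'
  have hKcop : (Nat.card ↥(P : Subgroup G)).Coprime (Nat.card ↥K) := by
    rw [hm]
    exact Nat.Coprime.pow_left _ CfsgLib.Constrained.pPrimeCore_coprime.symm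
  have hPK : (P : Subgroup G) ≤ Subgroup.normalizer (K : Set G) := by
    rw [Subgroup.normalizer_eq_top]; exact le_top
  have hdisj : ∀ y ∈ (P : Subgroup G), y ∈ K → y = 1 := fun y hy hyK =>
    orderOf_eq_one_iff.mp (Nat.eq_one_of_dvd_coprimes hKcop ((P : Subgroup G).orderOf_dvd_natCard hy)
      (K.orderOf_dvd_natCard hyK))
  have hnC : ¬ K ≤ Subgroup.centralizer ((P : Subgroup G) : Set G) := by
    intro h
    have hPle : (P : Subgroup G) ≤ K :=
      (Subgroup.le_centralizer_iff.mp h).trans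
        (CfsgLib.TISolvable.centralizer_pPrimeCore_le hsolv hOp)
    have hbot : (P : Subgroup G) = ⊥ := (Subgroup.eq_bot_iff_forall _).mpr fun y hy => hdisj y hy (hPle hy)
    exact hPn (by rw [hbot]; infer_instance)
  have hsol : Group.IsSolvable ↥(P : Subgroup G) ∨ Group.IsSolvable ↥K := by
    haveI := P.isPGroup'.isNilpotent
    exact Or.inl inferInstance
  -- an invariant Sylow subgroup of `K` not centralised by `P`
  obtain ⟨r, hr, S, hS, hSn⟩ : ∃ r : ℕ, r.Prime ∧ ∃ S : Subgroup G, (S ≤ K ∧ IsPGroup r ↥S ∧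
      (P : Subgroup G) ≤ Subgroup.normalizer (S : Set G)) ∧
      ¬ S ≤ Subgroup.centralizer ((P : Subgroup G) : Set G) := by
    by_contra hno
    push Not at hno
    apply hnC
    rw [← Subgroup.subgroupOf_eq_top]
    refine CfsgLib.Constrained.eq_top_of_forall_sylow_le _ fun r hr => ?_
    haveI : Fact r.Prime := ⟨hr⟩
    obtain ⟨Q, hQ⟩ := CfsgLib.Coprime.exists_invariant_sylow (p := r) hPK hKcop hsol
    refine ⟨Q, fun x hx => ?_⟩
    exact hno r hr ((Q : Subgroup ↥K).map K.subtype)
      ⟨Subgroup.map_subtype_le _, Q.isPGroup'.map _, hQ⟩ ⟨x, hx, rfl⟩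
  haveI : Fact r.Prime := ⟨hr⟩
  -- a minimal one
  obtain ⟨R, hRmin⟩ := Set.Finite.exists_minimal
    (Set.toFinite {T : Subgroup G | (T ≤ K ∧ IsPGroup r ↥T ∧
      (P : Subgroup G) ≤ Subgroup.normalizer (T : Set G)) ∧
      ¬ T ≤ Subgroup.centralizer ((P : Subgroup G) : Set G)}) ⟨S, hS, hSn⟩
  obtain ⟨⟨hRK, hRr, hRP⟩, hRn⟩ := hRmin.prop
  have hlt := card_lt_sq (r := r) (P : Subgroup G) R hRr hRP
    (hKcop.coprime_dvd_right (Subgroup.card_dvd_of_le hRK)) hRn
    (fun T hT hTP hTne => by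
      by_contra hTn
      exact hTne (le_antisymm hT (hRmin.le_of_le ⟨⟨hT.trans hRK, hRr.to_le hT, hTP⟩, hTn⟩ hT)))
    (fun x hx hx1 k hk hxk => by
      have hkN : k ∈ Subgroup.normalizer ((P : Subgroup G) : Set G) := by
        by_contra hkN
        have hxmem : x ∈ (P : Subgroup G) ⊓ (MulAut.conj k • (P : Subgroup G)) := by
          refine ⟨hx, ?_⟩
          show x ∈ MulAut.conj k • (P : Subgroup G)
          rw [Subgroup.mem_pointwise_smul_iff_inv_smul_mem]
          have e : k⁻¹ * x * k = x := by rw [mul_assoc, hxk, inv_mul_cancel_left]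
          simpa [e] using hx
        rw [hTI k hkN, Subgroup.mem_bot] at hxmem
        exact hx1 hxmem
      refine Subgroup.mem_centralizer_iff.mpr fun y hy => ?_
      have h1 : k * y * k⁻¹ * y⁻¹ = 1 := hdisj _
        ((P : Subgroup G).mul_mem ((Subgroup.mem_normalizer_iff.mp hkN y).mp hy) (inv_mem hy))
        (by
          rw [show k * y * k⁻¹ * y⁻¹ = k * (y * k⁻¹ * y⁻¹) by group]
          exact K.mul_mem (hRK hk)
            ((CfsgLib.Constrained.instNormalPPrimeCore (G := G) p).conj_mem _ (inv_mem (hRK hk)) y))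
      rw [mul_inv_eq_one, mul_inv_eq_iff_eq_mul] at h1
      exact h1.symm)
    ρ hρf
  rw [hn] at hdeg
  omega

end Cfsg.Agent.S4748
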