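import Cfsg.Statements.S4750
import Cfsg.Agent.Chars.Basic
import Cfsg.Agent.Chars.TIFixed.Main

set_option autoImplicit false
open scoped Pointwise
open Cfsg

namespace Cfsg.Agent.S4750

open CfsgLib.Chars Representation

/-- A conjugate of an element of `P` lies in `H` only for the trivial element or the trivial coset. -/
theorem eq_one_of_conj_mem {G : Type*} [Group G] [Finite G] {p : ℕ} [Fact p.Prime] (P : Sylow p G)
    (hTI : ∀ g : G, g ∉ Subgroup.normalizer ((P : Subgroup G) : Set G) →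
      (P : Subgroup G) ⊓ (MulAut.conj g • (P : Subgroup G)) = ⊥)
    (H : Subgroup G) (hH : Subgroup.normalizer ((P : Subgroup G) : Set G) ≤ H)
    (x : G) (hx : x ∈ (P : Subgroup G)) (g : G) (hg : g ∉ H) (hxg : g⁻¹ * x * g ∈ H) : x = 1 := by
  have hPH : (P : Subgroup G) ≤ H := Subgroup.le_normalizer.trans hH
  set y : H := ⟨g⁻¹ * x * g, hxg⟩ with hy
  obtain ⟨k, hk⟩ := P.isPGroup' ⟨x, hx⟩
  have hpy : IsPGroup p (Subgroup.zpowers y) := by
    have hxk : x ^ p ^ k = 1 := by simpa using congrArg Subtype.val hk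
    have hyk : y ^ p ^ k = 1 := Subtype.ext (by
      rw [SubmonoidClass.coe_pow, OneMemClass.coe_one]
      show (g⁻¹ * x * g) ^ p ^ k = 1
      rw [show g⁻¹ * x * g = MulAut.conj g⁻¹ x by simp, ← map_pow, hxk, map_one])
    rintro ⟨w, hw⟩
    obtain ⟨j, rfl⟩ := Subgroup.mem_zpowers_iff.1 hw
    refine ⟨k, Subtype.ext ?_⟩
    show (y ^ j) ^ p ^ k = 1
    rw [← zpow_natCast, ← zpow_mul, mul_comm, zpow_mul, zpow_natCast, hyk, one_zpow]
  obtain ⟨Q, hQ⟩ := hpy.exists_le_sylow
  obtain ⟨h, hh⟩ := MulAction.exists_smul_eq H (P.subtype hPH) Q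
  have hyQ : y ∈ (Q : Subgroup H) := hQ (Subgroup.mem_zpowers y)
  rw [← hh] at hyQ
  have hyP : (h : G)⁻¹ * (g⁻¹ * x * g) * h ∈ (P : Subgroup G) := by
    rw [Sylow.coe_subgroup_smul, Subgroup.mem_smul_pointwise_iff_exists] at hyQ
    obtain ⟨w, hw, hwy⟩ := hyQ
    rw [Sylow.coe_subtype, Subgroup.mem_subgroupOf] at hw
    have hwy' := congrArg Subtype.val hwy
    simp only [MulAut.smul_def, MulAut.conj_apply, Subgroup.coe_mul, Subgroup.coe_inv, hy] at hwy'
    rw [← hwy']
    simpa [mul_assoc] using hw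
  by_cases hN : g * h ∈ Subgroup.normalizer ((P : Subgroup G) : Set G)
  · exact absurd (by simpa using mul_mem (hH hN) (inv_mem h.2)) hg
  · have hmem : x ∈ MulAut.conj (g * h) • (P : Subgroup G) := by
      rw [Subgroup.mem_smul_pointwise_iff_exists]
      exact ⟨_, hyP, by simp [mul_assoc]⟩
    have := Subgroup.mem_inf.2 ⟨hx, hmem⟩
    rw [hTI _ hN] at this
    exact Subgroup.mem_bot.1 this

/-- Invariants do not grow on restriction to `H`. -/
theorem invariants_le {G W : Type*} [Group G] [Fintype G] [AddCommGroup W] [Module ℂ W]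
    [FiniteDimensional ℂ W] {p : ℕ} [Fact p.Prime] (P : Sylow p G) (H : Subgroup G)
    (hPH : (P : Subgroup G) ≤ H)
    (hfree : ∀ x ∈ (P : Subgroup G), ∀ g : G, g ∉ H → g⁻¹ * x * g ∈ H → x = 1)
    (ρ : Representation ℂ G W) (hdim : Module.finrank ℂ W ≤ Nat.card (P : Subgroup G))
    (hne : ∃ w ∈ ρ.invariants, w ≠ 0) (v : W) (hv : ∀ h ∈ H, ρ h v = v) : v ∈ ρ.invariants := by
  classical
  letI : Invertible (Fintype.card G : ℂ) :=
    invertibleOfNonzero (Nat.cast_ne_zero.2 Fintype.card_ne_zero)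
  set e := ρ.averageMap with he
  have hproj := isProj_averageMap ρ
  have hcomm : ∀ g w, e (ρ g w) = e w := by
    intro g w
    rw [he, averageMap, ← asAlgebraHom_single_one, ← Module.End.mul_apply,
      ← map_mul (asAlgebraHom ρ), GroupAlgebra.mul_average_right]
  let W₀ := LinearMap.ker e
  have hstab : ∀ g, ∀ w ∈ W₀, ρ g w ∈ W₀ := fun g w hw => by
    rw [LinearMap.mem_ker, hcomm]; exact hw
  let σ : Representation ℂ G W₀ :=
    { toFun := fun g => (ρ g).restrict (hstab g)
      map_one' := LinearMap.ext fun w => Subtype.ext (by simp)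
      map_mul' := fun g h => LinearMap.ext fun w => Subtype.ext (by simp) }
  have hdim₀ : Module.finrank ℂ W₀ < Nat.card (P : Subgroup G) := by
    obtain ⟨w, hw, hw0⟩ := hne
    refine lt_of_lt_of_le (Submodule.finrank_lt (lt_top_iff_ne_top.2 fun htop => hw0 ?_).ne) hdim
    have h1 : w ∈ W₀ := htop ▸ Submodule.mem_top
    rw [LinearMap.mem_ker, hproj.map_id w hw] at h1
    exact h1
  have hG : ∀ w : W₀, (∀ g, σ g w = w) → w = 0 := by
    intro w hw
    have h1 : (w : W) ∈ ρ.invariants := fun g => congrArg Subtype.val (hw g)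
    have h2 : e w = 0 := LinearMap.mem_ker.1 w.2
    rw [hproj.map_id _ h1] at h2
    exact Subtype.ext h2
  let v₀ : W₀ := ⟨v - e v, by rw [LinearMap.mem_ker, map_sub, hproj.map_id _ (hproj.map_mem v), sub_self]⟩
  have hv₀ : ∀ h ∈ H, σ h v₀ = v₀ := fun h hh => Subtype.ext (by
    show ρ h (v - e v) = v - e v
    rw [map_sub, hv h hh, hproj.map_mem v h])
  have h0 := CfsgLib.Chars.TIFixed.fixed_eq_zero (P : Subgroup G) H P.isPGroup' hPH hfree σ hdim₀ hG hv₀
  have : v = e v := sub_eq_zero.1 (congrArg Subtype.val h0)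
  rw [this]
  exact hproj.map_mem v


/-- Let P be a Sylow p-subgroup of the finite group G that meets each conjugate g P g⁻¹ with g outside N_G(P) trivially, χ a character of G with χ(1)² ≤ |P|, and H a subgroup of G containing N_G(P). Then the inner product of χ with itself over G equals the inner product over H of the restriction of χ to H. -/
theorem result {G : Type*} [Group G] [Fintype G] [DecidableEq G] (p : ℕ) [Fact p.Prime] (P : Sylow p G) (hTI : ∀ g : G, g ∉ Subgroup.normalizer ((P : Subgroup G) : Set G) → (P : Subgroup G) ⊓ (MulAut.conj g • (P : Subgroup G)) = ⊥) (χ : G → ℂ) (hχ : Cfsg.IsCharacter G χ) (hdeg : Cfsg.charDegree χ ^ 2 ≤ Nat.card ↥(P : Subgroup G)) (H : Subgroup G) [Fintype ↥H] (hH : Subgroup.normalizer ((P : Subgroup G) : Set G) ≤ H) : Cfsg.classInner χ χ = Cfsg.classInner (fun h : ↥H => χ h) (fun h : ↥H => χ h) := by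
  classical
  obtain ⟨n, ρ, rfl⟩ := hχ
  letI : Invertible (Nat.card G : ℂ) :=
    invertibleOfNonzero (Nat.cast_ne_zero.2 Nat.card_pos.ne')
  letI : Invertible (Nat.card H : ℂ) :=
    invertibleOfNonzero (Nat.cast_ne_zero.2 Nat.card_pos.ne')
  let W := (Fin n → ℂ) →ₗ[ℂ] (Fin n → ℂ)
  let τ : Representation ℂ G W := ρ.linHom ρ
  let ρH : Representation ℂ H (Fin n → ℂ) := ρ.comp H.subtype
  have key : ∀ {K : Type _} [Group K] [Fintype K] [Invertible (Nat.card K : ℂ)]
      (σ : Representation ℂ K (Fin n → ℂ)),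
      classInner σ.character σ.character = (Module.finrank ℂ (σ.linHom σ).invariants : ℂ) := by
    intro K _ _ _ σ
    rw [← card_inv_mul_sum_char_eq_finrank]
    simp only [classInner]
    congr 1
    refine Finset.sum_congr rfl fun g _ => ?_
    rw [char_linHom, conj_eq_map_inv (χ := σ.character) ⟨n, σ, rfl⟩, mul_comm]
  have e1 := key ρ
  have e2 := key ρH
  refine e1.trans (Eq.trans ?_ e2.symm)
  have hsame : τ.invariants = (ρH.linHom ρH).invariants := by
    refine le_antisymm (fun f hf h => hf (h : G)) fun f hf => ?_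
    have hd : charDegree ρ.character = n := by
      refine charDegree_eq_of_map_one ?_
      rw [Representation.char_one]; simp
    rw [hd] at hdeg
    rcases Nat.eq_zero_or_pos n with hn | hn
    · subst hn
      intro g
      exact LinearMap.ext fun x => Subsingleton.elim _ _
    refine invariants_le P H (Subgroup.le_normalizer.trans hH)
      (fun x hx g hg hxg => eq_one_of_conj_mem P hTI H hH x hx g hg hxg) τ ?_
      ⟨LinearMap.id, fun g => ?_, fun h => ?_⟩ f (fun h hh => hf ⟨h, hh⟩)
    · show Module.finrank ℂ ((Fin n → ℂ) →ₗ[ℂ] (Fin n → ℂ)) ≤ _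
      rw [Module.finrank_linearMap]; simpa [sq] using hdeg
    · refine LinearMap.ext fun x => ?_
      show ρ g (ρ g⁻¹ x) = x
      rw [← Module.End.mul_apply, ← map_mul, mul_inv_cancel, map_one]
      rfl
    · have := congrFun (LinearMap.congr_fun h (fun _ => (1 : ℂ))) ⟨0, hn⟩
      simp at this
  rw [hsame]

end Cfsg.Agent.S4750
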