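import Cfsg.Statements.S4754
import Cfsg.Agent.Chars.Basic.ClassSum

set_option autoImplicit false
open Cfsg

namespace Cfsg.Agent.S4754

/-- For elements x, y of a finite group G, the conjugacy class of x y equals the set of all products of a conjugate of x with a conjugate of y if and only if χ(1) χ(a x a⁻¹ b y b⁻¹) = χ(x) χ(y) for all a, b ∈ G and every irreducible character χ. -/
theorem result {G : Type*} [Group G] [Finite G] (x y : G) : (∀ z : G, IsConj (x * y) z ↔ ∃ a b : G, z = a * x * a⁻¹ * (b * y * b⁻¹)) ↔ ∀ (a b : G) (χ : Cfsg.IrrCharacter G), (χ : G → ℂ) 1 * (χ : G → ℂ) (a * x * a⁻¹ * (b * y * b⁻¹)) = (χ : G → ℂ) x * (χ : G → ℂ) y := by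
  classical
  haveI := Fintype.ofFinite G
  constructor
  · intro H a b χ
    have hconst : ∀ a b : G, (χ : G → ℂ) (a * x * a⁻¹ * (b * y * b⁻¹)) = (χ : G → ℂ) (x * y) :=
      fun a b => (CfsgLib.Chars.eq_of_isConj (CfsgLib.Chars.isClassFunction_coe χ)
        ((H _).mpr ⟨a, b, rfl⟩)).symm
    have hsum := CfsgLib.Chars.sum_map_mul_conjugate χ x y
    have e : ∀ c : G, (χ : G → ℂ) (x * (c * y * c⁻¹)) = (χ : G → ℂ) (x * y) := fun c => by
      simpa using hconst 1 c
    simp only [e, Finset.sum_const, Finset.card_univ, nsmul_eq_mul,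
      ← Nat.card_eq_fintype_card] at hsum
    rw [eq_div_iff (CfsgLib.Chars.map_one_ne_zero χ), mul_assoc] at hsum
    rw [hconst a b, mul_comm]
    exact mul_left_cancel₀ CfsgLib.Chars.natCard_ne_zero hsum
  · intro H z
    constructor
    · intro hc
      obtain ⟨c, rfl⟩ := isConj_iff.mp hc
      exact ⟨c, c, by group⟩
    · rintro ⟨a, b, rfl⟩
      refine CfsgLib.Chars.isConj_of_forall_eq fun χ => ?_
      have h1 := H 1 1 χ
      simp only [one_mul, inv_one, mul_one] at h1
      exact mul_left_cancel₀ (CfsgLib.Chars.map_one_ne_zero χ) (h1.trans (H a b χ).symm)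

end Cfsg.Agent.S4754
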