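import Cfsg.Statements.S4755
import Cfsg.Agent.Chars.Basic.ClassSum
import Cfsg.Agent.Chars.Basic.Linear

set_option autoImplicit false
open Cfsg

namespace Cfsg.Agent.S4755

/-- Let x, y be non-identity elements of the finite group G such that χ(x' y') = χ(x') χ(y') for all conjugates x' of x, y' of y and every irreducible character χ. Then the conjugacy class of x y is the set of all products of a conjugate of x with a conjugate of y; every irreducible character of degree greater than 1 vanishes at x y; and the conjugacy class of x y is the coset of the commutator subgroup containing x y. -/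
theorem result {G : Type*} [Group G] [Finite G] (x y : G) (hx : x ≠ 1) (hy : y ≠ 1) (h : ∀ (a b : G) (χ : Cfsg.IrrCharacter G), (χ : G → ℂ) (a * x * a⁻¹ * (b * y * b⁻¹)) = (χ : G → ℂ) (a * x * a⁻¹) * (χ : G → ℂ) (b * y * b⁻¹)) : (∀ z : G, IsConj (x * y) z ↔ ∃ a b : G, z = a * x * a⁻¹ * (b * y * b⁻¹)) ∧ (∀ χ : Cfsg.IrrCharacter G, (χ : G → ℂ) 1 ≠ 1 → (χ : G → ℂ) (x * y) = 0) ∧ (∀ z : G, IsConj (x * y) z ↔ (x * y)⁻¹ * z ∈ commutator G) := by
  classical
  haveI := Fintype.ofFinite G
  have hconst : ∀ (a b : G) (χ : IrrCharacter G),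
      (χ : G → ℂ) (a * x * a⁻¹ * (b * y * b⁻¹)) = (χ : G → ℂ) x * (χ : G → ℂ) y := fun a b χ => by
    rw [h a b χ, CfsgLib.Chars.isClassFunction_coe χ x a, CfsgLib.Chars.isClassFunction_coe χ y b]
  have hxy : ∀ χ : IrrCharacter G, (χ : G → ℂ) (x * y) = (χ : G → ℂ) x * (χ : G → ℂ) y := fun χ => by
    simpa using hconst 1 1 χ
  have hnl : ∀ χ : IrrCharacter G, (χ : G → ℂ) 1 ≠ 1 → (χ : G → ℂ) (x * y) = 0 := fun χ hχ => by
    have hsum := CfsgLib.Chars.sum_map_mul_conjugate χ x y
    have e : ∀ c : G, (χ : G → ℂ) (x * (c * y * c⁻¹)) = (χ : G → ℂ) (x * y) := fun c => by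
      rw [hxy χ, ← hconst 1 c χ]; simp
    simp only [e, ← hxy χ, Finset.sum_const, Finset.card_univ, nsmul_eq_mul,
      ← Nat.card_eq_fintype_card] at hsum
    rw [eq_div_iff (CfsgLib.Chars.map_one_ne_zero χ), mul_assoc] at hsum
    have h2 := mul_left_cancel₀ CfsgLib.Chars.natCard_ne_zero hsum
    by_contra hne
    exact hχ (mul_left_cancel₀ hne (h2.trans (mul_one _).symm))
  refine ⟨fun z => ⟨?_, ?_⟩, hnl, fun z => ⟨?_, ?_⟩⟩
  · intro hc
    obtain ⟨c, rfl⟩ := isConj_iff.mp hc
    exact ⟨c, c, by group⟩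
  · rintro ⟨a, b, rfl⟩
    exact CfsgLib.Chars.isConj_of_forall_eq fun χ => by rw [hxy, hconst]
  · intro hc
    obtain ⟨c, rfl⟩ := isConj_iff.mp hc
    rw [commutator_def]
    have := Subgroup.commutator_mem_commutator (Subgroup.mem_top (x * y)⁻¹) (Subgroup.mem_top c)
    convert this using 1
    simp [commutatorElement_def, mul_assoc]
  · intro hz
    by_contra hc
    have hzero := CfsgLib.Chars.sum_irr_mul_conj (x * y) z
    rw [if_neg hc] at hzero
    have hdiag := CfsgLib.Chars.sum_irr_mul_conj (x * y) (x * y)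
    rw [if_pos (IsConj.refl _)] at hdiag
    have : ∀ χ : IrrCharacter G, (χ : G → ℂ) (x * y) * starRingEnd ℂ ((χ : G → ℂ) z) =
        (χ : G → ℂ) (x * y) * starRingEnd ℂ ((χ : G → ℂ) (x * y)) := fun χ => by
      by_cases h1 : (χ : G → ℂ) 1 = 1
      · have hker := (CfsgLib.Chars.commutator_le_charKer_iff χ).mpr h1 hz
        obtain ⟨l, rfl⟩ := CfsgLib.Chars.exists_linChar_eq χ h1
        have := CfsgLib.Chars.map_eq_map_one_of_mem_charKer hker
        simp only [CfsgLib.Chars.linChar_apply, map_one, Units.val_one, Units.val_eq_one,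
          map_mul, map_inv] at this
        rw [inv_mul_eq_one] at this
        simp [this]
      · rw [hnl χ h1, zero_mul, zero_mul]
    simp only [this] at hzero
    rw [hzero] at hdiag
    exact (Nat.cast_ne_zero.mpr Nat.card_pos.ne') hdiag.symm

end Cfsg.Agent.S4755
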