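import Cfsg.Statements.S4756
import Cfsg.Agent.Chars.Basic
import Cfsg.Agent.Coprime.Generation
import Mathlib.GroupTheory.SchurZassenhaus

set_option autoImplicit false
open Cfsg

namespace Cfsg.Agent.S4756

open CfsgLib.Chars

universe v

variable {G : Type v} [Group G] [Finite G]

/-- If all non-linear characters vanish at `g`, its centraliser has order the index of the
commutator subgroup. -/
theorem card_centralizer_of_vanish {g : G}
    (h : ∀ χ : IrrCharacter G, (χ : G → ℂ) 1 ≠ 1 → (χ : G → ℂ) g = 0) :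
    Nat.card (Subgroup.centralizer ({g} : Set G)) = (commutator G).index := by
  classical
  have hc := sum_irr_norm_sq g
  conv_rhs => rw [← card_linear_irr, Nat.card_eq_fintype_card, Fintype.card_subtype]
  have e : ∀ χ : IrrCharacter G, ‖(χ : G → ℂ) g‖ ^ 2 = if (χ : G → ℂ) 1 = 1 then 1 else 0 := by
    intro χ
    split_ifs with h1
    · obtain ⟨l, rfl⟩ := exists_linChar_eq χ h1
      have hl : ((l g : ℂˣ) : ℂ) ^ orderOf g = 1 := by
        rw [← Units.val_pow_eq_pow_val, ← map_pow, pow_orderOf_eq_one, map_one, Units.val_one]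
      rw [linChar_apply, norm_eq_one_of_pow_orderOf hl, one_pow]
    · rw [h χ h1]; simp
  simp only [e, Finset.sum_boole] at hc
  exact_mod_cast hc.symm

/-- A character vanishing on the non-identity elements of `Q` has degree divisible by `|Q|`. -/
theorem card_dvd_charDegree (χ : IrrCharacter G) (Q : Subgroup G)
    (h : ∀ x ∈ Q, x ≠ 1 → (χ : G → ℂ) x = 0) : Nat.card Q ∣ Cfsg.charDegree (χ : G → ℂ) := by
  haveI := Fintype.ofFinite Q
  obtain ⟨n, hn⟩ := exists_nat_classInner (isCharacter_restrict (isCharacter_coe χ) Q) (oneChar Q)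
  refine ⟨n, ?_⟩
  simp only [classInner, oneChar_apply, map_one, mul_one] at hn
  rw [Finset.sum_eq_single (1 : Q) (fun x _ hx => h x x.2 fun h1 => hx (Subtype.ext h1)) (by simp),
    OneMemClass.coe_one, inv_mul_eq_iff_eq_mul₀ natCard_ne_zero, ← coe_charDegree] at hn
  exact_mod_cast hn

/-- The product of a `p`- and a `q`-element on non-linear characters. -/
theorem mul_eq_zero_of_multiplicative
    (H : ∀ (x y : G) (χ : IrrCharacter G), x ≠ 1 → y ≠ 1 →
      (∃ p q a b : ℕ, p.Prime ∧ q.Prime ∧ p ≠ q ∧ orderOf x = p ^ a ∧ orderOf y = q ^ b) →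
      (χ : G → ℂ) (x * y) = (χ : G → ℂ) x * (χ : G → ℂ) y)
    (χ : IrrCharacter G) (hχ : (χ : G → ℂ) 1 ≠ 1) {x y : G} (hx : x ≠ 1) (hy : y ≠ 1)
    {p q a b : ℕ} (hp : p.Prime) (hq : q.Prime) (hpq : p ≠ q) (hox : orderOf x = p ^ a)
    (hoy : orderOf y = q ^ b) : (χ : G → ℂ) x * (χ : G → ℂ) y = 0 := by
  haveI := Fintype.ofFinite G
  have hsum := sum_map_mul_conjugate χ x y
  have e : ∀ c : G, (χ : G → ℂ) (x * (c * y * c⁻¹)) = (χ : G → ℂ) x * (χ : G → ℂ) y := fun c => by
    have hoc : orderOf (c * y * c⁻¹) = q ^ b := by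
      rw [← hoy]
      exact (MulAut.conj c).orderOf_eq y
    rw [H x _ χ hx (fun h => hy (conj_eq_one_iff.mp h)) ⟨p, q, a, b, hp, hq, hpq, hox, hoc⟩,
      isClassFunction_coe χ y c]
  simp only [e, Finset.sum_const, Finset.card_univ, nsmul_eq_mul,
    ← Nat.card_eq_fintype_card] at hsum
  rw [eq_div_iff (map_one_ne_zero χ), mul_assoc] at hsum
  have h2 := mul_left_cancel₀ natCard_ne_zero hsum
  by_contra hne
  exact hχ (mul_left_cancel₀ hne (h2.trans (mul_one _).symm))

theorem structure_of_multiplicative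
    (H : ∀ (x y : G) (χ : IrrCharacter G), x ≠ 1 → y ≠ 1 →
      (∃ p q a b : ℕ, p.Prime ∧ q.Prime ∧ p ≠ q ∧ orderOf x = p ^ a ∧ orderOf y = q ^ b) →
      (χ : G → ℂ) (x * y) = (χ : G → ℂ) x * (χ : G → ℂ) y)
    (hpg : ¬ ∃ p : ℕ, p.Prime ∧ IsPGroup p G) (hab : ¬ IsMulCommutative G) :
    ∃ (p : ℕ) (_ : Fact p.Prime) (P : Sylow p G) (A : Subgroup G), (P : Subgroup G).Normal ∧
      IsCyclic ↥A ∧ A ≠ ⊥ ∧ (Nat.card ↥A).Coprime p ∧ A ⊔ (P : Subgroup G) = ⊤ ∧
      IsMulCommutative ↥((P : Subgroup G) ⊓ Subgroup.centralizer (A : Set G)) ∧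
      (⁅A, (P : Subgroup G)⁆).Normal ∧
      ((P : Subgroup G) ⊓ Subgroup.centralizer (A : Set G)) ⊔ ⁅A, (P : Subgroup G)⁆ =
        (P : Subgroup G) ∧
      ((P : Subgroup G) ⊓ Subgroup.centralizer (A : Set G)) ⊓ ⁅A, (P : Subgroup G)⁆ = ⊥ ∧
      ∀ a ∈ A, a ≠ 1 → ∀ d ∈ ⁅A, (P : Subgroup G)⁆, a * d = d * a → d = 1 := by
  classical
  haveI := Fintype.ofFinite G
  have hG'ne : commutator G ≠ ⊥ := fun h => hab ⟨⟨fun a b => by
    have := Subgroup.commutator_mem_commutator (Subgroup.mem_top a) (Subgroup.mem_top b)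
    rw [← commutator_def, h, Subgroup.mem_bot] at this
    exact commutatorElement_eq_one_iff_mul_comm.mp this⟩⟩
  obtain ⟨p, hp, hpG'⟩ := Nat.exists_prime_and_dvd
    (fun h => hG'ne (Subgroup.card_eq_one.mp h) : Nat.card (commutator G) ≠ 1)
  haveI : Fact p.Prime := ⟨hp⟩
  obtain ⟨x, hox⟩ := exists_prime_orderOf_dvd_card' (G := commutator G) p hpG'
  have hx1 : (x : G) ≠ 1 := fun h => by
    rw [show x = 1 from Subtype.ext h, orderOf_one] at hox
    exact hp.ne_one hox.symm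
  have hxo : orderOf (x : G) = p ^ 1 := by rw [Subgroup.orderOf_coe, hox, pow_one]
  -- the commutator subgroup is a `p`-group
  have hq : ∀ q : ℕ, q.Prime → q ≠ p → ¬ q ∣ Nat.card (commutator G) := by
    intro q hq hqp hdvd
    haveI : Fact q.Prime := ⟨hq⟩
    obtain ⟨Q⟩ : Nonempty (Sylow q G) := inferInstance
    have hQd : ∀ χ : IrrCharacter G, (χ : G → ℂ) 1 ≠ 1 → (χ : G → ℂ) x ≠ 0 →
        Nat.card Q ∣ Cfsg.charDegree (χ : G → ℂ) := fun χ hχ hne =>
      card_dvd_charDegree χ (Q : Subgroup G) fun y hy hy1 => by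
        obtain ⟨b, hb⟩ := IsPGroup.iff_orderOf.mp Q.2 ⟨y, hy⟩
        rw [Subgroup.orderOf_mk] at hb
        exact (mul_eq_zero.mp
          (mul_eq_zero_of_multiplicative H χ hχ hx1 hy1 hp hq hqp.symm hxo hb)).resolve_left hne
    have hcol := sum_irr_map_one_mul (x : G)
    rw [if_neg hx1, ← Finset.sum_filter_add_sum_filter_not Finset.univ
      (fun χ : IrrCharacter G => (χ : G → ℂ) 1 = 1)] at hcol
    have hlin : ∑ χ ∈ Finset.univ.filter (fun χ : IrrCharacter G => (χ : G → ℂ) 1 = 1),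
        (χ : G → ℂ) 1 * (χ : G → ℂ) x = ((commutator G).index : ℂ) := by
      rw [Finset.sum_congr rfl (g := fun _ => (1 : ℂ)) (fun χ hχ => by
        rw [(Finset.mem_filter.mp hχ).2, one_mul,
          mem_commutator_iff.mp x.2 χ (Finset.mem_filter.mp hχ).2]), Finset.sum_const,
        nsmul_one, ← Fintype.card_subtype, ← Nat.card_eq_fintype_card, card_linear_irr]
    rw [hlin, add_eq_zero_iff_eq_neg] at hcol
    have hint : IsIntegral ℤ (((commutator G).index : ℂ) / (Nat.card Q : ℂ)) := by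
      rw [hcol, neg_div, Finset.sum_div]
      refine (IsIntegral.sum _ fun χ hχ => ?_).neg
      by_cases hne : (χ : G → ℂ) x = 0
      · rw [hne, mul_zero, zero_div]; exact isIntegral_zero
      · obtain ⟨k, hk⟩ := hQd χ (Finset.mem_filter.mp hχ).2 hne
        rw [← coe_charDegree, hk, Nat.cast_mul, mul_assoc,
          mul_div_cancel_left₀ _ (Nat.cast_ne_zero.mpr Nat.card_pos.ne')]
        exact (isIntegral_natCast (R := ℤ) k).mul (isIntegral_apply (isCharacter_coe χ) _)
    have hd : Nat.card Q ∣ (commutator G).index := dvd_of_isIntegral_div Nat.card_pos.ne' hint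
    rw [Q.card_eq_multiplicity] at hd
    have h1 := Nat.mul_dvd_mul hdvd hd
    rw [(commutator G).card_mul_index, ← pow_succ'] at h1
    have h2 := (hq.pow_dvd_iff_le_factorization Nat.card_pos.ne').mp h1
    omega
  have hG'p : IsPGroup p (commutator G) := by
    refine IsPGroup.iff_card.mpr ⟨(Nat.card (commutator G)).primeFactorsList.length, ?_⟩
    exact Nat.eq_prime_pow_of_unique_prime_dvd Nat.card_pos.ne' fun {d} hd hdd => by
      by_contra hne
      exact hq d hd hne hdd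
  obtain ⟨P₀⟩ : Nonempty (Sylow p G) := inferInstance
  obtain ⟨P, hP⟩ := hG'p.exists_le_sylow
  haveI hPn : (P : Subgroup G).Normal := by
    refine ⟨fun y hy g => ?_⟩
    have : g * y * g⁻¹ = (g * y * g⁻¹ * y⁻¹) * y := by group
    rw [this]
    exact mul_mem (hP (Subgroup.commutator_mem_commutator (Subgroup.mem_top g)
      (Subgroup.mem_top y))) hy
  obtain ⟨A, hA⟩ := Subgroup.exists_right_complement'_of_coprime P.card_coprime_index
  have hAcard : Nat.card A = (P : Subgroup G).index := hA.symm.index_eq_card.symm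
  have hAcop : (Nat.card A).Coprime (Nat.card (P : Subgroup G)) :=
    hAcard ▸ P.card_coprime_index.symm
  have hAp : (Nat.card A).Coprime p :=
    (hp.coprime_iff_not_dvd.mpr (hAcard ▸ P.not_dvd_index)).symm
  have hAne : A ≠ ⊥ := by
    intro h
    refine hpg ⟨p, hp, ?_⟩
    obtain ⟨a, ha⟩ := P.2.exists_card_eq
    exact IsPGroup.of_card (n := a) (by rw [← hA.card_mul_card, h, Subgroup.card_bot, mul_one, ha])
  have hAP : A ⊔ (P : Subgroup G) = ⊤ := hA.symm.sup_eq_top
  have hAab : IsMulCommutative A := ⟨⟨fun a b => Subtype.ext (by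
    have hmem : (a : G) * b * (a : G)⁻¹ * (b : G)⁻¹ ∈ (P : Subgroup G) ⊓ A :=
      Subgroup.mem_inf.mpr ⟨hP (Subgroup.commutator_mem_commutator (Subgroup.mem_top _)
        (Subgroup.mem_top _)), mul_mem (mul_mem (mul_mem a.2 b.2) (inv_mem a.2)) (inv_mem b.2)⟩
    rw [disjoint_iff.mp hA.disjoint, Subgroup.mem_bot] at hmem
    exact mul_inv_eq_iff_eq_mul.mp (mul_inv_eq_one.mp hmem))⟩⟩
  -- non-linear characters vanish on the other primes
  have hvan : ∀ χ : IrrCharacter G, (χ : G → ℂ) 1 ≠ 1 → ∀ (q : ℕ) (y : G) (b : ℕ), q.Prime →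
      q ≠ p → orderOf y = q ^ b → y ≠ 1 → (χ : G → ℂ) y = 0 := by
    intro χ hχ q y b hq hqp hy hy1
    by_contra hne
    haveI := Fintype.ofFinite (P : Subgroup G)
    by_cases hker : (P : Subgroup G) ≤ charKer (χ : G → ℂ)
    · exact hχ ((commutator_le_charKer_iff χ).mp (hP.trans hker))
    · have hzero := sum_coset_eq_zero (P : Subgroup G) χ hker 1
      rw [Finset.sum_eq_single (1 : (P : Subgroup G)) (fun z _ hz => ?_) (by simp)] at hzero
      · simp only [OneMemClass.coe_one, mul_one] at hzero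
        exact map_one_ne_zero χ hzero
      · obtain ⟨k, hk⟩ := IsPGroup.iff_orderOf.mp P.2 z
        have hz1 : (z : G) ≠ 1 := fun h => hz (Subtype.ext h)
        rw [one_mul]
        exact (mul_eq_zero.mp (mul_eq_zero_of_multiplicative H χ hχ hz1 hy1 hp hq hqp.symm
          ((Subgroup.orderOf_coe z).trans hk) hy)).resolve_right hne
  set C := (P : Subgroup G) ⊓ Subgroup.centralizer (A : Set G) with hCdef
  set D := ⁅A, (P : Subgroup G)⁆ with hDdef
  have hAnorm : A ≤ Subgroup.normalizer ((P : Subgroup G) : Set G) := by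
    rw [Subgroup.normalizer_eq_top_iff.mpr hPn]; exact le_top
  have hDC : D ⊔ C = (P : Subgroup G) := by
    rw [hDdef, Subgroup.commutator_comm]
    exact CfsgLib.Coprime.eq_commutator_sup_centralizer hAnorm hAcop
      (Or.inl (CfsgLib.Coprime.isSolvable_of_isMulCommutative hAab))
  have hDP : D ≤ (P : Subgroup G) := le_sup_left.trans_eq hDC
  have hDn : D.Normal := by
    refine ⟨fun y hy g => ?_⟩
    rw [hDdef, Subgroup.commutator_comm] at hy ⊢
    refine CfsgLib.Coprime.conj_commutator_mem ?_ hy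
    rw [sup_comm, hAP]; trivial
  have hDG : D ≤ commutator G := Subgroup.commutator_mono le_top le_top
  -- centralisers of elements of prime order in `A`
  have key : ∀ (q : ℕ) (a : G), q.Prime → a ∈ A → orderOf a = q →
      D = commutator G ∧ C ⊓ D = ⊥ ∧ ∀ d ∈ (P : Subgroup G), a * d = d * a → d ∈ C := by
    intro q a hq ha hoa
    have ha1 : a ≠ 1 := fun h => hq.ne_one (by rw [← hoa, h, orderOf_one])
    have hqp : q ≠ p := fun h => (hp.coprime_iff_not_dvd.mp hAp.symm)
      (h ▸ hoa ▸ (Subgroup.orderOf_mk a ha ▸ orderOf_dvd_natCard (⟨a, ha⟩ : A)))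
    have hcard := card_centralizer_of_vanish (g := a)
      fun χ hχ => hvan χ hχ q a 1 hq hqp (by rw [hoa, pow_one]) ha1
    set Ca := Subgroup.centralizer ({a} : Set G) with hCa
    set Cp := (P : Subgroup G) ⊓ Ca with hCp
    have hACa : A ≤ Ca := fun b hb => Subgroup.mem_centralizer_singleton_iff.mpr
      (congrArg Subtype.val (hAab.1.1 ⟨b, hb⟩ ⟨a, ha⟩))
    have hCCp : C ≤ Cp := le_inf inf_le_left (fun y hy => Subgroup.mem_centralizer_singleton_iff.mpr
      ((Subgroup.mem_centralizer_iff.mp (Subgroup.mem_inf.mp hy).2 a ha).symm))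
    have hsplit : Nat.card Ca = Nat.card Cp * Nat.card A := by
      rw [← Nat.card_prod]
      refine (Nat.card_congr (Equiv.ofBijective
        (fun z : Cp × A => (⟨(z.1 : G) * z.2, Ca.mul_mem (Subgroup.mem_inf.mp z.1.2).2
          (hACa z.2.2)⟩ : Ca)) ⟨?_, ?_⟩)).symm
      · rintro ⟨u, v⟩ ⟨u', v'⟩ huv
        have h1 : (u : G) * v = u' * v' := congrArg Subtype.val huv
        have hmem : (u' : G)⁻¹ * u ∈ (P : Subgroup G) ⊓ A := by
          refine Subgroup.mem_inf.mpr ⟨mul_mem (inv_mem (Subgroup.mem_inf.mp u'.2).1)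
            (Subgroup.mem_inf.mp u.2).1, ?_⟩
          rw [show (u' : G)⁻¹ * u = v' * (v : G)⁻¹ by
            rw [eq_mul_inv_iff_mul_eq, mul_assoc, h1]; group]
          exact mul_mem v'.2 (inv_mem v.2)
        rw [disjoint_iff.mp hA.disjoint, Subgroup.mem_bot, inv_mul_eq_one] at hmem
        have hu : u = u' := Subtype.ext hmem.symm
        subst hu
        exact Prod.ext rfl (Subtype.ext (mul_left_cancel h1))
      · rintro ⟨g, hg⟩
        obtain ⟨⟨⟨u, hu⟩, ⟨v, hv⟩⟩, huv⟩ := hA.2 g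
        change u * v = g at huv
        have huCa : u ∈ Ca := by
          rw [show u = g * v⁻¹ by rw [← huv]; group]
          exact Ca.mul_mem hg (Ca.inv_mem (hACa hv))
        exact ⟨(⟨u, Subgroup.mem_inf.mpr ⟨hu, huCa⟩⟩, ⟨v, hv⟩), Subtype.ext huv⟩
    -- compare orders
    have h1 : Nat.card Cp = (commutator G).relIndex (P : Subgroup G) := by
      have : Nat.card Cp * Nat.card A = (commutator G).relIndex (P : Subgroup G) * Nat.card A := by
        rw [← hsplit, hcard, hAcard, Subgroup.relIndex_mul_index hP]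
      exact Nat.eq_of_mul_eq_mul_right Nat.card_pos this
    have h2 : D.relIndex (P : Subgroup G) = D.relIndex C := by
      haveI := hDn
      conv_lhs => rw [← hDC]
      rw [Subgroup.relIndex_sup_left]
    have h3 : (commutator G).relIndex (P : Subgroup G) ∣ D.relIndex (P : Subgroup G) :=
      Subgroup.relIndex_dvd_of_le_left _ hDG
    have h4 : (D ⊓ C).relIndex C = D.relIndex C := Subgroup.inf_relIndex_right D C
    have h5 : (D ⊓ C).relIndex C * Nat.card (D ⊓ C : Subgroup G) = Nat.card C := by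
      rw [← Subgroup.relIndex_bot_left, mul_comm, Subgroup.relIndex_mul_relIndex _ _ _ bot_le
        inf_le_right, Subgroup.relIndex_bot_left]
    have h6 : Nat.card C ≤ Nat.card Cp := Nat.le_of_dvd Nat.card_pos (Subgroup.card_dvd_of_le hCCp)
    have hpos : 0 < (commutator G).relIndex (P : Subgroup G) := h1 ▸ Nat.card_pos
    have hpos' : 0 < D.relIndex C :=
      Nat.pos_of_ne_zero (Subgroup.index_ne_zero_of_finite (H := D.subgroupOf C))
    have h7 : (commutator G).relIndex (P : Subgroup G) ≤ D.relIndex C :=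
      h2 ▸ Nat.le_of_dvd (h2.symm ▸ hpos') h3
    rw [h4] at h5
    have hone : Nat.card (D ⊓ C : Subgroup G) = 1 := by
      have hpos2 : 0 < Nat.card (D ⊓ C : Subgroup G) := Nat.card_pos
      nlinarith
    have hCeq : C = Cp := Subgroup.eq_of_le_of_card_ge hCCp (by
      rw [hone, mul_one] at h5
      omega)
    refine ⟨?_, by rw [inf_comm]; exact Subgroup.card_eq_one.mp hone, fun d hd hcomm => ?_⟩
    · refine le_antisymm hDG ?_
      have e : D.relIndex (P : Subgroup G) = (commutator G).relIndex (P : Subgroup G) := by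
        rw [hone, mul_one] at h5
        omega
      rw [← Subgroup.relIndex_eq_one]
      have e2 := Subgroup.relIndex_mul_relIndex D (commutator G) (P : Subgroup G) hDG hP
      rw [e] at e2
      exact (Nat.mul_eq_right hpos.ne').mp e2
    · rw [hCeq]
      exact Subgroup.mem_inf.mpr ⟨hd, Subgroup.mem_centralizer_singleton_iff.mpr hcomm.symm⟩
  obtain ⟨q₀, hq₀, hq₀A⟩ := Nat.exists_prime_and_dvd
    (fun h => hAne (Subgroup.card_eq_one.mp h) : Nat.card A ≠ 1)
  haveI : Fact q₀.Prime := ⟨hq₀⟩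
  obtain ⟨a₀, ha₀⟩ := exists_prime_orderOf_dvd_card' (G := A) q₀ hq₀A
  obtain ⟨hDeq, hCD, -⟩ := key q₀ a₀ hq₀ a₀.2 (by rw [Subgroup.orderOf_coe, ha₀])
  have hfpf : ∀ a ∈ A, a ≠ 1 → ∀ d ∈ D, a * d = d * a → d = 1 := by
    intro a ha ha1 d hd hcomm
    obtain ⟨q, hq, hqa⟩ := Nat.exists_prime_and_dvd (mt orderOf_eq_one_iff.mp ha1)
    obtain ⟨-, -, hc⟩ := key q (a ^ (orderOf a / q)) hq (pow_mem ha _)
      (orderOf_pow_orderOf_div (orderOf_pos a).ne' hqa)
    have hdC := hc d (hDP hd) (Commute.pow_left (show Commute a d from hcomm) _).eq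
    exact Subgroup.mem_bot.mp (hCD ▸ Subgroup.mem_inf.mpr ⟨hdC, hd⟩)
  refine ⟨p, ‹_›, P, A, hPn, ?_, hAne, hAp, hAP, ?_, hDn, by rw [sup_comm]; exact hDC, hCD, hfpf⟩
  · by_contra hnc
    apply hG'ne
    rw [← hDeq, eq_bot_iff]
    refine CfsgLib.Coprime.le_of_centralizers (G := D) hAab hnc ?_ ?_ fun a ha ha1 => ?_
    · rw [Subgroup.normalizer_eq_top_iff.mpr hDn]; exact le_top
    · exact hAcop.coprime_dvd_right (Subgroup.card_dvd_of_le hDP)
    · intro d hd
      obtain ⟨hd1, hd2⟩ := Subgroup.mem_inf.mp hd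
      exact Subgroup.mem_bot.mpr (hfpf a ha ha1 d hd1
        (Subgroup.mem_centralizer_singleton_iff.mp hd2).symm)
  · refine ⟨⟨fun c c' => Subtype.ext ?_⟩⟩
    have hmem : (c : G) * c' * (c : G)⁻¹ * (c' : G)⁻¹ ∈ C ⊓ D :=
      Subgroup.mem_inf.mpr ⟨mul_mem (mul_mem (mul_mem c.2 c'.2) (inv_mem c.2)) (inv_mem c'.2),
        hDeq ▸ Subgroup.commutator_mem_commutator (Subgroup.mem_top _) (Subgroup.mem_top _)⟩
    rw [hCD, Subgroup.mem_bot] at hmem
    exact mul_inv_eq_iff_eq_mul.mp (mul_inv_eq_one.mp hmem)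

theorem centralizer_inf_eq {p : ℕ} [Fact p.Prime] (P : Sylow p G) [(P : Subgroup G).Normal]
    (A D : Subgroup G) [D.Normal] (hcop : (Nat.card ↥A).Coprime p) (hDP : D ≤ (P : Subgroup G))
    (hinf : (P : Subgroup G) ⊓ Subgroup.centralizer (A : Set G) ⊓ D = ⊥)
    (hfpf : ∀ a ∈ A, a ≠ 1 → ∀ d ∈ D, a * d = d * a → d = 1)
    (hdec : ∀ g : G, ∃ a ∈ A, ∃ c ∈ (P : Subgroup G) ⊓ Subgroup.centralizer (A : Set G),
      ∃ d ∈ D, g = a * c * d)
    (hAC : ∀ a ∈ A, ∀ c ∈ (P : Subgroup G) ⊓ Subgroup.centralizer (A : Set G), a * c = c * a)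
    {g : G} (hg : g ∉ (P : Subgroup G)) (d : G) (hd : d ∈ D) (hcomm : d * g = g * d) : d = 1 := by
  have hp : p.Prime := Fact.out
  obtain ⟨n, hn⟩ := P.2.exists_card_eq
  set m := (P : Subgroup G).index with hm
  have hmp : m.Coprime p := (hp.coprime_iff_not_dvd.mpr P.not_dvd_index).symm
  set g' := g ^ p ^ n with hg'
  have hg'm : g' ^ m = 1 := by
    rw [hg', ← pow_mul, ← hn, hm, Subgroup.card_mul_index, pow_card_eq_one']
  have hg'P : g' ∉ (P : Subgroup G) := by
    intro h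
    apply hg
    rw [← QuotientGroup.eq_one_iff, ← orderOf_eq_one_iff]
    refine Nat.eq_one_of_dvd_coprimes (hmp.pow_right n) ?_ ?_
    · rw [hm, Subgroup.index_eq_card]; exact orderOf_dvd_natCard _
    · apply orderOf_dvd_of_pow_eq_one
      rw [← QuotientGroup.mk_pow, QuotientGroup.eq_one_iff]
      exact h
  obtain ⟨a, ha, c, hc, δ, hδ, hgd⟩ := hdec g'
  have hca : Commute a c := hAC a ha c hc
  have hmem : a ^ m * c ^ m ∈ D := by
    rw [← QuotientGroup.eq_one_iff, ← hca.mul_pow, QuotientGroup.mk_pow]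
    have : ((a * c : G) : G ⧸ D) = (g' : G ⧸ D) := by
      rw [hgd, QuotientGroup.mk_mul D (a * c) δ, (QuotientGroup.eq_one_iff δ).mpr hδ, mul_one]
    rw [this, ← QuotientGroup.mk_pow, hg'm, QuotientGroup.mk_one]
  have hcP : c ∈ (P : Subgroup G) := (Subgroup.mem_inf.mp hc).1
  have ham : a ^ m = 1 := by
    have h1 : a ^ m ∈ (P : Subgroup G) := by
      rw [show a ^ m = a ^ m * c ^ m * (c ^ m)⁻¹ by group]
      exact mul_mem (hDP hmem) (inv_mem (pow_mem hcP m))
    rw [← orderOf_eq_one_iff]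
    refine Nat.eq_one_of_dvd_coprimes (hcop.pow_right n) ?_ ?_
    · rw [← Subgroup.orderOf_mk (a ^ m) (pow_mem ha m)]; exact orderOf_dvd_natCard _
    · rw [← hn, ← Subgroup.orderOf_mk (a ^ m) h1]; exact orderOf_dvd_natCard _
  rw [ham, one_mul] at hmem
  have hc1 : c = 1 := by
    have hcm : c ^ m = 1 := by
      rw [← Subgroup.mem_bot, ← hinf]
      exact Subgroup.mem_inf.mpr ⟨pow_mem hc m, hmem⟩
    rw [← orderOf_eq_one_iff]
    refine Nat.eq_one_of_dvd_coprimes (hmp.pow_right n) (orderOf_dvd_of_pow_eq_one hcm) ?_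
    rw [← hn, ← Subgroup.orderOf_mk c hcP]; exact orderOf_dvd_natCard _
  rw [hc1, mul_one] at hgd
  have ha1 : a ≠ 1 := fun h => hg'P (by rw [hgd, h, one_mul]; exact hDP hδ)
  have hDn : D.Normal := inferInstance
  have hf : Function.Injective (fun u : D => (⟨a⁻¹ * u * a * (u : G)⁻¹,
      mul_mem (by simpa using hDn.conj_mem u u.2 a⁻¹) (inv_mem u.2)⟩ : D)) := by
    intro u v huv
    have h1 : a⁻¹ * u * a * (u : G)⁻¹ = a⁻¹ * v * a * (v : G)⁻¹ := congrArg Subtype.val huv
    have h2 := hfpf a ha ha1 ((v : G)⁻¹ * u) (mul_mem (inv_mem v.2) u.2) (by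
      calc a * ((v : G)⁻¹ * u) = (v : G)⁻¹ * (v * a * (v : G)⁻¹) * u := by group
        _ = (v : G)⁻¹ * (a * (a⁻¹ * u * a * (u : G)⁻¹)) * u := by rw [h1]; group
        _ = (v : G)⁻¹ * u * a := by group)
    exact Subtype.ext (inv_mul_eq_one.mp h2).symm
  obtain ⟨u, hu⟩ := (Finite.injective_iff_surjective.mp hf) ⟨δ, hδ⟩
  have hδu : a⁻¹ * u * a * (u : G)⁻¹ = δ := congrArg Subtype.val hu
  have hg'' : g' = u * a * (u : G)⁻¹ := by rw [hgd, ← hδu]; group
  have hdg' : d * g' = g' * d := (Commute.pow_right (show Commute d g from hcomm) _).eq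
  rw [hg''] at hdg'
  have hd' := hfpf a ha ha1 ((u : G)⁻¹ * d * u)
    (by simpa using hDn.conj_mem d hd (u : G)⁻¹) (by
      calc a * ((u : G)⁻¹ * d * u) = (u : G)⁻¹ * (u * a * (u : G)⁻¹ * d) * u := by group
        _ = (u : G)⁻¹ * d * u * a := by rw [← hdg']; group)
  calc d = (u : G) * ((u : G)⁻¹ * d * u) * (u : G)⁻¹ := by group
    _ = 1 := by rw [hd']; group

theorem multiplicative_of_structure {p : ℕ} [Fact p.Prime] (P : Sylow p G) [(P : Subgroup G).Normal]
    (A : Subgroup G) [IsCyclic A] (hcop : (Nat.card ↥A).Coprime p) (hAP : A ⊔ (P : Subgroup G) = ⊤)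
    (hC : IsMulCommutative ↥((P : Subgroup G) ⊓ Subgroup.centralizer (A : Set G)))
    (hsup : ((P : Subgroup G) ⊓ Subgroup.centralizer (A : Set G)) ⊔ ⁅A, (P : Subgroup G)⁆ =
        (P : Subgroup G))
    (hinf : ((P : Subgroup G) ⊓ Subgroup.centralizer (A : Set G)) ⊓ ⁅A, (P : Subgroup G)⁆ = ⊥)
    (hfpf : ∀ a ∈ A, a ≠ 1 → ∀ d ∈ ⁅A, (P : Subgroup G)⁆, a * d = d * a → d = 1)
    (x y : G) (χ : IrrCharacter G) (hx : x ≠ 1) (hy : y ≠ 1)
    (hpq : ∃ p q a b : ℕ, p.Prime ∧ q.Prime ∧ p ≠ q ∧ orderOf x = p ^ a ∧ orderOf y = q ^ b) :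
    (χ : G → ℂ) (x * y) = (χ : G → ℂ) x * (χ : G → ℂ) y := by
  classical
  have hp : p.Prime := Fact.out
  by_cases hlin : (χ : G → ℂ) 1 = 1
  · obtain ⟨l, rfl⟩ := exists_linChar_eq χ hlin
    simp
  set C := (P : Subgroup G) ⊓ Subgroup.centralizer (A : Set G) with hCdef
  set D := ⁅A, (P : Subgroup G)⁆ with hDdef
  haveI hDn : D.Normal := by
    refine ⟨fun z hz g => ?_⟩
    rw [hDdef, Subgroup.commutator_comm] at hz ⊢
    refine CfsgLib.Coprime.conj_commutator_mem ?_ hz
    rw [sup_comm, hAP]; trivial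
  have hDP : D ≤ (P : Subgroup G) := le_sup_right.trans_eq hsup
  -- decomposition `G = A C D`
  have hdec : ∀ g : G, ∃ a ∈ A, ∃ c ∈ C, ∃ d ∈ D, g = a * c * d := by
    intro g
    obtain ⟨a, ha, u, hu, rfl⟩ :=
      Subgroup.mem_sup_of_normal_right.mp (show g ∈ A ⊔ (P : Subgroup G) by rw [hAP]; trivial)
    obtain ⟨c, hc, d, hd, rfl⟩ :=
      Subgroup.mem_sup_of_normal_right.mp (show u ∈ C ⊔ D by rw [hsup]; exact hu)
    exact ⟨a, ha, c, hc, d, hd, (mul_assoc a c d).symm⟩
  have hAC : ∀ a ∈ A, ∀ c ∈ C, a * c = c * a := fun a ha c hc =>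
    Subgroup.mem_centralizer_iff.mp (Subgroup.mem_inf.mp hc).2 a ha
  have hAab : ∀ a ∈ A, ∀ b ∈ A, a * b = b * a := fun a ha b hb =>
    congrArg Subtype.val (mul_comm' (⟨a, ha⟩ : A) ⟨b, hb⟩)
  have hG'D : commutator G ≤ D := by
    rw [commutator_def, Subgroup.commutator_le]
    intro g _ h _
    rw [← QuotientGroup.eq_one_iff, ← QuotientGroup.mk'_apply, map_commutatorElement,
      commutatorElement_eq_one_iff_mul_comm, QuotientGroup.mk'_apply, QuotientGroup.mk'_apply]
    obtain ⟨a, ha, c, hc, d, hd, rfl⟩ := hdec g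
    obtain ⟨b, hb, e, he, f, hf, rfl⟩ := hdec h
    simp only [QuotientGroup.mk_mul, (QuotientGroup.eq_one_iff d).mpr hd,
      (QuotientGroup.eq_one_iff f).mpr hf, mul_one]
    rw [← QuotientGroup.mk_mul, ← QuotientGroup.mk_mul, ← QuotientGroup.mk_mul,
      ← QuotientGroup.mk_mul]
    refine congrArg _ ?_
    have hce : c * e = e * c := congrArg Subtype.val (hC.1.1 ⟨c, hc⟩ ⟨e, he⟩)
    calc a * c * (b * e) = a * (c * b) * e := by group
      _ = a * b * (c * e) := by rw [← hAC b hb c hc]; group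
      _ = b * a * (e * c) := by rw [hAab a ha b hb, hce]
      _ = b * (a * e) * c := by group
      _ = b * e * (a * c) := by rw [hAC a ha e he]; group
  -- non-linear characters vanish outside `P`
  have hvan : ∀ g : G, g ∉ (P : Subgroup G) → (χ : G → ℂ) g = 0 := by
    intro g hg
    have hcard : Nat.card (Subgroup.centralizer ({g} : Set G)) ≤ (commutator G).index := by
      have hinj : Function.Injective (fun z : Subgroup.centralizer ({g} : Set G) =>
          ((z : G) : G ⧸ D)) := by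
        intro z w hzw
        have hd : ((z : G))⁻¹ * w ∈ D := QuotientGroup.eq.mp hzw
        have hcomm : ((z : G))⁻¹ * w ∈ Subgroup.centralizer ({g} : Set G) :=
          mul_mem (inv_mem z.2) w.2
        have : ((z : G))⁻¹ * w = 1 := centralizer_inf_eq P A D hcop hDP (hCdef ▸ hinf) hfpf hdec hAC hg _ hd
          (Subgroup.mem_centralizer_singleton_iff.mp hcomm)
        exact Subtype.ext (inv_mul_eq_one.mp this)
      refine (Nat.card_le_card_of_injective _ hinj).trans ?_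
      rw [← Subgroup.index_eq_card]
      exact Nat.le_of_dvd (Nat.pos_of_ne_zero Subgroup.index_ne_zero_of_finite)
        (Subgroup.index_dvd_of_le hG'D)
    have hsum := sum_irr_norm_sq g
    rw [← Finset.sum_filter_add_sum_filter_not Finset.univ
      (fun χ : IrrCharacter G => (χ : G → ℂ) 1 = 1)] at hsum
    have hl : ∑ ψ ∈ Finset.univ.filter (fun ψ : IrrCharacter G => (ψ : G → ℂ) 1 = 1),
        ‖(ψ : G → ℂ) g‖ ^ 2 = ((commutator G).index : ℝ) := by
      rw [Finset.sum_congr rfl (g := fun _ => (1 : ℝ)) (fun ψ hψ => ?_), Finset.sum_const,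
        nsmul_one, ← Fintype.card_subtype, ← Nat.card_eq_fintype_card, card_linear_irr]
      obtain ⟨l, rfl⟩ := exists_linChar_eq ψ (Finset.mem_filter.mp hψ).2
      rw [linChar_apply, norm_eq_one_of_pow_orderOf (g := g) (by
        rw [← Units.val_pow_eq_pow_val, ← map_pow, pow_orderOf_eq_one, map_one, Units.val_one]),
        one_pow]
    rw [hl] at hsum
    have hle : ((Nat.card (Subgroup.centralizer ({g} : Set G))) : ℝ) ≤ ((commutator G).index : ℝ) := by
      exact_mod_cast hcard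
    have hnn : ∀ ψ ∈ Finset.univ.filter (fun ψ : IrrCharacter G => ¬ (ψ : G → ℂ) 1 = 1),
        0 ≤ ‖(ψ : G → ℂ) g‖ ^ 2 := fun _ _ => sq_nonneg _
    have h0 := (Finset.sum_eq_zero_iff_of_nonneg hnn).mp
      (le_antisymm (by linarith) (Finset.sum_nonneg hnn)) χ
      (Finset.mem_filter.mpr ⟨Finset.mem_univ _, hlin⟩)
    exact norm_eq_zero.mp (pow_eq_zero_iff two_ne_zero |>.mp h0)
  obtain ⟨r, s, i, j, hr, hs, hrs, hox, hoy⟩ := hpq
  have notmem : ∀ (z : G) (t k : ℕ), t.Prime → z ≠ 1 → orderOf z = t ^ k → t ≠ p →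
      z ∉ (P : Subgroup G) := by
    intro z t k ht hz hzo htp hmem
    obtain ⟨m, hm⟩ := IsPGroup.iff_orderOf.mp P.2 ⟨z, hmem⟩
    rw [Subgroup.orderOf_mk, hzo] at hm
    rcases Nat.eq_zero_or_pos k with hk | hk
    · exact hz (orderOf_eq_one_iff.mp (by rw [hzo, hk, pow_zero]))
    · exact htp ((Nat.prime_dvd_prime_iff_eq ht hp).mp
        (ht.dvd_of_dvd_pow (hm ▸ dvd_pow_self t hk.ne')))
  by_cases hxP : x ∈ (P : Subgroup G)
  · have hrp : r = p := by_contra fun h => notmem x r i hr hx hox h hxP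
    have hyP := notmem y s j hs hy hoy (hrp ▸ hrs.symm)
    rw [hvan y hyP, mul_zero, hvan _ (fun h => hyP ((Subgroup.mul_mem_cancel_left _ hxP).mp h))]
  · rw [hvan x hxP, zero_mul, hvan]
    intro h
    apply hxP
    rw [← QuotientGroup.eq_one_iff, QuotientGroup.mk_mul] at h
    rw [← QuotientGroup.eq_one_iff, ← orderOf_eq_one_iff]
    have e : orderOf (x : G ⧸ (P : Subgroup G)) = orderOf (y : G ⧸ (P : Subgroup G)) := by
      rw [eq_inv_of_mul_eq_one_left h, orderOf_inv]
    refine Nat.eq_one_of_dvd_coprimes (Nat.Coprime.pow i j ((Nat.coprime_primes hr hs).mpr hrs))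
      (hox ▸ orderOf_map_dvd (QuotientGroup.mk' _) x) ?_
    rw [e]
    exact hoy ▸ orderOf_map_dvd (QuotientGroup.mk' _) y


/-- For a finite group G the following are equivalent. (1) χ(x y) = χ(x) χ(y) for every irreducible character χ and all non-identity elements x, y of prime power orders for two different primes. (2) G is a p-group for some prime p, or G is abelian, or for some prime p: G = A P with P a normal Sylow p-subgroup and A a nontrivial cyclic subgroup of order prime to p such that, with C = C_P(A) and D = [A, P], one has P = C D, C abelian, D normal in G, C ∩ D = 1, and A acts fixed-point-freely on D (no non-identity element of A centralizes a non-identity element of D). -/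
theorem result {G : Type*} [Group G] [Finite G] : (∀ (x y : G) (χ : Cfsg.IrrCharacter G), x ≠ 1 → y ≠ 1 → (∃ p q a b : ℕ, p.Prime ∧ q.Prime ∧ p ≠ q ∧ orderOf x = p ^ a ∧ orderOf y = q ^ b) → (χ : G → ℂ) (x * y) = (χ : G → ℂ) x * (χ : G → ℂ) y) ↔ ((∃ p : ℕ, p.Prime ∧ IsPGroup p G) ∨ IsMulCommutative G ∨ ∃ (p : ℕ) (_ : Fact p.Prime) (P : Sylow p G) (A : Subgroup G), (P : Subgroup G).Normal ∧ IsCyclic ↥A ∧ A ≠ ⊥ ∧ (Nat.card ↥A).Coprime p ∧ A ⊔ (P : Subgroup G) = ⊤ ∧ IsMulCommutative ↥((P : Subgroup G) ⊓ Subgroup.centralizer (A : Set G)) ∧ (⁅A, (P : Subgroup G)⁆).Normal ∧ ((P : Subgroup G) ⊓ Subgroup.centralizer (A : Set G)) ⊔ ⁅A, (P : Subgroup G)⁆ = (P : Subgroup G) ∧ ((P : Subgroup G) ⊓ Subgroup.centralizer (A : Set G)) ⊓ ⁅A, (P : Subgroup G)⁆ = ⊥ ∧ ∀ a ∈ A, a ≠ 1 → ∀ d ∈ ⁅A, (P : Subgroup G)⁆, a * d = d * a → d = 1) := by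
  constructor
  · intro H
    by_cases hpg : ∃ p : ℕ, p.Prime ∧ IsPGroup p G
    · exact Or.inl hpg
    by_cases hab : IsMulCommutative G
    · exact Or.inr (Or.inl hab)
    exact Or.inr (Or.inr (structure_of_multiplicative H hpg hab))
  · rintro (⟨r, hr, hG⟩ | hab | ⟨p, hp, P, A, hPn, hAc, -, hcop, hAP, hC, hDn, hsup, hinf, hfpf⟩)
    · rintro x y χ hx hy ⟨p, q, a, b, hp, hq, hpq, hox, hoy⟩
      haveI : Fact r.Prime := ⟨hr⟩
      have key : ∀ (g : G) (s c : ℕ), s.Prime → g ≠ 1 → orderOf g = s ^ c → s = r := by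
        intro g s c hs hg hsc
        obtain ⟨k, hk⟩ := IsPGroup.iff_orderOf.mp hG g
        have hdvd : s ∣ r ^ k := by
          rw [← hk, hsc]
          refine dvd_pow_self s fun h0 => hg ?_
          rw [← orderOf_eq_one_iff, hsc, h0, pow_zero]
        exact (Nat.prime_dvd_prime_iff_eq hs hr).mp (hs.dvd_of_dvd_pow hdvd)
      exact absurd ((key x p a hp hx hox).trans (key y q b hq hy hoy).symm) hpq
    · intro x y χ _ _ _
      obtain ⟨l, rfl⟩ := exists_linChar_eq χ (map_one_eq_one_of_isMulCommutative χ)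
      simp
    · haveI := hp
      haveI := hPn
      haveI := hAc
      exact multiplicative_of_structure P A hcop hAP hC hsup hinf hfpf

end Cfsg.Agent.S4756
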