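import Cfsg.Statements.S4757
import Cfsg.Agent.Chars.Basic.Linear
import Cfsg.Agent.Balance.ExtendedLayer
import Mathlib.GroupTheory.PGroup
import Cfsg.Agent.Eq.Def_CaseTheorems

set_option autoImplicit false
open Cfsg

namespace Cfsg.Agent.S4757

/-- Let u ≠ 1 be an element of the finite group G and c a complex number such that every non-principal irreducible character χ satisfies χ(1) − χ(u) = c or χ(u) = 0. Then the following are equivalent: (a) u has order 2, G is generated by u together with O(G), the largest normal subgroup of G of odd order, and the centralizer of u is {1, u}; (b) G is not perfect; (c) c = 2. -/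
theorem result {G : Type*} [Group G] [Finite G] (u : G) (hu : u ≠ 1) (c : ℂ) (hyp : ∀ χ : Cfsg.IrrCharacter G, (χ : G → ℂ) ≠ (fun _ => (1 : ℂ)) → ((χ : G → ℂ) 1 - (χ : G → ℂ) u = c ∨ (χ : G → ℂ) u = 0)) : ((orderOf u = 2 ∧ Subgroup.zpowers u ⊔ Cfsg.oddCore G = ⊤ ∧ Subgroup.centralizer ({u} : Set G) = Subgroup.zpowers u) ↔ commutator G ≠ ⊤) ∧ (commutator G ≠ ⊤ ↔ c = 2) := by
  classical
  haveI := Fintype.ofFinite G
  have key : ∀ χ : IrrCharacter G, χ ≠ CfsgLib.Chars.oneChar G →
      (χ : G → ℂ) u = 0 ∨ (χ : G → ℂ) u = (χ : G → ℂ) 1 - c := fun χ hχ => by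
    rcases hyp χ (fun h => hχ ((CfsgLib.Chars.eq_oneChar_iff χ).mpr h)) with h | h
    · exact Or.inr (by linear_combination -h)
    · exact Or.inl h
  have hcol : 1 + ∑ χ ∈ Finset.univ.erase (CfsgLib.Chars.oneChar G),
      ((χ : G → ℂ) 1 * (χ : G → ℂ) u).re = 0 := by
    have h := CfsgLib.Chars.sum_irr_map_one_mul u
    rw [if_neg hu, ← Finset.add_sum_erase _ _ (Finset.mem_univ (CfsgLib.Chars.oneChar G))] at h
    have h' := congrArg Complex.re h
    simpa only [CfsgLib.Chars.oneChar_apply, one_mul, Complex.add_re, Complex.one_re,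
      Complex.re_sum, Complex.zero_re] using h'
  -- the terms of the column sum outside the linear characters when `c = 2`
  have hterm : c = 2 → ∀ χ : IrrCharacter G, (χ : G → ℂ) 1 ≠ 1 →
      0 ≤ ((χ : G → ℂ) 1 * (χ : G → ℂ) u).re ∧
        (((χ : G → ℂ) 1 * (χ : G → ℂ) u).re = 0 → (χ : G → ℂ) u = 0) := by
    intro hc χ hχ
    have hne : χ ≠ CfsgLib.Chars.oneChar G := fun h => hχ (by rw [h]; simp)
    obtain ⟨d, hd0, hd⟩ := CfsgLib.Chars.exists_pos_natCast_map_one χ.2
    have hd2 : 2 ≤ d := by
      rcases Nat.lt_or_ge d 2 with h | h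
      · exact absurd (by rw [hd]; norm_cast; omega) hχ
      · exact h
    have hd2' : (2 : ℝ) ≤ d := by exact_mod_cast hd2
    rcases key χ hne with h | h
    · simp [h]
    · rw [h, hd, hc]
      simp only [Complex.mul_re, Complex.natCast_re, Complex.natCast_im, Complex.sub_re,
        Complex.re_ofNat, Complex.sub_im, Complex.im_ofNat, sub_self, mul_zero, sub_zero]
      refine ⟨by nlinarith, fun h0 => ?_⟩
      have : (d : ℝ) = 2 := by nlinarith
      rw [show (d : ℂ) = 2 by exact_mod_cast this, sub_self]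
  -- a group with a non-trivial linear character
  have hA : commutator G ≠ ⊤ → c = 2 ∧ Nat.card (Subgroup.centralizer ({u} : Set G)) = 2 ∧
      (commutator G).index = 2 ∧ u ∉ commutator G := by
    intro hne
    obtain ⟨l, hl⟩ := CfsgLib.Chars.exists_nontrivial_linChar hne
    have hval : ∀ m : G →* ℂˣ, m ≠ 1 → (m u : ℂ) = 1 - c := fun m hm => by
      rcases key (CfsgLib.Chars.linChar m)
        (fun h => hm ((CfsgLib.Chars.linChar_eq_oneChar_iff m).mp h)) with h | h
      · exact absurd h (by simp)
      · simpa using h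
    have hc0 : c ≠ 0 := by
      intro h0
      have hnn : ∀ χ ∈ Finset.univ.erase (CfsgLib.Chars.oneChar G),
          0 ≤ ((χ : G → ℂ) 1 * (χ : G → ℂ) u).re := fun χ hχ => by
        rcases key χ (Finset.mem_erase.mp hχ).1 with h | h
        · simp [h]
        · rw [h, h0, sub_zero, ← CfsgLib.Chars.coe_charDegree, ← Nat.cast_mul,
            Complex.natCast_re]
          positivity
      linarith [Finset.sum_nonneg hnn]
    have hl1 : (l u : ℂ) ≠ 1 := fun h => hc0 (by linear_combination (hval l hl).symm.trans h * (-1))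
    have hsq : l * l = 1 := by
      by_contra h2
      have := hval (l * l) h2
      rw [MonoidHom.mul_apply, Units.val_mul, ← hval l hl] at this
      exact hl1 (mul_left_cancel₀ (Units.ne_zero (l u)) (this.trans (mul_one _).symm))
    have hm1 : (l u : ℂ) = -1 := by
      have : (l u : ℂ) * (l u : ℂ) = 1 := by
        rw [← Units.val_mul, ← MonoidHom.mul_apply, hsq, MonoidHom.one_apply, Units.val_one]
      exact (mul_self_eq_one_iff.mp this).resolve_left hl1
    have hc : c = 2 := by linear_combination (hval l hl).symm.trans hm1 * (-1)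
    have huniq : ∀ m : G →* ℂˣ, m ≠ 1 → m = l := fun m hm => by
      by_contra hml
      have hne' : m * l ≠ 1 := fun h => hml (mul_right_cancel (h.trans hsq.symm))
      have := hval (m * l) hne'
      rw [MonoidHom.mul_apply, Units.val_mul, hval m hm, hm1, hc] at this
      norm_num at this
    have hidx : (commutator G).index = 2 := by
      rw [← CfsgLib.Chars.card_monoidHom_units, Nat.card_eq_two_iff]
      refine ⟨1, l, hl.symm, Set.eq_univ_of_forall fun m => ?_⟩
      by_cases hm : m = 1
      · exact Or.inl hm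
      · exact Or.inr (huniq m hm)
    have hne' : CfsgLib.Chars.linChar l ∈ Finset.univ.erase (CfsgLib.Chars.oneChar G) :=
      Finset.mem_erase.mpr ⟨fun h => hl ((CfsgLib.Chars.linChar_eq_oneChar_iff l).mp h),
        Finset.mem_univ _⟩
    rw [← Finset.add_sum_erase _ _ hne', CfsgLib.Chars.linChar_map_one, one_mul,
      CfsgLib.Chars.linChar_apply, hm1, Complex.neg_re, Complex.one_re, add_neg_cancel_left] at hcol
    have hlin : ∀ χ : IrrCharacter G, (χ : G → ℂ) 1 = 1 →
        χ = CfsgLib.Chars.oneChar G ∨ χ = CfsgLib.Chars.linChar l := fun χ hχ => by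
      obtain ⟨m, rfl⟩ := CfsgLib.Chars.exists_linChar_eq χ hχ
      by_cases hm : m = 1
      · exact Or.inl ((CfsgLib.Chars.linChar_eq_oneChar_iff m).mpr hm)
      · exact Or.inr (by rw [huniq m hm])
    have hnl : ∀ χ : IrrCharacter G,
        χ ∈ (Finset.univ.erase (CfsgLib.Chars.oneChar G)).erase (CfsgLib.Chars.linChar l) →
        (χ : G → ℂ) 1 ≠ 1 := fun χ hχ h1 => by
      simp only [Finset.mem_erase] at hχ
      rcases hlin χ h1 with h | h
      · exact hχ.2.1 h
      · exact hχ.1 h
    have hzero : ∀ χ : IrrCharacter G,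
        χ ∈ (Finset.univ.erase (CfsgLib.Chars.oneChar G)).erase (CfsgLib.Chars.linChar l) →
        (χ : G → ℂ) u = 0 := fun χ hχ =>
      (hterm hc χ (hnl χ hχ)).2
        ((Finset.sum_eq_zero_iff_of_nonneg fun ψ hψ => (hterm hc ψ (hnl ψ hψ)).1).mp hcol χ hχ)
    have hcent := CfsgLib.Chars.sum_irr_norm_sq u
    rw [← Finset.add_sum_erase _ _ (Finset.mem_univ (CfsgLib.Chars.oneChar G)),
      ← Finset.add_sum_erase _ _ hne',
      Finset.sum_eq_zero (fun χ hχ => by rw [hzero χ hχ]; simp), add_zero,
      CfsgLib.Chars.oneChar_apply, CfsgLib.Chars.linChar_apply, hm1, norm_neg, norm_one] at hcent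
    refine ⟨hc, ?_, hidx, fun hmem => ?_⟩
    · have h2 : ((2 : ℕ) : ℝ) = (Nat.card (Subgroup.centralizer ({u} : Set G)) : ℝ) := by
        push_cast
        linarith
      exact_mod_cast h2.symm
    · have h := Abelianization.commutator_subset_ker l hmem
      rw [MonoidHom.mem_ker] at h
      exact hl1 (by rw [h]; rfl)
  -- perfect groups have `c ≠ 2`
  have hB : c = 2 → commutator G ≠ ⊤ := by
    intro hc htop
    have hnn : ∀ χ ∈ Finset.univ.erase (CfsgLib.Chars.oneChar G),
        0 ≤ ((χ : G → ℂ) 1 * (χ : G → ℂ) u).re := fun χ hχ => by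
      refine (hterm hc χ fun h1 => (Finset.mem_erase.mp hχ).1 ?_).1
      obtain ⟨m, rfl⟩ := CfsgLib.Chars.exists_linChar_eq χ h1
      refine (CfsgLib.Chars.linChar_eq_oneChar_iff m).mpr (MonoidHom.ext fun g => ?_)
      exact MonoidHom.mem_ker.mp
        (Abelianization.commutator_subset_ker m (htop ▸ Subgroup.mem_top g))
    linarith [Finset.sum_nonneg hnn]
  refine ⟨⟨?_, ?_⟩, fun h => (hA h).1, hB⟩
  · rintro ⟨hord, hsup, -⟩ htop
    haveI := CfsgLib.Balance.oddCore_normal_inst (G := G) 2
    haveI : Fact (Nat.Prime 2) := ⟨Nat.prime_two⟩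
    set O := Cfsg.pPrimeCore 2 G with hO
    have hcomm : commutator G ≤ O := by
      rw [commutator_def, Subgroup.commutator_le]
      intro a _ b _
      have hgen : ∀ z : G ⧸ O, z ∈ Subgroup.zpowers (u : G ⧸ O) := fun z => by
        obtain ⟨g, rfl⟩ := QuotientGroup.mk_surjective z
        have hg : g ∈ Subgroup.zpowers u ⊔ O := by rw [hO, hsup]; trivial
        rw [sup_comm, Subgroup.mem_sup_of_normal_left] at hg
        obtain ⟨x, hx, y, ⟨k, rfl⟩, rfl⟩ := hg
        exact ⟨k, by simp [(QuotientGroup.eq_one_iff x).mpr hx]⟩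
      rw [← QuotientGroup.eq_one_iff]
      obtain ⟨i, hi⟩ := hgen (a : G ⧸ O)
      obtain ⟨j, hj⟩ := hgen (b : G ⧸ O)
      rw [← QuotientGroup.mk'_apply, map_commutatorElement, QuotientGroup.mk'_apply,
        QuotientGroup.mk'_apply, commutatorElement_eq_one_iff_mul_comm, ← hi, ← hj]
      exact ((Commute.refl _).zpow_zpow i j).eq
    rw [htop, top_le_iff] at hcomm
    have h2 := CfsgLib.Balance.pPrimeCore_not_dvd 2 G
    rw [← hO, hcomm, Subgroup.card_top] at h2
    exact h2 (hord ▸ orderOf_dvd_natCard u)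
  · intro hne
    obtain ⟨-, hcard, hidx, humem⟩ := hA hne
    set C := Subgroup.centralizer ({u} : Set G) with hC
    have huC : u ∈ C := Subgroup.mem_centralizer_singleton_iff.mpr rfl
    have hord : orderOf u = 2 := by
      have hdvd : orderOf u ∣ 2 := by
        have := orderOf_dvd_natCard (⟨u, huC⟩ : C)
        rwa [hcard, Subgroup.orderOf_mk] at this
      exact ((Nat.dvd_prime Nat.prime_two).mp hdvd).resolve_left
        fun h => hu (orderOf_eq_one_iff.mp h)
    have hCz : C = Subgroup.zpowers u :=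
      (Subgroup.eq_of_le_of_card_ge (Subgroup.zpowers_le.mpr huC)
        (by rw [hcard, Nat.card_zpowers, hord])).symm
    refine ⟨hord, ?_, hCz⟩
    -- the Sylow 2-subgroups have order two
    haveI : Fact (Nat.Prime 2) := ⟨Nat.prime_two⟩
    obtain ⟨P, hP⟩ := (IsPGroup.of_card (n := 1) (by rw [hcard, pow_one]) : IsPGroup 2 C).exists_le_sylow
    have hPC : (P : Subgroup G) ≤ C := by
      intro x hx
      obtain ⟨z, hz, hz1⟩ : ∃ z : (P : Subgroup G), z ∈ Subgroup.center (P : Subgroup G) ∧ z ≠ 1 := by
        haveI : Nontrivial (P : Subgroup G) :=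
          ⟨⟨⟨u, hP huC⟩, 1, fun h => hu (congrArg Subtype.val h)⟩⟩
        haveI := P.2.center_nontrivial
        obtain ⟨z, hz⟩ := exists_ne (1 : Subgroup.center (P : Subgroup G))
        exact ⟨z, z.2, fun h => hz (Subtype.ext h)⟩
      have hzC : (z : G) ∈ C := Subgroup.mem_centralizer_singleton_iff.mpr
        (congrArg Subtype.val (Subgroup.mem_center_iff.mp hz ⟨u, hP huC⟩)).symm
      rw [hCz, mem_zpowers_iff_mem_range_orderOf, hord] at hzC
      have hzu : (z : G) = u := by
        rcases Finset.mem_image.mp hzC with ⟨k, hk, hk'⟩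
        rw [Finset.mem_range] at hk
        rcases k with _ | k
        · exact absurd (Subtype.ext (by simpa using hk'.symm)) hz1
        · obtain rfl : k = 0 := by omega
          simpa using hk'.symm
      have hcm := congrArg Subtype.val (Subgroup.mem_center_iff.mp hz ⟨x, hx⟩)
      simp only [Subgroup.coe_mul, hzu] at hcm
      exact Subgroup.mem_centralizer_singleton_iff.mpr hcm
    have hP2 : Nat.card (P : Subgroup G) = 2 := by rw [le_antisymm hPC hP, hcard]
    have hodd : (Nat.card (commutator G)).Coprime 2 := by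
      refine (Nat.prime_two.coprime_iff_not_dvd.mpr fun hd => ?_).symm
      have h4 : 2 ^ 2 ∣ Nat.card G := by
        rw [← (commutator G).card_mul_index, hidx, sq]
        exact Nat.mul_dvd_mul_right hd 2
      have hle := (Nat.prime_two.pow_dvd_iff_le_factorization Nat.card_pos.ne').mp h4
      have hPm := P.card_eq_multiplicity
      rw [hP2] at hPm
      have : (2 : ℕ) ^ 2 ≤ 2 ^ (Nat.card G).factorization 2 := Nat.pow_le_pow_right (by norm_num) hle
      omega
    have hle : commutator G ≤ Cfsg.pPrimeCore 2 G := le_sSup ⟨inferInstance, hodd⟩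
    have hlt : commutator G < Subgroup.zpowers u ⊔ Cfsg.pPrimeCore 2 G :=
      lt_of_le_of_ne (hle.trans le_sup_right)
        fun h => humem (h ▸ Subgroup.mem_sup_left (Subgroup.mem_zpowers u))
    have hdvd := Subgroup.index_dvd_of_le hlt.le
    rw [hidx] at hdvd
    rcases (Nat.dvd_prime Nat.prime_two).mp hdvd with h | h
    · exact Subgroup.index_eq_one.mp h
    · exact absurd (Subgroup.eq_of_le_of_card_ge hlt.le (le_of_eq (by
        have h1 := (commutator G).card_mul_index
        have h2 := (Subgroup.zpowers u ⊔ Cfsg.pPrimeCore 2 G).card_mul_index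
        rw [hidx] at h1
        rw [h] at h2
        omega))) hlt.ne

end Cfsg.Agent.S4757
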