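import Cfsg.Statements.S4762
import Cfsg.Agent.Chars.Basic.ClassSum
import Cfsg.Agent.Chars.Basic.Linear
import Cfsg.Agent.PGroup.Frattini
import Cfsg.Agent.Eq.Def_Transfer
import Mathlib.GroupTheory.SchurZassenhaus

set_option autoImplicit false
open Cfsg

namespace Cfsg.Agent.S4762

open CfsgLib.Chars

variable {G : Type*} [Group G] [Finite G]

/-- Linear characters have degree one. -/
theorem charDegree_linear_mul (χ : IrrCharacter G) (l : G →* ℂˣ) :
    Cfsg.charDegree (fun g => (l g : ℂ) * (χ : G → ℂ) g) = Cfsg.charDegree (χ : G → ℂ) := by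
  simp [Cfsg.charDegree]

/-- In a `p`-group, `p` divides exactly the non-linear degrees. -/
theorem dvd_iff_nonlinear {p : ℕ} [Fact p.Prime] (hG : IsPGroup p G) (χ : IrrCharacter G) :
    p ∣ Cfsg.charDegree (χ : G → ℂ) ↔ Cfsg.charDegree (χ : G → ℂ) ≠ 1 := by
  have hp : p.Prime := Fact.out
  refine ⟨fun h h1 => hp.not_dvd_one (h1 ▸ h), fun h => ?_⟩
  obtain ⟨n, hn⟩ := IsPGroup.iff_card.mp hG
  have hd := charDegree_dvd_card χ
  rw [hn, Nat.dvd_prime_pow hp] at hd
  obtain ⟨j, -, hj⟩ := hd
  cases j with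
  | zero => exact absurd (hj.trans (pow_zero p)) h
  | succ j => rw [hj, pow_succ]; exact dvd_mul_left p _

/-- A nilpotent group with a unique character of degree divisible by `p` is a `p`-group. -/
theorem isPGroup_of_unique [Group.IsNilpotent G] (p : ℕ) [Fact p.Prime]
    (hone : Nat.card {χ : IrrCharacter G // p ∣ Cfsg.charDegree (χ : G → ℂ)} = 1) :
    IsPGroup p G := by
  classical
  haveI := Fintype.ofFinite G
  have hp : p.Prime := Fact.out
  obtain ⟨hsub, ⟨⟨χ₀, hχ₀⟩⟩⟩ := Nat.card_eq_one_iff_unique.mp hone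
  have huniq : ∀ χ : IrrCharacter G, p ∣ Cfsg.charDegree (χ : G → ℂ) → χ = χ₀ := fun χ hχ =>
    congrArg Subtype.val (hsub.elim
      (⟨χ, hχ⟩ : {χ : IrrCharacter G // p ∣ Cfsg.charDegree (χ : G → ℂ)}) ⟨χ₀, hχ₀⟩)
  obtain ⟨P⟩ : Nonempty (Sylow p G) := inferInstance
  haveI hPn : (P : Subgroup G).Normal :=
    P.normal_of_normalizerCondition Group.normalizerCondition_of_isNilpotent
  obtain ⟨a, ha⟩ := P.2.exists_card_eq
  have hcop : (Nat.card (P : Subgroup G)).Coprime (P : Subgroup G).index := P.card_coprime_index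
  obtain ⟨H, hH⟩ := Subgroup.exists_right_complement'_of_coprime hcop
  have hHcard : Nat.card H = (P : Subgroup G).index :=
    (Subgroup.IsComplement'.index_eq_card hH.symm).symm
  have hHp : ¬ p ∣ Nat.card H := hHcard ▸ P.not_dvd_index
  -- `H` centralises `P`
  set C := Subgroup.centralizer ((P : Subgroup G) : Set G) with hC
  have hHC : H ≤ C := by
    have hidx : ∀ q : ℕ, q.Prime → q ≠ p → ¬ q ∣ C.index := by
      intro q hq hqp hdvd
      haveI : Fact q.Prime := ⟨hq⟩
      obtain ⟨Q⟩ : Nonempty (Sylow q G) := inferInstance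
      haveI : (Q : Subgroup G).Normal :=
        Q.normal_of_normalizerCondition Group.normalizerCondition_of_isNilpotent
      have hdisj : Disjoint (Q : Subgroup G) (P : Subgroup G) :=
        IsPGroup.disjoint_of_ne q p hqp _ _ Q.2 P.2
      have hQC : (Q : Subgroup G) ≤ C := fun x hx => Subgroup.mem_centralizer_iff.mpr fun y hy =>
        (Subgroup.commute_of_normal_of_disjoint _ _ inferInstance inferInstance hdisj x y hx hy).eq.symm
      exact Q.not_dvd_index (hdvd.trans (Subgroup.index_dvd_of_le hQC))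
    intro h hh
    rw [← QuotientGroup.eq_one_iff, ← orderOf_eq_one_iff]
    have h1 : orderOf (h : G ⧸ C) ∣ C.index := by
      rw [C.index_eq_card]; exact orderOf_dvd_natCard _
    have h2 : orderOf (h : G ⧸ C) ∣ Nat.card H := by
      refine (orderOf_map_dvd (QuotientGroup.mk' C) h).trans ?_
      rw [← Subgroup.orderOf_mk h hh]; exact orderOf_dvd_natCard _
    by_contra hne
    obtain ⟨q, hq, hqd⟩ := Nat.exists_prime_and_dvd hne
    by_cases hqp : q = p
    · exact hHp (hqp ▸ hqd.trans h2)
    · exact hidx q hq hqp (hqd.trans h1)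
  have hcomm : ∀ x ∈ (P : Subgroup G), ∀ h ∈ H, x * h = h * x := fun x hx h hh =>
    Subgroup.mem_centralizer_iff.mp (hHC hh) x hx
  haveI hHn : H.Normal := by
    refine ⟨fun h hh g => ?_⟩
    obtain ⟨⟨⟨x, hx⟩, ⟨k, hk⟩⟩, hxk⟩ := hH.2 g
    change x * k = g at hxk
    subst hxk
    have : x * k * h * (x * k)⁻¹ = k * h * k⁻¹ := by
      have := hcomm x hx _ (H.mul_mem (H.mul_mem hk hh) (H.inv_mem hk))
      calc x * k * h * (x * k)⁻¹ = x * (k * h * k⁻¹) * x⁻¹ := by group
        _ = k * h * k⁻¹ := by rw [this]; group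
    rw [this]
    exact H.mul_mem (H.mul_mem hk hh) (H.inv_mem hk)
  by_cases hab : commutator (G ⧸ H) = ⊥
  · -- then `P` is central, so all degrees divide the order of `H`
    exfalso
    have hPab : ∀ x ∈ (P : Subgroup G), ∀ y ∈ (P : Subgroup G), x * y = y * x := by
      intro x hx y hy
      have hmem : x * y * x⁻¹ * y⁻¹ ∈ (P : Subgroup G) ⊓ H := by
        refine Subgroup.mem_inf.mpr ⟨mul_mem (mul_mem (mul_mem hx hy) (inv_mem hx)) (inv_mem hy), ?_⟩
        rw [← QuotientGroup.eq_one_iff]
        have := Subgroup.commutator_mem_commutator (Subgroup.mem_top (x : G ⧸ H))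
          (Subgroup.mem_top (y : G ⧸ H))
        rw [← commutator_def, hab, Subgroup.mem_bot, commutatorElement_def] at this
        simpa using this
      rw [disjoint_iff.mp hH.disjoint, Subgroup.mem_bot] at hmem
      exact mul_inv_eq_iff_eq_mul.mp (mul_inv_eq_one.mp hmem)
    have hPcent : (P : Subgroup G) ≤ Subgroup.center G := fun x hx => by
      rw [Subgroup.mem_center_iff]
      intro g
      obtain ⟨⟨⟨y, hy⟩, ⟨k, hk⟩⟩, hyk⟩ := hH.2 g
      change y * k = g at hyk
      subst hyk
      rw [mul_assoc, ← hcomm x hx k hk, ← mul_assoc, hPab y hy x hx, mul_assoc]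
    haveI := Fintype.ofFinite H
    haveI := Fintype.ofFinite (P : Subgroup G)
    have hres := isCharacter_restrict (isCharacter_coe χ₀) H
    have hnorm : classInner (fun h : H => (χ₀ : G → ℂ) h) (fun h : H => (χ₀ : G → ℂ) h) = 1 := by
      have horth := sum_mul_map_inv χ₀ χ₀
      rw [if_pos rfl] at horth
      simp only [map_inv_eq_conj (isCharacter_coe χ₀)] at horth
      rw [← Fintype.sum_equiv (Equiv.ofBijective _ hH) (fun z : ↥(P : Subgroup G) × ↥H =>
          (χ₀ : G → ℂ) z.2 * starRingEnd ℂ ((χ₀ : G → ℂ) z.2)) _ (fun z => ?_)] at horth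
      · rw [Fintype.sum_prod_type] at horth
        dsimp only at horth
        rw [Finset.sum_const, nsmul_eq_mul, Finset.card_univ,
          ← Nat.card_eq_fintype_card] at horth
        have hG : (Nat.card G : ℂ) = Nat.card (P : Subgroup G) * Nat.card H := by
          rw [← Nat.cast_mul, hHcard, Subgroup.card_mul_index]
        rw [hG] at horth
        have e := mul_left_cancel₀ (Nat.cast_ne_zero.mpr Nat.card_pos.ne') horth
        simp only [classInner]
        convert inv_mul_cancel₀ (natCard_ne_zero (G := H)) using 2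
        convert e using 1
        exact Finset.sum_congr (by ext; simp) fun _ _ => rfl
      · obtain ⟨⟨x, hx⟩, ⟨k, hk⟩⟩ := z
        show _ = (χ₀ : G → ℂ) (x * k) * starRingEnd ℂ ((χ₀ : G → ℂ) (x * k))
        rw [Complex.mul_conj, Complex.mul_conj, Complex.normSq_eq_norm_sq,
          Complex.normSq_eq_norm_sq, map_mul_of_mem_center χ₀ (hPcent hx), norm_mul, norm_div,
          norm_map_of_mem_center χ₀ (hPcent hx),
          div_self (norm_ne_zero_iff.mpr (map_one_ne_zero χ₀)), one_mul]
    have hirr := isIrrCharacter_of_classInner_self hres hnorm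
    have hdvd := charDegree_dvd_card (⟨_, hirr⟩ : IrrCharacter H)
    exact hHp (hχ₀.trans (by simpa [Cfsg.charDegree] using hdvd))
  · -- a non-linear character of the quotient by `H`
    obtain ⟨ψ, hψ⟩ : ∃ ψ : IrrCharacter (G ⧸ H), (ψ : G ⧸ H → ℂ) 1 ≠ 1 := by
      by_contra! hall
      exact hab (commutator_eq_bot_iff.mpr hall)
    have hQp : IsPGroup p (G ⧸ H) := by
      refine IsPGroup.of_card (n := a) ?_
      rw [← H.index_eq_card, hH.index_eq_card, ha]
    have hd : p ∣ Cfsg.charDegree (ψ : G ⧸ H → ℂ) :=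
      (dvd_iff_nonlinear hQp ψ).mpr fun h => hψ ((charDegree_eq_one_iff ψ).mp h)
    have hχ : inflate H ψ = χ₀ := huniq _ (by rwa [charDegree_inflate])
    by_cases hHb : H = ⊥
    · refine IsPGroup.of_card (n := a) ?_
      rw [← hH.card_mul_card, hHb, Subgroup.card_bot, mul_one, ha]
    exfalso
    haveI : Nontrivial (G ⧸ (P : Subgroup G)) := by
      rw [← Finite.one_lt_card_iff_nontrivial, ← Subgroup.index_eq_card, ← hHcard]
      exact (Subgroup.one_lt_card_iff_ne_bot H).mpr hHb
    haveI : Group.IsSolvable (G ⧸ (P : Subgroup G)) := inferInstance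
    obtain ⟨l', hl'⟩ := exists_nontrivial_linChar (G := G ⧸ (P : Subgroup G))
      (Group.IsSolvable.commutator_lt_top_of_nontrivial _).ne
    set l : G →* ℂˣ := l'.comp (QuotientGroup.mk' (P : Subgroup G)) with hl
    obtain ⟨h, hh, hlh⟩ : ∃ h ∈ H, l h ≠ 1 := by
      by_contra! hall
      apply hl'
      refine MonoidHom.ext fun q => ?_
      obtain ⟨g, rfl⟩ := QuotientGroup.mk_surjective q
      obtain ⟨⟨⟨x, hx⟩, ⟨k, hk⟩⟩, hxk⟩ := hH.2 g
      change x * k = g at hxk
      subst hxk
      show l (x * k) = 1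
      rw [map_mul, hall k hk, mul_one, hl, MonoidHom.comp_apply, QuotientGroup.mk'_apply,
        (QuotientGroup.eq_one_iff x).mpr hx, map_one]
    have htw : (⟨_, isIrrCharacter_linear_mul χ₀.2 l⟩ : IrrCharacter G) = χ₀ :=
      huniq _ (by
        show p ∣ Cfsg.charDegree (fun g => (l g : ℂ) * (χ₀ : G → ℂ) g)
        rwa [charDegree_linear_mul])
    have h1 := congrFun (congrArg Subtype.val htw) h
    simp only [← hχ, inflate_apply, (QuotientGroup.eq_one_iff h).mpr hh] at h1
    exact hlh (Units.ext ((mul_eq_right₀ (map_one_ne_zero ψ)).mp h1))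

/-- A `p`-group with exactly one non-linear character. -/
theorem extraspecial_of_unique (p : ℕ) [Fact p.Prime] (hG : IsPGroup p G)
    (hone : Nat.card {χ : IrrCharacter G // p ∣ Cfsg.charDegree (χ : G → ℂ)} = 1) :
    p = 2 ∧ Cfsg.IsExtraspecial 2 G := by
  classical
  have hp : p.Prime := Fact.out
  obtain ⟨hsub, ⟨⟨χ₀, hχ₀⟩⟩⟩ := Nat.card_eq_one_iff_unique.mp hone
  have hfilter : (Finset.univ.filter fun χ : IrrCharacter G => (χ : G → ℂ) 1 ≠ 1) = {χ₀} := by
    ext χ
    simp only [Finset.mem_filter, Finset.mem_univ, true_and, Finset.mem_singleton]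
    rw [Ne, ← charDegree_eq_one_iff, ← Ne, ← dvd_iff_nonlinear hG]
    exact ⟨fun h => congrArg Subtype.val (hsub.elim
      (⟨χ, h⟩ : {χ : IrrCharacter G // p ∣ Cfsg.charDegree (χ : G → ℂ)}) ⟨χ₀, hχ₀⟩),
      fun h => h ▸ hχ₀⟩
  have hsum := sum_nonlinear_sq (G := G)
  rw [hfilter, Finset.sum_singleton] at hsum
  obtain ⟨n, hn⟩ := IsPGroup.iff_card.mp hG
  obtain ⟨b, hbn, hb⟩ : ∃ b ≤ n, (commutator G).index = p ^ b :=
    (Nat.dvd_prime_pow hp).mp (hn ▸ (commutator G).index_dvd_card)
  obtain ⟨a, han, ha⟩ : ∃ a ≤ n, Cfsg.charDegree (χ₀ : G → ℂ) = p ^ a :=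
    (Nat.dvd_prime_pow hp).mp (hn ▸ charDegree_dvd_card χ₀)
  rw [hb, ha, hn, ← pow_mul] at hsum
  have hbn' : b < n := (Nat.pow_lt_pow_iff_right hp.one_lt).mp
    (hsum ▸ Nat.lt_add_of_pos_right (pow_pos hp.pos _))
  have han' : a * 2 < n := (Nat.pow_lt_pow_iff_right hp.one_lt).mp
    (hsum ▸ Nat.lt_add_of_pos_left (pow_pos hp.pos _))
  have heq : b = a * 2 := by
    by_contra hne
    rcases lt_or_gt_of_ne hne with h | h
    · have h1 : p ^ (b + 1) ∣ p ^ b := (Nat.dvd_add_left (Nat.pow_dvd_pow p (by omega : b + 1 ≤ a * 2))).mp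
        (hsum ▸ Nat.pow_dvd_pow p (by omega : b + 1 ≤ n))
      exact absurd ((Nat.pow_dvd_pow_iff_le_right hp.one_lt).mp h1) (by omega)
    · have h1 : p ^ (a * 2 + 1) ∣ p ^ (a * 2) :=
        (Nat.dvd_add_right (Nat.pow_dvd_pow p (by omega : a * 2 + 1 ≤ b))).mp
        (hsum ▸ Nat.pow_dvd_pow p (by omega : a * 2 + 1 ≤ n))
      exact absurd ((Nat.pow_dvd_pow_iff_le_right hp.one_lt).mp h1) (by omega)
  rw [← heq, ← two_mul, show n = b + (n - b) by omega, pow_add, mul_comm 2] at hsum
  have h2 : 2 = p ^ (n - b) := Nat.eq_of_mul_eq_mul_left (pow_pos hp.pos b) hsum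
  have hp2 : p = 2 := (Nat.prime_dvd_prime_iff_eq hp Nat.prime_two).mp
    (h2.symm ▸ dvd_pow_self p (by omega : n - b ≠ 0))
  refine ⟨hp2, ?_⟩
  subst hp2
  have hcard2 : Nat.card (commutator G) = 2 := by
    have := (commutator G).card_mul_index
    rw [hb, hn, show n = b + (n - b) by omega, pow_add, ← h2, mul_comm] at this
    exact Nat.eq_of_mul_eq_mul_left (pow_pos (by norm_num) b) this
  have hle : commutator G ≤ Subgroup.center G := by
    intro z hz
    rw [Subgroup.mem_center_iff]
    intro g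
    haveI := (Nat.card_eq_two_iff' (1 : commutator G)).mp hcard2
    by_cases hz1 : z = 1
    · simp [hz1]
    · have hconj : g * z * g⁻¹ ∈ commutator G := Subgroup.Normal.conj_mem inferInstance z hz g
      have := this.unique (y₁ := ⟨_, hconj⟩) (y₂ := ⟨z, hz⟩)
        (fun h => hz1 (conj_eq_one_iff.mp (congrArg Subtype.val h)))
        (fun h => hz1 (congrArg Subtype.val h))
      exact mul_inv_eq_iff_eq_mul.mp (congrArg Subtype.val this)
  have hZ : commutator G = Subgroup.center G := by
    refine Subgroup.eq_of_le_of_card_ge hle ?_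
    have h := charDegree_sq_le_index_center χ₀
    rw [ha, ← pow_mul, ← heq, ← hb] at h
    have h1 := (commutator G).card_mul_index
    have h3 := (Subgroup.center G).card_mul_index
    have hpos : 0 < (commutator G).index := Nat.pos_of_ne_zero Subgroup.index_ne_zero_of_finite
    nlinarith [Nat.card_pos (α := Subgroup.center G), h, h1, h3, hpos]
  refine ⟨⟨hG, le_antisymm ?_ (hZ ▸ CfsgLib.PGroup.commutator_le_frattini hG), hZ⟩,
    hZ ▸ hcard2⟩
  refine CfsgLib.PGroup.frattini_le_of_elementary (p := 2)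
    (fun x y => hZ ▸ Subgroup.commutator_mem_commutator (Subgroup.mem_top x) (Subgroup.mem_top y))
    fun x => ?_
  rw [Subgroup.mem_center_iff]
  intro g
  set z : G := g * x * g⁻¹ * x⁻¹ with hz
  have hzmem : z ∈ commutator G :=
    Subgroup.commutator_mem_commutator (Subgroup.mem_top g) (Subgroup.mem_top x)
  have hz2 : z * z = 1 := by
    have h := pow_card_eq_one' (x := (⟨z, hzmem⟩ : commutator G))
    rw [hcard2, pow_two] at h
    exact congrArg Subtype.val h
  have hgx : g * x * g⁻¹ = z * x := by rw [hz]; group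
  have hzx : x * z = z * x := Subgroup.mem_center_iff.mp (hle hzmem) x
  have : g * (x * x) * g⁻¹ = x * x :=
    calc g * (x * x) * g⁻¹ = (g * x * g⁻¹) * (g * x * g⁻¹) := by group
      _ = z * (x * z) * x := by rw [hgx]; group
      _ = z * z * (x * x) := by rw [hzx]; group
      _ = x * x := by rw [hz2, one_mul]
  rw [pow_two]
  exact mul_inv_eq_iff_eq_mul.mp this

/-- An extraspecial 2-group has exactly one non-linear character. -/
theorem unique_of_extraspecial (hE : Cfsg.IsExtraspecial 2 G) :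
    Nat.card {χ : IrrCharacter G // 2 ∣ Cfsg.charDegree (χ : G → ℂ)} = 1 := by
  classical
  haveI := Fintype.ofFinite G
  haveI : Fact (Nat.Prime 2) := ⟨Nat.prime_two⟩
  obtain ⟨⟨hG, -, hZ⟩, hZ2⟩ := hE
  have hidx : (commutator G).index = (Subgroup.center G).index := by rw [hZ]
  have hGc : 2 * (Subgroup.center G).index = Nat.card G := by
    rw [← (Subgroup.center G).card_mul_index, hZ2]
  have hdeg : ∀ χ : IrrCharacter G, (χ : G → ℂ) 1 ≠ 1 →
      Cfsg.charDegree (χ : G → ℂ) ^ 2 = (Subgroup.center G).index := by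
    intro χ hχ
    have hvan : ∀ g : G, g ∉ Subgroup.center G → (χ : G → ℂ) g = 0 := by
      intro g hg
      rw [Subgroup.mem_center_iff, not_forall] at hg
      obtain ⟨x, hx⟩ := hg
      set z := x * g * x⁻¹ * g⁻¹ with hz
      have hzmem : z ∈ commutator G :=
        Subgroup.commutator_mem_commutator (Subgroup.mem_top x) (Subgroup.mem_top g)
      have hz1 : z ≠ 1 := fun h => hx (mul_inv_eq_iff_eq_mul.mp (mul_inv_eq_one.mp h))
      have hzc : z ∈ Subgroup.center G := hZ ▸ hzmem
      by_contra hne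
      have h1 := isClassFunction_coe χ g x
      rw [show x * g * x⁻¹ = z * g by rw [hz]; group, map_mul_of_mem_center χ hzc] at h1
      have hzd : (χ : G → ℂ) z = (χ : G → ℂ) 1 :=
        div_eq_one_iff_eq (map_one_ne_zero χ) |>.mp ((mul_eq_right₀ hne).mp h1)
      have hker : commutator G ≤ charKer (χ : G → ℂ) := by
        intro y hy
        have hc2 : Nat.card (commutator G) = 2 := by rw [hZ, hZ2]
        by_cases hy1 : y = 1
        · rw [hy1]; exact Subgroup.one_mem _
        · have := ((Nat.card_eq_two_iff' (1 : commutator G)).mp hc2).unique (y₁ := ⟨y, hy⟩)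
            (y₂ := ⟨z, hzmem⟩) (fun h => hy1 (congrArg Subtype.val h))
            (fun h => hz1 (congrArg Subtype.val h))
          rw [show y = z from congrArg Subtype.val this, mem_charKer_iff (isCharacter_coe χ)]
          exact hzd
      exact hχ ((commutator_le_charKer_iff χ).mp hker)
    have horth := sum_mul_map_inv χ χ
    rw [if_pos rfl] at horth
    simp only [map_inv_eq_conj (isCharacter_coe χ), Complex.mul_conj, Complex.normSq_eq_norm_sq]
      at horth
    have horth' : (∑ g : G, ‖(χ : G → ℂ) g‖ ^ 2 : ℝ) = Nat.card G := by exact_mod_cast horth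
    rw [← Finset.sum_filter_add_sum_filter_not Finset.univ (fun g : G => g ∈ Subgroup.center G),
      Finset.sum_eq_zero (s := Finset.univ.filter fun g : G => ¬ g ∈ Subgroup.center G)
        (fun g hg => by rw [hvan g (Finset.mem_filter.mp hg).2]; simp), add_zero,
      Finset.sum_congr rfl (g := fun _ => (Cfsg.charDegree (χ : G → ℂ) : ℝ) ^ 2) (fun g hg => by
        rw [norm_map_of_mem_center χ (Finset.mem_filter.mp hg).2, ← coe_charDegree,
          Complex.norm_natCast]),
      Finset.sum_const, nsmul_eq_mul, ← Fintype.card_subtype, ← Nat.card_eq_fintype_card,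
      show Nat.card {g : G // g ∈ Subgroup.center G} = 2 from hZ2, ← hGc] at horth'
    push_cast at horth'
    have h3 : (Cfsg.charDegree (χ : G → ℂ) : ℝ) ^ 2 = ((Subgroup.center G).index : ℝ) := by
      linarith
    exact_mod_cast h3
  have hsum := sum_nonlinear_sq (G := G)
  rw [Finset.sum_congr rfl (fun χ hχ => hdeg χ (Finset.mem_filter.mp hχ).2), Finset.sum_const,
    smul_eq_mul, hidx, ← hGc] at hsum
  have hpos : 0 < (Subgroup.center G).index := Nat.pos_of_ne_zero Subgroup.index_ne_zero_of_finite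
  have hcount : (Finset.univ.filter fun χ : IrrCharacter G => (χ : G → ℂ) 1 ≠ 1).card = 1 :=
    Nat.eq_of_mul_eq_mul_right hpos (by omega)
  rw [Nat.card_eq_fintype_card, Fintype.card_subtype, ← hcount]
  congr 1
  ext χ
  simp only [Finset.mem_filter, Finset.mem_univ, true_and]
  rw [dvd_iff_nonlinear hG, Ne, charDegree_eq_one_iff]


/-- Let p be a prime and G a finite nilpotent group. Then G has exactly one irreducible complex character of degree divisible by p if and only if p = 2 and G is an extraspecial 2-group. -/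
theorem result {G : Type*} [Group G] [Finite G] [Group.IsNilpotent G] (p : ℕ) [Fact p.Prime] : Nat.card {χ : Cfsg.IrrCharacter G // p ∣ Cfsg.charDegree (χ : G → ℂ)} = 1 ↔ (p = 2 ∧ Cfsg.IsExtraspecial 2 G) := by
  constructor
  · intro hone
    have hPG := isPGroup_of_unique p hone
    exact extraspecial_of_unique p hPG hone
  · rintro ⟨rfl, hE⟩
    exact unique_of_extraspecial hE

end Cfsg.Agent.S4762
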