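import Cfsg.Statements.S4765
import Cfsg.Agent.Sl2Chars.Degrees
import Cfsg.Agent.Eq.Def_Characters
import Cfsg.Agent.Chars.Basic
-- import your own Cfsg.Agent.* helpers here

set_option autoImplicit false
open Cfsg

namespace Cfsg.Agent.S4765

/-- Let F be a finite field of characteristic p with at least 4 elements. Then PSL(2,F) has exactly one irreducible complex character of degree divisible by p, and its degree is the order of F. -/
theorem result (p : ℕ) [Fact p.Prime] (F : Type*) [Field F] [Fintype F] [CharP F p] (hF : 4 ≤ Fintype.card F) : Nat.card {χ : Cfsg.IrrCharacter (Matrix.ProjectiveSpecialLinearGroup (Fin 2) F) // p ∣ Cfsg.charDegree (χ : Matrix.ProjectiveSpecialLinearGroup (Fin 2) F → ℂ)} = 1 ∧ ∀ χ : Cfsg.IrrCharacter (Matrix.ProjectiveSpecialLinearGroup (Fin 2) F), p ∣ Cfsg.charDegree (χ : Matrix.ProjectiveSpecialLinearGroup (Fin 2) F → ℂ) → Cfsg.charDegree (χ : Matrix.ProjectiveSpecialLinearGroup (Fin 2) F → ℂ) =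 Fintype.card F := by
  classical
  have hp := (Fact.out : p.Prime)
  obtain ⟨⟨k, hk0⟩, -, hk⟩ := FiniteField.card F p
  have hpq : p ∣ Fintype.card F := hk ▸ dvd_pow_self p hk0.ne'
  have deg : ∀ χ : IrrCharacter (Matrix.SpecialLinearGroup (Fin 2) F), ∀ n : ℕ,
      (χ : Matrix.SpecialLinearGroup (Fin 2) F → ℂ) 1 = n → p ∣ n → n = Fintype.card F := by
    intro χ n hn hdvd
    have hnd : ∀ m : ℕ, m = Fintype.card F + 1 ∨ m + 1 = Fintype.card F → ¬ p ∣ m := by
      intro m hm h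
      rcases hm with hm | hm
      · exact hp.not_dvd_one ((Nat.dvd_add_right hpq).1 (hm ▸ h))
      · exact hp.not_dvd_one ((Nat.dvd_add_right h).1 (hm.symm ▸ hpq))
    have h1 : 1 < Fintype.card F := Fintype.one_lt_card
    rcases CfsgLib.Sl2Chars.two_ne_zero_or_charTwo (F := F) with h2 | h2
    · obtain ⟨ν, hν⟩ := CfsgLib.Sl2Chars.exists_nonsquare h2
      obtain ⟨j, hj⟩ := CfsgLib.Sl2Chars.odd_card h2
      rcases CfsgLib.Sl2Chars.pat_deg_cases h2 hν χ hn with
        ⟨-, e⟩ | ⟨-, e⟩ | ⟨-, e⟩ | ⟨-, e⟩ | ⟨-, e⟩ | ⟨-, e⟩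
      · exact absurd hdvd (hnd n (Or.inl e))
      · exact absurd hdvd (e ▸ hp.not_dvd_one)
      · exact e
      · exact absurd (dvd_mul_of_dvd_right hdvd 2) (hnd (2 * n) (Or.inl (by omega)))
      · exact absurd hdvd (hnd n (Or.inr (by omega)))
      · exact absurd (dvd_mul_of_dvd_right hdvd 2) (hnd (2 * n) (Or.inr (by omega)))
    · rcases CfsgLib.Sl2Chars.patTwo_deg_cases χ hn with ⟨-, e⟩ | ⟨-, e⟩ | ⟨-, e⟩ | ⟨-, e⟩
      · exact absurd hdvd (hnd n (Or.inl e))
      · exact absurd hdvd (e ▸ hp.not_dvd_one)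
      · exact e
      · exact absurd hdvd (hnd n (Or.inr (by omega)))
  set Z := Subgroup.center (Matrix.SpecialLinearGroup (Fin 2) F) with hZ
  have hdeg : ∀ χ : IrrCharacter (Matrix.ProjectiveSpecialLinearGroup (Fin 2) F),
      p ∣ charDegree (χ : Matrix.ProjectiveSpecialLinearGroup (Fin 2) F → ℂ) →
      CfsgLib.Chars.inflate Z χ = CfsgLib.Sl2Chars.stChar F := by
    intro χ h
    have h1 := (CfsgLib.Chars.coe_charDegree (CfsgLib.Chars.inflate Z χ)).symm
    rw [CfsgLib.Chars.charDegree_inflate] at h1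
    exact CfsgLib.Sl2Chars.eq_stChar_of_degree (h1.trans (by rw [deg _ _ h1 h]))
  have hker : Z ≤ CfsgLib.Chars.charKer (CfsgLib.Sl2Chars.stChar F : Matrix.SpecialLinearGroup (Fin 2) F → ℂ) := by
    intro z hz
    rw [CfsgLib.Chars.mem_charKer_iff (CfsgLib.Chars.isCharacter_coe _)]
    rcases CfsgLib.SL2.mem_center_iff'.1 hz with rfl | rfl
    · rfl
    · rw [CfsgLib.Sl2Chars.stChar_one, ← CfsgLib.SL2.d_neg_one]
      show CfsgLib.Sl2Chars.stFun F _ = _
      have h := CfsgLib.Sl2Chars.P_apply_d_mul_u (1 : MulChar F ℂ) (-1) 0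
      rw [CfsgLib.SL2.u_zero, mul_one] at h
      simp only [CfsgLib.Sl2Chars.stFun, h, MulChar.one_apply_coe]
      simp
  refine ⟨?_, fun χ h => ?_⟩
  · obtain ⟨ψ, hψ⟩ := CfsgLib.Chars.exists_inflate_eq Z _ hker
    have hψd : p ∣ charDegree (ψ : Matrix.ProjectiveSpecialLinearGroup (Fin 2) F → ℂ) := by
      rw [← CfsgLib.Chars.charDegree_inflate Z ψ, hψ,
        CfsgLib.Chars.charDegree_eq_of_map_one CfsgLib.Sl2Chars.stChar_one]
      exact hpq
    rw [Nat.card_eq_one_iff_unique]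
    exact ⟨⟨fun a b => Subtype.ext (CfsgLib.Chars.inflate_injective Z
      ((hdeg _ a.2).trans (hdeg _ b.2).symm))⟩, ⟨⟨ψ, hψd⟩⟩⟩
  · have h1 := (CfsgLib.Chars.coe_charDegree (CfsgLib.Chars.inflate Z χ)).symm
    rw [CfsgLib.Chars.charDegree_inflate] at h1
    exact deg _ _ h1 h

end Cfsg.Agent.S4765
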