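import Cfsg.Statements.S4774
import Cfsg.Agent.Sl2Chars.DegreeSet
import Cfsg.Agent.Eq.Def_DegreeGraph
-- import your own Cfsg.Agent.* helpers here

set_option autoImplicit false
open Cfsg

namespace Cfsg.Agent.S4774

/-- Let F be a finite field of odd characteristic t with q > 5 elements and let S be isomorphic to PSL(2,F) or to SL(2,F). Then the vertices of the character degree graph of S are the primes dividing q(q²−1); the prime t is adjacent to no vertex; two distinct primes dividing q² − 1 are adjacent exactly when one of them is 2, or both divide q + 1, or both divide q − 1. -/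
theorem result (F : Type*) [Field F] [Fintype F] (t : ℕ) [Fact t.Prime] [CharP F t] (ht : t ≠ 2) (q : ℕ) (hq : Fintype.card F = q) (h5 : 5 < q) {S : Type*} [Group S] [Finite S] (hS : Nonempty (S ≃* Matrix.ProjectiveSpecialLinearGroup (Fin 2) F) ∨ Nonempty (S ≃* Matrix.SpecialLinearGroup (Fin 2) F)) : Cfsg.degreePrimes S = {r : ℕ | r.Prime ∧ r ∣ q * (q ^ 2 - 1)} ∧ ∀ r s : ℕ, (Cfsg.degreeGraph S).Adj r s ↔ (r ≠ s ∧ r.Prime ∧ s.Prime ∧ r ∣ q ^ 2 - 1 ∧ s ∣ q ^ 2 - 1 ∧ (r = 2 ∨ s = 2 ∨ (r ∣ q + 1 ∧ s ∣ q + 1) ∨ (r ∣ q - 1 ∧ s ∣ q - 1))) := by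
  have h20 : (2 : F) ≠ 0 := Ring.two_ne_zero (fun h => ht ((ringChar.eq F t).symm.trans h))
  classical
  subst hq
  obtain ⟨⟨hq0, hq1, hq2⟩, hsub⟩ := CfsgLib.Sl2Chars.charDegrees_facts hS (Or.inl h5)
  have hq : 1 < Fintype.card F := Fintype.one_lt_card
  have hdiv : ∀ r : ℕ, r.Prime → r ∣ Fintype.card F → r = t := fun r hr h => by
    obtain ⟨⟨k, hk0⟩, hp, hk⟩ := FiniteField.card F t
    exact (Nat.prime_dvd_prime_iff_eq hr hp).1 (hr.dvd_of_dvd_pow (hk ▸ h))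
  have hsq : Fintype.card F ^ 2 - 1 = (Fintype.card F + 1) * (Fintype.card F - 1) := by
    rw [← Nat.sq_sub_sq, one_pow]
  refine ⟨Set.ext fun r => ⟨?_, ?_⟩, fun r s => ⟨?_, ?_⟩⟩
  · rintro ⟨hr, d, hd, hrd⟩
    refine ⟨hr, ?_⟩
    obtain ⟨k, hk⟩ := CfsgLib.Sl2Chars.odd_card h20
    rw [hsq]
    rcases CfsgLib.Sl2Chars.charDegrees_cases (hsub hd) with e | e | e | e | ⟨-, e | e⟩
    · exact absurd (e ▸ hrd) hr.not_dvd_one
    · exact dvd_mul_of_dvd_left (e ▸ hrd) _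
    · exact dvd_mul_of_dvd_right (dvd_mul_of_dvd_left (e ▸ hrd) _) _
    · exact dvd_mul_of_dvd_right (dvd_mul_of_dvd_right (e ▸ hrd) _) _
    · exact dvd_mul_of_dvd_right (dvd_mul_of_dvd_left
        (hrd.trans ⟨2, by omega⟩) _) _
    · exact dvd_mul_of_dvd_right (dvd_mul_of_dvd_right
        (hrd.trans ⟨2, by omega⟩) _) _
  · rintro ⟨hr, hd⟩
    rw [hsq, hr.dvd_mul, hr.dvd_mul] at hd
    rcases hd with h | h | h
    · exact ⟨hr, _, hq0, h⟩
    · exact ⟨hr, _, hq1, h⟩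
    · exact ⟨hr, _, hq2, h⟩
  · rintro ⟨hne, hr, hs, d, hd, hrs⟩
    obtain ⟨k, hk⟩ := CfsgLib.Sl2Chars.odd_card h20
    have hr' := (dvd_mul_right r s).trans hrs
    have hs' := (dvd_mul_left s r).trans hrs
    have key : ∀ e : ℕ, (e = Fintype.card F + 1 ∨ e = Fintype.card F - 1) → d ∣ e →
        r ∣ Fintype.card F ^ 2 - 1 ∧ s ∣ Fintype.card F ^ 2 - 1 ∧
          (r = 2 ∨ s = 2 ∨ (r ∣ Fintype.card F + 1 ∧ s ∣ Fintype.card F + 1) ∨
            (r ∣ Fintype.card F - 1 ∧ s ∣ Fintype.card F - 1)) := by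
      rintro e (rfl | rfl) hde <;> rw [hsq]
      · exact ⟨dvd_mul_of_dvd_left (hr'.trans hde) _, dvd_mul_of_dvd_left (hs'.trans hde) _,
          Or.inr (Or.inr (Or.inl ⟨hr'.trans hde, hs'.trans hde⟩))⟩
      · exact ⟨dvd_mul_of_dvd_right (hr'.trans hde) _, dvd_mul_of_dvd_right (hs'.trans hde) _,
          Or.inr (Or.inr (Or.inr ⟨hr'.trans hde, hs'.trans hde⟩))⟩
    refine ⟨hne, hr, hs, ?_⟩
    rcases CfsgLib.Sl2Chars.charDegrees_cases (hsub hd) with e | e | e | e | ⟨-, e | e⟩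
    · exact absurd (e ▸ hr') hr.not_dvd_one
    · exact absurd ((hdiv r hr (e ▸ hr')).trans (hdiv s hs (e ▸ hs')).symm) hne
    · exact key _ (Or.inl rfl) (dvd_of_eq e)
    · exact key _ (Or.inr rfl) (dvd_of_eq e)
    · exact key _ (Or.inl rfl) ⟨2, by omega⟩
    · exact key _ (Or.inr rfl) ⟨2, by omega⟩
  · rintro ⟨hne, hr, hs, hr1, hs1, hd⟩
    obtain ⟨k, hk⟩ := CfsgLib.Sl2Chars.odd_card h20
    rw [hsq, hr.dvd_mul] at hr1
    rw [hsq, hs.dvd_mul] at hs1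
    have hco := (Nat.coprime_primes hr hs).2 hne
    have h2a : 2 ∣ Fintype.card F + 1 := ⟨k + 1, by omega⟩
    have h2b : 2 ∣ Fintype.card F - 1 := ⟨k, by omega⟩
    have main : (r ∣ Fintype.card F + 1 ∧ s ∣ Fintype.card F + 1) ∨
        (r ∣ Fintype.card F - 1 ∧ s ∣ Fintype.card F - 1) := by
      rcases hd with rfl | rfl | h
      · exact hs1.imp (fun h => ⟨h2a, h⟩) (fun h => ⟨h2b, h⟩)
      · exact hr1.imp (fun h => ⟨h, h2a⟩) (fun h => ⟨h, h2b⟩)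
      · exact h
    rcases main with ⟨h, h'⟩ | ⟨h, h'⟩
    · exact ⟨hne, hr, hs, _, hq1, hco.mul_dvd_of_dvd_of_dvd h h'⟩
    · exact ⟨hne, hr, hs, _, hq2, hco.mul_dvd_of_dvd_of_dvd h h'⟩

end Cfsg.Agent.S4774
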