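import Cfsg.Statements.S4775
import Cfsg.Agent.Suzuki.Chars.Exists
import Cfsg.Agent.Suzuki.LieModel
import Cfsg.Agent.Eq.Def_DegreeGraph
import Cfsg.Agent.Eq.Def_Characters

set_option autoImplicit false
open Cfsg

namespace Cfsg.Agent.S4775

open CfsgLib.SuzukiDeg in
/-- A degree and two distinct primes dividing it. -/
theorem even_degree {m : ℕ} (hm : 1 ≤ m) {d r : ℕ} {i : Fin 7} (h : Kindly ((2 : ℤ) ^ m) d i)
    (h2 : 2 ∣ d) (hr : r.Prime) (hr2 : r ≠ 2) (hrd : r ∣ d) : r ∣ 2 * (2 ^ m) ^ 2 - 1 := by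
  set s : ℕ := 2 ^ m with hs
  have hsZ : ((2 : ℤ) ^ m) = (s : ℤ) := by rw [hs]; push_cast; rfl
  rw [hsZ] at h
  have h1 : 1 ≤ 2 * s ^ 2 := by
    have := Nat.one_le_pow 2 s (Nat.two_pow_pos m)
    omega
  have h2Z : (2 : ℤ) ∣ (d : ℤ) := Int.natCast_dvd_natCast.2 h2
  have hrs : ∀ n, ¬ r ∣ 2 ^ n := fun n hn =>
    hr2 ((Nat.prime_dvd_prime_iff_eq hr Nat.prime_two).1 (hr.dvd_of_dvd_pow hn))
  fin_cases i <;> simp only [Kindly, Fin.zero_eta, Fin.mk_one, Fin.reduceFinMk, Matrix.cons_val] at h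
  · omega
  · exfalso
    have e : d = 2 ^ ((2 * m + 1) * 2) := by
      have : (d : ℤ) = ((2 ^ ((2 * m + 1) * 2) : ℕ) : ℤ) := by rw [h, hs]; push_cast; ring
      exact_mod_cast this
    exact hrs _ (e ▸ hrd)
  · exfalso
    rw [h] at h2Z
    have : (2 : ℤ) ∣ (2 * (s : ℤ) ^ 2) ^ 2 := ⟨2 * (s : ℤ) ^ 4, by ring⟩
    have := (dvd_add_right this).1 h2Z
    norm_num at this
  · exfalso
    rw [h] at h2Z
    rcases Int.prime_two.dvd_or_dvd h2Z with ⟨x, hx⟩ | ⟨x, hx⟩ <;> omega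
  · exfalso
    rw [h] at h2Z
    rcases Int.prime_two.dvd_or_dvd h2Z with ⟨x, hx⟩ | ⟨x, hx⟩ <;> omega
  · exfalso; omega
  · have e : d = (2 * s ^ 2 - 1) * s := by
      have : (d : ℤ) = (((2 * s ^ 2 - 1) * s : ℕ) : ℤ) := by
        rw [h, Nat.cast_mul, Nat.cast_sub h1]; push_cast; rfl
      exact_mod_cast this
    rw [e] at hrd
    exact (hr.dvd_mul.1 hrd).resolve_right (hrs m)

/-- Let F be a finite field with q = 2^(2m+1) ≥ 8 elements and let S be isomorphic to the Suzuki group over F. Then the vertices of the character degree graph of S are 2 and the primes dividing (q − 1)(q² + 1); the primes dividing (q − 1)(q² + 1) are pairwise adjacent, and 2 is adjacent exactly to the primes dividing q − 1. -/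
theorem result (F : Type*) [Field F] [Fintype F] (m : ℕ) (hm : 1 ≤ m) (q : ℕ) (hq : Fintype.card F = q) (hqm : q = 2 ^ (2 * m + 1)) {S : Type*} [Group S] [Finite S] (hS : Nonempty (S ≃* ↥(Cfsg.Lie.Sz F (2 ^ (m + 1))))) : Cfsg.degreePrimes S = {r : ℕ | r.Prime ∧ (r = 2 ∨ r ∣ (q - 1) * (q ^ 2 + 1))} ∧ ∀ r s : ℕ, (Cfsg.degreeGraph S).Adj r s ↔ (r ≠ s ∧ r.Prime ∧ s.Prime ∧ ((r ∣ (q - 1) * (q ^ 2 + 1) ∧ s ∣ (q - 1) * (q ^ 2 + 1)) ∨ (r = 2 ∧ s ∣ q - 1) ∨ (s = 2 ∧ r ∣ q - 1))) := by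
  classical
  haveI := CfsgLib.Suzuki.charP_two (hq.trans hqm)
  have hF : Fintype.card F = 2 ^ (2 * m + 1) := hq.trans hqm
  obtain ⟨eS⟩ := hS
  let e : S ≃* CfsgLib.Suzuki.grp (CfsgLib.Suzuki.theta F m) :=
    eS.trans ((CfsgLib.Suzuki.lieSzEquiv hm hF).symm.trans (MulEquiv.subgroupCongr CfsgLib.Suzuki.sz_eq))
  have hdeg : Cfsg.charDegrees S = Cfsg.charDegrees (CfsgLib.Suzuki.grp (CfsgLib.Suzuki.theta F m)) := by
    ext d
    constructor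
    · rintro ⟨χ, rfl⟩
      exact ⟨_, CfsgLib.Chars.charDegree_irrEquiv e χ⟩
    · rintro ⟨χ, rfl⟩
      exact ⟨_, CfsgLib.Chars.charDegree_irrEquiv e.symm χ⟩
  obtain ⟨hclass, hex⟩ := CfsgLib.SuzukiDeg.degrees_spec (F := F) hm hF
  set s : ℕ := 2 ^ m with hs
  have hsZ : ((2 : ℤ) ^ m) = (s : ℤ) := by rw [hs]; push_cast; rfl
  obtain ⟨hs', hbZ, hprod, -, -, -, -, -⟩ := CfsgLib.SuzukiDeg.tori_arith hm hs
    (a := 2 * s ^ 2 + 2 * s + 1) (b := 2 * s ^ 2 + 1 - 2 * s) (q := 2 * s ^ 2) rfl rfl rfl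
  have hqs : q = 2 * s ^ 2 := by rw [hqm, hs]; ring
  subst hqs
  have h1 : 1 ≤ 2 * s ^ 2 := by
    have := Nat.one_le_pow 2 s (Nat.two_pow_pos m)
    omega
  simp only [CfsgLib.SuzukiDeg.Kindly, hsZ] at hex
  -- the degrees that occur
  have mem : ∀ {χ : Cfsg.IrrCharacter (CfsgLib.Suzuki.grp (CfsgLib.Suzuki.theta F m))} (d : ℕ),
      (Cfsg.charDegree (χ : CfsgLib.Suzuki.grp (CfsgLib.Suzuki.theta F m) → ℂ) : ℤ) = (d : ℤ) →
      d ∈ Cfsg.charDegrees S := fun {χ} d h => hdeg ▸ ⟨χ, by exact_mod_cast h⟩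
  have dQ : (2 * s ^ 2) ^ 2 ∈ Cfsg.charDegrees S := by
    obtain ⟨⟨χ, hχ⟩, -⟩ := hex 1 (by decide) (by decide)
    simp only [Matrix.cons_val] at hχ
    exact mem _ (by rw [hχ]; push_cast; rfl)
  have dS : (2 * s ^ 2) ^ 2 + 1 ∈ Cfsg.charDegrees S := by
    obtain ⟨⟨χ, hχ⟩, -⟩ := hex 2 (by decide) (by decide)
    simp only [Matrix.cons_val] at hχ
    exact mem _ (by rw [hχ]; push_cast; rfl)
  have dP : (2 * s ^ 2 - 1) * (2 * s ^ 2 + 2 * s + 1) ∈ Cfsg.charDegrees S := by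
    obtain ⟨⟨χ, hχ⟩, -⟩ := hex 3 (by decide) (by decide)
    simp only [Matrix.cons_val] at hχ
    exact mem _ (by rw [hχ, Nat.cast_mul, Nat.cast_sub h1]; push_cast; rfl)
  have dW : (2 * s ^ 2 - 1) * s ∈ Cfsg.charDegrees S := by
    obtain ⟨⟨χ, hχ⟩, -⟩ := hex 6 (by decide) (by decide)
    simp only [Matrix.cons_val] at hχ
    exact mem _ (by rw [hχ, Nat.cast_mul, Nat.cast_sub h1]; push_cast; rfl)
  obtain ⟨dM, hdM, hMdvd⟩ : ∃ d ∈ Cfsg.charDegrees S, (2 * s ^ 2 - 1) * (2 * s ^ 2 + 1 - 2 * s) ∣ d := by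
    obtain ⟨-, χ, hχ⟩ := hex 6 (by decide) (by decide)
    simp only [Matrix.cons_val] at hχ
    rcases hχ with hχ | ⟨hs2, hχ⟩
    · exact ⟨_, mem _ (by rw [hχ, Nat.cast_mul, Nat.cast_sub h1, hbZ]; push_cast; rfl), dvd_rfl⟩
    · have hs2' : s = 2 := by exact_mod_cast hs2
      exact ⟨105, mem _ (by rw [hχ]; rfl), by rw [hs2']; norm_num⟩
  have hdvd : ∀ d ∈ Cfsg.charDegrees S, d ∣ (2 * s ^ 2) ^ 2 * ((2 * s ^ 2) ^ 2 + 1) * (2 * s ^ 2 - 1) := by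
    rw [hdeg]
    rintro _ ⟨χ, rfl⟩
    have h := CfsgLib.Chars.charDegree_dvd_card χ
    rwa [CfsgLib.Suzuki.card_grp (CfsgLib.Suzuki.titsEndo_theta hm hF), Nat.card_eq_fintype_card, hq] at h
  have hprimes : ∀ r : ℕ, r.Prime → (r ∣ (2 * s ^ 2) ^ 2 * ((2 * s ^ 2) ^ 2 + 1) * (2 * s ^ 2 - 1) ↔
      (r = 2 ∨ r ∣ (2 * s ^ 2 - 1) * ((2 * s ^ 2) ^ 2 + 1))) := by
    intro r hr
    constructor
    · intro h
      rcases hr.dvd_mul.1 h with h | h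
      · rcases hr.dvd_mul.1 h with h | h
        · left
          have h' := hr.dvd_of_dvd_pow h
          rw [show 2 * s ^ 2 = 2 ^ (2 * m + 1) by rw [hs]; ring] at h'
          exact (Nat.prime_dvd_prime_iff_eq hr Nat.prime_two).1 (hr.dvd_of_dvd_pow h')
        · exact Or.inr (dvd_mul_of_dvd_right h _)
      · exact Or.inr (dvd_mul_of_dvd_left h _)
    · rintro (rfl | h)
      · exact dvd_mul_of_dvd_left (dvd_mul_of_dvd_left (dvd_pow (Dvd.intro _ rfl) two_ne_zero) _) _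
      · rw [mul_comm (2 * s ^ 2 - 1)] at h
        exact h.trans ⟨(2 * s ^ 2) ^ 2, by ring⟩
  have hsplit : ∀ r : ℕ, r.Prime → r ∣ (2 * s ^ 2 - 1) * ((2 * s ^ 2) ^ 2 + 1) →
      r ∣ 2 * s ^ 2 - 1 ∨ r ∣ 2 * s ^ 2 + 2 * s + 1 ∨ r ∣ 2 * s ^ 2 + 1 - 2 * s := by
    intro r hr h
    rw [← hprod] at h
    exact (hr.dvd_mul.1 h).imp id hr.dvd_mul.1
  have h2W : 2 ∣ (2 * s ^ 2 - 1) * s := dvd_mul_of_dvd_right (hs ▸ dvd_pow_self 2 (by omega)) _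
  refine ⟨Set.ext fun r => ⟨?_, ?_⟩, fun r r' => ⟨?_, ?_⟩⟩
  · rintro ⟨hr, d, hd, hrd⟩
    exact ⟨hr, (hprimes r hr).1 (hrd.trans (hdvd d hd))⟩
  · rintro ⟨hr, rfl | h⟩
    · exact ⟨hr, _, dQ, dvd_pow (Dvd.intro _ rfl) two_ne_zero⟩
    · rcases hr.dvd_mul.1 h with h | h
      · exact ⟨hr, _, dW, dvd_mul_of_dvd_left h _⟩
      · exact ⟨hr, _, dS, h⟩
  · rintro ⟨hne, hr, hr', d, hd, hdd⟩
    refine ⟨hne, hr, hr', ?_⟩
    have hrd := (dvd_mul_right r r').trans hdd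
    have hrd' := (dvd_mul_left r' r).trans hdd
    have hv := (hprimes r hr).1 (hrd.trans (hdvd d hd))
    have hv' := (hprimes r' hr').1 (hrd'.trans (hdvd d hd))
    rw [hdeg] at hd
    obtain ⟨χ, rfl⟩ := hd
    obtain ⟨i, hi⟩ := hclass χ
    rcases hv with rfl | hv
    · exact Or.inr (Or.inl ⟨rfl, even_degree hm hi hrd hr' (Ne.symm hne) hrd'⟩)
    · rcases hv' with rfl | hv'
      · exact Or.inr (Or.inr ⟨rfl, even_degree hm hi hrd' hr hne hrd⟩)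
      · exact Or.inl ⟨hv, hv'⟩
  · rintro ⟨hne, hr, hr', h⟩
    refine ⟨hne, hr, hr', ?_⟩
    have hco : Nat.Coprime r r' := (Nat.coprime_primes hr hr').2 hne
    have both : ∀ d ∈ Cfsg.charDegrees S, r ∣ d → r' ∣ d → ∃ d ∈ Cfsg.charDegrees S, r * r' ∣ d :=
      fun d hd a b => ⟨d, hd, hco.mul_dvd_of_dvd_of_dvd a b⟩
    rcases h with ⟨ha, hb⟩ | ⟨rfl, hb⟩ | ⟨rfl, ha⟩
    · rcases hsplit r hr ha with a | a | a <;> rcases hsplit r' hr' hb with b | b | b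
      · exact both _ dW (dvd_mul_of_dvd_left a _) (dvd_mul_of_dvd_left b _)
      · exact both _ dP (dvd_mul_of_dvd_left a _) (dvd_mul_of_dvd_right b _)
      · exact both _ hdM ((dvd_mul_of_dvd_left a _).trans hMdvd) ((dvd_mul_of_dvd_right b _).trans hMdvd)
      · exact both _ dP (dvd_mul_of_dvd_right a _) (dvd_mul_of_dvd_left b _)
      · exact both _ dS (hprod ▸ dvd_mul_of_dvd_left a _) (hprod ▸ dvd_mul_of_dvd_left b _)
      · exact both _ dS (hprod ▸ dvd_mul_of_dvd_left a _) (hprod ▸ dvd_mul_of_dvd_right b _)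
      · exact both _ hdM ((dvd_mul_of_dvd_right a _).trans hMdvd) ((dvd_mul_of_dvd_left b _).trans hMdvd)
      · exact both _ dS (hprod ▸ dvd_mul_of_dvd_right a _) (hprod ▸ dvd_mul_of_dvd_left b _)
      · exact both _ dS (hprod ▸ dvd_mul_of_dvd_right a _) (hprod ▸ dvd_mul_of_dvd_right b _)
    · exact both _ dW h2W (dvd_mul_of_dvd_left hb _)
    · exact both _ dW (dvd_mul_of_dvd_left ha _) h2W

end Cfsg.Agent.S4775
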