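import Cfsg.Statements.S4782
import Cfsg.Agent.Chars.Basic.Columns
import Cfsg.Agent.Chars.Basic.ClassSum
import Cfsg.Agent.Chars.Basic.Kernel
import Cfsg.Agent.Chars.Apps.RootSums
import Cfsg.Agent.Chars.Induced.Clifford
import Cfsg.Agent.Chars.Induced.Ito

set_option autoImplicit false
open Cfsg

namespace Cfsg.Agent.S4782

open CfsgLib.Chars CfsgLib.Chars.Induced

universe u

/-- A non-abelian simple group has at least three degree primes: otherwise the regular character at a
central element of a Sylow subgroup makes a prime divide one. -/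
theorem simple_false {G : Type u} [Group G] [Finite G] [IsSimpleGroup G] (hna : ¬ IsMulCommutative G)
    {p q : ℕ} [Fact p.Prime] (hq : q.Prime) (hpq : p ≠ q) (hp : p ∣ Nat.card G)
    (h : ∀ r ∈ Cfsg.degreePrimes G, r = p ∨ r = q) : False := by
  classical
  haveI : Fintype G := Fintype.ofFinite G
  obtain ⟨P⟩ : Nonempty (Sylow p G) := inferInstance
  haveI : Nontrivial (P : Subgroup G) :=
    (Subgroup.nontrivial_iff_ne_bot _).mpr (P.ne_bot_of_dvd_card hp)
  haveI : Nontrivial (Subgroup.center (P : Subgroup G)) := P.isPGroup'.center_nontrivial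
  obtain ⟨⟨z, hzc⟩, hzne⟩ := exists_ne (1 : Subgroup.center (P : Subgroup G))
  set x : G := (z : G) with hx
  have hx1 : x ≠ 1 := fun h => hzne (Subtype.ext (Subtype.ext h))
  have hPC : (P : Subgroup G) ≤ Subgroup.centralizer ({x} : Set G) := by
    intro y hy
    rw [Subgroup.mem_centralizer_singleton_iff]
    exact congrArg Subtype.val (Subgroup.mem_center_iff.mp hzc ⟨y, hy⟩)
  have hnp : ¬ p ∣ (Subgroup.centralizer ({x} : Set G)).index := fun hd =>
    P.not_dvd_index (hd.trans (Subgroup.index_dvd_of_le hPC))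
  have hcen : ∀ y : G, y ≠ 1 → ∃ g, g * y ≠ y * g := by
    intro y hy
    by_contra hall
    push Not at hall
    rcases (inferInstance : (Subgroup.center G).Normal).eq_bot_or_eq_top with hb | ht
    · exact hy (Subgroup.mem_bot.1 (hb ▸ Subgroup.mem_center_iff.2 hall))
    · exact hna ⟨⟨fun a b => (Subgroup.mem_center_iff.1 (ht ▸ Subgroup.mem_top a) b).symm⟩⟩
  let one : IrrCharacter G := ⟨fun _ => 1, isIrrCharacter_one⟩
  -- nonprincipal characters are faithful
  have hker : ∀ χ : IrrCharacter G, χ ≠ one → ∀ g, (χ : G → ℂ) g = (χ : G → ℂ) 1 → g = 1 := by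
    intro χ hχ g hg
    rcases (charKer_normal (f := (χ : G → ℂ)) (isClassFunction_coe χ)).eq_bot_or_eq_top with hb | ht
    · exact Subgroup.mem_bot.1 (hb ▸ (mem_charKer_iff (isCharacter_coe χ)).2 hg)
    · obtain ⟨n, ρ, hρ, hρχ⟩ := χ.2
      haveI : Nonempty G := ⟨1⟩
      have hconst : ∀ a, (χ : G → ℂ) a = (χ : G → ℂ) 1 := fun a =>
        map_eq_map_one_of_mem_charKer (ht ▸ Subgroup.mem_top a)
      have h1 := sum_mul_map_inv χ one
      rw [if_neg hχ] at h1
      simp only [one, hconst, Finset.sum_const, Finset.card_univ, nsmul_eq_mul, mul_one] at h1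
      exfalso
      rw [← coe_charDegree] at h1
      rcases mul_eq_zero.1 h1 with h2 | h2
      · exact Fintype.card_ne_zero (Nat.cast_eq_zero.1 h2)
      · exact (charDegree_pos χ).ne' (Nat.cast_eq_zero.1 h2)
  have hlin : ∀ χ : IrrCharacter G, χ ≠ one → charDegree (χ : G → ℂ) ≠ 1 := by
    intro χ hχ h1
    obtain ⟨l, hl⟩ := exists_monoidHom_of_map_one_eq_one (isCharacter_coe χ) ((charDegree_eq_one_iff χ).1 h1)
    obtain ⟨g, hg⟩ := hcen x hx1
    have hc : g * x * g⁻¹ * x⁻¹ = 1 := by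
      refine hker χ hχ _ ?_
      rw [hl _, hl 1]
      simp [map_mul, mul_comm, mul_left_comm]
    exact hg (mul_inv_eq_iff_eq_mul.1 (mul_inv_eq_one.1 hc))
  have hterm : ∀ χ : IrrCharacter G, χ ≠ one →
      ∃ a : ℂ, IsIntegral ℤ a ∧ (χ : G → ℂ) 1 * (χ : G → ℂ) x = q * a := by
    intro χ hχ
    set d := charDegree (χ : G → ℂ) with hd
    by_cases hqd : q ∣ d
    · obtain ⟨t, ht⟩ := hqd
      refine ⟨(t : ℂ) * (χ : G → ℂ) x, (isIntegral_algebraMap (x := (t : ℤ))).mul
        (isIntegral_apply (isCharacter_coe χ) x), ?_⟩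
      rw [← coe_charDegree, ← hd, ht, Nat.cast_mul, mul_assoc]
    refine ⟨0, isIntegral_zero, ?_⟩
    rw [mul_zero]
    refine mul_eq_zero_of_right _ ?_
    have hd0 : d ≠ 0 := (charDegree_pos χ).ne'
    have hdp : d = p ^ d.primeFactorsList.length :=
      Nat.eq_prime_pow_of_unique_prime_dvd hd0 fun {r} hr hrd =>
        (h r ⟨hr, d, ⟨χ, hd.symm⟩, hrd⟩).resolve_right fun e => hqd (e ▸ hrd)
    have hcop : (Subgroup.centralizer ({x} : Set G)).index.Coprime d := by
      rw [hdp]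
      exact Nat.Coprime.pow_right _ ((Nat.Prime.coprime_iff_not_dvd Fact.out).2 hnp).symm
    have hint : IsIntegral ℤ ((χ : G → ℂ) x / d) := by
      refine Apps.isIntegral_div_of_coprime (isIntegral_apply (isCharacter_coe χ) x) hcop ?_
      have h1 := isIntegral_centralChar χ x
      rwa [centralChar, ← coe_charDegree, ← hd] at h1
    obtain ⟨n, ρ, hρ, hρχ⟩ := χ.2
    have hn : d = n := charDegree_eq_of_map_one (by
      rw [← hρχ, Representation.char_one]; simp)
    rw [hn, ← hρχ] at hint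
    rcases Apps.char_eq_zero_or_norm_eq ρ x hint with h0 | hnorm
    · rwa [hρχ] at h0
    exfalso
    obtain ⟨c, hc⟩ := Apps.exists_smul_of_norm_char_eq ρ x hnorm
    obtain ⟨g, hg⟩ := hcen x hx1
    refine hg (mul_inv_eq_iff_eq_mul.1 (mul_inv_eq_one.1 (hker χ hχ (g * x * g⁻¹ * x⁻¹) ?_)))
    have e : ρ (g * x * g⁻¹ * x⁻¹) = 1 := by
      calc ρ (g * x * g⁻¹ * x⁻¹) = ρ g * ρ x * ρ g⁻¹ * ρ x⁻¹ := by rw [map_mul, map_mul, map_mul]
        _ = ρ x * (ρ g * ρ g⁻¹) * ρ x⁻¹ := by
          rw [show ρ g * ρ x = ρ x * ρ g by rw [hc, mul_smul_comm, mul_one, smul_mul_assoc, one_mul],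
            mul_assoc (ρ x)]
        _ = 1 := by rw [← map_mul, mul_inv_cancel, map_one, mul_one, ← map_mul, mul_inv_cancel, map_one]
    rw [← hρχ]
    simp [Representation.character, e]
  choose! a ha1 ha2 using hterm
  have hsum := sum_irr_map_one_mul x
  rw [if_neg hx1, ← Finset.add_sum_erase _ _ (Finset.mem_univ one),
    Finset.sum_congr rfl (fun χ hχ => ha2 χ (Finset.ne_of_mem_erase hχ)), ← Finset.mul_sum] at hsum
  have hq0 : (q : ℂ) ≠ 0 := Nat.cast_ne_zero.2 hq.ne_zero
  have hint : IsIntegral ℤ (((-1 : ℤ) : ℂ) / (q : ℂ) ^ 1) := by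
    have e : ((-1 : ℤ) : ℂ) / (q : ℂ) ^ 1 = ∑ χ ∈ Finset.univ.erase one, a χ := by
      rw [pow_one, div_eq_iff hq0]
      simp only [one, mul_one] at hsum ⊢
      push_cast
      linear_combination (-1 : ℂ) * hsum
    rw [e]
    exact IsIntegral.sum _ fun χ hχ => ha1 χ (Finset.ne_of_mem_erase hχ)
  obtain ⟨t, ht⟩ := Apps.exists_intCast_eq_of_isIntegral_div hint
  have ht' : (t : ℂ) * (q : ℂ) = ((-1 : ℤ) : ℂ) := by rw [ht, pow_one, div_mul_cancel₀ _ hq0]
  have h2 : t * (q : ℤ) = -1 := by exact_mod_cast ht'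
  have h3 : (q : ℤ) ∣ 1 := ⟨-t, by linarith⟩
  exact hq.one_lt.ne' (by exact_mod_cast Int.eq_one_of_dvd_one (by positivity) h3)

/-- The degree primes of a normal subgroup are degree primes. -/
theorem degreePrimes_subgroup {G : Type u} [Group G] [Finite G] (N : Subgroup G) [N.Normal] {r : ℕ}
    (hr : r ∈ Cfsg.degreePrimes N) : r ∈ Cfsg.degreePrimes G := by
  classical
  haveI : Fintype G := Fintype.ofFinite G
  haveI : Fintype N := Fintype.ofFinite N
  obtain ⟨hrp, d, ⟨θ, rfl⟩, hrd⟩ := hr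
  have hI := isCharacter_indFun N (isCharacter_coe θ)
  have hne : indFun N (θ : N → ℂ) ≠ 0 := by
    intro h0
    have h1 := congrFun h0 1
    rw [indFun_one_apply, Pi.zero_apply, ← coe_charDegree] at h1
    rcases mul_eq_zero.1 h1 with h2 | h2
    · first
        | exact Subgroup.index_ne_zero_of_finite (Nat.cast_eq_zero.1 h2)
        | exact (charDegree_pos θ).ne' (Nat.cast_eq_zero.1 h2)
    · first
        | exact (charDegree_pos θ).ne' (Nat.cast_eq_zero.1 h2)
        | exact Subgroup.index_ne_zero_of_finite (Nat.cast_eq_zero.1 h2)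
  obtain ⟨χ, hχ⟩ := exists_mult_ne_zero hI hne
  rw [mult_indFun_irr] at hχ
  have h1 := clifford_one χ θ hχ
  refine ⟨hrp, _, ⟨χ, rfl⟩, ?_⟩
  rw [← coe_charDegree, ← coe_charDegree, ← Nat.cast_mul, ← Nat.cast_mul, Nat.cast_inj] at h1
  rw [h1]
  exact Dvd.dvd.mul_left hrd _

/-- A group with at most two degree primes is solvable. -/
theorem solvable_of_two (p q : ℕ) : ∀ (n : ℕ) (G : Type u) [Group G] [Finite G], Nat.card G = n →
    (∀ r ∈ Cfsg.degreePrimes G, r = p ∨ r = q) → Group.IsSolvable G := by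
  intro n
  induction n using Nat.strong_induction_on with
  | _ n ih =>
  intro K _ _ hcard hK
  subst hcard
  by_cases hex : ∃ N : Subgroup K, N.Normal ∧ N ≠ ⊥ ∧ N ≠ ⊤
  · obtain ⟨N, hN, hb, ht⟩ := hex
    have hprod : Nat.card K = Nat.card (K ⧸ N) * Nat.card N := N.card_eq_card_quotient_mul_card_subgroup
    have h1 : 1 < Nat.card N := (Subgroup.one_lt_card_iff_ne_bot N).mpr hb
    have h2 : 1 < Nat.card (K ⧸ N) := by
      have h0 : N.index ≠ 1 := fun h => ht (Subgroup.index_eq_one.mp h)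
      have h0' : N.index ≠ 0 := N.index_ne_zero_of_finite
      rw [← Subgroup.index_eq_card]
      omega
    have hNs : Group.IsSolvable N := ih _ (by rw [hprod]; nlinarith) N rfl
      fun r hr => hK r (degreePrimes_subgroup N hr)
    have hQs : Group.IsSolvable (K ⧸ N) := ih _ (by rw [hprod]; nlinarith) (K ⧸ N) rfl
      fun r hr => hK r (by
        obtain ⟨hrp, d, ⟨θ, rfl⟩, hrd⟩ := hr
        exact ⟨hrp, _, ⟨inflate N θ, rfl⟩, hrd⟩)
    exact Group.isSolvable_of_ker_le_range N.subtype (QuotientGroup.mk' N)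
      (by rw [QuotientGroup.ker_mk', Subgroup.range_subtype])
  push Not at hex
  by_cases hab : IsMulCommutative K
  · exact Group.isSolvable_of_comm fun a b => mul_comm' a b
  exfalso
  haveI : Nontrivial K := by
    by_contra hn
    rw [not_nontrivial_iff_subsingleton] at hn
    exact hab ⟨⟨fun a b => Subsingleton.elim _ _⟩⟩
  haveI : IsSimpleGroup K := ⟨fun N hN => or_iff_not_imp_left.mpr fun hb => hex N hN hb⟩
  obtain ⟨p', hp', hpd', hsub⟩ : ∃ p' : ℕ, p'.Prime ∧ p' ∣ Nat.card K ∧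
      ∃ q' : ℕ, q'.Prime ∧ p' ≠ q' ∧ ∀ r ∈ Cfsg.degreePrimes K, r = p' ∨ r = q' := by
    obtain ⟨p', hp', hpd', hpmem⟩ : ∃ p' : ℕ, p'.Prime ∧ p' ∣ Nat.card K ∧
        ((Cfsg.degreePrimes K).Nonempty → p' ∈ Cfsg.degreePrimes K) := by
      rcases (Cfsg.degreePrimes K).eq_empty_or_nonempty with he | ⟨r, hr⟩
      · obtain ⟨r, hr, hrd⟩ := Nat.exists_prime_and_dvd (Finite.one_lt_card (α := K)).ne'
        exact ⟨r, hr, hrd, fun h => absurd h (by simp [he])⟩
      · obtain ⟨d, ⟨χ, rfl⟩, hrd⟩ := hr.2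
        exact ⟨r, hr.1, hrd.trans (charDegree_dvd_card χ), fun _ => hr⟩
    refine ⟨p', hp', hpd', ?_⟩
    by_cases hr : ∃ r ∈ Cfsg.degreePrimes K, r ≠ p'
    · obtain ⟨q', hq', hne⟩ := hr
      refine ⟨q', hq'.1, Ne.symm hne, fun r hr => ?_⟩
      rcases hK r hr with e1 | e1 <;> rcases hK q' hq' with e2 | e2 <;>
        rcases hK p' (hpmem ⟨q', hq'⟩) with e3 | e3 <;> omega
    · push Not at hr
      obtain ⟨q', hq'1, hq'2⟩ := Nat.exists_infinite_primes (p' + 1)
      exact ⟨q', hq'2, by omega, fun r h => Or.inl (hr r h)⟩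
  obtain ⟨q', hq', hne, hall⟩ := hsub
  haveI := Fact.mk hp'
  exact simple_false hab hq' hne hpd' hall

/-- If the finite group G is not solvable, then at least three distinct primes each divide some irreducible complex character degree of G. -/
theorem result {G : Type*} [Group G] [Finite G] (hG : ¬ Group.IsSolvable G) : ∃ p q r : ℕ, p ≠ q ∧ q ≠ r ∧ p ≠ r ∧ p ∈ Cfsg.degreePrimes G ∧ q ∈ Cfsg.degreePrimes G ∧ r ∈ Cfsg.degreePrimes G := by
  by_contra hne
  push Not at hne
  refine hG ?_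
  rcases (Cfsg.degreePrimes G).eq_empty_or_nonempty with he | ⟨p, hp⟩
  · exact solvable_of_two 2 3 _ G rfl fun r hr => absurd hr (by simp [he])
  by_cases hq : ∃ q ∈ Cfsg.degreePrimes G, q ≠ p
  · obtain ⟨q, hq, hqp⟩ := hq
    refine solvable_of_two p q _ G rfl fun r hr => ?_
    by_contra h
    push Not at h
    exact hne p q r hqp.symm (Ne.symm h.2) (Ne.symm h.1) hp hq hr
  · push Not at hq
    exact solvable_of_two p p _ G rfl fun r hr => Or.inl (hq r hr)

end Cfsg.Agent.S4782
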