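import Cfsg.Statements.S4784
import Cfsg.Agent.Chars.Basic.Kernel
import Cfsg.Agent.Chars.Induced.Rep
import Cfsg.Agent.Chars.FrobSchur.Count
import Cfsg.Agent.Chars.FrobSchur.General
import Mathlib.GroupTheory.Perm.Cycle.Type

set_option autoImplicit false
open Cfsg

namespace Cfsg.Agent.S4784

/-- Let H be a subgroup of the finite group G and consider the permutation character of G on the cosets of H (the function induced from the principal character of H). Then exactly one irreducible constituent of it is real-valued with Frobenius–Schur indicator +1 (namely the principal character) if and only if the normal core of H has odd index in G. -/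
theorem result {G : Type*} [Group G] [Fintype G] (H : Subgroup G) : Nat.card {χ : Cfsg.IrrCharacter G // Cfsg.classInner (Cfsg.indFun H (fun _ : H => (1 : ℂ))) (χ : G → ℂ) ≠ 0 ∧ (∀ g : G, (starRingEnd ℂ) ((χ : G → ℂ) g) = (χ : G → ℂ) g) ∧ (Nat.card G : ℂ)⁻¹ * ∑ g : G, (χ : G → ℂ) (g * g) = 1} = 1 ↔ Odd H.normalCore.index := by
  classical
  haveI := Fintype.ofFinite H
  set π := Cfsg.indFun H (fun _ : H => (1 : ℂ)) with hπdef
  have hπ : IsCharacter G π :=
    CfsgLib.Chars.Induced.isCharacter_indFun H CfsgLib.Chars.isCharacter_one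
  -- coefficient of the principal character
  have hone : classInner π (CfsgLib.Chars.oneChar G : G → ℂ) = 1 := by
    rw [hπdef, CfsgLib.Chars.Induced.classInner_indFun _ _ (CfsgLib.Chars.isClassFunction_coe _)]
    simp [classInner]
  have hmem1 : ∀ χ : IrrCharacter G, χ = CfsgLib.Chars.oneChar G →
      (classInner π (χ : G → ℂ) ≠ 0 ∧
      (∀ g : G, (starRingEnd ℂ) ((χ : G → ℂ) g) = (χ : G → ℂ) g) ∧
      (Nat.card G : ℂ)⁻¹ * ∑ g : G, (χ : G → ℂ) (g * g) = 1) := by
    rintro χ rfl
    refine ⟨by rw [hone]; exact one_ne_zero, fun g => by simp, ?_⟩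
    simp
  set K := H.normalCore with hK
  constructor
  · intro hcard
    rw [← Nat.not_even_iff_odd, even_iff_two_dvd]
    intro hdvd
    -- an involution in the quotient by the core gives a square in `H` outside `H`
    obtain ⟨t, htH, ht2⟩ : ∃ t : G, t ∉ H ∧ t * t ∈ H := by
      haveI : Fact (Nat.Prime 2) := ⟨Nat.prime_two⟩
      rw [K.index_eq_card] at hdvd
      obtain ⟨x, hx⟩ := exists_prime_orderOf_dvd_card' 2 hdvd
      obtain ⟨g, rfl⟩ := QuotientGroup.mk_surjective x
      have hsq : g * g ∈ K := by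
        rw [← QuotientGroup.eq_one_iff, QuotientGroup.mk_mul, ← pow_two, ← hx, pow_orderOf_eq_one]
      have hgK : g ∉ K := fun h => by
        rw [(QuotientGroup.eq_one_iff g).mpr h, orderOf_one] at hx
        exact absurd hx (by norm_num)
      have hnc : ¬ ∀ b : G, b * g * b⁻¹ ∈ H := hgK
      obtain ⟨b, hb⟩ := not_forall.mp hnc
      refine ⟨b * g * b⁻¹, hb, ?_⟩
      have := hsq b
      simpa [mul_assoc] using this
    -- the indicator of the permutation character exceeds one
    have hνH : (Nat.card H : ℂ) * CfsgLib.FrobSchur.indicator π =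
        (Nat.card {g : G // g * g ∈ H} : ℂ) := by
      have e : ∀ a : G, ∑ g : G, Cfsg.extendByZero H (fun _ : H => (1 : ℂ)) (a⁻¹ * (g * g) * a) =
          (Nat.card {g : G // g * g ∈ H} : ℂ) := fun a => by
        rw [Nat.card_eq_fintype_card, Fintype.card_subtype, ← Finset.sum_boole]
        refine Fintype.sum_equiv (MulAut.conj a⁻¹).toEquiv _ _ fun g => ?_
        simp only [MulEquiv.toEquiv_eq_coe, EquivLike.coe_coe, MulAut.conj_apply, inv_inv]
        rw [show a⁻¹ * g * a * (a⁻¹ * g * a) = a⁻¹ * (g * g) * a by group]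
        by_cases h : a⁻¹ * (g * g) * a ∈ H
        · rw [CfsgLib.Chars.Induced.extendByZero_mem _ h, if_pos h]
        · rw [CfsgLib.Chars.Induced.extendByZero_notMem _ h, if_neg h]
      simp only [CfsgLib.FrobSchur.indicator_def, hπdef, Cfsg.indFun, ← Finset.mul_sum]
      rw [Finset.sum_comm]
      simp only [e, Finset.sum_const, Finset.card_univ, nsmul_eq_mul, ← Nat.card_eq_fintype_card]
      field_simp [CfsgLib.Chars.natCard_ne_zero]
    have hlt : Nat.card H < Nat.card {g : G // g * g ∈ H} := by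
      rw [Nat.card_eq_fintype_card, Nat.card_eq_fintype_card, Fintype.card_subtype,
        Fintype.card_subtype]
      refine Finset.card_lt_card (Finset.ssubset_iff_of_subset ?_ |>.mpr ⟨t, by simpa using ht2,
        by simpa using htH⟩)
      intro g hg
      simp only [Finset.mem_filter, Finset.mem_univ, true_and] at hg ⊢
      exact H.mul_mem hg hg
    -- but only the principal character contributes positively
    obtain ⟨c, hc, hc'⟩ := CfsgLib.Chars.exists_nat_coeff hπ
    have hν : CfsgLib.FrobSchur.indicator π =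
        ∑ χ : IrrCharacter G, (c χ : ℂ) * CfsgLib.FrobSchur.indicator (χ : G → ℂ) := by
      conv_lhs => rw [hc]
      simp only [CfsgLib.FrobSchur.indicator_def, Finset.sum_apply, Pi.smul_apply, smul_eq_mul]
      rw [Finset.sum_comm, Finset.mul_sum]
      exact Finset.sum_congr rfl fun χ _ => by rw [← Finset.mul_sum]; ring
    have honly : ∀ χ : IrrCharacter G, (classInner π (χ : G → ℂ) ≠ 0 ∧
        (∀ g : G, (starRingEnd ℂ) ((χ : G → ℂ) g) = (χ : G → ℂ) g) ∧
        (Nat.card G : ℂ)⁻¹ * ∑ g : G, (χ : G → ℂ) (g * g) = 1) → χ = CfsgLib.Chars.oneChar G := by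
      intro χ hχ
      haveI := (Nat.card_eq_one_iff_unique.mp hcard).1
      exact congrArg Subtype.val (Subsingleton.elim
        (⟨χ, hχ⟩ : {χ : IrrCharacter G // classInner π (χ : G → ℂ) ≠ 0 ∧
          (∀ g : G, (starRingEnd ℂ) ((χ : G → ℂ) g) = (χ : G → ℂ) g) ∧
          (Nat.card G : ℂ)⁻¹ * ∑ g : G, (χ : G → ℂ) (g * g) = 1})
        ⟨CfsgLib.Chars.oneChar G, hmem1 _ rfl⟩)
    have hterm : ∀ χ ∈ Finset.univ.erase (CfsgLib.Chars.oneChar G),
        ((c χ : ℂ) * CfsgLib.FrobSchur.indicator (χ : G → ℂ)).re ≤ 0 := by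
      intro χ hχ
      obtain ⟨n, ρ, hρ, hρχ⟩ := χ.2
      have htri := CfsgLib.FrobSchur.rep_indicator_trichotomy ρ hρ
      rw [hρχ] at htri
      rcases htri.1 with h | h | h
      · simp [h]
      · rcases Nat.eq_zero_or_pos (c χ) with h0 | h0
        · simp [h0]
        · refine absurd (honly χ ⟨by rw [hc']; exact_mod_cast h0.ne', fun g => ?_,
            h⟩) (Finset.mem_erase.mp hχ).1
          have h00 : ¬ CfsgLib.FrobSchur.indicator (χ : G → ℂ) = 0 := by rw [h]; exact one_ne_zero
          rw [htri.2, not_exists] at h00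
          exact Complex.conj_eq_iff_im.mpr (not_not.mp (h00 g))
      · simp [h]
    have hle : (CfsgLib.FrobSchur.indicator π).re ≤ 1 := by
      have h1 : c (CfsgLib.Chars.oneChar G) = 1 := by
        have := (hc' (CfsgLib.Chars.oneChar G)).symm.trans hone
        exact_mod_cast this
      have hind1 : CfsgLib.FrobSchur.indicator (CfsgLib.Chars.oneChar G : G → ℂ) = 1 :=
        (hmem1 _ rfl).2.2
      rw [hν, ← Finset.add_sum_erase _ _ (Finset.mem_univ (CfsgLib.Chars.oneChar G)), h1, hind1,
        Complex.add_re, Complex.re_sum]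
      have := Finset.sum_nonpos hterm
      rw [Nat.cast_one, one_mul, Complex.one_re]
      linarith
    have hreal := congrArg Complex.re hνH
    rw [Complex.mul_re, Complex.natCast_re, Complex.natCast_im, zero_mul, sub_zero,
      Complex.natCast_re] at hreal
    have : (Nat.card H : ℝ) < (Nat.card {g : G // g * g ∈ H} : ℝ) := by exact_mod_cast hlt
    have : (0 : ℝ) ≤ Nat.card H := Nat.cast_nonneg _
    nlinarith
  · intro hodd
    rw [Nat.card_eq_one_iff_unique]
    refine ⟨⟨fun a b => Subtype.ext ?_⟩, ⟨⟨CfsgLib.Chars.oneChar G, hmem1 _ rfl⟩⟩⟩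
    suffices h : ∀ χ : IrrCharacter G, (classInner π (χ : G → ℂ) ≠ 0 ∧
        (∀ g : G, (starRingEnd ℂ) ((χ : G → ℂ) g) = (χ : G → ℂ) g) ∧
        (Nat.card G : ℂ)⁻¹ * ∑ g : G, (χ : G → ℂ) (g * g) = 1) → χ = CfsgLib.Chars.oneChar G from
      (h _ a.2).trans (h _ b.2).symm
    rintro χ ⟨hne, -, hind⟩
    -- the core lies in the kernel
    have hKχ : K ≤ CfsgLib.Chars.charKer (χ : G → ℂ) := by
      by_contra hK'
      apply hne
      haveI := Fintype.ofFinite K
      have hinv : ∀ (x : K) (g : G), π (g * x) = π g := fun x g => by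
        simp only [hπdef, Cfsg.indFun]
        congr 1
        refine Finset.sum_congr rfl fun a _ => ?_
        have hx : a⁻¹ * (x : G) * a⁻¹⁻¹ ∈ H := x.2 a⁻¹
        rw [inv_inv] at hx
        have : a⁻¹ * (g * x) * a = a⁻¹ * g * a * (a⁻¹ * x * a) := by group
        rw [this]
        by_cases h : a⁻¹ * g * a ∈ H
        · rw [CfsgLib.Chars.Induced.extendByZero_mem _ h,
            CfsgLib.Chars.Induced.extendByZero_mem _ (H.mul_mem h hx)]
        · rw [CfsgLib.Chars.Induced.extendByZero_notMem _ h,
            CfsgLib.Chars.Induced.extendByZero_notMem _ (fun h' => h ((H.mul_mem_cancel_right hx).mp h'))]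
      have hsum : (Nat.card K : ℂ) * ∑ g : G, π g * starRingEnd ℂ ((χ : G → ℂ) g) = 0 := by
        calc (Nat.card K : ℂ) * ∑ g : G, π g * starRingEnd ℂ ((χ : G → ℂ) g)
            = ∑ x : K, ∑ g : G, π g * starRingEnd ℂ ((χ : G → ℂ) g) := by
              rw [Finset.sum_const, nsmul_eq_mul, Finset.card_univ, Nat.card_eq_fintype_card]
          _ = ∑ x : K, ∑ g : G, π g * starRingEnd ℂ ((χ : G → ℂ) (g * x)) := by
              refine Finset.sum_congr rfl fun x _ => ?_
              refine (Fintype.sum_equiv (Equiv.mulRight (x : G)) _ _ fun g => ?_).symm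
              simp [hinv]
          _ = 0 := by
              rw [Finset.sum_comm]
              refine Finset.sum_eq_zero fun g _ => ?_
              rw [← Finset.mul_sum, ← map_sum,
                CfsgLib.Chars.sum_coset_eq_zero K χ hK' g, map_zero, mul_zero]
      rw [classInner]
      rw [(mul_eq_zero.mp hsum).resolve_left (Nat.cast_ne_zero.mpr Nat.card_pos.ne'), mul_zero]
    obtain ⟨ψ, rfl⟩ := CfsgLib.Chars.exists_inflate_eq K χ hKχ
    haveI := Fintype.ofFinite (G ⧸ K)
    have hindQ : CfsgLib.FrobSchur.indicator (ψ : G ⧸ K → ℂ) = 1 := by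
      rw [CfsgLib.FrobSchur.indicator_def, ← hind]
      have hmul : (Nat.card G : ℂ) = Nat.card K * Nat.card (G ⧸ K) := by
        rw [← Nat.cast_mul, ← K.index_eq_card, K.card_mul_index]
      have hfib : ∑ g : G, (CfsgLib.Chars.inflate K ψ : G → ℂ) (g * g) =
          (Nat.card K : ℂ) * ∑ q : G ⧸ K, (ψ : G ⧸ K → ℂ) (q * q) := by
        rw [← Finset.sum_fiberwise Finset.univ (fun g : G => (g : G ⧸ K)), Finset.mul_sum]
        refine Finset.sum_congr rfl fun q _ => ?_
        rw [Finset.sum_congr rfl (g := fun _ => (ψ : G ⧸ K → ℂ) (q * q)) (fun g hg => by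
          rw [CfsgLib.Chars.inflate_apply, QuotientGroup.mk_mul, (Finset.mem_filter.mp hg).2])]
        rw [Finset.sum_const, nsmul_eq_mul]
        congr 2
        obtain ⟨g₀, rfl⟩ := QuotientGroup.mk_surjective q
        rw [← Fintype.card_subtype, ← Nat.card_eq_fintype_card]
        refine Nat.card_congr
          { toFun := fun g => ⟨g₀⁻¹ * g.1, QuotientGroup.eq.mp g.2.symm⟩
            invFun := fun k => ⟨g₀ * k.1, QuotientGroup.mk_mul_of_mem g₀ k.2⟩
            left_inv := fun g => Subtype.ext (mul_inv_cancel_left _ _)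
            right_inv := fun k => Subtype.ext (inv_mul_cancel_left _ _) }
      rw [hfib, hmul, mul_inv]
      have h0 : (Nat.card K : ℂ) ≠ 0 := Nat.cast_ne_zero.mpr Nat.card_pos.ne'
      field_simp
    have hsq : ∀ q : G ⧸ K, CfsgLib.FrobSchur.sqrtCount q = 1 := by
      intro q
      have hbij : Function.Bijective (fun s : G ⧸ K => s ^ 2) :=
        (powCoprime (n := 2) (by
          rw [← K.index_eq_card]
          exact (Nat.coprime_two_right.mpr hodd))).bijective
      rw [CfsgLib.FrobSchur.sqrtCount_def, Nat.card_eq_one_iff_unique]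
      exact ⟨⟨fun a b => Subtype.ext (hbij.1 (by simp only [pow_two]; rw [a.2, b.2]))⟩,
        (hbij.2 q).elim fun s hs => ⟨⟨s, by rw [← pow_two]; exact hs⟩⟩⟩
    have hψ : ψ = CfsgLib.Chars.oneChar (G ⧸ K) := by
      by_contra hψ
      have h := CfsgLib.FrobSchur.classInner_sqrtCount ψ
      simp only [hsq, Nat.cast_one] at h
      rw [hindQ, show (fun _ : G ⧸ K => (1 : ℂ)) = (CfsgLib.Chars.oneChar (G ⧸ K) : G ⧸ K → ℂ) from
        funext fun _ => (CfsgLib.Chars.oneChar_apply _).symm,
        CfsgLib.Chars.classInner_of_ne (Ne.symm hψ)] at h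
      exact zero_ne_one h
    exact Subtype.ext (funext fun g => by simp [hψ])

end Cfsg.Agent.S4784
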