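import Cfsg.Statements.S4796
import Cfsg.Agent.Chars.Basic.Restrict
import Cfsg.Agent.Frobenius52.Count
import Mathlib.GroupTheory.SchurZassenhaus
import Cfsg.Agent.Eq.Def_Solvable

set_option autoImplicit false
open Cfsg

namespace Cfsg.Agent.S4796

/-- Let G be a finite group with a faithful irreducible complex character χ whose codegree #G / χ(1) is a prime p (for a faithful character the kernel is trivial, so the codegree is #G / χ(1)). Then either G is cyclic of order p, or G is a Frobenius group whose Frobenius kernel has order p: some proper non-trivial subgroup H satisfies H ∩ gHg⁻¹ = 1 for every element g outside H, and the set of elements lying in no conjugate of H, together with the identity, has exactly p elements. -/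
theorem result {G : Type*} [Group G] [Finite G] (χ : Cfsg.IrrCharacter G) (hfaith : ∀ g : G, (χ : G → ℂ) g = (χ : G → ℂ) 1 → g = 1) (p : ℕ) (hp : p.Prime) (hcod : Nat.card G = p * Cfsg.charDegree (χ : G → ℂ)) : (IsCyclic G ∧ Nat.card G = p) ∨ ∃ H : Subgroup G, Cfsg.IsFrobeniusComplement H ∧ Nat.card ↥(Cfsg.frobeniusKernel H) = p := by
  classical
  haveI := Fintype.ofFinite G
  haveI : Fact p.Prime := ⟨hp⟩
  set d := Cfsg.charDegree (χ : G → ℂ) with hd
  have hd0 : 0 < d := CfsgLib.Chars.charDegree_pos χ
  by_cases hd1 : d = 1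
  · rw [hd1, mul_one] at hcod
    exact Or.inl ⟨isCyclic_of_prime_card hcod, hcod⟩
  right
  have hne : χ ≠ CfsgLib.Chars.oneChar G := fun h => hd1 (by
    rw [hd, h]; exact CfsgLib.Chars.charDegree_linChar 1)
  have hlt : d < p := by
    have h2 : Cfsg.charDegree (CfsgLib.Chars.oneChar G : G → ℂ) ^ 2 + d ^ 2 ≤ Nat.card G := by
      rw [← CfsgLib.Chars.sum_charDegree_sq (G := G), hd, ← Finset.sum_pair (f :=
        fun ψ : IrrCharacter G => Cfsg.charDegree (ψ : G → ℂ) ^ 2) hne.symm]
      exact Finset.sum_le_sum_of_subset (Finset.subset_univ _)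
    rw [hcod, show Cfsg.charDegree (CfsgLib.Chars.oneChar G : G → ℂ) = 1 from
      CfsgLib.Chars.charDegree_linChar 1] at h2
    nlinarith
  have hndvd : ¬ p ∣ d := fun h => absurd (Nat.le_of_dvd hd0 h) (not_le.mpr hlt)
  obtain ⟨P⟩ : Nonempty (Sylow p G) := inferInstance
  have hPcard : Nat.card P = p := by
    rw [P.card_eq_multiplicity, hcod, Nat.factorization_mul hp.ne_zero hd0.ne',
      Finsupp.add_apply, hp.factorization_self, Nat.factorization_eq_zero_of_not_dvd hndvd,
      pow_one]
  have hPidx : (P : Subgroup G).index = d := by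
    have := (P : Subgroup G).index_mul_card
    rw [hPcard, hcod, mul_comm] at this
    exact Nat.eq_of_mul_eq_mul_left hp.pos this
  haveI hPn : (P : Subgroup G).Normal := by
    have hle : Nat.card (Sylow p G) ≤ d := Nat.le_of_dvd hd0 (hPidx ▸ P.card_dvd_index)
    have hmod := card_sylow_modEq_one p G
    rw [Nat.ModEq, Nat.mod_eq_of_lt (lt_of_le_of_lt hle hlt), Nat.mod_eq_of_lt hp.one_lt] at hmod
    have h1 := P.card_eq_index_normalizer
    rw [hmod] at h1
    exact Subgroup.normalizer_eq_top_iff.mp (Subgroup.index_eq_one.mp h1.symm)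
  haveI : IsCyclic (P : Subgroup G) := isCyclic_of_prime_card hPcard
  set C := Subgroup.centralizer ((P : Subgroup G) : Set G) with hCdef
  have hPleC : (P : Subgroup G) ≤ C := fun x hx => Subgroup.mem_centralizer_iff.mpr fun y hy =>
    congrArg Subtype.val (mul_comm' (⟨y, hy⟩ : (P : Subgroup G)) ⟨x, hx⟩)
  -- the centralizer of `P` is `P`
  have hCP : C = (P : Subgroup G) := by
    set m := (P : Subgroup G).relIndex C with hm
    have hde : d = m * C.index := by rw [← hPidx, ← Subgroup.relIndex_mul_index hPleC]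
    have hbound : ∀ θ : IrrCharacter C, Cfsg.charDegree (θ : C → ℂ) ^ 2 ≤ m := fun θ => by
      refine (CfsgLib.Chars.charDegree_sq_le_index_center θ).trans ?_
      have hle : (P : Subgroup G).subgroupOf C ≤ Subgroup.center C := fun x hx =>
        Subgroup.mem_center_iff.mpr fun y => Subtype.ext
          ((Subgroup.mem_centralizer_iff.mp y.2 x (Subgroup.mem_subgroupOf.mp hx)).symm)
      exact Nat.le_of_dvd (Nat.pos_of_ne_zero Subgroup.index_ne_zero_of_finite)
        (Subgroup.index_dvd_of_le hle)
    have h := CfsgLib.Chars.charDegree_sq_le_index_mul χ C hbound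
    rw [← hd, hde] at h
    have he0 : 0 < C.index := Nat.pos_of_ne_zero Subgroup.index_ne_zero_of_finite
    have hm0 : 0 < m := by
      rw [hde] at hd0
      exact Nat.pos_of_mul_pos_right hd0
    have : m ≤ 1 := by
      by_contra! hm1
      have h2 : C.index ^ 2 * (m * m) ≤ C.index ^ 2 * m := by nlinarith [h]
      have := Nat.le_of_mul_le_mul_left h2 (by positivity)
      nlinarith
    refine le_antisymm ?_ hPleC
    rw [← Subgroup.relIndex_eq_one]
    omega
  obtain ⟨H, hH⟩ := Subgroup.exists_right_complement'_of_coprime (N := (P : Subgroup G))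
    (by rw [hPcard, hPidx]; exact hp.coprime_iff_not_dvd.mpr hndvd)
  have hHcard : Nat.card H = d := by rw [← hPidx, Subgroup.IsComplement'.index_eq_card hH.symm]
  have hHidx : H.index = p := by rw [hH.index_eq_card, hPcard]
  have hfrob : Cfsg.IsFrobeniusComplement H := by
    refine ⟨fun h => hd1 (by rw [← hHcard, h, Subgroup.card_bot]),
      fun h => hp.ne_one (by rw [← hHidx, h, Subgroup.index_top]), fun g hg => ?_⟩
    obtain ⟨⟨⟨x, hx⟩, ⟨k, hk⟩⟩, hxk⟩ := hH.2 g
    change x * k = g at hxk
    subst hxk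
    rw [Subgroup.eq_bot_iff_forall]
    rintro y ⟨hyH, ⟨z, hz, hzy⟩⟩
    simp only [MulDistribMulAction.toMonoidEnd_apply, MulDistribMulAction.toMonoidHom_apply,
      MulAut.smul_def, MulAut.conj_apply] at hzy
    set w := k * z * k⁻¹ with hw
    have hwH : w ∈ H := H.mul_mem (H.mul_mem hk hz) (H.inv_mem hk)
    have hyw : y = x * w * x⁻¹ := by rw [hw, ← hzy]; group
    have hmem : y * w⁻¹ ∈ (P : Subgroup G) := by
      rw [hyw, show x * w * x⁻¹ * w⁻¹ = x * (w * x⁻¹ * w⁻¹) by group]
      exact (P : Subgroup G).mul_mem hx (hPn.conj_mem _ ((P : Subgroup G).inv_mem hx) w)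
    have hyw' : y = w := by
      rw [← mul_inv_eq_one]
      exact (Subgroup.disjoint_def.mp hH.disjoint) hmem (H.mul_mem hyH (H.inv_mem hwH))
    have hxw : x * w = w * x := by
      rw [hyw'] at hyw
      calc x * w = x * w * x⁻¹ * x := by group
        _ = w * x := by rw [← hyw]
    have hx1 : x ≠ 1 := fun h => hg (by rw [h, one_mul]; exact hk)
    have hwC : w ∈ C := Subgroup.mem_centralizer_iff.mpr fun v hv => by
      obtain ⟨n, hn⟩ := mem_zpowers_of_prime_card hPcard (g := (⟨x, hx⟩ : (P : Subgroup G)))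
        (g' := ⟨v, hv⟩) (fun h => hx1 (congrArg Subtype.val h))
      have hv' : x ^ n = v := congrArg Subtype.val hn
      rw [← hv']
      exact ((show Commute x w from hxw).zpow_left n).eq
    rw [hCP] at hwC
    rw [hyw']
    exact (Subgroup.disjoint_def.mp hH.disjoint) hwC hwH
  refine ⟨H, hfrob, ?_⟩
  rw [Nat.card_coe_set_eq, CfsgLib.Frobenius.Count.ncard_frobeniusKernel hfrob, hHidx]

end Cfsg.Agent.S4796
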