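import Cfsg.Statements.S4797
import Cfsg.Agent.Chars.Basic.Codegree
import Cfsg.Agent.Chars.Basic.Linear
import Mathlib.GroupTheory.SpecificGroups.Cyclic

set_option autoImplicit false
open Cfsg

namespace Cfsg.Agent.S4797

/-- A perfect group has no faithful-degree situation `|Q| = p * d` with `d ≠ 1` a degree. -/
theorem perfect_no_prime {Q : Type*} [Group Q] [Finite Q] (p : ℕ) [Fact p.Prime]
    (hperf : commutator Q = ⊤) (ψ : Cfsg.IrrCharacter Q)
    (hd1 : Cfsg.charDegree (ψ : Q → ℂ) ≠ 1)
    (hcard : Nat.card Q = p * Cfsg.charDegree (ψ : Q → ℂ)) : False := by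
  classical
  haveI := Fintype.ofFinite Q
  set d := Cfsg.charDegree (ψ : Q → ℂ) with hddef
  have hd0 : 0 < d := CfsgLib.Chars.charDegree_pos ψ
  have hp : p.Prime := Fact.out
  have hne : ψ ≠ CfsgLib.Chars.oneChar Q := fun h => hd1 (by
    rw [hddef, h]; exact CfsgLib.Chars.charDegree_linChar 1)
  have hsq := CfsgLib.Chars.sum_charDegree_sq (G := Q)
  have hlt : d < p := by
    have h2 : Cfsg.charDegree (CfsgLib.Chars.oneChar Q : Q → ℂ) ^ 2 + d ^ 2 ≤ Nat.card Q := by
      rw [← hsq, hddef, ← Finset.sum_pair (f := fun χ : IrrCharacter Q =>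
        Cfsg.charDegree (χ : Q → ℂ) ^ 2) hne.symm]
      exact Finset.sum_le_sum_of_subset (Finset.subset_univ _)
    rw [hcard, show Cfsg.charDegree (CfsgLib.Chars.oneChar Q : Q → ℂ) = 1 from
      CfsgLib.Chars.charDegree_linChar 1] at h2
    nlinarith
  obtain ⟨P⟩ : Nonempty (Sylow p Q) := inferInstance
  have hndvd : ¬ p ∣ d := fun h => absurd (Nat.le_of_dvd hd0 h) (not_le.mpr hlt)
  have hPcard : Nat.card P = p := by
    rw [P.card_eq_multiplicity, hcard, Nat.factorization_mul hp.ne_zero hd0.ne',
      Finsupp.add_apply, hp.factorization_self, Nat.factorization_eq_zero_of_not_dvd hndvd,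
      pow_one]
  have hPidx : (P : Subgroup Q).index = d := by
    have := (P : Subgroup Q).index_mul_card
    rw [hPcard, hcard, mul_comm] at this
    exact Nat.eq_of_mul_eq_mul_left hp.pos this
  have hn1 : Nat.card (Sylow p Q) = 1 := by
    have hle : Nat.card (Sylow p Q) ≤ d := Nat.le_of_dvd hd0 (hPidx ▸ P.card_dvd_index)
    have hmod := card_sylow_modEq_one p Q
    rw [Nat.ModEq, Nat.mod_eq_of_lt (lt_of_le_of_lt hle hlt), Nat.mod_eq_of_lt hp.one_lt] at hmod
    exact hmod
  haveI : (P : Subgroup Q).Normal := by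
    have h1 := P.card_eq_index_normalizer
    rw [hn1] at h1
    exact Subgroup.normalizer_eq_top_iff.mp (Subgroup.index_eq_one.mp h1.symm)
  haveI : IsCyclic (P : Subgroup Q) := isCyclic_of_prime_card hPcard
  have hcent : (P : Subgroup Q) ≤ Subgroup.center Q := by
    set φ : Q →* MulAut (P : Subgroup Q) := MulAut.conjNormal
    have hker : commutator Q ≤ φ.ker := by
      rw [commutator_def, Subgroup.commutator_le]
      intro a _ b _
      rw [MonoidHom.mem_ker, map_commutatorElement, commutatorElement_eq_one_iff_mul_comm]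
      let e := IsCyclic.mulAutMulEquiv (P : Subgroup Q)
      exact e.injective ((map_mul _ _ _).trans ((mul_comm _ _).trans (map_mul _ _ _).symm))
    intro x hx
    rw [Subgroup.mem_center_iff]
    intro g
    have hg : φ g = 1 := MonoidHom.mem_ker.mp (hker (hperf ▸ Subgroup.mem_top g))
    have h2 := congrArg (fun f : MulAut (P : Subgroup Q) => ((f ⟨x, hx⟩ : (P : Subgroup Q)) : Q)) hg
    simp [φ, MulAut.conjNormal_apply] at h2
    exact mul_inv_eq_iff_eq_mul.mp h2
  have hle2 : d ^ 2 ≤ d := by
    refine (CfsgLib.Chars.charDegree_sq_le_index_center ψ).trans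
      ((Nat.le_of_dvd ?_ (Subgroup.index_dvd_of_le hcent)).trans_eq hPidx)
    rw [hPidx]; exact hd0
  have : 2 ≤ d := by omega
  nlinarith


/-- The codegree of an irreducible complex character χ of a finite group G is [G : ker χ] / χ(1), where ker χ is the set of elements at which χ takes the value χ(1). A non-trivial finite group is perfect if and only if no irreducible complex character of it has prime codegree. -/
theorem result {G : Type*} [Group G] [Finite G] [Nontrivial G] : commutator G = ⊤ ↔ ∀ χ : Cfsg.IrrCharacter G, ¬ ((Nat.card G / (Nat.card {g : G // (χ : G → ℂ) g = (χ : G → ℂ) 1} * Cfsg.charDegree (χ : G → ℂ)))).Prime := by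
  constructor
  · intro hperf χ hpr
    classical
    set K := CfsgLib.Chars.charKer (χ : G → ℂ) with hKdef
    have hmul := CfsgLib.Chars.codegree_mul_charDegree χ
    generalize hP : Nat.card G / (Nat.card {g : G // (χ : G → ℂ) g = (χ : G → ℂ) 1} *
      Cfsg.charDegree (χ : G → ℂ)) = p at hpr hmul
    have hd0 := CfsgLib.Chars.charDegree_pos χ
    have hd1 : Cfsg.charDegree (χ : G → ℂ) ≠ 1 := fun h1 => by
      have := (CfsgLib.Chars.commutator_le_charKer_iff χ).mpr
        ((CfsgLib.Chars.charDegree_eq_one_iff χ).mp h1)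
      rw [hperf, top_le_iff] at this
      rw [this, Subgroup.index_top, h1, mul_one] at hmul
      exact hpr.ne_one hmul
    haveI : Fact p.Prime := ⟨hpr⟩
    -- in the quotient by the kernel
    obtain ⟨ψ, hψ⟩ := CfsgLib.Chars.exists_inflate_eq K χ le_rfl
    have hcard : Nat.card (G ⧸ K) = p * Cfsg.charDegree (χ : G → ℂ) := by
      rw [← K.index_eq_card, ← hmul]
    have hperfQ : commutator (G ⧸ K) = ⊤ := by
      rw [commutator_def, ← Subgroup.map_top_of_surjective (QuotientGroup.mk' K)
        (QuotientGroup.mk'_surjective K), ← Subgroup.map_commutator, ← commutator_def, hperf]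
    have hψd : Cfsg.charDegree (ψ : G ⧸ K → ℂ) = Cfsg.charDegree (χ : G → ℂ) :=
      (CfsgLib.Chars.charDegree_inflate K ψ).symm.trans
        (congrArg (fun φ : IrrCharacter G => Cfsg.charDegree (φ : G → ℂ)) hψ)
    exact perfect_no_prime p hperfQ ψ (hψd ▸ hd1) (hψd ▸ hcard)
  · intro H
    by_contra hne
    obtain ⟨l, hl⟩ := CfsgLib.Chars.exists_nontrivial_linChar hne
    have hne1 : Nat.card (G →* ℂˣ) ≠ 1 := by
      intro h1
      haveI := (Nat.card_eq_one_iff_unique.mp h1).1
      exact hl (Subsingleton.elim _ _)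
    obtain ⟨q, hq, hqn⟩ := Nat.exists_prime_and_dvd hne1
    haveI : Fact q.Prime := ⟨hq⟩
    obtain ⟨m, hm⟩ := exists_prime_orderOf_dvd_card' q hqn
    have hmq : m ≠ 1 := fun h => by
      rw [h, orderOf_one] at hm
      exact hq.ne_one hm.symm
    haveI : NeZero q := ⟨hq.ne_zero⟩
    have hrange : m.range ≤ rootsOfUnity q ℂ := by
      rintro _ ⟨g, rfl⟩
      rw [mem_rootsOfUnity]
      have := map_pow (MonoidHom.eval g : (G →* ℂˣ) →* ℂˣ) m q
      rw [← hm, pow_orderOf_eq_one, map_one, hm] at this
      exact this.symm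
    have hidx : (CfsgLib.Chars.charKer (CfsgLib.Chars.linChar m : G → ℂ)).index = q := by
      have hker : CfsgLib.Chars.charKer (CfsgLib.Chars.linChar m : G → ℂ) = m.ker := by
        ext g
        rw [CfsgLib.Chars.mem_charKer_iff (CfsgLib.Chars.isCharacter_coe _), MonoidHom.mem_ker]
        simp
      rw [hker, Subgroup.index_ker]
      rcases hq.eq_one_or_self_of_dvd _ ((Subgroup.card_dvd_of_le hrange).trans
        (dvd_of_eq (HasEnoughRootsOfUnity.natCard_rootsOfUnity ℂ q))) with h1 | h1
      · exact absurd (MonoidHom.range_eq_bot_iff.mp (Subgroup.card_eq_one.mp h1)) hmq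
      · exact h1
    have := H (CfsgLib.Chars.linChar m)
    rw [CfsgLib.Chars.codegree_eq, hidx, CfsgLib.Chars.charDegree_linChar, Nat.div_one] at this
    exact this hq

end Cfsg.Agent.S4797
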