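import Cfsg.Statements.S4798
import Cfsg.Agent.Chars.Basic.ClassSum
import Cfsg.Agent.Chars.Induced.Rep
import Mathlib.GroupTheory.Sylow

set_option autoImplicit false
open Cfsg

namespace Cfsg.Agent.S4798

/-- Let p be a prime and χ a faithful irreducible complex character of the finite group G (χ(g) = χ(1) only for g = 1), so that its codegree is #G / χ(1). Then #G / χ(1) is a power of p if and only if χ is induced from a character of a Sylow p-subgroup of G. -/
theorem result {G : Type*} [Group G] [Fintype G] (p : ℕ) [Fact p.Prime] (χ : Cfsg.IrrCharacter G) (hfaith : ∀ g : G, (χ : G → ℂ) g = (χ : G → ℂ) 1 → g = 1) : (∃ k : ℕ, Nat.card G = p ^ k * Cfsg.charDegree (χ : G → ℂ)) ↔ ∃ (P : Sylow p G) (θ : ↥(P : Subgroup G) → ℂ), Cfsg.IsCharacter ↥(P : Subgroup G) θ ∧ (χ : G → ℂ) = Cfsg.indFun (P : Subgroup G) θ := by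
  classical
  obtain ⟨P⟩ : Nonempty (Sylow p G) := inferInstance
  have hp : p.Prime := Fact.out
  set r := (P : Subgroup G).index with hr
  have hr0 : 0 < r := Nat.pos_of_ne_zero Subgroup.index_ne_zero_of_finite
  set d := Cfsg.charDegree (χ : G → ℂ) with hd
  have hd0 : 0 < d := CfsgLib.Chars.charDegree_pos χ
  have hG : r * Nat.card P = Nat.card G := (P : Subgroup G).index_mul_card
  obtain ⟨a, ha⟩ := P.2.exists_card_eq
  have hrp : ¬ p ∣ r := P.not_dvd_index
  constructor
  · rintro ⟨k, hk⟩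
    have hrd : r ∣ d := ((hp.coprime_iff_not_dvd.mpr hrp).symm.pow_right k).dvd_of_dvd_mul_left
      (hk ▸ ⟨Nat.card P, hG.symm⟩)
    obtain ⟨e, he⟩ := hrd
    obtain ⟨i, hi, rfl⟩ : ∃ i ≤ a, e = p ^ i := by
      refine (Nat.dvd_prime_pow hp).mp ⟨p ^ k, ?_⟩
      rw [← ha]
      rw [he, ← hG, mul_left_comm] at hk
      rw [Nat.eq_of_mul_eq_mul_left hr0 hk, mul_comm]
    haveI := Fintype.ofFinite (P : Subgroup G)
    obtain ⟨c, hc, hc'⟩ := CfsgLib.Chars.exists_nat_coeff
      (CfsgLib.Chars.isCharacter_restrict (CfsgLib.Chars.isCharacter_coe χ) (P : Subgroup G))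
    have hdsum : d = ∑ θ : IrrCharacter (P : Subgroup G),
        c θ * Cfsg.charDegree (θ : ↥(P : Subgroup G) → ℂ) := by
      have h1 := congrFun hc 1
      simp only [OneMemClass.coe_one, Finset.sum_apply, Pi.smul_apply, smul_eq_mul,
        ← CfsgLib.Chars.coe_charDegree] at h1
      exact_mod_cast h1
    obtain ⟨θ, hθc, hθ⟩ : ∃ θ : IrrCharacter (P : Subgroup G), c θ ≠ 0 ∧
        Cfsg.charDegree (θ : ↥(P : Subgroup G) → ℂ) ≤ p ^ i := by
      by_contra! hall
      apply hrp
      have hdvd : p ^ (i + 1) ∣ d := by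
        rw [hdsum]
        refine Finset.dvd_sum fun θ _ => ?_
        by_cases h0 : c θ = 0
        · simp [h0]
        · have hθd := CfsgLib.Chars.charDegree_dvd_card θ
          rw [ha, Nat.dvd_prime_pow hp] at hθd
          obtain ⟨j, -, hj⟩ := hθd
          have hlt := hall θ h0
          rw [hj, Nat.pow_lt_pow_iff_right hp.one_lt] at hlt
          exact Dvd.dvd.mul_left (hj ▸ Nat.pow_dvd_pow p hlt) _
      rw [he, pow_succ', mul_comm r (p ^ i), mul_comm p] at hdvd
      exact Nat.dvd_of_mul_dvd_mul_left (pow_pos hp.pos i) hdvd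
    have hψ : IsCharacter G (indFun (P : Subgroup G) (θ : ↥(P : Subgroup G) → ℂ)) :=
      CfsgLib.Chars.Induced.isCharacter_indFun (P : Subgroup G) (CfsgLib.Chars.isCharacter_coe θ)
    have hne : classInner (indFun (P : Subgroup G) (θ : ↥(P : Subgroup G) → ℂ)) (χ : G → ℂ) ≠ 0 := by
      rw [CfsgLib.Chars.Induced.classInner_indFun _ _ (CfsgLib.Chars.isClassFunction_coe χ),
        ← CfsgLib.Chars.classInner_conj_symm, hc', map_natCast]
      exact_mod_cast hθc
    obtain ⟨φ, hφ, hsum⟩ := CfsgLib.Chars.exists_add_of_classInner_ne_zero hψ χ hne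
    refine ⟨P, θ, CfsgLib.Chars.isCharacter_coe θ, ?_⟩
    obtain ⟨m, hm⟩ := CfsgLib.Chars.exists_natCast_map_one hφ
    have h1 := congrFun hsum 1
    rw [CfsgLib.Chars.Induced.indFun_one_apply, Pi.add_apply, hm, ← CfsgLib.Chars.coe_charDegree,
      ← CfsgLib.Chars.coe_charDegree, ← hr, ← hd] at h1
    have h1' : r * Cfsg.charDegree (θ : ↥(P : Subgroup G) → ℂ) = d + m := by exact_mod_cast h1
    have hm0 : m = 0 := by
      have := Nat.mul_le_mul_left r hθ
      omega
    rw [hsum, CfsgLib.Chars.eq_zero_of_map_one_eq_zero hφ (by rw [hm, hm0, Nat.cast_zero]),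
      add_zero]
  · rintro ⟨Q, θ, hθ, hχ⟩
    obtain ⟨m, hm⟩ := CfsgLib.Chars.exists_natCast_map_one hθ
    have h1 := congrFun hχ 1
    rw [CfsgLib.Chars.Induced.indFun_one_apply, hm, ← CfsgLib.Chars.coe_charDegree] at h1
    have hdm : d = (Q : Subgroup G).index * m := by exact_mod_cast h1
    obtain ⟨b, hb⟩ := Q.2.exists_card_eq
    have hQ : (Q : Subgroup G).index * Nat.card Q = Nat.card G := (Q : Subgroup G).index_mul_card
    have hdvd : m ∣ p ^ b := by
      have := CfsgLib.Chars.charDegree_dvd_card χ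
      rw [← hd, hdm, ← hQ, hb] at this
      exact Nat.dvd_of_mul_dvd_mul_left
        (Nat.pos_of_ne_zero Subgroup.index_ne_zero_of_finite) this
    obtain ⟨j, hj, rfl⟩ := (Nat.dvd_prime_pow hp).mp hdvd
    refine ⟨b - j, ?_⟩
    rw [hdm, ← hQ, hb, mul_left_comm, ← pow_add, Nat.sub_add_cancel hj]

end Cfsg.Agent.S4798
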