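import Cfsg.Statements.S4801
import Cfsg.Agent.Chars.Basic.Codegree
import Cfsg.Agent.Chars.Basic.Linear

set_option autoImplicit false
open Cfsg

namespace Cfsg.Agent.S4801

/-- The codegree of an irreducible complex character χ of a finite group G is [G : ker χ] / χ(1), where ker χ is the set of elements at which χ takes the value χ(1). Let S be a finite simple group and G a finite group such that every codegree of an irreducible character of S is a codegree of an irreducible character of G. Then the order of S divides the order of G. -/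
theorem result {S : Type*} [Group S] [Finite S] (hS : IsSimpleGroup S) {G : Type*} [Group G] [Finite G] (hsub : ∀ χ : Cfsg.IrrCharacter S, ∃ ψ : Cfsg.IrrCharacter G, (Nat.card S / (Nat.card {g : S // (χ : S → ℂ) g = (χ : S → ℂ) 1} * Cfsg.charDegree (χ : S → ℂ))) = (Nat.card G / (Nat.card {g : G // (ψ : G → ℂ) g = (ψ : G → ℂ) 1} * Cfsg.charDegree (ψ : G → ℂ)))) : Nat.card S ∣ Nat.card G := by
  rw [← Nat.factorization_le_iff_dvd Nat.card_pos.ne' Nat.card_pos.ne']
  intro p
  by_cases hp : p.Prime ∧ p ∣ Nat.card S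
  swap
  · rcases not_and_or.mp hp with h | h
    · simp [Nat.factorization_eq_zero_of_not_prime _ h]
    · simp [Nat.factorization_eq_zero_of_not_dvd h]
  obtain ⟨hp, hpS⟩ := hp
  obtain ⟨χ, hχ, hd⟩ := CfsgLib.Chars.exists_not_dvd_charDegree_of_not_dvd_index (⊤ : Subgroup S) hpS
    (by simpa using hp.ne_one)
  have hker : CfsgLib.Chars.charKer (χ : S → ℂ) = ⊥ :=
    (hS.eq_bot_or_eq_top_of_normal _ inferInstance).resolve_right fun h => hχ h.ge
  obtain ⟨ψ, hψ⟩ := hsub χ
  have hmul := CfsgLib.Chars.codegree_mul_charDegree χ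
  rw [hψ, hker, Subgroup.index_bot] at hmul
  have hdvd := CfsgLib.Chars.codegree_dvd_card ψ
  have hpow : p ^ (Nat.card S).factorization p ∣
      Nat.card G / (Nat.card {g : G // (ψ : G → ℂ) g = (ψ : G → ℂ) 1} *
        Cfsg.charDegree (ψ : G → ℂ)) := by
    refine (Nat.Coprime.pow_left _ (hp.coprime_iff_not_dvd.mpr hd)).dvd_of_dvd_mul_right ?_
    rw [hmul]
    exact Nat.ordProj_dvd _ _
  exact (hp.pow_dvd_iff_le_factorization Nat.card_pos.ne').mp (hpow.trans hdvd)

end Cfsg.Agent.S4801
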