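import Cfsg.Statements.S4802
import Cfsg.Agent.Chars.Basic.Kernel

set_option autoImplicit false
open Cfsg

namespace Cfsg.Agent.S4802

/-- Let N < M be normal subgroups of the finite group G and g ∈ M ∖ N. Then the conjugacy class of g is exactly M ∖ N if and only if every irreducible complex character of G whose kernel contains N takes the same value at all elements of M ∖ N, and every irreducible complex character of G whose kernel does not contain N vanishes at g. -/
theorem result {G : Type*} [Group G] [Finite G] (N M : Subgroup G) [N.Normal] [M.Normal] (hNM : N < M) (g : G) (hgM : g ∈ M) (hgN : g ∉ N) : {h : G | IsConj g h} = (M : Set G) \ (N : Set G) ↔ ((∀ χ : Cfsg.IrrCharacter G, (∀ x ∈ N, (χ : G → ℂ) x = (χ : G → ℂ) 1) → ∀ x ∈ M, x ∉ N → ∀ y ∈ M, y ∉ N → (χ : G → ℂ) x = (χ : G → ℂ) y) ∧ (∀ χ : Cfsg.IrrCharacter G, (∃ x ∈ N, (χ : G → ℂ) x ≠ (χ : G → ℂ) 1) → (χ : G → ℂ) g = 0)) := by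
  classical
  haveI := Fintype.ofFinite G
  constructor
  · intro hset
    have hconj : ∀ x ∈ M, x ∉ N → IsConj g x := fun x hxM hxN => by
      have : x ∈ {h : G | IsConj g h} := by rw [hset]; exact ⟨hxM, hxN⟩
      exact this
    refine ⟨fun χ _ x hxM hxN y hyM hyN => ?_, fun χ hχ => ?_⟩
    · rw [← CfsgLib.Chars.eq_of_isConj (CfsgLib.Chars.isClassFunction_coe χ) (hconj x hxM hxN),
        CfsgLib.Chars.eq_of_isConj (CfsgLib.Chars.isClassFunction_coe χ) (hconj y hyM hyN)]
    · have hzero := CfsgLib.Chars.sum_coset_eq_zero N χ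
        ((CfsgLib.Chars.not_le_charKer_iff (CfsgLib.Chars.isCharacter_coe χ)).mpr hχ) g
      have e : ∀ x : N, (χ : G → ℂ) (g * x) = (χ : G → ℂ) g := fun x =>
        (CfsgLib.Chars.eq_of_isConj (CfsgLib.Chars.isClassFunction_coe χ)
          (hconj _ (M.mul_mem hgM (hNM.le x.2)) (fun hmem =>
            hgN ((N.mul_mem_cancel_right x.2).mp hmem)))).symm
      simp only [e, Finset.sum_const, nsmul_eq_mul, Finset.card_univ, mul_eq_zero,
        Nat.cast_eq_zero] at hzero
      exact hzero.resolve_left Fintype.card_ne_zero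
  · rintro ⟨h1, h2⟩
    ext h
    constructor
    · intro hc
      obtain ⟨a, rfl⟩ := isConj_iff.mp hc
      refine ⟨‹M.Normal›.conj_mem g hgM a, fun hmem => hgN ?_⟩
      simpa [mul_assoc] using ‹N.Normal›.conj_mem _ hmem a⁻¹
    · rintro ⟨hM, hN⟩
      show IsConj g h
      by_contra hc
      have hgh := CfsgLib.Chars.sum_irr_mul_conj g h
      rw [if_neg hc] at hgh
      have hgg := CfsgLib.Chars.sum_irr_mul_conj g g
      rw [if_pos (IsConj.refl g)] at hgg
      have : ∀ χ : IrrCharacter G, (χ : G → ℂ) g * starRingEnd ℂ ((χ : G → ℂ) h) =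
          (χ : G → ℂ) g * starRingEnd ℂ ((χ : G → ℂ) g) := fun χ => by
        by_cases hk : ∀ x ∈ N, (χ : G → ℂ) x = (χ : G → ℂ) 1
        · rw [h1 χ hk h hM hN g hgM hgN]
        · push_neg at hk
          rw [h2 χ hk, zero_mul, zero_mul]
      simp only [this] at hgh
      rw [hgh] at hgg
      exact (Nat.cast_ne_zero.mpr Nat.card_pos.ne') hgg.symm

end Cfsg.Agent.S4802
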