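import Cfsg.Statements.S4808
import Cfsg.Agent.Chars.Basic.Codegree
import Cfsg.Agent.Chars.Basic.Linear

set_option autoImplicit false
open Cfsg

namespace Cfsg.Agent.S4808

/-- The codegree of an irreducible complex character χ of a finite group G is [G : ker χ] / χ(1), where ker χ is the set of elements at which χ takes the value χ(1). A prime divides the order of G if and only if it divides the codegree of some irreducible complex character of G. -/
theorem result {G : Type*} [Group G] [Finite G] (p : ℕ) (hp : p.Prime) : p ∣ Nat.card G ↔ ∃ χ : Cfsg.IrrCharacter G, p ∣ (Nat.card G / (Nat.card {g : G // (χ : G → ℂ) g = (χ : G → ℂ) 1} * Cfsg.charDegree (χ : G → ℂ))) := by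
  constructor
  · intro hdvd
    obtain ⟨M, hM, hmin⟩ := (Set.toFinite {M : Subgroup G | M.Normal ∧ ¬ p ∣ M.index}).exists_minimal
      ⟨⊤, inferInstance, by simpa using hp.ne_one⟩
    obtain ⟨hMn, hMp⟩ := hM
    obtain ⟨χ, hχ, hd⟩ :=
      CfsgLib.Chars.exists_not_dvd_charDegree_of_not_dvd_index M hdvd hMp
    refine ⟨χ, ?_⟩
    have hker : p ∣ (CfsgLib.Chars.charKer (χ : G → ℂ)).index := by
      by_contra hK
      refine hχ (le_trans (hmin (y := CfsgLib.Chars.charKer (χ : G → ℂ) ⊓ M) ⟨inferInstance, ?_⟩
        inf_le_right) inf_le_left)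
      rw [← Subgroup.relIndex_mul_index (inf_le_right :
        CfsgLib.Chars.charKer (χ : G → ℂ) ⊓ M ≤ M), Subgroup.inf_relIndex_right]
      exact hp.not_dvd_mul (fun h => hK (h.trans (Subgroup.relIndex_dvd_index_of_normal _ _))) hMp
    rw [← CfsgLib.Chars.codegree_mul_charDegree χ] at hker
    exact (hp.dvd_mul.mp hker).resolve_right hd
  · rintro ⟨χ, hχ⟩
    exact hχ.trans (CfsgLib.Chars.codegree_dvd_card χ)

end Cfsg.Agent.S4808
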