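import Cfsg.Statements.S4812
import Cfsg.Agent.Sl2Chars.DegreeSet
import Cfsg.Agent.Eq.Def_DegreeGraph
-- import your own Cfsg.Agent.* helpers here

set_option autoImplicit false
open Cfsg

namespace Cfsg.Agent.S4812

/-- Let F be a finite field of characteristic 2 with q ≥ 4 elements and let S be isomorphic to PSL(2,F) or to SL(2,F). Then the vertices of the character degree graph of S are the primes dividing q(q²−1), and two distinct primes are adjacent exactly when both divide q + 1 or both divide q − 1; so the graph has the three connected components {2}, the primes dividing q + 1 and the primes dividing q − 1, each complete. -/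
theorem result (F : Type*) [Field F] [Fintype F] [CharP F 2] (q : ℕ) (hq : Fintype.card F = q) (h4 : 4 ≤ q) {S : Type*} [Group S] [Finite S] (hS : Nonempty (S ≃* Matrix.ProjectiveSpecialLinearGroup (Fin 2) F) ∨ Nonempty (S ≃* Matrix.SpecialLinearGroup (Fin 2) F)) : Cfsg.degreePrimes S = {r : ℕ | r.Prime ∧ r ∣ q * (q ^ 2 - 1)} ∧ ∀ r s : ℕ, (Cfsg.degreeGraph S).Adj r s ↔ (r ≠ s ∧ r.Prime ∧ s.Prime ∧ ((r ∣ q + 1 ∧ s ∣ q + 1) ∨ (r ∣ q - 1 ∧ s ∣ q - 1))) := by
  classical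
  subst hq
  obtain ⟨⟨hq0, hq1, hq2⟩, hsub⟩ := CfsgLib.Sl2Chars.charDegrees_facts hS (Or.inr ⟨h4, inferInstance⟩)
  have hq : 1 < Fintype.card F := Fintype.one_lt_card
  have hdiv : ∀ r : ℕ, r.Prime → r ∣ Fintype.card F → r = 2 := fun r hr h => by
    obtain ⟨⟨k, hk0⟩, hp, hk⟩ := FiniteField.card F 2
    exact (Nat.prime_dvd_prime_iff_eq hr hp).1 (hr.dvd_of_dvd_pow (hk ▸ h))
  have hsq : Fintype.card F ^ 2 - 1 = (Fintype.card F + 1) * (Fintype.card F - 1) := by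
    rw [← Nat.sq_sub_sq, one_pow]
  refine ⟨Set.ext fun r => ⟨?_, ?_⟩, fun r s => ⟨?_, ?_⟩⟩
  · rintro ⟨hr, d, hd, hrd⟩
    refine ⟨hr, ?_⟩
    rw [hsq]
    rcases CfsgLib.Sl2Chars.charDegrees_cases (hsub hd) with e | e | e | e | ⟨h2, -⟩
    · exact absurd (e ▸ hrd) hr.not_dvd_one
    · exact dvd_mul_of_dvd_left (e ▸ hrd) _
    · exact dvd_mul_of_dvd_right (dvd_mul_of_dvd_left (e ▸ hrd) _) _
    · exact dvd_mul_of_dvd_right (dvd_mul_of_dvd_right (e ▸ hrd) _) _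
    · exact absurd CharTwo.two_eq_zero h2
  · rintro ⟨hr, hd⟩
    rw [hsq, hr.dvd_mul, hr.dvd_mul] at hd
    rcases hd with h | h | h
    · exact ⟨hr, _, hq0, h⟩
    · exact ⟨hr, _, hq1, h⟩
    · exact ⟨hr, _, hq2, h⟩
  · rintro ⟨hne, hr, hs, d, hd, hrs⟩
    refine ⟨hne, hr, hs, ?_⟩
    have hr' := (dvd_mul_right r s).trans hrs
    have hs' := (dvd_mul_left s r).trans hrs
    rcases CfsgLib.Sl2Chars.charDegrees_cases (hsub hd) with e | e | e | e | ⟨h2, -⟩
    · exact absurd (e ▸ hr') hr.not_dvd_one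
    · exact absurd ((hdiv r hr (e ▸ hr')).trans (hdiv s hs (e ▸ hs')).symm) hne
    · exact Or.inl ⟨e ▸ hr', e ▸ hs'⟩
    · exact Or.inr ⟨e ▸ hr', e ▸ hs'⟩
    · exact absurd CharTwo.two_eq_zero h2
  · rintro ⟨hne, hr, hs, hd⟩
    have hco := (Nat.coprime_primes hr hs).2 hne
    rcases hd with ⟨h, h'⟩ | ⟨h, h'⟩
    · exact ⟨hne, hr, hs, _, hq1, hco.mul_dvd_of_dvd_of_dvd h h'⟩
    · exact ⟨hne, hr, hs, _, hq2, hco.mul_dvd_of_dvd_of_dvd h h'⟩

end Cfsg.Agent.S4812
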