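import Cfsg.Statements.S4814
import Cfsg.Agent.Chars.Basic.Commutators

set_option autoImplicit false
open Cfsg

namespace Cfsg.Agent.S4814

/-- Let G be a finite group such that the sum, over the irreducible complex characters χ of G, of 1/χ(1)² is less than 2. Then every element of G is a product of two commutators. -/
theorem result {G : Type*} [Group G] [Finite G]
    (h : ∑ᶠ χ : Cfsg.IrrCharacter G, 1 / ‖(χ : G → ℂ) 1‖ ^ 2 < (2 : ℝ)) (g : G) :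
    ∃ a b c d : G, (a * b * a⁻¹ * b⁻¹) * (c * d * c⁻¹ * d⁻¹) = g := by
  classical
  haveI := Fintype.ofFinite G
  rw [CfsgLib.Chars.finsum_irr_eq_sum] at h
  by_contra! hno
  have hzero : ∀ a b c d : G, ∑ χ : IrrCharacter G, (χ : G → ℂ) 1 *
      (χ : G → ℂ) (a * b * a⁻¹ * b⁻¹ * (c * d * c⁻¹ * d⁻¹ * g⁻¹)) = 0 := fun a b c d => by
    rw [CfsgLib.Chars.sum_irr_map_one_mul, if_neg]
    intro e
    apply hno a b c d
    rw [← mul_inv_eq_one]
    rw [← e]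
    group
  have hχ : ∀ χ : IrrCharacter G, ∑ a : G, ∑ b : G, ∑ c : G, ∑ d : G, (χ : G → ℂ) 1 *
      (χ : G → ℂ) (a * b * a⁻¹ * b⁻¹ * (c * d * c⁻¹ * d⁻¹ * g⁻¹)) =
      (Nat.card G : ℂ) ^ 4 * ((χ : G → ℂ) g⁻¹ / (χ : G → ℂ) 1 ^ 3) := by
    intro χ
    have h1 := CfsgLib.Chars.map_one_ne_zero χ
    calc ∑ a : G, ∑ b : G, ∑ c : G, ∑ d : G, (χ : G → ℂ) 1 *
          (χ : G → ℂ) (a * b * a⁻¹ * b⁻¹ * (c * d * c⁻¹ * d⁻¹ * g⁻¹))
        = ∑ c : G, ∑ d : G, ∑ a : G, ∑ b : G, (χ : G → ℂ) 1 *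
          (χ : G → ℂ) (a * b * a⁻¹ * b⁻¹ * (c * d * c⁻¹ * d⁻¹ * g⁻¹)) := by
          rw [Finset.sum_congr rfl fun a _ => Finset.sum_comm]
          rw [Finset.sum_comm]
          refine Finset.sum_congr rfl fun c _ => ?_
          rw [Finset.sum_congr rfl fun a _ => Finset.sum_comm]
          rw [Finset.sum_comm]
      _ = (Nat.card G : ℂ) ^ 4 * ((χ : G → ℂ) g⁻¹ / (χ : G → ℂ) 1 ^ 3) := by
          simp only [← Finset.mul_sum, CfsgLib.Chars.sum_map_commutator_mul, ← Finset.sum_div]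
          field_simp
  have hS : ∑ χ : IrrCharacter G, (χ : G → ℂ) g⁻¹ / (χ : G → ℂ) 1 ^ 3 = 0 := by
    have : ∑ χ : IrrCharacter G, (Nat.card G : ℂ) ^ 4 *
        ((χ : G → ℂ) g⁻¹ / (χ : G → ℂ) 1 ^ 3) = 0 := by
      simp only [← hχ]
      rw [Finset.sum_comm]
      refine Finset.sum_eq_zero fun a _ => ?_
      rw [Finset.sum_comm]
      refine Finset.sum_eq_zero fun b _ => ?_
      rw [Finset.sum_comm]
      refine Finset.sum_eq_zero fun c _ => ?_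
      rw [Finset.sum_comm]
      exact Finset.sum_eq_zero fun d _ => hzero a b c d
    rw [← Finset.mul_sum] at this
    exact (mul_eq_zero.mp this).resolve_left (pow_ne_zero 4 CfsgLib.Chars.natCard_ne_zero)
  rw [← Finset.add_sum_erase _ _ (Finset.mem_univ (CfsgLib.Chars.oneChar G))] at hS h
  simp only [CfsgLib.Chars.oneChar_apply, one_pow, div_one, norm_one] at hS h
  have hn := congrArg norm (eq_neg_of_add_eq_zero_left hS)
  rw [norm_one, norm_neg] at hn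
  have hle : ‖∑ χ ∈ Finset.univ.erase (CfsgLib.Chars.oneChar G),
      (χ : G → ℂ) g⁻¹ / (χ : G → ℂ) 1 ^ 3‖ ≤
      ∑ χ ∈ Finset.univ.erase (CfsgLib.Chars.oneChar G), 1 / ‖(χ : G → ℂ) 1‖ ^ 2 := by
    refine (norm_sum_le _ _).trans (Finset.sum_le_sum fun χ _ => ?_)
    have hd : 0 < ‖(χ : G → ℂ) 1‖ := norm_pos_iff.mpr (CfsgLib.Chars.map_one_ne_zero χ)
    rw [norm_div, norm_pow, div_le_div_iff₀ (pow_pos hd 3) (pow_pos hd 2), one_mul]
    calc ‖(χ : G → ℂ) g⁻¹‖ * ‖(χ : G → ℂ) 1‖ ^ 2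
        ≤ ‖(χ : G → ℂ) 1‖ * ‖(χ : G → ℂ) 1‖ ^ 2 :=
          mul_le_mul_of_nonneg_right
            (CfsgLib.Chars.norm_apply_le (CfsgLib.Chars.isCharacter_coe χ) _) (sq_nonneg _)
      _ = _ := by ring
  linarith

end Cfsg.Agent.S4814
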