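import Cfsg.Statements.S4825
import Cfsg.Agent.Eq.Def_Characters
import Cfsg.Agent.Eq.Def_Blocks
import Cfsg.Agent.Chars.Induced.Ito
import Cfsg.Agent.Blocks.Basic.Local

set_option autoImplicit false
open Cfsg

namespace Cfsg.Agent.S4825

theorem sq_eq_one_of_small {p : ℕ} (h : p = 2 ∨ p = 3) (x : ZMod p) (hx : x ≠ 0) : x ^ 2 = 1 := by
  have h2 : ∀ y : ZMod 2, y ≠ 0 → y ^ 2 = 1 := by decide
  have h3 : ∀ y : ZMod 3, y ≠ 0 → y ^ 2 = 1 := by decide
  rcases h with rfl | rfl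
  · exact h2 x hx
  · exact h3 x hx

/-- Let p be a prime, G a finite group with Sylow p-subgroup P, M a maximal ideal of the algebraic integers containing p, and B a p-block of G with defect group P. Let N be a normal subgroup of G not containing P and θ an irreducible character of N. Then the number of irreducible characters in B of degree prime to p lying over θ (having θ as a constituent on restriction to N) is either 0 or at least 2, and when p ≤ 3 it is divisible by p. -/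
theorem result {G : Type*} [Group G] [Fintype G] (p : ℕ) [Fact p.Prime] (P : Sylow p G) (M : Ideal Cfsg.AlgInt) (hM : Cfsg.IsPModular p M) (B : Set (Cfsg.IrrCharacter G)) (hB : Cfsg.IsPBlock M B) (hBP : Cfsg.IsDefectGroup p M B P) (N : Subgroup G) [N.Normal] [Fintype N] (hPN : ¬ (P : Subgroup G) ≤ N) (θ : Cfsg.IrrCharacter N) :
    (Nat.card {χ : Cfsg.IrrCharacter G // χ ∈ B ∧ ¬ p ∣ Cfsg.charDegree (χ : G → ℂ) ∧ Cfsg.classInner (fun n : N => (χ : G → ℂ) n) (θ : N → ℂ) ≠ 0} = 0 ∨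
      2 ≤ Nat.card {χ : Cfsg.IrrCharacter G // χ ∈ B ∧ ¬ p ∣ Cfsg.charDegree (χ : G → ℂ) ∧ Cfsg.classInner (fun n : N => (χ : G → ℂ) n) (θ : N → ℂ) ≠ 0}) ∧
    (p ≤ 3 → p ∣ Nat.card {χ : Cfsg.IrrCharacter G // χ ∈ B ∧ ¬ p ∣ Cfsg.charDegree (χ : G → ℂ) ∧ Cfsg.classInner (fun n : N => (χ : G → ℂ) n) (θ : N → ℂ) ≠ 0}) := by
  classical
  have hMm : M.IsMaximal := hM.2.1
  have hres : ∀ χ : Cfsg.IrrCharacter G, Cfsg.IsCharacter N (fun n : N => (χ : G → ℂ) n) :=
    fun χ => CfsgLib.Chars.isCharacter_restrict (CfsgLib.Chars.isCharacter_coe χ) N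
  let e : Cfsg.IrrCharacter G → ℕ := fun χ =>
    CfsgLib.Chars.Induced.mult (fun n : N => (χ : G → ℂ) n) θ
  let d : Cfsg.IrrCharacter G → ℕ := fun χ => Cfsg.charDegree (χ : G → ℂ)
  have hpN : p ∣ N.index := by
    by_contra hnd
    apply hPN
    obtain ⟨k, hk⟩ := IsPGroup.iff_card.1 (P.isPGroup'.map (QuotientGroup.mk' N))
    have h1 : Nat.card ((P : Subgroup G).map (QuotientGroup.mk' N)) ∣ N.index :=
      N.index_eq_card ▸ Subgroup.card_subgroup_dvd_card _
    rcases Nat.eq_zero_or_pos k with rfl | hk0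
    · have h2 := (Subgroup.map_eq_bot_iff _).1
        (Subgroup.eq_bot_of_card_eq _ (hk.trans (pow_zero p)))
      rwa [QuotientGroup.ker_mk'] at h2
    · exact absurd ((dvd_pow_self p hk0.ne').trans (hk ▸ h1)) hnd
  -- the block sum is divisible by `p`
  have hsum : p ∣ ∑ χ ∈ B.toFinset, e χ * d χ := by
    rw [← CfsgLib.Blocks.memLocalIdeal_natCast_iff hM]
    have h1 : ((∑ χ ∈ B.toFinset, e χ * d χ : ℕ) : ℂ) =
        (N.index : ℂ) * ∑ n : N, (θ : N → ℂ) n * Cfsg.blockCoeff B (n : G) := by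
      simp only [Cfsg.blockCoeff, finsum_mem_eq_toFinset_sum, Finset.mul_sum]
      rw [Finset.sum_comm, Nat.cast_sum]
      refine Finset.sum_congr rfl fun χ _ => ?_
      have hinner := CfsgLib.Chars.Induced.classInner_irr_left_eq_mult (hres χ) θ
      rw [Cfsg.classInner, inv_mul_eq_iff_eq_mul₀ (CfsgLib.Chars.Induced.card_subgroup_ne_zero N)]
        at hinner
      have hidx : (Nat.card G : ℂ) = Nat.card N * N.index := by
        exact_mod_cast N.card_mul_index.symm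
      have hi0 : (N.index : ℂ) ≠ 0 := Nat.cast_ne_zero.2 Subgroup.index_ne_zero_of_finite
      calc ((e χ * d χ : ℕ) : ℂ)
          = (Nat.card N : ℂ)⁻¹ * ((Nat.card N : ℂ) * (e χ : ℂ)) * (χ : G → ℂ) 1 := by
            rw [inv_mul_cancel_left₀ (CfsgLib.Chars.Induced.card_subgroup_ne_zero N), Nat.cast_mul,
              CfsgLib.Chars.coe_charDegree]
        _ = ∑ n : N, (Nat.card N : ℂ)⁻¹ * ((θ : N → ℂ) n * (starRingEnd ℂ) ((χ : G → ℂ) n)) *
              (χ : G → ℂ) 1 := by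
            rw [← hinner, Finset.mul_sum, Finset.sum_mul]
        _ = _ := by
            refine Finset.sum_congr rfl fun n _ => ?_
            rw [hidx, mul_inv]
            field_simp
    rw [h1]
    refine CfsgLib.Blocks.memLocalIdeal_mul_right
      ((CfsgLib.Blocks.memLocalIdeal_natCast_iff hM _).2 hpN) ?_
    refine sum_mem (S := CfsgLib.Blocks.localRing M) fun n _ => mul_mem ?_ ?_
    · exact CfsgLib.Blocks.memLocalRing_of_isIntegral
        (CfsgLib.Chars.isIntegral_apply (CfsgLib.Chars.isCharacter_coe θ) n)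
    · exact CfsgLib.Blocks.memLocalRing_blockCoeff hB _
  set S := B.toFinset.filter (fun χ => ¬ p ∣ d χ ∧ e χ ≠ 0) with hS
  have hcard : Nat.card {χ : Cfsg.IrrCharacter G // χ ∈ B ∧ ¬ p ∣ Cfsg.charDegree (χ : G → ℂ) ∧
      Cfsg.classInner (fun n : N => (χ : G → ℂ) n) (θ : N → ℂ) ≠ 0} = S.card := by
    rw [← Fintype.card_coe S, ← Nat.card_eq_fintype_card]
    refine Nat.card_congr (Equiv.subtypeEquivRight fun χ => ?_)
    simp only [hS, Finset.mem_filter, Set.mem_toFinset, d, e,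
      CfsgLib.Chars.Induced.mult_ne_zero_iff (hres χ) θ]
  rw [hcard]
  rcases S.eq_empty_or_nonempty with hempty | ⟨χ₀, hχ₀⟩
  · simp [hempty]
  have hp := (Fact.out : p.Prime)
  let c : ℕ := (CfsgLib.Chars.Induced.inertia N (θ : N → ℂ)).index * Cfsg.charDegree (θ : N → ℂ)
  have hd : ∀ χ, e χ ≠ 0 → d χ = e χ * c := by
    intro χ hχ
    apply Nat.cast_injective (R := ℂ)
    simp only [d, c, Nat.cast_mul, CfsgLib.Chars.coe_charDegree, ← mul_assoc]
    exact CfsgLib.Chars.Induced.clifford_one χ θ hχ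
  have hne : ∀ χ ∈ S, (e χ : ZMod p) ≠ 0 ∧ (c : ZMod p) ≠ 0 := by
    intro χ hχ
    obtain ⟨-, h1, h2⟩ := Finset.mem_filter.1 hχ
    rw [hd χ h2] at h1
    exact ⟨fun h => h1 ((ZMod.natCast_eq_zero_iff _ _).1 h |>.mul_right c),
      fun h => h1 ((ZMod.natCast_eq_zero_iff _ _).1 h |>.mul_left _)⟩
  have hz : ∑ χ ∈ S, (e χ : ZMod p) ^ 2 = 0 := by
    have h1 : ((∑ χ ∈ B.toFinset, e χ * d χ : ℕ) : ZMod p) = 0 :=
      (ZMod.natCast_eq_zero_iff _ _).2 hsum
    rw [Nat.cast_sum, ← Finset.sum_subset (Finset.filter_subset (fun χ => ¬ p ∣ d χ ∧ e χ ≠ 0) _)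
      fun χ hχ hχS => ?_, ← hS] at h1
    · have h2 : (∑ χ ∈ S, (e χ : ZMod p) ^ 2) * (c : ZMod p) = 0 := by
        rw [Finset.sum_mul, ← h1]
        refine Finset.sum_congr rfl fun χ hχ => ?_
        rw [hd χ (Finset.mem_filter.1 hχ).2.2]
        push_cast
        ring
      exact (mul_eq_zero.1 h2).resolve_right (hne χ₀ hχ₀).2
    · rw [ZMod.natCast_eq_zero_iff]
      by_cases he : e χ = 0
      · simp [he]
      · refine Dvd.dvd.mul_left ?_ _
        by_contra hpd
        exact hχS (Finset.mem_filter.2 ⟨hχ, hpd, he⟩)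
  refine ⟨Or.inr ?_, fun hp3 => ?_⟩
  · by_contra h2
    have h1 : S = {χ₀} := by
      refine Finset.eq_singleton_iff_unique_mem.2 ⟨hχ₀, fun x hx => ?_⟩
      exact Finset.card_le_one.1 (by omega) x hx χ₀ hχ₀
    rw [h1, Finset.sum_singleton] at hz
    exact (hne χ₀ hχ₀).1 (pow_eq_zero_iff two_ne_zero |>.1 hz)
  · rw [← ZMod.natCast_eq_zero_iff, Finset.cast_card, ← hz]
    refine Finset.sum_congr rfl fun χ hχ => ?_
    have hsq : ∀ x : ZMod p, x ≠ 0 → x ^ 2 = 1 := by
      have : p = 2 ∨ p = 3 := by have := hp.two_le; omega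
      intro x hx; exact sq_eq_one_of_small this x hx
    exact (hsq _ (hne χ hχ).1).symm

end Cfsg.Agent.S4825
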