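import Cfsg.Statements.S4828
import Cfsg.Agent.Blocks.Defect.CentralDefect
import Cfsg.Agent.Blocks.Defect.LocalBlocks
import Cfsg.Agent.Blocks.Defect.Nilpotent
import Cfsg.Agent.Blocks.Basic.Residue

set_option autoImplicit false
open Cfsg CfsgLib CfsgLib.Blocks
open scoped Pointwise

namespace Cfsg.Agent.S4828

/-- Let p be a prime, M a maximal ideal of the algebraic integers containing p, and (Q, e) a Brauer pair of the finite group G (Q a p-subgroup, e a block of C_G(Q)). Then (Q, e) is a maximal Brauer pair of some block of G if and only if e contains an irreducible character θ such that θ takes the value θ(1) at every element of Z(Q) = Q ∩ C_G(Q), the p-part of θ(1) times the p-part of the order of Z(Q) equals the p-part of the order of C_G(Q) (θ has defect zero as a character of C_G(Q)/Z(Q)), and every element of N_G(Q) of p-power order that stabilizes e lies in Q·C_G(Q) (the stabilizer of e in N_G(Q) has index prime to p over Q·C_G(Q)). -/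
theorem result {G : Type*} [Group G] [Finite G] (p : ℕ) [Fact p.Prime] (M : Ideal Cfsg.AlgInt) (hM : Cfsg.IsPModular p M) (Q : Subgroup G) (e : Set (Cfsg.IrrCharacter (Subgroup.centralizer (Q : Set G)))) (he : Cfsg.IsBrauerPair p M Q e) :
    (∃ B : Set (Cfsg.IrrCharacter G), Cfsg.IsMaximalBrauerPair p M B Q e) ↔
      ∃ θ ∈ e, (∀ z : Subgroup.centralizer (Q : Set G), (z : G) ∈ Q → (θ : Subgroup.centralizer (Q : Set G) → ℂ) z = (θ : Subgroup.centralizer (Q : Set G) → ℂ) 1) ∧
        (Cfsg.charDegree (θ : Subgroup.centralizer (Q : Set G) → ℂ)).factorization p + (Nat.card ↥(Q ⊓ Subgroup.centralizer (Q : Set G))).factorization p = (Nat.card (Subgroup.centralizer (Q : Set G))).factorization p ∧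
        (∀ g : G, g ∈ Subgroup.normalizer (Q : Set G) → Cfsg.StabilizesBlock (Subgroup.centralizer (Q : Set G)) e g → (∃ k : ℕ, orderOf g = p ^ k) → g ∈ Q ⊔ Subgroup.centralizer (Q : Set G)) := by
  classical
  haveI : M.IsMaximal := hM.2.1
  haveI : CharP (kres M) p := charP_kres hM
  obtain ⟨hQp, heB⟩ := he
  have hZC : (Q ⊓ Subgroup.centralizer (Q : Set G) : Subgroup G) ≤ (Subgroup.centralizer (Q : Set G)) := inf_le_right
  have hZcard : Nat.card ((Q ⊓ Subgroup.centralizer (Q : Set G) : Subgroup G).subgroupOf (Subgroup.centralizer (Q : Set G))) = Nat.card (Q ⊓ Subgroup.centralizer (Q : Set G) : Subgroup G) :=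
    Nat.card_congr (Subgroup.subgroupOfEquivOfLe hZC).toEquiv
  have hZc : (Q ⊓ Subgroup.centralizer (Q : Set G) : Subgroup G).subgroupOf (Subgroup.centralizer (Q : Set G)) ≤ Subgroup.center (Subgroup.centralizer (Q : Set G)) := by
    intro z hz
    rw [Subgroup.mem_center_iff]
    exact fun c => Subtype.ext (Subgroup.mem_centralizer_iff.mp c.2 _ hz.1).symm
  have hp := (isBrauerPair_iff (M := M) heB).mp ⟨hQp, heB⟩
  have hCN : (Subgroup.centralizer (Q : Set G)) ≤ Subgroup.normalizer (Q : Set G) := Subgroup.centralizer_le_normalizer _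
  have hNC : Subgroup.normalizer (Q : Set G) ≤ Subgroup.normalizer ((Subgroup.centralizer (Q : Set G)) : Set G) :=
    normalizer_le_normalizer_centralizer Q
  constructor
  · rintro ⟨B, hmax⟩
    have hmax' := IsMaximalBrauerPair.toIdem (M := M) hmax
    have hE := isBlockIdem_topEl (M := M) hmax.1.2.1
    have hD : IsDefectGroupIdem p (Subgroup.centralizer (Q : Set G)) (subEl M (Subgroup.centralizer (Q : Set G)) e) (Q ⊓ Subgroup.centralizer (Q : Set G) : Subgroup G) :=
      (isDefectGroupIdem_center_iff hE hmax' (PairLE.refl _ _ _)).mp fun x hx => by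
        have heq : Q.map (MulAut.conj x).toMonoidHom = Q :=
          Subgroup.eq_of_le_of_card_ge hx.le.2 (card_map_conj Q x).ge
        rw [heq]
        exact inf_le_left
    obtain ⟨θ, hθ, hker, hdeg⟩ := exists_central_defect_zero hM hZc heB
      ((isDefectGroup_subgroupOf_iff hZC heB).mpr hD)
    rw [hZcard] at hdeg
    refine ⟨θ, hθ, fun z hz => hker z ⟨hz, z.2⟩, hdeg, fun g hgN hgs hgp => ?_⟩
    set T := pairStab ⊤ Q (subEl M (Subgroup.centralizer (Q : Set G)) e) with hTdef
    have hgT : g ∈ T := mem_pairStab.mpr ⟨⟨trivial, hgN⟩, ((stabilizesBlock_iff heB g).mp hgs).2⟩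
    have hCT : (Subgroup.centralizer (Q : Set G)) ≤ T := centralizer_le_pairStab hp
    have hTN : T ≤ Subgroup.normalizer (Q : Set G) := pairStab_le_normalizer _ _ _
    have hT := isDefectGroupIdem_pairStab_self hE hmax'
    rw [inf_eq_left.mpr (Subgroup.le_normalizer (H := Q))] at hT
    have hidx := not_dvd_relIndex_sup_defectGroup hCT (hTN.trans hNC) (isBlockIdem_subEl heB)
      hp.isBlockIdem_pairStab hT
    set K := ((Subgroup.centralizer (Q : Set G)) ⊔ Q).subgroupOf T with hKdef
    haveI hCn : ((Subgroup.centralizer (Q : Set G)).subgroupOf T).Normal :=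
      (Subgroup.normal_subgroupOf_iff_le_normalizer hCT).mpr (hTN.trans hNC)
    haveI hQn : (Q.subgroupOf T).Normal :=
      (Subgroup.normal_subgroupOf_iff_le_normalizer hp.le_pairStab).mpr hTN
    haveI : K.Normal := by
      rw [hKdef, Subgroup.subgroupOf_sup hCT hp.le_pairStab]
      infer_instance
    have hgK : (⟨g, hgT⟩ : T) ∈ K := by
      rw [← QuotientGroup.eq_one_iff (N := K), ← orderOf_eq_one_iff]
      obtain ⟨k, hk⟩ := hgp
      refine Nat.eq_one_of_dvd_coprimes (a := p ^ k) (b := K.index) ?_ ?_ ?_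
      · exact (((Fact.out : p.Prime).coprime_iff_not_dvd).2 hidx).pow_left k
      · rw [← hk, ← Subgroup.orderOf_mk g hgT]
        exact orderOf_map_dvd (QuotientGroup.mk' K) (⟨g, hgT⟩ : T)
      · rw [Subgroup.index_eq_card]
        exact orderOf_dvd_natCard _
    rw [sup_comm]
    exact hgK
  · rintro ⟨θ, hθ, hker, hdeg, hstab⟩
    rw [← hZcard] at hdeg
    have hD' := isDefectGroup_of_central_defect_zero hM
      ((hQp.to_le inf_le_left).of_equiv (Subgroup.subgroupOfEquivOfLe hZC).symm) hZc θ
      (fun z hz => hker z hz.1) hdeg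
    rw [← eq_blockOf_of_mem heB hθ, isDefectGroup_subgroupOf_iff hZC heB] at hD'
    obtain ⟨E, ⟨hEb, hpo⟩, -⟩ := hp.existsUnique_block
    obtain ⟨B, hB, rfl⟩ := exists_topEl_eq hEb
    refine ⟨B, (isBrauerPairOf_iff hB heB).mpr hpo, fun R r hR hle => ?_⟩
    have hr := hR.1.2
    have hR' := (isBrauerPairOf_iff hB hr).mp hR
    have hle' := (subpairLE_iff heB hr).mp hle
    by_contra hne
    have hlt : Q < R := lt_of_le_of_ne hle'.le (Ne.symm hne)
    set R' := R ⊓ Subgroup.normalizer (Q : Set G) with hR'def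
    have hQR' : Q < R' := lt_inf_normalizer hR'.1.1 hlt
    obtain ⟨htr, hst⟩ := hle'.trunc_ne_zero hR'.1 (le_refl R')
    have hDne : brTrunc (R' ⊓ (Subgroup.centralizer (Q : Set G))) (subEl M (Subgroup.centralizer (Q : Set G)) e) ≠ 0 := fun h0 => htr (by
      rw [← brTrunc_brTrunc (inf_le_left : R' ⊓ (Subgroup.centralizer (Q : Set G)) ≤ R'), h0, map_zero])
    obtain ⟨t, ht, htle⟩ := hD'.2.2.2 _ inf_le_right
      (hR'.1.1.to_le (inf_le_left.trans inf_le_left)) hDne
    have hRQ : R' ≤ Q := by
      intro a ha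
      have hord : ∃ k : ℕ, orderOf a = p ^ k := by
        obtain ⟨k, hk⟩ := IsPGroup.iff_orderOf.1 hR'.1.1 ⟨a, ha.1⟩
        exact ⟨k, by rw [← hk, Subgroup.orderOf_mk]⟩
      have hmem := hstab a ha.2 ((stabilizesBlock_iff heB a).mpr
        ⟨hNC ha.2, (mem_pairStab.mp (hst ha)).2⟩) hord
      have hmem' : a ∈ (Q : Set G) * ((Subgroup.centralizer (Q : Set G)) : Set G) := by
        rw [← Subgroup.coe_mul_of_left_le_normalizer_right _ _
          (Subgroup.le_normalizer.trans hNC)]
        exact hmem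
      obtain ⟨q, hq, c, hc, rfl⟩ := Set.mem_mul.mp hmem'
      refine Q.mul_mem hq ?_
      have hcR : c ∈ R' := by
        have := R'.mul_mem (R'.inv_mem (hQR'.le hq)) ha
        rwa [inv_mul_cancel_left] at this
      have h1 := htle ⟨c, ⟨hcR, hc⟩, rfl⟩
      simp only [MulEquiv.coe_toMonoidHom, MulAut.conj_apply] at h1
      have h2 := Subgroup.mem_centralizer_iff.mp ht _ h1.1
      have h3 : c = t * c * t⁻¹ := by
        calc c = t⁻¹ * ((t * c * t⁻¹) * t) := by group
          _ = t⁻¹ * (t * (t * c * t⁻¹)) := by rw [h2]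
          _ = t * c * t⁻¹ := by group
      rw [h3]
      exact h1.1
    exact absurd hRQ (not_le_of_gt hQR')

end Cfsg.Agent.S4828
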