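import Cfsg.Statements.S4843
import Cfsg.Agent.Chars.GaloisProduct.Basic

set_option autoImplicit false
open Cfsg

namespace Cfsg.Agent.S4843

/-- Let G be a finite group with a faithful irreducible character χ (taking the value χ(1) only at the identity) and let k be prime to the order of G, so that g ↦ χ(g^k) is a Galois conjugate of χ. If the pointwise product g ↦ χ(g)·χ(g^k) is again an irreducible character, then the Fitting subgroup of G equals its centre. -/
theorem result {G : Type*} [Group G] [Finite G] (χ : Cfsg.IrrCharacter G) (hfaith : ∀ g : G, (χ : G → ℂ) g = (χ : G → ℂ) 1 → g = 1) (k : ℕ) (hk : Nat.Coprime k (Nat.card G)) (hirr : Cfsg.IsIrrCharacter G (fun g => (χ : G → ℂ) g * (χ : G → ℂ) (g ^ k))) : Cfsg.fittingSubgroup G = Subgroup.center G := by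
  exact CfsgLib.GaloisProduct.fitting_eq_center χ hfaith hk hirr

end Cfsg.Agent.S4843
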