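import Cfsg.Statements.S4847
import Cfsg.Agent.Palfy.Main

set_option autoImplicit false
open Cfsg

namespace Cfsg.Agent.S4847

/-- Let G be a finite solvable group and p, q, r three distinct primes each dividing the degree of some irreducible character of G. Then for some two of them the product divides the degree of some irreducible character of G (the character degree graph of a solvable group has no three pairwise non-adjacent vertices). -/
theorem result {G : Type*} [Group G] [Finite G] [hs : Group.IsSolvable G] (p q r : ℕ) (hp : p.Prime) (hq : q.Prime) (hr : r.Prime) (hpq : p ≠ q) (hqr : q ≠ r) (hpr : p ≠ r)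
    (hpd : ∃ χ : Cfsg.IrrCharacter G, p ∣ Cfsg.charDegree (χ : G → ℂ)) (hqd : ∃ χ : Cfsg.IrrCharacter G, q ∣ Cfsg.charDegree (χ : G → ℂ)) (hrd : ∃ χ : Cfsg.IrrCharacter G, r ∣ Cfsg.charDegree (χ : G → ℂ)) :
    (∃ χ : Cfsg.IrrCharacter G, p * q ∣ Cfsg.charDegree (χ : G → ℂ)) ∨ (∃ χ : Cfsg.IrrCharacter G, q * r ∣ Cfsg.charDegree (χ : G → ℂ)) ∨ (∃ χ : Cfsg.IrrCharacter G, p * r ∣ Cfsg.charDegree (χ : G → ℂ)) := by
  by_contra hcon
  push Not at hcon
  obtain ⟨h1, h2, h3⟩ := hcon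
  have key : ∀ {a b : ℕ}, a.Prime → b.Prime → a ≠ b →
      (∀ χ : Cfsg.IrrCharacter G, ¬ a * b ∣ Cfsg.charDegree (χ : G → ℂ)) →
      CfsgLib.Palfy.NoAdj G a b := fun ha hb hne h χ hχa hχb =>
    h χ (((Nat.coprime_primes ha hb).2 hne).mul_dvd_of_dvd_of_dvd hχa hχb)
  exact CfsgLib.Palfy.not_bad (hs := hs) p q r
    ⟨hp, hq, hr, hpq, hqr, hpr, key hp hq hpq h1, key hq hr hqr h2, key hp hr hpr h3,
      hpd, hqd, hrd⟩

end Cfsg.Agent.S4847
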