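import Cfsg.Statements.S4850
import Cfsg.Agent.MovedVector.SameOrder
import Cfsg.Agent.Fitting.Join

set_option autoImplicit false
open Cfsg

namespace Cfsg.Agent.S4850

/-- Let p be a prime and G a finite solvable group whose vanishing elements (elements at which some irreducible character is zero) of order divisible by p all have the same order, with at least one such element. Let P be a Sylow p-subgroup of G. Then the derived subgroup of P is subnormal in G and the image of P in G/O_p(G) is cyclic. -/
theorem result {G : Type*} [Group G] [Finite G] [hs : Group.IsSolvable G] (p : ℕ) [Fact p.Prime] (b : ℕ) (hvo : {n : ℕ | p ∣ n ∧ ∃ (g : G) (χ : Cfsg.IrrCharacter G), orderOf g = n ∧ (χ : G → ℂ) g = 0} = {b}) (P : Sylow p G) :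
    ((commutator ↥(P : Subgroup G)).map (P : Subgroup G).subtype).IsSubnormal ∧ IsCyclic ↥((P : Subgroup G).map (QuotientGroup.mk' (Cfsg.pCore p G))) := by
  classical
  haveI := hs
  have hord : ∀ g g' : G, CfsgLib.MovedVector.SingVanish p g → CfsgLib.MovedVector.SingVanish p g' →
      orderOf g = orderOf g' := by
    intro g g' hg hg'
    have key : ∀ y : G, CfsgLib.MovedVector.SingVanish p y → orderOf y = b := fun y hy => by
      obtain ⟨hdvd, χ, hχ⟩ := hy
      have hmem : orderOf y ∈ ({b} : Set ℕ) := hvo ▸ ⟨hdvd, y, χ, rfl, hχ⟩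
      exact hmem
    rw [key g hg, key g' hg']
  have hcard : Nat.card ↥((P : Subgroup G).map (QuotientGroup.mk' (Cfsg.pCore p G))) ≤ p := by
    rcases eq_or_ne p 2 with h2 | h2
    · exact CfsgLib.MovedVector.card_image_le_two hs h2 hord P _ (Cfsg.pCore p G) le_rfl
        CfsgLib.Constrained.pCore_quotient_pCore
    · refine CfsgLib.MovedVector.card_image_le P hs fun g g' ⟨x, hxg, hx, hxO⟩ ⟨x', hxg', hx', hxO'⟩ =>
        hord g g' ⟨?_, CfsgLib.MovedVector.exists_zero h2 hs hxg hx hxO⟩
          ⟨?_, CfsgLib.MovedVector.exists_zero h2 hs hxg' hx' hxO'⟩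
      · obtain ⟨i, hi⟩ := CfsgLib.MovedVector.orderOf_eq_pow_of_pow_eq_one hx
        refine (hi ▸ dvd_pow_self p (fun h : i = 0 => hxO ?_)).trans (orderOf_dvd_of_mem_zpowers hxg)
        rw [orderOf_eq_one_iff.mp (show orderOf x = 1 by rw [hi, h, pow_zero])]
        exact one_mem _
      · obtain ⟨i, hi⟩ := CfsgLib.MovedVector.orderOf_eq_pow_of_pow_eq_one hx'
        refine (hi ▸ dvd_pow_self p (fun h : i = 0 => hxO' ?_)).trans (orderOf_dvd_of_mem_zpowers hxg')
        rw [orderOf_eq_one_iff.mp (show orderOf x' = 1 by rw [hi, h, pow_zero])]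
        exact one_mem _
  set P' := (P : Subgroup G).map (QuotientGroup.mk' (Cfsg.pCore p G)) with hP'
  have hcyc : IsCyclic P' := by
    obtain ⟨i, hi⟩ := IsPGroup.iff_card.mp (P.isPGroup'.map (QuotientGroup.mk' (Cfsg.pCore p G)))
    rcases Nat.lt_or_ge i 2 with hlt | hge
    · interval_cases i
      · rw [pow_zero] at hi
        haveI := (Nat.card_eq_one_iff_unique.mp hi).1
        exact isCyclic_of_subsingleton
      · exact isCyclic_of_prime_card (by rw [hi, pow_one])
    · have h4 := (Nat.pow_le_pow_right (Fact.out : p.Prime).pos hge).trans (hi.symm.le.trans hcard)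
      have h2 := (Fact.out : p.Prime).two_le
      have h3 : 2 * p ≤ p ^ 2 := by rw [sq]; exact Nat.mul_le_mul_right p h2
      omega
  refine ⟨?_, hcyc⟩
  haveI := hcyc
  have hle : (commutator ↥(P : Subgroup G)).map (P : Subgroup G).subtype ≤ Cfsg.pCore p G := by
    rw [Subgroup.map_subtype_commutator, Subgroup.commutator_le]
    intro x hx y hy
    rw [← QuotientGroup.eq_one_iff, ← QuotientGroup.mk'_apply, map_commutatorElement,
      commutatorElement_eq_one_iff_mul_comm]
    exact congrArg Subtype.val (IsMulCommutative.is_comm.comm (⟨_, ⟨x, hx, rfl⟩⟩ : P') ⟨_, ⟨y, hy, rfl⟩⟩)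
  haveI : Group.IsNilpotent (Cfsg.pCore p G) :=
    (CfsgLib.Constrained.isPGroup_pCore (p := p) (G := G)).isNilpotent
  exact Subgroup.IsSubnormal.trans hle (CfsgLib.Fitting.isSubnormal_of_isNilpotent _)
    (Subgroup.Normal.isSubnormal inferInstance)

end Cfsg.Agent.S4850
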