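import Cfsg.Statements.S4856
import Cfsg.Agent.Eq.Def_Characters
import Cfsg.Agent.Chars.Basic

set_option autoImplicit false
open Cfsg

namespace Cfsg.Agent.S4856

/-- For an element z of a finite group G, the number of pairs (x, y) of elements with x y x⁻¹ y⁻¹ = z equals the order of G times the sum over the irreducible characters χ of χ(z)/χ(1). -/
theorem result {G : Type*} [Group G] [Finite G] (z : G) : (Nat.card {xy : G × G // xy.1 * xy.2 * xy.1⁻¹ * xy.2⁻¹ = z} : ℂ) = (Nat.card G : ℂ) * ∑ᶠ χ : Cfsg.IrrCharacter G, (χ : G → ℂ) z / (χ : G → ℂ) 1 := by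
  classical
  have := Fintype.ofFinite G
  let F : G → ℂ := fun w => (Nat.card {xy : G × G // xy.1 * xy.2 * xy.1⁻¹ * xy.2⁻¹ = w} : ℂ)
  have hF : Cfsg.IsClassFunction G F := fun w c => by
    simp only [F]
    congr 1
    refine Nat.card_congr (((MulAut.conj c).toEquiv.prodCongr (MulAut.conj c).toEquiv).subtypeEquiv
      fun xy => ?_).symm
    simp only [Equiv.prodCongr_apply, Prod.map_fst, Prod.map_snd, MulEquiv.toEquiv_eq_coe,
      EquivLike.coe_coe, ← map_inv, ← map_mul]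
    rw [← (MulAut.conj c).injective.eq_iff (b := w), MulAut.conj_apply c w]
  have hco : ∀ χ : Cfsg.IrrCharacter G,
      Cfsg.classInner F (χ : G → ℂ) = (Nat.card G : ℂ) / (χ : G → ℂ) 1 := by
    intro χ
    have hχ := CfsgLib.Chars.isCharacter_coe χ
    have hG : (Nat.card G : ℂ) ≠ 0 := CfsgLib.Chars.natCard_ne_zero
    have h1 : ∑ w : G, F w * (χ : G → ℂ) w⁻¹ =
        ∑ xy : G × G, (χ : G → ℂ) (xy.1 * xy.2 * xy.1⁻¹ * xy.2⁻¹)⁻¹ := by
      rw [← Finset.sum_fiberwise (s := Finset.univ)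
        (g := fun xy : G × G => xy.1 * xy.2 * xy.1⁻¹ * xy.2⁻¹)]
      refine Finset.sum_congr rfl fun w _ => ?_
      rw [Finset.sum_congr rfl (g := fun _ => (χ : G → ℂ) w⁻¹) fun xy hxy => by
        rw [(Finset.mem_filter.1 hxy).2], Finset.sum_const, nsmul_eq_mul]
      simp only [F, Nat.card_eq_fintype_card, Fintype.card_subtype]
    have hinner : ∑ x : G, (χ : G → ℂ) x * (χ : G → ℂ) x⁻¹ = (Nat.card G : ℂ) := by
      have h := CfsgLib.Chars.sum_mul_map_inv χ χ
      rwa [if_pos rfl] at h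
    rw [CfsgLib.Chars.classInner_eq_sum_map_inv _ hχ, h1, Fintype.sum_prod_type, Finset.sum_comm]
    simp only [mul_inv_rev, inv_inv]
    rw [Finset.sum_comm]
    have h2 : ∀ x : G, ∑ y : G, (χ : G → ℂ) (y * (x * (y⁻¹ * x⁻¹))) =
        (Nat.card G : ℂ) * ((χ : G → ℂ) x⁻¹ * (χ : G → ℂ) x) / (χ : G → ℂ) 1 := by
      intro x
      rw [← CfsgLib.Chars.sum_map_mul_conjugate χ x⁻¹ x]
      refine Finset.sum_congr rfl fun y _ => ?_
      rw [CfsgLib.Chars.classFunction_mul_comm (CfsgLib.Chars.isClassFunction_coe χ) x⁻¹]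
      simp only [mul_assoc]
    try simp only [mul_assoc]
    simp only [h2, ← Finset.sum_div, ← Finset.mul_sum]
    rw [Finset.sum_congr rfl fun x _ => mul_comm ((χ : G → ℂ) x⁻¹) ((χ : G → ℂ) x), hinner]
    field_simp
  show F z = _
  rw [CfsgLib.Chars.eq_sum_classInner_mul hF, CfsgLib.Chars.finsum_irr_eq_sum, Finset.mul_sum]
  refine Finset.sum_congr rfl fun χ _ => ?_
  rw [hco]
  ring

end Cfsg.Agent.S4856
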