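import Cfsg.Statements.S4864
import Cfsg.Agent.RealDegree.RealClasses

set_option autoImplicit false
open Cfsg

namespace Cfsg.Agent.S4864

/-- Let p be a prime and G a finite group such that the subgroup generated by the p-elements of G is solvable and every real-valued irreducible complex character of G has degree prime to p. Then the normalizer of a Sylow p-subgroup of G contains an element of every real conjugacy class of G: every element conjugate to its inverse is conjugate to an element of that normalizer. -/
theorem result {G : Type*} [Group G] [Finite G] (p : ℕ) [Fact p.Prime] (hsolv : Group.IsSolvable ↥(Subgroup.closure {g : G | ∃ k : ℕ, orderOf g = p ^ k})) (hreal : ∀ χ : Cfsg.IrrCharacter G, (∀ g : G, ((χ : G → ℂ) g).im = 0) → ¬ p ∣ Cfsg.charDegree (χ : G → ℂ)) (P : Sylow p G) (x : G) (hx : IsConj x x⁻¹) : ∃ y ∈ Subgroup.normalizer ((P : Subgroup G) : Set G), IsConj x y := by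
  obtain ⟨P₀, hn, hle, hP₀, hidx, hodd⟩ :=
    CfsgLib.RealDegree.exists_sylow_of_odd_residual p hsolv hreal
  exact CfsgLib.RealDegree.exists_conj_mem_normalizer p P₀ (CfsgLib.RealDegree.primeClosure 2 G)
    hP₀ hle hidx hodd hreal P hx

end Cfsg.Agent.S4864
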