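import Cfsg.Statements.S4866
import Cfsg.Agent.Eq.Def_Characters
import Cfsg.Agent.Chars.Induced.Conj
import Cfsg.Agent.Chars.Basic

set_option autoImplicit false
open Cfsg

namespace Cfsg.Agent.S4866

open CfsgLib.Chars CfsgLib.Chars.Induced
open scoped ComplexConjugate

universe u

variable {G : Type u} [Group G] (K : Subgroup G) [K.Normal]

/-- Conjugation by `g` on the classes of a normal subgroup. -/
def conjClass (g : G) : ConjClasses K → ConjClasses K :=
  ConjClasses.map (MulAut.conjNormal g : MulAut K).toMonoidHom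

theorem conjClass_mk (g : G) (x : K) :
    conjClass K g (ConjClasses.mk x) = ConjClasses.mk (MulAut.conjNormal g x) := rfl

/-- The conjugation action on classes. -/
@[reducible] def conjClassAction : MulAction G (ConjClasses K) where
  smul := conjClass K
  one_smul C := by
    obtain ⟨x, rfl⟩ := ConjClasses.mk_surjective C
    show conjClass K 1 (ConjClasses.mk x) = _
    rw [conjClass_mk]
    simp
  mul_smul g h C := by
    obtain ⟨x, rfl⟩ := ConjClasses.mk_surjective C
    show conjClass K (g * h) (ConjClasses.mk x) = conjClass K g (conjClass K h (ConjClasses.mk x))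
    rw [conjClass_mk, conjClass_mk, conjClass_mk]
    simp

/-- A class is real. -/
def IsRealClass (C : ConjClasses K) : Prop := ∀ x : K, ConjClasses.mk x = C → IsConj x x⁻¹

theorem isRealClass_mk (x : K) : IsRealClass K (ConjClasses.mk x) ↔ IsConj x x⁻¹ := by
  refine ⟨fun h => h x rfl, fun h y hy => ?_⟩
  have hxy : IsConj y x := ConjClasses.mk_eq_mk_iff_isConj.1 hy
  obtain ⟨c, hc⟩ := isConj_iff.1 hxy
  exact (hxy.trans h).trans (isConj_iff.2 ⟨c, by rw [← hc]; group⟩).symm

theorem isRealClass_conj (g : G) (x : K) (h : IsConj x x⁻¹) :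
    IsConj (MulAut.conjNormal g x) (MulAut.conjNormal g x)⁻¹ := by
  rw [← map_inv]
  exact (MulAut.conjNormal g : MulAut K).toMonoidHom.map_isConj h

theorem isRealClass_smul (g : G) {C : ConjClasses K} (h : IsRealClass K C) :
    IsRealClass K (conjClass K g C) := by
  obtain ⟨x, rfl⟩ := ConjClasses.mk_surjective C
  rw [conjClass_mk, isRealClass_mk]
  exact isRealClass_conj K g x ((isRealClass_mk K x).1 h)

/-- A real character. -/
def IsRealChar (θ : IrrCharacter K) : Prop := ∀ k : K, ((θ : K → ℂ) k).im = 0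

theorem isRealChar_conjIrr (g : G) {θ : IrrCharacter K} (h : IsRealChar K θ) :
    IsRealChar K (conjIrr g θ) := fun _ => h _

theorem iterate_eq {α : Type*} {f ι : α → α} (hι : Function.Involutive ι)
    (hc : Function.Commute f ι) {m : ℕ} (hm : Odd m) (hf : f^[m] = id) (a : α) :
    f (ι a) = a ↔ f a = a ∧ ι a = a := by
  refine ⟨fun h => ?_, fun ⟨h1, h2⟩ => by rw [h2, h1]⟩
  have h1 : (f ∘ ι)^[m] a = a := Function.iterate_fixed h m
  have hι' : ι^[2] = id := funext hι
  rw [hc.comp_iterate, Function.comp_apply] at h1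
  obtain ⟨k, rfl⟩ := hm
  rw [Function.iterate_add_apply ι (2 * k) 1, Function.iterate_mul, hι', Function.iterate_id, id_eq,
    Function.iterate_one, hf, id_eq] at h1
  rw [h1] at h
  exact ⟨h, h1⟩

variable [Fintype G]

/-- Brauer's lemma for conjugation composed with inversion. -/
theorem card_fixed_eq (g : G) :
    Nat.card {θ : IrrCharacter K // conjIrr g (conjChar θ) = θ} =
      Nat.card {C : ConjClasses K // ∀ x : K, ConjClasses.mk x = C →
        IsConj ((MulAut.conjNormal g)⁻¹ x⁻¹) x} := by
  classical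
  have := Fintype.ofFinite K
  have := Fintype.ofFinite (ConjClasses K)
  let s : K → K := fun x => (MulAut.conjNormal g : MulAut K)⁻¹ x⁻¹
  have hs : ∀ (θ : IrrCharacter K) (x : K),
      (conjIrr g (conjChar θ) : K → ℂ) x = (θ : K → ℂ) (s x) := fun θ x => by
    show conj ((θ : K → ℂ) _) = _
    rw [conj_eq_map_inv (CfsgLib.Chars.isCharacter_coe θ)]
    simp [s]
  have hinv : ∀ x y : K, IsConj x y → (IsConj (s x) x ↔ IsConj (s y) y) := by
    intro x y hxy
    have hxy' : IsConj (s x) (s y) := by
      refine ((MulAut.conjNormal g : MulAut K)⁻¹).toMonoidHom.map_isConj ?_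
      obtain ⟨c, hc⟩ := isConj_iff.1 hxy
      exact isConj_iff.2 ⟨c, by rw [← hc]; group⟩
    exact ⟨fun h => (hxy'.symm.trans h).trans hxy, fun h => (hxy'.trans h).trans hxy.symm⟩
  have h1 : ((Nat.card {θ : IrrCharacter K // conjIrr g (conjChar θ) = θ} : ℕ) : ℂ) =
      (Nat.card K : ℂ)⁻¹ * ∑ x : K, if IsConj (s x) x then
        (Nat.card (Subgroup.centralizer ({s x} : Set K)) : ℂ) else 0 := by
    have h2 : ∀ θ : IrrCharacter K, (if conjIrr g (conjChar θ) = θ then (1 : ℂ) else 0) =
        (Nat.card K : ℂ)⁻¹ * ∑ x : K, (θ : K → ℂ) (s x) * conj ((θ : K → ℂ) x) := fun θ => by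
      rw [← CfsgLib.Chars.classInner_irr]
      simp only [classInner, hs]
    rw [Nat.card_eq_fintype_card, Fintype.card_subtype, ← Finset.sum_boole]
    simp only [h2, ← Finset.mul_sum]
    rw [Finset.sum_comm]
    congr 1
    exact Finset.sum_congr rfl fun x _ => by convert sum_irr_mul_conj (s x) x using 2
  have h3 : (Nat.card K : ℂ)⁻¹ * ∑ x : K, (if IsConj (s x) x then
      (Nat.card (Subgroup.centralizer ({s x} : Set K)) : ℂ) else 0) =
      ((Nat.card {C : ConjClasses K // ∀ x : K, ConjClasses.mk x = C → IsConj (s x) x} : ℕ) : ℂ) := by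
    rw [← Finset.sum_fiberwise (s := Finset.univ) (g := fun x : K => ConjClasses.mk x), Finset.mul_sum,
      Nat.card_eq_fintype_card (α := {C : ConjClasses K // ∀ x : K, ConjClasses.mk x = C →
        IsConj (s x) x}), Fintype.card_subtype, ← Finset.sum_boole]
    refine Finset.sum_congr rfl fun C _ => ?_
    by_cases hC : ∀ x : K, ConjClasses.mk x = C → IsConj (s x) x
    · rw [if_pos hC]
      obtain ⟨y, rfl⟩ := ConjClasses.mk_surjective C
      have h4 : ∀ x : K, ConjClasses.mk x = ConjClasses.mk y →
          Nat.card (Subgroup.centralizer ({s x} : Set K)) =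
            Nat.card (Subgroup.centralizer ({y} : Set K)) := by
        intro x hx
        have hc : IsConj (s x) y := (hC x hx).trans (ConjClasses.mk_eq_mk_iff_isConj.1 hx)
        have e1 := card_carrier_mul_card_centralizer (s x)
        have e2 := card_carrier_mul_card_centralizer y
        rw [ConjClasses.mk_eq_mk_iff_isConj.2 hc, ← e2] at e1
        exact Nat.eq_of_mul_eq_mul_left (Nat.card_pos_iff.2
          ⟨⟨⟨y, ConjClasses.mem_carrier_mk⟩⟩, inferInstance⟩) e1
      rw [Finset.sum_congr rfl (g := fun _ => (Nat.card (Subgroup.centralizer ({y} : Set K)) : ℂ))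
        fun x hx => by rw [if_pos (hC x (Finset.mem_filter.1 hx).2), h4 x (Finset.mem_filter.1 hx).2],
        Finset.sum_const, nsmul_eq_mul, ← Nat.cast_mul]
      have h5 : (Finset.univ.filter fun x : K => ConjClasses.mk x = ConjClasses.mk y).card =
          Nat.card (ConjClasses.mk y).carrier := by
        rw [← Fintype.card_subtype, ← Nat.card_eq_fintype_card]
        exact Nat.card_congr (Equiv.subtypeEquivRight fun x => ConjClasses.mem_carrier_iff_mk_eq.symm)
      rw [h5, card_carrier_mul_card_centralizer, inv_mul_cancel₀ (card_subgroup_ne_zero K)]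
    · rw [if_neg hC, Finset.sum_eq_zero, mul_zero]
      intro x hx
      rw [if_neg]
      intro h
      exact hC fun z hz => (hinv x z (ConjClasses.mk_eq_mk_iff_isConj.1
        ((Finset.mem_filter.1 hx).2.trans hz.symm))).1 h
  exact_mod_cast h1.trans h3

/-- The fixed real characters and the fixed real classes of an element are equinumerous. -/
theorem card_fixed_real_eq (hodd : Odd K.index) (g : G) :
    Nat.card {θ : IrrCharacter K // IsRealChar K θ ∧ conjIrr g θ = θ} =
      Nat.card {C : ConjClasses K // IsRealClass K C ∧ conjClass K g C = C} := by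
  classical
  have hm : g ^ K.index ∈ K := K.pow_index_mem g
  have hχ : ∀ θ : IrrCharacter K, IsRealChar K θ ↔ conjChar θ = θ := fun θ =>
    ⟨fun h => Subtype.ext (funext fun k => Complex.conj_eq_iff_im.2 (h k)), fun h k => by
      rw [← Complex.conj_eq_iff_im, ← conjChar_apply, h]⟩
  have hiter : ∀ (j : ℕ) (θ : IrrCharacter K), (conjIrr g)^[j] θ = conjIrr (g ^ j) θ := by
    intro j θ
    induction j with
    | zero => rw [Function.iterate_zero, pow_zero, conjIrr_one, id_eq]
    | succ j ih => rw [Function.iterate_succ_apply', ih, pow_succ', conjIrr_mul]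
  have e1 : Nat.card {θ : IrrCharacter K // IsRealChar K θ ∧ conjIrr g θ = θ} =
      Nat.card {θ : IrrCharacter K // conjIrr g (conjChar θ) = θ} := by
    refine Nat.card_congr (Equiv.subtypeEquivRight fun θ => ?_)
    rw [iterate_eq (f := conjIrr g) (ι := conjChar) conjChar_conjChar (fun _ => rfl) hodd
      (funext fun η => (hiter _ η).trans
        (Subtype.ext (conjFun_of_mem (CfsgLib.Chars.isClassFunction_coe η) hm))), hχ, and_comm]
  let ι : ConjClasses K → ConjClasses K :=
    Quotient.lift (fun x : K => ConjClasses.mk x⁻¹) fun a b h => ConjClasses.mk_eq_mk_iff_isConj.2 <| by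
      obtain ⟨c, hc⟩ := isConj_iff.1 (h : IsConj a b)
      exact isConj_iff.2 ⟨c, by rw [← hc]; group⟩
  have hι : ∀ x : K, ι (ConjClasses.mk x) = ConjClasses.mk x⁻¹ := fun _ => rfl
  have hιinv : Function.Involutive ι := fun C => by
    obtain ⟨x, rfl⟩ := ConjClasses.mk_surjective C
    rw [hι, hι, inv_inv]
  have hcomm : Function.Commute (conjClass K g) ι := fun C => by
    obtain ⟨x, rfl⟩ := ConjClasses.mk_surjective C
    rw [hι, conjClass_mk, conjClass_mk, hι, map_inv]
  have hiterC : ∀ (j : ℕ) (x : K), (conjClass K g)^[j] (ConjClasses.mk x) =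
      ConjClasses.mk (MulAut.conjNormal (g ^ j) x) := by
    intro j x
    induction j with
    | zero => simp
    | succ j ih => rw [Function.iterate_succ_apply', ih, conjClass_mk, pow_succ', map_mul]; rfl
  rw [e1, card_fixed_eq]
  refine Nat.card_congr (Equiv.subtypeEquivRight fun C => ?_)
  obtain ⟨x, rfl⟩ := ConjClasses.mk_surjective C
  have key := iterate_eq hιinv hcomm hodd (funext fun D => by
    obtain ⟨y, rfl⟩ := ConjClasses.mk_surjective D
    rw [hiterC, id_eq, ConjClasses.mk_eq_mk_iff_isConj]
    refine (isConj_iff.2 ⟨⟨g ^ K.index, hm⟩, Subtype.ext ?_⟩).symm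
    rw [MulAut.conjNormal_apply]; rfl) (ConjClasses.mk x)
  rw [hι] at key
  have hreal : ι (ConjClasses.mk x) = ConjClasses.mk x ↔ IsConj x x⁻¹ := by
    rw [hι, ConjClasses.mk_eq_mk_iff_isConj]
    exact ⟨IsConj.symm, IsConj.symm⟩
  rw [hι] at hreal
  rw [isRealClass_mk, ← hreal, and_comm, ← key]
  have hinvc : ∀ a b : K, IsConj a b → IsConj a⁻¹ b⁻¹ := fun a b h => by
    obtain ⟨c, hc⟩ := isConj_iff.1 h
    exact isConj_iff.2 ⟨c, by rw [← hc]; group⟩
  constructor
  · intro h
    rw [conjClass_mk, ConjClasses.mk_eq_mk_iff_isConj]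
    have h2 : IsConj x⁻¹ (MulAut.conjNormal g x) := by
      have h0 := (MulAut.conjNormal g : MulAut K).toMonoidHom.map_isConj (h x rfl)
      simpa using h0
    have h3 := hinvc _ _ h2
    rw [inv_inv, ← map_inv] at h3
    exact h3.symm
  · intro h y hy
    rw [conjClass_mk, ConjClasses.mk_eq_mk_iff_isConj] at h
    have h2 : IsConj x⁻¹ ((MulAut.conjNormal g : MulAut K)⁻¹ x) := by
      have h0 := ((MulAut.conjNormal g : MulAut K)⁻¹).toMonoidHom.map_isConj h
      simpa using h0
    have hyx : IsConj y x := ConjClasses.mk_eq_mk_iff_isConj.1 hy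
    have h3 : IsConj ((MulAut.conjNormal g : MulAut K)⁻¹ y⁻¹) ((MulAut.conjNormal g : MulAut K)⁻¹ x⁻¹) :=
      ((MulAut.conjNormal g : MulAut K)⁻¹).toMonoidHom.map_isConj (hinvc _ _ hyx)
    have h4 := hinvc _ _ h2
    rw [inv_inv, ← map_inv] at h4
    exact (h3.trans h4.symm).trans hyx.symm

/-- Let K be a normal subgroup of odd index in the finite group G. Then G has as many orbits on the real-valued irreducible complex characters of K (acting by conjugation) as it has orbits on the conjugacy classes of K that are real in K; equivalently, the number of G-orbits of real-valued irreducible characters of K equals the number of G-conjugacy classes of elements of K that are conjugate in K to their inverses. -/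
theorem result {G : Type*} [Group G] [Finite G] (K : Subgroup G) [K.Normal] (hodd : Odd K.index) : Nat.card (Quot (fun θ η : {θ : Cfsg.IrrCharacter ↥K // (∀ k : ↥K, ((θ : ↥K → ℂ) k).im = 0)} => ∃ g : G, ∀ k k' : ↥K, (k' : G) = g * (k : G) * g⁻¹ → (η.1 : ↥K → ℂ) k' = (θ.1 : ↥K → ℂ) k)) = Nat.card (Quot (fun x y : {x : ↥K // IsConj x x⁻¹} => ∃ g : G, (y.1 : G) = g * x.1 * g⁻¹)) := by
  classical
  have := Fintype.ofFinite G
  let _ : MulAction G (ConjClasses K) := conjClassAction K
  let _ : MulAction G (IrrCharacter K) := CfsgLib.Chars.Induced.conjIrrAction K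
  let X := {θ : IrrCharacter K // IsRealChar K θ}
  let Y := {C : ConjClasses K // IsRealClass K C}
  let aX : MulAction G X :=
    { smul := fun g θ => ⟨g • θ.1, isRealChar_conjIrr K g θ.2⟩
      one_smul := fun θ => Subtype.ext (one_smul G θ.1)
      mul_smul := fun g h θ => Subtype.ext (mul_smul g h θ.1) }
  let aY : MulAction G Y :=
    { smul := fun g C => ⟨g • C.1, isRealClass_smul K g C.2⟩
      one_smul := fun C => Subtype.ext (one_smul G C.1)
      mul_smul := fun g h C => Subtype.ext (mul_smul g h C.1) }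
  have : Finite X := inferInstanceAs (Finite (Subtype _))
  have : Finite Y := inferInstanceAs (Finite (Subtype _))
  have : ∀ g : G, Fintype (MulAction.fixedBy X g) := fun g => Fintype.ofFinite _
  have : ∀ g : G, Fintype (MulAction.fixedBy Y g) := fun g => Fintype.ofFinite _
  have := Fintype.ofFinite (Quotient (MulAction.orbitRel G X))
  have := Fintype.ofFinite (Quotient (MulAction.orbitRel G Y))
  have hfix : ∀ g : G, Fintype.card (MulAction.fixedBy X g) = Fintype.card (MulAction.fixedBy Y g) := by
    intro g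
    rw [← Nat.card_eq_fintype_card, ← Nat.card_eq_fintype_card]
    refine Eq.trans ?_ ((card_fixed_real_eq K hodd g).trans ?_)
    · exact Nat.card_congr ⟨fun θ => ⟨θ.1.1, θ.1.2, congrArg Subtype.val θ.2⟩,
        fun θ => ⟨⟨θ.1, θ.2.1⟩, Subtype.ext θ.2.2⟩, fun _ => rfl, fun _ => rfl⟩
    · exact Nat.card_congr ⟨fun θ => ⟨⟨θ.1, θ.2.1⟩, Subtype.ext θ.2.2⟩,
        fun θ => ⟨θ.1.1, θ.1.2, congrArg Subtype.val θ.2⟩, fun _ => rfl, fun _ => rfl⟩
  have horb : Nat.card (Quotient (MulAction.orbitRel G X)) =
      Nat.card (Quotient (MulAction.orbitRel G Y)) := by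
    have hX := MulAction.sum_card_fixedBy_eq_card_orbits_mul_card_group G X
    have hY := MulAction.sum_card_fixedBy_eq_card_orbits_mul_card_group G Y
    rw [Finset.sum_congr rfl fun g _ => hfix g, hY] at hX
    rw [Nat.card_eq_fintype_card, Nat.card_eq_fintype_card]
    exact (Nat.eq_of_mul_eq_mul_right Fintype.card_pos hX).symm
  refine Eq.trans ?_ (horb.trans ?_)
  · refine Nat.card_congr (Quot.congrRight fun θ η => ?_)
    refine Iff.trans ?_ (MulAction.orbitRel_apply (G := G) (α := X) (a := θ) (b := η)).symm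
    show _ ↔ ∃ g : G, aX.smul g η = θ
    constructor
    · rintro ⟨g, hg⟩
      refine ⟨g⁻¹, Subtype.ext (Subtype.ext (funext fun k => ?_))⟩
      show conjFun K g⁻¹ (η.1 : K → ℂ) k = (θ.1 : K → ℂ) k
      rw [conjFun_apply]
      exact hg k _ (by simp [mul_assoc])
    · rintro ⟨g, hg⟩
      refine ⟨g⁻¹, fun k k' hk => ?_⟩
      rw [← congrArg (fun z : X => (z.1 : K → ℂ) k) hg]
      show _ = conjFun K g (η.1 : K → ℂ) k
      rw [conjFun_apply]
      exact congrArg (η.1 : K → ℂ) (Subtype.ext (by simp [hk]))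
  · let r := fun x y : {x : K // IsConj x x⁻¹} => ∃ g : G, (y.1 : G) = g * x.1 * g⁻¹
    let F : Quot r → Quotient (MulAction.orbitRel G Y) :=
      Quot.lift (fun x => Quotient.mk'' ⟨ConjClasses.mk x.1, (isRealClass_mk K _).2 x.2⟩)
        fun x y ⟨g, hg⟩ => Quotient.sound' (MulAction.orbitRel_apply.2 ⟨g⁻¹, Subtype.ext (by
          show conjClass K g⁻¹ (ConjClasses.mk y.1) = ConjClasses.mk x.1
          rw [conjClass_mk]
          exact congrArg ConjClasses.mk (Subtype.ext (by simp [hg, mul_assoc])))⟩)
    refine (Nat.card_eq_of_bijective F ⟨?_, ?_⟩).symm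
    · intro a b hab
      induction a using Quot.ind with
      | _ x =>
        induction b using Quot.ind with
        | _ y =>
          obtain ⟨g, hg⟩ := MulAction.orbitRel_apply.1 (Quotient.exact' hab)
          have hg' : ConjClasses.mk (MulAut.conjNormal g y.1) = ConjClasses.mk x.1 :=
            congrArg Subtype.val hg
          obtain ⟨c, hc⟩ := isConj_iff.1 (ConjClasses.mk_eq_mk_iff_isConj.1 hg')
          refine Quot.sound ⟨((c : G) * g)⁻¹, ?_⟩
          rw [← hc]
          simp [mul_assoc]
    · intro q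
      induction q using Quotient.inductionOn' with
      | _ C =>
        obtain ⟨x, hx⟩ := ConjClasses.mk_surjective C.1
        exact ⟨Quot.mk _ ⟨x, C.2 x hx⟩, congrArg Quotient.mk'' (Subtype.ext hx)⟩

end Cfsg.Agent.S4866
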