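import Cfsg.Statements.S4870
import Cfsg.Agent.Chars.Basic
import Cfsg.Agent.Chars.Induced.Relative
import Cfsg.Agent.Chars.Induced.Clifford

set_option autoImplicit false
open Cfsg

namespace Cfsg.Agent.S4870

open CfsgLib.Chars

/-- The linear characters that are trivial on a subgroup are at most as many as its index. -/
theorem card_ker_le {G : Type*} [Group G] [Finite G] (I : Subgroup G) :
    Nat.card (MonoidHom.ker (MonoidHom.compHom' (P := ℂˣ) I.subtype)) ≤ I.index := by
  classical
  have : Fintype (G ⧸ I) := Fintype.ofFinite _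
  let K := MonoidHom.ker (MonoidHom.compHom' (P := ℂˣ) I.subtype)
  let F : K → (G ⧸ I → ℂ) := fun l => fun q => ((l.1 q.out : ℂˣ) : ℂ)
  let π : (G ⧸ I → ℂ) →ₗ[ℂ] (G → ℂ) := LinearMap.funLeft ℂ ℂ (QuotientGroup.mk : G → G ⧸ I)
  have hπ : π ∘ F = (fun f : G →* ℂ => (f : G → ℂ)) ∘
      (fun l : K => (Units.coeHom ℂ).comp l.1) := by
    funext l g
    obtain ⟨i, hi⟩ := QuotientGroup.mk_out_eq_mul I g
    have h1 : l.1 (i : G) = 1 := DFunLike.congr_fun l.2 i
    simp [π, F, LinearMap.funLeft_apply, hi, h1]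
  have hli : LinearIndependent ℂ F := by
    refine LinearIndependent.of_comp π (hπ ▸ (linearIndependent_monoidHom G ℂ).comp _ ?_)
    intro l m h
    refine Subtype.ext (MonoidHom.ext fun g => Units.ext ?_)
    exact DFunLike.congr_fun h g
  have hfin : Finite K := hli.finite
  have : Fintype K := Fintype.ofFinite K
  have h := hli.fintype_card_le_finrank
  rwa [Module.finrank_fintype_fun_eq_card, ← Nat.card_eq_fintype_card, ← Nat.card_eq_fintype_card,
    ← Subgroup.index_eq_card] at h

/-- Let G be a finite group with a non-abelian minimal normal subgroup N, and let φ be an irreducible complex character of N with stabilizer I in G (the elements g with φ(g n g⁻¹) = φ(n) for all n ∈ N) such that φ extends to an irreducible character of I. Put d = φ(1)·[G : I]. Then the number of linear characters of G is at most [G : I] times the number of irreducible characters of G of degree d. -/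
theorem result {G : Type*} [Group G] [Finite G] (N : Subgroup G) (hN : N.Normal) (hN1 : N ≠ ⊥) (hmin : ∀ M : Subgroup G, M.Normal → M ≤ N → M = ⊥ ∨ M = N) (hna : ¬ IsMulCommutative ↥N) (φ : Cfsg.IrrCharacter ↥N) (I : Subgroup G) (hI : ∀ g : G, g ∈ I ↔ ∀ n n' : ↥N, (n' : G) = g * (n : G) * g⁻¹ → (φ : ↥N → ℂ) n' = (φ : ↥N → ℂ) n) (hNI : N ≤ I) (hext : ∃ ψ : Cfsg.IrrCharacter ↥I, ∀ n : ↥N, (ψ : ↥I → ℂ) (Subgroup.inclusion hNI n) = (φ : ↥N → ℂ) n) : Nat.card {χ : Cfsg.IrrCharacter G // Cfsg.charDegree (χ : G → ℂ) = 1} ≤ I.index * Nat.card {χ : Cfsg.IrrCharacter G // Cfsg.charDegree (χ : G → ℂ) = Cfsg.charDegree (φ : ↥N → ℂ) * I.index} := by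
  classical
  have := Fintype.ofFinite G
  have := Fintype.ofFinite I
  have := Fintype.ofFinite N
  obtain ⟨ψ, hψ⟩ := hext
  have hI' : I = CfsgLib.Chars.Induced.inertia N (φ : N → ℂ) :=
    Subgroup.ext fun g => (hI g).trans CfsgLib.Chars.Induced.mem_inertia_iff_forall.symm
  have hNN : ⁅N, N⁆ = N := by
    refine (hmin _ inferInstance (Subgroup.commutator_le_left N N)).resolve_left fun h => hna ?_
    refine ⟨⟨fun a b => Subtype.ext ?_⟩⟩
    have h1 := Subgroup.commutator_mem_commutator a.2 b.2
    rw [h, Subgroup.mem_bot] at h1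
    exact commutatorElement_eq_one_iff_mul_comm.1 h1
  have hlN : ∀ (l : G →* ℂˣ) (n : N), l (n : G) = 1 := fun l n => by
    refine Abelianization.commutator_subset_ker l ?_
    rw [commutator_def]
    have h2 := n.2
    nth_rw 1 [← hNN] at h2
    exact Subgroup.commutator_mono le_top le_top h2
  let res : (G →* ℂˣ) →* (I →* ℂˣ) := MonoidHom.compHom' I.subtype
  let P : (G →* ℂˣ) → IrrCharacter I := fun l =>
    ⟨_, isIrrCharacter_linear_mul ψ.2 (l.comp I.subtype)⟩
  have hP : ∀ l g, (P l : I → ℂ) g = (l (g : G) : ℂ) * (ψ : I → ℂ) g := fun l g => rfl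
  have hPN : ∀ l, (fun n : N => (P l : I → ℂ) (Subgroup.inclusion hNI n)) = (φ : N → ℂ) := fun l => by
    funext n
    rw [hP, Subgroup.coe_inclusion, hlN, hψ, Units.val_one, one_mul]
  have hmult : ∀ l, CfsgLib.Chars.Induced.mult
      (fun n : N => (P l : I → ℂ) (Subgroup.inclusion hNI n)) φ ≠ 0 := fun l => by
    rw [hPN, CfsgLib.Chars.Induced.mult_irr, if_pos rfl]
    exact one_ne_zero
  let T : (G →* ℂˣ) → {χ : Cfsg.IrrCharacter G // Cfsg.charDegree (χ : G → ℂ) =
      Cfsg.charDegree (φ : ↥N → ℂ) * I.index} := fun l =>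
    ⟨⟨_, CfsgLib.Chars.Induced.isIrrCharacter_indFun_inertia hI' hNI (P l) (hmult l)⟩, by
      refine charDegree_eq_of_map_one ?_
      show indFun I (P l : I → ℂ) 1 = _
      rw [CfsgLib.Chars.Induced.indFun_one_apply, hP, OneMemClass.coe_one, map_one, Units.val_one,
        one_mul, Nat.cast_mul, coe_charDegree, ← hψ 1, map_one]
      ring⟩
  -- the product with the extension remembers the linear character on `I`
  have hinj : ∀ l m, P l = P m → res l = res m := by
    intro l m h
    refine MonoidHom.ext fun g => Units.ext ?_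
    let N' := N.subgroupOf I
    have := Fintype.ofFinite N'
    let e : N ≃* N' := (Subgroup.subgroupOfEquivOfLe hNI).symm
    have hθ : ∀ n : N', (ψ : I → ℂ) n = (irrEquiv e φ : N' → ℂ) n := fun n => by
      rw [irrEquiv_apply, ← hψ]
      rfl
    have havg := CfsgLib.Chars.Induced.avg_norm_sq ψ (irrEquiv e φ) hθ g
    obtain ⟨n, hn⟩ : ∃ n : N', (ψ : I → ℂ) ((n : I) * g) ≠ 0 := by
      by_contra h0
      push Not at h0
      simp [h0] at havg
    have h1 := congrFun (congrArg Subtype.val h) ((n : I) * g)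
    rw [hP, hP] at h1
    have h2 := mul_right_cancel₀ hn h1
    simp only [Subgroup.coe_mul, map_mul] at h2
    have hn1 : ∀ l' : G →* ℂˣ, l' ((n : I) : G) = 1 := fun l' => hlN l' ⟨_, n.2⟩
    rw [hn1 l, hn1 m, one_mul, one_mul] at h2
    exact h2
  have hT : ∀ l m, T l = T m → res l = res m := fun l m h => hinj l m
    (CfsgLib.Chars.Induced.indFun_inertia_injective hI' hNI _ _ (hmult l) (hmult m)
      (congrArg Subtype.val (congrArg Subtype.val h)))
  have hsurj : ∀ r : res.range, ∃ l, res l = r := fun r => r.2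
  choose sec hsec using hsurj
  have hrange := Nat.card_le_card_of_injective (fun r => T (sec r)) fun r r' h =>
    Subtype.ext ((hsec r).symm.trans ((hT _ _ h).trans (hsec r')))
  rw [Nat.card_congr (Equiv.subtypeEquivRight (charDegree_eq_one_iff (G := G))),
    ← Nat.card_congr (linCharEquiv (G := G)), ← res.ker.index_mul_card, Subgroup.index_ker,
    mul_comm I.index]
  exact Nat.mul_le_mul hrange (card_ker_le I)

end Cfsg.Agent.S4870
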