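import Cfsg.Statements.S4871
import Cfsg.Agent.StronglyRealAverage.Main
-- import your own Cfsg.Agent.* helpers here

set_option autoImplicit false
open Cfsg

namespace Cfsg.Agent.S4871

/-- Let G be a finite group that is the semidirect product of a normal elementary abelian subgroup N of odd order by a non-trivial 2-subgroup P, with N the unique minimal normal subgroup of G. Consider the strongly real irreducible complex characters of G (Frobenius–Schur indicator +1) whose degree is 1 or even. Then their average degree is at least 4/3: four times their number is at most three times the sum of their degrees. -/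
theorem result {G : Type*} [Group G] [Finite G] (N P : Subgroup G) (hN : N.Normal) (q : ℕ) [Fact q.Prime] (hq : q ≠ 2) (hNel : Cfsg.IsElementaryAbelian q N) (hP : IsPGroup 2 ↥P) (hP1 : P ≠ ⊥) (hdisj : N ⊓ P = ⊥) (hprod : N ⊔ P = ⊤) (hmin : N ≠ ⊥ ∧ ∀ M : Subgroup G, M.Normal → M ≠ ⊥ → N ≤ M) : 4 * Nat.card {χ : Cfsg.IrrCharacter G // (Cfsg.charDegree (χ : G → ℂ) = 1 ∨ 2 ∣ Cfsg.charDegree (χ : G → ℂ)) ∧ (Nat.card G : ℂ)⁻¹ * ∑ᶠ g : G, (χ : G → ℂ) (g * g) = 1} ≤ 3 * (∑ᶠ χ : {χ : Cfsg.IrrCharacter G // (Cfsg.charDegree (χ : G → ℂ) = 1 ∨ 2 ∣ Cfsg.charDegree (χ : G → ℂ)) ∧ (Nat.card G : ℂ)⁻¹ * ∑ᶠ g : G, (χ : G → ℂ) (g * g) = 1}, Cfsg.charDegree (χ.1 : G → ℂ)) := by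
  
  classical
  have := Fintype.ofFinite G
  haveI := hN
  haveI : Fintype N := Fintype.ofFinite N
  obtain ⟨hab, hpow⟩ := hNel
  obtain ⟨π, hπ, hπN, hπm⟩ := CfsgLib.StronglyRealAverage.exists_proj hdisj hprod
  -- faithfulness
  have hdec : ∀ g : G, ∃ n ∈ N, ∃ h ∈ P, n * h = g := fun g =>
    Subgroup.mem_sup_of_normal_left.1 (hprod ▸ Subgroup.mem_top g : g ∈ N ⊔ P)
  have hfaith : ∀ h : P, (∀ n ∈ N, (h : G) * n = n * h) → h = 1 := by
    intro h hh
    have hKn : (P ⊓ Subgroup.centralizer (N : Set G)).Normal := by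
      refine ⟨fun k hk g => ?_⟩
      obtain ⟨n, hn, y, hy, rfl⟩ := hdec g
      have h1 : y * k * y⁻¹ ∈ P := P.mul_mem (P.mul_mem hy hk.1) (P.inv_mem hy)
      have h2 : y * k * y⁻¹ ∈ Subgroup.centralizer (N : Set G) :=
        (inferInstance : (Subgroup.centralizer (N : Set G)).Normal).conj_mem _ hk.2 _
      have h3 : n * (y * k * y⁻¹) * n⁻¹ = y * k * y⁻¹ := by
        rw [Subgroup.mem_centralizer_iff.1 h2 n hn, mul_inv_cancel_right]
      rw [show n * y * k * (n * y)⁻¹ = n * (y * k * y⁻¹) * n⁻¹ by group, h3]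
      exact ⟨h1, h2⟩
    by_contra hne
    refine hmin.1 (eq_bot_iff.2 ?_)
    rw [← hdisj]
    refine le_inf le_rfl ((hmin.2 _ hKn fun hb => hne ?_).trans inf_le_left)
    have : (h : G) ∈ P ⊓ Subgroup.centralizer (N : Set G) :=
      ⟨h.2, Subgroup.mem_centralizer_iff.2 fun n hn => (hh n hn).symm⟩
    rw [hb, Subgroup.mem_bot] at this
    exact Subtype.ext this
  -- central involution
  haveI : Nontrivial P := (Subgroup.nontrivial_iff_ne_bot P).2 hP1
  have hZ := hP.center_nontrivial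
  obtain ⟨⟨z₀, hz₀c⟩, hz₀⟩ := exists_ne (1 : Subgroup.center P)
  obtain ⟨k, hk⟩ := IsPGroup.iff_orderOf.1 (hP.to_subgroup (Subgroup.center P)) ⟨z₀, hz₀c⟩
  obtain ⟨z, hzc, hz1, hz2⟩ : ∃ z : P, (∀ h : P, h * z = z * h) ∧ z ≠ 1 ∧ z * z = 1 := by
    have hk0 : k ≠ 0 := by
      rintro rfl
      exact hz₀ (orderOf_eq_one_iff.1 (by simpa using hk))
    obtain ⟨j, rfl⟩ := Nat.exists_eq_succ_of_ne_zero hk0
    refine ⟨z₀ ^ 2 ^ j, fun h => Subgroup.mem_center_iff.1 (Subgroup.pow_mem _ hz₀c _) h, ?_, ?_⟩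
    · intro h
      have h1 : orderOf (⟨z₀, hz₀c⟩ : Subgroup.center P) ∣ 2 ^ j :=
        orderOf_dvd_of_pow_eq_one (Subtype.ext (by simpa using h))
      rw [hk] at h1
      have := Nat.le_of_dvd (by positivity) h1
      rw [pow_succ] at this
      have : 0 < 2 ^ j := by positivity
      omega
    · rw [← pow_two, ← pow_mul, ← pow_succ]
      have := pow_orderOf_eq_one (⟨z₀, hz₀c⟩ : Subgroup.center P)
      rw [hk] at this
      simpa using congrArg Subtype.val this
  have hzz : (z : G) * z = 1 := by exact_mod_cast congrArg Subtype.val hz2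
  -- z inverts N
  have hfix : ∀ n ∈ N, (z : G) * n = n * z → n = 1 := by
    let K : Subgroup G := N ⊓ Subgroup.centralizer {(z : G)}
    have hKn : K.Normal := by
      refine ⟨fun m hm g => ?_⟩
      obtain ⟨n, hn, y, hy, rfl⟩ := hdec g
      have hmN : y * m * y⁻¹ ∈ N := hN.conj_mem _ hm.1 _
      have e : n * (y * m * y⁻¹) * n⁻¹ = y * m * y⁻¹ := by
        rw [show n * (y * m * y⁻¹) = y * m * y⁻¹ * n from
          congrArg Subtype.val (hab.is_comm.comm (⟨n, hn⟩ : N) ⟨_, hmN⟩), mul_inv_cancel_right]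
      rw [show n * y * m * (n * y)⁻¹ = n * (y * m * y⁻¹) * n⁻¹ by group, e]
      refine ⟨hmN, Subgroup.mem_centralizer_singleton_iff.2 ?_⟩
      have hyz : y * z = z * y := congrArg Subtype.val (hzc ⟨y, hy⟩)
      have hmz : m * z = z * m := Subgroup.mem_centralizer_singleton_iff.1 hm.2
      have hyz' : y⁻¹ * (z : G) = z * y⁻¹ := by
        rw [inv_mul_eq_iff_eq_mul, ← mul_assoc, hyz, mul_inv_cancel_right]
      calc y * m * y⁻¹ * z = y * m * (y⁻¹ * z) := by group
        _ = y * (m * z) * y⁻¹ := by rw [hyz']; group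
        _ = (y * z) * m * y⁻¹ := by rw [hmz]; group
        _ = z * (y * m * y⁻¹) := by rw [hyz]; group
    intro n hn hzn
    by_contra hne
    have hK : N ≤ K := hmin.2 K hKn fun hb => hne (by
      have : n ∈ K := ⟨hn, Subgroup.mem_centralizer_singleton_iff.2 hzn.symm⟩
      rwa [hb, Subgroup.mem_bot] at this)
    exact hz1 (hfaith z fun m hm => (Subgroup.mem_centralizer_singleton_iff.1 (hK hm).2).symm)
  have hzinv : ∀ n : N, (z : G) * n * (z : G)⁻¹ = (n : G)⁻¹ := by
    intro n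
    have hzi : (z : G)⁻¹ = z := inv_eq_of_mul_eq_one_right hzz
    have hcN : (z : G) * n * (z : G)⁻¹ ∈ N := hN.conj_mem _ n.2 _
    refine eq_inv_of_mul_eq_one_left (hfix _ (N.mul_mem hcN n.2) ?_)
    have hc : (z : G) * n * (z : G)⁻¹ * n = n * ((z : G) * n * (z : G)⁻¹) :=
      congrArg Subtype.val (hab.is_comm.comm (⟨_, hcN⟩ : N) n)
    rw [hzi] at hc ⊢
    calc (z : G) * (z * n * z * n) = ((z : G) * z) * (n * z * n) := by group
      _ = (n * (z * n * z)) * z := by
          rw [hzz, one_mul]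
          calc (n : G) * z * n = n * z * n * (z * z) := by rw [hzz, mul_one]
            _ = _ := by group
      _ = (z * n * z * n) * z := by rw [hc]
  -- a non-trivial linear character
  haveI := hab
  obtain ⟨⟨n₀, hn₀⟩, hn₀1⟩ : ∃ n : N, n ≠ 1 := by
    haveI := (Subgroup.nontrivial_iff_ne_bot N).2 hmin.1
    exact exists_ne 1
  obtain ⟨l, hl⟩ : ∃ l : N →* ℂˣ, l ⟨n₀, hn₀⟩ ≠ 1 := by
    letI : CommGroup N := { (inferInstance : Group N) with mul_comm := hab.is_comm.comm }
    exact CommGroup.exists_apply_ne_one_of_hasEnoughRootsOfUnity N ℂ hn₀1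
  have hodd : ∀ (f : N →* ℂˣ), (∀ n, f n * f n = 1) → ∀ n, f n = 1 := by
    intro f hf n
    have h1 : f n ^ q = 1 := by
      rw [← map_pow, show n ^ q = 1 from Subtype.ext (by simpa using hpow n n.2), map_one]
    have h2 : f n ^ 2 = 1 := by rw [pow_two, hf]
    have h3 := pow_gcd_eq_one.2 ⟨h1, h2⟩
    rwa [(Nat.coprime_primes Fact.out Nat.prime_two).2 hq, pow_one] at h3
  set H := CfsgLib.StronglyRealAverage.stab P l with hH
  have hzH : z ∉ H := by
    intro hz
    refine hl (hodd l (fun n => ?_) _)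
    have h1 := hz n
    rw [show (⟨(z : G) * n * (z : G)⁻¹, hN.conj_mem _ n.2 _⟩ : N) = n⁻¹ from
      Subtype.ext (hzinv n), map_inv] at h1
    exact inv_eq_iff_mul_eq_one.1 h1
  set T := H.comap π with hT
  haveI : Fintype T := Fintype.ofFinite T
  have hNT : N ≤ T := fun n hn => by
    rw [hT, Subgroup.mem_comap, hπN n hn]; exact H.one_mem
  have hin : T = CfsgLib.Chars.Induced.inertia N
      ((CfsgLib.Chars.linChar l : IrrCharacter N) : N → ℂ) :=
    CfsgLib.StronglyRealAverage.inertia_eq hπm hab l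
  let ψ : CfsgLib.StronglyRealAverage.RealLin H → IrrCharacter T := fun θ =>
    CfsgLib.Chars.linChar (CfsgLib.StronglyRealAverage.ext hπm l θ.1)
  have hψn : ∀ θ, (fun n : N => (ψ θ : T → ℂ) (Subgroup.inclusion hNT n)) =
      ((CfsgLib.Chars.linChar l : IrrCharacter N) : N → ℂ) := by
    intro θ
    funext n
    show ((l _ * θ.1 _ : ℂˣ) : ℂ) = (l n : ℂ)
    have a1 : (⟨(n : G) * (π n : G)⁻¹, hπm n⟩ : N) = n :=
      Subtype.ext (by simp [hπN _ n.2])
    have a2 : (⟨π (n : G), by rw [hπN _ n.2]; exact H.one_mem⟩ : H) = 1 :=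
      Subtype.ext (hπN _ n.2)
    have a3 := congrArg₂ (fun x y => ((l x * θ.1 y : ℂˣ) : ℂ)) a1 a2
    exact a3.trans (by simp)
  have hmult : ∀ θ, CfsgLib.Chars.Induced.mult
      (fun n : N => (ψ θ : T → ℂ) (Subgroup.inclusion hNT n))
      ((CfsgLib.Chars.linChar l : IrrCharacter N) : N → ℂ) ≠ 0 := fun θ => by
    rw [hψn, CfsgLib.Chars.Induced.mult_irr, if_pos rfl]; exact one_ne_zero
  let χ : CfsgLib.StronglyRealAverage.RealLin H → IrrCharacter G := fun θ =>
    ⟨_, CfsgLib.Chars.Induced.isIrrCharacter_indFun_inertia hin hNT (ψ θ) (hmult θ)⟩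
  have hχinj : Function.Injective χ := by
    intro a b hab'
    have h1 := CfsgLib.Chars.Induced.indFun_inertia_injective hin hNT (ψ a) (ψ b) (hmult a)
      (hmult b) (congrArg Subtype.val hab')
    have h2 := CfsgLib.Chars.linChar_injective h1
    refine Subtype.ext (MonoidHom.ext fun h => ?_)
    have hm : ((h : P) : G) ∈ T := by rw [hT, Subgroup.mem_comap, hπ]; exact h.2
    have h3 : (l _ * a.1 _) = (l _ * b.1 _) := DFunLike.congr_fun h2 ⟨_, hm⟩
    have e : (⟨π ((h : P) : G), hm⟩ : H) = h := Subtype.ext (hπ _)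
    have h4 := mul_left_cancel h3
    rwa [e] at h4
  have hdeg : ∀ θ, charDegree (χ θ : G → ℂ) = H.index := by
    intro θ
    unfold charDegree
    show ⌊(indFun T (ψ θ : T → ℂ) 1).re⌋₊ = _
    rw [CfsgLib.Chars.Induced.indFun_one_apply, CfsgLib.Chars.linChar_map_one, mul_one,
      Complex.natCast_re, Nat.floor_natCast]
    exact H.index_comap_of_surjective fun h => ⟨h, hπ h⟩
  have h2t : 2 ∣ H.index := by
    obtain ⟨a, ha⟩ := hP.index H
    rcases Nat.eq_zero_or_pos a with rfl | ha0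
    · exact absurd (Subgroup.index_eq_one.1 (by simpa using ha) ▸ Subgroup.mem_top z) hzH
    · rw [ha]; exact dvd_pow_self 2 ha0.ne'
  have hν : ∀ θ, (Nat.card G : ℂ)⁻¹ * ∑ᶠ g : G, (χ θ : G → ℂ) (g * g) = 1 := by
    intro θ
    rw [finsum_eq_sum_of_fintype]
    exact CfsgLib.StronglyRealAverage.indicator_indFun hπ hπN hπm hab hzc hz2 hzinv θ
  set pr : IrrCharacter G → Prop := fun χ =>
    (charDegree (χ : G → ℂ) = 1 ∨ 2 ∣ charDegree (χ : G → ℂ)) ∧
      (Nat.card G : ℂ)⁻¹ * ∑ᶠ g : G, (χ : G → ℂ) (g * g) = 1 with hpr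
  haveI : Finite (IrrCharacter G) := inferInstance
  letI := Fintype.ofFinite (Subtype pr)
  change 4 * Nat.card (Subtype pr) ≤ 3 * ∑ᶠ χ : Subtype pr, charDegree (χ.1 : G → ℂ)
  rw [finsum_eq_sum_of_fintype, Nat.card_eq_fintype_card, ← Finset.card_univ]
  set A := (Finset.univ : Finset (Subtype pr)).filter fun c => charDegree (c.1 : G → ℂ) = 1
    with hA
  set B := (Finset.univ : Finset (Subtype pr)).filter fun c => ¬ charDegree (c.1 : G → ℂ) = 1
    with hB
  rw [← Finset.sum_filter_add_sum_filter_not Finset.univ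
    (fun c : Subtype pr => charDegree (c.1 : G → ℂ) = 1),
    ← Finset.card_filter_add_card_filter_not (s := Finset.univ)
    (fun c : Subtype pr => charDegree (c.1 : G → ℂ) = 1), ← hA, ← hB]
  have hsA : ∑ c ∈ A, charDegree (c.1 : G → ℂ) = A.card := by
    rw [Finset.card_eq_sum_ones]
    exact Finset.sum_congr rfl fun c hc => (Finset.mem_filter.1 hc).2
  have hsB : 2 * B.card ≤ ∑ c ∈ B, charDegree (c.1 : G → ℂ) := by
    rw [mul_comm, ← smul_eq_mul]
    refine B.card_nsmul_le_sum _ _ fun c hc => ?_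
    rcases c.2.1 with h | h
    · exact absurd h (Finset.mem_filter.1 hc).2
    · refine Nat.le_of_dvd (Nat.pos_of_ne_zero ?_) h
      obtain ⟨d, hd0, hd⟩ := CfsgLib.Chars.exists_pos_natCast_map_one c.1.2
      unfold charDegree
      rw [hd, Complex.natCast_re, Nat.floor_natCast]
      exact hd0.ne'
  haveI := CfsgLib.StronglyRealAverage.finite_hom H
  haveI := CfsgLib.StronglyRealAverage.finite_hom P
  letI := Fintype.ofFinite (CfsgLib.StronglyRealAverage.RealLin H)
  have ht2 : 2 ≤ H.index := Nat.le_of_dvd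
    (Nat.pos_of_ne_zero Subgroup.index_ne_zero_of_finite) h2t
  let emb : CfsgLib.StronglyRealAverage.RealLin H → Subtype pr := fun θ =>
    ⟨χ θ, Or.inr ((hdeg θ).symm ▸ h2t), hν θ⟩
  have hLB : H.index * Nat.card (CfsgLib.StronglyRealAverage.RealLin H) ≤
      ∑ c ∈ B, charDegree (c.1 : G → ℂ) := by
    have hsub : Finset.univ.image emb ⊆ B := by
      intro c hc
      obtain ⟨θ, -, rfl⟩ := Finset.mem_image.1 hc
      refine Finset.mem_filter.2 ⟨Finset.mem_univ _, ?_⟩
      show ¬ charDegree (χ θ : G → ℂ) = 1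
      rw [hdeg]; omega
    refine le_trans ?_ (Finset.sum_le_sum_of_subset hsub)
    rw [Finset.sum_image fun a _ b _ h => hχinj (congrArg Subtype.val h),
      Finset.sum_congr rfl fun θ _ => hdeg θ, Finset.sum_const, smul_eq_mul, Finset.card_univ,
      Nat.card_eq_fintype_card, mul_comm]
  have hAL : A.card ≤ Nat.card (CfsgLib.StronglyRealAverage.RealLin P) := by
    have hlin : ∀ c : A, ∃ f : G →* ℂˣ, CfsgLib.Chars.linChar f = c.1.1 ∧
        ∀ g, f g * f g = 1 := by
      intro c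
      have h1 := (Finset.mem_filter.1 c.2).2
      obtain ⟨d, -, hd⟩ := CfsgLib.Chars.exists_pos_natCast_map_one c.1.1.2
      unfold charDegree at h1
      rw [hd, Complex.natCast_re, Nat.floor_natCast] at h1
      obtain ⟨f, hf⟩ := CfsgLib.Chars.exists_linChar_eq c.1.1 (by rw [hd, h1, Nat.cast_one])
      refine ⟨f, hf, ?_⟩
      by_contra hne
      have hν' := c.1.2.2
      rw [← hf, finsum_eq_sum_of_fintype] at hν'
      simp only [CfsgLib.Chars.linChar_apply, map_mul] at hν'
      have h0 : ∑ g : G, ((Units.coeHom ℂ).comp (f * f)) g = 0 := by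
        refine sum_hom_units_eq_zero _ fun h => hne fun g => ?_
        exact Units.ext (DFunLike.congr_fun h g)
      simp only [MonoidHom.coe_comp, Function.comp_apply, MonoidHom.mul_apply,
        Units.coeHom_apply] at h0
      rw [h0, mul_zero] at hν'
      exact zero_ne_one hν'
    choose f hf hf2 using hlin
    refine le_trans (le_of_eq (Nat.card_eq_finsetCard A).symm) (Nat.card_le_card_of_injective
      (fun c : A => (⟨(f c).comp P.subtype, fun x => hf2 c x⟩ :
        CfsgLib.StronglyRealAverage.RealLin P)) fun a b h => ?_)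
    have hfe : f a = f b := by
      refine MonoidHom.ext fun g => ?_
      obtain ⟨n, hn, y, hy, rfl⟩ := hdec g
      have hn1 : ∀ c, f c n = 1 := fun c =>
        hodd ((f c).comp N.subtype) (fun m => hf2 c m) ⟨n, hn⟩
      rw [map_mul, map_mul, hn1, hn1]
      exact congrArg _ (DFunLike.congr_fun (congrArg Subtype.val h) ⟨y, hy⟩)
    exact Subtype.ext (Subtype.ext ((hf a).symm.trans ((congrArg _ hfe).trans (hf b))))
  have hPH := CfsgLib.StronglyRealAverage.card_realLin_le H
  omega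

end Cfsg.Agent.S4871
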