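import Cfsg.Statements.S4873
import Cfsg.Agent.OddIndexReal.Basic

set_option autoImplicit false
open Cfsg

namespace Cfsg.Agent.S4873

/-- Let N be a normal subgroup of odd index in the finite group G. Then every irreducible complex character of N with Frobenius–Schur indicator +1 lies under exactly one irreducible character of G with Frobenius–Schur indicator +1. -/
theorem result {G : Type*} [Group G] [Finite G] (N : Subgroup G) [N.Normal] (hodd : Odd N.index) (φ : Cfsg.IrrCharacter ↥N) (hφ : (Nat.card ↥N : ℂ)⁻¹ * ∑ᶠ g : ↥N, (φ : ↥N → ℂ) (g * g) = 1) : ∃! χ : Cfsg.IrrCharacter G, (Nat.card G : ℂ)⁻¹ * ∑ᶠ g : G, (χ : G → ℂ) (g * g) = 1 ∧ (∑ᶠ n : ↥N, (χ : G → ℂ) n * (starRingEnd ℂ) ((φ : ↥N → ℂ) n)) ≠ 0 := by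
  classical
  have := Fintype.ofFinite G
  have := Fintype.ofFinite N
  have hφ' : CfsgLib.FrobSchur.indicator (φ : N → ℂ) = 1 := by
    rw [CfsgLib.FrobSchur.indicator_eq_finsum]; exact hφ
  refine (existsUnique_congr fun χ => ?_).1
    (CfsgLib.OddIndexReal.existsUnique_indicator_one φ hodd hφ')
  refine and_congr (by rw [CfsgLib.FrobSchur.indicator_eq_finsum]) ?_
  rw [CfsgLib.Chars.Induced.mult_ne_zero_iff
      (CfsgLib.Chars.isCharacter_restrict (CfsgLib.Chars.isCharacter_coe χ) N) φ,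
    Cfsg.classInner, finsum_eq_sum_of_fintype, mul_ne_zero_iff,
    and_iff_right (inv_ne_zero (Nat.cast_ne_zero.2 Nat.card_pos.ne'))]

end Cfsg.Agent.S4873
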