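import Cfsg.Statements.S4886
import Cfsg.Agent.PQDegrees.Main
import Cfsg.Agent.Blocks.PrincipalSolvable
import Cfsg.Agent.Blocks.PrincipalLinear
-- import your own Cfsg.Agent.* helpers here

set_option autoImplicit false
open Cfsg

namespace Cfsg.Agent.S4886

/-- Let p ≠ q be primes and G a finite group that is p-solvable and q-solvable. Fix maximal ideals of the algebraic integers containing p and q, defining the principal p-block and the principal q-block. Then every irreducible character of degree prime to p in the principal p-block has degree prime to q and every irreducible character of degree prime to q in the principal q-block has degree prime to p, if and only if some Sylow p-subgroup of G commutes elementwise with some Sylow q-subgroup. -/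
theorem result {G : Type*} [Group G] [Finite G] (p q : ℕ) [Fact p.Prime] [Fact q.Prime] (hpq : p ≠ q) (Mp Mq : Ideal Cfsg.AlgInt) (hMp : Cfsg.IsPModular p Mp) (hMq : Cfsg.IsPModular q Mq) (hps : Cfsg.IsPSolvable p G) (hqs : Cfsg.IsPSolvable q G) : ((∀ χ : Cfsg.IrrCharacter G, χ ∈ Cfsg.principalBlock Mp G → ¬ p ∣ Cfsg.charDegree (χ : G → ℂ) → ¬ q ∣ Cfsg.charDegree (χ : G → ℂ)) ∧ (∀ χ : Cfsg.IrrCharacter G, χ ∈ Cfsg.principalBlock Mq G → ¬ q ∣ Cfsg.charDegree (χ : G → ℂ) → ¬ p ∣ Cfsg.charDegree (χ : G → ℂ))) ↔ ∃ (P : Sylow p G) (Q : Sylow q G), ∀ x ∈ (P : Subgroup G), ∀ y ∈ (Q : Subgroup G), x * y = y * x := by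
  

  have key : ∀ (r s : ℕ) [Fact r.Prime] [Fact s.Prime], r ≠ s → ∀ (M : Ideal Cfsg.AlgInt),
      Cfsg.IsPModular r M → Cfsg.IsPSolvable r G → Cfsg.IsPSolvable s G →
      ((∀ χ : Cfsg.IrrCharacter G, χ ∈ Cfsg.principalBlock M G →
        ¬ r ∣ Cfsg.charDegree (χ : G → ℂ) → ¬ s ∣ Cfsg.charDegree (χ : G → ℂ)) ↔
        ¬ s ∣ Nat.card (G ⧸ Cfsg.pPrimeCore r G)) := by
    intro r s _ _ hrs M hM hr hs
    refine ⟨fun h => ?_, fun h χ hχ _ => ?_⟩
    · refine CfsgLib.PQDegrees.not_dvd_card r s hrs _ _ rfl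
        (CfsgLib.Constrained.IsPSolvable.quotient hr _) (CfsgLib.Constrained.IsPSolvable.quotient hs _)
        CfsgLib.Constrained.pPrimeCore_quotient_pPrimeCore fun χ hχ => ?_
      have h2 := h (CfsgLib.Chars.inflate _ χ)
        (CfsgLib.Blocks.mem_principalBlock_of_pPrimeCore_le hM hr
          (CfsgLib.Chars.le_charKer_inflate _ χ))
      rw [CfsgLib.Chars.charDegree_inflate] at h2
      exact h2 hχ
    · obtain ⟨ψ, hψ⟩ := CfsgLib.Chars.exists_inflate_eq (Cfsg.pPrimeCore r G) χ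
        (CfsgLib.Blocks.PrincipalLinear.le_charKer hM hχ _ CfsgLib.Constrained.pPrimeCore_not_dvd)
      rw [← hψ, CfsgLib.Chars.charDegree_inflate]
      exact fun hd => h (hd.trans (CfsgLib.Chars.charDegree_dvd_card ψ))
  rw [key p q hpq Mp hMp hps hqs, key q p hpq.symm Mq hMq hqs hps]
  constructor
  · rintro ⟨h1, h2⟩
    obtain ⟨P⟩ : Nonempty (Sylow p G) := inferInstance
    have hsub : ∀ (r : ℕ) [Fact r.Prime] (C : Subgroup G) [C.Normal] (R : Subgroup G),
        IsPGroup r R → ¬ r ∣ Nat.card (G ⧸ C) → R ≤ C := by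
      intro r _ C _ R hR hd x hx
      obtain ⟨k, hk⟩ := hR ⟨x, hx⟩
      refine (QuotientGroup.eq_one_iff x).1 (orderOf_eq_one_iff.1 ?_)
      have hk' : x ^ r ^ k = 1 := congrArg Subtype.val hk
      have ha : orderOf (x : G ⧸ C) ∣ r ^ k := orderOf_dvd_of_pow_eq_one (by
        rw [← QuotientGroup.mk_pow, hk', QuotientGroup.mk_one])
      exact Nat.eq_one_of_dvd_coprimes
        (Nat.Coprime.pow_left k ((Fact.out : r.Prime).coprime_iff_not_dvd.2 hd)) ha
        (orderOf_dvd_natCard _)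
    have hP : (P : Subgroup G) ≤ Cfsg.pPrimeCore q G := hsub p _ _ P.2 h2
    obtain ⟨Q₀, hQ₀⟩ := CfsgLib.Hyperplane.exists_invariant_sylow P.2
      (CfsgLib.Constrained.pPrimeCore_not_dvd (p := p) (G := G))
      (show (P : Subgroup G) ≤ Subgroup.normalizer (Cfsg.pPrimeCore p G : Set G) by
        rw [Subgroup.normalizer_eq_top_iff.2 inferInstance]; exact le_top) q
    obtain ⟨Q, hQ⟩ := (Q₀.2.map (Cfsg.pPrimeCore p G).subtype).exists_le_sylow
    have hQe : (Q : Subgroup G) = (Q₀ : Subgroup (Cfsg.pPrimeCore p G)).map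
        (Cfsg.pPrimeCore p G).subtype := by
      refine le_antisymm (fun x hx => ?_) hQ
      have hle := hsub q _ _ Q.2 h1
      have h3 : (Q : Subgroup G).subgroupOf (Cfsg.pPrimeCore p G) = (Q₀ : Subgroup _) :=
        Q₀.3 (Q.2.comap_of_injective _ (Cfsg.pPrimeCore p G).subtype_injective)
          (fun y hy => hQ ⟨y, hy, rfl⟩)
      exact ⟨⟨x, hle hx⟩, h3 ▸ hx, rfl⟩
    refine ⟨P, Q, fun x hx y hy => ?_⟩
    have hqc : x * y * x⁻¹ * y⁻¹ ∈ (Q : Subgroup G) := mul_mem
      (hQe ▸ (Subgroup.mem_normalizer_iff.1 (hQ₀ hx) y).1 (hQe ▸ hy)) (inv_mem hy)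
    have hqc' : x * y * x⁻¹ * y⁻¹ ∈ Cfsg.pPrimeCore q G := by
      rw [show x * y * x⁻¹ * y⁻¹ = x * (y * x⁻¹ * y⁻¹) by group]
      exact mul_mem (hP hx) ((inferInstance : (Cfsg.pPrimeCore q G).Normal).conj_mem _
        (inv_mem (hP hx)) y)
    have hbot := CfsgLib.Constrained.disjoint_of_isPGroup_of_not_dvd Q.2
      (CfsgLib.Constrained.pPrimeCore_not_dvd (p := q) (G := G))
    exact mul_inv_eq_iff_eq_mul.1 (mul_inv_eq_one.1 (Subgroup.mem_bot.1
      (hbot.le ⟨hqc, hqc'⟩)))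
  · rintro ⟨P, Q, hPQ⟩
    have hone : ∀ (r s : ℕ) [Fact r.Prime] [Fact s.Prime], r ≠ s → Cfsg.IsPSolvable r G →
        ∀ (R : Sylow r G) (S : Sylow s G),
        (∀ x ∈ (R : Subgroup G), ∀ y ∈ (S : Subgroup G), x * y = y * x) →
        ¬ s ∣ Nat.card (G ⧸ Cfsg.pPrimeCore r G) := by
      intro r s _ _ hrs hr R S hc hd
      set π := QuotientGroup.mk' (Cfsg.pPrimeCore r G)
      have hπ : Function.Surjective π := QuotientGroup.mk'_surjective _
      have hO : Cfsg.pCore r (G ⧸ Cfsg.pPrimeCore r G) ≤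
          (R.mapSurjective hπ : Subgroup (G ⧸ Cfsg.pPrimeCore r G)) :=
        le_sup_left.trans ((R.mapSurjective hπ).3
          ((CfsgLib.Constrained.isPGroup_pCore).to_sup_of_normal_left (R.mapSurjective hπ).2)
          le_sup_right).le
      have hle : (S.mapSurjective hπ : Subgroup (G ⧸ Cfsg.pPrimeCore r G)) ≤
          Cfsg.pCore r (G ⧸ Cfsg.pPrimeCore r G) := by
        refine le_trans ?_ (CfsgLib.Constrained.centralizer_pCore_quotient_le hr)
        rintro _ ⟨y, hy, rfl⟩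
        refine Subgroup.mem_centralizer_iff.2 fun z hz => ?_
        obtain ⟨x, hx, rfl⟩ := hO hz
        rw [← map_mul, ← map_mul, hc x hx y hy]
      refine Cfsg.Agent.S4885.not_dvd_of_isPGroup (CfsgLib.Constrained.isPGroup_pCore (p := r)) hrs.symm
        (((S.mapSurjective hπ).dvd_card_of_dvd_card hd).trans (Subgroup.card_dvd_of_le hle))
    exact ⟨hone p q hpq hps P Q hPQ,
      hone q p hpq.symm hqs Q P fun x hx y hy => (hPQ y hy x hx).symm⟩

end Cfsg.Agent.S4886
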