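import Cfsg.Statements.S4888
import Cfsg.Agent.Blocks.PrincipalLinear
import Cfsg.Agent.S0012

set_option autoImplicit false
open Cfsg

namespace Cfsg.Agent.S4888

/-- Let G be a finite group, p a prime and M a maximal ideal of the algebraic integers containing p. Then all height-zero irreducible characters of the principal p-block of G (equivalently, all its characters of degree prime to p) have the same degree if and only if G has a normal p-complement. -/
theorem result {G : Type*} [Group G] [Finite G] (p : ℕ) [Fact p.Prime] (M : Ideal Cfsg.AlgInt) (hM : Cfsg.IsPModular p M) : (∃ d : ℕ, ∀ χ : Cfsg.IrrCharacter G, χ ∈ (Cfsg.principalBlock M G) → Cfsg.blockHeight p (Cfsg.principalBlock M G) (χ : G → ℂ) = 0 → Cfsg.charDegree (χ : G → ℂ) = d) ↔ Cfsg.HasNormalPComplement p G := by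
  constructor
  · rintro ⟨d, hd⟩
    have h1 : CfsgLib.Chars.oneChar G ∈ Cfsg.principalBlock M G :=
      CfsgLib.Blocks.PrincipalLinear.one_mem hM
    have hone : Cfsg.charDegree (CfsgLib.Chars.oneChar G : G → ℂ) = 1 :=
      CfsgLib.Chars.charDegree_linChar 1
    have hd1 : d = 1 := by
      rw [← hd _ h1 ((CfsgLib.Blocks.PrincipalLinear.blockHeight_eq_zero_iff hM _).2
        (by rw [hone]; exact (Fact.out : p.Prime).not_dvd_one)), hone]
    have h : ∀ χ ∈ Cfsg.principalBlock M G, ¬ p ∣ Cfsg.charDegree (χ : G → ℂ) →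
        Cfsg.charDegree (χ : G → ℂ) = 1 := fun χ hχ hp =>
      hd1 ▸ hd χ hχ ((CfsgLib.Blocks.PrincipalLinear.blockHeight_eq_zero_iff hM χ).2 hp)
    obtain ⟨P⟩ : Nonempty (Sylow p G) := inferInstance
    exact CfsgLib.Blocks.PrincipalLinear.hasNormalPComplement P fun x hx =>
      (S0012.result p P.2).1 (CfsgLib.Blocks.PrincipalLinear.inf_commutator_le hM P h hx)
  · intro hG
    exact ⟨1, fun χ hχ h0 => CfsgLib.Blocks.PrincipalLinear.degree_eq_one_of_complement hM hG hχ
      ((CfsgLib.Blocks.PrincipalLinear.blockHeight_eq_zero_iff hM χ).1 h0)⟩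

end Cfsg.Agent.S4888
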