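import Cfsg.Statements.S4911
import Cfsg.Agent.CharTable.RealFixed

set_option autoImplicit false
open Cfsg

namespace Cfsg.Agent.S4911

open CfsgLib.CharTable CfsgLib.Chars

theorem conjChar_eq_iff {K : Type*} [Group K] [Finite K] (θ : IrrCharacter K) :
    conjChar θ = θ ↔ ∀ k : K, ((θ : K → ℂ) k).im = 0 := by
  constructor
  · intro h k
    exact Complex.conj_eq_iff_im.1 (congrFun (congrArg Subtype.val h) k)
  · intro h
    exact Subtype.ext (funext fun k => Complex.conj_eq_iff_im.2 (h k))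

theorem invClass_eq_iff {K : Type*} [Group K] (c : ConjClasses K) :
    invClass c = c ↔ ∀ k : K, ConjClasses.mk k = c → IsConj k k⁻¹ := by
  obtain ⟨l, rfl⟩ := ConjClasses.mk_surjective c
  constructor
  · intro h k hk
    rw [← hk, invClass_mk, ConjClasses.mk_eq_mk_iff_isConj] at h
    exact h.symm
  · intro h
    rw [invClass_mk, ConjClasses.mk_eq_mk_iff_isConj]
    exact (h l rfl).symm

/-- Let P and K be subgroups of a finite group with P a p-group normalizing K and K of order prime to p. Then the number of P-invariant real-valued irreducible complex characters of K equals the number of conjugacy classes of K that are real (closed under inversion) and P-invariant. Moreover, if every real-valued irreducible character of K is P-invariant, then every real element of K (one conjugate in K to its inverse) is conjugate in K to an element centralized by P. -/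
theorem result {G : Type*} [Group G] [Finite G] (p : ℕ) [Fact p.Prime] (P K : Subgroup G) (hP : IsPGroup p ↥P) (hK : ¬ p ∣ Nat.card ↥K) (hPK : P ≤ Subgroup.normalizer (K : Set G)) : Nat.card {θ : Cfsg.IrrCharacter ↥K // (∀ k : ↥K, ((θ : ↥K → ℂ) k).im = 0) ∧ (∀ x ∈ P, ∀ k k' : ↥K, (k' : G) = x * (k : G) * x⁻¹ → (θ : ↥K → ℂ) k' = (θ : ↥K → ℂ) k)} = Nat.card {c : ConjClasses ↥K // (∀ k : ↥K, ConjClasses.mk k = c → IsConj k k⁻¹) ∧ ∀ k : ↥K, ConjClasses.mk k = c → ∀ x ∈ P, ∀ k' : ↥K, (k' : G) = x * (k : G) * x⁻¹ → ConjClasses.mk k' = c} ∧ ((∀ θ : Cfsg.IrrCharacter ↥K, (∀ k : ↥K, ((θ : ↥K → ℂ) k).im = 0) → (∀ x ∈ P, ∀ k k' : ↥K, (k' : G) = x * (k : G) * x⁻¹ → (θ : ↥K → ℂ) k' = (θ : ↥K → ℂ) k)) → ∀ k : ↥K, IsConj k k⁻¹ → ∃ k' : ↥K, IsConj k k' ∧ ∀ x ∈ P, x * (k' : G) * x⁻¹ = (k' : G)) := by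
  classical
  let α : ↥P →* MulAut ↥K := (Subgroup.normalizerMonoidHom K).comp (Subgroup.inclusion hPK)
  have hα : ∀ (x : ↥P) (k : ↥K), ((α x k : ↥K) : G) = (x : G) * k * (x : G)⁻¹ := fun x k => rfl
  have hθ : ∀ θ : IrrCharacter ↥K, (∀ x ∈ P, ∀ k k' : ↥K, (k' : G) = x * (k : G) * x⁻¹ →
      (θ : ↥K → ℂ) k' = (θ : ↥K → ℂ) k) ↔ ∀ x : ↥P, irrEquiv (α x) θ = θ := by
    intro θ
    constructor
    · intro h x
      refine Subtype.ext (funext fun k => ?_)
      rw [irrEquiv_apply]
      refine (h x x.2 ((α x).symm k) k ?_).symm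
      rw [← hα, MulEquiv.apply_symm_apply]
    · intro h x hx k k' hk
      obtain rfl : k' = α ⟨x, hx⟩ k := Subtype.ext (by rw [hk, hα])
      conv_lhs => rw [← h ⟨x, hx⟩]
      rw [irrEquiv_apply, MulEquiv.symm_apply_apply]
  have hc : ∀ c : ConjClasses ↥K, (∀ k : ↥K, ConjClasses.mk k = c → ∀ x ∈ P, ∀ k' : ↥K,
      (k' : G) = x * (k : G) * x⁻¹ → ConjClasses.mk k' = c) ↔
      ∀ x : ↥P, ConjClasses.map ((α x).toMonoidHom) c = c := by
    intro c
    constructor
    · intro h x
      obtain ⟨l, rfl⟩ := ConjClasses.mk_surjective c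
      exact h l rfl x x.2 _ (hα x l)
    · intro h k hk x hx k' hk'
      obtain rfl : k' = α ⟨x, hx⟩ k := Subtype.ext (by rw [hk', hα])
      have h' := h ⟨x, hx⟩
      rw [← hk] at h'
      exact h'.trans hk
  have hmain := card_real_fixed_eq α hP hK
  refine ⟨?_, fun hall k hk => ?_⟩
  · refine (Nat.card_congr (Equiv.subtypeEquivRight fun θ => ?_)).trans
      (hmain.trans (Nat.card_congr (Equiv.subtypeEquivRight fun c => ?_)))
    · rw [hθ, conjChar_eq_iff, and_comm]
    · rw [hc, invClass_eq_iff, and_comm]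
  · have hreal := card_real_fixed_eq (1 : ↥(⊥ : Subgroup G) →* MulAut ↥K) (IsPGroup.of_bot (p := p)) hK
    haveI := Fintype.ofFinite (ConjClasses ↥K)
    have e1 : Nat.card {θ : IrrCharacter ↥K // (∀ x : ↥P, irrEquiv (α x) θ = θ) ∧ conjChar θ = θ} =
        Nat.card {c : ConjClasses ↥K // invClass c = c} := by
      refine (Nat.card_congr (Equiv.subtypeEquivRight fun θ => ?_)).trans
        (hreal.trans (Nat.card_congr (Equiv.subtypeEquivRight fun c => ?_)))
      · refine ⟨fun h => ⟨fun x => Subtype.ext (funext fun k => rfl), h.2⟩, fun h => ⟨?_, h.2⟩⟩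
        exact (hθ θ).1 (hall θ ((conjChar_eq_iff θ).1 h.2))
      · refine ⟨fun h => h.2, fun h => ⟨fun x => ?_, h⟩⟩
        obtain ⟨l, rfl⟩ := ConjClasses.mk_surjective c
        rfl
    have e2 := hmain.symm.trans e1
    rw [Nat.card_eq_fintype_card, Nat.card_eq_fintype_card, Fintype.card_subtype,
      Fintype.card_subtype] at e2
    have hsub : (Finset.univ.filter fun c : ConjClasses ↥K =>
        (∀ x : ↥P, ConjClasses.map ((α x).toMonoidHom) c = c) ∧ invClass c = c) ⊆
        Finset.univ.filter fun c => invClass c = c :=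
      fun c hc' => Finset.mem_filter.2 ⟨Finset.mem_univ _, (Finset.mem_filter.1 hc').2.2⟩
    have heq := Finset.eq_of_subset_of_card_le hsub e2.ge
    have hinv : invClass (ConjClasses.mk k) = ConjClasses.mk k := by
      rw [invClass_mk, ConjClasses.mk_eq_mk_iff_isConj]
      exact hk.symm
    have hmem : ConjClasses.mk k ∈ Finset.univ.filter (fun c => invClass c = c) :=
      Finset.mem_filter.2 ⟨Finset.mem_univ _, hinv⟩
    rw [← heq, Finset.mem_filter] at hmem
    obtain ⟨k', h1, h2⟩ := exists_fixed_of_fixed_class α hP hK k fun x =>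
      (ConjClasses.mk_eq_mk_iff_isConj.1 (hmem.2.1 x)).symm
    exact ⟨k', h1, fun x hx => by rw [← hα ⟨x, hx⟩, h2]⟩

end Cfsg.Agent.S4911
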