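import Cfsg.Statements.S4912
import Cfsg.Agent.CharTable.RealInduced
import Cfsg.Agent.Chars.Induced.Gallagher
import Cfsg.Agent.Chars.Basic

set_option autoImplicit false
open Cfsg

namespace Cfsg.Agent.S4912

open CfsgLib
open scoped ComplexConjugate

universe u

variable {G : Type u} [Group G]

theorem indicator_linChar [Fintype G] (l : G →* ℂˣ) :
    FrobSchur.indicator (Chars.linChar l : G → ℂ) = 1 ↔ l * l = 1 := by
  classical
  have h : FrobSchur.indicator (Chars.linChar l : G → ℂ) =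
      if l * l = 1 then 1 else 0 := by
    rw [FrobSchur.indicator_def]
    have h0 := Chars.sum_mul_map_inv (Chars.linChar (l * l)) (Chars.oneChar G)
    simp only [Chars.linChar_eq_oneChar_iff, Chars.oneChar_apply, mul_one, Chars.linChar_apply,
      MonoidHom.mul_apply, Units.val_mul] at h0
    simp only [Chars.linChar_apply, map_mul, Units.val_mul]
    rw [h0]
    split_ifs
    · rw [inv_mul_cancel₀ Chars.natCard_ne_zero]
    · rw [mul_zero]
  rw [h]
  split_ifs with h1 <;> simp [h1]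

theorem card_hom_trivial_on_le [Finite G] (I : Subgroup G) :
    Nat.card {l : G →* ℂˣ // ∀ i ∈ I, l i = 1} ≤ I.index := by
  set K := commutator G ⊔ I with hK
  have hKn : K.Normal := Subgroup.Normal.of_commutator_le G le_sup_left
  have hle : ∀ l : {l : G →* ℂˣ // ∀ i ∈ I, l i = 1}, K ≤ MonoidHom.ker l.1 := fun l =>
    sup_le (Abelianization.commutator_subset_ker l.1) fun i hi => l.2 i hi
  have : Finite (G ⧸ K →* ℂˣ) := Finite.of_injective _ Chars.linChar_injective
  calc Nat.card {l : G →* ℂˣ // ∀ i ∈ I, l i = 1} ≤ Nat.card (G ⧸ K →* ℂˣ) := by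
        refine Nat.card_le_card_of_injective (fun l => QuotientGroup.lift K l.1 (hle l)) ?_
        intro a b hab
        exact Subtype.ext (MonoidHom.ext fun g => DFunLike.congr_fun hab (g : G ⧸ K))
    _ = (commutator (G ⧸ K)).index := Chars.card_monoidHom_units
    _ ≤ Nat.card (G ⧸ K) := Nat.le_of_dvd Nat.card_pos (Subgroup.index_dvd_card _)
    _ = K.index := rfl
    _ ≤ I.index := Nat.le_of_dvd (Nat.pos_of_ne_zero Subgroup.index_ne_zero_of_finite)
        (Subgroup.index_dvd_of_le le_sup_right)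

theorem le_ker_of_minimal (N : Subgroup G) [N.Normal]
    (hmin : ∀ M : Subgroup G, M.Normal → M ≤ N → M = ⊥ ∨ M = N) (hna : ¬ IsMulCommutative ↥N)
    (l : G →* ℂˣ) : N ≤ MonoidHom.ker l := by
  rcases hmin ⁅N, N⁆ inferInstance (Subgroup.commutator_le_self N) with h | h
  · refine absurd ⟨⟨fun a b => Subtype.ext ?_⟩⟩ hna
    have := Subgroup.commutator_mem_commutator a.2 b.2
    rw [h, Subgroup.mem_bot, commutatorElement_eq_one_iff_mul_comm] at this
    exact this
  · calc N = ⁅N, N⁆ := h.symm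
      _ ≤ commutator G := by
        rw [commutator_def]
        exact Subgroup.commutator_mono le_top le_top
      _ ≤ MonoidHom.ker l := Abelianization.commutator_subset_ker l

/-- A linear character trivial on `N` which fixes an extension of an irreducible is trivial. -/
theorem eq_one_of_fixes [Finite G] (N : Subgroup G) [N.Normal] (θ : IrrCharacter ↥N)
    (ψ : IrrCharacter G) (h : ∀ n : N, (ψ : G → ℂ) n = (θ : N → ℂ) n) (μ : G →* ℂˣ)
    (hN : N ≤ MonoidHom.ker μ) (hfix : ∀ g, (μ g : ℂ) * (ψ : G → ℂ) g = (ψ : G → ℂ) g) :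
    μ = 1 := by
  have := Fintype.ofFinite G
  have := Fintype.ofFinite N
  have hβ := Chars.Induced.gallagher_injective ψ θ h
    (Chars.linChar (QuotientGroup.lift N μ hN)) (Chars.oneChar (G ⧸ N)) fun g => by
      simp only [Chars.linChar_apply, QuotientGroup.lift_mk, Chars.oneChar_apply, mul_one]
      rw [mul_comm, hfix]
  rw [Chars.linChar_eq_oneChar_iff] at hβ
  ext g
  rw [← QuotientGroup.lift_mk N (φ := μ) hN g, hβ]
  rfl

/-- Let G be a finite group with a non-abelian minimal normal subgroup N, and let φ be an irreducible complex character of N with stabilizer I in G such that φ extends to an irreducible character of I with Frobenius–Schur indicator +1. Put d = φ(1)·[G : I]. Then the number of linear characters of G with Frobenius–Schur indicator +1 is at most [G : I] times the number of irreducible characters of G of degree d with Frobenius–Schur indicator +1. -/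
theorem result {G : Type*} [Group G] [Finite G] (N : Subgroup G) (hN : N.Normal) (hN1 : N ≠ ⊥) (hmin : ∀ M : Subgroup G, M.Normal → M ≤ N → M = ⊥ ∨ M = N) (hna : ¬ IsMulCommutative ↥N) (φ : Cfsg.IrrCharacter ↥N) (I : Subgroup G) (hI : ∀ g : G, g ∈ I ↔ ∀ n n' : ↥N, (n' : G) = g * (n : G) * g⁻¹ → (φ : ↥N → ℂ) n' = (φ : ↥N → ℂ) n) (hNI : N ≤ I) (hext : ∃ ψ : Cfsg.IrrCharacter ↥I, (Nat.card ↥I : ℂ)⁻¹ * ∑ᶠ g : ↥I, (ψ : ↥I → ℂ) (g * g) = 1 ∧ ∀ n : ↥N, (ψ : ↥I → ℂ) (Subgroup.inclusion hNI n) = (φ : ↥N → ℂ) n) : Nat.card {χ : Cfsg.IrrCharacter G // Cfsg.charDegree (χ : G → ℂ) = 1 ∧ (Nat.card G : ℂ)⁻¹ * ∑ᶠ g : G, (χ : G → ℂ) (g * g) = 1} ≤ I.index * Nat.card {χ : Cfsg.IrrCharacter G // Cfsg.charDegree (χ : G → ℂ) = Cfsg.charDegree (φ : ↥N → ℂ) * I.index ∧ (Nat.card G : ℂ)⁻¹ * ∑ᶠ g : G, (χ : G → ℂ) (g * g) = 1} := by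
  classical
  have := hN
  have := Fintype.ofFinite G
  have := Fintype.ofFinite I
  have := Fintype.ofFinite N
  obtain ⟨ψ, hν, hψ⟩ := hext
  have hν' : FrobSchur.indicator (ψ : I → ℂ) = 1 := by
    rw [FrobSchur.indicator_eq_finsum]; exact hν
  have hIeq : I = Chars.Induced.inertia N (φ : N → ℂ) := by
    ext g; rw [hI, Chars.Induced.mem_inertia_iff_forall]
  have hker : ∀ l : G →* ℂˣ, N ≤ MonoidHom.ker l := le_ker_of_minimal N hmin hna
  let twist : (G →* ℂˣ) → IrrCharacter I := fun l =>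
    ⟨fun i => ((l.comp I.subtype) i : ℂ) * (ψ : I → ℂ) i,
      Chars.isIrrCharacter_linear_mul ψ.2 _⟩
  have htw : ∀ l, (fun n : N => (twist l : I → ℂ) (Subgroup.inclusion hNI n)) = (φ : N → ℂ) := by
    intro l; funext n
    show ((l (n : G) : ℂˣ) : ℂ) * _ = _
    rw [MonoidHom.mem_ker.1 (hker l n.2), Units.val_one, one_mul, hψ]
  have hmult : ∀ l, Chars.Induced.mult
      (fun n : N => (twist l : I → ℂ) (Subgroup.inclusion hNI n)) φ ≠ 0 := by
    intro l
    rw [htw, Chars.Induced.mult_irr, if_pos rfl]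
    exact one_ne_zero
  have hψ1 : twist 1 = ψ := Subtype.ext (funext fun i => by
    show ((1 : ℂˣ) : ℂ) * _ = _
    rw [Units.val_one, one_mul])
  have hirr : IsIrrCharacter G (indFun I (ψ : I → ℂ)) := by
    have h := Chars.Induced.isIrrCharacter_indFun_inertia hIeq hNI (twist 1) (hmult 1)
    rwa [hψ1] at h
  have hν0 := CharTable.indicator_indFun_eq_one I ψ hν' hirr
  have hprod : ∀ l : G →* ℂˣ, (fun g => (l g : ℂ) * indFun I (ψ : I → ℂ) g) =
      indFun I (twist l : I → ℂ) := by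
    intro l
    calc (fun g => (l g : ℂ) * indFun I (ψ : I → ℂ) g)
        = fun g => indFun I (ψ : I → ℂ) g * (l g : ℂ) := funext fun g => mul_comm _ _
      _ = indFun I (fun h => (ψ : I → ℂ) h * (l h : ℂ)) :=
          Chars.Induced.indFun_mul I _ (Chars.isClassFunction_coe (Chars.linChar l))
      _ = _ := congrArg _ (funext fun h => mul_comm _ _)
  have hdeg : ∀ l : G →* ℂˣ, charDegree (fun g => (l g : ℂ) * indFun I (ψ : I → ℂ) g) =
      charDegree (φ : N → ℂ) * I.index := by
    intro l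
    apply Chars.charDegree_eq_of_map_one
    rw [Chars.Induced.indFun_one_apply, map_one, Units.val_one, one_mul, Nat.cast_mul,
      Chars.coe_charDegree, ← hψ 1, map_one, mul_comm]
  have hsq : ∀ l : G →* ℂˣ, l * l = 1 → ∀ g, (l (g * g) : ℂ) = 1 := fun l hl g => by
    rw [map_mul, ← MonoidHom.mul_apply, hl]; rfl
  have hνl : ∀ l : G →* ℂˣ, l * l = 1 → (Nat.card G : ℂ)⁻¹ *
      ∑ᶠ g : G, (l (g * g) : ℂ) * indFun I (ψ : I → ℂ) (g * g) = 1 := by
    intro l hl
    simp only [hsq l hl, one_mul]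
    rw [← FrobSchur.indicator_eq_finsum]
    exact hν0
  set T := {χ : IrrCharacter G // charDegree (χ : G → ℂ) = charDegree (φ : N → ℂ) * I.index ∧
    (Nat.card G : ℂ)⁻¹ * ∑ᶠ g : G, (χ : G → ℂ) (g * g) = 1}
  have hfin : Finite (G →* ℂˣ) := Finite.of_injective _ Chars.linChar_injective
  have := Fintype.ofFinite {l : G →* ℂˣ // l * l = 1}
  have := Fintype.ofFinite T
  let F : {l : G →* ℂˣ // l * l = 1} → T := fun l =>
    ⟨⟨fun g => (l.1 g : ℂ) * indFun I (ψ : I → ℂ) g, Chars.isIrrCharacter_linear_mul hirr l.1⟩,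
      hdeg l.1, hνl l.1 l.2⟩
  have hfib : ∀ a b, F a = F b → ∀ i ∈ I, a.1 i = b.1 i := by
    intro a b hab
    have h1 : indFun I (twist a.1 : I → ℂ) = indFun I (twist b.1 : I → ℂ) := by
      rw [← hprod, ← hprod]
      exact congrArg (fun t : T => ((t.1 : IrrCharacter G) : G → ℂ)) hab
    have h2 := Chars.Induced.indFun_inertia_injective hIeq hNI _ _ (hmult a.1) (hmult b.1) h1
    have hN' : (N.subgroupOf I).Normal := hN.comap _
    let θ' : IrrCharacter (N.subgroupOf I) :=
      (Chars.irrEquiv (Subgroup.subgroupOfEquivOfLe hNI).symm) φ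
    have h3 := eq_one_of_fixes (N.subgroupOf I) θ' ψ
      (fun n => by
        rw [Chars.irrEquiv_apply, MulEquiv.symm_symm, ← hψ]
        rfl)
      ((a.1 * b.1⁻¹).comp I.subtype)
      (fun n hn => by
        have := MonoidHom.mem_ker.1 (hker (a.1 * b.1⁻¹) (Subgroup.mem_subgroupOf.1 hn))
        exact this)
      (fun i => by
        have h4 : ((a.1 (i : G) : ℂˣ) : ℂ) * (ψ : I → ℂ) i = (b.1 (i : G) : ℂ) * (ψ : I → ℂ) i :=
          congrFun (congrArg Subtype.val h2) i
        show ((a.1 (i : G) * (b.1 (i : G))⁻¹ : ℂˣ) : ℂ) * _ = _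
        rw [mul_comm (a.1 (i : G)), Units.val_mul, mul_assoc, h4, ← mul_assoc, ← Units.val_mul,
          inv_mul_cancel, Units.val_one, one_mul])
    intro i hi
    have h5 : a.1 i * (b.1 i)⁻¹ = 1 := DFunLike.congr_fun h3 ⟨i, hi⟩
    exact mul_inv_eq_one.1 h5
  have hbound : ∀ t ∈ (Finset.univ : Finset T),
      (Finset.univ.filter fun l => F l = t).card ≤ I.index := by
    intro t _
    rcases (Finset.univ.filter fun l => F l = t).eq_empty_or_nonempty with h0 | ⟨a, ha⟩
    · simp [h0]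
    · rw [← Fintype.card_subtype, ← Nat.card_eq_fintype_card]
      refine le_trans ?_ (card_hom_trivial_on_le I)
      refine Nat.card_le_card_of_injective (fun b => ⟨b.1.1 * a.1⁻¹, fun i hi => ?_⟩) ?_
      · show b.1.1 i * (a.1 i)⁻¹ = 1
        rw [mul_inv_eq_one]
        exact hfib _ _ (b.2.trans (Finset.mem_filter.1 ha).2.symm) i hi
      · intro b c hbc
        exact Subtype.ext (Subtype.ext (mul_right_cancel (congrArg Subtype.val hbc)))
  have hmain := Finset.card_le_mul_card_image_of_maps_to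
    (f := F) (s := Finset.univ) (t := Finset.univ) (fun x _ => Finset.mem_univ _) I.index hbound
  rw [Finset.card_univ, Finset.card_univ, ← Nat.card_eq_fintype_card,
    ← Nat.card_eq_fintype_card] at hmain
  refine le_trans (le_of_eq ?_) hmain
  have hiff : ∀ l : G →* ℂˣ, (charDegree (Chars.linChar l : G → ℂ) = 1 ∧ (Nat.card G : ℂ)⁻¹ *
      ∑ᶠ g : G, (Chars.linChar l : G → ℂ) (g * g) = 1) ↔ l * l = 1 := fun l => by
    rw [← FrobSchur.indicator_eq_finsum, indicator_linChar]
    exact and_iff_right (Chars.charDegree_linChar l)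
  refine (Nat.card_congr ((Equiv.ofBijective
    (fun l : {l : G →* ℂˣ // l * l = 1} => (⟨Chars.linChar l.1, (hiff l.1).2 l.2⟩ :
      {χ : IrrCharacter G // charDegree (χ : G → ℂ) = 1 ∧
        (Nat.card G : ℂ)⁻¹ * ∑ᶠ g : G, (χ : G → ℂ) (g * g) = 1})) ⟨?_, ?_⟩))).symm
  · intro a b hab
    exact Subtype.ext (Chars.linChar_injective (congrArg Subtype.val hab))
  · rintro ⟨χ, hd, hx⟩
    obtain ⟨l, rfl⟩ := Chars.exists_linChar_eq χ ((Chars.charDegree_eq_one_iff χ).1 hd)
    exact ⟨⟨l, (hiff l).1 ⟨hd, hx⟩⟩, rfl⟩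

end Cfsg.Agent.S4912
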