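import Cfsg.Statements.S4914
import Cfsg.Agent.Glauberman.NormalSylow.Main

set_option autoImplicit false
open Cfsg

namespace Cfsg.Agent.S4914

/-- Let P and K be subgroups of a finite group G with P a p-group normalizing K, and suppose K has a normal Sylow p-subgroup Q. Let C be the subgroup of those k ∈ K whose commutator with every element of P lies in Q (so that C/Q is the fixed-point subgroup of P on K/Q). Then there is a bijection f from the P-invariant irreducible complex characters of K onto the P-invariant irreducible complex characters of C such that, for every P-invariant irreducible character χ of K, the multiplicity of f(χ) in the restriction of χ to C is a natural number congruent to 1 or to −1 modulo p, every other P-invariant irreducible character of C occurs in that restriction with multiplicity divisible by p, and the degrees of χ and f(χ)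 are congruent modulo p up to sign. -/
theorem result {G : Type*} [Group G] [Finite G] (p : ℕ) [Fact p.Prime] (P K Q C : Subgroup G) (hP : IsPGroup p ↥P) (hPK : P ≤ Subgroup.normalizer (K : Set G)) (hQK : Q ≤ K) (hQn : ∀ k ∈ K, ∀ q ∈ Q, k * q * k⁻¹ ∈ Q) (hQp : ∃ a : ℕ, Nat.card ↥Q = p ^ a) (hQsyl : ¬ p ∣ Q.relIndex K) (hCK : C ≤ K) (hC : ∀ k : G, k ∈ C ↔ (k ∈ K ∧ ∀ x ∈ P, x * k * x⁻¹ * k⁻¹ ∈ Q)) : ∃ f : {χ : Cfsg.IrrCharacter ↥K // (∀ x ∈ P, ∀ k k' : ↥K, (k' : G) = x * (k : G) * x⁻¹ → (χ : ↥K → ℂ) k' = (χ : ↥K → ℂ) k)} → {ξ : Cfsg.IrrCharacter ↥C // (∀ x ∈ P, ∀ k k' : ↥C, (k' : G) = x * (k : G) * x⁻¹ → (ξ : ↥C → ℂ) k' = (ξ : ↥C → ℂ) k)}, Function.Bijective f ∧ ∀ χ, (∀ ξ : {ξ : Cfsg.IrrCharacter ↥C // (∀ x ∈ P, ∀ k k' : ↥C, (k' : G) = x * (k : G) * x⁻¹ → (ξ : ↥C → ℂ) k' = (ξ : ↥C → ℂ) k)}, ∃ m : ℕ, (Nat.card ↥C : ℂ)⁻¹ * ∑ᶠ c : ↥C, (χ.1 : ↥K → ℂ) (Subgroup.inclusion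 hCK c) * (starRingEnd ℂ) ((ξ.1 : ↥C → ℂ) c) = (m : ℂ) ∧ (ξ = f χ → ((m : ZMod p) = 1 ∨ (m : ZMod p) = -1)) ∧ (ξ ≠ f χ → p ∣ m)) ∧ ((Cfsg.charDegree ((f χ).1 : ↥C → ℂ) : ZMod p) = (Cfsg.charDegree (χ.1 : ↥K → ℂ) : ZMod p) ∨ (Cfsg.charDegree ((f χ).1 : ↥C → ℂ) : ZMod p) = -(Cfsg.charDegree (χ.1 : ↥K → ℂ) : ZMod p)) := by
  classical
  haveI : Fintype ↥K := Fintype.ofFinite _
  letI := CfsgLib.Glauberman.conjSubAction K P (fun s hs g hg =>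
    (Subgroup.mem_normalizer_iff.1 (hPK hs) g).1 hg)
  set Q' : Subgroup ↥K := Q.subgroupOf K with hQ'
  haveI : Q'.Normal := ⟨fun n hn g => hQn g g.2 n hn⟩
  haveI := Fintype.ofFinite Q'
  set C' : Subgroup ↥K := C.subgroupOf K with hC'
  haveI := Fintype.ofFinite C'
  haveI := Fintype.ofFinite ↥C
  obtain ⟨a, ha⟩ := hQp
  have hQ'p : IsPGroup p Q' :=
    (IsPGroup.of_card ha).of_equiv (Subgroup.subgroupOfEquivOfLe hQK).symm
  -- the normal Sylow subgroup is invariant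
  have hQinv : ∀ (x : P), ∀ q ∈ Q', x • q ∈ Q' := by
    intro x q hq
    obtain ⟨k, hk⟩ := IsPGroup.iff_orderOf.1 hQ'p ⟨q, hq⟩
    rw [← QuotientGroup.eq_one_iff, ← orderOf_eq_one_iff]
    have h1 : orderOf ((x • q : ↥K) : ↥K ⧸ Q') ∣ p ^ k := by
      refine orderOf_dvd_of_pow_eq_one ?_
      rw [← QuotientGroup.mk_pow, ← smul_pow', ← hk, Subgroup.orderOf_mk, pow_orderOf_eq_one, smul_one,
        QuotientGroup.mk_one]
    exact Nat.eq_one_of_dvd_coprimes ((Nat.Prime.coprime_iff_not_dvd Fact.out).2 hQsyl |>.pow_left k) h1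
      (orderOf_dvd_natCard _)
  have hCmem : ∀ k : ↥K, k ∈ C' ↔ ∀ x : P, x • k * k⁻¹ ∈ Q' := by
    intro k
    rw [hC', Subgroup.mem_subgroupOf, hC]
    constructor
    · intro h x
      exact h.2 x x.2
    · intro h
      exact ⟨k.2, fun x hx => h ⟨x, hx⟩⟩
  obtain ⟨h1, h2, h3⟩ := CfsgLib.Glauberman.NormalSylow.correspondence_main hP Q' C' hQinv hQ'p hQsyl hCmem
  -- the isomorphism `C' ≅ C`
  let e : C' ≃* C := Subgroup.subgroupOfEquivOfLe hCK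
  let pull : Cfsg.IrrCharacter ↥C → Cfsg.IrrCharacter ↥C' := fun ξ => CfsgLib.Glauberman.irrPull e ξ
  let push : Cfsg.IrrCharacter ↥C' → Cfsg.IrrCharacter ↥C := fun ξ => CfsgLib.Glauberman.irrPull e.symm ξ
  have hpp : ∀ ξ, pull (push ξ) = ξ := fun ξ => Subtype.ext (funext fun c => by simp [pull, push])
  have hpq : ∀ ξ, push (pull ξ) = ξ := fun ξ => Subtype.ext (funext fun c => by simp [pull, push])
  have hχ : ∀ χ : Cfsg.IrrCharacter ↥K,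
      (∀ x ∈ P, ∀ k k' : ↥K, (k' : G) = x * (k : G) * x⁻¹ → (χ : ↥K → ℂ) k' = (χ : ↥K → ℂ) k) →
      ∀ (x : P) k, (χ : ↥K → ℂ) (x • k) = (χ : ↥K → ℂ) k :=
    fun χ h x k => h x x.2 k _ rfl
  have hχ' : ∀ χ : Cfsg.IrrCharacter ↥K, (∀ (x : P) k, (χ : ↥K → ℂ) (x • k) = (χ : ↥K → ℂ) k) →
      ∀ x ∈ P, ∀ k k' : ↥K, (k' : G) = x * (k : G) * x⁻¹ → (χ : ↥K → ℂ) k' = (χ : ↥K → ℂ) k := by
    intro χ h x hx k k' hk
    rw [show k' = (⟨x, hx⟩ : P) • k from Subtype.ext hk]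
    exact h _ k
  have hξ : ∀ ξ : Cfsg.IrrCharacter ↥C',
      (∀ (x : P) (c c' : C'), (c' : ↥K) = x • (c : ↥K) → (ξ : C' → ℂ) c' = (ξ : C' → ℂ) c) →
      ∀ x ∈ P, ∀ k k' : ↥C, (k' : G) = x * (k : G) * x⁻¹ → (push ξ : ↥C → ℂ) k' = (push ξ : ↥C → ℂ) k :=
    fun ξ h x hx k k' hk => h ⟨x, hx⟩ (e.symm k) (e.symm k') (Subtype.ext hk)
  have hξ' : ∀ ξ : Cfsg.IrrCharacter ↥C,
      (∀ x ∈ P, ∀ k k' : ↥C, (k' : G) = x * (k : G) * x⁻¹ → (ξ : ↥C → ℂ) k' = (ξ : ↥C → ℂ) k) →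
      ∀ (x : P) (c c' : C'), (c' : ↥K) = x • (c : ↥K) → (pull ξ : C' → ℂ) c' = (pull ξ : C' → ℂ) c :=
    fun ξ h x c c' hc => h x x.2 (e c) (e c') (congrArg Subtype.val hc)
  have hin : ∀ (χ : Cfsg.IrrCharacter ↥K) (ξ : Cfsg.IrrCharacter ↥C),
      (Nat.card ↥C : ℂ)⁻¹ * ∑ᶠ c : ↥C, (χ : ↥K → ℂ) (Subgroup.inclusion hCK c) *
        (starRingEnd ℂ) ((ξ : ↥C → ℂ) c) = (CfsgLib.Glauberman.mult C'.subtype χ (pull ξ) : ℂ) := by
    intro χ ξ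
    rw [← CfsgLib.Glauberman.classInner_eq_mult, finsum_eq_sum_of_fintype, Cfsg.classInner,
      Nat.card_congr e.toEquiv]
    congr 1
    exact (Fintype.sum_equiv e.toEquiv _ _ fun c => rfl).symm
  choose F hF1 hF2 hF3 hF4 using fun χ : {χ : Cfsg.IrrCharacter ↥K // (∀ x ∈ P, ∀ k k' : ↥K,
    (k' : G) = x * (k : G) * x⁻¹ → (χ : ↥K → ℂ) k' = (χ : ↥K → ℂ) k)} => h1 χ.1 (hχ χ.1 χ.2)
  have hne : ∀ χ, ¬ p ∣ CfsgLib.Glauberman.mult C'.subtype χ.1 (F χ) := by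
    intro χ hd
    have h0 : (CfsgLib.Glauberman.mult C'.subtype χ.1 (F χ) : ZMod p) = 0 :=
      (ZMod.natCast_eq_zero_iff _ p).2 hd
    rcases hF2 χ with h | h <;> rw [h0] at h
    · exact zero_ne_one h
    · exact one_ne_zero (neg_eq_zero.1 h.symm)
  refine ⟨fun χ => ⟨push (F χ), hξ _ (hF1 χ)⟩, ⟨?_, ?_⟩, fun χ => ⟨fun ξ => ?_, ?_⟩⟩
  · intro χ χ' heq
    have h4 : F χ = F χ' := by
      rw [← hpp (F χ), ← hpp (F χ')]
      exact congrArg pull (congrArg Subtype.val heq)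
    exact Subtype.ext (h2 χ.1 χ'.1 (hχ _ χ.2) (hχ _ χ'.2) (F χ) (hF1 χ) (hne χ) (h4 ▸ hne χ'))
  · intro ξ
    obtain ⟨χ, hχi, hd⟩ := h3 (pull ξ.1) (hξ' _ ξ.2)
    refine ⟨⟨χ, hχ' χ hχi⟩, Subtype.ext ?_⟩
    show push (F ⟨χ, hχ' χ hχi⟩) = ξ.1
    by_contra hn
    exact hd (hF4 ⟨χ, hχ' χ hχi⟩ (pull ξ.1) (hξ' _ ξ.2) fun h => hn (by rw [← h, hpq]))
  · refine ⟨_, hin χ.1 ξ.1, fun h => ?_, fun h => hF4 χ _ (hξ' _ ξ.2) fun h' => h (Subtype.ext ?_)⟩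
    · rw [h, hpp]
      exact hF2 χ
    · show ξ.1 = push (F χ)
      rw [← h', hpq]
  · have hd : Cfsg.charDegree ((push (F χ)) : ↥C → ℂ) = Cfsg.charDegree ((F χ) : C' → ℂ) := by
      unfold Cfsg.charDegree
      simp [push]
    show ((Cfsg.charDegree ((push (F χ)) : ↥C → ℂ) : ZMod p) = _) ∨ _
    rw [hd]
    exact hF3 χ

end Cfsg.Agent.S4914
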