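import Cfsg.Statements.S4916
import Cfsg.Agent.Blocks.PrincipalLinear

set_option autoImplicit false
open Cfsg

namespace Cfsg.Agent.S4916

/-- Let G be a finite group, p a prime and M a maximal ideal of the algebraic integers containing p. Then the principal character is the only irreducible character of degree prime to p in the principal p-block of G if and only if p does not divide the order of G. -/
theorem result {G : Type*} [Group G] [Finite G] (p : ℕ) [Fact p.Prime] (M : Ideal Cfsg.AlgInt) (hM : Cfsg.IsPModular p M) : (∀ χ : Cfsg.IrrCharacter G, χ ∈ Cfsg.principalBlock M G → ¬ p ∣ Cfsg.charDegree (χ : G → ℂ) → (χ : G → ℂ) = fun _ => (1 : ℂ)) ↔ ¬ p ∣ Nat.card G := by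
  classical
  have := CfsgLib.Blocks.isMaximal_of_isPModular hM
  have := Fintype.ofFinite G
  constructor
  · intro h hd
    obtain ⟨y, hy⟩ := exists_prime_orderOf_dvd_card' p hd
    have h0 := CfsgLib.Blocks.finsum_block_one_mul_singular hM
      (CfsgLib.Blocks.PrincipalLinear.isPBlock_principal (G := G) M) (y := y) (by rw [hy])
    rw [CfsgLib.Blocks.finsum_block_eq_sum,
      ← Finset.add_sum_erase _ _ ((Set.Finite.mem_toFinset _).2
        (CfsgLib.Blocks.PrincipalLinear.one_mem (G := G) hM))] at h0
    simp only [CfsgLib.Chars.oneChar_apply, mul_one] at h0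
    have hs : Cfsg.MemLocalIdeal M (∑ χ ∈ ((Cfsg.principalBlock M G).toFinite.toFinset.erase
        (CfsgLib.Chars.oneChar G)), (χ : G → ℂ) 1 * (χ : G → ℂ) y) := by
      refine CfsgLib.Blocks.memLocalIdeal_sum _ fun χ hχ => ?_
      obtain ⟨hne, hχB⟩ := Finset.mem_erase.1 hχ
      refine CfsgLib.Blocks.memLocalIdeal_mul_right ?_ (CfsgLib.Blocks.memLocalRing_of_isIntegral
        (CfsgLib.Chars.isIntegral_apply (CfsgLib.Chars.isCharacter_coe χ) y))
      rw [← CfsgLib.Chars.coe_charDegree, CfsgLib.Blocks.memLocalIdeal_natCast_iff hM]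
      by_contra hp
      exact hne (Subtype.ext (by
        rw [h χ ((Set.Finite.mem_toFinset _).1 hχB) hp, CfsgLib.Chars.oneChar_coe]))
    rw [add_comm, add_eq_zero_iff_eq_neg] at h0
    rw [h0] at hs
    exact CfsgLib.Blocks.not_memLocalIdeal_one (M := M)
      (by simpa using CfsgLib.Blocks.memLocalIdeal_neg hs)
  · intro hG χ hχ _
    by_contra hne
    apply hG
    have h1 := CfsgLib.Blocks.PrincipalLinear.sum_normalized_sub_one hM hχ Finset.univ
      (fun _ _ _ _ => Finset.mem_univ _)
    have h0 := CfsgLib.Chars.sum_mul_map_inv χ (CfsgLib.Chars.oneChar G)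
    rw [if_neg (fun hc => hne (by rw [hc, CfsgLib.Chars.oneChar_coe]))] at h0
    simp only [CfsgLib.Chars.oneChar_apply, mul_one] at h0
    rw [Finset.sum_sub_distrib, ← Finset.sum_div, h0, zero_div, zero_sub, Finset.sum_const,
      nsmul_eq_mul, mul_one, Finset.card_univ, ← Nat.card_eq_fintype_card] at h1
    have h2 := CfsgLib.Blocks.memLocalIdeal_neg h1
    rw [neg_neg] at h2
    exact (CfsgLib.Blocks.memLocalIdeal_natCast_iff hM _).1 h2

end Cfsg.Agent.S4916
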