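import Cfsg.Statements.S4923
import Cfsg.Agent.Chars.FieldOfValues57.Sylow

set_option autoImplicit false
open Cfsg

namespace Cfsg.Agent.S4923

/-- Let G be a finite group with Sylow 2-subgroup P of order 2^n ≥ 8, and let ζ be a primitive 2^(n−1)-th root of unity in ℂ. Then the commutator subgroup of P has index 4 in P if and only if there is an element g of P whose conjugacy class in G has even size and such that the field generated over ℚ by the values at g of all irreducible complex characters of G equals ℚ(ζ + ζ⁻¹) or ℚ(ζ − ζ⁻¹). -/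
theorem result {G : Type*} [Group G] [Finite G] (P : Sylow 2 G) (n : ℕ) (hn : 3 ≤ n) (hP : Nat.card P = 2 ^ n) (ζ : ℂ) (hζ : IsPrimitiveRoot ζ (2 ^ (n - 1))) :
    (commutator ↥P).index = 4 ↔
      ∃ g : G, g ∈ (P : Subgroup G) ∧ 2 ∣ (Subgroup.centralizer ({g} : Set G)).index ∧
        (IntermediateField.adjoin ℚ {z : ℂ | ∃ χ : Cfsg.IrrCharacter G, (χ : G → ℂ) g = z} = IntermediateField.adjoin ℚ ({ζ + ζ⁻¹} : Set ℂ) ∨
          IntermediateField.adjoin ℚ {z : ℂ | ∃ χ : Cfsg.IrrCharacter G, (χ : G → ℂ) g = z} = IntermediateField.adjoin ℚ ({ζ - ζ⁻¹} : Set ℂ)) := by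
  haveI : Fact (Nat.Prime 2) := ⟨Nat.prime_two⟩
  constructor
  · exact CfsgLib.FieldOfValues57.exists_element_of_index hn P hP hζ
  · rintro ⟨g, hg, heven, hE | hE⟩
    · have hc : CfsgLib.FieldOfValues57.MaxExp n (2 ^ (n - 1) - 1) := Or.inl rfl
      refine CfsgLib.FieldOfValues57.index_eq_four_of_element hn P hP hζ hc (Or.inl ⟨rfl, ?_⟩) hg heven hE
      rw [pow_sub₀ _ (hζ.ne_zero (pow_ne_zero _ two_ne_zero)) Nat.one_le_two_pow, hζ.pow_eq_one,
        pow_one, one_mul]
    · have hc : CfsgLib.FieldOfValues57.MaxExp n (2 ^ (n - 2) - 1) := Or.inr rfl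
      refine CfsgLib.FieldOfValues57.index_eq_four_of_element hn P hP hζ hc (Or.inr ⟨rfl, ?_⟩) hg heven hE
      have h2 : IsPrimitiveRoot (ζ ^ 2 ^ (n - 2)) 2 := by
        refine hζ.pow (pow_pos two_pos _) ?_
        rw [← pow_succ, show n - 2 + 1 = n - 1 by omega]
      rw [pow_sub₀ _ (hζ.ne_zero (pow_ne_zero _ two_ne_zero)) Nat.one_le_two_pow,
        h2.eq_neg_one_of_two_right, pow_one, neg_one_mul]

end Cfsg.Agent.S4923
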