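import Cfsg.Statements.S4931
import Cfsg.Agent.Eq.Def_Characters
import Cfsg.Agent.Eq.Def_Blocks
import Cfsg.Agent.Eq.Def_Transfer
import Cfsg.Agent.CharTable.RepLemmas
import Cfsg.Agent.Transfer.Tate
import Cfsg.Agent.S0012
import Mathlib.GroupTheory.Transfer
import Mathlib.GroupTheory.Frattini
import Mathlib.GroupTheory.FiniteAbelian.Duality
import Mathlib.RingTheory.RootsOfUnity.AlgebraicallyClosed
import Mathlib.Analysis.Complex.Polynomial.Basic

set_option autoImplicit false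
open Cfsg

namespace Cfsg.Agent.S4931

open CfsgLib.CharTable
open scoped IsMulCommutative

universe u

variable {G : Type u} [Group G]

/-- The common kernel of all extensions of the irreducible representations of `N` of degree
prime to `p` which are trivial on `D`. -/
noncomputable def extKer (p : ℕ) (N D : Subgroup G) : Subgroup G :=
  ⨅ (n : ℕ) (τ : Representation ℂ N (Fin n → ℂ))
    (_ : τ.IsIrreducible ∧ ¬ p ∣ n ∧ ∀ d : N, (d : G) ∈ D → τ d = 1)
    (ρ : Representation ℂ G (Fin n → ℂ))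
    (_ : ∀ x : N, LinearMap.trace ℂ _ (ρ x) = LinearMap.trace ℂ _ (τ x)),
    MonoidHom.ker ρ

theorem mem_extKer {p : ℕ} {N D : Subgroup G} {x : G} :
    x ∈ extKer p N D ↔ ∀ (n : ℕ) (τ : Representation ℂ N (Fin n → ℂ)),
      τ.IsIrreducible → ¬ p ∣ n → (∀ d : N, (d : G) ∈ D → τ d = 1) →
      ∀ ρ : Representation ℂ G (Fin n → ℂ),
        (∀ x : N, LinearMap.trace ℂ _ (ρ x) = LinearMap.trace ℂ _ (τ x)) → ρ x = 1 := by
  simp only [extKer, Subgroup.mem_iInf, MonoidHom.mem_ker, and_imp]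

theorem extKer_normal (p : ℕ) (N D : Subgroup G) : (extKer p N D).Normal := by
  constructor
  intro x hx g
  rw [mem_extKer] at hx ⊢
  intro n τ h1 h2 h3 ρ h4
  rw [map_mul, map_mul, hx n τ h1 h2 h3 ρ h4, mul_one, ← map_mul, mul_inv_cancel, map_one]

theorem extKer_mono (p : ℕ) (N : Subgroup G) {D E : Subgroup G} (h : D ≤ E) :
    extKer p N D ≤ extKer p N E := by
  intro x hx
  rw [mem_extKer] at hx ⊢
  exact fun n τ h1 h2 h3 => hx n τ h1 h2 fun d hd => h3 d (h hd)

theorem le_extKer [Finite G] (p : ℕ) {N D : Subgroup G} (hD : D ≤ N) : D ≤ extKer p N D := by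
  intro d hd
  rw [mem_extKer]
  intro n τ _ _ h3 ρ h4
  refine apply_eq_one_of_trace_pow ρ d fun i => ?_
  have := h4 (⟨d, hD hd⟩ ^ i)
  rw [trace_pow_of_apply_eq_one τ (h3 ⟨d, hD hd⟩ hd) i, SubgroupClass.coe_pow] at this
  simpa using this

/-- The hypothesis of the statement, in terms of representations. -/
def Extends (p : ℕ) (N : Subgroup G) : Prop :=
  ∀ (n : ℕ) (τ : Representation ℂ N (Fin n → ℂ)), τ.IsIrreducible → ¬ p ∣ n →
    ∃ ρ : Representation ℂ G (Fin n → ℂ),
      ∀ x : N, LinearMap.trace ℂ _ (ρ x) = LinearMap.trace ℂ _ (τ x)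

theorem extends_of_hyp (p : ℕ) (N : Subgroup G)
    (h : ∀ θ : IrrCharacter ↥N, ¬ p ∣ charDegree (θ : ↥N → ℂ) →
      ∃ χ : IrrCharacter G, ∀ x : ↥N, (χ : G → ℂ) x = (θ : ↥N → ℂ) x) : Extends p N := by
  intro n τ hτ hn
  have hdeg : charDegree τ.character = n := by
    simp [charDegree, Representation.char_one]
  obtain ⟨χ, hχ⟩ := h ⟨τ.character, n, τ, hτ, rfl⟩ (by rwa [hdeg])
  obtain ⟨m, ρ, _, hρ⟩ := χ.2
  have h1 : (χ : G → ℂ) ((1 : N) : G) = τ.character 1 := hχ 1
  obtain rfl : m = n := by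
    rw [← hρ, Subgroup.coe_one, Representation.char_one, Representation.char_one] at h1
    simpa using h1
  refine ⟨ρ, fun x => ?_⟩
  have := hχ x
  rw [← hρ] at this
  exact this

theorem nu_eq_one_of_mem_extKer [Finite G] {p : ℕ} {N D : Subgroup G} (hext : Extends p N)
    [(D.subgroupOf N).Normal] (H : Subgroup N) (hDH : D.subgroupOf N ≤ H) (hidx : ¬ p ∣ H.index)
    (ν : H →* ℂˣ) (hν : ∀ d : H, ((d : N) : G) ∈ D → ν d = 1) (x : H)
    (hx : ((x : N) : G) ∈ extKer p N D) : ν x = 1 := by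
  obtain ⟨n, τ, h1, h2, h3, w, hw0, hw⟩ :=
    exists_irreducible_above_linear (p := p) H (D.subgroupOf N) hDH hidx ν hν
  obtain ⟨ρ, hρ⟩ := hext n τ h1 h2
  have hρ1 := mem_extKer.1 hx n τ h1 h2 (fun d hd => h3 d hd) ρ hρ
  have hτ1 : τ (x : N) = 1 := by
    refine apply_eq_one_of_trace_pow τ _ fun i => ?_
    rw [← hρ, SubgroupClass.coe_pow, trace_pow_of_apply_eq_one ρ hρ1 i]
  have h := hw x
  rw [hτ1] at h
  ext
  by_contra hne
  apply hw0
  have h' : (((ν x : ℂˣ) : ℂ) - 1) • w = 0 := by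
    rw [sub_smul, one_smul, ← h]
    simp
  exact (smul_eq_zero.1 h').resolve_left (sub_ne_zero.2 (by simpa using hne))

theorem exists_nu {A : Type*} [CommGroup A] [Finite A] {a : A} (ha : a ≠ 1) :
    ∃ φ : A →* ℂˣ, φ a ≠ 1 := by
  have : NeZero (Monoid.exponent A : ℂ) :=
    ⟨by exact_mod_cast (Monoid.exponent_ne_zero_of_finite (G := A))⟩
  exact CommGroup.exists_apply_ne_one_of_hasEnoughRootsOfUnity A ℂ ha

theorem not_dvd_relIndex [Finite G] {p : ℕ} [Fact p.Prime] (P : Sylow p G) {N : Subgroup G}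
    (hPN : (P : Subgroup G) ≤ N) : ¬ p ∣ ((P : Subgroup G).subgroupOf N).index := fun h =>
  P.not_dvd_index (h.trans (Subgroup.relIndex_dvd_index_of_le hPN))

theorem extKer_inf_le [Finite G] {p : ℕ} [Fact p.Prime] (P : Sylow p G) {N : Subgroup G}
    (hPN : (P : Subgroup G) ≤ N) [((P : Subgroup G).subgroupOf N).Normal] (hext : Extends p N) :
    extKer p N P ⊓ N ≤ P := by
  rintro x ⟨hxK, hxN⟩
  by_contra hxP
  set PN := (P : Subgroup G).subgroupOf N
  let q := QuotientGroup.mk' PN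
  let xN : N := ⟨x, hxN⟩
  let H : Subgroup N := (Subgroup.zpowers (q xN)).comap q
  have hPH : PN ≤ H := fun y hy => by
    rw [Subgroup.mem_comap, show q y = 1 from (QuotientGroup.eq_one_iff y).2 hy]
    exact one_mem _
  have ha : (⟨q xN, Subgroup.mem_zpowers _⟩ : Subgroup.zpowers (q xN)) ≠ 1 := by
    intro h
    exact hxP ((QuotientGroup.eq_one_iff xN).1 (congrArg Subtype.val h))
  obtain ⟨φ, hφ⟩ := exists_nu ha
  refine hφ (nu_eq_one_of_mem_extKer hext H hPH
    (fun h => not_dvd_relIndex P hPN (h.trans (Subgroup.index_dvd_of_le hPH)))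
    (φ.comp (q.subgroupComap _)) (fun d hd => ?_) ⟨xN, Subgroup.mem_zpowers _⟩ hxK)
  rw [MonoidHom.comp_apply, show q.subgroupComap _ d = 1 from
    Subtype.ext ((QuotientGroup.eq_one_iff (d : N)).2 hd), map_one]

theorem extKer_commutator_inf_le [Finite G] {p : ℕ} [Fact p.Prime] (P : Sylow p G) {N : Subgroup G}
    (hPN : (P : Subgroup G) ≤ N) [((P : Subgroup G).subgroupOf N).Normal] (hext : Extends p N) :
    extKer p N ⁅(P : Subgroup G), (P : Subgroup G)⁆ ⊓ N ≤ ⁅(P : Subgroup G), (P : Subgroup G)⁆ := by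
  rintro x ⟨hxK, hxN⟩
  set D := ⁅(P : Subgroup G), (P : Subgroup G)⁆ with hD
  have hDP : D ≤ (P : Subgroup G) := Subgroup.commutator_le_self _
  have hxP : x ∈ (P : Subgroup G) :=
    extKer_inf_le P hPN hext ⟨extKer_mono p N hDP hxK, hxN⟩
  set PN := (P : Subgroup G).subgroupOf N
  have hDN : D.subgroupOf N = ⁅PN, PN⁆ := by
    apply Subgroup.map_injective N.subtype_injective
    rw [Subgroup.map_commutator, Subgroup.subgroupOf_map_subtype, Subgroup.subgroupOf_map_subtype,
      inf_eq_left.2 hPN, inf_eq_left.2 (hDP.trans hPN)]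
  have : (D.subgroupOf N).Normal := hDN ▸ inferInstance
  have hmem : ∀ d : PN, ((d : N) : G) ∈ D ↔ Abelianization.of d = 1 := by
    intro d
    rw [show Abelianization.of d = QuotientGroup.mk d from rfl]
    refine Iff.trans ?_ (QuotientGroup.eq_one_iff d).symm
    rw [← Subgroup.mem_map_iff_mem PN.subtype_injective, Subgroup.map_subtype_commutator, ← hDN]
    rfl
  have : Finite (Abelianization PN) := inferInstanceAs (Finite (PN ⧸ commutator PN))
  by_contra hxD
  have ha : Abelianization.of (⟨⟨x, hxN⟩, hxP⟩ : PN) ≠ 1 := fun h => hxD ((hmem _).2 h)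
  obtain ⟨φ, hφ⟩ := exists_nu ha
  refine hφ (nu_eq_one_of_mem_extKer (D := D) hext PN (fun d hd => hDP hd) (not_dvd_relIndex P hPN)
    (φ.comp Abelianization.of) (fun d hd => ?_) ⟨⟨x, hxN⟩, hxP⟩ hxK)
  rw [MonoidHom.comp_apply, (hmem d).1 hd, map_one]

/-- The form of Tate's theorem that is used. -/
def TateHyp (X : Type u) [Group X] (p : ℕ) : Prop :=
  ∀ (Q : Sylow p X) (M : Subgroup X), M.Normal →
    M ⊓ (Q : Subgroup X) ≤ (frattini Q).map (Q : Subgroup X).subtype →
    HasNormalPComplement p M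

theorem mem_of_index_pow {X : Type*} [Group X] {p : ℕ} [Fact p.Prime] (L : Subgroup X) [L.Normal]
    [L.FiniteIndex] {a : ℕ} (hL : L.index = p ^ a) {x : X} (hx : ¬ p ∣ orderOf x) : x ∈ L := by
  rw [← QuotientGroup.eq_one_iff, ← orderOf_eq_one_iff]
  obtain ⟨b, -, hb⟩ : ∃ b ≤ a, orderOf (x : X ⧸ L) = p ^ b :=
    (Nat.dvd_prime_pow (Fact.out : p.Prime)).1 (hL ▸ orderOf_dvd_natCard (x : X ⧸ L))
  rcases Nat.eq_zero_or_pos b with rfl | hb0
  · simpa using hb
  · exact absurd ((hb ▸ dvd_pow_self p hb0.ne').trans (orderOf_map_dvd (QuotientGroup.mk' L) x)) hx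

/-- A self-normalizing Sylow subgroup which is abelian modulo `K` gives a normal `M` of `p`-power
index with `M ∩ P ≤ K`. -/
theorem exists_normal_pow_index {X : Type*} [Group X] [Finite X] {p : ℕ} [Fact p.Prime]
    (Q : Sylow p X) (K : Subgroup X) [K.Normal]
    (hself : Subgroup.normalizer ((Q : Subgroup X) : Set X) ≤ (Q : Subgroup X))
    (hab : ⁅(Q : Subgroup X), (Q : Subgroup X)⁆ ≤ K) :
    ∃ M : Subgroup X, M.Normal ∧ (∃ a, M.index = p ^ a) ∧ M ⊓ (Q : Subgroup X) ≤ K := by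
  have hsurj : Function.Surjective (QuotientGroup.mk' K) := QuotientGroup.mk'_surjective K
  set Qb := Q.mapSurjective hsurj with hQb
  set S : Subgroup X := (Q : Subgroup X).map (QuotientGroup.mk' K) |>.comap (QuotientGroup.mk' K)
    with hS
  have hcomm : ∀ a ∈ (Qb : Subgroup (X ⧸ K)), ∀ b ∈ (Qb : Subgroup (X ⧸ K)), a * b = b * a := by
    rw [hQb, Sylow.coe_mapSurjective]
    rintro _ ⟨a, ha, rfl⟩ _ ⟨b, hb, rfl⟩
    rw [← commutatorElement_eq_one_iff_mul_comm, ← map_commutatorElement]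
    exact (QuotientGroup.eq_one_iff _).2 (hab (Subgroup.commutator_mem_commutator ha hb))
  have hN : Subgroup.normalizer ((Qb : Subgroup (X ⧸ K)) : Set (X ⧸ K)) ≤
      Subgroup.centralizer ((Qb : Subgroup (X ⧸ K)) : Set (X ⧸ K)) := by
    intro y hy
    obtain ⟨g, rfl⟩ := hsurj y
    have hQS : (Q : Subgroup X) ≤ S := Subgroup.le_comap_map _ _
    have hgS : ((g • Q : Sylow p X) : Subgroup X) ≤ S := by
      rintro _ ⟨z, hz, rfl⟩
      rw [hS, Subgroup.mem_comap, ← Sylow.coe_mapSurjective hsurj Q, ← hQb]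
      have := (Subgroup.mem_normalizer_iff.1 hy (QuotientGroup.mk' K z)).1
        (by rw [hQb, Sylow.coe_mapSurjective]; exact Subgroup.mem_map_of_mem _ hz)
      simpa using this
    obtain ⟨s, hs⟩ := MulAction.exists_smul_eq S (Q.subtype hQS) ((g • Q).subtype hgS)
    rw [Sylow.smul_subtype] at hs
    have hs' : (s : X) • Q = g • Q := Sylow.subtype_injective hs
    have hmem : g⁻¹ * (s : X) ∈ (Q : Subgroup X) := hself
      (Sylow.smul_eq_iff_mem_normalizer.1 (by rw [mul_smul, hs', inv_smul_smul]))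
    have hg : g ∈ S := by
      have := S.mul_mem s.2 (S.inv_mem (hQS hmem))
      simpa [mul_assoc] using this
    have hgQ : QuotientGroup.mk' K g ∈ (Qb : Subgroup (X ⧸ K)) := hg
    exact Subgroup.mem_centralizer_iff.2 fun b hb => hcomm b hb _ hgQ
  set M0 := (MonoidHom.transferSylow Qb hN).ker
  have hc := MonoidHom.ker_transferSylow_isComplement' Qb hN
  refine ⟨M0.comap (QuotientGroup.mk' K), inferInstance, ?_, ?_⟩
  · rw [Subgroup.index_comap_of_surjective _ hsurj, hc.symm.index_eq_card]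
    exact IsPGroup.iff_card.1 Qb.2
  · rintro z ⟨hz, hzQ⟩
    rw [← QuotientGroup.eq_one_iff]
    refine Subgroup.mem_bot.1 (hc.disjoint.le_bot ⟨hz, ?_⟩)
    rw [hQb, Sylow.coe_mapSurjective]
    exact Subgroup.mem_map_of_mem _ hzQ

theorem complement_of_extends [Finite G] {p : ℕ} [Fact p.Prime] (P : Sylow p G)
    (hext : Extends p (Subgroup.normalizer ((P : Subgroup G) : Set G)))
    (htate : ∀ H : Subgroup G, TateHyp H p)
    (hfr : ∀ (X : Type u) [Group X] [Finite X], IsPGroup p X → commutator X ≤ frattini X) :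
    ∃ L : Subgroup G, L.Normal ∧ L ⊔ Subgroup.normalizer ((P : Subgroup G) : Set G) = ⊤ ∧
      L ⊓ Subgroup.normalizer ((P : Subgroup G) : Set G) = ⊥ := by
  set N := Subgroup.normalizer ((P : Subgroup G) : Set G) with hNdef
  have hPN : (P : Subgroup G) ≤ N := Subgroup.le_normalizer
  have : ((P : Subgroup G).subgroupOf N).Normal := Subgroup.normal_in_normalizer
  set D := ⁅(P : Subgroup G), (P : Subgroup G)⁆ with hDdef
  have hDP : D ≤ (P : Subgroup G) := Subgroup.commutator_le_self _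
  set K1 := extKer p N (P : Subgroup G) with hK1
  have hK1n : K1.Normal := extKer_normal p N _
  have hKn : (extKer p N D).Normal := extKer_normal p N _
  have hP1 : (P : Subgroup G) ≤ K1 := le_extKer p hPN
  let Q : Sylow p K1 := P.subtype hP1
  have hQc : (Q : Subgroup K1) = (P : Subgroup G).subgroupOf K1 := P.coe_subtype hP1
  have hself : Subgroup.normalizer ((Q : Subgroup K1) : Set K1) ≤ (Q : Subgroup K1) := by
    intro x hx
    rw [hQc] at hx ⊢
    rw [Subgroup.mem_normalizer_iff] at hx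
    refine Subgroup.mem_subgroupOf.2 (extKer_inf_le P hPN hext ⟨x.2, ?_⟩)
    show (x : G) ∈ N
    rw [hNdef, Subgroup.mem_normalizer_iff]
    intro y
    constructor
    · intro hy
      exact (hx ⟨y, hP1 hy⟩).1 hy
    · intro hy
      have hyK : y ∈ K1 := by
        have := hK1n.conj_mem _ (hP1 hy) (x : G)⁻¹
        simpa [mul_assoc] using this
      exact (hx ⟨y, hyK⟩).2 hy
  have hmapD : (⁅(Q : Subgroup K1), (Q : Subgroup K1)⁆).map K1.subtype = D := by
    rw [Subgroup.map_commutator, hQc, Subgroup.subgroupOf_map_subtype, inf_eq_left.2 hP1]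
  set K := (extKer p N D).subgroupOf K1 with hK
  have hab : ⁅(Q : Subgroup K1), (Q : Subgroup K1)⁆ ≤ K := by
    intro z hz
    refine Subgroup.mem_subgroupOf.2 (le_extKer p (hDP.trans hPN) ?_)
    rw [← hmapD]
    exact Subgroup.mem_map_of_mem _ hz
  obtain ⟨M, hMn, ⟨a, hMa⟩, hMQ⟩ := exists_normal_pow_index Q K hself hab
  have hMfr : M ⊓ (Q : Subgroup K1) ≤ (frattini Q).map (Q : Subgroup K1).subtype := by
    intro z hz
    have hzK : (z : G) ∈ extKer p N D := hMQ hz
    have hzP : (z : G) ∈ (P : Subgroup G) := by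
      have := hz.2
      rw [SetLike.mem_coe, hQc] at this
      exact this
    have hzD : (z : G) ∈ D := extKer_commutator_inf_le P hPN hext ⟨hzK, hPN hzP⟩
    rw [← hmapD] at hzD
    have hzQ : z ∈ ⁅(Q : Subgroup K1), (Q : Subgroup K1)⁆ :=
      (Subgroup.mem_map_iff_mem K1.subtype_injective).1 hzD
    rw [← Subgroup.map_subtype_commutator] at hzQ
    exact Subgroup.map_mono (hfr Q Q.2) hzQ
  obtain ⟨R, L, hLn, hLR⟩ := htate K1 Q M hMn hMfr
  have hLcard : ¬ p ∣ Nat.card L := by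
    rw [← hLR.index_eq_card]
    exact R.not_dvd_index
  obtain ⟨b, hLb⟩ : ∃ b, L.index = p ^ b := by
    rw [hLR.symm.index_eq_card]
    exact IsPGroup.iff_card.1 R.2
  -- `L` consists of the `p'`-elements of `K1`
  have hmem : ∀ x : G, x ∈ (L.map M.subtype).map K1.subtype ↔ x ∈ K1 ∧ ¬ p ∣ orderOf x := by
    intro x
    constructor
    · rintro ⟨_, ⟨l, hl, rfl⟩, rfl⟩
      refine ⟨(l : K1).2, fun hd => hLcard ?_⟩
      rw [Subgroup.coe_subtype, Subgroup.orderOf_coe] at hd
      rw [Subgroup.coe_subtype, Subgroup.orderOf_coe] at hd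
      exact hd.trans (Subgroup.orderOf_dvd_natCard L hl)
    · rintro ⟨hxK, hxp⟩
      have h1 : (⟨x, hxK⟩ : K1) ∈ M := mem_of_index_pow M hMa (by
        rwa [← Subgroup.orderOf_coe])
      have h2 : (⟨⟨x, hxK⟩, h1⟩ : M) ∈ L := mem_of_index_pow L hLb (by
        rwa [← Subgroup.orderOf_coe, ← Subgroup.orderOf_coe])
      exact ⟨⟨x, hxK⟩, ⟨⟨⟨x, hxK⟩, h1⟩, h2, rfl⟩, rfl⟩
  refine ⟨(L.map M.subtype).map K1.subtype, ?_, ?_, ?_⟩
  · constructor
    intro x hx g
    rw [hmem] at hx ⊢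
    refine ⟨hK1n.conj_mem _ hx.1 g, ?_⟩
    rw [show g * x * g⁻¹ = MulAut.conj g x from rfl, MulEquiv.orderOf_eq]
    exact hx.2
  · have hidx : ((L.map M.subtype) ⊔ (Q : Subgroup K1)).index = 1 := by
      have h1 : (L.map M.subtype).index = p ^ (b + a) := by
        rw [Subgroup.index_map, M.ker_subtype, sup_bot_eq, M.range_subtype, hLb, hMa, pow_add]
      have hd1 := Subgroup.index_dvd_of_le
        (le_sup_left : L.map M.subtype ≤ L.map M.subtype ⊔ (Q : Subgroup K1))
      have hd2 := Subgroup.index_dvd_of_le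
        (le_sup_right : (Q : Subgroup K1) ≤ L.map M.subtype ⊔ (Q : Subgroup K1))
      rw [h1] at hd1
      have hco : Nat.Coprime (p ^ (b + a)) (Q : Subgroup K1).index :=
        Nat.Coprime.pow_left _ ((Fact.out : p.Prime).coprime_iff_not_dvd.2 Q.not_dvd_index)
      exact Nat.eq_one_of_dvd_coprimes hco hd1 hd2
    have htop := Subgroup.index_eq_one.1 hidx
    have hsup : (L.map M.subtype).map K1.subtype ⊔ (P : Subgroup G) = K1 := by
      have := congrArg (Subgroup.map K1.subtype) htop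
      rwa [Subgroup.map_sup, hQc, Subgroup.subgroupOf_map_subtype, inf_eq_left.2 hP1,
        ← MonoidHom.range_eq_map, K1.range_subtype] at this
    have hfrat : N ⊔ K1 = ⊤ := Sylow.normalizer_sup_eq_top' P hP1
    rw [← hsup, sup_comm, sup_assoc, sup_eq_right.2 hPN] at hfrat
    exact hfrat
  · rw [eq_bot_iff]
    rintro x ⟨hx, hxN⟩
    replace hx : x ∈ (L.map M.subtype).map K1.subtype := hx
    rw [hmem] at hx
    obtain ⟨c, hc⟩ := IsPGroup.iff_orderOf.1 P.2
      ⟨x, extKer_inf_le P hPN hext ⟨hx.1, hxN⟩⟩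
    rw [Subgroup.orderOf_mk] at hc
    rcases Nat.eq_zero_or_pos c with rfl | hc0
    · rw [Subgroup.mem_bot, ← orderOf_eq_one_iff, hc, pow_zero]
    · exact absurd (hc ▸ dvd_pow_self p hc0.ne') hx.2

theorem extends_of_complement (p : ℕ) (N K : Subgroup G) (hK : K.Normal) (hsup : K ⊔ N = ⊤)
    (hinf : K ⊓ N = ⊥) (θ : IrrCharacter ↥N) :
    ∃ χ : IrrCharacter G, ∀ x : ↥N, (χ : G → ℂ) x = (θ : ↥N → ℂ) x := by
  let i : N →* G ⧸ K := (QuotientGroup.mk' K).comp N.subtype
  have hi : Function.Bijective i := by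
    constructor
    · rw [← MonoidHom.ker_eq_bot_iff, eq_bot_iff]
      intro x hx
      have hxK : (x : G) ∈ K := (QuotientGroup.eq_one_iff _).1 hx
      have hx1 : (x : G) ∈ K ⊓ N := ⟨hxK, x.2⟩
      rw [hinf, Subgroup.mem_bot] at hx1
      exact Subgroup.mem_bot.2 (Subtype.ext hx1)
    · rw [← MonoidHom.range_eq_top, eq_top_iff]
      intro y _
      obtain ⟨g, rfl⟩ := QuotientGroup.mk'_surjective K y
      have hg : g ∈ (↑(K ⊔ N) : Set G) := by rw [hsup]; trivial
      rw [Subgroup.normal_mul] at hg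
      obtain ⟨k, hk, x, hx, rfl⟩ := hg
      refine ⟨⟨x, hx⟩, ?_⟩
      show QuotientGroup.mk' K x = QuotientGroup.mk' K (k * x)
      rw [map_mul, show QuotientGroup.mk' K k = 1 from (QuotientGroup.eq_one_iff k).2 hk, one_mul]
  let f : G →* N := (MulEquiv.ofBijective i hi).symm.toMonoidHom.comp (QuotientGroup.mk' K)
  have hf : ∀ x : N, f x = x := fun x => (MulEquiv.ofBijective i hi).symm_apply_apply x
  obtain ⟨n, τ, hτ, hθ⟩ := θ.2
  let ρ : Representation ℂ G (Fin n → ℂ) := τ.comp f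
  have hρ : ρ.IsIrreducible := by
    let E : Subrepresentation ρ ≃o Subrepresentation τ :=
      { toFun := fun U => ⟨U.toSubmodule, fun x v hv => by
          have := U.apply_mem_toSubmodule (x : G) hv
          simpa [ρ, hf] using this⟩
        invFun := fun U => ⟨U.toSubmodule, fun g v hv => U.apply_mem_toSubmodule (f g) hv⟩
        left_inv := fun U => rfl
        right_inv := fun U => rfl
        map_rel_iff' := Iff.rfl }
    exact E.isSimpleOrder
  refine ⟨⟨ρ.character, n, ρ, hρ, rfl⟩, fun x => ?_⟩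
  rw [← hθ]
  show LinearMap.trace ℂ _ (τ (f x)) = LinearMap.trace ℂ _ (τ x)
  rw [hf]

/-- Let G be a finite group, p a prime and P a Sylow p-subgroup of G with normalizer N. Then every irreducible complex character of N of degree not divisible by p is the restriction of an irreducible character of G if and only if there is a normal subgroup K of G with KN = G and K ∩ N = 1. -/
theorem result {G : Type*} [Group G] [Finite G] (p : ℕ) [Fact p.Prime] (P : Sylow p G) :
    (∀ θ : Cfsg.IrrCharacter ↥(Subgroup.normalizer ((P : Subgroup G) : Set G)), ¬ p ∣ Cfsg.charDegree (θ : ↥(Subgroup.normalizer ((P : Subgroup G) : Set G)) → ℂ) →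
        ∃ χ : Cfsg.IrrCharacter G, ∀ x : ↥(Subgroup.normalizer ((P : Subgroup G) : Set G)), (χ : G → ℂ) x = (θ : ↥(Subgroup.normalizer ((P : Subgroup G) : Set G)) → ℂ) x) ↔
      ∃ K : Subgroup G, K.Normal ∧ K ⊔ Subgroup.normalizer ((P : Subgroup G) : Set G) = ⊤ ∧ K ⊓ Subgroup.normalizer ((P : Subgroup G) : Set G) = ⊥ := by
  constructor
  · intro h
    refine complement_of_extends P (extends_of_hyp p _ h) (fun H Q M hM hMQ => ?_)
      (fun X _ _ hX => (S0012.result p hX).1)
    exact CfsgLib.Transfer.tate_normal_pComplement Q M hMQ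
  · rintro ⟨K, hK, hsup, hinf⟩ θ _
    exact extends_of_complement p _ K hK hsup hinf θ

end Cfsg.Agent.S4931
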