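import Cfsg.Statements.S4937
import Cfsg.Agent.Eq.Def_Blocks
import Cfsg.Agent.Blocks.Covering.PrincipalExtensionTwist

set_option autoImplicit false
open Cfsg

namespace Cfsg.Agent.S4937

/-- Let G be a finite group, p a prime, M a maximal ideal of the algebraic integers containing p, N a normal subgroup of G and P a Sylow p-subgroup of N such that G = N·C_G(P). Let θ be an irreducible character in the principal p-block of N that is the restriction of some irreducible character of G. Then θ is the restriction of an irreducible character χ of G lying in the principal p-block of G such that, for every subgroup J of G containing N, the restriction of χ to J is an irreducible character of J lying in the principal p-block of J. -/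
theorem result {G : Type*} [Group G] [Finite G] (p : ℕ) [Fact p.Prime] (M : Ideal Cfsg.AlgInt) (hM : Cfsg.IsPModular p M) (N : Subgroup G) [N.Normal] (P : Sylow p ↥N)
    (hcov : N ⊔ Subgroup.centralizer (((P : Subgroup ↥N).map N.subtype : Subgroup G) : Set G) = ⊤)
    (θ : Cfsg.IrrCharacter ↥N) (hθ : θ ∈ Cfsg.principalBlock M ↥N)
    (hext : ∃ ψ : Cfsg.IrrCharacter G, ∀ x : ↥N, (ψ : G → ℂ) x = (θ : ↥N → ℂ) x) :
    ∃ χ : Cfsg.IrrCharacter G, χ ∈ Cfsg.principalBlock M G ∧ (∀ x : ↥N, (χ : G → ℂ) x = (θ : ↥N → ℂ) x) ∧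
      ∀ J : Subgroup G, N ≤ J → ∃ ξ : Cfsg.IrrCharacter ↥J, ξ ∈ Cfsg.principalBlock M ↥J ∧ ∀ y : ↥J, (ξ : ↥J → ℂ) y = (χ : G → ℂ) y := by
  classical
  haveI := hM.2.1
  letI := Fintype.ofFinite G
  obtain ⟨ψ, hψ⟩ := hext
  obtain ⟨χ, hres, h1⟩ := CfsgLib.Blocks.PrincipalExtension.exists_twist P hcov hψ hθ hM
  refine ⟨χ, ?_, hres, fun J hJ =>
    CfsgLib.Blocks.PrincipalExtension.mem_principalBlock_restrict P hM hres hθ h1 J hJ⟩
  obtain ⟨ξ, hξ, hξv⟩ :=
    CfsgLib.Blocks.PrincipalExtension.mem_principalBlock_restrict P hM hres hθ h1 ⊤ le_top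
  rw [CfsgLib.Blocks.mem_principalBlock_iff] at hξ ⊢
  intro g
  have hidx : (Subgroup.centralizer ({(⟨g, Subgroup.mem_top g⟩ : (⊤ : Subgroup G))} :
      Set (⊤ : Subgroup G))).index = (Subgroup.centralizer ({g} : Set G)).index := by
    rw [← CfsgLib.Blocks.card_conjugates, ← CfsgLib.Blocks.card_conjugates]
    refine Nat.card_congr (Equiv.subtypeEquiv Subgroup.topEquiv.toEquiv fun x => ?_)
    exact ⟨fun h => (Subgroup.topEquiv (G := G)).toMonoidHom.map_isConj h, fun h => by
      obtain ⟨w, hw⟩ := isConj_iff.1 h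
      exact isConj_iff.2 ⟨⟨w, Subgroup.mem_top w⟩, Subtype.ext hw⟩⟩
  have h := hξ ⟨g, Subgroup.mem_top g⟩
  simp only [Cfsg.centralChar, hξv, Subgroup.coe_one] at h ⊢
  rw [hidx] at h
  exact h

end Cfsg.Agent.S4937
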