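import Cfsg.Statements.S4989
import Cfsg.Agent.Eq.Def_Characters
import Cfsg.Agent.Chars.GaloisSum.Basic

set_option autoImplicit false
open Cfsg

namespace Cfsg.Agent.S4989

/-- Let H be a subgroup of the finite group G and χ an irreducible complex character of G. Then the inner product of the restriction of χ to H with itself, (1/#H)·Σ_{h ∈ H} |χ(h)|², is at most 1 + #(Z ∖ H)/#H, where Z is the set of zeros of χ in G. -/
theorem result {G : Type*} [Group G] [Finite G] (H : Subgroup G) (χ : Cfsg.IrrCharacter G) : (Nat.card ↥H : ℝ)⁻¹ * ∑ᶠ h : ↥H, ‖(χ : G → ℂ) h‖ ^ 2 ≤ 1 + (Set.ncard ({x : G | (χ : G → ℂ) x = 0} \ (H : Set G)) : ℝ) / (Nat.card ↥H : ℝ) := by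
  classical
  have : Fintype G := Fintype.ofFinite G
  obtain ⟨χ, hχ⟩ := χ
  have hchar : Cfsg.IsCharacter G χ := by
    obtain ⟨n, ρ, -, h⟩ := hχ
    exact ⟨n, ρ, h⟩
  show (Nat.card ↥H : ℝ)⁻¹ * ∑ᶠ h : ↥H, ‖χ h‖ ^ 2 ≤
    1 + (Set.ncard ({x : G | χ x = 0} \ (H : Set G)) : ℝ) / (Nat.card ↥H : ℝ)
  have hH : ∑ᶠ h : ↥H, ‖χ h‖ ^ 2 = ∑ x ∈ Finset.univ.filter (· ∈ H), ‖χ x‖ ^ 2 := by
    rw [finsum_eq_sum_of_fintype]
    exact (Finset.sum_subtype _ (fun x => by simp) (fun x : G => ‖χ x‖ ^ 2)).symm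
  have hcardH : (Nat.card ↥H) = (Finset.univ.filter (· ∈ H)).card := by
    rw [Nat.card_eq_fintype_card, Fintype.card_subtype]
  set A : Finset G := Finset.univ.filter (· ∈ H) with hA
  set Z : Finset G := Finset.univ.filter (fun x => x ∉ H ∧ χ x = 0) with hZ
  set S : Finset G := Finset.univ.filter (fun x => x ∉ H ∧ χ x ≠ 0) with hS
  have hZcard : Set.ncard ({x : G | χ x = 0} \ (H : Set G)) = Z.card := by
    rw [← Set.ncard_coe_finset]
    congr 1
    ext x
    simp [hZ, and_comm]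
  have hSle : (S.card : ℝ) ≤ ∑ x ∈ S, ‖χ x‖ ^ 2 := by
    refine CfsgLib.Chars.GaloisSum.card_le_sum_norm_sq_char hchar S (fun x hx k hk => ?_)
      (fun x hx => (Finset.mem_filter.1 hx).2.2)
    obtain ⟨-, hxH, hx0⟩ := Finset.mem_filter.1 hx
    refine Finset.mem_filter.2 ⟨Finset.mem_univ _, fun hkH => hxH ?_,
      fun h0 => hx0 (CfsgLib.Chars.GaloisSum.eq_zero_of_char_pow hchar hk h0)⟩
    have := H.zpow_mem hkH (Nat.gcdA k (Nat.card G))
    rwa [← zpow_natCast, ← zpow_mul, show ((k : ℤ) * Nat.gcdA k (Nat.card G)) =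
      1 - (Nat.card G : ℤ) * Nat.gcdB k (Nat.card G) by
        have := Nat.gcd_eq_gcd_ab k (Nat.card G)
        rw [hk.gcd_eq_one] at this
        push_cast at this
        linarith, zpow_sub, zpow_one, zpow_mul, zpow_natCast, pow_card_eq_one', one_zpow,
      inv_one, mul_one] at this
  have hsplit : ∀ f : G → ℝ, ∑ x, f x = ∑ x ∈ A, f x + (∑ x ∈ Z, f x + ∑ x ∈ S, f x) := by
    intro f
    rw [← Finset.sum_filter_add_sum_filter_not Finset.univ (· ∈ H) f,
      ← Finset.sum_filter_add_sum_filter_not (Finset.univ.filter (fun x => x ∉ H))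
        (fun x => χ x = 0) f]
    rw [Finset.filter_filter, Finset.filter_filter]
  have h1 := hsplit (fun x => ‖χ x‖ ^ 2)
  have h2 := hsplit (fun _ => 1)
  rw [CfsgLib.Chars.GaloisSum.sum_norm_sq_of_isIrrCharacter hχ,
    Finset.sum_eq_zero (s := Z) (f := fun x => ‖χ x‖ ^ 2)
      (fun x hx => by simp [(Finset.mem_filter.1 hx).2.2]), zero_add] at h1
  simp only [Finset.sum_const, Finset.card_univ, ← Nat.card_eq_fintype_card, nsmul_eq_mul,
    mul_one] at h2
  rw [hH, hZcard, hcardH]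
  have hpos : (0 : ℝ) < A.card := by
    rw [← hcardH]; exact_mod_cast Nat.card_pos
  rw [inv_mul_le_iff₀ hpos, mul_add, mul_one, mul_div_cancel₀ _ hpos.ne']
  linarith

end Cfsg.Agent.S4989
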