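import Cfsg.Statements.S4993
import Cfsg.Agent.MetanilpPrim.Main
import Cfsg.Agent.Fitting.Join
-- import your own Cfsg.Agent.* helpers here

set_option autoImplicit false
open Cfsg

namespace Cfsg.Agent.S4993

/-- Let G be a group of odd order whose order has exactly two prime divisors and whose quotient by its Fitting subgroup is nilpotent (G is metanilpotent), and let χ be a primitive irreducible complex character of G (not induced from a character of any proper subgroup). Then χ(1) divides the size of some conjugacy class of G. -/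
theorem result {G : Type*} [Group G] [Fintype G] (hodd : Odd (Nat.card G)) (h2 : (Nat.card G).primeFactors.card = 2) [hF : (Cfsg.fittingSubgroup G).Normal] (hmeta : Group.IsNilpotent (G ⧸ Cfsg.fittingSubgroup G)) (χ : Cfsg.IrrCharacter G) (hprim : ¬ ∃ (H : Subgroup G), H ≠ ⊤ ∧ ∃ θ : ↥H → ℂ, Cfsg.IsCharacter ↥H θ ∧ Cfsg.indFun H θ = (χ : G → ℂ)) : ∃ g : G, Cfsg.charDegree (χ : G → ℂ) ∣ (Subgroup.centralizer ({g} : Set G)).index := by
  obtain ⟨p, q, hpq, hpq'⟩ := Finset.card_eq_two.1 h2
  have hmem : ∀ r, r ∈ ({p, q} : Finset ℕ) → r.Prime := fun r hr =>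
    Nat.prime_of_mem_primeFactors (hpq' ▸ hr)
  haveI := Fact.mk (hmem p (by simp))
  haveI := Fact.mk (hmem q (by simp))
  exact CfsgLib.MetanilpPrim.exists_dvd_class χ (fun H hH θ hθ he => hprim ⟨H, hH, θ, hθ, he⟩) hpq
    (hpq' ▸ subset_rfl) (Cfsg.fittingSubgroup G)
    (CfsgLib.Fitting.fittingSubgroup_isNilpotent G) hmeta

end Cfsg.Agent.S4993
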