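import Cfsg.Statements.S4994
import Cfsg.Agent.MetanilpPrim.Solvable
-- import your own Cfsg.Agent.* helpers here

set_option autoImplicit false
open Cfsg

namespace Cfsg.Agent.S4994

/-- Let G be a finite solvable group, χ a primitive irreducible complex character of G (not induced from a character of any proper subgroup) and p a prime dividing the order of G. Then there is an element g of G such that the p-part of χ(1) divides the cube of the p-part of the size of the conjugacy class of g. -/
theorem result {G : Type*} [Group G] [Fintype G] (hsolv : Group.IsSolvable G) (χ : Cfsg.IrrCharacter G) (hprim : ¬ ∃ (H : Subgroup G), H ≠ ⊤ ∧ ∃ θ : ↥H → ℂ, Cfsg.IsCharacter ↥H θ ∧ Cfsg.indFun H θ = (χ : G → ℂ)) (p : ℕ) [Fact p.Prime] (hp : p ∣ Nat.card G) : ∃ g : G, (Cfsg.charDegree (χ : G → ℂ)).factorization p ≤ 3 * ((Subgroup.centralizer ({g} : Set G)).index).factorization p := by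
  haveI := hsolv
  obtain ⟨g, hg⟩ := CfsgLib.MetanilpPrim.exists_factorization_le χ
    (CfsgLib.MetanilpPrim.quasiprim_of_primitive χ fun H hH θ hθ he => hprim ⟨H, hH, θ, hθ, he⟩) p
  exact ⟨g, by omega⟩

end Cfsg.Agent.S4994
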