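import Cfsg.Statements.S4996
import Cfsg.Agent.Eq.Def_Characters
import Cfsg.Agent.Chars.GaloisSum.Basic
import Mathlib.LinearAlgebra.PID
import Mathlib.LinearAlgebra.Projection

set_option autoImplicit false
open Cfsg

namespace Cfsg.Agent.S4996

open CfsgLib.Chars

section
variable {G : Type*} [Group G] [Finite G] (N : Subgroup G) [N.Normal] {n : ℕ}
  (ρ : Representation ℂ G (Fin n → ℂ))

/-- Endomorphisms commuting with the action of the normal subgroup. -/
def commSub : Submodule ℂ ((Fin n → ℂ) →ₗ[ℂ] (Fin n → ℂ)) where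
  carrier := {f | ∀ m : N, Representation.linHom ρ ρ (m : G) f = f}
  zero_mem' _ := map_zero _
  add_mem' hv hw m := by rw [map_add, hv m, hw m]
  smul_mem' c v hv m := by rw [map_smul, hv m]

omit [Finite G] in
theorem commSub_mem {g : G} {f : (Fin n → ℂ) →ₗ[ℂ] (Fin n → ℂ)} (hf : f ∈ commSub N ρ) :
    Representation.linHom ρ ρ g f ∈ commSub N ρ := by
  intro m
  have h := hf ⟨g⁻¹ * (m : G) * g, by simpa using ‹N.Normal›.conj_mem _ m.2 g⁻¹⟩
  rw [← Module.End.mul_apply, ← map_mul]
  conv_rhs => rw [← h, ← Module.End.mul_apply, ← map_mul]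
  congr 2
  group

/-- The action of the group on these endomorphisms. -/
def commRep : Representation ℂ G (commSub N ρ) where
  toFun g := (Representation.linHom ρ ρ g).restrict fun _ hf => commSub_mem N ρ hf
  map_one' := LinearMap.ext fun f => Subtype.ext (by
    rw [LinearMap.restrict_apply]
    show Representation.linHom ρ ρ 1 (f : (Fin n → ℂ) →ₗ[ℂ] (Fin n → ℂ)) = f
    rw [map_one, Module.End.one_apply])
  map_mul' a b := LinearMap.ext fun f => Subtype.ext (by
    rw [LinearMap.restrict_apply]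
    show Representation.linHom ρ ρ (a * b) (f : (Fin n → ℂ) →ₗ[ℂ] (Fin n → ℂ)) = _
    rw [map_mul, Module.End.mul_apply]
    rfl)

/-- Averaging over the normal subgroup. -/
noncomputable def avg [Fintype N] : Module.End ℂ ((Fin n → ℂ) →ₗ[ℂ] (Fin n → ℂ)) :=
  (Nat.card N : ℂ)⁻¹ • ∑ m : N, Representation.linHom ρ ρ (m : G)

omit [Finite G] [N.Normal] in
theorem avg_mem [Fintype N] (f : (Fin n → ℂ) →ₗ[ℂ] (Fin n → ℂ)) :
    avg N ρ f ∈ commSub N ρ := by
  intro k
  simp only [avg, LinearMap.smul_apply, LinearMap.sum_apply, map_smul, map_sum]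
  congr 1
  refine Fintype.sum_equiv (Equiv.mulLeft k) _ _ fun m => ?_
  rw [← Module.End.mul_apply, ← map_mul]
  rfl

omit [N.Normal] in
theorem avg_fix [Fintype N] {f : (Fin n → ℂ) →ₗ[ℂ] (Fin n → ℂ)} (hf : f ∈ commSub N ρ) :
    avg N ρ f = f := by
  simp only [avg, LinearMap.smul_apply, LinearMap.sum_apply]
  rw [Finset.sum_congr rfl fun m _ => hf m, Finset.sum_const, Finset.card_univ,
    ← Nat.card_eq_fintype_card, ← Nat.cast_smul_eq_nsmul ℂ, smul_smul,
    inv_mul_cancel₀ (Nat.cast_ne_zero.2 Nat.card_pos.ne'), one_smul]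

theorem commRep_character [Fintype N] (x : G) :
    Representation.character (k := ℂ) (V := ↥(commSub N ρ)) (commRep N ρ) x =
      (((Nat.card N : ℝ)⁻¹ * ∑ m : N, ‖ρ.character (x * m)‖ ^ 2 : ℝ) : ℂ) := by
  set f := Representation.linHom ρ ρ x ∘ₗ avg N ρ with hf
  have hf1 : ∀ v, f v ∈ commSub N ρ := fun v => commSub_mem N ρ (avg_mem N ρ v)
  have h1 : Representation.character (k := ℂ) (V := ↥(commSub N ρ)) (commRep N ρ) x =
      LinearMap.trace ℂ (commSub N ρ) (f.restrict fun v _ => hf1 v) := by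
    show LinearMap.trace ℂ _ (commRep N ρ x) = _
    congr 1
    refine LinearMap.ext fun v => Subtype.ext ?_
    show Representation.linHom ρ ρ x v.1 = f v.1
    rw [hf, LinearMap.comp_apply, avg_fix N ρ v.2]
  rw [h1, LinearMap.trace_restrict_eq_of_forall_mem _ f hf1, hf, avg, LinearMap.comp_smul,
    map_smul, ← Module.End.mul_eq_comp, Finset.mul_sum, map_sum]
  push_cast
  rw [smul_eq_mul]
  congr 1
  refine Finset.sum_congr rfl fun m _ => ?_
  rw [← map_mul]
  show (Representation.linHom ρ ρ).character (x * m) = _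
  rw [Representation.char_linHom, Apps.char_inv_eq_conj, Complex.conj_mul']

theorem commRep_character_one [Fintype N] :
    (Module.finrank ℂ (commSub N ρ) : ℝ) =
      (Nat.card N : ℝ)⁻¹ * ∑ m : N, ‖ρ.character (m : G)‖ ^ 2 := by
  have h := commRep_character N ρ 1
  rw [Representation.char_one] at h
  simp only [one_mul] at h
  exact_mod_cast h

end

/-- Let N be a normal subgroup of the finite group G and χ an irreducible complex character of G. Then the restriction of χ to N is not irreducible if and only if χ vanishes on some whole coset Nx of N in G. -/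
theorem result {G : Type*} [Group G] [Finite G] (N : Subgroup G) [N.Normal] (χ : Cfsg.IrrCharacter G) : ¬ Cfsg.IsIrrCharacter ↥N (fun n : ↥N => (χ : G → ℂ) n) ↔ ∃ x : G, ∀ n : ↥N, (χ : G → ℂ) ((n : G) * x) = 0 := by
  classical
  have : Fintype G := Fintype.ofFinite G
  obtain ⟨χ, hirr⟩ := χ
  obtain ⟨n, ρ, hρ, rfl⟩ := id hirr
  show ¬ Cfsg.IsIrrCharacter ↥N (fun m : ↥N => ρ.character m) ↔
    ∃ x : G, ∀ m : ↥N, ρ.character ((m : G) * x) = 0
  -- the function `f x = (1/|N|) ∑ |χ (x m)|²` is a character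
  let τ : G → ℂ := Representation.character (k := ℂ) (V := ↥(commSub N ρ)) (commRep N ρ)
  have hf : ∀ x, ‖τ x‖ = (Nat.card N : ℝ)⁻¹ * ∑ m : N, ‖ρ.character (x * m)‖ ^ 2 := by
    intro x
    simp only [τ]
    rw [commRep_character, Complex.norm_real, Real.norm_eq_abs, abs_of_nonneg]
    exact mul_nonneg (inv_nonneg.2 (Nat.cast_nonneg _)) (Finset.sum_nonneg fun _ _ => sq_nonneg _)
  have hn0 : 0 < n := by
    rcases Nat.eq_zero_or_pos n with rfl | h
    · exfalso
      have := hρ.toNontrivial
      exact not_subsingleton (Subrepresentation ρ)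
        ⟨fun a b => Subrepresentation.toSubmodule_injective (Subsingleton.elim _ _)⟩
    · exact h
  have hone : (1 : (Fin n → ℂ) →ₗ[ℂ] (Fin n → ℂ)) ∈ commSub N ρ := by
    intro m
    show ρ (m : G) ∘ₗ (1 : (Fin n → ℂ) →ₗ[ℂ] (Fin n → ℂ)) ∘ₗ ρ (m : G)⁻¹ = 1
    rw [Module.End.one_eq_id, LinearMap.id_comp, ← Module.End.mul_eq_comp, ← map_mul,
      mul_inv_cancel, map_one, Module.End.one_eq_id]
  constructor
  · intro hred
    by_contra hcon
    push_neg at hcon
    -- no coset of zeros: `f` has no zero, hence the commutant is one-dimensional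
    have hne : ∀ x, τ x ≠ 0 := by
      intro x h0
      obtain ⟨m, hm⟩ := hcon x
      have hx := hf x
      rw [h0, norm_zero, eq_comm, mul_eq_zero] at hx
      rcases hx with hx | hx
      · exact (inv_ne_zero (Nat.cast_ne_zero.2 Nat.card_pos.ne')) hx
      have hmem : x⁻¹ * (m : G) * x ∈ N := by simpa using ‹N.Normal›.conj_mem _ m.2 x⁻¹
      have := (Finset.sum_eq_zero_iff_of_nonneg fun _ _ => sq_nonneg _).1 hx ⟨_, hmem⟩
        (Finset.mem_univ _)
      apply hm
      simpa [mul_assoc] using this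
    have hsum : ∑ x : G, ‖τ x‖ = (Nat.card G : ℝ) := by
      simp only [hf, ← Finset.mul_sum]
      rw [Finset.sum_comm]
      have hper : ∀ m : N, ∑ x : G, ‖ρ.character (x * m)‖ ^ 2 = (Nat.card G : ℝ) := fun m => by
        rw [← CfsgLib.Chars.GaloisSum.sum_norm_sq_of_isIrrCharacter hirr]
        exact Fintype.sum_equiv (Equiv.mulRight (m : G)) _ _ fun _ => rfl
      rw [Finset.sum_congr rfl fun m _ => hper m, Finset.sum_const, Finset.card_univ,
        ← Nat.card_eq_fintype_card, nsmul_eq_mul, inv_mul_cancel_left₀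
          (Nat.cast_ne_zero.2 Nat.card_pos.ne')]
    have hS := CfsgLib.Chars.GaloisSum.card_le_sum_norm_char
      (χ := τ) (CfsgLib.Chars.GaloisSum.isCharacter_of_rep (W := ↥(commSub N ρ)) (commRep N ρ)) (Finset.univ.erase 1)
      (fun x hx k hk => Finset.mem_erase.2 ⟨fun h => (Finset.mem_erase.1 hx).1
        ((powCoprime hk.symm).injective (h.trans (one_pow k).symm)), Finset.mem_univ _⟩)
      (fun x _ => hne x)
    change _ ≤ ∑ x ∈ _, ‖τ x‖ at hS
    rw [Finset.card_erase_of_mem (Finset.mem_univ _), Finset.card_univ,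
      ← Nat.card_eq_fintype_card, Nat.cast_sub Nat.card_pos, Nat.cast_one] at hS
    rw [← Finset.add_sum_erase _ _ (Finset.mem_univ (1 : G))] at hsum
    simp only [τ, Representation.char_one, Complex.norm_natCast] at hsum
    have hdim : Module.finrank ℂ (commSub N ρ) ≤ 1 := by
      have : (Module.finrank ℂ (commSub N ρ) : ℝ) ≤ 1 := by linarith
      exact_mod_cast this
    apply hred
    refine ⟨n, ρ.comp N.subtype, ?_, rfl⟩
    have hnt : Nontrivial (Subrepresentation (ρ.comp N.subtype)) := by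
      refine ⟨⊥, ⊤, fun h => ?_⟩
      have h' : (⊥ : Submodule ℂ (Fin n → ℂ)) = ⊤ := congrArg Subrepresentation.toSubmodule h
      have : Nonempty (Fin n) := ⟨⟨0, hn0⟩⟩
      exact bot_ne_top h'
    refine IsSimpleOrder.mk fun U => ?_
    obtain ⟨C, hC⟩ := U.toSubmodule.exists_isCompl
    let P : (Fin n → ℂ) →ₗ[ℂ] (Fin n → ℂ) := U.toSubmodule.projection C hC
    let A := avg N ρ P
    have hAU : ∀ v, A v ∈ U.toSubmodule := by
      intro v
      simp only [A, avg, LinearMap.smul_apply, LinearMap.sum_apply]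
      exact Submodule.smul_mem _ _ (Submodule.sum_mem _ fun m _ =>
        U.apply_mem_toSubmodule m (Submodule.projection_apply_mem hC _))
    have hAid : ∀ v ∈ U.toSubmodule, A v = v := by
      intro v hv
      simp only [A, avg, LinearMap.smul_apply, LinearMap.sum_apply]
      have : ∀ m : N, Representation.linHom ρ ρ (m : G) P v = v := fun m => by
        show ρ (m : G) (P (ρ (m : G)⁻¹ v)) = v
        have hmv : ρ (m : G)⁻¹ v ∈ U.toSubmodule := U.apply_mem_toSubmodule m⁻¹ hv
        rw [Submodule.projection_apply_of_mem_left hC hmv, ← Module.End.mul_apply, ← map_mul,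
          mul_inv_cancel, map_one, Module.End.one_apply]
      rw [Finset.sum_congr rfl fun m _ => this m, Finset.sum_const, Finset.card_univ,
        ← Nat.card_eq_fintype_card, ← Nat.cast_smul_eq_nsmul ℂ, smul_smul,
        inv_mul_cancel₀ (Nat.cast_ne_zero.2 Nat.card_pos.ne'), one_smul]
    have hone0 : (⟨1, hone⟩ : commSub N ρ) ≠ 0 := by
      intro h
      have : Nonempty (Fin n) := ⟨⟨0, hn0⟩⟩
      exact one_ne_zero (α := Module.End ℂ (Fin n → ℂ)) (congrArg Subtype.val h)
    have hpos : 0 < Module.finrank ℂ (commSub N ρ) :=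
      (Module.finrank_pos_iff_exists_ne_zero (R := ℂ) (M := ↥(commSub N ρ))).2 ⟨_, hone0⟩
    obtain ⟨c, hc⟩ := (finrank_eq_one_iff_of_nonzero' (K := ℂ) (V := ↥(commSub N ρ)) _ hone0).1 (le_antisymm hdim hpos)
      ⟨A, avg_mem N ρ P⟩
    have hcA : ∀ v, A v = c • v := fun v => by
      have := congrArg Subtype.val hc
      rw [show A = c • (1 : Module.End ℂ (Fin n → ℂ)) from this.symm]
      rfl
    by_cases hc0 : c = 0
    · left
      refine Subrepresentation.toSubmodule_injective ((Submodule.eq_bot_iff _).2 fun v hv => ?_)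
      rw [← hAid v hv, hcA, hc0, zero_smul]
    · right
      refine Subrepresentation.toSubmodule_injective (Submodule.eq_top_iff'.2 fun v => ?_)
      have h2 := Submodule.smul_mem _ c⁻¹ (hAU v)
      rwa [hcA, inv_smul_smul₀ hc0] at h2
  · rintro ⟨x, hx⟩ hirrN
    have hd : Module.finrank ℂ (commSub N ρ) = 1 := by
      have h1 := CfsgLib.Chars.GaloisSum.sum_norm_sq_of_isIrrCharacter hirrN
      have h2 := commRep_character_one N ρ
      rw [h1, inv_mul_cancel₀ (Nat.cast_ne_zero.2 Nat.card_pos.ne')] at h2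
      exact_mod_cast h2
    have hone0 : (⟨1, hone⟩ : commSub N ρ) ≠ 0 := by
      intro h
      have : Nonempty (Fin n) := ⟨⟨0, hn0⟩⟩
      exact one_ne_zero (α := Module.End ℂ (Fin n → ℂ)) (congrArg Subtype.val h)
    have hid : commRep N ρ x = 1 := by
      refine LinearMap.ext fun v => ?_
      obtain ⟨c, rfl⟩ := (finrank_eq_one_iff_of_nonzero' (K := ℂ) (V := ↥(commSub N ρ)) _ hone0).1 hd v
      rw [map_smul]
      congr 1
      refine Subtype.ext ?_
      show ρ x ∘ₗ (1 : (Fin n → ℂ) →ₗ[ℂ] (Fin n → ℂ)) ∘ₗ ρ x⁻¹ = 1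
      rw [Module.End.one_eq_id, LinearMap.id_comp, ← Module.End.mul_eq_comp, ← map_mul,
        mul_inv_cancel, map_one, Module.End.one_eq_id]
    have h := hf x
    have h1 : τ x = Representation.character (k := ℂ) (V := ↥(commSub N ρ)) (commRep N ρ) 1 := by
      show LinearMap.trace ℂ ↥(commSub N ρ) (commRep N ρ x) = LinearMap.trace ℂ ↥(commSub N ρ) (commRep N ρ 1)
      rw [hid, (commRep N ρ).map_one]
    rw [h1, Representation.char_one, hd, Nat.cast_one, norm_one] at h
    rw [Finset.sum_eq_zero, mul_zero] at h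
    · exact one_ne_zero h
    intro m _
    have h0 := hx ⟨x * m * x⁻¹, ‹N.Normal›.conj_mem _ m.2 x⟩
    simp only [inv_mul_cancel_right] at h0
    show ‖ρ.character (x * m)‖ ^ 2 = 0
    rw [h0, norm_zero, zero_pow two_ne_zero]

end Cfsg.Agent.S4996
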