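import Cfsg.Statements.S5001
import Cfsg.Agent.Eq.Def_Blocks
import Cfsg.Agent.Blocks.DefectDegree
import Mathlib.LinearAlgebra.Determinant
import Mathlib.FieldTheory.Finite.Basic

set_option autoImplicit false
open Cfsg

namespace Cfsg.Agent.S5001

/-- The spectral projections are combinations of powers. -/
theorem eigen_projection_formula {n N : ℕ} (hN : 0 < N) {ζ : ℂ} (hζ : IsPrimitiveRoot ζ N)
    {f : Module.End ℂ (Fin n → ℂ)} {E : ℕ → Module.End ℂ (Fin n → ℂ)}
    (hE : ∀ j : ℕ, f ^ j = ∑ a ∈ Finset.range N, (ζ ^ j) ^ a • E a) {b : ℕ} (hb : b < N) (i : ℕ) :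
    (((N : ℂ) * (ζ ^ i) ^ b) • E b) = ∑ j ∈ Finset.range N, ((ζ ^ b)⁻¹) ^ j • f ^ (i + j) := by
  have hζ0 : ζ ≠ 0 := hζ.ne_zero hN.ne'
  simp only [hE, Finset.smul_sum, smul_smul]
  rw [Finset.sum_comm, Finset.sum_eq_single b]
  · rw [← Finset.sum_smul]
    congr 1
    rw [Finset.sum_congr rfl (g := fun _ => (ζ ^ i) ^ b) fun j _ => by
      rw [inv_pow, ← pow_mul, ← pow_mul, ← pow_mul, add_mul, pow_add, mul_comm b j,
        mul_left_comm, inv_mul_cancel₀ (pow_ne_zero _ hζ0), mul_one]]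
    simp
  · intro a ha hab
    rw [← Finset.sum_smul]
    set z := (ζ ^ b)⁻¹ * ζ ^ a with hz
    have hz1 : z ≠ 1 := by
      intro h
      rw [hz, inv_mul_eq_one₀ (pow_ne_zero _ hζ0)] at h
      exact hab (hζ.pow_inj (Finset.mem_range.1 ha) hb h.symm)
    have hzN : z ^ N = 1 := by
      rw [hz, mul_pow, inv_pow, ← pow_mul, ← pow_mul, mul_comm b, mul_comm a, pow_mul, pow_mul,
        hζ.pow_eq_one, one_pow, one_pow, inv_one, mul_one]
    have : ∑ j ∈ Finset.range N, ((ζ ^ b)⁻¹) ^ j * (ζ ^ (i + j)) ^ a = 0 := by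
      rw [Finset.sum_congr rfl (g := fun j => (ζ ^ i) ^ a * z ^ j) fun j _ => by
        rw [hz, mul_pow, pow_add, mul_pow, pow_right_comm ζ a j]; ring, ← Finset.mul_sum,
        geom_sum_eq hz1, hzN, sub_self, zero_div, mul_zero]
    rw [this, zero_smul]
  · intro h
    exact absurd (Finset.mem_range.2 hb) h

theorem commute_eigen_projection {n N : ℕ} (hN : 0 < N) {ζ : ℂ} (hζ : IsPrimitiveRoot ζ N)
    {f : Module.End ℂ (Fin n → ℂ)} {E : ℕ → Module.End ℂ (Fin n → ℂ)}
    (hE : ∀ j : ℕ, f ^ j = ∑ a ∈ Finset.range N, (ζ ^ j) ^ a • E a)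
    (x : Module.End ℂ (Fin n → ℂ)) (hx : Commute x f) {b : ℕ} (hb : b < N) : Commute x (E b) := by
  have key := eigen_projection_formula hN hζ hE hb 0
  simp only [pow_zero, one_pow, mul_one, zero_add] at key
  have h1 : Commute x ((N : ℂ) • E b) := by
    rw [key]
    exact Commute.sum_right _ _ _ fun j _ => Commute.smul_right (hx.pow_right j) _
  have h2 := Commute.smul_right h1 ((N : ℂ)⁻¹)
  rwa [smul_smul, inv_mul_cancel₀ (Nat.cast_ne_zero.2 hN.ne'), one_smul] at h2

theorem isIdempotentElem_eigen_projection {n N : ℕ} (hN : 0 < N) {ζ : ℂ}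
    (hζ : IsPrimitiveRoot ζ N) {f : Module.End ℂ (Fin n → ℂ)}
    {E : ℕ → Module.End ℂ (Fin n → ℂ)}
    (hE : ∀ j : ℕ, f ^ j = ∑ a ∈ Finset.range N, (ζ ^ j) ^ a • E a) {b : ℕ} (hb : b < N) :
    IsIdempotentElem (E b) := by
  have hζ0 : ζ ≠ 0 := hζ.ne_zero hN.ne'
  have hN0 : (N : ℂ) ≠ 0 := Nat.cast_ne_zero.2 hN.ne'
  have key := eigen_projection_formula hN hζ hE hb 0
  simp only [pow_zero, one_pow, mul_one, zero_add] at key
  have hf : ∀ j, f ^ j * ((N : ℂ) • E b) = ((N : ℂ) * (ζ ^ j) ^ b) • E b := by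
    intro j
    rw [key, Finset.mul_sum, eigen_projection_formula hN hζ hE hb j]
    simp only [mul_smul_comm, pow_add]
  have h : ((N : ℂ) • E b) * ((N : ℂ) • E b) = ((N : ℂ) * N) • E b := by
    conv_lhs => arg 1; rw [key]
    rw [Finset.sum_mul]
    simp only [smul_mul_assoc, hf, smul_smul]
    rw [← Finset.sum_smul]
    congr 1
    rw [Finset.sum_congr rfl (g := fun _ => (N : ℂ)) fun j _ => by
      rw [mul_left_comm, inv_pow, pow_right_comm ζ j b,
        inv_mul_cancel₀ (pow_ne_zero _ (pow_ne_zero _ hζ0)), mul_one]]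
    simp
  rw [smul_mul_smul_comm] at h
  exact smul_right_injective _ (mul_ne_zero hN0 hN0) h

/-- Let p be a prime, G a finite group and B a p-block of G (relative to a maximal ideal M of the algebraic integers containing p) with defect group D. Let Z be a central p-subgroup of G contained in D and λ a linear character of Z (a homomorphism to the nonzero complex numbers). Say an irreducible character χ of G lies over λ when χ(z) = χ(1)λ(z) for all z ∈ Z. If some irreducible character in B lying over λ has height zero, then λ extends to a linear character of D. -/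
theorem result {G : Type*} [Group G] [Finite G] (p : ℕ) [Fact p.Prime] (M : Ideal Cfsg.AlgInt) (hM : Cfsg.IsPModular p M) (B : Set (Cfsg.IrrCharacter G)) (hB : Cfsg.IsPBlock M B) (D : Subgroup G) (hD : Cfsg.IsDefectGroup p M B D) (Z : Subgroup G) (hZc : Z ≤ Subgroup.center G) (hZp : IsPGroup p ↥Z) (hZD : Z ≤ D) (lam : ↥Z →* ℂˣ) (χ : Cfsg.IrrCharacter G) (hχ : χ ∈ B) (hover : (∀ z : ↥Z, (χ : G → ℂ) z = (χ : G → ℂ) 1 * (lam z : ℂ))) (h0 : Cfsg.blockHeight p B (χ : G → ℂ) = 0) : (∃ μ : ↥D →* ℂˣ, ∀ z : ↥Z, μ ⟨(z : G), hZD z.2⟩ = lam z) := by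
  classical
  have := CfsgLib.Blocks.isMaximal_of_isPModular hM
  have hp : p.Prime := Fact.out
  obtain ⟨g, hg, S, hS⟩ := hD
  have hDg : ∀ d ∈ D, d * g = g * d := by
    rw [hS]
    rintro _ ⟨d, -, rfl⟩
    exact Subgroup.mem_centralizer_singleton_iff.1 d.2
  have hunit := CfsgLib.Blocks.not_memLocalIdeal_apply_of_height_zero hM hB hg hχ h0
  obtain ⟨χ, hirr⟩ := χ
  obtain ⟨n, ρ, hρ, rfl⟩ := id hirr
  simp only at hover hunit
  have hn1 : ρ.character 1 = (n : ℂ) := by rw [Representation.char_one, Module.finrank_fin_fun]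
  have hn : n ≠ 0 := by
    intro h
    exact CfsgLib.Chars.map_one_ne_zero ⟨ρ.character, hirr⟩ (by
      show ρ.character 1 = 0
      rw [hn1, h, Nat.cast_zero])
  -- the central subgroup acts by the linear character
  have hlam : ∀ z : ↥Z, (lam z : ℂˣ) ^ Nat.card ↥Z = 1 := fun z => by
    rw [← map_pow, pow_card_eq_one', map_one]
  have hscal : ∀ z : ↥Z, ρ (z : G) = (lam z : ℂ) • 1 := by
    intro z
    have hz : ρ.character z = (n : ℂ) * (lam z : ℂ) := by rw [hover z, hn1]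
    have hnorm : ‖(lam z : ℂ)‖ = 1 := Complex.norm_eq_one_of_pow_eq_one
      (by rw [← Units.val_pow_eq_pow_val, hlam z, Units.val_one]) Nat.card_pos.ne'
    rw [CfsgLib.Chars.rep_eq_smul_of_norm_character_eq ρ hn
      (by rw [hz, norm_mul, hnorm, Complex.norm_natCast, mul_one]), hz,
      mul_div_cancel_left₀ _ (Nat.cast_ne_zero.2 hn)]
  -- an eigenspace of `g` of dimension prime to `p`
  have hN : 0 < Nat.card G := Nat.card_pos
  have hζ := Complex.isPrimitiveRoot_exp _ hN.ne'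
  set ζ := Complex.exp (2 * Real.pi * Complex.I / (Nat.card G : ℕ))
  have hfN : ρ g ^ Nat.card G = 1 := CfsgLib.Chars.Apps.rep_pow_card ρ g
  obtain ⟨E, r, hE1, hEpow, hEtr, hE0, hr⟩ :=
    CfsgLib.Chars.Apps.exists_eigen_decomp hN hζ (ρ g) hfN
  have hval : ρ.character g = ∑ a ∈ Finset.range (Nat.card G), (r a : ℂ) * ζ ^ a := by
    rw [Representation.character]
    conv_lhs => rw [← pow_one (ρ g), hEpow 1]
    simp only [map_sum, map_smul, hEtr, smul_eq_mul, pow_one]
    exact Finset.sum_congr rfl fun a _ => mul_comm _ _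
  obtain ⟨b, hb, hbr⟩ : ∃ b ∈ Finset.range (Nat.card G), ¬ p ∣ r b := by
    by_contra hcon
    push Not at hcon
    apply hunit
    rw [hval]
    exact CfsgLib.Blocks.memLocalIdeal_sum _ fun a ha => CfsgLib.Blocks.memLocalIdeal_mul_right
      ((CfsgLib.Blocks.memLocalIdeal_natCast_iff hM _).2 (hcon a ha))
      (CfsgLib.Blocks.memLocalRing_of_isIntegral ((hζ.isIntegral hN).pow a))
  -- the determinant of the defect group on it
  set W := LinearMap.range (E b)
  have hWinv : ∀ d : ↥D, ∀ w ∈ W, ρ (d : G) w ∈ W := by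
    rintro d _ ⟨w, rfl⟩
    have hc : Commute (ρ (d : G)) (E b) := commute_eigen_projection hN hζ hEpow _
      (show ρ (d : G) * ρ g = ρ g * ρ (d : G) by rw [← map_mul, ← map_mul, hDg d d.2])
      (Finset.mem_range.1 hb)
    exact ⟨ρ (d : G) w, (LinearMap.congr_fun hc.eq w).symm⟩
  let σ : ↥D →* Module.End ℂ ↥W :=
    { toFun := fun d => (ρ (d : G)).restrict (hWinv d)
      map_one' := LinearMap.ext fun w => Subtype.ext (by simp)
      map_mul' := fun d d' => LinearMap.ext fun w => Subtype.ext (by simp) }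
  let φ : ↥D →* ℂˣ := ((LinearMap.det).comp σ).toHomUnits
  have hφ : ∀ z : ↥Z, (φ ⟨(z : G), hZD z.2⟩ : ℂ) = (lam z : ℂ) ^ Module.finrank ℂ ↥W := by
    intro z
    show LinearMap.det (σ ⟨(z : G), hZD z.2⟩) = _
    have : σ ⟨(z : G), hZD z.2⟩ = (lam z : ℂ) • (1 : Module.End ℂ ↥W) := by
      refine LinearMap.ext fun w => Subtype.ext ?_
      show ρ (z : G) (w : Fin n → ℂ) = _
      rw [hscal z]
      rfl
    rw [this, LinearMap.det_smul, map_one, mul_one]
  have hidem : IsIdempotentElem (E b) :=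
    isIdempotentElem_eigen_projection hN hζ hEpow (Finset.mem_range.1 hb)
  have hdim : Module.finrank ℂ ↥W = r b := by
    have h1 : LinearMap.trace ℂ (Fin n → ℂ) (E b) = (Module.finrank ℂ ↥W : ℂ) :=
      LinearMap.IsProj.trace ((LinearMap.isProj_range_iff_isIdempotentElem _).2 hidem)
    exact_mod_cast h1.symm.trans (hEtr b)
  -- undo the exponent
  obtain ⟨k, hk⟩ := hZp.exists_card_eq
  obtain ⟨m, hm⟩ : ∃ m, r b * m ≡ 1 [MOD p ^ k] := by
    refine ⟨r b ^ (Nat.totient (p ^ k) - 1), ?_⟩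
    rw [← pow_succ', Nat.sub_add_cancel (Nat.totient_pos.2 (pow_pos hp.pos k))]
    exact Nat.ModEq.pow_totient (((hp.coprime_iff_not_dvd.2 hbr).symm).pow_right k)
  refine ⟨φ ^ m, fun z => Units.ext ?_⟩
  rw [MonoidHom.pow_apply, Units.val_pow_eq_pow_val, hφ z, ← pow_mul, hdim,
    ← Units.val_pow_eq_pow_val]
  congr 1
  have hd : orderOf (lam z) ∣ p ^ k := hk ▸ orderOf_dvd_of_pow_eq_one (hlam z)
  exact (pow_eq_pow_iff_modEq.2 (hm.of_dvd hd)).trans (pow_one _)

end Cfsg.Agent.S5001
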