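import Cfsg.Statements.S5011
-- import your own Cfsg.Agent.* helpers here

set_option autoImplicit false
open Cfsg

namespace Cfsg.Agent.S5011

/-- Let G be a finite non-abelian simple group and ρ an irreducible complex representation of G on a space of dimension greater than one (irreducible in the sense that the only subspaces invariant under every ρ(x) are 0 and the whole space). Then for every non-identity element g of G, the centralizer of g does not act irreducibly: there is a non-zero proper subspace invariant under ρ(c) for every c commuting with g. -/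
theorem result {G : Type*} [Group G] [Finite G] [IsSimpleGroup G]
    (hG : ¬ IsMulCommutative G) {V : Type*} [AddCommGroup V] [Module ℂ V] [FiniteDimensional ℂ V]
    (ρ : Representation ℂ G V)
    (hirr : ∀ W : Submodule ℂ V, (∀ x : G, ∀ v ∈ W, ρ x v ∈ W) → W = ⊥ ∨ W = ⊤)
    (hdim : 1 < Module.finrank ℂ V) (g : G) (hg : g ≠ 1) :
    ∃ W : Submodule ℂ V, W ≠ ⊥ ∧ W ≠ ⊤ ∧ ∀ c ∈ Subgroup.centralizer ({g} : Set G), ∀ v ∈ W, ρ c v ∈ W := by
  by_contra hc
  push Not at hc
  haveI : Nontrivial V := Module.nontrivial_of_finrank_pos (R := ℂ) (by omega)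
  obtain ⟨μ, hμ⟩ := Module.End.exists_eigenvalue (ρ g)
  -- the eigenspace is stable under the centralizer
  have hstable : ∀ c ∈ Subgroup.centralizer ({g} : Set G), ∀ v ∈ Module.End.eigenspace (ρ g) μ,
      ρ c v ∈ Module.End.eigenspace (ρ g) μ := by
    intro c hcg v hv
    rw [Module.End.mem_eigenspace_iff] at hv ⊢
    have hcomm : c * g = g * c := Subgroup.mem_centralizer_singleton_iff.1 hcg
    rw [← Module.End.mul_apply, ← map_mul, ← hcomm, map_mul, Module.End.mul_apply, hv, map_smul]
  have htop : Module.End.eigenspace (ρ g) μ = ⊤ := by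
    by_contra htop
    obtain ⟨c, hcg, v, hv, hv'⟩ := hc _ hμ htop
    exact hv' (hstable c hcg v hv)
  let N : Subgroup G :=
    { carrier := {x | ∃ t : ℂ, ∀ v, ρ x v = t • v}
      one_mem' := ⟨1, fun v => by simp⟩
      mul_mem' := by
        rintro x y ⟨s, hs⟩ ⟨t, ht⟩
        exact ⟨t * s, fun v => by rw [map_mul, Module.End.mul_apply, ht, map_smul, hs, smul_smul]⟩
      inv_mem' := by
        rintro x ⟨t, ht⟩
        refine ⟨t⁻¹, fun v => ?_⟩
        have h1 : ρ x (ρ x⁻¹ v) = v := by
          rw [← Module.End.mul_apply, ← map_mul, mul_inv_cancel, map_one, Module.End.one_apply]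
        rw [ht] at h1
        by_cases ht0 : t = 0
        · rw [ht0, zero_smul] at h1
          rw [← h1]; simp
        · conv_rhs => rw [← h1]
          rw [smul_smul, inv_mul_cancel₀ ht0, one_smul] }
  have hN : N.Normal := by
    refine ⟨fun x hx y => ?_⟩
    obtain ⟨t, ht⟩ := hx
    refine ⟨t, fun v => ?_⟩
    rw [map_mul, map_mul, Module.End.mul_apply, Module.End.mul_apply, ht, map_smul,
      ← Module.End.mul_apply, ← map_mul, mul_inv_cancel, map_one, Module.End.one_apply]
  have hgN : g ∈ N := ⟨μ, fun v => Module.End.mem_eigenspace_iff.1 (htop ▸ Submodule.mem_top)⟩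
  rcases hN.eq_bot_or_eq_top with hb | ht
  · exact hg (Subgroup.mem_bot.1 (hb ▸ hgN))
  obtain ⟨v, hv⟩ := exists_ne (0 : V)
  rcases hirr (ℂ ∙ v) (by
    intro x w hw
    obtain ⟨t, hxt⟩ : x ∈ N := ht ▸ Subgroup.mem_top x
    rw [hxt]
    exact Submodule.smul_mem _ _ hw) with hW | hW
  · exact hv ((Submodule.span_singleton_eq_bot).1 hW)
  · have h1 := finrank_span_singleton (K := ℂ) hv
    rw [hW, finrank_top] at h1
    omega

end Cfsg.Agent.S5011
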