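import Cfsg.Statements.S5075
import Cfsg.Agent.Eq.Def_Solvable
import Cfsg.Agent.McLaughlin.Decomp

set_option autoImplicit false
open Cfsg

namespace Cfsg.Agent.S5075

open CfsgLib.McLaughlin Module Submodule

theorem exists_restriction {p : ℕ} [Fact p.Prime] {V : Type*} [AddCommGroup V] [Module (ZMod p) V]
    [Finite V] {H : Subgroup (V ≃ₗ[ZMod p] V)} (_hG : Good H) {W A : Submodule (ZMod p) V}
    (hb : Block H W A)
    (hmap : ∀ h ∈ blockGroup H W A, W.map (h : V →ₗ[ZMod p] V) = W) :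
    ∃ ρ : ↥(blockGroup H W A) →* (↥W ≃ₗ[ZMod p] ↥W),
      (∀ (h : ↥(blockGroup H W A)) (v : ↥W), ((ρ h v : ↥W) : V) = (h : V ≃ₗ[ZMod p] V) (v : V)) ∧
      ((ρ.range : Set (↥W ≃ₗ[ZMod p] ↥W)) =
          {f : ↥W ≃ₗ[ZMod p] ↥W | LinearMap.det (f : ↥W →ₗ[ZMod p] ↥W) = 1} ∨
        ∃ B : LinearMap.BilinForm (ZMod p) ↥W, B.IsAlt ∧ B.Nondegenerate ∧
          (ρ.range : Set (↥W ≃ₗ[ZMod p] ↥W)) =
            {f : ↥W ≃ₗ[ZMod p] ↥W | ∀ x y, B (f x) (f y) = B x y}) := by
  haveI : Module.Finite (ZMod p) V := Module.Finite.of_finite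
  let ρ : ↥(blockGroup H W A) →* (↥W ≃ₗ[ZMod p] ↥W) :=
    { toFun := fun k => LinearEquiv.ofSubmodules (k : V ≃ₗ[ZMod p] V) W W (hmap k k.2)
      map_one' := LinearEquiv.ext fun v => Subtype.ext rfl
      map_mul' := fun k l => LinearEquiv.ext fun v => Subtype.ext rfl }
  have hρ : ∀ (h : ↥(blockGroup H W A)) (v : ↥W),
      ((ρ h v : ↥W) : V) = (h : V ≃ₗ[ZMod p] V) (v : V) := fun _ _ => rfl
  refine ⟨ρ, hρ, ?_⟩
  -- a transvection of the block restricts to a transvection
  have hlift : ∀ (a : V) (φ : Dual (ZMod p) V), Tr H a φ → a ∈ W → Kills A φ →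
      ∃ k, ∀ v : ↥W, ((ρ k v : ↥W) : V) = (v : V) + φ v • a := by
    intro a φ h ha hk
    obtain ⟨h0, g, hg, hx⟩ := h
    exact ⟨⟨g, Subgroup.subset_closure ⟨hg, a, φ, ha, hk, h0, hx⟩⟩, fun v => hx v⟩
  -- induction over the block group
  have hind : ∀ P : (↥W ≃ₗ[ZMod p] ↥W) → Prop, P 1 → (∀ f g, P f → P g → P (f * g)) →
      (∀ f, P f → P f⁻¹) →
      (∀ (a : V) (ha : a ∈ W) (φ : Dual (ZMod p) V) (_ : Tr H a φ) (_ : Kills A φ)
        (f : ↥W ≃ₗ[ZMod p] ↥W), (∀ v : ↥W, f v = v + φ v • (⟨a, ha⟩ : ↥W)) → P f) →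
      ∀ k, P (ρ k) := by
    intro P h1 hmul hinv hgen k
    obtain ⟨g, hg⟩ := k
    induction hg using Subgroup.closure_induction with
    | mem t ht =>
      obtain ⟨htH, a, φ, ha, hk, h0, hx⟩ := ht
      exact hgen a ha φ ⟨h0, t, htH, hx⟩ hk _ fun v => Subtype.ext (hx v)
    | one => exact h1
    | mul x y hx hy i1 i2 => exact (map_mul ρ ⟨x, hx⟩ ⟨y, hy⟩).symm ▸ hmul _ _ i1 i2
    | inv x hx i1 => exact (map_inv ρ ⟨x, hx⟩).symm ▸ hinv _ i1
  rcases hb.kind with hSL | ⟨B, hB⟩
  · left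
    ext f
    constructor
    · rintro ⟨k, rfl⟩
      refine hind (fun f => LinearMap.det (f : ↥W →ₗ[ZMod p] ↥W) = 1) ?_ ?_ ?_ ?_ k
      · exact LinearMap.det_id
      · intro f g hf hg
        rw [LinearEquiv.coe_toLinearMap_mul, map_mul, hf, hg, one_mul]
      · intro f hf
        have h : LinearMap.det ((f⁻¹ : ↥W ≃ₗ[ZMod p] ↥W) : ↥W →ₗ[ZMod p] ↥W) *
            LinearMap.det (f : ↥W →ₗ[ZMod p] ↥W) = 1 := by
          rw [← map_mul, ← LinearEquiv.coe_toLinearMap_mul, inv_mul_cancel]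
          exact LinearMap.det_id
        rwa [hf, mul_one] at h
      · intro a ha φ hx _ f hf
        have he : (f : ↥W →ₗ[ZMod p] ↥W) = LinearMap.transvection (φ.comp W.subtype) ⟨a, ha⟩ :=
          LinearMap.ext fun v => (hf v).trans (LinearMap.transvection.apply (φ.comp W.subtype) ⟨a, ha⟩ v).symm
        rw [he, LinearMap.transvection.det]
        simp [hx.1]
    · intro hf
      refine mem_of_det_eq_one ρ.range (fun w φ hφ => ?_) f hf
      obtain ⟨k, hk⟩ := hlift (w : V) (φ.comp (W.projectionOnto A hb.compl))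
        (hSL _ w.2 _ (fun v hv => by simp [(projectionOnto_apply_eq_zero_iff hb.compl).2 hv])
          (by simp [hφ]))
        w.2 (fun v hv => by simp [(projectionOnto_apply_eq_zero_iff hb.compl).2 hv])
      refine ⟨k, LinearEquiv.ext fun v => Subtype.ext ?_⟩
      rw [hk, LinearEquiv.transvection.apply]
      simp
  · right
    let Bl : LinearMap.BilinForm (ZMod p) ↥W := LinearMap.compl₂ (B.comp W.subtype) W.subtype
    have halt : Bl.IsAlt := fun v => hB.alt v v.2
    have hleft : ∀ w : ↥W, (∀ v, Bl w v = 0) → w = 0 := fun w hw =>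
      Subtype.ext (hB.nd w w.2 fun v hv => hw ⟨v, hv⟩)
    refine ⟨Bl, halt, ⟨hleft, fun w hw => hleft w fun v => ?_⟩, ?_⟩
    · rw [← halt.neg_eq, hw, neg_zero]
    ext f
    constructor
    · rintro ⟨k, rfl⟩
      refine hind (fun f => ∀ x y, Bl (f x) (f y) = Bl x y) ?_ ?_ ?_ ?_ k
      · intro x y; rfl
      · intro f g hf hg x y
        rw [LinearEquiv.mul_apply, LinearEquiv.mul_apply, hf, hg]
      · intro f hf x y
        conv_rhs => rw [← LinearEquiv.apply_symm_apply f x, ← LinearEquiv.apply_symm_apply f y, hf]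
        rfl
      · intro a ha φ hx hk f hf x y
        rcases eq_or_ne a 0 with rfl | ha0
        · have h0 : (⟨0, ha⟩ : ↥W) = 0 := rfl
          simp [hf, h0]
        obtain ⟨c, hc⟩ := hB.only a φ hx ha ha0 hk
        have hφ : ∀ v : ↥W, φ v = c * Bl ⟨a, ha⟩ v := fun v => by
          rw [hc]; rfl
        have haa : Bl ⟨a, ha⟩ ⟨a, ha⟩ = 0 := halt _
        rw [hf, hf, hφ, hφ]
        simp only [map_add, map_smul, LinearMap.add_apply, LinearMap.smul_apply, smul_eq_mul, haa,
          mul_zero, add_zero]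
        rw [show Bl x ⟨a, ha⟩ = -Bl ⟨a, ha⟩ x from (halt.neg_eq _ _).symm]
        ring
    · intro hf
      refine mem_of_preserves Bl (fun w => halt w) hleft ρ.range (fun z s => ?_) f hf
      obtain ⟨k, hk⟩ := hlift (z : V) (s • B z) ((hB.tr z z.2).smul_right s) z.2
        (fun v hv => by simp [hB.kills z z.2 v hv])
      exact ⟨ρ k, ⟨k, rfl⟩, fun v => Subtype.ext (hk v)⟩

/-- Let p be an odd prime, V a finite-dimensional vector space over the field with p elements, and H a group of linear automorphisms of V generated by transvections (elements of order p fixing a hyperplane pointwise) and having no nontrivial normal p-subgroup. Then for some n ≥ 1 there are a decomposition V = V₀ ⊕ V₁ ⊕ ⋯ ⊕ Vₙ into H-invariant subspaces and a decomposition of H as the internal direct product of normal subgroups H₁, …, Hₙ such that Hⱼ acts trivially on every Vᵢ with i ≠ j, and Hⱼ induces on Vⱼ exactly the special linear group of Vⱼ or exactly the isometry group of a non-degenerate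 alternating form on Vⱼ. -/
theorem result {p : ℕ} [Fact p.Prime] (hp : Odd p) {V : Type*} [AddCommGroup V] [Module (ZMod p) V] [Finite V]
    (H : Subgroup (V ≃ₗ[ZMod p] V)) (T : Set (V ≃ₗ[ZMod p] V)) (hHT : H = Subgroup.closure T)
    (hT : ∀ t ∈ T, orderOf t = p ∧
      Module.finrank (ZMod p) ↥(LinearMap.ker ((t : V →ₗ[ZMod p] V) - LinearMap.id)) + 1 =
        Module.finrank (ZMod p) V)
    (hOp : Cfsg.pCore p ↥H = ⊥) :
    ∃ (n : ℕ) (W : Fin (n + 1) → Submodule (ZMod p) V) (K : Fin n → Subgroup (V ≃ₗ[ZMod p] V)),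
      1 ≤ n ∧ DirectSum.IsInternal W ∧
      (∀ h ∈ H, ∀ i, (W i).map (h : V →ₗ[ZMod p] V) = W i) ∧
      (∀ j, K j ≤ H ∧ ((K j).subgroupOf H).Normal) ∧ ⨆ j, K j = H ∧
      (∀ j, K j ⊓ (⨆ j' ∈ {j' : Fin n | j' ≠ j}, K j') = ⊥) ∧
      (∀ j j', j ≠ j' → ∀ a ∈ K j, ∀ b ∈ K j', a * b = b * a) ∧
      (∀ j, ∀ h ∈ K j, ∀ i : Fin (n + 1), i ≠ j.succ → ∀ v ∈ W i, h v = v) ∧
      (∀ j, ∃ ρ : ↥(K j) →* (↥(W j.succ) ≃ₗ[ZMod p] ↥(W j.succ)),
        (∀ (h : ↥(K j)) (v : ↥(W j.succ)), ((ρ h v : ↥(W j.succ)) : V) = (h : V ≃ₗ[ZMod p] V) (v : V)) ∧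
        ((ρ.range : Set (↥(W j.succ) ≃ₗ[ZMod p] ↥(W j.succ))) =
            {f : ↥(W j.succ) ≃ₗ[ZMod p] ↥(W j.succ) | LinearMap.det (f : ↥(W j.succ) →ₗ[ZMod p] ↥(W j.succ)) = 1} ∨
          ∃ B : LinearMap.BilinForm (ZMod p) ↥(W j.succ), B.IsAlt ∧ B.Nondegenerate ∧
            (ρ.range : Set (↥(W j.succ) ≃ₗ[ZMod p] ↥(W j.succ))) = {f : ↥(W j.succ) ≃ₗ[ZMod p] ↥(W j.succ) | ∀ x y, B (f x) (f y) = B x y})) := by
  classical
  haveI : Module.Finite (ZMod p) V := Module.Finite.of_finite
  have hp2 : p ≠ 2 := fun h => by subst h; exact absurd hp (by decide)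
  -- the generators are transvections
  have hgen : ∀ t ∈ T, ∃ (a : V) (φ : Module.Dual (ZMod p) V),
      φ a = 0 ∧ a ≠ 0 ∧ φ ≠ 0 ∧ ∀ x, t x = x + φ x • a := by
    intro t ht
    obtain ⟨hord, hrk⟩ := hT t ht
    set L : V →ₗ[ZMod p] V := (t : V →ₗ[ZMod p] V) - LinearMap.id with hL
    have hr : Module.finrank (ZMod p) (LinearMap.range L) = 1 := by
      have := L.finrank_range_add_finrank_ker
      omega
    obtain ⟨⟨a, ha⟩, hne, hspan⟩ := finrank_eq_one_iff'.1 hr
    have ha0 : a ≠ 0 := fun h => hne (Subtype.ext h)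
    choose c hc using hspan
    have hc' : ∀ x, c ⟨L x, LinearMap.mem_range_self L x⟩ • a = L x := fun x =>
      congrArg Subtype.val (hc ⟨L x, LinearMap.mem_range_self L x⟩)
    let φ : Module.Dual (ZMod p) V :=
      { toFun := fun x => c ⟨L x, LinearMap.mem_range_self L x⟩
        map_add' := fun x y => smul_left_injective _ ha0 (by
          change _ • a = _ • a
          rw [add_smul, hc', hc', hc', map_add])
        map_smul' := fun k x => smul_left_injective _ ha0 (by
          change _ • a = _ • a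
          rw [RingHom.id_apply, smul_eq_mul, mul_smul, hc', hc', map_smul]) }
    have hx : ∀ x, t x = x + φ x • a := fun x => by
      change t x = x + c _ • a
      rw [hc']
      simp [hL]
    have ht1 : t ≠ 1 := fun h => by
      rw [h, orderOf_one] at hord
      exact (Fact.out : p.Prime).one_lt.ne hord
    refine ⟨a, φ, ?_, ha0, fun h => ht1 (LinearEquiv.ext fun x => by simp [hx, h]), hx⟩
    have hta : t a = (1 + φ a) • a := by rw [hx, add_smul, one_smul]
    have hpow : ∀ k : ℕ, (t ^ k) a = (1 + φ a) ^ k • a := by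
      intro k
      induction k with
      | zero => simp
      | succ k ih => rw [pow_succ', LinearEquiv.mul_apply, ih, map_smul, hta, smul_smul, pow_succ]
    have h1 := hpow p
    have htp : t ^ p = 1 := orderOf_dvd_iff_pow_eq_one.1 (by rw [hord])
    rw [htp, ZMod.pow_card] at h1
    have h2 : φ a • a = 0 := by
      have h3 : a = (1 + φ a) • a := h1
      rw [add_smul, one_smul] at h3
      exact left_eq_add.1 h3
    exact (smul_eq_zero.1 h2).resolve_right ha0
  have hTH : T ⊆ (H : Set (V ≃ₗ[ZMod p] V)) := fun t ht => hHT ▸ Subgroup.subset_closure ht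
  have hG : Good H := ⟨hp2, hOp, fun h hh => by
    rw [hHT] at hh
    refine (Subgroup.closure_le _).2 ?_ hh
    intro t ht
    obtain ⟨a, φ, h0, -, -, hx⟩ := hgen t ht
    exact Subgroup.subset_closure ⟨hTH ht, a, φ, h0, hx⟩⟩
  by_cases hTe : T = ∅
  · subst hTe
    rw [Subgroup.closure_empty] at hHT
    subst hHT
    refine ⟨1, ![⊤, ⊥], ![⊥], le_rfl, ?_, ?_, ?_, ?_, ?_, ?_, ?_, ?_⟩
    · rw [DirectSum.isInternal_submodule_iff_iSupIndep_and_iSup_eq_top]
      refine ⟨fun i => ?_, eq_top_iff.2 (le_iSup (![⊤, ⊥] : Fin 2 → Submodule (ZMod p) V) 0)⟩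
      fin_cases i
      · refine Disjoint.mono_right (iSup₂_le fun j hj => ?_) disjoint_bot_right
        fin_cases j
        · exact absurd rfl hj
        · exact le_rfl
      · simp
    · intro h hh i
      rw [Subgroup.mem_bot] at hh
      subst hh
      exact Submodule.map_id _
    · intro j
      fin_cases j
      exact ⟨le_rfl, by simpa using Subgroup.normal_subgroupOf (G := V ≃ₗ[ZMod p] V) (H := ⊥) (N := ⊥)⟩
    · simp
    · intro j
      fin_cases j
      simp
    · intro j j' hne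
      exact absurd (Subsingleton.elim j j') hne
    · intro j h hh i _ v _
      fin_cases j
      simp at hh
      subst hh
      rfl
    · intro j
      obtain rfl : j = 0 := Subsingleton.elim _ _
      refine ⟨1, fun h v => ?_, Or.inl ?_⟩
      · have h1 : (h : V ≃ₗ[ZMod p] V) = 1 := by simpa using h.2
        rw [h1]
        rfl
      · haveI : Subsingleton ↥((![⊤, ⊥] : Fin 2 → Submodule (ZMod p) V) ((0 : Fin 1).succ)) :=
          Submodule.subsingleton_iff_eq_bot.2 rfl
        refine Set.ext fun f => ⟨fun _ => ?_, fun _ => ⟨1, LinearEquiv.ext fun v => Subsingleton.elim _ _⟩⟩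
        exact LinearMap.det_eq_one_of_subsingleton _
  -- the blocks
  set S := {W : Submodule (ZMod p) V | ∃ A, Block H W A} with hS
  have hSfin : S.Finite := Set.toFinite S
  haveI : Fintype S := hSfin.fintype
  set n := Fintype.card S with hn
  let e : Fin n ≃ S := (Fintype.equivFin S).symm
  have hex : ∀ j : Fin n, ∃ A, Block H (e j : Submodule (ZMod p) V) A := fun j => (e j).2
  choose A hA using hex
  have hcover : ∀ a φ, Tr H a φ → a ≠ 0 → φ ≠ 0 →
      ∃ j, a ∈ (e j : Submodule (ZMod p) V) ∧ Kills (A j) φ := by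
    intro a φ h ha hφ
    obtain ⟨W', A', hb, haW, hk⟩ := exists_block hG h ha hφ
    refine ⟨e.symm ⟨W', A', hb⟩, by simpa using haW, ?_⟩
    rcases (hA (e.symm ⟨W', A', hb⟩)).eq_or_apart hb with ⟨-, h2⟩ | ⟨h1, -⟩
    · intro v hv; exact hk v (h2.le hv)
    · exfalso
      obtain ⟨w, hw, hw0⟩ := hb.exists_ne
      exact hw0 (Submodule.disjoint_def.1 (hA _).compl.disjoint w (by simpa using hw) (h1 hw))
  have happart : ∀ i j, i ≠ j → (e i : Submodule (ZMod p) V) ≤ A j := by
    intro i j hij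
    rcases (hA j).eq_or_apart (hA i) with ⟨h1, -⟩ | ⟨h1, -⟩
    · exact absurd (e.injective (Subtype.ext h1.symm)) hij
    · exact h1
  let W : Fin (n + 1) → Submodule (ZMod p) V :=
    Fin.cons (⨅ j, A j) (fun j => (e j : Submodule (ZMod p) V))
  let K : Fin n → Subgroup (V ≃ₗ[ZMod p] V) := fun j => blockGroup H (e j) (A j)
  have hinv : ∀ h ∈ H, ∀ i, ∀ u ∈ W i, h u ∈ W i := by
    intro h hh i
    refine hG.invariant (fun a φ hx u hu => ?_) h hh
    rcases eq_or_ne a 0 with rfl | ha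
    · simp
    rcases eq_or_ne φ 0 with rfl | hφ
    · simp
    obtain ⟨j, haj, hk⟩ := hcover a φ hx ha hφ
    refine Fin.cases (motive := fun i => u ∈ W i → φ u • a ∈ W i) (fun hu => ?_) (fun i hu => ?_) i hu
    · change u ∈ ⨅ j, A j at hu
      change φ u • a ∈ ⨅ j, A j
      rw [hk u ((Submodule.mem_iInf _).1 hu j), zero_smul]
      exact zero_mem _
    · change u ∈ (e i : Submodule (ZMod p) V) at hu
      change φ u • a ∈ (e i : Submodule (ZMod p) V)
      rcases eq_or_ne i j with rfl | hij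
      · exact Submodule.smul_mem _ _ haj
      · rw [hk u (happart i j hij hu), zero_smul]
        exact zero_mem _
  have hmap : ∀ h ∈ H, ∀ i, (W i).map (h : V →ₗ[ZMod p] V) = W i := fun h hh i => by
    refine le_antisymm (Submodule.map_le_iff_le_comap.2 fun u hu => hinv h hh i u hu) fun u hu => ?_
    exact ⟨h⁻¹ u, hinv _ (inv_mem hh) i u hu, LinearEquiv.apply_symm_apply h u⟩
  have hKfix : ∀ j, ∀ h ∈ K j, ∀ i : Fin (n + 1), i ≠ j.succ → ∀ v ∈ W i, h v = v := by
    intro j h hh i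
    refine Fin.cases (motive := fun i => i ≠ j.succ → ∀ v ∈ W i, h v = v) (fun _ v hv => ?_)
      (fun i hi v hv => ?_) i
    · exact blockGroup_fix hh v ((Submodule.mem_iInf _).1 hv j)
    · exact blockGroup_fix hh v (happart i j (fun h => hi (by rw [h])) hv)
  have hKcomm : ∀ j j', j ≠ j' → ∀ a ∈ K j, ∀ b ∈ K j', a * b = b * a := by
    intro j j' hne a ha b hb
    have h1 : K j' ≤ Subgroup.centralizer (K j : Set (V ≃ₗ[ZMod p] V)) := by
      refine (Subgroup.closure_le _).2 fun g' hg' => Subgroup.mem_centralizer_iff.2 fun g hg => ?_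
      have h2 : K j ≤ Subgroup.centralizer ({g'} : Set (V ≃ₗ[ZMod p] V)) :=
        (Subgroup.closure_le _).2 fun g hg => Subgroup.mem_centralizer_singleton_iff.2
          (commute_of_apart (happart j' j (Ne.symm hne)) (happart j j' hne) hg hg')
      exact Subgroup.mem_centralizer_singleton_iff.1 (h2 hg)
    exact Subgroup.mem_centralizer_iff.1 (h1 hb) a ha
  have hTK : ∀ t ∈ T, ∃ j, t ∈ K j := by
    intro t ht
    obtain ⟨a, φ, h0, ha, hφ, hx⟩ := hgen t ht
    obtain ⟨j, haj, hk⟩ := hcover a φ ⟨h0, t, hTH ht, hx⟩ ha hφ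
    exact ⟨j, Subgroup.subset_closure ⟨hTH ht, a, φ, haj, hk, h0, hx⟩⟩
  refine ⟨n, W, K, ?_, ?_, hmap, fun j => ⟨blockGroup_le _ _, ?_⟩, ?_, ?_, hKcomm, hKfix, fun j => ?_⟩
  · obtain ⟨t, ht⟩ := Set.nonempty_iff_ne_empty.2 hTe
    obtain ⟨j, -⟩ := hTK t ht
    exact j.pos
  · rw [DirectSum.isInternal_submodule_iff_iSupIndep_and_iSup_eq_top]
    refine ⟨fun i => ?_, ?_⟩
    · refine Fin.cases (motive := fun i => Disjoint (W i) (⨆ (k) (_ : k ≠ i), W k)) ?_ (fun i => ?_) i
      · rw [Submodule.disjoint_def]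
        intro x hx0 hx
        have hle : (⨆ (k : Fin (n + 1)) (_ : k ≠ 0), W k) ≤
            ⨆ k : Fin n, (e k : Submodule (ZMod p) V) := iSup₂_le fun k => by
          refine Fin.cases (motive := fun k => k ≠ 0 → W k ≤ _) (fun h => absurd rfl h) (fun k _ => ?_) k
          exact le_iSup (fun k => (e k : Submodule (ZMod p) V)) k
        obtain ⟨f, hf, hfx⟩ := (Submodule.mem_iSup_iff_exists_finsupp _ x).1 (hle hx)
        rw [Finsupp.sum_fintype _ _ (fun _ => rfl)] at hfx
        have hz : ∀ k, f k = 0 := by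
          intro k
          refine Submodule.disjoint_def.1 (hA k).compl.disjoint _ (hf k) ?_
          rw [← hfx, ← Finset.add_sum_erase _ _ (Finset.mem_univ k)] at hx0
          have h1 : ∑ l ∈ Finset.univ.erase k, f l ∈ A k := Submodule.sum_mem _ fun l hl =>
            happart l k (Finset.ne_of_mem_erase hl) (hf l)
          have h2 := sub_mem ((Submodule.mem_iInf _).1 hx0 k) h1
          rwa [add_sub_cancel_right] at h2
        rw [← hfx]
        simp [hz]
      · refine Disjoint.mono_right (iSup₂_le fun k => ?_) (hA i).compl.disjoint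
        refine Fin.cases (motive := fun k => k ≠ i.succ → W k ≤ A i) (fun _ => iInf_le A i)
          (fun k hk => ?_) k
        exact happart k i fun h => hk (by rw [h])
    · rw [eq_top_iff]
      intro v _
      set π : Fin n → V := fun j => (e j : Submodule (ZMod p) V).projection (A j) (hA j).compl v
      have h0 : v - ∑ j, π j ∈ W 0 := by
        refine (Submodule.mem_iInf _).2 fun k => ?_
        rw [← Finset.add_sum_erase _ _ (Finset.mem_univ k), ← sub_sub]
        refine sub_mem (Submodule.sub_projection_mem (hA k).compl v) (Submodule.sum_mem _ fun l hl => ?_)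
        exact happart l k (Finset.ne_of_mem_erase hl) (Submodule.projection_apply_mem (hA l).compl v)
      rw [← sub_add_cancel v (∑ j, π j)]
      refine add_mem (le_iSup W 0 h0) (Submodule.sum_mem _ fun j _ => ?_)
      exact le_iSup W j.succ (Submodule.projection_apply_mem (hA j).compl v)
  · have hle : H ≤ Subgroup.normalizer (K j : Set (V ≃ₗ[ZMod p] V)) := by
      rw [hHT]
      refine (Subgroup.closure_le _).2 fun t ht => ?_
      obtain ⟨k, hk⟩ := hTK t ht
      rcases eq_or_ne k j with rfl | hne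
      · exact Subgroup.le_normalizer hk
      · exact Subgroup.centralizer_le_normalizer _ (Subgroup.mem_centralizer_iff.2 fun a ha =>
          (hKcomm k j hne t hk a ha).symm)
    exact Subgroup.normal_subgroupOf_of_le_normalizer hle
  · refine le_antisymm (iSup_le fun j => blockGroup_le _ _) ?_
    rw [hHT]
    refine (Subgroup.closure_le _).2 fun t ht => ?_
    obtain ⟨j, hj⟩ := hTK t ht
    exact Subgroup.mem_iSup_of_mem j hj
  · intro j
    rw [eq_bot_iff]
    intro g hg
    obtain ⟨hgj, hgo⟩ := Subgroup.mem_inf.1 hg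
    have h2 : ∀ v ∈ (e j : Submodule (ZMod p) V), g v = v := by
      have hle : (⨆ j' ∈ {j' : Fin n | j' ≠ j}, K j') ≤
          fixingSubgroup (V ≃ₗ[ZMod p] V) ((e j : Submodule (ZMod p) V) : Set V) :=
        iSup₂_le fun k hk h hh => (mem_fixingSubgroup_iff _).2 fun v hv =>
          hKfix k h hh j.succ (fun h => hk (Fin.succ_inj.1 h).symm) v hv
      exact fun v hv => (mem_fixingSubgroup_iff _).1 (hle hgo) v hv
    refine Subgroup.mem_bot.2 (LinearEquiv.ext fun v => ?_)
    have hv := (hA j).compl.codisjoint.eq_top ▸ Submodule.mem_top (x := v)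
    obtain ⟨w, hw, a, ha, rfl⟩ := Submodule.mem_sup.1 hv
    rw [map_add, h2 w hw, blockGroup_fix hgj a ha]
    rfl
  · exact exists_restriction hG (hA j) (fun h hh => hmap h (blockGroup_le _ _ hh) j.succ)

end Cfsg.Agent.S5075
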