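import Cfsg.Statements.S5087
import Cfsg.Agent.Fusion.Alperin.Criteria
import Cfsg.Agent.S5080

set_option autoImplicit false
open Cfsg

namespace Cfsg.Agent.S5087

/-- In a saturated fusion system over a finite p-group S, a subgroup Q is normal in the system if and only if every subgroup P that equals S or is essential contains Q and every element of Aut_F(P) maps Q onto itself. -/
theorem result {Ω : Type*} [Group Ω] {S : Subgroup Ω} [Finite S] (p : ℕ) [Fact p.Prime] (hS : IsPGroup p S) (F : Cfsg.FusionSystem S) (hF : F.IsSaturated p) (Q : Subgroup Ω) : F.IsNormal Q ↔ ∀ P : Subgroup Ω, (P = S ∨ F.IsEssential p P) → (Q ≤ P ∧ ∀ α ∈ F.autGroup P, (Q.subgroupOf P).map α.toMonoidHom = Q.subgroupOf P) := by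
  constructor
  · intro hQ P hP
    have hle : Q ≤ P := by
      rcases hP with rfl | hess
      · exact hQ.1
      · exact CfsgLib.Fusion.Alperin.le_of_centric_radical hS hQ hess.1
          (Cfsg.Agent.S5080.result p hS F hF P hess)
    refine ⟨hle, fun α hα => ?_⟩
    have hPS : P ≤ S := by
      rcases hP with rfl | hess
      · exact le_rfl
      · exact hess.1.1
    have hα' := (CfsgLib.Fus.mem_autGroup_iff F hPS).1 hα
    have := CfsgLib.Fus.finite_of_le hPS
    refine Subgroup.eq_of_le_of_card_ge ?_ ?_
    · rintro _ ⟨x, hx, rfl⟩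
      exact CfsgLib.Fusion.Alperin.map_mem_of_isNormal hQ hα' hx
    · exact le_of_eq (Subgroup.card_map_of_injective α.injective).symm
  · intro h
    refine CfsgLib.Fusion.Alperin.isNormal_criterion hS hF (h S (Or.inl rfl)).1
      (fun R hR => (h R hR.top_or_essential).1) fun R hR α hα x hx => ?_
    exact ((h R hR.top_or_essential).2 α hα).le ⟨x, hx, rfl⟩

end Cfsg.Agent.S5087
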