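import Cfsg.Statements.S5125
import Cfsg.Agent.Fusion.Alperin.Criteria

set_option autoImplicit false
open Cfsg

namespace Cfsg.Agent.S5125


/-- Let F be a saturated fusion system over a finite p-group S and Q a subgroup strongly closed in F. If Q has a subgroup Q₁ that is normal in F, with Q/Q₁ abelian and Aut_F(Q₁) a p-group, then Q is normal in F. -/
theorem result {Ω : Type*} [Group Ω] {S : Subgroup Ω} [Finite S] (p : ℕ) [Fact p.Prime] (hS : IsPGroup p S) (F : Cfsg.FusionSystem S) (hF : F.IsSaturated p) (Q Q₁ : Subgroup Ω) (hQ : F.StronglyClosed Q) (hQ₁Q : Q₁ ≤ Q) (hQ₁ : F.IsNormal Q₁) (hab : ⁅Q, Q⁆ ≤ Q₁) (hAut : IsPGroup p ↥(F.autGroup Q₁)) : F.IsNormal Q := by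
  refine CfsgLib.Fusion.Alperin.isNormal_of_stronglyClosed hS hF hQ fun R hR => ?_
  have hN := CfsgLib.Fusion.Alperin.le_normalizer_of_stronglyClosed hQ
  have hQ₁R : Q₁ ≤ R :=
    CfsgLib.Fusion.Alperin.le_of_centric_radical hS hQ₁ hR.centric hR.radical
  have hQ₁S := hQ₁.1
  have hRS := hR.centric.1
  have hsc₁ := CfsgLib.Fusion.Alperin.stronglyClosed_of_isNormal hQ₁
  have := CfsgLib.Fus.finite_of_le hRS
  have := CfsgLib.Fus.finite_of_le hQ₁S
  have := CfsgLib.Fus.finite_mulAut R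
  refine CfsgLib.Fusion.Alperin.le_of_normalizing_mem hS hQ.1 hRS (hRS.trans hN) fun g hg hgR => ?_
  refine CfsgLib.Fusion.Alperin.mem_of_mem_pCore_of_radical hR.centric hR.radical
    ⟨hQ.1 hg, hgR⟩ fun hm => ?_
  set A := F.autGroup R with hA
  -- automorphisms acting trivially on `R/(Q ∩ R)` and on `(Q ∩ R)/Q₁`
  have hinvQ : ∀ a ∈ A, ∀ x : R, (x : Ω) ∈ Q → ((a x : R) : Ω) ∈ Q := fun a ha x hx =>
    CfsgLib.Fusion.Alperin.map_mem_of_stronglyClosed hQ ((CfsgLib.Fus.mem_autGroup_iff F hRS).1 ha) hx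
  have hinv₁ : ∀ a ∈ A, ∀ x : R, (x : Ω) ∈ Q₁ → ((a x : R) : Ω) ∈ Q₁ := fun a ha x hx =>
    CfsgLib.Fusion.Alperin.map_mem_of_stronglyClosed hsc₁ ((CfsgLib.Fus.mem_autGroup_iff F hRS).1 ha) hx
  let K : Subgroup A :=
    { carrier := {a | (∀ x : R, ((x⁻¹ * (a : MulAut R) x : R) : Ω) ∈ Q) ∧
        ∀ x : R, (x : Ω) ∈ Q → ((x⁻¹ * (a : MulAut R) x : R) : Ω) ∈ Q₁}
      one_mem' := ⟨fun x => by simp, fun x _ => by simp⟩
      mul_mem' := fun {a b} ha hb => by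
        have e : ∀ x : R, x⁻¹ * (a : MulAut R) ((b : MulAut R) x) =
            (x⁻¹ * (b : MulAut R) x) * (((b : MulAut R) x)⁻¹ * (a : MulAut R) ((b : MulAut R) x)) :=
          fun x => by group
        refine ⟨fun x => ?_, fun x hx => ?_⟩
        · show ((x⁻¹ * (a : MulAut R) ((b : MulAut R) x) : R) : Ω) ∈ Q
          rw [e x, Subgroup.coe_mul]
          exact Q.mul_mem (hb.1 x) (ha.1 _)
        · show ((x⁻¹ * (a : MulAut R) ((b : MulAut R) x) : R) : Ω) ∈ Q₁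
          rw [e x, Subgroup.coe_mul]
          exact Q₁.mul_mem (hb.2 x hx) (ha.2 _ (hinvQ _ b.2 x hx))
      inv_mem' := fun {a} ha => by
        have e : ∀ x : R, x⁻¹ * (a : MulAut R)⁻¹ x =
            (((a : MulAut R)⁻¹ x)⁻¹ * (a : MulAut R) ((a : MulAut R)⁻¹ x))⁻¹ := fun x => by
          rw [MulAut.inv_apply, MulEquiv.apply_symm_apply, mul_inv_rev, inv_inv]
        refine ⟨fun x => ?_, fun x hx => ?_⟩
        · show ((x⁻¹ * (a : MulAut R)⁻¹ x : R) : Ω) ∈ Q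
          rw [e x, Subgroup.coe_inv]
          exact Q.inv_mem (ha.1 _)
        · show ((x⁻¹ * (a : MulAut R)⁻¹ x : R) : Ω) ∈ Q₁
          rw [e x, Subgroup.coe_inv]
          exact Q₁.inv_mem (ha.2 _ (hinvQ _ (inv_mem a.2) x hx)) }
  have hK : K.Normal := by
    refine ⟨fun b hb a => ?_⟩
    have e : ∀ x : R, x⁻¹ * ((a * b * a⁻¹ : A) : MulAut R) x = (a : MulAut R)
        (((a : MulAut R)⁻¹ x)⁻¹ * (b : MulAut R) ((a : MulAut R)⁻¹ x)) := fun x => by
      rw [map_mul, map_inv, MulAut.inv_apply, MulEquiv.apply_symm_apply]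
      rfl
    refine ⟨fun x => ?_, fun x hx => ?_⟩
    · rw [e x]; exact hinvQ _ a.2 _ (hb.1 _)
    · rw [e x]; exact hinv₁ _ a.2 _ (hb.2 _ (hinvQ _ (inv_mem a.2) x hx))
  have hgK : (⟨CfsgLib.Fus.conjAut hgR, hm⟩ : A) ∈ K := by
    refine ⟨fun x => ?_, fun x hx => ?_⟩
    · show (x : Ω)⁻¹ * (g * x * g⁻¹) ∈ Q
      have e : (x : Ω)⁻¹ * (g * x * g⁻¹) = ((x : Ω)⁻¹ * g * x) * g⁻¹ := by group
      rw [e]
      exact Q.mul_mem ((Subgroup.mem_normalizer_iff''.1 (hN (hRS x.2)) g).1 hg) (Q.inv_mem hg)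
    · show (x : Ω)⁻¹ * (g * x * g⁻¹) ∈ Q₁
      have h := hab (Subgroup.commutator_mem_commutator (Q.inv_mem hx) hg)
      rw [commutatorElement_def, inv_inv] at h
      convert h using 1
      group
  refine CfsgLib.CharP.le_pCore hK ?_ hgK
  rintro ⟨b, hbK⟩
  have hres : ∀ x : Q₁, (((b : MulAut R) ⟨x, hQ₁R x.2⟩ : R) : Ω) ∈ Q₁ := fun x =>
    hinv₁ _ b.2 ⟨x, hQ₁R x.2⟩ x.2
  let β : Q₁ →* Ω := R.subtype.comp (((b : MulAut R).toMonoidHom).comp (Subgroup.inclusion hQ₁R))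
  have hβ : β ∈ F.Hom Q₁ :=
    CfsgLib.Fus.restrict_mem F ((CfsgLib.Fus.mem_autGroup_iff F hRS).1 b.2) hQ₁R
  have hβr : β.range = Q₁ := by
    refine Subgroup.eq_of_le_of_card_ge ?_ (CfsgLib.Fus.isConj_card (CfsgLib.Fus.isConj_of_hom F hβ)).le
    rintro _ ⟨x, rfl⟩
    exact hres x
  obtain ⟨k, hk⟩ := hAut ⟨_, CfsgLib.Fus.isoOf_mem_autGroup hβ hβr⟩
  have hpow : ∀ (m : ℕ) (x : Q₁), ((((b : MulAut R) ^ m) ⟨x, hQ₁R x.2⟩ : R) : Ω) =
      (((CfsgLib.Fus.isoOf hβ hβr : MulAut Q₁) ^ m) x : Ω) := by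
    intro m
    induction m with
    | zero => intro x; rfl
    | succ m ih =>
      intro x
      rw [pow_succ', pow_succ', MulAut.mul_apply, MulAut.mul_apply]
      show _ = β (((CfsgLib.Fus.isoOf hβ hβr : MulAut Q₁) ^ m) x)
      have e : ((b : MulAut R) ^ m) ⟨x, hQ₁R x.2⟩ =
          Subgroup.inclusion hQ₁R (((CfsgLib.Fus.isoOf hβ hβr : MulAut Q₁) ^ m) x) :=
        Subtype.ext (ih x)
      rw [e]
      rfl
  have hkK : b ^ p ^ k ∈ K := K.pow_mem hbK _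
  let L : ℕ → Subgroup Ω := fun i => if i = 0 then ⊥ else if i = 1 then Q₁ else if i = 2 then Q else S
  obtain ⟨j, hj⟩ := CfsgLib.Fusion.Alperin.exists_pow_eq_one_of_stabilizes (hS.to_le hRS) 3 L
    (by simp [L]) (by simpa [L] using hRS)
    (monotone_nat_of_le_succ fun i => by
      match i with
      | 0 => simp [L]
      | 1 => simpa [L] using hQ₁Q
      | 2 => simpa [L] using hQ.1
      | (n + 3) => simp [L])
    (α := ((b : MulAut R) ^ p ^ k)) (fun i hi x hx => by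
      match i, hi with
      | 0, _ =>
        have hx₁ : (x : Ω) ∈ Q₁ := by simpa [L] using hx
        have h := hpow (p ^ k) ⟨x, hx₁⟩
        have h2 : (CfsgLib.Fus.isoOf hβ hβr : MulAut Q₁) ^ p ^ k = 1 := congrArg Subtype.val hk
        rw [h2] at h
        show (x : Ω)⁻¹ * _ ∈ (⊥ : Subgroup Ω)
        rw [Subgroup.mem_bot, inv_mul_eq_one]
        exact h.symm
      | 1, _ =>
        have hxQ : (x : Ω) ∈ Q := by simpa [L] using hx
        exact hkK.2 x hxQ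
      | 2, _ => exact hkK.1 x)
  exact ⟨k + j, Subtype.ext (Subtype.ext (by
    rw [pow_add, pow_mul]
    exact hj))⟩

end Cfsg.Agent.S5125
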