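import Cfsg.Statements.S5126
import Cfsg.Agent.S5098
import Cfsg.Agent.Fusion.Alperin.Criteria

set_option autoImplicit false
open Cfsg

namespace Cfsg.Agent.S5126


/-- In a saturated fusion system over a finite p-group S, the normalizer system of a fully normalized, centric, radical subgroup R is constrained, and in every model of that normalizer system the largest normal p-subgroup is the image of R. -/
theorem result {Ω : Type*} [Group Ω] {S : Subgroup Ω} [Finite S] (p : ℕ) [Fact p.Prime] (hS : IsPGroup p S) (F : Cfsg.FusionSystem S) (hF : F.IsSaturated p) (R : Subgroup Ω) (hRn : F.IsFullyNormalized R) (hRc : F.IsCentric R) (hRr : F.IsRadical p R) (E : Cfsg.FusionSystem (Cfsg.FusionSystem.normalizerIn S R)) (hE : F.IsNormalizerSystem R E) {G : Type*} [Group G] (ι : ↥(Cfsg.FusionSystem.normalizerIn S R) →* G) : E.IsConstrained p ∧ (E.IsModel p G ι → (Cfsg.pCore p G : Subgroup G) = (R.subgroupOf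 (Cfsg.FusionSystem.normalizerIn S R)).map ι) := by
  have hRS := hRc.1
  have hNS : (Cfsg.FusionSystem.normalizerIn S R) ≤ S := CfsgLib.Fus.normalizerIn_le R
  have hRN : R ≤ (Cfsg.FusionSystem.normalizerIn S R) := CfsgLib.Fus.le_normalizerIn hRS
  have := CfsgLib.Fus.finite_of_le hNS
  have := CfsgLib.Fus.finite_of_le hRS
  have hmap : ∀ {α : MulAut R}, α ∈ F.autGroup R → R.subtype.comp α.toMonoidHom ∈ E.Hom R := by
    intro α hα
    rw [hE R]
    refine ⟨(CfsgLib.Fus.mem_autGroup_iff F hRS).1 hα, hRN, fun x => hRN (α x).2,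
      _, CfsgLib.Fus.restrict_mem F ((CfsgLib.Fus.mem_autGroup_iff F hRS).1 hα) (sup_le le_rfl le_rfl),
      fun x => rfl, ?_⟩
    ext z
    constructor
    · rintro ⟨x, -, rfl⟩
      exact (α _).2
    · intro hz
      refine ⟨Subgroup.inclusion le_sup_left (α⁻¹ ⟨z, hz⟩), (α⁻¹ ⟨z, hz⟩).2, ?_⟩
      show ((α (α⁻¹ ⟨z, hz⟩) : R) : Ω) = z
      rw [MulAut.inv_apply, MulEquiv.apply_symm_apply]
  have hnormal : E.IsNormal R := by
    refine ⟨hRN, fun P φ hφ => ?_⟩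
    rw [hE P] at hφ
    obtain ⟨-, hP, hφN, ψ, hψ, hext, hψR⟩ := hφ
    refine ⟨ψ, ?_, hext, hψR⟩
    rw [hE (P ⊔ R)]
    have hψN : ∀ x, ψ x ∈ (Cfsg.FusionSystem.normalizerIn S R) := fun x => by
      refine (sup_le le_rfl hRN : (Cfsg.FusionSystem.normalizerIn S R) ⊔ R ≤ (Cfsg.FusionSystem.normalizerIn S R)) (CfsgLib.Fus.map_mem_sup ψ (A := (Cfsg.FusionSystem.normalizerIn S R)) (B := R) ?_ ?_ x)
      · intro y; rw [hext]; exact hφN y
      · intro y; exact hψR.le ⟨_, y.2, rfl⟩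
    refine ⟨hψ, sup_le hP hRN, hψN, _, CfsgLib.Fus.restrict_mem F hψ (sup_le le_rfl le_sup_right),
      fun x => rfl, ?_⟩
    ext z
    constructor
    · rintro ⟨x, hx, rfl⟩
      exact hψR.le ⟨_, hx, rfl⟩
    · intro hz
      obtain ⟨x, hx, rfl⟩ := hψR.ge hz
      exact ⟨⟨x, Subgroup.mem_sup_right hx⟩, hx, rfl⟩
  refine ⟨⟨Cfsg.Agent.S5098.result p hS F hF R hRn E hE, R, hnormal, hRN, ?_⟩, ?_⟩
  · intro Q hQ
    obtain ⟨φ, hφ, hr⟩ := hQ
    obtain ⟨ψ, hψ, hext, hψR⟩ := hnormal.2 R φ hφ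
    have hQR : Q = R := by
      rw [← hr]
      refine Eq.trans ?_ hψR
      ext z
      constructor
      · rintro ⟨x, rfl⟩
        exact ⟨Subgroup.inclusion le_sup_left x, x.2, hext x⟩
      · rintro ⟨x, hx, rfl⟩
        exact ⟨⟨x, hx⟩, (hext ⟨x, hx⟩).symm⟩
    rw [hQR]
    exact fun c hc => CfsgLib.Fus.centralizerIn_le_of_centric hRc ⟨hNS hc.1, hc.2⟩
  rintro ⟨hfin, ⟨hinj, hreal⟩, ⟨T, hT⟩, hcen⟩
  set C := Cfsg.pCore p G with hCdef
  have hCn : C.Normal := Cfsg.pCore_normal p G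
  have hCι : C ≤ ι.range := hT ▸ CfsgLib.CharP.pCore_le_sylow T
  set Rb := (R.subgroupOf (Cfsg.FusionSystem.normalizerIn S R)).map ι with hRb
  let Q0 : Subgroup Ω := (C.comap ι).map (Cfsg.FusionSystem.normalizerIn S R).subtype
  have hQ0N : Q0 ≤ (Cfsg.FusionSystem.normalizerIn S R) := by rintro _ ⟨x, -, rfl⟩; exact x.2
  have hRbn : ∀ r ∈ Rb, ∀ g : G, g * r * g⁻¹ ∈ Rb := by
    rintro _ ⟨r, hr, rfl⟩ g
    let eι := MonoidHom.ofInjective hinj
    let φ : Q0 →* Ω := (Cfsg.FusionSystem.normalizerIn S R).subtype.comp (eι.symm.toMonoidHom.comp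
      (((MulAut.conj g).toMonoidHom.comp (ι.comp (Subgroup.inclusion hQ0N))).codRestrict ι.range
        (fun x => hCι (hCn.conj_mem _ (by
          obtain ⟨y, hy, hyx⟩ := x.2
          have e : Subgroup.inclusion hQ0N x = y := Subtype.ext hyx.symm
          show ι (Subgroup.inclusion hQ0N x) ∈ C
          rw [e]; exact hy) g))))
    have hφN : ∀ x, φ x ∈ (Cfsg.FusionSystem.normalizerIn S R) := fun x => (eι.symm _).2
    have hιφ : ∀ x : Q0, ι ⟨φ x, hφN x⟩ = g * ι ⟨x, hQ0N x.2⟩ * g⁻¹ := fun x =>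
      congrArg Subtype.val (eι.apply_symm_apply _)
    have hφE : φ ∈ E.Hom Q0 := (hreal Q0 hQ0N φ hφN).2 ⟨g, hιφ⟩
    obtain ⟨ψ, hψ, hext, hψR⟩ := hnormal.2 Q0 φ hφE
    have hψN := (E.le_of_mem hψ).2
    obtain ⟨g', hg'⟩ := (hreal _ (E.le_of_mem hψ).1 ψ hψN).1 hψ
    have hu : g'⁻¹ * g ∈ C := by
      refine hcen fun c hc => ?_
      obtain ⟨y, rfl⟩ := hCι hc
      have hy : (y : Ω) ∈ Q0 := ⟨y, hc, rfl⟩
      have h1 := hιφ ⟨y, hy⟩
      have h2 := hg' (Subgroup.inclusion le_sup_left ⟨y, hy⟩)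
      have e : (⟨ψ (Subgroup.inclusion le_sup_left ⟨y, hy⟩), hψN _⟩ : (Cfsg.FusionSystem.normalizerIn S R)) = ⟨φ ⟨y, hy⟩, hφN _⟩ :=
        Subtype.ext (hext _)
      rw [e, h1] at h2
      have h3 : g * ι y * g⁻¹ = g' * ι y * g'⁻¹ := h2
      calc ι y * (g'⁻¹ * g) = g'⁻¹ * (g' * ι y * g'⁻¹) * g := by group
        _ = g'⁻¹ * (g * ι y * g⁻¹) * g := by rw [h3]
        _ = g'⁻¹ * g * ι y := by group
    obtain ⟨v, hv⟩ := hCι hu
    have hg : g = g' * ι v := by rw [hv, mul_inv_cancel_left]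
    have hr' : ((v * r * v⁻¹ : (Cfsg.FusionSystem.normalizerIn S R)) : Ω) ∈ R :=
      CfsgLib.Fus.conj_mem_of_normalizer v.2.2 hr
    have hmem : ψ (Subgroup.inclusion le_sup_right ⟨_, hr'⟩) ∈ R := hψR.le ⟨_, hr', rfl⟩
    refine ⟨⟨_, hRN hmem⟩, hmem, ?_⟩
    have h2 := hg' (Subgroup.inclusion le_sup_right ⟨_, hr'⟩)
    rw [show (⟨_, hRN hmem⟩ : (Cfsg.FusionSystem.normalizerIn S R)) = ⟨_, hψN _⟩ from Subtype.ext rfl, h2, hg]
    show g' * ι (v * r * v⁻¹) * g'⁻¹ = _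
    rw [map_mul, map_mul, map_inv]
    group
  refine le_antisymm ?_ (CfsgLib.CharP.le_pCore ⟨fun r hr g => hRbn r hr g⟩
    ((hS.to_le hNS).to_subgroup _ |>.map ι))
  intro c hc
  obtain ⟨k, rfl⟩ := hCι hc
  refine ⟨k, ?_, rfl⟩
  have hk : (k : Ω) ∈ Cfsg.FusionSystem.normalizerIn S R := k.2
  refine CfsgLib.Fusion.Alperin.mem_of_mem_pCore_of_radical hRc hRr hk fun hm => ?_
  refine CfsgLib.CharP.le_pCore (N := (Cfsg.autInducedBy Q0 R).subgroupOf (F.autGroup R)) ?_ ?_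
    (CfsgLib.Fus.conjAut_mem_autInducedBy hk.2 (show (k : Ω) ∈ Q0 from ⟨k, hc, rfl⟩))
  · refine ⟨fun b hb a => ?_⟩
    obtain ⟨q, ⟨y, hy, rfl⟩, hqb⟩ := CfsgLib.Fus.mem_autInducedBy_iff.1 hb
    obtain ⟨g, hg⟩ := (hreal R hRN _ (fun x => hRN ((a : MulAut R) x).2)).1 (hmap a.2)
    have hconj : g * ι y * g⁻¹ ∈ C := hCn.conj_mem _ hy g
    obtain ⟨z, hz⟩ := hCι hconj
    refine CfsgLib.Fus.mem_autInducedBy_iff.2 ⟨z, ⟨z, show ι z ∈ C by rw [hz]; exact hconj, rfl⟩, fun x => ?_⟩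
    set x' : R := (a : MulAut R)⁻¹ x
    have hx : (a : MulAut R) x' = x := by simp [x']
    rw [← hx]
    show (((a : MulAut R) ((b : MulAut R) ((a : MulAut R)⁻¹ ((a : MulAut R) x'))) : R) : Ω) = _
    rw [MulAut.inv_apply, MulEquiv.symm_apply_apply]
    have e1 := hg ((b : MulAut R) x')
    have e2 := hg x'
    have e3 : (⟨((b : MulAut R) x' : R), hRN ((b : MulAut R) x').2⟩ : (Cfsg.FusionSystem.normalizerIn S R)) =
        y * ⟨x', hRN x'.2⟩ * y⁻¹ := Subtype.ext (hqb x')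
    have e4 : ι ⟨_, hRN ((a : MulAut R) ((b : MulAut R) x')).2⟩ =
        ι (z * ⟨((a : MulAut R) x' : R), hRN ((a : MulAut R) x').2⟩ * z⁻¹) := by
      refine e1.trans ?_
      rw [e3, map_mul, map_mul, map_inv, map_mul, map_mul, map_inv, hz]
      refine Eq.trans ?_ (congrArg (fun t => g * ι y * g⁻¹ * t * (g * ι y * g⁻¹)⁻¹) e2.symm)
      group
    exact congrArg Subtype.val (hinj e4)
  · exact ((CfsgLib.Fus.isPGroup_autInducedBy (hS.to_le (hQ0N.trans hNS)) R)).comap_subtype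

end Cfsg.Agent.S5126
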