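import Cfsg.Statements.S5135
import Cfsg.Agent.Eq.Def_FusionComponents

set_option autoImplicit false
open Cfsg

namespace Cfsg.Agent.S5135

theorem exists_conj_le {G : Type*} [Group G] [Finite G] {p : ℕ} [Fact p.Prime] (S : Sylow p G)
    (H : Subgroup G) [H.Normal] {X : Subgroup G} (hX : IsPGroup p X)
    (hle : ∀ x ∈ X, ∃ s ∈ (S : Subgroup G), QuotientGroup.mk' H s = QuotientGroup.mk' H x) :
    ∃ h ∈ H, ∀ x ∈ X, h * x * h⁻¹ ∈ (S : Subgroup G) := by
  set M : Subgroup G := (S : Subgroup G) ⊔ H with hM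
  have hXM : X ≤ M := by
    intro x hx
    obtain ⟨s, hs, hsx⟩ := hle x hx
    have : s⁻¹ * x ∈ H := by
      rw [← QuotientGroup.ker_mk' H, MonoidHom.mem_ker, map_mul, map_inv, hsx, inv_mul_cancel]
    have := M.mul_mem (Subgroup.mem_sup_left hs : s ∈ M) (Subgroup.mem_sup_right this)
    simpa using this
  let SM : Sylow p M := S.subtype le_sup_left
  obtain ⟨P, hP⟩ := (hX.comap_of_injective M.subtype Subtype.coe_injective).exists_le_sylow
  obtain ⟨m, hm⟩ := MulAction.exists_smul_eq M P SM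
  have hm' : (m : G) ∈ (S : Subgroup G) ⊔ H := m.2
  obtain ⟨s, hs, h, hh, hmsh⟩ := Subgroup.mem_sup_of_normal_right.mp hm'
  refine ⟨h, hh, fun x hx => ?_⟩
  have h1 : (⟨x, hXM hx⟩ : M) ∈ (P : Subgroup M) := hP hx
  have h2 : m * ⟨x, hXM hx⟩ * m⁻¹ ∈ (SM : Subgroup M) := by
    rw [← hm]
    exact ⟨_, h1, rfl⟩
  have h3 : (m : G) * x * (m : G)⁻¹ ∈ (S : Subgroup G) := h2
  rw [← hmsh, mul_inv_rev] at h3
  have := (S : Subgroup G).mul_mem ((S : Subgroup G).mul_mem ((S : Subgroup G).inv_mem hs) h3) hs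
  simpa [mul_assoc] using this


/-- Let G be a finite group, S a Sylow p-subgroup and H a normal subgroup of G. Then the fusion system of G/H on the image SH/H of S is the factor system of the fusion system of G on S modulo S ∩ H, read through the quotient map restricted to S: for each subgroup P' of SH/H, the conjugation maps by elements of G/H defined on P' with values in SH/H are exactly the homomorphisms induced by the conjugation maps by elements of G defined on the full preimage of P' in S with values in S. -/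
theorem result {G : Type*} [Group G] [Finite G] (p : ℕ) [Fact p.Prime] (S : Sylow p G) (H : Subgroup G) [H.Normal] : (Cfsg.groupFusionSystem (S : Subgroup G)).IsFactorSystem ((S : Subgroup G) ⊓ H) ((QuotientGroup.mk' H).comp (S : Subgroup G).subtype) (Cfsg.groupFusionSystem ((S : Subgroup G).map (QuotientGroup.mk' H))) := by
  set π := QuotientGroup.mk' H with hπ
  set θ : (S : Subgroup G) →* G ⧸ H := π.comp (S : Subgroup G).subtype with hθ
  refine ⟨inf_le_left, fun s => ?_, ?_, fun P' φ' => ?_⟩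
  · show π (s : G) = 1 ↔ _
    rw [hπ, QuotientGroup.mk'_apply, QuotientGroup.eq_one_iff]
    exact ⟨fun h => ⟨s.2, h⟩, fun h => h.2⟩
  · rw [hθ, MonoidHom.range_comp, Subgroup.range_subtype]
  · constructor
    · rintro ⟨hP', hφ', g', hg'⟩
      refine ⟨hP', ?_⟩
      obtain ⟨g, rfl⟩ := QuotientGroup.mk'_surjective H g'
      set P := FusionSystem.preimageAlong θ P' with hP
      have hPS : P ≤ (S : Subgroup G) := by rintro _ ⟨y, -, rfl⟩; exact y.2
      have hPθ : ∀ x : P, θ ⟨x, hPS x.2⟩ ∈ P' := by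
        rintro ⟨_, y, hy, rfl⟩; exact hy
      have himg : ∀ x ∈ P.map (MulAut.conj g).toMonoidHom, ∃ s ∈ (S : Subgroup G), π s = π x := by
        rintro _ ⟨x, hx, rfl⟩
        obtain ⟨s, hs, hsx⟩ := hφ' ⟨_, hPθ ⟨x, hx⟩⟩
        refine ⟨s, hs, hsx.trans ?_⟩
        rw [hg']
        simp [hθ, hπ]
      obtain ⟨h, hh, hh'⟩ := exists_conj_le S H ((S.isPGroup'.to_le hPS).map _) himg
      have hmem : ∀ x : P, h * g * x * (h * g)⁻¹ ∈ (S : Subgroup G) := fun x => by
        have := hh' _ ⟨x, x.2, rfl⟩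
        simpa [mul_assoc] using this
      refine ⟨conjHom P (h * g), ⟨hPS, hmem, h * g, fun x => rfl⟩, hPS, hmem, hPθ, fun x => ?_⟩
      rw [hg']
      show π g * π (x : G) * (π g)⁻¹ = π (h * g * x * (h * g)⁻¹)
      have : π h = 1 := by rw [hπ, QuotientGroup.mk'_apply, QuotientGroup.eq_one_iff]; exact hh
      simp [map_mul, map_inv, this]
    · rintro ⟨hP', φ, ⟨-, -, g, hg⟩, hPS, hφS, hmem, h⟩
      refine ⟨hP', ?_, π g, ?_⟩
      all_goals
        rintro ⟨_, hy⟩
        obtain ⟨s, hs, rfl⟩ := hP' hy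
        have hsP : s ∈ FusionSystem.preimageAlong θ P' := ⟨⟨s, hs⟩, hy, rfl⟩
        have := h ⟨s, hsP⟩
      · exact ⟨φ ⟨s, hsP⟩, hφS _, this.symm⟩
      · refine this.trans ?_
        show π (φ ⟨s, hsP⟩) = π g * π s * (π g)⁻¹
        rw [hg]; simp

end Cfsg.Agent.S5135
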