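import Cfsg.Statements.S5153
import Cfsg.Agent.Eq.Def_FusionComponents
import Cfsg.Agent.Fus.Extension

set_option autoImplicit false
open Cfsg

namespace Cfsg.Agent.S5153

theorem isSubsystemOf_of_subnormal {Ω : Type*} [Group Ω] {T S : Subgroup Ω}
    {E : Cfsg.FusionSystem T} {F : Cfsg.FusionSystem S} {p : ℕ} (h : E.IsSubnormalIn F p) :
    E.IsSubsystemOf F := by
  induction h with
  | refl F p => exact fun P => Set.Subset.refl _
  | step _ hn ih => exact fun P => (ih P).trans (hn.1.2.2.1 P)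

theorem step_fullyNormalized {Ω : Type*} [Group Ω] {S U : Subgroup Ω} [Finite S] {p : ℕ}
    [Fact p.Prime] (hS : IsPGroup p S) {F : Cfsg.FusionSystem S} {D : Cfsg.FusionSystem U}
    (hD : D.IsNormalIn F p) {P : Subgroup Ω} (hPU : P ≤ U) (hP : F.IsFullyNormalized P) :
    D.IsFullyNormalized P := by
  obtain ⟨⟨-, hFsat, hsub, hcl, -⟩, -⟩ := hD
  refine ⟨hPU, fun Q hQ => ?_⟩
  obtain ⟨χ, hχ, hχr⟩ := hQ
  have hQF : F.IsConj Q P := CfsgLib.Fus.isConj_symm ⟨χ, hsub P hχ, hχr⟩
  have hQU : Q ≤ U := hχr ▸ CfsgLib.Fus.range_le D hχ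
  obtain ⟨φ, hφ, hr, ψ, hψ, hext⟩ := CfsgLib.Fus.exists_normalizer_map_fn hS hFsat hP hQF
  have hQS : Q ≤ S := hQU.trans hcl.1
  have hQN : Q ≤ Cfsg.FusionSystem.normalizerIn S Q := CfsgLib.Fus.le_normalizerIn hQS
  have hUN : Cfsg.FusionSystem.normalizerIn U Q ≤ Cfsg.FusionSystem.normalizerIn S Q :=
    fun g hg => ⟨hcl.1 hg.1, hg.2⟩
  have : Finite U := CfsgLib.Fus.finite_of_le hcl.1
  have : Finite (Cfsg.FusionSystem.normalizerIn U P) :=
    CfsgLib.Fus.finite_of_le (inf_le_left : Cfsg.FusionSystem.normalizerIn U P ≤ U)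
  refine CfsgLib.Fus.card_le_of_map_mem (F.injective_of_mem hψ) hUN fun g hg => ⟨?_, ?_⟩
  · exact hcl.2 _ (inf_le_left : Cfsg.FusionSystem.normalizerIn U Q ≤ U) _
      (CfsgLib.Fus.restrict_mem F hψ hUN) ⟨g, hg⟩
  · exact (CfsgLib.Fus.map_mem_normalizerIn hr hψ hQN (fun x => hext x _) hg.2).2

/-- Let F be a saturated fusion system over a finite p-group S and E a subnormal subsystem of F over T. Then every subgroup of T that is fully normalized in F is fully normalized in E. -/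
theorem result {Ω : Type*} [Group Ω] {S : Subgroup Ω} [Finite S] (p : ℕ) [Fact p.Prime] (hS : IsPGroup p S) (F : Cfsg.FusionSystem S) (hF : F.IsSaturated p) {T : Subgroup Ω} (E : Cfsg.FusionSystem T) (hE : E.IsSubnormalIn F p) (P : Subgroup Ω) (hPT : P ≤ T) (hP : F.IsFullyNormalized P) : E.IsFullyNormalized P := by
  have hfin : Finite S := inferInstance
  have hprime : Fact p.Prime := inferInstance
  revert hfin hprime hS hF hP hPT
  induction hE with
  | refl F p => exact fun _ _ _ hP _ _ => hP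
  | step h hn ih =>
    intro hS hF hPT hP hfin hprime
    have hUS := hn.1.2.2.2.1.1
    have hUfin := CfsgLib.Fus.finite_of_le hUS
    have hTU := CfsgLib.Fus.hom_le _
      (isSubsystemOf_of_subnormal h _ (CfsgLib.Fus.subtype_mem _ le_rfl))
    exact ih (hS.to_le hUS) hn.1.1 hPT (step_fullyNormalized hS hn (hPT.trans hTU) hP) hUfin hprime

end Cfsg.Agent.S5153
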