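import Cfsg.Statements.S5311
import Cfsg.Agent.Fus.Transport

set_option autoImplicit false
open Cfsg

namespace Cfsg.Agent.S5311

open CfsgLib.Fus CfsgLib.Fus.Transport

theorem rel_of_induced {Ω Ω' : Type*} [Group Ω] [Group Ω'] {S : Subgroup Ω} {S' : Subgroup Ω'} (e : S ≃* S')
    {P : Subgroup Ω} {φ : P →* Ω} {P' : Subgroup Ω'} {φ' : P' →* Ω'}
    (h : Cfsg.FusionSystem.InducedAlong (S'.subtype.comp e.toMonoidHom) φ φ') : Rel e φ φ' := by
  obtain ⟨hP, hφ, hP', h⟩ := h
  intro x hx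
  rw [tf_of_mem e (hφ x)]
  refine Eq.trans ?_ (h x)
  exact congrArg φ' (Subtype.ext (tf_of_mem e (hP x.2)))

/-- An automorphism of `F` transports `F` to itself. -/
theorem corr_self {Ω : Type*} [Group Ω] {S : Subgroup Ω} (F : Cfsg.FusionSystem S) (α : S ≃* S)
    (hα : F.IsMorphism F (S.subtype.comp α.toMonoidHom))
    (hα' : F.IsMorphism F (S.subtype.comp α.symm.toMonoidHom)) : Corr α F F := by
  refine ⟨le_rfl, sub_top_eq.symm, fun {P φ φ'} hP hφ hrel => ?_⟩
  constructor
  · intro h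
    obtain ⟨ψ, hψ, hi⟩ := hα'.2 _ _ h
    have hr := rel_of_induced α.symm hi
    refine hom_congr_sub F (sub_symm_sub hP) hψ fun x hx hx' => ?_
    have h1 := hr ⟨tf α x, tf_mem_sub hP hx'⟩ (by rw [tf_symm_tf α (hP hx')]; exact hx)
    rw [hrel ⟨x, hx'⟩, tf_symm_tf α (hφ _)] at h1
    rw [← h1]
    exact congrArg ψ (Subtype.ext (tf_symm_tf α (hP hx')))
  · intro h
    obtain ⟨ψ, hψ, hi⟩ := hα.2 _ _ h
    have hr := rel_of_induced α hi
    refine hom_congr F hψ ?_
    rintro ⟨y, hy⟩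
    obtain ⟨x, hx, hxS, rfl⟩ := mem_sub.1 hy
    exact (hrel ⟨x, hx⟩ hy).trans (hr ⟨x, hx⟩ hy).symm

theorem layer_le_push {Ω : Type*} [Group Ω] {S : Subgroup Ω} [Finite S] {p : ℕ} [Fact p.Prime] (hS : IsPGroup p S)
    {F : Cfsg.FusionSystem S} {α : S ≃* S} (h : Corr α F F) {T : Subgroup Ω} {E : Cfsg.FusionSystem T}
    (hE : E.IsLayerOf F p) (hT : T ≤ S) : E.IsSubsystemOf (push α E hT) := by
  refine hE.2.2 _ _ (h.normal (corr_push α E hT) hS hE.1) fun U C hC => ?_
  have hUS : U ≤ S := le_of_subnormal hC.1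
  have hC' := h.symm.component (corr_push α.symm C hUS) hS hC
  exact (corr_push α E hT).isSubsystemOf (corr_push α.symm C hUS).symm (hE.2.1 _ _ hC')


/-- The layer of a saturated fusion system F over a finite p-group S is characteristic in F: for every automorphism α of S that is an automorphism of F (α and its inverse are morphisms from F to F) and every layer E of F over T, α carries T onto T and, for every map φ of E with source P, the map induced by α on α(P) (that is, α ∘ φ ∘ α⁻¹) is a map of E. -/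
theorem result {Ω : Type*} [Group Ω] {S : Subgroup Ω} [Finite S] (p : ℕ) [Fact p.Prime] (hS : IsPGroup p S) (F : Cfsg.FusionSystem S) (hF : F.IsSaturated p)
    (α : ↥S ≃* ↥S) (hα : F.IsMorphism F (S.subtype.comp α.toMonoidHom))
    (hα' : F.IsMorphism F (S.subtype.comp α.symm.toMonoidHom))
    {T : Subgroup Ω} (E : Cfsg.FusionSystem T) (hE : E.IsLayerOf F p) :
    Cfsg.FusionSystem.imageAlong (S.subtype.comp α.toMonoidHom) T = T ∧
      ∀ (P : Subgroup Ω) (φ : ↥P →* Ω), φ ∈ E.Hom P →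
        ∀ φ' : ↥(Cfsg.FusionSystem.imageAlong (S.subtype.comp α.toMonoidHom) P) →* Ω,
          Cfsg.FusionSystem.InducedAlong (S.subtype.comp α.toMonoidHom) φ φ' →
            φ' ∈ E.Hom (Cfsg.FusionSystem.imageAlong (S.subtype.comp α.toMonoidHom) P) := by
  have hT : T ≤ S := hE.1.1.2.2.2.1.1
  have h := corr_self F α hα hα'
  have h' := corr_self F α.symm hα' hα
  have h1 := layer_le_push hS h hE hT
  have h2 : (push α E hT).IsSubsystemOf E :=
    (corr_push α.symm E hT).symm.isSubsystemOf (corr_push α E hT) (layer_le_push hS h' hE hT)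
  have hTT : ∀ {U V : Subgroup Ω} {D : Cfsg.FusionSystem U} {D' : Cfsg.FusionSystem V}, D.IsSubsystemOf D' → U ≤ V :=
    fun {U V D D'} hDD' x hx => by
      simpa using hom_mem D' (hDD' U (subtype_mem D le_rfl)) ⟨x, hx⟩
  have heq : sub α T = T := le_antisymm (hTT h2) (hTT h1)
  refine ⟨heq, fun P φ hφ φ' hi => ?_⟩
  exact h2 _ (((corr_push α E hT).iff (hom_le E hφ) (hom_mem E hφ) (rel_of_induced α hi)).2 hφ)

end Cfsg.Agent.S5311
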