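import Cfsg.Statements.S5154
import Cfsg.Agent.S5311

set_option autoImplicit false
open Cfsg

namespace Cfsg.Agent.S5154

open CfsgLib.Fus CfsgLib.Fus.Transport

theorem corr_comp {Ω : Type*} [Group Ω] {S S' S₁ S₁' S'' : Subgroup Ω} {e : S ≃* S'} {e' : S₁ ≃* S₁'}
    {e'' : S ≃* S''} {T T' T'' : Subgroup Ω} {E : Cfsg.FusionSystem T} {E' : Cfsg.FusionSystem T'}
    {E'' : Cfsg.FusionSystem T''} (h : Corr e E E') (h' : Corr e' E' E'')
    (hx : ∀ x ∈ T, tf e'' x = tf e' (tf e x)) : Corr e'' E E'' := by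
  have hsub : ∀ P ≤ T, sub e'' P = sub e' (sub e P) := by
    intro P hP
    ext y
    constructor
    · intro hy
      obtain ⟨x, hxP, hxS, rfl⟩ := mem_sub.1 hy
      rw [hx x (hP hxP)]
      exact tf_mem_sub ((sub_mono hP).trans (h.eq.ge.trans h'.le)) (tf_mem_sub (hP.trans h.le) hxP)
    · intro hy
      obtain ⟨z, hz, -, rfl⟩ := mem_sub.1 hy
      obtain ⟨x, hxP, hxS, rfl⟩ := mem_sub.1 hz
      rw [← hx x (hP hxP)]
      exact tf_mem_sub (hP.trans h.le) hxP
  refine ⟨h.le, by rw [h'.eq, h.eq, hsub T le_rfl], fun {P φ φ''} hP hφ hrel => ?_⟩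
  have hPS := hP.trans h.le
  have hP' : sub e P ≤ T' := (sub_mono hP).trans h.eq.ge
  have hr := rel_pushHom (e := e) hPS φ (fun x => h.le (hφ x))
  have hφ' : ∀ y, pushHom (e := e) hPS φ (fun x => h.le (hφ x)) y ∈ T' := fun y =>
    h.eq.ge (tf_mem_sub h.le (hφ _))
  have hr' := rel_pushHom (e := e') (hP'.trans h'.le) _ (fun y => h'.le (hφ' y))
  have hpt : ∀ (y : Ω) (hy : y ∈ sub e' (sub e P)) (hy' : y ∈ sub e'' P),
      φ'' ⟨y, hy'⟩ = pushHom (e := e') (hP'.trans h'.le) _ (fun y => h'.le (hφ' y)) ⟨y, hy⟩ := by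
    intro y hy hy'
    obtain ⟨x, hxP, hxS, rfl⟩ := mem_sub.1 hy'
    rw [hrel ⟨x, hxP⟩ hy', hx _ (hφ _), ← hr ⟨x, hxP⟩ (tf_mem_sub hPS hxP), ← hr' ⟨tf e x, tf_mem_sub hPS hxP⟩
      (tf_mem_sub (hP'.trans h'.le) (tf_mem_sub hPS hxP))]
    exact congrArg _ (Subtype.ext (hx x (hP hxP)).symm)
  rw [← h.iff hP hφ hr, ← h'.iff hP' hφ' hr']
  exact ⟨fun hh => hom_congr_sub E'' (hsub P hP) hh fun y a b => (hpt y b a).symm,
    fun hh => hom_congr_sub E'' (hsub P hP).symm hh fun y a b => hpt y a b⟩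

theorem subnormal_congr {Ω : Type*} [Group Ω] {A A' S : Subgroup Ω} {e : A ≃* A'} {p : ℕ}
    {U U₁ U₂ : Subgroup Ω} {D : Cfsg.FusionSystem U} {D₁ : Cfsg.FusionSystem U₁} {D₂ : Cfsg.FusionSystem U₂}
    {F : Cfsg.FusionSystem S} (h₁ : Corr e D D₁) (h₂ : Corr e D D₂) (h : D₁.IsSubnormalIn F p) :
    D₂.IsSubnormalIn F p := by
  have e1 := h₁.eq
  have e2 := h₂.eq
  subst e1
  subst e2
  have : D₂ = D₁ := by
    cases D₁; cases D₂
    congr 1
    funext P'
    exact Set.Subset.antisymm (h₂.hom_eq h₁ P') (h₁.hom_eq h₂ P')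
  rw [this]
  exact h

theorem morphism_invariant {Ω : Type*} [Group Ω] {S U : Subgroup Ω} {F : Cfsg.FusionSystem S}
    {D : Cfsg.FusionSystem U} (hD : D.IsInvariantIn F) {α : MulAut U} (hα : α ∈ F.autGroup U) :
    D.IsMorphism D (U.subtype.comp α.toMonoidHom) := by
  refine ⟨fun x => (α x).2, fun P φ hφ => ?_⟩
  obtain ⟨χ, hχ, hχe⟩ := hD.2.2.1 P (hom_le D hφ) φ hφ α hα
  exact ⟨χ, hχ, hom_le D hφ, hom_mem D hφ, fun x => ⟨⟨x, hom_le D hφ x.2⟩, x.2, rfl⟩,
    fun x => hχe x _ _⟩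

theorem morphism_self {Ω : Type*} [Group Ω] {S : Subgroup Ω} {F : Cfsg.FusionSystem S}
    {α : MulAut S} (hα : α ∈ F.autGroup S) : F.IsMorphism F (S.subtype.comp α.toMonoidHom) := by
  refine ⟨fun x => (α x).2, fun P φ hφ => ?_⟩
  have hP := hom_le F hφ
  refine ⟨pushHom (e := α) hP φ (hom_mem F hφ), ?_, hP, hom_mem F hφ,
    fun x => ⟨⟨x, hP x.2⟩, x.2, rfl⟩, fun x => ?_⟩
  · have hαi := restrict_mem F ((mem_autGroup_iff F le_rfl).1 (inv_mem hα)) (sub_le P (e := α))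
    have hm : ∀ y : sub α P, ((S.subtype.comp (α⁻¹).toMonoidHom).comp (Subgroup.inclusion (sub_le P))) y ∈ P := by
      intro y
      have h2 := ((isoTo (e := α) hP rfl).symm y).2
      rw [isoTo_symm_apply, tf_of_mem α.symm (sub_le P y.2)] at h2
      exact h2
    refine hom_of_comp F (F.comp_mem hαi hφ hm) ((mem_autGroup_iff F le_rfl).1 hα) (fun y => hom_mem F hφ _) fun y => ?_
    show tf α (φ ((isoTo (e := α) hP rfl).symm y)) = _
    rw [tf_of_mem α (hom_mem F hφ _)]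
    refine congrArg (fun z : S => ((α z : S) : Ω)) (Subtype.ext (congrArg φ (Subtype.ext ?_)))
    show tf α.symm (y : Ω) = _
    exact tf_of_mem α.symm (sub_le P y.2)
  · have h := pushHom_apply (e := α) hP φ (hom_mem F hφ) x
    rw [tf_of_mem α (hom_mem F hφ x)] at h
    refine Eq.trans (congrArg _ (Subtype.ext ?_)) h
    exact (tf_of_mem α (hP x.2)).symm

theorem transport_subnormal {Ω : Type*} [Group Ω] {S : Subgroup Ω} {F : Cfsg.FusionSystem S} {T : Subgroup Ω}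
    {C : Cfsg.FusionSystem T} {p : ℕ} [hp : Fact p.Prime] (hC : C.IsSubnormalIn F p) :
    Finite S → IsPGroup p S → ∀ (γ : T →* Ω) (hγ : γ ∈ F.Hom T) (U' : Subgroup Ω) (D' : Cfsg.FusionSystem U'),
      Corr (isoOf hγ rfl) C D' → D'.IsSubnormalIn F p := by
  revert hp
  induction hC with
  | refl F p =>
    intro _ _ _ γ hγ U' D' hD'
    have hr : γ.range = T := Subgroup.eq_of_le_of_card_ge (range_le F hγ)
      (isConj_card (isConj_of_hom F hγ)).le
    have hα := isoOf_mem_autGroup hγ hr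
    have h := Cfsg.Agent.S5311.corr_self F (isoOf hγ hr) (morphism_self hα) (morphism_self (inv_mem hα))
    have htf : ∀ x ∈ T, tf (isoOf hγ rfl) x = tf (isoOf hγ hr) x := fun x hx => by
      rw [tf_of_mem _ hx, tf_of_mem _ hx, isoOf_apply, isoOf_apply]
    have hone : Corr (isoOf hγ rfl) F F := corr_comp h (Cfsg.Agent.S5311.corr_self F (MulEquiv.refl T)
      (morphism_self (one_mem _)) (morphism_self (one_mem _))) fun x hx => by
        rw [htf x hx, tf_of_mem (MulEquiv.refl T) (tf_mem (isoOf hγ hr) x)]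
        rfl
    exact subnormal_congr hone hD' (.refl _ _)
  | @step U₁ S₁ E₁ D₁ F₁ q hED hDF ih =>
    intro _ hfin hp γ hγ U' D' hD'
    haveI := hfin
    have hU : U₁ ≤ S₁ := hDF.1.2.2.2.1.1
    have hT : T ≤ U₁ := le_of_subnormal hED
    obtain ⟨α, hα, γ₀, hγ₀, hγe⟩ := hDF.1.2.2.2.2.2 T hT γ hγ
    have h0 := corr_push (isoOf hγ₀ rfl) E₁ le_rfl
    have hsn := ih (finite_of_le hU) (hp.to_le hU) γ₀ hγ₀ _ _ h0
    have hαα := Cfsg.Agent.S5311.corr_self D₁ α (morphism_invariant hDF.1.2.2 hα)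
      (morphism_invariant hDF.1.2.2 (inv_mem hα))
    have h1 := corr_push α (push (isoOf hγ₀ rfl) E₁ le_rfl) (le_of_subnormal hsn)
    haveI := finite_of_le hU
    have hsn1 := Corr.subnormal hsn hαα h1 inferInstance (hp.to_le hU)
    refine subnormal_congr ?_ hD' (.step hsn1 hDF)
    refine corr_comp h0 h1 fun x hx => ?_
    rw [tf_of_mem _ hx, tf_of_mem _ hx, isoOf_apply, isoOf_apply]
    rw [tf_of_mem α (hom_mem D₁ hγ₀ _)]
    exact hγe ⟨x, hx⟩ (hom_mem D₁ hγ₀ _)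


/-- Let F be a saturated fusion system over a finite p-group S, C a component of F over T, and γ a map of F with source T. Then the image of C under γ — the fusion system over γ(T) whose maps are the homomorphisms induced along γ by the maps of C — is again a component of F. -/
theorem result {Ω : Type*} [Group Ω] {S : Subgroup Ω} [Finite S] (p : ℕ) [Fact p.Prime] (hS : IsPGroup p S) (F : Cfsg.FusionSystem S) (hF : F.IsSaturated p) {T : Subgroup Ω} (C : Cfsg.FusionSystem T) (hC : C.IsComponentIn F p) (γ : T →* Ω) (hγ : γ ∈ F.Hom T) (E : Cfsg.FusionSystem γ.range) (hE : C.IsFactorSystem ⊥ γ E) : E.IsComponentIn F p := by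
  have hTS : T ≤ S := le_of_subnormal hC.1
  haveI : Finite T := finite_of_le hTS
  have hco : Corr (isoOf hγ rfl) C E := by
    refine ⟨le_rfl, sub_top_eq.symm, fun {P φ φ'} hP hφ hrel => ?_⟩
    have hpre : Cfsg.FusionSystem.preimageAlong γ (sub (isoOf hγ rfl) P) = P := by
      ext x
      constructor
      · rintro ⟨z, hz, rfl⟩
        refine of_tf_mem_sub (e := isoOf hγ rfl) (x := (z : Ω)) z.2 ?_
        show tf _ (z : Ω) ∈ _
        rw [tf_of_mem _ z.2, isoOf_apply]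
        exact hz
      · intro hx
        refine ⟨⟨x, hP hx⟩, ?_, rfl⟩
        show γ ⟨x, hP hx⟩ ∈ sub (isoOf hγ rfl) P
        have := tf_mem_sub (e := isoOf hγ rfl) hP hx
        rwa [tf_of_mem _ (hP hx), isoOf_apply] at this
    rw [hE.2.2.2]
    constructor
    · rintro ⟨-, ψ, hψ, hi, hi2, hi3, hind⟩
      refine hom_congr_sub C hpre hψ fun x hx hx' => tf_inj (isoOf hγ rfl) (hφ _) (hi2 _) ?_
      rw [← hrel ⟨x, hx'⟩ (tf_mem_sub hP hx'), tf_of_mem _ (hi2 _), isoOf_apply, ← hind ⟨x, hx⟩]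
      exact congrArg φ' (Subtype.ext ((tf_of_mem _ (hP hx')).trans (isoOf_apply _ _ _)))
    · intro h
      refine ⟨sub_le P, _, restrict_mem C h hpre.le, hpre.le.trans hP, fun x => hφ _, fun x => ?_, fun x => ?_⟩
      · obtain ⟨z, hz, hzx⟩ := x.2
        have e0 : z = ⟨(x : Ω), (hpre.le.trans hP) x.2⟩ := Subtype.ext hzx
        exact e0 ▸ hz
      · have h2 := hrel ⟨x, hpre.le x.2⟩ (tf_mem_sub hP (hpre.le x.2))
        rw [tf_of_mem _ (hφ _), isoOf_apply] at h2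
        refine Eq.trans (congrArg φ' (Subtype.ext ?_)) h2
        exact ((tf_of_mem _ (hP (hpre.le x.2))).trans (isoOf_apply _ _ _)).symm
  exact ⟨transport_subnormal hC.1 inferInstance hS γ hγ _ E hco, hco.quasisimple (hS.to_le hTS) hC.2⟩

end Cfsg.Agent.S5154
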