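import Cfsg.Statements.S5214
import Cfsg.Agent.SuzukiTwo.Elementary
import Cfsg.Agent.SuzukiTwo.Order
import Cfsg.Agent.Fus.EssentialSmall
import Cfsg.Agent.Fus.Extension
import Cfsg.Agent.S5087

set_option autoImplicit false
open Cfsg

namespace Cfsg.Agent.S5214

/-- Let S be a Suzuki 2-group (a finite nonabelian 2-group with more than one involution admitting a cyclic group of automorphisms permuting its involutions regularly). Then S is normal in every saturated fusion system over S (such a group is resistant). -/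
theorem result {Ω : Type*} [Group Ω] {S : Subgroup Ω} [Finite S] (hS : IsPGroup 2 S) (F : Cfsg.FusionSystem S) (hF : F.IsSaturated 2) (hsz : Cfsg.IsSuzukiTwoGroup ↥S) : F.IsNormal S := by
  obtain ⟨K, h⟩ := CfsgLib.SuzukiTwo.exists_ctx hsz
  haveI : Fact (Nat.Prime 2) := ⟨Nat.prime_two⟩
  refine (Cfsg.Agent.S5087.result 2 hS F hF S).2 fun P hP => ?_
  rcases hP with rfl | hess
  · refine ⟨le_rfl, fun α _ => ?_⟩
    rw [Subgroup.subgroupOf_self]
    exact Subgroup.map_top_of_surjective α.toMonoidHom α.surjective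
  exfalso
  have hPS : P ≤ S := hess.1.1
  have hCP : Cfsg.FusionSystem.centralizerIn S P ≤ P :=
    hess.1.2 P (CfsgLib.Fus.isConj_refl F hPS)
  let hi : P →* S := Subgroup.inclusion hPS
  have hcen : ∀ x : S, x * x = 1 → (x : Ω) ∈ P ∧ ∀ g ∈ S, g * (x : Ω) = x * g := by
    intro x hx
    have hc : ∀ g ∈ S, g * (x : Ω) = x * g := fun g hg => congrArg Subtype.val (h.central hx ⟨g, hg⟩)
    exact ⟨hCP ⟨x.2, Subgroup.mem_centralizer_iff.2 fun g hg => hc g (hPS hg)⟩, hc⟩
  let L1 : Subgroup P :=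
    { carrier := {x : P | x * x = 1}
      one_mem' := one_mul 1
      mul_mem' := fun {x y} hx hy => Subgroup.inclusion_injective hPS (by
        simpa using h.inv_mul_mem (x := hi x) (y := hi y)
          (by rw [← map_mul, show x * x = 1 from hx, map_one])
          (by rw [← map_mul, show y * y = 1 from hy, map_one]))
      inv_mem' := fun {x} hx => by
        show x⁻¹ * x⁻¹ = 1
        rw [← mul_inv_rev, show x * x = 1 from hx, inv_one] }
  refine CfsgLib.Fus.EssentialSmall.false_of_stabilizes hS hess 2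
    (fun i => if i = 0 then ⊥ else if i = 1 then L1 else ⊤) rfl rfl ?_ ?_ ?_
  · intro i j hij
    rcases i with _ | _ | i <;> rcases j with _ | _ | j <;> simp at hij ⊢
  · intro i a _ x hx
    rcases i with _ | _ | i
    · simp only [if_pos, Subgroup.mem_bot] at hx ⊢; rw [hx, map_one]
    · show a x * a x = 1
      rw [← map_mul, show x * x = 1 from hx, map_one]
    · simp
  intro a ha k hk i hi2 x hx
  have hfull := (CfsgLib.Fus.fullyNormalized_props hS hF hess.2.1).1
  obtain ⟨c, hc, hca⟩ := CfsgLib.Fus.exists_conj_into_autS (X := Subgroup.zpowers a) hfull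
    ((Subgroup.zpowers_le).2 ha) (fun ⟨y, hy⟩ => ⟨k, Subtype.ext (by
      obtain ⟨m, rfl⟩ := hy
      show (a ^ m) ^ (2 ^ k) = 1
      rw [← zpow_natCast, ← zpow_mul, mul_comm, zpow_mul, zpow_natCast, hk, one_zpow])⟩)
  obtain ⟨g, hg, hgb⟩ := CfsgLib.Fus.mem_autInducedBy_iff.1 (hca a (Subgroup.mem_zpowers a))
  have hax : ∀ y : P, ((c (a y) : P) : Ω) = g * ((c y : P) : Ω) * g⁻¹ := fun y => by
    rw [← hgb (c y)]; simp
  have hb1 : ∀ y : P, y * y = 1 → a y = y := fun y hy => c.injective (Subtype.ext (by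
    obtain ⟨-, hc'⟩ := hcen (hi (c y)) (by rw [← map_mul, ← map_mul, hy, map_one, map_one])
    rw [hax, show g * ((c y : P) : Ω) = (c y : P) * g from hc' g hg, mul_inv_cancel_right]))
  interval_cases i
  · have hy : x * x = 1 := hx
    show x⁻¹ * a x ∈ (⊥ : Subgroup P)
    rw [hb1 x hy, inv_mul_cancel]; exact Subgroup.one_mem _
  · show x⁻¹ * a x * (x⁻¹ * a x) = 1
    apply c.injective
    apply Subgroup.inclusion_injective hPS
    rw [map_one, map_one, map_mul, map_mul]
    have e : Subgroup.inclusion hPS (c (x⁻¹ * a x)) =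
        (hi (c x))⁻¹ * (⟨g, hg⟩ : S) * hi (c x) * (⟨g, hg⟩ : S)⁻¹ := by
      apply Subtype.ext
      show ((c (x⁻¹ * a x) : P) : Ω) = ((c x : P) : Ω)⁻¹ * g * ((c x : P) : Ω) * g⁻¹
      rw [map_mul, map_inv, Subgroup.coe_mul, InvMemClass.coe_inv, hax]
      group
    rw [e]
    have := h.center_sq (h.comm_mem_center (hi (c x)) (⟨g, hg⟩ : S)⁻¹)
    rwa [inv_inv] at this

end Cfsg.Agent.S5214
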