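import Cfsg.Statements.S5219
import Cfsg.Agent.Eq.Def_FusionSystem
import Cfsg.Agent.FusPowerCentre.Basic

set_option autoImplicit false
open Cfsg
open scoped commutatorElement

namespace Cfsg.Agent.S5219

/-- Let p be a prime, n a natural number, S a nontrivial finite p-group of nilpotence class at most n(p−1)+1, and F a saturated fusion system over S with no nontrivial normal subgroup (O_p(F) = 1). Then S has exponent dividing p^(n²(p−1)+n). -/
theorem result {Ω : Type*} [Group Ω] {S : Subgroup Ω} [Finite S] (p : ℕ) [Fact p.Prime] (hS : IsPGroup p S) (F : Cfsg.FusionSystem S) (hF : F.IsSaturated p) (n : ℕ) (hS1 : S ≠ ⊥) (hcl : Subgroup.lowerCentralSeries S (n * (p - 1) + 1) = ⊥) (hcore : F.core = ⊥) : Monoid.exponent ↥S ∣ p ^ (n ^ 2 * (p - 1) + n) := by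
  have hnorm := CfsgLib.FusPowerCentre.isNormal_powerClosure hS hF n hcl
  have hbot : Cfsg.powerClosure p n (S ⊓ Subgroup.centralizer (S : Set Ω)) = ⊥ :=
    le_bot_iff.1 (hcore ▸ CfsgLib.Fusion.Alperin.le_core hnorm)
  set c := n * (p - 1) + 1 with hc
  have htop : Subgroup.upperCentralSeries S c = ⊤ := by
    let H : ℕ → Subgroup S := fun i => (Subgroup.lowerCentralSeries S (c - i)).subgroupOf S
    have hH : Subgroup.IsAscendingCentralSeries H := by
      constructor
      · simp [H, hcl]
      · intro x i hx g
        show ⁅(x : Ω), (g : Ω)⁆ ∈ Subgroup.lowerCentralSeries S (c - i)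
        refine Subgroup.lowerCentralSeries_antitone (S := S) (show c - i ≤ c - (i + 1) + 1 by omega) ?_
        rw [Subgroup.lowerCentralSeries_succ]
        exact Subgroup.commutator_mem_commutator hx g.2
    have h := Subgroup.ascending_central_series_le_upper H hH c
    simpa [H, Subgroup.lowerCentralSeries_zero] using h
  have step : ∀ i, ∀ x ∈ Subgroup.upperCentralSeries S (i + 1),
      x ^ p ^ n ∈ Subgroup.upperCentralSeries S i := by
    intro i
    induction i with
    | zero =>
      intro x hx
      rw [Subgroup.upperCentralSeries_zero, Subgroup.mem_bot]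
      rw [Subgroup.upperCentralSeries_one, Subgroup.mem_center_iff] at hx
      have : ((x : Ω) ^ p ^ n) ∈ Cfsg.powerClosure p n (S ⊓ Subgroup.centralizer (S : Set Ω)) :=
        Subgroup.subset_closure ⟨x, ⟨x.2, fun s hs => congrArg Subtype.val (hx ⟨s, hs⟩)⟩, rfl⟩
      rw [hbot, Subgroup.mem_bot] at this
      exact Subtype.ext (by simpa using this)
    | succ i ih =>
      intro x hx y
      have hc1 := Subgroup.mem_upperCentralSeries_succ_iff.1 hx y
      have hm := ih _ hc1
      haveI hN : (Subgroup.upperCentralSeries S i).Normal :=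
        Subgroup.normal_of_characteristic _
      change ⁅x ^ p ^ n, y⁆ ∈ Subgroup.upperCentralSeries S i
      rw [← QuotientGroup.eq_one_iff]
      let π := QuotientGroup.mk' (Subgroup.upperCentralSeries S i)
      have hcen : ∀ w, Commute (π ⁅x, y⁆) (π w) := fun w => by
        rw [← commutatorElement_eq_one_iff_commute, ← map_commutatorElement]
        exact (QuotientGroup.eq_one_iff _).2 (Subgroup.mem_upperCentralSeries_succ_iff.1 hc1 w)
      show π ⁅x ^ p ^ n, y⁆ = 1
      have key : ∀ k : ℕ, π ⁅x ^ k, y⁆ = π ⁅x, y⁆ ^ k := by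
        intro k
        induction k with
        | zero => simp
        | succ k ihk =>
          have e : ⁅x ^ (k + 1), y⁆ = x * ⁅x ^ k, y⁆ * x⁻¹ * ⁅x, y⁆ := by
            simp only [commutatorElement_def, pow_succ']; group
          rw [e, map_mul, map_mul, map_mul, ihk, map_inv, (((hcen x).pow_left k).symm).eq,
            mul_inv_cancel_right, pow_succ]
      rw [key, ← map_pow]
      exact (QuotientGroup.eq_one_iff _).2 hm
  refine Monoid.exponent_dvd_of_forall_pow_eq_one fun x => ?_
  have main : ∀ i, ∀ x ∈ Subgroup.upperCentralSeries S i, x ^ p ^ (n * i) = 1 := by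
    intro i
    induction i with
    | zero => intro x hx; simpa using hx
    | succ i ih =>
      intro x hx
      rw [mul_add, mul_one, add_comm, pow_add, pow_mul]
      exact ih _ (step i x hx)
  have h := main c x (htop ▸ Subgroup.mem_top x)
  rwa [show n * c = n ^ 2 * (p - 1) + n by rw [hc]; ring] at h

end Cfsg.Agent.S5219
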