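import Cfsg.Statements.S5222
import Cfsg.Agent.FusInner.Basic

set_option autoImplicit false
open Cfsg
open scoped commutatorElement

namespace Cfsg.Agent.S5222

/-- Let F be a saturated fusion system over a finite p-group S whose normalizer fusion system of S is the inner fusion system of S (Aut_F(S) is a p-group). Then for every subgroup Q of S with [S, S] ≤ Q ≤ Φ(S), the normalizer fusion system of Q in F is the inner fusion system of N_S(Q) = S. -/
theorem result {Ω : Type*} [Group Ω] {S : Subgroup Ω} [Finite S] (p : ℕ) [Fact p.Prime] (hS : IsPGroup p S) (F : Cfsg.FusionSystem S) (hF : F.IsSaturated p) (hN : ∀ N : Cfsg.FusionSystem (Cfsg.FusionSystem.normalizerIn S S), F.IsNormalizerSystem S N → ∀ P : Subgroup Ω, N.Hom P = (Cfsg.innerFusionSystem (Cfsg.FusionSystem.normalizerIn S S)).Hom P) (Q : Subgroup Ω) (h1 : (commutator ↥S).map S.subtype ≤ Q) (h2 : Q ≤ (frattini ↥S).map S.subtype) : ∀ N : Cfsg.FusionSystem (Cfsg.FusionSystem.normalizerIn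 S Q), F.IsNormalizerSystem Q N → ∀ P : Subgroup Ω, N.Hom P = (Cfsg.innerFusionSystem (Cfsg.FusionSystem.normalizerIn S Q)).Hom P := by
  intro N hNQ P
  have hQS : Q ≤ S := h2.trans (Subgroup.map_subtype_le _)
  have h1c : ∀ a ∈ S, ∀ b ∈ S, ⁅a, b⁆ ∈ Q := fun a ha b hb =>
    h1 ⟨⁅(⟨a, ha⟩ : S), (⟨b, hb⟩ : S)⁆,
      Subgroup.commutator_mem_commutator (Subgroup.mem_top _) (Subgroup.mem_top _), rfl⟩
  have hnorm : ∀ {R : Subgroup Ω}, R ≤ S → Q ≤ R → FusionSystem.normalizerIn S R = S :=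
    fun hR hQR => le_antisymm inf_le_left fun g hg =>
      ⟨hg, CfsgLib.FusInner.le_normalizer_of_commutator_le h1c hR hQR hg⟩
  have htop : ∀ φ ∈ F.Hom S, ∃ g ∈ S, ∀ x : S, φ x = g * (x : Ω) * g⁻¹ := by
    intro φ hφ
    have hm : φ ∈ (CfsgLib.Fus.normalizerSystem F S le_rfl).Hom S := by
      refine ⟨hφ, (hnorm le_rfl hQS).ge, fun x => (hnorm le_rfl hQS).ge (CfsgLib.Fus.hom_mem F hφ x), _,
        CfsgLib.Fus.restrict_mem F hφ (sup_idem S).le, fun x => rfl, ?_⟩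
      exact CfsgLib.Fusion.Alperin.subgroupOf_map_eq
        (F.injective_of_mem (CfsgLib.Fus.restrict_mem F hφ (sup_idem S).le)) le_sup_left
        fun x _ => CfsgLib.Fus.hom_mem F hφ _
    rw [hN _ (fun _ => rfl) S] at hm
    obtain ⟨-, g, hg, hgx⟩ := hm
    exact ⟨g, hg.1, hgx⟩
  ext φ
  constructor
  · intro hφ
    rw [hNQ P] at hφ
    obtain ⟨-, hP, -, ψ, hψ, hext, hψQ⟩ := hφ
    refine ⟨hP, ?_⟩
    obtain ⟨g, hg, hgx⟩ := CfsgLib.FusInner.exists_conj hS hF htop hQS h1c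
      (fun x hx => by
        obtain ⟨y, hy, hyx⟩ := h2 hx
        rwa [← Subtype.ext hyx]) (P ⊔ Q) le_sup_right ψ hψ
      (fun x hx => hψQ.le ⟨x, hx, rfl⟩)
    refine ⟨g, (hnorm hQS le_rfl).ge hg, fun x => ?_⟩
    rw [← hext x, hgx]
    rfl
  · rintro ⟨hP, g, hg, hgx⟩
    exact CfsgLib.Fus.hom_congr N (N.conj_mem hP hg) hgx

end Cfsg.Agent.S5222
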