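import Cfsg.Statements.S5223
import Cfsg.Agent.FusAut.Basic

set_option autoImplicit false
open Cfsg

namespace Cfsg.Agent.S5223

open CfsgLib.Fus CfsgLib.FusAut

/-- Let F be a saturated fusion system over a finite p-group S. Suppose there are subgroups Q₀ = S, Q₁, …, Qₙ = 1 (not required to be nested) such that for each i < n the focal subgroup of Qᵢ (generated by the elements x⁻¹φ(x), x ∈ Qᵢ, φ a map of F defined on the cyclic group generated by x) lies in Qᵢ₊₁. Then F is the inner fusion system of S. -/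
theorem result {Ω : Type*} [Group Ω] {S : Subgroup Ω} [Finite S] (p : ℕ) [Fact p.Prime] (hS : IsPGroup p S) (F : Cfsg.FusionSystem S) (hF : F.IsSaturated p) (n : ℕ) (Q : Fin (n + 1) → Subgroup Ω) (hQ0 : Q 0 = S) (hQn : Q (Fin.last n) = ⊥) (hstep : ∀ i : Fin n, Subgroup.closure {y : Ω | ∃ x ∈ Q i.castSucc, ∃ φ ∈ F.Hom (Subgroup.zpowers x), y = x⁻¹ * φ ⟨x, Subgroup.mem_zpowers x⟩} ≤ Q i.succ) : ∀ P : Subgroup Ω, F.Hom P = (Cfsg.innerFusionSystem S).Hom P := by
  refine eq_inner_of_isPGroup_autGroup hS hF fun R hR => ?_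
  have : Finite R := finite_of_le hR
  have : Finite (MulAut R) := finite_mulAut R
  refine isPGroup_of_prime_order ?_
  rintro ⟨α, hα⟩ q hq hqp hpow
  have := Fact.mk hq
  have hα1 : α ^ q ^ 1 = 1 := by rw [pow_one]; exact congrArg Subtype.val hpow
  have key : ∀ i : Fin (n + 1), ∀ x : R, ((x⁻¹ * α x : R) : Ω) ∈ Q i ∧
      ∀ h : 0 < n, ((x⁻¹ * α x : R) : Ω) ∈ Q i := by
    intro i
    induction i using Fin.induction with
    | zero =>
      intro x
      exact ⟨hQ0 ▸ hR (x⁻¹ * α x).2, fun _ => hQ0 ▸ hR (x⁻¹ * α x).2⟩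
    | succ i ih =>
      intro x
      suffices h : ((x⁻¹ * α x : R) : Ω) ∈ Q i.succ from ⟨h, fun _ => h⟩
      obtain ⟨d, hd, hdx⟩ := exists_displ (hS.to_le hR) hqp hα1 x
      have hdQ : (d : Ω) ∈ Q i.castSucc := by
        have hle : displ α ≤ Q i.castSucc := by
          rw [displ, Subgroup.closure_le]
          rintro _ ⟨y, rfl⟩
          exact (ih y).1
        exact hle hd
      refine hstep i (Subgroup.subset_closure ⟨d, hdQ, _,
        restrict_mem F ((mem_autGroup_iff F hR).1 hα) (Subgroup.zpowers_le.mpr d.2), ?_⟩)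
      rw [hdx, Subgroup.coe_mul, Subgroup.coe_inv]
      rfl
  apply Subtype.ext
  ext x
  have h := (key (Fin.last n) x).1
  rw [hQn, Subgroup.mem_bot] at h
  have h1 : x⁻¹ * α x = 1 := Subtype.ext h
  rw [inv_mul_eq_one] at h1
  exact congrArg Subtype.val h1.symm

end Cfsg.Agent.S5223
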