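import Cfsg.Statements.S5226
import Cfsg.Agent.Fusion.Alperin.Criteria
import Mathlib.GroupTheory.Nilpotent

set_option autoImplicit false
open Cfsg

namespace Cfsg.Agent.S5226

open CfsgLib.Fus CfsgLib.Fusion.Alperin Cfsg.FusionSystem
open scoped commutatorElement


/-- Let F be a saturated fusion system over a finite p-group S and Q a subgroup of S. Then Q is normal in F (F equals the normalizer system of Q) if and only if Q is strongly closed in F and admits a central series 1 = Q₀ ≤ Q₁ ≤ ⋯ ≤ Qₙ = Q ([Qᵢ₊₁, Q] ≤ Qᵢ) all of whose proper terms are weakly closed in F. -/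
theorem result {Ω : Type*} [Group Ω] {S : Subgroup Ω} [Finite S] (p : ℕ) [Fact p.Prime] (hS : IsPGroup p S) (F : Cfsg.FusionSystem S) (hF : F.IsSaturated p) (Q : Subgroup Ω) : F.IsNormal Q ↔ F.StronglyClosed Q ∧ ∃ (n : ℕ) (C : Fin (n + 1) → Subgroup Ω), C 0 = ⊥ ∧ C (Fin.last n) = Q ∧ Monotone C ∧ (∀ i : Fin n, ⁅C i.succ, Q⁆ ≤ C i.castSucc) ∧ ∀ i : Fin n, F.WeaklyClosed (C i.castSucc) := by
  constructor
  · intro hn
    refine ⟨stronglyClosed_of_isNormal hn, ?_⟩
    have : Finite Q := finite_of_le hn.1
    have hnil : Group.IsNilpotent Q := (hS.to_le hn.1).isNilpotent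
    obtain ⟨n, hn'⟩ := hnil.nilpotent
    refine ⟨n, fun i => (Subgroup.upperCentralSeries Q i).map Q.subtype, ?_, ?_, ?_, ?_, ?_⟩
    · simp
    · simp only [Fin.val_last, hn']
      rw [← MonoidHom.range_eq_map, Subgroup.range_subtype]
    · exact fun i j hij => Subgroup.map_mono (Subgroup.upperCentralSeries_mono _ hij)
    · intro i
      rw [Subgroup.commutator_le]
      rintro _ ⟨x, hx, rfl⟩ y hy
      simp only [Fin.val_succ] at hx
      exact ⟨_, (Subgroup.mem_upperCentralSeries_succ_iff.mp hx) ⟨y, hy⟩, rfl⟩
    · intro i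
      set C := Subgroup.upperCentralSeries Q (i.castSucc : Fin (n + 1))
      have hle : C.map Q.subtype ≤ Q := Subgroup.map_subtype_le C
      refine ⟨hle.trans hn.1, fun φ hφ => ?_⟩
      have hsub : φ.range ≤ C.map Q.subtype := by
        rintro _ ⟨x, rfl⟩
        obtain ⟨ψ, hψ, hψe, hψQ⟩ := hn.2 _ φ hφ
        have hval : ∀ y : Q, ψ (Subgroup.inclusion le_sup_right y) ∈ Q := fun y =>
          hψQ.le ⟨_, y.2, rfl⟩
        let f : Q →* Q := (ψ.comp (Subgroup.inclusion le_sup_right)).codRestrict Q hval
        have hf : Function.Injective f := fun a b hab =>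
          Subgroup.inclusion_injective _ (F.injective_of_mem hψ (congrArg Subtype.val hab))
        let e : Q ≃* Q := MulEquiv.ofBijective f ⟨hf, Finite.surjective_of_injective hf⟩
        obtain ⟨y, hy, hyx⟩ := x.2
        have he : e y ∈ C := by
          have h := Subgroup.characteristic_iff_map_eq.mp (inferInstance : C.Characteristic) e
          rw [← h]
          exact ⟨y, hy, rfl⟩
        refine ⟨e y, he, ?_⟩
        show ψ (Subgroup.inclusion le_sup_right y) = φ x
        rw [← hψe]
        exact congrArg ψ (Subtype.ext hyx)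
      have : Finite (C.map Q.subtype : Subgroup Ω) := finite_of_le (hle.trans hn.1)
      exact Subgroup.eq_of_le_of_card_ge hsub (isConj_card (isConj_of_hom F hφ)).le
  · rintro ⟨hQ, n, C, h0, hlast, hmono, hcen, hwc⟩
    refine isNormal_of_stronglyClosed hS hF hQ fun R hR => ?_
    have hCQ : ∀ i, C i ≤ Q := fun i => hlast ▸ hmono (Fin.le_last i)
    have hnorm := le_normalizer_of_stronglyClosed hQ
    have main : ∀ i : Fin (n + 1), C i ≤ R := by
      intro i
      induction i using Fin.induction with
      | zero => rw [h0]; exact bot_le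
      | succ i ih =>
        have hRN : R ≤ Subgroup.normalizer (C i.succ : Set Ω) := by
          rcases (Fin.le_last i.succ).eq_or_lt with h | h
          · rw [h, hlast]
            exact hR.centric.1.trans hnorm
          · obtain ⟨j, hj⟩ := Fin.exists_castSucc_eq.mpr h.ne
            intro r hr
            have hcj : F.WeaklyClosed (C i.succ) := hj ▸ hwc j
            have key : ∀ t ∈ S, ∀ x ∈ C i.succ, t * x * t⁻¹ ∈ C i.succ := fun t ht x hx =>
              (hcj.2 _ (F.conj_mem hcj.1 ht)).le ⟨⟨x, hx⟩, rfl⟩
            refine Subgroup.mem_normalizer_iff.2 fun x => ⟨key r (hR.centric.1 hr) x, fun hx => ?_⟩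
            have h2 := key r⁻¹ (S.inv_mem (hR.centric.1 hr)) _ hx
            convert h2 using 1
            group
        refine le_of_normalizing_mem hS ((hCQ _).trans hQ.1) hR.centric.1 hRN fun g hg hgR => ?_
        let L : ℕ → Subgroup Ω := fun j =>
          if hj : j ≤ i.val then C ⟨j, by omega⟩ else if j = i.val + 1 then Q else S
        refine mem_of_stabilizes_series hS hR.centric hR.radical ⟨hQ.1 (hCQ _ hg), hgR⟩ (i.val + 2) L
          ?_ ?_ ?_ ?_ ?_
        · simp only [L, Nat.zero_le, dite_true]
          exact h0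
        · have h1 : ¬ i.val + 2 ≤ i.val := by omega
          have h2 : ¬ i.val + 2 = i.val + 1 := by omega
          simp only [L, h1, h2, dite_false, if_false]
          exact hR.centric.1
        · intro a b hab
          simp only [L]
          split_ifs with h1 h2 h3 h4 h5
          all_goals first
            | exact hmono (Fin.mk_le_mk.mpr hab)
            | exact le_rfl
            | exact hCQ _
            | exact (hCQ _).trans hQ.1
            | exact hQ.1
            | omega
        · intro j a ha x hx
          have hφ := (mem_autGroup_iff F hR.centric.1).1 ha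
          simp only [L] at hx ⊢
          split_ifs at hx ⊢ with h1 h2
          · have hle : C ⟨j, by omega⟩ ≤ R := (hmono (show (⟨j, by omega⟩ : Fin (n + 1)) ≤ i.castSucc from h1)).trans ih
            have hwj : F.WeaklyClosed (C ⟨j, by omega⟩) := hwc ⟨j, by omega⟩
            exact (hwj.2 _ (restrict_mem F hφ hle)).le ⟨⟨x, hx⟩, rfl⟩
          · exact map_mem_of_stronglyClosed hQ hφ hx
          · exact hR.centric.1 (a x).2
        · intro j hj x hxR hx
          have hc : ∀ (k : Fin n), ∀ u ∈ C k.succ, ∀ v ∈ Q, ⁅u, v⁆ ∈ C k.castSucc :=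
            fun k u hu v hv => hcen k (Subgroup.commutator_mem_commutator hu hv)
          rcases (by omega : j < i.val ∨ j = i.val ∨ j = i.val + 1) with h | h | h
          · simp only [L, show j + 1 ≤ i.val by omega, show j ≤ i.val by omega, dite_true] at hx ⊢
            have h2 := hc ⟨j, by omega⟩ x⁻¹ ((C _).inv_mem hx) g (hCQ _ hg)
            rw [commutatorElement_def, inv_inv] at h2
            rw [← mul_assoc, ← mul_assoc]
            exact h2
          · subst h
            simp only [L, show ¬ i.val + 1 ≤ i.val by omega, le_refl, dite_true, dite_false,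
              if_true] at hx ⊢
            have h2 := (C i.castSucc).inv_mem (hc i g hg x⁻¹ (Q.inv_mem hx))
            rw [commutatorElement_def, inv_inv, mul_inv_rev, mul_inv_rev, mul_inv_rev, inv_inv, inv_inv] at h2
            rw [mul_assoc g]
            exact h2
          · subst h
            simp only [L, show ¬ i.val + 1 ≤ i.val by omega, dite_false, if_true]
            have hxS : x ∈ S := hR.centric.1 hxR
            have e : x⁻¹ * (g * x * g⁻¹) = (x⁻¹ * g * x) * g⁻¹ := by group
            rw [e]
            exact Q.mul_mem ((Subgroup.mem_normalizer_iff''.1 (hnorm hxS) g).1 (hCQ _ hg))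
              (Q.inv_mem (hCQ _ hg))
    exact hlast ▸ main (Fin.last n)

end Cfsg.Agent.S5226
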