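import Cfsg.Statements.S5233
import Cfsg.Agent.GenExtraspecial.Closed
import Cfsg.Agent.PGroup.Frattini
import Cfsg.Agent.PGroup.Normal

set_option autoImplicit false
open Cfsg
open scoped commutatorElement

namespace Cfsg.Agent.S5233

/-- Let F be a saturated fusion system over a finite p-group S and P a subgroup of S strongly closed in F that is generalized extraspecial (its Frattini subgroup equals its commutator subgroup and has order p) and not isomorphic to E × A with A elementary abelian and E dihedral of order 8 (p = 2) or extraspecial of order p³ and exponent p (p odd). Then P is normal in F. -/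
theorem result {Ω : Type*} [Group Ω] {S : Subgroup Ω} [Finite S] (p : ℕ) [Fact p.Prime] (hS : IsPGroup p S) (F : Cfsg.FusionSystem S) (hF : F.IsSaturated p) (P : Subgroup Ω) (hP : F.StronglyClosed P) (hge : frattini ↥P = commutator ↥P ∧ Nat.card ↥(commutator ↥P) = p) (h2 : p = 2 → ¬ ∃ (A : Type) (_ : CommGroup A), (∀ a : A, a ^ 2 = 1) ∧ Nonempty (↥P ≃* DihedralGroup 4 × A)) (hodd : p ≠ 2 → ¬ ∃ (E : Type) (_ : Group E) (A : Type) (_ : CommGroup A), Cfsg.IsExtraspecial p E ∧ Nat.card E = p ^ 3 ∧ Monoid.exponent E = p ∧ (∀ a : A, a ^ p = 1) ∧ Nonempty (↥P ≃* E × A)) : F.IsNormal P := by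
  classical
  have : Finite P := CfsgLib.Fus.finite_of_le hP.1
  have hPp : IsPGroup p P := hS.to_le hP.1
  have hpp : p.Prime := Fact.out
  obtain ⟨hΦ, hcard⟩ := hge
  obtain ⟨z, hz1⟩ : ∃ z : commutator P, z ≠ 1 := by
    by_contra hne
    push Not at hne
    have : Subsingleton (commutator P) := ⟨fun a b => by rw [hne a, hne b]⟩
    rw [Nat.card_of_subsingleton (1 : commutator P)] at hcard
    exact hpp.ne_one hcard.symm
  have hzp : z ^ p = 1 := by rw [← hcard]; exact pow_card_eq_one'
  have hgen : ∀ w ∈ commutator P, (w : Ω) ∈ Subgroup.zpowers ((z : P) : Ω) := by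
    intro w hw
    have h := mem_zpowers_of_prime_card hcard hz1 (g' := ⟨w, hw⟩)
    obtain ⟨n, hn⟩ := h
    exact ⟨n, congrArg (fun v : commutator P => ((v : P) : Ω)) hn⟩
  have hzc : ∀ g ∈ S, g * ((z : P) : Ω) = ((z : P) : Ω) * g := by
    have hN : ((commutator P).map P.subtype).Normal → True := fun _ => trivial
    intro g hg
    have hgP : g ∈ Subgroup.normalizer (P : Set Ω) :=
      CfsgLib.Fusion.Alperin.le_normalizer_of_stronglyClosed hP hg
    -- the image of the derived subgroup has order `p` and is normalized by the `p`-group `S`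
    let Z : Subgroup S := ((commutator P).map P.subtype).subgroupOf S
    have hZS : (commutator P).map P.subtype ≤ S := (Subgroup.map_subtype_le _).trans hP.1
    have hZn : Z.Normal := by
      refine ⟨fun w hw s => ?_⟩
      obtain ⟨v, hv, hvw⟩ := Subgroup.mem_subgroupOf.1 hw
      have hs := CfsgLib.Fusion.Alperin.le_normalizer_of_stronglyClosed hP s.2
      refine Subgroup.mem_subgroupOf.2 ⟨CfsgLib.Fus.conjAut hs v, ?_, ?_⟩
      · exact Subgroup.characteristic_iff_le_comap.1
          (Subgroup.commutator_characteristic (⊤ : Subgroup P) ⊤) (CfsgLib.Fus.conjAut hs) hv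
      · show (s : Ω) * (v : Ω) * (s : Ω)⁻¹ = _
        rw [show (v : Ω) = (w : Ω) from hvw]
        rfl
    have hZcard : Nat.card Z = p := by
      rw [← hcard, Nat.card_congr (Subgroup.subgroupOfEquivOfLe hZS).toEquiv]
      exact Subgroup.card_map_of_injective (Subgroup.subtype_injective _)
    have hle : Z ≤ Subgroup.center S := CfsgLib.PGroup.le_center_of_card_eq hS Z hZcard
    have hmem : (⟨((z : P) : Ω), hP.1 (z : P).2⟩ : S) ∈ Z :=
      Subgroup.mem_subgroupOf.2 ⟨z, z.2, rfl⟩
    exact congrArg Subtype.val (Subgroup.mem_center_iff.1 (hle hmem) ⟨g, hg⟩)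
  have hnab : ∃ a ∈ P, ∃ b ∈ P, a * b ≠ b * a := by
    by_contra hne
    push Not at hne
    have hbot : commutator P = ⊥ := by
      rw [eq_bot_iff, commutator_def, Subgroup.commutator_le]
      intro a _ b _
      exact Subgroup.mem_bot.2 (commutatorElement_eq_one_iff_mul_comm.2
        (Subtype.ext (hne a a.2 b b.2)))
    exact hz1 (Subtype.ext (Subgroup.mem_bot.1 (hbot.le z.2)))
  rcases CfsgLib.GenExtraspecial.isNormal_or_decomp hS hF hP (z : P).2
      (fun e => hz1 (Subtype.ext (Subtype.ext e)))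
      (by exact congrArg (fun v : commutator P => ((v : P) : Ω)) hzp) hzc
      (fun a ha b hb => hgen ⁅(⟨a, ha⟩ : P), ⟨b, hb⟩⁆
        (Subgroup.commutator_mem_commutator (Subgroup.mem_top _) (Subgroup.mem_top _)))
      (fun a ha => hgen ((⟨a, ha⟩ : P) ^ p)
        (hΦ ▸ CfsgLib.PGroup.pow_prime_mem_frattini hPp _)) hnab
    with h | ⟨x, y, w, A, hrel, hAp, hAab, ⟨e⟩⟩
  · exact h
  exfalso
  have hxE : x ∈ Subgroup.closure ({x, y} : Set P) := Subgroup.subset_closure (by simp)
  have hyE : y ∈ Subgroup.closure ({x, y} : Set P) := Subgroup.subset_closure (by simp)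
  let _ : CommGroup A := { (inferInstance : Group A) with
    mul_comm := fun a b => Subtype.ext (hAab a a.2 b b.2) }
  let fA : A ≃* Shrink.{0} A := Shrink.mulEquiv.symm
  let _ : CommGroup (Shrink.{0} A) := { (inferInstance : Group (Shrink.{0} A)) with
    mul_comm := fun a b => fA.symm.injective (by rw [map_mul, map_mul, mul_comm]) }
  have hAp' : ∀ a : Shrink.{0} A, a ^ p = 1 := fun a => fA.symm.injective (by
    rw [map_pow, map_one]
    exact Subtype.ext (hAp _ (fA.symm a).2))
  by_cases hp2 : p = 2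
  · subst hp2
    refine h2 rfl ⟨Shrink.{0} A, inferInstance, hAp', ?_⟩
    have hord : ∀ {g : P}, g ^ 2 = 1 → g ≠ 1 → orderOf g = 2 := fun h h1 => orderOf_eq_prime h h1
    have hy1 : y ≠ 1 := fun hy => hrel.z1 (by
      have h := hrel.conj
      rw [hy] at h
      simpa using h.symm)
    have hx1 : x ≠ 1 := fun hx => hrel.z1 (by
      have h := hrel.conj
      rw [hx] at h
      simpa using h)
    have hsq : (x * y) ^ 2 = w := by
      have hx2 : x⁻¹ = x := inv_eq_of_mul_eq_one_right (by rw [← pow_two]; exact hrel.xp)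
      calc (x * y) ^ 2 = (x * y * x) * y := by rw [pow_two]; group
        _ = y * w * y := by
          rw [show x * y * x = y * w by
            conv_lhs => rw [show x * y * x = x * y * x⁻¹ by rw [hx2]]
            exact hrel.conj]
        _ = y * y * w := by rw [mul_assoc, ← hrel.yz, mul_assoc]
        _ = w := by rw [← pow_two, hrel.yp, one_mul]
    have h4 : orderOf (x * y) = 4 := by
      refine orderOf_eq_prime_pow (p := 2) (n := 1) ?_ ?_
      · rw [pow_one, hsq]; exact hrel.z1
      · rw [show 2 ^ (1 + 1) = 2 * 2 from rfl, pow_mul, hsq]; exact hrel.zp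
    obtain ⟨d⟩ := CfsgLib.Involution.nonempty_dihedral_equiv (hord hrel.xp hx1) (hord hrel.yp hy1)
    rw [h4] at d
    exact ⟨e.trans (d.prodCongr fA)⟩
  · let E := Subgroup.closure ({x, y} : Set P)
    let fE : E ≃* Shrink.{0} E := Shrink.mulEquiv.symm
    have hrE : CfsgLib.GenExtraspecial.Rel p (⟨x, hxE⟩ : E) ⟨y, hyE⟩ ⟨w, hrel.z_mem⟩ :=
      { xp := Subtype.ext hrel.xp, yp := Subtype.ext hrel.yp, zp := Subtype.ext hrel.zp
        z1 := fun h => hrel.z1 (congrArg Subtype.val h)
        xz := Subtype.ext hrel.xz, yz := Subtype.ext hrel.yz, conj := Subtype.ext hrel.conj }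
    have hr := hrE.map fE.toMonoidHom fE.injective
    have hg : Subgroup.closure ({fE ⟨x, hxE⟩, fE ⟨y, hyE⟩} : Set (Shrink.{0} E)) = ⊤ := by
      have h1 : Subgroup.closure ({⟨x, hxE⟩, ⟨y, hyE⟩} : Set E) = ⊤ := by
        apply Subgroup.map_injective E.subtype_injective
        rw [MonoidHom.map_closure, Set.image_pair, ← MonoidHom.range_eq_map, Subgroup.range_subtype]
        rfl
      have h2 := congrArg (Subgroup.map fE.toMonoidHom) h1
      rw [MonoidHom.map_closure, Set.image_pair,
        Subgroup.map_top_of_surjective fE.toMonoidHom fE.surjective] at h2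
      exact h2
    have hz1' : (fE ⟨w, hrel.z_mem⟩) ≠ 1 := hr.z1
    refine hodd hp2 ⟨Shrink.{0} E, inferInstance, Shrink.{0} A, inferInstance, hr.isExtraspecial hg,
      hr.card_eq hg, ?_, hAp', ⟨e.trans (fE.prodCongr fA)⟩⟩
    refine Nat.dvd_antisymm (Monoid.exponent_dvd_of_forall_pow_eq_one (hr.pow_eq_one hg hp2)) ?_
    have h := Monoid.order_dvd_exponent (fE.toMonoidHom ⟨w, hrel.z_mem⟩)
    rwa [orderOf_eq_prime hr.zp hz1'] at h

end Cfsg.Agent.S5233
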