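import Cfsg.Statements.S5244
import Cfsg.Agent.Fus.AbelianIndexP.Oliver

set_option autoImplicit false
open Cfsg

namespace Cfsg.Agent.S5244

/-- Let p be an odd prime, S a finite nonabelian p-group with a unique abelian subgroup A of index p, and F a saturated fusion system over S with no nontrivial normal subgroup (O_p(F) = 1) in which A is not F-essential. Then some subgroup Z(S)⟨x⟩ with x ∈ S outside A is F-essential, the centre Z(S) is contained in the commutator subgroup of S, and S has maximal nilpotency class (if S has order pⁿ with n ≥ 3, the term of index n − 2 of its lower central series, counting S itself as the term of index 0, is nontrivial). -/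
theorem result {Ω : Type*} [Group Ω] {S : Subgroup Ω} [Finite S] (p : ℕ) [Fact p.Prime] (hS : IsPGroup p S) (F : Cfsg.FusionSystem S) (hF : F.IsSaturated p) (hp : p ≠ 2) (hna : ¬ IsMulCommutative ↥S) (A : Subgroup Ω) (hA : A ≤ S ∧ IsMulCommutative ↥A ∧ (A.subgroupOf S).index = p) (huniq : ∀ B : Subgroup Ω, B ≤ S → IsMulCommutative ↥B → (B.subgroupOf S).index = p → B = A) (hcore : F.core = ⊥) (hAe : ¬ F.IsEssential p A) : (∃ x ∈ S, x ∉ A ∧ F.IsEssential p ((S ⊓ Subgroup.centralizer (S : Set Ω)) ⊔ Subgroup.zpowers x)) ∧ (S ⊓ Subgroup.centralizer (S : Set Ω)) ≤ (commutator ↥S).map S.subtype ∧ ∀ n : ℕ, Nat.card S = p ^ n → 3 ≤ n → Subgroup.lowerCentralSeries S (n - 2) ≠ ⊥ := by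
  have h := CfsgLib.Fus.AbelianIndexP.setting_of_hyps hS hna hA
  have hu := CfsgLib.Fus.AbelianIndexP.uniq_of_hyps huniq
  obtain ⟨Q, hQ, hQA, hab, hcard⟩ := CfsgLib.Fus.AbelianIndexP.exists_abelian_essential h hu hF hp hcore hAe
  obtain ⟨x, hxQ, hxA⟩ := CfsgLib.Fus.AbelianIndexP.exists_outside h hQ hQA
  have hQS : Q ≤ S := hQ.1.1
  have hx : x ∈ S := hQS hxQ
  have sh := CfsgLib.Fus.AbelianIndexP.shape h hu hF hQ hQA
  have hQZ := CfsgLib.Fus.AbelianIndexP.abelian_inf h hu hF hQ hQA hab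
  refine ⟨⟨x, hx, hxA, ?_⟩, ?_, fun n hn hn3 => ?_⟩
  · have e := h.eq_sup hxA hQS hxQ
    rw [hQZ] at e
    exact e ▸ hQ
  · have hW := h.card_cen_inf_commutator hx hxA sh.cen2_le sh.card_cen2
    haveI : Finite (CfsgLib.Fus.AbelianIndexP.cen S) := CfsgLib.Fus.finite_of_le inf_le_left
    have e : CfsgLib.Fus.AbelianIndexP.cen S ⊓ (commutator ↥S).map S.subtype = CfsgLib.Fus.AbelianIndexP.cen S :=
      Subgroup.eq_of_le_of_card_ge inf_le_left (by rw [hW, hcard])
    exact inf_eq_left.1 e
  · have hker : (h.sigma hx).ker.index = p ^ (n - 2) := by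
      have hm := Subgroup.card_mul_index (h.sigma hx).ker
      rw [h.card_ker hx hxA, hcard] at hm
      have hS' := h.card_S
      rw [hn, ← hm, ← mul_assoc, ← Nat.sub_add_cancel (show 2 ≤ n by omega), pow_add, pow_two] at hS'
      have hpp : 0 < p * p := Nat.mul_pos (Fact.out : p.Prime).pos (Fact.out : p.Prime).pos
      exact (Nat.eq_of_mul_eq_mul_left hpp ((mul_comm _ _).trans hS')).symm
    have h1 := h.lcs_ne_bot hx hxA sh.cen2_le sh.card_cen2 hker (j := n - 3) (by omega)
    rwa [show n - 3 + 1 = n - 2 by omega] at h1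

end Cfsg.Agent.S5244
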