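import Cfsg.Statements.S5245
import Cfsg.Agent.FusAut.Basic
import Cfsg.Agent.FusAut.PPower

set_option autoImplicit false
open Cfsg

namespace Cfsg.Agent.S5245

open CfsgLib.Fus CfsgLib.FusAut Cfsg.FusionSystem

variable {Ω : Type*} [Group Ω]

/-- The system on `R` whose maps are restrictions of the automorphisms in `B ≥ Inn(R)`. -/
def restrSystem (R : Subgroup Ω) (B : Subgroup (MulAut R)) (hB : Cfsg.Inn R ≤ B) :
    Cfsg.FusionSystem R where
  Hom P := {φ | ∃ (h : P ≤ R), ∃ β ∈ B, ∀ x : P, φ x = ((β (Subgroup.inclusion h x) : R) : Ω)}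
  le_of_mem := by
    rintro P φ ⟨h, β, -, hφ⟩
    exact ⟨h, fun x => hφ x ▸ (β _).2⟩
  injective_of_mem := by
    rintro P φ ⟨h, β, -, hφ⟩ a b hab
    rw [hφ, hφ] at hab
    exact Subgroup.inclusion_injective h (β.injective (Subtype.ext hab))
  conj_mem := by
    intro P g hP hg
    exact ⟨hP, MulAut.conj ⟨g, hg⟩, hB ⟨⟨g, hg⟩, rfl⟩, fun x => rfl⟩
  comp_mem := by
    rintro P Q φ ψ ⟨hP, β, hβ, hφ⟩ ⟨hQ, γ, hγ, hψ⟩ h
    refine ⟨hP, γ * β, B.mul_mem hγ hβ, fun x => ?_⟩
    show ψ ⟨φ x, h x⟩ = _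
    rw [hψ, show Subgroup.inclusion hQ ⟨φ x, h x⟩ = β (Subgroup.inclusion hP x) from
      Subtype.ext (hφ x)]
    rfl
  inv_mem := by
    rintro P φ ⟨hP, β, hβ, hφ⟩
    have hr : φ.range ≤ R := by
      rintro _ ⟨x, rfl⟩
      exact hφ x ▸ (β _).2
    refine ⟨R.subtype.comp (β⁻¹.toMonoidHom.comp (Subgroup.inclusion hr)),
      ⟨hr, β⁻¹, B.inv_mem hβ, fun y => rfl⟩, fun x => ?_⟩
    show ((β.symm (Subgroup.inclusion hr ⟨φ x, _⟩) : R) : Ω) = x
    rw [show Subgroup.inclusion hr ⟨φ x, ⟨x, rfl⟩⟩ = β (Subgroup.inclusion hP x) from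
      Subtype.ext (hφ x), MulEquiv.symm_apply_apply]
    rfl

theorem autGroup_restrSystem (R : Subgroup Ω) (B : Subgroup (MulAut R)) (hB : Cfsg.Inn R ≤ B) :
    (restrSystem R B hB).autGroup R = B := by
  refine le_antisymm (fun a ha => ?_) fun a ha =>
    mem_autGroup_of_mem _ ⟨le_rfl, a, ha, fun x => rfl⟩
  obtain ⟨_, β, hβ, h⟩ := (mem_autGroup_iff _ le_rfl).1 ha
  have : a = β := MulEquiv.ext fun x => Subtype.ext (h x)
  exact this ▸ hβ

theorem isSaturated_restrSystem {R : Subgroup Ω} [Finite R] {p : ℕ} [Fact p.Prime]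
    (hR : IsPGroup p R) (B : Subgroup (MulAut R)) (hB : Cfsg.Inn R ≤ B)
    (hidx : ¬ p ∣ (Cfsg.Inn R).relIndex B) : (restrSystem R B hB).IsSaturated p := by
  refine isSaturated_of_top hR _ ?_ ?_
  · rw [isFullyAutomized_iff hR, autGroup_restrSystem, ← inn_eq_autInducedBy_self]
    exact ⟨le_rfl, hidx⟩
  · intro Q hQ
    refine ⟨hQ.1, fun P φ hφ _ => ?_⟩
    obtain ⟨hP, β, hβ, hx⟩ := hφ
    have hle : extender R P φ ≤ R := extender_le_normalizerIn.trans (normalizerIn_le P)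
    exact ⟨R.subtype.comp (β.toMonoidHom.comp (Subgroup.inclusion hle)),
      ⟨hle, β, hβ, fun _ => rfl⟩, fun x hxP hxN => (hx ⟨x, hxP⟩).symm⟩

/-- A `p'`-automorphism of prime order in `F` forces its source to be `S`, generating `F`. -/
theorem forced {S : Subgroup Ω} [Finite S] {p q : ℕ} [Fact p.Prime] [Fact q.Prime]
    (hS : IsPGroup p S) {F : Cfsg.FusionSystem S}
    (hxs : ∀ (T : Subgroup Ω) (E : Cfsg.FusionSystem T), E.IsSaturated p → E.IsSubsystemOf F →
      (T = S ∧ ∀ P, E.Hom P = F.Hom P) ∨ ∀ P, E.Hom P = (Cfsg.innerFusionSystem T).Hom P)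
    (hqp : q ≠ p) {R : Subgroup Ω} (hR : R ≤ S) {α : MulAut R} (hα : α ∈ F.autGroup R)
    (hαq : α ^ q = 1) (hα1 : α ≠ 1) :
    R = S ∧ ∀ P, (restrSystem R (Cfsg.Inn R ⊔ Subgroup.zpowers α) le_sup_left).Hom P = F.Hom P := by
  have : Finite R := finite_of_le hR
  have hRp : IsPGroup p R := hS.to_le hR
  have : Finite (MulAut R) := finite_mulAut R
  have hord : orderOf α = q := orderOf_eq_prime hαq hα1
  set B := Cfsg.Inn R ⊔ Subgroup.zpowers α with hBdef
  set E := restrSystem R B le_sup_left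
  have hsat : E.IsSaturated p := by
    refine isSaturated_restrSystem hRp B le_sup_left fun h => ?_
    have h' : (Cfsg.Inn R).relIndex B ∣ q := by
      rw [hBdef, sup_comm, Subgroup.relIndex_sup_right, ← hord, ← Nat.card_zpowers]
      exact Subgroup.relIndex_dvd_card _ _
    exact hqp ((Nat.prime_dvd_prime_iff_eq Fact.out Fact.out).mp (h.trans h')).symm
  have hsub : E.IsSubsystemOf F := by
    rintro P φ ⟨hP, β, hβ, hφ⟩
    have hBF : B ≤ F.autGroup R :=
      sup_le (inn_le_autGroup F hR) (Subgroup.zpowers_le.mpr hα)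
    exact hom_restrict F ((mem_autGroup_iff F hR).1 (hBF hβ)) hP hφ
  refine (hxs R E hsat hsub).resolve_right fun hinn => hα1 ?_
  have h : R.subtype.comp α.toMonoidHom ∈ E.Hom R :=
    ⟨le_rfl, α, Subgroup.mem_sup_right (Subgroup.mem_zpowers α), fun _ => rfl⟩
  rw [hinn R] at h
  obtain ⟨-, g, hg, hx⟩ := h
  obtain ⟨k, hk⟩ := isPGroup_autInducedBy hRp R ⟨α, mem_autInducedBy_iff.2 ⟨g, hg, hx⟩⟩
  have hk' : α ^ p ^ k = 1 := congrArg Subtype.val hk
  have hd : q ∣ p ^ k := hord ▸ orderOf_dvd_of_pow_eq_one hk'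
  exact absurd ((Nat.prime_dvd_prime_iff_eq Fact.out Fact.out).mp
    ((Fact.out : q.Prime).dvd_of_dvd_pow hd)) hqp


/-- Let F be an extremely sparse fusion system over a finite p-group S (saturated, not the inner system, and every saturated fusion system over any subgroup T of S contained in F is F itself or the inner system of T). Then S is normal in F, the focal and hyperfocal subgroups of F are both S, and Aut_F(S) is generated by the inner automorphisms of S together with a single automorphism of prime order q ≠ p (F is the fusion system of the semidirect product of S by a cyclic group of prime order). -/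
theorem result {Ω : Type*} [Group Ω] {S : Subgroup Ω} [Finite S] (p : ℕ) [Fact p.Prime] (hS : IsPGroup p S) (F : Cfsg.FusionSystem S) (hF : F.IsSaturated p) (hxs : ¬ (∀ P : Subgroup Ω, F.Hom P = (Cfsg.innerFusionSystem S).Hom P) ∧ ∀ (T : Subgroup Ω) (E : Cfsg.FusionSystem T), E.IsSaturated p → E.IsSubsystemOf F → (T = S ∧ ∀ P : Subgroup Ω, E.Hom P = F.Hom P) ∨ (∀ P : Subgroup Ω, E.Hom P = (Cfsg.innerFusionSystem T).Hom P)) : F.IsNormal S ∧ F.focalSubgroup = S ∧ F.hyperfocalSubgroup p = S ∧ ∃ (q : ℕ) (β : MulAut ↥S), q.Prime ∧ q ≠ p ∧ β ∈ F.autGroup S ∧ orderOf β = q ∧ (F.autGroup S : Subgroup (MulAut ↥S)) = Cfsg.Inn ↥S ⊔ Subgroup.zpowers β := by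
  obtain ⟨hne, hxs⟩ := hxs
  obtain ⟨R, hR, q, hq, hqp, α, hα, hαq, hα1⟩ : ∃ R, R ≤ S ∧ ∃ q : ℕ, q.Prime ∧ q ≠ p ∧
      ∃ α : MulAut ↥R, α ∈ F.autGroup R ∧ α ^ q = 1 ∧ α ≠ 1 := by
    by_contra hcon
    refine hne (eq_inner_of_isPGroup_autGroup hS hF fun R hR => ?_)
    have : Finite R := finite_of_le hR
    have : Finite (MulAut R) := finite_mulAut R
    refine isPGroup_of_prime_order ?_
    rintro ⟨α, hα⟩ q hq hqp hpow
    by_contra h1
    exact hcon ⟨R, hR, q, hq, hqp, α, hα, congrArg Subtype.val hpow, fun h => h1 (Subtype.ext h)⟩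
  have := Fact.mk hq
  obtain ⟨rfl, hEF⟩ := forced hS hxs hqp hR hα hαq hα1
  have hn : F.IsNormal R := by
    refine CfsgLib.Fusion.Alperin.isNormal_intro le_rfl fun P φ hφ => ?_
    rw [← hEF P] at hφ
    obtain ⟨hP, β, hβ, hx⟩ := hφ
    refine ⟨R.subtype.comp (β.toMonoidHom.comp (Subgroup.inclusion (sup_le hP le_rfl))), ?_,
      fun x => (hx x).symm, fun x _ => (β _).2⟩
    rw [← hEF]
    exact ⟨sup_le hP le_rfl, β, hβ, fun _ => rfl⟩
  have hJ : displ α = R := by
    have hJR := displ_le α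
    obtain ⟨β, hβ⟩ := exists_restrict hJR α fun x hx => map_displ_mem α hx
    have hβF : β ∈ F.autGroup (displ α) := restrict_mem_autGroup F hR hJR hα fun x => by
      simpa using hβ 1 x
    have hβq : β ^ q = 1 := MulEquiv.ext fun x => Subtype.ext (by rw [hβ, hαq]; rfl)
    refine (forced hS hxs hqp hJR hβF hβq fun h1 => hα1 (MulEquiv.ext fun x => ?_)).1
    obtain ⟨d, hd, hdx⟩ := exists_displ (n := 1) hS hqp (by rw [pow_one]; exact hαq) x
    have h2 := hβ 1 ⟨d, hd⟩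
    rw [pow_one, pow_one, h1] at h2
    have hd' : α d = d := Subtype.ext h2.symm
    rw [hd', inv_mul_cancel, inv_mul_eq_one] at hdx
    exact hdx.symm
  have hfoc : F.focalSubgroup = R := by
    refine le_antisymm ?_ ?_
    · unfold Cfsg.FusionSystem.focalSubgroup
      rw [Subgroup.closure_le]
      rintro _ ⟨P, φ, x, hφ, rfl⟩
      exact R.mul_mem (R.inv_mem (hom_le F hφ x.2)) (hom_mem F hφ x)
    · conv_lhs => rw [← hJ]
      rw [displ, Subgroup.closure_le]
      rintro _ ⟨x, rfl⟩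
      exact Subgroup.subset_closure ⟨R, _, x, (mem_autGroup_iff F le_rfl).1 hα, rfl⟩
  have hhyp : F.hyperfocalSubgroup p = R := by
    refine le_antisymm (hyperfocal_le F) ?_
    conv_lhs => rw [← hJ]
    rw [displ, Subgroup.closure_le]
    rintro _ ⟨x, rfl⟩
    exact mem_hyperfocal F le_rfl hα (coprime_orderOf_of_primePow Fact.out hq hqp (n := 1)
      (by rw [pow_one]; exact hαq)) x
  refine ⟨hn, hfoc, hhyp, q, α, hq, hqp, hα, orderOf_eq_prime hαq hα1, ?_⟩
  rw [← autGroup_restrSystem R (Cfsg.Inn R ⊔ Subgroup.zpowers α) le_sup_left]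
  exact le_antisymm (autGroup_mono (fun P => (hEF P).ge) R) (autGroup_mono (fun P => (hEF P).le) R)

end Cfsg.Agent.S5245
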