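import Cfsg.Statements.S5247
import Cfsg.Agent.Eq.Def_FusionSystem
import Cfsg.Agent.Eq.Def_Solvable

set_option autoImplicit false
open Cfsg

namespace Cfsg.Agent.S5247

section
open Cfsg Cfsg.FusionSystem

variable {Ω : Type*} [Group Ω] {S : Subgroup Ω} (F : FusionSystem S)

theorem restrict_mem {P Q : Subgroup Ω} (h : P ≤ Q) {φ : Q →* Ω} (hφ : φ ∈ F.Hom Q) :
    φ.comp (Subgroup.inclusion h) ∈ F.Hom P := by
  have hid : conjHom P (1 : Ω) ∈ F.Hom P := F.conj_mem (h.trans (F.le_of_mem hφ).1) S.one_mem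
  have hval : ∀ x : P, conjHom P (1 : Ω) x ∈ Q := fun x => by
    simpa [conjHom] using h x.2
  convert F.comp_mem hid hφ hval using 1
  ext x
  show φ (Subgroup.inclusion h x) = φ _
  congr 1
  apply Subtype.ext
  simp [conjHom]

theorem exists_hom_congr {P Q : Subgroup Ω} (h : P = Q) {φ : P →* Ω} (hφ : φ ∈ F.Hom P) :
    ∃ ψ ∈ F.Hom Q, ∀ x : P, ψ ⟨x, h ▸ x.2⟩ = φ x := by
  subst h
  exact ⟨φ, hφ, fun x => rfl⟩

/-- inverse of a map with known image -/
theorem exists_inv {P Q : Subgroup Ω} {φ : P →* Ω} (hφ : φ ∈ F.Hom P) (hr : φ.range = Q) :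
    ∃ ψ ∈ F.Hom Q, ψ.range = P ∧ ∀ x : P, ψ ⟨φ x, hr ▸ ⟨x, rfl⟩⟩ = x := by
  subst hr
  obtain ⟨ψ, hψ, hψx⟩ := F.inv_mem hφ
  refine ⟨ψ, hψ, le_antisymm ?_ ?_, hψx⟩
  · rintro _ ⟨⟨_, x, rfl⟩, rfl⟩
    rw [hψx x]; exact x.2
  · intro y hy
    exact ⟨⟨φ ⟨y, hy⟩, ⟨_, rfl⟩⟩, hψx ⟨y, hy⟩⟩

theorem conj_trans {P Q R : Subgroup Ω} (h₁ : F.IsConj P Q) (h₂ : F.IsConj Q R) : F.IsConj P R := by
  obtain ⟨φ, hφ, rfl⟩ := h₁
  obtain ⟨ψ, hψ, rfl⟩ := h₂
  refine ⟨_, F.comp_mem hφ hψ (fun x => ⟨x, rfl⟩), le_antisymm ?_ ?_⟩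
  · rintro _ ⟨x, rfl⟩; exact ⟨_, rfl⟩
  · rintro _ ⟨⟨_, x, rfl⟩, rfl⟩; exact ⟨x, rfl⟩

theorem exists_fullyNormalized [Finite S] {Q : Subgroup Ω} (hQ : Q ≤ S) :
    ∃ Q', F.IsConj Q Q' ∧ F.IsFullyNormalized Q' := by
  classical
  have hbdd : BddAbove {n : ℕ | ∃ Q', F.IsConj Q Q' ∧ Nat.card (normalizerIn S Q') = n} := by
    refine ⟨Nat.card S, ?_⟩
    rintro _ ⟨Q', -, rfl⟩
    exact Subgroup.card_le_of_le inf_le_left
  have hne : {n : ℕ | ∃ Q', F.IsConj Q Q' ∧ Nat.card (normalizerIn S Q') = n}.Nonempty := by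
    refine ⟨_, Q, ⟨conjHom Q 1, F.conj_mem hQ S.one_mem, ?_⟩, rfl⟩
    ext y; simp [conjHom]
  obtain ⟨Q', hc, hn⟩ := Nat.sSup_mem hne hbdd
  refine ⟨Q', hc, ?_, fun Q'' h'' => ?_⟩
  · obtain ⟨φ, hφ, rfl⟩ := hc
    rintro _ ⟨x, rfl⟩
    exact (F.le_of_mem hφ).2 x
  · rw [hn]
    exact le_csSup hbdd ⟨Q'', conj_trans F hc h'', rfl⟩

/-- conjugation by a map of the system carries the automizer of its source into that of its image -/
theorem congr_mem {P Q : Subgroup Ω} (e : P ≃* Q) (he : Q.subtype.comp e.toMonoidHom ∈ F.Hom P)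
    {α : MulAut P} (hα : α ∈ F.autGroup P) : MulAut.congr e α ∈ F.autGroup Q := by
  unfold FusionSystem.autGroup at hα
  induction hα using Subgroup.closure_induction with
  | one => rw [map_one]; exact one_mem _
  | mul a b _ _ ha hb => rw [map_mul]; exact mul_mem ha hb
  | inv a _ ha => rw [map_inv]; exact inv_mem ha
  | mem a ha =>
    refine Subgroup.subset_closure ?_
    have hr : (Q.subtype.comp e.toMonoidHom).range = Q := by
      ext y
      exact ⟨fun ⟨x, hx⟩ => hx ▸ (e x).2, fun hy => ⟨e.symm ⟨y, hy⟩, by simp⟩⟩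
    obtain ⟨ψ, hψ, -, hψx⟩ := exists_inv F he hr
    have hψy : ∀ y : Q, ψ y = (e.symm y : P) := fun y => by
      have := hψx (e.symm y)
      simpa using this
    have h1 := F.comp_mem hψ ha (fun y => by rw [hψy]; exact (e.symm y).2)
    have h2 := F.comp_mem h1 he (fun y => (a _).2)
    show Q.subtype.comp (MulAut.congr e a).toMonoidHom ∈ F.Hom Q
    convert h2 using 1
    ext y
    show ((e (a (e.symm y)) : Q) : Ω) = _
    simp only [MonoidHom.comp_apply, MonoidHom.codRestrict_apply]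
    simp [hψy]

theorem pCore_props (p : ℕ) [Fact p.Prime] (A : Type*) [Group A] [Finite A] :
    (pCore p A).Normal ∧ IsPGroup p (pCore p A) := by
  obtain ⟨P⟩ : Nonempty (Sylow p A) := inferInstance
  refine ⟨?_, P.2.to_le (sSup_le ?_)⟩
  · refine ⟨fun n hn g => ?_⟩
    have hle : pCore p A ≤ (pCore p A).comap (MulAut.conj g).toMonoidHom :=
      sSup_le fun N hN x hx => (le_sSup hN : N ≤ pCore p A) (hN.1.conj_mem x hx g)
    exact hle hn
  · rintro N ⟨hN, hNp⟩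
    have := P.3 (IsPGroup.to_sup_of_normal_left hNp P.2) le_sup_right
    exact this ▸ le_sup_left

/-- the normalizer system of `Q` -/
def normSys {Q : Subgroup Ω} (hQ : Q ≤ S) : FusionSystem (normalizerIn S Q) where
  Hom := F.normalizerHom Q
  le_of_mem h := ⟨h.2.1, h.2.2.1⟩
  injective_of_mem h := F.injective_of_mem h.1
  conj_mem := by
    intro P g hP hg
    refine ⟨F.conj_mem (hP.trans inf_le_left) hg.1, hP, fun x => ?_,
      conjHom (P ⊔ Q) g, F.conj_mem (sup_le (hP.trans inf_le_left) hQ) hg.1, fun x => rfl, ?_⟩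
    · exact mul_mem (mul_mem hg (hP x.2)) (inv_mem hg)
    · have hn := Subgroup.mem_normalizer_iff.mp hg.2
      ext y
      constructor
      · rintro ⟨x, hx, rfl⟩
        exact (hn x).mp hx
      · intro hy
        have hy' : g⁻¹ * y * g ∈ Q := (hn _).mpr (by simpa [mul_assoc] using hy)
        exact ⟨⟨g⁻¹ * y * g, le_sup_right (a := P) hy'⟩, hy', by simp [conjHom, mul_assoc]⟩
  comp_mem := by
    rintro P R φ ψ ⟨hφ, hP, hφN, φ', hφ', hφ'P, hφ'Q⟩ ⟨hψ, hR, hψN, ψ', hψ', hψ'R, hψ'Q⟩ h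
    have hval : ∀ x : ↥(P ⊔ Q), φ' x ∈ R ⊔ Q := by
      have hle : P ⊔ Q ≤ ((R ⊔ Q).comap φ').map (P ⊔ Q).subtype := by
        refine sup_le (fun x hx => ?_) (fun x hx => ?_)
        · refine ⟨⟨x, le_sup_left (b := Q) hx⟩, ?_, rfl⟩
          show φ' _ ∈ R ⊔ Q
          rw [show φ' ⟨x, le_sup_left (b := Q) hx⟩ = φ ⟨x, hx⟩ from hφ'P ⟨x, hx⟩]
          exact le_sup_left (b := Q) (h _)
        · refine ⟨⟨x, le_sup_right (a := P) hx⟩, ?_, rfl⟩
          show φ' _ ∈ R ⊔ Q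
          exact le_sup_right (a := R) (hφ'Q.le ⟨_, hx, rfl⟩)
      intro x
      obtain ⟨y, hy, hyx⟩ := hle x.2
      obtain rfl : y = x := Subtype.ext hyx
      exact hy
    refine ⟨F.comp_mem hφ hψ h, hP, fun x => hψN _, _, F.comp_mem hφ' hψ' hval, fun x => ?_, ?_⟩
    · show ψ' _ = ψ _
      rw [← hψ'R]
      congr 1
      exact Subtype.ext (hφ'P x)
    · ext y
      constructor
      · rintro ⟨x, hx, rfl⟩
        exact hψ'Q.le ⟨_, hφ'Q.le ⟨x, hx, rfl⟩, rfl⟩
      · intro hy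
        obtain ⟨⟨z, hzm⟩, hz, rfl⟩ := hψ'Q.ge hy
        obtain ⟨x, hx, rfl⟩ := hφ'Q.ge (Subgroup.mem_subgroupOf.mp hz)
        exact ⟨x, hx, rfl⟩
  inv_mem := by
    rintro P φ ⟨hφ, hP, hφN, φ', hφ', hφ'P, hφ'Q⟩
    obtain ⟨ψ, hψ, hψx⟩ := F.inv_mem hφ
    have hr : φ'.range = φ.range ⊔ Q := by
      rw [MonoidHom.range_eq_map, ← Subgroup.subgroupOf_self (H := P ⊔ Q),
        Subgroup.subgroupOf_sup le_sup_left le_sup_right, Subgroup.map_sup, hφ'Q]
      congr 1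
      ext y
      constructor
      · rintro ⟨x, hx, rfl⟩
        exact ⟨⟨x, hx⟩, (hφ'P ⟨x, hx⟩).symm.trans rfl⟩
      · rintro ⟨x, rfl⟩
        exact ⟨Subgroup.inclusion le_sup_left x, x.2, hφ'P x⟩
    obtain ⟨ψ', hψ', -, hψ'x⟩ := exists_inv F hφ' hr
    refine ⟨ψ, ⟨hψ, ?_, ?_, ψ', hψ', ?_, ?_⟩, hψx⟩
    · rintro _ ⟨x, rfl⟩
      exact hφN x
    · rintro ⟨_, x, rfl⟩
      rw [hψx x]
      exact hP x.2
    · rintro ⟨_, x, rfl⟩
      rw [hψx x]
      have := hψ'x (Subgroup.inclusion le_sup_left x)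
      simp only [hφ'P, Subgroup.coe_inclusion] at this
      exact this
    · ext y
      constructor
      · rintro ⟨⟨z, hzm⟩, hz, rfl⟩
        obtain ⟨x, hx, rfl⟩ := hφ'Q.ge (Subgroup.mem_subgroupOf.mp hz)
        rw [hψ'x x]
        exact hx
      · intro hy
        exact ⟨⟨φ' ⟨y, le_sup_right (a := P) hy⟩, hr ▸ ⟨_, rfl⟩⟩,
          hφ'Q.le ⟨_, hy, rfl⟩, hψ'x _⟩


end

/-- Let p be an odd prime and F a saturated fusion system over a finite p-group S. Call a fusion system E (over any subgroup) p-stable when, for every fully E-normalized subgroup Q and every χ ∈ Aut_E(Q) with χ(a⁻¹)·a·χ(a⁻¹)·χ(χ(a)) = 1 for all a ∈ Q (χ acts quadratically), χ lies in O_p(Aut_E(Q)). Then F is p-stable if and only if every normalizer fusion system N_F(R) of every non-cyclic fully F-normalized subgroup R of S is p-stable. -/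
theorem result {Ω : Type*} [Group Ω] {S : Subgroup Ω} [Finite S] (p : ℕ) [Fact p.Prime] (hS : IsPGroup p S) (F : Cfsg.FusionSystem S) (hF : F.IsSaturated p) (hp : p ≠ 2) : (∀ Q : Subgroup Ω, F.IsFullyNormalized Q → ∀ χ : MulAut ↥Q, χ ∈ F.autGroup Q → (∀ a : ↥Q, (χ a⁻¹) * a * (χ a⁻¹) * (χ (χ a)) = 1) → χ ∈ ((Cfsg.pCore p ↥(F.autGroup Q)).map (F.autGroup Q).subtype : Subgroup (MulAut ↥Q))) ↔ ∀ R : Subgroup Ω, F.IsFullyNormalized R → ¬ IsCyclic ↥R → ∀ N : Cfsg.FusionSystem (Cfsg.FusionSystem.normalizerIn S R), F.IsNormalizerSystem R N → (∀ Q : Subgroup Ω, N.IsFullyNormalized Q → ∀ χ : MulAut ↥Q, χ ∈ N.autGroup Q → (∀ a : ↥Q, (χ a⁻¹) * a * (χ a⁻¹) * (χ (χ a)) = 1) → χ ∈ ((Cfsg.pCore p ↥(N.autGroup Q)).map (N.autGroup Q).subtype : Subgroup (MulAut ↥Q))) := by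
  have hfinS : ∀ Q : Subgroup Ω, Q ≤ S → Finite Q := fun Q hQ =>
    Finite.of_injective _ (Subgroup.inclusion_injective hQ)
  constructor
  · intro hst R hR _ N hN Q hQN χ hχ hq
    have hQS : Q ≤ S := hQN.1.trans inf_le_left
    have hsub : ∀ α ∈ N.autGroup Q, α ∈ F.autGroup Q := by
      refine fun α hα => Subgroup.closure_mono (fun β hβ => ?_) hα
      have h' : Q.subtype.comp β.toMonoidHom ∈ F.normalizerHom R Q := hN Q ▸ hβ
      exact h'.1
    obtain ⟨Q', ⟨φ, hφ, hr⟩, hfn⟩ := exists_fullyNormalized F hQS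
    let e : Q ≃* Q' := (MonoidHom.ofInjective (F.injective_of_mem hφ)).trans (MulEquiv.subgroupCongr hr)
    have he : Q'.subtype.comp e.toMonoidHom ∈ F.Hom Q := hφ
    have : Finite Q := hfinS Q hQS
    have : Finite Q' := hfinS Q' hfn.1
    have : Finite (MulAut Q') := Finite.of_injective _ (DFunLike.coe_injective (F := MulAut Q'))
    let f : N.autGroup Q →* F.autGroup Q' :=
      ((MulAut.congr e).toMonoidHom.comp (N.autGroup Q).subtype).codRestrict _
        fun α => congr_mem F e he (hsub _ α.2)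
    have hf : Function.Injective f := by
      intro a b hab
      exact Subtype.ext ((MulAut.congr e).injective (congrArg Subtype.val hab))
    obtain ⟨hnor, hpg⟩ := pCore_props p (F.autGroup Q')
    have hq' : ∀ a : Q', (MulAut.congr e χ) a⁻¹ * a * (MulAut.congr e χ) a⁻¹ *
        (MulAut.congr e χ) ((MulAut.congr e χ) a) = 1 := by
      intro a
      have h1 := congrArg e (hq (e.symm a))
      simp only [map_mul, map_inv, map_one, MulEquiv.apply_symm_apply] at h1 ⊢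
      simpa using h1
    obtain ⟨c, hc, hcx⟩ := hst Q' hfn (MulAut.congr e χ) (congr_mem F e he (hsub _ hχ)) hq'
    have hX : (pCore p (F.autGroup Q')).comap f ≤ pCore p (N.autGroup Q) :=
      le_sSup ⟨hnor.comap f, hpg.comap_of_injective f hf⟩
    refine ⟨⟨χ, hχ⟩, hX ?_, rfl⟩
    show f ⟨χ, hχ⟩ ∈ pCore p (F.autGroup Q')
    have : c = f ⟨χ, hχ⟩ := Subtype.ext hcx
    exact this ▸ hc
  · intro hst Q hQ χ hχ hq
    have : Finite Q := hfinS Q hQ.1
    by_cases hcyc : IsCyclic Q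
    · let : CommGroup Q := IsCyclic.commGroup
      have hfix : ∀ a : Q, χ (a⁻¹ * χ a) = a⁻¹ * χ a := by
        intro a
        have h1 := hq a
        rw [map_inv] at h1
        have h2 : χ (χ a) = χ a * a⁻¹ * χ a := by
          rw [mul_eq_one_iff_inv_eq] at h1
          rw [← h1]
          group
        rw [map_mul, map_inv, h2]
        group
      have hit : ∀ (k : ℕ) (a : Q), (χ ^ k) a = a * (a⁻¹ * χ a) ^ k := by
        intro k
        induction k with
        | zero => intro a; simp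
        | succ k ih =>
          intro a
          have h1 : (χ ^ (k + 1)) a = χ ((χ ^ k) a) := by rw [pow_succ']; rfl
          rw [h1, ih a, map_mul, map_pow, hfix a]
          generalize χ a = b
          rw [pow_succ' (a⁻¹ * b) k, ← mul_assoc a, mul_inv_cancel_left]
      obtain ⟨m, hm⟩ := (IsPGroup.iff_card).mp (hS.to_le hQ.1)
      have hord : χ ^ p ^ m = 1 := by
        ext a
        rw [hit, ← hm, pow_card_eq_one', mul_one]
        rfl
      have hcomm : ∀ α β : MulAut Q, α * β = β * α := by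
        intro α β
        obtain ⟨g, hg⟩ := IsCyclic.exists_generator (α := Q)
        obtain ⟨i, hi⟩ := Subgroup.mem_zpowers_iff.mp (hg (α g))
        obtain ⟨j, hj⟩ := Subgroup.mem_zpowers_iff.mp (hg (β g))
        ext x
        obtain ⟨k, rfl⟩ := Subgroup.mem_zpowers_iff.mp (hg x)
        show ((α (β (g ^ k)) : Q) : Ω) = ((β (α (g ^ k)) : Q) : Ω)
        simp only [map_zpow, ← hi, ← hj, ← zpow_mul]
        rw [mul_left_comm]
      have hn : (Subgroup.zpowers (⟨χ, hχ⟩ : F.autGroup Q)).Normal :=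
        ⟨fun a ha g => by
          have : g * a * g⁻¹ = a := Subtype.ext (by simp [hcomm (g : MulAut Q) (a : MulAut Q)])
          rwa [this]⟩
      have hz : IsPGroup p (Subgroup.zpowers (⟨χ, hχ⟩ : F.autGroup Q)) := by
        intro a
        obtain ⟨a, ha⟩ := a
        obtain ⟨i, rfl⟩ := Subgroup.mem_zpowers_iff.mp ha
        refine ⟨m, Subtype.ext ?_⟩
        show ((⟨χ, hχ⟩ : F.autGroup Q) ^ i) ^ (p ^ m) = 1
        rw [← zpow_natCast, ← zpow_mul, mul_comm, zpow_mul, zpow_natCast]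
        rw [show (⟨χ, hχ⟩ : F.autGroup Q) ^ (p ^ m) = 1 from Subtype.ext hord, one_zpow]
      have hle : Subgroup.zpowers (⟨χ, hχ⟩ : F.autGroup Q) ≤ pCore p (F.autGroup Q) := le_sSup ⟨hn, hz⟩
      exact ⟨⟨χ, hχ⟩, hle (Subgroup.mem_zpowers _), rfl⟩
    · set N := normSys F hQ.1 with hNdef
      have hFN : N.IsFullyNormalized Q := by
        refine ⟨le_inf hQ.1 Subgroup.le_normalizer, ?_⟩
        rintro Q'' ⟨φ, ⟨-, -, -, ψ, -, hψP, hψQ⟩, rfl⟩
        have : φ.range = Q := by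
          conv_rhs => rw [← hψQ]
          ext y
          constructor
          · rintro ⟨x, rfl⟩
            exact ⟨Subgroup.inclusion le_sup_left x, x.2, hψP x⟩
          · rintro ⟨x, hx, rfl⟩
            exact ⟨⟨x, hx⟩, (hψP ⟨x, hx⟩).symm.trans rfl⟩
        rw [this]
      have hAut : N.autGroup Q = F.autGroup Q := by
        refine le_antisymm (Subgroup.closure_mono fun β hβ => hβ.1) ((Subgroup.closure_le _).mpr ?_)
        intro β hβ
        refine Subgroup.subset_closure ⟨hβ, le_inf hQ.1 Subgroup.le_normalizer,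
          fun x => (le_inf hQ.1 Subgroup.le_normalizer : Q ≤ Cfsg.FusionSystem.normalizerIn S Q) (β x).2,
          _, restrict_mem F (sup_le le_rfl le_rfl : Q ⊔ Q ≤ Q) hβ, fun x => rfl, ?_⟩
        ext y
        constructor
        · rintro ⟨x, hx, rfl⟩
          exact (β _).2
        · intro hy
          exact ⟨⟨β.symm ⟨y, hy⟩, le_sup_left (b := Q) (β.symm ⟨y, hy⟩).2⟩, (β.symm ⟨y, hy⟩).2,
            show ((β (β.symm ⟨y, hy⟩) : Q) : Ω) = y by simp⟩
      have := hst Q hQ hcyc N (fun P => rfl) Q hFN χ (hAut ▸ hχ) hq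
      exact hAut ▸ this

end Cfsg.Agent.S5247
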