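import Cfsg.Statements.S5251
import Cfsg.Agent.Fusion.Alperin.Criteria
import Cfsg.Agent.Fusion.Alperin.Radical

set_option autoImplicit false
open Cfsg

namespace Cfsg.Agent.S5251

open CfsgLib CfsgLib.Fus CfsgLib.Fusion.Alperin Cfsg.FusionSystem

/-- Let F be a saturated fusion system over a finite p-group S, E a normal subsystem of F over T, and P an F-centric subgroup of S such that P ∩ T is not E-centric. Then some F-conjugate P* of P satisfies Out_S(P*) ∩ O_p(Out_F(P*)) ≠ 1: there is an element of N_S(P*) outside P* whose conjugation action on P* lies in O_p(Aut_F(P*)). In particular P is not both centric and radical in F. -/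
theorem result {Ω : Type*} [Group Ω] {S : Subgroup Ω} [Finite S] (p : ℕ) [Fact p.Prime] (hS : IsPGroup p S) (F : Cfsg.FusionSystem S) (hF : F.IsSaturated p) {T : Subgroup Ω} (E : Cfsg.FusionSystem T) (hE : E.IsNormalIn F p) (P : Subgroup Ω) (hP : F.IsCentric P) (hPT : ¬ E.IsCentric (P ⊓ T)) : (∃ φ ∈ F.Hom P, ∃ x ∈ S ⊓ Subgroup.normalizer (φ.range : Set Ω), x ∉ φ.range ∧ ∃ α ∈ ((Cfsg.pCore p ↥(F.autGroup φ.range)).map (F.autGroup φ.range).subtype : Subgroup (MulAut ↥φ.range)), ∀ y : ↥φ.range, ((α y : ↥φ.range) : Ω) = x * (y : Ω) * x⁻¹) ∧ ¬ F.IsRadical p P := by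
  obtain ⟨⟨-, -, hsub, hT, -, -⟩, -⟩ := hE
  set P₀ := P ⊓ T
  have hP₀ : P₀ ≤ S := inf_le_left.trans hP.1
  obtain ⟨Q, hQconj, hQ⟩ := exists_fullyNormalized F hP₀
  obtain ⟨φ₀, hφ₀, hφ₀r, ψ, hψ, hψe⟩ := exists_normalizer_map_fn hS hF hQ hQconj
  have hN : P ≤ normalizerIn S P₀ := by
    intro g hg
    refine ⟨hP.1 hg, Subgroup.mem_normalizer_iff.2 fun x => ?_⟩
    have h1 := Subgroup.mem_normalizer_iff.1 (Subgroup.le_normalizer (H := P) hg) x
    have h2 := Subgroup.mem_normalizer_iff.1 (le_normalizer_of_stronglyClosed hT (hP.1 hg)) x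
    exact ⟨fun hx => ⟨h1.1 hx.1, h2.1 hx.2⟩, fun hx => ⟨h1.2 hx.1, h2.2 hx.2⟩⟩
  set φ := ψ.comp (Subgroup.inclusion hN) with hφdef
  have hφ : φ ∈ F.Hom P := restrict_mem F hψ hN
  set R := φ.range
  have hRS : R ≤ S := range_le F hφ
  have hQR : Q ≤ R := by
    rintro q hq
    obtain ⟨x, rfl⟩ : q ∈ φ₀.range := hφ₀r.symm ▸ hq
    exact ⟨⟨x, x.2.1⟩, hψe x _⟩
  have hQT : Q ≤ T := by
    rintro q hq
    obtain ⟨x, rfl⟩ : q ∈ φ₀.range := hφ₀r.symm ▸ hq
    exact map_mem_of_stronglyClosed hT hφ₀ x.2.2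
  have hRT : ∀ y ∈ R, y ∈ T → y ∈ Q := by
    intro y hy hyT
    obtain ⟨φ', hφ', -, hφ'φ, -⟩ := exists_inv F hφ rfl
    obtain ⟨x, rfl⟩ := hy
    have hxT : (x : Ω) ∈ T := by
      rw [← hφ'φ x ⟨x, rfl⟩]
      exact map_mem_of_stronglyClosed hT hφ' (x := ⟨φ x, ⟨x, rfl⟩⟩) hyT
    rw [← hφ₀r]
    exact ⟨⟨x, x.2, hxT⟩, (hψe ⟨x, x.2, hxT⟩ _).symm⟩
  -- some element of `T` centralizes `Q` and lies outside it
  obtain ⟨c, ⟨hcT, hc⟩, hcQ⟩ : ∃ c, (c ∈ T ∧ ∀ x ∈ Q, x * c = c * x) ∧ c ∉ Q := by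
    unfold Cfsg.FusionSystem.IsCentric at hPT
    push Not at hPT
    obtain ⟨Q₀, ⟨θ, hθ, hθr⟩, hC⟩ := hPT inf_le_right
    obtain ⟨d, hd, hdQ⟩ := SetLike.not_le_iff_exists.1 hC
    obtain ⟨χ₀, hχ₀, hχ₀r, χ, hχ, hχe⟩ := exists_normalizer_map_fn hS hF hQ
      (isConj_trans (isConj_symm ⟨θ, hsub _ hθ, hθr⟩) hQconj)
    have hQ₀S : Q₀ ≤ S := hom_le F hχ₀
    have hdN : d ∈ normalizerIn S Q₀ :=
      centralizerIn_le_normalizerIn Q₀ ⟨hT.1 hd.1, hd.2⟩
    refine ⟨χ ⟨d, hdN⟩, ⟨map_mem_of_stronglyClosed hT hχ hd.1,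
      (map_mem_centralizerIn hχ₀r hχ (le_normalizerIn hQ₀S) (fun x => hχe x _) (g := ⟨d, hdN⟩) hd.2).2⟩, fun h => ?_⟩
    obtain ⟨x, hx⟩ : χ ⟨d, hdN⟩ ∈ χ₀.range := hχ₀r.symm ▸ h
    rw [← hχe x (le_normalizerIn hQ₀S x.2)] at hx
    have hxd : (x : Ω) = d := congrArg Subtype.val (F.injective_of_mem hχ hx)
    exact hdQ (hxd ▸ x.2)
  set K := T ⊓ Subgroup.centralizer (Q : Set Ω) with hK
  have hRK : R ≤ Subgroup.normalizer (K : Set Ω) := by
    intro r hr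
    have h1 := Subgroup.mem_normalizer_iff.1 (le_normalizer_of_stronglyClosed hT (hRS hr))
    have h2 : r ∈ Subgroup.normalizer (Q : Set Ω) := by
      refine Subgroup.mem_normalizer_iff.2 fun x => ⟨fun hx => ?_, fun hx => ?_⟩
      · exact hRT _ (R.mul_mem (R.mul_mem hr (hQR hx)) (R.inv_mem hr)) ((h1 x).1 (hQT hx))
      · refine hRT x ?_ ((h1 x).2 (hQT hx))
        have := R.mul_mem (R.mul_mem (R.inv_mem hr) (hQR hx)) hr
        simpa [mul_assoc] using this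
    have h2' := Subgroup.mem_normalizer_iff.1 h2
    refine Subgroup.mem_normalizer_iff.2 fun z => ⟨fun hz => ⟨(h1 z).1 hz.1, fun x hx => ?_⟩,
      fun hz => ⟨(h1 z).2 hz.1, fun x hx => ?_⟩⟩
    · have hx' : r⁻¹ * x * r ∈ Q := by rw [h2']; simpa [mul_assoc] using hx
      have := hz.2 _ hx'
      calc x * (r * z * r⁻¹) = r * (r⁻¹ * x * r * z) * r⁻¹ := by group
        _ = r * (z * (r⁻¹ * x * r)) * r⁻¹ := by rw [this]
        _ = r * z * r⁻¹ * x := by group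
    · have := hz.2 _ ((h2' x).1 hx)
      calc x * z = r⁻¹ * (r * x * r⁻¹ * (r * z * r⁻¹)) * r := by group
        _ = r⁻¹ * (r * z * r⁻¹ * (r * x * r⁻¹)) * r := by rw [this]
        _ = z * x := by group
  obtain ⟨x, ⟨hxT, hxC⟩, hxN, hxR⟩ :
      ∃ x, x ∈ K ∧ x ∈ Subgroup.normalizer (R : Set Ω) ∧ x ∉ R := by
    by_contra hne
    push Not at hne
    have := le_of_normalizing_mem hS (inf_le_left.trans hT.1 : K ≤ S) hRS hRK hne ⟨hcT, hc⟩
    exact hcQ (hRT c this hcT)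
  have hxS : x ∈ S := hT.1 hxT
  let L : ℕ → Subgroup Ω := fun i => if i = 0 then ⊥ else if i = 1 then Q else S
  have hm : ∀ hm : conjAut hxN ∈ F.autGroup R,
      (⟨conjAut hxN, hm⟩ : F.autGroup R) ∈ Cfsg.pCore p (F.autGroup R) := by
    intro hm
    have : Finite R := finite_of_le hRS
    refine mem_pCore_of_stabilizes (hS.to_le hRS) _ 2 L (by simp [L]) (by simpa [L] using hRS) ?_ ?_ ?_
    · refine monotone_nat_of_le_succ fun i => ?_
      rcases i with _ | _ | i <;> simp [L, hQ.1]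
    · intro i a ha y hy
      rcases i with _ | _ | i
      · simp only [L, if_true, Subgroup.mem_bot] at hy ⊢
        have : y = 1 := Subtype.ext hy
        simp [this]
      · simp only [L, Nat.one_ne_zero, if_false, if_true, zero_add] at hy ⊢
        exact hRT _ (a y).2 (map_mem_of_stronglyClosed hT ((mem_autGroup_iff F hRS).1 ha) (hQT hy))
      · simp only [L, Nat.add_one_ne_zero, if_false] at hy ⊢
        rw [if_neg (by omega)]
        exact hRS (a y).2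
    · intro i hi y hy
      show (y : Ω)⁻¹ * (x * (y : Ω) * x⁻¹) ∈ L i
      rcases i with _ | _ | i
      · simp only [L, Nat.one_ne_zero, if_false, if_true, zero_add] at hy ⊢
        rw [← hxC y hy]
        simp
      · simp only [L, Nat.one_ne_zero, if_false, if_true, zero_add]
        refine hRT _ (R.mul_mem (R.inv_mem y.2) (conj_mem_of_normalizer hxN y.2)) ?_
        have e : (y : Ω)⁻¹ * (x * y * x⁻¹) = ((y : Ω)⁻¹ * x * y) * x⁻¹ := by group
        rw [e]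
        exact T.mul_mem ((Subgroup.mem_normalizer_iff''.1
          (le_normalizer_of_stronglyClosed hT (hRS y.2)) x).1 hxT) (T.inv_mem hxT)
      · omega
  have hmem := autInducedBy_le_autGroup F hRS (conjAut_mem_autInducedBy hxN hxS)
  refine ⟨⟨φ, hφ, x, ⟨hxS, hxN⟩, hxR, conjAut hxN, ⟨_, hm hmem, rfl⟩, fun y => rfl⟩, fun hrad => ?_⟩
  exact hxR (mem_of_mem_pCore_of_radical (isCentric_of_isConj hP ⟨φ, hφ, rfl⟩)
    (isRadical_of_isConj hrad ⟨φ, hφ, rfl⟩) ⟨hxS, hxN⟩ hm)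

end Cfsg.Agent.S5251
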