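import Cfsg.Statements.S5254
import Cfsg.Agent.Fus.AbelianIndexP.Essential

set_option autoImplicit false
open Cfsg

namespace Cfsg.Agent.S5254

/-- Let p be an odd prime, S a finite nonabelian p-group with a unique abelian subgroup A of index p, and F a saturated fusion system over S. Then every F-essential subgroup P is A, or Z(S)⟨x⟩ for some x ∈ S outside A, or (when the second centre Z₂(S) lies in A) Z₂(S)⟨x⟩ for some x ∈ S outside A; and P has index p in its normalizer in S. -/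
theorem result {Ω : Type*} [Group Ω] {S : Subgroup Ω} [Finite S] (p : ℕ) [Fact p.Prime] (hS : IsPGroup p S) (F : Cfsg.FusionSystem S) (hF : F.IsSaturated p) (hp : p ≠ 2) (hna : ¬ IsMulCommutative ↥S) (A : Subgroup Ω) (hA : A ≤ S ∧ IsMulCommutative ↥A ∧ (A.subgroupOf S).index = p) (huniq : ∀ B : Subgroup Ω, B ≤ S → IsMulCommutative ↥B → (B.subgroupOf S).index = p → B = A) (P : Subgroup Ω) (hP : F.IsEssential p P) : (P = A ∨ (∃ x ∈ S, x ∉ A ∧ P = (S ⊓ Subgroup.centralizer (S : Set Ω)) ⊔ Subgroup.zpowers x) ∨ (((upperCentralSeries ↥S 2).map S.subtype) ≤ A ∧ ∃ x ∈ S, x ∉ A ∧ P = ((upperCentralSeries ↥S 2).map S.subtype) ⊔ Subgroup.zpowers x)) ∧ (P.subgroupOf (S ⊓ Subgroup.normalizer (P : Set Ω))).index = p := by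
  have h := CfsgLib.Fus.AbelianIndexP.setting_of_hyps hS hna hA
  have hPS : P ≤ S := hP.1.1
  have hidx : ∀ {N : Subgroup Ω}, P ≤ N → N ≤ S → Nat.card N = p * Nat.card P → (P.subgroupOf N).index = p := by
    intro N hPN hN hc
    have hm := Subgroup.card_mul_index (P.subgroupOf N)
    rw [Nat.card_congr (Subgroup.subgroupOfEquivOfLe hPN).toEquiv, hc, mul_comm p] at hm
    haveI : Finite P := Finite.of_injective _ (Subgroup.inclusion_injective hPS)
    exact Nat.eq_of_mul_eq_mul_left Nat.card_pos hm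
  by_cases hPA : P = A
  · subst hPA
    refine ⟨Or.inl rfl, hidx (CfsgLib.Fus.le_normalizerIn hPS) inf_le_left ?_⟩
    have hN : S ⊓ Subgroup.normalizer (P : Set Ω) = S := by
      refine inf_of_le_left fun s hs => Subgroup.mem_normalizer_iff.2 fun b => ⟨fun hb => h.conj_mem hs hb, fun hb => ?_⟩
      have := h.conj_mem (S.inv_mem hs) hb
      simpa [mul_assoc] using this
    rw [hN]
    exact h.card_S
  have sh := CfsgLib.Fus.AbelianIndexP.shape h (CfsgLib.Fus.AbelianIndexP.uniq_of_hyps huniq) hF hP hPA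
  obtain ⟨x, hx, hxA⟩ := CfsgLib.Fus.AbelianIndexP.exists_outside h hP hPA
  refine ⟨Or.inr ?_, hidx (CfsgLib.Fus.le_normalizerIn hPS) inf_le_left sh.card_normalizer⟩
  have e := h.eq_sup hxA hPS hx
  rcases sh.cases with hc | hc <;> rw [hc] at e
  · exact Or.inl ⟨x, hPS hx, hxA, e⟩
  · exact Or.inr ⟨sh.cen2_le, x, hPS hx, hxA, e⟩

end Cfsg.Agent.S5254
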