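import Cfsg.Statements.S5255
import Cfsg.Agent.Fusion.Alperin.Puig

set_option autoImplicit false
open Cfsg

namespace Cfsg.Agent.S5255

/-- Let F be a saturated fusion system over a finite p-group S and T a subgroup of S strongly closed in F. Then T·C_S(T) is strongly closed in F. -/
theorem result {Ω : Type*} [Group Ω] {S : Subgroup Ω} [Finite S] (p : ℕ) [Fact p.Prime] (hS : IsPGroup p S) (F : Cfsg.FusionSystem S) (hF : F.IsSaturated p) (T : Subgroup Ω) (hT : F.StronglyClosed T) : F.StronglyClosed (T ⊔ Cfsg.FusionSystem.centralizerIn S T) := by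
  refine ⟨sup_le hT.1 inf_le_left, fun R hR φ hφ x => ?_⟩
  have := CfsgLib.Fus.finite_of_le hT.1
  obtain ⟨ψ, hψ, he⟩ := CfsgLib.Fusion.Alperin.exists_extend_mod hS hF hT hφ
  have hN : Cfsg.FusionSystem.centralizerIn S T ≤ Subgroup.normalizer (T : Set Ω) :=
    inf_le_left.trans (CfsgLib.Fusion.Alperin.le_normalizer_of_stronglyClosed hT)
  have hx : (x : Ω) ∈ ((T ⊔ Cfsg.FusionSystem.centralizerIn S T : Subgroup Ω) : Set Ω) := hR x.2
  rw [Subgroup.coe_mul_of_right_le_normalizer_left T _ hN] at hx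
  obtain ⟨a, ha, b, hb, hab⟩ := Set.mem_mul.1 hx
  have hb' : b ∈ R ⊔ T := by
    have e : b = a⁻¹ * (x : Ω) := by rw [← hab]; group
    rw [e]
    exact mul_mem (inv_mem (Subgroup.mem_sup_right ha)) (Subgroup.mem_sup_left x.2)
  have hψC : ψ ⟨b, hb'⟩ ∈ Cfsg.FusionSystem.centralizerIn S T := by
    refine ⟨CfsgLib.Fus.hom_mem F hψ _, Subgroup.mem_centralizer_iff.2 fun t ht => ?_⟩
    obtain ⟨u, hu, rfl⟩ : t ∈ (T.subgroupOf (R ⊔ T)).map ψ := by
      rw [CfsgLib.Fusion.Alperin.subgroupOf_map_eq (F.injective_of_mem hψ) le_sup_right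
        (fun _ h => CfsgLib.Fusion.Alperin.map_mem_of_stronglyClosed hT hψ h)]
      exact ht
    rw [← map_mul, ← map_mul]
    exact congrArg ψ (Subtype.ext (Subgroup.mem_centralizer_iff.1 hb.2 (u : Ω) hu))
  have e2 : Subgroup.inclusion le_sup_left x =
      (⟨a, Subgroup.mem_sup_right ha⟩ : (R ⊔ T : Subgroup Ω)) * ⟨b, hb'⟩ :=
    Subtype.ext hab.symm
  have e3 : φ x = ψ (Subgroup.inclusion le_sup_left x) *
      ((φ x)⁻¹ * ψ (Subgroup.inclusion le_sup_left x))⁻¹ := by group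
  rw [e3]
  refine mul_mem ?_ (inv_mem (Subgroup.mem_sup_left (he x)))
  rw [e2, map_mul]
  exact mul_mem
    (Subgroup.mem_sup_left (CfsgLib.Fusion.Alperin.map_mem_of_stronglyClosed hT hψ ha))
    (Subgroup.mem_sup_right hψC)

end Cfsg.Agent.S5255
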