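import Cfsg.Statements.S5256
import Cfsg.Agent.Fusion.Alperin.Puig
import Cfsg.Agent.LocalCharP.Residual

set_option autoImplicit false
open Cfsg Cfsg.FusionSystem

namespace Cfsg.Agent.S5256

open Cfsg.FusionSystem in
/-- The homomorphism from automizers in `F` to automizers in the image system. -/
theorem exists_factorAutHom {Ω : Type*} [Group Ω] {S : Subgroup Ω} {F : Cfsg.FusionSystem S}
    {Ω' : Type*} [Group Ω'] {S' : Subgroup Ω'} {θ : ↥S →* Ω'} {E : Cfsg.FusionSystem S'}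
    (hmor : F.IsSurjectiveMorphism E θ) {P : Subgroup Ω} (hP : P ≤ S) {P' : Subgroup Ω'}
    (himg : imageAlong θ P = P') :
    ∃ Φ : F.autGroup P →* E.autGroup P', ∀ (a : F.autGroup P) (x : P) (h : θ ⟨x, hP x.2⟩ ∈ P'),
      (((Φ a : MulAut P') ⟨θ ⟨x, hP x.2⟩, h⟩ : P') : Ω') =
        θ ⟨((a : MulAut P) x : P), hP (Subtype.prop _)⟩ := by
  subst himg
  have key : ∀ a : F.autGroup P, ∃ b : E.autGroup (imageAlong θ P),
      ∀ (x : P) (h : θ ⟨x, hP x.2⟩ ∈ imageAlong θ P),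
      (((b : MulAut _) ⟨θ ⟨x, hP x.2⟩, h⟩ : imageAlong θ P) : Ω') =
        θ ⟨((a : MulAut P) x : P), hP (Subtype.prop _)⟩ := by
    intro a
    obtain ⟨φ', hφ', hN, hS', hN', he⟩ := hmor.1.2 P _ ((CfsgLib.Fus.mem_autGroup_iff F hP).1 a.2)
    have hr : φ'.range = imageAlong θ P := by
      refine le_antisymm ?_ ?_
      · rintro _ ⟨⟨_, s, hs, rfl⟩, rfl⟩
        exact (he ⟨s, hs⟩).symm ▸ ⟨⟨((a : MulAut P) ⟨s, hs⟩ : P), hP (Subtype.prop _)⟩,
          Subtype.prop ((a : MulAut P) ⟨s, hs⟩), rfl⟩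
      · rintro _ ⟨s, hs, rfl⟩
        refine ⟨⟨_, hN' ((a : MulAut P)⁻¹ ⟨s, hs⟩)⟩, (he _).trans (congrArg θ (Subtype.ext ?_))⟩
        show (((a : MulAut P) ((a : MulAut P)⁻¹ ⟨s, hs⟩) : P) : Ω) = s
        simp
    exact ⟨⟨CfsgLib.Fus.isoOf hφ' hr, CfsgLib.Fus.isoOf_mem_autGroup hφ' hr⟩, fun x h => he x⟩
  choose f hf using key
  refine ⟨MonoidHom.mk' f fun a b => Subtype.ext (MulEquiv.ext ?_), fun a => hf a⟩
  rintro ⟨_, s, hs, rfl⟩
  refine Subtype.ext ((hf (a * b) ⟨s, hs⟩ _).trans ?_)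
  have e : (f b : MulAut (imageAlong θ P)) (⟨θ s, ⟨s, hs, rfl⟩⟩ : imageAlong θ P) =
      (⟨θ ⟨((b : MulAut P) ⟨s, hs⟩ : P), hP (Subtype.prop _)⟩,
        ⟨_, Subtype.prop ((b : MulAut P) ⟨s, hs⟩), rfl⟩⟩ : imageAlong θ P) := Subtype.ext (hf b ⟨s, hs⟩ _)
  show θ _ = (((f a : MulAut _) ((f b : MulAut _) ⟨θ s, _⟩) : imageAlong θ P) : Ω')
  rw [e]
  refine Eq.trans ?_ (hf a ((b : MulAut P) ⟨s, hs⟩) _).symm
  rfl


/-- Let F be a saturated fusion system over a finite p-group S, T a subgroup of S strongly closed in F, and E a factor system F/T realised along a homomorphism θ of S with kernel T. Then the hyperfocal subgroup of E is the image under θ of the hyperfocal subgroup of F (hyp(F/T) = T·hyp(F)/T). -/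
theorem result {Ω : Type*} [Group Ω] {S : Subgroup Ω} [Finite S] (p : ℕ) [Fact p.Prime] (hS : IsPGroup p S) (F : Cfsg.FusionSystem S) (hF : F.IsSaturated p) (T : Subgroup Ω) (hT : F.StronglyClosed T) {Ω' : Type*} [Group Ω'] {S' : Subgroup Ω'} (θ : ↥S →* Ω') (E : Cfsg.FusionSystem S') (hE : F.IsFactorSystem T θ E) : E.hyperfocalSubgroup p = ((F.hyperfocalSubgroup p).subgroupOf S).map θ := by
  obtain ⟨hTS, hker, hrange, hmaps⟩ := id hE
  have hmor := CfsgLib.Fusion.Alperin.isSurjectiveMorphism_of_isFactorSystem hS hF hT hE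
  refine le_antisymm ((Subgroup.closure_le _).2 ?_) (Subgroup.map_le_iff_le_comap.2 ?_)
  · rintro y ⟨P', β, ⟨x', hx'⟩, hP', hβ, rfl⟩
    have himg : imageAlong θ (preimageAlong θ P') = P' := by
      ext z
      refine ⟨?_, fun hz => ?_⟩
      · rintro ⟨s, ⟨s', hs', e⟩, rfl⟩
        exact (Subtype.ext e : s' = s) ▸ hs'
      · obtain ⟨s, rfl⟩ : z ∈ θ.range := hrange.symm ▸ hP' hz
        exact ⟨s, ⟨s, hz, rfl⟩, rfl⟩
    have hP : preimageAlong θ P' ≤ S := Subgroup.map_subtype_le _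
    have := CfsgLib.Fus.finite_of_le hP
    have := CfsgLib.Fus.finite_mulAut (preimageAlong θ P')
    obtain ⟨Φ, hΦ⟩ := exists_factorAutHom hmor hP himg
    have hsur : Function.Surjective Φ := by
      intro b
      obtain ⟨-, φ, hφ, hN, hφS, hN', he⟩ :=
        (hmaps P' _).1 ((CfsgLib.Fus.mem_autGroup_iff E hP').1 b.2)
      have hin : φ.range ≤ preimageAlong θ P' := by
        rintro _ ⟨z, rfl⟩
        refine ⟨⟨φ z, hφS z⟩, ?_, rfl⟩
        show θ ⟨φ z, hφS z⟩ ∈ P'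
        rw [← he z]
        exact Subtype.prop _
      have hr : φ.range = preimageAlong θ P' := Subgroup.eq_of_le_of_card_ge hin
        (CfsgLib.Fus.isConj_card ⟨φ, hφ, rfl⟩).le
      refine ⟨⟨CfsgLib.Fus.isoOf hφ hr, CfsgLib.Fus.isoOf_mem_autGroup hφ hr⟩, ?_⟩
      refine Subtype.ext (MulEquiv.ext ?_)
      rintro ⟨z, hz⟩
      obtain ⟨s, hs, rfl⟩ : z ∈ imageAlong θ (preimageAlong θ P') := himg.symm ▸ hz
      exact Subtype.ext ((hΦ _ ⟨s, hs⟩ hz).trans (he ⟨s, hs⟩).symm)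
    obtain ⟨α, hα, rfl⟩ := (CfsgLib.LocalCharP.map_pResidual (p := p) hsur).ge hβ
    obtain ⟨s, hs, rfl⟩ : x' ∈ imageAlong θ (preimageAlong θ P') := himg.symm ▸ hx'
    replace hs : (s : Ω) ∈ preimageAlong θ P' := hs
    refine ⟨(⟨(s : Ω)⁻¹ * (((α : MulAut (preimageAlong θ P')) ⟨s, hs⟩ : preimageAlong θ P') : Ω), mul_mem (inv_mem s.2) (hP (Subtype.prop _))⟩ : S),
      Subgroup.subset_closure ⟨_, α, ⟨s, hs⟩, hP, hα, rfl⟩, ?_⟩
    have e := hΦ α ⟨s, hs⟩ hx'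
    refine (map_mul θ s⁻¹ ⟨_, hP (Subtype.prop _)⟩).trans ?_
    rw [map_inv]
    exact congrArg ((θ s)⁻¹ * ·) e.symm
  · suffices h : F.hyperfocalSubgroup p ≤ ((E.hyperfocalSubgroup p).comap θ).map S.subtype by
      intro s hs
      obtain ⟨s', hs', e⟩ := h hs
      exact (Subtype.ext e : s' = s) ▸ hs'
    refine (Subgroup.closure_le _).2 ?_
    rintro y ⟨P, α, x, hP, hα, rfl⟩
    obtain ⟨Φ, hΦ⟩ := exists_factorAutHom hmor hP rfl
    have hm : θ ⟨x, hP x.2⟩ ∈ imageAlong θ P := ⟨⟨x, hP x.2⟩, x.2, rfl⟩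
    refine ⟨(⟨x, hP x.2⟩ : S)⁻¹ * ⟨((α : MulAut P) x : P), hP (Subtype.prop _)⟩, ?_, rfl⟩
    show θ _ ∈ E.hyperfocalSubgroup p
    rw [map_mul, map_inv, ← hΦ α x hm]
    refine Subgroup.subset_closure ⟨_, Φ α, ⟨_, hm⟩, ?_,
      CfsgLib.LocalCharP.map_pResidual_le Φ ⟨α, hα, rfl⟩, rfl⟩
    rintro _ ⟨s, -, rfl⟩
    exact hrange ▸ ⟨s, rfl⟩

end Cfsg.Agent.S5256
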