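import Cfsg.Statements.S5257
import Cfsg.Agent.Fus.AbelianIndexP.Essential
import Cfsg.Agent.Fus.AbelianIndexP.Chain

set_option autoImplicit false
open Cfsg

namespace Cfsg.Agent.S5257

/-- Let p be an odd prime, S a finite nonabelian p-group with a unique abelian subgroup A of index p, and F a saturated fusion system over S having an F-essential subgroup other than A. Then the second centre Z₂(S) lies in A; Z(S) ∩ [S, S] has order p; Z(S)[S, S] has index p in A; Z(S) has index p in Z₂(S); and S/Z(S) has maximal nilpotency class (if S/Z(S) has order pᵐ with m ≥ 3 then the term of index m − 2 of the lower central series of S, counting S as index 0, is not contained in Z(S)). -/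
theorem result {Ω : Type*} [Group Ω] {S : Subgroup Ω} [Finite S] (p : ℕ) [Fact p.Prime] (hS : IsPGroup p S) (F : Cfsg.FusionSystem S) (hF : F.IsSaturated p) (hp : p ≠ 2) (hna : ¬ IsMulCommutative ↥S) (A : Subgroup Ω) (hA : A ≤ S ∧ IsMulCommutative ↥A ∧ (A.subgroupOf S).index = p) (huniq : ∀ B : Subgroup Ω, B ≤ S → IsMulCommutative ↥B → (B.subgroupOf S).index = p → B = A) (P : Subgroup Ω) (hP : F.IsEssential p P) (hPA : P ≠ A) : ((upperCentralSeries ↥S 2).map S.subtype) ≤ A ∧ Nat.card ↥((S ⊓ Subgroup.centralizer (S : Set Ω)) ⊓ ((commutator ↥S).map S.subtype)) = p ∧ (((S ⊓ Subgroup.centralizer (S : Set Ω)) ⊔ ((commutator ↥S).map S.subtype)).subgroupOf A).index = p ∧ (((S ⊓ Subgroup.centralizer (S : Set Ω))).subgroupOf ((upperCentralSeries ↥S 2).map S.subtype)).index = p ∧ ∀ m : ℕ, ((S ⊓ Subgroup.centralizer (S : Set Ω)).subgroupOf S).index = p ^ m → 3 ≤ m → ¬ Subgroup.lowerCentralSeries S (m - 2) ≤ (S ⊓ Subgroup.centralizer (S : Set Ω)) := by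
  have h := CfsgLib.Fus.AbelianIndexP.setting_of_hyps hS hna hA
  have sh := CfsgLib.Fus.AbelianIndexP.shape h (CfsgLib.Fus.AbelianIndexP.uniq_of_hyps huniq) hF hP hPA
  obtain ⟨x, hxP, hxA⟩ := CfsgLib.Fus.AbelianIndexP.exists_outside h hP hPA
  have hx : x ∈ S := hP.1.1 hxP
  haveI : Finite A := Finite.of_injective _ (Subgroup.inclusion_injective h.le)
  refine ⟨sh.cen2_le, h.card_cen_inf_commutator hx hxA sh.cen2_le sh.card_cen2,
    h.index_sup hx hxA sh.cen2_le sh.card_cen2, ?_, fun m hm hm3 => ?_⟩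
  · have hle : CfsgLib.Fus.AbelianIndexP.cen S ≤ CfsgLib.Fus.AbelianIndexP.cen2 S := fun z hz => by
      refine CfsgLib.Fus.AbelianIndexP.mem_cen2.2 ⟨hz.1, fun t ht => ?_⟩
      rw [show z * t = t * z from ((CfsgLib.Fus.AbelianIndexP.mem_cen.1 hz).2 t ht).symm, mul_inv_cancel_right,
        mul_inv_cancel]
      exact Subgroup.one_mem _
    have hcard := Subgroup.card_mul_index
      ((CfsgLib.Fus.AbelianIndexP.cen S).subgroupOf (CfsgLib.Fus.AbelianIndexP.cen2 S))
    rw [Nat.card_congr (Subgroup.subgroupOfEquivOfLe hle).toEquiv, sh.card_cen2, mul_comm p] at hcard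
    haveI : Finite (CfsgLib.Fus.AbelianIndexP.cen S) := CfsgLib.Fus.finite_of_le inf_le_left
    exact Nat.eq_of_mul_eq_mul_left Nat.card_pos hcard
  · have hk : (h.sigma hx).ker.index = p ^ (m - 1) := by
      rw [h.ker_sigma hx hxA]
      have hm' : (CfsgLib.Fus.AbelianIndexP.cen S).relIndex S = p ^ m := hm
      rw [← Subgroup.relIndex_mul_relIndex _ A S h.cen_le h.le, show A.relIndex S = p from h.idx,
        ← Nat.sub_add_cancel (show 1 ≤ m by omega), pow_succ] at hm'
      exact Nat.eq_of_mul_eq_mul_right (Fact.out : p.Prime).pos hm'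
    have h1 := h.lcs_not_le hx hxA sh.cen2_le sh.card_cen2 hk (j := m - 3) (by omega)
    rwa [show m - 3 + 1 = m - 2 by omega] at h1

end Cfsg.Agent.S5257
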