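import Cfsg.Statements.S5271
import Cfsg.Agent.FusWeakEmbed59.Main

set_option autoImplicit false
open Cfsg

namespace Cfsg.Agent.S5271

/-- A nilpotency criterion for fusion systems. Let F be a saturated fusion system over a finite p-group S of order at least p². Call a subgroup Q of S weakly embedded in F when there is a subgroup P of S strongly closed in F such that both the product QP and the intersection Q ∩ P are strongly closed in F. Then F is the inner fusion system of S if and only if there is a subgroup D of S with 1 < D < S such that every subgroup of S of the same order as D is weakly embedded in F and, for every fully normalized subgroup H of S of that order, the normalizer fusion system of H in F is the inner fusion system of N_S(H). -/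
theorem result {Ω : Type*} [Group Ω] {S : Subgroup Ω} [Finite S] (p : ℕ) [Fact p.Prime] (hS : IsPGroup p ↥S) (F : Cfsg.FusionSystem S) (hF : F.IsSaturated p) (hcard : p ^ 2 ≤ Nat.card S) : (∀ P : Subgroup Ω, F.Hom P = (Cfsg.innerFusionSystem S).Hom P) ↔ ∃ D : Subgroup Ω, ⊥ < D ∧ D < S ∧ (∀ Q : Subgroup Ω, Q ≤ S → Nat.card ↥Q = Nat.card ↥D → ∃ P : Subgroup Ω, F.StronglyClosed P ∧ F.StronglyClosed (Q ⊔ P) ∧ F.StronglyClosed (Q ⊓ P)) ∧ (∀ H : Subgroup Ω, F.IsFullyNormalized H → Nat.card ↥H = Nat.card ↥D → ∀ N : Cfsg.FusionSystem (Cfsg.FusionSystem.normalizerIn S H), F.IsNormalizerSystem H N → ∀ P : Subgroup Ω, N.Hom P = (Cfsg.innerFusionSystem (Cfsg.FusionSystem.normalizerIn S H)).Hom P) := by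
  have hp := (Fact.out : p.Prime)
  obtain ⟨e, he⟩ := IsPGroup.iff_card.1 hS
  have he2 : 2 ≤ e := (Nat.pow_le_pow_iff_right hp.one_lt).1 (he ▸ hcard)
  constructor
  · intro h
    obtain ⟨D, -, hDS, hDc⟩ := CfsgLib.FusWeakEmbed59.exists_between (k := e - 1) hS
      (bot_le : ⊥ ≤ S) le_rfl (by simpa using Nat.one_le_pow _ _ hp.pos)
      (he ▸ Nat.pow_le_pow_right hp.pos (Nat.sub_le e 1))
    have := CfsgLib.Fus.finite_of_le hDS
    have hlt : p ^ (e - 1) < p ^ e := Nat.pow_lt_pow_right hp.one_lt (by omega)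
    have hnorm : ∀ Q : Subgroup Ω, Q ≤ S → Nat.card Q = Nat.card D →
        Cfsg.FusionSystem.normalizerIn S Q = S := by
      intro Q hQ hQc
      have hne : Q ≠ S := fun h => by rw [h, he, hDc] at hQc; omega
      obtain ⟨g, hg, hgQ⟩ := CfsgLib.Fusion.Alperin.exists_normalizing_not_mem hS hQ hne
      have hle : Cfsg.FusionSystem.normalizerIn S Q ≤ S := inf_le_left
      refine Subgroup.eq_of_le_of_card_ge hle ?_
      have := CfsgLib.Fus.finite_of_le hle
      have h1 : Q < Cfsg.FusionSystem.normalizerIn S Q :=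
        lt_of_le_of_ne (fun x hx => ⟨hQ hx, Subgroup.le_normalizer hx⟩) fun h => hgQ (h.ge hg)
      have h2 := CfsgLib.FusWeakEmbed59.lt_card hle h1
      obtain ⟨m, hm⟩ := IsPGroup.iff_card.1 (hS.to_le hle)
      rw [hQc, hDc, hm] at h2
      have h3 := (Nat.pow_lt_pow_iff_right hp.one_lt).1 h2
      rw [he, hm]
      exact Nat.pow_le_pow_right hp.pos (by omega)
    refine ⟨D, ?_, ?_, fun Q hQ hQc => ?_, fun H hH hHc N hN P => ?_⟩
    · refine bot_lt_iff_ne_bot.2 fun h => ?_
      rw [h, Subgroup.card_bot] at hDc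
      have : 1 < p ^ (e - 1) := Nat.one_lt_pow (by omega) hp.one_lt
      omega
    · refine lt_of_le_of_ne hDS fun h => ?_
      rw [h, he] at hDc
      omega
    · have hsc : F.StronglyClosed Q := by
        refine ⟨hQ, fun R hR φ hφ x => ?_⟩
        rw [h R] at hφ
        obtain ⟨-, g, hg, hgx⟩ := hφ
        rw [hgx]
        have hgN : g ∈ Cfsg.FusionSystem.normalizerIn S Q := (hnorm Q hQ hQc).ge hg
        exact (Subgroup.mem_normalizer_iff.1 hgN.2 _).1 (hR x.2)
      exact ⟨Q, hsc, by rwa [sup_idem], by rwa [inf_idem]⟩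
    · have hNS := hnorm H hH.1 hHc
      ext φ
      constructor
      · intro hφ
        rw [hN P] at hφ
        obtain ⟨hφF, hP, -⟩ := hφ
        rw [h P] at hφF
        obtain ⟨-, g, hg, hx⟩ := hφF
        exact ⟨hP, g, hNS.ge hg, hx⟩
      · exact fun h => CfsgLib.Fusion.Alperin.innerFusionSystem_isSubsystemOf N P h
  · rintro ⟨D, hDbot, hDS, hW, hN⟩
    have := CfsgLib.Fus.finite_of_le hDS.le
    obtain ⟨k, hk⟩ := IsPGroup.iff_card.1 (hS.to_le hDS.le)
    have hk1 : 1 ≤ k := by
      rcases Nat.eq_zero_or_pos k with rfl | h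
      · exact absurd (Subgroup.eq_bot_of_card_eq D (by simpa using hk)) hDbot.ne'
      · exact h
    refine CfsgLib.FusWeakEmbed59.eq_inner_of_embedded_aux _ rfl hS hF k hk1
      (hk ▸ CfsgLib.FusWeakEmbed59.lt_card le_rfl hDS) (fun Q hQ hQc => hW Q hQ (hQc.trans hk.symm))
      fun H hH hHc R hHR φ hφ => ?_
    have hNS : Cfsg.FusionSystem.normalizerIn S H = S :=
      le_antisymm inf_le_left (le_inf le_rfl
        (CfsgLib.Fusion.Alperin.le_normalizer_of_stronglyClosed hH))
    have hfn : F.IsFullyNormalized H := by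
      refine ⟨hH.1, fun Q _ => ?_⟩
      rw [hNS]
      exact Subgroup.card_le_of_le inf_le_left
    have := CfsgLib.Fus.finite_of_le hH.1
    have hRS := CfsgLib.Fus.hom_le F hφ
    have hm : φ ∈ (CfsgLib.Fus.normalizerSystem F H hH.1).Hom R := by
      refine ⟨hφ, hRS.trans hNS.ge, fun x => hNS.ge (CfsgLib.Fus.hom_mem F hφ x), _,
        CfsgLib.Fus.restrict_mem F hφ (sup_le le_rfl hHR), fun x => rfl, ?_⟩
      exact CfsgLib.Fusion.Alperin.subgroupOf_map_eq
        (F.injective_of_mem (CfsgLib.Fus.restrict_mem F hφ (sup_le le_rfl hHR))) le_sup_right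
        fun x hx => CfsgLib.Fusion.Alperin.map_mem_of_stronglyClosed hH
          (CfsgLib.Fus.restrict_mem F hφ (sup_le le_rfl hHR)) hx
    rw [hN H hfn (hHc.trans hk.symm) _ (fun _ => rfl) R] at hm
    obtain ⟨-, g, hg, hgx⟩ := hm
    exact ⟨g, hg.1, hgx⟩

end Cfsg.Agent.S5271
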