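import Cfsg.Statements.S5290
import Cfsg.Agent.Fusion.Alperin.CharSeries

set_option autoImplicit false
open Cfsg

namespace Cfsg.Agent.S5290

open CfsgLib CfsgLib.Fus CfsgLib.Fusion.Alperin Cfsg.FusionSystem

variable {Ω : Type*} [Group Ω] {Q : Subgroup Ω}

theorem autGroup_inner_le {P : Subgroup Ω} (hP : P ≤ Q) :
    (Cfsg.innerFusionSystem Q).autGroup P ≤ Cfsg.autInducedBy Q P := by
  intro α hα
  obtain ⟨-, g, hg, h⟩ := (mem_autGroup_iff _ hP).1 hα
  exact mem_autInducedBy_iff.2 ⟨g, hg, h⟩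

theorem isSaturated_inner [Finite Q] {p : ℕ} [Fact p.Prime] (hQ : IsPGroup p Q) :
    (Cfsg.innerFusionSystem Q).IsSaturated p := by
  intro P hP
  refine ⟨P, isConj_refl _ hP, ?_, hP, ?_⟩
  · rw [isFullyAutomized_iff hQ]
    refine ⟨hP, ?_⟩
    rw [Subgroup.relIndex_eq_one.2 (autGroup_inner_le hP)]
    exact (Fact.out : p.Prime).not_dvd_one
  · rintro R φ ⟨-, g, hg, hφ⟩ -
    refine ⟨_, (Cfsg.innerFusionSystem Q).conj_mem ?_ hg, fun x hx _ => (hφ ⟨x, hx⟩).symm⟩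
    exact fun y hy => (mem_extender_iff.1 hy).1

/-- Let F be a saturated fusion system over a finite p-group S and Q a subgroup of S. Then Q is normal in F (F = N_F(Q)) if and only if the inner fusion system of Q, consisting of the conjugations by elements of Q on subgroups of Q, is a weakly normal subsystem of F (both saturated, Q strongly closed, invariant under F-conjugation, with the Frattini property). -/
theorem result {Ω : Type*} [Group Ω] {S : Subgroup Ω} [Finite S] (p : ℕ) [Fact p.Prime] (hS : IsPGroup p S)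
    (F : Cfsg.FusionSystem S) (hF : F.IsSaturated p)
    (Q : Subgroup Ω) (hQ : Q ≤ S) :
    F.IsNormal Q ↔ (Cfsg.innerFusionSystem Q).IsWeaklyNormalIn F p := by
  have := finite_of_le hQ
  constructor
  · intro hn
    refine ⟨isSaturated_inner (hS.to_le hQ), hF, ?_, stronglyClosed_of_isNormal hn, ?_, ?_⟩
    · rintro P φ ⟨hP, g, hg, h⟩
      exact hom_congr F (F.conj_mem (hP.trans hQ) (hQ hg)) h
    · rintro P hPQ φ ⟨-, g, hg, hφ⟩ α -
      refine ⟨_, (Cfsg.innerFusionSystem Q).conj_mem ?_ (α ⟨g, hg⟩).2, fun x hφx _ => ?_⟩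
      · rintro _ ⟨y, -, rfl⟩
        exact (α y).2
      · have e : (⟨φ x, hφx⟩ : Q) = ⟨g, hg⟩ * ⟨x, hPQ x.2⟩ * (⟨g, hg⟩ : Q)⁻¹ :=
          Subtype.ext (hφ x)
        rw [e, map_mul, map_mul, map_inv]
        rfl
    · intro P hPQ φ hφ
      obtain ⟨ψ, hψ, hψe, hψQ⟩ := hn.2 P φ hφ
      have hψ' := restrict_mem F hψ (le_sup_right : Q ≤ P ⊔ Q)
      have hr : (ψ.comp (Subgroup.inclusion (le_sup_right : Q ≤ P ⊔ Q))).range = Q := by
        refine le_antisymm ?_ fun y hy => ?_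
        · rintro _ ⟨y, rfl⟩
          exact hψQ.le ⟨_, y.2, rfl⟩
        · obtain ⟨x, hx, rfl⟩ := hψQ.ge hy
          exact ⟨⟨x, hx⟩, rfl⟩
      refine ⟨_, isoOf_mem_autGroup hψ' hr, P.subtype, subtype_mem _ hPQ, fun x hx => ?_⟩
      rw [← hψe]
      rfl
  · rintro ⟨-, -, -, hsc, -, hfr⟩
    refine isNormal_of_extend_aut hS hF hsc fun P hPQ φ hφ => ?_
    obtain ⟨α, -, φ₀, ⟨-, g, hg, hφ₀⟩, he⟩ := hfr P hPQ φ hφ
    refine ⟨α * MulAut.conj (⟨g, hg⟩ : Q), fun x => ?_⟩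
    have hmem : φ₀ x ∈ Q := by
      rw [hφ₀]
      exact Q.mul_mem (Q.mul_mem hg (hPQ x.2)) (Q.inv_mem hg)
    rw [he x hmem]
    exact congrArg (fun y : Q => ((α y : Q) : Ω)) (Subtype.ext (hφ₀ x))

end Cfsg.Agent.S5290
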