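import Cfsg.Statements.S5291
import Cfsg.Agent.Fusion.Alperin.CharSeries

set_option autoImplicit false
open Cfsg

namespace Cfsg.Agent.S5291

open CfsgLib CfsgLib.Fus CfsgLib.Fusion.Alperin Cfsg.FusionSystem

variable {Ω : Type*} [Group Ω]

/-- The image of a subgroup under an automorphism of `T`. -/
def imageBy (T P : Subgroup Ω) (α : MulAut T) : Subgroup Ω :=
  (P.subgroupOf T).map (T.subtype.comp α.toMonoidHom)

theorem isNormal_image {S T : Subgroup Ω} [Finite T] {F : Cfsg.FusionSystem S}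
    {E : Cfsg.FusionSystem T} (hinv : ∀ (P : Subgroup Ω) (hPT : P ≤ T) (φ : P →* Ω), φ ∈ E.Hom P →
      ∀ α ∈ F.autGroup T, ∃ χ ∈ E.Hom ((P.subgroupOf T).map (T.subtype.comp α.toMonoidHom)),
        ∀ (x : P) (hφx : φ x ∈ T)
          (hαx : ((α ⟨x, hPT x.2⟩ : T) : Ω) ∈ (P.subgroupOf T).map (T.subtype.comp α.toMonoidHom)),
          χ ⟨(α ⟨x, hPT x.2⟩ : T), hαx⟩ = ((α ⟨φ x, hφx⟩ : T) : Ω))
    {R : Subgroup Ω} (hR : E.IsNormal R) {α : MulAut T} (hα : α ∈ F.autGroup T) :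
    E.IsNormal (imageBy T R α) := by
  refine isNormal_intro (by rintro _ ⟨y, -, rfl⟩; exact (α y).2) fun P ψ hψ => ?_
  have hPT : P ≤ T := hom_le E hψ
  have hα' : α⁻¹ ∈ F.autGroup T := inv_mem hα
  set P' := imageBy T P α⁻¹
  have hP'T : P' ≤ T := by
    rintro _ ⟨y, -, rfl⟩
    exact ((α⁻¹ : MulAut T) y).2
  obtain ⟨χ, hχ, hχe⟩ := hinv P hPT ψ hψ α⁻¹ hα'
  obtain ⟨θ, hθ, hθe, hθR⟩ := hR.2 P' χ hχ
  obtain ⟨ω, hω, hωe⟩ := hinv _ (sup_le hP'T hR.1) θ hθ α hα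
  have key : ∀ (y : T) (hy : (y : Ω) ∈ P), (((α⁻¹ : MulAut T) y : T) : Ω) ∈ P' := fun y hy =>
    ⟨y, hy, rfl⟩
  have hle : P ⊔ imageBy T R α ≤ imageBy T (P' ⊔ R) α := by
    refine sup_le (fun z hz => ?_) (Subgroup.map_mono fun y hy => ?_)
    · refine ⟨(α⁻¹ : MulAut T) ⟨z, hPT hz⟩, Subgroup.mem_sup_left (key ⟨z, hPT hz⟩ hz), ?_⟩
      simp
    · exact Subgroup.mem_sup_right (show (y : Ω) ∈ R from hy)
  refine ⟨_, restrict_mem E hω hle, fun x => ?_, ?_⟩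
  · set x' : T := (α⁻¹ : MulAut T) ⟨x, hPT x.2⟩ with hx'
    have hx'P : (x' : Ω) ∈ P' := key ⟨x, hPT x.2⟩ x.2
    have hαx' : α x' = ⟨x, hPT x.2⟩ := by simp [hx']
    have hθx : θ ⟨x', Subgroup.mem_sup_left hx'P⟩ =
        (((α⁻¹ : MulAut T) ⟨ψ x, hom_mem E hψ x⟩ : T) : Ω) := by
      rw [← hχe x (hom_mem E hψ x) hx'P]
      exact hθe ⟨x', hx'P⟩
    have hmem : ((α x' : T) : Ω) ∈ ((P' ⊔ R).subgroupOf T).map (T.subtype.comp α.toMonoidHom) :=
      ⟨x', Subgroup.mem_sup_left hx'P, rfl⟩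
    have h2 := hωe ⟨x', Subgroup.mem_sup_left hx'P⟩ (hom_mem E hθ _) hmem
    have hz : ((α x' : T) : Ω) = (x : Ω) := congrArg Subtype.val hαx'
    refine Eq.trans (congrArg ω (?_ : _ = (⟨((α x' : T) : Ω), hmem⟩ :
      ↥(((P' ⊔ R).subgroupOf T).map (T.subtype.comp α.toMonoidHom))))) (h2.trans ?_)
    · exact Subtype.ext hz.symm
    · have e : (⟨θ ⟨x', Subgroup.mem_sup_left hx'P⟩, hom_mem E hθ _⟩ : T) =
          (α⁻¹ : MulAut T) ⟨ψ x, hom_mem E hψ x⟩ := Subtype.ext hθx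
      rw [e, MulAut.inv_apply, MulEquiv.apply_symm_apply]
  · rintro ⟨z, hz⟩ ⟨r, hr, rfl⟩
    have hr' : (r : Ω) ∈ R := hr
    have hmem : ((α r : T) : Ω) ∈ ((P' ⊔ R).subgroupOf T).map (T.subtype.comp α.toMonoidHom) :=
      ⟨r, Subgroup.mem_sup_right hr', rfl⟩
    have h2 := hωe ⟨r, Subgroup.mem_sup_right hr'⟩ (hom_mem E hθ _) hmem
    show ω ⟨((α r : T) : Ω), _⟩ ∈ imageBy T R α
    rw [h2]
    exact ⟨_, hθR.le ⟨⟨r, Subgroup.mem_sup_right hr'⟩, hr', rfl⟩, rfl⟩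

/-- Let F be a saturated fusion system over a finite p-group S and E a weakly normal subsystem of F over a subgroup T. Suppose a subgroup R of T is normal in E (E = N_E(R)), and let R* be the subgroup of T generated by the images of R under all maps of F with source R. Then R* is normal in F (F = N_F(R*)). -/
theorem result {Ω : Type*} [Group Ω] {S : Subgroup Ω} [Finite S] (p : ℕ) [Fact p.Prime] (hS : IsPGroup p S)
    (F : Cfsg.FusionSystem S) (hF : F.IsSaturated p)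
    {T : Subgroup Ω} (E : Cfsg.FusionSystem T) (hE : E.IsWeaklyNormalIn F p)
    (R : Subgroup Ω) (hR : E.IsNormal R) :
    F.IsNormal (Subgroup.closure {x : Ω | ∃ φ ∈ F.Hom R, ∃ r : R, x = φ r}) := by
  obtain ⟨-, -, hsub, hT, hinv, hfr⟩ := hE
  have := finite_of_le hT.1
  have := finite_of_le hR.1
  set U := Subgroup.closure {x : Ω | ∃ φ ∈ F.Hom R, ∃ r : R, x = φ r}
  have himg : ∀ φ ∈ F.Hom R, ∀ r : R, φ r ∈ E.core := by
    intro φ hφ r
    obtain ⟨α, hα, φ₀, hφ₀, he⟩ := hfr R hR.1 φ hφ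
    have h0 : φ₀ r ∈ R := map_mem_of_isNormal hR hφ₀ r.2
    rw [he r (hR.1 h0)]
    exact le_core (isNormal_image hinv hR hα) ⟨⟨φ₀ r, hR.1 h0⟩, h0, rfl⟩
  have hUT : U ≤ T := by
    refine (Subgroup.closure_le _).2 ?_
    rintro _ ⟨φ, hφ, r, rfl⟩
    exact hT.2 R hR.1 φ hφ r
  -- `U` is normal in `E`
  have hUE : ∀ {P : Subgroup Ω} (φ₀ : P →* Ω), φ₀ ∈ E.Hom P → ∀ x : P, (x : Ω) ∈ U → φ₀ x ∈ U := by
    intro P φ₀ hφ₀ x hx
    obtain ⟨ψ, hψ, hψe, -⟩ := (isNormal_core E).2 P φ₀ hφ₀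
    rw [← hψe]
    have hle : U ≤ ((U.comap ψ).map (P ⊔ E.core).subtype) := by
      refine (Subgroup.closure_le _).2 ?_
      rintro _ ⟨φ, hφ, r, rfl⟩
      refine ⟨⟨φ r, Subgroup.mem_sup_right (himg φ hφ r)⟩, Subgroup.subset_closure ?_, rfl⟩
      have hrange : φ.range ≤ P ⊔ E.core := by
        rintro _ ⟨s, rfl⟩
        exact Subgroup.mem_sup_right (himg φ hφ s)
      exact ⟨_, F.comp_mem hφ (hsub _ hψ) (fun s => hrange ⟨s, rfl⟩), r, rfl⟩
    obtain ⟨y, hy, hyx⟩ := hle hx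
    have e : y = Subgroup.inclusion le_sup_left x := Subtype.ext hyx
    exact e ▸ hy
  have hUα : ∀ α ∈ F.autGroup T, ∀ x : T, (x : Ω) ∈ U → ((α x : T) : Ω) ∈ U := by
    intro α hα x hx
    have hle : U ≤ ((U.comap (T.subtype.comp α.toMonoidHom)).map T.subtype) := by
      refine (Subgroup.closure_le _).2 ?_
      rintro _ ⟨φ, hφ, r, rfl⟩
      have hT' : ∀ s : R, φ s ∈ T := fun s => hT.2 R hR.1 φ hφ s
      refine ⟨⟨φ r, hT' r⟩, Subgroup.subset_closure ?_, rfl⟩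
      exact ⟨_, F.comp_mem hφ ((mem_autGroup_iff F hT.1).1 hα) hT', r, rfl⟩
    obtain ⟨y, hy, hyx⟩ := hle hx
    have e : y = x := Subtype.ext hyx
    exact e ▸ hy
  have hsc : F.StronglyClosed U := by
    refine ⟨hUT.trans hT.1, fun P hP φ hφ x => ?_⟩
    obtain ⟨α, hα, φ₀, hφ₀, he⟩ := hfr P (hP.trans hUT) φ hφ
    rw [he x (hom_mem E hφ₀ x)]
    exact hUα α hα _ (hUE φ₀ hφ₀ x (hP x.2))
  refine isNormal_of_extend_aut hS hF hsc fun P hPU φ hφ => ?_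
  obtain ⟨α, hα, φ₀, hφ₀, he⟩ := hfr P (hPU.trans hUT) φ hφ
  obtain ⟨ψ, hψ, hψe, -⟩ := (isNormal_core E).2 P φ₀ hφ₀
  have hUc : U ≤ P ⊔ E.core := by
    refine le_sup_of_le_right ((Subgroup.closure_le _).2 ?_)
    rintro _ ⟨ζ, hζ, r, rfl⟩
    exact himg ζ hζ r
  set χ : U →* Ω := (T.subtype.comp α.toMonoidHom).comp
    ((ψ.comp (Subgroup.inclusion hUc)).codRestrict T fun x => hom_mem E hψ _) with hχdef
  have hχU : ∀ x : U, χ x ∈ U := fun x =>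
    hUα α hα _ (hUE ψ hψ (Subgroup.inclusion hUc x) x.2)
  have hinj : Function.Injective χ := fun a b hab => by
    have h1 := α.injective (Subtype.val_injective hab)
    exact Subgroup.inclusion_injective hUc (E.injective_of_mem hψ (congrArg Subtype.val h1))
  have : Finite U := finite_of_le (hUT.trans hT.1)
  refine ⟨MulEquiv.ofBijective (χ.codRestrict U hχU) (Finite.injective_iff_bijective.1
    ((MonoidHom.injective_codRestrict χ U hχU).2 hinj)), fun x => ?_⟩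
  rw [he x (hom_mem E hφ₀ x)]
  exact congrArg (fun y : T => ((α y : T) : Ω)) (Subtype.ext (hψe x).symm)

end Cfsg.Agent.S5291
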