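import Cfsg.Statements.S5294
import Cfsg.Agent.Eq.Def_FusionSystem

set_option autoImplicit false
universe u
open Cfsg

namespace Cfsg.Agent.S5294

variable {Ω : Type u} [Group Ω] {S : Subgroup Ω}

theorem hom_restrict (F : FusionSystem S) {P R : Subgroup Ω} {φ : P →* Ω} (hφ : φ ∈ F.Hom P)
    (hR : R ≤ P) : ∃ φ' ∈ F.Hom R, ∀ x : R, φ' x = φ (Subgroup.inclusion hR x) := by
  have h1 : ∀ x : R, conjHom R (1 : Ω) x ∈ P := fun x => by
    simpa [conjHom] using hR x.2
  refine ⟨_, F.comp_mem (F.conj_mem (hR.trans (F.le_of_mem hφ).1) S.one_mem) hφ h1, fun x => ?_⟩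
  exact congrArg φ (Subtype.ext (by simp [conjHom]))

theorem autGroup_mem (F : FusionSystem S) {P : Subgroup Ω} (hP : P ≤ S) {α : MulAut P}
    (hα : α ∈ F.autGroup P) : P.subtype.comp α.toMonoidHom ∈ F.Hom P := by
  induction hα using Subgroup.closure_induction with
  | mem x hx => exact hx
  | one =>
    have : conjHom P (1 : Ω) = P.subtype.comp (1 : MulAut P).toMonoidHom := by
      ext x; simp [conjHom]
    exact this ▸ F.conj_mem hP S.one_mem
  | mul a b _ _ ha hb =>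
    have h : ∀ x : P, (P.subtype.comp b.toMonoidHom) x ∈ P := fun x => (b x).2
    have := F.comp_mem hb ha h
    have e : (P.subtype.comp a.toMonoidHom).comp ((P.subtype.comp b.toMonoidHom).codRestrict P h) =
        P.subtype.comp (a * b).toMonoidHom := by
      ext x; rfl
    exact e ▸ this
  | inv a _ ha =>
    obtain ⟨ψ, hψ, hψe⟩ := F.inv_mem ha
    have h : ∀ x : P, conjHom P (1 : Ω) x ∈ (P.subtype.comp a.toMonoidHom).range := fun x =>
      ⟨a⁻¹ x, by simp [conjHom, MulAut.inv_apply]⟩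
    have := F.comp_mem (F.conj_mem hP S.one_mem) hψ h
    have e : ψ.comp ((conjHom P (1 : Ω)).codRestrict _ h) = P.subtype.comp a⁻¹.toMonoidHom := by
      ext x
      refine Eq.trans (congrArg ψ (Subtype.ext ?_)) (hψe (a⁻¹ x))
      show (1 : Ω) * x * (1 : Ω)⁻¹ = ((a (a⁻¹ x) : P) : Ω)
      simp [MulAut.inv_apply]
    exact e ▸ this

theorem isNormal_bot (F : FusionSystem S) : F.IsNormal ⊥ := by
  refine ⟨bot_le, fun P φ hφ => ?_⟩
  obtain ⟨ψ, hψ, hψe⟩ := hom_restrict F hφ (le_of_eq (sup_bot_eq P))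
  refine ⟨ψ, hψ, fun x => (hψe _).trans rfl, ?_⟩
  rw [Subgroup.bot_subgroupOf, Subgroup.map_bot]

theorem isNormal_sup (F : FusionSystem S) {Q R : Subgroup Ω} (hQ : F.IsNormal Q) (hR : F.IsNormal R) :
    F.IsNormal (Q ⊔ R) := by
  refine ⟨sup_le hQ.1 hR.1, fun P φ hφ => ?_⟩
  obtain ⟨ψ, hψ, hψe, hψQ⟩ := hQ.2 P φ hφ
  obtain ⟨χ, hχ, hχe, hχR⟩ := hR.2 _ ψ hψ
  obtain ⟨χ', hχ', hχ'e⟩ := hom_restrict F hχ (le_of_eq (sup_assoc P Q R).symm)
  refine ⟨χ', hχ', fun x => ?_, ?_⟩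
  · rw [hχ'e, ← hψe, ← hχe]; rfl
  · have h1 : (Q.subgroupOf (P ⊔ (Q ⊔ R))).map χ' = Q := by
      conv_rhs => rw [← hψQ]
      ext y
      constructor
      · rintro ⟨⟨x, hx⟩, hxQ, rfl⟩
        refine ⟨⟨x, (le_sup_right : Q ≤ P ⊔ Q) hxQ⟩, hxQ, ?_⟩
        rw [hχ'e, ← hχe]; rfl
      · rintro ⟨⟨x, hx⟩, hxQ, rfl⟩
        refine ⟨⟨x, (le_sup_left.trans le_sup_right : Q ≤ P ⊔ (Q ⊔ R)) hxQ⟩, hxQ, ?_⟩
        rw [hχ'e, ← hχe]; rfl
    have h2 : (R.subgroupOf (P ⊔ (Q ⊔ R))).map χ' = R := by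
      conv_rhs => rw [← hχR]
      ext y
      constructor
      · rintro ⟨⟨x, hx⟩, hxR, rfl⟩
        exact ⟨⟨x, (le_sup_right : R ≤ P ⊔ Q ⊔ R) hxR⟩, hxR, by rw [hχ'e]; rfl⟩
      · rintro ⟨⟨x, hx⟩, hxR, rfl⟩
        exact ⟨⟨x, (le_sup_right.trans le_sup_right : R ≤ P ⊔ (Q ⊔ R)) hxR⟩, hxR, by rw [hχ'e]; rfl⟩
    rw [Subgroup.subgroupOf_sup (le_sup_left.trans le_sup_right : Q ≤ P ⊔ (Q ⊔ R))
      (le_sup_right.trans le_sup_right : R ≤ P ⊔ (Q ⊔ R))]
    rw [Subgroup.map_sup, h1, h2]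

theorem isNormal_core [Finite S] (F : FusionSystem S) : F.IsNormal F.core := by
  have hfin : {Q : Subgroup Ω | F.IsNormal Q}.Finite := by
    refine Set.Finite.subset ((Set.finite_range (fun K : Subgroup S => K.map S.subtype))) ?_
    exact fun Q hQ => ⟨Q.subgroupOf S, Subgroup.map_subgroupOf_eq_of_le hQ.1⟩
  have key : ∀ s : Set (Subgroup Ω), s.Finite → (∀ Q ∈ s, F.IsNormal Q) → F.IsNormal (sSup s) := by
    intro s hs
    induction s, hs using Set.Finite.induction_on with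
    | empty => exact fun _ => by rw [sSup_empty]; exact isNormal_bot F
    | insert _ _ ih =>
      intro h
      rw [sSup_insert]
      exact isNormal_sup F (h _ (Set.mem_insert _ _)) (ih fun Q hQ => h Q (Set.mem_insert_of_mem _ hQ))
  exact key _ hfin fun Q hQ => hQ

/-- A normal subgroup is fully automized. -/
theorem fullyAutomized_of_normal {p : ℕ} (F : FusionSystem S) (hF : F.IsSaturated p) {Q : Subgroup Ω}
    (hQ : F.IsNormal Q) : F.IsFullyAutomized p Q := by
  obtain ⟨Q', ⟨φ, hφ, hφr⟩, hfa, -⟩ := hF Q hQ.1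
  obtain ⟨ψ, -, hψe, hψQ⟩ := hQ.2 Q φ hφ
  suffices Q' = Q from this ▸ hfa
  rw [← hφr]
  conv_rhs => rw [← hψQ]
  ext y
  constructor
  · rintro ⟨x, rfl⟩
    exact ⟨_, x.2, hψe x⟩
  · rintro ⟨⟨x, hx⟩, hxQ, rfl⟩
    exact ⟨⟨x, hxQ⟩, (hψe ⟨x, hxQ⟩).symm⟩

/-- Splitting off the fixed points of a group from the fixed points of a subgroup of index prime
to the order. -/
theorem fixed_split {G V : Type u} [Group G] [Finite G] [CommGroup V] [Finite V] (f : G →* MulAut V)
    (T : Subgroup G) (W Y : Subgroup V) (hW : ∀ v, v ∈ W ↔ ∀ t ∈ T, f t v = v)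
    (hY : ∀ v, v ∈ Y ↔ ∀ g, f g v = v) (hn : (Nat.card V).Coprime T.index) :
    ∃ K : Subgroup V, Y ⊓ K = ⊥ ∧ Y ⊔ K = W := by
  classical
  have : Fintype (G ⧸ T) := Fintype.ofFinite _
  let tr : V →* V :=
    { toFun := fun v => ∏ q : G ⧸ T, f q.out v
      map_one' := by simp
      map_mul' := fun a b => by simp [Finset.prod_mul_distrib] }
  have hYW : Y ≤ W := fun v hv => (hW v).mpr fun t _ => (hY v).mp hv t
  have htr : ∀ v ∈ W, tr v ∈ Y := by
    intro v hv
    refine (hY _).mpr fun g => ?_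
    show f g (∏ q : G ⧸ T, f q.out v) = ∏ q : G ⧸ T, f q.out v
    rw [map_prod]
    refine Fintype.prod_equiv (MulAction.toPerm g) _ _ fun q => ?_
    have hmem : ((g • q).out)⁻¹ * (g * q.out) ∈ T := by
      rw [← QuotientGroup.eq, QuotientGroup.out_eq']
      conv_lhs => rw [← QuotientGroup.out_eq' q]
      rfl
    have h1 := (hW v).mp hv _ hmem
    calc f g (f q.out v) = f (g • q).out (f (((g • q).out)⁻¹ * (g * q.out)) v) := by
          rw [← MulAut.mul_apply, ← map_mul, ← MulAut.mul_apply, ← map_mul, mul_inv_cancel_left]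
      _ = f (MulAction.toPerm g q).out v := by rw [h1]; rfl
  have htrY : ∀ v ∈ Y, tr v = v ^ T.index := by
    intro v hv
    show ∏ q : G ⧸ T, f q.out v = _
    rw [Finset.prod_congr rfl (fun q _ => (hY v).mp hv q.out), Finset.prod_const, Finset.card_univ,
      Subgroup.index, Nat.card_eq_fintype_card]
  refine ⟨tr.ker ⊓ W, ?_, ?_⟩
  · rw [eq_bot_iff]
    rintro v ⟨hvY, hvk, -⟩
    have h : v ^ T.index = 1 := by
      rw [← htrY v hvY]; exact hvk
    exact (powCoprime hn).injective (by simp [h])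
  · refine le_antisymm (sup_le hYW inf_le_right) fun v hv => ?_
    have hn' : (Nat.card Y).Coprime T.index :=
      Nat.Coprime.coprime_dvd_left (Subgroup.card_subgroup_dvd_card Y) hn
    obtain ⟨u, hu⟩ := (powCoprime hn').surjective ⟨tr v, htr v hv⟩
    have hu' : (u : V) ^ T.index = tr v := congrArg Subtype.val hu
    have : v = (u : V) * ((u : V)⁻¹ * v) := by rw [mul_inv_cancel_left]
    rw [this]
    refine Subgroup.mul_mem_sup u.2 ⟨?_, W.mul_mem (W.inv_mem (hYW u.2)) hv⟩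
    show tr ((u : V)⁻¹ * v) = 1
    rw [map_mul, map_inv, htrY _ u.2, hu', inv_mul_cancel]

theorem split_center [Finite S] (p : ℕ) [Fact p.Prime] (hS : IsPGroup p S) (F : FusionSystem S)
    (hF : F.IsSaturated p) (Q : Subgroup Ω) (hQ : F.IsNormal Q)
    (hZ : (S ⊓ Subgroup.centralizer (S : Set Ω)) ≤ Q) :
    ∃ K : Subgroup Ω, K ≤ (S ⊓ Subgroup.centralizer (S : Set Ω)) ∧ F.center ⊓ K = ⊥ ∧
      F.center ⊔ K = (S ⊓ Subgroup.centralizer (S : Set Ω)) := by
  classical
  have hQS : Q ≤ S := hQ.1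
  have : Finite Q := Finite.of_injective _ (Subgroup.inclusion_injective hQS)
  let V := Subgroup.center Q
  let res : F.autGroup Q →* MulAut V :=
    { toFun := fun α => (α : MulAut Q).subgroupMap V |>.trans
        (MulEquiv.subgroupCongr (Subgroup.characteristic_iff_map_eq.mp inferInstance (α : MulAut Q)))
      map_one' := by ext x; rfl
      map_mul' := fun a b => by ext x; rfl }
  have res_val : ∀ (α : F.autGroup Q) (v : V), ((res α v : V) : Q) = (α : MulAut Q) (v : Q) :=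
    fun _ _ => rfl
  obtain ⟨-, R, hR⟩ := fullyAutomized_of_normal F hF hQ
  let W : Subgroup V :=
    { carrier := {v | ∀ t ∈ (R : Subgroup (F.autGroup Q)), res t v = v}
      one_mem' := fun t _ => map_one _
      mul_mem' := fun ha hb t ht => by rw [map_mul, ha t ht, hb t ht]
      inv_mem' := fun ha t ht => by rw [map_inv, ha t ht] }
  let Y : Subgroup V :=
    { carrier := {v | ∀ t, res t v = v}
      one_mem' := fun t => map_one _
      mul_mem' := fun ha hb t => by rw [map_mul, ha t, hb t]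
      inv_mem' := fun ha t => by rw [map_inv, ha t] }
  have hn : (Nat.card V).Coprime (R : Subgroup (F.autGroup Q)).index := by
    obtain ⟨k, hk⟩ := IsPGroup.iff_card.mp ((hS.to_le hQS).to_subgroup V)
    rw [hk]
    exact Nat.Coprime.pow_left k
      ((Nat.Prime.coprime_iff_not_dvd (Fact.out : p.Prime)).mpr R.not_dvd_index)
  let : CommGroup V :=
    { (inferInstance : Group V) with
      mul_comm := (Subgroup.center.isMulCommutative (G := Q)).is_comm.comm }
  obtain ⟨K, hK1, hK2⟩ := fixed_split res (R : Subgroup (F.autGroup Q)) W Y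
    (fun _ => Iff.rfl) (fun _ => Iff.rfl) hn
  let j : V →* Ω := Q.subtype.comp V.subtype
  have hj : Function.Injective j := Subtype.val_injective.comp Subtype.val_injective
  have hWmap : W.map j = S ⊓ Subgroup.centralizer (S : Set Ω) := by
    refine le_antisymm ?_ ?_
    · rintro _ ⟨v, hv, rfl⟩
      refine ⟨hQS (v : Q).2, fun s hs => ?_⟩
      obtain ⟨ψ, -, hψe, hψQ⟩ := hQ.2 S (conjHom S s) (F.conj_mem le_rfl hs)
      have hmem : ∀ x : Q, s * (x : Ω) * s⁻¹ ∈ Q := by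
        intro x
        refine (le_of_eq hψQ : Subgroup.map ψ _ ≤ Q) ?_
        refine ⟨⟨x, (le_sup_right : Q ≤ S ⊔ Q) x.2⟩, x.2, ?_⟩
        exact hψe ⟨x, hQS x.2⟩
      let c : Q →* Q := (conjHom Q s).codRestrict Q hmem
      have hc : Function.Bijective c := by
        refine Finite.injective_iff_bijective.mp ?_
        exact fun a b hab => F.injective_of_mem (F.conj_mem hQS hs) (congrArg Subtype.val hab)
      let α : MulAut Q := MulEquiv.ofBijective c hc
      have hα : α ∈ F.autGroup Q := by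
        refine Subgroup.subset_closure ?_
        show Q.subtype.comp α.toMonoidHom ∈ F.Hom Q
        have : Q.subtype.comp α.toMonoidHom = conjHom Q s := by ext; rfl
        exact this ▸ F.conj_mem hQS hs
      have hαR : (⟨α, hα⟩ : F.autGroup Q) ∈ (R : Subgroup (F.autGroup Q)) := by
        rw [hR]
        exact Subgroup.subset_closure ⟨s, hs, fun x => rfl⟩
      have h1 := congrArg j (hv _ hαR)
      have h2 : s * j v * s⁻¹ = j v := h1
      rwa [mul_inv_eq_iff_eq_mul] at h2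
    · rintro z ⟨hzS, hzC⟩
      have hzQ : z ∈ Q := hZ ⟨hzS, hzC⟩
      have hzV : (⟨z, hzQ⟩ : Q) ∈ V :=
        Subgroup.mem_center_iff.mpr fun q => Subtype.ext (hzC q (hQS q.2))
      refine ⟨⟨⟨z, hzQ⟩, hzV⟩, fun t ht => ?_, rfl⟩
      rw [hR] at ht
      refine hj ?_
      show ((((t : F.autGroup Q) : MulAut Q) ⟨z, hzQ⟩ : Q) : Ω) = z
      change (t : MulAut Q) ∈ autInducedBy S Q at ht
      generalize (t : MulAut Q) = β at ht ⊢
      induction ht using Subgroup.closure_induction with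
      | mem x hx =>
        obtain ⟨s, hs, hse⟩ := hx
        rw [hse]
        show s * z * s⁻¹ = z
        rw [hzC s hs, mul_inv_cancel_right]
      | one => rfl
      | mul a b _ _ ha hb =>
        have : b ⟨z, hzQ⟩ = ⟨z, hzQ⟩ := Subtype.ext hb
        rw [MulAut.mul_apply, this]; exact ha
      | inv a _ ha =>
        have : a ⟨z, hzQ⟩ = ⟨z, hzQ⟩ := Subtype.ext ha
        conv_lhs => rw [← this, MulAut.inv_apply, MulEquiv.symm_apply_apply]
  have hYmap : Y.map j = F.center := by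
    refine le_antisymm (le_sSup ⟨?_, ?_⟩) (sSup_le fun X hX => ?_)
    · rintro _ ⟨v, -, rfl⟩; exact hQS (v : Q).2
    · intro P φ hφ
      obtain ⟨ψ, hψ, hψe, hψQ⟩ := hQ.2 P φ hφ
      have hle : P ⊔ Y.map j ≤ P ⊔ Q := sup_le_sup_left (by rintro _ ⟨v, -, rfl⟩; exact (v : Q).2) P
      obtain ⟨ψ', hψ', hψ'e⟩ := hom_restrict F hψ hle
      refine ⟨ψ', hψ', fun x => by rw [hψ'e, ← hψe]; rfl, ?_⟩
      rintro ⟨_, v, hv, rfl⟩
      obtain ⟨φ1, hφ1, hφ1e⟩ := hom_restrict F hψ (le_sup_right : Q ≤ P ⊔ Q)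
      have hmem : ∀ x : Q, φ1 x ∈ Q := fun x => by
        rw [hφ1e]
        exact (le_of_eq hψQ : Subgroup.map ψ _ ≤ Q) ⟨_, x.2, rfl⟩
      have hb : Function.Bijective (φ1.codRestrict Q hmem) :=
        Finite.injective_iff_bijective.mp fun a b hab =>
          F.injective_of_mem hφ1 (congrArg Subtype.val hab)
      let α : MulAut Q := MulEquiv.ofBijective (φ1.codRestrict Q hmem) hb
      have hα : α ∈ F.autGroup Q := by
        refine Subgroup.subset_closure ?_
        show Q.subtype.comp α.toMonoidHom ∈ F.Hom Q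
        have : Q.subtype.comp α.toMonoidHom = φ1 := by ext; rfl
        exact this ▸ hφ1
      have h1 : φ1 (v : Q) = j v := congrArg j (hv ⟨α, hα⟩)
      rw [hψ'e]
      rw [hφ1e] at h1
      exact h1
    · intro x hx
      have hxS : x ∈ S := hX.1 hx
      have hxC : x ∈ Subgroup.centralizer (S : Set Ω) := by
        intro s hs
        obtain ⟨ψ, -, hψe, hψX⟩ := hX.2 S (conjHom S s) (F.conj_mem le_rfl hs)
        have h1 : s * x * s⁻¹ = x := (hψe ⟨x, hxS⟩).symm.trans (hψX ⟨x, hx⟩)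
        rwa [mul_inv_eq_iff_eq_mul] at h1
      have hxQ : x ∈ Q := hZ ⟨hxS, hxC⟩
      have hxV : (⟨x, hxQ⟩ : Q) ∈ V :=
        Subgroup.mem_center_iff.mpr fun q => Subtype.ext (hxC q (hQS q.2))
      refine ⟨⟨⟨x, hxQ⟩, hxV⟩, fun t => hj ?_, rfl⟩
      obtain ⟨ψ, -, hψe, hψX⟩ := hX.2 Q _ (autGroup_mem F hQS t.2)
      show ((((t : F.autGroup Q) : MulAut Q) ⟨x, hxQ⟩ : Q) : Ω) = x
      refine (hψe ⟨x, hxQ⟩).symm.trans ?_
      exact hψX ⟨x, hx⟩
  refine ⟨K.map j, ?_, ?_, ?_⟩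
  · rw [← hWmap]; exact Subgroup.map_mono (hK2 ▸ le_sup_right)
  · rw [← hYmap, ← Subgroup.map_inf _ _ _ hj, hK1, Subgroup.map_bot]
  · rw [← hYmap, ← Subgroup.map_sup, hK2, hWmap]

/-- Let F be a saturated fusion system over a finite p-group S whose centre Z(S) lies in the largest subgroup O_p(F) normal in F. Then the centre Z(F) of F is a direct factor of Z(S): there is a subgroup K of Z(S) with Z(F) ∩ K = 1 and Z(F)K = Z(S). -/
theorem result {Ω : Type u} [Group Ω] {S : Subgroup Ω} [Finite S] (p : ℕ) [Fact p.Prime] (hS : IsPGroup p S)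
    (F : Cfsg.FusionSystem S) (hF : F.IsSaturated p) (hZ : (S ⊓ Subgroup.centralizer (S : Set Ω)) ≤ F.core) :
    ∃ K : Subgroup Ω, K ≤ (S ⊓ Subgroup.centralizer (S : Set Ω)) ∧ F.center ⊓ K = ⊥ ∧ F.center ⊔ K = (S ⊓ Subgroup.centralizer (S : Set Ω)) :=
  split_center p hS F hF F.core (isNormal_core F) hZ

end Cfsg.Agent.S5294
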