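import Cfsg.Statements.S5300
import Cfsg.Agent.Fusion.Alperin.SmallTop

set_option autoImplicit false
universe u
open Cfsg

namespace Cfsg.Agent.S5300

open CfsgLib CfsgLib.Fus CfsgLib.Fusion.Alperin Cfsg.FusionSystem

theorem conj_fix {Ω : Type*} [Group Ω] {p : ℕ} [Fact p.Prime] {s x : Ω} {e : ℕ}
    (hs : s ^ p ^ e = 1) (hx : x ^ p = 1) (h : s * x * s⁻¹ ∈ Subgroup.zpowers x) :
    s * x * s⁻¹ = x := by
  by_cases hx1 : x = 1
  · simp [hx1]
  obtain ⟨k, hk⟩ := h
  have hk' : s * x * s⁻¹ = x ^ k := hk.symm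
  have hiter : ∀ m : ℕ, s ^ m * x * (s ^ m)⁻¹ = x ^ (k ^ m) := by
    intro m
    induction m with
    | zero => simp
    | succ m ih =>
      calc s ^ (m + 1) * x * (s ^ (m + 1))⁻¹ = s * (s ^ m * x * (s ^ m)⁻¹) * s⁻¹ := by
            rw [pow_succ']; group
        _ = (s * x * s⁻¹) ^ (k ^ m) := by rw [ih, conj_zpow]
        _ = x ^ (k ^ (m + 1)) := by rw [hk', ← zpow_mul, ← pow_succ']
  have h1 := hiter (p ^ e)
  rw [hs, one_mul, inv_one, mul_one] at h1
  have hord : orderOf x = p := orderOf_eq_prime hx hx1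
  have h2 : x ^ (k ^ (p ^ e) - 1) = 1 := by
    rw [zpow_sub, zpow_one, ← h1, mul_inv_cancel]
  rw [← orderOf_dvd_iff_zpow_eq_one, hord, ← ZMod.intCast_zmod_eq_zero_iff_dvd,
    Int.cast_sub, Int.cast_pow, Int.cast_one, ZMod.pow_card_pow, sub_eq_zero] at h2
  rw [hk', ← mul_inv_eq_one]
  rw [show x ^ k * x⁻¹ = x ^ (k - 1) by rw [zpow_sub, zpow_one],
    ← orderOf_dvd_iff_zpow_eq_one, hord, ← ZMod.intCast_zmod_eq_zero_iff_dvd,
    Int.cast_sub, Int.cast_one, h2, sub_self]

/-- Let F be a saturated fusion system over a finite p-group S. If every cyclic subgroup of the focal subgroup of F of order p (of order 2 or 4 when p = 2) is normal in S, then S is normal in F. -/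
theorem result {Ω : Type u} [Group Ω] {S : Subgroup Ω} [Finite S] (p : ℕ) [Fact p.Prime] (hS : IsPGroup p S)
    (F : Cfsg.FusionSystem S) (hF : F.IsSaturated p)
    (hnorm : ∀ x ∈ F.focalSubgroup, (x ^ p = 1 ∨ (p = 2 ∧ x ^ 4 = 1)) → ∀ s ∈ S, s * x * s⁻¹ ∈ Subgroup.zpowers x) :
    F.IsNormal S := by
  set H := F.focalSubgroup with hHdef
  have hH : F.StronglyClosed H := stronglyClosed_focal F
  obtain ⟨q, hq⟩ := exists_small_exponent (p := p)
  have hfix : ∀ x ∈ H, x ^ p = 1 → ∀ s ∈ S, s * x * s⁻¹ = x := by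
    intro x hx hxp s hs
    obtain ⟨e, he⟩ := hS ⟨s, hs⟩
    exact conj_fix (congrArg Subtype.val he) hxp (hnorm x hx (Or.inl hxp) s hs)
  let L1 : Subgroup Ω :=
    { carrier := {x | x ∈ H ∧ x ^ p = 1}
      one_mem' := ⟨H.one_mem, one_pow p⟩
      mul_mem' := fun {a b} ha hb => ⟨H.mul_mem ha.1 hb.1, by
        have hc : Commute a b :=
          mul_inv_eq_iff_eq_mul.1 (hfix b hb.1 hb.2 a (hH.1 ha.1))
        rw [hc.mul_pow, ha.2, hb.2, one_mul]⟩
      inv_mem' := fun {a} ha => ⟨H.inv_mem ha.1, by rw [inv_pow, ha.2, inv_one]⟩ }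
  let L : ℕ → Subgroup Ω := fun i => if i = 0 then ⊥ else if i = 1 then L1 else S
  refine isNormal_top_of_small hS hF hH
    (fun R hR a ha _ x => mem_focalSubgroup F ((mem_autGroup_iff F hR).1 ha) x)
    hq 2 L (by simp [L]) (by simpa [L] using hH.1) ?_ ?_
  · intro R hR i a ha x hxH hx hxL
    rcases i with _ | _ | i
    · simp only [L, if_true, Subgroup.mem_bot] at hxL ⊢
      have : x = 1 := Subtype.ext hxL
      simp [this]
    · simp only [L, Nat.one_ne_zero, if_false, if_true, zero_add] at hxL ⊢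
      refine ⟨map_mem_of_stronglyClosed hH ((mem_autGroup_iff F hR).1 ha) hxH, ?_⟩
      rw [← SubmonoidClass.coe_pow, ← map_pow, show x ^ p = 1 from Subtype.ext hxL.2, map_one]
      rfl
    · simp only [L, Nat.add_one_ne_zero, if_false] at hxL ⊢
      rw [if_neg (by omega)]
      exact hR (a x).2
  · intro i hi g hg x hxH hx hxL
    rcases i with _ | _ | i
    · simp only [L, zero_add, Nat.one_ne_zero, if_false, if_true] at hxL ⊢
      rw [hfix x hxH hxL.2 g hg, inv_mul_cancel]
      exact one_mem _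
    · simp only [L, Nat.one_ne_zero, if_false, if_true, zero_add]
      rcases hq with ⟨-, rfl⟩ | ⟨rfl, rfl⟩
      · rw [hfix x hxH hx g hg, inv_mul_cancel]
        exact one_mem _
      · obtain ⟨k, hk⟩ := hnorm x hxH (Or.inr ⟨rfl, hx⟩) g hg
        have hk' : g * x * g⁻¹ = x ^ k := hk.symm
        rcases Int.even_or_odd k with ⟨j, rfl⟩ | ⟨j, rfl⟩
        · -- a conjugate of order four is not a square
          have h1 : (g * x * g⁻¹) ^ 2 = 1 := by
            rw [hk', ← zpow_natCast, ← zpow_mul, show (j + j) * ((2 : ℕ) : ℤ) = (4 : ℕ) * j by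
              push_cast; ring, zpow_mul, zpow_natCast, hx, one_zpow]
          rw [conj_pow, mul_inv_eq_one] at h1
          have h2 : x ^ 2 = 1 := by simpa using h1
          rw [hfix x hxH h2 g hg, inv_mul_cancel]
          exact one_mem _
        · have e : x⁻¹ * (g * x * g⁻¹) = (x ^ 2) ^ j := by
            rw [hk', ← zpow_neg_one, ← zpow_add, ← zpow_natCast, ← zpow_mul]
            congr 1
            push_cast
            ring
          rw [e]
          have hm : x ^ 2 ∈ L1 := ⟨H.pow_mem hxH 2, by rw [← pow_mul]; exact hx⟩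
          exact L1.zpow_mem hm j
    · omega

end Cfsg.Agent.S5300
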