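import Cfsg.Statements.S5301
import Cfsg.Agent.Fusion.Alperin.Criteria

set_option autoImplicit false
universe u
open Cfsg

namespace Cfsg.Agent.S5301

open CfsgLib CfsgLib.Fus CfsgLib.Fusion.Alperin

/-- Let F be a saturated fusion system over a finite p-group S. If for every subgroup P of S that is fully normalized, centric and radical in F the automorphism group that F induces on P has a normal Sylow p-subgroup, then S is normal in F. -/
theorem result {Ω : Type u} [Group Ω] {S : Subgroup Ω} [Finite S] (p : ℕ) [Fact p.Prime] (hS : IsPGroup p S)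
    (F : Cfsg.FusionSystem S) (hF : F.IsSaturated p)
    (hcl : ∀ P : Subgroup Ω, F.IsFullyNormalized P → F.IsCentric P → F.IsRadical p P →
      ∃ R : Sylow p ↥(F.autGroup P), (R : Subgroup ↥(F.autGroup P)).Normal) :
    F.IsNormal S := by
  refine (isNormal_top_iff hS hF).2 fun R hR => ?_
  by_contra hne
  obtain ⟨T, hT⟩ := hcl R hR.fullyNormalized hR.centric hR.radical
  have : Finite R := finite_of_le hR.centric.1
  have : Finite (MulAut R) := finite_mulAut R
  obtain ⟨-, T₀, hT₀⟩ := (fullyNormalized_props hS hF hR.fullyNormalized).1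
  obtain ⟨g, hg, hgR⟩ := exists_normalizing_not_mem hS hR.centric.1 hne
  refine hgR (mem_of_mem_pCore_of_radical hR.centric hR.radical hg fun hm => ?_)
  obtain ⟨a, ha⟩ := MulAction.exists_smul_eq (F.autGroup R) T T₀
  have hTT : a • T = T := Sylow.smul_eq_iff_mem_normalizer.2 (Subgroup.normalizer_eq_top_iff.2 hT ▸ Subgroup.mem_top a)
  rw [hTT] at ha
  subst ha
  refine CharP.le_pCore hT T.isPGroup' ?_
  rw [hT₀]
  exact conjAut_mem_autInducedBy hg.2 hg.1

end Cfsg.Agent.S5301
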