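import Cfsg.Statements.S5315
import Cfsg.Agent.Fusion.Alperin.Criteria
import Cfsg.Agent.Eq.Def_FusionComponents

set_option autoImplicit false
open Cfsg

namespace Cfsg.Agent.S5315

open CfsgLib.Fus CfsgLib.Fusion.Alperin Cfsg.FusionSystem

variable {Ω : Type*} [Group Ω] {S : Subgroup Ω} {F : Cfsg.FusionSystem S}

theorem map_center_fixed (hc : F.IsCentral F.center) {P : Subgroup Ω} {φ : P →* Ω} (hφ : φ ∈ F.Hom P)
    {x : P} (hx : (x : Ω) ∈ F.center) : φ x = x := by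
  obtain ⟨ψ, -, h1, h2⟩ := hc.2 P φ hφ
  rw [← h1 x]
  exact (congrArg ψ (Subtype.ext rfl)).trans (h2 ⟨x, hx⟩)

theorem center_le_base' (F : Cfsg.FusionSystem S) : F.center ≤ S := sSup_le fun _ hX => hX.1

/-- A map fixing the centre induces a map of the factor system. -/
theorem exists_induced (hc : F.IsCentral F.center)
    {E : Cfsg.FusionSystem (⊤ : Subgroup (S ⧸ (F.center).subgroupOf S))}
    (hE : F.IsFactorSystem F.center (QuotientGroup.mk' ((F.center).subgroupOf S)) E)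
    {P : Subgroup Ω} {φ : P →* Ω} (hφ : φ ∈ F.Hom P) (hZP : F.center ≤ P) :
    ∃ φ' ∈ E.Hom (imageAlong (QuotientGroup.mk' ((F.center).subgroupOf S)) P),
      InducedAlong (QuotientGroup.mk' ((F.center).subgroupOf S)) φ φ' := by
  set π := QuotientGroup.mk' ((F.center).subgroupOf S)
  have hP := hom_le F hφ
  let f : (P.subgroupOf S) →* S ⧸ (F.center).subgroupOf S := π.comp (MonoidHom.mk'
    (fun u => (⟨φ ⟨((u : S) : Ω), u.2⟩, hom_mem F hφ _⟩ : S)) fun u v => Subtype.ext ((congrArg φ (Subtype.ext rfl)).trans (map_mul φ ⟨_, u.2⟩ ⟨_, v.2⟩)))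
  have hg : Function.Surjective (π.subgroupMap (P.subgroupOf S)) := π.subgroupMap_surjective _
  have hker : (π.subgroupMap (P.subgroupOf S)).ker ≤ f.ker := by
    intro u hu
    have hu' : ((u : S) : Ω) ∈ F.center := (QuotientGroup.eq_one_iff (N := (F.center).subgroupOf S) (u : S)).1 (congrArg Subtype.val hu)
    refine (QuotientGroup.eq_one_iff _).2 (show φ _ ∈ F.center from ?_)
    exact (map_center_fixed hc hφ (x := ⟨((u : S) : Ω), u.2⟩) hu').symm ▸ hu'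
  let φ' : imageAlong π P →* S ⧸ (F.center).subgroupOf S :=
    (π.subgroupMap (P.subgroupOf S)).liftOfSurjective hg ⟨f, hker⟩
  have hind : InducedAlong π φ φ' := by
    refine ⟨hP, hom_mem F hφ, fun x => ⟨⟨x, hP x.2⟩, x.2, rfl⟩, fun x => ?_⟩
    exact MonoidHom.liftOfRightInverse_comp_apply (π.subgroupMap (P.subgroupOf S)) _ _ _
      (⟨⟨x, hP x.2⟩, x.2⟩ : P.subgroupOf S)
  have hpre : preimageAlong π (imageAlong π P) = P := by
    ext x
    constructor
    · rintro ⟨s, ⟨u, hu, hus⟩, rfl⟩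
      have h1 : u⁻¹ * s ∈ (F.center).subgroupOf S := (QuotientGroup.eq).1 hus
      have h2 : ((u : Ω)⁻¹ * (s : Ω)) ∈ P := hZP h1
      simpa using P.mul_mem (show (u : Ω) ∈ P from hu) h2
    · intro hx
      exact ⟨⟨x, hP hx⟩, ⟨⟨x, hP hx⟩, hx, rfl⟩, rfl⟩
  refine ⟨φ', (hE.2.2.2 _ φ').2 ⟨le_top, φ.comp (Subgroup.inclusion hpre.le), restrict_mem F hφ hpre.le,
    hpre.le.trans hP, fun x => hom_mem F hφ _, fun x => hind.2.2.1 (Subgroup.inclusion hpre.le x),
    fun x => hind.2.2.2 (Subgroup.inclusion hpre.le x)⟩, hind⟩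


/-- An analogue of Grün's lemma for fusion systems. Let F be a saturated fusion system over a finite p-group S that is perfect in the sense that its hyperfocal subgroup is all of S (F coincides with its p-residual subsystem). Then the second centre of F equals its centre: every fusion system over S/(Z(F) ∩ S) that is the factor system of F modulo its centre Z(F), read through the quotient map, has trivial centre. -/
theorem result {Ω : Type*} [Group Ω] {S : Subgroup Ω} [Finite S] (p : ℕ) [Fact p.Prime] (hS : IsPGroup p S) (F : Cfsg.FusionSystem S) (hF : F.IsSaturated p)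
    (hperf : F.hyperfocalSubgroup p = S)
    (E : Cfsg.FusionSystem (⊤ : Subgroup (↥S ⧸ (F.center).subgroupOf S)))
    (hE : F.IsFactorSystem F.center (QuotientGroup.mk' ((F.center).subgroupOf S)) E) : E.center = ⊥ := by
  set π := QuotientGroup.mk' ((F.center).subgroupOf S) with hπ
  have hc := isCentral_center hS hF
  have hZS := center_le_base' F
  refine eq_bot_iff.2 (sSup_le fun Q' hQ' y hy => ?_)
  obtain ⟨x, rfl⟩ := QuotientGroup.mk'_surjective _ y
  -- extension of maps over the preimage of the central subgroup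
  have ext1 : ∀ (P : Subgroup Ω) (φ : P →* Ω), φ ∈ F.Hom P → F.center ≤ P →
      ∀ z : S, π z ∈ Q' → ∃ (R : Subgroup Ω) (ψ : R →* Ω) (hPR : P ≤ R) (hz : (z : Ω) ∈ R), ψ ∈ F.Hom R ∧
        (∀ u : P, (φ u)⁻¹ * ψ (Subgroup.inclusion hPR u) ∈ F.center) ∧ (z : Ω)⁻¹ * ψ ⟨z, hz⟩ ∈ F.center := by
    intro P φ hφ hZP z hz
    obtain ⟨φ', hφ', hi, hi2, hi3, hind⟩ := exists_induced hc hE hφ hZP
    obtain ⟨ψ', hψ', hψe, hψQ⟩ := hQ'.2 _ φ' hφ'
    obtain ⟨-, ψ, hψ, hj, hj2, hj3, hjnd⟩ := (hE.2.2.2 _ ψ').1 hψ'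
    have hPR : P ≤ preimageAlong π (imageAlong π P ⊔ Q') := fun u hu =>
      ⟨⟨u, hi hu⟩, Subgroup.mem_sup_left (hi3 ⟨u, hu⟩), rfl⟩
    have hzR : (z : Ω) ∈ preimageAlong π (imageAlong π P ⊔ Q') := ⟨z, Subgroup.mem_sup_right hz, rfl⟩
    refine ⟨_, ψ, hPR, hzR, hψ, fun u => ?_, ?_⟩
    · have h1 : π ⟨φ u, hi2 u⟩ = π ⟨ψ (Subgroup.inclusion hPR u), hj2 _⟩ := by
        rw [← hind u, ← hjnd (Subgroup.inclusion hPR u), ← hψe]
        exact congrArg ψ' (Subtype.ext rfl)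
      exact (QuotientGroup.eq (s := (F.center).subgroupOf S)).1 h1
    · have h1 : π z = π ⟨ψ ⟨z, hzR⟩, hj2 _⟩ := by
        rw [← hjnd ⟨z, hzR⟩]
        exact (hψQ ⟨π z, hz⟩).symm.trans (congrArg ψ' (Subtype.ext rfl))
      exact (QuotientGroup.eq (s := (F.center).subgroupOf S)).1 h1
  have hZc : ∀ c ∈ F.center, ∀ s ∈ S, s * c = c * s := fun c hcz s hs => F.center_le_centralizer hcz s hs
  -- the preimage is central in `S`
  have hcomm : ∀ z : S, π z ∈ Q' → ∀ s : S, (z : Ω) * s = s * z := by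
    intro z hz
    have hcz : ∀ s ∈ S, (z : Ω) * s * (z : Ω)⁻¹ * s⁻¹ ∈ F.center := by
      intro s hs
      obtain ⟨R, ψ, hPR, hzR, hψ, hu, hz2⟩ := ext1 S _ (F.conj_mem le_rfl z.2) hZS z hz
      obtain ⟨R', ψ', hPR', hzR', hψ', hu', hz'⟩ := ext1 S _ (F.conj_mem le_rfl hs) hZS z hz
      have h1 : (z : Ω)⁻¹ * (s * z * s⁻¹) ∈ F.center := by
        have h3 := hu' z
        have h4 : ψ' (Subgroup.inclusion hPR' z) = ψ' ⟨z, hzR'⟩ := congrArg ψ' (Subtype.ext rfl)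
        rw [h4] at h3
        have h5 := F.center.mul_mem hz' (F.center.inv_mem h3)
        show (z : Ω)⁻¹ * (Cfsg.conjHom S s z) ∈ F.center
        convert h5 using 1
        group
      have h6 : (z : Ω) * s * (z : Ω)⁻¹ * s⁻¹ = (z : Ω) * ((z : Ω)⁻¹ * (s * z * s⁻¹))⁻¹ * (z : Ω)⁻¹ := by group
      have h7 := hZc _ (F.center.inv_mem h1) _ z.2
      rw [h6, h7, mul_inv_cancel_right]
      exact F.center.inv_mem h1
    let lam : S →* Ω := MonoidHom.mk' (fun s => (z : Ω) * s * (z : Ω)⁻¹ * (s : Ω)⁻¹) fun a b => by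
      have h1 := hZc _ (hcz b b.2) _ a.2
      show (z : Ω) * ((a : Ω) * b) * (z : Ω)⁻¹ * ((a : Ω) * b)⁻¹ = _
      calc (z : Ω) * ((a : Ω) * b) * (z : Ω)⁻¹ * ((a : Ω) * b)⁻¹
          = (z : Ω) * a * (z : Ω)⁻¹ * ((z : Ω) * b * (z : Ω)⁻¹ * (b : Ω)⁻¹) * (a : Ω)⁻¹ := by group
        _ = (z : Ω) * a * (z : Ω)⁻¹ * (a : Ω)⁻¹ * ((a : Ω) * ((z : Ω) * b * (z : Ω)⁻¹ * (b : Ω)⁻¹)) * (a : Ω)⁻¹ := by group
        _ = (z : Ω) * a * (z : Ω)⁻¹ * (a : Ω)⁻¹ * ((z : Ω) * b * (z : Ω)⁻¹ * (b : Ω)⁻¹) := by rw [h1]; group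
    have hlamZ : ∀ c : S, (c : Ω) ∈ F.center → lam c = 1 := fun c hcc => by
      show (z : Ω) * c * (z : Ω)⁻¹ * (c : Ω)⁻¹ = 1
      rw [hZc _ hcc _ z.2]
      group
    have hlam : ∀ (P : Subgroup Ω) (φ : P →* Ω) (hφ : φ ∈ F.Hom P) (u : P),
        lam ⟨φ u, hom_mem F hφ u⟩ = lam ⟨u, hom_le F hφ u.2⟩ := by
      intro P φ hφ u
      obtain ⟨φ1, hφ1, hφe, -⟩ := hc.2 P φ hφ
      obtain ⟨R, ψ, hPR, hzR, hψ, hu, hz2⟩ := ext1 _ φ1 hφ1 le_sup_right z hz
      have hu1 := hu (Subgroup.inclusion le_sup_left u)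
      rw [hφe u] at hu1
      set u' : R := Subgroup.inclusion hPR (Subgroup.inclusion le_sup_left u)
      have hψS := hom_mem F hψ
      -- replace the image modulo the centre
      have e1 : lam ⟨φ u, hom_mem F hφ u⟩ = lam ⟨ψ u', hψS _⟩ := by
        have e0 : (⟨ψ u', hψS _⟩ : S) = ⟨φ u, hom_mem F hφ u⟩ * ⟨(φ u)⁻¹ * ψ u', hZS hu1⟩ :=
          Subtype.ext (by show ψ u' = φ u * ((φ u)⁻¹ * ψ u'); rw [mul_inv_cancel_left])
        rw [e0, map_mul, hlamZ ⟨_, hZS hu1⟩ hu1, mul_one]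
      rw [e1]
      have huS : (u : Ω) ∈ S := hom_le F hφ u.2
      have hmem : (z : Ω) * u * (z : Ω)⁻¹ * (u : Ω)⁻¹ ∈ F.center := hcz u huS
      have hR2 : (z : Ω) * u * (z : Ω)⁻¹ * (u : Ω)⁻¹ ∈ R :=
        R.mul_mem (R.mul_mem (R.mul_mem hzR u'.2) (R.inv_mem hzR)) (R.inv_mem u'.2)
      have e2 : ψ ⟨_, hR2⟩ = (z : Ω) * u * (z : Ω)⁻¹ * (u : Ω)⁻¹ := map_center_fixed hc hψ hmem
      have e3 : ψ ⟨_, hR2⟩ = ψ ⟨z, hzR⟩ * ψ u' * (ψ ⟨z, hzR⟩)⁻¹ * (ψ u')⁻¹ := by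
        rw [← map_inv, ← map_inv, ← map_mul, ← map_mul, ← map_mul]
        exact congrArg ψ (Subtype.ext rfl)
      show (z : Ω) * ψ u' * (z : Ω)⁻¹ * (ψ u')⁻¹ = (z : Ω) * u * (z : Ω)⁻¹ * (u : Ω)⁻¹
      rw [← e2, e3]
      set c := (z : Ω)⁻¹ * ψ ⟨z, hzR⟩
      have hc1 : ψ ⟨z, hzR⟩ = (z : Ω) * c := (mul_inv_cancel_left _ _).symm
      have hc2 := hZc c hz2 _ (hψS u')
      rw [hc1]
      calc (z : Ω) * ψ u' * (z : Ω)⁻¹ * (ψ u')⁻¹ = (z : Ω) * (ψ u' * c) * c⁻¹ * (z : Ω)⁻¹ * (ψ u')⁻¹ := by group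
        _ = (z : Ω) * c * ψ u' * ((z : Ω) * c)⁻¹ * (ψ u')⁻¹ := by rw [hc2]; group
    intro s
    have hs : (s : Ω) ∈ F.hyperfocalSubgroup p := by rw [hperf]; exact s.2
    have hle : F.hyperfocalSubgroup p ≤ lam.ker.map S.subtype := by
      refine (Subgroup.closure_le _).2 ?_
      rintro _ ⟨P, α, u, hP, -, rfl⟩
      refine ⟨⟨(u : Ω), hP u.2⟩⁻¹ * ⟨(((α : MulAut P) u : P) : Ω), hP ((α : MulAut P) u).2⟩, ?_, rfl⟩
      show lam _ = 1
      rw [map_mul, map_inv, inv_mul_eq_one]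
      exact (hlam P _ ((mem_autGroup_iff F hP).1 α.2) u).symm
    obtain ⟨s', hs', he⟩ := hle hs
    have : s' = s := Subtype.ext he
    subst this
    have h9 : (z : Ω) * s' * (z : Ω)⁻¹ * (s' : Ω)⁻¹ = 1 := hs'
    exact mul_inv_eq_iff_eq_mul.1 (mul_inv_eq_one.1 h9)
  -- the preimage is central in `F`
  let X : Subgroup Ω := preimageAlong π Q'
  have hXS : X ≤ S := Subgroup.map_subtype_le _
  have hXc : F.IsCentral X := by
    refine isCentral_criterion hS hF hXS ?_ ?_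
    · intro R hR w hw
      obtain ⟨z, hz, rfl⟩ := hw
      exact centralizerIn_le_of_centric hR.centric ⟨z.2, fun y hy => (hcomm z hz ⟨y, hR.centric.1 hy⟩).symm⟩
    · intro R hR α hα u hu
      obtain ⟨z, hz, hzu⟩ := hu
      have hRS := hR.centric.1
      haveI : Finite R := finite_of_le hRS
      haveI : Finite (MulAut R) := finite_mulAut R
      have hd : ∀ β ∈ F.autGroup R, (u : Ω)⁻¹ * ((β u : R) : Ω) ∈ F.center := by
        intro β hβ
        have hφ := (mem_autGroup_iff F hRS).1 hβ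
        obtain ⟨φ1, hφ1, hφe, -⟩ := hc.2 R _ hφ
        obtain ⟨T, ψ, hPT, hzT, hψ, hu1, hu2⟩ := ext1 _ φ1 hφ1 le_sup_right z hz
        have h3 := hu1 (Subgroup.inclusion le_sup_left u)
        rw [hφe u] at h3
        have e4 : ψ (Subgroup.inclusion hPT (Subgroup.inclusion le_sup_left u)) = ψ ⟨z, hzT⟩ :=
          congrArg ψ (Subtype.ext hzu.symm)
        rw [e4] at h3
        have h5 := F.center.mul_mem hu2 (F.center.inv_mem h3)
        have e5 : (z : Ω) = u := hzu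
        convert h5 using 1
        simp [← e5]
      have hfix : ∀ β ∈ F.autGroup R, ∀ w : R, (w : Ω) ∈ F.center → β w = w := fun β hβ w hw =>
        Subtype.ext (map_center_fixed hc ((mem_autGroup_iff F hRS).1 hβ) hw)
      let δ : F.autGroup R →* R := MonoidHom.mk' (fun β => u⁻¹ * (β : MulAut R) u) fun β γ => by
        show u⁻¹ * (β : MulAut R) ((γ : MulAut R) u) = _
        have h1 : (β : MulAut R) ((γ : MulAut R) u) = (β : MulAut R) u * (u⁻¹ * (γ : MulAut R) u) := by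
          conv_lhs => rw [← mul_inv_cancel_left u ((γ : MulAut R) u)]
          rw [map_mul, hfix β β.2 (u⁻¹ * (γ : MulAut R) u) (hd γ γ.2)]
        rw [h1, mul_assoc u⁻¹]
      obtain ⟨-, Sy, hSy⟩ := (fullyNormalized_props hS hF hR.fullyNormalized).1
      have hker : (Sy : Subgroup (F.autGroup R)) ≤ δ.ker := by
        intro β hβ
        rw [hSy] at hβ
        obtain ⟨g, hg, hge⟩ := mem_autInducedBy_iff.1 hβ
        refine inv_mul_eq_one.2 (Subtype.ext ?_)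
        rw [show (((β : MulAut R) u : R) : Ω) = g * (u : Ω) * g⁻¹ from hge u,
          show (u : Ω) = z from hzu.symm, ← hcomm z hz ⟨g, hg⟩, mul_inv_cancel_right]
      have hnd : ¬ p ∣ δ.ker.index := fun h =>
        Sy.not_dvd_index (h.trans (Subgroup.index_dvd_of_le hker))
      have hindex : δ.ker.index = Nat.card δ.range := Subgroup.index_ker δ
      obtain ⟨n, hn⟩ := IsPGroup.iff_card.1 ((hS.to_le hRS).to_subgroup δ.range)
      have hker1 : δ.ker = ⊤ := by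
        rw [← Subgroup.index_eq_one, hindex, hn]
        rcases Nat.eq_zero_or_pos n with h0 | h0
        · rw [h0, pow_zero]
        · exact absurd (hindex ▸ hn ▸ dvd_pow_self p h0.ne') hnd
      have h1 : δ ⟨α, hα⟩ = 1 := by
        rw [← MonoidHom.mem_ker, hker1]
        exact Subgroup.mem_top _
      exact (inv_mul_eq_one.1 h1).symm
  have hx : (x : Ω) ∈ F.center := (le_sSup (α := Subgroup Ω) hXc : X ≤ F.center) ⟨x, hy, rfl⟩
  exact Subgroup.mem_bot.2 ((QuotientGroup.eq_one_iff x).2 hx)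

end Cfsg.Agent.S5315
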