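import Cfsg.Statements.S5320
import Cfsg.Agent.Eq.Def_Classical
import Cfsg.Agent.Classical.Symp.FourSylowTwo
import Cfsg.Agent.Fus.Group
import Cfsg.Agent.Fus.Centric
import Cfsg.Agent.Fus.Saturation
import Cfsg.Agent.Fus.NormalOverSylow

set_option autoImplicit false
open Cfsg

namespace Cfsg.Agent.S5320







open Matrix CfsgLib.Fus CfsgLib.Classical.Symp CfsgLib.Classical.Symp.FourTwo Cfsg.FusionSystem

section

variable {F : Type*} [Field F] [Fintype F]

local notation "SL₂" => Matrix.SpecialLinearGroup (Fin 2) F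
local notation "Sp4" => Matrix.symplecticGroup (Fin 2) F
local notation "Mat4" => Matrix (Fin 2 ⊕ Fin 2) (Fin 2 ⊕ Fin 2) F
local notation "Mat2" => Matrix (Fin 2) (Fin 2) F

/-- Generalised quaternion data. -/
structure QData (W : Subgroup (Matrix.SpecialLinearGroup (Fin 2) F)) where
  k : ℕ
  hk : 1 ≤ k
  x : SL₂
  y : SL₂
  hx : x ∈ W
  hy : y ∈ W
  hord : orderOf x = 2 ^ (k + 1)
  hy2 : y * y = -1
  hyx : y * x * y⁻¹ = x⁻¹
  hcov : ∀ w ∈ W, (∃ i : ℕ, w = x ^ i) ∨ ∃ i : ℕ, w = x ^ i * y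
  hne : ∀ i : ℕ, y ≠ x ^ i

lemma exists_qData (h2 : (2 : F) ≠ 0) (W : Sylow 2 SL₂) : Nonempty (QData (W : Subgroup SL₂)) := by
  obtain ⟨k, hk, ⟨φ⟩⟩ := CfsgLib.SL2.sylow_two_quaternion h2 W
  haveI : NeZero (2 ^ k) := ⟨pow_ne_zero _ two_ne_zero⟩
  let ψ : QuaternionGroup (2 ^ k) →* SL₂ := (W : Subgroup SL₂).subtype.comp φ.symm.toMonoidHom
  have hψ : Function.Injective ψ := Subtype.val_injective.comp φ.symm.injective
  have hmem : ∀ q, ψ q ∈ (W : Subgroup SL₂) := fun q => (φ.symm q).2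
  have hord : orderOf (ψ (QuaternionGroup.a 1)) = 2 ^ (k + 1) := by
    rw [orderOf_injective ψ hψ, QuaternionGroup.orderOf_a_one, pow_succ']
  have hpow : ∀ i : ZMod (2 * 2 ^ k), QuaternionGroup.a i = (QuaternionGroup.a 1 : QuaternionGroup (2 ^ k)) ^ i.val := by
    intro i
    rw [QuaternionGroup.a_one_pow, ZMod.natCast_zmod_val]
  refine ⟨{ k := k, hk := hk, x := ψ (QuaternionGroup.a 1), y := ψ (QuaternionGroup.xa 0)
            hx := hmem _, hy := hmem _, hord := hord, hy2 := ?_, hyx := ?_, hcov := ?_, hne := ?_ }⟩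
  · refine (CfsgLib.SL2.orderOf_eq_two_iff h2).1 ?_
    rw [← pow_two, orderOf_pow' _ two_ne_zero, orderOf_injective ψ hψ, QuaternionGroup.orderOf_xa]
    decide
  · rw [← map_mul, ← map_inv, ← map_inv, ← map_mul, mul_inv_eq_iff_eq_mul.2]
    show QuaternionGroup.xa 0 * QuaternionGroup.a 1 = (QuaternionGroup.a (-1)) * QuaternionGroup.xa (0 : ZMod (2 * 2 ^ k))
    rw [QuaternionGroup.xa_mul_a, QuaternionGroup.a_mul_xa]
    simp
  · intro w hw
    obtain ⟨q, hq⟩ : ∃ q, ψ q = w := ⟨φ ⟨w, hw⟩, by simp [ψ]⟩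
    rcases q with i | i
    · exact Or.inl ⟨i.val, by rw [← map_pow, ← hpow, hq]⟩
    · refine Or.inr ⟨(-i).val, ?_⟩
      rw [← map_pow, ← hpow, ← map_mul, QuaternionGroup.a_mul_xa, zero_sub, neg_neg, hq]
  · intro i h
    rw [← map_pow, QuaternionGroup.a_one_pow] at h
    exact absurd (hψ h) (by simp)

variable {W : Subgroup (Matrix.SpecialLinearGroup (Fin 2) F)} (Q : QData W)

lemma QData.xpow_half (h2 : (2 : F) ≠ 0) : Q.x ^ (2 ^ Q.k) = -1 := by
  refine (CfsgLib.SL2.orderOf_eq_two_iff h2).1 ?_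
  rw [orderOf_pow' _ (pow_ne_zero _ two_ne_zero), Q.hord, Nat.gcd_eq_right (pow_dvd_pow _ (Nat.le_succ _)),
    Nat.pow_div (Nat.le_succ _) two_pos]
  norm_num

include Q in
lemma QData.neg_one_mem (h2 : (2 : F) ≠ 0) : (-1 : SL₂) ∈ W := Q.xpow_half h2 ▸ W.pow_mem Q.hx _

/-- The element of square `-1` in the cyclic part. -/
def QData.u : SL₂ := Q.x ^ (2 ^ (Q.k - 1))

lemma QData.u_mem : Q.u ∈ W := W.pow_mem Q.hx _

lemma QData.u_sq (h2 : (2 : F) ≠ 0) : Q.u * Q.u = -1 := by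
  have e : 2 ^ (Q.k - 1) + 2 ^ (Q.k - 1) = 2 ^ Q.k := by
    rw [← two_mul, ← pow_succ']; congr 1; have := Q.hk; omega
  rw [QData.u, ← pow_add, e, Q.xpow_half h2]

lemma QData.conjY (i : ℕ) : Q.y * Q.x ^ i * Q.y⁻¹ = (Q.x ^ i)⁻¹ := by
  rw [← conj_pow, Q.hyx, inv_pow]

lemma inv_eq_neg_of_sq {g : SL₂} (h : g * g = -1) : g⁻¹ = -g :=
  inv_eq_of_mul_eq_one_right (by rw [mul_neg, h, neg_neg])

lemma QData.y_mul_u (h2 : (2 : F) ≠ 0) : Q.y * Q.u = -(Q.u * Q.y) := by
  rw [← neg_mul, ← inv_eq_neg_of_sq (Q.u_sq h2), QData.u, ← Q.conjY, inv_mul_cancel_right]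

lemma QData.xy_sq (i : ℕ) : Q.x ^ i * Q.y * (Q.x ^ i * Q.y) = -1 := by
  have e : Q.y * Q.x ^ i = (Q.x ^ i)⁻¹ * Q.y := by rw [← Q.conjY, inv_mul_cancel_right]
  rw [mul_assoc, ← mul_assoc Q.y, e, mul_assoc, Q.hy2, ← mul_assoc, mul_inv_cancel, one_mul]

/-- An element commuting with the generators is central. -/
lemma QData.eq_of_commute (h2 : (2 : F) ≠ 0) {g a b : SL₂} (ha : g * a = a * g) (hb : g * b = b * g)
    (hab : a * b ≠ b * a) : g = 1 ∨ g = -1 := by
  rw [← CfsgLib.SL2.mem_center_iff']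
  by_contra hg
  exact hab (CfsgLib.SL2.centralizer_commute hg (Subgroup.mem_centralizer_singleton_iff.2 ha.symm)
    (Subgroup.mem_centralizer_singleton_iff.2 hb.symm))

lemma QData.not_commute (h2 : (2 : F) ≠ 0) : Q.u * Q.y ≠ Q.y * Q.u := by
  rw [Q.y_mul_u h2]
  intro h
  have h1 : (Q.u * Q.y) = -(Q.u * Q.y) := h
  have h3 : (1 : SL₂) = -1 := by
    have := congrArg (fun z => z * (Q.u * Q.y)⁻¹) h1
    simpa [neg_mul] using this
  exact CfsgLib.SL2.neg_one_ne_one h2 h3.symm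

/-- An odd order element normalising `W` and the cyclic part is trivial. -/
lemma QData.eq_one_of_normalizing_x (h2 : (2 : F) ≠ 0) {b : SL₂} (hodd : Odd (orderOf b))
    (hb : ∀ w ∈ W, b * w * b⁻¹ ∈ W) {i : ℕ} (hi : b * Q.x * b⁻¹ = Q.x ^ i) : b = 1 := by
  set o := orderOf b with ho
  have hiter : ∀ j : ℕ, b ^ j * Q.x * (b ^ j)⁻¹ = Q.x ^ (i ^ j) := by
    intro j
    induction j with
    | zero => simp
    | succ j ih =>
      have e : b ^ (j + 1) * Q.x * (b ^ (j + 1))⁻¹ = b * (b ^ j * Q.x * (b ^ j)⁻¹) * b⁻¹ := by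
        rw [pow_succ']; group
      rw [e, ih, ← conj_pow, hi, ← pow_mul, pow_succ']
  have hN : i ^ o ≡ 1 [MOD 2 ^ (Q.k + 1)] := by
    have h := hiter o
    rw [pow_orderOf_eq_one, one_mul, inv_one, mul_one] at h
    rw [← Q.hord, ← pow_eq_pow_iff_modEq, ← h, pow_one]
  have hx : b * Q.x * b⁻¹ = Q.x := by
    rw [hi]
    nth_rw 2 [← pow_one Q.x]
    rw [pow_eq_pow_iff_modEq, Q.hord]
    haveI : NeZero (2 ^ (Q.k + 1)) := ⟨pow_ne_zero _ two_ne_zero⟩
    have hu : IsUnit (i : ZMod (2 ^ (Q.k + 1))) := by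
      refine IsUnit.of_pow_eq_one (n := o) ?_ hodd.pos.ne'
      rw [← Nat.cast_pow, (ZMod.natCast_eq_natCast_iff _ _ _).2 hN, Nat.cast_one]
    rw [← ZMod.natCast_eq_natCast_iff, Nat.cast_one, ← hu.unit_spec, Units.val_eq_one, ← orderOf_eq_one_iff]
    have d1 : orderOf hu.unit ∣ o := orderOf_dvd_of_pow_eq_one (Units.ext (by
      rw [Units.val_pow_eq_pow_val, IsUnit.unit_spec, ← Nat.cast_pow,
        (ZMod.natCast_eq_natCast_iff _ _ _).2 hN, Nat.cast_one, Units.val_one]))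
    have d2 : orderOf hu.unit ∣ 2 ^ Q.k := by
      have := orderOf_dvd_card (x := hu.unit)
      rwa [ZMod.card_units_eq_totient, Nat.totient_prime_pow Nat.prime_two (Nat.succ_pos _),
        Nat.succ_sub_one, show 2 - 1 = 1 from rfl, mul_one] at this
    exact Nat.eq_one_of_dvd_coprimes ((Nat.coprime_two_right.2 hodd).pow_right _) d1 d2
  obtain ⟨s, hs⟩ : ∃ s : ℕ, b * Q.y * b⁻¹ = Q.x ^ s * Q.y := by
    rcases Q.hcov _ (hb _ Q.hy) with ⟨s, hs⟩ | h
    · exfalso
      refine Q.hne s (MulAut.conj b |>.injective ?_)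
      show b * Q.y * b⁻¹ = b * Q.x ^ s * b⁻¹
      rw [hs, ← conj_pow, hx]
    · exact h
  have hiter' : ∀ j : ℕ, b ^ j * Q.y * (b ^ j)⁻¹ = Q.x ^ (j * s) * Q.y := by
    intro j
    induction j with
    | zero => simp
    | succ j ih =>
      have e : b ^ (j + 1) * Q.y * (b ^ (j + 1))⁻¹ = b * (b ^ j * Q.y * (b ^ j)⁻¹) * b⁻¹ := by
        rw [pow_succ']; group
      rw [e, ih, show b * (Q.x ^ (j * s) * Q.y) * b⁻¹ = (b * Q.x ^ (j * s) * b⁻¹) * (b * Q.y * b⁻¹) by group,
        ← conj_pow, hx, hs, ← mul_assoc, ← pow_add, add_mul, one_mul]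
  have hy : b * Q.y * b⁻¹ = Q.y := by
    have h := hiter' o
    rw [pow_orderOf_eq_one, one_mul, inv_one, mul_one, eq_comm, mul_eq_right, ← orderOf_dvd_iff_pow_eq_one,
      Q.hord] at h
    have hd : orderOf Q.x ∣ s := Q.hord ▸
      ((Nat.coprime_two_left.2 hodd).pow_left _).dvd_of_dvd_mul_left h
    rw [hs, orderOf_dvd_iff_pow_eq_one.1 hd, one_mul]
  rcases QData.eq_of_commute h2 (mul_inv_eq_iff_eq_mul.1 hx) (mul_inv_eq_iff_eq_mul.1 hy) (by
    intro h
    apply Q.not_commute h2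
    exact (Commute.pow_left h _).eq) with h | h
  · exact h
  · exfalso
    rw [ho, h, (CfsgLib.SL2.orderOf_eq_two_iff h2).2 rfl] at hodd
    exact absurd hodd (by decide)

lemma exists_hurwitz (h2 : (2 : F) ≠ 0) {a b : SL₂} (ha : a * a = -1) (hb : b * b = -1)
    (hab : b * a = -(a * b)) :
    ∃ t : SL₂, (t : Mat2) = (2 : F)⁻¹ • (1 + (a : Mat2) + (b : Mat2) + (a : Mat2) * (b : Mat2)) ∧
      t * a * t⁻¹ = b ∧ t * b * t⁻¹ = a * b := by
  set X := (a : Mat2) with hX
  set Y := (b : Mat2) with hY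
  have hX2 : X * X = -1 := by
    simpa using congrArg (fun z : SL₂ => (z : Mat2)) ha
  have hY2 : Y * Y = -1 := by
    simpa using congrArg (fun z : SL₂ => (z : Mat2)) hb
  have hYX : Y * X = -(X * Y) := by
    simpa using congrArg (fun z : SL₂ => (z : Mat2)) hab
  set Z := X * Y with hZ
  have hXZ : X * Z = -Y := by rw [hZ, ← mul_assoc, hX2, neg_one_mul]
  have hYZ : Y * Z = X := by
    rw [hZ, ← mul_assoc, hYX, neg_mul, hZ, mul_assoc, hY2, mul_neg, mul_one, neg_neg]
  have hZX : Z * X = Y := by rw [hZ, mul_assoc, hYX, mul_neg, hXZ, neg_neg]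
  have hZY : Z * Y = -X := by rw [hZ, mul_assoc, hY2, mul_neg, mul_one]
  have hZ2 : Z * Z = -1 := by
    nth_rw 1 [hZ]
    rw [mul_assoc, hYZ, hX2]
  set A : Mat2 := 1 + X + Y + Z with hA
  have hab2 : a * b * (a * b) = -1 := Subtype.ext (by simpa [← hX, ← hY, ← hZ] using hZ2)
  have hadj : ∀ g : SL₂, g * g = -1 → adjugate (g : Mat2) = -(g : Mat2) := by
    intro g hg
    rw [← Matrix.SpecialLinearGroup.coe_inv, inv_eq_neg_of_sq hg, Matrix.SpecialLinearGroup.coe_neg]
  have hadd : ∀ M N : Mat2, adjugate (M + N) = adjugate M + adjugate N := by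
    intro M N
    simp only [Matrix.adjugate_fin_two]
    ext i j
    fin_cases i <;> fin_cases j <;> simp <;> ring
  have hAadj : adjugate A = 1 - X - Y - Z := by
    rw [hA, hadd, hadd, hadd, adjugate_one, hadj a ha, hadj b hb,
      show Z = ((a * b : SL₂) : Mat2) from rfl, hadj _ hab2]
    abel
  have hAA : A * adjugate A = (4 : F) • 1 := by
    rw [hAadj, hA]
    simp only [mul_sub, add_mul, one_mul, mul_one, hX2, hY2, hYX, hXZ, hZX, hYZ, hZY, hZ2]
    rw [show (4 : F) = 1 + 1 + 1 + 1 by norm_num, add_smul, add_smul, add_smul, one_smul]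
    abel
  have hdA : A.det = 4 := by
    rw [Matrix.mul_adjugate] at hAA
    simpa using congrFun (congrFun hAA 0) 0
  have hdet : ((2 : F)⁻¹ • A).det = 1 := by
    rw [Matrix.det_smul, Fintype.card_fin, hdA]
    field_simp
    norm_num
  let t : SL₂ := ⟨_, hdet⟩
  refine ⟨t, rfl, ?_, ?_⟩
  · rw [mul_inv_eq_iff_eq_mul]
    refine Subtype.ext ?_
    show ((2 : F)⁻¹ • A) * X = Y * ((2 : F)⁻¹ • A)
    rw [smul_mul_assoc, mul_smul_comm, hA]
    simp only [add_mul, mul_add, one_mul, mul_one, hX2, hY2, hYX, hZX, hYZ]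
    abel_nf
  · rw [mul_inv_eq_iff_eq_mul]
    refine Subtype.ext ?_
    show ((2 : F)⁻¹ • A) * Y = Z * ((2 : F)⁻¹ • A)
    rw [smul_mul_assoc, mul_smul_comm, hA]
    simp only [add_mul, mul_add, one_mul, mul_one, hY2, hZX, hZY, hZ2, ← hZ]
    abel_nf

/-- The elements of square `-1` when `W` is the quaternion group of order eight. -/
lemma QData.sq_cases (h2 : (2 : F) ≠ 0) (hk : Q.k = 1) (i : ℕ) {z : SL₂} (hz : z ∈ W) (hz2 : z * z = -1) :
    z = Q.u ∨ z = -Q.u ∨ z = Q.x ^ i * Q.y ∨ z = -(Q.x ^ i * Q.y) ∨ z = Q.u * (Q.x ^ i * Q.y) ∨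
      z = -(Q.u * (Q.x ^ i * Q.y)) := by
  have hux : Q.u = Q.x := by rw [QData.u, hk]; simp
  have hred : ∀ j : ℕ, Q.x ^ j = 1 ∨ Q.x ^ j = -1 ∨ Q.x ^ j = Q.u ∨ Q.x ^ j = -Q.u := by
    intro j
    have e4 : Q.x ^ j = Q.x ^ (j % 4) := by
      rw [← pow_mod_orderOf, Q.hord, hk]
      norm_num
    have hsq : Q.x * Q.x = -1 := hux ▸ Q.u_sq h2
    rw [e4, hux]
    have : j % 4 < 4 := Nat.mod_lt _ (by norm_num)
    interval_cases h : j % 4
    · left; simp
    · right; right; left; simp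
    · right; left; rw [pow_two, hsq]
    · right; right; right; rw [pow_succ, pow_two, hsq, neg_one_mul]
  rcases Q.hcov z hz with ⟨j, rfl⟩ | ⟨j, rfl⟩
  · rcases hred j with h | h | h | h
    · rw [h, one_mul] at hz2
      exact absurd hz2.symm (CfsgLib.SL2.neg_one_ne_one h2)
    · rw [h, neg_one_mul, neg_neg] at hz2
      exact absurd hz2.symm (CfsgLib.SL2.neg_one_ne_one h2)
    · exact Or.inl h
    · exact Or.inr (Or.inl h)
  · obtain ⟨l, hl⟩ : ∃ l : ℕ, Q.x ^ j * (Q.x ^ i)⁻¹ = Q.x ^ l := by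
      obtain ⟨l, hl⟩ := (mem_powers_iff_mem_zpowers (x := Q.x)).2
        (Subgroup.mul_mem _ (Subgroup.npow_mem_zpowers _ j) (Subgroup.inv_mem _ (Subgroup.npow_mem_zpowers _ i)))
      exact ⟨l, hl.symm⟩
    have hxi : Q.x ^ j * Q.y = Q.x ^ l * (Q.x ^ i * Q.y) := by rw [← hl]; group
    rw [hxi]
    rcases hred l with h | h | h | h <;> rw [h]
    · exact Or.inr (Or.inr (Or.inl (one_mul _)))
    · exact Or.inr (Or.inr (Or.inr (Or.inl (neg_one_mul _))))
    · exact Or.inr (Or.inr (Or.inr (Or.inr (Or.inl rfl))))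
    · exact Or.inr (Or.inr (Or.inr (Or.inr (Or.inr (neg_mul _ _)))))

lemma not_commute_of_anti (h2 : (2 : F) ≠ 0) {u v : SL₂} (h : v * u = -(u * v)) : u * v ≠ v * u := by
  rw [h]
  intro hh
  have h3 : (1 : SL₂) = -1 := by
    have := congrArg (fun z => z * (u * v)⁻¹) hh
    simpa [neg_mul] using this
  exact CfsgLib.SL2.neg_one_ne_one h2 h3.symm

/-- The odd order elements of the normaliser of `W`. -/
lemma QData.normalizer_odd (h2 : (2 : F) ≠ 0) {a : SL₂} (hodd : Odd (orderOf a))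
    (ha : ∀ w ∈ W, a * w * a⁻¹ ∈ W) :
    a = 1 ∨ ∃ v t : SL₂, Q.k = 1 ∧ v ∈ W ∧ v * v = -1 ∧ v * Q.u = -(Q.u * v) ∧
      (t : Mat2) = (2 : F)⁻¹ • (1 + (Q.u : Mat2) + (v : Mat2) + (Q.u : Mat2) * (v : Mat2)) ∧
      ∃ e ∈ W, a = t * e := by
  rcases Q.hcov _ (ha _ Q.hx) with ⟨i, hi⟩ | ⟨i, hi⟩
  · exact Or.inl (Q.eq_one_of_normalizing_x h2 hodd ha hi)
  have hk : Q.k = 1 := by
    have h4 : (Q.x ^ i * Q.y) ^ 4 = 1 := by
      rw [show (4 : ℕ) = 2 * 2 from rfl, pow_mul, pow_two (Q.x ^ i * Q.y), Q.xy_sq, neg_one_sq]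
    rw [← hi, conj_pow, mul_inv_eq_one, mul_eq_left, ← orderOf_dvd_iff_pow_eq_one, Q.hord] at h4
    have := Nat.le_of_dvd (by norm_num) h4
    have h2' : 2 ^ (Q.k + 1) ≤ 2 ^ 2 := by simpa using this
    have := (Nat.pow_le_pow_iff_right (by norm_num : 1 < 2)).1 h2'
    have := Q.hk
    omega
  have hux : Q.u = Q.x := by rw [QData.u, hk]; simp
  have hv2 := Q.xy_sq i
  have hcases := fun z hz hz2 => Q.sq_cases h2 hk i (z := z) hz hz2
  have hvu : (Q.x ^ i * Q.y) * Q.u = -(Q.u * (Q.x ^ i * Q.y)) := by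
    rw [mul_assoc, Q.y_mul_u h2, hux, mul_neg, ← mul_assoc, ← mul_assoc, pow_mul_comm']
  have hvW : Q.x ^ i * Q.y ∈ W := W.mul_mem (W.pow_mem Q.hx _) Q.hy
  generalize Q.x ^ i * Q.y = v at hi hv2 hcases hvu hvW
  rw [← hux] at hi
  have hncom := not_commute_of_anti h2 hvu
  have hax : a * v * a⁻¹ ∈ W := ha _ hvW
  have hav2 : a * v * a⁻¹ * (a * v * a⁻¹) = -1 := by
    rw [show a * v * a⁻¹ * (a * v * a⁻¹) = a * (v * v) * a⁻¹ by group, hv2, mul_neg, mul_one, neg_mul,
      mul_inv_cancel]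
  -- if `a` exchanges the pairs of `u` and `v`, its square fixes the cyclic part
  have hswap : a * v * a⁻¹ = Q.u ∨ a * v * a⁻¹ = -Q.u → False := by
    intro h
    have hsq : ∀ z, z ∈ W → a ^ 2 * z * (a ^ 2)⁻¹ ∈ W := fun z hz => by
      rw [show a ^ 2 * z * (a ^ 2)⁻¹ = a * (a * z * a⁻¹) * a⁻¹ by rw [pow_two]; group]
      exact ha _ (ha _ hz)
    have hcop : (orderOf a).Coprime 2 := Nat.coprime_two_right.2 hodd
    obtain ⟨j, hj⟩ : ∃ j : ℕ, a ^ 2 * Q.x * (a ^ 2)⁻¹ = Q.x ^ j := by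
      have e : a ^ 2 * Q.x * (a ^ 2)⁻¹ = a * v * a⁻¹ := by
        rw [← hi, hux, pow_two]; group
      rcases h with h | h
      · exact ⟨1, by rw [e, h, hux, pow_one]⟩
      · exact ⟨3, by rw [e, h, ← hux, pow_succ, pow_two, Q.u_sq h2, neg_one_mul]⟩
    have ha2 := Q.eq_one_of_normalizing_x h2 (by rw [hcop.orderOf_pow]; exact hodd) hsq hj
    have h1 : orderOf a = 1 := by rw [← hcop.orderOf_pow, ha2, orderOf_one]
    rw [orderOf_eq_one_iff] at h1
    subst h1
    rw [one_mul, inv_one, mul_one] at hi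
    exact hncom (by rw [hi])
  right
  obtain ⟨t, ht, htu, htv⟩ := exists_hurwitz h2 (Q.u_sq h2) hv2 hvu
  refine ⟨v, t, hk, hvW, hv2, hvu, ht, ?_⟩
  set a' := t⁻¹ * a with ha'
  have hconj : ∀ z, a' * z * a'⁻¹ = t⁻¹ * (a * z * a⁻¹) * t := fun z => by rw [ha']; group
  have hcu : a' * Q.u = Q.u * a' := by
    rw [← mul_inv_eq_iff_eq_mul, hconj, hi, ← htu]; group
  have hpm : ∀ g : SL₂, g = 1 ∨ g = -1 → g ∈ W := by
    rintro g (rfl | rfl)
    · exact W.one_mem
    · exact Q.neg_one_mem h2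
  rcases hcases _ hax hav2 with h | h | h | h | h | h
  · exact (hswap (Or.inl h)).elim
  · exact (hswap (Or.inr h)).elim
  · exfalso
    have hv'' : a * v * a⁻¹ = a * Q.u * a⁻¹ := by rw [h, hi]
    exact hncom (by rw [mul_left_cancel (mul_right_cancel hv'')])
  · exfalso
    have hv'' : a * v * a⁻¹ = a * (-Q.u) * a⁻¹ := by rw [h, mul_neg, neg_mul, hi]
    exact hncom (by rw [mul_left_cancel (mul_right_cancel hv''), mul_neg, neg_mul])
  · have hfix : a' * v = v * a' := by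
      rw [← mul_inv_eq_iff_eq_mul, hconj, h, ← htv]; group
    exact ⟨a', hpm _ (QData.eq_of_commute h2 hcu hfix hncom), by rw [ha', mul_inv_cancel_left]⟩
  · have hfix : a' * v = -(v * a') := by
      rw [← neg_mul, ← mul_inv_eq_iff_eq_mul, hconj, h, ← htv, mul_neg, neg_mul]; group
    have hc1 : Q.u * a' * v = v * (Q.u * a') := by
      rw [mul_assoc, hfix, mul_neg, ← mul_assoc Q.u v a', ← neg_mul, ← hvu, mul_assoc]
    have hc0 : Q.u * a' * Q.u = Q.u * (Q.u * a') := by rw [mul_assoc, hcu]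
    exact ⟨Q.u⁻¹ * (Q.u * a'), W.mul_mem (W.inv_mem Q.u_mem) (hpm _ (QData.eq_of_commute h2 hc0 hc1 hncom)),
      by rw [ha', inv_mul_cancel_left, mul_inv_cancel_left]⟩

end

section Clifford

variable {F : Type*} [Field F] {A : Type*} [Ring A] [Algebra F A]

/-- Half the product of two differences of anticommuting involutions. -/
def dd (F : Type*) [Field F] {A : Type*} [Ring A] [Algebra F A] (a b f g : A) : A :=
  (2 : F)⁻¹ • ((a - b) * (f - g))

lemma anti_diff {a b x : A} (h1 : a * x = -(x * a)) (h2 : b * x = -(x * b)) :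
    (a - b) * x = -(x * (a - b)) := by
  rw [sub_mul, mul_sub, h1, h2]; abel

lemma diff_sq {a b : A} (ha : a * a = 1) (hb : b * b = 1) (hab : a * b = -(b * a)) :
    (a - b) * (a - b) = 2 := by
  rw [sub_mul, mul_sub, mul_sub, ha, hb, hab]
  rw [show (2 : A) = 1 + 1 by norm_num]
  abel

variable {a b f g h : A} (ha : a * a = 1) (hb : b * b = 1) (hf : f * f = 1) (hg : g * g = 1)
  (hab : a * b = -(b * a)) (hfg : f * g = -(g * f)) (haf : a * f = -(f * a)) (hag : a * g = -(g * a))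
  (hbf : b * f = -(f * b)) (hbg : b * g = -(g * b))

include haf hag hbf hbg in
lemma cd_anti : (a - b) * (f - g) = -((f - g) * (a - b)) := by
  rw [mul_sub (a - b), anti_diff haf hbf, anti_diff hag hbg, sub_mul f g]; abel

include ha hb hf hg hab hfg haf hag hbf hbg in
lemma dd_sq (h2 : (2 : F) ≠ 0) : dd F a b f g * dd F a b f g = -1 := by
  rw [dd, smul_mul_smul_comm]
  rw [show (a - b) * (f - g) * ((a - b) * (f - g)) = (a - b) * ((f - g) * (a - b)) * (f - g) by
    simp only [mul_assoc]]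
  rw [show (f - g) * (a - b) = -((a - b) * (f - g)) by rw [cd_anti haf hag hbf hbg, neg_neg]]
  rw [mul_neg, neg_mul, ← mul_assoc (a - b) (a - b), mul_assoc, diff_sq ha hb hab, diff_sq hf hg hfg]
  rw [show (2 : A) * 2 = algebraMap F A (2 * 2) by rw [map_mul, map_ofNat]]
  rw [smul_neg, Algebra.smul_def, ← map_mul, show (2 : F)⁻¹ * 2⁻¹ * (2 * 2) = 1 by field_simp, map_one]

include ha hb hag haf hbf hbg in
lemma dd_left : dd F a b f g * a = b * dd F a b f g := by
  rw [dd, smul_mul_assoc, mul_smul_comm]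
  congr 1
  rw [mul_assoc (a - b), show (f - g) * a = -(a * (f - g)) by rw [mul_sub, haf, hag, sub_mul]; abel]
  rw [mul_neg, ← mul_assoc, ← mul_assoc, sub_mul a b a, mul_sub b a b, ha, hb, ← neg_mul, neg_sub]

include hf hg haf hag hbf hbg in
lemma dd_right : dd F a b f g * f = g * dd F a b f g := by
  rw [dd, smul_mul_assoc, mul_smul_comm]
  congr 1
  rw [mul_assoc (a - b), ← mul_assoc g, show g * (a - b) = -((a - b) * g) by rw [anti_diff hag hbg, neg_neg]]
  rw [neg_mul, mul_assoc, ← mul_neg]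
  congr 1
  rw [sub_mul, mul_sub, hf, hg, neg_sub]

lemma dd_commute (hah : a * h = -(h * a)) (hbh : b * h = -(h * b)) (hfh : f * h = -(h * f))
    (hgh : g * h = -(h * g)) : dd F a b f g * h = h * dd F a b f g := by
  rw [dd, smul_mul_assoc, mul_smul_comm]
  congr 1
  rw [mul_assoc, anti_diff hfh hgh, mul_neg, ← mul_assoc, anti_diff hah hbh, neg_mul, neg_neg, mul_assoc]

lemma dd_swap : dd F b a g f = dd F a b f g := by
  rw [dd, dd, ← neg_sub a b, ← neg_sub f g, neg_mul_neg]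

lemma dd_swap_left : dd F b a f g = -dd F a b f g := by
  rw [dd, dd, ← neg_sub a b, neg_mul, smul_neg]

end Clifford

section

variable {F : Type*} [Field F] [Fintype F]

local notation "SL₂" => Matrix.SpecialLinearGroup (Fin 2) F
local notation "Sp4" => Matrix.symplecticGroup (Fin 2) F
local notation "Mat4" => Matrix (Fin 2 ⊕ Fin 2) (Fin 2 ⊕ Fin 2) F
local notation "Mat2" => Matrix (Fin 2) (Fin 2) F

lemma negOne_mul_phi (a b : SL₂) : negOne 2 F * phi (a, b) = phi (-a, -b) := by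
  rw [← phi_neg_one, ← map_mul, Prod.mk_mul_mk, neg_one_mul, neg_one_mul]

lemma negOne_ne_one (h2 : (2 : F) ≠ 0) : negOne 2 F ≠ 1 := by
  rw [← phi_neg_one]
  intro h
  exact CfsgLib.SL2.neg_one_ne_one h2 (congrArg Prod.fst (phi_injective (h.trans (map_one phi).symm)))

lemma coe_negOne : ((negOne 2 F : Sp4) : Mat4) = -1 := rfl

/-- Involutions other than `±1` are conjugate. -/
lemma involution_conj (h2 : (2 : F) ≠ 0) {g g' : Sp4} (hg : g * g = 1) (hg' : g' * g' = 1)
    (h1 : g ≠ 1 ∧ g ≠ negOne 2 F) (h1' : g' ≠ 1 ∧ g' ≠ negOne 2 F) : IsConj g g' := by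
  have key : ∀ x : Sp4, x * x = 1 → x ≠ 1 ∧ x ≠ negOne 2 F →
      ∃ (c : Sp4) (s : Finset (Fin 2)), IsSignPattern (c * x * c⁻¹) s ∧ s.card = 1 := by
    intro x hx hne
    obtain ⟨c, s, hs⟩ := exists_signPattern h2 hx
    refine ⟨c, s, hs, ?_⟩
    have hle : s.card ≤ 2 := (Finset.card_le_univ s).trans (by simp)
    rcases Nat.lt_or_ge s.card 1 with h | h
    · exfalso
      have hempty : s = ∅ := Finset.card_eq_zero.1 (by omega)
      subst hempty
      refine hne.1 (conj_eq_one_iff.1 (show c * x * c⁻¹ = 1 from symp_ext_std (fun i => ?_) fun i => ?_))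
      · simpa using (hs i).1
      · simpa using (hs i).2
    rcases Nat.lt_or_ge s.card 2 with h' | h'
    · omega
    exfalso
    have hfull : s = Finset.univ := Finset.eq_univ_of_card s (by simp; omega)
    subst hfull
    have hz : c * x * c⁻¹ = negOne 2 F := symp_ext_std (fun i => by
      rw [(hs i).1, coe_negOne, neg_mulVec, one_mulVec]; simp) (fun i => by
      rw [(hs i).2, coe_negOne, neg_mulVec, one_mulVec]; simp)
    refine hne.2 ?_
    have hc : negOne 2 F ∈ Subgroup.center Sp4 := mem_center_iff.2 (Or.inr rfl)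
    have : x = c⁻¹ * negOne 2 F * c := by rw [← hz]; group
    rw [this, mul_assoc, ← Subgroup.mem_center_iff.1 hc c, inv_mul_cancel_left]
  obtain ⟨c, s, hs, hc⟩ := key g hg h1
  obtain ⟨c', s', hs', hc'⟩ := key g' hg' h1'
  exact ((isConj_iff.2 ⟨c, rfl⟩).trans (isConj_of_signPattern hs hs' (by omega))).trans
    (isConj_iff.2 ⟨c', rfl⟩).symm

variable {W : Subgroup (Matrix.SpecialLinearGroup (Fin 2) F)} (Q : QData W)

include Q in
/-- In the quaternion group of order eight conjugation only changes signs. -/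
lemma QData.conj_pm (h2 : (2 : F) ≠ 0) (hk : Q.k = 1) {a c : SL₂} (ha : a ∈ W) (hc : c ∈ W) :
    a * c * a⁻¹ = c ∨ a * c * a⁻¹ = -c := by
  have hmul : ∀ a : SL₂, ∀ c d : SL₂, (a * c * a⁻¹ = c ∨ a * c * a⁻¹ = -c) →
      (a * d * a⁻¹ = d ∨ a * d * a⁻¹ = -d) → (a * (c * d) * a⁻¹ = c * d ∨ a * (c * d) * a⁻¹ = -(c * d)) := by
    intro a c d hc hd
    rw [show a * (c * d) * a⁻¹ = (a * c * a⁻¹) * (a * d * a⁻¹) by group]
    rcases hc with h | h <;> rcases hd with h' | h' <;> rw [h, h'] <;> simp [neg_mul, mul_neg]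
  have hux : Q.u = Q.x := by rw [QData.u, hk]; simp
  have hxx : Q.x * Q.x = -1 := hux ▸ Q.u_sq h2
  have hgen : ∀ a : SL₂, (a * Q.x * a⁻¹ = Q.x ∨ a * Q.x * a⁻¹ = -Q.x) →
      (a * Q.y * a⁻¹ = Q.y ∨ a * Q.y * a⁻¹ = -Q.y) → ∀ c ∈ W, (a * c * a⁻¹ = c ∨ a * c * a⁻¹ = -c) := by
    intro a hx hy c hc
    have hpow : ∀ i : ℕ, (a * Q.x ^ i * a⁻¹ = Q.x ^ i ∨ a * Q.x ^ i * a⁻¹ = -Q.x ^ i) := by
      intro i
      induction i with
      | zero => left; simp
      | succ i ih => rw [pow_succ]; exact hmul a _ _ ih hx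
    rcases Q.hcov c hc with ⟨i, rfl⟩ | ⟨i, rfl⟩
    · exact hpow i
    · exact hmul a _ _ (hpow i) hy
  have hyx : Q.y * Q.x * Q.y⁻¹ = -Q.x := by rw [Q.hyx, inv_eq_neg_of_sq hxx]
  have hxy : Q.x * Q.y * Q.x⁻¹ = -Q.y := by
    have h := Q.y_mul_u h2
    rw [hux] at h
    rw [mul_inv_eq_iff_eq_mul, neg_mul, h, neg_neg]
  have hx := hgen Q.x (Or.inl (by group)) (Or.inr hxy)
  have hy := hgen Q.y (Or.inr hyx) (Or.inl (by group))
  have hprod : ∀ a b : SL₂, (∀ c ∈ W, a * c * a⁻¹ = c ∨ a * c * a⁻¹ = -c) →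
      (∀ c ∈ W, b * c * b⁻¹ = c ∨ b * c * b⁻¹ = -c) →
      ∀ c ∈ W, (a * b) * c * (a * b)⁻¹ = c ∨ (a * b) * c * (a * b)⁻¹ = -c := by
    intro a b ha hb c hc
    rw [show (a * b) * c * (a * b)⁻¹ = a * (b * c * b⁻¹) * a⁻¹ by group]
    rcases hb c hc with h | h <;> rw [h]
    · exact ha c hc
    · rw [mul_neg, neg_mul]
      rcases ha c hc with h' | h' <;> rw [h'] <;> simp
  have hpow : ∀ i : ℕ, ∀ c ∈ W, (Q.x ^ i) * c * (Q.x ^ i)⁻¹ = c ∨ (Q.x ^ i) * c * (Q.x ^ i)⁻¹ = -c := by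
    intro i
    induction i with
    | zero => intro c _; left; simp
    | succ i ih => rw [pow_succ]; exact hprod _ _ ih hx
  rcases Q.hcov a ha with ⟨i, rfl⟩ | ⟨i, rfl⟩
  · exact hpow i c hc
  · exact hprod _ _ (hpow i) hy c hc

/-- The twisted diagonal `{(a, ±a)}⟨τ⟩`. -/
def twisted (W : Subgroup (Matrix.SpecialLinearGroup (Fin 2) F)) (hW : (-1 : Matrix.SpecialLinearGroup (Fin 2) F) ∈ W) :
    Subgroup (Matrix.symplecticGroup (Fin 2) F) where
  carrier := {g | ∃ a ∈ W, ∃ b, (b = a ∨ b = -a) ∧ (g = phi (a, b) ∨ g = phi (a, b) * tau)}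
  one_mem' := ⟨1, W.one_mem, 1, Or.inl rfl, Or.inl (map_one phi).symm⟩
  mul_mem' := by
    have hmem : ∀ {a b : SL₂}, a ∈ W → (b = a ∨ b = -a) → b ∈ W := by
      rintro a b ha (rfl | rfl)
      · exact ha
      · rw [← neg_one_mul]; exact W.mul_mem hW ha
    have hprod : ∀ {a b c d : SL₂}, (b = a ∨ b = -a) → (d = c ∨ d = -c) → (b * d = a * c ∨ b * d = -(a * c)) := by
      rintro a b c d (rfl | rfl) (rfl | rfl) <;> simp [neg_mul, mul_neg]
    rintro g h ⟨a, ha, b, hb, rfl | rfl⟩ ⟨c, hc, d, hd, rfl | rfl⟩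
    · exact ⟨_, W.mul_mem ha hc, _, hprod hb hd, Or.inl (map_mul phi (a, b) (c, d)).symm⟩
    · exact ⟨_, W.mul_mem ha hc, _, hprod hb hd, Or.inr (by rw [← mul_assoc, ← map_mul]; rfl)⟩
    · refine ⟨_, W.mul_mem ha (hmem hc hd), b * c, hprod hb ?_, Or.inr (by
        rw [mul_assoc, tau_mul_phi, ← mul_assoc, ← map_mul]; rfl)⟩
      rcases hd with rfl | rfl <;> simp
    · refine ⟨_, W.mul_mem ha (hmem hc hd), b * c, hprod hb ?_, Or.inl ?_⟩
      · rcases hd with rfl | rfl <;> simp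
      · rw [mul_assoc, ← mul_assoc tau, tau_mul_phi, mul_assoc _ tau, tau_mul_tau, mul_one, ← map_mul]
        rfl
  inv_mem' := by
    rintro g ⟨a, ha, b, hb, rfl | rfl⟩
    · refine ⟨_, W.inv_mem ha, b⁻¹, ?_, Or.inl (map_inv phi (a, b)).symm⟩
      rcases hb with rfl | rfl
      · exact Or.inl rfl
      · exact Or.inr (inv_eq_of_mul_eq_one_right (by simp))
    · have hbW : b ∈ W := by
        rcases hb with rfl | rfl
        · exact ha
        · rw [← neg_one_mul]; exact W.mul_mem hW ha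
      refine ⟨_, W.inv_mem hbW, a⁻¹, ?_, Or.inr (by
        rw [_root_.mul_inv_rev, tau_inv, ← map_inv, Prod.inv_mk, tau_mul_phi])⟩
      rcases hb with rfl | rfl
      · exact Or.inl rfl
      · refine Or.inr ?_
        rw [show (-a)⁻¹ = -a⁻¹ from inv_eq_of_mul_eq_one_right (by simp), neg_neg]

lemma twisted_le_wreath (hW : (-1 : SL₂) ∈ W) : twisted W hW ≤ wreath W := by
  rintro g ⟨a, ha, b, hb, h⟩
  refine ⟨a, ha, b, ?_, h⟩
  rcases hb with rfl | rfl
  · exact ha
  · rw [← neg_one_mul]; exact W.mul_mem hW ha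

lemma phi_mem_twisted (hW : (-1 : SL₂) ∈ W) {a b : SL₂} (ha : a ∈ W) (hb : b = a ∨ b = -a) :
    phi (a, b) ∈ twisted W hW := ⟨a, ha, b, hb, Or.inl rfl⟩

lemma tau_mem_twisted (hW : (-1 : SL₂) ∈ W) : (tau : Sp4) ∈ twisted W hW :=
  ⟨1, W.one_mem, 1, Or.inl rfl, Or.inr (by rw [show ((1 : SL₂), (1 : SL₂)) = 1 from rfl, map_one, one_mul])⟩

include Q in
lemma twisted_normal (h2 : (2 : F) ≠ 0) (hk : Q.k = 1) (hW : (-1 : SL₂) ∈ W) {g e : Sp4}
    (hg : g ∈ wreath W) (he : e ∈ twisted W hW) : g * e * g⁻¹ ∈ twisted W hW := by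
  have hphi : ∀ a b : SL₂, a ∈ W → b ∈ W → ∀ e ∈ twisted W hW, phi (a, b) * e * (phi (a, b))⁻¹ ∈ twisted W hW := by
    intro a b ha hb e he
    have hdiag : ∀ c d : SL₂, c ∈ W → (d = c ∨ d = -c) → phi (a, b) * phi (c, d) * (phi (a, b))⁻¹ ∈ twisted W hW := by
      intro c d hc hd
      rw [← map_inv, ← map_mul, ← map_mul, Prod.inv_mk, Prod.mk_mul_mk, Prod.mk_mul_mk]
      refine phi_mem_twisted hW (W.mul_mem (W.mul_mem ha hc) (W.inv_mem ha)) ?_
      rcases hd with rfl | rfl <;> rcases Q.conj_pm h2 hk ha hc with h | h <;>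
        rcases Q.conj_pm h2 hk hb hc with h' | h' <;> simp [h, h', mul_neg, neg_mul]
    have htau : phi (a, b) * tau * (phi (a, b))⁻¹ ∈ twisted W hW := by
      rw [← map_inv, Prod.inv_mk, mul_assoc, tau_mul_phi, ← mul_assoc, ← map_mul, Prod.mk_mul_mk]
      refine (twisted W hW).mul_mem (phi_mem_twisted hW (W.mul_mem ha (W.inv_mem hb)) ?_) (tau_mem_twisted hW)
      set w := a * b⁻¹ with hw
      have hwW : w ∈ W := W.mul_mem ha (W.inv_mem hb)
      have e : b * a⁻¹ = w⁻¹ := by rw [hw]; group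
      rw [e]
      rcases Q.hcov w hwW with ⟨i, hi⟩ | ⟨i, hi⟩
      · have hsq : w * w = 1 ∨ w * w = -1 := by
          have hux : Q.u = Q.x := by rw [QData.u, hk]; simp
          rw [hi, ← pow_add, ← two_mul, pow_mul, pow_two Q.x, ← hux, Q.u_sq h2]
          exact neg_one_pow_eq_or SL₂ i
        rcases hsq with h | h
        · exact Or.inl (inv_eq_of_mul_eq_one_right h)
        · exact Or.inr (inv_eq_neg_of_sq h)
      · exact Or.inr (inv_eq_neg_of_sq (hi ▸ Q.xy_sq i))
    obtain ⟨c, hc, d, hd, rfl | rfl⟩ := he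
    · exact hdiag c d hc hd
    · rw [show phi (a, b) * (phi (c, d) * tau) * (phi (a, b))⁻¹ =
        (phi (a, b) * phi (c, d) * (phi (a, b))⁻¹) * (phi (a, b) * tau * (phi (a, b))⁻¹) by group]
      exact (twisted W hW).mul_mem (hdiag c d hc hd) htau
  obtain ⟨a, ha, b, hb, rfl | rfl⟩ := hg
  · exact hphi a b ha hb e he
  · rw [show phi (a, b) * tau * e * (phi (a, b) * tau)⁻¹ =
      phi (a, b) * (tau * e * tau⁻¹) * (phi (a, b))⁻¹ by group]
    exact hphi a b ha hb _ ((twisted W hW).mul_mem ((twisted W hW).mul_mem (tau_mem_twisted hW) he)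
      ((twisted W hW).inv_mem (tau_mem_twisted hW)))

include Q in
lemma twisted_centric (h2 : (2 : F) ≠ 0) (hW : (-1 : SL₂) ∈ W) {g : Sp4} (hg : g ∈ wreath W)
    (hc : ∀ e ∈ twisted W hW, g * e * g⁻¹ = e ∨ g * e * g⁻¹ = negOne 2 F * e) : g ∈ twisted W hW := by
  have key : ∀ (a b : SL₂), a ∈ W → (∀ c ∈ W, a * c * a⁻¹ = b * c * b⁻¹) → b = a ∨ b = -a := by
    intro a b ha h
    have hz : a⁻¹ * b = 1 ∨ a⁻¹ * b = -1 := by
      refine QData.eq_of_commute h2 (a := Q.u) (b := Q.y) ?_ ?_ (Q.not_commute h2)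
      · have := h Q.u Q.u_mem
        calc a⁻¹ * b * Q.u = a⁻¹ * (b * Q.u * b⁻¹) * b := by group
          _ = a⁻¹ * (a * Q.u * a⁻¹) * b := by rw [this]
          _ = Q.u * (a⁻¹ * b) := by group
      · have := h Q.y Q.hy
        calc a⁻¹ * b * Q.y = a⁻¹ * (b * Q.y * b⁻¹) * b := by group
          _ = a⁻¹ * (a * Q.y * a⁻¹) * b := by rw [this]
          _ = Q.y * (a⁻¹ * b) := by group
    rcases hz with h' | h'
    · exact Or.inl (inv_mul_eq_one.1 h').symm
    · exact Or.inr (by rw [inv_mul_eq_iff_eq_mul] at h'; rw [h', mul_neg, mul_one])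
  obtain ⟨a, ha, b, hb, rfl | rfl⟩ := hg
  · refine phi_mem_twisted hW ha (key a b ha fun c hcW => ?_)
    have h := hc _ (phi_mem_twisted hW hcW (Or.inl rfl))
    rw [← map_inv, ← map_mul, ← map_mul, negOne_mul_phi, Prod.inv_mk, Prod.mk_mul_mk, Prod.mk_mul_mk] at h
    rcases h with h | h <;> obtain ⟨h1, h1'⟩ := Prod.mk.inj (phi_injective h) <;> rw [h1, h1']
  · refine (twisted W hW).mul_mem (phi_mem_twisted hW ha (key a b ha fun c hcW => ?_)) (tau_mem_twisted hW)
    have h := hc _ (phi_mem_twisted hW hcW (Or.inl rfl))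
    rw [show phi (a, b) * tau * phi (c, c) * (phi (a, b) * tau)⁻¹ =
      phi (a, b) * (tau * phi (c, c) * tau⁻¹) * (phi (a, b))⁻¹ by group, tau_mul_phi, mul_inv_cancel_right,
      ← map_inv, ← map_mul, ← map_mul, negOne_mul_phi, Prod.inv_mk, Prod.mk_mul_mk, Prod.mk_mul_mk] at h
    rcases h with h | h <;> obtain ⟨h1, h1'⟩ := Prod.mk.inj (phi_injective h) <;> rw [h1, h1']

/-- The involution attached to `x` of square `-1`. -/
def gam (x : SL₂) : Sp4 := phi (x, -x) * tau

lemma gam_mul_gam (x y : SL₂) : gam x * gam y = phi (-(x * y), -(x * y)) := by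
  rw [gam, gam, mul_assoc, ← mul_assoc tau, tau_mul_phi, mul_assoc _ tau, tau_mul_tau, mul_one, ← map_mul,
    Prod.mk_mul_mk, mul_neg, neg_mul]

lemma gam_mul_self {x : SL₂} (hx : x * x = -1) : gam x * gam x = 1 := by
  rw [gam_mul_gam, hx, neg_neg, show ((1 : SL₂), (1 : SL₂)) = 1 from rfl, map_one]

lemma sym_comm {γ : Sp4} (h : γ * γ = 1) : ((γ : Mat4))ᵀ * J (Fin 2) F = J (Fin 2) F * (γ : Mat4) := by
  have h1 : (γ : Mat4) * (γ : Mat4) = 1 := congrArg Subtype.val h
  have e := SymplecticGroup.mem_iff'.1 γ.2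
  calc (γ : Mat4)ᵀ * J (Fin 2) F = (γ : Mat4)ᵀ * J (Fin 2) F * ((γ : Mat4) * (γ : Mat4)) := by rw [h1, mul_one]
    _ = J (Fin 2) F * (γ : Mat4) := by rw [← mul_assoc, e]

set_option maxHeartbeats 1000000 in
include Q in
/-- The diagonal element of order three is a product of two elements of order four normalising `E`. -/
lemma exists_two_factors (h2 : (2 : F) ≠ 0) (hk : Q.k = 1) (hW : (-1 : SL₂) ∈ W) {v t : SL₂} (hv : v ∈ W)
    (hv2 : v * v = -1) (hvu : v * Q.u = -(Q.u * v))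
    (ht : (t : Mat2) = (2 : F)⁻¹ • (1 + (Q.u : Mat2) + (v : Mat2) + (Q.u : Mat2) * (v : Mat2))) :
    ∃ d₁ d₂ : Sp4, d₁ ^ 4 = 1 ∧ d₂ ^ 4 = 1 ∧
      (∀ e ∈ twisted W hW, d₁ * e * d₁⁻¹ ∈ twisted W hW) ∧
      (∀ e ∈ twisted W hW, d₂ * e * d₂⁻¹ ∈ twisted W hW) ∧ phi (t, t) = d₁ * d₂ := by
  set u := Q.u with hu_def
  obtain ⟨w, hw⟩ : ∃ w : SL₂, w = u * v := ⟨_, rfl⟩
  have hu2 := Q.u_sq h2
  have huvw : v * w = u := by
    rw [hw, ← mul_assoc, hvu, neg_mul, mul_assoc, hv2, mul_neg, mul_one, neg_neg]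
  have huw : u * w = -v := by rw [hw, ← mul_assoc, hu2, neg_one_mul]
  have hw2 : w * w = -1 := by nth_rw 1 [hw]; rw [mul_assoc, huvw, hu2]
  have hwu : w * u = v := by rw [hw, mul_assoc, hvu, mul_neg, ← hw, huw, neg_neg]
  have hwv : w * v = -u := by rw [hw, mul_assoc, hv2, mul_neg, mul_one]
  set sg : Sp4 := phi (1, -1) with hsg
  have hsg2 : sg * sg = 1 := by
    rw [hsg, ← map_mul, Prod.mk_mul_mk, one_mul, neg_mul, one_mul, neg_neg,
      show ((1 : SL₂), (1 : SL₂)) = 1 from rfl, map_one]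
  have anti : ∀ x y z : Sp4, x * y = negOne 2 F * z → y * x = z →
      (x : Mat4) * (y : Mat4) = -((y : Mat4) * (x : Mat4)) := by
    intro x y z h1 h2
    rw [← Submonoid.coe_mul, h1, ← Submonoid.coe_mul, h2, Submonoid.coe_mul, coe_negOne, neg_one_mul]
  have sgr : (sg : Mat4) * ((tau : Sp4) : Mat4) = -(((tau : Sp4) : Mat4) * (sg : Mat4)) :=
    anti sg tau (phi (-1, 1) * tau) (by rw [← mul_assoc, negOne_mul_phi, neg_neg]) (by rw [hsg, tau_mul_phi])
  have gsg : ∀ x : SL₂, (gam x : Mat4) * (sg : Mat4) = -((sg : Mat4) * (gam x : Mat4)) := by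
    intro x
    refine anti (gam x) sg (phi (x, x) * tau) ?_ ?_
    · rw [gam, hsg, mul_assoc, tau_mul_phi, ← mul_assoc, ← map_mul, Prod.mk_mul_mk, ← mul_assoc, negOne_mul_phi]
      simp
    · rw [gam, hsg, ← mul_assoc, ← map_mul, Prod.mk_mul_mk]
      simp
  have gr : ∀ x : SL₂, (gam x : Mat4) * ((tau : Sp4) : Mat4) = -(((tau : Sp4) : Mat4) * (gam x : Mat4)) := by
    intro x
    refine anti (gam x) tau (phi (-x, x)) ?_ ?_
    · rw [gam, mul_assoc, tau_mul_tau, mul_one, negOne_mul_phi, neg_neg]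
    · rw [gam, ← mul_assoc, tau_mul_phi, mul_assoc, tau_mul_tau, mul_one]
  have gg : ∀ x y z : SL₂, x * y = z → y * x = -z →
      (gam x : Mat4) * (gam y : Mat4) = -((gam y : Mat4) * (gam x : Mat4)) := by
    intro x y z h1 h2
    refine anti (gam x) (gam y) (phi (z, z)) ?_ ?_
    · rw [gam_mul_gam, h1, negOne_mul_phi]
    · rw [gam_mul_gam, h2, neg_neg]
  have ab := gg u v w hw.symm (by rw [hw]; exact hvu)
  have ac := gg u w (-v) huw (by rw [hwu, neg_neg])
  have bc := gg v w u huvw hwv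
  have sq : ∀ γ : Sp4, γ * γ = 1 → (γ : Mat4) * (γ : Mat4) = 1 := fun γ h => congrArg Subtype.val h
  set a : Mat4 := (gam u : Mat4) with ha_def
  set b : Mat4 := (gam v : Mat4) with hb_def
  set c : Mat4 := (gam w : Mat4) with hc_def
  set f : Mat4 := (sg : Mat4) with hf_def
  set g : Mat4 := ((tau : Sp4) : Mat4) with hg_def
  have a2 : a * a = 1 := sq _ (gam_mul_self hu2)
  have b2 : b * b = 1 := sq _ (gam_mul_self hv2)
  have c2 : c * c = 1 := sq _ (gam_mul_self hw2)
  have f2 : f * f = 1 := sq _ hsg2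
  have g2 : g * g = 1 := sq _ tau_mul_tau
  have neg_flip : ∀ x y : Mat4, x * y = -(y * x) → y * x = -(x * y) := fun x y h => by rw [h, neg_neg]
  have af := gsg u; have ag := gr u; have bf := gsg v; have bg := gr v; have cf := gsg w; have cg := gr w
  rw [← ha_def] at af ag; rw [← hb_def] at bf bg; rw [← hc_def] at cf cg
  have mem : ∀ (x y : Sp4), x * x = 1 → y * y = 1 →
      (x : Mat4) * (y : Mat4) = -((y : Mat4) * (x : Mat4)) →
      (x : Mat4) * f = -(f * (x : Mat4)) → (x : Mat4) * g = -(g * (x : Mat4)) →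
      (y : Mat4) * f = -(f * (y : Mat4)) → (y : Mat4) * g = -(g * (y : Mat4)) →
      dd F (x : Mat4) (y : Mat4) f g ∈ Matrix.symplecticGroup (Fin 2) F := by
    intro x y hx hy hxy hxf hxg hyf hyg
    have hC : (((x : Mat4) - (y : Mat4)))ᵀ * J (Fin 2) F = J (Fin 2) F * ((x : Mat4) - (y : Mat4)) := by
      rw [transpose_sub, sub_mul, mul_sub, sym_comm hx, sym_comm hy]
    have hK : (f - g)ᵀ * J (Fin 2) F = J (Fin 2) F * (f - g) := by
      rw [transpose_sub, sub_mul, mul_sub, hf_def, hg_def, sym_comm hsg2, sym_comm tau_mul_tau]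
    rw [SymplecticGroup.mem_iff', dd, transpose_smul, transpose_mul, smul_mul_assoc, smul_mul_assoc,
      mul_smul_comm, smul_smul, mul_assoc (f - g)ᵀ, hC, ← mul_assoc (f - g)ᵀ (J (Fin 2) F), hK, mul_assoc, mul_assoc,
      ← mul_assoc ((x : Mat4) - (y : Mat4)), diff_sq (sq _ hx) (sq _ hy) hxy,
      show (2 : Mat4) = (2 : F) • (1 : Mat4) by rw [two_smul]; norm_num, smul_mul_assoc, one_mul,
      mul_smul_comm, mul_smul_comm, diff_sq f2 g2 sgr,
      show (2 : Mat4) = (2 : F) • (1 : Mat4) by rw [two_smul]; norm_num, mul_smul_comm, mul_one,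
      smul_smul, smul_smul, show (2 : F)⁻¹ * 2⁻¹ * 2 * 2 = 1 by field_simp, one_smul]
  obtain ⟨d₁, hd₁⟩ : ∃ d : Sp4, (d : Mat4) = dd F a b f g :=
    ⟨⟨_, mem _ _ (gam_mul_self hu2) (gam_mul_self hv2) ab af ag bf bg⟩, rfl⟩
  obtain ⟨d₂, hd₂⟩ : ∃ d : Sp4, (d : Mat4) = dd F b c f g :=
    ⟨⟨_, mem _ _ (gam_mul_self hv2) (gam_mul_self hw2) bc bf bg cf cg⟩, rfl⟩
  have p4 : ∀ (d : Sp4), (d : Mat4) * (d : Mat4) = -1 → d ^ 4 = 1 := by
    intro d hd
    refine Subtype.ext ?_
    rw [SubmonoidClass.coe_pow, show (4 : ℕ) = 2 * 2 from rfl, pow_mul, pow_two (d : Mat4), hd, neg_one_sq]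
    rfl
  -- the twisted diagonal is generated by the five involutions and `-1`
  have hgen : ∀ H : Subgroup Sp4, negOne 2 F ∈ H → gam u ∈ H → gam v ∈ H → gam w ∈ H → sg ∈ H → tau ∈ H →
      twisted W hW ≤ H := by
    intro H hn hu hv' hw' hs ht'
    have hdu : phi (u, u) ∈ H := by
      have := H.mul_mem hn (H.mul_mem hv' hw')
      rwa [gam_mul_gam, huvw, negOne_mul_phi, neg_neg] at this
    have hdv : phi (v, v) ∈ H := by
      have := H.mul_mem hn (H.mul_mem hw' hu)
      rwa [gam_mul_gam, hwu, negOne_mul_phi, neg_neg] at this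
    let diag : SL₂ →* Sp4 := phi.comp ((MonoidHom.id SL₂).prod (MonoidHom.id SL₂))
    have hux : u = Q.x := by rw [hu_def, QData.u, hk]; simp
    have hx : Q.x ∈ H.comap diag := hux ▸ hdu
    have hy : Q.y ∈ H.comap diag := by
      rcases Q.hcov v hv with ⟨j, hj⟩ | ⟨j, hj⟩
      · exfalso
        refine not_commute_of_anti h2 hvu ?_
        rw [hj, hux]
        exact (Commute.pow_self Q.x j).symm.eq
      · rw [show Q.y = (Q.x ^ j)⁻¹ * v by rw [hj, inv_mul_cancel_left]]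
        exact (H.comap diag).mul_mem ((H.comap diag).inv_mem ((H.comap diag).pow_mem hx j)) hdv
    have hdiag : ∀ c ∈ W, phi (c, c) ∈ H := by
      intro c hc
      rcases Q.hcov c hc with ⟨i, rfl⟩ | ⟨i, rfl⟩
      · exact (H.comap diag).pow_mem hx i
      · exact (H.comap diag).mul_mem ((H.comap diag).pow_mem hx i) hy
    rintro e ⟨c, hc, d, hd, he⟩
    have hcd : phi (c, d) ∈ H := by
      rcases hd with rfl | rfl
      · exact hdiag d hc
      · have := H.mul_mem (hdiag c hc) hs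
        rwa [hsg, ← map_mul, Prod.mk_mul_mk, mul_one, mul_neg, mul_one] at this
    rcases he with rfl | rfl
    · exact hcd
    · exact H.mul_mem hcd ht'
  have hgE : ∀ x : SL₂, x ∈ W → gam x ∈ twisted W hW := fun x hx =>
    (twisted W hW).mul_mem (phi_mem_twisted hW hx (Or.inr rfl)) (tau_mem_twisted hW)
  have hwW : w ∈ W := hw ▸ W.mul_mem Q.u_mem hv
  have hsgE : sg ∈ twisted W hW := phi_mem_twisted hW W.one_mem (Or.inr rfl)
  have conj_of : ∀ (d x y : Sp4), (d : Mat4) * (x : Mat4) = (y : Mat4) * (d : Mat4) → d * x * d⁻¹ = y :=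
    fun d x y h => mul_inv_eq_iff_eq_mul.2 (Subtype.ext h)
  have hneg : ∀ d : Sp4, negOne 2 F ∈ (twisted W hW).comap (MulAut.conj d).toMonoidHom := fun d => by
    show d * negOne 2 F * d⁻¹ ∈ twisted W hW
    rw [Subgroup.mem_center_iff.1 (mem_center_iff.2 (Or.inr rfl) : negOne 2 F ∈ Subgroup.center Sp4) d,
      mul_inv_cancel_right, ← phi_neg_one]
    exact phi_mem_twisted hW hW (Or.inl rfl)
  have norm1 : ∀ e ∈ twisted W hW, d₁ * e * d₁⁻¹ ∈ twisted W hW := by
    intro e he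
    refine hgen ((twisted W hW).comap (MulAut.conj d₁).toMonoidHom) (hneg d₁) ?_ ?_ ?_ ?_ ?_ he <;>
      show d₁ * _ * d₁⁻¹ ∈ twisted W hW
    · rw [conj_of d₁ (gam u) (gam v) (by rw [hd₁]; exact dd_left a2 b2 af ag bf bg)]; exact hgE v hv
    · rw [conj_of d₁ (gam v) (gam u) (by
        rw [hd₁, ← dd_swap]; exact dd_left b2 a2 bg bf ag af)]; exact hgE u Q.u_mem
    · rw [conj_of d₁ (gam w) (gam w) (by
        rw [hd₁]; exact dd_commute ac bc (neg_flip _ _ cf) (neg_flip _ _ cg))]; exact hgE w hwW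
    · rw [conj_of d₁ sg tau (by rw [hd₁]; exact dd_right f2 g2 af ag bf bg)]; exact tau_mem_twisted hW
    · rw [conj_of d₁ tau sg (by
        rw [hd₁, ← dd_swap]; exact dd_right g2 f2 bg bf ag af)]; exact hsgE
  have norm2 : ∀ e ∈ twisted W hW, d₂ * e * d₂⁻¹ ∈ twisted W hW := by
    intro e he
    refine hgen ((twisted W hW).comap (MulAut.conj d₂).toMonoidHom) (hneg d₂) ?_ ?_ ?_ ?_ ?_ he <;>
      show d₂ * _ * d₂⁻¹ ∈ twisted W hW
    · rw [conj_of d₂ (gam u) (gam u) (by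
        rw [hd₂]; exact dd_commute (neg_flip _ _ ab) (neg_flip _ _ ac) (neg_flip _ _ af) (neg_flip _ _ ag))]
      exact hgE u Q.u_mem
    · rw [conj_of d₂ (gam v) (gam w) (by rw [hd₂]; exact dd_left b2 c2 bf bg cf cg)]; exact hgE w hwW
    · rw [conj_of d₂ (gam w) (gam v) (by
        rw [hd₂, ← dd_swap]; exact dd_left c2 b2 cg cf bg bf)]; exact hgE v hv
    · rw [conj_of d₂ sg tau (by rw [hd₂]; exact dd_right f2 g2 bf bg cf cg)]; exact tau_mem_twisted hW
    · rw [conj_of d₂ tau sg (by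
        rw [hd₂, ← dd_swap]; exact dd_right g2 f2 cg cf bg bf)]; exact hsgE
  refine ⟨d₁, d₂, p4 _ (by rw [hd₁]; exact dd_sq a2 b2 f2 g2 ab sgr af ag bf bg h2),
    p4 _ (by rw [hd₂]; exact dd_sq b2 c2 f2 g2 bc sgr bf bg cf cg h2), norm1, norm2, Subtype.ext ?_⟩
  have cxy : ∀ x y : SL₂, (gam x : Mat4) * (gam y : Mat4) =
      psi (-((x : Mat2) * (y : Mat2)), -((x : Mat2) * (y : Mat2))) := by
    intro x y
    rw [← Submonoid.coe_mul, gam_mul_gam, coe_phi, Matrix.SpecialLinearGroup.coe_neg,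
      Matrix.SpecialLinearGroup.coe_mul]
  have hvw' : (v : Mat2) * (w : Mat2) = (u : Mat2) := by rw [← Matrix.SpecialLinearGroup.coe_mul, huvw]
  have huw' : (u : Mat2) * (w : Mat2) = -(v : Mat2) := by
    rw [← Matrix.SpecialLinearGroup.coe_mul, huw, Matrix.SpecialLinearGroup.coe_neg]
  have hk' : (f - g) * ((b - c) * (f - g)) = -((b - c) * (2 : Mat4)) := by
    rw [← mul_assoc, show (f - g) * (b - c) = -((b - c) * (f - g)) by rw [cd_anti bf bg cf cg, neg_neg],
      neg_mul, mul_assoc, diff_sq f2 g2 sgr]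
  rw [coe_phi, Submonoid.coe_mul, hd₁, hd₂, dd, dd, smul_mul_smul_comm, mul_assoc, hk', mul_neg, ← mul_assoc,
    sub_mul a b, mul_sub, mul_sub, ha_def, hb_def, hc_def, cxy, cxy, cxy, cxy, hvw', huw']
  rw [show (2 : Mat4) = (2 : F) • (1 : Mat4) by rw [two_smul]; norm_num, mul_smul_comm, mul_one, ← map_sub, ← map_sub,
    ← map_sub, ← map_smul, ← map_neg, ← map_smul]
  congr 1
  rw [← Matrix.SpecialLinearGroup.coe_mul v v, hv2, Matrix.SpecialLinearGroup.coe_neg,
    Matrix.SpecialLinearGroup.coe_one, neg_neg, ht]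
  refine Prod.ext ?_ ?_ <;>
  · simp only [Prod.smul_mk, Prod.neg_mk, Prod.mk_sub_mk]
    match_scalars <;> field_simp <;> ring

end

section Main

variable {F : Type*} [Field F] [Fintype F]

local notation "SL₂" => Matrix.SpecialLinearGroup (Fin 2) F
local notation "Sp4" => Matrix.symplecticGroup (Fin 2) F

variable {G : Type*} [Group G] [Finite G] (π : Matrix.symplecticGroup (Fin 2) F →* G)
  (hπ : Function.Surjective π) (hker : π.ker ≤ Subgroup.center (Matrix.symplecticGroup (Fin 2) F))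
  (hneg : π (negOne 2 F) = 1)

include hker in
lemma eq_or_neg_of_map_eq {x y : Sp4} (h : π x = π y) : x = y ∨ x = negOne 2 F * y := by
  have hz : x * y⁻¹ ∈ Subgroup.center Sp4 := hker (by
    rw [MonoidHom.mem_ker, map_mul, map_inv, h, mul_inv_cancel])
  rcases mem_center_iff.1 hz with hz | hz
  · exact Or.inl (mul_inv_eq_one.1 (Subtype.ext hz))
  · exact Or.inr (mul_inv_eq_iff_eq_mul.1 (Subtype.ext hz))

include hπ hker hneg in
lemma isSimple_image [Fact (Nat.Prime 2)] (hodd : Odd (Fintype.card F)) (W : Sylow 2 SL₂) (S : Sylow 2 G)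
    (hS : (S : Subgroup G) = (wreath (W : Subgroup SL₂)).map π) :
    (Cfsg.groupFusionSystem (S : Subgroup G)).IsSimple 2 := by
  classical
  have h2 : (2 : F) ≠ 0 := CfsgLib.SL2.two_ne_zero_iff_odd.2 hodd
  obtain ⟨Q⟩ := exists_qData h2 W
  have hW := Q.neg_one_mem h2
  set F' := Cfsg.groupFusionSystem (S : Subgroup G) with hF'
  set Wr := wreath (W : Subgroup SL₂) with hWr
  have hnW : negOne 2 F ∈ Wr := by rw [hWr, ← phi_neg_one]; exact phi_mem_wreath _ hW hW
  have hpre : ∀ {x : Sp4}, π x ∈ (S : Subgroup G) → x ∈ Wr := by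
    intro x hx
    rw [hS] at hx
    obtain ⟨y, hy, he⟩ := hx
    rcases eq_or_neg_of_map_eq π hker he.symm with h | h
    · exact h ▸ hy
    · exact h ▸ Wr.mul_mem hnW hy
  have hcentral : negOne 2 F ∈ Subgroup.center Sp4 := mem_center_iff.2 (Or.inr rfl)
  have hone : phi ((1 : SL₂), (1 : SL₂)) = 1 := map_one phi
  have hsq1 : phi (Q.u, Q.u) ∈ Wr := phi_mem_wreath _ Q.u_mem Q.u_mem
  have hm1 : ((-1 : SL₂)) ≠ 1 := CfsgLib.SL2.neg_one_ne_one h2
  have hS1 : (S : Subgroup G) ≠ ⊥ := by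
    rw [hS]
    intro h
    have hm : π tau ∈ Wr.map π := ⟨_, tau_mem_wreath _, rfl⟩
    rw [h, Subgroup.mem_bot, ← map_one π] at hm
    rcases eq_or_neg_of_map_eq π hker hm with h' | h'
    · exact tau_not_range 1 1 (h'.trans hone.symm)
    · exact tau_not_range (-1) (-1) (by rw [h', mul_one, phi_neg_one])
  refine CfsgLib.Fus.NormalOverSylow.isSimple_of_generated S (isSaturated_group S) hS1 ?_ ?_
  · intro T hT
    by_cases hT1 : T = ⊥
    · exact Or.inl hT1
    refine Or.inr (le_antisymm hT.1 ?_)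
    have hclosed : ∀ (g x : G), x ∈ T → g * x * g⁻¹ ∈ (S : Subgroup G) → g * x * g⁻¹ ∈ T := by
      intro g x hx hgx
      have hmem : Cfsg.conjHom (Subgroup.zpowers x) g ∈ F'.Hom (Subgroup.zpowers x) := by
        refine CfsgLib.Fus.NormalOverSylow.conjHom_mem_group ((Subgroup.zpowers_le.2 hx).trans hT.1) ?_
        rintro _ ⟨k, rfl⟩
        show g * x ^ k * g⁻¹ ∈ (S : Subgroup G)
        rw [← conj_zpow]
        exact Subgroup.zpow_mem _ hgx k
      exact hT.2 _ (Subgroup.zpowers_le.2 hx) _ hmem ⟨x, Subgroup.mem_zpowers x⟩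
    set M := T.comap π with hM
    have hmove : ∀ x y : Sp4, x ∈ M → IsConj x y → y ∈ Wr → y ∈ M := by
      intro x y hx hc hy
      obtain ⟨g, rfl⟩ := isConj_iff.1 hc
      have := hclosed (π g) (π x) hx (by
        rw [← map_inv, ← map_mul, ← map_mul, hS]; exact ⟨_, hy, rfl⟩)
      rwa [← map_inv, ← map_mul, ← map_mul] at this
    have hnM : negOne 2 F ∈ M := by rw [hM, Subgroup.mem_comap, hneg]; exact T.one_mem
    have hnotc : ∀ {x : Sp4}, π x ≠ 1 → x ≠ 1 ∧ x ≠ negOne 2 F := fun h =>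
      ⟨fun e => h (by rw [e, map_one]), fun e => h (by rw [e, hneg])⟩
    -- an element of square `-1` in `T`
    obtain ⟨g0, hg0M, hg0⟩ : ∃ g0 : Sp4, g0 ∈ M ∧ g0 * g0 = negOne 2 F := by
      have hTp : IsPGroup 2 T := S.isPGroup'.to_le hT.1
      haveI : Nontrivial T := (Subgroup.nontrivial_iff_ne_bot T).2 hT1
      obtain ⟨n, hn, hcard⟩ := hTp.nontrivial_iff_card.1 inferInstance
      obtain ⟨x, hx⟩ := exists_prime_orderOf_dvd_card' (G := T) 2 (hcard ▸ dvd_pow_self 2 hn.ne')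
      rw [← Subgroup.orderOf_coe] at hx
      obtain ⟨g, hg⟩ := hπ (x : G)
      have hgM : g ∈ M := by rw [hM, Subgroup.mem_comap, hg]; exact x.2
      have hx2 : π (g * g) = π 1 := by rw [map_mul, map_one, hg, ← pow_two, ← hx, pow_orderOf_eq_one]
      rcases eq_or_neg_of_map_eq π hker hx2 with h | h
      · have hgne := hnotc (x := g) (by rw [hg]; intro e; rw [e, orderOf_one] at hx; norm_num at hx)
        set i0 := phi (Q.u, -Q.u) * tau with hi0
        have hi0W : i0 ∈ Wr := Wr.mul_mem (phi_mem_wreath _ Q.u_mem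
          (by rw [← neg_one_mul]; exact (W : Subgroup SL₂).mul_mem hW Q.u_mem)) (tau_mem_wreath _)
        have hnc : ∀ a b : SL₂, phi (a, b) * tau ≠ 1 ∧ phi (a, b) * tau ≠ negOne 2 F := by
          intro a b
          constructor <;> intro e
          · refine tau_not_range a⁻¹ b⁻¹ ?_
            rw [eq_inv_of_mul_eq_one_right e, ← map_inv]; rfl
          · refine tau_not_range (a⁻¹ * -1) (b⁻¹ * -1) ?_
            rw [← phi_neg_one] at e
            rw [eq_inv_mul_of_mul_eq e, ← map_inv, ← map_mul]; rfl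
        have htM : (tau : Sp4) ∈ M := by
          refine hmove g tau hgM (involution_conj h2 h tau_mul_tau hgne ?_) (tau_mem_wreath _)
          have := hnc 1 1
          rwa [hone, one_mul] at this
        have hi0M : i0 ∈ M :=
          hmove g i0 hgM (involution_conj h2 h (gam_mul_self (Q.u_sq h2)) hgne (hnc _ _)) hi0W
        refine ⟨phi (Q.u, -Q.u), by simpa [hi0] using M.mul_mem hi0M (M.inv_mem htM), ?_⟩
        rw [← map_mul, Prod.mk_mul_mk, Q.u_sq h2, neg_mul_neg, Q.u_sq h2, phi_neg_one]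
      · exact ⟨g, hgM, by rw [h, mul_one]⟩
    -- hence every element of square `-1` of the Sylow subgroup
    have hall : ∀ y : Sp4, y ∈ Wr → y * y = negOne 2 F → y ∈ M := fun y hy hy2 =>
      hmove g0 y hg0M (isConj_of_sq_eq_neg_one h2 (by rw [hg0]; rfl) (by rw [hy2]; rfl)) hy
    have hpair : ∀ a b : SL₂, a ∈ (W : Subgroup SL₂) → b ∈ (W : Subgroup SL₂) → a * a = -1 → b * b = -1 →
        phi (a, b) ∈ M := fun a b ha hb ha2 hb2 =>
      hall _ (phi_mem_wreath _ ha hb) (by rw [← map_mul, Prod.mk_mul_mk, ha2, hb2, phi_neg_one])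
    set k := -(Q.u * Q.y) with hk
    have hkW : k ∈ (W : Subgroup SL₂) := by
      rw [hk, ← neg_one_mul]
      exact (W : Subgroup SL₂).mul_mem hW ((W : Subgroup SL₂).mul_mem Q.u_mem Q.hy)
    have hk2 : k * k = -1 := by
      rw [hk, neg_mul_neg]
      exact Q.xy_sq (2 ^ (Q.k - 1))
    have hk1 : phi (k, 1) ∈ M := by
      have := M.mul_mem hnM (M.mul_mem (hpair _ _ Q.u_mem Q.hy (Q.u_sq h2) Q.hy2) (hpair _ _ Q.hy Q.hy Q.hy2 Q.hy2))
      rwa [← map_mul, Prod.mk_mul_mk, Q.hy2, negOne_mul_phi, neg_neg] at this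
    have hright : ∀ b : SL₂, b ∈ (W : Subgroup SL₂) → b * b = -1 → phi (1, b) ∈ M := by
      intro b hb hb2
      have := M.mul_mem (M.inv_mem hk1) (hpair k b hkW hb hk2 hb2)
      rwa [← map_inv, Prod.inv_mk, ← map_mul, Prod.mk_mul_mk, inv_mul_cancel, inv_one, one_mul] at this
    have hleft : ∀ a : SL₂, a ∈ (W : Subgroup SL₂) → a * a = -1 → phi (a, 1) ∈ M := by
      intro a ha ha2
      have := M.mul_mem (hpair a k ha hkW ha2 hk2) (M.inv_mem (hright k hkW hk2))
      rwa [← map_inv, Prod.inv_mk, ← map_mul, Prod.mk_mul_mk, mul_inv_cancel, inv_one, mul_one] at this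
    have hgenW : ∀ H : Subgroup SL₂, (∀ a, a ∈ (W : Subgroup SL₂) → a * a = -1 → a ∈ H) →
        (W : Subgroup SL₂) ≤ H := by
      intro H h
      have hy := h _ Q.hy Q.hy2
      have hx : Q.x ∈ H := by
        have := H.mul_mem (h _ ((W : Subgroup SL₂).mul_mem ((W : Subgroup SL₂).pow_mem Q.hx 1) Q.hy) (Q.xy_sq 1))
          (H.inv_mem hy)
        rwa [pow_one, mul_inv_cancel_right] at this
      intro w hw
      rcases Q.hcov w hw with ⟨i, rfl⟩ | ⟨i, rfl⟩
      · exact H.pow_mem hx i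
      · exact H.mul_mem (H.pow_mem hx i) hy
    have hprod : ∀ a b : SL₂, a ∈ (W : Subgroup SL₂) → b ∈ (W : Subgroup SL₂) → phi (a, b) ∈ M := by
      intro a b ha hb
      have h1 : (a, (1 : SL₂)) ∈ M.comap phi := hgenW (Subgroup.comap (MonoidHom.inl SL₂ SL₂) (M.comap phi)) hleft ha
      have h2' : ((1 : SL₂), b) ∈ M.comap phi := hgenW (Subgroup.comap (MonoidHom.inr SL₂ SL₂) (M.comap phi)) hright hb
      have h3 := (M.comap phi).mul_mem h1 h2'
      simp only [Prod.mk_mul_mk, mul_one, one_mul] at h3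
      exact h3
    have htau : (tau : Sp4) ∈ M := by
      have hW1 : (1 : SL₂) ∈ (W : Subgroup SL₂) := one_mem _
      have h1 : phi ((1 : SL₂), (-1 : SL₂)) * tau ∈ M := hall _
        (Wr.mul_mem (phi_mem_wreath _ hW1 hW) (tau_mem_wreath _)) (by
          rw [mul_assoc, ← mul_assoc tau, tau_mul_phi, mul_assoc _ tau, tau_mul_tau, mul_one, ← map_mul,
            Prod.mk_mul_mk, one_mul, mul_one, phi_neg_one])
      have := M.mul_mem (M.inv_mem (hprod 1 (-1) hW1 hW)) h1
      rwa [inv_mul_cancel_left] at this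
    rw [hS]
    refine Subgroup.map_le_iff_le_comap.2 ?_
    rintro g ⟨a, ha, b, hb, rfl | rfl⟩
    · exact hprod a b ha hb
    · exact M.mul_mem (hprod a b ha hb) htau
  · set Sup := ⨆ (R : Subgroup G)
      (_ : F'.IsFullyNormalized R ∧ F'.IsCentric R),
      Cfsg.autInducedBy (Subgroup.closure
        {g : G | g ∈ Subgroup.normalizer (R : Set G) ∧ ∃ k : ℕ, orderOf g = 2 ^ k})
        (S : Subgroup G) with hSup
    let J : Subgroup Sp4 :=
      ((Sup.comap (S : Subgroup G).normalizerMonoidHom).map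
        (Subgroup.normalizer ((S : Subgroup G) : Set G)).subtype).comap π
    have hJ : ∀ (R : Subgroup G), F'.IsFullyNormalized R ∧ F'.IsCentric R → ∀ g : Sp4,
        π g ∈ Subgroup.normalizer ((S : Subgroup G) : Set G) →
        π g ∈ Subgroup.closure
          {g : G | g ∈ Subgroup.normalizer (R : Set G) ∧ ∃ k : ℕ, orderOf g = 2 ^ k} → g ∈ J := by
      intro R hR g hgS hg
      refine ⟨⟨π g, hgS⟩, ?_, rfl⟩
      exact (le_iSup₂_of_le (f := fun (R : Subgroup G) (_ : F'.IsFullyNormalized R ∧ F'.IsCentric R) =>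
        Cfsg.autInducedBy (Subgroup.closure
          {g : G | g ∈ Subgroup.normalizer (R : Set G) ∧ ∃ k : ℕ, orderOf g = 2 ^ k})
          (S : Subgroup G)) R hR le_rfl) (conjAut_mem_autInducedBy hgS hg)
    have hord : ∀ (x : Sp4) (n : ℕ), x ^ (2 ^ n) = 1 → ∃ k, orderOf (π x) = 2 ^ k := fun x n hx =>
      ((Nat.dvd_prime_pow Nat.prime_two).1 (orderOf_dvd_of_pow_eq_one
        (show (π x) ^ (2 ^ n) = 1 by rw [← map_pow, hx, map_one]))).imp fun _ h => h.2
    have hnormS : ∀ g : Sp4, (∀ w ∈ Wr, g * w * g⁻¹ ∈ Wr) →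
        π g ∈ Subgroup.normalizer ((S : Subgroup G) : Set G) := by
      intro g hg
      rw [hS]
      refine Subgroup.mem_normalizer_fintype ?_
      rintro _ ⟨a, ha, rfl⟩
      exact ⟨g * a * g⁻¹, hg a ha, by simp⟩
    have h2el : ∀ (g : Sp4) (n : ℕ), g ^ (2 ^ n) = 1 → (∀ w ∈ Wr, g * w * g⁻¹ ∈ Wr) → g ∈ J := fun g n hn hg =>
      hJ _ ⟨isFullyNormalized_top F', isCentric_top F'⟩ g (hnormS g hg)
        (Subgroup.subset_closure ⟨hnormS g hg, hord g n hn⟩)
    have hWJ : ∀ g ∈ Wr, g ∈ J := by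
      intro g hg
      have hp : IsPGroup 2 Wr := (sylowTwo hodd W).isPGroup'
      obtain ⟨n, hn⟩ := hp ⟨g, hg⟩
      exact h2el g n (congrArg Subtype.val hn) fun w hw => Wr.mul_mem (Wr.mul_mem hg hw) (Wr.inv_mem hg)
    -- the odd order elements
    have hoddJ : ∀ h : Sp4, Odd (orderOf h) → (∀ w ∈ Wr, h * w * h⁻¹ ∈ Wr) → h ∈ J := by
      intro h hho hh
      set z0 := phi ((-1 : SL₂), (1 : SL₂)) with hz0
      have hW1 : (1 : SL₂) ∈ (W : Subgroup SL₂) := one_mem _
      have hz0W : z0 ∈ Wr := phi_mem_wreath _ hW hW1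
      have hz0neg : negOne 2 F * z0 = phi ((1 : SL₂), (-1 : SL₂)) := by rw [hz0, negOne_mul_phi, neg_neg]
      have hz0n : z0 ≠ negOne 2 F * z0 := by
        rw [hz0neg]; intro e
        exact hm1 (congrArg Prod.fst (phi_injective e))
      have hz0comm : ∀ s ∈ Wr, z0 * s * z0⁻¹ = s ∨ z0 * s * z0⁻¹ = negOne 2 F * s := by
        rintro s ⟨a, ha, b, hb, rfl | rfl⟩
        · left
          rw [hz0, ← map_inv, ← map_mul, ← map_mul, Prod.inv_mk, Prod.mk_mul_mk, Prod.mk_mul_mk]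
          simp [inv_eq_neg_of_sq, mul_neg, neg_mul]
        · right
          have hinv : z0⁻¹ = z0 := inv_eq_of_mul_eq_one_right (by
            rw [hz0, ← map_mul, Prod.mk_mul_mk, neg_mul_neg, one_mul]; exact hone)
          rw [hinv, mul_assoc, mul_assoc, hz0, tau_mul_phi, ← mul_assoc, ← mul_assoc, ← map_mul, ← map_mul,
            Prod.mk_mul_mk, Prod.mk_mul_mk, ← mul_assoc, negOne_mul_phi]
          simp [mul_neg, neg_mul]
      set x := h * z0 * h⁻¹ with hx
      have hxW : x ∈ Wr := hh _ hz0W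
      have hxcomm : ∀ s ∈ Wr, x * s * x⁻¹ = s ∨ x * s * x⁻¹ = negOne 2 F * s := by
        intro s hs
        have hinvmem : h⁻¹ * s * h ∈ Wr := by
          have hpow : ∀ (j : ℕ), ∀ w ∈ Wr, h ^ j * w * (h ^ j)⁻¹ ∈ Wr := by
            intro j
            induction j with
            | zero => intro w hw; simpa using hw
            | succ j ih =>
              intro w hw
              rw [show h ^ (j + 1) * w * (h ^ (j + 1))⁻¹ = h * (h ^ j * w * (h ^ j)⁻¹) * h⁻¹ by
                rw [pow_succ']; group]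
              exact hh _ (ih w hw)
          have he : h⁻¹ = h ^ (orderOf h - 1) := by
            rw [inv_eq_iff_mul_eq_one, ← pow_succ', Nat.sub_add_cancel (orderOf_pos h), pow_orderOf_eq_one]
          have := hpow (orderOf h - 1) s hs
          rwa [← he, inv_inv] at this
        have e : x * s * x⁻¹ = h * (z0 * (h⁻¹ * s * h) * z0⁻¹) * h⁻¹ := by rw [hx]; group
        rw [e]
        rcases hz0comm _ hinvmem with e' | e' <;> rw [e']
        · left; group
        · right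
          rw [← mul_assoc, Subgroup.mem_center_iff.1 hcentral h]
          group
      have hxz : x = z0 ∨ x = negOne 2 F * z0 := by
        obtain ⟨a, ha, b, hb, hxab | hxab⟩ := hxW
        · have hs1 := hxcomm _ (phi_mem_wreath (W : Subgroup SL₂) Q.u_mem hW1)
          have hs2 := hxcomm _ (phi_mem_wreath (W : Subgroup SL₂) Q.hy hW1)
          have hfix : ∀ c : SL₂, (x * phi (c, 1) * x⁻¹ = phi (c, 1) ∨ x * phi (c, 1) * x⁻¹ = negOne 2 F * phi (c, 1)) →
              a * c = c * a := by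
            intro c hc
            rw [hxab, ← map_inv, ← map_mul, ← map_mul, negOne_mul_phi, Prod.inv_mk, Prod.mk_mul_mk,
              Prod.mk_mul_mk, mul_one, mul_inv_cancel] at hc
            rcases hc with hc | hc
            · exact mul_inv_eq_iff_eq_mul.1 (Prod.mk.inj (phi_injective hc)).1
            · exact absurd (Prod.mk.inj (phi_injective hc)).2.symm hm1
          have hac := QData.eq_of_commute h2 (hfix _ hs1) (hfix _ hs2) (Q.not_commute h2)
          have hba : b = a ∨ b = -a := by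
            have hc := hxcomm _ (tau_mem_wreath _)
            rw [hxab, ← map_inv, mul_assoc, tau_mul_phi, ← mul_assoc, ← map_mul, Prod.inv_mk, Prod.mk_mul_mk] at hc
            rcases hc with hc | hc
            · left
              have := mul_right_cancel (hc.trans (one_mul tau).symm)
              exact (mul_inv_eq_one.1 (congrArg Prod.fst (phi_injective (this.trans hone.symm)))).symm
            · right
              have := mul_right_cancel hc
              rw [← phi_neg_one] at this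
              have h' := congrArg Prod.fst (phi_injective this)
              simp only at h'
              rw [mul_inv_eq_iff_eq_mul, neg_one_mul] at h'
              rw [h', neg_neg]
          have hxne : x ≠ 1 ∧ x ≠ negOne 2 F := by
            constructor <;> intro e
            · rw [hx, conj_eq_one_iff, hz0] at e
              exact hm1 (congrArg Prod.fst (phi_injective (e.trans hone.symm)))
            · have e' : z0 = negOne 2 F := by
                have := congrArg (fun t => h⁻¹ * t * h) e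
                simp only [hx] at this
                rw [show h⁻¹ * (h * z0 * h⁻¹) * h = z0 by group, mul_assoc,
                  ← Subgroup.mem_center_iff.1 hcentral h, inv_mul_cancel_left] at this
                exact this
              rw [hz0, ← phi_neg_one] at e'
              exact hm1 (congrArg Prod.snd (phi_injective e')).symm
          rcases hac with rfl | rfl <;> rcases hba with rfl | rfl
          · exact absurd (hxab.trans hone) hxne.1
          · exact Or.inr (hxab.trans hz0neg.symm)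
          · exact absurd (hxab.trans phi_neg_one) hxne.2
          · left; rw [hxab, hz0, neg_neg]
        · exfalso
          have hc := hxcomm _ (phi_mem_wreath (W : Subgroup SL₂) Q.u_mem hW1)
          rw [hxab, show phi (a, b) * tau * phi (Q.u, 1) * (phi (a, b) * tau)⁻¹ =
            phi (a, b) * (tau * phi (Q.u, 1) * tau⁻¹) * (phi (a, b))⁻¹ by group, tau_mul_phi,
            mul_inv_cancel_right, ← map_inv, ← map_mul, ← map_mul, negOne_mul_phi, Prod.inv_mk, Prod.mk_mul_mk,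
            Prod.mk_mul_mk, mul_one, mul_inv_cancel] at hc
          have hu1 : Q.u = 1 ∨ Q.u = -1 := by
            rcases hc with hc | hc
            · exact Or.inl (Prod.mk.inj (phi_injective hc)).1.symm
            · exact Or.inr (neg_eq_iff_eq_neg.1 (Prod.mk.inj (phi_injective hc)).1.symm)
          have := Q.u_sq h2
          rcases hu1 with e | e <;> rw [e] at this <;> simp [hm1.symm] at this
      have hcomm : Commute h z0 := by
        rcases hxz with e | e
        · exact mul_inv_eq_iff_eq_mul.1 e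
        · exfalso
          rw [hx] at e
          have h2c : Commute (h ^ 2) z0 := by
            refine mul_inv_eq_iff_eq_mul.1 ?_
            rw [pow_two, show h * h * z0 * (h * h)⁻¹ = h * (h * z0 * h⁻¹) * h⁻¹ by group, e, ← mul_assoc,
              Subgroup.mem_center_iff.1 hcentral h, mul_assoc, mul_assoc, ← mul_assoc h z0, e, ← mul_assoc,
              ← phi_neg_one, ← map_mul, Prod.mk_mul_mk]
            simp [hone]
          obtain ⟨j, hj⟩ := hho
          have : Commute h z0 := by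
            have hpow : (h ^ 2) ^ (j + 1) = h := by
              rw [← pow_mul, show 2 * (j + 1) = 2 * j + 1 + 1 by ring, pow_succ, ← hj, pow_orderOf_eq_one, one_mul]
            exact hpow ▸ h2c.pow_left _
          exact hz0n (by rw [← e, this.eq, mul_inv_cancel_right])
      obtain ⟨a, b, rfl⟩ := exists_eq_phi_of_commute h2 hcomm
      have hordab : orderOf (phi (a, b)) = Nat.lcm (orderOf a) (orderOf b) := by
        rw [orderOf_injective phi phi_injective, Prod.orderOf]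
      rw [hordab] at hho
      have haodd : Odd (orderOf a) := hho.of_dvd_nat (Nat.dvd_lcm_left _ _)
      have hnorm : ∀ w ∈ (W : Subgroup SL₂), a * w * a⁻¹ ∈ (W : Subgroup SL₂) := by
        intro w hw
        obtain ⟨c, hc, d, hd, e | e⟩ := hh _ (phi_mem_wreath _ hw hW1)
        · rw [← map_inv, ← map_mul, ← map_mul, Prod.inv_mk, Prod.mk_mul_mk, Prod.mk_mul_mk] at e
          exact (Prod.mk.inj (phi_injective e)).1 ▸ hc
        · exfalso
          refine tau_not_range ((c, d)⁻¹ * ((a, b) * (w, 1) * (a, b)⁻¹)).1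
            ((c, d)⁻¹ * ((a, b) * (w, 1) * (a, b)⁻¹)).2 ?_
          rw [Prod.mk.eta, map_mul, map_inv, map_mul, map_mul, map_inv, e, inv_mul_cancel_left]
      have hab : a * b⁻¹ ∈ (W : Subgroup SL₂) := by
        obtain ⟨c, hc, d, hd, e | e⟩ := hh _ (tau_mem_wreath _)
        · exfalso
          refine tau_not_range ((a, b)⁻¹ * (c, d) * (a, b)).1 ((a, b)⁻¹ * (c, d) * (a, b)).2 ?_
          rw [Prod.mk.eta, map_mul, map_mul, map_inv, ← e]
          group
        · rw [mul_assoc, ← map_inv, tau_mul_phi, ← mul_assoc, ← map_mul, Prod.inv_mk, Prod.mk_mul_mk] at e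
          exact (Prod.mk.inj (phi_injective (mul_right_cancel e))).1 ▸ hc
      have hainv : ∀ w ∈ (W : Subgroup SL₂), a⁻¹ * w * a ∈ (W : Subgroup SL₂) := by
        intro w hw
        have hpow : ∀ (j : ℕ), ∀ w ∈ (W : Subgroup SL₂), a ^ j * w * (a ^ j)⁻¹ ∈ (W : Subgroup SL₂) := by
          intro j
          induction j with
          | zero => intro w hw; simpa using hw
          | succ j ih =>
            intro w hw
            rw [show a ^ (j + 1) * w * (a ^ (j + 1))⁻¹ = a * (a ^ j * w * (a ^ j)⁻¹) * a⁻¹ by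
              rw [pow_succ']; group]
            exact hnorm _ (ih w hw)
        have he : a⁻¹ = a ^ (orderOf a - 1) := by
          rw [inv_eq_iff_mul_eq_one, ← pow_succ', Nat.sub_add_cancel (orderOf_pos a), pow_orderOf_eq_one]
        have := hpow (orderOf a - 1) w hw
        rwa [← he, inv_inv] at this
      have hbW : phi ((1 : SL₂), a⁻¹ * b) ∈ Wr := by
        refine phi_mem_wreath _ hW1 ?_
        have := hainv _ ((W : Subgroup SL₂).inv_mem hab)
        rwa [_root_.mul_inv_rev, inv_inv, mul_assoc a⁻¹, inv_mul_cancel_right] at this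
      rw [show phi (a, b) = phi (a, a) * phi (1, a⁻¹ * b) by
        rw [← map_mul, Prod.mk_mul_mk, mul_one, mul_inv_cancel_left]]
      refine J.mul_mem ?_ (hWJ _ hbW)
      rcases Q.normalizer_odd h2 haodd hnorm with rfl | ⟨v, t, hk, hvW, hv2, hvu, ht, e, heW, rfl⟩
      · rw [hone]; exact J.one_mem
      obtain ⟨d₁, d₂, hd1, hd2, hn1, hn2, htt⟩ := exists_two_factors Q h2 hk hW hvW hv2 hvu ht
      set E := twisted (W : Subgroup SL₂) hW with hE
      set R := E.map π with hR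
      have hRS : R ≤ (S : Subgroup G) := hS ▸ Subgroup.map_mono (twisted_le_wreath hW)
      have hSN : (S : Subgroup G) ≤ Subgroup.normalizer (R : Set G) := by
        rw [hS]
        rintro _ ⟨s, hs, rfl⟩
        refine Subgroup.mem_normalizer_fintype ?_
        rintro _ ⟨r, hr, rfl⟩
        exact ⟨s * r * s⁻¹, twisted_normal Q h2 hk hW hs hr, by simp⟩
      have hfn : F'.IsFullyNormalized R := by
        refine ⟨hRS, fun P _ => ?_⟩
        rw [show Cfsg.FusionSystem.normalizerIn (S : Subgroup G) R = (S : Subgroup G) from inf_eq_left.2 hSN]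
        exact Subgroup.card_le_of_le inf_le_left
      have hcen : F'.IsCentric R := by
        refine isCentric_of_fullyCentralized
          (fullyCentralized_of_fullyNormalized S.isPGroup' (isSaturated_group S) hfn) ?_
        rintro y ⟨hyS, hy⟩
        obtain ⟨u, rfl⟩ := hπ y
        refine ⟨u, twisted_centric Q h2 hW (hpre hyS) fun r hr => ?_, rfl⟩
        have hc := hy (π r) ⟨r, hr, rfl⟩
        refine eq_or_neg_of_map_eq π hker ?_
        rw [map_mul, map_mul, map_inv, ← hc, mul_inv_cancel_right]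
      have hnR : ∀ d : Sp4, (∀ r ∈ E, d * r * d⁻¹ ∈ E) → π d ∈ Subgroup.normalizer (R : Set G) := by
        intro d hd
        refine Subgroup.mem_normalizer_fintype ?_
        rintro _ ⟨r, hr, rfl⟩
        exact ⟨d * r * d⁻¹, hd r hr, by simp⟩
      have heE : phi (e, e) ∈ E := phi_mem_twisted hW heW (Or.inl rfl)
      have heW' : phi (e, e) ∈ Wr := phi_mem_wreath _ heW heW
      refine hJ R ⟨hfn, hcen⟩ _ ?_ ?_
      · refine hnormS _ ?_
        rintro w ⟨c, hc, d, hd, rfl | rfl⟩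
        · rw [← map_inv, ← map_mul, ← map_mul, Prod.inv_mk, Prod.mk_mul_mk, Prod.mk_mul_mk]
          exact phi_mem_wreath _ (hnorm c hc) (hnorm d hd)
        · rw [show phi (t * e, t * e) * (phi (c, d) * tau) * (phi (t * e, t * e))⁻¹ =
            phi (t * e, t * e) * phi (c, d) * (tau * (phi (t * e, t * e))⁻¹) by group, ← map_inv, Prod.inv_mk,
            tau_mul_phi, ← mul_assoc, ← map_mul, ← map_mul, Prod.mk_mul_mk, Prod.mk_mul_mk]
          exact Wr.mul_mem (phi_mem_wreath _ (hnorm c hc) (hnorm d hd)) (tau_mem_wreath _)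
      · rw [show phi (t * e, t * e) = phi (t, t) * phi (e, e) by rw [← map_mul]; rfl, htt, map_mul, map_mul]
        refine mul_mem (mul_mem (Subgroup.subset_closure ⟨hnR _ hn1, hord _ 2 hd1⟩)
          (Subgroup.subset_closure ⟨hnR _ hn2, hord _ 2 hd2⟩)) (Subgroup.subset_closure ⟨?_, ?_⟩)
        · exact hnR _ fun r hr => twisted_normal Q h2 hk hW heW' hr
        · obtain ⟨n, hn⟩ := (sylowTwo hodd W).isPGroup' ⟨phi (e, e), heW'⟩
          exact hord _ n (congrArg Subtype.val hn)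
    intro α hα
    obtain ⟨g, -, hg⟩ := mem_autInducedBy_iff.1 hα
    have hgS := mem_normalizer_of_aut hg
    obtain ⟨h, rfl⟩ := hπ g
    have hhW : ∀ w ∈ Wr, h * w * h⁻¹ ∈ Wr := by
      intro w hw
      refine hpre ?_
      rw [map_mul, map_mul, map_inv]
      exact (Subgroup.mem_normalizer_iff.1 hgS (π w)).1 (hS ▸ ⟨w, hw, rfl⟩)
    have hpows : ∀ (j : ℕ), ∀ w ∈ Wr, h ^ j * w * (h ^ j)⁻¹ ∈ Wr := by
      intro j
      induction j with
      | zero => intro w hw; simpa using hw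
      | succ j ih =>
        intro w hw
        rw [show h ^ (j + 1) * w * (h ^ (j + 1))⁻¹ = h * (h ^ j * w * (h ^ j)⁻¹) * h⁻¹ by rw [pow_succ']; group]
        exact hhW _ (ih w hw)
    obtain ⟨s, o, ho, hso⟩ := Nat.exists_eq_two_pow_mul_odd (orderOf_pos h).ne'
    have hhJ : h ∈ J := by
      have h1 : h ^ o ∈ J := h2el _ s (by rw [← pow_mul, mul_comm, ← hso, pow_orderOf_eq_one]) (hpows o)
      have h2' : h ^ (2 ^ s) ∈ J := by
        refine hoddJ _ ?_ (hpows _)
        refine ho.of_dvd_nat (orderOf_dvd_of_pow_eq_one ?_)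
        rw [← pow_mul, ← hso, pow_orderOf_eq_one]
      have hgcd : Nat.gcd (2 ^ s) o = 1 := (Nat.coprime_two_left.2 ho).pow_left s
      have hb := Nat.gcd_eq_gcd_ab (2 ^ s) o
      rw [hgcd, Nat.cast_one] at hb
      rw [← zpow_one h, hb, _root_.zpow_add, _root_.zpow_mul, _root_.zpow_mul, zpow_natCast, zpow_natCast]
      exact J.mul_mem (J.zpow_mem h2' _) (J.zpow_mem h1 _)
    obtain ⟨⟨g', hg'⟩, hg'Sup, hgg'⟩ := hhJ
    have e : α = (S : Subgroup G).normalizerMonoidHom ⟨g', hg'⟩ := by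
      refine MulEquiv.ext fun x => Subtype.ext ?_
      rw [hg x]
      have hgg'' : g' = π h := hgg'
      subst hgg''
      rfl
    rw [e]
    exact hg'Sup

end Main
/-- For a finite field F of odd order, the 2-fusion system of the projective symplectic group PSp(4,F) on a Sylow 2-subgroup is simple. -/
theorem result {F : Type*} [Field F] [Fintype F] (hodd : Fintype.card F % 2 = 1) (S : Sylow 2 (Cfsg.PSp 2 F)) :
    (Cfsg.groupFusionSystem (S : Subgroup (Cfsg.PSp 2 F))).IsSimple 2 := by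
  haveI : Fact (Nat.Prime 2) := ⟨Nat.prime_two⟩
  have hodd' : Odd (Fintype.card F) := Nat.odd_iff.2 hodd
  obtain ⟨W⟩ := (inferInstance : Nonempty (Sylow 2 (Matrix.SpecialLinearGroup (Fin 2) F)))
  let π₀ : Matrix.symplecticGroup (Fin 2) F →* Cfsg.PSp 2 F := QuotientGroup.mk' _
  have hs : Function.Surjective π₀ := QuotientGroup.mk'_surjective _
  obtain ⟨g, hg⟩ := MulAction.exists_smul_eq (Cfsg.PSp 2 F)
    ((sylowTwo hodd' W).mapSurjective hs) S
  refine isSimple_image ((MulAut.conj g).toMonoidHom.comp π₀) ((MulAut.conj g).surjective.comp hs) ?_ ?_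
    hodd' W S ?_
  · intro x hx
    rw [MonoidHom.mem_ker, MonoidHom.comp_apply] at hx
    exact (QuotientGroup.eq_one_iff x).1 ((MulAut.conj g).injective (hx.trans (map_one _).symm))
  · rw [MonoidHom.comp_apply, show π₀ (negOne 2 F) = 1 from
      (QuotientGroup.eq_one_iff _).2 (mem_center_iff.2 (Or.inr rfl)), map_one]
  · rw [← hg, ← Subgroup.map_map]
    rfl

end Cfsg.Agent.S5320
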