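import Cfsg.Statements.S5328
import Cfsg.Agent.Fus.Biset.Construct

set_option autoImplicit false
universe u
open Cfsg

namespace Cfsg.Agent.S5328

/-- Every fusion system over a finite p-group S, saturated or not, is realized inside some finite group: there is a finite group G and an injective homomorphism ι of S into G such that the maps of the system are exactly the homomorphisms between subgroups of S that become conjugations by elements of G (the image of S need not be a Sylow p-subgroup of G). -/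
theorem result {Ω : Type u} [Group Ω] {S : Subgroup Ω} [Finite S] (p : ℕ) [Fact p.Prime] (hS : IsPGroup p S) (F : Cfsg.FusionSystem S) : ∃ (G : Type u) (_ : Group G) (_ : Finite G) (ι : ↥S →* G), F.IsRealizedBy ι := by
  obtain ⟨X, _, _, hX, hst, hpos⟩ := CfsgLib.Fus.Biset.exists_semicharacteristic (F := F) hS
  obtain ⟨⟨x₀, hx₀⟩⟩ := (Nat.card_pos_iff.1 hpos).1
  let G : Subgroup (Equiv.Perm X) :=
    { carrier := {g | ∀ (u : S) (x : X), g ((u, (1 : S)) • x) = (u, (1 : S)) • g x}
      one_mem' := fun u x => rfl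
      mul_mem' := fun {g h} hg hh u x => by
        show g (h _) = _
        rw [hh, hg]
        rfl
      inv_mem' := fun {g} hg u x => by
        show g.symm _ = _
        rw [Equiv.symm_apply_eq, hg]
        show _ = (u, (1 : S)) • g (g.symm x)
        rw [Equiv.apply_symm_apply] }
  let ι : S →* G :=
    { toFun := fun v => ⟨MulAction.toPerm ((1, v) : S × S), fun u x => by
        show ((1 : S), v) • (u, (1 : S)) • x = (u, (1 : S)) • ((1 : S), v) • x
        rw [← mul_smul, ← mul_smul]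
        congr 1
        ext <;> simp⟩
      map_one' := Subtype.ext (Equiv.ext fun x => one_smul (S × S) x)
      map_mul' := fun v w => Subtype.ext (Equiv.ext fun x => by
        show ((1 : S), v * w) • x = ((1 : S), v) • ((1 : S), w) • x
        rw [← mul_smul]
        congr 1
        ext <;> simp) }
  refine ⟨G, inferInstance, inferInstance, ι, ?_, fun P hP φ hφ => ⟨fun hh => ?_, ?_⟩⟩
  · refine (injective_iff_map_eq_one ι).2 fun v hv => ?_
    have hfix : ((1 : S), v) • x₀ = x₀ := congrArg (fun g : G => (g : Equiv.Perm X) x₀) hv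
    obtain ⟨Q, ψ, hψ, he⟩ := hX x₀
    obtain ⟨h1, h2⟩ := (he ▸ (MulAction.mem_stabilizer_iff.2 hfix) : ((1 : S), v) ∈ CfsgLib.Fus.Biset.diag (S := S) ψ)
    have h3 : (⟨(v : Ω), h1⟩ : Q) = 1 := F.injective_of_mem hψ (h2.symm.trans (map_one ψ).symm)
    exact Subtype.ext (congrArg (fun z : Q => (z : Ω)) h3)
  · obtain ⟨e, he1, he2⟩ := CfsgLib.Fus.Biset.exists_equiv hX hst hh
    refine ⟨⟨e, he1⟩, fun x => ?_⟩
    rw [eq_mul_inv_iff_mul_eq]
    exact Subtype.ext (Equiv.ext fun z => (he2 x z).symm)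
  · rintro ⟨g, hg⟩
    obtain ⟨Q, ψ, hψ, he⟩ := hX ((g : Equiv.Perm X) x₀)
    have key : ∀ v : P, ∃ h : φ v ∈ Q, ψ ⟨φ v, h⟩ = (v : Ω) := by
      intro v
      let v' : S := ⟨v, hP v.2⟩
      let w : S := ⟨φ v, hφ v⟩
      have h0 : (v', v') • x₀ = x₀ := hx₀ (v', v') ⟨v'.2, rfl⟩
      have h2 : ((1 : S), w) • (g : Equiv.Perm X) x₀ = (g : Equiv.Perm X) (((1 : S), v') • x₀) := by
        have h1 := hg v
        rw [eq_mul_inv_iff_mul_eq] at h1
        exact congrArg (fun k : G => (k : Equiv.Perm X) x₀) h1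
      have h3 : (v', w) • (g : Equiv.Perm X) x₀ = (g : Equiv.Perm X) x₀ := by
        have e1 : ((v', w) : S × S) = (v', (1 : S)) * ((1 : S), w) := by ext <;> simp
        have e2 : ((v', v') : S × S) = (v', (1 : S)) * ((1 : S), v') := by ext <;> simp
        rw [e1, mul_smul, h2, ← g.2, ← mul_smul, ← e2, h0]
      obtain ⟨h4, h5⟩ := (he ▸ (MulAction.mem_stabilizer_iff.2 h3) : (v', w) ∈ CfsgLib.Fus.Biset.diag (S := S) ψ)
      exact ⟨h4, h5.symm⟩
    obtain ⟨θ, hθ, -, hθψ, -⟩ := CfsgLib.Fus.exists_inv F hψ rfl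
    have hPr : P ≤ ψ.range := fun x hx => by
      obtain ⟨h, h'⟩ := key ⟨x, hx⟩
      exact ⟨_, h'⟩
    refine CfsgLib.Fus.hom_restrict F hθ hPr fun v => ?_
    obtain ⟨h, h'⟩ := key v
    refine (hθψ ⟨φ v, h⟩ ⟨_, rfl⟩).symm.trans (congrArg θ (Subtype.ext ?_))
    exact h'

end Cfsg.Agent.S5328
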