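import Cfsg.Statements.S5329
import Cfsg.Agent.Fus.Biset.Transfer
import Cfsg.Agent.Fusion.Alperin.Criteria

set_option autoImplicit false
open Cfsg

namespace Cfsg.Agent.S5329

/-- For a saturated fusion system F over a finite p-group S, the focal subgroup and the derived subgroup of S meet the centre Z(F) of the system in the same subgroup: foc(F) ∩ Z(F) = S′ ∩ Z(F). -/
theorem result {Ω : Type*} [Group Ω] {S : Subgroup Ω} [Finite S] (p : ℕ) [Fact p.Prime] (hS : IsPGroup p S) (F : Cfsg.FusionSystem S) (hF : F.IsSaturated p) : F.focalSubgroup ⊓ F.center = ⁅(S : Subgroup Ω), (S : Subgroup Ω)⁆ ⊓ F.center := by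
  refine le_antisymm (le_inf ?_ inf_le_right) (le_inf ?_ inf_le_right)
  · rintro z ⟨hz1, hz2⟩
    obtain ⟨X, _, _, m, hX, hst, hcard, hm, -⟩ := CfsgLib.Fus.Biset.exists_characteristic hS hF
    have hc := CfsgLib.Fusion.Alperin.isCentral_center hS hF
    have hzS : z ∈ S := hc.1 hz2
    let lam : S →* Abelianization S := Abelianization.of
    have hlam : ∀ (x : X) (u : S), (u, (1 : S)) • x = x → lam u = 1 := fun x u h => by
      rw [CfsgLib.Fus.Biset.left_free hX h, map_one]
    -- a left-equivariant function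
    let H : Subgroup (S × S) := (⊤ : Subgroup S).prod ⊥
    let χ : H →* Abelianization S := lam.comp ((MonoidHom.fst S S).comp H.subtype)
    obtain ⟨f, hf'⟩ := CfsgLib.Fus.Biset.exists_equivariant (X := X) χ (fun x g hg => by
      have h2 : (g : S × S).2 = 1 := Subgroup.mem_bot.1 (Subgroup.mem_prod.1 g.2).2
      refine hlam x _ ?_
      convert hg using 1
      show ((g : S × S).1, (1 : S)) • x = (g : S × S) • x
      congr 1
      exact Prod.ext rfl h2.symm)
    have hf : ∀ (u : S) (x : X), f ((u, (1 : S)) • x) = lam u * f x := fun u x =>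
      hf' ⟨(u, 1), Subgroup.mem_prod.2 ⟨Subgroup.mem_top u, one_mem _⟩⟩ x
    let τ := CfsgLib.Fus.Biset.transfer lam f hf
    have hker : F.focalSubgroup ≤ τ.ker.map S.subtype := by
      refine (Subgroup.closure_le _).2 ?_
      rintro _ ⟨P, φ, x, hφ, rfl⟩
      refine ⟨⟨x, CfsgLib.Fus.hom_le F hφ x.2⟩⁻¹ * ⟨φ x, CfsgLib.Fus.hom_mem F hφ x⟩, ?_, rfl⟩
      show τ _ = 1
      rw [map_mul, map_inv, inv_mul_eq_one]
      exact (CfsgLib.Fus.Biset.transfer_map hX hst lam f hf hφ x).symm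
    obtain ⟨z', hz', hzz⟩ := hker hz1
    have hzz' : (z' : Ω) = z := hzz
    have hfix : ∀ (P : Subgroup Ω) (φ : P →* Ω), φ ∈ F.Hom P →
        ∀ x : P, (x : Ω) ∈ Subgroup.zpowers (z' : Ω) → φ x = x := by
      intro P φ hφ x hx
      have hxc : (x : Ω) ∈ F.center := Subgroup.zpowers_le.2 (hzz'.symm ▸ hz2) hx
      obtain ⟨ψ, -, h1, h2⟩ := hc.2 P φ hφ
      rw [← h1 x]
      exact (congrArg ψ (Subtype.ext rfl)).trans (h2 ⟨x, hxc⟩)
    have h3 : (lam z')⁻¹ ^ m = 1 := by
      have h1 := CfsgLib.Fus.Biset.transfer_central hX lam hfix f hf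
      have h2 := CfsgLib.Fus.Biset.card_quotient_left (B := S) hX
      rw [hcard] at h2
      rw [← Nat.eq_of_mul_eq_mul_left Nat.card_pos h2] at h1
      exact h1.symm.trans hz'
    obtain ⟨k, hk⟩ := hS z'
    have h4 : orderOf (lam z') ∣ 1 := by
      have a1 : orderOf (lam z') ∣ m := orderOf_dvd_of_pow_eq_one (by simpa [inv_pow] using h3)
      have a2 : orderOf (lam z') ∣ p ^ k := orderOf_dvd_of_pow_eq_one (by rw [← map_pow, hk, map_one])
      have hco : Nat.Coprime m (p ^ k) :=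
        Nat.Coprime.pow_right k (Nat.coprime_comm.1 ((Fact.out : p.Prime).coprime_iff_not_dvd.2 hm))
      exact hco ▸ Nat.dvd_gcd a1 a2
    have h5 : z' ∈ commutator S := by
      rw [← QuotientGroup.eq_one_iff]
      exact orderOf_eq_one_iff.1 (Nat.dvd_one.1 h4)
    have h6 : z ∈ (commutator S).map S.subtype := ⟨z', h5, hzz'⟩
    rwa [Subgroup.map_subtype_commutator] at h6
  · refine le_trans inf_le_left ?_
    refine Subgroup.commutator_le.2 fun a ha b hb => ?_
    have h1 : b * (a * b⁻¹ * a⁻¹) ∈ F.focalSubgroup :=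
      Subgroup.subset_closure ⟨S, Cfsg.conjHom S a, ⟨b⁻¹, S.inv_mem hb⟩, F.conj_mem le_rfl ha, by
        show b * (a * b⁻¹ * a⁻¹) = b⁻¹⁻¹ * (a * b⁻¹ * a⁻¹)
        rw [inv_inv]⟩
    have h2 := F.focalSubgroup.inv_mem h1
    rw [commutatorElement_def]
    convert h2 using 1
    group

end Cfsg.Agent.S5329
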