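import Cfsg.Statements.S5330
import Cfsg.Agent.Fus.AbelianBase

set_option autoImplicit false
open Cfsg

namespace Cfsg.Agent.S5330

/-- Let F be a saturated fusion system over a finite abelian p-group S. Then S is the internal direct product of the centre of the system and the focal subgroup: Z(F) ∩ foc(F) = 1 and Z(F)·foc(F) = S. -/
theorem result {Ω : Type*} [Group Ω] {S : Subgroup Ω} [Finite S] (p : ℕ) [Fact p.Prime] (hS : IsPGroup p S) (F : Cfsg.FusionSystem S) (hF : F.IsSaturated p) (hab : ∀ x ∈ S, ∀ y ∈ S, x * y = y * x) : F.center ⊓ F.focalSubgroup = ⊥ ∧ F.center ⊔ F.focalSubgroup = S := CfsgLib.Fus.AbelianBase.center_focal hS hF hab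

end Cfsg.Agent.S5330
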