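import Cfsg.Statements.S5331
import Cfsg.Agent.Fus.AbelianBase

set_option autoImplicit false
open Cfsg

namespace Cfsg.Agent.S5331

theorem two_torsion {a : ℕ} (ha : 1 ≤ a) (z : ZMod (2 ^ a)) (hz : 2 * z = 0) :
    z = 0 ∨ z = (2 : ZMod (2 ^ a)) ^ (a - 1) := by
  obtain ⟨b, rfl⟩ := Nat.exists_eq_add_of_le ha
  haveI : NeZero (2 ^ (1 + b)) := ⟨by positivity⟩
  have h1 : (((2 * z.val : ℕ)) : ZMod (2 ^ (1 + b))) = 0 := by
    push_cast
    rw [ZMod.natCast_zmod_val]
    exact hz
  rw [ZMod.natCast_eq_zero_iff] at h1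
  obtain ⟨k, hk⟩ := h1
  have hlt := ZMod.val_lt z
  have hk2 : k < 2 := by
    by_contra hcon
    have : 2 ^ (1 + b) * 2 ≤ 2 ^ (1 + b) * k := Nat.mul_le_mul_left _ (by omega)
    omega
  have hp : 2 ^ (1 + b) = 2 * 2 ^ b := by rw [pow_add, pow_one]
  rcases (by omega : k = 0 ∨ k = 1) with rfl | rfl
  · left
    rw [← ZMod.natCast_zmod_val z, show z.val = 0 by omega, Nat.cast_zero]
  · right
    rw [← ZMod.natCast_zmod_val z, show z.val = 2 ^ b by omega, Nat.add_sub_cancel_left]
    push_cast
    rfl

/-- An automorphism fixing the quotient `αx / x` and of odd order fixes `x`. -/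
theorem fix_of_fix_quotient {H : Type*} [CommGroup H] (α : MulAut H) (hα : Odd (orderOf α)) (x : H)
    (hd : α (x⁻¹ * α x) = x⁻¹ * α x) (h2 : (x⁻¹ * α x) ^ 2 = 1) : α x = x := by
  have hpow : ∀ n : ℕ, (α ^ n) x = x * (x⁻¹ * α x) ^ n := by
    intro n
    induction n with
    | zero => simp
    | succ n ih =>
      rw [pow_succ', MulAut.mul_apply, ih, map_mul, map_pow, hd, pow_succ']
      simp [mul_assoc]
  have h := hpow (orderOf α)
  obtain ⟨m, hm⟩ := hα
  rw [pow_orderOf_eq_one, MulAut.one_apply, hm, pow_succ, pow_mul, h2, one_pow, one_mul,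
    mul_inv_cancel_left] at h
  exact h.symm

/-- An odd order automorphism of an abelian 2-group with pairwise distinct invariants is trivial. -/
theorem odd_aut_eq_one {H : Type*} [Group H] {n : ℕ} (a : Fin n → ℕ) (ha : StrictMono a)
    (ha1 : ∀ i, 1 ≤ a i) (e : H ≃* Multiplicative ((i : Fin n) → ZMod (2 ^ a i))) (α : MulAut H)
    (hα : Odd (orderOf α)) : α = 1 := by
  letI : CommGroup H := { (inferInstance : Group H) with
    mul_comm := fun x y => e.injective (by rw [map_mul, map_mul, mul_comm]) }
  obtain ⟨M, hM⟩ : ∃ M, ∀ i, a i ≤ M := ⟨∑ i, a i, fun i => Finset.single_le_sum (fun j _ => Nat.zero_le _) (Finset.mem_univ i)⟩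
  let c : H → ((i : Fin n) → ZMod (2 ^ a i)) := fun x => Multiplicative.toAdd (e x)
  have hcinj : Function.Injective c := Multiplicative.toAdd.injective.comp e.injective
  have hcpow : ∀ (x : H) (k : ℕ) (i : Fin n), c (x ^ k) i = (k : ZMod (2 ^ a i)) * c x i := fun x k i => by
    simp [c, map_pow]
  have hzero : ∀ (i : Fin n) (k : ℕ), a i ≤ k → ((2 ^ k : ℕ) : ZMod (2 ^ a i)) = 0 := fun i k hk =>
    (ZMod.natCast_eq_zero_iff _ _).2 (pow_dvd_pow 2 hk)
  -- downwards along the elements of order two which are 2 ^ k th powers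
  have hW : ∀ m k, M ≤ k + m → ∀ x y : H, x ^ 2 = 1 → y ^ (2 ^ k) = x → α x = x := by
    intro m
    induction m with
    | zero =>
      intro k hk x y _ hy
      have : x = 1 := hcinj (funext fun i => by
        rw [← hy, hcpow, hzero i k ((hM i).trans hk), zero_mul]
        simp [c])
      rw [this, map_one]
    | succ m ih =>
      intro k hk x y hx hy
      have hd2 : (x⁻¹ * α x) ^ 2 = 1 := by
        rw [mul_pow, inv_pow, ← map_pow, hx, inv_one, map_one, one_mul]
      refine fix_of_fix_quotient α hα x ?_ hd2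
      obtain ⟨y', hy'⟩ : ∃ y', y' ^ (2 ^ k) = x⁻¹ * α x := ⟨y⁻¹ * α y, by rw [mul_pow, inv_pow, ← map_pow, hy]⟩
      -- coordinates of an element of order at most two
      have htor : ∀ (u : H), u ^ 2 = 1 → ∀ i, c u i = 0 ∨ c u i = (2 : ZMod (2 ^ a i)) ^ (a i - 1) := fun u hu i =>
        two_torsion (ha1 i) _ (by
          have h := hcpow u 2 i
          rw [hu] at h
          simpa [c] using h.symm)
      have hlow : ∀ (u v : H), v ^ (2 ^ k) = u → ∀ i, a i ≤ k → c u i = 0 := fun u v hv i hi => by
        rw [← hv, hcpow, hzero i k hi, zero_mul]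
      -- an element of order two with no coordinate at a small invariant is a deeper power
      have hroot : ∀ u : H, u ^ 2 = 1 → (∀ i, c u i ≠ 0 → k + 1 < a i) → ∃ w, w ^ (2 ^ (k + 1)) = u := by
        intro u hu hbig
        refine ⟨e.symm (Multiplicative.ofAdd fun i =>
          if c u i = 0 then 0 else (2 : ZMod (2 ^ a i)) ^ (a i - 1 - (k + 1))), hcinj (funext fun i => ?_)⟩
        rw [hcpow]
        simp only [c, MulEquiv.apply_symm_apply, toAdd_ofAdd]
        by_cases h0 : c u i = 0
        · simp only [c] at h0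
          rw [if_pos h0, mul_zero, h0]
        · have hai := hbig i h0
          simp only [c] at h0
          rw [if_neg h0]
          refine Eq.trans ?_ ((htor u hu i).resolve_left h0).symm
          push_cast
          rw [← pow_add]
          congr 1
          omega
      by_cases hcase : ∀ i, a i = k + 1 → c (x⁻¹ * α x) i = 0
      · -- the quotient is a deeper power
        obtain ⟨w, hw⟩ := hroot _ hd2 fun i hi => by
          rcases Nat.lt_trichotomy (a i) (k + 1) with h | h | h
          · exact absurd (hlow _ _ hy' i (by omega)) hi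
          · exact absurd (hcase i h) hi
          · exact h
        exact ih (k + 1) (by omega) _ w hd2 hw
      · exfalso
        push Not at hcase
        obtain ⟨i0, hi0, hne⟩ := hcase
        have hother : ∀ i, a i = k + 1 → i = i0 := fun i hi => ha.injective (hi.trans hi0.symm)
        have hsum : c (x⁻¹ * α x) i0 = c (α x) i0 - c x i0 := by
          simp [c, sub_eq_neg_add]
        -- an element whose i0 coordinate vanishes is fixed
        have hfix0 : ∀ u v : H, u ^ 2 = 1 → v ^ (2 ^ k) = u → c u i0 = 0 → α u = u := by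
          intro u v hu hv hu0
          obtain ⟨w, hw⟩ := hroot u hu fun i hi => by
            rcases Nat.lt_trichotomy (a i) (k + 1) with h | h | h
            · exact absurd (hlow u v hv i (by omega)) hi
            · exact absurd (hother i h ▸ hu0) hi
            · exact h
          exact ih (k + 1) (by omega) u w hu hw
        by_cases hx0 : c x i0 = 0
        · apply hne
          rw [hsum, hfix0 x y hx hy hx0, sub_self]
        · have hαx : (α x) ^ 2 = 1 := by rw [← map_pow, hx, map_one]
          by_cases hαx0 : c (α x) i0 = 0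
          · have hfixed := hfix0 (α x) (α y) hαx (by rw [← map_pow, hy]) hαx0
            exact hx0 (α.injective hfixed ▸ hαx0)
          · apply hne
            rw [hsum, (htor x hx i0).resolve_left hx0, (htor _ hαx i0).resolve_left hαx0, sub_self]
  have hall : ∀ k, ∀ x : H, x ^ (2 ^ k) = 1 → α x = x := by
    intro k
    induction k with
    | zero => intro x hx; rw [pow_zero, pow_one] at hx; rw [hx, map_one]
    | succ k ih =>
      intro x hx
      have h1 : α (x ^ 2) = x ^ 2 := ih _ (by rw [← pow_mul, ← pow_succ']; exact hx)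
      have hd : (x⁻¹ * α x) ^ 2 = 1 := by rw [mul_pow, inv_pow, ← map_pow, h1, inv_mul_cancel]
      refine fix_of_fix_quotient α hα x ?_ hd
      exact hW M 0 (by omega) _ (x⁻¹ * α x) hd (by rw [pow_zero, pow_one])
  refine MulEquiv.ext fun x => hall M x (hcinj (funext fun i => ?_))
  rw [hcpow, hzero i M (hM i), zero_mul]
  simp [c]

/-- Let S be a finite abelian 2-group that is a direct product of cyclic groups of pairwise distinct orders 2^{a_1} < 2^{a_2} < ⋯ < 2^{a_n} (all a_i ≥ 1). Then every saturated fusion system over S is the inner one: its maps are exactly the conjugations by elements of S. -/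
theorem result {Ω : Type*} [Group Ω] {S : Subgroup Ω} [Finite S] (n : ℕ) (a : Fin n → ℕ) (ha : StrictMono a) (ha1 : ∀ i, 1 ≤ a i) (e : ↥S ≃* Multiplicative ((i : Fin n) → ZMod (2 ^ a i))) (F : Cfsg.FusionSystem S) (hF : F.IsSaturated 2) (P : Subgroup Ω) : F.Hom P = (Cfsg.innerFusionSystem S).Hom P := by
  have hab : ∀ x ∈ S, ∀ y ∈ S, x * y = y * x := fun x hx y hy =>
    congrArg Subtype.val (e.injective (by rw [map_mul, map_mul, mul_comm]) : (⟨x, hx⟩ : S) * ⟨y, hy⟩ = ⟨y, hy⟩ * ⟨x, hx⟩)
  haveI : Fact (Nat.Prime 2) := ⟨Nat.prime_two⟩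
  have hS : IsPGroup 2 S := by
    refine IsPGroup.of_card (n := ∑ i, a i) ?_
    rw [Nat.card_congr (e.toEquiv.trans Multiplicative.toAdd), Nat.card_pi, ← Finset.prod_pow_eq_pow_sum]
    exact Finset.prod_congr rfl fun i _ => Nat.card_zmod _
  haveI : Finite (MulAut S) := CfsgLib.Fus.finite_mulAut S
  have hnd := CfsgLib.Fus.AbelianBase.not_dvd_card_autGroup hS hF hab
  have hA : ∀ α ∈ F.autGroup S, α = 1 := by
    intro α hα
    refine odd_aut_eq_one a ha ha1 e α ?_
    refine Nat.not_even_iff_odd.1 fun h => hnd ?_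
    exact (even_iff_two_dvd.1 h).trans
      ((Subgroup.orderOf_coe (⟨α, hα⟩ : F.autGroup S)) ▸ orderOf_dvd_natCard (⟨α, hα⟩ : F.autGroup S))
  ext φ
  constructor
  · intro hφ
    obtain ⟨α, hα, hαe⟩ := CfsgLib.Fus.AbelianBase.exists_aut_extend hS hF hab hφ
    refine ⟨CfsgLib.Fus.hom_le F hφ, 1, S.one_mem, fun x => ?_⟩
    rw [hαe x, hA α hα]
    simp
  · rintro ⟨hP, g, hg, hgφ⟩
    exact CfsgLib.Fus.hom_congr F (F.conj_mem hP hg) hgφ

end Cfsg.Agent.S5331
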