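import Cfsg.Statements.S5342
import Cfsg.Agent.Fus.SubnormalConstrained
import Cfsg.Agent.Fus.Transport

set_option autoImplicit false
open Cfsg

namespace Cfsg.Agent.S5342

open CfsgLib.Fus CfsgLib.Fusion.Alperin Cfsg.FusionSystem

theorem normal_constrained {Ω : Type*} [Group Ω] {S : Subgroup Ω} [Finite S] {p : ℕ} [Fact p.Prime]
    (hS : IsPGroup p S) {F : Cfsg.FusionSystem S} (hF : F.IsConstrained p) {T : Subgroup Ω}
    {E : Cfsg.FusionSystem T} (hE : E.IsWeaklyNormalIn F p) : E.IsConstrained p := by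
  obtain ⟨hEs, -, hsub, hTsc, -⟩ := hE
  have hTS := hTsc.1
  haveI : Finite T := finite_of_le hTS
  have hTp := hS.to_le hTS
  obtain ⟨hFs, Q0, hQ0, hQ0c⟩ := hF
  have hA := isNormal_core F
  have hQA : Q0 ≤ F.core := le_core hQ0
  have hAc : F.IsCentric F.core := isCentric_of_normal hA
    ((centralizerIn_antitone hQA).trans ((centralizerIn_le_of_centric hQ0c).trans hQA))
  set R := F.core ⊓ T
  have hRE : E.StronglyClosed R := ⟨inf_le_right, fun P hP φ hφ x =>
    ⟨map_mem_of_isNormal hA (hsub P hφ) (hP x.2).1, hom_mem E hφ x⟩⟩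
  have hRn : E.IsNormal R := by
    refine isNormal_of_stronglyClosed hTp hEs hRE fun P hP => ?_
    have hPT := hP.centric.1
    refine le_of_normalizing_mem hTp hRE.1 hPT (hPT.trans (le_normalizer_of_stronglyClosed hRE))
      fun g hg hgP => ?_
    refine mem_of_mem_pCore_of_radical (S := T) (F := E) (p := p) hP.centric hP.radical ⟨hRE.1 hg, hgP⟩
      fun hm => ?_
    refine CfsgLib.CharP.le_pCore (N := (Cfsg.autInducedBy R P).subgroupOf (E.autGroup P)) ⟨fun b hb a => ?_⟩
      (isPGroup_autInducedBy (hTp.to_le hRE.1) P).comap_subtype (conjAut_mem_autInducedBy hgP hg)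
    obtain ⟨k, hk, hkb⟩ := mem_autInducedBy_iff.1 hb
    obtain ⟨ψ, hψ, hψe, hψQ⟩ := hA.2 P _ (hsub P ((mem_autGroup_iff E hPT).1 a.2))
    refine mem_autInducedBy_iff.2 ⟨ψ ⟨k, Subgroup.mem_sup_right hk.1⟩,
      ⟨hψQ.le ⟨_, hk.1, rfl⟩, map_mem_of_stronglyClosed hTsc hψ hk.2⟩, fun y => ?_⟩
    set x : P := (a : MulAut P)⁻¹ y
    have hy : (a : MulAut P) x = y := by simp [x]
    rw [← hy]
    show (((a : MulAut P) ((b : MulAut P) ((a : MulAut P)⁻¹ ((a : MulAut P) x))) : P) : Ω) = _
    rw [MulAut.inv_apply, MulEquiv.symm_apply_apply,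
      show (((a : MulAut P) ((b : MulAut P) x) : P) : Ω) = ψ (Subgroup.inclusion le_sup_left _) from
        (hψe _).symm,
      show (((a : MulAut P) x : P) : Ω) = ψ (Subgroup.inclusion le_sup_left x) from (hψe _).symm,
      ← map_inv, ← map_mul, ← map_mul]
    exact congrArg ψ (Subtype.ext (hkb x))
  refine ⟨hEs, R, hRn, isCentric_of_normal hRn fun x hx => ⟨?_, hx.1⟩⟩
  have hRF : F.StronglyClosed R := ⟨inf_le_right.trans hTS, fun P hP φ hφ y =>
    ⟨map_mem_of_isNormal hA hφ (hP y.2).1, map_mem_of_stronglyClosed hTsc hφ (hP y.2).2⟩⟩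
  have hTN := le_normalizer_of_stronglyClosed hTsc
  have hAN := le_normalizer_of_stronglyClosed (stronglyClosed_of_isNormal hA)
  refine mem_core_of_stabilizes hS hFs hA hAc hRF inf_le_left (hTS hx.1) (fun n hn => ⟨?_, ?_⟩) ?_
  · exact F.core.mul_mem (F.core.inv_mem hn) ((Subgroup.mem_normalizer_iff.1 (hAN (hTS hx.1)) n).1 hn)
  · have h1 : n⁻¹ * x * n⁻¹⁻¹ ∈ T :=
      (Subgroup.mem_normalizer_iff.1 (hTN (S.inv_mem (hA.1 hn))) x).1 hx.1
    have h2 := T.mul_mem h1 (T.inv_mem hx.1)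
    show n⁻¹ * (x * n * x⁻¹) ∈ T
    convert h2 using 1
    group
  · intro r hr
    rw [← hx.2 r hr, mul_inv_cancel_right]


/-- Let F be a constrained saturated fusion system over a finite p-group S. Then every subsystem of F that is subnormal in F (reached from F by a finite chain of successive normal subsystems) is constrained. -/
theorem result {Ω : Type*} [Group Ω] {S : Subgroup Ω} [Finite S] (p : ℕ) [Fact p.Prime] (hS : IsPGroup p S) (F : Cfsg.FusionSystem S) (hF : F.IsConstrained p) {T : Subgroup Ω} (E : Cfsg.FusionSystem T) (hE : E.IsSubnormalIn F p) : E.IsConstrained p := by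
  rename_i _ hfin hp
  revert hF hS hfin hp
  induction hE with
  | refl => intros; assumption
  | @step U₁ S₁ E₁ D₁ F₁ q hED hDF ih =>
    intro hfin hp hS hF
    have hU : U₁ ≤ S₁ := hDF.1.2.2.2.1.1
    haveI := finite_of_le hU
    exact ih (hS.to_le hU) (normal_constrained hS hF hDF.1)

end Cfsg.Agent.S5342
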