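import Cfsg.Statements.S5385
import Cfsg.Agent.ConwayFive.Outer

set_option autoImplicit false
open Cfsg

namespace Cfsg.Agent.S5385

open CfsgLib.ConwayFive CfsgLib.ExtraspecialTwo

theorem transfer {G : Type*} [Group G] {K : Subgroup G} {b : G}
    (hK : K = Subgroup.centralizer ({b} : Set G)) {L : Subgroup G} (SL : Split b L)
    (h : Nonempty (↥(Subgroup.centralizer (L : Set G)) ≃* Alt5)) :
    Cfsg.Spor.IsoJ2 ↥(Cfsg.layer ↥K) ∧ Nonempty (↥(Subgroup.centralizer
      (((Cfsg.layer ↥K).map K.subtype : Subgroup G) : Set G)) ≃* alternatingGroup (Fin 5)) := by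
  subst hK
  constructor
  · exact ⟨(((Cfsg.layer _).equivMapOfInjective _ (Subgroup.subtype_injective _)).trans
      (MulEquiv.subgroupCongr SL.layer_eq)).trans SL.iso.some⟩
  · rw [SL.layer_eq]
    exact h

theorem minus_type {C : Type*} [Group C] {Q B : Subgroup C}
    (hminus : ∀ A : Subgroup C, A ≤ Q ⊓ Subgroup.centralizer (B : Set C) →
      Cfsg.IsElementaryAbelian 2 A → Nat.card A ≤ 4)
    [Finite C] (ψ : C → CfsgLib.ConwayFive.V8)
    (hψ : ∀ a ∈ Q, ∀ b ∈ Q, ψ (a * b) = ψ a + ψ b) {z x y : C} (hz : z ∈ Q ⊓ Subgroup.centralizer (B : Set C))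
    (hx : x ∈ Q ⊓ Subgroup.centralizer (B : Set C)) (hy : y ∈ Q ⊓ Subgroup.centralizer (B : Set C))
    (hz2 : z * z = 1) (hx2 : x * x = 1) (hy2 : y * y = 1) (hzx : z * x = x * z) (hzy : z * y = y * z)
    (hxy : x * y = y * x) (hzn : z ≠ 1) (hψz : ψ z = 0) :
    ψ x = 0 ∨ ψ y = 0 ∨ ψ x = ψ y := by
  by_contra hne
  rw [not_or, not_or] at hne
  obtain ⟨h1, h2, h3⟩ := hne
  let A := Subgroup.closure ({z, x, y} : Set C)
  have hcomm : ∀ u ∈ ({z, x, y} : Set C), ∀ v ∈ ({z, x, y} : Set C), u * v = v * u := by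
    intro u hu v hv
    rcases hu with rfl | rfl | rfl <;> rcases hv with rfl | rfl | rfl <;>
      first | rfl | assumption | exact Eq.symm (by assumption)
  haveI hA : IsMulCommutative A := Subgroup.isMulCommutative_closure hcomm
  have hle : A ≤ Q ⊓ Subgroup.centralizer (B : Set C) :=
    (Subgroup.closure_le _).2 (by
      intro u hu
      rcases hu with rfl | rfl | rfl <;> assumption)
  have hsq : ∀ a ∈ A, a ^ 2 = 1 := by
    intro a ha
    induction ha using Subgroup.closure_induction with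
    | mem u hu => rcases hu with rfl | rfl | rfl <;> rw [sq] <;> assumption
    | one => exact one_pow 2
    | mul u v hu hv ihu ihv =>
      have hc : Commute u v := congrArg Subtype.val (mul_comm' (⟨u, hu⟩ : A) ⟨v, hv⟩)
      rw [hc.mul_pow, ihu, ihv, one_mul]
    | inv u hu ih => rw [inv_pow, ih, inv_one]
  have hcard := hminus A hle ⟨hA, hsq⟩
  let f : Bool × Bool × Bool → A := fun p =>
    ⟨(if p.1 then z else 1) * ((if p.2.1 then x else 1) * (if p.2.2 then y else 1)),
      A.mul_mem (by split <;> [exact Subgroup.subset_closure (by simp); exact A.one_mem])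
        (A.mul_mem (by split <;> [exact Subgroup.subset_closure (by simp); exact A.one_mem])
          (by split <;> [exact Subgroup.subset_closure (by simp); exact A.one_mem]))⟩
  have hψ1 : ψ 1 = 0 := by
    have := hψ 1 Q.one_mem 1 Q.one_mem
    rw [mul_one] at this
    simpa using this
  have hzQ : z ∈ Q := hz.1
  have hxQ : x ∈ Q := hx.1
  have hyQ : y ∈ Q := hy.1
  have hval : ∀ p, ψ (f p : C) = (if p.2.1 then ψ x else 0) + (if p.2.2 then ψ y else 0) := by
    intro p
    obtain ⟨i, j, k⟩ := p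
    show ψ (_ * (_ * _)) = _
    cases i <;> cases j <;> cases k <;>
      simp [hψ _ hzQ _ hxQ, hψ _ hzQ _ hyQ, hψ _ hxQ _ hyQ, hψ _ hzQ _ (Q.mul_mem hxQ hyQ), hψz, hψ1]
  have hf : Function.Injective f := by
    rintro ⟨i, j, k⟩ ⟨i', j', k'⟩ e
    have e1 := congrArg (fun a : A => ψ (a : C)) e
    simp only [hval] at e1
    obtain ⟨rfl, rfl⟩ : j = j' ∧ k = k' := by
      cases j <;> cases j' <;> cases k <;> cases k' <;>
        simp [h1, h2, h3, Ne.symm h1, Ne.symm h2, Ne.symm h3, CharTwo.add_eq_zero, eq_comm] at e1 ⊢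
    have e2 : (if i then z else 1 : C) = if i' then z else 1 :=
      mul_right_cancel (congrArg Subtype.val e)
    cases i <;> cases i' <;> simp [hzn, Ne.symm hzn] at e2 ⊢
  have h8 := Nat.card_le_card_of_injective f hf
  simp at h8
  omega

/-- Let G be a finite group of Conway type (involution z with generalized Fitting subgroup Q of its centralizer C extraspecial of order 2^9, C/Q the commutator subgroup of the isometry group of the hyperbolic quadratic form in dimension 8 over the field with two elements, z not weakly closed in Q), and let B be a subgroup of C of order 5 such that the centralizer of B in Q is extraspecial of order 32 containing no elementary abelian subgroup of order 8 (the quaternion-times-dihedral type). Then the layer L of the centralizer of B in G is isomorphic to the Hall–Janko group and the centralizer of L is isomorphic to the alternating group of degree 5. -/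
theorem result {G : Type*} [Group G] [Finite G] (z : G) (hz : orderOf z = 2) (Q : Subgroup (Subgroup.centralizer ({z} : Set G))) [Q.Normal] (hF : Cfsg.generalizedFittingSubgroup (Subgroup.centralizer ({z} : Set G)) = Q) (hQ : Cfsg.IsExtraspecial 2 Q) (hcard : Nat.card Q = 2 ^ 9) (e : (Subgroup.centralizer ({z} : Set G)) ⧸ Q ≃* Cfsg.Omega (ZMod 2) (Cfsg.quadFormPlus 4 (ZMod 2))) (hnwc : ∃ g : G, (∃ hq : g * z * g⁻¹ ∈ Subgroup.centralizer ({z} : Set G), (⟨g * z * g⁻¹, hq⟩ : Subgroup.centralizer ({z} : Set G)) ∈ Q) ∧ g * z * g⁻¹ ≠ z) (B : Subgroup (Subgroup.centralizer ({z} : Set G))) (hB : Nat.card B = 5) (hCQ : Cfsg.IsExtraspecial 2 ↥(Q ⊓ Subgroup.centralizer (B : Set (Subgroup.centralizer ({z} : Set G))))) (hCQcard : Nat.card ↥(Q ⊓ Subgroup.centralizer (B : Set (Subgroup.centralizer ({z} : Set G)))) = 32) (hminus : ∀ A : Subgroup (Subgroup.centralizer ({z} : Set G)), A ≤ Q ⊓ Subgroup.centralizer (B : Set (Subgroup.centralizer ({z} : Set G))) → Cfsg.IsElementaryAbelian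 2 A → Nat.card A ≤ 4) : Cfsg.Spor.IsoJ2 ↥(Cfsg.layer ↥(Subgroup.centralizer ((B.map (Subgroup.subtype (Subgroup.centralizer ({z} : Set G)))) : Set G))) ∧ Nonempty (↥(Subgroup.centralizer (((Cfsg.layer ↥(Subgroup.centralizer ((B.map (Subgroup.subtype (Subgroup.centralizer ({z} : Set G)))) : Set G))).map (Subgroup.subtype _)) : Set G)) ≃* alternatingGroup (Fin 5)) := by
  classical
  haveI : Fact (Nat.Prime 5) := ⟨Nat.prime_five⟩
  obtain ⟨pr, act, h⟩ := exists_coords hz Q hF hQ hcard e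
  obtain ⟨b₀, hb₀⟩ := (isCyclic_of_prime_card hB).exists_generator
  have hBz : B = Subgroup.zpowers (b₀ : ↥(Subgroup.centralizer ({z} : Set G))) := by
    ext u
    refine ⟨fun hu => ?_, fun hu => ?_⟩
    · obtain ⟨n, hn⟩ := Subgroup.mem_zpowers_iff.1 (hb₀ ⟨u, hu⟩)
      exact Subgroup.mem_zpowers_iff.2 ⟨n, by simpa using congrArg Subtype.val hn⟩
    · exact (Subgroup.zpowers_le.2 b₀.2) hu
  set b : G := ((b₀ : ↥(Subgroup.centralizer ({z} : Set G))) : G) with hb
  have hbz : b * z = z * b := mem_cent_iff.1 (b₀ : ↥(Subgroup.centralizer ({z} : Set G))).2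
  have hb5 : orderOf b = 5 := by
    rw [hb, Subgroup.orderOf_coe, Subgroup.orderOf_coe, orderOf_eq_card_of_forall_mem_zpowers hb₀, hB]
  have hBC : ∀ u : ↥(Subgroup.centralizer ({z} : Set G)), u ∈ Subgroup.centralizer (B : Set ↥(Subgroup.centralizer ({z} : Set G))) ↔ (u : G) * b = b * u := by
    intro u
    rw [hBz, Subgroup.zpowers_eq_closure, Subgroup.centralizer_closure, mem_cent_iff, Subtype.ext_iff]
    rfl
  have hK : Subgroup.centralizer ((B.map (Subgroup.centralizer ({z} : Set G)).subtype : Subgroup G) : Set G) =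
      Subgroup.centralizer ({b} : Set G) := by
    rw [hBz, MonoidHom.map_zpowers, Subgroup.zpowers_eq_closure, Subgroup.centralizer_closure]
    rfl
  have hmap : (Q.map (Subgroup.centralizer ({z} : Set G)).subtype) ⊓ Subgroup.centralizer ({b} : Set G) =
      (Q ⊓ Subgroup.centralizer (B : Set ↥(Subgroup.centralizer ({z} : Set G)))).map (Subgroup.centralizer ({z} : Set G)).subtype := by
    ext g
    refine ⟨?_, ?_⟩
    · rintro ⟨⟨u, hu, rfl⟩, hg⟩
      exact ⟨u, ⟨hu, (hBC u).2 (mem_cent_iff.1 hg)⟩, rfl⟩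
    · rintro ⟨u, ⟨hu, hub⟩, rfl⟩
      exact ⟨⟨u, hu, rfl⟩, mem_cent_iff.2 ((hBC u).1 hub)⟩
  have hc32 : Nat.card ↥((Q.map (Subgroup.centralizer ({z} : Set G)).subtype) ⊓ Subgroup.centralizer ({b} : Set G)) = 32 := by
    rw [hmap, Subgroup.card_map_of_injective (Subgroup.centralizer ({z} : Set G)).subtype_injective, hCQcard]
  obtain ⟨pr', act', F⟩ := exists_frame h hbz hb5 hc32 (by
    rintro x ⟨x, hx, rfl⟩ y ⟨y, hy, rfl⟩ hxb hyb hx2 hy2 hxy
    obtain ⟨zc, hzc, hzce⟩ := h.z_mem
    change (zc : G) = z at hzce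
    refine minus_type hminus (fun u : ↥(Subgroup.centralizer ({z} : Set G)) => pr (u : G)) (z := zc) (x := x) (y := y)
      (fun a ha c hc => h.pr_mul _ ⟨a, ha, rfl⟩ _ ⟨c, hc, rfl⟩)
      ⟨hzc, (hBC zc).2 (by rw [hzce]; exact hbz.symm)⟩ ⟨hx, (hBC x).2 hxb⟩ ⟨hy, (hBC y).2 hyb⟩
      (Subtype.ext (by show (zc : G) * zc = 1; rw [hzce, h.z_sq]))
      (Subtype.ext hx2) (Subtype.ext hy2)
      (Subtype.ext (by show (zc : G) * x = x * zc; rw [hzce]; exact (mem_cent_iff.1 x.2).symm))
      (Subtype.ext (by show (zc : G) * y = y * zc; rw [hzce]; exact (mem_cent_iff.1 y.2).symm))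
      (Subtype.ext hxy)
      (fun e' => h.z_ne (by rw [← hzce, e']; rfl))
      (by show pr (zc : G) = 0; rw [hzce, h.pr_z]))
  obtain ⟨g, ⟨hq, hgQ⟩, hne⟩ := hnwc
  have hnwc' : ∃ g, g * z * g⁻¹ ∈ Q.map (Subgroup.centralizer ({z} : Set G)).subtype ∧ g * z * g⁻¹ ≠ z :=
    ⟨g, ⟨⟨g * z * g⁻¹, hq⟩, hgQ, rfl⟩, hne⟩
  obtain ⟨L, SL⟩ := F.exists_split hnwc'
  exact transfer hK SL (F.centralizer_iso hnwc' SL)

end Cfsg.Agent.S5385
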