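import Cfsg.Statements.S5401
import Cfsg.Agent.FischerRecog58.RModel
import Cfsg.Agent.Fi23Type67.Main
import Cfsg.Agent.Fi24Type67.Main
import Cfsg.Agent.CosetEnum.Fi24.Checked

set_option autoImplicit false
open Cfsg

namespace Cfsg.Agent.S5401

/-- Existence of the Fischer 3-transposition groups: there exist finite groups generated by a conjugacy class of 3-transpositions on which they act primitively that are of type M(22), of type M(23), and of type M(24) respectively. -/
theorem result : (∃ (X : Type) (_ : Group X) (_ : Finite X) (E : Set X), Cfsg.IsThreeTranspositionClass E ∧ Cfsg.IsPrimitiveUnderConj E ∧ Cfsg.IsOfTypeM22 X E) ∧ (∃ (X : Type) (_ : Group X) (_ : Finite X) (E : Set X), Cfsg.IsThreeTranspositionClass E ∧ Cfsg.IsPrimitiveUnderConj E ∧ Cfsg.IsOfTypeM23 X E) ∧ (∃ (X : Type) (_ : Group X) (_ : Finite X) (E : Set X), Cfsg.IsThreeTranspositionClass E ∧ Cfsg.IsPrimitiveUnderConj E ∧ Cfsg.IsOfTypeM24 X E) := by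
  have h := CfsgLib.CosetEnum.Fi24.checksOK
  exact ⟨⟨Cfsg.Spor.Fi22, inferInstance, CfsgLib.CosetEnum.Fi22.finite_fi22,
      CfsgLib.FischerRecog58.D22, CfsgLib.FischerRecog58.ttc22,
      CfsgLib.FischerRecog58.primitive22, CfsgLib.FischerRecog58.type22⟩,
    ⟨Cfsg.Spor.Fi23, inferInstance, CfsgLib.CosetEnum.Fi23.finite_fi23,
      CfsgLib.Fi23Type67.D23, CfsgLib.Fi23Type67.ttc23,
      CfsgLib.Fi23Type67.primitive23, CfsgLib.Fi23Type67.type23⟩,
    ⟨Cfsg.Spor.Fi24, inferInstance, CfsgLib.CosetEnum.Fi24.finite_Fi24 h,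
      CfsgLib.CosetEnum.Fi24.transClass, CfsgLib.CosetEnum.Fi24.isThreeTransposition h,
      CfsgLib.Fi24Type67.primitive24 h, CfsgLib.Fi24Type67.type24 h⟩⟩

end Cfsg.Agent.S5401
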