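import Cfsg.Statements.S5465
import Cfsg.Agent.ThreeTransp.M24Pair25
import Cfsg.Agent.Fi22Out.Main
import Cfsg.Agent.ThreeTransp.M22IsoFi22

set_option autoImplicit false
open Cfsg

namespace Cfsg.Agent.S5465

theorem card_mulAut_fi22 : Nat.card (MulAut Cfsg.Spor.Fi22) = 2 * Nat.card Cfsg.Spor.Fi22 := by
  haveI := CfsgLib.CosetEnum.Fi22.finite_fi22
  haveI := CfsgLib.CosetEnum.Fi22.simple
  have h := (Cfsg.Inn Cfsg.Spor.Fi22).card_mul_index
  rw [Subgroup.index_eq_card] at h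
  have ho := CfsgLib.Fi22Out.card_out
  have hc : Nat.card (Cfsg.Inn Cfsg.Spor.Fi22) = Nat.card Cfsg.Spor.Fi22 := by
    refine (Nat.card_congr (MonoidHom.ofInjective ?_).toEquiv).symm
    rw [← MonoidHom.ker_eq_bot_iff]
    refine (MonoidHom.normal_ker _).eq_bot_or_eq_top.resolve_right fun ht => ?_
    have hcomm : ∀ x y : Cfsg.Spor.Fi22, x * y = y * x := fun x y => by
      have := congrArg (fun e : MulAut Cfsg.Spor.Fi22 => e y)
        (MonoidHom.mem_ker.1 (ht ▸ Subgroup.mem_top x))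
      simp only [MulAut.conj_apply, MulAut.one_apply] at this
      exact mul_inv_eq_iff_eq_mul.1 this
    haveI : Fact (Nat.Prime 2) := ⟨Nat.prime_two⟩
    obtain ⟨x, hx⟩ := exists_prime_orderOf_dvd_card' 2 (G := Cfsg.Spor.Fi22)
      (by rw [CfsgLib.CosetEnum.Fi22.card_fi22]; norm_num)
    have hn : (Subgroup.zpowers x).Normal := ⟨fun n hn g => by
      rw [hcomm g n, mul_inv_cancel_right]; exact hn⟩
    rcases hn.eq_bot_or_eq_top with hz | hz
    · rw [Subgroup.zpowers_eq_bot] at hz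
      rw [hz, orderOf_one] at hx
      omega
    · have := Nat.card_zpowers x
      rw [hz, Subgroup.card_top, CfsgLib.CosetEnum.Fi22.card_fi22, hx] at this
      omega
  rw [← h, hc]
  rw [show Nat.card (MulAut Spor.Fi22 ⧸ Cfsg.Inn Spor.Fi22) = 2 from ho, mul_comm]


/-- Let G be a finite group with trivial centre generated by a conjugation-invariant set D of 3-transpositions on which it acts primitively, such that for some d in D the subgroup generated by the members of D other than d commuting with d has central largest normal 2- and 3-subgroups, and suppose G with D is of type M(24), and let L be the commutator subgroup of G. Let d₁, d₂ be distinct commuting members of D and j = d₁ d₂. Then K, the joint centralizer of d₁ and d₂ in L, is quasisimple, is the generalized Fitting subgroup of the centralizer of j in L, has index 2 in it and contains j, and the centralizer of j in L modulo the subgroup generated by j is isomorphic to the full automorphism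 group of the Fischer group Fi₂₂ (as presented). -/
theorem result {G : Type*} [Group G] [Finite G] {D : Set G} (hD : Cfsg.IsThreeTranspositionGroup D) (hprim : Cfsg.IsPrimitiveUnderConj D) (d₀ : G) (hd₀ : d₀ ∈ D) (h3 : Cfsg.pCore 3 ↥(Subgroup.closure {y : G | y ∈ D ∧ y ≠ d₀ ∧ Commute d₀ y}) ≤ Subgroup.center ↥(Subgroup.closure {y : G | y ∈ D ∧ y ≠ d₀ ∧ Commute d₀ y})) (h2 : Cfsg.pCore 2 ↥(Subgroup.closure {y : G | y ∈ D ∧ y ≠ d₀ ∧ Commute d₀ y}) ≤ Subgroup.center ↥(Subgroup.closure {y : G | y ∈ D ∧ y ≠ d₀ ∧ Commute d₀ y})) (h24 : Cfsg.IsOfTypeM24 G D) (L : Subgroup G) (hL : L = commutator G) (d₁ d₂ : G) (h₁ : d₁ ∈ D) (h₂ : d₂ ∈ D) (hne : d₁ ≠ d₂) (hc : Commute d₁ d₂) (K CL : Subgroup G) (hK : K = L ⊓ Subgroup.centralizer ({d₁, d₂} : Set G)) (hCL : CL = L ⊓ Subgroup.centralizer ({d₁ * d₂} : Set G)) [hn : ((Subgroup.zpowers (d₁ * d₂)).subgroupOf CL).Normal] : Cfsg.IsQuasisimple ↥K ∧ K = (Cfsg.generalizedFittingSubgroup ↥CL).map CL.subtype ∧ K ≤ CL ∧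 (K.subgroupOf CL).index = 2 ∧ d₁ * d₂ ∈ K ∧ Nonempty (↥CL ⧸ (Subgroup.zpowers (d₁ * d₂)).subgroupOf CL ≃* MulAut Cfsg.Spor.Fi22) := by
  obtain ⟨φ, hφ'⟩ := CfsgLib.ThreeTransp.m24_sign hD hprim h24
  have hφ : ∀ d ∈ D, φ d ≠ 1 := fun d hd h => by
    rw [hφ' d hd] at h
    exact absurd h (fun h => one_ne_zero (α := ZMod 2) (congrArg Multiplicative.toAdd h))
  have hLk : L = φ.ker := hL.trans (CfsgLib.ThreeTransp.parity_ker_eq hD hprim φ hφ)
  subst hLk
  exact CfsgLib.ThreeTransp.m24_pair_main hD hprim h24 h₁ (b := d₂) ⟨h₂, hne.symm, hc⟩ φ hφ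
    (A := Cfsg.Spor.Fi22) (fun H _ _ Δ h1 h2 h22 => let ⟨e, _⟩ := CfsgLib.ThreeTransp.m22_iso_fi22 h1 h2 h22; ⟨e.symm⟩) card_mulAut_fi22 K CL hK hCL

end Cfsg.Agent.S5465
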