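import Cfsg.Statements.S5473
import Cfsg.Agent.ThreeTransp.M22IsoFi22
import Cfsg.Agent.Fi22Out.Main
import Cfsg.Agent.ThreeTransp.M22PairAut25

set_option autoImplicit false
open Cfsg

namespace Cfsg.Agent.S5473

theorem card_mulAut_fi22 : Nat.card (MulAut Cfsg.Spor.Fi22) = 2 * Nat.card Cfsg.Spor.Fi22 := by
  haveI := CfsgLib.CosetEnum.Fi22.finite_fi22
  haveI := CfsgLib.CosetEnum.Fi22.simple
  have h := (Cfsg.Inn Cfsg.Spor.Fi22).card_mul_index
  rw [Subgroup.index_eq_card] at h
  have ho := CfsgLib.Fi22Out.card_out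
  have hc : Nat.card (Cfsg.Inn Cfsg.Spor.Fi22) = Nat.card Cfsg.Spor.Fi22 := by
    refine (Nat.card_congr (MonoidHom.ofInjective ?_).toEquiv).symm
    rw [← MonoidHom.ker_eq_bot_iff]
    refine (MonoidHom.normal_ker _).eq_bot_or_eq_top.resolve_right fun ht => ?_
    have hcomm : ∀ x y : Cfsg.Spor.Fi22, x * y = y * x := fun x y => by
      have := congrArg (fun e : MulAut Cfsg.Spor.Fi22 => e y)
        (MonoidHom.mem_ker.1 (ht ▸ Subgroup.mem_top x))
      simp only [MulAut.conj_apply, MulAut.one_apply] at this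
      exact mul_inv_eq_iff_eq_mul.1 this
    haveI : Fact (Nat.Prime 2) := ⟨Nat.prime_two⟩
    obtain ⟨x, hx⟩ := exists_prime_orderOf_dvd_card' 2 (G := Cfsg.Spor.Fi22)
      (by rw [CfsgLib.CosetEnum.Fi22.card_fi22]; norm_num)
    have hn : (Subgroup.zpowers x).Normal := ⟨fun n hn g => by
      rw [hcomm g n, mul_inv_cancel_right]; exact hn⟩
    rcases hn.eq_bot_or_eq_top with hz | hz
    · rw [Subgroup.zpowers_eq_bot] at hz
      rw [hz, orderOf_one] at hx
      omega
    · have := Nat.card_zpowers x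
      rw [hz, Subgroup.card_top, CfsgLib.CosetEnum.Fi22.card_fi22, hx] at this
      omega
  rw [← h, hc]
  rw [show Nat.card (MulAut Spor.Fi22 ⧸ Cfsg.Inn Spor.Fi22) = 2 from ho, mul_comm]



/-- Let G be a finite group with trivial centre generated by a conjugation-invariant set D of 3-transpositions on which it acts primitively, such that for some d in D the subgroup generated by the members of D other than d commuting with d has central largest normal 2- and 3-subgroups, and suppose G with D is of type M(22), and let A be the automorphism group of G. Let d₁, d₂ be distinct commuting members of D and j the inner automorphism of their product. Then the generalized Fitting subgroup Q of the centralizer of j in A is a large extraspecial 2-subgroup of A of order 2^11 (extraspecial; centralizer equal to its centre; normal in the centralizer of its centre; normalizing no non-trivial odd-order subgroup), and the centralizer of j modulo Q is isomorphic to the full automorphism group of the projective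 special unitary group of dimension 4 over the field with four elements. -/
theorem result {G : Type*} [Group G] [Finite G] {D : Set G} (hD : Cfsg.IsThreeTranspositionGroup D) (hprim : Cfsg.IsPrimitiveUnderConj D) (d₀ : G) (hd₀ : d₀ ∈ D) (h3 : Cfsg.pCore 3 ↥(Subgroup.closure {y : G | y ∈ D ∧ y ≠ d₀ ∧ Commute d₀ y}) ≤ Subgroup.center ↥(Subgroup.closure {y : G | y ∈ D ∧ y ≠ d₀ ∧ Commute d₀ y})) (h2 : Cfsg.pCore 2 ↥(Subgroup.closure {y : G | y ∈ D ∧ y ≠ d₀ ∧ Commute d₀ y}) ≤ Subgroup.center ↥(Subgroup.closure {y : G | y ∈ D ∧ y ≠ d₀ ∧ Commute d₀ y})) (h22 : Cfsg.IsOfTypeM22 G D) (d₁ d₂ : G) (h₁ : d₁ ∈ D) (h₂ : d₂ ∈ D) (hne : d₁ ≠ d₂) (hc : Commute d₁ d₂) (j : MulAut G) (hj : j = MulAut.conj (d₁ * d₂)) (Q : Subgroup (MulAut G)) (hQ : Q = (Cfsg.generalizedFittingSubgroup ↥(Subgroup.centralizer ({j} : Set (MulAut G)))).map (Subgroup.centralizer ({j} : Set (MulAut G))).subtype) : Cfsg.IsLargeExtraspecial Q ∧ Nat.card Q = 2 ^ 11 ∧ Q ≤ Subgroup.centralizer ({j} : Set (MulAut G)) ∧ ∃ (_ : (Q.subgroupOf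 (Subgroup.centralizer ({j} : Set (MulAut G)))).Normal) (F : Type) (_ : Field F) (_ : Fintype F), Fintype.card F = 4 ∧ Nonempty (↥(Subgroup.centralizer ({j} : Set (MulAut G))) ⧸ Q.subgroupOf (Subgroup.centralizer ({j} : Set (MulAut G))) ≃* MulAut (Cfsg.PSU 4 F 2)) := by
  obtain ⟨e, -⟩ := CfsgLib.ThreeTransp.m22_iso_fi22 hD hprim h22
  have hA2 : Nat.card (MulAut G) = 2 * Nat.card G := by
    rw [← Nat.card_congr (MulAut.congr e).toEquiv, ← Nat.card_congr e.toEquiv]
    exact card_mulAut_fi22
  exact CfsgLib.ThreeTransp.Pair25.m22_pair_aut_main hD hprim h22 hA2 h₁ (b := d₂) ⟨h₂, hne.symm, hc⟩ j hj Q hQ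

end Cfsg.Agent.S5473
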