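import Cfsg.Statements.S5521
import Cfsg.Agent.Eq.Def_Sporadic_a
import Cfsg.Agent.Mathieu.M24

set_option autoImplicit false
open Cfsg

namespace Cfsg.Agent.S5521

open CfsgLib.Mathieu

/-- More group elements than placements of the points of `B`: some non-identity element fixes `B`. -/
theorem exists_fix (M : Subgroup (Equiv.Perm GolayPt)) (hM : 96909120 < Nat.card M)
    (B : Finset GolayPt) (hB : B.card ≤ 6) : ∃ g ∈ M, g ≠ 1 ∧ ∀ b ∈ B, g b = b := by
  by_contra hcon
  push Not at hcon
  let F : M → (↥B ↪ GolayPt) := fun g =>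
    ⟨fun b => (g : Equiv.Perm GolayPt) b.1, fun a b e => Subtype.ext ((g : Equiv.Perm GolayPt).injective e)⟩
  have hF : Function.Injective F := by
    intro a b e
    by_contra hne
    obtain ⟨p, hp, hp'⟩ := hcon _ (M.mul_mem (M.inv_mem b.2) a.2) (fun h => hne (Subtype.ext
      (inv_mul_eq_one.mp h).symm))
    apply hp'
    have := congrArg (fun f : ↥B ↪ GolayPt => f ⟨p, hp⟩) e
    change (a : Equiv.Perm GolayPt) p = (b : Equiv.Perm GolayPt) p at this
    rw [Equiv.Perm.mul_apply, this]
    exact (b : Equiv.Perm GolayPt).symm_apply_apply p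
  have h1 := Nat.card_le_card_of_injective F hF
  rw [Nat.card_eq_fintype_card (α := ↥B ↪ GolayPt), Fintype.card_embedding_eq,
    Fintype.card_coe, show Fintype.card GolayPt = 24 by decide +kernel] at h1
  have h2 : ∀ k ≤ 6, (24 : ℕ).descFactorial k ≤ 96909120 := by decide +kernel
  have := h2 _ hB
  omega

/-- The Mathieu group M₂₄ in its natural action on the 24 coordinate positions of the binary Golay code has minimal base size exactly 7: every set of at most 6 positions is fixed pointwise by some non-identity element of M₂₄, while some set of 7 positions is fixed pointwise only by the identity. -/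
theorem result :
    (∀ B : Finset Cfsg.GolayPt, B.card ≤ 6 → ∃ g ∈ Cfsg.M24, g ≠ 1 ∧ ∀ b ∈ B, g b = b) ∧
    (∃ B : Finset Cfsg.GolayPt, B.card = 7 ∧ ∀ g ∈ Cfsg.M24, (∀ b ∈ B, g b = b) → g = 1) := by
  refine ⟨exists_fix M24 (by rw [card_M24]; norm_num), (base7.map i2p).toFinset, by decide +kernel,
    fun g hg h => fix_base7 hg fun i hi => h _ ?_⟩
  exact List.mem_toFinset.mpr (List.mem_map_of_mem hi)

end Cfsg.Agent.S5521
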