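import Cfsg.Statements.S5562
-- import your own Cfsg.Agent.* helpers here

set_option autoImplicit false
open Cfsg

namespace Cfsg.Agent.S5562

private theorem eq_of_sq_eq {G : Type*} [Group G] [Finite G] {g h : G} (hg : Odd (orderOf g))
    (hh : Odd (orderOf h)) (e : g ^ 2 = h ^ 2) : g = h := by
  have aux : ∀ u : G, Odd (orderOf u) → (u ^ 2) ^ ((orderOf (u ^ 2) + 1) / 2) = u := by
    intro u hu
    have h2 : orderOf (u ^ 2) = orderOf u := Nat.Coprime.orderOf_pow (hu.coprime_two_right)
    obtain ⟨k, hk⟩ := hu
    rw [h2, ← pow_mul]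
    have : 2 * ((orderOf u + 1) / 2) = orderOf u + 1 := by omega
    rw [this, pow_succ, pow_orderOf_eq_one, one_mul]
  rw [← aux g hg, ← aux h hh, e]


/-- Let G be a finite group, d an involution of G whose conjugates pairwise have products of odd order, and x any involution of G. Then the conjugacy class of d is the disjoint union, over the conjugates a of d commuting with x, of the sets of conjugates of d commuting with ax: every conjugate of d commutes with ax for exactly one conjugate a of d that commutes with x. -/
theorem result {G : Type*} [Group G] [Finite G] (d : G) (hd : orderOf d = 2)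
    (hodd : ∀ a ∈ conjugatesOf d, ∀ b ∈ conjugatesOf d, Odd (orderOf (a * b)))
    (x : G) (hx : orderOf x = 2) :
    ∀ e ∈ conjugatesOf d,
      ∃! a : G, a ∈ conjugatesOf d ∧ Commute a x ∧ Commute e (a * x) := by
  intro e he
  have sq : ∀ a ∈ conjugatesOf d, a * a = 1 := by
    intro a ha
    obtain ⟨c, rfl⟩ := isConj_iff.mp ha
    rw [conj_mul, ← pow_two d, ← hd, pow_orderOf_eq_one]; group
  have conjmem : ∀ a ∈ conjugatesOf d, ∀ c : G, c * a * c⁻¹ ∈ conjugatesOf d := fun a ha c =>
    IsConj.trans ha (isConj_iff.mpr ⟨c, rfl⟩)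
  have hx2 : x * x = 1 := by rw [← pow_two, ← hx, pow_orderOf_eq_one]
  have hxi : x⁻¹ = x := inv_eq_of_mul_eq_one_right hx2
  have hee := sq e he
  have hei : e⁻¹ = e := inv_eq_of_mul_eq_one_right hee
  set f := x * e * x with hf
  have hfmem : f ∈ conjugatesOf d := by
    have := conjmem e he x
    rwa [hxi] at this
  have hff := sq f hfmem
  have huniq : ∀ a ∈ conjugatesOf d, ∀ b ∈ conjugatesOf d,
      a * e * a = f → b * e * b = f → a = b := by
    intro a ha b hb hae hbe
    have : (a * e) ^ 2 = (b * e) ^ 2 := by
      rw [pow_two, pow_two, ← mul_assoc, hae, ← mul_assoc, hbe]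
    exact mul_right_cancel (eq_of_sq_eq (hodd a ha e he) (hodd b hb e he) this)
  set r := f * e with hr
  obtain ⟨k, hk⟩ := hodd f hfmem e he
  set s := r ^ (k + 1) with hs
  set t := s ^ (k + 1) with ht
  have hrinv : e * r * e⁻¹ = r⁻¹ := by
    have hfi : f⁻¹ = f := inv_eq_of_mul_eq_one_right hff
    rw [hr, mul_inv_rev, hfi, mul_assoc, mul_inv_cancel_right, hei]
  have hes : ∀ m : ℕ, e * r ^ m * e = (r ^ m)⁻¹ := by
    intro m
    calc e * r ^ m * e = e * r ^ m * e⁻¹ := by rw [hei]
      _ = _ := by rw [← conj_pow, hrinv, inv_pow]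
  have hs2 : s * s = r := by
    rw [hs, ← pow_add, show k + 1 + (k + 1) = (2 * k + 1) + 1 by omega, pow_succ, ← hk, ← hr,
      pow_orderOf_eq_one, one_mul]
  have ht2 : t * t = s := by
    rw [ht, hs, ← pow_mul, ← pow_add,
      show (k + 1) * (k + 1) + (k + 1) * (k + 1) = (2 * k + 1) * (k + 1) + (k + 1) by ring,
      pow_add, ← hk, pow_mul, ← hr, pow_orderOf_eq_one, one_pow, one_mul]
  have hte : e * t * e = t⁻¹ := by rw [ht, hs, ← pow_mul]; exact hes _
  have hte' : e * t⁻¹ = t * e := by
    rw [← hte]
    calc e * (e * t * e) = e * e * (t * e) := by group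
      _ = t * e := by rw [hee, one_mul]
  have hamem : s * e ∈ conjugatesOf d := by
    have := conjmem e he t
    rwa [mul_assoc, hte', ← mul_assoc, ht2] at this
  have hae : (s * e) * e * (s * e) = f := by
    calc (s * e) * e * (s * e) = s * (e * e) * s * e := by group
      _ = f := by rw [hee, mul_one, hs2, hr, mul_assoc, hee, mul_one]
  have haa := sq _ hamem
  have hai : (s * e)⁻¹ = s * e := inv_eq_of_mul_eq_one_right haa
  have hafa : (s * e) * f * (s * e) = e := by
    rw [← hae]
    calc (s * e) * ((s * e) * e * (s * e)) * (s * e)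
        = ((s * e) * (s * e)) * e * ((s * e) * (s * e)) := by group
      _ = e := by rw [haa, one_mul, mul_one]
  have hax : Commute (s * e) x := by
    have h1 : x * (s * e) * x ∈ conjugatesOf d := by
      have := conjmem _ hamem x
      rwa [hxi] at this
    have h2 : x * (s * e) * x * e * (x * (s * e) * x) = f := by
      calc x * (s * e) * x * e * (x * (s * e) * x)
          = x * ((s * e) * (x * e * x) * (s * e)) * x := by group
        _ = f := by rw [← hf, hafa, hf]
    have h3 := huniq _ h1 _ hamem h2 hae
    show s * e * x = x * (s * e)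
    conv_lhs => rw [← h3]
    rw [mul_assoc, hx2, mul_one]
  have iff' : ∀ a ∈ conjugatesOf d, (Commute e (a * x) ↔ a * e * a = f) := by
    intro a ha
    have haa := sq a ha
    constructor
    · intro h
      have h' : e * (a * x) = a * x * e := h
      calc a * e * a = a * (e * (a * x)) * x := by
            rw [show a * (e * (a * x)) * x = a * e * a * (x * x) by group, hx2, mul_one]
        _ = (a * a) * (x * e * x) := by rw [h']; group
        _ = f := by rw [haa, one_mul]
    · intro h
      show e * (a * x) = a * x * e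
      calc e * (a * x) = (a * a) * e * a * x := by rw [haa, one_mul]; group
        _ = a * (a * e * a) * x := by group
        _ = a * x * e * (x * x) := by rw [h, hf]; group
        _ = a * x * e := by rw [hx2, mul_one]
  exact ⟨s * e, ⟨hamem, hax, (iff' _ hamem).mpr hae⟩,
    fun b hb => huniq b hb.1 _ hamem ((iff' b hb.1).mp hb.2.2) hae⟩

end Cfsg.Agent.S5562
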