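import Cfsg.Statements.S5574
import Cfsg.Agent.J4Pentad49.Build
import Cfsg.Agent.J4Pentad49.Main
import Cfsg.Agent.J4Pentad49.K2
import Cfsg.Agent.S5563
import Cfsg.Agent.S5564
import Cfsg.Agent.S5569
import Cfsg.Agent.S5572
import Cfsg.Agent.S5573
-- import your own Cfsg.Agent.* helpers here

set_option autoImplicit false
open Cfsg

namespace Cfsg.Agent.S5574

/-- Let G be a finite non-abelian simple group of Janko-four type (an involution z whose centralizer H has an extraspecial largest normal 2-subgroup E of order 2^13 containing its centralizer in H, a normal subgroup N ≥ E of H with N/E of order 3 and H/N the automorphism group of M₂₂, and a subgroup P ≤ N of order 3 with C_E(P) = ⟨z⟩, N_H(P) ≠ C_H(P) and P ≤ C_H(P)′). Then G has a special 2-subgroup L of order 2^15 with centre of order 8 whose normalizer M satisfies: M/L is isomorphic to the direct product of the symmetric group of degree 5 and L₃(2); L has no complement in M; M nevertheless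 contains subgroups isomorphic to the symmetric group of degree 5 and to L₃(2); and M contains the normalizer of some Sylow 5-subgroup and of some Sylow 7-subgroup of G. -/
theorem result {G : Type*} [Group G] [Finite G] [IsSimpleGroup G] (hG : ¬ IsMulCommutative G) (hJ : Cfsg.IsOfJankoFourType G) :
    ∃ L : Subgroup G, Cfsg.IsSpecial 2 ↥L ∧ Nat.card ↥L = 2 ^ 15 ∧ Nat.card ↥(Subgroup.center ↥L) = 8 ∧
    Nonempty (↥(Subgroup.normalizer (L : Set G)) ⧸ L.subgroupOf (Subgroup.normalizer (L : Set G)) ≃* Equiv.Perm (Fin 5) × Matrix.SpecialLinearGroup (Fin 3) (ZMod 2)) ∧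
    (∀ K : Subgroup ↥(Subgroup.normalizer (L : Set G)), ¬ (L.subgroupOf (Subgroup.normalizer (L : Set G))).IsComplement' K) ∧
    (∃ K₁ : Subgroup G, K₁ ≤ Subgroup.normalizer (L : Set G) ∧ Nonempty (↥K₁ ≃* Equiv.Perm (Fin 5))) ∧
    (∃ K₂ : Subgroup G, K₂ ≤ Subgroup.normalizer (L : Set G) ∧ Nonempty (↥K₂ ≃* Matrix.SpecialLinearGroup (Fin 3) (ZMod 2))) ∧
    (∃ Q : Sylow 5 G, Subgroup.normalizer ((Q : Subgroup G) : Set G) ≤ Subgroup.normalizer (L : Set G)) ∧
    (∃ S : Sylow 7 G, Subgroup.normalizer ((S : Subgroup G) : Set G) ≤ Subgroup.normalizer (L : Set G)) := by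
  obtain ⟨z, P, hzP⟩ := hJ
  obtain ⟨c, hcz, hcp⟩ := CfsgLib.Jf18.exists_ctx hzP
  have hp3 : orderOf c.p = 3 := by
    rw [← Nat.card_zpowers, hcp]
    exact hzP.2.2.2.2.2.1
  have hJG : Cfsg.IsOfJankoFourType G := ⟨z, P, hzP⟩
  obtain ⟨d⟩ := CfsgLib.J4Pentad.exists_pentad hzP
    (fun Q hQ hQz => Cfsg.Agent.S5572.result hG z ⟨P, hzP⟩ Q hQ hQz)
    (fun S hS hSz => Cfsg.Agent.S5573.result hG z ⟨P, hzP⟩ S hS hSz)
    (fun t ht hn => Cfsg.Agent.S5569.result hG z ⟨P, hzP⟩ t ht hn)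
  refine d.main_of_sl32 (d.exists_sl32 fun x hx => ?_)
  obtain ⟨g, rfl⟩ := isConj_iff.1 (Cfsg.Agent.S5564.result hG hJG c.p x hp3 hx)
  have h := c.hJ_map (MulAut.conj g)
  refine ⟨_, _, rfl, h, ?_⟩
  refine le_trans ?_ (Cfsg.Agent.S5563.result hG _ _ h).2.2.2.2
  intro y hy
  refine Subgroup.mem_normalizer_iff.2 fun a => ?_
  have hc : Commute y (g * c.p * g⁻¹) := Subgroup.mem_centralizer_singleton_iff.1 hy
  constructor
  · rintro ⟨k, rfl⟩
    refine ⟨k, ?_⟩
    show _ = y * (MulAut.conj g c.p) ^ k * y⁻¹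
    rw [MulAut.conj_apply, (hc.zpow_right k).eq, mul_inv_cancel_right]
  · rintro ⟨k, hk⟩
    refine ⟨k, ?_⟩
    have hk' : (g * c.p * g⁻¹) ^ k = y * a * y⁻¹ := hk
    show (MulAut.conj g c.p) ^ k = a
    rw [MulAut.conj_apply]
    calc (g * c.p * g⁻¹) ^ k = y⁻¹ * ((g * c.p * g⁻¹) ^ k * y) := by
          rw [← (hc.zpow_right k).eq, inv_mul_cancel_left]
      _ = a := by rw [hk']; group
end Cfsg.Agent.S5574
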