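import Cfsg.Statements.S5595
import Cfsg.Agent.LargeExtraspecial.Singular

set_option autoImplicit false
open Cfsg CfsgLib CfsgLib.SingularQ

namespace Cfsg.Agent.S5595

/-- Setting: `z` is an involution of the finite group `G`; for each element `x`, `Q x` denotes the largest normal 2-subgroup of the centralizer of `x`; `Q z` is extraspecial and contains its own centralizer in `G` (a large extraspecial 2-subgroup in this sense). Call the conjugates of `z` singular, and say that singular `x` is orthogonal to singular `y` when `x ∈ Q y`. Then orthogonality is symmetric: if a conjugate `x` of `z` lies in `Q z`, then `z` lies in `Q x`. -/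
theorem result {G : Type*} [Group G] [Finite G]
    (Q : G → Subgroup G)
    (hQ : ∀ x : G, Q x = (Cfsg.pCore 2 ↥(Subgroup.centralizer ({x} : Set G))).map (Subgroup.centralizer ({x} : Set G)).subtype)
    (z : G) (hz : orderOf z = 2) (hE : Cfsg.IsExtraspecial 2 ↥(Q z))
    (hC : Subgroup.centralizer ((Q z : Subgroup G) : Set G) ≤ Q z)
    (g : G) (hx : g * z * g⁻¹ ∈ Q z) : z ∈ Q (g * z * g⁻¹) := by
  classical
  haveI : Fact (Nat.Prime 2) := ⟨Nat.prime_two⟩
  have hS : Setting Q z := ⟨hQ, hz, hE, hC⟩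
  obtain ⟨x, hx_def⟩ : ∃ x, g * z * g⁻¹ = x := ⟨_, rfl⟩
  rw [hx_def] at hx ⊢
  have hzs : ∃ k : G, k * z * k⁻¹ = z := ⟨1, by simp⟩
  have hxs : ∃ k : G, k * z * k⁻¹ = x := ⟨g, hx_def⟩
  have hzz := sing_sq hS hzs
  have hxx := sing_sq hS hxs
  have hzQ : z ∈ Q z := sing_self_mem hS hzs
  have hzx : z * x = x * z := commute_of_mem hS hx
  by_cases hxz : x = z
  · rw [hxz]; exact hzQ
  by_contra hzR
  have hx1 : x ≠ 1 := fun h => by
    have : g * z * g⁻¹ = g * 1 * g⁻¹ := by rw [hx_def, h]; group
    have hz1 : z = 1 := by simpa using this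
    rw [hz1, orderOf_one] at hz
    omega
  -- the centralizer of x in Q z
  set D := Q z ⊓ Subgroup.centralizer ({x} : Set G) with hD
  have hDiff : ∀ d, d ∈ D ↔ d ∈ Q z ∧ x * d = d * x := fun d => by
    rw [hD, Subgroup.mem_inf, mem_cent_singleton]
  obtain ⟨q, hqQ, hqx⟩ : ∃ q ∈ Q z, q * x * q⁻¹ = z * x := by
    by_contra hno
    push Not at hno
    rcases sing_center hS hzs hx (fun q hq => by
      rcases sing_conj hS hzs hq hx with e | e
      · exact mul_inv_eq_iff_eq_mul.1 e
      · exact absurd e (hno q hq)) with e | e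
    · exact hx1 e
    · exact hxz e
  have hxinv : x⁻¹ = x := inv_eq_of_mul_eq_one_left hxx
  -- key: C_{C(z)}(D) consists of 1, z, x, z * x
  have key : ∀ c, z * c = c * z → (∀ d ∈ D, c * d = d * c) →
      c = 1 ∨ c = z ∨ c = x ∨ c = z * x := by
    intro c hcz hcD
    set q' := c * q * c⁻¹ with hq'
    have hq'Q : q' ∈ Q z := conj_mem_of_commute hS hcz hqQ
    have hq'x : q' * x * q'⁻¹ = z * x := by
      have hcx : c * x = x * c := hcD x ((hDiff x).2 ⟨hx, rfl⟩)
      calc q' * x * q'⁻¹ = c * q * (c⁻¹ * (x * c)) * q⁻¹ * c⁻¹ := by rw [hq']; group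
        _ = c * (q * x * q⁻¹) * c⁻¹ := by rw [← hcx]; group
        _ = (c * z) * x * c⁻¹ := by rw [hqx]; group
        _ = z * (c * x) * c⁻¹ := by rw [← hcz]; group
        _ = z * x := by rw [hcx]; group
    set a := q⁻¹ * q' with ha
    have haQ : a ∈ Q z := (Q z).mul_mem ((Q z).inv_mem hqQ) hq'Q
    have hqD : ∀ d ∈ D, q * d * q⁻¹ ∈ D := by
      intro d hd
      obtain ⟨hdQ, hdx⟩ := (hDiff d).1 hd
      rw [hDiff]
      refine ⟨(Q z).mul_mem ((Q z).mul_mem hqQ hdQ) ((Q z).inv_mem hqQ), ?_⟩
      rcases sing_conj hS hzs hqQ hdQ with e | e <;> rw [e]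
      · exact hdx
      · rw [← mul_assoc, ← hzx, mul_assoc, hdx, mul_assoc]
    have haD : ∀ d ∈ D, a * d = d * a := by
      intro d hd
      rw [← mul_inv_eq_iff_eq_mul]
      calc a * d * a⁻¹ = q⁻¹ * (c * q * (c⁻¹ * (d * c)) * q⁻¹ * c⁻¹) * q := by rw [ha, hq']; group
        _ = q⁻¹ * (c * (q * d * q⁻¹) * c⁻¹) * q := by rw [← hcD d hd]; group
        _ = q⁻¹ * (q * d * q⁻¹ * c * c⁻¹) * q := by rw [hcD _ (hqD d hd)]
        _ = d := by group
    have hax : a ∈ Subgroup.closure (insert z (↑(Subgroup.zpowers x) : Set G)) := by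
      by_contra hno
      obtain ⟨w, hw, hwx, hwa⟩ := sing_dual hS hzs (Subgroup.zpowers x : Set G)
        (Subgroup.zpowers_le.2 hx) haQ hno
      have hwD : w ∈ D := (hDiff w).2 ⟨hw, (hwx x (Subgroup.mem_zpowers x)).symm⟩
      have h1 : w * a * w⁻¹ = a := mul_inv_eq_iff_eq_mul.2 (haD w hwD).symm
      have h2 : z * a = 1 * a := by rw [one_mul]; exact hwa.symm.trans h1
      have : z = 1 := mul_right_cancel h2
      rw [this, orderOf_one] at hz
      omega
    have hsq : a * q * a = q := by
      have e : q' * q' = q * q := by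
        have hqq : q * q ∈ LargeExtraspecial.zOf (Q z) := LargeExtraspecial.sq_mem hS.extra hqQ
        have hcq : c * (q * q) * c⁻¹ = q * q := by
          rcases (zOf_iff hS _).1 hqq with e | e
          · rw [e]; group
          · rw [e, ← hcz]; group
        calc q' * q' = c * (q * q) * c⁻¹ := by rw [hq']; group
          _ = _ := hcq
      have e2 : q * (a * q * a) = q * q := by
        rw [← e, show q' = q * a by rw [ha]; group]; simp only [mul_assoc]
      exact mul_left_cancel e2
    have hqz : q * z = z * q := (commute_of_mem hS hqQ).symm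
    have hqx' : q * x = z * x * q := mul_inv_eq_iff_eq_mul.1 hqx
    -- a is 1 or z
    have ha1 : a = 1 ∨ a = z := by
      have hxi : ∀ y : G, y ∈ Subgroup.zpowers x → y = 1 ∨ y = x := by
        intro y hy
        obtain ⟨k, rfl⟩ := Subgroup.mem_zpowers_iff.1 hy
        have hx2 : x ^ (2 : ℤ) = 1 := by rw [zpow_two, hxx]
        rcases Int.even_or_odd k with ⟨j, rfl⟩ | ⟨j, rfl⟩
        · left; rw [← two_mul, zpow_mul, hx2, one_zpow]
        · right; rw [zpow_add_one, zpow_mul, hx2, one_zpow, one_mul]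
      have hz1 : z ≠ 1 := fun h => by rw [h, orderOf_one] at hz; omega
      rcases mem_closure_insert hzz (fun b hb => commute_of_mem hS
        (Subgroup.zpowers_le.2 hx hb)) hax with h | h
      · rcases hxi a h with e | e
        · exact Or.inl e
        · exfalso
          rw [e] at hsq
          have h5 : x * (q * x) = q := by rw [← mul_assoc]; exact hsq
          rw [hqx', ← mul_assoc, ← mul_assoc, ← hzx, mul_assoc z, hxx, mul_one] at h5
          exact hz1 (mul_eq_right.1 h5)
      · rcases hxi _ h with e | e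
        · right; rw [← inv_eq_of_mul_eq_one_left e, inv_eq_of_mul_eq_one_left hzz]
        · exfalso
          have ha' : a = x * z := by
            calc a = a * z * z := by rw [mul_assoc, hzz, mul_one]
              _ = x * z := by rw [e]
          rw [ha', ← hzx] at hsq
          have h5 : z * x * (q * (z * x)) = q := by rw [← mul_assoc]; exact hsq
          rw [← mul_assoc q, hqz, mul_assoc z q x, hqx'] at h5
          have h6 : z * x * (z * (z * x * q)) = z * q := by
            rw [← mul_assoc z, ← mul_assoc z, hzz, one_mul, mul_assoc z x (x * q), ← mul_assoc x,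
              hxx, one_mul]
          exact hz1 (mul_eq_right.1 (h6.symm.trans h5))
    -- conclude
    have hfin : ∀ c', (∀ d ∈ D, c' * d = d * c') → c' * q = q * c' → c' = 1 ∨ c' = z := by
      intro c' h1 h2
      have hcent : ∀ w ∈ Q z, w * c' = c' * w := by
        intro w hw
        rcases sing_conj hS hzs hw hx with e | e
        · exact (h1 w ((hDiff w).2 ⟨hw, (mul_inv_eq_iff_eq_mul.1 e).symm⟩)).symm
        · have hd : q⁻¹ * w ∈ D := by
            rw [hDiff]
            refine ⟨(Q z).mul_mem ((Q z).inv_mem hqQ) hw, ?_⟩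
            calc x * (q⁻¹ * w) = q⁻¹ * (q * x * q⁻¹) * w := by group
              _ = q⁻¹ * (w * x * w⁻¹) * w := by rw [hqx, e]
              _ = q⁻¹ * w * x := by group
          have h3 := h1 _ hd
          calc w * c' = q * ((q⁻¹ * w) * c') := by group
            _ = q * (c' * (q⁻¹ * w)) := by rw [h3]
            _ = (q * c') * (q⁻¹ * w) := by group
            _ = c' * w := by rw [← h2]; group
      have hcQ : c' ∈ Q z := hC (Subgroup.mem_centralizer_iff.2 fun w hw => hcent w hw)
      exact sing_center hS hzs hcQ hcent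
    have hq'a : q' = q * a := by rw [ha]; group
    rcases ha1 with e | e
    · rw [e, mul_one] at hq'a
      rcases hfin c hcD (mul_inv_eq_iff_eq_mul.1 hq'a) with h | h
      · exact Or.inl h
      · exact Or.inr (Or.inl h)
    · rw [e] at hq'a
      have hcx : c * x = x * c := hcD x ((hDiff x).2 ⟨hx, rfl⟩)
      rcases hfin (c * x) (fun d hd => by
          rw [mul_assoc, ((hDiff d).1 hd).2, ← mul_assoc, hcD d hd, mul_assoc]) (by
          have h4 : c * q = q * z * c := by rw [← hq'a, hq']; group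
          have h7 : x * q = z * (q * x) := by rw [hqx', ← mul_assoc, ← mul_assoc, hzz, one_mul]
          calc c * x * q = c * (x * q) := mul_assoc _ _ _
            _ = (c * z) * (q * x) := by rw [h7, ← mul_assoc]
            _ = z * (c * q) * x := by rw [← hcz]; group
            _ = z * (q * z * c) * x := by rw [h4]
            _ = (z * z) * q * (c * x) := by rw [hqz]; group
            _ = q * (c * x) := by rw [hzz, one_mul]) with h | h
      · right; right; left
        rw [eq_inv_of_mul_eq_one_left h, hxinv]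
      · right; right; right
        calc c = c * (x * x) := by rw [hxx, mul_one]
          _ = z * x := by rw [← mul_assoc, h]
  -- a maximal 2-subgroup of C(x) ∩ C(z) containing D
  set S : Set (Subgroup G) := {P | IsPGroup 2 ↥P ∧ D ≤ P ∧
    P ≤ Subgroup.centralizer ({x} : Set G) ∧ P ≤ Subgroup.centralizer ({z} : Set G)} with hSset
  obtain ⟨T, hT⟩ := S.toFinite.exists_maximal ⟨D, (isPGroup hS z).to_le inf_le_left, le_rfl,
    inf_le_right, inf_le_left.trans (le_cent hS z)⟩
  obtain ⟨hTp, hDT, hTx, hTz⟩ := hT.prop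
  have hRn : T ≤ Subgroup.normalizer (Q x : Set G) := by
    intro t ht
    rw [Subgroup.mem_normalizer_iff]
    refine fun y => ⟨conj_mem_of_commute hS (mem_cent_singleton.1 (hTx ht)), fun h => ?_⟩
    have h2 := conj_mem_of_commute hS (mem_cent_singleton.1 (hTx (T.inv_mem ht))) h
    rwa [show t⁻¹ * (t * y * t⁻¹) * t⁻¹⁻¹ = y by group] at h2
  have hXp : IsPGroup 2 ↥(T ⊔ Q x) := hTp.to_sup_of_normal_right' (isPGroup hS x) hRn
  have hXx : T ⊔ Q x ≤ Subgroup.centralizer ({x} : Set G) := sup_le hTx (le_cent hS x)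
  have hlt : T < T ⊔ Q x := lt_of_le_not_ge le_sup_left fun h => hzR (by
    have hRz : Q x ≤ Subgroup.centralizer ({z} : Set G) := (le_sup_right.trans h).trans hTz
    rw [← hx_def] at hRz ⊢
    refine (mem_conj_iff hS g z z).2 (hC (Subgroup.mem_centralizer_iff.2 fun w hw => ?_))
    have h2 := mem_cent_singleton.1 (hRz (conj_mem hS g hw))
    calc w * (g⁻¹ * z * g) = g⁻¹ * ((g * w * g⁻¹) * z) * g := by group
      _ = g⁻¹ * (z * (g * w * g⁻¹)) * g := by rw [h2]
      _ = _ := by group)
  haveI := hXp.isNilpotent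
  have hnc := Group.normalizerCondition_of_isNilpotent (G := ↥(T ⊔ Q x)) (T.subgroupOf (T ⊔ Q x))
    (lt_top_iff_ne_top.2 fun h => hlt.not_ge (Subgroup.subgroupOf_eq_top.1 h))
  obtain ⟨⟨r, hrX⟩, hrN, hrT⟩ := SetLike.exists_of_lt hnc
  rw [Subgroup.mem_normalizer_iff] at hrN
  have hrx : x * r = r * x := mem_cent_singleton.1 (hXx hrX)
  have hconjT : ∀ t ∈ T, r⁻¹ * t * r ∈ T := fun t ht => by
    have htX : t ∈ T ⊔ Q x := le_sup_left (α := Subgroup G) ht
    have h := (hrN ⟨r⁻¹ * t * r, mul_mem (mul_mem (inv_mem hrX) htX) hrX⟩).2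
      (by rw [Subgroup.mem_subgroupOf]; simpa [mul_assoc] using ht)
    simpa [Subgroup.mem_subgroupOf] using h
  have hrz : r * z * r⁻¹ ≠ z := by
    intro h
    apply hrT
    have hle : T ⊔ Subgroup.zpowers r ≤ T := hT.2 (show T ⊔ Subgroup.zpowers r ∈ S from
      ⟨hXp.to_le (sup_le le_sup_left (Subgroup.zpowers_le.2 hrX)), hDT.trans le_sup_left,
        sup_le hTx (Subgroup.zpowers_le.2 (mem_cent_singleton.2 hrx)),
        sup_le hTz (Subgroup.zpowers_le.2 (mem_cent_singleton.2
          (mul_inv_eq_iff_eq_mul.1 h).symm))⟩) le_sup_left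
    exact hle (Subgroup.mem_sup_right (Subgroup.mem_zpowers r))
  set c := r * z * r⁻¹ with hc
  have hcT : ∀ t ∈ T, c * t = t * c := fun t ht => by
    have h := mem_cent_singleton.1 (hTz (hconjT t ht))
    calc c * t = r * (z * (r⁻¹ * t * r)) * r⁻¹ := by rw [hc]; group
      _ = r * ((r⁻¹ * t * r) * z) * r⁻¹ := by rw [h]
      _ = _ := by rw [hc]; group
  have hzD : z ∈ D := (hDiff z).2 ⟨hzQ, hzx.symm⟩
  have hcz : c = z * x := by
    rcases key c (hcT z (hDT hzD)).symm (fun d hd => hcT d (hDT hd)) with e | e | e | e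
    · exfalso
      rw [hc] at e
      have : z = 1 := by
        calc z = r⁻¹ * (r * z * r⁻¹) * r := by group
          _ = 1 := by rw [e]; group
      rw [this, orderOf_one] at hz
      omega
    · exact absurd e hrz
    · exfalso
      apply hxz
      calc x = r⁻¹ * (x * r) := by rw [hrx]; group
        _ = r⁻¹ * (c * r) := by rw [e]
        _ = z := by rw [hc]; group
    · exact e
  set k := r * q * r⁻¹ with hk
  have hrx' : r⁻¹ * x * r = x := by rw [mul_assoc, hrx]; group
  have hrx'' : r * x * r⁻¹ = x := by rw [← hrx]; group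
  have hkx : k * x * k⁻¹ = z := by
    calc k * x * k⁻¹ = r * (q * (r⁻¹ * x * r) * q⁻¹) * r⁻¹ := by rw [hk]; group
      _ = r * (z * x) * r⁻¹ := by rw [hrx', hqx]
      _ = (r * z * r⁻¹) * (r * x * r⁻¹) := by group
      _ = z := by rw [← hc, hcz, hrx'', mul_assoc, hxx, mul_one]
  have hrzx : r⁻¹ * z * r = z * x := by
    calc r⁻¹ * z * r = r⁻¹ * (z * x * x) * r := by rw [mul_assoc z, hxx, mul_one]
      _ = (r⁻¹ * c * r) * (r⁻¹ * x * r) := by rw [hcz]; group
      _ = z * x := by rw [hrx', hc]; group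
  have hkz : k * z * k⁻¹ = x := by
    calc k * z * k⁻¹ = r * (q * (r⁻¹ * z * r) * q⁻¹) * r⁻¹ := by rw [hk]; group
      _ = r * ((q * z * q⁻¹) * (q * x * q⁻¹)) * r⁻¹ := by rw [hrzx]; group
      _ = r * (z * (z * x)) * r⁻¹ := by rw [hqx, (commute_of_mem hS hqQ).symm]; group
      _ = x := by rw [← mul_assoc z, hzz, one_mul, hrx'']
  have h := conj_mem hS k hx
  rw [hkx, hkz] at h
  exact hzR h

end Cfsg.Agent.S5595
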