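import Cfsg.Statements.S5596
import Cfsg.Agent.LargeExtraspecial.Singular

set_option autoImplicit false
open Cfsg CfsgLib CfsgLib.SingularQ

namespace Cfsg.Agent.S5596

/-- Setting: `z` is an involution of the finite group `G`; for each element `x`, `Q x` is the largest normal 2-subgroup of the centralizer of `x`; `Q z` is extraspecial and contains its own centralizer in `G`. A subgroup `U` is singular when it is elementary abelian, every non-identity element of `U` is conjugate to `z`, and any two non-identity elements `u`, `v` of `U` are orthogonal (`v ∈ Q u`). Write `QU` for the intersection of the `Q u` and `LU` for the join of the `Q u` over the non-identity `u` in `U`. If `U` is singular of order `2 ^ n` with `n ≥ 2`, then `U ≤ QU ≤ LU`, `LU` normalizes `U`, and `LU` induces on `U` its full automorphism group (the general linear group of dimension `n` over the field with two elements): every automorphism of `U` is conjugation by some element of `LU`. -/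
theorem result {G : Type*} [Group G] [Finite G]
    (Q : G → Subgroup G)
    (hQ : ∀ x : G, Q x = (Cfsg.pCore 2 ↥(Subgroup.centralizer ({x} : Set G))).map (Subgroup.centralizer ({x} : Set G)).subtype)
    (z : G) (hz : orderOf z = 2) (hE : Cfsg.IsExtraspecial 2 ↥(Q z))
    (hC : Subgroup.centralizer ((Q z : Subgroup G) : Set G) ≤ Q z)
    (U : Subgroup G) (hU2 : ∀ u ∈ U, u * u = 1)
    (hS : ∀ u ∈ U, u ≠ 1 → ∃ g : G, g * z * g⁻¹ = u)
    (hO : ∀ u ∈ U, ∀ v ∈ U, u ≠ 1 → v ≠ 1 → v ∈ Q u)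
    (QU LU : Subgroup G) (hQU : QU = ⨅ u ∈ ((U : Set G) \ {1}), Q u) (hLU : LU = ⨆ u ∈ ((U : Set G) \ {1}), Q u)
    (n : ℕ) (hn : 2 ≤ n) (hcard : Nat.card ↥U = 2 ^ n) :
    U ≤ QU ∧ QU ≤ LU ∧ LU ≤ Subgroup.normalizer (U : Set G) ∧
      ∀ φ : ↥U ≃* ↥U, ∃ g ∈ LU, ∀ u : ↥U, g * (u : G) * g⁻¹ = ((φ u : ↥U) : G) := by
  classical
  have hS' : Setting Q z := ⟨hQ, hz, hE, hC⟩
  have hUc : ∀ a ∈ U, ∀ b ∈ U, a * b = b * a := fun a ha b hb => by
    have h := hU2 _ (U.mul_mem ha hb)
    rw [← inv_eq_of_mul_eq_one_left h, mul_inv_rev, inv_eq_of_mul_eq_one_left (hU2 a ha),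
      inv_eq_of_mul_eq_one_left (hU2 b hb)]
  have hUQ : ∀ u ∈ U, u ≠ 1 → ∀ v ∈ U, v ∈ Q u := fun u hu hu1 v hv => by
    by_cases hv1 : v = 1
    · subst hv1; exact one_mem _
    · exact hO u hu v hv hu1 hv1
  have hQU' : ∀ x, x ∈ QU ↔ ∀ u ∈ U, u ≠ 1 → x ∈ Q u := fun x => by
    simp only [hQU, Subgroup.mem_iInf, Set.mem_diff, SetLike.mem_coe, Set.mem_singleton_iff, and_imp]
  have hQLU : ∀ u ∈ U, u ≠ 1 → Q u ≤ LU := fun u hu hu1 => by
    rw [hLU]; exact le_iSup₂_of_le u ⟨hu, hu1⟩ le_rfl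
  have hconjU : ∀ u ∈ U, u ≠ 1 → ∀ g ∈ Q u, ∀ v ∈ U, g * v * g⁻¹ ∈ U := fun u hu hu1 g hg v hv => by
    rcases sing_conj hS' (hS u hu hu1) hg (hUQ u hu hu1 v hv) with e | e <;> rw [e]
    · exact hv
    · exact U.mul_mem hu hv
  have hLUn : LU ≤ Subgroup.normalizer (U : Set G) := by
    rw [hLU]
    refine iSup₂_le fun u hu g hg => ?_
    rw [Subgroup.mem_normalizer_iff]
    intro v
    refine ⟨hconjU u hu.1 hu.2 g hg v, fun h => ?_⟩
    have h2 := hconjU u hu.1 hu.2 _ ((Q u).inv_mem hg) _ h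
    rwa [show g⁻¹ * (g * v * g⁻¹) * g⁻¹⁻¹ = v by group] at h2
  obtain ⟨u0, hu0, hu01⟩ : ∃ u ∈ U, u ≠ 1 := by
    by_contra hno
    push Not at hno
    have hb : U = ⊥ := (Subgroup.eq_bot_iff_forall U).2 hno
    rw [hb, Subgroup.card_bot] at hcard
    have := Nat.one_lt_two_pow (show n ≠ 0 by omega)
    omega
  refine ⟨fun v hv => (hQU' v).2 fun u hu hu1 => hUQ u hu hu1 v hv,
    fun x hx => hQLU u0 hu0 hu01 ((hQU' x).1 hx u0 hu0 hu01), hLUn, ?_⟩
  intro φ
  have main : ∀ s : Finset ↥U, ∃ g ∈ LU, ∀ u ∈ Subgroup.closure (s : Set ↥U),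
      g * (u : G) * g⁻¹ = ((φ u : ↥U) : G) := by
    intro s
    induction s using Finset.induction_on with
    | empty =>
      refine ⟨1, one_mem _, fun u hu => ?_⟩
      simp only [Finset.coe_empty, Subgroup.closure_empty, Subgroup.mem_bot] at hu
      simp [hu]
    | @insert v s hvs ih =>
      obtain ⟨g, hg, hgs⟩ := ih
      suffices h : ∃ g' ∈ LU, (∀ u ∈ s, g' * (u : G) * g'⁻¹ = ((φ u : ↥U) : G)) ∧
          g' * (v : G) * g'⁻¹ = ((φ v : ↥U) : G) by
        obtain ⟨g', hg', h1, h2⟩ := h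
        refine ⟨g', hg', fun u hu => ?_⟩
        induction hu using Subgroup.closure_induction with
        | mem y hy =>
          rw [Finset.coe_insert] at hy
          rcases hy with rfl | hy
          · exact h2
          · exact h1 y hy
        | one => simp
        | mul a b _ _ ha hb =>
          rw [map_mul, Subgroup.coe_mul, Subgroup.coe_mul, ← ha, ← hb]; group
        | inv a _ ha => rw [map_inv, Subgroup.coe_inv, Subgroup.coe_inv, ← ha]; group
      by_cases hv : v ∈ Subgroup.closure (s : Set ↥U)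
      · exact ⟨g, hg, fun u hu => hgs u (Subgroup.subset_closure hu), hgs v hv⟩
      -- where v has to go
      set w := g⁻¹ * ((φ v : ↥U) : G) * g with hw
      have hwU : w ∈ U := by
        have := (Subgroup.mem_normalizer_iff.1 (hLUn hg) w).2
        exact this (by simpa [hw, mul_assoc] using (φ v).2)
      have hw' : g * w * g⁻¹ = ((φ v : ↥U) : G) := by rw [hw]; group
      set B := (Subgroup.closure (s : Set ↥U)).map U.subtype with hB
      have hBw : ∀ b : ↥U, b ∈ Subgroup.closure (s : Set ↥U) → (b : G) ≠ w := fun b hb e => by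
        have h1 := hgs b hb
        rw [e, hw'] at h1
        exact hv (φ.injective (Subtype.ext h1) ▸ hb)
      by_cases hvw : (v : G) = w
      · exact ⟨g, hg, fun u hu => hgs u (Subgroup.subset_closure hu), hvw ▸ hw'⟩
      have huU : (v : G) * w ∈ U := U.mul_mem v.2 hwU
      have hu1 : (v : G) * w ≠ 1 := fun e => hvw (by
        rw [eq_inv_of_mul_eq_one_left e, inv_eq_of_mul_eq_one_left (hU2 w hwU)])
      have hnot : (v : G) ∉ Subgroup.closure (insert ((v : G) * w) (B : Set G)) := by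
        intro hmem
        rcases mem_closure_insert (hU2 _ huU) (fun b hb => by
            obtain ⟨b', -, rfl⟩ := hb; exact hUc _ huU _ b'.2) hmem with hh | hh
        · obtain ⟨b, hb, e⟩ := hh
          exact hv ((Subtype.ext e : b = v) ▸ hb)
        · obtain ⟨b, hb, e⟩ := hh
          rw [← mul_assoc, hU2 _ v.2, one_mul] at e
          exact hBw b hb e
      obtain ⟨h, hhQ, hhB, hhv⟩ := sing_dual hS' (hS _ huU hu1) (B : Set G)
        (by rintro _ ⟨b, -, rfl⟩; exact hUQ _ huU hu1 _ b.2) (hUQ _ huU hu1 _ v.2) hnot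
      have hhw : h * (v : G) * h⁻¹ = w := by
        rw [hhv, hUc _ huU _ v.2, ← mul_assoc, hU2 _ v.2, one_mul]
      refine ⟨g * h, LU.mul_mem hg (hQLU _ huU hu1 hhQ), fun u hu => ?_, ?_⟩
      · have h1 := mul_inv_eq_iff_eq_mul.2 (hhB (u : G) ⟨u, Subgroup.subset_closure hu, rfl⟩)
        calc g * h * (u : G) * (g * h)⁻¹ = g * (h * (u : G) * h⁻¹) * g⁻¹ := by group
          _ = _ := by rw [h1]; exact hgs u (Subgroup.subset_closure hu)
      · calc g * h * (v : G) * (g * h)⁻¹ = g * (h * (v : G) * h⁻¹) * g⁻¹ := by group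
          _ = _ := by rw [hhw]; exact hw'
  obtain ⟨g, hg, h⟩ := main (Set.univ : Set ↥U).toFinite.toFinset
  exact ⟨g, hg, fun u => h u (Subgroup.subset_closure (by simp))⟩

end Cfsg.Agent.S5596
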