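import Cfsg.Statements.S5597
import Cfsg.Agent.LargeExtraspecial.Singular

set_option autoImplicit false
open Cfsg CfsgLib CfsgLib.SingularQ

namespace Cfsg.Agent.S5597

/-- Setting: `z` is an involution of the finite group `G`; for each element `x`, `Q x` is the largest normal 2-subgroup of the centralizer of `x`; `Q z` is extraspecial and contains its own centralizer in `G`. A subgroup `U` is singular when it is elementary abelian, every non-identity element of `U` is conjugate to `z`, and any two non-identity elements `u`, `v` of `U` are orthogonal (`v ∈ Q u`). Write `QU` for the intersection of the `Q u` and `LU` for the join of the `Q u` over the non-identity `u` in `U`. If `U` is a non-trivial singular subgroup, then `LU` acts trivially on `QU / U` (every commutator of an element of `LU` with an element of `QU` lies in `U`), and for every `x` in `QU` outside `U` the centralizer of `U` in `LU` permutes the coset `x U` transitively: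 each `x u` with `u ∈ U` is a conjugate of `x` by an element of `LU` centralizing `U`. -/
theorem result {G : Type*} [Group G] [Finite G]
    (Q : G → Subgroup G)
    (hQ : ∀ x : G, Q x = (Cfsg.pCore 2 ↥(Subgroup.centralizer ({x} : Set G))).map (Subgroup.centralizer ({x} : Set G)).subtype)
    (z : G) (hz : orderOf z = 2) (hE : Cfsg.IsExtraspecial 2 ↥(Q z))
    (hC : Subgroup.centralizer ((Q z : Subgroup G) : Set G) ≤ Q z)
    (U : Subgroup G) (hU2 : ∀ u ∈ U, u * u = 1)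
    (hS : ∀ u ∈ U, u ≠ 1 → ∃ g : G, g * z * g⁻¹ = u)
    (hO : ∀ u ∈ U, ∀ v ∈ U, u ≠ 1 → v ≠ 1 → v ∈ Q u)
    (QU LU : Subgroup G) (hQU : QU = ⨅ u ∈ ((U : Set G) \ {1}), Q u) (hLU : LU = ⨆ u ∈ ((U : Set G) \ {1}), Q u)
    (hU : U ≠ ⊥) :
    (∀ g ∈ LU, ∀ x ∈ QU, g * x * g⁻¹ * x⁻¹ ∈ U) ∧
      ∀ x ∈ QU, x ∉ U → ∀ u ∈ U, ∃ g ∈ LU ⊓ Subgroup.centralizer (U : Set G), g * x * g⁻¹ = x * u := by
  classical
  have hS' : Setting Q z := ⟨hQ, hz, hE, hC⟩
  have hUc : ∀ a ∈ U, ∀ b ∈ U, a * b = b * a := fun a ha b hb => by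
    have h := hU2 _ (U.mul_mem ha hb)
    rw [← inv_eq_of_mul_eq_one_left h, mul_inv_rev, inv_eq_of_mul_eq_one_left (hU2 a ha),
      inv_eq_of_mul_eq_one_left (hU2 b hb)]
  have hUQ : ∀ u ∈ U, u ≠ 1 → ∀ v ∈ U, v ∈ Q u := fun u hu hu1 v hv => by
    by_cases hv1 : v = 1
    · subst hv1; exact one_mem _
    · exact hO u hu v hv hu1 hv1
  have hQU' : ∀ x, x ∈ QU ↔ ∀ u ∈ U, u ≠ 1 → x ∈ Q u := fun x => by
    simp only [hQU, Subgroup.mem_iInf, Set.mem_diff, SetLike.mem_coe, Set.mem_singleton_iff, and_imp]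
  have hQLU : ∀ u ∈ U, u ≠ 1 → Q u ≤ LU := fun u hu hu1 => by
    rw [hLU]; exact le_iSup₂_of_le u ⟨hu, hu1⟩ le_rfl
  have hconjU : ∀ u ∈ U, u ≠ 1 → ∀ g ∈ Q u, ∀ v ∈ U, g * v * g⁻¹ ∈ U := fun u hu hu1 g hg v hv => by
    rcases sing_conj hS' (hS u hu hu1) hg (hUQ u hu hu1 v hv) with e | e <;> rw [e]
    · exact hv
    · exact U.mul_mem hu hv
  have hLUn : LU ≤ Subgroup.normalizer (U : Set G) := by
    rw [hLU]
    refine iSup₂_le fun u hu g hg => ?_
    rw [Subgroup.mem_normalizer_iff]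
    intro v
    refine ⟨hconjU u hu.1 hu.2 g hg v, fun h => ?_⟩
    have h2 := hconjU u hu.1 hu.2 _ ((Q u).inv_mem hg) _ h
    rwa [show g⁻¹ * (g * v * g⁻¹) * g⁻¹⁻¹ = v by group] at h2
  have hmulP : ∀ {a b : G},
      (a ∈ Subgroup.normalizer (U : Set G) ∧ ∀ x ∈ QU, a * x * a⁻¹ * x⁻¹ ∈ U) →
      (b ∈ Subgroup.normalizer (U : Set G) ∧ ∀ x ∈ QU, b * x * b⁻¹ * x⁻¹ ∈ U) →
      (a * b ∈ Subgroup.normalizer (U : Set G) ∧ ∀ x ∈ QU, a * b * x * (a * b)⁻¹ * x⁻¹ ∈ U) := by
    intro a b ha hb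
    refine ⟨mul_mem ha.1 hb.1, fun x hx => ?_⟩
    have h1 : a * (b * x * b⁻¹ * x⁻¹) * a⁻¹ ∈ U :=
      (Subgroup.mem_normalizer_iff.1 ha.1 _).1 (hb.2 x hx)
    convert U.mul_mem h1 (ha.2 x hx) using 1
    group
  constructor
  · intro g hg
    rw [hLU] at hg
    suffices hP : g ∈ Subgroup.normalizer (U : Set G) ∧ ∀ x ∈ QU, g * x * g⁻¹ * x⁻¹ ∈ U from hP.2
    induction hg using Subgroup.iSup_induction' with
    | hp u g hg =>
      induction hg using Subgroup.iSup_induction' with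
      | hp hu g hg =>
        refine ⟨hLUn (hQLU u hu.1 hu.2 hg), fun x hx => ?_⟩
        rcases sing_conj hS' (hS u hu.1 hu.2) hg ((hQU' x).1 hx u hu.1 hu.2) with e | e <;> rw [e]
        · rw [mul_inv_cancel]; exact one_mem _
        · rw [mul_inv_cancel_right]; exact hu.1
      | h1 => exact ⟨one_mem _, fun x _ => by simp⟩
      | hmul a b _ _ ha hb => exact hmulP ha hb
    | h1 => exact ⟨one_mem _, fun x _ => by simp⟩
    | hmul a b _ _ ha hb => exact hmulP ha hb
  · intro x hx hxU u hu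
    by_cases hu1 : u = 1
    · exact ⟨1, one_mem _, by simp [hu1]⟩
    have hxQ := (hQU' x).1 hx u hu hu1
    have hnot : x ∉ Subgroup.closure (insert u (U : Set G)) := by
      rw [Set.insert_eq_of_mem (show u ∈ (U : Set G) from hu), Subgroup.closure_eq]; exact hxU
    obtain ⟨g, hg, hgU, hgx⟩ := sing_dual hS' (hS u hu hu1) (U : Set G) (hUQ u hu hu1) hxQ hnot
    refine ⟨g, ⟨hQLU u hu hu1 hg, Subgroup.mem_centralizer_iff.2 fun v hv => (hgU v hv).symm⟩, ?_⟩
    rw [hgx, commute_of_mem hS' hxQ]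

end Cfsg.Agent.S5597
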