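import Cfsg.Statements.S5598
import Cfsg.Agent.LargeExtraspecial.Singular

set_option autoImplicit false
open Cfsg CfsgLib CfsgLib.SingularQ

namespace Cfsg.Agent.S5598

/-- Setting: `z` is an involution of the finite group `G`; for each element `x`, `Q x` is the largest normal 2-subgroup of the centralizer of `x`; `Q z` is extraspecial and contains its own centralizer in `G`. A subgroup `U` is singular when it is elementary abelian, every non-identity element of `U` is conjugate to `z`, and any two non-identity elements `u`, `v` of `U` are orthogonal (`v ∈ Q u`). Write `QU` for the intersection of the `Q u` and `LU` for the join of the `Q u` over the non-identity `u` in `U`. If the singular subgroup `U` is generated by a set `T` of non-identity elements, then `QU` is already the intersection of the `Q t` over `t ∈ T`. -/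
theorem result {G : Type*} [Group G] [Finite G]
    (Q : G → Subgroup G)
    (hQ : ∀ x : G, Q x = (Cfsg.pCore 2 ↥(Subgroup.centralizer ({x} : Set G))).map (Subgroup.centralizer ({x} : Set G)).subtype)
    (z : G) (hz : orderOf z = 2) (hE : Cfsg.IsExtraspecial 2 ↥(Q z))
    (hC : Subgroup.centralizer ((Q z : Subgroup G) : Set G) ≤ Q z)
    (U : Subgroup G) (hU2 : ∀ u ∈ U, u * u = 1)
    (hS : ∀ u ∈ U, u ≠ 1 → ∃ g : G, g * z * g⁻¹ = u)
    (hO : ∀ u ∈ U, ∀ v ∈ U, u ≠ 1 → v ≠ 1 → v ∈ Q u)
    (QU LU : Subgroup G) (hQU : QU = ⨅ u ∈ ((U : Set G) \ {1}), Q u) (hLU : LU = ⨆ u ∈ ((U : Set G) \ {1}), Q u)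
    (T : Set G) (hT : Subgroup.closure T = U) (hT1 : (1 : G) ∉ T) :
    QU = ⨅ t ∈ T, Q t := by
  classical
  have hS' : Setting Q z := ⟨hQ, hz, hE, hC⟩
  have hUc : ∀ a ∈ U, ∀ b ∈ U, a * b = b * a := fun a ha b hb => by
    have h := hU2 _ (U.mul_mem ha hb)
    rw [← inv_eq_of_mul_eq_one_left h, mul_inv_rev, inv_eq_of_mul_eq_one_left (hU2 a ha),
      inv_eq_of_mul_eq_one_left (hU2 b hb)]
  have hUQ : ∀ u ∈ U, u ≠ 1 → ∀ v ∈ U, v ∈ Q u := fun u hu hu1 v hv => by
    by_cases hv1 : v = 1
    · subst hv1; exact one_mem _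
    · exact hO u hu v hv hu1 hv1
  have hQU' : ∀ x, x ∈ QU ↔ ∀ u ∈ U, u ≠ 1 → x ∈ Q u := fun x => by
    simp only [hQU, Subgroup.mem_iInf, Set.mem_diff, SetLike.mem_coe, Set.mem_singleton_iff, and_imp]
  have hQLU : ∀ u ∈ U, u ≠ 1 → Q u ≤ LU := fun u hu hu1 => by
    rw [hLU]; exact le_iSup₂_of_le u ⟨hu, hu1⟩ le_rfl
  have hconjU : ∀ u ∈ U, u ≠ 1 → ∀ g ∈ Q u, ∀ v ∈ U, g * v * g⁻¹ ∈ U := fun u hu hu1 g hg v hv => by
    rcases sing_conj hS' (hS u hu hu1) hg (hUQ u hu hu1 v hv) with e | e <;> rw [e]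
    · exact hv
    · exact U.mul_mem hu hv
  have hLUn : LU ≤ Subgroup.normalizer (U : Set G) := by
    rw [hLU]
    refine iSup₂_le fun u hu g hg => ?_
    rw [Subgroup.mem_normalizer_iff]
    intro v
    refine ⟨hconjU u hu.1 hu.2 g hg v, fun h => ?_⟩
    have h2 := hconjU u hu.1 hu.2 _ ((Q u).inv_mem hg) _ h
    rwa [show g⁻¹ * (g * v * g⁻¹) * g⁻¹⁻¹ = v by group] at h2
  apply le_antisymm
  · intro x hx
    simp only [Subgroup.mem_iInf]
    intro t ht
    exact (hQU' x).1 hx t (hT ▸ Subgroup.subset_closure ht) (fun h => hT1 (h ▸ ht))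
  · intro x hx
    simp only [Subgroup.mem_iInf] at hx
    rw [hQU']
    suffices h : ∀ w ∈ Subgroup.closure T, w ≠ 1 → x ∈ Q w from fun u hu => h u (hT ▸ hu)
    intro w hw
    induction hw using Subgroup.closure_induction with
    | mem t ht => exact fun _ => hx t ht
    | one => exact fun h => absurd rfl h
    | inv a ha iha =>
      intro h
      rw [inv_eq_of_mul_eq_one_left (hU2 a (hT ▸ ha))]
      exact iha (fun e => h (by rw [e, inv_one]))
    | mul a b ha hb iha ihb =>
      intro hab
      have haU : a ∈ U := hT ▸ ha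
      have hbU : b ∈ U := hT ▸ hb
      by_cases ha1 : a = 1
      · rw [ha1, one_mul] at hab ⊢; exact ihb hab
      by_cases hb1 : b = 1
      · rw [hb1, mul_one] at hab ⊢; exact iha ha1
      have has := hS a haU ha1
      obtain ⟨q, hq, hqb⟩ : ∃ q ∈ Q a, q * b * q⁻¹ = a * b := by
        by_contra hno
        push Not at hno
        rcases sing_center hS' has (hUQ a haU ha1 b hbU) (fun q hq => by
          rcases sing_conj hS' has hq (hUQ a haU ha1 b hbU) with e | e
          · exact mul_inv_eq_iff_eq_mul.1 e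
          · exact absurd e (hno q hq)) with e | e
        · exact hb1 e
        · exact hab (by rw [e, hU2 a haU])
      have h1 := conj_mem hS' q (ihb hb1)
      rw [hqb] at h1
      rcases sing_conj hS' has hq (iha ha1) with e | e <;> rw [e] at h1
      · exact h1
      · have h2 := hUQ (a * b) (U.mul_mem haU hbU) hab a haU
        have h3 := (Q (a * b)).mul_mem h2 h1
        rwa [← mul_assoc, hU2 a haU, one_mul] at h3

end Cfsg.Agent.S5598
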