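import Cfsg.Statements.S5712
import Cfsg.Agent.Eq.Def_Classical
import Cfsg.Agent.Eq.Def_Solvable
import Cfsg.Agent.Classical.SiegelTwo.CaseA
import Cfsg.Agent.Classical.SiegelTwo.Classify
import Cfsg.Agent.Classical.SiegelTwo.Exceptional
import Cfsg.Agent.Classical.SiegelTwo.Radical
import Cfsg.Agent.Classical.SiegelTwo.DegreeSixIndex
import Cfsg.Agent.Classical.Symp.Transvection
import Cfsg.Agent.Char2Forms.Basic
import Cfsg.Agent.LocalP.Basic
import Cfsg.Agent.SmallIso.SymplecticFour

set_option autoImplicit false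
open Cfsg

namespace Cfsg.Agent.S5712

/-- Let F be a finite field of characteristic two, n ≥ 2, V = F^{2n} with the non-degenerate alternating form f(u, v) = Σ (u_i v_{n+i} + u_{n+i} v_i), and G the group of invertible matrices preserving f. Let a ≠ 0 be a vector, H its stabilizer in G, and X a subgroup of O₂(H) of order |F|^{2n−2} no element of which is a transvection (no element g has g − 1 of rank one). If L is a subgroup of G containing X that acts irreducibly on V (no proper non-zero L-invariant subspace), then L = G, or, for some quadratic form Q on V whose polar form is f, L is the isometry group of Q or its subgroup of the isometries g for which g − 1 has even rank, or |F| = 2, n = 2 and L is isomorphic to the alternating group of degree 6 or to the symmetric group of degree 5. -/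
theorem result {F : Type*} [Field F] [Fintype F] [CharP F 2] {n : ℕ} (hn : 2 ≤ n) (a : (Fin n ⊕ Fin n → F)) (ha : a ≠ 0)
    (X : Subgroup (GL (Fin n ⊕ Fin n) F)) (hXG : X ≤ Cfsg.preserving (Units.coeHom (Matrix (Fin n ⊕ Fin n) (Fin n ⊕ Fin n) F)) (fun u v : (Fin n ⊕ Fin n → F) => ∑ i : Fin n, (u (Sum.inl i) * v (Sum.inr i) + u (Sum.inr i) * v (Sum.inl i))))
    (hXO : ∀ H : Subgroup (GL (Fin n ⊕ Fin n) F),
      (∀ g : GL (Fin n ⊕ Fin n) F, g ∈ H ↔ (g ∈ Cfsg.preserving (Units.coeHom (Matrix (Fin n ⊕ Fin n) (Fin n ⊕ Fin n) F)) (fun u v : (Fin n ⊕ Fin n → F) => ∑ i : Fin n, (u (Sum.inl i) * v (Sum.inr i) + u (Sum.inr i) * v (Sum.inl i))) ∧ Matrix.mulVec (g : Matrix (Fin n ⊕ Fin n) (Fin n ⊕ Fin n) F) a = a)) →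
      X ≤ (Cfsg.pCore 2 ↥H).map H.subtype)
    (hcard : Nat.card ↥X = Fintype.card F ^ (2 * n - 2))
    (hntv : ∀ x ∈ X, ((x : Matrix (Fin n ⊕ Fin n) (Fin n ⊕ Fin n) F) - 1).rank ≠ 1)
    (L : Subgroup (GL (Fin n ⊕ Fin n) F)) (hXL : X ≤ L) (hLG : L ≤ Cfsg.preserving (Units.coeHom (Matrix (Fin n ⊕ Fin n) (Fin n ⊕ Fin n) F)) (fun u v : (Fin n ⊕ Fin n → F) => ∑ i : Fin n, (u (Sum.inl i) * v (Sum.inr i) + u (Sum.inr i) * v (Sum.inl i))))
    (hirr : ∀ W : Submodule F (Fin n ⊕ Fin n → F), (∀ g ∈ L, ∀ w ∈ W, Matrix.mulVec (g : Matrix (Fin n ⊕ Fin n) (Fin n ⊕ Fin n) F) w ∈ W) → W = ⊥ ∨ W = ⊤) :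
    L = Cfsg.preserving (Units.coeHom (Matrix (Fin n ⊕ Fin n) (Fin n ⊕ Fin n) F)) (fun u v : (Fin n ⊕ Fin n → F) => ∑ i : Fin n, (u (Sum.inl i) * v (Sum.inr i) + u (Sum.inr i) * v (Sum.inl i))) ∨
    (∃ Q : QuadraticForm F (Fin n ⊕ Fin n → F), (∀ u v, QuadraticMap.polar ⇑Q u v = (fun u v : (Fin n ⊕ Fin n → F) => ∑ i : Fin n, (u (Sum.inl i) * v (Sum.inr i) + u (Sum.inr i) * v (Sum.inl i))) u v) ∧
      (L = Cfsg.isometryGroup F ⇑Q ∨
        ∀ g : GL (Fin n ⊕ Fin n) F, g ∈ L ↔ (g ∈ Cfsg.isometryGroup F ⇑Q ∧ Even ((g : Matrix (Fin n ⊕ Fin n) (Fin n ⊕ Fin n) F) - 1).rank))) ∨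
    (Fintype.card F = 2 ∧ n = 2 ∧ (Nonempty (↥L ≃* ↥(alternatingGroup (Fin 6))) ∨ Nonempty (↥L ≃* Equiv.Perm (Fin 5)))) := by
  classical
  open CfsgLib.SiegelTwo in
  exact (by
    set f := fun u v : (Fin n ⊕ Fin n → F) =>
      ∑ i : Fin n, (u (Sum.inl i) * v (Sum.inr i) + u (Sum.inr i) * v (Sum.inl i)) with hfdef
    set G := Cfsg.preserving (Units.coeHom (Matrix (Fin n ⊕ Fin n) (Fin n ⊕ Fin n) F)) f with hGdef
    have h2 : (2 : F) = 0 := CharTwo.two_eq_zero
    let B : LinearMap.BilinForm F (Fin n ⊕ Fin n → F) := LinearMap.mk₂ F f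
      (fun u u' v => by simp only [f, Pi.add_apply, ← Finset.sum_add_distrib]; exact Finset.sum_congr rfl fun i _ => by ring)
      (fun c u v => by simp only [f, Pi.smul_apply, smul_eq_mul, Finset.mul_sum]; exact Finset.sum_congr rfl fun i _ => by ring)
      (fun u v v' => by simp only [f, Pi.add_apply, ← Finset.sum_add_distrib]; exact Finset.sum_congr rfl fun i _ => by ring)
      (fun c u v => by simp only [f, Pi.smul_apply, smul_eq_mul, Finset.mul_sum]; exact Finset.sum_congr rfl fun i _ => by ring)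
    have hB : ∀ u v, B u v = f u v := fun u v => rfl
    have hsf : ∀ u v, Cfsg.sympForm n F u v = B u v := fun u v => by
      rw [CfsgLib.Classical.Symp.form_apply, hB]
      exact Finset.sum_congr rfl fun i _ => by rw [CharTwo.sub_eq_add]; ring
    have halt : ∀ v, B v v = 0 := fun v => by rw [← hsf]; exact CfsgLib.Classical.Symp.form_self v
    have hnd : ∀ u, (∀ v, B u v = 0) → u = 0 := fun u h =>
      CfsgLib.Classical.Symp.eq_zero_of_form_eq_zero fun v => by rw [hsf]; exact h v
    have hmemG : ∀ g : GL (Fin n ⊕ Fin n) F, g ∈ G ↔ ∀ u v,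
        B ((g : Matrix (Fin n ⊕ Fin n) (Fin n ⊕ Fin n) F).mulVec u) ((g : Matrix (Fin n ⊕ Fin n) (Fin n ⊕ Fin n) F).mulVec v) = B u v :=
      fun g => Iff.rfl
    have hι : Fintype.card (Fin n ⊕ Fin n) = 2 * n := by simp; omega
    let H : Subgroup (GL (Fin n ⊕ Fin n) F) :=
      G ⊓ (MulAction.stabilizer (Equiv.Perm (Fin n ⊕ Fin n → F)) a).comap CfsgLib.Char2Forms.glPerm
    have hHm : ∀ g : GL (Fin n ⊕ Fin n) F, g ∈ H ↔ g ∈ G ∧
        (g : Matrix (Fin n ⊕ Fin n) (Fin n ⊕ Fin n) F).mulVec a = a := fun g => Iff.rfl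
    have hXN := hXO H hHm
    haveI : Fact (Nat.Prime 2) := ⟨Nat.prime_two⟩
    set N := (Cfsg.pCore 2 ↥H).map H.subtype with hNdef
    have hNH : N ≤ H := Subgroup.map_subtype_le _
    have hN2 : IsPGroup 2 N := CfsgLib.LocalP.isPGroup_pCore.map _
    have hnorm : ∀ h ∈ H, ∀ g ∈ N, h * g * h⁻¹ ∈ N := by
      rintro h hh _ ⟨k, hk, rfl⟩
      exact ⟨_, (Cfsg.pCore_normal 2 ↥H).conj_mem k hk ⟨h, hh⟩, rfl⟩
    have hirr' : ∀ u, u ≠ 0 → ∃ p, Orb L a p ∧ B p u ≠ 0 := by
      intro u hu
      by_contra hc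
      push Not at hc
      rcases hirr (Submodule.span F {p | Orb L a p}) (fun g hg w hw => by
        have hle : Submodule.span F {p | Orb L a p} ≤ (Submodule.span F {p | Orb L a p}).comap
            (Matrix.mulVecLin (g : Matrix (Fin n ⊕ Fin n) (Fin n ⊕ Fin n) F)) := Submodule.span_le.2 fun p hp => by
          obtain ⟨k, hk, rfl⟩ := hp
          exact Submodule.subset_span ⟨g * k, L.mul_mem hg hk, by simp [Matrix.mulVec_mulVec]⟩
        exact hle hw) with h | h
      · exact ha (by
          have : a ∈ Submodule.span F {p | Orb L a p} := Submodule.subset_span ⟨1, L.one_mem, by simp⟩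
          rwa [h, Submodule.mem_bot] at this)
      · refine hu (hnd u fun v => ?_)
        have hv : v ∈ Submodule.span F {p | Orb L a p} := h ▸ Submodule.mem_top
        have hle : Submodule.span F {p | Orb L a p} ≤ LinearMap.ker (B.flip u) :=
          Submodule.span_le.2 fun p hp => hc p hp
        rw [symm_of_alt h2 halt]
        exact hle hv
    obtain ⟨hS, hXform⟩ := setting_of_complement (X := X) (L := L) h2 halt hnd H
      (fun g => by rw [hHm, hmemG]) (by rw [hι]; omega) ha hNH hN2 hnorm hXN (by rw [hcard, hι]) hntv hXL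
      (fun g hg => (hmemG g).1 (hLG hg)) hirr'
    -- the symplectic group and the group of the form
    let ψ : Matrix.symplecticGroup (Fin n) F →* GL (Fin n ⊕ Fin n) F :=
      MonoidHom.toHomUnits (Submonoid.subtype _)
    have hψ : ∀ g, ((ψ g : GL (Fin n ⊕ Fin n) F) : Matrix (Fin n ⊕ Fin n) (Fin n ⊕ Fin n) F) = g := fun g => rfl
    have hψinj : Function.Injective ψ := fun g g' e => Subtype.ext (congrArg Units.val e)
    have hψG : ψ.range = G := by
      ext g
      constructor
      · rintro ⟨s, rfl⟩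
        refine (hmemG _).2 fun u v => ?_
        rw [← hsf, ← hsf, hψ]
        exact CfsgLib.Classical.Symp.form_mulVec s u v
      · intro hg
        exact ⟨⟨g, (CfsgLib.Classical.Symp.mem_symplecticGroup_iff_form _).2 fun u v => by
          rw [hsf, hsf]; exact (hmemG g).1 hg u v⟩, Units.ext rfl⟩
    by_cases hN' : NoTV L B a
    swap
    · left
      obtain ⟨δ, hδ, hδ0⟩ : ∃ δ, SIn L B a 0 δ ∧ δ ≠ 0 := by
        simpa [NoTV] using hN'
      refine le_antisymm hLG fun g hg => ?_
      rw [← hψG] at hg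
      obtain ⟨s, rfl⟩ := hg
      have hle : Subgroup.closure (CfsgLib.Classical.Symp.transvectionSet n F) ≤ L.comap ψ := by
        refine (Subgroup.closure_le _).2 ?_
        intro t ht
        obtain ⟨v, c, hvc⟩ := ht
        obtain rfl : t = CfsgLib.Classical.Symp.spT v c :=
          Subtype.ext (hvc.trans (CfsgLib.Classical.Symp.spT_coe v c).symm)
        obtain ⟨k, hk, hkv⟩ := hS.all_tv (by rw [hι]; omega) hδ0 hδ v c
        have e : ψ (CfsgLib.Classical.Symp.spT v c) = k := by
          refine CfsgLib.Char2Forms.gl_ext fun x => ?_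
          rw [hψ, CfsgLib.Classical.Symp.spT_mulVec, hkv, hsf]
          simp
        exact Subgroup.mem_comap.2 (e ▸ hk)
      rw [CfsgLib.Classical.Symp.closure_transvectionSet] at hle
      exact hle (Subgroup.mem_top s)
    by_cases hgood : ∀ p c, OPair L B a p c → GPair L B p c
    · right; left
      obtain ⟨b, hb, hba⟩ := hS.exists_opposite hN' (by rw [hι]; omega)
      have hG : Good L B a b := ⟨hS, hN', hgood, by rw [hι]; omega, hb, hba⟩
      refine ⟨⟨qf L B a b, fun c x => by rw [hG.q_smul]; simp [sq], ⟨B, fun x y => ?_⟩⟩, fun u v => ?_, ?_⟩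
      · rw [hG.q_add]
      · exact hG.polar u v
      · exact hG.classify
    push Not at hgood
    obtain ⟨p, c, hpc, hbad⟩ := hgood
    have hn2 : n = 2 := by
      by_contra hne
      exact hbad (hS.gpair hN' hpc (Or.inl (by rw [hι]; omega)) (by rw [hι]; omega))
    subst hn2
    have hF2 : Fintype.card F = 2 := by
      by_contra hne
      refine hbad (hS.gpair hN' hpc (Or.inr ?_) (by rw [hι]))
      by_contra hc
      push Not at hc
      have hsub : (Finset.univ : Finset F) ⊆ {0, 1} := fun t _ => by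
        by_cases h0 : t = 0
        · simp [h0]
        · simp [hc t h0]
      have h1 := Finset.card_le_card hsub
      have h3 := Finset.card_le_two (a := (0 : F)) (b := 1)
      have := Fintype.one_lt_card (α := F)
      rw [Finset.card_univ] at h1
      omega
    obtain ⟨⟨y, hyL, hya, hyX⟩, h11⟩ := hS.exceptional hN' (by rw [hι])
      (by rw [Nat.card_eq_fintype_card, hF2]) hpc hbad
    -- orbit and stabiliser
    let act : ↥L →* Equiv.Perm (Fin 2 ⊕ Fin 2 → F) := CfsgLib.Char2Forms.glPerm.comp L.subtype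
    letI : MulAction ↥L (Fin 2 ⊕ Fin 2 → F) := MulAction.compHom _ act
    have horb : MulAction.orbit ↥L a = {x | Orb L a x} := by
      ext x
      constructor
      · rintro ⟨g, rfl⟩; exact ⟨g, g.2, rfl⟩
      · rintro ⟨g, hg, rfl⟩; exact ⟨⟨g, hg⟩, rfl⟩
    set St := MulAction.stabilizer ↥L a
    have hXSt : X.subgroupOf L ≤ St := fun g hg => by
      show ((g : GL (Fin 2 ⊕ Fin 2) F) : Matrix _ _ F).mulVec a = a
      exact ((hHm _).1 (hNH (hXN hg))).2
    have hX4 : Nat.card (X.subgroupOf L) = 4 := by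
      rw [Nat.card_congr (Subgroup.subgroupOfEquivOfLe hXL).toEquiv, hcard, hF2]
      norm_num
    have hdvd : 4 ∣ Nat.card St := hX4 ▸ Subgroup.card_dvd_of_le hXSt
    have h8 : 8 ≤ Nat.card St := by
      have hlt : X.subgroupOf L < St := lt_of_le_of_ne hXSt fun e => by
        have hmem : (⟨y, hyL⟩ : ↥L) ∈ X.subgroupOf L := e ▸ (hya : (⟨y, hyL⟩ : ↥L) ∈ St)
        obtain ⟨w, e', he⟩ := hXform _ hmem
        exact hyX w e' he
      have h1 : 4 < Nat.card St := hX4 ▸ Set.ncard_lt_ncard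
        (show (X.subgroupOf L : Set ↥L) ⊂ St from hlt) (Set.toFinite _)
      omega
    have hL : Nat.card ↥L = {x | Orb L a x}.ncard * Nat.card St := by
      have hidx := MulAction.index_stabilizer ↥L a
      rw [← Subgroup.card_mul_index St, hidx, mul_comm]
      exact congrArg (fun s : Set (Fin 2 ⊕ Fin 2 → F) => s.ncard * Nat.card ↥St) horb
    -- transfer to the symmetric group
    obtain ⟨e₀⟩ := CfsgLib.SpFourTwo.sp_four_two_equiv hF2
    let e : ↥G ≃* Equiv.Perm (Fin 6) :=
      ((MonoidHom.ofInjective hψinj).trans (MulEquiv.subgroupCongr hψG)).symm.trans e₀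
    let e' : ↥L ≃* ↥((L.subgroupOf G).map e.toMonoidHom) :=
      (Subgroup.subgroupOfEquivOfLe hLG).symm.trans (e.subgroupMap (L.subgroupOf G))
    have hcardL := Nat.card_congr e'.toEquiv
    rcases six_large_subgroup ((L.subgroupOf G).map e.toMonoidHom)
      (by rw [← hcardL, hL]; exact le_trans (by norm_num) (Nat.mul_le_mul h11 h8))
      (by rw [← hcardL, hL]; exact dvd_mul_of_dvd_right hdvd _) with h | h | h
    · left
      refine le_antisymm hLG fun g hg => ?_
      have : e ⟨g, hg⟩ ∈ (L.subgroupOf G).map e.toMonoidHom := h ▸ Subgroup.mem_top _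
      obtain ⟨k, hk, hke⟩ := this
      have := e.injective hke
      subst this
      exact hk
    · exact Or.inr (Or.inr ⟨hF2, rfl, Or.inl (h.map fun i => e'.trans i)⟩)
    · exact Or.inr (Or.inr ⟨hF2, rfl, Or.inr (h.map fun i => e'.trans i)⟩))

end Cfsg.Agent.S5712
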