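import Cfsg.Statements.S5713
import Cfsg.Agent.Perm.MinimalDegree

set_option autoImplicit false
open Cfsg

namespace Cfsg.Agent.S5713

/-- A classification-free minimal-degree bound. Let G be a finite group acting faithfully and primitively on a finite set Ω with n elements, and suppose that the image of G in the symmetric group on Ω does not contain the alternating group on Ω. Then every non-identity element of G moves at least (√n − 1)/2 points of Ω, that is, it fixes at most n − (√n − 1)/2 points. -/
theorem result {G Ω : Type*} [Group G] [Finite G] [MulAction G Ω] [FaithfulSMul G Ω] [Fintype Ω] [DecidableEq Ω]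
    (hprim : MulAction.IsPreprimitive G Ω)
    (hA : ¬ alternatingGroup Ω ≤ (MulAction.toPermHom G Ω).range)
    (g : G) (hg : g ≠ 1) :
    (Real.sqrt (Fintype.card Ω) - 1) / 2 ≤ (Fintype.card Ω : ℝ) - Nat.card (MulAction.fixedBy Ω g) := by
  have h := CfsgLib.PermMinDeg.moved_bound hA g hg
  set m := (Finset.univ.filter fun x : Ω => g • x ≠ x).card
  have hm : Nat.card (MulAction.fixedBy Ω g) + m = Fintype.card Ω := by
    rw [← Finset.card_univ, ← Finset.card_filter_add_card_filter_not (s := (Finset.univ : Finset Ω))
      (fun x => g • x = x), Nat.card_eq_fintype_card, ← Set.toFinset_card]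
    congr 2
    ext x; simp
  have h1 : Real.sqrt (Fintype.card Ω) ≤ 2 * (m : ℝ) + 1 := by
    rw [Real.sqrt_le_iff]
    exact ⟨by positivity, by exact_mod_cast h⟩
  have h2 : (Nat.card (MulAction.fixedBy Ω g) : ℝ) + m = Fintype.card Ω := by exact_mod_cast hm
  linarith

end Cfsg.Agent.S5713
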