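import Cfsg.Statements.S5722
import Cfsg.Agent.CompLength.PermBound

set_option autoImplicit false
open Cfsg

namespace Cfsg.Agent.S5722

/-- If a finite group G acts faithfully on a finite set with n points and r orbits, then the composition length of G is at most 4(n − r)/3. Here the composition length is expressed through chains: the conclusion bounds the length l of every chain of subgroups 1 = H₀ < H₁ < ⋯ < H_l = G in which each term is normal in the next (the longest such chains are exactly the composition series). -/
theorem result {G Ω : Type*} [Group G] [Finite G] [MulAction G Ω] [FaithfulSMul G Ω] [Fintype Ω]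
    (l : ℕ) (H : Fin (l + 1) → Subgroup G) (h0 : H 0 = ⊥) (hl : H (Fin.last l) = ⊤)
    (hchain : ∀ i : Fin l, H i.castSucc < H i.succ ∧ ((H i.castSucc).subgroupOf (H i.succ)).Normal) :
    3 * l ≤ 4 * (Fintype.card Ω - Nat.card (Quotient (MulAction.orbitRel G Ω))) := by
  have h1 : CfsgLib.CompLength.SNChain (⊤ : Subgroup G) l := by
    have := CfsgLib.CompLength.SNChain.ofFin H h0 hchain (Fin.last l)
    rwa [hl, Fin.val_last] at this
  have h2 := CfsgLib.CompLength.le_compLen h1
  have h3 := CfsgLib.CompLength.three_mul_compLen_le (G := G) (Ω := Ω)
  rw [Nat.card_eq_fintype_card (α := Ω)] at h3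
  have h4 : Nat.card (Quotient (MulAction.orbitRel G Ω)) = Nat.card (MulAction.orbitRel.Quotient G Ω) := rfl
  omega

end Cfsg.Agent.S5722
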