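import Cfsg.Statements.S5729
-- import your own Cfsg.Agent.* helpers here

set_option autoImplicit false
open Cfsg

namespace Cfsg.Agent.S5729

/-- Let a finite group G act faithfully and transitively on a set with n ≥ 3 points. Then either G is a Frobenius permutation group (Frobenius as a permutation group: transitive, some non-identity element fixes a point, and no non-identity element fixes two points) of order n(n − 1) and exactly |G|/n of its elements are derangements (fix no point), or the number of derangements is greater than |G|/n. -/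
theorem result {G Ω : Type*} [Group G] [Finite G] [MulAction G Ω] [FaithfulSMul G Ω] [Fintype Ω] (htr : MulAction.IsPretransitive G Ω) (hn : 3 ≤ Fintype.card Ω) :
    ((MulAction.IsPretransitive G Ω ∧ (∃ g : G, g ≠ 1 ∧ ∃ ω : Ω, g • ω = ω) ∧ ∀ g : G, g ≠ 1 → Nat.card (MulAction.fixedBy Ω g) ≤ 1) ∧ Nat.card G = Fintype.card Ω * (Fintype.card Ω - 1) ∧ Fintype.card Ω * Nat.card {g : G // ∀ ω : Ω, g • ω ≠ ω} = Nat.card G) ∨
    Nat.card G < Fintype.card Ω * Nat.card {g : G // ∀ ω : Ω, g • ω ≠ ω} := by
  classical
  have := Fintype.ofFinite G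
  set n := Fintype.card Ω with hn'
  let f : G → ℕ := fun g => Fintype.card (MulAction.fixedBy Ω g)
  have hne : Nonempty Ω := Fintype.card_pos_iff.mp (by omega)
  have h1 : ∑ g : G, f g = Fintype.card G := by
    have hb := MulAction.sum_card_fixedBy_eq_card_orbits_mul_card_group G Ω
    have : Fintype.card (MulAction.orbitRel.Quotient G Ω) = 1 := by
      rw [Fintype.card_eq_one_iff]
      obtain ⟨a⟩ := hne
      refine ⟨Quotient.mk'' a, fun y => ?_⟩
      induction y using Quotient.inductionOn' with
      | h b =>
        apply Quotient.sound'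
        exact MulAction.mem_orbit_iff.mpr (htr.exists_smul_eq a b)
    rw [show ∑ g : G, f g = _ from hb]
    show Fintype.card (MulAction.orbitRel.Quotient G Ω) * _ = _
    rw [this, one_mul]
  have hr2 : 2 ≤ Fintype.card (MulAction.orbitRel.Quotient G (Ω × Ω)) := by
    obtain ⟨a, b, hab⟩ := Fintype.one_lt_card_iff.mp (show 1 < Fintype.card Ω by omega)
    refine Fintype.one_lt_card_iff.mpr ⟨Quotient.mk'' (a, a), Quotient.mk'' (a, b), fun h => ?_⟩
    obtain ⟨g, hg⟩ := MulAction.mem_orbit_iff.mp (Quotient.exact' h)
    simp only [Prod.smul_mk, Prod.mk.injEq] at hg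
    exact hab (smul_left_cancel g (hg.1.trans hg.2.symm))
  set r := Fintype.card (MulAction.orbitRel.Quotient G (Ω × Ω))
  have h2 : ∑ g : G, f g * f g = r * Fintype.card G := by
    rw [← MulAction.sum_card_fixedBy_eq_card_orbits_mul_card_group G (Ω × Ω)]
    refine Finset.sum_congr rfl fun g _ => ?_
    rw [← Fintype.card_prod]
    refine Fintype.card_congr
      { toFun := fun x => ⟨(x.1.1, x.2.1), Prod.ext x.1.2 x.2.2⟩
        invFun := fun x => (⟨x.1.1, (Prod.ext_iff.mp x.2).1⟩, ⟨x.1.2, (Prod.ext_iff.mp x.2).2⟩)
        left_inv := fun x => rfl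
        right_inv := fun x => rfl }
  have hD : Nat.card {g : G // ∀ ω : Ω, g • ω ≠ ω} = ∑ g : G, if f g = 0 then 1 else 0 := by
    rw [Finset.sum_boole, Nat.cast_id, Nat.card_eq_fintype_card, Fintype.card_subtype]
    congr 1
    ext g
    simp only [Finset.mem_filter, Finset.mem_univ, true_and, f, Fintype.card_eq_zero_iff,
      isEmpty_subtype, MulAction.mem_fixedBy]
  have hfn : ∀ g, f g ≤ n := fun g => Fintype.card_subtype_le _
  have hf1 : ∀ g, f g = n → g = 1 := by
    intro g hg
    apply FaithfulSMul.eq_of_smul_eq_smul (α := Ω)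
    intro x
    have h := (set_fintype_card_eq_univ_iff (MulAction.fixedBy Ω g)).mp hg
    have hx : x ∈ MulAction.fixedBy Ω g := h ▸ Set.mem_univ x
    rw [one_smul]; exact hx
  have key : (n : ℤ) * Nat.card {g : G // ∀ ω : Ω, g • ω ≠ ω}
      = ((r : ℤ) - 1) * Fintype.card G
        + ∑ g : G, (if f g = 0 then (0 : ℤ) else ((f g : ℤ) - 1) * ((n : ℤ) - f g)) := by
    have e1 : (∑ g : G, (f g : ℤ)) = Fintype.card G := by exact_mod_cast h1
    have e2 : (∑ g : G, (f g : ℤ) * f g) = r * Fintype.card G := by exact_mod_cast h2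
    have e3 : ∀ g : G, (n : ℤ) * (if f g = 0 then 1 else 0)
        - (if f g = 0 then (0 : ℤ) else ((f g : ℤ) - 1) * ((n : ℤ) - f g))
        = (f g : ℤ) * f g - ((n : ℤ) + 1) * f g + n := by
      intro g
      by_cases h : f g = 0
      · simp [h]
      · simp [h]; ring
    have e4 := Finset.sum_congr (rfl : (Finset.univ : Finset G) = Finset.univ) (fun g _ => e3 g)
    rw [Finset.sum_sub_distrib, Finset.sum_add_distrib, Finset.sum_sub_distrib, ← Finset.mul_sum,
      ← Finset.mul_sum, Finset.sum_const, e1, e2, nsmul_eq_mul, Finset.card_univ] at e4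
    rw [hD]; push_cast
    linarith
  have hterm : ∀ g : G, (0 : ℤ) ≤ (if f g = 0 then (0 : ℤ) else ((f g : ℤ) - 1) * ((n : ℤ) - f g)) := by
    intro g
    split_ifs with h
    · exact le_rfl
    · exact mul_nonneg (by omega) (by have := hfn g; omega)
  have hGpos : (0 : ℤ) < Fintype.card G := by exact_mod_cast Fintype.card_pos
  rw [Nat.card_eq_fintype_card (α := G)]
  by_cases hfrob : r = 2 ∧ ∀ g : G, g ≠ 1 → f g ≤ 1
  · left
    obtain ⟨hr, hfr⟩ := hfrob
    have e3 : ∀ g : G, f g * f g + (if g = 1 then n else 0) = f g + (if g = 1 then n * n else 0) := by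
      intro g
      by_cases h : g = 1
      · subst h
        have : f 1 = n := (set_fintype_card_eq_univ_iff _).mpr (by ext; simp)
        simp [this]; ring
      · have := hfr g h
        interval_cases hh : f g <;> simp [h]
    have e4 := Finset.sum_congr (rfl : (Finset.univ : Finset G) = Finset.univ) (fun g _ => e3 g)
    rw [Finset.sum_add_distrib, Finset.sum_add_distrib, h1, h2, Finset.sum_ite_eq' Finset.univ (1 : G),
      Finset.sum_ite_eq' Finset.univ (1 : G), if_pos (Finset.mem_univ _), if_pos (Finset.mem_univ _), hr] at e4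
    have hG : Fintype.card G = n * (n - 1) := by
      rw [Nat.mul_sub, mul_one]; omega
    refine ⟨⟨htr, ?_, fun g hg => by rw [Nat.card_eq_fintype_card]; exact hfr g hg⟩, hG, ?_⟩
    · by_contra hno
      push Not at hno
      have : Fintype.card G = n := by
        rw [← h1, Finset.sum_eq_single (1 : G)]
        · exact (set_fintype_card_eq_univ_iff _).mpr (by ext; simp)
        · intro g _ hg
          simp only [f, Fintype.card_eq_zero_iff, isEmpty_subtype, MulAction.mem_fixedBy]
          exact hno g hg
        · simp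
      rw [hG] at this
      have : n - 1 = 1 := Nat.eq_of_mul_eq_mul_left (by omega : 0 < n) (this.trans (mul_one n).symm)
      omega
    · have h0 : ∀ g : G, (if f g = 0 then (0 : ℤ) else ((f g : ℤ) - 1) * ((n : ℤ) - f g)) = 0 := by
        intro g
        split_ifs with h
        · rfl
        · by_cases hg : g = 1
          · have : f g = n := hg ▸ (set_fintype_card_eq_univ_iff _).mpr (by ext; simp)
            simp [this]
          · have : f g = 1 := by have := hfr g hg; omega
            simp [this]
      rw [Finset.sum_eq_zero (fun g _ => h0 g), hr] at key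
      have : ((n * Nat.card {g : G // ∀ ω : Ω, g • ω ≠ ω} : ℕ) : ℤ) = Fintype.card G := by
        rw [Nat.cast_mul, key]; push_cast; ring
      exact_mod_cast this
  · right
    have : (Fintype.card G : ℤ) < (n : ℤ) * Nat.card {g : G // ∀ ω : Ω, g • ω ≠ ω} := by
      rw [key]
      by_cases hr : r = 2
      · have : ∃ g : G, g ≠ 1 ∧ 2 ≤ f g := by
          by_contra hno
          exact hfrob ⟨hr, fun g hg => by
            by_contra hh
            exact hno ⟨g, hg, by omega⟩⟩
        obtain ⟨g, hg, hg2⟩ := this
        have hlt : f g < n := lt_of_le_of_ne (hfn g) (fun h => hg (hf1 g h))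
        have hpos := Finset.sum_pos' (fun x _ => hterm x) ⟨g, Finset.mem_univ g, by
          rw [if_neg (by omega)]; exact mul_pos (by omega) (by omega)⟩
        rw [hr]; push_cast; linarith
      · have : (3 : ℤ) ≤ r := by omega
        have := Finset.sum_nonneg (fun x (_ : x ∈ (Finset.univ : Finset G)) => hterm x)
        nlinarith
    exact_mod_cast this

end Cfsg.Agent.S5729
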