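import Cfsg.Statements.S5730
import Cfsg.Agent.Perm.DerangementTwo
import Cfsg.Agent.S5729

set_option autoImplicit false
open Cfsg

namespace Cfsg.Agent.S5730

/-- Let a finite group G act faithfully and transitively on a set with n ≥ 7 points. Then either G is a Frobenius permutation group (Frobenius as a permutation group: transitive, some non-identity element fixes a point, and no non-identity element fixes two points) of order n(n − 1)/a with a ∈ {1, 2}, in which case exactly a|G|/n of its elements are derangements, or the number of derangements is at least 2|G|/n. (Equality does occur: PSL₃(2) acting on the 7 points of the Fano plane has exactly 2|G|/7 derangements.) -/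
theorem result {G Ω : Type*} [Group G] [Finite G] [MulAction G Ω] [FaithfulSMul G Ω] [Fintype Ω] (htr : MulAction.IsPretransitive G Ω) (hn : 7 ≤ Fintype.card Ω) :
    (∃ a : ℕ, (a = 1 ∨ a = 2) ∧ (MulAction.IsPretransitive G Ω ∧ (∃ g : G, g ≠ 1 ∧ ∃ ω : Ω, g • ω = ω) ∧ ∀ g : G, g ≠ 1 → Nat.card (MulAction.fixedBy Ω g) ≤ 1) ∧ a * Nat.card G = Fintype.card Ω * (Fintype.card Ω - 1) ∧ Fintype.card Ω * Nat.card {g : G // ∀ ω : Ω, g • ω ≠ ω} = a * Nat.card G) ∨
    2 * Nat.card G ≤ Fintype.card Ω * Nat.card {g : G // ∀ ω : Ω, g • ω ≠ ω} := by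
  classical
  have := Fintype.ofFinite G
  rcases Cfsg.Agent.S5729.result (G := G) htr (by omega) with ⟨hfr, hcard, hder⟩ | hlt
  · exact Or.inl ⟨1, Or.inl rfl, hfr, by rw [one_mul, hcard], by rw [one_mul, hder]⟩
  refine Or.inr ?_
  set n := Fintype.card Ω with hn'
  have hDeq : Nat.card {g : G // ∀ ω : Ω, g • ω ≠ ω}
      = (Finset.univ.filter fun g : G => CfsgLib.DerangementTwo.nfix Ω g = 0).card := by
    rw [Nat.card_eq_fintype_card, Fintype.card_subtype]
    congr 1
    ext g
    simp [CfsgLib.DerangementTwo.nfix, Finset.filter_eq_empty_iff]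
  rw [hDeq, Nat.card_eq_fintype_card] at hlt ⊢
  by_cases h2 : ∀ a b c d : Ω, a ≠ b → c ≠ d → ∃ g : G, g • a = c ∧ g • b = d
  · obtain ⟨α, β, hαβ⟩ := Fintype.one_lt_card_iff.mp (show 1 < Fintype.card Ω by omega)
    by_cases ht : 2 ≤ (CfsgLib.DerangementTwo.st2 G α β).card
    · exact CfsgLib.DerangementTwo.derangements_two h2 (by omega) hαβ ht
    · have := CfsgLib.DerangementTwo.derangements_sharp h2 (by omega) hαβ (by omega)
      exact absurd this hlt.ne'
  push Not at h2
  obtain ⟨a, b, c, d, hab, hcd, hno⟩ := h2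
  let f : G → ℕ := fun g => Fintype.card (MulAction.fixedBy Ω g)
  have hfn' : ∀ g : G, CfsgLib.DerangementTwo.nfix Ω g = f g := fun g => by
    simp only [f, CfsgLib.DerangementTwo.nfix]
    rw [← Fintype.card_subtype]
    exact Fintype.card_congr (Equiv.subtypeEquivRight fun _ => Iff.rfl)
  have h1 : ∑ g : G, f g = Fintype.card G := by
    have hb := MulAction.sum_card_fixedBy_eq_card_orbits_mul_card_group G Ω
    have : Fintype.card (MulAction.orbitRel.Quotient G Ω) = 1 := by
      rw [Fintype.card_eq_one_iff]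
      refine ⟨Quotient.mk'' a, fun y => ?_⟩
      induction y using Quotient.inductionOn' with
      | h x =>
        apply Quotient.sound'
        exact MulAction.mem_orbit_iff.mpr (htr.exists_smul_eq a x)
    rw [show ∑ g : G, f g = _ from hb]
    show Fintype.card (MulAction.orbitRel.Quotient G Ω) * _ = _
    rw [this, one_mul]
  have hr : 3 ≤ Fintype.card (MulAction.orbitRel.Quotient G (Ω × Ω)) := by
    have hne : ∀ {u v x y : Ω}, (Quotient.mk'' (u, v) : MulAction.orbitRel.Quotient G (Ω × Ω)) = Quotient.mk'' (x, y)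
        → ∃ g : G, g • x = u ∧ g • y = v := fun h => by
      obtain ⟨g, hg⟩ := MulAction.mem_orbit_iff.mp (Quotient.exact' h)
      exact ⟨g, (Prod.ext_iff.mp hg).1, (Prod.ext_iff.mp hg).2⟩
    refine le_of_eq_of_le (Finset.card_eq_three.2 ⟨Quotient.mk'' (a, a), Quotient.mk'' (a, b),
      Quotient.mk'' (c, d), fun h => ?_, fun h => ?_, fun h => ?_, rfl⟩).symm (Finset.card_le_univ _)
    · obtain ⟨g, e1, e2⟩ := hne h.symm
      exact hab (e1.symm.trans e2)
    · obtain ⟨g, e1, e2⟩ := hne h.symm
      exact hcd (e1.symm.trans e2)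
    · obtain ⟨g, e1, e2⟩ := hne h.symm
      exact hno g e1 e2
  set r := Fintype.card (MulAction.orbitRel.Quotient G (Ω × Ω))
  have h2 : ∑ g : G, f g * f g = r * Fintype.card G := by
    rw [← MulAction.sum_card_fixedBy_eq_card_orbits_mul_card_group G (Ω × Ω)]
    refine Finset.sum_congr rfl fun g _ => ?_
    rw [← Fintype.card_prod]
    refine Fintype.card_congr
      { toFun := fun x => ⟨(x.1.1, x.2.1), Prod.ext x.1.2 x.2.2⟩
        invFun := fun x => (⟨x.1.1, (Prod.ext_iff.mp x.2).1⟩, ⟨x.1.2, (Prod.ext_iff.mp x.2).2⟩)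
        left_inv := fun x => rfl
        right_inv := fun x => rfl }
  have hterm : ∀ g : G, (f g : ℤ) * f g - ((n : ℤ) + 1) * f g + n
      ≤ (n : ℤ) * (if CfsgLib.DerangementTwo.nfix Ω g = 0 then 1 else 0) := by
    intro g
    rw [hfn']
    by_cases h : f g = 0
    · simp [h]
    · have h1 : (1 : ℤ) ≤ f g := by exact_mod_cast Nat.one_le_iff_ne_zero.2 h
      have h2 : (f g : ℤ) ≤ n := by exact_mod_cast Fintype.card_subtype_le _
      rw [if_neg h]
      nlinarith [mul_nonneg (sub_nonneg.2 h1) (sub_nonneg.2 h2)]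
  have hsum := Finset.sum_le_sum (s := (Finset.univ : Finset G)) (fun g _ => hterm g)
  have e1 : (∑ g : G, (f g : ℤ)) = Fintype.card G := by exact_mod_cast h1
  have e2 : (∑ g : G, (f g : ℤ) * f g) = r * Fintype.card G := by exact_mod_cast h2
  rw [Finset.sum_add_distrib, Finset.sum_sub_distrib, ← Finset.mul_sum, ← Finset.mul_sum, e1, e2,
    Finset.sum_const, nsmul_eq_mul, Finset.card_univ, Finset.sum_boole] at hsum
  have hr' : (3 : ℤ) ≤ r := by exact_mod_cast hr
  have hG0 : (0 : ℤ) ≤ Fintype.card G := by positivity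
  have : (2 : ℤ) * Fintype.card G ≤ (n : ℤ) * (Finset.univ.filter fun g : G => CfsgLib.DerangementTwo.nfix Ω g = 0).card := by
    nlinarith
  exact_mod_cast this

end Cfsg.Agent.S5730
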