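import Cfsg.Statements.S5737
import Cfsg.Agent.BinarySuzuki.Main
import Cfsg.Agent.Suzuki.LieModel

set_option autoImplicit false
open Cfsg

namespace Cfsg.Agent.S5737

/-- Let G = Sz(q) be a Suzuki group, q = 2^(2a+1) with a ≥ 1 (realised inside Sp₄ over the field with q elements), and let H be a proper subgroup of G. Then the action of G on the cosets of H is binary if and only if H is trivial or H is the centre of a Sylow 2-subgroup of G. Here an action is binary (relational complexity 2) when, for every n ≥ 2 and all n-tuples I, J of points, if for every pair of positions some group element carries the corresponding pair of entries of I to those of J, then a single group element carries I to J. -/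
theorem result {F : Type*} [Field F] [Fintype F] (a : ℕ) (ha : 1 ≤ a) (hF : Fintype.card F = 2 ^ (2 * a + 1))
    (H : Subgroup (Cfsg.Lie.Sz F (2 ^ (a + 1)))) (hH : H ≠ ⊤) :
    (∀ (n : ℕ) (I J : Fin n → (Cfsg.Lie.Sz F (2 ^ (a + 1))) ⧸ H), 2 ≤ n →
        (∀ i j : Fin n, i ≠ j → ∃ g : (Cfsg.Lie.Sz F (2 ^ (a + 1))), g • I i = J i ∧ g • I j = J j) → ∃ g : (Cfsg.Lie.Sz F (2 ^ (a + 1))), ∀ i, g • I i = J i) ↔
      (H = ⊥ ∨ ∃ P : Sylow 2 (Cfsg.Lie.Sz F (2 ^ (a + 1))), H = (Subgroup.center (P : Subgroup (Cfsg.Lie.Sz F (2 ^ (a + 1))))).map (P : Subgroup (Cfsg.Lie.Sz F (2 ^ (a + 1)))).subtype) := by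
  haveI := CfsgLib.Suzuki.charP_two (m := a) hF
  exact CfsgLib.BinarySuzuki.binary_or_centre_of_equiv ha hF
    ((CfsgLib.Suzuki.lieSzEquiv ha hF).symm.trans (MulEquiv.subgroupCongr CfsgLib.Suzuki.sz_eq)) H hH

end Cfsg.Agent.S5737
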