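import Cfsg.Statements.S5738
import Cfsg.Agent.Singer.Basic

set_option autoImplicit false
open Cfsg

namespace Cfsg.Agent.S5738

/-- Let F ⊆ K be finite fields with |F| = q and [K : F] = n ≥ 2, so |K| = q^n. Regard K as an n-dimensional F-vector space; the multiplications by non-zero elements of K form a cyclic subgroup of GL_F(K) of order q^n − 1 acting regularly on the non-zero vectors (a Singer group). Its normaliser in GL_F(K) has order n·(q^n − 1). -/
theorem result {F K : Type*} [Field F] [Fintype F] [Field K] [Fintype K] [Algebra F K] (n : ℕ) (hn : 2 ≤ n) (hdim : Module.finrank F K = n) :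
    Nat.card (Subgroup.normalizer (((Units.map ((Algebra.lmul F K : K →ₐ[F] Module.End F K) : K →* Module.End F K)).range : Subgroup (Module.End F K)ˣ) : Set (Module.End F K)ˣ)) = n * (Fintype.card K - 1) := by
  rw [show ((Units.map ((Algebra.lmul F K : K →ₐ[F] Module.End F K) : K →* Module.End F K)).range)
      = CfsgLib.Singer.singerGroup F K from rfl, CfsgLib.Singer.normalizer_card, IsGalois.card_aut_eq_finrank,
    hdim, Nat.card_units, Nat.card_eq_fintype_card]

end Cfsg.Agent.S5738
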