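import Cfsg.Statements.S5747
-- import your own Cfsg.Agent.* helpers here

set_option autoImplicit false
open Cfsg

namespace Cfsg.Agent.S5747

section
variable {G Ω : Type*} [Group G] [MulAction G Ω]

/-- pointwise stabiliser is trivial -/
def BaseSeq (G : Type*) {Ω : Type*} [Group G] [MulAction G Ω] {t : ℕ} (f : Fin t → Ω) : Prop :=
  ∀ g : G, (∀ i : Fin t, g • f i = f i) → g = 1

/-- every entry moves under the stabiliser of its predecessors -/
def Irred (G : Type*) {Ω : Type*} [Group G] [MulAction G Ω] {t : ℕ} (f : Fin t → Ω) : Prop :=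
  ∀ i : Fin t, ∃ g : G, (∀ j : Fin t, j < i → g • f j = f j) ∧ g • f i ≠ f i

theorem exists_shorter : ∀ (t : ℕ) (f : Fin t → Ω), BaseSeq G f →
    ∃ (t' : ℕ) (f' : Fin t' → Ω), BaseSeq G f' ∧ Irred G f' ∧ t' ≤ t ∧ (¬ Irred G f → t' < t) := by
  intro t
  induction t with
  | zero => intro f hb; exact ⟨0, f, hb, fun i => i.elim0, le_rfl, fun h => absurd (fun i => i.elim0) h⟩
  | succ t ih =>
    intro f hb
    by_cases hi : Irred G f
    · exact ⟨_, f, hb, hi, le_rfl, fun h => absurd hi h⟩
    · obtain ⟨i, hi'⟩ := not_forall.mp hi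
      have hb' : BaseSeq G (f ∘ i.succAbove) := by
        intro g hg
        have hne : ∀ j, j ≠ i → g • f j = f j := by
          intro j hj
          obtain ⟨k, rfl⟩ := Fin.exists_succAbove_eq hj
          exact hg k
        refine hb g fun j => ?_
        by_cases hj : j = i
        · subst hj
          by_contra hc
          exact hi' ⟨g, fun k hk => hne k hk.ne, hc⟩
        · exact hne j hj
      obtain ⟨t', f', h1, h2, h3, -⟩ := ih _ hb'
      exact ⟨t', f', h1, h2, by omega, fun _ => by omega⟩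

/-- no point of `S` is fixed by the pointwise stabiliser of the others -/
def Indep (G : Type*) {Ω : Type*} [Group G] [MulAction G Ω] (S : Finset Ω) : Prop :=
  ∀ x ∈ S, ∃ g : G, (∀ z ∈ S, z ≠ x → g • z = z) ∧ g • x ≠ x

/-- a set with trivial pointwise stabiliser -/
def IsBaseSet (G : Type*) {Ω : Type*} [Group G] [MulAction G Ω] (S : Finset Ω) : Prop :=
  ∀ g : G, (∀ z ∈ S, g • z = z) → g = 1

variable (hre : ∀ (t : ℕ) (f : Fin t → Ω) (σ : Equiv.Perm (Fin t)), (BaseSeq G f ∧ Irred G f) →
    (BaseSeq G (f ∘ σ) ∧ Irred G (f ∘ σ)))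
include hre

theorem alone {t : ℕ} {f : Fin t → Ω} (h : BaseSeq G f ∧ Irred G f) (i : Fin t) :
    ∃ g : G, (∀ j : Fin t, j ≠ i → g • f j = f j) ∧ g • f i ≠ f i := by
  cases t with
  | zero => exact i.elim0
  | succ t =>
    obtain ⟨g, hg, hgi⟩ := (hre _ f (Equiv.swap i (Fin.last t)) h).2 (Fin.last t)
    simp only [Function.comp_apply, Equiv.swap_apply_right] at hgi
    refine ⟨g, fun j hj => ?_, hgi⟩
    have hlt : Equiv.swap i (Fin.last t) j < Fin.last t := by
      refine lt_of_le_of_ne (Fin.le_last _) fun hc => hj ?_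
      have := congrArg (Equiv.swap i (Fin.last t)) hc
      simpa using this
    simpa using hg _ hlt

theorem inj_of_base {t : ℕ} {f : Fin t → Ω} (h : BaseSeq G f ∧ Irred G f) : Function.Injective f := by
  intro a b hab
  by_contra hne
  obtain ⟨g, hg, hga⟩ := alone hre h a
  exact hga (by rw [hab]; exact hg b (Ne.symm hne))

theorem swap_step [DecidableEq Ω] {S : Finset Ω} (hS : Indep G S) (hb : IsBaseSet G S) {x : Ω} (hx : x ∈ S)
    {T : Finset Ω} (hT : IsBaseSet G T) :
    ∃ y ∈ T, y ∉ S.erase x ∧ Indep G (insert y (S.erase x)) ∧ IsBaseSet G (insert y (S.erase x)) := by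
  obtain ⟨g, hg, hgx⟩ := hS x hx
  have hy : ∃ y ∈ T, g • y ≠ y := by
    by_contra hc
    push Not at hc
    exact hgx (by rw [hT g hc, one_smul])
  obtain ⟨y, hyT, hgy⟩ := hy
  have hyS : y ∉ S.erase x := fun hm => hgy (hg y (Finset.mem_erase.mp hm).2 (Finset.mem_erase.mp hm).1)
  set k := (S.erase x).card
  let e : Fin k → Ω := fun i => ((S.erase x).equivFin.symm i).1
  have hee : ∀ z ∈ S.erase x, ∃ i, e i = z := fun z hz => ⟨(S.erase x).equivFin ⟨z, hz⟩, by simp [e]⟩
  have hem : ∀ i, e i ∈ S.erase x := fun i => ((S.erase x).equivFin.symm i).2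
  have hir : Irred G (Fin.snoc e y : Fin (k + 1) → Ω) := by
    intro i
    induction i using Fin.lastCases with
    | last =>
      refine ⟨g, fun j hj => ?_, by simpa using hgy⟩
      obtain ⟨j, rfl⟩ := Fin.exists_castSucc_eq.mpr hj.ne
      simp only [Fin.snoc_castSucc]
      exact hg _ (Finset.mem_erase.mp (hem j)).2 (Finset.mem_erase.mp (hem j)).1
    | cast i =>
      obtain ⟨h, hh, hhi⟩ := hS (e i) (Finset.mem_erase.mp (hem i)).2
      refine ⟨h, fun j hj => ?_, by simpa using hhi⟩
      obtain ⟨j, rfl⟩ := Fin.exists_castSucc_eq.mpr (ne_of_lt (lt_of_lt_of_le hj (Fin.le_last _)))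
      simp only [Fin.snoc_castSucc]
      refine hh _ (Finset.mem_erase.mp (hem j)).2 fun hc => ?_
      have : j = i := (S.erase x).equivFin.symm.injective (Subtype.ext hc)
      subst this
      exact lt_irrefl _ hj
  have hbase : IsBaseSet G (insert y (S.erase x)) := by
    by_contra hc
    obtain ⟨h, hh, hh1⟩ : ∃ h : G, (∀ z ∈ insert y (S.erase x), h • z = z) ∧ h ≠ 1 := by
      unfold IsBaseSet at hc
      push Not at hc
      exact hc
    let f : Fin (k + 2) → Ω := Fin.snoc (Fin.snoc e y : Fin (k + 1) → Ω) x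
    have hfb : BaseSeq G f := by
      intro u hu
      refine hb u fun z hz => ?_
      by_cases hzx : z = x
      · subst hzx; simpa [f] using hu (Fin.last _)
      · obtain ⟨i, rfl⟩ := hee z (Finset.mem_erase.mpr ⟨hzx, hz⟩)
        simpa [f] using hu i.castSucc.castSucc
    have hfi : Irred G f := by
      intro i
      induction i using Fin.lastCases with
      | last =>
        have hhx : h • x ≠ x := fun hfix => hh1 (hb h fun z hz => by
          by_cases hzx : z = x
          · exact hzx ▸ hfix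
          · exact hh z (Finset.mem_insert_of_mem (Finset.mem_erase.mpr ⟨hzx, hz⟩)))
        refine ⟨h, fun j hj => ?_, by simpa [f] using hhx⟩
        obtain ⟨j, rfl⟩ := Fin.exists_castSucc_eq.mpr hj.ne
        simp only [f, Fin.snoc_castSucc]
        induction j using Fin.lastCases with
        | last => simpa using hh y (Finset.mem_insert_self _ _)
        | cast j => simpa using hh _ (Finset.mem_insert_of_mem (hem j))
      | cast i =>
        obtain ⟨u, hu, hui⟩ := hir i
        refine ⟨u, fun j hj => ?_, by simpa [f] using hui⟩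
        obtain ⟨j, rfl⟩ := Fin.exists_castSucc_eq.mpr (ne_of_lt (lt_of_lt_of_le hj (Fin.le_last _)))
        simp only [f, Fin.snoc_castSucc]
        exact hu j (by simpa using hj)
    obtain ⟨u, hu, huy⟩ := alone hre ⟨hfb, hfi⟩ (Fin.last k).castSucc
    apply huy
    have : u = 1 := hb u fun z hz => by
      by_cases hzx : z = x
      · subst hzx
        have hne : (Fin.last (k + 1)) ≠ (Fin.last k).castSucc := fun hc => by
          have := congrArg Fin.val hc; simp at this
        simpa [f] using hu _ hne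
      · obtain ⟨i, rfl⟩ := hee z (Finset.mem_erase.mpr ⟨hzx, hz⟩)
        have hne : i.castSucc.castSucc ≠ (Fin.last k).castSucc := fun hc => by
          have := congrArg Fin.val hc; simp at this; omega
        simpa [f] using hu _ hne
    rw [this, one_smul]
  refine ⟨y, hyT, hyS, ?_, hbase⟩
  have hb' : BaseSeq G (Fin.snoc e y : Fin (k + 1) → Ω) := by
    intro u hu
    refine hbase u fun z hz => ?_
    rcases Finset.mem_insert.mp hz with rfl | hz
    · simpa using hu (Fin.last _)
    · obtain ⟨i, rfl⟩ := hee z hz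
      simpa using hu i.castSucc
  intro z hz
  rcases Finset.mem_insert.mp hz with rfl | hz'
  · obtain ⟨u, hu, huz⟩ := alone hre ⟨hb', hir⟩ (Fin.last k)
    refine ⟨u, fun w hw hwz => ?_, by simpa using huz⟩
    obtain ⟨i, rfl⟩ := hee w ((Finset.mem_insert.mp hw).resolve_left hwz)
    simpa using hu i.castSucc (ne_of_lt (Fin.castSucc_lt_last i))
  · obtain ⟨i, rfl⟩ := hee z hz'
    obtain ⟨u, hu, huz⟩ := alone hre ⟨hb', hir⟩ i.castSucc
    refine ⟨u, fun w hw hwz => ?_, by simpa using huz⟩
    rcases Finset.mem_insert.mp hw with rfl | hw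
    · simpa using hu (Fin.last _) (Ne.symm (ne_of_lt (Fin.castSucc_lt_last i)))
    · obtain ⟨j, rfl⟩ := hee w hw
      simpa using hu j.castSucc (fun hc => hwz (by rw [Fin.castSucc_injective _ hc]))

theorem card_le [DecidableEq Ω] {T : Finset Ω} (hT : IsBaseSet G T) :
    ∀ (m : ℕ) (S : Finset Ω), (S \ T).card = m → Indep G S → IsBaseSet G S → S.card ≤ T.card := by
  intro m
  induction m using Nat.strong_induction_on with
  | _ m ih =>
    intro S hm hS hb
    by_cases h0 : (S \ T).card = 0
    · exact Finset.card_le_card (Finset.sdiff_eq_empty_iff_subset.mp (Finset.card_eq_zero.mp h0))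
    obtain ⟨x, hx⟩ := Finset.card_ne_zero.mp h0
    obtain ⟨hxS, hxT⟩ := Finset.mem_sdiff.mp hx
    obtain ⟨y, hyT, hyS, hi, hbb⟩ := swap_step hre hS hb hxS hT
    have hlt : (insert y (S.erase x) \ T).card < m := by
      rw [← hm]
      apply Finset.card_lt_card
      rw [Finset.ssubset_iff_of_subset]
      · exact ⟨x, hx, by
          simp only [Finset.mem_sdiff, Finset.mem_insert, Finset.mem_erase]
          rintro ⟨rfl | ⟨h, -⟩, -⟩
          · exact hxT hyT
          · exact h rfl⟩
      · intro z hz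
        simp only [Finset.mem_sdiff, Finset.mem_insert, Finset.mem_erase] at hz ⊢
        obtain ⟨rfl | ⟨-, hz⟩, hzT⟩ := hz
        · exact absurd hyT hzT
        · exact ⟨hz, hzT⟩
    have := ih _ hlt _ rfl hi hbb
    rwa [Finset.card_insert_of_notMem hyS, Finset.card_erase_add_one hxS] at this

theorem len_le {t t' : ℕ} {f : Fin t → Ω} {f' : Fin t' → Ω} (h : BaseSeq G f ∧ Irred G f)
    (h' : BaseSeq G f' ∧ Irred G f') : t ≤ t' := by
  classical
  have key : ∀ {s : ℕ} (f : Fin s → Ω), (BaseSeq G f ∧ Irred G f) →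
      Indep G (Finset.univ.image f) ∧ IsBaseSet G (Finset.univ.image f) ∧ (Finset.univ.image f).card = s := by
    intro s f h
    refine ⟨fun x hx => ?_, fun g hg => h.1 g fun i => hg _ (Finset.mem_image_of_mem f (Finset.mem_univ i)), ?_⟩
    · obtain ⟨i, -, rfl⟩ := Finset.mem_image.mp hx
      obtain ⟨g, hg, hgi⟩ := alone hre h i
      refine ⟨g, fun z hz hne => ?_, hgi⟩
      obtain ⟨j, -, rfl⟩ := Finset.mem_image.mp hz
      exact hg j (fun hc => hne (by rw [hc]))
    · rw [Finset.card_image_of_injective _ (inj_of_base hre h)]; simp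
  obtain ⟨hi, hb, hc⟩ := key f h
  obtain ⟨-, hb', hc'⟩ := key f' h'
  have := card_le hre hb' _ _ rfl hi hb
  omega

end

/-- Let a finite group G act on a finite set Ω. An irredundant base is a sequence of points ω₁, …, ω_t whose pointwise stabiliser is trivial and in which each ω_i is moved by some element fixing ω₁, …, ω_{i−1}. Then all irredundant bases have the same length if and only if every reordering of an irredundant base is again an irredundant base. -/
theorem result {G Ω : Type*} [Group G] [Finite G] [MulAction G Ω] [Fintype Ω] :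
    (∀ (t t' : ℕ) (f : Fin t → Ω) (f' : Fin t' → Ω), ((∀ g : G, (∀ i : Fin t, g • f i = f i) → g = 1) ∧ ∀ i : Fin t, ∃ g : G, (∀ j : Fin t, j < i → g • f j = f j) ∧ g • f i ≠ f i) → ((∀ g : G, (∀ i : Fin t', g • f' i = f' i) → g = 1) ∧ ∀ i : Fin t', ∃ g : G, (∀ j : Fin t', j < i → g • f' j = f' j) ∧ g • f' i ≠ f' i) → t = t') ↔
    (∀ (t : ℕ) (f : Fin t → Ω) (σ : Equiv.Perm (Fin t)), ((∀ g : G, (∀ i : Fin t, g • f i = f i) → g = 1) ∧ ∀ i : Fin t, ∃ g : G, (∀ j : Fin t, j < i → g • f j = f j) ∧ g • f i ≠ f i) → ((∀ g : G, (∀ i : Fin t, g • (f ∘ σ) i = (f ∘ σ) i) → g = 1) ∧ ∀ i : Fin t, ∃ g : G, (∀ j : Fin t, j < i → g • (f ∘ σ) j = (f ∘ σ) j) ∧ g • (f ∘ σ) i ≠ (f ∘ σ) i)) := by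
  constructor
  · intro heq t f σ h
    have hb : BaseSeq G (f ∘ σ) := fun g hg => h.1 g fun i => by simpa using hg (σ.symm i)
    refine ⟨hb, ?_⟩
    by_contra hni
    obtain ⟨t', f', h1, h2, -, h4⟩ := exists_shorter t (f ∘ σ) hb
    have := heq t t' f f' h ⟨h1, h2⟩
    have := h4 hni
    omega
  · intro hre t t' f f' h h'
    exact le_antisymm (len_le hre h h') (len_le hre h' h)

end Cfsg.Agent.S5747
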