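import Cfsg.Statements.S5751
import Cfsg.Agent.ChevCores.E8
import Cfsg.Agent.S1054
import Cfsg.Agent.BNPair.Parabolic

set_option autoImplicit false
open Cfsg
set_option maxHeartbeats 400000

namespace Cfsg.Agent.S5751

open CfsgLib.Chevalley CfsgLib.ChevCores

/-- An extremal example for iterated cores of conjugate maximal subgroups: there exist a finite group G and two distinct conjugate maximal subgroups M₁, M₂ of G, with M₁ having trivial core in G, such that, if we define two descending sequences of subgroups by A₀ = M₁, B₀ = M₂ and, for every i, A_{i+1} = the core in M₁ of A_i ∩ B_i and B_{i+1} = the core in M₂ of A_i ∩ B_i (the core in M of a subgroup Y ≤ M is the largest normal subgroup of M contained in Y), the subgroup A₆ is trivial while A₅ is not (so the index 6 cannot be lowered to 5). (One example is a maximal parabolic subgroup of the Chevalley group of type E₈ over a finite field and a suitable conjugate of it.) -/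
theorem result :
    ∃ (G : Type) (_ : Group G) (_ : Finite G) (M₁ M₂ : Subgroup G) (g : G) (A B : ℕ → Subgroup G),
      IsCoatom M₁ ∧ M₂ = M₁.map (MulAut.conj g).toMonoidHom ∧ M₁ ≠ M₂ ∧ M₁.normalCore = ⊥ ∧ A 0 = M₁ ∧ B 0 = M₂ ∧
      (∀ i, A (i + 1) = ((A i ⊓ B i).subgroupOf M₁).normalCore.map M₁.subtype) ∧
      (∀ i, B (i + 1) = ((A i ⊓ B i).subgroupOf M₂).normalCore.map M₂.subtype) ∧ A 6 = ⊥ ∧ A 5 ≠ ⊥ := by
  let F := ZMod 2
  have hF : ∀ t : F, t = 0 ∨ t = 1 := by decide
  set D := Cfsg.Lie.chevE8 with hD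
  set S := sysE8 with hSdef
  set H := D.group F with hH
  have hk : 3 < D.rank := by decide
  have hkl := S.wf.simple_lt 3 hk
  set P := nodeP F with hP
  have hPG : P ≤ H := by
    rw [hP, nodeP, ← S.normalizer_radical F supportE8]
    exact inf_le_right
  have hVP : ∀ i, nodeV F i ≤ P := fun i =>
    (uSub_le_posUnipotent F _).trans (le_sup_left.trans le_sup_left)
  obtain ⟨s, hsv⟩ : ∃ s : ↥H, (s : GL D.Idx F) = S.nG F (D.simple 3) 1 :=
    ⟨⟨_, S.nG_mem F hkl 1⟩, rfl⟩
  have hs : s * s = 1 := Subtype.ext (by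
    rw [Subgroup.coe_mul, hsv, Subgroup.coe_one]
    exact nG_invol hF (by norm_num))
  have hconj : ∀ x : ↥H, ((s * x * s : ↥H) : GL D.Idx F) =
      S.nG F (D.simple 3) 1 * (x : GL D.Idx F) * S.nG F (D.simple 3) 1 := fun x => by
    rw [Subgroup.coe_mul, Subgroup.coe_mul, hsv]
  set M := P.subgroupOf H with hM
  let V : ℕ → Subgroup ↥H := fun i => (nodeV F i).subgroupOf H
  have hVn : ∀ i, 1 ≤ i → NormBy M (V i) := fun i hi a ha x hx =>
    S.lvl_normBy F supportE8 hk hF hi _ ha _ hx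
  have hVd : ∀ i, 1 ≤ i → V (i + 1) ≤ V i := fun i _ x hx =>
    uSub_mono (fun r (hr : ((i + 1 : ℕ) : ℤ) ≤ S.vec 3 r) => (by
      show (i : ℤ) ≤ S.vec 3 r
      omega)) hx
  have hL : ∀ i, 1 ≤ i → ∀ v ∈ V (i + 1), s * v * s ∈ V i := fun i hi v hv => by
    show ((s * v * s : ↥H) : GL D.Idx F) ∈ nodeV F i
    rw [hconj]
    exact nodeV_shift hF hi hv
  have push : ∀ Y : Subgroup ↥H, NormBy M Y → NormBy P (Y.map H.subtype) := by
    rintro Y hY a ha _ ⟨x, hx, rfl⟩
    exact ⟨_, hY ⟨a, hPG ha⟩ ha x hx, rfl⟩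
  have pull : ∀ (Y : Subgroup ↥H) (Z : Subgroup (GL D.Idx F)), Y.map H.subtype ≤ Z →
      Y ≤ Z.subgroupOf H := fun Y Z h x hx => h ⟨x, hx, rfl⟩
  have hY1 : ∀ Y, NormBy M Y → Y ≤ V 1 → (∀ y ∈ Y, s * y * s ∈ M) → Y ≤ V 2 := by
    intro Y hY h1 h2
    refine pull _ _ (nodeV_descent_one hF _ (push Y hY) ?_ ?_)
    · rintro _ ⟨x, hx, rfl⟩; exact h1 hx
    · rintro _ ⟨x, hx, rfl⟩; exact hconj x ▸ Subgroup.mem_subgroupOf.mp (h2 x hx)
  have hY2 : ∀ i, 2 ≤ i → ∀ Y, NormBy M Y → Y ≤ V i → (∀ y ∈ Y, s * y * s ∈ V i) →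
      Y ≤ V (i + 1) := by
    intro i hi Y hY h1 h2
    refine pull _ _ (nodeV_descent hF hi _ (push Y hY) ?_ ?_)
    · rintro _ ⟨x, hx, rfl⟩; exact h1 hx
    · rintro _ ⟨x, hx, rfl⟩; exact hconj x ▸ Subgroup.mem_subgroupOf.mp (h2 x hx)
  -- the negative fundamental root element
  have hneg := S.xG_neg_simple_not_mem_parabolic F supportE8 hk hF
  obtain ⟨u, huv⟩ : ∃ u : ↥H, (u : GL D.Idx F) = S.xG F (D.simple 3) 1 :=
    ⟨⟨_, S.xG_mem F hkl 1⟩, rfl⟩
  have huM : u ∈ M := by
    rw [hM, Subgroup.mem_subgroupOf, huv]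
    exact Subgroup.mem_sup_left (S.xG_mem_borel F (S.simple_pos 3 hk) hkl 1)
  have hsu : s * u * s ∉ M := by
    intro h
    have h' : S.nG F (D.simple 3) 1 * S.xG F (D.simple 3) 1 * S.nG F (D.simple 3) 1 ∈ P := by
      rw [← huv, ← hconj]
      exact Subgroup.mem_subgroupOf.mp h
    have e : S.nG F (D.simple 3) 1 * S.xG F (D.simple 3) 1 * S.nG F (D.simple 3) 1 =
        S.xG F (D.neg (D.simple 3)) 1 := by
      rw [S.nG_conj_xG F hk hkl, mul_assoc, nG_invol hF (by norm_num), mul_one, S.w_simple hk,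
        S.eta_simple 3 hk]
      congr 1
    rw [e] at h'
    exact hneg h'
  refine ⟨↥H, inferInstance, inferInstance, M, M.map (MulAut.conj s).toMonoidHom, s,
    coreSeq M s, fun n => (coreSeq M s n).map (MulAut.conj s).toMonoidHom, ?_, rfl, ?_, ?_, rfl,
    rfl, fun i => rfl, map_coreSeq_succ (Γ := ↥H) (M := M) (s := s) hs, ?_, ?_⟩
  · -- maximality
    refine ⟨fun h => hsu (h ▸ Subgroup.mem_top _), fun K hK => ?_⟩
    set bn := S.bnPair F
    have hB : bn.B ≤ K := fun x hx => hK.le (Subgroup.mem_sup_left hx : x ∈ M)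
    by_cases hsK : s ∈ K
    · rw [eq_top_iff, ← bn.sup_eq_top, ← bn.closure_sup]
      refine sup_le hB (sup_le ((Subgroup.closure_le _).mpr ?_) (inf_le_left.trans hB))
      rintro n ⟨j, hj, hn⟩
      by_cases hj3 : j = 3
      · subst hj3
        have : n = s := Subtype.ext ((Units.ext (hn.trans (S.nG_val F _ _).symm)).trans hsv.symm)
        rwa [this]
      · exact hK.le (show (n : GL D.Idx F) ∈ P from
          Subgroup.mem_sup_right (Subgroup.subset_closure ⟨j, hj3, hj, hn⟩))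
    · exfalso
      refine hK.not_ge ?_
      rw [CfsgLib.BNPair.eq_parabolic bn K hB]
      refine sup_le (fun x hx => Subgroup.mem_sup_left hx) ((Subgroup.closure_le _).mpr ?_)
      rintro n ⟨⟨j, hj, hn⟩, hnK⟩
      by_cases hj3 : j = 3
      · subst hj3
        have : n = s := Subtype.ext ((Units.ext (hn.trans (S.nG_val F _ _).symm)).trans hsv.symm)
        exact absurd (this ▸ hnK) hsK
      · exact (show (n : GL D.Idx F) ∈ P from
          Subgroup.mem_sup_right (Subgroup.subset_closure ⟨j, hj3, hj, hn⟩))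
  · -- the two subgroups differ
    intro e
    have h2 : MulAut.conj s u ∈ M.map (MulAut.conj s).toMonoidHom := ⟨u, huM, rfl⟩
    rw [← e] at h2
    rw [MulAut.conj_apply] at h2
    have hh : s * s = 1 := hs
    have hi : s⁻¹ = s := inv_eq_of_mul_eq_one_right hh
    rw [hi] at h2
    exact hsu h2
  · -- trivial core
    obtain ⟨hsimple, -⟩ := Cfsg.Agent.S1054.result (F := F) D (by simp [hD])
    rcases hsimple.eq_bot_or_eq_top_of_normal M.normalCore inferInstance with h | h
    · exact h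
    · exact absurd (Subgroup.normalCore_le M (h ▸ Subgroup.mem_top _)) hsu
  · -- the sixth core is trivial
    have h6 : coreSeq M s 6 ⊓ V 1 = ⊥ := by
      refine le_bot_iff.mp ((coreSeq_inf_le (Γ := ↥H) (M := M) (s := s) (V := V) hs hVn hVd hL hY1 hY2 5).trans ?_)
      intro x hx
      have hx' : (x : GL D.Idx F) ∈ nodeV F 7 := hx
      rw [nodeV_top le_rfl, Subgroup.mem_bot] at hx'
      exact Subgroup.mem_bot.mpr (Subtype.ext hx')
    have h := S.eq_bot_of_inf_lvl_eq_bot F supportE8 hk hF (fun j hj hj3 => node_gen hj hj3)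
      (X := (coreSeq M s 6).map H.subtype) (push _ (normBy_coreSeq 6)) ?_ ?_
    · exact (Subgroup.map_eq_bot_iff_of_injective _ H.subtype_injective).mp h
    · rintro _ ⟨x, hx, rfl⟩
      exact coreSeq_le_self (M := M) (s := s) 6 hx
    · rw [eq_bot_iff]
      rintro _ ⟨⟨x, hx, rfl⟩, hx2⟩
      have : x ∈ coreSeq M s 6 ⊓ V 1 := ⟨hx, hx2⟩
      rw [h6, Subgroup.mem_bot] at this
      simp [this]
  · -- the fifth core is not
    intro h
    have h5 := le_coreSeq (Γ := ↥H) (M := M) (s := s) (V := V) hs (fun x hx => hVP 1 hx) hVn hVd hL 5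
    rw [h, le_bot_iff] at h5
    refine nodeV_six_ne_bot (F := F) ?_
    rw [eq_bot_iff]
    intro x hx
    have hx' : (⟨x, hPG (hVP 6 hx)⟩ : ↥H) ∈ V 6 := hx
    rw [h5, Subgroup.mem_bot] at hx'
    exact Subgroup.mem_bot.mpr (congrArg Subtype.val hx')

end Cfsg.Agent.S5751
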