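import Cfsg.Statements.S5754
-- import your own Cfsg.Agent.* helpers here

set_option autoImplicit false
open Cfsg

namespace Cfsg.Agent.S5754

section
variable {F V : Type*} [Field F] [AddCommGroup V] [Module F V]

theorem polar_sub (Q : QuadraticForm F V) (a b : V) : Q (a - b) = Q a + Q b - QuadraticMap.polar Q a b := by
  rw [sub_eq_add_neg, QuadraticMap.map_add (⇑Q), QuadraticMap.map_neg, QuadraticMap.polar_neg_right]
  ring

theorem polar_self_two (Q : QuadraticForm F V) (a : V) : QuadraticMap.polar Q a a = 2 * Q a := by
  rw [QuadraticMap.polar_self]; simp [smul_eq_mul]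

/-- reflection along a vector of non-zero value -/
def reflect (Q : QuadraticForm F V) (d : V) (hd : Q d ≠ 0) : Q.IsometryEquiv Q where
  toFun x := x - (QuadraticMap.polar Q x d / Q d) • d
  map_add' x y := by rw [QuadraticMap.polar_add_left, add_div, add_smul]; abel
  map_smul' c x := by
    rw [QuadraticMap.polar_smul_left, smul_eq_mul, mul_div_assoc, mul_smul, RingHom.id_apply, smul_sub]
  invFun x := x - (QuadraticMap.polar Q x d / Q d) • d
  left_inv x := by
    simp only [QuadraticMap.polar_sub_left, QuadraticMap.polar_smul_left, smul_eq_mul, polar_self_two]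
    rw [sub_sub, ← add_smul]
    have : QuadraticMap.polar Q x d / Q d +
        (QuadraticMap.polar Q x d - QuadraticMap.polar Q x d / Q d * (2 * Q d)) / Q d = 0 := by
      field_simp; ring
    rw [this, zero_smul, sub_zero]
  right_inv x := by
    simp only [QuadraticMap.polar_sub_left, QuadraticMap.polar_smul_left, smul_eq_mul, polar_self_two]
    rw [sub_sub, ← add_smul]
    have : QuadraticMap.polar Q x d / Q d +
        (QuadraticMap.polar Q x d - QuadraticMap.polar Q x d / Q d * (2 * Q d)) / Q d = 0 := by
      field_simp; ring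
    rw [this, zero_smul, sub_zero]
  map_app' x := by
    show Q (x - (QuadraticMap.polar Q x d / Q d) • d) = Q x
    rw [polar_sub, QuadraticMap.map_smul, QuadraticMap.polar_smul_right, smul_eq_mul, smul_eq_mul]
    field_simp; ring

theorem extend_partial (Q : QuadraticForm F V) (hQ : Q.Anisotropic) {ι : Type*} [DecidableEq ι] (w w' : ι → V)
    (hn : ∀ i, Q (w i) = Q (w' i))
    (hp : ∀ i j, QuadraticMap.polar Q (w i) (w j) = QuadraticMap.polar Q (w' i) (w' j)) (s : Finset ι) :
    ∃ φ : Q.IsometryEquiv Q, ∀ i ∈ s, φ (w i) = w' i := by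
  induction s using Finset.induction with
  | empty => exact ⟨QuadraticMap.IsometryEquiv.refl Q, fun i hi => absurd hi (by simp)⟩
  | insert a s ha ih =>
    obtain ⟨φ, hφ⟩ := ih
    by_cases h : φ (w a) = w' a
    · exact ⟨φ, fun i hi => by
        rcases Finset.mem_insert.mp hi with rfl | hi
        · exact h
        · exact hφ i hi⟩
    set x := φ (w a)
    set d := x - w' a
    have hd : Q d ≠ 0 := fun h0 => h (sub_eq_zero.mp (hQ d h0))
    have hx : Q x = Q (w' a) := (φ.map_app (w a)).trans (hn a)
    refine ⟨φ.trans (reflect Q d hd), fun i hi => ?_⟩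
    show φ (w i) - (QuadraticMap.polar Q (φ (w i)) d / Q d) • d = w' i
    rcases Finset.mem_insert.mp hi with rfl | hi
    · have h1 : QuadraticMap.polar Q x d / Q d = 1 := by
        rw [div_eq_one_iff_eq hd]
        show QuadraticMap.polar Q x (x - w' i) = Q (x - w' i)
        rw [QuadraticMap.polar_sub_right, polar_self_two, polar_sub, hx]; ring
      rw [h1, one_smul]; exact sub_sub_cancel _ _
    · have h1 : QuadraticMap.polar Q (φ (w i)) d = 0 := by
        show QuadraticMap.polar Q (φ (w i)) (φ (w a) - w' a) = 0
        have h2 : QuadraticMap.polar Q (φ (w i)) (φ (w a)) = QuadraticMap.polar Q (w i) (w a) := by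
          simp only [QuadraticMap.polar]
          rw [show φ (w i) + φ (w a) = φ (w i + w a) from (map_add φ.toLinearEquiv _ _).symm,
            φ.map_app, φ.map_app, φ.map_app]
        rw [QuadraticMap.polar_sub_right, h2, hφ i hi, hp, sub_self]
      rw [h1, zero_div, zero_smul, sub_zero, hφ i hi]

end

/-- Let V be a finite-dimensional vector space over a finite field F carrying an anisotropic quadratic form Q (Q(v) = 0 only for v = 0). Then the group of all maps v ↦ φ(v) + c, with φ an isometry of Q and c ∈ V, acts on V as a binary permutation group: given n ≥ 2 and two n-tuples u, u' of vectors such that every pair of corresponding entries of u is carried to that of u' by such a map, one such map carries u to u'. -/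
theorem result {F V : Type*} [Field F] [Finite F] [AddCommGroup V] [Module F V] [Module.Finite F V]
    (Q : QuadraticForm F V) (hQ : Q.Anisotropic) (n : ℕ) (hn : 2 ≤ n) (u u' : Fin n → V)
    (h2 : ∀ i j : Fin n, i ≠ j → ∃ (φ : Q.IsometryEquiv Q) (c : V), φ (u i) + c = u' i ∧ φ (u j) + c = u' j) :
    ∃ (φ : Q.IsometryEquiv Q) (c : V), ∀ i, φ (u i) + c = u' i := by
  classical
  let i0 : Fin n := ⟨0, by omega⟩
  have hq : ∀ i j : Fin n, Q (u i - u j) = Q (u' i - u' j) := by
    intro i j
    by_cases hij : i = j
    · subst hij; simp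
    obtain ⟨φ, c, hi, hj⟩ := h2 i j hij
    rw [← hi, ← hj, add_sub_add_right_eq_sub]
    exact ((φ.map_app (u i - u j)).symm.trans (congrArg Q (map_sub φ.toLinearEquiv _ _)))
  have hp : ∀ i j, QuadraticMap.polar Q (u i - u i0) (u j - u i0)
      = QuadraticMap.polar Q (u' i - u' i0) (u' j - u' i0) := by
    intro i j
    have e1 := polar_sub Q (u i - u i0) (u j - u i0)
    have e2 := polar_sub Q (u' i - u' i0) (u' j - u' i0)
    rw [sub_sub_sub_cancel_right, hq i i0, hq j i0, hq i j] at e1
    rw [sub_sub_sub_cancel_right] at e2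
    linear_combination e1 - e2
  obtain ⟨φ, hφ⟩ := extend_partial Q hQ (fun i => u i - u i0) (fun i => u' i - u' i0) (fun i => hq i i0) hp Finset.univ
  refine ⟨φ, u' i0 - φ (u i0), fun i => ?_⟩
  have h := hφ i (Finset.mem_univ i)
  have h' : φ (u i) - φ (u i0) = u' i - u' i0 := (map_sub φ.toLinearEquiv _ _).symm.trans h
  linear_combination (norm := abel) h'

end Cfsg.Agent.S5754
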