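import Cfsg.Statements.S5763
import Mathlib

set_option autoImplicit false
open Cfsg

namespace Cfsg.Agent.S5763

open Equiv

/-- Preservation of the blocks of size two and four. -/
def Keeps (f : Fin 8 → Fin 8) : Prop :=
  ∀ a b : Fin 8, ((a : ℕ) / 2 = (b : ℕ) / 2 ↔ (f a : ℕ) / 2 = (f b : ℕ) / 2) ∧
    ((a : ℕ) / 4 = (b : ℕ) / 4 ↔ (f a : ℕ) / 4 = (f b : ℕ) / 4)

instance instDecidablePredKeeps : DecidablePred Keeps := fun f => by unfold Keeps; infer_instance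

/-- A standard Sylow 2-subgroup of the symmetric group on 8 letters. -/
def stdSylow : Subgroup (Perm (Fin 8)) where
  carrier := {g | Keeps g}
  one_mem' := fun _ _ => ⟨Iff.rfl, Iff.rfl⟩
  mul_mem' := fun {g h} hg hh a b =>
    ⟨(hh a b).1.trans (hg (h a) (h b)).1, (hh a b).2.trans (hg (h a) (h b)).2⟩
  inv_mem' := fun {g} hg a b => by
    have h := hg (g⁻¹ a) (g⁻¹ b)
    simp only [Perm.inv_def, Equiv.apply_symm_apply] at h
    exact ⟨h.1.symm, h.2.symm⟩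

theorem mem_stdSylow {g : Perm (Fin 8)} : g ∈ stdSylow ↔ Keeps g := Iff.rfl

/-- A coset representative, its inverse, the cosets of its two translates, and a witness. -/
structure Row where
  fwd : ℕ
  bwd : ℕ
  viaS : ℕ
  viaC : ℕ
  wit : ℕ

/-- Decoding a map of eight letters. -/
def dec (k : ℕ) (i : Fin 8) : Fin 8 := ⟨k / 8 ^ (i : ℕ) % 8, Nat.mod_lt _ (by norm_num)⟩

/-- The table. -/
def rows : List Row := [
  ⟨16434824, 16434824, 0, 1, 14599816⟩,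
  ⟨2054353, 14038087, 2, 3, 6852524⟩,
  ⟨4151504, 14038136, 1, 4, 6823845⟩,
  ⟨2353946, 11641406, 3, 5, 14599816⟩,
  ⟨4451097, 11641798, 6, 7, 14599816⟩,
  ⟨4488547, 9245173, 8, 0, 6852524⟩,
  ⟨4713240, 11641840, 4, 9, 14599816⟩,
  ⟨6585698, 9248309, 10, 11, 5017068⟩,
  ⟨4259171, 9245166, 5, 12, 6823845⟩,
  ⟨6847841, 9248645, 13, 14, 16434376⟩,
  ⟨6356322, 9248302, 7, 15, 4988389⟩,
  ⟨8949675, 6877612, 11, 16, 14599816⟩,
  ⟨6623148, 6852468, 17, 18, 14599816⟩,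
  ⟨6880608, 9248680, 9, 19, 16434376⟩,
  ⟨9211818, 6880300, 14, 20, 14599816⟩,
  ⟨8720299, 6877556, 21, 22, 14599816⟩,
  ⟨11342324, 4689251, 23, 24, 6823845⟩,
  ⟨6365100, 6852454, 12, 25, 14599816⟩,
  ⟨9015797, 4488099, 26, 27, 5017068⟩,
  ⟨9244585, 6880580, 28, 29, 14599816⟩,
  ⟨11604467, 4710755, 30, 31, 16406152⟩,
  ⟨8462251, 6877542, 15, 32, 14599816⟩,
  ⟨11112948, 4688803, 33, 34, 4988389⟩,
  ⟨11338740, 4689244, 16, 35, 6852524⟩,
  ⟨13738557, 3959578, 24, 36, 16434376⟩,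
  ⟨8757749, 4487987, 37, 38, 16434376⟩,
  ⟨9012213, 4488092, 18, 39, 4988389⟩,
  ⟨11412030, 2350362, 27, 40, 14599816⟩,
  ⟨9248680, 6880608, 19, 41, 14599816⟩,
  ⟨11637234, 4712995, 42, 43, 16406152⟩,
  ⟨11600883, 4710748, 20, 44, 16406152⟩,
  ⟨14000700, 4131610, 31, 45, 16434376⟩,
  ⟨10854900, 4688691, 46, 47, 16434376⟩,
  ⟨11109364, 4688796, 22, 48, 5017068⟩,
  ⟨13509181, 3955994, 34, 49, 16434817⟩,
  ⟨13734973, 3959522, 50, 51, 11789960⟩,
  ⟨16135238, 14899409, 52, 53, 5017068⟩,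
  ⟨8496117, 4487966, 25, 54, 16434376⟩,
  ⟨11153982, 2349466, 38, 55, 14599816⟩,
  ⟨11408446, 2350306, 56, 57, 14599816⟩,
  ⟨13808711, 2025681, 58, 59, 6823845⟩,
  ⟨11641329, 4713219, 60, 61, 16406152⟩,
  ⟨11633650, 4712988, 29, 62, 16406152⟩,
  ⟨14033467, 4149530, 43, 21, 16434817⟩,
  ⟨13997116, 4131554, 63, 64, 9926280⟩,
  ⟨16397381, 16275665, 65, 66, 14599816⟩,
  ⟨10593268, 4688670, 32, 67, 16434376⟩,
  ⟨13251133, 3955098, 47, 68, 16434817⟩,
  ⟨13505597, 3955938, 69, 70, 11788826⟩,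
  ⟨15905862, 14870737, 71, 72, 4988389⟩,
  ⟨13730941, 3959508, 35, 73, 11789960⟩,
  ⟨16131654, 14898961, 74, 75, 6852524⟩,
  ⟨16135182, 14899402, 36, 76, 4988389⟩,
  ⟨1754767, 1754767, 77, 2, 16406152⟩,
  ⟨10892350, 2349298, 78, 79, 14599816⟩,
  ⟨13550663, 2018513, 80, 81, 16406152⟩,
  ⟨11404414, 2350292, 39, 82, 14599816⟩,
  ⟨13805127, 2025233, 83, 84, 4988389⟩,
  ⟨13808655, 2025674, 40, 85, 6852524⟩,
  ⟨16205448, 16205448, 59, 86, 16434376⟩,
  ⟨11641840, 4713240, 41, 8, 16406152⟩,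
  ⟨14037562, 4151322, 61, 17, 16434817⟩,
  ⟨14029883, 4149474, 87, 88, 2177406⟩,
  ⟨13993084, 4131540, 44, 89, 9926280⟩,
  ⟨16393797, 16275217, 90, 91, 14599816⟩,
  ⟨16397325, 16275658, 45, 92, 14599816⟩,
  ⟨2016910, 12764815, 93, 94, 16406152⟩,
  ⟨12989501, 3954930, 95, 96, 11788826⟩,
  ⟨15647814, 14863569, 97, 13, 16406152⟩,
  ⟨13501565, 3955924, 48, 98, 11788371⟩,
  ⟨15902278, 14870289, 99, 100, 6823845⟩,
  ⟨15905806, 14870730, 49, 101, 5017068⟩,
  ⟨1525391, 1525391, 82, 102, 16434376⟩,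
  ⟨16127622, 14898849, 103, 104, 16434376⟩,
  ⟨16131598, 14898954, 51, 105, 6823845⟩,
  ⟨1751183, 1751183, 106, 23, 14570689⟩,
  ⟨1754711, 1754711, 107, 26, 16406152⟩,
  ⟨3851911, 1754809, 53, 108, 16406152⟩,
  ⟨10630270, 2349270, 54, 77, 14599816⟩,
  ⟨13289031, 2017169, 109, 110, 16406152⟩,
  ⟨13550607, 2018506, 55, 111, 16406152⟩,
  ⟨15947400, 16148104, 81, 28, 16434376⟩,
  ⟨13801095, 2025121, 72, 112, 16434376⟩,
  ⟨13805071, 2025226, 57, 113, 5017068⟩,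
  ⟨16201864, 16201864, 84, 114, 16434817⟩,
  ⟨16205392, 16205392, 115, 116, 14571144⟩,
  ⟨1824977, 12203079, 102, 60, 5017068⟩,
  ⟨14025851, 4149460, 62, 117, 342391⟩,
  ⟨16426564, 16418577, 118, 119, 14599816⟩,
  ⟨16389765, 16275105, 120, 121, 14599816⟩,
  ⟨16393741, 16275210, 64, 122, 14599816⟩,
  ⟨2013326, 12761231, 123, 124, 14570689⟩,
  ⟨2016854, 12764759, 125, 126, 16406152⟩,
  ⟨4114054, 12764857, 66, 127, 16406152⟩,
  ⟨2316503, 1455230, 94, 6, 16434817⟩,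
  ⟨12727421, 3954902, 67, 93, 11788371⟩,
  ⟨15386182, 14862225, 128, 129, 16406152⟩,
  ⟨15647758, 14863562, 68, 130, 16406152⟩,
  ⟨15898246, 14870177, 131, 132, 16434376⟩,
  ⟨15902222, 14870282, 70, 133, 6852524⟩,
  ⟨1521807, 1521807, 134, 135, 11789505⟩,
  ⟨1525335, 1525335, 136, 137, 342391⟩,
  ⟨3922128, 12203128, 86, 138, 4988389⟩,
  ⟨16123534, 14898828, 73, 139, 16434376⟩,
  ⟨1747151, 1750287, 140, 30, 14570689⟩,
  ⟨1751127, 1751127, 141, 33, 11789505⟩,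
  ⟨3848327, 1751225, 75, 142, 14570689⟩,
  ⟨3851799, 1754746, 76, 143, 16406152⟩,
  ⟨6248648, 14038472, 108, 144, 16434817⟩,
  ⟨13288975, 2017162, 79, 145, 16406152⟩,
  ⟨15685768, 16137352, 110, 146, 16434817⟩,
  ⟨15947344, 16148048, 147, 148, 14571144⟩,
  ⟨16197832, 16200968, 112, 149, 16434817⟩,
  ⟨16201808, 16201808, 150, 151, 342391⟩,
  ⟨1821393, 12174407, 135, 152, 4988389⟩,
  ⟨16205329, 16205378, 85, 153, 14571144⟩,
  ⟨1824921, 12202631, 137, 154, 6852524⟩,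
  ⟨16422532, 16418465, 155, 156, 14599816⟩,
  ⟨16426508, 16418570, 88, 157, 14599816⟩,
  ⟨2046093, 13908111, 158, 159, 11789505⟩,
  ⟨16385677, 16275084, 89, 160, 14599816⟩,
  ⟨2009294, 12760335, 161, 162, 14570689⟩,
  ⟨2013270, 12761175, 163, 164, 9925825⟩,
  ⟨4110470, 12761273, 91, 165, 14570689⟩,
  ⟨2312919, 1426558, 124, 50, 16434817⟩,
  ⟨4113942, 12764794, 92, 166, 16406152⟩,
  ⟨2316447, 1454782, 126, 56, 16434817⟩,
  ⟨4413647, 1455566, 167, 168, 9925146⟩,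
  ⟨15386126, 14862218, 96, 169, 16406152⟩,
  ⟨1005711, 1457295, 170, 171, 9924691⟩,
  ⟨1267287, 1467991, 172, 173, 371511⟩,
  ⟨15894158, 14870156, 98, 174, 16434376⟩,
  ⟨1517775, 1520911, 175, 176, 11789505⟩,
  ⟨1521751, 1521751, 177, 178, 14570689⟩,
  ⟨3618951, 1521849, 100, 179, 11789505⟩,
  ⟨3918544, 12174456, 114, 180, 5017068⟩,
  ⟨3622423, 1525370, 101, 181, 2177406⟩,
  ⟨3922072, 12202680, 116, 182, 6823845⟩,
  ⟨6056729, 13738949, 183, 10, 16406152⟩,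
  ⟨1743063, 1750119, 174, 42, 9925825⟩,
  ⟨3844295, 1750329, 104, 184, 14570689⟩,
  ⟨3848215, 1751162, 105, 185, 11789505⟩,
  ⟨6245064, 14009800, 142, 186, 16434817⟩,
  ⟨6248536, 14037968, 187, 188, 2206526⟩,
  ⟨6548241, 11644486, 168, 189, 14599816⟩,
  ⟨15685712, 16137296, 190, 191, 2177406⟩,
  ⟨1305297, 11658311, 171, 192, 14599816⟩,
  ⟨15947281, 16148034, 111, 155, 14571144⟩,
  ⟨1566873, 11743879, 173, 193, 14599816⟩,
  ⟨1817361, 12167239, 176, 194, 16406152⟩,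
  ⟨16201745, 16201794, 113, 195, 2177406⟩,
  ⟨1821337, 12173959, 178, 196, 6823845⟩,
  ⟨3955994, 13509181, 192, 52, 16434376⟩,
  ⟨1824858, 12202519, 197, 198, 16434376⟩,
  ⟨3959522, 13734973, 193, 58, 16405704⟩,
  ⟨16418444, 16418444, 117, 199, 14599816⟩,
  ⟨2042061, 13907215, 200, 201, 11789505⟩,
  ⟨2046037, 13908055, 202, 203, 9925825⟩,
  ⟨4143237, 13908153, 119, 204, 11789505⟩,
  ⟨2345686, 10601598, 159, 205, 16434817⟩,
  ⟨2005206, 12760167, 206, 207, 11789505⟩,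
  ⟨4106438, 12760377, 121, 208, 14570689⟩,
  ⟨2308887, 1419390, 162, 63, 16406152⟩,
  ⟨4110358, 12761210, 122, 209, 9925825⟩,
  ⟨2312863, 1426110, 164, 69, 16434817⟩,
  ⟨4410063, 1426894, 210, 211, 11788826⟩,
  ⟨4413535, 1455062, 212, 213, 9925146⟩,
  ⟨4675783, 1455601, 127, 214, 9924691⟩,
  ⟨6810384, 11644528, 144, 170, 14599816⟩,
  ⟨1005655, 1457239, 215, 216, 9924691⟩,
  ⟨3102855, 1457337, 129, 217, 9925146⟩,
  ⟨3402448, 11658360, 146, 218, 14599816⟩,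
  ⟨3364375, 1468026, 130, 118, 2206526⟩,
  ⟨3664024, 11743928, 148, 219, 14599816⟩,
  ⟨1513687, 1520743, 139, 183, 9925825⟩,
  ⟨3614919, 1520953, 132, 220, 11789505⟩,
  ⟨3914512, 12167288, 149, 215, 16406152⟩,
  ⟨3618839, 1521786, 133, 221, 14570689⟩,
  ⟨3918488, 12174008, 151, 222, 6852524⟩,
  ⟨6015688, 12174792, 179, 223, 16434817⟩,
  ⟨6053145, 13509573, 224, 74, 11788826⟩,
  ⟨6019160, 12202960, 225, 226, 371511⟩,
  ⟨6056673, 13735365, 227, 83, 11789505⟩,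
  ⟨6089496, 13738984, 138, 172, 16406152⟩,
  ⟨6241032, 14002632, 184, 228, 16406152⟩,
  ⟨6244952, 14009296, 229, 230, 2177406⟩,
  ⟨6544657, 11415110, 211, 231, 11789960⟩,
  ⟨6248473, 14037954, 143, 232, 371511⟩,
  ⟨6548129, 11640454, 213, 233, 14599816⟩,
  ⟨8682842, 9269813, 194, 234, 16434376⟩,
  ⟨15685649, 16137282, 145, 120, 342391⟩,
  ⟨1305241, 11657863, 216, 235, 14599816⟩,
  ⟨3439898, 9380413, 152, 236, 16434376⟩,
  ⟨3701474, 10064957, 154, 237, 16405704⟩,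
  ⟨3951962, 13451837, 189, 65, 16434376⟩,
  ⟨1821274, 12173847, 238, 206, 16434376⟩,
  ⟨3955938, 13505597, 235, 71, 11789505⟩,
  ⟨3921946, 12202554, 153, 239, 16434376⟩,
  ⟨3959459, 13734077, 199, 80, 16405704⟩,
  ⟨2037973, 13907047, 198, 240, 16405704⟩,
  ⟨4139205, 13907257, 156, 241, 11789505⟩,
  ⟨2341654, 10594430, 201, 190, 16406152⟩,
  ⟨4143125, 13908090, 157, 242, 9925825⟩,
  ⟨2345630, 10601150, 203, 243, 16434817⟩,
  ⟨4442830, 10601934, 244, 229, 9925146⟩,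
  ⟨4480287, 926709, 245, 103, 371511⟩,
  ⟨4098262, 12760188, 160, 97, 11789505⟩,
  ⟨2304799, 1418046, 207, 87, 16406152⟩,
  ⟨4406031, 1419726, 246, 247, 16406152⟩,
  ⟨4409951, 1426390, 223, 248, 11788826⟩,
  ⟨4672199, 1426929, 165, 249, 11788371⟩,
  ⟨6806800, 11415152, 186, 250, 11789960⟩,
  ⟨4675615, 1455090, 166, 251, 9924691⟩,
  ⟨6810272, 11640496, 188, 134, 14599816⟩,
  ⟨7072520, 11644808, 214, 167, 14599816⟩,
  ⟨3102743, 1457274, 169, 90, 9925146⟩,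
  ⟨3402392, 11657912, 191, 252, 14599816⟩,
  ⟨5499592, 11658696, 217, 210, 14599816⟩,
  ⟨5537049, 9380805, 253, 254, 11788826⟩,
  ⟨5798625, 10065349, 255, 256, 9925825⟩,
  ⟨6011656, 12167624, 220, 212, 16406152⟩,
  ⟨6015576, 12174288, 257, 258, 342391⟩,
  ⟨6053089, 13505989, 259, 99, 14570689⟩,
  ⟨8150289, 13512261, 209, 260, 11788371⟩,
  ⟨6085912, 13509608, 180, 261, 11788371⟩,
  ⟨6019097, 12202946, 181, 262, 2206526⟩,
  ⟨8153761, 13737605, 263, 264, 11789505⟩,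
  ⟨6089440, 13735400, 182, 136, 11789505⟩,
  ⟨6540625, 11357766, 247, 265, 9926280⟩,
  ⟨6244889, 14009282, 185, 266, 342391⟩,
  ⟨6544545, 11411078, 248, 267, 11788371⟩,
  ⟨8679258, 7434805, 260, 161, 16434376⟩,
  ⟨6548066, 11640342, 268, 269, 14599816⟩,
  ⟨8682730, 9237557, 264, 270, 9925825⟩,
  ⟨11046819, 7049644, 234, 246, 14599816⟩,
  ⟨3439842, 9376829, 196, 271, 11789505⟩,
  ⟨5803875, 7934444, 236, 272, 16434817⟩,
  ⟨6065451, 13410796, 237, 115, 16434817⟩,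
  ⟨3918362, 12173882, 195, 273, 16434376⟩,
  ⟨6056547, 13734357, 274, 109, 9925825⟩,
  ⟨2337566, 10593086, 240, 147, 16406152⟩,
  ⟨4438798, 10594766, 272, 187, 16406152⟩,
  ⟨4442718, 10601430, 275, 257, 9925146⟩,
  ⟨4480231, 923125, 276, 131, 2206526⟩,
  ⟨4704966, 10601969, 204, 46, 9924691⟩,
  ⟨4250911, 926702, 205, 277, 2206526⟩,
  ⟨4668167, 1419761, 208, 278, 16406152⟩,
  ⟨6802768, 11357808, 228, 268, 9926280⟩,
  ⟨6806688, 11411120, 230, 279, 11788826⟩,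
  ⟨7068936, 11415432, 249, 95, 16434376⟩,
  ⟨8941401, 7435141, 266, 123, 11788826⟩,
  ⟨7072352, 11640720, 265, 175, 14599816⟩,
  ⟨5536993, 9377221, 280, 281, 9925825⟩,
  ⟨5569816, 9380840, 218, 282, 11788371⟩,
  ⟨7901026, 7937580, 254, 244, 16434817⟩,
  ⟨5831392, 10065384, 219, 283, 9925825⟩,
  ⟨8162602, 13413932, 256, 150, 16434817⟩,
  ⟨6015513, 12174274, 221, 284, 2177406⟩,
  ⟨8150177, 13508229, 285, 286, 14570689⟩,
  ⟨6085856, 13506024, 222, 287, 14570689⟩,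
  ⟨8449882, 7434798, 231, 288, 16434376⟩,
  ⟨6385505, 7413574, 277, 289, 371511⟩,
  ⟨8153698, 13737493, 290, 291, 9925825⟩,
  ⟨8186528, 13737640, 226, 177, 11789505⟩,
  ⟨8453354, 9237550, 233, 276, 9925825⟩,
  ⟨8675226, 6976053, 251, 140, 14599816⟩,
  ⟨6544482, 11410966, 250, 292, 11788371⟩,
  ⟨8679146, 7402549, 286, 280, 11789505⟩,
  ⟨6810146, 11640370, 232, 106, 14599816⟩,
  ⟨8682667, 9236661, 291, 293, 9925825⟩,
  ⟨11046707, 6791596, 270, 294, 16434817⟩,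
  ⟨5803819, 7905772, 271, 295, 16434817⟩,
  ⟨8196524, 13143907, 241, 37, 16406152⟩,
  ⟨6052963, 13504981, 288, 128, 9925825⟩,
  ⟨6089251, 13734378, 239, 107, 9925825⟩,
  ⟨4704798, 10601458, 242, 238, 9924691⟩,
  ⟨4250855, 923118, 243, 296, 371511⟩,
  ⟨6647648, 7413616, 261, 297, 2206526⟩,
  ⟨7064904, 11358088, 278, 78, 16434376⟩,
  ⟨8941289, 7402885, 284, 163, 9925825⟩,
  ⟨5569760, 9377256, 252, 298, 9925825⟩,
  ⟨7900970, 7908908, 281, 275, 16434817⟩,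
  ⟨7933793, 7937860, 299, 300, 342391⟩,
  ⟨8195369, 13414212, 295, 225, 2206526⟩,
  ⟨8150114, 13508117, 279, 301, 9925825⟩,
  ⟨8182944, 13508264, 258, 285, 14570689⟩,
  ⟨8449770, 7402542, 267, 259, 11789505⟩,
  ⟨6385449, 7384902, 296, 302, 342391⟩,
  ⟨10842531, 9146739, 273, 125, 9925825⟩,
  ⟨8778154, 8976947, 303, 202, 11789505⟩,
  ⟨8186402, 13737514, 262, 141, 9925825⟩,
  ⟨8453291, 9236654, 269, 245, 9925825⟩,
  ⟨8679083, 7401653, 301, 253, 11789505⟩,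
  ⟨11046644, 6784428, 293, 299, 16434817⟩,
  ⟨13439356, 4001123, 298, 304, 2206526⟩,
  ⟨8196468, 12914531, 283, 197, 371511⟩,
  ⟨6647592, 7384944, 287, 305, 2177406⟩,
  ⟨9040297, 8977283, 305, 255, 9925825⟩,
  ⟨7933737, 7909188, 294, 306, 371511⟩,
  ⟨7937888, 7937888, 282, 307, 2177406⟩,
  ⟨10326442, 13171235, 308, 158, 9925146⟩,
  ⟨8449707, 7401646, 292, 224, 11789505⟩,
  ⟨8778098, 8747571, 309, 263, 14570689⟩,
  ⟨8516522, 8976926, 289, 310, 11789505⟩,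
  ⟨15836037, 15231769, 307, 274, 16434376⟩,
  ⟨9040241, 8747907, 297, 227, 9925825⟩,
  ⟨10326386, 12941859, 311, 290, 9925146⟩,
  ⟨10330537, 13171459, 304, 200, 16434376⟩,
  ⟨10322858, 13171228, 300, 312, 9924691⟩,
  ⟨8516466, 8747550, 302, 313, 14570689⟩,
  ⟨10880499, 4706548, 312, 311, 14599368⟩,
  ⟨10322802, 12941852, 306, 314, 9924691⟩,
  ⟨10622451, 4706534, 310, 308, 14599368⟩,
  ⟨10880443, 2871540, 314, 309, 14599368⟩,
  ⟨10622395, 2871526, 313, 303, 14599368⟩]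

/-- The row with a given number. -/
def row (i : ℕ) : Row := rows.getD i ⟨0, 0, 0, 0, 0⟩

/-- The transposition of the first two letters. -/
def genS : Fin 8 → Fin 8 := ![1, 0, 2, 3, 4, 5, 6, 7]

/-- The long cycle. -/
def genC : Fin 8 → Fin 8 := ![1, 2, 3, 4, 5, 6, 7, 0]

/-- The condition on one row. -/
def Valid (r : Row) : Prop :=
  (∀ a, dec r.bwd (dec r.fwd a) = a) ∧ r.viaS < 315 ∧ r.viaC < 315 ∧
    Keeps (fun a => dec (row r.viaS).bwd (genS (dec r.fwd a))) ∧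
    Keeps (fun a => dec (row r.viaC).bwd (genC (dec r.fwd a))) ∧
    Keeps (dec r.wit) ∧ (∃ a, dec r.wit a ≠ a) ∧
    Keeps (fun a => dec r.bwd (dec r.wit (dec r.fwd a)))

instance instDecidablePredValid : DecidablePred Valid := fun r => by unfold Valid; infer_instance

set_option maxRecDepth 100000 in
theorem rows_valid : ∀ i < 315, Valid (row i) := by decide +kernel

theorem genS_eq : ∀ a, (Equiv.swap (0 : Fin 8) (finRotate 8 0)) a = genS a := by decide +kernel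

theorem genC_eq : ∀ a, finRotate 8 a = genC a := by decide +kernel

theorem exists_rep (y : Perm (Fin 8)) :
    ∃ i < 315, ∃ h ∈ stdSylow, ∀ a, y a = dec (row i).fwd (h a) := by
  have hy : y ∈ Subgroup.closure
      ({finRotate 8, Equiv.swap (0 : Fin 8) (finRotate 8 0)} : Set (Perm (Fin 8))) := by
    rw [Perm.closure_cycle_adjacent_swap isCycle_finRotate support_finRotate]
    exact Subgroup.mem_top y
  suffices ∀ y ∈ Subgroup.closure
      ({finRotate 8, Equiv.swap (0 : Fin 8) (finRotate 8 0)} : Set (Perm (Fin 8))),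
      ∀ z : Perm (Fin 8), (∃ i < 315, ∃ h ∈ stdSylow, ∀ a, z a = dec (row i).fwd (h a)) →
        ∃ i < 315, ∃ h ∈ stdSylow, ∀ a, (y * z) a = dec (row i).fwd (h a) by
    simpa using this y hy 1 ⟨0, by norm_num, 1, stdSylow.one_mem, by decide +kernel⟩
  clear hy y
  intro y hy
  rw [← SetLike.mem_coe] at hy
  have hstep : ∀ (g : Perm (Fin 8)) (G : Fin 8 → Fin 8) (next : Row → ℕ), (∀ a, g a = G a) →
      (∀ r, Valid r → next r < 315 ∧ Keeps (fun a => dec (row (next r)).bwd (G (dec r.fwd a)))) →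
      ∀ z : Perm (Fin 8), (∃ i < 315, ∃ h ∈ stdSylow, ∀ a, z a = dec (row i).fwd (h a)) →
        ∃ i < 315, ∃ h ∈ stdSylow, ∀ a, (g * z) a = dec (row i).fwd (h a) := by
    rintro g G next hG hnext z ⟨i, hi, h, hh, hz⟩
    obtain ⟨hj, hk⟩ := hnext _ (rows_valid i hi)
    obtain ⟨hinv, -⟩ := rows_valid _ hj
    have hbij : Function.Injective (dec (row (next (row i))).fwd) :=
      Function.LeftInverse.injective hinv
    have hr : ∀ b, dec (row (next (row i))).fwd (dec (row (next (row i))).bwd b) = b := by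
      intro b
      obtain ⟨a, rfl⟩ := (Finite.injective_iff_surjective.1 hbij) b
      rw [hinv]
    let k : Perm (Fin 8) :=
      ⟨dec (row (next (row i))).bwd, dec (row (next (row i))).fwd, hr, hinv⟩
    refine ⟨next (row i), hj, k * (g * z), ?_, fun a => (hr _).symm⟩
    intro a b
    have e : ∀ a, (k * (g * z)) a = dec (row (next (row i))).bwd (G (dec (row i).fwd (h a))) := by
      intro a
      show dec _ (g (z a)) = _
      rw [hG, hz]
    rw [e, e]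
    exact ⟨(hh a b).1.trans (hk (h a) (h b)).1, (hh a b).2.trans (hk (h a) (h b)).2⟩
  induction hy using Subgroup.closure_induction_left with
  | one => intro z hz; simpa using hz
  | mul_left g hg w _ ih =>
    intro z hz
    rw [mul_assoc]
    rcases hg with rfl | rfl
    · exact hstep _ genC Row.viaC genC_eq (fun r hr => ⟨hr.2.2.1, hr.2.2.2.2.1⟩) _ (ih z hz)
    · exact hstep _ genS Row.viaS genS_eq (fun r hr => ⟨hr.2.1, hr.2.2.2.1⟩) _ (ih z hz)
  | inv_mul_cancel g hg w _ ih =>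
    intro z hz
    have hpow : g⁻¹ = g ^ (orderOf g - 1) := by
      refine inv_eq_of_mul_eq_one_right ?_
      rw [← pow_succ', Nat.sub_add_cancel (orderOf_pos g), pow_orderOf_eq_one]
    rw [hpow, mul_assoc]
    have hit : ∀ k : ℕ, ∃ i < 315, ∃ h ∈ stdSylow, ∀ a,
        (g ^ k * (w * z)) a = dec (row i).fwd (h a) := by
      intro k
      induction k with
      | zero => rw [pow_zero, one_mul]; exact ih z hz
      | succ k ihk =>
        rw [pow_succ', mul_assoc]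
        rcases hg with rfl | rfl
        · exact hstep _ genC Row.viaC genC_eq (fun r hr => ⟨hr.2.2.1, hr.2.2.2.2.1⟩) _ ihk
        · exact hstep _ genS Row.viaS genS_eq (fun r hr => ⟨hr.2.1, hr.2.2.2.1⟩) _ ihk
    exact hit _

theorem card_stdSylow : Nat.card stdSylow = 128 := by
  have hup : Nat.card stdSylow ≤ 128 := by
    let code : stdSylow → Fin 8 × Fin 2 × Fin 4 × Fin 2 := fun g =>
      ((g : Perm (Fin 8)) 0, ⟨((g : Perm (Fin 8)) 2 : ℕ) % 2, Nat.mod_lt _ (by norm_num)⟩,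
        ⟨((g : Perm (Fin 8)) 4 : ℕ) % 4, Nat.mod_lt _ (by norm_num)⟩,
        ⟨((g : Perm (Fin 8)) 6 : ℕ) % 2, Nat.mod_lt _ (by norm_num)⟩)
    have hcode : Function.Injective code := by
      rintro ⟨g, hg⟩ ⟨h, hh⟩ e
      simp only [code, Prod.mk.injEq, Fin.mk.injEq] at e
      obtain ⟨e0, e2, e4, e6⟩ := e
      rw [Fin.ext_iff] at e0
      have hne : ∀ (f : Perm (Fin 8)) (a b : Fin 8), a ≠ b → (f a : ℕ) ≠ (f b : ℕ) :=
        fun f a b hab h => hab (f.injective (Fin.ext h))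
      have lt : ∀ (f : Perm (Fin 8)) (a : Fin 8), (f a : ℕ) < 8 := fun f a => (f a).isLt
      -- the partner in a pair
      have det : ∀ u v u' v' : ℕ, u / 2 = v / 2 → u ≠ v → u' / 2 = v' / 2 → u' ≠ v' → u = u' →
          v = v' := by omega
      -- the other pair of a quad
      have det2 : ∀ u v u' v' : ℕ, u / 4 = v / 4 → ¬ u / 2 = v / 2 → u' / 4 = v' / 4 →
          ¬ u' / 2 = v' / 2 → u = u' → v % 2 = v' % 2 → v = v' := by omega
      -- the other quad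
      have det4 : ∀ u v u' v' : ℕ, u < 8 → v < 8 → u' < 8 → v' < 8 → ¬ u / 4 = v / 4 →
          ¬ u' / 4 = v' / 4 → u = u' → v % 4 = v' % 4 → v = v' := by omega
      have h1 : (g 1 : ℕ) = h 1 := det _ _ _ _ ((hg 0 1).1.1 rfl) (hne g 0 1 (by decide))
        ((hh 0 1).1.1 rfl) (hne h 0 1 (by decide)) e0
      have h2 : (g 2 : ℕ) = h 2 := det2 _ _ _ _ ((hg 0 2).2.1 rfl)
        (fun q => by simpa using (hg 0 2).1.2 q) ((hh 0 2).2.1 rfl)
        (fun q => by simpa using (hh 0 2).1.2 q) e0 e2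
      have h3 : (g 3 : ℕ) = h 3 := det _ _ _ _ ((hg 2 3).1.1 rfl) (hne g 2 3 (by decide))
        ((hh 2 3).1.1 rfl) (hne h 2 3 (by decide)) h2
      have h4 : (g 4 : ℕ) = h 4 := det4 _ _ _ _ (lt g 0) (lt g 4) (lt h 0) (lt h 4)
        (fun q => by simpa using (hg 0 4).2.2 q) (fun q => by simpa using (hh 0 4).2.2 q) e0 e4
      have h5 : (g 5 : ℕ) = h 5 := det _ _ _ _ ((hg 4 5).1.1 rfl) (hne g 4 5 (by decide))
        ((hh 4 5).1.1 rfl) (hne h 4 5 (by decide)) h4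
      have h6 : (g 6 : ℕ) = h 6 := det2 _ _ _ _ ((hg 4 6).2.1 rfl)
        (fun q => by simpa using (hg 4 6).1.2 q) ((hh 4 6).2.1 rfl)
        (fun q => by simpa using (hh 4 6).1.2 q) h4 e6
      have h7 : (g 7 : ℕ) = h 7 := det _ _ _ _ ((hg 6 7).1.1 rfl) (hne g 6 7 (by decide))
        ((hh 6 7).1.1 rfl) (hne h 6 7 (by decide)) h6
      refine Subtype.ext (Equiv.ext fun a => Fin.ext ?_)
      fin_cases a <;> assumption
    refine (Nat.card_le_card_of_injective code hcode).trans ?_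
    simp
  have hidx : stdSylow.index ≤ 315 := by
    classical
    choose F hF h hh hFh using exists_rep
    have key : ∀ y z : Perm (Fin 8), F y = F z →
        (y : Perm (Fin 8) ⧸ stdSylow) = (z : Perm (Fin 8) ⧸ stdSylow) := by
      intro y z e
      rw [QuotientGroup.eq]
      have : y⁻¹ * z = (h y)⁻¹ * h z := by
        refine inv_mul_eq_iff_eq_mul.2 (Equiv.ext fun a => ?_)
        show z a = y ((h y)⁻¹ (h z a))
        rw [hFh z a, hFh y, Perm.inv_def, Equiv.apply_symm_apply, e]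
      rw [this]
      exact mul_mem (inv_mem (hh y)) (hh z)
    rw [Subgroup.index_eq_card]
    refine (Nat.card_le_card_of_injective
      (fun q : Perm (Fin 8) ⧸ stdSylow => (⟨F q.out, hF _⟩ : Fin 315)) ?_).trans (by simp)
    intro q q' e
    have := key _ _ (congrArg Fin.val e)
    rwa [QuotientGroup.out_eq', QuotientGroup.out_eq'] at this
  have h := stdSylow.card_mul_index
  rw [Nat.card_perm, Nat.card_fin, show Nat.factorial 8 = 40320 from rfl] at h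
  have h' := Nat.mul_le_mul_left (Nat.card stdSylow) hidx
  omega

set_option maxRecDepth 100000 in
theorem winj : ∀ i < 315, ∀ u v : Fin 8, dec (row i).wit u = dec (row i).wit v → u = v := by
  decide +kernel

theorem exists_common (y : Perm (Fin 8)) :
    ∃ g ∈ stdSylow, g ≠ 1 ∧ y⁻¹ * g * y ∈ stdSylow := by
  obtain ⟨i, hi, h, hh, hy⟩ := exists_rep y
  obtain ⟨hinv, -, -, -, -, hw, ⟨a, ha⟩, hk⟩ := rows_valid i hi
  have hwinj : Function.Injective (dec (row i).wit) := fun u v e => winj i hi u v e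
  let g : Perm (Fin 8) := Equiv.ofBijective _ hwinj.bijective_of_finite
  let r : Perm (Fin 8) := Equiv.ofBijective _
    (Function.LeftInverse.injective hinv).bijective_of_finite
  have hyr : y = r * h := Equiv.ext fun b => hy b
  refine ⟨g, hw, fun e => ha (Equiv.ext_iff.1 e a), ?_⟩
  have : r⁻¹ * g * r ∈ stdSylow := by
    intro u v
    have e : ∀ u, (r⁻¹ * g * r) u = dec (row i).bwd (dec (row i).wit (dec (row i).fwd u)) := by
      intro u
      apply r.injective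
      rw [Perm.mul_apply, Perm.mul_apply, Perm.inv_def, Equiv.apply_symm_apply]
      obtain ⟨w, hw'⟩ := r.surjective (g (r u))
      show g (r u) = dec (row i).fwd (dec (row i).bwd (g (r u)))
      rw [← hw']
      show dec _ w = dec _ (dec _ (dec _ w))
      rw [hinv]
    rw [e, e]
    exact hk u v
  rw [hyr, show (r * h)⁻¹ * g * (r * h) = h⁻¹ * (r⁻¹ * g * r) * h by group]
  exact mul_mem (mul_mem (inv_mem hh) this) hh

/-- In the symmetric group on 8 letters any two Sylow 2-subgroups have non-trivial intersection: for a Sylow 2-subgroup H and every element x, H ∩ xHx⁻¹ ≠ 1. -/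
theorem result (H : Sylow 2 (Equiv.Perm (Fin 8))) (x : Equiv.Perm (Fin 8)) :
    (H : Subgroup (Equiv.Perm (Fin 8))) ⊓ (H : Subgroup (Equiv.Perm (Fin 8))).map (MulAut.conj x).toMonoidHom ≠ ⊥ := by
  let H₀ : Sylow 2 (Perm (Fin 8)) := Sylow.ofCard stdSylow (by
    rw [card_stdSylow, Nat.card_perm, Nat.card_fin, Nat.factorization_def _ Nat.prime_two]
    decide +kernel)
  obtain ⟨c, hc⟩ := MulAction.exists_smul_eq (Perm (Fin 8)) H₀ H
  obtain ⟨g, hg, hg1, hgy⟩ := exists_common (c⁻¹ * x * c)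
  intro hbot
  have h1 : c * g * c⁻¹ ∈ (H : Subgroup (Perm (Fin 8))) := by
    rw [← hc]; exact ⟨g, hg, rfl⟩
  have h2 : c * g * c⁻¹ ∈ (H : Subgroup (Perm (Fin 8))).map (MulAut.conj x).toMonoidHom := by
    refine ⟨x⁻¹ * (c * g * c⁻¹) * x, ?_, by simp [mul_assoc]⟩
    rw [← hc]
    exact ⟨_, hgy, by simp [mul_assoc]⟩
  have h3 : c * g * c⁻¹ ∈ (⊥ : Subgroup (Perm (Fin 8))) := hbot ▸ ⟨h1, h2⟩
  rw [Subgroup.mem_bot, conj_eq_one_iff] at h3
  exact hg1 h3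

end Cfsg.Agent.S5763
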