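import Cfsg.Statements.S5769
import Cfsg.Agent.E7Order65.Main
import Cfsg.Agent.E7Order65.SmallGroups

set_option autoImplicit false
open Cfsg

namespace Cfsg.Agent.S5769

universe u

/-- A group with an element of order 65 is no subgroup. -/
theorem excl {X : Type u} [Group X] {H : Subgroup ↥(Cfsg.Lie.chevE7.group (ZMod 2))}
    (hX : ∃ x : X, orderOf x = 65) : IsEmpty (↥H ≃* X) := by
  obtain ⟨x, hx⟩ := hX
  refine ⟨fun e => CfsgLib.E7Order65.no_order_65 ((e.symm x : ↥H) : ↥(Cfsg.Lie.chevE7.group (ZMod 2))) ?_⟩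
  rw [Subgroup.orderOf_coe, MulEquiv.orderOf_eq, hx]

/-- The Chevalley group of type E₇ over the field with two elements (generated by its root elements in the adjoint representation) has no subgroup isomorphic to any of PSL₂(64), PSp₄(8), PSL₄(8), PSU₄(8) or PSp₆(8). Here F₈ and F₆₄ denote fields with 8 and 64 elements. -/
theorem result {F₈ F₆₄ : Type*} [Field F₈] [Fintype F₈] (h8 : Fintype.card F₈ = 8) [Field F₆₄] [Fintype F₆₄] (h64 : Fintype.card F₆₄ = 64)
    (H : Subgroup ↥(Cfsg.Lie.chevE7.group (ZMod 2))) :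
    IsEmpty (↥H ≃* Matrix.ProjectiveSpecialLinearGroup (Fin 2) F₆₄) ∧ IsEmpty (↥H ≃* Cfsg.PSp 2 F₈) ∧
    IsEmpty (↥H ≃* Matrix.ProjectiveSpecialLinearGroup (Fin 4) F₈) ∧ IsEmpty (↥H ≃* Cfsg.PSU 4 F₆₄ 8) ∧ IsEmpty (↥H ≃* Cfsg.PSp 3 F₈) := by
  classical
  exact ⟨excl (CfsgLib.E7Order65.exists_65_psl_two h64),
    excl (CfsgLib.E7Order65.exists_65_psp h8 2 _ _ CfsgLib.E7Order65.sp_four),
    excl (CfsgLib.E7Order65.exists_65_psl_four h8), excl (CfsgLib.E7Order65.exists_65_psu h64),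
    excl (CfsgLib.E7Order65.exists_65_psp h8 3 _ _ CfsgLib.E7Order65.sp_six)⟩

end Cfsg.Agent.S5769
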