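import Cfsg.Statements.S5883
import Cfsg.Agent.Fi23Solv.Maximal

set_option autoImplicit false
open Cfsg

namespace Cfsg.Agent.S5883

/-- The constant 10 in the statement that H⁽¹⁰⁾ is perfect for every maximal subgroup H of a finite almost simple group cannot be lowered to 9: there exist a finite almost simple group G (with a non-abelian simple normal subgroup of trivial centralizer) and a maximal subgroup H of G whose ninth derived subgroup H⁽⁹⁾ is not perfect, i.e. H⁽¹⁰⁾ ≠ H⁽⁹⁾. (A solvable maximal subgroup of derived length 10 in the Fischer group Fi₂₃ is such an example.) -/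
theorem result :
    ∃ (G : Type) (_ : Group G) (_ : Finite G) (S H : Subgroup G), S.Normal ∧ IsSimpleGroup S ∧ ¬ IsMulCommutative S ∧
      Subgroup.centralizer (S : Set G) = ⊥ ∧ IsCoatom H ∧ derivedSeries H 10 ≠ derivedSeries H 9 := by
  have hfin : Finite Cfsg.Spor.Fi23 := CfsgLib.CosetEnum.Fi23.finite_fi23
  have hs : IsSimpleGroup Cfsg.Spor.Fi23 := CfsgLib.CosetEnum.Fi23.simple
  have hnc : ¬ IsMulCommutative Cfsg.Spor.Fi23 := fun h => by
    have hc : derivedSeries CfsgLib.Fi23Solv.H 1 = ⊥ := by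
      rw [derivedSeries_succ, derivedSeries_zero, Subgroup.commutator_eq_bot_iff_le_centralizer]
      intro x _
      rw [Subgroup.mem_centralizer_iff]
      exact fun y _ => Subtype.ext (h.is_comm.comm _ _)
    refine CfsgLib.Fi23Solv.derived_nine_ne_bot (le_bot_iff.1 ?_)
    exact hc ▸ derivedSeries_antitone _ (by norm_num : 1 ≤ 9)
  refine ⟨Cfsg.Spor.Fi23, inferInstance, hfin, ⊤, CfsgLib.Fi23Solv.H, inferInstance,
    Subgroup.topEquiv.isSimpleGroup, fun h => hnc ⟨⟨fun a b => ?_⟩⟩, ?_,
    CfsgLib.Fi23Solv.H_isCoatom, CfsgLib.Fi23Solv.derived_ne⟩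
  · exact congrArg Subtype.val (h.is_comm.comm (⟨a, trivial⟩ : (⊤ : Subgroup Cfsg.Spor.Fi23)) ⟨b, trivial⟩)
  · rw [Subgroup.coe_top, Subgroup.centralizer_univ]
    refine ((IsSimpleGroup.eq_bot_or_eq_top_of_normal _ inferInstance).resolve_right fun h =>
      hnc ⟨⟨fun a b => ?_⟩⟩)
    exact (Subgroup.mem_center_iff.1 (h ▸ Subgroup.mem_top a) b).symm

end Cfsg.Agent.S5883
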