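import Cfsg.Statements.S5885

set_option autoImplicit false
open Cfsg
open MulAction
open scoped Pointwise

namespace Cfsg.Agent.S5885

/-- Even permutations of the cosets are induced by the group. -/
theorem exists_lift {G : Type*} [Group G] [Finite G] {n : ℕ}
    (hA : ∀ P : Subgroup (Equiv.Perm (Fin n)), MulAction.IsPreprimitive P (Fin n) →
      alternatingGroup (Fin n) ≤ P)
    {M : Subgroup G} (hM : IsCoatom M) (hn : M.index = n) [Fintype (G ⧸ M)] [DecidableEq (G ⧸ M)]
    (σ : Equiv.Perm (G ⧸ M)) (hσ : Equiv.Perm.sign σ = 1) :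
    ∃ g : G, ∀ w : G ⧸ M, g • w = σ w := by
  classical
  have hcard : Fintype.card (G ⧸ M) = n := by rw [← hn, Subgroup.index_eq_card, Nat.card_eq_fintype_card]
  let e : G ⧸ M ≃ Fin n := Fintype.equivFinOfCardEq hcard
  let ψ : G →* Equiv.Perm (Fin n) :=
    (e.permCongrHom.toMonoidHom).comp (MulAction.toPermHom G (G ⧸ M))
  have hψ : ∀ (g : G) (w : G ⧸ M), ψ g (e w) = e (g • w) := fun g w => by
    simp [ψ, Equiv.permCongrHom, MulAction.toPermHom]
  have : Nontrivial (G ⧸ M) := by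
    rw [← Fintype.one_lt_card_iff_nontrivial, hcard]
    have h0 : M.index ≠ 0 := Subgroup.index_ne_zero_of_finite
    have h1 : M.index ≠ 1 := fun h => hM.1 (Subgroup.index_eq_one.mp h)
    omega
  have hprim : MulAction.IsPreprimitive G (G ⧸ M) := by
    rw [← MulAction.isCoatom_stabilizer_iff_preprimitive (G := G) ((1 : G) : G ⧸ M)]
    rwa [MulAction.stabilizer_quotient]
  have hP : MulAction.IsPreprimitive ψ.range (Fin n) := by
    let f : (G ⧸ M) →ₑ[ψ.rangeRestrict] (Fin n) :=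
      { toFun := e
        map_smul' := fun g w => (hψ g w).symm }
    exact MulAction.IsPreprimitive.of_surjective (f := f) e.surjective
  obtain ⟨g, hg⟩ := hA ψ.range hP (show e.permCongr σ ∈ alternatingGroup (Fin n) by
    rw [Equiv.Perm.mem_alternatingGroup, Equiv.Perm.sign_permCongr, hσ])
  refine ⟨g, fun w => e.injective ?_⟩
  rw [← hψ, hg]
  simp

/-- An even permutation moving `a` to `b` and `b` to `c`. -/
theorem sign_three_cycle {α : Type*} [DecidableEq α] [Fintype α] {a b c : α} (hab : a ≠ b) (hbc : b ≠ c) :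
    Equiv.Perm.sign (Equiv.swap a b * Equiv.swap b c) = 1 := by
  rw [Equiv.Perm.sign_mul, Equiv.Perm.sign_swap hab, Equiv.Perm.sign_swap hbc]; rfl

/-- Let n be an odd positive integer such that every primitive permutation group of degree n contains the alternating group (so the symmetric and alternating groups are the only primitive groups of degree n). Let G be a finite group, M a maximal subgroup of G of index n, and H a maximal subgroup of M. Then H is a second maximal subgroup of G: H is maximal in every maximal subgroup K of G containing H. -/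
theorem result {G : Type*} [Group G]
    [Finite G] (n : ℕ) (hodd : Odd n)
    (hA : ∀ P : Subgroup (Equiv.Perm (Fin n)), MulAction.IsPreprimitive P (Fin n) → alternatingGroup (Fin n) ≤ P)
    (M : Subgroup G) (hM : IsCoatom M) (hn : M.index = n) (H : Subgroup G) (hHM : H ≤ M)
    (hmax : IsCoatom (H.subgroupOf M)) (K : Subgroup G) (hK : IsCoatom K) (hHK : H ≤ K) :
    IsCoatom (H.subgroupOf K) := by
  classical
  have : Fintype (G ⧸ M) := Fintype.ofFinite _
  have hcard : Fintype.card (G ⧸ M) = n := by rw [← hn, Subgroup.index_eq_card, Nat.card_eq_fintype_card]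
  by_cases hKM : K = M
  · subst hKM; exact hmax
  set x : G ⧸ M := ((1 : G) : G ⧸ M) with hx
  have hstab : ∀ g : G, g • x = x ↔ g ∈ M := fun g => by
    rw [← MulAction.mem_stabilizer_iff, hx, MulAction.stabilizer_quotient]
  have hKM' : K ⊓ M ≠ M := fun h => hKM ((hM.le_iff.mp (h ▸ inf_le_left)).resolve_left hK.1)
  -- proper subgroups of `M` above `H` equal `H`
  have hmaxM : ∀ Y : Subgroup G, H ≤ Y → Y ≤ M → Y ≠ M → Y = H := by
    intro Y h1 h2 h3
    refine le_antisymm ?_ h1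
    intro y hy
    have hle : H.subgroupOf M ≤ Y.subgroupOf M := fun u hu => h1 hu
    rcases hmax.le_iff.mp hle with htop | heq
    · exact absurd (le_antisymm h2 (Subgroup.subgroupOf_eq_top.mp htop)) h3
    · exact (heq ▸ (show (⟨y, h2 hy⟩ : M) ∈ Y.subgroupOf M from hy) : (⟨y, h2 hy⟩ : M) ∈ H.subgroupOf M)
  have hKMH : K ⊓ M = H := hmaxM _ (le_inf hHK hHM) inf_le_right hKM'
  have hmemH : ∀ g ∈ K, g • x = x → g ∈ H := fun g hg h => hKMH ▸ ⟨hg, (hstab g).mp h⟩
  have hne : ¬ K ≤ H := fun h => hKM (le_antisymm (h.trans hHM)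
    ((hK.le_iff.mp (h.trans hHM)).resolve_left hM.1 ▸ le_rfl))
  refine ⟨fun h => hne (Subgroup.subgroupOf_eq_top.mp h), fun X' hX' => ?_⟩
  set X := X'.map K.subtype with hX
  have hXK : X ≤ K := Subgroup.map_subtype_le X'
  have hHX : H ≤ X := fun h hh =>
    ⟨⟨h, hHK hh⟩, hX'.le (show (⟨h, hHK hh⟩ : K) ∈ H.subgroupOf K from hh), rfl⟩
  obtain ⟨g₀, hg₀X, hg₀⟩ : ∃ g ∈ X, g • x ≠ x := by
    obtain ⟨u, hu, hu'⟩ := SetLike.exists_of_lt hX'
    exact ⟨u, ⟨u, hu, rfl⟩, fun h => hu' (hmemH u u.2 h)⟩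
  rw [eq_top_iff]
  suffices hXtop : K ≤ X by
    intro u _
    obtain ⟨v, hv, hvu⟩ := hXtop u.2
    exact Subtype.ext hvu ▸ hv
  -- it suffices that `X` is transitive on the orbit of `x`
  suffices hXtr : ∀ k ∈ K, ∃ h ∈ X, h • x = k • x by
    intro k hk
    obtain ⟨h, hh, hhk⟩ := hXtr k hk
    have : h⁻¹ * k ∈ H := hmemH _ (K.mul_mem (K.inv_mem (hXK hh)) hk) (by
      rw [mul_smul, ← hhk, inv_smul_smul])
    simpa using X.mul_mem hh (hHX this)
  set O : Set (G ⧸ M) := MulAction.orbit K x with hO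
  have hOk : ∀ k ∈ K, k • x ∈ O := fun k hk => ⟨⟨k, hk⟩, rfl⟩
  by_cases hOtop : O = Set.univ
  · -- no proper blocks
    by_contra hcon
    push Not at hcon
    obtain ⟨k₀, hk₀, hk₀'⟩ := hcon
    set B : Set (G ⧸ M) := MulAction.orbit X x with hB
    have hBmem : ∀ h ∈ X, h • x ∈ B := fun h hh => ⟨⟨h, hh⟩, rfl⟩
    have hxB : x ∈ B := by simpa using hBmem 1 X.one_mem
    have hblock : ∀ k ∈ K, ∀ a ∈ B, k • a ∈ B → k ∈ X := by
      intro k hk a ha hka
      obtain ⟨⟨h1, hh1⟩, rfl⟩ := ha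
      obtain ⟨⟨h2, hh2⟩, h2e⟩ := hka
      change h2 • x = k • h1 • x at h2e
      have : h2⁻¹ * k * h1 ∈ H := hmemH _ (K.mul_mem (K.mul_mem (K.inv_mem (hXK hh2)) hk) (hXK hh1)) (by
        rw [mul_smul, mul_smul, ← h2e, inv_smul_smul])
      have h' := X.mul_mem (X.mul_mem hh2 (hHX this)) (X.inv_mem hh1)
      simpa [mul_assoc] using h'
    have hBinv : ∀ h ∈ X, ∀ w ∈ B, h • w ∈ B := by
      rintro h hh _ ⟨⟨h1, hh1⟩, rfl⟩
      exact ⟨⟨h * h1, X.mul_mem hh hh1⟩, mul_smul h h1 x⟩
    -- `|B|` is a proper divisor of `n`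
    have hsK : MulAction.stabilizer K x = H.subgroupOf K := by
      ext k
      exact ⟨fun h => hmemH k k.2 h, fun h => (hstab k).mpr (hHM h)⟩
    have hsX : MulAction.stabilizer X x = H.subgroupOf X := by
      ext k
      exact ⟨fun h => hmemH k (hXK k.2) h, fun h => (hstab k).mpr (hHM h)⟩
    have hcO : Nat.card O = H.relIndex K := by
      rw [Subgroup.relIndex, ← hsK, MulAction.index_stabilizer]; rfl
    have hcB : Nat.card B = H.relIndex X := by
      rw [Subgroup.relIndex, ← hsX, MulAction.index_stabilizer]; rfl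
    rw [hOtop, Nat.card_congr (Equiv.Set.univ _), Nat.card_eq_fintype_card, hcard] at hcO
    have hdvd : Nat.card B * X.relIndex K = n := by
      rw [hcB, hcO]; exact Subgroup.relIndex_mul_relIndex H X K hHX hXK
    have hXK1 : X.relIndex K ≠ 1 := fun h => by
      rw [Subgroup.relIndex_eq_one] at h
      exact hk₀' k₀ (h hk₀) rfl
    have h3 : 3 ≤ X.relIndex K := by
      have hd : X.relIndex K ∣ n := hdvd ▸ dvd_mul_left _ _
      have h0 : X.relIndex K ≠ 0 := fun h => by
        rw [h, mul_zero] at hdvd; subst hdvd; exact Nat.not_odd_zero hodd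
      have h2 : X.relIndex K ≠ 2 := fun h => by
        rw [h] at hd
        obtain ⟨t, ht⟩ := hd
        exact Nat.not_even_iff_odd.mpr hodd ⟨t, by omega⟩
      omega
    have hB2 : ∃ w ∈ B, w ≠ x := ⟨g₀ • x, hBmem g₀ hg₀X, hg₀⟩
    obtain ⟨w, hwB, hwx⟩ := hB2
    have hknB : k₀ • x ∉ B := fun ⟨⟨h, hh⟩, he⟩ => hk₀' h hh he
    set a := k₀ • x with ha
    set b := k₀ • w with hb
    have hab : a ≠ b := fun h => hwx (smul_left_cancel k₀ h).symm
    have hbB : b ∉ B := fun h => by
      have := hblock k₀ hk₀ w hwB h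
      exact hk₀' k₀ this rfl
    obtain ⟨c, hcB', hcB''⟩ : ∃ c, c ∉ B ∧ ∀ v ∈ B, k₀ • v ≠ c := by
      by_contra hc
      push Not at hc
      have hle : Fintype.card (G ⧸ M) ≤ Nat.card B + Nat.card B := by
        rw [← Nat.card_eq_fintype_card, ← Nat.card_sum]
        refine Nat.card_le_card_of_surjective
          (Sum.elim (fun v : B => (v : G ⧸ M)) fun v : B => k₀ • (v : G ⧸ M)) fun z => ?_
        by_cases hz : z ∈ B
        · exact ⟨Sum.inl ⟨z, hz⟩, rfl⟩
        · obtain ⟨v, hv, e⟩ := hc z hz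
          exact ⟨Sum.inr ⟨v, hv⟩, e⟩
      have : Nat.card B * 3 ≤ n := hdvd ▸ Nat.mul_le_mul_left _ h3
      have : 0 < Nat.card B := by
        have : Nonempty B := ⟨⟨x, hxB⟩⟩
        exact Nat.card_pos
      omega
    have hbc : b ≠ c := hcB'' w hwB
    have hac : a ≠ c := hcB'' x hxB
    -- the subgroup of `M` fixing `B` is `H`
    set Y := M ⊓ MulAction.stabilizer G B with hY
    have hHY : H ≤ Y := fun h hh => ⟨hHM hh, (MulAction.mem_stabilizer_set_iff_subset_smul_set B.toFinite).mpr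
      fun v hv => ⟨h⁻¹ • v, hBinv _ (X.inv_mem (hHX hh)) v hv, smul_inv_smul h v⟩⟩
    have hYM : Y ≠ M := by
      intro h
      obtain ⟨g, hg⟩ := exists_lift hA hM hn (Equiv.swap w c * Equiv.swap c a)
        (sign_three_cycle (fun e => hcB' (e ▸ hwB)) hac.symm)
      have hgx : g • x = x := by
        rw [hg, Equiv.Perm.mul_apply, Equiv.swap_apply_of_ne_of_ne (fun e : x = c => hcB' (e ▸ hxB))
          (fun e : x = a => hknB (e ▸ hxB)),
          Equiv.swap_apply_of_ne_of_ne hwx.symm (fun e : x = c => hcB' (e ▸ hxB))]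
      have hgY : g ∈ Y := h.symm ▸ (hstab g).mp hgx
      have hgw : g • w = c := by
        rw [hg, Equiv.Perm.mul_apply, Equiv.swap_apply_of_ne_of_ne (fun e : w = c => hcB' (e ▸ hwB))
          (fun e : w = a => hknB (e ▸ hwB)), Equiv.swap_apply_left]
      exact hcB' (hgw ▸ hgY.2.le ⟨w, hwB, rfl⟩)
    have hYH := hmaxM Y hHY inf_le_left hYM
    -- a three cycle outside `B` breaking the blocks
    obtain ⟨g, hg⟩ := exists_lift hA hM hn (Equiv.swap a b * Equiv.swap b c) (sign_three_cycle hab hbc)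
    have hfixB : ∀ v ∈ B, g • v = v := fun v hv => by
      rw [hg, Equiv.Perm.mul_apply,
        Equiv.swap_apply_of_ne_of_ne (fun e : v = b => hbB (e ▸ hv)) (fun e : v = c => hcB' (e ▸ hv)),
        Equiv.swap_apply_of_ne_of_ne (fun e : v = a => hknB (e ▸ hv))
          (fun e : v = b => hbB (e ▸ hv))]
    have hgH : g ∈ H := by
      rw [← hYH]
      exact ⟨(hstab g).mp (hfixB x hxB), (MulAction.mem_stabilizer_set_iff_subset_smul_set B.toFinite).mpr
        fun v hv => ⟨v, hv, hfixB v hv⟩⟩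
    have hga : g • a = b := by
      rw [hg, Equiv.Perm.mul_apply, Equiv.swap_apply_of_ne_of_ne hab hac, Equiv.swap_apply_left]
    have hgb : g • b = c := by
      rw [hg, Equiv.Perm.mul_apply, Equiv.swap_apply_left,
        Equiv.swap_apply_of_ne_of_ne hac.symm hbc.symm]
    have hgK : k₀⁻¹ * g * k₀ ∈ K := K.mul_mem (K.mul_mem (K.inv_mem hk₀) (hHK hgH)) hk₀
    have hin : k₀⁻¹ * g * k₀ ∈ X := hblock _ hgK x hxB (by
      rw [mul_smul, mul_smul, ← ha, hga, hb, inv_smul_smul]; exact hwB)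
    have := hBinv _ hin w hwB
    rw [mul_smul, mul_smul, ← hb, hgb] at this
    exact hcB'' _ this (smul_inv_smul k₀ c)
  · -- intransitive case: `K` is the stabiliser of the orbit
    have hxO : x ∈ O := MulAction.mem_orbit_self x
    have hOinv : ∀ k ∈ K, ∀ v ∈ O, k • v ∈ O := by
      rintro k hk _ ⟨⟨k1, hk1⟩, rfl⟩
      exact ⟨⟨k * k1, K.mul_mem hk hk1⟩, mul_smul k k1 x⟩
    have hKle : K ≤ MulAction.stabilizer G O := fun k hk =>
      (MulAction.mem_stabilizer_set_iff_subset_smul_set O.toFinite).mpr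
        fun v hv => ⟨k⁻¹ • v, hOinv _ (K.inv_mem hk) v hv, smul_inv_smul k v⟩
    have hStop : MulAction.stabilizer G O ≠ ⊤ := fun h => hOtop (Set.eq_univ_of_forall fun v => by
      obtain ⟨g, rfl⟩ := MulAction.exists_smul_eq G x v
      exact (MulAction.mem_stabilizer_iff.mp (h ▸ Subgroup.mem_top g : g ∈ MulAction.stabilizer G O)).le
        ⟨x, hxO, rfl⟩)
    have hKeq : MulAction.stabilizer G O = K := (hK.le_iff.mp hKle).resolve_left hStop
    intro k hk
    by_cases hkx : k • x = x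
    · exact ⟨1, X.one_mem, by rw [one_smul, hkx]⟩
    by_cases hky : k • x = g₀ • x
    · exact ⟨g₀, hg₀X, hky.symm⟩
    set y := g₀ • x with hy
    set z := k • x with hz
    have hyO : y ∈ O := hOk g₀ (hXK hg₀X)
    have hzO : z ∈ O := hOk k hk
    suffices hσ : ∃ σ : Equiv.Perm (G ⧸ M), Equiv.Perm.sign σ = 1 ∧ σ x = x ∧ σ y = z ∧ ∀ v ∈ O, σ v ∈ O by
      obtain ⟨σ, hs, h1, h2, h3⟩ := hσ
      obtain ⟨g, hg⟩ := exists_lift hA hM hn σ hs
      have hgK : g ∈ K := by
        rw [← hKeq, MulAction.mem_stabilizer_set_iff_smul_set_subset O.toFinite]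
        rintro _ ⟨v, hv, rfl⟩
        show g • v ∈ O
        exact hg v ▸ h3 v hv
      refine ⟨g * g₀, X.mul_mem (hHX (hmemH g hgK (by rw [hg, h1]))) hg₀X, ?_⟩
      rw [mul_smul, ← hy, hg, h2]
    have hswap : ∀ (s t : G ⧸ M), (s ∈ O ↔ t ∈ O) → ∀ v ∈ O, Equiv.swap s t v ∈ O := by
      intro s t hst v hv
      rw [Equiv.swap_apply_def]
      split_ifs with h1 h2
      · exact hst.mp (h1 ▸ hv)
      · exact hst.mpr (h2 ▸ hv)
      · exact hv
    have hyz : y ≠ z := fun h => hky h.symm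
    by_cases hw : ∃ w ∈ O, w ≠ x ∧ w ≠ y ∧ w ≠ z
    · obtain ⟨w, hwO, hwx, hwy, hwz⟩ := hw
      refine ⟨Equiv.swap z w * Equiv.swap w y, sign_three_cycle hwz.symm hwy, ?_, ?_, fun v hv =>
        hswap z w (iff_of_true hzO hwO) _ (hswap w y (iff_of_true hwO hyO) v hv)⟩
      · rw [Equiv.Perm.mul_apply, Equiv.swap_apply_of_ne_of_ne hwx.symm hg₀.symm,
          Equiv.swap_apply_of_ne_of_ne (Ne.symm hkx) hwx.symm]
      · rw [Equiv.Perm.mul_apply, Equiv.swap_apply_right, Equiv.swap_apply_right]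
    · push Not at hw
      obtain ⟨u, v, huO, hvO, huv⟩ : ∃ u v, u ∉ O ∧ v ∉ O ∧ u ≠ v := by
        by_contra hc
        push Not at hc
        obtain ⟨u, hu⟩ := (Set.ne_univ_iff_exists_notMem O).mp hOtop
        have huniv : (Finset.univ : Finset (G ⧸ M)) = {x, y, z, u} := by
          ext s
          simp only [Finset.mem_univ, Finset.mem_insert, Finset.mem_singleton, true_iff]
          by_cases hs : s ∈ O
          · by_cases h1 : s = x
            · exact Or.inl h1
            · by_cases h2 : s = y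
              · exact Or.inr (Or.inl h2)
              · exact Or.inr (Or.inr (Or.inl (hw s hs h1 h2)))
          · exact Or.inr (Or.inr (Or.inr (hc s u hs hu)))
        have h4 : ({x, y, z, u} : Finset (G ⧸ M)).card = 4 :=
          Finset.card_eq_four.mpr ⟨x, y, z, u, hg₀.symm, Ne.symm hkx, fun e => hu (e ▸ hxO), hyz,
            fun e => hu (e ▸ hyO), fun e => hu (e ▸ hzO), rfl⟩
        rw [← huniv, Finset.card_univ, hcard] at h4
        rw [h4] at hodd
        exact absurd hodd (by decide)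
      refine ⟨Equiv.swap y z * Equiv.swap u v, by
        rw [Equiv.Perm.sign_mul, Equiv.Perm.sign_swap hyz, Equiv.Perm.sign_swap huv]; rfl, ?_, ?_,
        fun s hs => hswap y z (iff_of_true hyO hzO) _ (hswap u v (iff_of_false huO hvO) s hs)⟩
      · rw [Equiv.Perm.mul_apply, Equiv.swap_apply_of_ne_of_ne (fun e : x = u => huO (e ▸ hxO)) (fun e : x = v => hvO (e ▸ hxO)),
          Equiv.swap_apply_of_ne_of_ne hg₀.symm (Ne.symm hkx)]
      · rw [Equiv.Perm.mul_apply, Equiv.swap_apply_of_ne_of_ne (fun e : y = u => huO (e ▸ hyO)) (fun e : y = v => hvO (e ▸ hyO)),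
          Equiv.swap_apply_left]

end Cfsg.Agent.S5885
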