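import Cfsg.Statements.S5891
import Cfsg.Agent.Dickson.MaxPSL

set_option autoImplicit false
open Cfsg
open CfsgLib.Dickson Matrix MulAction
open scoped MatrixGroups

namespace Cfsg.Agent.S5891

/-- An index two subgroup contains every copy of an alternating group. -/
theorem le_of_index_two_of_alternating {G : Type*} [Group G] {L M : Subgroup G} (hL : L.index = 2)
    {n : ℕ} (i : M ≃* alternatingGroup (Fin n)) : M ≤ L := by
  set φ : alternatingGroup (Fin n) →* G := M.subtype.comp i.symm.toMonoidHom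
  have h3 : ∀ g : alternatingGroup (Fin n), (g : Equiv.Perm (Fin n)).IsThreeCycle → φ g ∈ L := by
    intro g hg
    have h1 : g ^ 3 = 1 := Subtype.ext (by
      rw [Subgroup.coe_pow, ← hg.orderOf, pow_orderOf_eq_one]; rfl)
    have h2 : φ g = (φ g)⁻¹ ^ 2 := by
      rw [← map_inv, ← map_pow]
      congr 1
      rw [inv_pow, eq_inv_iff_mul_eq_one, ← pow_succ', h1]
    rw [h2]
    exact Subgroup.sq_mem_of_index_two hL _
  have hall : Subgroup.closure {g : Equiv.Perm (Fin n) | g.IsThreeCycle} ≤
      (L.comap φ).map (alternatingGroup (Fin n)).subtype :=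
    (Subgroup.closure_le _).mpr fun g hg => ⟨⟨g, hg.mem_alternatingGroup⟩, h3 _ hg, rfl⟩
  rw [Equiv.Perm.closure_three_cycles_eq_alternating] at hall
  intro m hm
  obtain ⟨g, hg, hgm⟩ := hall (i ⟨m, hm⟩).2
  have : g = i ⟨m, hm⟩ := Subtype.ext hgm
  subst this
  simpa [φ] using hg

set_option maxHeartbeats 1000000 in
/-- Let F be a finite field of odd order q > 3 and characteristic p, and let M be a maximal subgroup of PGL₂(F) not containing the image L of SL₂(F) (a copy of PSL₂(F) of index 2). Then one of the following holds: |M| = q(q − 1) (M is the stabiliser of a point of the projective line); q ≠ 5 and M is dihedral of order 2(q − 1); M is dihedral of order 2(q + 1); q = p ≡ ±3 (mod 8) and M ≅ S₄; or q = q₀^r for an odd prime r and M ≅ PGL₂(F₀) with |F₀| = q₀. -/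
theorem result {F : Type*} [Field F] [Fintype F]
    (hodd : Odd (Fintype.card F)) (h3 : 3 < Fintype.card F) (M : Subgroup (Matrix.ProjGenLinGroup (Fin 2) F)) (hM : IsCoatom M)
    (hML : ¬ (Matrix.ProjGenLinGroup.mk.comp Matrix.SpecialLinearGroup.toGL).range ≤ M) :
    Nat.card M = Fintype.card F * (Fintype.card F - 1) ∨
    (Fintype.card F ≠ 5 ∧ Nonempty (M ≃* DihedralGroup (Fintype.card F - 1))) ∨
    Nonempty (M ≃* DihedralGroup (Fintype.card F + 1)) ∨
    ((Fintype.card F).Prime ∧ (Fintype.card F % 8 = 3 ∨ Fintype.card F % 8 = 5) ∧ Nonempty (M ≃* Equiv.Perm (Fin 4))) ∨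
    (∃ (F₀ : Type) (_ : Field F₀) (_ : Fintype F₀) (r : ℕ), r.Prime ∧ Odd r ∧ Fintype.card F = Fintype.card F₀ ^ r ∧
        Nonempty (M ≃* Matrix.ProjGenLinGroup (Fin 2) F₀)) := by
  classical
  obtain ⟨p, hp⟩ := CharP.exists F
  have : Fact p.Prime := ⟨CharP.char_is_prime F p⟩
  obtain ⟨n, hpp, hn⟩ := FiniteField.card F p
  have h2 : (2 : F) ≠ 0 := CfsgLib.SL2.two_ne_zero_iff_odd.mpr hodd
  have hp2 : p ≠ 2 := (odd_card_iff p).mp hodd
  set Λ := (SpecialLinearGroup.toPGL (n := Fin 2) (R := F)).range with hΛ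
  have hΛn : Λ.Normal := toPGL_range_normal
  have hML' : ¬ Λ ≤ M := hML
  have hidx : Λ.index = 2 := by
    rw [hΛ, index_toPGL_range]
    rcases gcd_two_pred (F := F) with ⟨he, -⟩ | ⟨-, hd⟩
    · exact absurd hodd (Nat.not_odd_iff_even.mpr he)
    · exact hd
  have hcardG : Nat.card PGL(2, F) = (Fintype.card F + 1) * (Fintype.card F * (Fintype.card F - 1)) := by
    rw [card_pgl2]
  have hconj : ∀ {k : PGL(2, F)} {N : Subgroup PGL(2, F)},
      M.map (MulAut.conj k).toMonoidHom ≤ N → ¬ N ≤ Λ := by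
    intro k N hMN hNL
    have hle : M ≤ Λ := fun g hg => by
      have := hΛn.conj_mem _ (hNL (hMN ⟨g, hg, rfl⟩)) k⁻¹
      simpa [mul_assoc] using this
    exact hML' (eq_of_isCoatom_le hM hle fun h => by
      rw [h, Subgroup.index_top] at hidx; omega).symm.le
  have hbigger : ∀ {k : PGL(2, F)} {N : Subgroup PGL(2, F)},
      M.map (MulAut.conj k).toMonoidHom ≤ N → Nat.card M < Nat.card N →
      Nat.card N < Nat.card PGL(2, F) → False := fun {k N} hle h1 h2 =>
    not_isCoatom_of_card hM (le_map_conj_inv hle) (by rwa [card_map_conj]) (by rwa [card_map_conj])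
  obtain ⟨x, y, hxy, hS⟩ := exists_quat_param (F := F)
  have hbotc := card_bot_subfield (F := F) p
  have hpair : (IsCyclic M ∧ ¬ p ∣ Nat.card M) ∨
      (∃ k, 2 ≤ k ∧ ¬ p ∣ k ∧ Nonempty (M ≃* DihedralGroup k)) →
      (Fintype.card F ≠ 5 ∧ Nonempty (M ≃* DihedralGroup (Fintype.card F - 1))) ∨
      Nonempty (M ≃* DihedralGroup (Fintype.card F + 1)) := by
    intro h
    obtain ⟨a, b, hab, hle⟩ := le_pairN_of_cyclic_or_dihedral p h
    have heq := eq_of_isCoatom_le hM hle (pairN_ne_top hab (by omega))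
    rcases hab.pairN_dihedral with ⟨⟨i⟩, -⟩ | ⟨⟨i⟩, -⟩
    · refine Or.inl ⟨fun h5 => ?_, ⟨(MulEquiv.subgroupCongr heq).trans i⟩⟩
      have hMc : Nat.card M = 8 := by
        rw [Nat.card_congr ((MulEquiv.subgroupCongr heq).trans i).toEquiv, DihedralGroup.nat_card, h5]
      obtain ⟨φ, -, -, h24, -⟩ := exists_s4Hom hxy h2
      rw [h5] at hcardG
      norm_num [-Nat.card_eq_fintype_card] at hcardG
      exact not_isCoatom_sylow 2 (k := 3) (hk := by rw [hcardG]; norm_num) (hM := hM)
        (hMc := by rw [hMc]; norm_num) (H := quatN x y) (by rw [h24]; norm_num) (by rw [h24]; norm_num)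
        (by rw [h24, hcardG]; norm_num)
    · exact Or.inr ⟨(MulEquiv.subgroupCongr heq).trans i⟩
  rcases classify_finite' p M with ⟨z, hz⟩ | hc | ⟨k, hk, hpk, hi⟩ | ⟨-, ⟨i⟩⟩ |
    ⟨h24, ⟨i⟩⟩ | ⟨-, ⟨i⟩⟩ | ⟨L, k, hL⟩
  · left
    rw [eq_of_isCoatom_le hM hz (stabilizer_pgl_ne_top z), card_stabilizer_pgl]
  · exact Or.inr ((hpair (Or.inl hc)).imp_right Or.inl)
  · exact Or.inr ((hpair (Or.inr ⟨k, hk, hpk, hi⟩)).imp_right Or.inl)
  · exact absurd (eq_of_isCoatom_le hM (le_of_index_two_of_alternating hidx i) fun h => by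
      rw [h, Subgroup.index_top] at hidx; omega).symm.le hML'
  · -- `S₄`
    refine Or.inr (Or.inr (Or.inr (Or.inl ?_)))
    obtain ⟨k, hk⟩ := conj_perm_four hxy h2 (M.subtype.comp i.symm.toMonoidHom)
      (M.subtype_injective.comp i.symm.injective)
    rw [show (M.subtype.comp i.symm.toMonoidHom).range = M by
      rw [MonoidHom.range_comp, MonoidHom.range_eq_top.mpr i.symm.surjective, ← MonoidHom.range_eq_map,
        Subgroup.range_subtype]] at hk
    have hns : ¬ IsSquare (2 : F) := fun ⟨s, hs⟩ => hconj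
      (hk.le.trans (quatN_le_pslImage hxy h2 (hS ⊤).1 (hS ⊤).2 (mem_top_subfield s) hs.symm))
      (pslImage_le_range_toPGL _)
    have hM24 : Nat.card M = 24 := by
      rw [Nat.card_congr i.toEquiv, Nat.card_perm, Nat.card_eq_fintype_card, Fintype.card_fin]; rfl
    have hn1 : (n : ℕ) = 1 := by
      by_contra hne
      have h5 : 5 ≤ p := by
        have := hpp.two_le
        by_contra h
        interval_cases p
        · exact hp2 rfl
        · exact h24 (by norm_num)
        · norm_num at hpp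
      have hlt : p < Fintype.card F := by
        rw [hn]; exact lt_self_pow₀ hpp.one_lt (by have := n.pos; omega)
      refine hbigger (k := k) (hk.le.trans (quatN_le_range hxy h2 (hS ⊥).1 (hS ⊥).2)) ?_ ?_
      · rw [hM24, card_pglMap_range, hbotc]
        have : 20 ≤ p * (p - 1) := le_trans (by norm_num) (Nat.mul_le_mul h5 (show 4 ≤ p - 1 by omega))
        nlinarith
      · rw [card_pglMap_range, hbotc, hcardG]
        exact pgl_order_lt hpp.two_le hlt
    have hqp : Fintype.card F = p := by rw [hn, hn1, pow_one]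
    refine ⟨hqp ▸ hpp, ?_, ⟨i⟩⟩
    by_contra h8
    exact hns (FiniteField.isSquare_two_iff.mpr (by omega))
  · exact absurd (eq_of_isCoatom_le hM (le_of_index_two_of_alternating hidx i) fun h => by
      rw [h, Subgroup.index_top] at hidx; omega).symm.le hML'
  · -- subfields
    rcases hL with hL | ⟨-, hL⟩
    · refine Or.inr (Or.inr (Or.inr (Or.inr ?_)))
      obtain ⟨m, hm0, hm⟩ := exists_pow_card L
      have : Fintype L := Fintype.ofFinite L
      have hmF : Fintype.card L ^ m = Fintype.card F := by rw [← Nat.card_eq_fintype_card, hm]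
      have hQ : 2 ≤ Nat.card L := Finite.one_lt_card
      have hmodd : Odd m := Nat.not_even_iff_odd.mp fun he =>
        hconj hL.le (pglMap_range_le_toPGL _ hodd he hmF)
      have hcM : Nat.card M = Nat.card (pglMap L.subtype).range := by rw [← hL, card_map_conj]
      have hm1 : m ≠ 1 := fun h => by
        rw [h, pow_one] at hm
        refine hM.1 (Subgroup.eq_top_of_card_eq _ ?_)
        rw [hcM, card_pglMap_range, hcardG, hm]
      have hr : m.Prime := by
        by_contra hnp
        obtain ⟨d, hd, hd2, hdm⟩ := Nat.exists_dvd_of_not_prime2 (by omega) hnp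
        obtain ⟨L₁, hle, hL₁⟩ := exists_intermediate L hd hm
        refine hbigger (k := k)
          (hL.le.trans (pglMap_range_mono L.subtype L₁.subtype fun a => ⟨⟨a, hle a.2⟩, rfl⟩)) ?_ ?_
        · rw [hcM, card_pglMap_range, card_pglMap_range, hL₁]
          exact pgl_order_lt hQ (lt_self_pow₀ (by omega) (by omega))
        · rw [card_pglMap_range, hcardG, hL₁]
          exact pgl_order_lt (hQ.trans (Nat.le_self_pow (by omega) _))
            (hm ▸ Nat.pow_lt_pow_right (by omega) hdm)
      obtain ⟨K, _, _, hK, ⟨jK⟩⟩ := exists_type_zero_field L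
      obtain ⟨jp⟩ := pgl_congr jK
      exact ⟨K, inferInstance, inferInstance, m, hr, hmodd, by rw [hK, hm],
        ⟨(M.equivMapOfInjective _ (MulAut.conj k).injective).trans
          ((MulEquiv.subgroupCongr hL).trans
            ((MonoidHom.ofInjective (pglMap_injective L.subtype)).symm.trans jp))⟩⟩
    · exact absurd (pslImage_le_range_toPGL _) (hconj hL.le)

end Cfsg.Agent.S5891
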