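import Cfsg.Statements.S5890
import Cfsg.Agent.Dickson.MaxCoatom
import Cfsg.Agent.S5891

set_option autoImplicit false
open Cfsg
open CfsgLib.Dickson Matrix MulAction
open scoped MatrixGroups

namespace Cfsg.Agent.S5890

section

variable {F : Type*} [Field F] [Fintype F] [DecidableEq F]

local notation "ιP" => ProjectiveSpecialLinearGroup.toPGL (n := Fin 2) (R := F)

/-- Reduction to the subgroups of `PSL(2, F)`. -/
theorem isCoatom_inf {M : Subgroup PGL(2, F)} (h : IsCoatom (M.comap ιP)) :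
    IsCoatom ((M ⊓ (SpecialLinearGroup.toPGL (n := Fin 2) (R := F)).range).subgroupOf
      (SpecialLinearGroup.toPGL (n := Fin 2) (R := F)).range) := by
  let e : Matrix.ProjectiveSpecialLinearGroup (Fin 2) F ≃*
      (SpecialLinearGroup.toPGL (n := Fin 2) (R := F)).range :=
    (MonoidHom.ofInjective (ProjectiveSpecialLinearGroup.toPGL_injective (n := Fin 2) (R := F))).trans
      (MulEquiv.subgroupCongr range_toPGL_psl)
  have he : e.mapSubgroup (M.comap ιP) =
      (M ⊓ (SpecialLinearGroup.toPGL (n := Fin 2) (R := F)).range).subgroupOf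
        (SpecialLinearGroup.toPGL (n := Fin 2) (R := F)).range := by
    ext u
    constructor
    · rintro ⟨g, hg, rfl⟩
      exact Subgroup.mem_subgroupOf.mpr ⟨hg, (e g).2⟩
    · intro hu
      obtain ⟨g, rfl⟩ := e.surjective u
      exact ⟨g, (Subgroup.mem_subgroupOf.mp hu).1, rfl⟩
  rw [← he]
  exact (e.mapSubgroup.isCoatom_iff _).mpr h

/-- Alternating subgroups of `PGL(2, F)` of degree four lie inside `PSL(2, F)`. -/
theorem exists_alt_hom (hodd : Odd (Fintype.card F)) {M : Subgroup PGL(2, F)}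
    (i : M ≃* Equiv.Perm (Fin 4)) :
    ∃ φ : alternatingGroup (Fin 4) →* Matrix.ProjectiveSpecialLinearGroup (Fin 2) F,
      Function.Injective φ ∧ φ.range ≤ M.comap ιP := by
  set Λ := (SpecialLinearGroup.toPGL (n := Fin 2) (R := F)).range with hΛ
  have hidx : Λ.index = 2 := by
    rw [hΛ, index_toPGL_range]
    rcases gcd_two_pred (F := F) with ⟨he, -⟩ | ⟨-, hd⟩
    · exact absurd hodd (Nat.not_odd_iff_even.mpr he)
    · exact hd
  set ψ : alternatingGroup (Fin 4) →* PGL(2, F) :=
    (M.subtype.comp i.symm.toMonoidHom).comp (alternatingGroup (Fin 4)).subtype with hψ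
  have hψi : Function.Injective ψ :=
    (M.subtype_injective.comp i.symm.injective).comp (alternatingGroup (Fin 4)).subtype_injective
  have hle : ψ.range ≤ Λ := Cfsg.Agent.S5891.le_of_index_two_of_alternating hidx
    (MonoidHom.ofInjective hψi).symm
  let e := MonoidHom.ofInjective (ProjectiveSpecialLinearGroup.toPGL_injective (n := Fin 2) (R := F))
  have hle' : ∀ g, ψ g ∈ MonoidHom.range ιP := fun g => by rw [range_toPGL_psl]; exact hle ⟨g, rfl⟩
  refine ⟨e.symm.toMonoidHom.comp (ψ.codRestrict _ hle'), ?_, ?_⟩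
  · refine e.symm.injective.comp fun a b h => ?_
    have h' := congrArg Subtype.val h
    exact hψi h'
  · rintro _ ⟨g, rfl⟩
    show ιP (e.symm ⟨ψ g, hle' g⟩) ∈ M
    rw [show ιP (e.symm ⟨ψ g, hle' g⟩) = ψ g from
      congrArg Subtype.val (e.apply_symm_apply ⟨ψ g, hle' g⟩)]
    exact (i.symm _).2

/-- The `S₄` case. -/
theorem s4_case [DecidableEq (AlgebraicClosure F)] (p : ℕ) [Fact p.Prime] [CharP F p]
    (hqp : Fintype.card F = p) (hodd : Odd (Fintype.card F)) (h2 : ¬ IsSquare (2 : F))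
    (h40 : Fintype.card F % 40 ∉ ({11, 19, 21, 29} : Finset ℕ)) (h8 : Fintype.card F % 8 = 3 ∨ Fintype.card F % 8 = 5)
    {M : Subgroup PGL(2, F)} (i : M ≃* Equiv.Perm (Fin 4)) (hne : M.comap ιP ≠ ⊤) :
    IsCoatom (M.comap ιP) := by
  obtain ⟨φ, hφ, hφM⟩ := exists_alt_hom hodd i
  have hp2 : p ≠ 2 := (odd_card_iff p).mp hodd
  have h12 : Nat.card φ.range = 12 := by
    rw [← Nat.card_congr (MonoidHom.ofInjective hφ).toEquiv, Nat.card_eq_fintype_card]; decide +kernel
  rcases eq_top_or_exists_le_coatom (M.comap ιP) with htop | ⟨N, hN, hle⟩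
  · exact absurd htop hne
  suffices h : Nat.card N ≤ 12 by
    rwa [Subgroup.eq_of_le_of_card_ge hle (h.trans (h12 ▸ Subgroup.card_le_of_le hφM))]
  have hmem : ∀ g, φ g ∈ N := fun g => hle (hφM ⟨g, rfl⟩)
  have hNtop : Nat.card N ≠ Nat.card (Matrix.ProjectiveSpecialLinearGroup (Fin 2) F) :=
    fun h => hN.1 (Subgroup.eq_top_of_card_eq N h)
  obtain ⟨a, b, ha, hb, hab⟩ : ∃ a b : alternatingGroup (Fin 4), a ^ 3 = 1 ∧ b ^ 3 = 1 ∧ a * b ≠ b * a := by
    decide +kernel
  let φN : alternatingGroup (Fin 4) →* N := φ.codRestrict N hmem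
  have hφN : Function.Injective φN := fun u v h => hφ (congrArg Subtype.val h)
  have hcard := psl_two_mul_card hodd
  rcases classify_psl p N with ⟨z, hz⟩ | ⟨hc, -, -⟩ | ⟨n, -, -, ⟨j⟩, -⟩ | ⟨-, ⟨j⟩⟩ | ⟨-, ⟨j⟩⟩ |
    ⟨-, ⟨j⟩⟩ | ⟨L, m, hm, h⟩
  · exact absurd (fun d => hz (hmem d))
      (not_alt_four_fixed p hp2 (MonoidHom.comp ιP φ)
        (ProjectiveSpecialLinearGroup.toPGL_injective.comp hφ) z)
  · exact absurd (hφN (by
      rw [map_mul, map_mul]
      exact Std.Commutative.comm (op := (· * ·)) (φN a) (φN b))) hab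
  · exfalso
    have hrot : ∀ g : DihedralGroup n, g ^ 3 = 1 → ∃ k, g = DihedralGroup.r k := by
      rintro (k | k) hg
      · exact ⟨k, rfl⟩
      · rw [pow_succ, pow_two, DihedralGroup.sr_mul_self, one_mul, DihedralGroup.one_def] at hg
        cases hg
    obtain ⟨k, hk⟩ := hrot (j (φN a)) (by rw [← map_pow, ← map_pow, ha, map_one, map_one])
    obtain ⟨l, hl⟩ := hrot (j (φN b)) (by rw [← map_pow, ← map_pow, hb, map_one, map_one])
    refine hab (hφN (j.injective ?_))
    rw [map_mul, map_mul, map_mul, map_mul, hk, hl, DihedralGroup.r_mul_r, DihedralGroup.r_mul_r, add_comm]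
  · rw [Nat.card_congr j.toEquiv, Nat.card_eq_fintype_card]; decide +kernel
  · exfalso
    obtain ⟨x, y, hxy, -⟩ := exists_quat_param (F := F)
    have h2F : (2 : F) ≠ 0 := CfsgLib.SL2.two_ne_zero_iff_odd.mpr hodd
    let ψ : Equiv.Perm (Fin 4) →* PGL(2, F) := MonoidHom.comp ιP (N.subtype.comp j.symm.toMonoidHom)
    obtain ⟨k, hk⟩ := conj_perm_four hxy h2F ψ
      (ProjectiveSpecialLinearGroup.toPGL_injective.comp (N.subtype_injective.comp j.symm.injective))
    refine not_quatN_le_range_toPGL hxy h2F h2 ?_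
    rw [← hk]
    rintro _ ⟨_, ⟨g, rfl⟩, rfl⟩
    refine toPGL_range_normal.conj_mem _ ?_ k
    rw [← range_toPGL_psl]
    exact ⟨_, rfl⟩
  · exfalso
    have h60 : Nat.card N = 60 := by
      rw [Nat.card_congr j.toEquiv, Nat.card_eq_fintype_card]; decide +kernel
    have hd : 5 ∣ Fintype.card F * (Fintype.card F ^ 2 - 1) := by
      rw [← hcard]
      exact Dvd.dvd.mul_left (dvd_trans (by rw [h60]; norm_num) N.card_subgroup_dvd_card) 2
    have hne5 : Fintype.card F ≠ 5 := fun h => by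
      rw [h] at hcard; omega
    have hd' : 5 ∣ Fintype.card F ^ 2 - 1 :=
      ((Nat.Prime.dvd_mul (by norm_num)).mp hd).resolve_left fun h => hne5 <| hqp.trans
        ((Nat.prime_dvd_prime_iff_eq (by norm_num) Fact.out).mp (hqp ▸ h)).symm
    have hpos : 1 ≤ Fintype.card F ^ 2 := Nat.one_le_pow _ _ Fintype.card_pos
    have e : Fintype.card F ^ 2 % 5 = 1 := by omega
    rw [Nat.pow_mod] at e
    have : ∀ a < 5, a ^ 2 % 5 = 1 → a = 1 ∨ a = 4 := by decide
    have := this _ (Nat.mod_lt _ (by norm_num)) e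
    simp only [Finset.mem_insert, Finset.mem_singleton, not_or] at h40
    omega
  · exfalso
    have : Fintype L := Fintype.ofFinite L
    rw [Nat.card_eq_fintype_card] at hm
    have hm1 : m = 1 := by
      have hp : p.Prime := Fact.out
      rw [hqp] at hm
      exact (Nat.Prime.pow_eq_iff hp).mp hm |>.2
    rw [hm1, pow_one] at hm
    have hle := Subgroup.card_le_card_group N
    rcases h with ⟨⟨j⟩, -⟩ | ⟨-, ⟨j⟩⟩
    · rw [Nat.card_congr j.toEquiv, card_pgl2, hm] at hle
      have e : (Fintype.card F + 1) * (Fintype.card F * (Fintype.card F - 1)) =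
          Fintype.card F * (Fintype.card F ^ 2 - 1) := by
        rw [pow_two, show 1 = 1 * 1 from rfl, Nat.mul_self_sub_mul_self_eq]; ring
      have : 0 < Nat.card (Matrix.ProjectiveSpecialLinearGroup (Fin 2) F) := Nat.card_pos
      omega
    · refine hNtop ?_
      have hc := psl_two_mul_card (F := L) (hm ▸ hodd)
      rw [hm, ← Nat.card_congr j.toEquiv] at hc
      omega

/-- The subfield case. -/
theorem subfield_case [DecidableEq (AlgebraicClosure F)] (p : ℕ) [Fact p.Prime] [CharP F p]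
    (hodd : Odd (Fintype.card F)) {M : Subgroup PGL(2, F)} {L : Subfield F} {k : PGL(2, F)}
    (hL : M.map (MulAut.conj k).toMonoidHom = (pglMap L.subtype).range) {r : ℕ} (hr : r.Prime)
    (hro : Odd r) (hm : Nat.card L ^ r = Fintype.card F) (hne : M.comap ιP ≠ ⊤) :
    IsCoatom (M.comap ιP) := by
  have : Fintype L := Fintype.ofFinite L
  rw [Nat.card_eq_fintype_card] at hm
  have hLodd : Odd (Fintype.card L) := (Nat.odd_pow_iff hr.ne_zero).mp (hm ▸ hodd)
  have hQ : 3 ≤ Fintype.card L := by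
    have h : 1 < Fintype.card L := Fintype.one_lt_card
    have := Nat.odd_iff.mp hLodd
    omega
  set P := (pslImage L.subtype).map (MulAut.conj k⁻¹).toMonoidHom with hP
  have hPM : P ≤ M := by
    rintro _ ⟨g, hg, rfl⟩
    obtain ⟨u, hu, hug⟩ := hL.ge (pslImage_le _ hg)
    rw [← hug]
    simpa [mul_assoc] using hu
  have hPL : P ≤ (ιP).range := by
    rw [range_toPGL_psl]
    rintro _ ⟨g, hg, rfl⟩
    exact toPGL_range_normal.conj_mem _ (pslImage_le_range_toPGL _ hg) _
  have hPc : 2 * Nat.card (P.comap ιP) = Fintype.card L * (Fintype.card L ^ 2 - 1) := by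
    rw [← Subgroup.card_map_of_injective
      (ProjectiveSpecialLinearGroup.toPGL_injective (n := Fin 2) (R := F)),
      Subgroup.map_comap_eq, inf_eq_right.mpr hPL, hP, card_map_conj, card_pslImage,
      psl_two_mul_card hLodd]
  rcases eq_top_or_exists_le_coatom (M.comap ιP) with htop | ⟨N, hN, hle⟩
  · exact absurd htop hne
  have hPN : P.comap ιP ≤ N := (Subgroup.comap_mono hPM).trans hle
  suffices h : 2 * Nat.card N ≤ Fintype.card L * (Fintype.card L ^ 2 - 1) by
    rwa [Subgroup.eq_of_le_of_card_ge hle]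
    have := Subgroup.card_le_of_le (Subgroup.comap_mono (f := ιP) hPM)
    omega
  have hdiv : Fintype.card L * (Fintype.card L ^ 2 - 1) ∣ 2 * Nat.card N :=
    hPc ▸ Nat.mul_dvd_mul_left 2 (Subgroup.card_dvd_of_le hPN)
  obtain ⟨a, hpp, ha⟩ := FiniteField.card L p
  set Q := Fintype.card L with hQdef
  have hQ1 : Q + 1 ∣ Q ^ 2 - 1 := ⟨Q - 1, by
    rw [pow_two, show 1 = 1 * 1 from rfl, Nat.mul_self_sub_mul_self_eq]⟩
  have hQr : Q + 1 ∣ Q ^ r + 1 := by simpa using hro.nat_add_dvd_pow_add_pow Q 1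
  have hq2 : Q + 1 ∣ Fintype.card F + 1 := hm ▸ hQr
  have hcoF : (Q + 1).Coprime (Fintype.card F) := hm ▸ Nat.Coprime.pow_right r (by simp)
  have hlt : Q < Fintype.card F := hm ▸ lt_self_pow₀ (by omega) hr.one_lt
  have hF2 := Nat.odd_iff.mp hodd
  have key : ∀ t, Q + 1 ∣ t * (Fintype.card F - 1) → Q + 1 ∣ 2 * t := fun t ht => by
    have h := Nat.dvd_sub (hq2.mul_left t) ht
    rwa [← Nat.mul_sub, show Fintype.card F + 1 - (Fintype.card F - 1) = 2 by omega, mul_comm] at h
  rcases _root_.Cfsg.Agent.S5892.result p hodd (by omega) N hN with h | ⟨-, l, hl, ⟨j⟩⟩ |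
    ⟨-, -, l, hl, ⟨j⟩⟩ | ⟨K, _, _, hK, ⟨j⟩⟩ | ⟨K, _, _, r', hr', hro', hK, ⟨j⟩⟩ |
    ⟨-, h5, -⟩ | ⟨h5, -, -, -⟩ | ⟨h5, -, -⟩
  · exfalso
    have h1 : Q + 1 ∣ Fintype.card F * (Fintype.card F - 1) := h ▸ ((hQ1.mul_left Q).trans hdiv)
    have h2 := key 1 (by rw [one_mul]; exact hcoF.dvd_of_dvd_mul_left h1)
    have := Nat.le_of_dvd (by omega) h2
    omega
  · exfalso
    rw [Nat.card_congr j.toEquiv, DihedralGroup.nat_card, hl] at hdiv
    have h1 : p ∣ 2 * (Fintype.card F - 1) :=
      ((ha ▸ dvd_pow_self p a.pos.ne').trans (dvd_mul_right _ _)).trans hdiv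
    have h2 : p ∣ 2 * Fintype.card F :=
      Dvd.dvd.mul_left (hm ▸ (ha ▸ dvd_pow_self p a.pos.ne').trans (dvd_pow_self _ hr.ne_zero)) 2
    have h3 := Nat.dvd_sub h2 h1
    rw [← Nat.mul_sub, show Fintype.card F - (Fintype.card F - 1) = 1 by omega] at h3
    exact (odd_card_iff p).mp hodd ((Nat.prime_dvd_prime_iff_eq hpp Nat.prime_two).mp h3)
  · exfalso
    rw [Nat.card_congr j.toEquiv, DihedralGroup.nat_card, hl] at hdiv
    have h1 : p ∣ 2 * (Fintype.card F + 1) :=
      ((ha ▸ dvd_pow_self p a.pos.ne').trans (dvd_mul_right _ _)).trans hdiv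
    have h2 : p ∣ 2 * Fintype.card F :=
      Dvd.dvd.mul_left (hm ▸ (ha ▸ dvd_pow_self p a.pos.ne').trans (dvd_pow_self _ hr.ne_zero)) 2
    have h3 := Nat.dvd_sub h1 h2
    rw [← Nat.mul_sub, show Fintype.card F + 1 - Fintype.card F = 1 by omega] at h3
    exact (odd_card_iff p).mp hodd ((Nat.prime_dvd_prime_iff_eq hpp Nat.prime_two).mp h3)
  · exfalso
    classical
    rw [Nat.card_congr j.toEquiv, card_pgl2] at hdiv
    have he : (Fintype.card K + 1) * (Fintype.card K * (Fintype.card K - 1)) =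
        Fintype.card K * (Fintype.card F - 1) := by
      rw [hK, pow_two (Fintype.card K), show 1 = 1 * 1 from rfl, Nat.mul_self_sub_mul_self_eq]; ring
    rw [he] at hdiv
    have hcoK : (Q + 1).Coprime (Fintype.card K) :=
      Nat.Coprime.coprime_dvd_right (hK ▸ dvd_pow_self _ two_ne_zero) hcoF
    have h1 : Q + 1 ∣ Fintype.card K * (2 * (Fintype.card F - 1)) := by
      rw [mul_left_comm]; exact (hQ1.mul_left Q).trans hdiv
    have h2 := key 2 (hcoK.dvd_of_dvd_mul_left h1)
    have hQ3 : Q = 3 := by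
      have := Nat.le_of_dvd (by norm_num) h2
      omega
    obtain ⟨t, ht⟩ := hro
    have h3 : Fintype.card F % 8 = 3 := by
      rw [← hm, hQ3, ht, pow_succ, pow_mul, Nat.mul_mod, Nat.pow_mod]; simp
    rw [hK, Nat.pow_mod] at h3
    have : ∀ c < 8, c ^ 2 % 8 ≠ 3 := by decide
    exact this _ (Nat.mod_lt _ (by norm_num)) h3
  · have hKodd : Odd (Fintype.card K) := (Nat.odd_pow_iff hr'.ne_zero).mp (hK ▸ hodd)
    classical
    have hc := psl_two_mul_card (F := K) hKodd
    rw [← Nat.card_congr j.toEquiv] at hc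
    rw [hc] at hdiv ⊢
    have : CharP K p := charP_of_card_eq_pow p hK
    obtain ⟨b, -, hb⟩ := FiniteField.card K p
    -- `a` divides `b`
    have hco : (Q ^ 2 - 1).Coprime (Fintype.card K) := by
      rw [hb]
      refine Nat.Coprime.pow_right _ (Nat.Coprime.symm (hpp.coprime_iff_not_dvd.mpr fun h => ?_))
      have h' : p ∣ Q ^ 2 := dvd_pow (ha ▸ dvd_pow_self p a.pos.ne') two_ne_zero
      have h3 := Nat.dvd_sub h' h
      rw [show Q ^ 2 - (Q ^ 2 - 1) = 1 by have := Nat.one_le_pow 2 Q (by omega); omega] at h3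
      exact hpp.one_lt.ne' (Nat.dvd_one.mp h3)
    have h1 : Q ^ 2 - 1 ∣ Fintype.card K ^ 2 - 1 :=
      hco.dvd_of_dvd_mul_left ((dvd_mul_left _ _).trans hdiv)
    rw [ha, hb, ← pow_mul, ← pow_mul, ← Nat.gcd_eq_left_iff_dvd, Nat.pow_sub_one_gcd_pow_sub_one] at h1
    have h2 : Nat.gcd ((a : ℕ) * 2) (b * 2) = a * 2 := by
      have e1 : 1 ≤ p ^ Nat.gcd ((a : ℕ) * 2) (b * 2) := Nat.one_le_pow _ _ hpp.pos
      have e2 : 1 ≤ p ^ ((a : ℕ) * 2) := Nat.one_le_pow _ _ hpp.pos
      exact Nat.pow_right_injective hpp.two_le (by show p ^ _ = p ^ _; omega)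
    obtain ⟨c, hc'⟩ : (a : ℕ) ∣ b := by
      have := Nat.gcd_eq_left_iff_dvd.mp h2
      exact Nat.dvd_of_mul_dvd_mul_right (by norm_num) this
    have h3 : Q ^ r = Q ^ (c * r') := by
      rw [hm, hK, hb, hc', ha, ← pow_mul, ← pow_mul]; ring
    have h4 := Nat.pow_right_injective (show 2 ≤ Q by omega) h3
    have hc1 : c = 1 := by
      rcases Nat.prime_mul_iff.mp (h4 ▸ hr) with ⟨-, h⟩ | ⟨-, h⟩
      · exact absurd h hr'.ne_one
      · exact h
    rw [show Fintype.card K = Q by rw [hb, ha, hc', hc1, mul_one]]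
  · exfalso
    rw [← hm, ha, ← pow_mul] at h5
    have h3 : 3 ≤ (a : ℕ) * r := by
      obtain ⟨t, ht⟩ := hro
      have := hr.two_le
      exact le_trans (show 3 ≤ r by omega) (Nat.le_mul_of_pos_left _ a.pos)
    rcases h5 with h5 | ⟨h5, -⟩
    · have := Nat.pow_right_injective hpp.two_le (h5.trans (pow_one p).symm); omega
    · have := Nat.pow_right_injective hpp.two_le h5; omega
  · exfalso
    rw [← hm, ha, ← pow_mul] at h5
    have h3 := Nat.pow_right_injective hpp.two_le (h5.trans (pow_one p).symm)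
    exact hr.ne_one (Nat.eq_one_of_mul_eq_one_left h3)
  · exfalso
    rw [← hm, ha, ← pow_mul] at h5
    have h3 := Nat.pow_right_injective hpp.two_le (h5.trans (pow_one p).symm)
    exact hr.ne_one (Nat.eq_one_of_mul_eq_one_left h3)

end

set_option maxHeartbeats 1000000 in
/-- Let F be a finite field with q ≥ 4 elements, let L ≤ PGL₂(F) be the image of SL₂(F) (a copy of PSL₂(F), of index gcd(2, q − 1)), and let M be a maximal subgroup of PGL₂(F) that does not contain L. Suppose q ∉ {7, 9, 11} and that q is not a prime congruent to ±11 or ±19 modulo 40. Then M ∩ L is a maximal subgroup of L. (For the excluded q there are maximal subgroups of PGL₂(q) — dihedral groups of order 12 and 16 at q = 7, of order 20 and 16 at q = 9, of order 20 at q = 11, and S₄ at the excluded primes — whose intersection with L is not maximal in L.) -/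
theorem result {F : Type*} [Field F]
    [Fintype F] (h4 : 4 ≤ Fintype.card F) (h7 : Fintype.card F ≠ 7) (h9 : Fintype.card F ≠ 9) (h11 : Fintype.card F ≠ 11)
    (h40 : (Fintype.card F).Prime → Fintype.card F % 40 ∉ ({11, 19, 21, 29} : Finset ℕ))
    (M : Subgroup (Matrix.ProjGenLinGroup (Fin 2) F)) (hM : IsCoatom M)
    (hML : ¬ (Matrix.ProjGenLinGroup.mk.comp Matrix.SpecialLinearGroup.toGL).range ≤ M) :
    IsCoatom ((M ⊓ (Matrix.ProjGenLinGroup.mk.comp Matrix.SpecialLinearGroup.toGL).range).subgroupOf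
      (Matrix.ProjGenLinGroup.mk.comp Matrix.SpecialLinearGroup.toGL).range) := by
  classical
  set Λ := (SpecialLinearGroup.toPGL (n := Fin 2) (R := F)).range with hΛ
  show IsCoatom ((M ⊓ Λ).subgroupOf Λ)
  refine isCoatom_inf ?_
  have hML' : ¬ Λ ≤ M := hML
  have hne : M.comap (ProjectiveSpecialLinearGroup.toPGL (n := Fin 2) (R := F)) ≠ ⊤ := fun h => by
    refine hML' ?_
    rw [hΛ, ← range_toPGL_psl]
    rintro _ ⟨g, rfl⟩
    exact (h ▸ Subgroup.mem_top g : g ∈ M.comap _)
  obtain ⟨p, hp⟩ := CharP.exists F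
  have : Fact p.Prime := ⟨CharP.char_is_prime F p⟩
  rcases Nat.even_or_odd (Fintype.card F) with he | hodd
  · have hsurj : Function.Surjective (ProjectiveSpecialLinearGroup.toPGL (n := Fin 2) (R := F)) := by
      rw [← MonoidHom.range_eq_top, range_toPGL_psl, ← Subgroup.index_eq_one, index_toPGL_range]
      rcases gcd_two_pred (F := F) with ⟨-, hd⟩ | ⟨ho, -⟩
      · exact hd
      · exact absurd he (Nat.not_even_iff_odd.mpr ho)
    let e := MulEquiv.ofBijective (ProjectiveSpecialLinearGroup.toPGL (n := Fin 2) (R := F))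
      ⟨ProjectiveSpecialLinearGroup.toPGL_injective, hsurj⟩
    refine (e.mapSubgroup.isCoatom_iff _).mp ?_
    rw [show e.mapSubgroup (M.comap (ProjectiveSpecialLinearGroup.toPGL (n := Fin 2) (R := F))) = M from
      Subgroup.map_comap_eq_self_of_surjective hsurj M]
    exact hM
  obtain ⟨n, hpp, hn⟩ := FiniteField.card F p
  have h2 : (2 : F) ≠ 0 := CfsgLib.SL2.two_ne_zero_iff_odd.mpr hodd
  have hΛn : Λ.Normal := toPGL_range_normal
  have hidx : Λ.index = 2 := by
    rw [hΛ, index_toPGL_range]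
    rcases gcd_two_pred (F := F) with ⟨he, -⟩ | ⟨-, hd⟩
    · exact absurd hodd (Nat.not_odd_iff_even.mpr he)
    · exact hd
  have hnotle : ¬ M ≤ Λ := fun hle => hML' (eq_of_isCoatom_le hM hle fun h => by
      rw [h, Subgroup.index_top] at hidx; omega).symm.le
  have hcardG : Nat.card PGL(2, F) = (Fintype.card F + 1) * (Fintype.card F * (Fintype.card F - 1)) := by
    rw [card_pgl2]
  have hconj : ∀ {k : PGL(2, F)} {N : Subgroup PGL(2, F)},
      M.map (MulAut.conj k).toMonoidHom ≤ N → ¬ N ≤ Λ := by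
    intro k N hMN hNL
    refine hnotle fun g hg => ?_
    have := hΛn.conj_mem _ (hNL (hMN ⟨g, hg, rfl⟩)) k⁻¹
    simpa [mul_assoc] using this
  have hbigger : ∀ {k : PGL(2, F)} {N : Subgroup PGL(2, F)},
      M.map (MulAut.conj k).toMonoidHom ≤ N → Nat.card M < Nat.card N →
      Nat.card N < Nat.card PGL(2, F) → False := fun {k N} hle h1 h2 =>
    not_isCoatom_of_card hM (le_map_conj_inv hle) (by rwa [card_map_conj]) (by rwa [card_map_conj])
  obtain ⟨x, y, hxy, hS⟩ := exists_quat_param (F := F)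
  have hbotc := card_bot_subfield (F := F) p
  have hpair : (IsCyclic M ∧ ¬ p ∣ Nat.card M) ∨
      (∃ k, 2 ≤ k ∧ ¬ p ∣ k ∧ Nonempty (M ≃* DihedralGroup k)) →
      IsCoatom (M.comap (ProjectiveSpecialLinearGroup.toPGL (n := Fin 2) (R := F))) := by
    intro h
    obtain ⟨a, b, hab, hle⟩ := le_pairN_of_cyclic_or_dihedral p h
    have heq := eq_of_isCoatom_le hM hle (pairN_ne_top hab (by omega))
    subst heq
    show IsCoatom (pslPairN a b)
    rcases hab.pslPairN_dihedral with ⟨⟨i⟩, ha, hb⟩ | ⟨⟨i⟩, -⟩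
    · refine isCoatom_pslPairN_rat h4 (fun h5 => ?_) h7 h9 h11 i
      obtain ⟨φ, -, -, h24, -⟩ := exists_s4Hom hxy h2
      have hMc : Nat.card (pairN a b) = 8 := by
        have e := CfsgLib.Dickson.pairN_dihedral hab.1 (exists_swap_rat hab.1 ha hb)
        rw [card_pairT_rat hab.1 ha hb] at e
        obtain ⟨e⟩ := e
        rw [Nat.card_congr e.toEquiv, DihedralGroup.nat_card, h5]
      rw [h5] at hcardG
      norm_num [-Nat.card_eq_fintype_card] at hcardG
      exact not_isCoatom_sylow 2 (k := 3) (hk := by rw [hcardG]; norm_num) (hM := hM)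
        (hMc := by rw [hMc]; norm_num) (H := quatN x y) (by rw [h24]; norm_num) (by rw [h24]; norm_num)
        (by rw [h24, hcardG]; norm_num)
    · exact isCoatom_pslPairN_quad h4 h7 h9 i
  rcases classify_finite' p M with ⟨z, hz⟩ | hc | ⟨k, hk, hpk, hi⟩ | ⟨-, ⟨i⟩⟩ |
    ⟨h24, ⟨i⟩⟩ | ⟨-, ⟨i⟩⟩ | ⟨L, k, hL⟩
  · rw [eq_of_isCoatom_le hM hz (stabilizer_pgl_ne_top z)]
    exact isCoatom_pslStab h4 z
  · exact hpair (Or.inl hc)
  · exact hpair (Or.inr ⟨k, hk, hpk, hi⟩)
  · exact absurd (Cfsg.Agent.S5891.le_of_index_two_of_alternating hidx i) hnotle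
  · -- `S₄`
    obtain ⟨k, hk⟩ := conj_perm_four hxy h2 (M.subtype.comp i.symm.toMonoidHom)
      (M.subtype_injective.comp i.symm.injective)
    rw [show (M.subtype.comp i.symm.toMonoidHom).range = M by
      rw [MonoidHom.range_comp, MonoidHom.range_eq_top.mpr i.symm.surjective, ← MonoidHom.range_eq_map,
        Subgroup.range_subtype]] at hk
    have hns : ¬ IsSquare (2 : F) := fun ⟨s, hs⟩ => hconj
      (hk.le.trans (quatN_le_pslImage hxy h2 (hS ⊤).1 (hS ⊤).2 (mem_top_subfield s) hs.symm))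
      (pslImage_le_range_toPGL _)
    have hM24 : Nat.card M = 24 := by
      rw [Nat.card_congr i.toEquiv, Nat.card_perm, Nat.card_eq_fintype_card, Fintype.card_fin]; rfl
    have hn1 : (n : ℕ) = 1 := by
      by_contra hne'
      have h5 : 5 ≤ p := by
        have := hpp.two_le
        by_contra h
        interval_cases p
        · exact (odd_card_iff 2).mp hodd rfl
        · exact h24 (by norm_num)
        · norm_num at hpp
      have hlt : p < Fintype.card F := by
        rw [hn]; exact lt_self_pow₀ hpp.one_lt (by have := n.pos; omega)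
      refine hbigger (k := k) (hk.le.trans (quatN_le_range hxy h2 (hS ⊥).1 (hS ⊥).2)) ?_ ?_
      · rw [hM24, card_pglMap_range, hbotc]
        have : 20 ≤ p * (p - 1) := le_trans (by norm_num) (Nat.mul_le_mul h5 (show 4 ≤ p - 1 by omega))
        nlinarith
      · rw [card_pglMap_range, hbotc, hcardG]
        exact pgl_order_lt hpp.two_le hlt
    have hqp : Fintype.card F = p := by rw [hn, hn1, pow_one]
    have h8 : Fintype.card F % 8 = 3 ∨ Fintype.card F % 8 = 5 := by
      by_contra h8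
      exact hns (FiniteField.isSquare_two_iff.mpr (by omega))
    exact s4_case p hqp hodd hns (h40 (hqp ▸ hpp)) h8 i hne
  · exact absurd (Cfsg.Agent.S5891.le_of_index_two_of_alternating hidx i) hnotle
  · rcases hL with hL | ⟨-, hL⟩
    · obtain ⟨m, hm0, hm⟩ := exists_pow_card L
      have : Fintype L := Fintype.ofFinite L
      have hmF : Fintype.card L ^ m = Fintype.card F := by rw [← Nat.card_eq_fintype_card, hm]
      have hQ : 2 ≤ Nat.card L := Finite.one_lt_card
      have hmodd : Odd m := Nat.not_even_iff_odd.mp fun he =>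
        hconj hL.le (pglMap_range_le_toPGL _ hodd he hmF)
      have hcM : Nat.card M = Nat.card (pglMap L.subtype).range := by rw [← hL, card_map_conj]
      have hm1 : m ≠ 1 := fun h => by
        rw [h, pow_one] at hm
        refine hM.1 (Subgroup.eq_top_of_card_eq _ ?_)
        rw [hcM, card_pglMap_range, hcardG, hm]
      have hr : m.Prime := by
        by_contra hnp
        obtain ⟨d, hd, hd2, hdm⟩ := Nat.exists_dvd_of_not_prime2 (by omega) hnp
        obtain ⟨L₁, hle, hL₁⟩ := exists_intermediate L hd hm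
        refine hbigger (k := k)
          (hL.le.trans (pglMap_range_mono L.subtype L₁.subtype fun a => ⟨⟨a, hle a.2⟩, rfl⟩)) ?_ ?_
        · rw [hcM, card_pglMap_range, card_pglMap_range, hL₁]
          exact pgl_order_lt hQ (lt_self_pow₀ (by omega) (by omega))
        · rw [card_pglMap_range, hcardG, hL₁]
          exact pgl_order_lt (hQ.trans (Nat.le_self_pow (by omega) _))
            (hm ▸ Nat.pow_lt_pow_right (by omega) hdm)
      exact subfield_case p hodd hL hr hmodd hm hne
    · exact absurd (pslImage_le_range_toPGL _) (hconj hL.le)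

end Cfsg.Agent.S5890
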