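import Cfsg.Statements.S5895
import Cfsg.Agent.Perm.LinExtend

set_option autoImplicit false
open Cfsg

namespace Cfsg.Agent.S5895

theorem affine_second_max_example (p d : ℕ) [Fact p.Prime] (hd : 2 ≤ d) :
    ∃ (G : Type) (_ : Group G) (_ : Finite G) (M H K : Subgroup G), IsCoatom M ∧ M.index = p ^ d ∧
      H ≤ M ∧ IsCoatom (H.subgroupOf M) ∧ IsCoatom K ∧ H ≤ K ∧ ¬ IsCoatom (H.subgroupOf K) := by
  classical
  haveI : Finite ((Fin d → ZMod p) ≃ₗ[ZMod p] (Fin d → ZMod p)) :=
    Finite.of_injective (fun e : (Fin d → ZMod p) ≃ₗ[ZMod p] (Fin d → ZMod p) => (e : (Fin d → ZMod p) → (Fin d → ZMod p))) DFunLike.coe_injective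
  let φ : ((Fin d → ZMod p) ≃ₗ[ZMod p] (Fin d → ZMod p)) →* MulAut (Multiplicative (Fin d → ZMod p)) :=
    { toFun := fun e => AddEquiv.toMultiplicative e.toAddEquiv
      map_one' := by ext x; rfl
      map_mul' := fun e e' => by ext x; rfl }
  let G := Multiplicative (Fin d → ZMod p) ⋊[φ] ((Fin d → ZMod p) ≃ₗ[ZMod p] (Fin d → ZMod p))
  haveI : Finite G := Finite.of_equiv _ SemidirectProduct.equivProd.symm
  haveI : Nontrivial (Fin d) := Fin.nontrivial_iff_two_le.mpr hd
  let e0 : (Fin d → ZMod p) := Pi.single ⟨0, by omega⟩ 1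
  let e1 : (Fin d → ZMod p) := Pi.single ⟨1, by omega⟩ 1
  have he0 : e0 ≠ 0 := fun h => one_ne_zero (α := ZMod p) (by simpa [e0] using congrFun h ⟨0, by omega⟩)
  have he1 : e1 ≠ 0 := fun h => one_ne_zero (α := ZMod p) (by simpa [e1] using congrFun h ⟨1, by omega⟩)
  let x0 : Projectivization (ZMod p) (Fin d → ZMod p) := Projectivization.mk (ZMod p) e0 he0
  let S : Subgroup ((Fin d → ZMod p) ≃ₗ[ZMod p] (Fin d → ZMod p)) := MulAction.stabilizer ((Fin d → ZMod p) ≃ₗ[ZMod p] (Fin d → ZMod p)) x0
  have hne : Nontrivial (Projectivization (ZMod p) (Fin d → ZMod p)) := by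
    refine ⟨x0, Projectivization.mk (ZMod p) e1 he1, ?_⟩
    intro h
    rw [Projectivization.mk_eq_mk_iff'] at h
    obtain ⟨c, hc⟩ := h
    have := congrFun hc ⟨0, by omega⟩
    simp [e0, e1] at this
  haveI : MulAction.IsPreprimitive ((Fin d → ZMod p) ≃ₗ[ZMod p] (Fin d → ZMod p)) (Projectivization (ZMod p) (Fin d → ZMod p)) :=
    MulAction.isPreprimitive_of_is_two_pretransitive
      (Projectivization.linearEquiv_is_two_pretransitive (ZMod p) (Fin d → ZMod p))
  have hS : IsCoatom S := MulAction.IsPreprimitive.isCoatom_stabilizer_of_isPreprimitive _ x0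
  let M : Subgroup G := (SemidirectProduct.inr (φ := φ)).range
  let H : Subgroup G := S.map (SemidirectProduct.inr (φ := φ))
  let K : Subgroup G := S.comap (SemidirectProduct.rightHom (φ := φ))
  have hmemM : ∀ x : G, x ∈ M ↔ x.left = 1 := by
    intro x
    constructor
    · rintro ⟨g, rfl⟩
      exact SemidirectProduct.left_inr g
    · intro h
      exact ⟨x.right, by ext <;> simp [h]⟩
  refine ⟨G, inferInstance, inferInstance, M, H, K, ?_, ?_, ?_, ?_, ?_, ?_, ?_⟩
  · constructor
    · intro h
      have : (SemidirectProduct.inl (Multiplicative.ofAdd e0) : G) ∈ M := h ▸ Subgroup.mem_top _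
      rw [hmemM] at this
      exact he0 (by simpa using this)
    · intro L hL
      obtain ⟨x, hxL, hxM⟩ := SetLike.exists_of_lt hL
      rw [hmemM] at hxM
      have hinr : ∀ g, (SemidirectProduct.inr g : G) ∈ L := fun g => hL.le ⟨g, rfl⟩
      have hv : (SemidirectProduct.inl x.left : G) ∈ L := by
        have := L.mul_mem hxL (L.inv_mem (hinr x.right))
        convert this using 1
        rw [eq_mul_inv_iff_mul_eq, SemidirectProduct.inl_left_mul_inr_right]
      have hall : ∀ v : (Fin d → ZMod p), v ≠ 0 → (SemidirectProduct.inl (Multiplicative.ofAdd v) : G) ∈ L := by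
        intro v hv0
        have hx0 : Multiplicative.toAdd x.left ≠ 0 := fun h => hxM h
        obtain ⟨A, hA⟩ := CfsgLib.Perm.exists_linearEquiv_map_indep
          (K := ZMod p) (v := fun _ : Fin 1 => Multiplicative.toAdd x.left) (w := fun _ : Fin 1 => v)
          (LinearIndependent.of_subsingleton (0 : Fin 1) hx0) (LinearIndependent.of_subsingleton (0 : Fin 1) hv0)
        have := L.mul_mem (L.mul_mem (hinr A) hv) (hinr A⁻¹)
        rw [← SemidirectProduct.inl_aut] at this
        have e : φ A x.left = Multiplicative.ofAdd v := by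
          rw [← hA 0]; rfl
        rwa [e] at this
      rw [Subgroup.eq_top_iff']
      intro y
      rw [← SemidirectProduct.inl_left_mul_inr_right y]
      refine L.mul_mem ?_ (hinr _)
      by_cases h0 : Multiplicative.toAdd y.left = 0
      · have : y.left = 1 := h0
        rw [this, map_one]; exact L.one_mem
      · exact hall _ h0
  · have hMc : Nat.card M = Nat.card ((Fin d → ZMod p) ≃ₗ[ZMod p] (Fin d → ZMod p)) :=
      Nat.card_congr (MonoidHom.ofInjective SemidirectProduct.inr_injective).toEquiv.symm
    have h := M.card_mul_index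
    rw [SemidirectProduct.card, hMc, Nat.mul_comm (Nat.card (Multiplicative (Fin d → ZMod p)))] at h
    have h2 := Nat.eq_of_mul_eq_mul_left Nat.card_pos h
    rw [h2, Nat.card_congr Multiplicative.toAdd, Nat.card_eq_fintype_card]
    simp
  · exact Subgroup.map_le_range _ _
  · let e : ((Fin d → ZMod p) ≃ₗ[ZMod p] (Fin d → ZMod p)) ≃* M := MonoidHom.ofInjective SemidirectProduct.inr_injective
    have : H.subgroupOf M = S.map e.toMonoidHom := by
      ext ⟨y, hy⟩
      simp only [Subgroup.mem_subgroupOf, H, Subgroup.mem_map]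
      constructor
      · rintro ⟨g, hg, rfl⟩; exact ⟨g, hg, Subtype.ext rfl⟩
      · rintro ⟨g, hg, hgy⟩; exact ⟨g, hg, congrArg Subtype.val hgy⟩
    rw [this]
    exact (OrderIso.isCoatom_iff e.mapSubgroup S).mpr hS
  · constructor
    · intro h
      apply hS.1
      rw [Subgroup.eq_top_iff']
      intro g
      have : (SemidirectProduct.inr g : G) ∈ K := h ▸ Subgroup.mem_top _
      simpa [K] using this
    · intro L hL
      have hker : (SemidirectProduct.rightHom (φ := φ)).ker ≤ L :=
        le_trans (Subgroup.ker_le_comap _ _) hL.le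
      have h1 : (L.map SemidirectProduct.rightHom).comap (SemidirectProduct.rightHom (φ := φ)) = L :=
        Subgroup.comap_map_eq_self hker
      have h2 : S < L.map (SemidirectProduct.rightHom (φ := φ)) := by
        refine lt_of_le_of_ne ?_ ?_
        · rw [← Subgroup.map_comap_eq_self_of_surjective (SemidirectProduct.rightHom_surjective (φ := φ)) S]
          exact Subgroup.map_mono hL.le
        · intro h
          exact hL.ne (by rw [← h1, ← h])
      rw [← h1, hS.2 _ h2, Subgroup.comap_top]
  · rintro _ ⟨g, hg, rfl⟩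
    exact hg
  · intro hc
    let W : Submodule (ZMod p) (Fin d → ZMod p) := Submodule.span (ZMod p) {e0}
    have hSW : ∀ g ∈ S, ∀ w ∈ W, g w ∈ W := by
      intro g hg w hw
      obtain ⟨c, rfl⟩ := Submodule.mem_span_singleton.mp hw
      have h : g • x0 = x0 := hg
      simp only [x0, Projectivization.smul_mk, Projectivization.mk_eq_mk_iff'] at h
      obtain ⟨a, ha⟩ := h
      rw [map_smul]
      refine W.smul_mem c ?_
      have : g • e0 = g e0 := rfl
      rw [← this, ← ha]
      exact W.smul_mem a (Submodule.mem_span_singleton_self _)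
    let J : Subgroup G :=
      { carrier := {x | Multiplicative.toAdd x.left ∈ W ∧ x.right ∈ S}
        one_mem' := ⟨by simp, by simp⟩
        mul_mem' := fun {a b} ha hb => ⟨by
          rw [SemidirectProduct.mul_left, toAdd_mul]
          exact W.add_mem ha.1 (hSW _ ha.2 _ hb.1), S.mul_mem ha.2 hb.2⟩
        inv_mem' := fun {a} ha => ⟨by
          rw [SemidirectProduct.inv_left]
          exact hSW _ (S.inv_mem ha.2) _ (W.neg_mem ha.1), S.inv_mem ha.2⟩ }
    have hJK : J ≤ K := fun x hx => hx.2
    have hHJ : H ≤ J := by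
      rintro _ ⟨g, hg, rfl⟩
      exact ⟨W.zero_mem, hg⟩
    have hlt : H.subgroupOf K < J.subgroupOf K := by
      refine lt_of_le_of_ne (Subgroup.subgroupOf_mono K hHJ) ?_
      intro h
      have hk : (SemidirectProduct.inl (Multiplicative.ofAdd e0) : G) ∈ K := by simp [K]
      have hj : (⟨_, hk⟩ : K) ∈ J.subgroupOf K :=
        ⟨by simp [W, Submodule.mem_span_singleton_self], by simp⟩
      rw [← h, Subgroup.mem_subgroupOf] at hj
      obtain ⟨g, -, hg⟩ := hj
      have h' := congrArg SemidirectProduct.left hg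
      exact he0 (congrArg Multiplicative.toAdd h').symm
    have htop := hc.2 _ hlt
    have hk : (SemidirectProduct.inl (Multiplicative.ofAdd e1) : G) ∈ K := by simp [K]
    have hj : (⟨_, hk⟩ : K) ∈ J.subgroupOf K := htop ▸ Subgroup.mem_top _
    have h1 : e1 ∈ W := by simpa [J, Subgroup.mem_subgroupOf] using hj
    obtain ⟨c, hc1⟩ := Submodule.mem_span_singleton.mp h1
    have := congrFun hc1 ⟨1, by omega⟩
    simp [e0, e1] at this


/-- For every prime p and every d ≥ 2 there is a finite group G with a maximal subgroup M of index p^d and a maximal subgroup H of M that is not second maximal in G: some maximal subgroup K of G contains H without H being maximal in K. (One may take G the affine group V ⋊ GL(V) of V = 𝔽_p^d, M = GL(V), H the stabiliser in M of a line W of V, and K = V ⋊ H, with H < W ⋊ H < K.) So the prime-index hypothesis in the second-maximality criterion cannot be relaxed to prime-power index. -/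
theorem result (p d : ℕ) (hp : p.Prime)
    (hd : 2 ≤ d) :
    ∃ (G : Type) (_ : Group G) (_ : Finite G) (M H K : Subgroup G), IsCoatom M ∧ M.index = p ^ d ∧ H ≤ M ∧
      IsCoatom (H.subgroupOf M) ∧ IsCoatom K ∧ H ≤ K ∧ ¬ IsCoatom (H.subgroupOf K) := by
  haveI : Fact p.Prime := ⟨hp⟩
  exact affine_second_max_example p d hd

end Cfsg.Agent.S5895
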