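import Cfsg.Statements.S5896
import Mathlib
-- import your own Cfsg.Agent.* helpers here

set_option autoImplicit false
open Cfsg

namespace Cfsg.Agent.S5896


open scoped commutatorElement
open Matrix

section SL
variable {R : Type*} [CommRing R]

/-- Upper unipotent. -/
def up (a : R) : SpecialLinearGroup (Fin 2) R := ⟨!![1, a; 0, 1], by simp [Matrix.det_fin_two_of]⟩

/-- Lower unipotent. -/
def lo (a : R) : SpecialLinearGroup (Fin 2) R := ⟨!![1, 0; a, 1], by simp [Matrix.det_fin_two_of]⟩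

/-- Diagonal. -/
def dg (t : Rˣ) : SpecialLinearGroup (Fin 2) R :=
  ⟨!![(t : R), 0; 0, ((t⁻¹ : Rˣ) : R)], by simp [Matrix.det_fin_two_of]⟩

/-- The Weyl element. -/
def wl : SpecialLinearGroup (Fin 2) R := ⟨!![0, -1; 1, 0], by simp [Matrix.det_fin_two_of]⟩

theorem wl_val : ((wl : SpecialLinearGroup (Fin 2) R) : Matrix (Fin 2) (Fin 2) R) = !![0, -1; 1, 0] := rfl

theorem up_val (a : R) : (up a : Matrix (Fin 2) (Fin 2) R) = !![1, a; 0, 1] := rfl

theorem lo_val (a : R) : (lo a : Matrix (Fin 2) (Fin 2) R) = !![1, 0; a, 1] := rfl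

theorem dg_val (t : Rˣ) : (dg t : Matrix (Fin 2) (Fin 2) R) = !![(t : R), 0; 0, ((t⁻¹ : Rˣ) : R)] := rfl

theorem up_mul (a b : R) : up a * up b = up (a + b) := by
  ext i j; fin_cases i <;> fin_cases j <;> simp [up_val, Matrix.SpecialLinearGroup.coe_mul, Matrix.mul_apply, Fin.sum_univ_two] <;> ring

theorem lo_mul (a b : R) : lo a * lo b = lo (a + b) := by
  ext i j; fin_cases i <;> fin_cases j <;> simp [lo_val, Matrix.SpecialLinearGroup.coe_mul, Matrix.mul_apply, Fin.sum_univ_two] <;> ring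

theorem up_zero : up (0 : R) = 1 := by
  ext i j; fin_cases i <;> fin_cases j <;> simp [up_val]

theorem lo_zero : lo (0 : R) = 1 := by
  ext i j; fin_cases i <;> fin_cases j <;> simp [lo_val]

theorem up_inv (a : R) : (up a)⁻¹ = up (-a) :=
  inv_eq_of_mul_eq_one_right (by rw [up_mul, add_neg_cancel, up_zero])

theorem lo_inv (a : R) : (lo a)⁻¹ = lo (-a) :=
  inv_eq_of_mul_eq_one_right (by rw [lo_mul, add_neg_cancel, lo_zero])

theorem dg_mul_up (t : Rˣ) (a : R) : dg t * up a = up ((t : R) * t * a) * dg t := by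
  ext i j; fin_cases i <;> fin_cases j <;> simp [up_val, dg_val, Matrix.SpecialLinearGroup.coe_mul, Matrix.mul_apply, Fin.sum_univ_two]
  linear_combination (-(t : R) * a) * (Units.mul_inv t)

theorem dg_mul_lo (t : Rˣ) (a : R) :
    dg t * lo a = lo (((t⁻¹ : Rˣ) : R) * ((t⁻¹ : Rˣ) : R) * a) * dg t := by
  ext i j; fin_cases i <;> fin_cases j <;> simp [lo_val, dg_val, Matrix.SpecialLinearGroup.coe_mul, Matrix.mul_apply, Fin.sum_univ_two]
  linear_combination (-((t⁻¹ : Rˣ) : R) * a) * (Units.inv_mul t)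

theorem comm_dg_up (t : Rˣ) (a : R) : ⁅dg t, up a⁆ = up (((t : R) * t - 1) * a) := by
  rw [commutatorElement_def, dg_mul_up, mul_inv_cancel_right, up_inv, up_mul]
  congr 1; ring

theorem comm_dg_lo (t : Rˣ) (a : R) :
    ⁅dg t, lo a⁆ = lo ((((t⁻¹ : Rˣ) : R) * ((t⁻¹ : Rˣ) : R) - 1) * a) := by
  rw [commutatorElement_def, dg_mul_lo, mul_inv_cancel_right, lo_inv, lo_mul]
  congr 1; ring

theorem up_mul_lo (x y : R) (t : Rˣ) (ht : (t : R) = 1 + x * y) :
    dg t = (lo (((t⁻¹ : Rˣ) : R) * y))⁻¹ * (up x * lo y) * (up (((t⁻¹ : Rˣ) : R) * x))⁻¹ := by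
  rw [lo_inv, up_inv]
  have e := Units.inv_mul t
  ext i j; fin_cases i <;> fin_cases j <;>
    simp [up_val, lo_val, dg_val, Matrix.SpecialLinearGroup.coe_mul, Matrix.mul_apply, Fin.sum_univ_two]
  · linear_combination ht
  · linear_combination x * e - ((t⁻¹ : Rˣ) : R) * x * ht
  · linear_combination y * e - ((t⁻¹ : Rˣ) : R) * y * ht
  · linear_combination (1 - ((t⁻¹ : Rˣ) : R) * (1 + x * y) + ((t⁻¹ : Rˣ) : R)) * e
      - ((t⁻¹ : Rˣ) : R) * (1 - ((t⁻¹ : Rˣ) : R) * (1 + x * y) + ((t⁻¹ : Rˣ) : R)) * ht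

end SL

theorem pow_five_lift {A : Type*} [Ring A] (i : ℕ) (Y : A) :
    ∃ Z : A, (1 + (5 : A) ^ (i + 1) * Y) ^ 5 = 1 + (5 : A) ^ (i + 2) * Z := by
  refine ⟨Polynomial.aeval Y (Polynomial.X + 2 * (5 : Polynomial ℤ) ^ (i + 1) * Polynomial.X ^ 2
    + 2 * (5 : Polynomial ℤ) ^ (2 * (i + 1)) * Polynomial.X ^ 3
    + (5 : Polynomial ℤ) ^ (3 * (i + 1)) * Polynomial.X ^ 4
    + (5 : Polynomial ℤ) ^ (4 * i + 3) * Polynomial.X ^ 5), ?_⟩
  have h : (1 + (5 : Polynomial ℤ) ^ (i + 1) * Polynomial.X) ^ 5 = 1 + (5 : Polynomial ℤ) ^ (i + 2) *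
      (Polynomial.X + 2 * (5 : Polynomial ℤ) ^ (i + 1) * Polynomial.X ^ 2
      + 2 * (5 : Polynomial ℤ) ^ (2 * (i + 1)) * Polynomial.X ^ 3
      + (5 : Polynomial ℤ) ^ (3 * (i + 1)) * Polynomial.X ^ 4
      + (5 : Polynomial ℤ) ^ (4 * i + 3) * Polynomial.X ^ 5) := by ring
  have h2 := congrArg (Polynomial.aeval Y) h
  simp only [map_pow, map_add, map_mul, map_one, map_ofNat, Polynomial.aeval_X] at h2 ⊢
  exact h2

theorem two_ne5 : (2 : ZMod 5) ≠ 0 := by decide

theorem three_ne5 : (3 : ZMod 5) ≠ 0 := by decide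

theorem five_eq5 : (5 : ZMod 5) = 0 := by decide

theorem unip5 : ∀ x : ZMod 5, !![1, x; 0, 1] ^ 5 = (1 : Matrix (Fin 2) (Fin 2) (ZMod 5)) := by decide

theorem unipotent_pow {k : ℕ} (x : Matrix (Fin 2) (Fin 2) (ZMod (5 ^ k)))
    (Y : Matrix (Fin 2) (Fin 2) (ZMod (5 ^ k))) (hx : x = 1 + (5 : Matrix _ _ _) * Y) :
    x ^ 5 ^ k = 1 := by
  have h : ∀ n, ∃ Z, x ^ 5 ^ n = 1 + (5 : Matrix (Fin 2) (Fin 2) (ZMod (5 ^ k))) ^ (n + 1) * Z := by
    intro n
    induction n with
    | zero => exact ⟨Y, by rw [pow_zero, pow_one, zero_add, pow_one]; exact hx⟩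
    | succ n ih =>
      obtain ⟨Z, hZ⟩ := ih
      obtain ⟨Z', hZ'⟩ := pow_five_lift n Z
      exact ⟨Z', by rw [pow_succ, pow_mul, hZ, hZ']⟩
  obtain ⟨Z, hZ⟩ := h k
  rw [hZ, pow_succ]
  have : (5 : Matrix (Fin 2) (Fin 2) (ZMod (5 ^ k))) ^ k = 0 := by
    rw [← Nat.cast_ofNat (R := Matrix (Fin 2) (Fin 2) (ZMod (5 ^ k))), ← Nat.cast_pow,
      ← map_natCast (algebraMap (ZMod (5 ^ k)) (Matrix (Fin 2) (Fin 2) (ZMod (5 ^ k)))),
      ZMod.natCast_self, map_zero]
  rw [this, zero_mul, zero_mul, add_zero]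

/-- Finite perfect groups have solvable maximal subgroups of unbounded derived length: for every d there is a finite perfect group G (equal to its commutator subgroup) with a solvable maximal subgroup H whose derived length exceeds d, i.e. the d-th term of the derived series of H is non-trivial. (Take the derived subgroup of a wreath product S ≀ A₅ with S solvable of large derived length, and H the preimage of a maximal subgroup of A₅.) -/
theorem result (d : ℕ) :
    ∃ (G : Type) (_ : Group G) (_ : Finite G) (H : Subgroup G), commutator G = ⊤ ∧ IsCoatom H ∧ Group.IsSolvable H ∧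
      derivedSeries H d ≠ ⊥ := by
  classical
  obtain ⟨k, hk⟩ : ∃ k, k = 3 ^ d + 1 := ⟨_, rfl⟩
  haveI : NeZero (5 ^ k) := ⟨pow_ne_zero _ (by norm_num)⟩
  haveI : Fact (Nat.Prime 5) := ⟨Nat.prime_five⟩
  have hdvd : 5 ∣ 5 ^ k := dvd_pow_self 5 (show k ≠ 0 by rw [hk]; exact Nat.succ_ne_zero _)
  let π : ZMod (5 ^ k) →+* ZMod 5 := ZMod.castHom hdvd (ZMod 5)
  have hunit : ∀ a : ZMod (5 ^ k), π a ≠ 0 → IsUnit a := by
    intro a ha
    rw [← ZMod.natCast_zmod_val a, ZMod.isUnit_iff_coprime]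
    refine Nat.Coprime.pow_right k ((Nat.coprime_comm.1 (Nat.prime_five.coprime_iff_not_dvd.2 ?_)))
    intro h5
    rw [← ZMod.natCast_zmod_val a, map_natCast, (ZMod.natCast_eq_zero_iff _ _).2 h5] at ha
    exact ha rfl
  let H : Subgroup (SpecialLinearGroup (Fin 2) (ZMod (5 ^ k))) :=
    { carrier := {g | π (g.1 1 0) = 0}
      one_mem' := by simp
      mul_mem' := by
        intro a b ha hb
        simp only [Set.mem_setOf_eq] at ha hb ⊢
        simp [Matrix.SpecialLinearGroup.coe_mul, Matrix.mul_apply, Fin.sum_univ_two, map_add, map_mul, ha, hb]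
      inv_mem' := by
        intro a ha
        simp only [Set.mem_setOf_eq] at ha ⊢
        rw [Matrix.SpecialLinearGroup.SL2_inv_expl]
        simpa using ha }
  have hupH : ∀ a, up a ∈ H := fun a => show π ((up a).1 1 0) = 0 by simp [up_val]
  have hdgH : ∀ t, dg t ∈ H := fun t => show π ((dg t).1 1 0) = 0 by simp [dg_val]
  -- decomposition
  have hdec : ∀ g : SpecialLinearGroup (Fin 2) (ZMod (5 ^ k)), IsUnit (g.1 1 0) →
      ∃ a b t, g = up a * wl * dg t * up b := by
    intro g hg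
    obtain ⟨c, hc⟩ := hg
    refine ⟨((c⁻¹ : (ZMod (5 ^ k))ˣ) : ZMod (5 ^ k)) * g.1 0 0,
      ((c⁻¹ : (ZMod (5 ^ k))ˣ) : ZMod (5 ^ k)) * g.1 1 1, c, ?_⟩
    have hdet : g.1 0 0 * g.1 1 1 - g.1 0 1 * g.1 1 0 = 1 := by
      rw [← Matrix.det_fin_two]; exact g.2
    rw [← hc] at hdet
    have e := Units.inv_mul c
    ext i j; fin_cases i <;> fin_cases j <;>
      simp [up_val, dg_val, wl_val, Matrix.SpecialLinearGroup.coe_mul, Matrix.mul_apply, Fin.sum_univ_two]
    · linear_combination (-(g.1 0 0)) * e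
    · linear_combination (-((c⁻¹ : (ZMod (5 ^ k))ˣ) : ZMod (5 ^ k))) * hdet
        + (-(g.1 0 1)) * e + (-((c⁻¹ : (ZMod (5 ^ k))ˣ) : ZMod (5 ^ k)) * g.1 0 0 * g.1 1 1) * e
    · exact hc.symm
  have hgen : ∀ S : Subgroup (SpecialLinearGroup (Fin 2) (ZMod (5 ^ k))), (∀ a, up a ∈ S) →
      (∀ t, dg t ∈ S) → wl ∈ S → S = ⊤ := by
    intro S hu hd hw
    rw [Subgroup.eq_top_iff']
    intro g
    by_cases hg : π (g.1 1 0) = 0
    · -- multiply by the Weyl element
      have h00 : IsUnit ((wl * g).1 1 0) := by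
        refine hunit _ fun h => ?_
        have e : (wl * g).1 1 0 = g.1 0 0 := by simp [wl_val, Matrix.SpecialLinearGroup.coe_mul, Matrix.mul_apply, Fin.sum_univ_two]
        rw [e] at h
        have hdet : g.1 0 0 * g.1 1 1 - g.1 0 1 * g.1 1 0 = 1 := by
          rw [← Matrix.det_fin_two]; exact g.2
        have := congrArg π hdet
        simp [h, hg] at this
      obtain ⟨a, b, t, e⟩ := hdec _ h00
      rw [show g = wl⁻¹ * (wl * g) by group, e]
      exact mul_mem (inv_mem hw) (mul_mem (mul_mem (mul_mem (hu a) hw) (hd t)) (hu b))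
    · obtain ⟨a, b, t, e⟩ := hdec g (hunit _ hg)
      rw [e]
      exact mul_mem (mul_mem (mul_mem (hu a) hw) (hd t)) (hu b)
  refine ⟨SpecialLinearGroup (Fin 2) (ZMod (5 ^ k)), inferInstance, inferInstance, H, ?_, ⟨?_, ?_⟩,
    ?_, ?_⟩
  · -- perfect
    have h2 : IsUnit (2 : ZMod (5 ^ k)) := hunit _ (by rw [map_ofNat]; exact two_ne5)
    obtain ⟨w, hw⟩ := h2
    have h3 : IsUnit (3 : ZMod (5 ^ k)) := hunit _ (by rw [map_ofNat]; exact three_ne5)
    obtain ⟨r, hr⟩ := h3
    have hu : ∀ a, up a ∈ commutator (SpecialLinearGroup (Fin 2) (ZMod (5 ^ k))) := by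
      intro a
      have := Subgroup.commutator_mem_commutator (Subgroup.mem_top (dg w))
        (Subgroup.mem_top (up (((r⁻¹ : (ZMod (5 ^ k))ˣ) : ZMod (5 ^ k)) * a)))
      rw [comm_dg_up, ← mul_assoc] at this
      rw [commutator_def]
      convert this using 2
      have e := Units.inv_mul r
      rw [hw]
      rw [hr] at e
      linear_combination (-a) * e
    have hl : ∀ a, lo a ∈ commutator (SpecialLinearGroup (Fin 2) (ZMod (5 ^ k))) := by
      intro a
      have h := (inferInstance : (commutator (SpecialLinearGroup (Fin 2) (ZMod (5 ^ k)))).Normal).conj_mem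
        _ (hu (-a)) wl
      convert h using 1
      rw [eq_mul_inv_iff_mul_eq]
      ext i j; fin_cases i <;> fin_cases j <;> simp [up_val, lo_val, wl_val, Matrix.SpecialLinearGroup.coe_mul, Matrix.mul_apply, Fin.sum_univ_two]
    have hw' : (wl : SpecialLinearGroup (Fin 2) (ZMod (5 ^ k))) = up (-1) * lo 1 * up (-1) := by
      ext i j; fin_cases i <;> fin_cases j <;> simp [up_val, lo_val, wl_val, Matrix.SpecialLinearGroup.coe_mul, Matrix.mul_apply, Fin.sum_univ_two]
    refine hgen _ hu (fun t => ?_) (hw' ▸ mul_mem (mul_mem (hu _) (hl _)) (hu _))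
    rw [up_mul_lo ((t : ZMod (5 ^ k)) - 1) 1 t (by ring)]
    exact mul_mem (mul_mem (inv_mem (hl _)) (mul_mem (hu _) (hl _))) (inv_mem (hu _))
  · intro h
    have : wl ∈ H := h ▸ Subgroup.mem_top _
    have h1 : π ((wl : SpecialLinearGroup (Fin 2) (ZMod (5 ^ k))).1 1 0) = 0 := this
    simp [wl_val] at h1
  · intro S hS
    obtain ⟨g, hgS, hgH⟩ := SetLike.exists_of_lt hS
    refine hgen S (fun a => hS.le (hupH a)) (fun t => hS.le (hdgH t)) ?_
    obtain ⟨a, b, t, e⟩ := hdec g (hunit _ hgH)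
    rw [show wl = (up a)⁻¹ * g * (up b)⁻¹ * (dg t)⁻¹ by rw [e]; group]
    exact mul_mem (mul_mem (mul_mem (inv_mem (hS.le (hupH a))) hgS) (inv_mem (hS.le (hupH b))))
      (inv_mem (hS.le (hdgH t)))
  · -- solvable
    let χ : H →* ZMod 5 :=
      { toFun := fun g => π (g.1.1 0 0)
        map_one' := by simp
        map_mul' := fun a b => by
          have hb : π (b.1.1 1 0) = 0 := b.2
          simp [Matrix.SpecialLinearGroup.coe_mul, Matrix.mul_apply, Fin.sum_univ_two, hb] }
    let χu : H →* (ZMod 5)ˣ := χ.toHomUnits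
    have hp : IsPGroup 5 χu.ker := by
      rintro ⟨g, hg⟩
      refine ⟨k + 1, Subtype.ext (Subtype.ext (Subtype.ext ?_))⟩
      have ha : π (g.1.1 0 0) = 1 := congrArg Units.val hg
      have hc : π (g.1.1 1 0) = 0 := g.2
      have hd : π (g.1.1 1 1) = 1 := by
        have hdet : g.1.1 0 0 * g.1.1 1 1 - g.1.1 0 1 * g.1.1 1 0 = 1 := by
          rw [← Matrix.det_fin_two]; exact g.1.2
        have := congrArg π hdet
        simpa [ha, hc] using this
      have hdiv : ∀ a : ZMod (5 ^ k), π a = 0 → ∃ b, a = 5 * b := by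
        intro a h
        rw [← ZMod.natCast_zmod_val a, map_natCast, ZMod.natCast_eq_zero_iff] at h
        obtain ⟨b, hb⟩ := h
        exact ⟨b, by rw [← ZMod.natCast_zmod_val a, hb]; push_cast; ring⟩
      have h5 : π.mapMatrix (g.1.1 ^ 5) = 1 := by
        rw [map_pow]
        have e : π.mapMatrix g.1.1 = !![1, π (g.1.1 0 1); 0, 1] := by
          ext i j; fin_cases i <;> fin_cases j <;> simp [ha, hc, hd]
        rw [e]
        exact unip5 _
      have hY : ∃ Y, g.1.1 ^ 5 = 1 + (5 : Matrix (Fin 2) (Fin 2) (ZMod (5 ^ k))) * Y := by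
        have h0 : ∀ i j, π (((g.1.1 : Matrix (Fin 2) (Fin 2) (ZMod (5 ^ k))) ^ 5 - 1 : Matrix (Fin 2) (Fin 2) (ZMod (5 ^ k))) i j) = 0 := by
          intro i j
          have := congrFun (congrFun h5 i) j
          rw [Matrix.sub_apply, map_sub]
          rw [RingHom.mapMatrix_apply, Matrix.map_apply] at this
          rw [this, Matrix.one_apply, Matrix.one_apply]
          split <;> simp
        choose b hb using fun i j => hdiv _ (h0 i j)
        refine ⟨Matrix.of b, ?_⟩
        rw [← sub_eq_iff_eq_add']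
        ext i j
        rw [hb, ← Nat.cast_ofNat (R := Matrix (Fin 2) (Fin 2) (ZMod (5 ^ k))),
          ← nsmul_eq_mul, Matrix.smul_apply, nsmul_eq_mul, Matrix.of_apply, Nat.cast_ofNat]
      obtain ⟨Y, hY⟩ := hY
      have := unipotent_pow _ Y hY
      rw [← pow_mul, ← pow_succ'] at this
      simpa using this
    haveI := hp.isNilpotent
    exact Group.isSolvable_of_ker_le_range χu.ker.subtype χu (by simp)
  · -- derived length
    have key : ∀ j, ∀ a : ZMod (5 ^ k),
        up ((5 : ZMod (5 ^ k)) ^ (3 ^ j) * a) ∈ (derivedSeries H j).map H.subtype ∧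
        lo ((5 : ZMod (5 ^ k)) ^ (3 ^ j) * a) ∈ (derivedSeries H j).map H.subtype := by
      intro j
      induction j with
      | zero =>
        intro a
        rw [derivedSeries_zero, pow_zero, pow_one, ← MonoidHom.range_eq_map, Subgroup.range_subtype]
        refine ⟨hupH _, ?_⟩
        show π ((lo (5 * a)).1 1 0) = 0
        have h0 : (5 : ZMod 5) = 0 := five_eq5
        simp [lo_val, map_mul, map_ofNat, h0]
      | succ j ih =>
        intro a
        obtain ⟨e, he⟩ : ∃ e, (5 : ZMod (5 ^ k)) ^ (3 ^ j) = e := ⟨_, rfl⟩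
        rw [he] at ih
        have heπ : π e = 0 := by
          rw [← he, map_pow, map_ofNat, five_eq5,
            zero_pow (pow_ne_zero _ (by norm_num))]
        obtain ⟨t, ht⟩ := hunit (1 + e * e) (by simp [map_add, map_mul, heπ])
        have hdg : dg t ∈ (derivedSeries H j).map H.subtype := by
          rw [up_mul_lo e e t ht]
          have hu := (ih 1).1
          have hl := (ih 1).2
          rw [mul_one] at hu hl
          refine mul_mem (mul_mem (inv_mem ?_) (mul_mem hu hl)) (inv_mem ?_)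
          · rw [mul_comm]; exact (ih _).2
          · rw [mul_comm]; exact (ih _).1
        have hmap : (derivedSeries H (j + 1)).map H.subtype =
            ⁅(derivedSeries H j).map H.subtype, (derivedSeries H j).map H.subtype⁆ := by
          rw [derivedSeries_succ, Subgroup.map_commutator]
        have h3 : 3 ^ (j + 1) = 3 ^ j + 3 ^ j + 3 ^ j := by ring
        rw [hmap, h3, pow_add, pow_add, he]
        obtain ⟨v, hv⟩ := hunit (2 + e * e) (by
          simp only [map_add, map_mul, map_ofNat, heπ, mul_zero, add_zero]; exact two_ne5)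
        constructor
        · have h := Subgroup.commutator_mem_commutator hdg
            (ih (((v⁻¹ : (ZMod (5 ^ k))ˣ) : ZMod (5 ^ k)) * a)).1
          rw [comm_dg_up] at h
          convert h using 2
          have e1 := Units.inv_mul v
          rw [hv] at e1
          rw [ht]
          linear_combination (-(e * e * e * a)) * e1
        · obtain ⟨w, hw⟩ : ∃ w : (ZMod (5 ^ k))ˣ, w = -(v * t⁻¹ * t⁻¹) := ⟨_, rfl⟩
          have h := Subgroup.commutator_mem_commutator hdg
            (ih (((w⁻¹ : (ZMod (5 ^ k))ˣ) : ZMod (5 ^ k)) * a)).2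
          rw [comm_dg_lo] at h
          convert h using 2
          have e1 := Units.mul_inv w
          have e2 := Units.inv_mul t
          have hw' : (w : ZMod (5 ^ k)) =
              -((2 + e * e) * ((t⁻¹ : (ZMod (5 ^ k))ˣ) : ZMod (5 ^ k)) * ((t⁻¹ : (ZMod (5 ^ k))ˣ) : ZMod (5 ^ k))) := by
            rw [hw]; simp [hv]
          rw [ht] at e2
          generalize ((t⁻¹ : (ZMod (5 ^ k))ˣ) : ZMod (5 ^ k)) = ti at *
          generalize ((w⁻¹ : (ZMod (5 ^ k))ˣ) : ZMod (5 ^ k)) = wi at *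
          generalize (w : ZMod (5 ^ k)) = wv at *
          linear_combination (-(e * e * e * a)) * e1 + (e * e * e * wi * a) * hw'
            - (e * wi * a * (ti * (1 + e * e) + 1)) * e2
    intro hbot
    have h := (key d 1).1
    rw [hbot, Subgroup.map_bot, Subgroup.mem_bot, mul_one] at h
    have h1 : (5 : ZMod (5 ^ k)) ^ (3 ^ d) = 0 := by
      have := congrArg (fun g : SpecialLinearGroup (Fin 2) (ZMod (5 ^ k)) => g.1 0 1) h
      simpa [up_val] using this
    rw [← Nat.cast_ofNat (R := ZMod (5 ^ k)), ← Nat.cast_pow, ZMod.natCast_eq_zero_iff] at h1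
    have := (Nat.pow_dvd_pow_iff_le_right (by norm_num)).1 h1
    omega

end Cfsg.Agent.S5896
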