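import Cfsg.Statements.S5902
-- import your own Cfsg.Agent.* helpers here

set_option autoImplicit false
open Cfsg

namespace Cfsg.Agent.S5902

lemma map_conj_inv_conj {G : Type*} [Group G] (g : G) (H : Subgroup G) :
    (H.map (MulAut.conj g).toMonoidHom).map (MulAut.conj g⁻¹).toMonoidHom = H := by
  rw [Subgroup.map_map]
  convert H.map_id
  ext x
  simp [mul_assoc]

lemma complement_of_not_le {G : Type*} [Group G] [Finite G] (X M : Subgroup G)
    (hK : ComplementedLattice (Subgroup X)) (hXM : X ≤ M)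
    (huniq : ∀ M' : Subgroup G, IsCoatom M' → X ≤ M' → M' = M)
    (H : Subgroup G) (hH : ¬ H ≤ M) :
    ∃ C : Subgroup G, H ⊔ C = ⊤ ∧ H ⊓ C = ⊥ := by
  obtain ⟨C', hC'⟩ := hK.exists_isCompl (H.subgroupOf X)
  refine ⟨C'.map X.subtype, ?_, ?_⟩
  · have hXle : X ≤ H ⊔ C'.map X.subtype := by
      have := congrArg (Subgroup.map X.subtype) hC'.sup_eq_top
      rw [Subgroup.map_sup, Subgroup.subgroupOf_map_subtype, ← MonoidHom.range_eq_map,
        Subgroup.range_subtype] at this
      exact this.ge.trans (sup_le_sup_right inf_le_left _)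
    rcases eq_top_or_exists_le_coatom (H ⊔ C'.map X.subtype) with h | ⟨M', hM', hle⟩
    · exact h
    · obtain rfl := huniq M' hM' (hXle.trans hle)
      exact absurd (le_sup_left.trans hle) hH
  · rw [eq_bot_iff]
    rintro _ ⟨hxH, c, hc, rfl⟩
    have : c ∈ H.subgroupOf X ⊓ C' := ⟨hxH, hc⟩
    rw [hC'.inf_eq_bot, Subgroup.mem_bot] at this
    simp [this]


/-- Let G be a finite group, X a subgroup whose own subgroup lattice is complemented, and suppose X lies in exactly one maximal subgroup M of G. Then every subgroup H of G not contained in the normal core of M has a complement in the subgroup lattice of G (some C with H ⊔ C = G and H ⊓ C = 1); in particular the subgroup lattice of G modulo the normal core of M is complemented. -/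
theorem result {G : Type*} [Group G] [Finite G] (X M : Subgroup G)
    (hK : ComplementedLattice (Subgroup X))
    (hM : IsCoatom M) (hXM : X ≤ M) (huniq : ∀ M' : Subgroup G, IsCoatom M' → X ≤ M' → M' = M) :
    (∀ H : Subgroup G, ¬ H ≤ M.normalCore → ∃ C : Subgroup G, H ⊔ C = ⊤ ∧ H ⊓ C = ⊥) ∧
    ComplementedLattice (Subgroup (G ⧸ M.normalCore)) := by
  have hmain : ∀ H : Subgroup G, ¬ H ≤ M.normalCore → ∃ C : Subgroup G, H ⊔ C = ⊤ ∧ H ⊓ C = ⊥ := by
    intro H hH
    obtain ⟨g, hg⟩ : ∃ g : G, ¬ H.map (MulAut.conj g).toMonoidHom ≤ M := by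
      by_contra hc
      push_neg at hc
      exact hH fun h hh g => by simpa using hc g (Subgroup.mem_map_of_mem _ hh)
    obtain ⟨C, hC1, hC2⟩ := complement_of_not_le X M hK hXM huniq _ hg
    refine ⟨C.map (MulAut.conj g⁻¹).toMonoidHom, ?_, ?_⟩
    · have := congrArg (Subgroup.map (MulAut.conj g⁻¹).toMonoidHom) hC1
      rw [Subgroup.map_sup, map_conj_inv_conj,
        Subgroup.map_top_of_surjective _ (MulAut.conj g⁻¹).surjective] at this
      exact this
    · have := congrArg (Subgroup.map (MulAut.conj g⁻¹).toMonoidHom) hC2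
      rw [Subgroup.map_inf _ _ _ (MulAut.conj g⁻¹).injective, map_conj_inv_conj,
        Subgroup.map_bot] at this
      exact this
  refine ⟨hmain, ⟨fun A => ?_⟩⟩
  by_cases hA : A = ⊥
  · exact ⟨⊤, by subst hA; exact isCompl_bot_top⟩
  set π := QuotientGroup.mk' M.normalCore with hπ
  have hsurj : Function.Surjective π := QuotientGroup.mk'_surjective _
  have hnot : ¬ A.comap π ≤ M.normalCore := fun h => hA <| by
    rw [← Subgroup.map_comap_eq_self_of_surjective hsurj A, Subgroup.map_eq_bot_iff,
      QuotientGroup.ker_mk']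
    exact h
  obtain ⟨C, hC1, hC2⟩ := hmain _ hnot
  refine ⟨C.map π, IsCompl.of_eq ?_ ?_⟩
  · rw [eq_bot_iff]
    rintro x ⟨hxA, c, hc, rfl⟩
    have : c ∈ A.comap π ⊓ C := ⟨hxA, hc⟩
    rw [hC2, Subgroup.mem_bot] at this
    simp [this]
  · rw [eq_top_iff, ← Subgroup.map_top_of_surjective π hsurj, ← hC1, Subgroup.map_sup,
      Subgroup.map_comap_eq_self_of_surjective hsurj]

end Cfsg.Agent.S5902
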