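import Cfsg.Statements.S5903
import Cfsg.Agent.S5901
import Cfsg.Agent.S5902

set_option autoImplicit false
open Cfsg

namespace Cfsg.Agent.S5903

/-- Let G be a finite simple group, X a subgroup lying in exactly one maximal subgroup M of G, and N a subgroup of prime order with N ≤ X that is central in M. If the subgroup lattice of X/N is complemented, then the subgroup lattice of G is complemented. -/
theorem result {G : Type*} [Group G] [Finite G] [IsSimpleGroup G] (X M N : Subgroup G)
    (hM : IsCoatom M) (hXM : X ≤ M) (huniq : ∀ M' : Subgroup G, IsCoatom M' → X ≤ M' → M' = M)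
    (hNX : N ≤ X) (hN : (Nat.card N).Prime) (hcen : ∀ n ∈ N, ∀ m ∈ M, m * n = n * m)
    [(N.subgroupOf X).Normal] (hK : ComplementedLattice (Subgroup (X ⧸ N.subgroupOf X))) :
    ComplementedLattice (Subgroup G) := by
  classical
  refine ⟨fun H => ?_⟩
  by_cases hHb : H = ⊥
  · exact ⟨⊤, hHb ▸ isCompl_bot_top⟩
  by_cases hHt : H = ⊤
  · exact ⟨⊥, hHt ▸ isCompl_top_bot⟩
  have hNne : N ≠ ⊥ := by
    intro h
    rw [h, Subgroup.card_bot] at hN
    exact Nat.not_prime_one hN
  -- a conjugate avoiding both inclusions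
  obtain ⟨g, hgM, hgN⟩ : ∃ g : G, ¬ H.map (MulAut.conj g).toMonoidHom ≤ M ∧
      ¬ N ≤ H.map (MulAut.conj g).toMonoidHom := by
    by_contra hc
    have key : ∀ g : G, N.map (MulAut.conj g).toMonoidHom ≤ (Subgroup.normalizer (H : Set G)) := by
      intro g
      rintro _ ⟨n, hn, rfl⟩
      by_cases h1 : H.map (MulAut.conj g⁻¹).toMonoidHom ≤ M
      · have hcomm : ∀ h ∈ H, (g * n * g⁻¹) * h * (g * n * g⁻¹)⁻¹ = h := by
          intro h hh
          have := hcen n hn _ (h1 (Subgroup.mem_map_of_mem _ hh))
          simp only [MulEquiv.coe_toMonoidHom, MulAut.conj_apply, inv_inv] at this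
          calc (g * n * g⁻¹) * h * (g * n * g⁻¹)⁻¹ = g * (n * (g⁻¹ * h * g)) * n⁻¹ * g⁻¹ := by group
            _ = g * ((g⁻¹ * h * g) * n) * n⁻¹ * g⁻¹ := by rw [this]
            _ = h := by group
        rw [Subgroup.mem_normalizer_iff]
        intro h
        simp only [MulEquiv.coe_toMonoidHom, MulAut.conj_apply]
        constructor
        · intro hh
          rw [hcomm h hh]; exact hh
        · intro hh
          have h' := hcomm _ hh
          have : (g * n * g⁻¹) * h * (g * n * g⁻¹)⁻¹ = h := by
            have h3 := congrArg (fun x => (g * n * g⁻¹)⁻¹ * x * (g * n * g⁻¹)) h'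
            simpa [mul_assoc] using h3
          rwa [this] at hh
      · have h2 : N ≤ H.map (MulAut.conj g⁻¹).toMonoidHom := by
          by_contra h3
          exact hc ⟨g⁻¹, h1, h3⟩
        obtain ⟨h, hh, he⟩ := h2 hn
        simp only [MulEquiv.coe_toMonoidHom, MulAut.conj_apply, inv_inv] at he
        apply Subgroup.le_normalizer
        simp only [MulEquiv.coe_toMonoidHom, MulAut.conj_apply, ← he]
        simpa [mul_assoc] using hh
    have htop : (Subgroup.normalClosure (N : Set G)) = ⊤ := by
      rcases (Subgroup.normalClosure_normal (s := (N : Set G))).eq_bot_or_eq_top with h | h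
      · exact absurd (le_bot_iff.mp (h ▸ Subgroup.le_normalClosure)) hNne
      · exact h
    have hle : Subgroup.normalClosure (N : Set G) ≤ (Subgroup.normalizer (H : Set G)) := by
      rw [Subgroup.normalClosure, Subgroup.closure_le]
      intro x hx
      rw [Group.mem_conjugatesOfSet_iff] at hx
      obtain ⟨n, hn, hcj⟩ := hx
      obtain ⟨c, rfl⟩ := isConj_iff.mp hcj
      exact key c (Subgroup.mem_map_of_mem _ hn)
    rw [htop, top_le_iff, Subgroup.normalizer_eq_top_iff] at hle
    rcases hle.eq_bot_or_eq_top with h | h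
    · exact hHb h
    · exact hHt h
  set H' := H.map (MulAut.conj g).toMonoidHom with hH'
  have hHN : H' ⊓ N = ⊥ := by
    have : Fact (Nat.card N).Prime := ⟨hN⟩
    rcases (H'.subgroupOf N).eq_bot_or_eq_top_of_prime_card with h | h
    · exact Subgroup.subgroupOf_eq_bot.mp h |>.eq_bot
    · exact absurd (Subgroup.subgroupOf_eq_top.mp h) hgN
  obtain ⟨C, h1, h2⟩ : ∃ C : Subgroup G, H' ⊔ C = ⊤ ∧ H' ⊓ C = ⊥ := by
    refine S5901.result N X M hNX ?_ ?_ hM hXM huniq H' hgM hHN
    · intro h
      exact hM.1 (top_le_iff.mp (h ▸ hXM))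
    · intro Y hNY hYX
      set π := QuotientGroup.mk' (N.subgroupOf X) with hπ
      have hsurj : Function.Surjective π := QuotientGroup.mk'_surjective _
      obtain ⟨D, hD⟩ := hK.exists_isCompl ((Y.subgroupOf X).map π)
      have hker : N.subgroupOf X ≤ D.comap π := by
        intro x hx
        rw [Subgroup.mem_comap, show π x = 1 from (QuotientGroup.eq_one_iff x).mpr hx]
        exact D.one_mem
      have e1 : ((Y.subgroupOf X).map π).comap π = Y.subgroupOf X := by
        rw [Subgroup.comap_map_eq, QuotientGroup.ker_mk', sup_eq_left]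
        exact Subgroup.comap_mono hNY
      refine ⟨(D.comap π).map X.subtype, ?_, ?_, ?_, ?_⟩
      · exact (Subgroup.map_subgroupOf_eq_of_le hNX).symm.le.trans (Subgroup.map_mono hker)
      · exact Subgroup.map_subtype_le _
      · have := congrArg (Subgroup.comap π) hD.sup_eq_top
        rw [← Subgroup.comap_sup_eq _ _ _ hsurj, e1, Subgroup.comap_top] at this
        have := congrArg (Subgroup.map X.subtype) this
        rwa [Subgroup.map_sup, Subgroup.map_subgroupOf_eq_of_le hYX, ← MonoidHom.range_eq_map,
          Subgroup.range_subtype] at this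
      · have := congrArg (Subgroup.comap π) hD.inf_eq_bot
        rw [Subgroup.comap_inf, e1, MonoidHom.comap_bot, QuotientGroup.ker_mk'] at this
        have := congrArg (Subgroup.map X.subtype) this
        rwa [Subgroup.map_inf _ _ _ X.subtype_injective, Subgroup.map_subgroupOf_eq_of_le hYX,
          Subgroup.map_subgroupOf_eq_of_le hNX] at this
  refine ⟨C.map (MulAut.conj g⁻¹).toMonoidHom, IsCompl.of_eq ?_ ?_⟩
  · have := congrArg (Subgroup.map (MulAut.conj g⁻¹).toMonoidHom) h2
    rwa [Subgroup.map_inf _ _ _ (MulAut.conj g⁻¹).injective, hH', S5902.map_conj_inv_conj,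
      Subgroup.map_bot] at this
  · have := congrArg (Subgroup.map (MulAut.conj g⁻¹).toMonoidHom) h1
    rwa [Subgroup.map_sup, hH', S5902.map_conj_inv_conj,
      Subgroup.map_top_of_surjective _ (MulAut.conj g⁻¹).surjective] at this

end Cfsg.Agent.S5903
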