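import Cfsg.Statements.S5904
-- import your own Cfsg.Agent.* helpers here

set_option autoImplicit false
open scoped Pointwise
open Cfsg

namespace Cfsg.Agent.S5904

/-- Let Ω be a finite set with more than two elements and O ⊆ Ω a subset with exactly as many elements as its complement. Then the setwise stabilizer of O in the symmetric group on Ω is not a maximal subgroup (it is properly contained in the stabilizer of the partition {O, Ω ∖ O}, which is proper). -/
theorem result {Ω : Type*} [Fintype Ω] [DecidableEq Ω] (hΩ : 2 < Fintype.card Ω)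
    (O : Set Ω) (hO : Nat.card O = Nat.card ↥Oᶜ) :
    ¬ IsCoatom (MulAction.stabilizer (Equiv.Perm Ω) O) := by
  classical
  intro h
  have hcard : O.ncard + Oᶜ.ncard = Fintype.card Ω := by
    rw [Set.ncard_add_ncard_compl, Nat.card_eq_fintype_card]
  have hO' : O.ncard = Oᶜ.ncard := by rwa [← Nat.card_coe_set_eq, ← Nat.card_coe_set_eq]
  let L : Subgroup (Equiv.Perm Ω) := MulAction.stabilizer (Equiv.Perm Ω) ({O, Oᶜ} : Set (Set Ω))
  have hle : MulAction.stabilizer (Equiv.Perm Ω) O < L := by
    refine lt_of_le_of_ne ?_ ?_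
    · intro g hg
      rw [MulAction.mem_stabilizer_iff] at hg ⊢
      show ((g • ·) '' ({O, Oᶜ} : Set (Set Ω))) = _
      simp only [Set.image_pair, hg, Set.smul_set_compl]
    · intro heq
      obtain ⟨e⟩ : Nonempty ({x // x ∈ O} ≃ {x // x ∉ O}) := by
        exact Finite.card_eq.mp hO
      obtain ⟨π, hπ⟩ : ∃ π : Equiv.Perm Ω, π • O = Oᶜ ∧ π • Oᶜ = O := by
        let π : Equiv.Perm Ω := ((Equiv.sumCompl (· ∈ O)).symm.trans
          ((Equiv.sumComm _ _).trans (Equiv.sumCongr e.symm e))).trans (Equiv.sumCompl (· ∈ O))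
        have h1 : ∀ x, π x ∈ O ↔ x ∉ O := by
          intro x
          by_cases hx : x ∈ O
          · have : π x = e ⟨x, hx⟩ := by simp [π, hx]
            rw [this]
            simpa [hx] using (e ⟨x, hx⟩).2
          · have : π x = e.symm ⟨x, hx⟩ := by simp [π, hx]
            rw [this]
            simpa [hx] using (e.symm ⟨x, hx⟩).2
        refine ⟨π, ?_, ?_⟩
        · ext y
          rw [Set.mem_smul_set_iff_inv_smul_mem, Set.mem_compl_iff]
          have := h1 (π⁻¹ • y)
          simp only [Equiv.Perm.smul_def, Equiv.Perm.inv_def, Equiv.apply_symm_apply] at this ⊢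
          tauto
        · ext y
          rw [Set.mem_smul_set_iff_inv_smul_mem, Set.mem_compl_iff]
          have := h1 (π⁻¹ • y)
          simp only [Equiv.Perm.smul_def, Equiv.Perm.inv_def, Equiv.apply_symm_apply] at this ⊢
          tauto
      have hmem : π ∈ L := by
        rw [MulAction.mem_stabilizer_iff]
        show ((π • ·) '' ({O, Oᶜ} : Set (Set Ω))) = _
        simp only [Set.image_pair, hπ.1, hπ.2, Set.pair_comm]
      rw [← heq, MulAction.mem_stabilizer_iff, hπ.1] at hmem
      rcases O.eq_empty_or_nonempty with hO0 | ⟨x, hx⟩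
      · rw [hO0, Set.ncard_empty] at hcard hO'
        omega
      · exact (hmem.ge hx : x ∈ Oᶜ) hx
  have htop := h.2 L hle
  obtain ⟨a, ha⟩ : O.Nonempty := (Set.ncard_pos O.toFinite).mp (by omega)
  obtain ⟨b, hb⟩ : Oᶜ.Nonempty := (Set.ncard_pos Oᶜ.toFinite).mp (by omega)
  obtain ⟨c, hc, hca⟩ := Set.exists_ne_of_one_lt_ncard (show 1 < O.ncard by omega) a
  have hs : Equiv.swap a b ∈ L := htop ▸ Subgroup.mem_top _
  rw [MulAction.mem_stabilizer_iff] at hs
  have hm : Equiv.swap a b • O ∈ ({O, Oᶜ} : Set (Set Ω)) := by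
    rw [← hs]; exact Set.smul_mem_smul_set (Set.mem_insert _ _)
  have hcb : c ≠ b := fun h => hb (h ▸ hc)
  rcases hm with h1 | h1
  · exact hb (h1.le ⟨a, ha, by simp⟩)
  · exact (h1.le ⟨c, hc, by simp [Equiv.swap_apply_of_ne_of_ne hca hcb]⟩ : c ∈ Oᶜ) hc

end Cfsg.Agent.S5904
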