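import Cfsg.Statements.S5905

set_option autoImplicit false
open Cfsg

namespace Cfsg.Agent.S5905


/-- Let Ω be a finite set and f : Ω → Fin b a map onto b ≥ 2 labels whose fibres all have the same size a ≥ 2 (a partition of Ω into b blocks of size a, so |Ω| = ab). Then the stabilizer of this partition in the symmetric group on Ω — the permutations g such that x and y lie in the same block exactly when g x and g y do, a group isomorphic to the imprimitive wreath product S_a ≀ S_b — is a maximal subgroup of the symmetric group. -/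
theorem result {Ω : Type*} [Fintype Ω] [DecidableEq Ω] (a b : ℕ) (ha : 2 ≤ a) (hb : 2 ≤ b)
    (f : Ω → Fin b) (hf : ∀ i : Fin b, Nat.card {x : Ω // f x = i} = a) :
    IsCoatom (Subgroup.closure {g : Equiv.Perm Ω | ∀ x y : Ω, f x = f y ↔ f (g x) = f (g y)}) := by
  classical
  haveI : Finite Ω := Finite.of_fintype Ω
  have he : ∀ i, Nonempty ({x : Ω // f x = i} ≃ Fin a) := fun i =>
    ⟨(Finite.equivFin _).trans (finCongr (hf i))⟩
  let e := fun i => (he i).some
  let E : Ω ≃ Fin b × Fin a :=
    ((Equiv.sigmaFiberEquiv f).symm.trans (Equiv.sigmaCongrRight e)).trans (Equiv.sigmaEquivProd _ _)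
  have hE : ∀ x, (E x).1 = f x := fun x => rfl
  let W : Subgroup (Equiv.Perm Ω) :=
    { carrier := {g | ∀ x y : Ω, f x = f y ↔ f (g x) = f (g y)}
      one_mem' := fun x y => Iff.rfl
      mul_mem' := fun {g h} hg hh x y => (hh x y).trans (hg (h x) (h y))
      inv_mem' := fun {g} hg x y => by
        have := (hg (g⁻¹ x) (g⁻¹ y)).symm
        simpa using this }
  rw [show Subgroup.closure {g : Equiv.Perm Ω | ∀ x y : Ω, f x = f y ↔ f (g x) = f (g y)} = W from
    Subgroup.closure_eq W]
  have hswap : ∀ u v : Ω, f u = f v → Equiv.swap u v ∈ W := by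
    intro u v huv x y
    have : ∀ z, f (Equiv.swap u v z) = f z := by
      intro z
      by_cases h1 : z = u
      · subst h1; rw [Equiv.swap_apply_left, huv]
      · by_cases h2 : z = v
        · subst h2; rw [Equiv.swap_apply_right, huv]
        · rw [Equiv.swap_apply_of_ne_of_ne h1 h2]
    rw [this, this]
  have hcross : ∀ u v u' v' : Ω, f u ≠ f v → f u' ≠ f v' → ∃ g ∈ W, g u = u' ∧ g v = v' := by
    intro u v u' v' h h'
    let σ : Equiv.Perm (Fin b) := (Equiv.swap (f u) (f u')).trans
      (Equiv.swap ((Equiv.swap (f u) (f u')) (f v)) (f v'))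
    have hσu : σ (f u) = f u' := by
      simp only [σ, Equiv.trans_apply, Equiv.swap_apply_left]
      apply Equiv.swap_apply_of_ne_of_ne
      · intro e; exact h ((Equiv.swap (f u) (f u')).injective ((Equiv.swap_apply_left _ _).trans e))
      · exact h'
    have hσv : σ (f v) = f v' := by simp [σ]
    let τ : Fin b → Equiv.Perm (Fin a) := fun i =>
      if i = f u then Equiv.swap (E u).2 (E u').2 else Equiv.swap (E v).2 (E v').2
    let P : Equiv.Perm (Fin b × Fin a) :=
      (Equiv.prodShear (Equiv.refl (Fin b)) τ).trans (σ.prodCongr (Equiv.refl (Fin a)))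
    refine ⟨(E.trans P).trans E.symm, ?_, ?_, ?_⟩
    · intro x y
      have e1 : ∀ z, f ((E.trans P).trans E.symm z) = σ (f z) := by
        intro z
        rw [← hE]
        show (E (E.symm (P (E z)))).1 = _
        rw [Equiv.apply_symm_apply]
        rfl
      rw [e1, e1, σ.injective.eq_iff]
    · apply E.injective
      show E (E.symm (P (E u))) = E u'
      rw [Equiv.apply_symm_apply]
      refine Prod.ext ?_ ?_
      · exact hσu.trans (hE u').symm
      · show τ (E u).1 (E u).2 = _
        rw [hE]; simp [τ]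
    · apply E.injective
      show E (E.symm (P (E v))) = E v'
      rw [Equiv.apply_symm_apply]
      refine Prod.ext ?_ ?_
      · exact hσv.trans (hE v').symm
      · show τ (E v).1 (E v).2 = _
        rw [hE]; simp [τ, Ne.symm h]
  constructor
  · intro htop
    let u := E.symm (⟨0, by omega⟩, ⟨0, by omega⟩)
    let u' := E.symm (⟨0, by omega⟩, ⟨1, by omega⟩)
    let v := E.symm (⟨1, by omega⟩, ⟨0, by omega⟩)
    have hu : f u = f u' := by simp [u, u', ← hE]
    have huv : f u ≠ f v := by simp [u, v, ← hE, Fin.ext_iff]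
    have h1 : u ≠ u' := by simp [u, u', E.symm.injective.eq_iff, Fin.ext_iff]
    have hm : Equiv.swap u v ∈ W := htop ▸ Subgroup.mem_top _
    have := (hm u u').mp hu
    rw [Equiv.swap_apply_left, Equiv.swap_apply_of_ne_of_ne h1.symm (fun e => huv (hu.trans (congrArg f e)))] at this
    exact huv (hu.trans this.symm)
  · intro L hL
    obtain ⟨g, hgL, hgW⟩ := SetLike.exists_of_lt hL
    have hex : ∃ x y, f x = f y ∧ ∃ g ∈ L, f (g x) ≠ f (g y) := by
      have : ¬ ∀ x y : Ω, f x = f y ↔ f (g x) = f (g y) := hgW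
      push Not at this
      obtain ⟨x, y, ⟨h1, h2⟩ | ⟨h1, h2⟩⟩ := this
      · exact ⟨x, y, h1, g, hgL, h2⟩
      · exact ⟨g x, g y, h2, g⁻¹, L.inv_mem hgL, by simpa using h1⟩
    obtain ⟨x, y, hxy, g, hgL, hne⟩ := hex
    have hs : Equiv.swap (g x) (g y) ∈ L := by
      rw [Equiv.swap_apply_apply]
      exact L.mul_mem (L.mul_mem hgL (hL.le (hswap x y hxy))) (L.inv_mem hgL)
    rw [eq_top_iff, ← Equiv.Perm.closure_isSwap, Subgroup.closure_le]
    rintro t ⟨u, v, -, rfl⟩
    by_cases huv : f u = f v
    · exact hL.le (hswap u v huv)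
    · obtain ⟨w, hw, hwu, hwv⟩ := hcross (g x) (g y) u v hne huv
      rw [← hwu, ← hwv, Equiv.swap_apply_apply]
      exact L.mul_mem (L.mul_mem (hL.le hw) hs) (L.inv_mem (hL.le hw))

end Cfsg.Agent.S5905
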