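import Cfsg.Statements.S5908
import Cfsg.Agent.Classical.Unitary.LangFinite
import Cfsg.Agent.Classical.Unitary.Center

set_option autoImplicit false
open Cfsg

namespace Cfsg.Agent.S5908

open Matrix CfsgLib.Unitary

variable {F : Type*} [Field F] [Fintype F]

/-- Every column has at most one non-zero entry. -/
def IsMono (A : Matrix (Fin 3) (Fin 3) F) : Prop := ∀ j, ∃ i, ∀ k, k ≠ i → A k j = 0

omit [Fintype F] in
theorem IsMono.mul {A B : Matrix (Fin 3) (Fin 3) F} (hA : IsMono A) (hB : IsMono B) : IsMono (A * B) := by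
  intro j
  obtain ⟨i, hi⟩ := hB j
  obtain ⟨l, hl⟩ := hA i
  refine ⟨l, fun k hk => ?_⟩
  rw [Matrix.mul_apply]
  refine Finset.sum_eq_zero fun r _ => ?_
  by_cases hr : r = i
  · subst hr; rw [hl k hk, zero_mul]
  · rw [hi r hr, mul_zero]

omit [Fintype F] in
theorem IsMono.scalar (c : F) : IsMono (Matrix.scalar (Fin 3) c) := fun j =>
  ⟨j, fun k hk => by simp [hk]⟩

theorem frob4 (hF : Fintype.card F = 4) (x : F) (hx : x ≠ 0) : x ^ 3 = 1 := by
  have h := FiniteField.pow_card_sub_one_eq_one x hx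
  rwa [hF] at h

theorem univ_eq : ∀ j k l : Fin 3, j ≠ k → j ≠ l → k ≠ l → (Finset.univ : Finset (Fin 3)) = {j, k, l} := by
  decide

theorem eq_or_eq : ∀ j k l x : Fin 3, j ≠ k → j ≠ l → k ≠ l → x = j ∨ x = k ∨ x = l := by
  decide

/-- An involution of `SU_3(2)` is monomial. -/
theorem isMono_of_involution (hF : Fintype.card F = 4) (M : Matrix (Fin 3) (Fin 3) F)
    (hU : cjT 2 M * M = 1) (h2 : M * M = 1) : IsMono M := by
  have hM : cjT 2 M = M := by
    calc cjT 2 M = cjT 2 M * (M * M) := by rw [h2, mul_one]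
      _ = M := by rw [← mul_assoc, hU, one_mul]
  have hcd : ∀ a b, M a b = (M b a) ^ 2 := fun a b => (congrFun (congrFun hM a) b).symm
  haveI : CharP F 2 := by
    obtain ⟨p, hp⟩ := CharP.exists F
    obtain ⟨k, hpp, hk⟩ := FiniteField.card F p
    rw [hF] at hk
    have h2' : p ∣ 2 ^ 2 := by
      rw [show (2 : ℕ) ^ 2 = 4 by norm_num, hk]
      exact dvd_pow_self p k.pos.ne'
    obtain rfl := (Nat.prime_dvd_prime_iff_eq hpp Nat.prime_two).1 (hpp.dvd_of_dvd_pow h2')
    exact hp
  have hcol : ∀ j k l : Fin 3, j ≠ k → j ≠ l → k ≠ l → M j j ^ 3 + M k j ^ 3 + M l j ^ 3 = 1 := by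
    intro j k l hjk hjl hkl
    have h := congrFun (congrFun hU j) j
    rw [Matrix.mul_apply, Matrix.one_apply_eq] at h
    rw [← h]
    have hs := univ_eq j k l hjk hjl hkl
    rw [hs, Finset.sum_insert (by simp [hjk, hjl]), Finset.sum_insert (by simp [hkl]), Finset.sum_singleton]
    simp only [cjT, Matrix.transpose_apply, Matrix.map_apply]
    ring
  have hprod : ∀ j k l : Fin 3, j ≠ k → j ≠ l → k ≠ l → M k j * M j j + M k k * M k j + M k l * M l j = 0 := by
    intro j k l hjk hjl hkl
    have h := congrFun (congrFun h2 k) j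
    rw [Matrix.mul_apply, Matrix.one_apply_ne hjk.symm] at h
    rw [← h]
    have hs := univ_eq j k l hjk hjl hkl
    rw [hs, Finset.sum_insert (by simp [hjk, hjl]), Finset.sum_insert (by simp [hkl]), Finset.sum_singleton]
    ring
  have hdiag : ∀ a, M a a = 0 ∨ M a a = 1 := by
    intro a
    have h : M a a * (M a a - 1) = 0 := by linear_combination -(hcd a a)
    rcases mul_eq_zero.1 h with h | h
    · exact Or.inl h
    · exact Or.inr (sub_eq_zero.1 h)
  intro j
  obtain ⟨k, l, hjk, hjl, hkl⟩ : ∃ k l : Fin 3, j ≠ k ∧ j ≠ l ∧ k ≠ l := by revert j; decide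
  have huniv : ∀ x, x = j ∨ x = k ∨ x = l := fun x => eq_or_eq j k l x hjk hjl hkl
  have h1 := hcol j k l hjk hjl hkl
  by_cases ha : M j j = 0
  · by_cases hb : M k j = 0
    · exact ⟨l, fun x hx => by rcases huniv x with rfl | rfl | rfl <;> first | assumption | exact absurd rfl hx⟩
    · by_cases hc : M l j = 0
      · exact ⟨k, fun x hx => by rcases huniv x with rfl | rfl | rfl <;> first | assumption | exact absurd rfl hx⟩
      · exfalso
        rw [ha, frob4 hF _ hb, frob4 hF _ hc] at h1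
        simp [CharTwo.add_self_eq_zero] at h1
  · by_cases hb : M k j = 0
    · by_cases hc : M l j = 0
      · exact ⟨j, fun x hx => by rcases huniv x with rfl | rfl | rfl <;> first | assumption | exact absurd rfl hx⟩
      · exfalso
        rw [hb, frob4 hF _ ha, frob4 hF _ hc] at h1
        simp [CharTwo.add_self_eq_zero] at h1
    · by_cases hc : M l j = 0
      · exfalso
        rw [hc, frob4 hF _ ha, frob4 hF _ hb] at h1
        simp [CharTwo.add_self_eq_zero] at h1
      · exfalso
        have hjj : M j j = 1 := (hdiag j).resolve_left ha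
        have h3 := hprod j k l hjk hjl hkl
        rw [hjj, mul_one] at h3
        have h4 := hcol k j l hjk.symm hkl hjl
        have hjk' : M j k ≠ 0 := by rw [hcd]; exact pow_ne_zero _ hb
        rcases hdiag k with hk | hk
        · rw [hk, zero_mul, add_zero] at h3
          have hkl' : M k l ≠ 0 := fun h => hb (by rw [h, zero_mul, add_zero] at h3; exact h3)
          have hlk' : M l k ≠ 0 := fun h => hkl' (by rw [hcd, h]; simp)
          rw [hk, frob4 hF _ hjk', frob4 hF _ hlk'] at h4
          simp [CharTwo.add_self_eq_zero] at h4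
        · rw [hk, one_mul, CharTwo.add_self_eq_zero, zero_add] at h3
          have hlk' : M l k = 0 := by rw [hcd, (mul_eq_zero.1 h3).resolve_right hc]; simp
          rw [hk, hlk', frob4 hF _ hjk'] at h4
          simp [CharTwo.add_self_eq_zero] at h4


/-- The subgroup lattice of PSU₃(2) (the solvable group of order 72, realised over the field with 4 elements) is not complemented: some subgroup H has no subgroup X with H ⊔ X = ⊤ and H ⊓ X = ⊥. -/
theorem result {F : Type*} [Field F] [Fintype F] (hF : Fintype.card F = 4) :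
    ¬ ComplementedLattice (Subgroup (Cfsg.PSU 3 F 2)) := by
  classical
  intro hcompl
  have hF2 : Fintype.card F = 2 ^ 2 := by rw [hF]; norm_num
  set G := Cfsg.PSU 3 F 2
  let π : ↥(Cfsg.SU 3 F 2) →* G := QuotientGroup.mk' _
  have hscal : ∀ z ∈ Subgroup.center ↥(Cfsg.SU 3 F 2), ∃ c : F, c ^ 3 = 1 ∧
      ((z : Matrix.SpecialLinearGroup (Fin 3) F) : Matrix (Fin 3) (Fin 3) F) = Matrix.scalar (Fin 3) c := by
    intro z hz
    obtain ⟨c, hc⟩ := (mem_center_SU_iff hF2 (by norm_num) z).1 hz
    exact ⟨c, ((scalar_mem_SU_iff (q := 2) c (by norm_num)).1 ⟨_, z.2, hc⟩).2, hc⟩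
  -- the involutions of the quotient and the subgroup they generate
  let S : Set G := {u | u * u = 1}
  set H := Subgroup.closure S with hH
  haveI : H.Normal := by
    refine ⟨fun u hu g => ?_⟩
    have h1 : H.map (MulAut.conj g).toMonoidHom ≤ H := by
      rw [hH, MonoidHom.map_closure]
      refine Subgroup.closure_mono ?_
      rintro _ ⟨v, hv, rfl⟩
      show g * v * g⁻¹ * (g * v * g⁻¹) = 1
      rw [show g * v * g⁻¹ * (g * v * g⁻¹) = g * (v * v) * g⁻¹ by group, show v * v = 1 from hv]
      group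
    exact h1 ⟨u, hu, rfl⟩
  -- everything in `H` is monomial
  let Mo : Submonoid G :=
    { carrier := {u | ∃ A : ↥(Cfsg.SU 3 F 2), π A = u ∧ IsMono ((A : Matrix.SpecialLinearGroup (Fin 3) F) : Matrix (Fin 3) (Fin 3) F)}
      one_mem' := ⟨1, map_one π, by
        show IsMono (1 : Matrix (Fin 3) (Fin 3) F)
        simpa using IsMono.scalar (1 : F)⟩
      mul_mem' := by
        rintro _ _ ⟨A, rfl, hA⟩ ⟨B, rfl, hB⟩
        exact ⟨A * B, map_mul π A B, hA.mul hB⟩ }
  have hHMo : ∀ u ∈ H, u ∈ Mo := by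
    have hS : S ⊆ Mo := by
      intro u hu
      obtain ⟨A, rfl⟩ := QuotientGroup.mk'_surjective _ u
      have hu' : A * A ∈ Subgroup.center ↥(Cfsg.SU 3 F 2) := (QuotientGroup.eq_one_iff _).1 hu
      obtain ⟨c, hc3, hc⟩ := hscal _ hu'
      set z := A * A with hz
      have hz3 : z * (z * z) = 1 := by
        apply Subtype.ext; apply Subtype.ext
        show _ * (_ * _) = (1 : Matrix (Fin 3) (Fin 3) F)
        rw [hc, ← map_mul, ← map_mul, show c * (c * c) = 1 by linear_combination hc3, map_one]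
      refine ⟨A * z, ?_, ?_⟩
      · show π (A * z) = π A
        rw [map_mul, show π z = 1 from (QuotientGroup.eq_one_iff z).2 hu', mul_one]
      · have hA2 : (A * z) * (A * z) = 1 := by
          have : Commute A z := ((Subgroup.mem_center_iff.1 hu') A)
          rw [mul_assoc, ← mul_assoc z A, ← this.eq, mul_assoc A z, ← mul_assoc, ← hz, hz3]
        exact isMono_of_involution hF _
          ((mem_GU_iff_cjT (g := Matrix.SpecialLinearGroup.toGL (A * z).1) hF2).1 (mem_SU_iff_toGL_mem.1 (A * z).2))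
          (congrArg (fun x : ↥(Cfsg.SU 3 F 2) => ((x : Matrix.SpecialLinearGroup (Fin 3) F) : Matrix (Fin 3) (Fin 3) F)) hA2)
    intro u hu
    have hle : (H : Subgroup G).toSubmonoid ≤ Submonoid.closure S := by
      rw [hH, Subgroup.closure_toSubmonoid, Submonoid.closure_le]
      rintro x (hx | hx)
      · exact Submonoid.subset_closure hx
      · have hxx : x⁻¹ * x⁻¹ = 1 := hx
        exact Submonoid.subset_closure (show x * x = 1 by rw [← _root_.inv_inj, _root_.mul_inv_rev, hxx, inv_one])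
    exact (Submonoid.closure_le.2 hS) (hle hu)
  -- the element of order four
  obtain ⟨w, hw⟩ : ∃ w : F, w ^ 2 + w + 1 = 0 := by
    obtain ⟨c, hc⟩ : ∃ c : F, c ≠ 0 ∧ c ≠ 1 := by
      have hcard : ({0, 1} : Finset F).card < Fintype.card F := lt_of_le_of_lt Finset.card_le_two (by omega)
      obtain ⟨c, hc⟩ := Finset.exists_mem_notMem_of_card_lt_card (t := Finset.univ) hcard
      exact ⟨c, by simpa using hc.2⟩
    refine ⟨c, (mul_eq_zero.1 (show (c - 1) * (c ^ 2 + c + 1) = 0 by linear_combination frob4 hF c hc.1)).resolve_left (sub_ne_zero.2 hc.2)⟩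
  have h20 : (2 : F) = 0 := by
    have h4 : ((4 : ℕ) : F) = 0 := by rw [← hF]; exact FiniteField.cast_card_eq_zero F
    push_cast at h4
    exact (mul_self_eq_zero.1 (show (2 : F) * 2 = 0 by linear_combination h4))
  have hw3 : w ^ 3 = 1 := by linear_combination (w - 1) * hw
  let g : Matrix (Fin 3) (Fin 3) F := !![1, 1, 1; 1, w, w ^ 2; 1, w ^ 2, w]
  have hgd : g.det = 1 := by
    simp [g, Matrix.det_fin_three]
    linear_combination (-w ^ 2 + w + 3) * hw + (-2 - 3 * w) * h20
  have hgU : cjT 2 g * g = 1 := by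
    ext i j
    fin_cases i <;> fin_cases j <;> simp [g, cjT, Matrix.mul_apply, Fin.sum_univ_three]
    all_goals first
      | linear_combination h20
      | linear_combination (w ^ 2 - w + 1) * hw + 0 * hw3 + w * h20
      | linear_combination hw + 0 * h20
      | linear_combination (w + 1) * hw3 + hw + w * h20
      | linear_combination (w ^ 2) * hw3 + 2 * hw3 + h20
      | linear_combination (w ^ 3 + 1) * hw3 + 2 * hw3 + h20
      | linear_combination (w^3 + w^2 + 3) * hw3 + h20
      | (ring_nf; grind)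
  have hgg : g * g = !![1, 0, 0; 0, 0, 1; 0, 1, 0] := by
    ext i j
    fin_cases i <;> fin_cases j <;> simp [g, Matrix.mul_apply, Fin.sum_univ_three]
    all_goals first | linear_combination hw | linear_combination h20 | (ring_nf; grind)
  let Gs : Matrix.SpecialLinearGroup (Fin 3) F := ⟨g, hgd⟩
  have hGs : Gs ∈ Cfsg.SU 3 F 2 := by
    rw [mem_SU_iff_toGL_mem, mem_GU_iff_cjT hF2]; exact hgU
  let A : ↥(Cfsg.SU 3 F 2) := ⟨Gs, hGs⟩
  have hA4 : (A * A) * (A * A) = 1 := by
    apply Subtype.ext; apply Subtype.ext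
    show (g * g) * (g * g) = 1
    rw [hgg]
    ext i j
    fin_cases i <;> fin_cases j <;> simp [Matrix.mul_apply, Fin.sum_univ_three]
  have hAH : π A ∉ H := by
    intro h
    obtain ⟨B, hB, hBm⟩ := hHMo _ h
    obtain ⟨c, hc3, hc⟩ := hscal (B⁻¹ * A) (QuotientGroup.eq.1 hB)
    have hg' : IsMono g := by
      have e : g = ((B : Matrix.SpecialLinearGroup (Fin 3) F) : Matrix (Fin 3) (Fin 3) F) * Matrix.scalar (Fin 3) c := by
        rw [← hc]
        show _ = (((B * (B⁻¹ * A) : ↥(Cfsg.SU 3 F 2)) : Matrix.SpecialLinearGroup (Fin 3) F) : Matrix (Fin 3) (Fin 3) F)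
        rw [mul_inv_cancel_left]
      rw [e]; exact hBm.mul (IsMono.scalar c)
    obtain ⟨i, hi⟩ := hg' 0
    rcases eq_or_ne i 0 with rfl | h0
    · simpa [g] using hi 1 (by decide)
    · simpa [g] using hi 0 h0.symm
  -- a complement of `H` has odd order
  obtain ⟨X, hX⟩ := hcompl.exists_isCompl H
  have hodd : ∀ x ∈ X, Odd (orderOf x) := by
    intro x hx
    by_contra hne
    rw [Nat.not_odd_iff_even] at hne
    obtain ⟨k, hk⟩ := hne
    have hpos := orderOf_pos x
    have h1 : x ^ k * x ^ k = 1 := by rw [← pow_add, ← hk, pow_orderOf_eq_one]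
    have h2 : x ^ k ∈ H ⊓ X := ⟨Subgroup.subset_closure h1, X.pow_mem hx k⟩
    rw [hX.inf_eq_bot, Subgroup.mem_bot] at h2
    exact absurd h2 (pow_ne_one_of_lt_orderOf (by omega) (by omega))
  have hmem : π A ∈ H ⊔ X := by rw [hX.sup_eq_top]; trivial
  rw [← SetLike.mem_coe, Subgroup.normal_mul] at hmem
  obtain ⟨h, hh, x, hx, hhx⟩ := hmem
  apply hAH
  have hqeq : (QuotientGroup.mk' H) (π A) = (QuotientGroup.mk' H) x := by
    rw [← hhx, map_mul, show (QuotientGroup.mk' H) h = 1 from (QuotientGroup.eq_one_iff h).2 hh, one_mul]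
  have h4 : orderOf ((QuotientGroup.mk' H) (π A)) ∣ 4 := by
    refine orderOf_dvd_of_pow_eq_one ?_
    rw [← map_pow, ← map_pow, show A ^ 4 = 1 by rw [show (4 : ℕ) = 2 + 2 from rfl, pow_add, sq, hA4], map_one, map_one]
  have hd : orderOf ((QuotientGroup.mk' H) (π A)) ∣ orderOf x := by rw [hqeq]; exact orderOf_map_dvd _ x
  have hco : Nat.Coprime 4 (orderOf x) := by
    rw [show (4 : ℕ) = 2 ^ 2 by norm_num]
    exact Nat.Coprime.pow_left 2 (Nat.coprime_two_left.2 (hodd x hx))
  have h1 := Nat.eq_one_of_dvd_coprimes hco h4 hd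
  rw [orderOf_eq_one_iff] at h1
  exact (QuotientGroup.eq_one_iff _).1 h1

end Cfsg.Agent.S5908
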