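import Cfsg.Statements.S5909
import Mathlib

set_option autoImplicit false
open Cfsg

namespace Cfsg.Agent.S5909

open Equiv

variable {Ω : Type*} [DecidableEq Ω]

/-- The three-cycle `x → y → z → x`. -/
theorem rot {x y z : Ω} (hxy : x ≠ y) (hyz : y ≠ z) (hxz : x ≠ z) :
    swap x y * swap y z = swap y z * swap z x := by
  ext w
  simp only [Perm.mul_apply, swap_apply_def]
  grind

theorem shift {u u' v w : Ω} (huu : u ≠ u') (huv : u ≠ v) (huw : u ≠ w) (hv : u' ≠ v) (hw : u' ≠ w) (hvw : v ≠ w) :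
    (swap u u' * swap u' w) * (swap u u' * swap u' v)⁻¹ = swap u v * swap v w := by
  ext z
  simp only [Perm.mul_apply, mul_inv_rev, swap_inv, swap_apply_def]
  grind

theorem shift' {u u' v w : Ω} (huu : u ≠ u') (huv : u ≠ v) (huw : u ≠ w) (hv : u' ≠ v) (hw : u' ≠ w) (hvw : v ≠ w) :
    (swap u v * swap v w) * (swap u' v * swap v w)⁻¹ = swap u' u * swap u v := by
  ext z
  simp only [Perm.mul_apply, mul_inv_rev, swap_inv, swap_apply_def]
  grind

/-- The even permutations preserving a partition into `b` blocks of two points, for two small values. -/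
theorem small_count : (Finset.univ.filter fun σ : Perm (Fin 2 × Fin 2) =>
      (∀ x y : Fin 2 × Fin 2, x.1 = y.1 ↔ (σ x).1 = (σ y).1) ∧ Perm.sign σ = 1).card = 4 ∧
    (Finset.univ.filter fun σ : Perm (Fin 3 × Fin 2) =>
      (∀ x y : Fin 3 × Fin 2, x.1 = y.1 ↔ (σ x).1 = (σ y).1) ∧ Perm.sign σ = 1).card = 24 := by
  refine ⟨?_, ?_⟩ <;> decide +kernel

/-- Let Ω be a finite set whose size is not 8, and f : Ω → Fin b a labelling with b ≥ 2 whose fibres all have the same size a ≥ 2 (a partition into b blocks of size a). Then the even permutations preserving the partition — the intersection of the imprimitive wreath product S_a ≀ S_b with the alternating group — form a maximal subgroup of the alternating group on Ω. -/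
theorem result {Ω : Type*} [Fintype Ω] [DecidableEq Ω] (h8 : Fintype.card Ω ≠ 8) (a b : ℕ) (ha : 2 ≤ a) (hb : 2 ≤ b)
    (f : Ω → Fin b) (hf : ∀ i : Fin b, Nat.card {x : Ω // f x = i} = a) :
    IsCoatom ((Subgroup.closure {g : Equiv.Perm Ω | ∀ x y : Ω, f x = f y ↔ f (g x) = f (g y)} ⊓ alternatingGroup Ω).subgroupOf (alternatingGroup Ω)) := by
  classical
  haveI : Finite Ω := Finite.of_fintype Ω
  have he : ∀ i, Nonempty ({x : Ω // f x = i} ≃ Fin a) := fun i =>
    ⟨(Finite.equivFin _).trans (finCongr (hf i))⟩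
  let E : Ω ≃ Fin b × Fin a :=
    ((Equiv.sigmaFiberEquiv f).symm.trans (Equiv.sigmaCongrRight fun i => (he i).some)).trans (Equiv.sigmaEquivProd _ _)
  have hE : ∀ x, (E x).1 = f x := fun x => rfl
  let W : Subgroup (Equiv.Perm Ω) :=
    { carrier := {g | ∀ x y : Ω, f x = f y ↔ f (g x) = f (g y)}
      one_mem' := fun x y => Iff.rfl
      mul_mem' := fun {g h} hg hh x y => (hh x y).trans (hg (h x) (h y))
      inv_mem' := fun {g} hg x y => by
        have := (hg (g⁻¹ x) (g⁻¹ y)).symm
        simpa using this }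
  rw [show Subgroup.closure {g : Equiv.Perm Ω | ∀ x y : Ω, f x = f y ↔ f (g x) = f (g y)} = W from
    Subgroup.closure_eq W]
  set A := alternatingGroup Ω with hA
  have hswap : ∀ u v : Ω, f u = f v → swap u v ∈ W := by
    intro u v huv x y
    have : ∀ z, f (swap u v z) = f z := by
      intro z
      by_cases h1 : z = u
      · subst h1; rw [swap_apply_left, huv]
      · by_cases h2 : z = v
        · subst h2; rw [swap_apply_right, huv]
        · rw [swap_apply_of_ne_of_ne h1 h2]
    rw [this, this]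
  -- extension of a map respecting the blocks to an element of `W`
  have hext : ∀ (k : ℕ) (x y : Fin k → Ω), Function.Injective x → Function.Injective y →
      (∀ i j, f (x i) = f (x j) ↔ f (y i) = f (y j)) → ∃ w ∈ W, ∀ i, w (x i) = y i := by
    intro k x y hx hy hxy
    let ι := {c : Fin b // ∃ i, f (x i) = c}
    obtain ⟨σ, hσ⟩ := Equiv.Perm.exists_extending_pair (α := ι) (fun c => (c : Fin b)) (fun c => f (y c.2.choose))
      Subtype.val_injective (fun c d hcd => Subtype.ext (by
        rw [← c.2.choose_spec, ← d.2.choose_spec]; exact (hxy _ _).mpr hcd))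
    have hσ' : ∀ i, σ (f (x i)) = f (y i) := fun i => by
      refine (hσ (⟨f (x i), i, rfl⟩ : ι)).trans ?_
      exact (hxy _ _).mp (Exists.choose_spec (⟨i, rfl⟩ : ∃ j, f (x j) = f (x i)))
    have hτ : ∀ c : Fin b, ∃ τ : Perm (Fin a), ∀ i, f (x i) = c → τ (E (x i)).2 = (E (y i)).2 := by
      intro c
      obtain ⟨τ, hτ⟩ := Equiv.Perm.exists_extending_pair (α := {i // f (x i) = c}) (fun i => (E (x i.1)).2)
        (fun i => (E (y i.1)).2)
        (fun i j hij => Subtype.ext (hx (E.injective (Prod.ext (by rw [hE, hE, i.2, j.2]) hij))))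
        (fun i j hij => Subtype.ext (hy (E.injective (Prod.ext
          (by rw [hE, hE]; exact (hxy _ _).mp (i.2.trans j.2.symm)) hij))))
      exact ⟨τ, fun i hi => hτ ⟨i, hi⟩⟩
    choose τ hτ using hτ
    let P : Perm (Fin b × Fin a) :=
      (Equiv.prodShear (Equiv.refl (Fin b)) τ).trans (σ.prodCongr (Equiv.refl (Fin a)))
    refine ⟨(E.trans P).trans E.symm, ?_, ?_⟩
    · intro u v
      have e1 : ∀ z, f ((E.trans P).trans E.symm z) = σ (f z) := by
        intro z
        rw [← hE]
        show (E (E.symm (P (E z)))).1 = _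
        rw [Equiv.apply_symm_apply]
        rfl
      rw [e1, e1, σ.injective.eq_iff]
    · intro i
      apply E.injective
      show E (E.symm (P (E (x i)))) = E (y i)
      rw [Equiv.apply_symm_apply]
      refine Prod.ext ?_ ?_
      · exact (hσ' i).trans (hE (y i)).symm
      · show τ (E (x i)).1 (E (x i)).2 = _
        exact hτ _ i (hE (x i)).symm
  have hsgn : ∀ w : Perm Ω, w ∈ A ↔ Perm.sign w = 1 := fun w => Perm.mem_alternatingGroup
  -- two further points in a block
  have hcard : ∀ i : Fin b, (Finset.univ.filter fun z => f z = i).card = a := fun i => by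
    rw [← hf i, Nat.card_eq_fintype_card, Fintype.card_subtype]
  have hpartner : ∀ z : Ω, ∃ z', f z' = f z ∧ z' ≠ z := by
    intro z
    obtain ⟨z', hz', hne⟩ := Finset.exists_mem_ne (show 1 < (Finset.univ.filter fun w => f w = f z).card by rw [hcard]; omega) z
    exact ⟨z', (Finset.mem_filter.mp hz').2, hne⟩
  have hΩ : Fintype.card Ω = b * a := by rw [Fintype.card_congr E, Fintype.card_prod, Fintype.card_fin, Fintype.card_fin]
  -- `M`
  constructor
  · rw [Ne, Subgroup.subgroupOf_eq_top]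
    intro hle
    obtain ⟨u, hu⟩ : ∃ u, f u = (⟨0, by omega⟩ : Fin b) := ⟨E.symm (⟨0, by omega⟩, ⟨0, by omega⟩), by simp [← hE]⟩
    obtain ⟨v, hv⟩ : ∃ v, f v = (⟨1, by omega⟩ : Fin b) := ⟨E.symm (⟨1, by omega⟩, ⟨0, by omega⟩), by simp [← hE]⟩
    obtain ⟨u', hu', hne⟩ := hpartner u
    have huv : f u ≠ f v := by rw [hu, hv]; simp [Fin.ext_iff]
    have hu'v : u' ≠ v := fun e => huv (by rw [← e, hu'])
    have huv' : u ≠ v := fun e => huv (by rw [e])
    have hm := (hle (Perm.IsThreeCycle.mem_alternatingGroup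
      (Perm.isThreeCycle_swap_mul_swap_same hne.symm huv' hu'v))).1
    have h2 := (hm u u').mp hu'.symm
    rw [Perm.mul_apply, Perm.mul_apply, swap_apply_left, swap_apply_of_ne_of_ne huv'.symm hu'v.symm,
      swap_apply_of_ne_of_ne hne hu'v, swap_apply_right] at h2
    exact huv h2.symm
  intro L' hL'
  set L := L'.map A.subtype with hLdef
  have hLA : L ≤ A := Subgroup.map_subtype_le _
  have hML : ∀ w, w ∈ W → Perm.sign w = 1 → w ∈ L := fun w hw hs =>
    ⟨⟨w, (hsgn w).mpr hs⟩, hL'.le (show (w : Perm Ω) ∈ W ⊓ A from ⟨hw, (hsgn w).mpr hs⟩), rfl⟩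
  obtain ⟨g', hg'L, hg'M⟩ := SetLike.exists_of_lt hL'
  set g := (g' : Perm Ω) with hg
  have hgL : g ∈ L := ⟨g', hg'L, rfl⟩
  have hgA : g ∈ A := g'.2
  have hgW : g ∉ W := fun h => hg'M ⟨h, hgA⟩
  suffices htop : A ≤ L by
    rw [eq_top_iff]
    intro z _
    obtain ⟨z', hz', e⟩ := htop z.2
    exact Subtype.ext e ▸ hz'
  -- a pair in a block sent to two blocks
  obtain ⟨g₁, hg₁L, x, x', hxx, hxne, hcross⟩ : ∃ g₁ ∈ L, ∃ x x' : Ω, f x = f x' ∧ x ≠ x' ∧ f (g₁ x) ≠ f (g₁ x') := by
    have : ¬ ∀ x y : Ω, f x = f y ↔ f (g x) = f (g y) := hgW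
    push Not at this
    obtain ⟨x, y, ⟨h1, h2⟩ | ⟨h1, h2⟩⟩ := this
    · exact ⟨g, hgL, x, y, h1, fun e => h2 (by rw [e]), h2⟩
    · refine ⟨g⁻¹, L.inv_mem hgL, g x, g y, h2, fun e => h1 (by rw [g.injective e]), ?_⟩
      simpa using h1
  have hconj : ∀ (w : Perm Ω) (u v : Ω), w * swap u v * w⁻¹ = swap (w u) (w v) := fun w u v =>
    (swap_apply_apply w u v).symm
  -- small cases
  by_cases hsmall : a = 2 ∧ b ≤ 3
  · obtain ⟨ha2, hb3⟩ := hsmall
    have hLlt : Nat.card (W ⊓ A : Subgroup (Perm Ω)) < Nat.card L := by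
      have hle : W ⊓ A ≤ L := fun w hw => hML w hw.1 ((hsgn w).mp hw.2)
      refine lt_of_le_of_ne (Subgroup.card_le_of_le hle) fun e => ?_
      exact hgW ((Subgroup.eq_of_le_of_card_ge hle e.ge).symm ▸ hgL : g ∈ W ⊓ A).1
    have hdiv : Nat.card (W ⊓ A : Subgroup (Perm Ω)) ∣ Nat.card L :=
      Subgroup.card_dvd_of_le fun w hw => hML w hw.1 ((hsgn w).mp hw.2)
    have hLd : Nat.card L ∣ Nat.card A := Subgroup.card_dvd_of_le hLA
    have hM : Nat.card (W ⊓ A : Subgroup (Perm Ω)) =
        (Finset.univ.filter fun σ : Perm (Fin b × Fin a) =>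
          (∀ x y : Fin b × Fin a, x.1 = y.1 ↔ (σ x).1 = (σ y).1) ∧ Perm.sign σ = 1).card := by
      rw [← Fintype.card_subtype, ← Nat.card_eq_fintype_card]
      refine Nat.card_congr (E.permCongr.subtypeEquiv fun w => ?_)
      rw [Subgroup.mem_inf, hsgn, Equiv.Perm.sign_permCongr]
      refine and_congr ⟨fun h x y => ?_, fun h x y => ?_⟩ Iff.rfl
      · have := h (E.symm x) (E.symm y)
        simpa [← hE, Equiv.permCongr_apply] using this
      · have := h (E x) (E y)
        simpa [← hE, Equiv.permCongr_apply] using this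
    have : Nontrivial Ω := ⟨⟨x, x', hxne⟩⟩
    have hA2 := nat_card_alternatingGroup (α := Ω)
    rw [Nat.card_eq_fintype_card (α := Ω), hΩ] at hA2
    rcases (by omega : b = 2 ∨ b = 3) with rfl | rfl
    · subst ha2
      rw [small_count.1] at hM
      simp [Nat.factorial, ← hA] at hA2
      rw [← Nat.card_eq_fintype_card] at hA2
      refine (Subgroup.eq_of_le_of_card_ge hLA ?_).ge
      rw [hM] at hdiv hLlt
      rw [hA2] at hLd
      have := Nat.le_of_dvd (by omega) hLd
      obtain ⟨c, hc⟩ := hdiv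
      rw [hA2]
      have hc3 : c ≤ 3 := by omega
      rw [hc] at hLd hLlt ⊢
      interval_cases c <;> revert hLd hLlt <;> norm_num
    · subst ha2
      rw [small_count.2] at hM
      simp [Nat.factorial, ← hA] at hA2
      rw [← Nat.card_eq_fintype_card] at hA2
      by_contra hne
      have hL'top : L' ≠ ⊤ := fun e => hne fun z hz => ⟨⟨z, hz⟩, e ▸ Subgroup.mem_top _, rfl⟩
      haveI : IsSimpleGroup A := alternatingGroup.isSimpleGroup (by rw [Nat.card_eq_fintype_card, hΩ]; norm_num)
      have hker : L'.normalCore = ⊥ := (inferInstance : L'.normalCore.Normal).eq_bot_or_eq_top.resolve_right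
        fun e => hL'top (top_le_iff.mp (e ▸ Subgroup.normalCore_le L'))
      have hinj : Function.Injective (MulAction.toPermHom A (A ⧸ L')) := by
        rw [← MonoidHom.ker_eq_bot_iff, ← Subgroup.normalCore_eq_ker, hker]
      have h1 := Subgroup.card_dvd_of_injective _ hinj
      rw [Nat.card_perm, ← Subgroup.index_eq_card, hA2] at h1
      have h2 := L'.card_mul_index
      have h3 : Nat.card L' = Nat.card L :=
        Nat.card_congr (Subgroup.equivMapOfInjective L' A.subtype (Subgroup.subtype_injective A)).toEquiv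
      rw [h3, hA2] at h2
      rw [hM] at hdiv hLlt
      obtain ⟨c, hc⟩ := hdiv
      rw [hc, mul_assoc] at h2
      have h4 : c * L'.index = 15 := by omega
      have hd : L'.index ∣ 15 := ⟨c, by rw [← h4, mul_comm]⟩
      rw [hc] at hLlt
      have hle : L'.index ≤ 15 := Nat.le_of_dvd (by norm_num) hd
      generalize L'.index = i at h1 h4 hd hle
      interval_cases i <;> first | omega | (revert h1 hd <;> norm_num [Nat.factorial])
  -- a spare pair, giving the parity correction
  have hspare : ∀ y : Fin 3 → Ω, Function.Injective y → f (y 2) ≠ f (y 0) → f (y 2) ≠ f (y 1) →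
      ∃ p q, p ≠ q ∧ f p = f q ∧ ∀ i, y i ≠ p ∧ y i ≠ q := by
    intro y hy h0 h1
    by_cases ha3 : 3 ≤ a
    · set F := (Finset.univ.filter fun z => f z = f (y 2)).erase (y 2) with hF
      have hFc : 1 < F.card := by
        rw [hF, Finset.card_erase_of_mem (by simp), hcard]; omega
      obtain ⟨p, hp, q, hq, hpq⟩ := Finset.one_lt_card.mp hFc
      simp only [hF, Finset.mem_erase, Finset.mem_filter, Finset.mem_univ, true_and] at hp hq
      refine ⟨p, q, hpq, hp.2.trans hq.2.symm, fun i => ?_⟩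
      fin_cases i
      · exact ⟨fun e => h0 (hp.2.symm.trans (congrArg f e.symm)), fun e => h0 (hq.2.symm.trans (congrArg f e.symm))⟩
      · exact ⟨fun e => h1 (hp.2.symm.trans (congrArg f e.symm)), fun e => h1 (hq.2.symm.trans (congrArg f e.symm))⟩
      · exact ⟨fun e => hp.1 e.symm, fun e => hq.1 e.symm⟩
    · have hb4 : 3 < b := by
        by_contra hb4; exact hsmall ⟨by omega, by omega⟩
      obtain ⟨c, -, hc⟩ := Finset.exists_mem_notMem_of_card_lt_card
        (show ({f (y 0), f (y 1), f (y 2)} : Finset (Fin b)).card < (Finset.univ : Finset (Fin b)).card by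
          rw [Finset.card_univ, Fintype.card_fin]; exact lt_of_le_of_lt Finset.card_le_three hb4)
      simp only [Finset.mem_insert, Finset.mem_singleton, not_or] at hc
      obtain ⟨p, hp⟩ : ∃ p, f p = c := ⟨E.symm (c, ⟨0, by omega⟩), by simp [← hE]⟩
      obtain ⟨q, hq, hqp⟩ := hpartner p
      refine ⟨p, q, hqp.symm, hq.symm, fun i => ?_⟩
      fin_cases i
      · exact ⟨fun e => hc.1 (by rw [← hp, ← e]; rfl), fun e => hc.1 (by rw [← hp, ← hq, ← e]; rfl)⟩
      · exact ⟨fun e => hc.2.1 (by rw [← hp, ← e]; rfl), fun e => hc.2.1 (by rw [← hp, ← hq, ← e]; rfl)⟩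
      · exact ⟨fun e => hc.2.2 (by rw [← hp, ← e]; rfl), fun e => hc.2.2 (by rw [← hp, ← hq, ← e]; rfl)⟩
  have hmove : ∀ x y : Fin 3 → Ω, Function.Injective x → Function.Injective y → f (y 2) ≠ f (y 0) → f (y 2) ≠ f (y 1) →
      (∀ i j, f (x i) = f (x j) ↔ f (y i) = f (y j)) →
      swap (x 0) (x 1) * swap (x 1) (x 2) ∈ L → swap (y 0) (y 1) * swap (y 1) (y 2) ∈ L := by
    intro x y hx hy h0 h1 hxy hmem
    obtain ⟨w, hw, hwi⟩ := hext 3 x y hx hy hxy
    obtain ⟨v, hvW, hv1, hvi⟩ : ∃ v ∈ W, Perm.sign v = 1 ∧ ∀ i, v (x i) = y i := by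
      rcases Int.units_eq_one_or (Perm.sign w) with hs | hs
      · exact ⟨w, hw, hs, hwi⟩
      · obtain ⟨p, q, hpq, hfpq, hav⟩ := hspare y hy h0 h1
        refine ⟨swap p q * w, W.mul_mem (hswap p q hfpq) hw, by rw [map_mul, hs, Perm.sign_swap hpq]; decide, fun i => ?_⟩
        rw [Perm.mul_apply, hwi, swap_apply_of_ne_of_ne (hav i).1 (hav i).2]
    have hvL := hML v hvW hv1
    have := L.mul_mem (L.mul_mem hvL hmem) (L.inv_mem hvL)
    have e : v * (swap (x 0) (x 1) * swap (x 1) (x 2)) * v⁻¹ =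
        (v * swap (x 0) (x 1) * v⁻¹) * (v * swap (x 1) (x 2) * v⁻¹) := by group
    rwa [e, hconj, hconj, hvi, hvi, hvi] at this
  have hinj3 : ∀ {u v w : Ω}, u ≠ v → u ≠ w → v ≠ w → Function.Injective ![u, v, w] := by
    intro u v w huv huw hvw i j hij
    fin_cases i <;> fin_cases j <;> simp [huv, huw, hvw, Ne.symm huv, Ne.symm huw, Ne.symm hvw] at hij ⊢
  -- one suitable three-cycle suffices
  have hgen : ∀ x y z : Ω, x ≠ y → y ≠ z → x ≠ z → ¬ (f x = f y ∧ f y = f z) → swap x y * swap y z ∈ L → A ≤ L := by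
    intro x y z hxy hyz hxz hnot hmem
    obtain ⟨u, u', v, huu, hfu, hfv, hbase⟩ : ∃ u u' v, u ≠ u' ∧ f u = f u' ∧ f v ≠ f u ∧ swap u u' * swap u' v ∈ L := by
      by_cases h1 : f x = f y
      · exact ⟨x, y, z, hxy, h1, fun e => hnot ⟨h1, h1.symm.trans e.symm⟩, hmem⟩
      by_cases h2 : f y = f z
      · exact ⟨y, z, x, hyz, h2, h1, rot hxy hyz hxz ▸ hmem⟩
      by_cases h3 : f z = f x
      · refine ⟨z, x, y, hxz.symm, h3, fun e => h2 e, ?_⟩
        rw [← rot hyz hxz.symm hxy.symm, ← rot hxy hyz hxz]; exact hmem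
      obtain ⟨x', hx', hxne'⟩ := hpartner x
      have hx'y : x' ≠ y := fun e => h1 (by rw [← e, hx'])
      have hx'z : x' ≠ z := fun e => h3 (by rw [← e, hx'])
      have hmem' : swap x' y * swap y z ∈ L := hmove ![x, y, z] ![x', y, z] (hinj3 hxy hxz hyz) (hinj3 hx'y hx'z hyz)
        (by show f z ≠ f x'; rw [hx']; exact h3) (show f z ≠ f y from Ne.symm h2)
        (fun i j => by fin_cases i <;> fin_cases j <;> simp [hx']) hmem
      have := L.mul_mem hmem (L.inv_mem hmem')
      rw [shift' hxne'.symm hxy hxz hx'y hx'z hyz] at this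
      exact ⟨x', x, y, hxne', hx', fun e => h1 (by rw [e, hx']), this⟩
    have htwo : ∀ s s' t : Ω, s ≠ s' → f s = f s' → t ≠ s → t ≠ s' → swap s s' * swap s' t ∈ L := by
      intro s s' t hss hfs hts hts'
      by_cases hft : f t = f s
      · exact hML _ (W.mul_mem (hswap s s' hfs) (hswap s' t (hfs.symm.trans hft.symm)))
          (by rw [map_mul, Perm.sign_swap hss, Perm.sign_swap hts'.symm]; decide)
      refine hmove ![u, u', v] ![s, s', t] (hinj3 huu (fun e => hfv (congrArg f e.symm))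
        (fun e => hfv (by rw [← e, hfu]))) (hinj3 hss hts.symm hts'.symm) (show f t ≠ f s from hft)
        (show f t ≠ f s' by rw [← hfs]; exact hft) (fun i j => ?_) hbase
      fin_cases i <;> fin_cases j <;> simp [hfu, hfs, show f v ≠ f u' from hfu ▸ hfv, show f t ≠ f s' from hfs ▸ hft,
        Ne.symm (show f v ≠ f u' from hfu ▸ hfv), Ne.symm (show f t ≠ f s' from hfs ▸ hft)]
    rw [hA, ← Perm.closure_three_cycles_eq_alternating, Subgroup.closure_le]
    intro σ hσ
    have hσ : σ.IsThreeCycle := hσ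
    obtain ⟨p, hp⟩ := hσ.isCycle.nonempty_support
    have hnd := hσ.nodup_iff_mem_support.mpr hp
    simp only [List.nodup_cons, List.mem_cons, List.not_mem_nil, or_false, not_or, List.nodup_nil] at hnd
    obtain ⟨⟨hn1, hn2⟩, hn3, -⟩ := hnd
    have hσeq : σ = swap p (σ p) * swap (σ p) (σ (σ p)) := by
      have hsupp := hσ.support_eq_iff_mem_support.mpr hp
      have h3 : σ (σ (σ p)) = p := by
        have := hσ.orderOf
        have h := congrArg (fun τ : Perm Ω => τ p) (this ▸ pow_orderOf_eq_one σ : σ ^ 3 = 1)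
        simpa [pow_succ, Perm.mul_apply] using h
      ext r
      by_cases hr : r ∈ σ.support
      · rw [hsupp] at hr
        simp only [Finset.mem_insert, Finset.mem_singleton] at hr
        rcases hr with rfl | rfl | rfl <;> simp only [Perm.mul_apply, swap_apply_def] <;> grind
      · have hfix := Perm.notMem_support.mp hr
        rw [hsupp] at hr
        simp only [Finset.mem_insert, Finset.mem_singleton, not_or] at hr
        rw [Perm.mul_apply, swap_apply_of_ne_of_ne hr.2.1 hr.2.2, swap_apply_of_ne_of_ne hr.1 hr.2.1, hfix]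
    set q := σ p with hq
    set r := σ q with hr
    rw [SetLike.mem_coe, hσeq]
    obtain ⟨p', hp', hpne⟩ := hpartner p
    by_cases e1 : f q = f p
    · exact htwo p q r hn1 e1.symm (Ne.symm hn2) (Ne.symm hn3)
    by_cases e2 : f r = f p
    · rw [rot hn1 hn3 hn2, rot hn3 (Ne.symm hn2) (Ne.symm hn1)]
      exact htwo r p q (Ne.symm hn2) e2 hn3 (Ne.symm hn1)
    have hp'q : p' ≠ q := fun e => e1 (by rw [← e, hp'])
    have hp'r : p' ≠ r := fun e => e2 (by rw [← e, hp'])
    rw [← shift hpne.symm hn1 hn2 hp'q hp'r hn3]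
    exact L.mul_mem (htwo p p' r hpne.symm hp'.symm (Ne.symm hn2) hp'r.symm)
      (L.inv_mem (htwo p p' q hpne.symm hp'.symm (Ne.symm hn1) hp'q.symm))
  have hgf : ∀ {u v : Ω}, u ≠ v → g₁ u ≠ g₁ v := fun h e => h (g₁.injective e)
  rcases (by omega : 3 ≤ a ∨ a = 2) with ha3 | ha2
  · obtain ⟨z, hz⟩ : ∃ z, z ∈ ((Finset.univ.filter fun w => f w = f x).erase x).erase x' :=
      Finset.card_pos.mp (by
        rw [Finset.card_erase_of_mem (by simp [hxx, Ne.symm hxne]), Finset.card_erase_of_mem (by simp), hcard]; omega)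
    simp only [Finset.mem_erase, Finset.mem_filter, Finset.mem_univ, true_and] at hz
    obtain ⟨hz1, hz2, hz3⟩ := hz
    have hcyc : swap x x' * swap x' z ∈ L := hML _ (W.mul_mem (hswap x x' hxx) (hswap x' z (hxx.symm.trans hz3.symm)))
      (by rw [map_mul, Perm.sign_swap hxne, Perm.sign_swap (Ne.symm hz1)]; decide)
    have := L.mul_mem (L.mul_mem hg₁L hcyc) (L.inv_mem hg₁L)
    have e : g₁ * (swap x x' * swap x' z) * g₁⁻¹ = (g₁ * swap x x' * g₁⁻¹) * (g₁ * swap x' z * g₁⁻¹) := by group
    rw [e, hconj, hconj] at this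
    exact hgen _ _ _ (hgf hxne) (hgf (Ne.symm hz1)) (hgf (Ne.symm hz2)) (fun h => hcross h.1) this
  -- blocks of two points
  have hb5 : 4 < b := by
    by_contra hb5
    refine hsmall ⟨ha2, ?_⟩
    by_contra hb4
    apply h8
    rw [hΩ, show b = 4 by omega, ha2]
  have hpair : ∀ {u v w : Ω}, f u = f v → f u = f w → u ≠ v → u ≠ w → v = w := by
    intro u v w huv huw huv' huw'
    by_contra hvw
    have : ({u, v, w} : Finset Ω).card ≤ a := by
      rw [← hcard (f u)]
      exact Finset.card_le_card fun s hs => by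
        simp only [Finset.mem_insert, Finset.mem_singleton] at hs
        rcases hs with rfl | rfl | rfl <;> simp [← huv, ← huw]
    rw [Finset.card_insert_of_notMem (by simp [huv', huw']), Finset.card_pair hvw] at this
    omega
  set p := g₁ x with hp
  set q := g₁ x' with hq
  obtain ⟨p', hp', hpne⟩ := hpartner p
  obtain ⟨q', hq', hqne⟩ := hpartner q
  obtain ⟨y, -, hy⟩ := Finset.exists_mem_notMem_of_card_lt_card
    (show ({x, x', g₁⁻¹ p', g₁⁻¹ q'} : Finset Ω).card < (Finset.univ : Finset Ω).card by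
      rw [Finset.card_univ, hΩ, ha2]; exact lt_of_le_of_lt Finset.card_le_four (by omega))
  simp only [Finset.mem_insert, Finset.mem_singleton, not_or] at hy
  obtain ⟨hy1, hy2, hy3, hy4⟩ := hy
  obtain ⟨y', hy', hyne⟩ := hpartner y
  have hy'1 : y' ≠ x := fun e => hy2 (hpair (show f x = f y by rw [← e, hy']) hxx (Ne.symm hy1) hxne)
  have hy'2 : y' ≠ x' := fun e => hy1 (hpair (show f x' = f y by rw [← e, hy']) hxx.symm (Ne.symm hy2) hxne.symm)
  set r := g₁ y with hr
  set s := g₁ y' with hs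
  have hrp' : r ≠ p' := fun e => hy3 (by rw [← e, hr]; simp)
  have hrq' : r ≠ q' := fun e => hy4 (by rw [← e, hr]; simp)
  have hpq : p ≠ q := hgf hxne
  have hrs : r ≠ s := hgf hyne.symm
  have hpr : p ≠ r := hgf (Ne.symm hy1)
  have hqr : q ≠ r := hgf (Ne.symm hy2)
  have hps : p ≠ s := hgf (Ne.symm hy'1)
  have hqs : q ≠ s := hgf (Ne.symm hy'2)
  have hd : swap p q * swap r s ∈ L := by
    have := L.mul_mem (L.mul_mem hg₁L (hML _ (W.mul_mem (hswap x x' hxx) (hswap y y' hy'.symm))
      (by rw [map_mul, Perm.sign_swap hxne, Perm.sign_swap hyne.symm]; decide))) (L.inv_mem hg₁L)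
    have e : g₁ * (swap x x' * swap y y') * g₁⁻¹ = (g₁ * swap x x' * g₁⁻¹) * (g₁ * swap y y' * g₁⁻¹) := by group
    rwa [e, hconj, hconj] at this
  by_cases hrs' : f r = f s
  · have hp'q : p' ≠ q := fun e => hcross (by rw [← e, hp'])
    have hp'r : p' ≠ r := hrp'.symm
    have hp's : p' ≠ s := fun e => hpr (hpair (show f s = f p by rw [← e, hp']) hrs'.symm hps.symm hrs.symm)
    have hm : swap p p' * swap r s ∈ L := hML _ (W.mul_mem (hswap p p' hp'.symm) (hswap r s hrs'))
      (by rw [map_mul, Perm.sign_swap hpne.symm, Perm.sign_swap hrs]; decide)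
    have := L.mul_mem hm hd
    have e : swap p p' * swap r s * (swap p q * swap r s) = swap p' p * swap p q := by
      ext w; simp only [Perm.mul_apply, swap_apply_def]; grind
    rw [e] at this
    exact hgen _ _ _ hpne hpq hp'q (fun h => hcross h.2) this
  -- a block moved to a point off the four points
  have key : ∀ p q p' : Ω, p ≠ q → f p ≠ f q → f p' = f p → p' ≠ p → p' ≠ r → p' ≠ s → p ≠ r → p ≠ s → q ≠ r → q ≠ s →
      swap p q * swap r s ∈ L → A ≤ L := by
    intro p q p' hpq hfpq hp' hpne hp'r hp's hpr hps hqr hqs hd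
    have hp'q : p' ≠ q := fun e => hfpq (by rw [← e, hp'])
    obtain ⟨c, -, hc⟩ := Finset.exists_mem_notMem_of_card_lt_card
      (show ({f p, f q, f r, f s} : Finset (Fin b)).card < (Finset.univ : Finset (Fin b)).card by
        rw [Finset.card_univ, Fintype.card_fin]; exact lt_of_le_of_lt Finset.card_le_four hb5)
    simp only [Finset.mem_insert, Finset.mem_singleton, not_or] at hc
    obtain ⟨t, ht⟩ : ∃ t, f t = c := ⟨E.symm (c, ⟨0, by omega⟩), by simp [← hE]⟩
    obtain ⟨t', ht', htne⟩ := hpartner t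
    have htp : t ≠ p := fun e => hc.1 (by rw [← ht, e])
    have htq : t ≠ q := fun e => hc.2.1 (by rw [← ht, e])
    have htr : t ≠ r := fun e => hc.2.2.1 (by rw [← ht, e])
    have hts : t ≠ s := fun e => hc.2.2.2 (by rw [← ht, e])
    have ht'p : t' ≠ p := fun e => hc.1 (by rw [← ht, ← ht', e])
    have ht'q : t' ≠ q := fun e => hc.2.1 (by rw [← ht, ← ht', e])
    have ht'r : t' ≠ r := fun e => hc.2.2.1 (by rw [← ht, ← ht', e])
    have ht's : t' ≠ s := fun e => hc.2.2.2 (by rw [← ht, ← ht', e])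
    have htp' : t ≠ p' := fun e => hc.1 (by rw [← ht, e, hp'])
    have ht'p' : t' ≠ p' := fun e => hc.1 (by rw [← ht, ← ht', e, hp'])
    have hm : swap p p' * swap t t' ∈ L := hML _ (W.mul_mem (hswap p p' hp'.symm) (hswap t t' ht'.symm))
      (by rw [map_mul, Perm.sign_swap hpne.symm, Perm.sign_swap htne.symm]; decide)
    have := L.mul_mem hm (L.mul_mem (L.mul_mem hd hm) (L.inv_mem hd))
    have e2 : (swap p q * swap r s) * (swap p p' * swap t t') * (swap p q * swap r s)⁻¹ = swap q p' * swap t t' := by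
      have hap : ∀ z w, (swap p q * swap r s) * swap z w * (swap p q * swap r s)⁻¹ =
          swap ((swap p q * swap r s) z) ((swap p q * swap r s) w) := fun z w => hconj _ z w
      rw [show (swap p q * swap r s) * (swap p p' * swap t t') * (swap p q * swap r s)⁻¹ =
          ((swap p q * swap r s) * swap p p' * (swap p q * swap r s)⁻¹) *
          ((swap p q * swap r s) * swap t t' * (swap p q * swap r s)⁻¹) by group, hap, hap]
      simp only [Perm.mul_apply, swap_apply_of_ne_of_ne hpr hps, swap_apply_left, swap_apply_of_ne_of_ne hp'r hp's,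
        swap_apply_of_ne_of_ne hpne hp'q, swap_apply_of_ne_of_ne htr hts, swap_apply_of_ne_of_ne htp htq,
        swap_apply_of_ne_of_ne ht'r ht's, swap_apply_of_ne_of_ne ht'p ht'q]
    rw [e2] at this
    have e3 : swap p p' * swap t t' * (swap q p' * swap t t') = swap p p' * swap p' q := by
      ext w; simp only [Perm.mul_apply, swap_apply_def]; grind
    rw [e3] at this
    exact hgen _ _ _ hpne.symm hp'q hpq (fun h => hfpq (h.1.trans h.2)) this
  by_cases hp's : p' = s
  · have hq's : q' ≠ s := by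
      intro e
      exact hcross (by rw [← hp', ← hq', hp's, e])
    refine key q p q' hpq.symm (Ne.symm hcross) hq' hqne hrq'.symm hq's hqr hqs hpr hps ?_
    rwa [swap_comm q p]
  · exact key p q p' hpq hcross hp' hpne hrp'.symm hp's hpr hps hqr hqs hd

end Cfsg.Agent.S5909
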