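import Cfsg.Statements.S5912
import Cfsg.Agent.SmallPerm.SymSixIndexSix
-- import your own Cfsg.Agent.* helpers here

set_option autoImplicit false
open Cfsg

namespace Cfsg.Agent.S5912

/-- The symmetric group on a 6-element set Ω has exactly two conjugacy classes of subgroups of index 6: there are two non-conjugate subgroups of index 6 (a point stabilizer and a transitive subgroup isomorphic to S₅), and every subgroup of index 6 is conjugate to one of them. -/
theorem result {Ω : Type*} [Fintype Ω] [DecidableEq Ω] (h6 : Fintype.card Ω = 6) :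
    ∃ H₁ H₂ : Subgroup (Equiv.Perm Ω), H₁.index = 6 ∧ H₂.index = 6 ∧
      (¬ ∃ g : Equiv.Perm Ω, Subgroup.map (MulAut.conj g).toMonoidHom H₁ = H₂) ∧
      ∀ H : Subgroup (Equiv.Perm Ω), H.index = 6 →
        ∃ g : Equiv.Perm Ω, Subgroup.map (MulAut.conj g).toMonoidHom H₁ = H ∨ Subgroup.map (MulAut.conj g).toMonoidHom H₂ = H := by
  let e : Equiv.Perm (Fin 6) ≃* Equiv.Perm Ω := (Fintype.equivFinOfCardEq h6).symm.permCongrHom
  have hmap : ∀ (g : Equiv.Perm (Fin 6)) (K : Subgroup (Equiv.Perm (Fin 6))),
      Subgroup.map (MulAut.conj (e g)).toMonoidHom (K.map e.toMonoidHom)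
        = (Subgroup.map (MulAut.conj g).toMonoidHom K).map e.toMonoidHom := by
    intro g K
    rw [Subgroup.map_map, Subgroup.map_map]
    congr 1
    ext x : 1
    simp
  obtain ⟨H₁, H₂, h1, h2, hnc, hall⟩ := CfsgLib.SmallPerm.SymSix.two_classes
  refine ⟨H₁.map e.toMonoidHom, H₂.map e.toMonoidHom, (Subgroup.index_map_equiv H₁ e).trans h1,
    (Subgroup.index_map_equiv H₂ e).trans h2, ?_, fun H hH => ?_⟩
  · rintro ⟨g, hg⟩
    refine hnc ⟨e.symm g, ?_⟩
    apply Subgroup.map_injective (f := e.toMonoidHom) e.injective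
    rw [← hg, ← hmap, MulEquiv.apply_symm_apply]
  · obtain ⟨g, hg⟩ := hall (H.comap e.toMonoidHom)
      ((Subgroup.index_comap_of_surjective H e.surjective).trans hH)
    refine ⟨e g, ?_⟩
    rcases hg with hg | hg
    · left
      rw [hmap, hg]
      exact Subgroup.map_comap_eq_self_of_surjective e.surjective H
    · right
      rw [hmap, hg]
      exact Subgroup.map_comap_eq_self_of_surjective e.surjective H

end Cfsg.Agent.S5912
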