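import Cfsg.Statements.S5913
-- import your own Cfsg.Agent.* helpers here

set_option autoImplicit false
open Cfsg

namespace Cfsg.Agent.S5913

/-- Let S be a non-abelian simple group and n a natural number. Every normal subgroup N of the direct power S^n (functions Fin n → S) is a subproduct: there is a set T of coordinates such that N consists exactly of the elements whose coordinates outside T are trivial. In particular the minimal normal subgroups of S^n are its n factors. -/
theorem result {S : Type*} [Group S] [IsSimpleGroup S] (hS : ¬ IsMulCommutative S) (n : ℕ)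
    (N : Subgroup (Fin n → S)) [N.Normal] :
    ∃ T : Finset (Fin n), ∀ x : Fin n → S, x ∈ N ↔ ∀ i, i ∉ T → x i = 1 := by
  classical
  have hsingle : ∀ x ∈ N, ∀ i, x i ≠ 1 → ∀ s : S, Pi.mulSingle i s ∈ N := by
    intro x hx i hi
    set K : Subgroup S := N.comap (MonoidHom.mulSingle (fun _ : Fin n => S) i) with hK
    have hKn : K.Normal := Subgroup.Normal.comap inferInstance _
    obtain ⟨s, hs⟩ : ∃ s : S, s * x i * s⁻¹ * (x i)⁻¹ ≠ 1 := by
      by_contra hc
      push Not at hc
      apply hi
      have hmem : x i ∈ Subgroup.center S := Subgroup.mem_center_iff.mpr fun s => by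
        have := hc s
        rw [mul_inv_eq_one, mul_inv_eq_iff_eq_mul] at this
        exact this
      rcases (inferInstance : (Subgroup.center S).Normal).eq_bot_or_eq_top with h | h
      · rwa [h, Subgroup.mem_bot] at hmem
      · exact absurd ⟨⟨fun a b => (Subgroup.mem_center_iff.mp (h.ge (Subgroup.mem_top b)) a)⟩⟩ hS
    have hmemK : s * x i * s⁻¹ * (x i)⁻¹ ∈ K := by
      show Pi.mulSingle i _ ∈ N
      have : (Pi.mulSingle i (s * x i * s⁻¹ * (x i)⁻¹) : Fin n → S) =
          Pi.mulSingle i s * x * (Pi.mulSingle i s)⁻¹ * x⁻¹ := by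
        funext j
        rcases eq_or_ne j i with rfl | hj
        · simp
        · simp [hj]
      rw [this]
      exact N.mul_mem (Subgroup.Normal.conj_mem inferInstance x hx _) (N.inv_mem hx)
    intro t
    rcases hKn.eq_bot_or_eq_top with h | h
    · exact absurd (by rwa [h, Subgroup.mem_bot] at hmemK) hs
    · exact (h.ge (Subgroup.mem_top t) : t ∈ K)
  refine ⟨Finset.univ.filter fun i => ∃ x ∈ N, x i ≠ 1, fun x => ⟨fun hx i hi => ?_, fun hx => ?_⟩⟩
  · by_contra h
    exact hi (Finset.mem_filter.mpr ⟨Finset.mem_univ _, x, hx, h⟩)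
  · apply Subgroup.pi_mem_of_mulSingle_mem
    intro i
    by_cases hi : i ∈ Finset.univ.filter fun i => ∃ x ∈ N, x i ≠ 1
    · obtain ⟨-, y, hy, hyi⟩ := Finset.mem_filter.mp hi
      exact hsingle y hy i hyi _
    · simp [hx i hi, N.one_mem]

end Cfsg.Agent.S5913
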