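import Cfsg.Statements.S5914
import Cfsg.Agent.MinNormal.Structure

set_option autoImplicit false
open Cfsg

namespace Cfsg.Agent.S5914

/-- A non-trivial finite group G is characteristically simple (its only characteristic subgroups are 1 and G) if and only if G is isomorphic to a direct power S^n (n ≥ 1) of some simple group S (possibly cyclic of prime order). -/
theorem result {G : Type*} [Group G] [Finite G] [Nontrivial G] :
    (∀ H : Subgroup G, H.Characteristic → H = ⊥ ∨ H = ⊤) ↔
    ∃ (S : Type) (_ : Group S) (_ : IsSimpleGroup S) (n : ℕ), 1 ≤ n ∧ Nonempty (G ≃* (Fin n → S)) := by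
  constructor
  · intro h
    obtain ⟨T, iT, m, hT, hm, -, e⟩ := CfsgLib.MinNormal.exists_mulEquiv_pi_of_charSimple h
    exact ⟨T, iT, hT, m, hm, e⟩
  rintro ⟨S, _, hS, n, hn, ⟨e⟩⟩
  intro H hH
  classical
  haveI := hH
  set K : Subgroup (Fin n → S) := H.map (e : G →* (Fin n → S)) with hK
  have hKinv : ∀ σ : (Fin n → S) ≃* (Fin n → S), ∀ f ∈ K, σ f ∈ K := by
    rintro σ f ⟨x, hx, rfl⟩
    refine ⟨(e.trans (σ.trans e.symm)) x, ?_, by simp⟩
    have := Subgroup.characteristic_iff_map_eq.1 hH (e.trans (σ.trans e.symm))
    rw [← this]
    exact ⟨x, hx, rfl⟩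
  by_cases hbot : H = ⊥
  · exact Or.inl hbot
  refine Or.inr ?_
  suffices hK' : K = ⊤ by
    refine Subgroup.map_injective (f := (e : G →* (Fin n → S))) e.injective ?_
    rw [← hK, hK', Subgroup.map_top_of_surjective _ e.surjective]
  haveI : K.Normal := by
    haveI : H.Normal := inferInstance
    exact Subgroup.Normal.map inferInstance _ e.surjective
  let L : Fin n → Subgroup S := fun j => K.comap (MonoidHom.mulSingle (fun _ : Fin n => S) j)
  have hLn : ∀ j, (L j).Normal := fun j => ⟨fun x hx g => by
    show MonoidHom.mulSingle (fun _ : Fin n => S) j (g * x * g⁻¹) ∈ K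
    rw [map_mul, map_mul, map_inv]
    exact (inferInstance : K.Normal).conj_mem _ hx _⟩
  obtain ⟨x, hx, hx1⟩ := K.bot_or_exists_ne_one.resolve_left (fun h => hbot (by
    rw [← Subgroup.map_eq_bot_iff_of_injective H (f := (e : G →* (Fin n → S))) e.injective, ← hK, h]))
  obtain ⟨i, hi⟩ : ∃ i, x i ≠ 1 := by
    by_contra! h
    exact hx1 (funext h)
  obtain ⟨j, hj⟩ : ∃ j, L j ≠ ⊥ := by
    by_cases hc : ∀ a b : S, a * b = b * a
    · obtain ⟨j, hj⟩ | hone : (∃ j : Fin n, j ≠ i) ∨ ∀ j : Fin n, j = i := by
        by_cases h : ∃ j : Fin n, j ≠ i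
        · exact Or.inl h
        · push Not at h
          exact Or.inr h
      · refine ⟨j, fun h => hi ?_⟩
        let σ : (Fin n → S) ≃* (Fin n → S) :=
          { toFun := fun f => f * MonoidHom.mulSingle (fun _ : Fin n => S) j (f i)
            invFun := fun f => f * MonoidHom.mulSingle (fun _ : Fin n => S) j ((f i)⁻¹)
            left_inv := fun f => by
              ext k
              by_cases hk : k = j
              · subst hk; simp [Pi.mulSingle_eq_of_ne (Ne.symm hj)]
              · simp [hk]
            right_inv := fun f => by
              ext k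
              by_cases hk : k = j
              · subst hk; simp [Pi.mulSingle_eq_of_ne (Ne.symm hj)]
              · simp [hk]
            map_mul' := fun f g => by
              ext k
              by_cases hk : k = j
              · subst hk
                simp only [MonoidHom.mulSingle_apply, Pi.mul_apply, Pi.mulSingle_eq_same]
                calc f k * g k * (f i * g i) = f k * ((g k * f i) * g i) := by group
                  _ = f k * ((f i * g k) * g i) := by rw [hc (g k)]
                  _ = f k * f i * (g k * g i) := by group
              · simp [hk] }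
        have h' : x i ∈ L j := by
          show MonoidHom.mulSingle (fun _ : Fin n => S) j (x i) ∈ K
          have := K.mul_mem (K.inv_mem hx) (hKinv σ x hx)
          simpa [σ] using this
        rwa [h, Subgroup.mem_bot] at h'
      · refine ⟨i, fun h => hi ?_⟩
        have h' : x i ∈ L i := by
          show MonoidHom.mulSingle (fun _ : Fin n => S) i (x i) ∈ K
          convert hx
          ext k
          rw [hone k]
          simp
        rwa [h, Subgroup.mem_bot] at h'
    · refine ⟨i, fun h => hi ?_⟩
      have hcen : Subgroup.center S = ⊥ := (Subgroup.Normal.eq_bot_or_eq_top inferInstance).resolve_right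
        fun ht => hc fun a b => (Subgroup.mem_center_iff.1 (ht ▸ Subgroup.mem_top b) a)
      have : x i ∈ Subgroup.center S := Subgroup.mem_center_iff.2 fun y => by
        have h' : x i * y * (x i)⁻¹ * y⁻¹ ∈ L i := by
          show MonoidHom.mulSingle (fun _ : Fin n => S) i (x i * y * (x i)⁻¹ * y⁻¹) ∈ K
          set s := MonoidHom.mulSingle (fun _ : Fin n => S) i y with hs
          have := K.mul_mem hx ((inferInstance : K.Normal).conj_mem _ (K.inv_mem hx) s)
          convert this using 1
          ext k
          by_cases hk : k = i
          · subst hk; simp [hs, mul_assoc]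
          · simp [hs, hk]
        rw [h, Subgroup.mem_bot, mul_inv_eq_one, mul_inv_eq_iff_eq_mul] at h'
        exact h'.symm
      rwa [hcen, Subgroup.mem_bot] at this
  have hall : ∀ k, L k = ⊤ := by
    intro k
    rw [eq_top_iff]
    intro y _
    have hjy : y ∈ L j := by
      rw [(Subgroup.Normal.eq_bot_or_eq_top (hLn j)).resolve_left hj]; trivial
    let τ : (Fin n → S) ≃* (Fin n → S) :=
      { toFun := fun f l => f (Equiv.swap j k l)
        invFun := fun f l => f (Equiv.swap j k l)
        left_inv := fun f => by ext l; simp
        right_inv := fun f => by ext l; simp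
        map_mul' := fun f g => rfl }
    show MonoidHom.mulSingle (fun _ : Fin n => S) k y ∈ K
    convert hKinv τ _ hjy
    ext l
    simp only [τ, MonoidHom.mulSingle_apply, MulEquiv.coe_mk, Equiv.coe_fn_mk]
    simp [Pi.mulSingle_apply, Equiv.swap_apply_eq_iff]
  rw [eq_top_iff]
  intro f _
  exact Subgroup.pi_mem_of_mulSingle_mem f fun k => by
    have h := (hall k).symm ▸ Subgroup.mem_top (f k)
    exact h

end Cfsg.Agent.S5914
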