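import Cfsg.Statements.S5939
import Cfsg.Agent.Dickson.MaxPoly

set_option autoImplicit false
open Cfsg
open CfsgLib.Dickson Matrix
open scoped MatrixGroups commutatorElement

namespace Cfsg.Agent.S5939

/-- Let p be a prime and F a finite field of characteristic p such that either F has p elements and p ≡ ±1 (mod 10), or F has p² elements and p ≡ ±3 (mod 10). Then PSL_2(F) has a maximal subgroup isomorphic to the alternating group A_5. -/
theorem result {F : Type*} [Field F] [Fintype F] (p : ℕ) [Fact p.Prime] [CharP F p] (h : (Fintype.card F = p ∧ (p % 10 = 1 ∨ p % 10 = 9)) ∨ (Fintype.card F = p ^ 2 ∧ (p % 10 = 3 ∨ p % 10 = 7))) : ∃ H : Subgroup (Matrix.ProjectiveSpecialLinearGroup (Fin 2) F), IsCoatom H ∧ Nonempty (H ≃* alternatingGroup (Fin 5)) := by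
  classical
  have hp : p.Prime := Fact.out
  have hp2 : p ≠ 2 := by rintro rfl; rcases h with ⟨-, h | h⟩ | ⟨-, h | h⟩ <;> omega
  have hodd : Odd (Fintype.card F) := (odd_card_iff p).mpr hp2
  have h5 : 5 ∣ Fintype.card F * (Fintype.card F ^ 2 - 1) := by
    refine Dvd.dvd.mul_left (Nat.dvd_of_mod_eq_zero ?_) _
    suffices Fintype.card F ^ 2 % 5 = 1 by omega
    rcases h with ⟨hF, h⟩ | ⟨hF, h⟩
    · rw [hF, Nat.pow_mod]
      have : p % 5 = 1 ∨ p % 5 = 4 := by omega
      rcases this with h | h <;> rw [h]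
    · rw [hF, ← pow_mul, Nat.pow_mod]
      have : p % 5 = 2 ∨ p % 5 = 3 := by omega
      rcases this with h | h <;> rw [h]
  obtain ⟨H, ⟨i⟩⟩ := exists_psl_a5_of_odd (F := F) (CfsgLib.SL2.two_ne_zero_iff_odd.mpr hodd) h5
  have hH : Nat.card H = 60 := by rw [Nat.card_congr i.toEquiv, card_alt_five]
  have hq : 9 ≤ Fintype.card F := by
    rcases h with ⟨hF, h⟩ | ⟨hF, -⟩
    · have := hp.two_le
      rcases h with h | h <;> omega
    · have : 3 ≤ p := by have := hp.two_le; omega
      rw [hF]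
      exact Nat.pow_le_pow_left this 2
  refine ⟨H, ⟨fun htop => ?_, fun M hlt => ?_⟩, ⟨i⟩⟩
  · have h' := psl_card_mul_two hodd
    rw [htop, Subgroup.card_top] at hH
    rw [hH] at h'
    have : 9 * 80 ≤ Fintype.card F * (Fintype.card F ^ 2 - 1) := Nat.mul_le_mul hq (by
      have : 9 ^ 2 ≤ Fintype.card F ^ 2 := Nat.pow_le_pow_left hq 2
      omega)
    omega
  · obtain ⟨x, hx, y, hy, h1, h2, h3, h4⟩ := exists_poly_witness i
      ⟨Equiv.swap 0 1 * Equiv.swap 1 2, Equiv.Perm.mem_alternatingGroup.mpr (by decide)⟩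
      ⟨Equiv.swap 0 1 * Equiv.swap 1 3, Equiv.Perm.mem_alternatingGroup.mpr (by decide)⟩
      (by decide +kernel)
    have hdvd : 60 ∣ Nat.card M := hH ▸ Subgroup.card_dvd_of_le hlt.le
    have hne : Nat.card M ≠ 60 := fun h =>
      hlt.ne (Subgroup.eq_of_le_of_card_ge hlt.le (by omega))
    rcases poly_overgroup_cases p hp2 (hlt.le hx) (hlt.le hy) h1 h2 h3 h4 with
      ⟨-, h'⟩ | ⟨-, h'⟩ | ⟨-, h'⟩ | ⟨Q, m, hQm, hQ⟩
    · omega
    · omega
    · exact absurd h' hne
    · obtain ⟨k, hk, hk2⟩ : ∃ k, Fintype.card F = p ^ k ∧ (k = 1 ∨ (k = 2 ∧ (p % 10 = 3 ∨ p % 10 = 7))) := by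
        rcases h with ⟨hF, -⟩ | ⟨hF, h⟩
        · exact ⟨1, by rw [hF, pow_one], Or.inl rfl⟩
        · exact ⟨2, hF, Or.inr ⟨rfl, h⟩⟩
      have hm0 : m ≠ 0 := fun h0 => by
        rw [h0, pow_zero] at hQm
        exact Fintype.one_lt_card.ne hQm
      obtain ⟨f, -, rfl⟩ := (Nat.dvd_prime_pow hp).mp (hk ▸ hQm ▸ dvd_pow_self Q hm0)
      have hfm : f * m = k := by
        rw [hk, ← pow_mul] at hQm
        exact Nat.pow_right_injective hp.two_le hQm
      by_cases hm : m = 1
      · subst hm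
        rw [mul_one] at hfm
        rcases hQ with ⟨-, hev⟩ | ⟨-, hQ⟩
        · exact absurd (hev hp2) (by norm_num)
        · refine Subgroup.eq_top_of_card_eq _ ?_
          rw [hfm, ← hk, ← psl_card_mul_two hodd] at hQ
          omega
      · exfalso
        have hf : f = 1 ∧ (p % 10 = 3 ∨ p % 10 = 7) := by
          rcases hk2 with rfl | ⟨rfl, h⟩
          · exact absurd (Nat.eq_one_of_mul_eq_one_left hfm) hm
          · refine ⟨?_, h⟩
            rcases (Nat.dvd_prime Nat.prime_two).mp ⟨m, hfm.symm⟩ with h1 | h1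
            · exact h1
            · subst h1; omega
        obtain ⟨rfl, h10⟩ := hf
        rw [pow_one] at hQ
        have h5' : 5 ∣ p * (p ^ 2 - 1) := by
          rcases hQ with ⟨hQ, -⟩ | ⟨-, hQ⟩
          · rw [← hQ]; exact (show 5 ∣ 60 by norm_num).trans hdvd
          · rw [← hQ]; exact ((show 5 ∣ 60 by norm_num).trans hdvd).mul_right 2
        rcases (show Nat.Prime 5 by norm_num).dvd_mul.mp h5' with h' | h'
        · have := (Nat.prime_dvd_prime_iff_eq (by norm_num) hp).mp h'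
          omega
        · have h4 : p ^ 2 % 5 = 4 := by
            rw [Nat.pow_mod]
            have : p % 5 = 2 ∨ p % 5 = 3 := by omega
            rcases this with h | h <;> rw [h]
          omega

end Cfsg.Agent.S5939
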