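import Cfsg.Statements.S5946


set_option autoImplicit false
open Cfsg

namespace Cfsg.Agent.S5946

/-- Let F ⊆ K be finite fields with [K : F] = n ≥ 2 and regard K as an n-dimensional F-vector space. The Singer group M ≤ GL_F(K) of multiplications by the non-zero elements of K is self-centralizing: every F-linear automorphism of K commuting with all of M lies in M. -/
theorem result {F K : Type*} [Field F] [Fintype F] [Field K] [Fintype K] [Algebra F K] (n : ℕ) (hn : 2 ≤ n) (hdim : Module.finrank F K = n) :
    Subgroup.centralizer (((Units.map ((Algebra.lmul F K : K →ₐ[F] Module.End F K) : K →* Module.End F K)).range : Subgroup (Module.End F K)ˣ) : Set (Module.End F K)ˣ) = (Units.map ((Algebra.lmul F K : K →ₐ[F] Module.End F K) : K →* Module.End F K)).range := by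
  apply le_antisymm
  · intro g hg
    have hc : ∀ a x : K, (g : Module.End F K) (a * x) = a * (g : Module.End F K) x := by
      intro a x
      rcases eq_or_ne a 0 with rfl | ha
      · simp
      have h := congrArg (fun u : (Module.End F K)ˣ => (u : Module.End F K) x)
        (Subgroup.mem_centralizer_iff.mp hg _ ⟨Units.mk0 a ha, rfl⟩)
      simpa using h.symm
    have hg1 : (g : Module.End F K) 1 ≠ 0 := by
      intro h
      have h2 := congrArg ((g⁻¹ : (Module.End F K)ˣ) : Module.End F K) h
      rw [← Module.End.mul_apply, Units.inv_mul, map_zero] at h2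
      simp at h2
    refine ⟨Units.mk0 _ hg1, Units.ext ?_⟩
    ext x
    have := hc x 1
    rw [mul_one] at this
    simp [this, mul_comm]
  · rintro _ ⟨a, rfl⟩
    rw [Subgroup.mem_centralizer_iff]
    rintro _ ⟨b, rfl⟩
    rw [← map_mul, ← map_mul, mul_comm]

end Cfsg.Agent.S5946
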