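import Cfsg.Statements.S5947
import Cfsg.Agent.Classical.Semisimple.Singer

set_option autoImplicit false
open Cfsg

namespace Cfsg.Agent.S5947

/-- A proper prime power plus one is never a power of two. -/
theorem prime_of_pow_add_one_eq_two_pow {p f m : ℕ} (hp : p.Prime) (hf : 0 < f)
    (h : p ^ f + 1 = 2 ^ m) : f = 1 := by
  have hf0 : f ≠ 0 := by omega
  have hm : 2 ≤ m := by
    rcases Nat.lt_or_ge m 2 with hm | hm
    · have h1 : 2 ≤ p ^ f := hp.two_le.trans (Nat.le_self_pow hf0 p)
      interval_cases m <;> omega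
    · exact hm
  have h4 : 4 ∣ p ^ f + 1 := by
    rw [h]; exact dvd_trans (by norm_num) (pow_dvd_pow 2 hm)
  have hpodd : Odd p := by
    rcases hp.eq_two_or_odd' with rfl | h2
    · exfalso
      have : 2 ∣ 2 ^ f := dvd_pow_self 2 hf0
      omega
    · exact h2
  have hfodd : Odd f := by
    rcases Nat.even_or_odd f with ⟨t, rfl⟩ | h2
    · exfalso
      obtain ⟨k, hk⟩ := hpodd.pow (n := t)
      have h5 : p ^ (t + t) = 4 * (k * k + k) + 1 := by rw [pow_add, hk]; ring
      omega
    · exact h2
  have hgeo := geom_sum₂_mul (-(p : ℤ)) 1 f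
  simp only [one_pow, mul_one, hfodd.neg_pow] at hgeo
  set c : ℤ := ∑ i ∈ Finset.range f, (-(p : ℤ)) ^ i with hc
  have hcodd : Odd c := by
    rw [← ZMod.intCast_eq_one_iff_odd, hc, Int.cast_sum]
    have hp2 : ((p : ℤ) : ZMod 2) = 1 :=
      ZMod.intCast_eq_one_iff_odd.mpr (by exact_mod_cast hpodd)
    simp only [Int.cast_pow, Int.cast_neg, hp2, ZMod.neg_eq_self_mod_two, one_pow, Finset.sum_const,
      Finset.card_range, nsmul_eq_mul, mul_one]
    exact ZMod.natCast_eq_one_iff_odd.mpr hfodd
  have hcd : c * ((p : ℤ) + 1) = 2 ^ m := by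
    have h6 : ((p : ℤ) ^ f + 1) = 2 ^ m := by exact_mod_cast h
    rw [← h6]; linarith
  have hc1 : c.natAbs = 1 := by
    have h7 : c.natAbs ∣ 2 ^ m := by
      have := Int.natAbs_dvd_natAbs.mpr (Dvd.intro _ hcd)
      simpa [Int.natAbs_pow] using this
    obtain ⟨j, -, hj⟩ := (Nat.dvd_prime_pow Nat.prime_two).mp h7
    rcases Nat.eq_zero_or_pos j with rfl | hj0
    · simpa using hj
    · exfalso
      have h8 := Int.natAbs_odd.mpr hcodd
      rw [hj, Nat.odd_pow_iff hj0.ne'] at h8
      exact absurd h8 (by decide)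
  have hpf : (p : ℤ) ^ f = p := by
    have h6 : ((p : ℤ) ^ f + 1) = 2 ^ m := by exact_mod_cast h
    have h9 := congrArg Int.natAbs hcd
    rw [Int.natAbs_mul, hc1, one_mul, show ((p : ℤ) + 1) = ((p + 1 : ℕ) : ℤ) by push_cast; rfl,
      Int.natAbs_natCast, Int.natAbs_pow] at h9
    simp only [Int.reduceAbs] at h9
    have : p ^ f + 1 = p + 1 := h.trans h9.symm
    exact_mod_cast Nat.succ_injective this
  exact Nat.pow_eq_self_iff hp.one_lt |>.mp (by exact_mod_cast hpf)

open CfsgLib.Classical.Semisimple in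
/-- Let F ⊆ K be finite fields with |F| = q and [K : F] = n ≥ 2, regard K as an n-dimensional F-vector space, and let M ≤ GL_F(K) be the Singer group of multiplications by non-zero elements of K (cyclic of order q^n − 1). Assume (n, q) ≠ (6, 2), and that it is not the case that n = 2 with q a prime such that q + 1 is a power of 2. Then every abelian subgroup of GL_F(K) of order q^n − 1 is conjugate to M. -/
theorem result {F K : Type*} [Field F] [Fintype F] [Field K] [Fintype K] [Algebra F K] (n : ℕ) (hn : 2 ≤ n) (hdim : Module.finrank F K = n)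
    (hex1 : ¬ (n = 6 ∧ Fintype.card F = 2))
    (hex2 : ¬ (n = 2 ∧ (Fintype.card F).Prime ∧ ∃ a : ℕ, Fintype.card F + 1 = 2 ^ a))
    (U : Subgroup (Module.End F K)ˣ) (hU : IsMulCommutative U) (hcard : Nat.card U = Fintype.card K - 1) :
    ∃ g : (Module.End F K)ˣ, U.map (MulAut.conj g).toMonoidHom = (Units.map ((Algebra.lmul F K : K →ₐ[F] Module.End F K) : K →* Module.End F K)).range := by
  subst hdim
  obtain ⟨p, hp⟩ := CharP.exists F
  obtain ⟨f, hpp, hq⟩ := FiniteField.card F p
  obtain ⟨r, hr⟩ := CfsgLib.Zsigmondy.exists_isPPD (a := Fintype.card F)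
    (n := Module.finrank F K) Fintype.one_lt_card (by omega) (fun h => hex1 ⟨h.2, h.1⟩)
    (fun ⟨h2, m, hm⟩ => hex2 ⟨h2, by
      rw [hq] at hm ⊢
      rw [prime_of_pow_add_one_eq_two_pow hpp f.pos hm, pow_one]
      exact hpp, m, hm⟩)
  have := Fact.mk hr.prime
  have hq1 : 1 ≤ Fintype.card F := Fintype.card_pos
  have hn0 : 0 < Module.finrank F K := by omega
  have hrF : (r : F) ≠ 0 := by
    intro h
    have h1 := (CharP.cast_eq_zero_iff F p r).mp h
    have h2 := (Nat.prime_dvd_prime_iff_eq hpp hr.prime).mp h1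
    exact hr.not_dvd_base hq1 hn0 (hq ▸ h2 ▸ dvd_pow_self p f.ne_zero)
  have hcK : Fintype.card K = Fintype.card F ^ Module.finrank F K := Module.card_eq_pow_finrank
  have : Finite (Module.End F K) := Module.finite_of_finite F
  obtain ⟨u, hu⟩ := exists_prime_orderOf_dvd_card' (G := U) r (by
    rw [hcard, hcK]; exact hr.dvd)
  have hu1 : ((u : (Module.End F K)ˣ) : Module.End F K) ≠ 1 := by
    intro h
    have : u = 1 := Subtype.ext (Units.ext h)
    rw [this, orderOf_one] at hu
    exact hr.prime.one_lt.ne hu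
  have hur : ((u : (Module.End F K)ˣ) : Module.End F K) ^ r = 1 := by
    rw [← Units.val_pow_eq_pow_val, ← SubgroupClass.coe_pow, ← hu, pow_orderOf_eq_one]
    rfl
  obtain ⟨e, he⟩ := exists_conj_lmul (F := F) (r := r) (K := K) hrF (hr.orderOf_eq hq1 hn0) hur hu1
  let g : (Module.End F K)ˣ := ⟨e.toLinearMap, e.symm.toLinearMap,
    LinearMap.ext fun x => e.apply_symm_apply x, LinearMap.ext fun x => e.symm_apply_apply x⟩
  refine ⟨g, ?_⟩
  have hMcard : Nat.card (Units.map ((Algebra.lmul F K : K →ₐ[F] Module.End F K) :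
      K →* Module.End F K)).range = Fintype.card K - 1 := by
    rw [← Nat.card_congr (MonoidHom.ofInjective (f := Units.map ((Algebra.lmul F K :
      K →ₐ[F] Module.End F K) : K →* Module.End F K)) (fun a b h => Units.ext ?_)).toEquiv,
      Nat.card_units, Nat.card_eq_fintype_card]
    have := congrArg (fun w : (Module.End F K)ˣ => (w : Module.End F K) 1) h
    simpa using this
  refine Subgroup.eq_of_le_of_card_ge ?_ (le_of_eq ?_)
  · rintro _ ⟨w, hw, rfl⟩
    obtain ⟨a, ha⟩ := he (w : Module.End F K) (by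
      have h := congrArg (fun v : U => ((v : (Module.End F K)ˣ) : Module.End F K))
        (hU.is_comm.comm ⟨w, hw⟩ u)
      simpa using h)
    have hT : ∀ x, ((MulAut.conj g w : (Module.End F K)ˣ) : Module.End F K) x = a * x := fun x => by
      rw [MulAut.conj_apply, Units.val_mul, Units.val_mul, Module.End.mul_apply, Module.End.mul_apply]
      show e ((w : Module.End F K) (e.symm x)) = _
      rw [ha, LinearEquiv.apply_symm_apply]
    have ha0 : a ≠ 0 := by
      rintro rfl
      have h1 := congrArg (((MulAut.conj g w)⁻¹ : (Module.End F K)ˣ) : Module.End F K)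
        ((hT 1).trans (zero_mul 1))
      rw [← Module.End.mul_apply, Units.inv_mul, Module.End.one_apply, map_zero] at h1
      exact one_ne_zero h1
    exact ⟨Units.mk0 a ha0, Units.ext (LinearMap.ext fun x => (hT x).symm)⟩
  · rw [hMcard, Subgroup.card_map_of_injective (MulAut.conj g).injective, hcard]

end Cfsg.Agent.S5947
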