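import Cfsg.Statements.S5997
import Cfsg.Agent.Eq.Def_GeometricClasses

set_option autoImplicit false
open scoped MatrixGroups
open Cfsg

namespace Cfsg.Agent.S5997

variable {F : Type*} [Field F]

theorem cayley (A : Matrix (Fin 2) (Fin 2) F) :
    A * A = Matrix.trace A • A - Matrix.det A • (1 : Matrix (Fin 2) (Fin 2) F) := by
  ext i j
  fin_cases i <;> fin_cases j <;>
    simp [Matrix.mul_apply, Fin.sum_univ_two, Matrix.trace, Matrix.det_fin_two] <;> ring

theorem lin_nonscalar (A : Matrix (Fin 2) (Fin 2) F) (hA : ∀ z : F, A ≠ z • 1) (u v : F)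
    (h : u • A = v • (1 : Matrix (Fin 2) (Fin 2) F)) : u = 0 ∧ v = 0 := by
  by_cases hu : u = 0
  · subst hu
    have := congrFun (congrFun h 0) 0
    simp at this
    exact ⟨rfl, this.symm⟩
  · exfalso
    apply hA (u⁻¹ * v)
    rw [← smul_smul, ← h, smul_smul, inv_mul_cancel₀ hu, one_smul]

theorem cross_eq {a b c x y z u v w : F} (h : a ≠ 0 ∨ b ≠ 0 ∨ c ≠ 0)
    (h1 : x * b = a * y) (h2 : x * c = a * z) (h3 : y * c = b * z)
    (k1 : u * b = a * v) (k2 : u * c = a * w) (k3 : v * c = b * w) :
    x * v = y * u ∧ x * w = z * u ∧ y * w = z * v := by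
  rcases h with h | h | h <;> refine ⟨?_, ?_, ?_⟩ <;> apply mul_left_cancel₀ h
  · linear_combination u * h1 - x * k1
  · linear_combination u * h2 - x * k2
  · linear_combination -w * h1 + v * h2 - x * k3
  · linear_combination v * h1 - y * k1
  · linear_combination w * h1 + u * h3 - y * k2
  · linear_combination v * h3 - y * k3
  · linear_combination v * h2 - u * h3 - z * k1
  · linear_combination w * h2 - z * k2
  · linear_combination w * h3 - z * k3

theorem commutant (A X Y : Matrix (Fin 2) (Fin 2) F) (hA : ∀ z : F, A ≠ z • 1)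
    (hX : X * A = A * X) (hY : Y * A = A * Y) : X * Y = Y * X := by
  have x00 := congrFun (congrFun hX 0) 0
  have x01 := congrFun (congrFun hX 0) 1
  have x10 := congrFun (congrFun hX 1) 0
  have y00 := congrFun (congrFun hY 0) 0
  have y01 := congrFun (congrFun hY 0) 1
  have y10 := congrFun (congrFun hY 1) 0
  simp only [Matrix.mul_apply, Fin.sum_univ_two] at x00 x01 x10 y00 y01 y10
  have hne : A 0 1 ≠ 0 ∨ A 1 0 ≠ 0 ∨ A 0 0 - A 1 1 ≠ 0 := by
    by_contra h
    push_neg at h
    apply hA (A 0 0)
    ext i j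
    fin_cases i <;> fin_cases j <;> simp [h.1, h.2.1]
    exact (sub_eq_zero.1 h.2.2).symm
  obtain ⟨e1, e2, e3⟩ := cross_eq (x := X 0 1) (y := X 1 0) (z := X 0 0 - X 1 1)
    (u := Y 0 1) (v := Y 1 0) (w := Y 0 0 - Y 1 1) hne
    (by linear_combination x00) (by linear_combination -x01) (by linear_combination x10)
    (by linear_combination y00) (by linear_combination -y01) (by linear_combination y10)
  ext i j
  fin_cases i <;> fin_cases j <;> simp [Matrix.mul_apply, Fin.sum_univ_two]
  · linear_combination e1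
  · linear_combination -e2
  · linear_combination e3
  · linear_combination -e1

theorem binary_represents_one [Fintype F] (h2 : ringChar F ≠ 2) (al be ga : F)
    (hD : be ^ 2 - 4 * al * ga ≠ 0) : ∃ x y : F, al * x ^ 2 + be * x * y + ga * y ^ 2 = 1 := by
  by_cases hal : al = 0
  · subst hal
    have hbe : be ≠ 0 := by intro h; simp [h] at hD
    refine ⟨(1 - ga) / be, 1, ?_⟩
    field_simp
    ring
  · have h2' : (2 : F) ≠ 0 := Ring.two_ne_zero h2
    obtain ⟨u, y, huy⟩ := FiniteField.exists_root_sum_quadratic (R := F)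
      (f := Polynomial.X ^ 2) (g := Polynomial.C (-(be ^ 2 - 4 * al * ga)) * Polynomial.X ^ 2 +
        Polynomial.C 0 * Polynomial.X + Polynomial.C (-(4 * al)))
      (Polynomial.degree_X_pow 2) (Polynomial.degree_quadratic (neg_ne_zero.2 hD))
      (FiniteField.odd_card_of_char_ne_two h2)
    simp only [Polynomial.eval_add, Polynomial.eval_mul, Polynomial.eval_C, Polynomial.eval_X,
      Polynomial.eval_pow, zero_mul, add_zero] at huy
    refine ⟨(u - be * y) / (2 * al), y, ?_⟩
    field_simp
    linear_combination huy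

theorem exists_companion [Fintype F] (h2 : ringChar F ≠ 2) (A : Matrix (Fin 2) (Fin 2) F)
    (hdet : A.det = 1) (hD : A.trace ^ 2 - 4 ≠ 0) :
    ∃ g : GL (Fin 2) F, g ∈ Geo.specialLinear (Fin 2) F ∧
      A * (g : Matrix (Fin 2) (Fin 2) F) =
        (g : Matrix (Fin 2) (Fin 2) F) * !![0, -1; 1, A.trace] := by
  rw [Matrix.det_fin_two] at hdet
  have htr : A.trace = A 0 0 + A 1 1 := by simp [Matrix.trace, Fin.sum_univ_two]
  obtain ⟨x, y, hxy⟩ := binary_represents_one h2 (A 1 0) (A 1 1 - A 0 0) (-(A 0 1)) (by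
    intro h; apply hD; rw [htr]; linear_combination h + 4 * hdet)
  let M : Matrix (Fin 2) (Fin 2) F :=
    !![x, A 0 0 * x + A 0 1 * y; y, A 1 0 * x + A 1 1 * y]
  have hM : M.det = 1 := by
    simp [M, Matrix.det_fin_two]
    linear_combination hxy
  refine ⟨Matrix.GeneralLinearGroup.mkOfDetNeZero M (by simp [hM]), ?_, ?_⟩
  · rw [Geo.specialLinear, MonoidHom.mem_ker]
    exact Units.ext (by simpa using hM)
  · show A * M = M * !![0, -1; 1, A.trace]
    rw [htr]
    ext i j
    fin_cases i <;> fin_cases j <;> simp [M, Matrix.mul_apply, Fin.sum_univ_two]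
    · linear_combination -(x * hdet)
    · linear_combination -(y * hdet)

theorem conj_of_trace_eq [Fintype F] (h2 : ringChar F ≠ 2) (A B : GL (Fin 2) F)
    (hA : A ∈ Geo.specialLinear (Fin 2) F) (hB : B ∈ Geo.specialLinear (Fin 2) F)
    (ht : Matrix.trace (A : Matrix (Fin 2) (Fin 2) F) = Matrix.trace (B : Matrix (Fin 2) (Fin 2) F))
    (hD : Matrix.trace (A : Matrix (Fin 2) (Fin 2) F) ^ 2 - 4 ≠ 0) :
    ∃ g ∈ Geo.specialLinear (Fin 2) F, g⁻¹ * A * g = B := by
  rw [Geo.specialLinear, MonoidHom.mem_ker] at hA hB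
  obtain ⟨a, ha, hA'⟩ := exists_companion h2 (A : Matrix (Fin 2) (Fin 2) F)
    (by simpa using congrArg Units.val hA) hD
  obtain ⟨b, hb, hB'⟩ := exists_companion h2 (B : Matrix (Fin 2) (Fin 2) F)
    (by simpa using congrArg Units.val hB) (ht ▸ hD)
  refine ⟨a * b⁻¹, mul_mem ha (inv_mem hb), ?_⟩
  rw [ht] at hA'
  have key : a⁻¹ * A * a = b⁻¹ * B * b := by
    apply Units.ext
    simp only [Units.val_mul, mul_assoc, hA', hB', Units.inv_mul_cancel_left]
  have : (a * b⁻¹)⁻¹ * A * (a * b⁻¹) = b * (a⁻¹ * A * a) * b⁻¹ := by group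
  rw [this, key]; group

theorem ne_scalar_of_not_comm (A B : Matrix (Fin 2) (Fin 2) F) (h : A * B ≠ B * A) (z : F) :
    A ≠ z • 1 := by
  intro hA; apply h; simp [hA]

theorem trace_det_of_sq_neg_one (A : Matrix (Fin 2) (Fin 2) F) (hA : ∀ z : F, A ≠ z • 1)
    (h : A * A = -1) : A.trace = 0 ∧ A.det = 1 := by
  have hc := cayley A
  rw [h] at hc
  have h1 : A.trace • A = (A.det - 1) • (1 : Matrix (Fin 2) (Fin 2) F) := by
    rw [sub_smul, one_smul]
    exact eq_sub_of_add_eq (by rw [← sub_eq_zero]; linear_combination (norm := abel) hc.symm)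
  obtain ⟨e1, e2⟩ := lin_nonscalar A hA _ _ h1
  exact ⟨e1, sub_eq_zero.1 e2⟩

/-- The endomorphism candidate of the quaternion group determined by the images of the two
standard generators. -/
def quatMap (P Q : QuaternionGroup 2) : QuaternionGroup 2 → QuaternionGroup 2
  | .a i => P ^ i.val
  | .xa i => Q * P ^ i.val

theorem quatMap_iterate :
    ∀ P Q : QuaternionGroup 2, P ^ 2 ≠ 1 → Q * Q = P * P → P * Q ≠ Q * P →
      ∀ w, (quatMap P Q)^[12] w = w := by
  decide +kernel

theorem mulAut_quat_pow (σ : MulAut (QuaternionGroup 2)) : σ ^ 12 = 1 := by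
  set P := σ (.a 1) with hP
  set Q := σ (.xa 0) with hQ
  have e : ⇑σ = quatMap P Q := by
    funext w
    rcases w with i | i
    · have : (QuaternionGroup.a i : QuaternionGroup 2) = .a 1 ^ i.val := by
        revert i; decide +kernel
      conv_lhs => rw [this, map_pow]
      rfl
    · have : (QuaternionGroup.xa i : QuaternionGroup 2) = .xa 0 * .a 1 ^ i.val := by
        revert i; decide +kernel
      conv_lhs => rw [this, map_mul, map_pow]
      rfl
  have h := quatMap_iterate P Q
    (by rw [hP, ← map_pow]; intro h; exact absurd (σ.injective (h.trans (map_one σ).symm)) (by decide +kernel))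
    (by rw [hP, hQ, ← map_mul, ← map_mul]; exact congrArg σ (by decide +kernel))
    (by rw [hP, hQ, ← map_mul, ← map_mul]; intro h; exact absurd (σ.injective h) (by decide +kernel))
  have hpow : ∀ k w, (σ ^ k : MulAut (QuaternionGroup 2)) w = (quatMap P Q)^[k] w := by
    intro k
    induction k with
    | zero => intro w; rfl
    | succ k ih => intro w; rw [pow_succ', MulAut.mul_apply, ih, Function.iterate_succ_apply', ← e]
  ext w
  rw [hpow, h]
  rfl

/-- Elements of prime order of PSL_2(p) and the normalizer of a quaternion subgroup. Here `T = PSL_2(F)` for the field `F` with `p` elements, `p ≥ 5` prime; `R` is a subgroup of GL_2(F) isomorphic to the quaternion group of order 8 (an absolutely irreducible 2-group of symplectic type), and `H` is the subgroup of matrices of determinant 1 normalizing `R` — a subgroup of type 2^{1+2}.O₂⁻(2), isomorphic modulo scalars to A₄ or S₄ (maximality is not assumed). Ω is the set of cosets of `H` in `T`, so an element of `T` of prime order `r` (a matrix `x` of determinant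 1 with `x^r` scalar, `x` not scalar) fixes a point of Ω exactly when some conjugate of `x` by a matrix of determinant 1 normalizes `R`. Let `r` be a prime dividing the index of `H`. Then every element of `T` of order `r` fixes a point of Ω if and only if `r = 2` or `r = 3`. -/
theorem result {F : Type*} [Field F] [Fintype F] {p : ℕ} [Fact p.Prime] [CharP F p] (hF : Fintype.card F = p) (hp : 5 ≤ p)
    (R : Subgroup (GL (Fin 2) F)) (hR : Nonempty (↥R ≃* QuaternionGroup 2))
    (r : ℕ) [Fact r.Prime]
    (hΩ : r ∣ (Cfsg.Geo.subgroupNormalizer R).relIndex (Cfsg.Geo.specialLinear (Fin 2) F)) :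
    (∀ x ∈ Cfsg.Geo.specialLinear (Fin 2) F, (∃ z : F, ((x ^ r : GL (Fin 2) F) : Matrix (Fin 2) (Fin 2) F) = z • (1 : Matrix (Fin 2) (Fin 2) F)) →
      (∀ z : F, (x : Matrix (Fin 2) (Fin 2) F) ≠ z • (1 : Matrix (Fin 2) (Fin 2) F)) →
      ∃ g ∈ Cfsg.Geo.specialLinear (Fin 2) F, g⁻¹ * x * g ∈ Cfsg.Geo.subgroupNormalizer R) ↔ (r = 2 ∨ r = 3) := by
  classical
  have _ := hF
  have hr : r.Prime := Fact.out
  have h2 : ringChar F ≠ 2 := by rw [ringChar.eq F p]; omega
  have h2F : (2 : F) ≠ 0 := Ring.two_ne_zero h2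
  have h3F : (3 : F) ≠ 0 := by
    intro h
    have : p ∣ 3 := (CharP.cast_eq_zero_iff F p 3).1 (by exact_mod_cast h)
    have := Nat.le_of_dvd (by norm_num) this
    omega
  obtain ⟨e⟩ := hR
  set I : GL (Fin 2) F := ((e.symm (.a 1) : R) : GL (Fin 2) F) with hIdef
  set J : GL (Fin 2) F := ((e.symm (.xa 0) : R) : GL (Fin 2) F) with hJdef
  have hImem : I ∈ R := (e.symm (.a 1)).2
  have hJmem : J ∈ R := (e.symm (.xa 0)).2
  let f : QuaternionGroup 2 →* GL (Fin 2) F := R.subtype.comp e.symm.toMonoidHom
  have finj : Function.Injective f := R.subtype_injective.comp e.symm.injective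
  have hIJ : I * J ≠ J * I := by
    show f _ * f _ ≠ f _ * f _
    rw [← map_mul, ← map_mul]
    exact fun h => absurd (finj h) (by decide +kernel)
  have hJJ : J * J = I * I := by
    show f _ * f _ = f _ * f _
    rw [← map_mul, ← map_mul]
    exact congrArg f (by decide +kernel)
  have hI4 : (I * I) * (I * I) = 1 := by
    show (f _ * f _) * (f _ * f _) = 1
    rw [← map_mul, ← map_mul, ← map_one f]
    exact congrArg f (by decide +kernel)
  have hJI : J * I = (I * I) * (I * J) := by
    show f _ * f _ = (f _ * f _) * (f _ * f _)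
    simp only [← map_mul]
    exact congrArg f (by decide +kernel)
  have hI2ne : I * I ≠ 1 := by
    show f _ * f _ ≠ 1
    rw [← map_mul, ← map_one f]
    exact fun h => absurd (finj h) (by decide +kernel)
  set i : Matrix (Fin 2) (Fin 2) F := (I : Matrix (Fin 2) (Fin 2) F) with hidef
  set j : Matrix (Fin 2) (Fin 2) F := (J : Matrix (Fin 2) (Fin 2) F) with hjdef
  have hij : i * j ≠ j * i := fun h => hIJ (Units.ext h)
  have hii : i * i = -1 := by
    have hs2 : (i * i) * (i * i) = 1 := congrArg Units.val hI4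
    have hsI : i * (i * i) = (i * i) * i := (mul_assoc _ _ _).symm
    have hsJ : j * (i * i) = (i * i) * j := by
      rw [← show j * j = i * i from congrArg Units.val hJJ, mul_assoc]
    by_contra hne
    refine hij (commutant (i * i) i j ?_ hsI hsJ)
    intro z hz
    have hzz : z * z = 1 := by
      have := hs2
      rw [hz] at this
      have := congrFun (congrFun this 0) 0
      simpa using this
    rcases mul_self_eq_one_iff.1 hzz with h | h
    · apply hI2ne; apply Units.ext
      show i * i = 1
      rw [hz, h, one_smul]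
    · apply hne; rw [hz, h, neg_one_smul]
  have hjj : j * j = -1 := (congrArg Units.val hJJ).trans hii
  have hji : j * i = -(i * j) := by
    have h : j * i = (i * i) * (i * j) := congrArg Units.val hJI
    rw [h, hii, neg_one_mul]
  have hijij : (i * j) * (i * j) = -1 := by
    rw [mul_assoc, ← mul_assoc j, hji, neg_mul, mul_neg, mul_assoc i j j, hjj]
    simp [hii]
  have hkns : ∀ z : F, i * j ≠ z • 1 := ne_scalar_of_not_comm _ i (by
    intro h
    have e1 : i * j * i = j := by
      rw [mul_assoc, hji, mul_neg, ← mul_assoc, hii, neg_one_mul, neg_neg]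
    have e2 : i * (i * j) = -j := by rw [← mul_assoc, hii, neg_one_mul]
    rw [e1, e2] at h
    have hj0 : (2 : F) • j = 0 := by rw [two_smul]; nth_rw 1 [h]; exact neg_add_cancel j
    have hj00 : j = 0 := (smul_eq_zero.1 hj0).resolve_left h2F
    apply hij
    rw [hj00, mul_zero, zero_mul])
  have ti := trace_det_of_sq_neg_one i (ne_scalar_of_not_comm i j hij) hii
  have tj := trace_det_of_sq_neg_one j (ne_scalar_of_not_comm j i (Ne.symm hij)) hjj
  have tk := trace_det_of_sq_neg_one (i * j) hkns hijij
  have hISL : I ∈ Geo.specialLinear (Fin 2) F := by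
    rw [Geo.specialLinear, MonoidHom.mem_ker]; exact Units.ext (by simpa using ti.2)
  have hIN : I ∈ Geo.subgroupNormalizer R := Subgroup.le_normalizer hImem
  -- the element of order three
  set w : Matrix (Fin 2) (Fin 2) F := (2 : F)⁻¹ • (1 + i + j + i * j) with hw
  have htw : w.trace = 1 := by
    rw [hw, Matrix.trace_smul, Matrix.trace_add, Matrix.trace_add, Matrix.trace_add, ti.1, tj.1, tk.1,
      Matrix.trace_one]
    simp [h2F]
  have hwi : w * i = j * w := by
    simp only [hw, smul_mul_assoc, mul_smul_comm]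
    congr 1
    simp only [add_mul, mul_add, one_mul, mul_one, hii, hjj, mul_assoc, hji, mul_neg]
    simp only [← mul_assoc, hii, hjj, hji]
    simp only [neg_mul, one_mul, mul_assoc, hjj, mul_neg, mul_one]
    abel
  have hwj : w * j = (i * j) * w := by
    simp only [hw, smul_mul_assoc, mul_smul_comm]
    congr 1
    simp only [add_mul, mul_add, one_mul, mul_one, hjj, hijij, mul_assoc, hji, mul_neg]
    simp only [← mul_assoc, hii, hjj, hji]
    simp only [neg_mul, one_mul, mul_assoc, hjj, mul_neg, mul_one, neg_neg]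
    abel
  have hww : w * w = w - 1 := by
    have h22 : (2 : F)⁻¹ * 2⁻¹ * 2 = 2⁻¹ := by field_simp
    have h1 : (1 : Matrix (Fin 2) (Fin 2) F) = ((2 : F)⁻¹ * 2⁻¹) • ((4 : F) • 1) := by
      have h14 : (2 : F)⁻¹ * 2⁻¹ * 4 = 1 := by field_simp; norm_num
      rw [smul_smul, h14, one_smul]
    have h3 : (1 + i + j + i * j) * (1 + i + j + i * j) =
        (2 : F) • (1 + i + j + i * j) - (4 : F) • 1 := by
      simp only [add_mul, mul_add, one_mul, mul_one, hii, hjj, hijij]
      simp only [← mul_assoc, hii, hjj, hji]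
      simp only [neg_mul, one_mul, mul_assoc, hii, hjj, hji, mul_neg, mul_one, neg_neg]
      simp only [← mul_assoc, hii, hjj, hji, neg_mul, one_mul, neg_neg]
      module
    rw [hw, smul_mul_smul_comm, h3, smul_sub, smul_smul, h22, ← h1]
  have hwdet : w.det = 1 := by
    have hc := cayley w
    rw [hww, htw, one_smul] at hc
    have := congrFun (congrFun (sub_right_injective hc) 0) 0
    simpa using this.symm
  let W : GL (Fin 2) F := Matrix.GeneralLinearGroup.mkOfDetNeZero w (by simp [hwdet])
  have hWSL : W ∈ Geo.specialLinear (Fin 2) F := by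
    rw [Geo.specialLinear, MonoidHom.mem_ker]; exact Units.ext (by simpa [W] using hwdet)
  have hWN : W ∈ Geo.subgroupNormalizer R := by
    have hWI : W * I * W⁻¹ = J := mul_inv_eq_of_eq_mul (Units.ext hwi)
    have hWJ : W * J * W⁻¹ = I * J := mul_inv_eq_of_eq_mul (Units.ext hwj)
    have hgen : ∀ h ∈ R, W * h * W⁻¹ ∈ R := by
      intro h hh
      have hq : ∀ q, f q ∈ R.comap (MulAut.conj W).toMonoidHom := by
        have a1 : f (.a 1) ∈ R.comap (MulAut.conj W).toMonoidHom := by
          show W * I * W⁻¹ ∈ R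
          rw [hWI]; exact hJmem
        have x0 : f (.xa 0) ∈ R.comap (MulAut.conj W).toMonoidHom := by
          show W * J * W⁻¹ ∈ R
          rw [hWJ]; exact mul_mem hImem hJmem
        intro q
        rcases q with k | k
        · have : (QuaternionGroup.a k : QuaternionGroup 2) = .a 1 ^ k.val := by
            revert k; decide +kernel
          rw [this, map_pow]; exact pow_mem a1 _
        · have : (QuaternionGroup.xa k : QuaternionGroup 2) = .xa 0 * .a 1 ^ k.val := by
            revert k; decide +kernel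
          rw [this, map_mul, map_pow]; exact mul_mem x0 (pow_mem a1 _)
      have := hq (e ⟨h, hh⟩)
      simpa [f] using this
    exact Subgroup.mem_normalizer_fintype hgen
  constructor
  · -- only 2 and 3
    intro H
    by_contra hne
    push_neg at hne
    have hrdvd : r ∣ Nat.card (Geo.specialLinear (Fin 2) F) :=
      hΩ.trans (Subgroup.relIndex_dvd_card _ _)
    obtain ⟨⟨x, hxSL⟩, hx⟩ := exists_prime_orderOf_dvd_card' r hrdvd
    rw [Subgroup.orderOf_mk] at hx
    have hxdet : (x : Matrix (Fin 2) (Fin 2) F).det = 1 := by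
      rw [Geo.specialLinear, MonoidHom.mem_ker] at hxSL
      simpa using congrArg Units.val hxSL
    have hxr : x ^ r = 1 := by rw [← hx]; exact pow_orderOf_eq_one x
    have hxns : ∀ z : F, (x : Matrix (Fin 2) (Fin 2) F) ≠ z • 1 := by
      intro z hz
      rw [hz] at hxdet
      simp [Matrix.det_smul, ← sq] at hxdet
      have hx2 : x ^ 2 = 1 := by
        apply Units.ext
        rw [Units.val_pow_eq_pow_val, hz, smul_pow, one_pow]
        rcases hxdet with h | h <;> simp [h]
      have := orderOf_dvd_of_pow_eq_one hx2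
      rw [hx] at this
      exact hne.1 ((Nat.prime_dvd_prime_iff_eq hr Nat.prime_two).1 this)
    obtain ⟨g, -, hg⟩ := H x hxSL ⟨1, by rw [hxr]; simp⟩ hxns
    set y := g⁻¹ * x * g with hy
    have hyr : y ^ r = 1 := by
      rw [hy, show g⁻¹ * x * g = g⁻¹ * x * g⁻¹⁻¹ by rw [inv_inv], conj_pow, hxr]; group
    let φ : ↥(Subgroup.normalizer (R : Set (GL (Fin 2) F))) →* MulAut (QuaternionGroup 2) :=
      (MulAut.congr e).toMonoidHom.comp R.normalizerMonoidHom
    have hφ : φ ⟨y, hg⟩ = 1 := by
      have a : φ ⟨y, hg⟩ ^ r = 1 := by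
        rw [← map_pow]
        have : (⟨y, hg⟩ : ↥(Subgroup.normalizer (R : Set (GL (Fin 2) F)))) ^ r = 1 := Subtype.ext (by simpa using hyr)
        rw [this, map_one]
      have b := mulAut_quat_pow (φ ⟨y, hg⟩)
      have hco : Nat.gcd r 12 = 1 := by
        refine (Nat.Prime.coprime_iff_not_dvd hr).2 ?_
        intro h
        have h' : r ∣ 2 * 2 * 3 := h
        rcases (Nat.Prime.dvd_mul hr).1 h' with h'' | h''
        · rcases (Nat.Prime.dvd_mul hr).1 h'' with h3 | h3 <;>
            exact hne.1 ((Nat.prime_dvd_prime_iff_eq hr Nat.prime_two).1 h3)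
        · exact hne.2 ((Nat.prime_dvd_prime_iff_eq hr Nat.prime_three).1 h'')
      have := pow_gcd_eq_one.2 ⟨a, b⟩
      rwa [hco, pow_one] at this
    have hcomm : ∀ h (hh : h ∈ R), y * h = h * y := by
      intro h hh
      have := congrArg (fun σ : MulAut (QuaternionGroup 2) => σ (e ⟨h, hh⟩)) hφ
      simp [φ] at this
      have := congrArg Subtype.val this
      simp at this
      exact mul_inv_eq_iff_eq_mul.1 this
    have hyns : ∀ z : F, (y : Matrix (Fin 2) (Fin 2) F) ≠ z • 1 := by
      intro z hz
      apply hxns z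
      have hxy : x = g * y * g⁻¹ := by rw [hy]; group
      rw [hxy, Units.val_mul, Units.val_mul, hz]
      simp
    exact hij (commutant _ i j hyns
      (congrArg Units.val (hcomm I hImem)).symm (congrArg Units.val (hcomm J hJmem)).symm)
  · intro h x hx ⟨z, hz⟩ hns
    have hxdet : (x : Matrix (Fin 2) (Fin 2) F).det = 1 := by
      have hx' := hx
      rw [Geo.specialLinear, MonoidHom.mem_ker] at hx'
      simpa using congrArg Units.val hx'
    set X : Matrix (Fin 2) (Fin 2) F := (x : Matrix (Fin 2) (Fin 2) F) with hX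
    set t := X.trace with ht
    have hc : X * X = t • X - 1 := by rw [cayley X, hxdet, one_smul]
    rw [Units.val_pow_eq_pow_val, ← hX] at hz
    have finish : ∀ y : GL (Fin 2) F, y ∈ Geo.specialLinear (Fin 2) F →
        y ∈ Geo.subgroupNormalizer R → Matrix.trace (y : Matrix (Fin 2) (Fin 2) F) = t →
        t ^ 2 - 4 ≠ 0 →
        ∃ g ∈ Geo.specialLinear (Fin 2) F, g⁻¹ * x * g ∈ Geo.subgroupNormalizer R := by
      intro y hy hyN hyt hD
      obtain ⟨g, hg, hgy⟩ := conj_of_trace_eq h2 x y hx hy hyt.symm hD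
      exact ⟨g, hg, hgy ▸ hyN⟩
    have hD0 : (0 : F) ^ 2 - 4 ≠ 0 := by
      rw [show (0 : F) ^ 2 - 4 = -(2 * 2) by ring]
      exact neg_ne_zero.2 (mul_ne_zero h2F h2F)
    have hD1 : (1 : F) - 4 ≠ 0 := by
      rw [show (1 : F) - 4 = -3 by ring]; exact neg_ne_zero.2 h3F
    rcases h with rfl | rfl
    · rw [pow_two, hc] at hz
      obtain ⟨e1, -⟩ := lin_nonscalar X hns t (z + 1) (by rw [add_smul, one_smul, ← hz]; abel)
      exact finish I hISL hIN (by rw [e1]; exact ti.1) (by rw [e1]; exact hD0)
    · rw [pow_succ, pow_two, hc, sub_mul, smul_mul_assoc, hc, one_mul, smul_sub, smul_smul] at hz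
      obtain ⟨e1, -⟩ := lin_nonscalar X hns (t * t - 1) (z + t) (by
        rw [add_smul, sub_smul, one_smul, ← hz]; abel)
      rcases mul_self_eq_one_iff.1 (sub_eq_zero.1 e1) with h1 | h1
      · exact finish W hWSL hWN (by rw [h1]; simpa [W] using htw) (by rw [h1, one_pow]; exact hD1)
      · refine finish (I * I * W) (mul_mem (mul_mem hISL hISL) hWSL) (mul_mem (mul_mem hIN hIN) hWN) ?_ ?_
        · rw [h1, Units.val_mul, Units.val_mul, ← hidef, hii]
          simp [W, htw]
        · rw [h1, neg_one_sq]; exact hD1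

end Cfsg.Agent.S5997
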